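import Cfsg.Statements.S4446
import Cfsg.Agent.BLK.GCanon

set_option autoImplicit false
open Cfsg

namespace Cfsg.Agent.S4446


/-- Let the finite group Γ be generated by a normal subgroup G and a cyclic subgroup S of coprime orders, C = G ⊓ C(S), and let χ be an S-invariant irreducible character of G with canonical extension χ̂ to Γ (the extension whose determinantal order is coprime to the order of S). Then there are exactly one irreducible character β of C and one sign ε such that χ̂(c s) = ε β(c) for every c ∈ C and every generator s of S; this β is a constituent of the restriction of χ to C; distinct S-invariant χ give distinct β; and every irreducible character of C arises in this way. -/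
theorem result {Γ : Type*} [Group Γ] [Fintype Γ] (G S : Subgroup Γ) [Fintype G] (hnorm : ∀ s ∈ S, ∀ g ∈ G, s * g * s⁻¹ ∈ G) (hcop : (Nat.card G).Coprime (Nat.card S)) (htop : G ⊔ S = ⊤) (hcyc : IsCyclic S) (C : Subgroup Γ) [Fintype C] (hC : C = G ⊓ Subgroup.centralizer (S : Set Γ)) (hCG : C ≤ G) : (∀ (χ : Cfsg.IrrCharacter G) (χh : Cfsg.IrrCharacter Γ), (∀ s ∈ S, ∀ g g' : G, (g' : Γ) = s * g * s⁻¹ → (χ : G → ℂ) g' = (χ : G → ℂ) g) → (∀ g : G, (χh : Γ → ℂ) g = (χ : G → ℂ) g) → (Cfsg.detOrder (χh : Γ → ℂ)).Coprime (Nat.card S) → (∃! βε : Cfsg.IrrCharacter C × ℤ, (βε.2 = 1 ∨ βε.2 = -1) ∧ ∀ c : C, ∀ s : Γ, Subgroup.zpowers s = S → (χh : Γ → ℂ) ((c : Γ) * s) = (βε.2 : ℂ) * (βε.1 : C → ℂ) c) ∧ ∀ β : Cfsg.IrrCharacter C, ∀ ε : ℤ, (ε = 1 ∨ ε = -1) → (∀ c : C, ∀ s : Γ, Subgroup.zpowers s = S → (χh : Γ → ℂ) ((c : Γ) * s) = (ε : ℂ) * (β : C → ℂ) c) → Cfsg.classInner (fun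 c : C => (χ : G → ℂ) ⟨c, hCG c.2⟩) (β : C → ℂ) ≠ 0) ∧ (∀ (χ χ' : Cfsg.IrrCharacter G) (χh χh' : Cfsg.IrrCharacter Γ), (∀ s ∈ S, ∀ g g' : G, (g' : Γ) = s * g * s⁻¹ → (χ : G → ℂ) g' = (χ : G → ℂ) g) → (∀ s ∈ S, ∀ g g' : G, (g' : Γ) = s * g * s⁻¹ → (χ' : G → ℂ) g' = (χ' : G → ℂ) g) → (∀ g : G, (χh : Γ → ℂ) g = (χ : G → ℂ) g) → (∀ g : G, (χh' : Γ → ℂ) g = (χ' : G → ℂ) g) → (Cfsg.detOrder (χh : Γ → ℂ)).Coprime (Nat.card S) → (Cfsg.detOrder (χh' : Γ → ℂ)).Coprime (Nat.card S) → ∀ β : Cfsg.IrrCharacter C, ∀ ε ε' : ℤ, (ε = 1 ∨ ε = -1) → (ε' = 1 ∨ ε' = -1) → (∀ c : C, ∀ s : Γ, Subgroup.zpowers s = S → (χh : Γ → ℂ) ((c : Γ) * s) = (ε : ℂ) * (β : C → ℂ) c) → (∀ c : C, ∀ s : Γ, Subgroup.zpowers s = S → (χh' : Γ → ℂ) ((c : Γ) * s) = (ε' : ℂ) * (β : C → ℂ) c) → χ = χ') ∧ (∀ β : Cfsg.IrrCharacter C, ∃ (χ : Cfsg.IrrCharacter G) (χh : Cfsg.IrrCharacter Γ) (ε : ℤ), (∀ s ∈ S, ∀ g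 g' : G, (g' : Γ) = s * g * s⁻¹ → (χ : G → ℂ) g' = (χ : G → ℂ) g) ∧ (∀ g : G, (χh : Γ → ℂ) g = (χ : G → ℂ) g) ∧ (Cfsg.detOrder (χh : Γ → ℂ)).Coprime (Nat.card S) ∧ (ε = 1 ∨ ε = -1) ∧ ∀ c : C, ∀ s : Γ, Subgroup.zpowers s = S → (χh : Γ → ℂ) ((c : Γ) * s) = (ε : ℂ) * (β : C → ℂ) c) := by
  have hSG := CL.Glb.le_norm_of_conj hnorm
  have := CL.Glb.normal_of_sup_eq_top hSG htop
  have hidx := CL.Glb.index_eq_card_of_sup htop hcop
  obtain ⟨s, hs⟩ := CL.Glb.exists_zpowers_eq hcyc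
  have hC' : C = G ⊓ Subgroup.centralizer {s} := by rw [hC, ← hs, CL.Glb.centralizer_zpowers']
  have ho : (Nat.card G).Coprime (orderOf s) := by rwa [← Nat.card_zpowers, hs]
  have hirr : ∀ (χ : IrrCharacter G) {φ : Γ → ℂ}, (∀ g : G, φ g = χ.1 g) →
      IsIrrCharacter G fun g => φ g := fun χ φ h => by
    rw [show (fun g : G => φ g) = χ.1 from funext h]; exact χ.2
  have hε : ∀ {ε : ℤ}, ε = 1 ∨ ε = -1 → (ε : ℂ) ≠ 0 := by
    rintro ε (rfl | rfl) <;> simp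
  have hinj : ∀ (χ χ' : IrrCharacter G) (χh χh' : IrrCharacter Γ), (∀ g : G, χh.1 g = χ.1 g) →
      (∀ g : G, χh'.1 g = χ'.1 g) → ∀ β : IrrCharacter C, ∀ ε ε' : ℤ, (ε = 1 ∨ ε = -1) →
      (ε' = 1 ∨ ε' = -1) →
      (∀ c : C, ∀ s : Γ, Subgroup.zpowers s = S → χh.1 ((c : Γ) * s) = (ε : ℂ) * β.1 c) →
      (∀ c : C, ∀ s : Γ, Subgroup.zpowers s = S → χh'.1 ((c : Γ) * s) = (ε' : ℂ) * β.1 c) →
      χ = χ' := by
    intro χ χ' χh χh' h1 h2 β ε ε' he he' h3 h4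
    have := CL.Glb.res_eq_of_coset ho hC' χh.2.isCharacter (hirr χ h1) χh'.2.isCharacter
      (hirr χ' h2) β.2 (hε he) (hε he') (fun c => h3 c s hs) (fun c => h4 c s hs)
    exact Subtype.ext (funext fun g => by rw [← h1, ← h2]; exact congrFun this g)
  refine ⟨fun χ χh _ hext hdet => ⟨?_, fun β ε he h => ?_⟩,
    fun χ χ' χh χh' _ _ h1 h2 _ _ => hinj χ χ' χh χh' h1 h2, ?_⟩
  · obtain ⟨β, ε, hβ, he, h⟩ := CL.Glb.canon_exists_sign hidx hcop hcyc hC χh.2.isCharacter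
      (hirr χ hext) hdet
    refine ⟨(⟨β, hβ⟩, ε), ⟨he, h⟩, fun ⟨β', ε'⟩ ⟨he', h'⟩ => ?_⟩
    have h1 := (CL.Glb.cm_of_eq (fun c => h c s hs) β'.1).symm.trans
      (CL.Glb.cm_of_eq (fun c => h' c s hs) β'.1)
    rw [β'.2.inner_self, mul_one] at h1
    have h2 : β = β'.1 := hβ.eq_of_inner_ne_zero β'.2 fun h0 => hε he' (by rw [← h1, h0, mul_zero])
    subst h2
    rw [β'.2.inner_self, mul_one] at h1
    exact Prod.ext rfl (Int.cast_injective h1.symm)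
  · intro h0
    have h1 := CL.Glb.isCharacter_cm (S := S) (hC ▸ inf_le_right) χh.2.isCharacter β.2.isCharacter
    have h2 := congrFun (h1.eq_zero_of_one (by
      simp only [CL.Glb.cm, OneMemClass.coe_one, mul_one]
      rw [← h0]
      congr 1
      exact funext fun c => hext ⟨c, hCG c.2⟩)) ⟨s, hs.le (Subgroup.mem_zpowers s)⟩
    simp only [CL.Glb.cm_of_eq (fun c => h c s hs), β.2.inner_self, mul_one, Pi.zero_apply] at h2
    exact hε he h2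
  · have hex : ∀ χ : {χ : IrrCharacter G // CL.Glb.IS S G χ.1}, ∃ (β : IrrCharacter C)
        (χh : IrrCharacter Γ) (ε : ℤ), (∀ g : G, χh.1 g = χ.1.1 g) ∧
        (detOrder χh.1).Coprime (Nat.card S) ∧ (ε = 1 ∨ ε = -1) ∧
        ∀ c : C, ∀ s : Γ, Subgroup.zpowers s = S → χh.1 ((c : Γ) * s) = (ε : ℂ) * β.1 c := by
      intro χ
      obtain ⟨φ, hφ, h1, h2⟩ := CL.Char.exists_ext_of_coprime_card G χ.1.2 (fun g n => by
        have : g ∈ CL.Glb.stab G χ.1.1 := (sup_le (CL.Glb.le_stab_self G χ.1.2.isClassFunction)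
          ((CL.Glb.IS_iff_le_stab hSG).mp χ.2)) (htop ▸ Subgroup.mem_top g)
        exact this.2 n _ rfl) (hidx ▸ hcop.symm)
      have h3 : (detOrder φ).Coprime (Nat.card S) :=
        h2 ▸ hcop.coprime_dvd_left (CL.Char.detOrder_dvd_card _)
      obtain ⟨β, ε, hβ, he, h⟩ := CL.Glb.canon_exists_sign hidx hcop hcyc hC hφ.isCharacter
        (hirr χ.1 h1) h3
      exact ⟨⟨β, hβ⟩, ⟨φ, hφ⟩, ε, h1, h3, he, h⟩
    choose F E e h1 h2 h3 h4 using hex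
    have hF : Function.Injective F := fun χ χ' h => Subtype.ext
      (hinj _ _ _ _ (h1 χ) (h1 χ') (F χ') _ _ (h3 χ) (h3 χ') (h ▸ h4 χ) (h4 χ'))
    have hsolv : Group.IsSolvable S := CL.isSolvable_of_isMulCommutative S
    have hbij := hF.bijective_of_nat_card_le
      (by rw [CL.Glb.card_IS_eq hsolv G hSG hcop, ← hC])
    intro β
    obtain ⟨χ, rfl⟩ := hbij.2 β
    exact ⟨χ.1, E χ, e χ, χ.2, h1 χ, h2 χ, h3 χ, h4 χ⟩

end Cfsg.Agent.S4446
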