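import Cfsg.Statements.S4485
import Mathlib
import Cfsg.Agent.BLK.BrLeon
import Cfsg.Agent.BLK.PairF
import Cfsg.Agent.CHAR.Faithful

set_option autoImplicit false
open Cfsg

namespace Cfsg.Agent.S4485

open CL CL.Blk Cfsg Subgroup

universe u

theorem aux {p : ℕ} [Fact p.Prime] (m : ℕ) : ∀ {G : Type u} [Group G] [Finite G] (P : Sylow p G),
    Nat.card G = m → (∀ x ∈ (P : Subgroup G), x ≠ 1 →
      centralizer ({x} : Set G) = centralizer ((P : Subgroup G) : Set G)) →
    ∀ χ : G → ℂ, IsCharacter G χ → (∀ g : G, χ g = χ 1 → g = 1) →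
      charDegree χ ^ 2 + 1 < Nat.card P → (P : Subgroup G).Normal := by
  induction m using Nat.strong_induction_on with
  | _ m ih =>
  intro G _ _ P hm hstar χ hχ hf hdeg
  have := Fintype.ofFinite G
  by_cases h : ∃ K : Subgroup G, K.Normal ∧ K ≠ ⊤ ∧ (P : Subgroup G) ≤ K
  · obtain ⟨K, h1, h2, h3⟩ := h
    have h4 := ih _ (hm ▸ (card_top (G := G)) ▸ card_lt_of_lt' (lt_top_iff_ne_top.2 h2))
      (P.subtype h3) rfl (fun x hx hx1 => ?_) (fun k => χ k) (hχ.res K)
      (fun g hg => Subtype.ext (hf g hg)) (by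
        rwa [show Nat.card (P.subtype h3) = Nat.card P from
          Nat.card_congr (subgroupOfEquivOfLe h3).toEquiv])
    · have h5 := (P.subtype h3).characteristic_of_normal h4
      have h6 := ConjAct.normal_of_characteristic_of_normal (H := K)
        (K := ((P.subtype h3 : Sylow p K) : Subgroup K))
      rwa [Sylow.coe_subtype, subgroupOf_map_subtype, inf_eq_left.2 h3] at h6
    · have h5 := hstar x hx fun h => hx1 (Subtype.ext h)
      ext g
      have h6 : (g : G) ∈ centralizer ({(x : G)} : Set G) ↔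
        (g : G) ∈ centralizer ((P : Subgroup G) : Set G) := by rw [h5]
      rw [mem_centralizer_singleton_iff, Subtype.ext_iff, coe_mul, coe_mul,
        ← mem_centralizer_singleton_iff, h6]
      exact ⟨fun h y hy => Subtype.ext (h y hy), fun h y hy =>
        congrArg Subtype.val (h ⟨y, h3 hy⟩ hy)⟩
  · have h1 : commutator G ≤ Char.charKer χ := fun g hg =>
      hχ.mem_charKer_iff_constituents.2 fun ψ hψ h0 => by
        by_cases h2 : (⟨ψ, hψ⟩ : IrrCharacter G) = irrOne G
        · rw [hψ.charKer_eq_top_iff.2 (congrArg Subtype.val h2)]; trivial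
        · exact hψ.commutator_le_charKer_iff.2 (hψ.isCharacter.charDegree_eq_one_iff.1
            (brauer_leonard P hstar (fun K h2 h3 => by_contra fun h4 => h ⟨K, h2, h4, h3⟩) h2
              (lt_of_le_of_lt (by
                gcongr; exact hχ.charDegree_le_of_inner_ne_zero hψ h0) hdeg)).2) hg
    rw [hχ.charKer_eq_bot_iff.2 hf] at h1
    exact Subgroup.Normal.of_commutator_le _ (h1.trans bot_le)

/-- Let G be a finite group and p a prime dividing its order such that every non-identity element of a Sylow p-subgroup P has the same centralizer as P itself (so P is abelian); let p^n be the order of P. If G has a faithful character of degree x with x² < p^n − 1, then P is normal in G. -/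
theorem result {G : Type*} [Group G] [Finite G] (p : ℕ) (hp : p.Prime) (hpG : p ∣ Nat.card G) (P : Sylow p G) (hstar : ∀ x ∈ (P : Subgroup G), x ≠ 1 → Subgroup.centralizer ({x} : Set G) = Subgroup.centralizer ((P : Subgroup G) : Set G)) (n : ℕ) (hn : Nat.card P = p ^ n) (χ : G → ℂ) (hχ : Cfsg.IsCharacter G χ) (hfaith : ∀ g : G, χ g = χ 1 → g = 1) (hdeg : Cfsg.charDegree χ ^ 2 + 1 < p ^ n) : (P : Subgroup G).Normal := by
  have : Fact p.Prime := ⟨hp⟩
  exact aux _ P rfl hstar χ hχ hfaith (hn ▸ hdeg)

end Cfsg.Agent.S4485
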