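import Mathlib
import Cfsg.Statements.S4198

set_option autoImplicit false
open Cfsg

namespace Cfsg.Agent.S4198

open Equiv Equiv.Perm Finset

theorem card_partition_five : Nat.card (Nat.Partition 5) ≤ 7 := by
  let T : Finset (ℕ × ℕ × ℕ × ℕ × ℕ) :=
    {(5, 0, 0, 0, 0), (3, 1, 0, 0, 0), (1, 2, 0, 0, 0), (2, 0, 1, 0, 0), (0, 1, 1, 0, 0),
      (1, 0, 0, 1, 0), (0, 0, 0, 0, 1)}
  have hsub : ∀ p : Nat.Partition 5, p.parts.toFinset ⊆ {1, 2, 3, 4, 5} := by
    intro p i hi
    rw [Multiset.mem_toFinset] at hi
    have h1 := p.parts_pos hi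
    have h2 := Multiset.single_le_sum (fun _ _ => Nat.zero_le _) _ hi
    rw [p.parts_sum] at h2
    interval_cases i <;> simp
  let f : Nat.Partition 5 → T := fun p => ⟨(p.parts.count 1, p.parts.count 2, p.parts.count 3,
    p.parts.count 4, p.parts.count 5), by
      have h := Finset.sum_multiset_count_of_subset p.parts _ (hsub p)
      rw [p.parts_sum] at h
      simp only [mem_insert, OfNat.one_ne_ofNat, Nat.reduceEqDiff, mem_singleton, or_self,
        not_false_eq_true, sum_insert, sum_singleton, smul_eq_mul] at h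
      generalize p.parts.count 1 = a at h
      generalize p.parts.count 2 = b at h
      generalize p.parts.count 3 = c at h
      generalize p.parts.count 4 = d at h
      generalize p.parts.count 5 = e at h
      have : b ≤ 2 := by omega
      have : c ≤ 1 := by omega
      have : d ≤ 1 := by omega
      have : e ≤ 1 := by omega
      obtain rfl : a = 5 - (b * 2 + (c * 3 + (d * 4 + e * 5))) := by omega
      interval_cases b <;> interval_cases c <;> interval_cases d <;> interval_cases e <;>
        first | decide | omega⟩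
  have hf : Function.Injective f := by
    intro p q h
    simp only [f, Subtype.mk.injEq, Prod.mk.injEq] at h
    obtain ⟨h1, h2, h3, h4, h5⟩ := h
    ext i
    by_cases hi : i ∈ ({1, 2, 3, 4, 5} : Finset ℕ)
    · simp only [mem_insert, mem_singleton] at hi
      rcases hi with rfl | rfl | rfl | rfl | rfl <;> assumption
    · rw [Multiset.count_eq_zero_of_notMem fun h => hi (hsub p (Multiset.mem_toFinset.mpr h)),
        Multiset.count_eq_zero_of_notMem fun h => hi (hsub q (Multiset.mem_toFinset.mpr h))]
  refine (Nat.card_le_card_of_injective f hf).trans ?_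
  rw [Nat.card_eq_fintype_card, Fintype.card_coe]
  decide

theorem card_partition_succ (n : ℕ) :
    Nat.card (Nat.Partition (n + 1)) ≤ 2 * Nat.card (Nat.Partition n) := by
  have hex : ∀ p : Nat.Partition (n + 1), ∃ m ∈ p.parts, ∀ a ∈ p.parts, m ≤ a := by
    intro p
    have hne : p.parts.toFinset.Nonempty := by
      rw [Multiset.toFinset_nonempty]
      intro h
      have := p.parts_sum
      rw [h] at this
      simp at this
    obtain ⟨m, hm, h⟩ := p.parts.toFinset.exists_min_image id hne
    exact ⟨m, Multiset.mem_toFinset.mp hm, fun a ha => h a (Multiset.mem_toFinset.mpr ha)⟩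
  choose m hm hmin using hex
  have hsum : ∀ p : Nat.Partition (n + 1), m p + (p.parts.erase (m p)).sum = n + 1 := fun p => by
    rw [← Multiset.sum_cons, Multiset.cons_erase (hm p), p.parts_sum]
  let f : Nat.Partition (n + 1) → Bool × Nat.Partition n := fun p =>
    if h : m p = 1 then (true, ⟨p.parts.erase (m p), fun hi => p.parts_pos (Multiset.mem_of_mem_erase hi),
      by have := hsum p; omega⟩)
    else (false, ⟨(m p - 1) ::ₘ p.parts.erase (m p), fun hi => by
      rcases Multiset.mem_cons.mp hi with rfl | hi
      · have := p.parts_pos (hm p); omega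
      · exact p.parts_pos (Multiset.mem_of_mem_erase hi), by
      have := hsum p
      have := p.parts_pos (hm p)
      rw [Multiset.sum_cons]; omega⟩)
  have hf : Function.Injective f := by
    intro p q h
    have key : m p = m q → p.parts.erase (m p) = q.parts.erase (m q) → p = q := fun h1 h2 => by
      ext1
      rw [← Multiset.cons_erase (hm p), h2, h1, Multiset.cons_erase (hm q)]
    by_cases h1 : m p = 1 <;> by_cases h2 : m q = 1 <;>
      simp only [f, h1, h2, dite_true, dite_false, Prod.mk.injEq, Nat.Partition.mk.injEq, true_and,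
        Bool.true_eq_false, Bool.false_eq_true, false_and] at h
    · exact key (h1.trans h2.symm) (by rw [h1, h2, h])
    · have a1 := p.parts_pos (hm p)
      have a2 := q.parts_pos (hm q)
      have b1 : m p - 1 ∈ (m q - 1) ::ₘ q.parts.erase (m q) := h ▸ Multiset.mem_cons_self _ _
      have b2 : m q - 1 ∈ (m p - 1) ::ₘ p.parts.erase (m p) := h ▸ Multiset.mem_cons_self _ _
      have : m p = m q := by
        rcases Multiset.mem_cons.mp b1 with c1 | c1
        · omega
        rcases Multiset.mem_cons.mp b2 with c2 | c2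
        · omega
        have := hmin q _ (Multiset.mem_of_mem_erase c1)
        have := hmin p _ (Multiset.mem_of_mem_erase c2)
        omega
      refine key this ?_
      rw [this] at h ⊢
      exact (Multiset.cons_inj_right _).mp h
  refine (Nat.card_le_card_of_injective f hf).trans ?_
  simp [Nat.card_prod]

theorem card_partition_le (n : ℕ) (hn : 5 ≤ n) : Nat.card (Nat.Partition n) ≤ 2 ^ (n - 2) := by
  induction n, hn using Nat.le_induction with
  | base => exact card_partition_five.trans (by norm_num)
  | succ n hn ih =>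
    refine (card_partition_succ n).trans ?_
    rw [show n + 1 - 2 = n - 2 + 1 by omega, pow_succ']
    exact Nat.mul_le_mul_left 2 ih

variable {α : Type*} [Fintype α] [DecidableEq α]

/-- Cycle type of a conjugacy class. -/
def ct : ConjClasses (Perm α) → Multiset ℕ :=
  Quotient.lift cycleType fun _ _ h => isConj_iff_cycleType_eq.mp h

theorem ct_mk (σ : Perm α) : ct (ConjClasses.mk σ) = σ.cycleType := rfl

theorem ct_injective : Function.Injective (ct (α := α)) := by
  intro a b h
  obtain ⟨a, rfl⟩ := ConjClasses.exists_rep a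
  obtain ⟨b, rfl⟩ := ConjClasses.exists_rep b
  exact ConjClasses.mk_eq_mk_iff_isConj.mpr (isConj_iff_cycleType_eq.mpr h)

theorem isConj_alt {x y : alternatingGroup α} {g : Perm α} (hg : sign g = 1)
    (h : g * x * g⁻¹ = y) : IsConj x y :=
  isConj_iff.mpr ⟨⟨g, mem_alternatingGroup.mpr hg⟩, Subtype.ext h⟩

theorem odd_of_split {x y : alternatingGroup α} (h : IsConj (x : Perm α) y) (h' : ¬ IsConj x y) :
    ∀ a ∈ (x : Perm α).cycleType, Odd a := by
  intro a ha
  by_contra hodd
  rw [Nat.not_odd_iff_even] at hodd
  rw [cycleType_def] at ha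
  obtain ⟨c, hc, rfl⟩ := Multiset.mem_map.mp ha
  have h1 : sign c = -1 := by
    rw [(mem_cycleFactorsFinset_iff.mp hc).1.sign]
    exact congrArg Neg.neg (Even.neg_one_pow hodd)
  obtain ⟨g, hg⟩ := isConj_iff.mp h
  rcases Int.units_eq_one_or (sign g) with h2 | h2
  · exact h' (isConj_alt h2 hg)
  · refine h' (isConj_alt (g := g * c) (by simp [h1, h2]) ?_)
    rw [← hg, mul_assoc g c, (self_mem_cycle_factors_commute hc).eq]
    group

theorem card_alt_lt (h5 : 5 ≤ Fintype.card α) :
    Nat.card (ConjClasses (alternatingGroup α)) < Nat.card (ConjClasses (Perm α)) := by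
  classical
  have := Fintype.ofFinite (ConjClasses (alternatingGroup α))
  have := Fintype.ofFinite (ConjClasses (Perm α))
  let φ : ConjClasses (alternatingGroup α) → ConjClasses (Perm α) :=
    ConjClasses.map (alternatingGroup α).subtype
  have hφ : ∀ x : alternatingGroup α, φ (ConjClasses.mk x) = ConjClasses.mk (x : Perm α) :=
    fun _ => rfl
  let Ev : Finset (ConjClasses (Perm α)) := univ.image φ
  let Sp : Finset (ConjClasses (Perm α)) := {D | 2 ≤ #{C | φ C = D}}
  have hle : ∀ D, #{C | φ C = D} ≤ 2 := by
    intro D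
    by_contra hcon
    push Not at hcon
    obtain ⟨a, b, c, ha, hb, hc, hab, hac, hbc⟩ := two_lt_card_iff.mp hcon
    obtain ⟨a, rfl⟩ := ConjClasses.exists_rep a
    obtain ⟨b, rfl⟩ := ConjClasses.exists_rep b
    obtain ⟨c, rfl⟩ := ConjClasses.exists_rep c
    simp only [mem_filter, mem_univ, true_and, hφ] at ha hb hc
    obtain ⟨g, hg⟩ := isConj_iff.mp (ConjClasses.mk_eq_mk_iff_isConj.mp (ha.trans hb.symm))
    obtain ⟨k, hk⟩ := isConj_iff.mp (ConjClasses.mk_eq_mk_iff_isConj.mp (ha.trans hc.symm))
    rcases Int.units_eq_one_or (sign g) with h2 | h2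
    · exact hab (ConjClasses.mk_eq_mk_iff_isConj.mpr (isConj_alt h2 hg))
    rcases Int.units_eq_one_or (sign k) with h3 | h3
    · exact hac (ConjClasses.mk_eq_mk_iff_isConj.mpr (isConj_alt h3 hk))
    refine hbc (ConjClasses.mk_eq_mk_iff_isConj.mpr
      (isConj_alt (g := k * g⁻¹) (by simp [h2, h3]) ?_))
    rw [← hg, ← hk]; group
  have h1 : Fintype.card (ConjClasses (alternatingGroup α)) ≤ #Ev + #Sp := by
    rw [← card_univ, card_eq_sum_card_fiberwise (t := Ev) (f := φ)
      (fun C _ => mem_coe.mpr (mem_image_of_mem _ (mem_univ C)))]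
    calc ∑ D ∈ Ev, #{C | φ C = D} ≤ ∑ D ∈ Ev, (1 + if D ∈ Sp then 1 else 0) := by
          refine sum_le_sum fun D _ => ?_
          have := hle D
          split_ifs with h
          · omega
          · simp only [Sp, mem_filter, mem_univ, true_and] at h; omega
      _ ≤ #Ev + #Sp := by
          rw [sum_add_distrib, ← card_eq_sum_ones, ← card_filter]
          exact Nat.add_le_add_left (card_le_card fun D hD => (mem_filter.mp hD).2) _
  have hSp : ∀ D ∈ Sp, (∀ a ∈ ct D, Odd a) ∧ ct D ≠ {3} ∧ Even ((ct D).sum + (ct D).card) ∧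
      ∃ (m : ℕ) (E : ConjClasses (Perm α)), m ∈ ct D ∧ 3 ≤ m ∧
        ct E = (m - 1) ::ₘ (ct D).erase m := by
    intro D hD
    obtain ⟨a, ha, b, hb, hab⟩ := one_lt_card.mp (mem_filter.mp hD).2
    obtain ⟨a, rfl⟩ := ConjClasses.exists_rep a
    obtain ⟨b, rfl⟩ := ConjClasses.exists_rep b
    simp only [mem_filter, mem_univ, true_and, hφ] at ha hb
    have hc := ConjClasses.mk_eq_mk_iff_isConj.mp (ha.trans hb.symm)
    have hn : ¬ IsConj a b := fun h => hab (ConjClasses.mk_eq_mk_iff_isConj.mpr h)
    have hodd := odd_of_split hc hn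
    subst ha
    rw [ct_mk]
    refine ⟨hodd, fun h => hn (alternatingGroup.isThreeCycle_isConj (by simpa using h5) h
      ((isConj_iff_cycleType_eq.mp hc).symm.trans h)), ?_, ?_⟩
    · have := mem_alternatingGroup.mp a.2
      rwa [sign_of_cycleType, neg_one_pow_eq_one_iff_even (by decide)] at this
    · have hne : (a : Perm α).cycleType ≠ 0 := by
        intro h
        rw [cycleType_eq_zero] at h
        have h2 : (b : Perm α) = 1 := by rwa [h, isConj_one_right] at hc
        exact hn (by rw [show a = b from Subtype.ext (h.trans h2.symm)])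
      obtain ⟨m, hm⟩ := Multiset.exists_mem_of_ne_zero hne
      have h3 : 3 ≤ m := by
        have := two_le_of_mem_cycleType hm
        obtain ⟨k, hk⟩ := hodd m hm
        omega
      obtain ⟨g, hg⟩ := (exists_with_cycleType_iff α
        (m := (m - 1) ::ₘ (a : Perm α).cycleType.erase m)).mpr ⟨by
          have e1 := (a : Perm α).sum_cycleType_le
          rw [← Multiset.cons_erase hm, Multiset.sum_cons] at e1
          rw [Multiset.sum_cons]; omega, fun x hx => by
          rcases Multiset.mem_cons.mp hx with rfl | hx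
          · omega
          · exact two_le_of_mem_cycleType (Multiset.mem_of_mem_erase hx)⟩
      exact ⟨m, ConjClasses.mk g, hm, h3, hg⟩
  choose h2 h3 h4 m E hm hm3 hE using hSp
  obtain ⟨t, ht⟩ := (exists_with_cycleType_iff α (m := {2})).mpr ⟨by simp; omega, by simp⟩
  have hEv : ∀ D ∈ Ev, Even ((ct D).sum + (ct D).card) := by
    intro D hD
    obtain ⟨C, -, rfl⟩ := mem_image.mp hD
    obtain ⟨a, rfl⟩ := ConjClasses.exists_rep C
    have := mem_alternatingGroup.mp a.2
    rwa [sign_of_cycleType, neg_one_pow_eq_one_iff_even (by decide)] at this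
  have h6 : #Sp ≤ #((univ \ Ev).erase (ConjClasses.mk t)) := by
    rw [← card_attach (s := Sp)]
    refine card_le_card_of_injOn (fun D => E D.1 D.2) (fun D _ => ?_) (fun D _ D' _ h => ?_)
    · simp only [coe_erase, coe_sdiff, coe_univ, Set.mem_diff, Set.mem_univ, mem_coe, true_and,
        Set.mem_singleton_iff]
      refine ⟨fun h => ?_, fun h => h3 D.1 D.2 ?_⟩
      · have a1 := hEv _ h
        have a2 := h4 D.1 D.2
        have a3 := hm3 D.1 D.2
        rw [hE, Multiset.sum_cons, Multiset.card_cons] at a1
        rw [← Multiset.cons_erase (hm D.1 D.2), Multiset.sum_cons, Multiset.card_cons] at a2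
        rw [Nat.even_iff] at a1 a2
        omega
      · have a1 := hE D.1 D.2
        rw [h, ct_mk, ht, Multiset.singleton_eq_cons_iff] at a1
        have a3 := hm3 D.1 D.2
        rw [← Multiset.cons_erase (hm D.1 D.2), a1.2, show m D.1 D.2 = 3 by omega]
        rfl
    · have a1 := hE D.1 D.2
      have a2 := hE D'.1 D'.2
      simp only at h
      rw [h, a2] at a1
      have b1 : m D.1 D.2 - 1 ∈ (m D'.1 D'.2 - 1) ::ₘ (ct D'.1).erase (m D'.1 D'.2) :=
        a1 ▸ Multiset.mem_cons_self _ _
      have c1 := hm3 D.1 D.2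
      have c2 := hm3 D'.1 D'.2
      have : m D.1 D.2 = m D'.1 D'.2 := by
        rcases Multiset.mem_cons.mp b1 with c | c
        · omega
        · obtain ⟨k, hk⟩ := h2 D'.1 D'.2 _ (Multiset.mem_of_mem_erase c)
          obtain ⟨l, hl⟩ := h2 D.1 D.2 _ (hm D.1 D.2)
          omega
      apply Subtype.ext
      apply ct_injective
      rw [← Multiset.cons_erase (hm D.1 D.2), ← Multiset.cons_erase (hm D'.1 D'.2)]
      rw [this] at a1 ⊢
      rw [(Multiset.cons_inj_right _).mp a1]
  have h7 : ConjClasses.mk t ∈ univ \ Ev := by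
    rw [mem_sdiff]
    refine ⟨mem_univ _, fun h => ?_⟩
    have := hEv _ h
    rw [ct_mk, ht] at this
    revert this; decide
  rw [card_erase_of_mem h7, card_sdiff_of_subset (subset_univ _), card_univ] at h6
  have h8 := card_pos.mpr ⟨_, h7⟩
  rw [card_sdiff_of_subset (subset_univ _), card_univ] at h8
  rw [Nat.card_eq_fintype_card, Nat.card_eq_fintype_card]
  omega

/-- For n ≥ 5 the alternating group of degree n has strictly fewer conjugacy classes than the symmetric group of degree n, and the symmetric group of degree n (whose classes correspond to the partitions of n) has at most 2^(n−2) conjugacy classes. -/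
theorem result (n : ℕ) (hn : 5 ≤ n) : Nat.card (ConjClasses (alternatingGroup (Fin n))) < Nat.card (ConjClasses (Equiv.Perm (Fin n))) ∧ Nat.card (ConjClasses (Equiv.Perm (Fin n))) ≤ 2 ^ (n - 2) := by
  refine ⟨card_alt_lt (by simpa using hn), le_trans ?_ (card_partition_le n hn)⟩
  let f : ConjClasses (Perm (Fin n)) → Nat.Partition (Fintype.card (Fin n)) :=
    Quotient.lift Equiv.Perm.partition fun _ _ h => partition_eq_of_isConj.mp h
  have hf : Function.Injective f := by
    intro a b h
    obtain ⟨a, rfl⟩ := ConjClasses.exists_rep a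
    obtain ⟨b, rfl⟩ := ConjClasses.exists_rep b
    exact ConjClasses.mk_eq_mk_iff_isConj.mpr (partition_eq_of_isConj.mpr h)
  have := Nat.card_le_card_of_injective f hf
  rwa [Fintype.card_fin] at this

end Cfsg.Agent.S4198
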