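import Cfsg.Statements.S4696
import Cfsg.Agent.BLK.CycMain

set_option autoImplicit false
open Cfsg

namespace Cfsg.Agent.S4696

/-- Let p be a prime, M a maximal ideal of the algebraic integers containing p, and B a p-block of the finite group G whose defect group D is cyclic of order p^a with a ≥ 1. Let C = C_G(D), let b be a block of C inducing B, let T be the stabilizer of b in N_G(D) (the elements g of N_G(D) such that the g-conjugate of every member of b is again in b), and let e be the index of C in T (the inertial index of B). Then e divides p − 1, every irreducible character in B has height zero, and B is the disjoint union of a set X of e characters and a set Y of (p^a − 1)/e characters, the members of Y agreeing on p-regular elements, for which there are signs δ_χ = ±1 (χ ∈ X) and δ₀ = ±1 such that: for every ψ ∈ Y and every p-regular g, δ₀ ψ(g) + Σ_{χ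 ∈ X} δ_χ χ(g) = 0; for all χ, χ' ∈ X the integers δ_χ χ(1) and δ_χ' χ'(1) are congruent modulo p^a; and for ψ ∈ Y and χ ∈ X, ψ(1) ≡ −e δ₀ δ_χ χ(1) modulo p^a. -/
theorem result {G : Type*} [Group G] [Finite G] (p : ℕ) [Fact p.Prime] (M : Ideal Cfsg.AlgInt) (hM : Cfsg.IsPModular p M) (D : Subgroup G) (hD : IsCyclic D) (a : ℕ) (ha : 1 ≤ a) (hDa : Nat.card D = p ^ a) (B : Set (Cfsg.IrrCharacter G)) (hB : Cfsg.IsPBlock M B) (hBD : Cfsg.IsDefectGroup p M B D) (b : Set (Cfsg.IrrCharacter (Subgroup.centralizer (D : Set G)))) (hind : Cfsg.IsInducedBlock M (Subgroup.centralizer (D : Set G)) b B) (T : Subgroup G) (hT : ∀ g : G, g ∈ T ↔ (g ∈ Subgroup.normalizer (D : Set G) ∧ ∀ θ ∈ b, ∀ θ' : Cfsg.IrrCharacter (Subgroup.centralizer (D : Set G)), (∀ h h' : Subgroup.centralizer (D : Set G), (h' : G) = g * h * g⁻¹ → (θ' : Subgroup.centralizer (D : Set G) → ℂ) h' = (θ : Subgroup.centralizer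 (D : Set G) → ℂ) h) → θ' ∈ b)) (e : ℕ) (he : (Subgroup.centralizer (D : Set G)).relIndex T = e) : e ∣ p - 1 ∧ (∀ χ ∈ B, Cfsg.blockHeight p B (χ : G → ℂ) = 0) ∧ ∃ X Y : Set (Cfsg.IrrCharacter G), B = X ∪ Y ∧ Disjoint X Y ∧ Nat.card X = e ∧ Nat.card Y = (p ^ a - 1) / e ∧ (∀ ψ ∈ Y, ∀ ψ' ∈ Y, ∀ g : G, ¬ p ∣ orderOf g → (ψ : G → ℂ) g = (ψ' : G → ℂ) g) ∧ ∃ (δ : Cfsg.IrrCharacter G → ℤ) (δ₀ : ℤ), (∀ χ ∈ X, δ χ = 1 ∨ δ χ = -1) ∧ (δ₀ = 1 ∨ δ₀ = -1) ∧ (∀ ψ ∈ Y, ∀ g : G, ¬ p ∣ orderOf g → (δ₀ : ℂ) * (ψ : G → ℂ) g + ∑ᶠ χ ∈ X, (δ χ : ℂ) * (χ : G → ℂ) g = 0) ∧ (∀ χ ∈ X, ∀ χ' ∈ X, δ χ * (Cfsg.charDegree (χ : G → ℂ) : ℤ) ≡ δ χ' * (Cfsg.charDegree (χ' : G → ℂ) : ℤ) [ZMOD (p : ℤ) ^ a]) ∧ (∀ ψ ∈ Y, ∀ χ ∈ X, (Cfsg.charDegree (ψ : G → ℂ) : ℤ) ≡ -((e : ℤ) * δ₀ * δ χ * (Cfsg.charDegree (χ : G → ℂ) : ℤ)) [ZMOD (p : ℤ) ^ a]) := by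
  classical
  have := Fintype.ofFinite G
  obtain ⟨-, hb, hr⟩ := (CL.Blk.isInducedBlock_iff_relPair hM
    ((CL.Blk.isDefectGroup_iff_sDef_top hM hB).1 hBD).pgroup).1 hind
  obtain ⟨Z, hZ, hZc⟩ := CL.Cyc.exists_le_card_eq hM.1 hr.pair.pgroup (D := D) (by
    rintro rfl
    rw [Subgroup.card_bot] at hDa
    exact (Nat.one_lt_pow (by omega) hM.1.one_lt).ne hDa)
  obtain ⟨c, hc⟩ := CL.Cyc.exists_setup_of_le hM hB hr hBD hD hZ hZc
  obtain ⟨θ₀, h⟩ := hc.exists_loc'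
  have hT' : T = CL.Blk.pairStab D (CL.Blk.sb M _ b) := Subgroup.ext fun g => by
    rw [hT]
    exact and_congr_right fun hg => CL.Blk.forall_conj_mem_iff hM
      (CL.MSS.cj_eq_of_mem_normalizer (CL.MSS.normalizer_le_normalizer_centralizer D hg)) hb hb
  rw [← hT', he] at h
  obtain ⟨X, ψ, δ, ε, s⟩ := h.exists_str
  have hdvd : (p : ℤ) ^ a ∣ (p : ℤ) ^ (Nat.card G).factorization p := pow_dvd_pow _
    ((hM.1.pow_dvd_iff_le_factorization Nat.card_pos.ne').1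
      (hDa ▸ Subgroup.card_subgroup_dvd_card D))
  refine ⟨h.e_dvd, fun χ hχ => s.height_eq_zero h hχ, X, ψ '' (c \ {θ₀}), s.B_eq, s.disjoint,
    s.card_X', by rw [s.card_Y' h.e_pos, h.card_c, hDa], ?_, δ, ε, s.sign, s.sign', ?_,
    fun χ hχ χ' hχ' => (s.degree_X h hχ hχ').of_dvd hdvd, ?_⟩
  · rintro _ ⟨θ, hθ, rfl⟩ _ ⟨θ', hθ', rfl⟩ g hg
    exact s.val_reg_eq h hθ.1 hθ.2 hθ'.1 hθ'.2 hg
  · rintro _ ⟨θ, hθ, rfl⟩ g hg
    rw [finsum_mem_coe_finset]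
    exact s.val_reg h hθ.1 hθ.2 hg
  · rintro _ ⟨θ, hθ, rfl⟩ χ hχ
    exact (s.degree_Y_modEq h hθ.1 hθ.2 hχ).of_dvd hdvd

end Cfsg.Agent.S4696
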