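import Cfsg.Statements.S4607
import Cfsg.Agent.BLK.CycLocal
import Cfsg.Agent.BLK.Lift
import Cfsg.Agent.BLK.PrimPt
import Cfsg.Agent.BLK.BrauerFeit
import Cfsg.Agent.BLK.DefCard

set_option autoImplicit false
open Cfsg

namespace Cfsg.Agent.S4607

open CL CL.Char CL.Blk CL.Cyc MonoidAlgebra Module

section
variable {k : Type*} [Field k] {K : Type*} [Group K] [Finite K] {c i : k[K]}

theorem dep_mod (hc : IsCentral c) (hi : i * i = i) (hci : c * i = i)
    (h3 : ∀ z : Fin 3 → k[K], (∀ m, IsCentral (z m) ∧ c * z m = z m) → ¬ LinearIndependent k z)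
    {n : ℕ} {b d : Fin n → k[K]} (hbd : ∑ j, b j * i * d j = c) (U : Submodule k k[K])
    (hU : ∀ x y, i * x * i * (i * y * i) - i * y * i * (i * x * i) ∈ U) (v : Fin 3 → k[K])
    (hv : ∀ m, i * v m * i = v m) : ¬ LinearIndependent k (U.mkQ ∘ v) := fun h => by
  classical
  have := Fintype.ofFinite K
  obtain ⟨φ, hφ⟩ : ∃ φ : (k[K] ⧸ U) →ₗ[k] (Fin 3 → k), ∀ m, φ (U.mkQ (v m)) = Pi.single m 1 := by
    obtain ⟨g, hg⟩ := (Fintype.linearCombination k (U.mkQ ∘ v)).exists_leftInverse_of_injective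
      (LinearMap.ker_eq_bot.2 h.fintypeLinearCombination_injective)
    exact ⟨g, fun m => by simpa using LinearMap.congr_fun hg (Pi.single m 1)⟩
  have hf : ∀ x y, φ (U.mkQ (i * x * i * y * i)) = φ (U.mkQ (i * y * i * x * i)) := fun x y => by
    have h1 : ∀ x y, i * x * i * (i * y * i) = i * x * i * y * i := fun x y => by
      simp only [← mul_assoc]; rw [mul_assoc _ i i, hi]
    rw [← h1, ← h1]
    exact congrArg φ ((Submodule.Quotient.eq U).2 (hU x y))
  let t : k[K] →ₗ[k] (Fin 3 → k) := ∑ j, φ ∘ₗ U.mkQ ∘ₗ LinearMap.mulLeftRight k (i * d j, b j * i)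
  have ht : ∀ a, t a = ∑ j, φ (U.mkQ (i * d j * a * b j * i)) := fun a => by
    simp [t, mul_assoc]
  have hic : i * c = i := by rw [← hc.comm, hci]
  have h1 : ∀ a, t (c * a) = t a := fun a => by
    simp only [ht, ← mul_assoc]
    refine Finset.sum_congr rfl fun j _ => ?_
    rw [mul_assoc i (d j) c, ← hc.comm, ← mul_assoc, hic]
  have h2 : ∀ x y, t (x * y) = ∑ j, ∑ l, φ (U.mkQ (i * (d j * x * b l) * i * (d l * y * b j) * i)) :=
    fun x y => by
      rw [← h1, ← mul_assoc, hc.comm, ← hbd, ht]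
      simp only [Finset.mul_sum, Finset.sum_mul, map_sum, mul_assoc]
  have h4 : ∀ x y, t (x * y) = t (y * x) := fun x y => by
    rw [h2, h2, Finset.sum_comm]
    simp only [hf (d _ * x * b _)]
  have h5 : ∀ m, t (v m) = Pi.single m 1 := fun m => by
    have h6 := fun j => hf (d j) (v m * b j)
    simp only [← mul_assoc, mul_assoc _ i (v m), left_of_corner hi (hv m)] at h6
    rw [← hφ, ht, Finset.sum_congr rfl fun j _ => h6 j, ← map_sum, ← map_sum]
    conv_rhs => rw [← right_of_corner hi (hv m), ← hci, ← hbd]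
    simp only [Finset.mul_sum, Finset.sum_mul, mul_assoc]
  refine h3 (fun m => ofFun fun g => t (single g⁻¹ 1) m) (fun m => ⟨isCentral_ofFun fun g h => ?_,
    ga_ext fun g => ?_⟩) (Fintype.linearIndependent_iff.2 fun l hl m => ?_)
  · rw [mul_inv_rev, mul_inv_rev, inv_inv, ← one_mul (1 : k), ← single_mul_single, h4,
      single_mul_single]
    simp
  · rw [coeff_mul_sum, coeff_ofFun, ← h1, hc.comm]
    conv_rhs => rw [eq_sum_smul_single c]
    simp only [Finset.mul_sum, mul_smul_comm, single_mul_single, mul_one, map_sum, map_smul,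
      Finset.sum_apply, Pi.smul_apply, smul_eq_mul, coeff_ofFun, mul_inv_rev, inv_inv]
  · have h6 : ∀ a, ∑ m, l m * t a m = 0 := fun a => by
      rw [eq_sum_smul_single a]
      simp only [map_sum, map_smul, Finset.sum_apply, Pi.smul_apply, smul_eq_mul, Finset.mul_sum]
      rw [Finset.sum_comm]
      refine Finset.sum_eq_zero fun g _ => ?_
      have := congrArg (fun a : k[K] => a.coeff g⁻¹) hl
      simp only [coeff_sum', coeff_smul', coeff_ofFun, inv_inv, coeff_zero'] at this
      simp only [mul_left_comm (l _), ← Finset.mul_sum, this, mul_zero]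
    simpa [h5, Pi.single_apply] using h6 (v m)

theorem exists_span [IsAlgClosed k] (hc : IsCentral c) (hi : IsPrimIdem (⊤ : Subalgebra k k[K]) i)
    (hci : c * i = i)
    (h3 : ∀ z : Fin 3 → k[K], (∀ m, IsCentral (z m) ∧ c * z m = z m) → ¬ LinearIndependent k z)
    {n : ℕ} {b d : Fin n → k[K]} (hbd : ∑ j, b j * i * d j = c) :
    ∃ w, ∀ a, i * a * i ∈ Submodule.span k {i, w} := by
  let J : Submodule k k[K] :=
    { carrier := {a | i * a = a ∧ a * i = a ∧ IsNilpotent a}
      add_mem' := fun {x y} hx hy => ⟨by rw [mul_add, hx.1, hy.1], by rw [add_mul, hx.2.1, hy.2.1],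
        hi.nilpotent_add trivial hx.1 hx.2.1 hx.2.2 trivial hy.1 hy.2.1 hy.2.2⟩
      zero_mem' := ⟨mul_zero _, zero_mul _, IsNilpotent.zero⟩
      smul_mem' := fun r x hx => ⟨by rw [mul_smul_comm, hx.1], by rw [smul_mul_assoc, hx.2.1],
        hx.2.2.smul r⟩ }
  have hJ : ∀ a, ∃ r : k, ∃ x ∈ J, i * a * i = r • i + x := fun a => by
    have h1 := left_of_corner hi.idem (corner_corner hi.idem a)
    have h2 := right_of_corner hi.idem (corner_corner hi.idem a)
    exact ⟨rho k i (i * a * i), _, ⟨by rw [mul_sub, h1, mul_smul_comm, hi.idem],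
      by rw [sub_mul, h2, smul_mul_assoc, hi.idem], hi.nilpotent_sub_rho trivial h1 h2⟩,
      (add_sub_cancel _ _).symm⟩
  have key : ∀ U ≤ J, (∀ x ∈ J, ∀ y ∈ J, x * y - y * x ∈ U) →
      ∃ x ∈ J, J ≤ Submodule.span k {x} ⊔ U := fun U hUJ hU => by
    by_cases h0 : J ≤ U
    · exact ⟨0, zero_mem _, h0.trans le_sup_right⟩
    obtain ⟨x, hx, hxU⟩ := SetLike.not_le_iff_exists.1 h0
    refine ⟨x, hx, fun y hy => ?_⟩
    obtain ⟨l, hl, m, hm⟩ := Fintype.not_linearIndependent_iff.1 (dep_mod hc hi.idem hci h3 hbd U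
      (fun x y => by
        obtain ⟨r, x, hx, e⟩ := hJ x
        obtain ⟨s, y, hy, e'⟩ := hJ y
        convert hU x hx y hy using 1
        simp only [e, e', add_mul, mul_add, smul_mul_assoc, mul_smul_comm, hi.idem, hx.1, hx.2.1,
          hy.1, hy.2.1]
        module) ![i, x, y] fun m => by
        fin_cases m <;> simp [hi.idem, hx.1, hx.2.1, hy.1, hy.2.1])
    have h1 : l 0 • i + l 1 • x + l 2 • y ∈ U := by
      simpa [Fin.sum_univ_three, ← Submodule.Quotient.mk_eq_zero] using hl
    have h2 : l 0 = 0 := by_contra fun h2 => hi.ne_zero (idem_eq_zero_of_nilpotent hi.idem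
      ((J.smul_mem_iff h2).1 ((J.add_mem_iff_left (J.smul_mem (l 1) hx)).1
        ((J.add_mem_iff_left (J.smul_mem (l 2) hy)).1 (hUJ h1)))).2.2)
    rw [h2, zero_smul, zero_add] at h1
    have h4 : l 2 ≠ 0 := fun h4 => by
      rw [h4, zero_smul, add_zero] at h1
      have h5 : l 1 = 0 := by_contra fun h5 => hxU ((U.smul_mem_iff h5).1 h1)
      fin_cases m <;> simp_all
    refine (Submodule.smul_mem_iff _ h4).1 ?_
    simpa using sub_mem (Submodule.mem_sup_right h1) (Submodule.mem_sup_left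
      (Submodule.smul_mem _ (l 1) (Submodule.mem_span_singleton_self x)))
  have hJJ : J * J ≤ J := Submodule.mul_le.2 fun x hx y hy => ⟨by rw [← mul_assoc, hx.1],
    by rw [mul_assoc, hy.2.1], hi.nilpotent_mul trivial hx.1 hx.2.1 hx.2.2 trivial hy.2.1⟩
  obtain ⟨x, hx, h1⟩ := key (J * J) hJJ fun x hx y hy =>
    sub_mem (Submodule.mul_mem_mul hx hy) (Submodule.mul_mem_mul hy hx)
  have := IsArtinianRing.of_finite k k[K]
  obtain ⟨N, hN⟩ := IsArtinianRing.isNilpotent_jacobson_bot (R := k[K])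
  have h7 : ∀ a ∈ J, a ∈ (⊥ : Ideal k[K]).jacobson := fun a ha => Ideal.mem_jacobson_iff.2 fun y => by
    have h8 : IsNilpotent (a * (y * i)) := hi.nilpotent_mul trivial ha.1 ha.2.1 ha.2.2 trivial
      (by rw [mul_assoc, hi.idem])
    have h9 := isNilpotent_mul_swap h8
    rw [mul_assoc, ha.1] at h9
    obtain ⟨z, hz⟩ := h9.isUnit_add_one.exists_left_inv
    exact ⟨z, by rw [mul_assoc, ← mul_add_one, hz, sub_self]; exact zero_mem _⟩
  have h2 : ∀ n, ∀ a ∈ J ^ (n + 1), a ∈ (⊥ : Ideal k[K]).jacobson ^ (n + 1) := fun n => by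
    induction n with
    | zero => simpa [Submodule.pow_one] using h7
    | succ n ih =>
      intro a ha
      rw [pow_succ] at ha
      rw [Submodule.pow_succ]
      exact Submodule.mul_induction_on ha (fun x hx y hy => Ideal.mul_mem_mul (ih x hx) (h7 y hy))
        fun _ _ => add_mem
  let X := Submodule.span k (Set.range fun n : ℕ => x ^ (n + 1))
  have hX : X ≤ J := Submodule.span_le.2 (by
    rintro _ ⟨n, rfl⟩
    induction n with
    | zero => simpa using hx
    | succ n ih => simpa only [← pow_succ, SetLike.mem_coe] using hJJ (Submodule.mul_mem_mul ih hx))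
  have hXX : X * X ≤ X := by
    rw [Submodule.span_mul_span]
    refine Submodule.span_mono ?_
    rintro _ ⟨_, ⟨n, rfl⟩, _, ⟨m, rfl⟩, rfl⟩
    exact ⟨n + 1 + m, pow_add x (n + 1) (m + 1)⟩
  have h4 : ∀ n, J ≤ X ⊔ J ^ (n + 1) := fun n => by
    induction n with
    | zero => simp
    | succ n ih =>
      refine h1.trans (sup_le (le_sup_of_le_left (Submodule.span_mono (by
        rintro _ rfl; exact ⟨0, by simp⟩))) ((mul_le_mul' ih le_rfl).trans ?_))
      rw [Submodule.sup_mul, ← pow_succ]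
      refine sup_le ((mul_le_mul' le_rfl ih).trans ?_) le_sup_right
      rw [Submodule.mul_sup, pow_succ' J (n + 1)]
      exact sup_le_sup hXX (mul_le_mul' hX le_rfl)
  have h5 : J ≤ X := (h4 N).trans (sup_le le_rfl fun a ha => by
    rw [show a = 0 by simpa [Submodule.pow_succ, hN] using h2 N a ha]; exact zero_mem _)
  obtain ⟨w, -, h6⟩ := key ⊥ bot_le fun y hy z hz => by
    rw [Submodule.mem_bot, sub_eq_zero]
    refine Commute.eq (Submodule.span_induction (p := fun y _ => Commute y z) ?_ (Commute.zero_left _)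
      (fun _ _ _ _ => Commute.add_left) (fun r _ _ h => h.smul_left r) (h5 hy))
    rintro _ ⟨n, rfl⟩
    refine Submodule.span_induction (p := fun z _ => Commute _ z) ?_ (Commute.zero_right _)
      (fun _ _ _ _ => Commute.add_right) (fun r _ _ h => h.smul_right r) (h5 hz)
    rintro _ ⟨m, rfl⟩
    exact Commute.pow_pow_self _ _ _
  refine ⟨w, fun a => ?_⟩
  obtain ⟨r, y, hy, e⟩ := hJ a
  rw [e]
  exact add_mem (Submodule.smul_mem _ _ (Submodule.subset_span (by simp)))
    (Submodule.span_mono (by simp) (by simpa using h6 hy : y ∈ Submodule.span k {w}))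

end

theorem degree_eq {G : Type*} [Group G] [Finite G] {p : ℕ} {M : Ideal AlgInt}
    (hM : IsPModular p M) {B : Set (IrrCharacter G)} (hB : IsPBlock M B) (hl : blockRank p B ≤ 1)
    {χ ψ : IrrCharacter G} (hne : χ ≠ ψ) (h2 : B = {χ, ψ}) : χ.1 1 = ψ.1 1 := by
  classical
  obtain ⟨S, _, _, _, ρ, hu⟩ := exists_uni hM hB hl
  obtain ⟨s, hs⟩ := exists_isDec (⊤ : Subalgebra (F M) (F M)[G]) trivial (eB_mul_self hM hB)
  obtain ⟨i, hi⟩ := s.eq_empty_or_nonempty.resolve_left fun h => eB_ne_zero hM hB (by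
    rw [← hs.sum, h, Finset.sum_empty])
  have hp := hs.prim i hi
  obtain ⟨n, b, d, hbd⟩ := hu.exists_mul_eq (a := i) fun h => by
    have h1 := hu.rId_mul hp.idem
    have := nontrivial_of_irr hu.irr
    rw [h, LinearMap.range_zero, finrank_bot, zero_mul, hs.left hi] at h1
    have h3 := Submodule.finrank_eq_zero.1 ((mul_eq_zero.1 h1).resolve_right finrank_pos.ne')
    exact hp.ne_zero ((Submodule.mem_bot _).1 (h3 ▸ (mem_rId_idem hp.idem).2 hp.idem))
  obtain ⟨w, hw⟩ := exists_span (eB_isCentral B) hp (hs.left hi) (fun z hz h => by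
    have hi := fun m => (isInt_blockIdem hM hB).mul (isInt_liftA (z m))
    have h1 := (linearIndependent_omega (c := B)
      (fun m => (blockIdem_isCentral B).mul (hz m).1.liftA)
      (fun m => by rw [← mul_assoc, blockIdem_mul_self]) (linearIndependent_of_redA hi (by
        convert h with m
        rw [redA_mul (isInt_blockIdem hM hB) (isInt_liftA _), redA_liftA]
        exact (hz m).2))).fintype_card_le_finrank
    rw [finrank_fintype_fun_eq_card, ← Nat.card_eq_fintype_card (α := B), h2,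
      Nat.card_coe_set_eq, Set.ncard_pair hne] at h1
    simp at h1) hbd
  have hiso : ∀ t : s, ∃ x y, x * y = t.1 ∧ y * x = i := fun t => by
    have ht := hs.prim _ t.2
    obtain ⟨j, -, e, -, he⟩ := ht.rosenberg Finset.univ (fun j => b j * i * d j)
      (fun _ _ => trivial) (by rw [hbd, hs.right t.2, ht.idem])
    obtain ⟨x, -, y, -, h⟩ := ht.iso_of_rho_ne_zero hp (x := t * b j * i) (y := i * d j * e * t)
      trivial trivial (by simp only [← mul_assoc, ht.idem]) (by rw [mul_assoc, hp.idem])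
      (by simp only [← mul_assoc, hp.idem]) (by rw [mul_assoc, ht.idem]) (by
        rw [show t * b j * i * (i * d j * e * t) = t * (b j * i * d j) * e * t by
          simp only [← mul_assoc, mul_assoc _ i i, hp.idem], he, ht.idem, ht.rho_self]
        exact one_ne_zero)
    exact ⟨x, y, h⟩
  choose X Y hXY hYX using hiso
  have h3 : finrank (F M) (rId (eB M B)) ≤ s.card * (s.card * 2) := by
    refine (Submodule.finrank_mono (t := Submodule.span _ (Set.range fun q : s × s × Fin 2 =>
      X q.1 * ![i, w] q.2.2 * Y q.2.1)) fun a ha => ?_).trans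
      ((finrank_range_le_card _).trans (by simp))
    have h4 := (mem_rId_idem (eB_mul_self hM hB)).1 ha
    rw [← h4, ← h4, ← mul_assoc, mul_assoc, (eB_isCentral B).comm a, ← hs.sum, ← s.sum_coe_sort,
      Finset.mul_sum, Finset.sum_mul]
    refine sum_mem fun t _ => ?_
    rw [Finset.mul_sum]
    refine sum_mem fun t' _ => ?_
    have h5 : ∀ t, X t * i * Y t = t := fun t => by
      rw [← hYX t, ← mul_assoc, hXY, mul_assoc, hXY, (hs.prim _ t.2).idem]
    obtain ⟨α, β, h6⟩ := Submodule.mem_span_pair.1 (hw (Y t * a * X t'))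
    rw [show t * (a * t') = X t * (i * (Y t * a * X t') * i) * Y t' by
      rw [← h5 t, ← h5 t']; simp only [mul_assoc], ← h6]
    simp only [mul_add, add_mul, mul_smul_comm, smul_mul_assoc]
    exact add_mem (Submodule.smul_mem _ _ (Submodule.subset_span ⟨(t, t', 0), rfl⟩))
      (Submodule.smul_mem _ _ (Submodule.subset_span ⟨(t, t', 1), rfl⟩))
  have hf : ∀ {A : Type} [CommRing A] (a : A[G]), IsFixed (Subgroup.zpowers 1) a := fun a u hu g => by
    rw [Subgroup.zpowers_one_eq_bot, Subgroup.mem_bot] at hu; simp [hu]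
  have h4 : ∀ θ ∈ B, ∃ m, charDegree θ.1 = s.card * m := fun θ hθ => by
    have hc := θ.2.isClassFunction
    have hu : ∃ k, orderOf (1 : G) = p ^ k := ⟨0, by simp⟩
    obtain ⟨E, e1, e2, e3, -, e4⟩ := exists_idem_lift (H := ⊤) hp.idem (hf i) (suppIn_top _)
    refine ⟨charDegree fun u : Subgroup.zpowers (1 : G) => charLin θ.1 (E * single (u : G) 1),
      Nat.cast_injective (R := ℂ) ?_⟩
    have h5 := tau_redA hM hc hu (blockIdem_mul_self B) (isInt_blockIdem hM hB) (hf _)
    rw [charLin_blockIdem_mul, if_pos hθ, charLin_single, one_mul, irr_one_eq] at h5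
    rw [Nat.cast_mul, ← char_one_eq (isCharacter_idem θ.2.isCharacter e1 e3), ← h5]
    change tau M θ.1 1 (eB M B) = _
    rw [← hs.sum, tau_sum hM hc hu s (fun t ht => (hs.prim t ht).idem) hs.orth fun _ _ => hf _,
      ← s.sum_coe_sort, Finset.sum_congr rfl fun (t : s) _ => (show tau M θ.1 1 t = tau M θ.1 1 i by
        rw [← hXY, ← hYX t, tau_comm hM hc hu (hf _) (hf _) (by rw [hXY, (hs.prim _ t.2).idem])
          (by rw [hYX, hp.idem])]), ← e4, tau_redA hM hc hu e1 e2 e3]
    simp
  obtain ⟨m, hm⟩ := h4 χ (by simp [h2])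
  obtain ⟨m', hm'⟩ := h4 ψ (by simp [h2])
  have h5 := finrank_rId_redA_cast (isInt_blockIdem hM hB) (blockIdem_mul_self B)
  have h6 : ∀ θ : IrrCharacter G, charLin θ.1 (blockIdem B) = if θ ∈ B then θ.1 1 else 0 :=
    fun θ => by rw [← mul_one (blockIdem B), charLin_blockIdem_mul, charLin_one]
  simp only [h6, mul_ite, mul_zero, ← Finset.sum_filter] at h5
  rw [show Finset.univ.filter (· ∈ B) = {χ, ψ} by ext; simp [h2], Finset.sum_pair hne,
    irr_one_eq, irr_one_eq] at h5
  have h7 : finrank (F M) (rId (eB M B)) = _ := Nat.cast_injective (R := ℂ) (h5.trans (by norm_cast))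
  have h8 := charDegree_ne_zero χ
  have h9 := charDegree_ne_zero ψ
  rw [irr_one_eq, irr_one_eq, hm, hm']
  rw [h7, hm, hm'] at h3
  rw [hm] at h8
  rw [hm'] at h9
  have h10 : m * m + m' * m' ≤ 2 := Nat.le_of_mul_le_mul_left (by nlinarith)
    (Nat.pos_of_ne_zero (mul_ne_zero (left_ne_zero_of_mul h8) (left_ne_zero_of_mul h8)))
  have := Nat.pos_of_ne_zero (right_ne_zero_of_mul h8)
  have := Nat.pos_of_ne_zero (right_ne_zero_of_mul h9)
  rw [show m = m' by nlinarith]

/-- Let G be a finite group, p a prime, M a maximal ideal of the algebraic integers containing p, and B a p-block of G with defect group D. Then B contains exactly two irreducible characters if and only if D has order 2. -/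
theorem result {G : Type*} [Group G] [Finite G] (p : ℕ) [Fact p.Prime] (M : Ideal Cfsg.AlgInt) (hM : Cfsg.IsPModular p M) (B : Set (Cfsg.IrrCharacter G)) (hB : Cfsg.IsPBlock M B) (D : Subgroup G) (hD : Cfsg.IsDefectGroup p M B D) : Nat.card B = 2 ↔ Nat.card D = 2 := by
  classical
  have := Fintype.ofFinite G
  rw [IsDefectGroup.card_eq_pow hM hB hD]
  refine ⟨fun h => ?_, fun h => ?_⟩
  · have hd : blockDefect p B ≠ 0 := fun h0 => by
      have := card_eq_one_of_blockDefect_eq_zero hM hB h0; omega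
    obtain ⟨χ, hχ, h0⟩ := exists_height_zero p (block_nonempty hM hB)
    obtain ⟨ψ, hne, h2⟩ : ∃ ψ, χ ≠ ψ ∧ B = {χ, ψ} := by
      obtain ⟨x, y, hxy, e⟩ := Set.ncard_eq_two.1 h
      obtain rfl | rfl := e ▸ hχ
      · exact ⟨y, hxy, e⟩
      · exact ⟨x, hxy.symm, e.trans (Set.pair_comm _ _)⟩
    have hψ : ψ ∈ B := by simp [h2]
    have h1 := degree_eq hM hB (by have := blockRank_lt_card hM hB hd; omega) hne h2
    have := Fintype.ofFinite B
    have hs : ∀ {A : Type _} [AddCommMonoid A] (f : IrrCharacter G → A),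
        ∑ θ : B, f θ = f χ + f ψ := fun f => by
      rw [← Finset.sum_subtype {χ, ψ} (by simp [h2]), Finset.sum_pair hne]
    have h3 := congrFun (reg_eq_sum hM hB hχ) 1
    rw [pRegularPart_one hM.1, Finset.sum_apply] at h3
    replace h3 := h3.trans (hs fun θ => contr p χ.1 θ.1 * θ.1 1)
    have h4 := (hs fun θ => cz p (blockDefect p B) χ.1 θ.1 ^ 2).symm.trans (sum_cz_sq hM hB hχ)
    have h5 : (p : ℤ) ^ blockDefect p B = cz p (blockDefect p B) χ.1 χ.1 +
        cz p (blockDefect p B) χ.1 ψ.1 := Int.cast_injective (α := ℂ) (by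
      push_cast
      rw [cz_cast hM hB hχ χ.2.isGen, cz_cast hM hB hχ ψ.2.isGen]
      refine mul_right_cancel₀ χ.2.one_ne_zero ?_
      rw [← h1] at h3
      linear_combination (p : ℂ) ^ blockDefect p B * h3)
    have h6 := cz_ne_zero_of_height_zero hM hB hψ hχ h0
    rw [cz_comm hM.1 _ ψ.2.isGen χ.2.isGen] at h6
    have h7 := mt (pow_height_succ_dvd_cz_iff hM hB hχ hχ).1 (not_not.2 h0)
    rw [h0, zero_add, pow_one] at h7
    have h8 : cz p (blockDefect p B) χ.1 ψ.1 = cz p (blockDefect p B) χ.1 χ.1 :=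
      mul_left_cancel₀ h6 (by rw [h5] at h4; linear_combination h4)
    rw [h8, ← two_mul] at h5
    have h9 : ((p ^ blockDefect p B : ℕ) : ℤ) ∣ (2 : ℕ) := by
      push_cast
      exact (IsCoprime.pow_left ((Nat.prime_iff_prime_int.1 hM.1).coprime_iff_not_dvd.2
        h7)).dvd_of_dvd_mul_right h5.dvd
    exact ((Nat.dvd_prime Nat.prime_two).1 (Int.natCast_dvd_natCast.1 h9)).resolve_left
      (Nat.one_lt_pow hd hM.1.one_lt).ne'
  · have h1 := four_mul_card_le hM hB
    rw [mul_comm 2, pow_mul, h] at h1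
    have h2 := blockRank_lt_card hM hB fun h0 => by simp [h0] at h
    have h3 := blockRank_pos hM hB
    omega

end Cfsg.Agent.S4607
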