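import Cfsg.Statements.S5737
import Mathlib
import Cfsg.Agent.CHEV.SzTor
import Cfsg.Agent.CHEV.HallTor

set_option autoImplicit false
set_option linter.unusedSectionVars false
open Cfsg

namespace Cfsg.Agent.S5737

open CL.Sz MulAction Polynomial

section general

variable {G : Type*} [Group G]

/-- Binary actions. -/
def Bin (G X : Type*) [Group G] [MulAction G X] : Prop :=
  ∀ (n : ℕ) (I J : Fin n → X), 2 ≤ n → (∀ i j : Fin n, i ≠ j → ∃ g : G, g • I i = J i ∧ g • I j = J j) →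
    ∃ g : G, ∀ i, g • I i = J i

section
variable {X : Type*} [MulAction G X] (hb : Bin G X)
include hb

theorem Bin.of_finite {ι : Type*} [Finite ι] (I J : ι → X) (h : ∀ i j, ∃ g : G, g • I i = J i ∧ g • I j = J j) :
    ∃ g : G, ∀ i, g • I i = J i := by
  rcases isEmpty_or_nonempty ι with _ | ⟨⟨i₀⟩⟩
  · exact ⟨1, fun i => isEmptyElim i⟩
  obtain ⟨n, ⟨e⟩⟩ := Finite.exists_equiv_fin ι
  let f : Fin (n + 2) → ι := fun k => if h : k.1 < n then e.symm ⟨k, h⟩ else i₀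
  obtain ⟨g, hg⟩ := hb _ (I ∘ f) (J ∘ f) (by omega) fun i j _ => h _ _
  exact ⟨g, fun i => by simpa [f] using hg ⟨e i, by omega⟩⟩

theorem Bin.tri {a b c : X} {x y : G} (ha : x • a = a) (hb' : y • b = b) (hc : y • c = x • c) :
    ∃ g : G, g • a = a ∧ g • b = b ∧ g • c = x • c := by
  obtain ⟨g, hg⟩ := hb.of_finite ![a, b, c] ![a, b, x • c] fun i j => by
    fin_cases i <;> fin_cases j <;>
      first
      | exact ⟨1, one_smul _ _, one_smul _ _⟩
      | (refine ⟨x, ?_, ?_⟩ <;> (simp [*]; done))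
      | (refine ⟨y, ?_, ?_⟩ <;> (simp [*]; done))
  exact ⟨g, hg 0, hg 1, hg 2⟩

theorem Bin.quad {o a b c : X} {x y : G} (hx : x • o = o) (ha : x • a = a) (hb' : y • b = b)
    (hc : y • c = x • c) : ∃ g : G, g • o = o ∧ g • a = a ∧ g • b = b ∧ g • c = x • c := by
  obtain ⟨g, hg⟩ := hb.of_finite ![o, a, b, c] ![o, a, b, x • c] fun i j => by
    fin_cases i <;> fin_cases j <;>
      first
      | exact ⟨1, one_smul _ _, one_smul _ _⟩
      | (refine ⟨x, ?_, ?_⟩ <;> (simp [*]; done))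
      | (refine ⟨y, ?_, ?_⟩ <;> (simp [*]; done))
  exact ⟨g, hg 0, hg 1, hg 2, hg 3⟩

theorem Bin.fix_of_commute [Finite G] [Finite X] (hJ : ∀ x y : G, orderOf x = 2 → orderOf y = 2 → ∃ k, y = k⁻¹ * x * k)
    {t s : G} (ht : orderOf t = 2) (hs : orderOf s = 2) (hts : orderOf (t * s) = 2) {o : X} (ho : t • o = o) :
    s • o = o := by
  classical
  have hcard : ∀ x : G, orderOf x = 2 → ∀ y : G, orderOf y = 2 → fixedBy X x ⊆ fixedBy X y →
      fixedBy X x = fixedBy X y := fun x hx y hy h => by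
    obtain ⟨k, rfl⟩ := hJ x y hx hy
    refine Set.eq_of_subset_of_ncard_le h (le_of_eq ?_)
    rw [show k⁻¹ * x * k = k⁻¹ * x * k⁻¹⁻¹ by simp, ← smul_fixedBy, Set.ncard_smul_set]
  have h2 : ∀ x : G, orderOf x = 2 → ∀ a : X, x • x • a = a := fun x hx a => by
    rw [← mul_smul, ← sq, ← hx, pow_orderOf_eq_one, one_smul]
  have h3 : ∀ a : X, (t * s) • a = a → s • a = t • a := fun a ha => by rw [← h2 t ht (s • a), ← mul_smul t s, ha]
  obtain ⟨g, hg⟩ := hb.of_finite (ι := {a : X // t • a = a ∨ s • a = a ∨ (t * s) • a = a}) (fun a => a.1)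
    (fun a => if (t * s) • a.1 = a.1 then t • a.1 else a.1) (by
      rintro ⟨a, ha⟩ ⟨b, hb⟩
      dsimp only
      split_ifs with h h' h'
      · exact ⟨t, rfl, rfl⟩
      · rcases hb with hb | hb | hb
        exacts [⟨t, rfl, hb⟩, ⟨s, h3 a h, hb⟩, absurd hb h']
      · rcases ha with ha | ha | ha
        exacts [⟨t, ha, rfl⟩, ⟨s, ha, h3 b h'⟩, absurd ha h]
      · exact ⟨1, one_smul _ _, one_smul _ _⟩)
  have g1 : ∀ a : X, t • a = a ∨ s • a = a → g • a = a := fun a ha => by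
    have := hg ⟨a, ha.imp_right Or.inl⟩
    dsimp only at this
    split_ifs at this with h
    · exact this.trans (ha.elim id fun e => (h3 a h).symm.trans e)
    · exact this
  have g2 : ∀ a : X, (t * s) • a = a → g • a = t • a := fun a ha => by
    simpa [ha] using hg ⟨a, Or.inr (Or.inr ha)⟩
  rcases Nat.even_or_odd (orderOf g) with hg' | ⟨n, hn⟩
  · have h4 := orderOf_pow_orderOf_div (orderOf_pos g).ne' hg'.two_dvd
    have h5 : ∀ a : X, g • a = a → g ^ (orderOf g / 2) • a = a := fun a ha =>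
      pow_mem (show g ∈ stabilizer G a from ha) _
    have := (hcard t ht _ h4 fun a ha => h5 a (g1 a (Or.inl ha))).trans
      (hcard s hs _ h4 fun a ha => h5 a (g1 a (Or.inr ha))).symm
    exact (this ▸ ho : o ∈ fixedBy X s)
  · have := hcard _ hts t ht fun a ha => by
      have h4 : (t * s) • t • a = t • a := by
        rw [mul_smul, ← h3 a ha, h2 s hs, h3 a ha]
      have h5 : g ^ 2 ∈ stabilizer G a := by
        rw [mem_stabilizer_iff, sq, mul_smul, g2 a ha, g2 _ h4, h2 t ht]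
      have h6 : g • a = a := by
        have := pow_mem h5 (n + 1)
        rwa [← pow_mul, show 2 * (n + 1) = orderOf g + 1 by omega, pow_succ, pow_orderOf_eq_one, one_mul] at this
      exact (g2 a ha).symm.trans h6
    exact (h3 o (this.symm ▸ ho : o ∈ fixedBy X (t * s))).trans ho

end

theorem fix_iff {H : Subgroup G} {x k : G} : x • (k : G ⧸ H) = k ↔ k⁻¹ * x * k ∈ H := by
  rw [Quotient.smul_coe, eq_comm, QuotientGroup.eq, smul_eq_mul, mul_assoc]

theorem bin_of {H : Subgroup G} (h2 : ∀ {a b c : G ⧸ H} {x y : G}, x • a = a → y • b = b → x • c = y • c →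
    x • c = c ∨ ∀ k : G, k • a = a → k • b = b) : Bin G (G ⧸ H) := by
  intro n I J hn h
  have h' : ∀ i j, ∃ g : G, g • I i = J i ∧ g • I j = J j := fun i j => by
    by_cases e : i = j
    · obtain ⟨g, hg⟩ := exists_smul_eq G (I i) (J i)
      exact ⟨g, hg, e ▸ hg⟩
    · exact h i j e
  let i₀ : Fin n := ⟨0, by omega⟩
  by_cases hs : ∀ j, ∀ k : G, k • I i₀ = I i₀ → k • I j = I j
  · obtain ⟨g, hg, -⟩ := h' i₀ i₀
    refine ⟨g, fun j => ?_⟩
    obtain ⟨g', e1, e2⟩ := h' i₀ j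
    rw [← e2, ← inv_smul_eq_iff, ← mul_smul]
    exact hs j _ (by rw [mul_smul, hg, ← e1, inv_smul_smul])
  · push Not at hs
    obtain ⟨j, k, hk, hk'⟩ := hs
    obtain ⟨g, e1, e2⟩ := h' i₀ j
    refine ⟨g, fun i => ?_⟩
    obtain ⟨x, e3, e4⟩ := h' i₀ i
    obtain ⟨y, e5, e6⟩ := h' j i
    rcases h2 (a := I i₀) (b := I j) (c := I i) (x := g⁻¹ * x) (y := g⁻¹ * y) (by rw [mul_smul, e3, ← e1, inv_smul_smul])
      (by rw [mul_smul, e5, ← e2, inv_smul_smul]) (by rw [mul_smul, mul_smul, e4, e6]) with e | e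
    · rw [mul_smul, e4, inv_smul_eq_iff] at e
      exact e.symm
    · exact absurd (e k hk) hk'

end general

section sz

variable {F : Type*} [Field F] [CharP F 2] [Finite F] {θ : F →+* F} {G : Type*} [Group G] (M : Model θ G)

theorem mem_U_of_fix {H : Subgroup G} (hH : H ≤ M.U) {a : G ⧸ H} {g k : G} (h1 : g ≠ 1) (hg : g ∈ M.U)
    (ha : g • a = a) (hk : k • a = a) : k ∈ M.U := by
  obtain ⟨c, rfl⟩ := QuotientGroup.mk_surjective a
  simpa [mul_assoc] using M.conj_mem_U ((M.conj_mem_U_iff hg h1 c).mp (hH (fix_iff.mp ha))) (hH (fix_iff.mp hk))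

theorem bin_Z : Bin G (G ⧸ M.Z) := by
  have key : ∀ {a b : G ⧸ M.Z} {x y : G}, x ≠ 1 → y ≠ 1 → x • a = a → y • b = b → x * y = y * x →
      ∀ k : G, k • a = a → k • b = b := by
    intro a b x y hx hy ha hb h k hk
    obtain ⟨c, rfl⟩ := QuotientGroup.mk_surjective a
    obtain ⟨d, rfl⟩ := QuotientGroup.mk_surjective b
    rw [fix_iff] at ha hb hk ⊢
    have h1 : c⁻¹ * y * c ∈ M.U := M.mem_U_of_commute (M.Z_le_U ha) (inv_conj_ne_one c hx) (by
      simp [mul_assoc, ← mul_assoc y x, ← h])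
    have h2 : c⁻¹ * d ∈ M.B := (M.conj_mem_U_iff h1 (inv_conj_ne_one c hy) _).mp (by
      simpa [mul_assoc] using M.Z_le_U hb)
    simpa [mul_assoc] using M.conj_mem_Z (inv_mem h2) hk
  have sq : ∀ {a : G ⧸ M.Z} {x : G}, x • a = a → x * x = 1 := fun {a x} ha => by
    obtain ⟨c, rfl⟩ := QuotientGroup.mk_surjective a
    have := M.sq_eq_one_of_mem_Z (fix_iff.mp ha)
    rwa [show c⁻¹ * x * c * (c⁻¹ * x * c) = c⁻¹ * (x * x) * c by group, inv_conj_eq_one_iff] at this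
  refine bin_of fun {a b c x y} ha hb hc => ?_
  by_cases hx : x = 1
  · exact Or.inl (by rw [hx, one_smul])
  by_cases hy : y = 1
  · exact Or.inl (by rw [hc, hy, one_smul])
  refine Or.inr (key hx hy ha hb ?_)
  have h3 := sq (a := c) (x := y⁻¹ * x) (by rw [mul_smul, hc, inv_smul_smul])
  rw [inv_eq_of_mul_eq_one_right (sq hb)] at h3
  rw [← inv_eq_of_mul_eq_one_right h3, mul_inv_rev, inv_eq_of_mul_eq_one_right (sq ha),
    inv_eq_of_mul_eq_one_right (sq hb)]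

theorem h_rel {l : Fˣ} (hl : l ≠ 1) : ∃ y : F, y ≠ 0 ∧
    M.u 0 y * M.h l * M.u 0 y * M.h l = M.u 0 1 * (M.h l * M.h l) * M.u 0 1 := by
  refine ⟨1 + l ^ 2 * θ l, fun h => hl (Units.ext (M.sq_mul_θ_eq_one (CharTwo.add_eq_zero.mp h).symm)), ?_⟩
  have e : ∀ y g, M.h l * (M.u 0 y * g) = M.u 0 (l ^ 2 * θ l * y) * (M.h l * g) := fun y g => by
    rw [← mul_assoc, M.h_mul_u, mul_zero, mul_assoc]
  have e' : ∀ y, M.h l * M.u 0 y = M.u 0 (l ^ 2 * θ l * y) * M.h l := fun y => by rw [M.h_mul_u, mul_zero]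
  simp only [mul_assoc, e, e']
  rw [← mul_assoc, ← mul_assoc (M.u 0 1), M.u_zero_mul_u_zero, M.u_zero_mul_u_zero]
  congr 2
  linear_combination ((l : F) ^ 2 * θ l) * CharTwo.two_eq_zero (R := F)

theorem le_U_of_bin {H : Subgroup G} (hb : Bin G (G ⧸ H)) (hB : H ≤ M.B) : H ≤ M.U := by
  intro g hg
  by_contra hU
  obtain ⟨v, hv, l, hl⟩ := M.exists_conj_mem_H (hB hg) hU
  have hl1 : l ≠ 1 := by
    rintro rfl
    exact hU ((inv_conj_eq_one_iff.mp (by simpa using hl.symm) : g = 1) ▸ one_mem _)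
  replace hl : (M.conj v).h l ∈ H := by rw [Model.conj_h, hl]; simpa [mul_assoc] using hg
  rw [← M.conj_B_of_mem_B (M.U_le_B hv)] at hB
  generalize M.conj v = M at hB hl
  obtain ⟨y, hy, e⟩ := h_rel M hl1
  have hw : M.w⁻¹ * M.h l * M.w ∈ H := by rw [M.w_inv, M.w_h_w, map_inv]; exact inv_mem hl
  have key : ∀ {g : G} {c : F}, g • ((M.u 0 c * M.w : G) : G ⧸ H) = (M.u 0 c * M.w : G) → g • M.pt 0 c = M.pt 0 c :=
    fun h => fix_iff.mpr (hB (fix_iff.mp h))
  obtain ⟨k, h0, h1, h2, h3⟩ := hb.quad (o := (1 : G)) (a := (M.u 0 0 * M.w : G)) (b := (M.u 0 y * M.w : G))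
    (c := (M.u 0 1 * M.w : G)) (x := M.h l) (y := (M.u 0 y * M.h l * M.u 0 y)⁻¹) (fix_iff.mpr (by simpa using hl))
    (fix_iff.mpr (by simpa [M.u_zero] using hw))
    (fix_iff.mpr (by simpa [mul_assoc, M.u_zero_inv, ← mul_assoc (M.u 0 y) (M.u 0 y), M.u_zero_sq] using inv_mem hw))
    (by
      rw [inv_smul_eq_iff, ← mul_smul, e, eq_comm, fix_iff]
      simpa [mul_assoc, M.u_zero_inv, ← mul_assoc (M.u 0 1) (M.u 0 1), M.u_zero_sq] using mul_mem hw hw)
  obtain rfl : k = 1 := M.eq_one_of_fix_three (M.pt_ne_inf 0 0).symm (fun h => hy (M.pt_inj h).2.symm)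
    (M.pt_ne_inf 0 y).symm (M.smul_inf_eq_inf.mpr (hB (by simpa using fix_iff.mp h0))) (key h1) (key h2)
  rw [one_smul] at h3
  simpa [hl1] using M.h_smul_pt_eq (key h3.symm)

theorem le_Z_of_bin {H : Subgroup G} (hb : Bin G (G ⧸ H)) (hZ : M.Z ≤ H) (hU : H ≤ M.U) : H ≤ M.Z := by
  intro g hg
  by_contra h
  obtain ⟨x, y, rfl⟩ := hU hg
  have h4 := M.orderOf_u_of_ne_zero (x := x) (by rintro rfl; exact h (M.u_mem_Z y)) y
  have key : ∀ k : G, orderOf k = 4 → ∃ a : G ⧸ H, k • a = a := fun k hk => by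
    obtain ⟨c, rfl | rfl⟩ := M.conj_of_orderOf_four h4 hk
    · exact ⟨(c⁻¹ : G), fix_iff.mpr (by simpa [mul_assoc] using hg)⟩
    · exact ⟨(c⁻¹ : G), fix_iff.mpr (by simpa [mul_assoc] using hg)⟩
  have hw : M.w ∉ M.U := fun h => M.w_not_mem_B (M.U_le_B h)
  have h1 : M.u 1 0 ≠ 1 := fun h => one_ne_zero (M.u_eq_one_iff.mp h).1
  obtain ⟨b, hb'⟩ := key _ (M.orderOf_u_of_ne_zero one_ne_zero 0)
  obtain ⟨c, hc⟩ := key ((M.u 1 0)⁻¹ * M.w) (by
    refine orderOf_eq_prime_pow (p := 2) (n := 1) (fun h => ?_) (M.inj ?_)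
    · have := congrArg M.ρ h
      simp only [pow_one, sq, M.u_inv, map_mul, M.ρ_u, M.ρ_w, map_one] at this
      have := congrFun (congrFun this 1) 0
      simp [uMat, ov, Cfsg.suzukiForm, Matrix.mul_apply, Fin.sum_univ_four, CharTwo.add_self_eq_zero] at this
    · simp only [pow_succ, pow_zero, one_mul, Nat.reduceAdd, Nat.reduceMul, M.u_inv, map_mul, M.ρ_u, M.ρ_w, map_one]
      ext i j
      fin_cases i <;> fin_cases j <;>
        simp [uMat, ov, Cfsg.suzukiForm, Matrix.mul_apply, Fin.sum_univ_four, CharTwo.add_self_eq_zero])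
  have ha : M.w • (((M.u 1 0)⁻¹ * M.w : G) : G ⧸ H) = ((M.u 1 0)⁻¹ * M.w : G) := fix_iff.mpr (by
    convert hZ (M.u_mem_Z 1) using 1
    calc _ = M.w⁻¹ * (M.u 1 0 * M.w * (M.u 1 0)⁻¹) * M.w := by group
      _ = _ := by rw [← M.w_conj_u, mul_assoc, mul_assoc, M.w_mul_w]; group)
  obtain ⟨g, g1, g2, g3⟩ := hb.tri ha hb' (c := c) (by rw [eq_comm, ← inv_smul_eq_iff, ← mul_smul, hc])
  by_cases h : g = 1
  · rw [h, one_smul] at g3
    refine hw (mem_U_of_fix M hU h1 (M.u_mem_U _ _) ?_ g3.symm)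
    rwa [mul_smul, ← g3, inv_smul_eq_iff, eq_comm] at hc
  · exact hw (mem_U_of_fix M hU h (mem_U_of_fix M hU h1 (M.u_mem_U _ _) hb' g2) g1 ha)

theorem le_B_of_Z_le (hq : ∃ t : F, t ≠ 0 ∧ t ≠ 1) {H : Subgroup G} (hH : H ≠ ⊤) (hZ : M.Z ≤ H) : H ≤ M.B := by
  intro k hk
  by_contra hB
  obtain ⟨t, h0, h1⟩ := hq
  obtain ⟨⟨s, hs, hs2, hs3⟩, -⟩ := M.exists_swap_and_conj (hZ (M.u_mem_Z 1)) (M.u_mem_Z 1)
    (fun h => one_ne_zero (M.u_eq_one_iff.mp h).2) hk hB
  obtain ⟨b, hb, rfl⟩ := M.exists_conj_w_eq hs2 fun h => hB (by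
    rw [← M.smul_inf_eq_inf, ← hs3, M.smul_inf_eq_inf.mpr h])
  rw [← M.conj_Z_of_mem_B hb] at hZ
  rw [← M.conj_w] at hs
  obtain ⟨S, -, rfl⟩ := (M.conj b).eq_sub_of_w_mem hs one_ne_zero h0 h1 (hZ (Model.u_mem_Z _ _)) (hZ (Model.u_mem_Z _ _))
  obtain rfl : S = ⊤ := eq_top_iff.mpr fun y _ => ((M.conj b).u_mem_sub.mp (hZ (Model.u_mem_Z _ y))).2
  exact hH (Model.sub_top _)

theorem eq_Z_of_bin (hq : ∃ t : F, t ≠ 0 ∧ t ≠ 1) {H : Subgroup G} (hH : H ≠ ⊤) (hb : Bin G (G ⧸ H)) {t : G}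
    (ht : t ∈ H) (h1 : t ≠ 1) (htZ : t ∈ M.Z) : H = M.Z := by
  have := M.finite_G
  have h2 : ∀ {s}, s ∈ M.Z → s ≠ 1 → orderOf s = 2 := fun hs h => M.mem_conjSet_Z_iff.mp (mem_conjSet_of_mem hs h)
  have hZ : M.Z ≤ H := fun s hs => by
    by_cases e : s = 1
    · exact e ▸ one_mem _
    by_cases e' : t * s = 1
    · exact eq_inv_of_mul_eq_one_right e' ▸ inv_mem ht
    simpa using fix_iff.mp (hb.fix_of_commute (fun _ _ => M.conj_of_orderOf_two) (h2 htZ h1) (h2 hs e)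
      (h2 (mul_mem htZ hs) e') (o := (1 : G)) (fix_iff.mpr (by simpa using ht)))
  exact (le_Z_of_bin M hb hZ (le_U_of_bin M hb (le_B_of_Z_le M hq hH hZ))).antisymm hZ

theorem aeval_eq_zero (g : G) : aeval (M.ρ g) (X ^ 4 + C (M.ρ g).trace * X ^ 3 + C (θ (M.ρ g).trace) * X ^ 2 +
    C (M.ρ g).trace * X + 1 : F[X]) = 0 := by
  have h := congrArg (M.ρ g * M.ρ g * ·) (M.isSz g).quad
  have h1 : M.ρ g * M.ρ g⁻¹ = 1 := by rw [← map_mul, mul_inv_cancel, map_one]
  have h1' : M.ρ g⁻¹ * M.ρ g = 1 := by rw [← map_mul, inv_mul_cancel, map_one]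
  have h2 : ∀ A, M.ρ g * (M.ρ g⁻¹ * A) = A := fun A => by rw [← mul_assoc, h1, one_mul]
  have h3 : M.ρ g * M.ρ g + M.ρ g * M.ρ g = 0 := by ext; simp [CharTwo.add_self_eq_zero]
  simp only [← M.ρ_inv, mul_add, add_mul, mul_smul_comm, smul_add, mul_assoc, h1, h1', h2, mul_one, mul_zero] at h
  simp only [map_add, map_mul, aeval_C, aeval_X, map_one, ← Algebra.smul_def, pow_succ, pow_zero, one_mul,
    mul_assoc]
  rw [← sub_eq_zero.mpr h, ← h3]
  abel

theorem pow_eq_one_of_trace {x g : G} (hx : M.FPF x) (h : (M.ρ g).trace = (M.ρ x).trace) : g ^ orderOf x = 1 := by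
  classical
  have hi : IsIntegral F (M.ρ x) := Algebra.IsIntegral.isIntegral _
  have h4 : 4 ≤ (minpoly F (M.ρ x)).natDegree := by
    let φ : Matrix (Fin 4) (Fin 4) F →ₗ[F] Fin 4 → F := (Matrix.mulVecBilin F F).flip (Pi.single 0 1)
    have := (M.eq_bot_or_top_of_orderOf_dvd hx.ne_one hx.orderOf_dvd
      ((Subalgebra.toSubmodule (Algebra.adjoin F {M.ρ x})).map φ) (by
        rintro _ ⟨A, hA, rfl⟩
        exact ⟨M.ρ x * A, Subalgebra.mul_mem _ (Algebra.self_mem_adjoin_singleton _ _) hA, by simp [φ]⟩)).resolve_left fun e => by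
      have : φ 1 ∈ (⊥ : Submodule F _) := e ▸ Submodule.mem_map_of_mem (one_mem (Algebra.adjoin F {M.ρ x}))
      simp [φ] at this
    have h5 := Submodule.finrank_map_le φ (Subalgebra.toSubmodule (Algebra.adjoin F {M.ρ x}))
    rw [this, finrank_top, Module.finrank_fin_fun,
      ← Submodule.span_range_natDegree_eq_adjoin (minpoly.monic hi) (minpoly.aeval _ _)] at h5
    exact h5.trans ((finrank_span_finset_le_card _).trans (by
      convert Finset.card_image_le.trans (Finset.card_range _).le))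
  have h5 := eq_of_monic_of_dvd_of_natDegree_le (minpoly.monic hi) (by monicity!) (minpoly.dvd _ _ (aeval_eq_zero M x))
    (le_trans (by compute_degree) h4)
  obtain ⟨p, hp⟩ := minpoly.dvd F (M.ρ x) (p := X ^ orderOf x - 1) (by
    rw [map_sub, map_pow, aeval_X, ← map_pow, pow_orderOf_eq_one, map_one, map_one, sub_self])
  have := congrArg (aeval (M.ρ g)) hp
  rw [← h5, ← h, map_mul, aeval_eq_zero, zero_mul] at this
  exact M.inj (by simpa [sub_eq_zero] using this)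

include M in
theorem comm_of_pow_four {g a b : G} (h4 : g ^ 4 ≠ 1) (ha : a * g = g * a) (hb : b * g = g * b) : a * b = b * a := by
  have h1 : g ≠ 1 := by rintro rfl; simp at h4
  rcases M.trichotomy h1 with h | ⟨-, k, h⟩ | h
  · exact absurd (M.pow_four_of_mem_conjSet_U h) h4
  · have key : ∀ a, a * g = g * a → k⁻¹ * a * k ∈ M.H := fun a ha =>
      M.mem_H_of_commute h (inv_conj_ne_one k h1) (by simp [mul_assoc, ← mul_assoc a g, ha])
    exact mul_right_cancel (b := k) (by simpa [mul_assoc] using M.H_comm (key a ha) (key b hb))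
  · exact h.centralizer_comm (Subgroup.mem_centralizer_singleton_iff.mpr ha)
      (Subgroup.mem_centralizer_singleton_iff.mpr hb)

theorem trace_one (y : F) : (M.ρ (M.w * M.u 0 1 * M.w * M.u 0 y)).trace = θ y := by
  simp [M.ρ_u, M.ρ_w, uMat, ov, Cfsg.suzukiForm, Matrix.trace, Fin.sum_univ_four, CharTwo.add_self_eq_zero]
  grind

theorem trace_two (a b : F) : (M.ρ (M.u a b * (M.w * M.u 0 1 * M.w) * (M.u a b)⁻¹ * (M.w * M.u 0 1 * M.w))).trace =
    ov θ a b ^ 2 := by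
  simp [M.ρ_u, M.ρ_w, M.u_inv, uMat, ov, Cfsg.suzukiForm, Matrix.trace, Fin.sum_univ_four, CharTwo.add_self_eq_zero,
    M.tits]
  grind

end sz

theorem not_bin_of_odd {F : Type*} [Field F] [CharP F 2] [Fintype F] {m : ℕ} {G : Type*} [Group G]
    (M : Model (theta F m) G) (hm : 1 ≤ m) (hF : Fintype.card F = 2 ^ (2 * m + 1)) {H : Subgroup G}
    (hH : Odd (Nat.card H)) (hb : Bin G (G ⧸ H)) : H = ⊥ := by
  have := M.finite_G
  have hodd : ∀ x ∈ H, x ^ 4 = 1 → x = 1 := fun x hx => eq_one_of_odd_of_pow_four (odd_orderOf_of_mem hH hx)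
  refine (Subgroup.eq_bot_iff_forall _).mpr fun x hx => ?_
  by_contra h1
  rcases M.trichotomy h1 with h | ⟨-, k, h⟩ | h
  · exact h1 (hodd x hx (M.pow_four_of_mem_conjSet_U h))
  · rw [← M.mem_conj_H] at h
    refine h1 (hodd x hx ((M.conj k).pow_four_of_mem_U (le_U_of_bin _ hb ?_ hx)))
    exact (M.le_centralizer_of_odd hm hF hH hx).trans (((M.conj k).centralizer_of_mem_H h h1).le.trans (Model.H_le_B _))
  have hτ : (M.ρ x).trace ≠ 0 := fun e => h1 (hodd x hx (M.inj (by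
    have := aeval_eq_zero M x
    rw [map_pow, map_one]
    ext i j
    simpa [e, CharTwo.add_eq_zero] using congrFun (congrFun this i) j)))
  have key : ∀ g : G, (M.ρ g).trace = (M.ρ x).trace → M.FPF g ∧ ∃ a : G ⧸ H, g • a = a := fun g hg => by
    have h2 := pow_eq_one_of_trace M h hg
    have h3 : g ≠ 1 := by
      rintro rfl
      exact hτ (by simpa [show (4 : F) = 0 by linear_combination 2 * CharTwo.two_eq_zero (R := F)] using hg.symm)
    refine ⟨M.FPF_iff.mpr ⟨h3, orderOf_dvd_iff_pow_eq_one.mp ((orderOf_dvd_of_pow_eq_one h2).trans h.orderOf_dvd)⟩, ?_⟩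
    obtain ⟨k, hk, hk'⟩ : ∃ k, (k = kPlus m ∨ k = kMinus m) ∧ x ^ k = 1 :=
      (h.pow_eq_one_or hF).elim (fun e => ⟨_, Or.inl rfl, e⟩) fun e => ⟨_, Or.inr rfl, e⟩
    obtain ⟨-, c, hc⟩ : g ∈ conjSet (Subgroup.centralizer {x}) := by
      rw [((M.torus hm hF hk).2 x h1 hk').2.1]
      exact ⟨h3, orderOf_dvd_iff_pow_eq_one.mp ((orderOf_dvd_of_pow_eq_one h2).trans (orderOf_dvd_of_pow_eq_one hk'))⟩
    refine ⟨c, fix_iff.mpr (Subgroup.zpowers_le.mpr hx (CL.HT.mem_of_isCyclic h.isCyclic_centralizer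
      (Subgroup.zpowers_le.mpr (Subgroup.mem_centralizer_singleton_iff.mpr rfl)) hc ?_))⟩
    rwa [Nat.card_zpowers, inv_conj_pow_eq_one_iff]
  have hcomm : ∀ {a : G ⧸ H} {g k : G}, g • a = a → k • a = a → g * k = k * g := fun {a g k} hg hk => by
    obtain ⟨c, rfl⟩ := QuotientGroup.mk_surjective a
    exact mul_right_cancel (b := c) (by simpa [mul_assoc] using (Subgroup.mem_centralizer_singleton_iff.mp
      (M.le_centralizer_of_odd hm hF hH (fix_iff.mp hk) (fix_iff.mp hg))))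
  obtain ⟨y, hy⟩ := Model.θ_surjective (θ := theta F m) (M.ρ x).trace
  have hy0 : y ≠ 0 := by rintro rfl; exact hτ (by simpa using hy.symm)
  obtain ⟨hx₁, a, ha⟩ := key _ ((trace_one M y).trans hy)
  have T := hx₁.tor hm hF
  have main : ∀ u v : F, u ≠ 0 → ov (theta F m) u v ^ 2 = (M.ρ x).trace → theta F m u * u = y := fun u v hu huv => by
    obtain ⟨-, b, hb'⟩ := key _ ((trace_two M u v).trans huv)
    set t := M.w * M.u 0 1 * M.w with ht
    have ht2 : t * t = 1 := by simp [ht, mul_assoc, ← mul_assoc M.w M.w, M.w_mul_w, ← mul_assoc (M.u 0 1) (M.u 0 1),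
      M.u_zero_sq]
    clear_value t
    have e1 : M.u u v * t * (M.u u v)⁻¹ * t * (t * M.u 0 y) = M.u u v * (t * M.u 0 y) * (M.u u v)⁻¹ := by
      rw [mul_assoc _ t, ← mul_assoc t, ht2, one_mul, mul_assoc, mul_assoc, mul_assoc, mul_assoc t,
        M.Z_comm_U (M.u_mem_Z y) (inv_mem (M.u_mem_U u v))]
    have hc : (M.u u v * t * (M.u u v)⁻¹ * t * (t * M.u 0 y)) • M.u u v • a = M.u u v • a := by
      rw [e1, mul_smul, inv_smul_smul, mul_smul, ha]
    obtain ⟨g, g1, g2, g3⟩ := hb.tri ha (y := _⁻¹) (inv_smul_eq_iff.mpr hb'.symm) (c := M.u u v • a)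
      (by rw [inv_smul_eq_iff, ← mul_smul, hc])
    have e2 : Commute (M.u u v * t * (M.u u v)⁻¹ * t * (t * M.u 0 y)) (t * M.u 0 y) := by
      by_cases e : g = 1
      · rw [e, one_smul] at g3
        exact hcomm hc g3.symm
      · obtain ⟨c, rfl⟩ := QuotientGroup.mk_surjective a
        exact Commute.mul_left (comm_of_pow_four M (fun e' => e (inv_conj_eq_one_iff.mp (hodd _ (fix_iff.mp g1)
          (inv_conj_pow_eq_one_iff.mpr e')))) (hcomm hb' g2) (hcomm ha g1)) rfl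
    rw [e1] at e2
    have hmem := Subgroup.mem_centralizer_singleton_iff.mpr (rfl : t * M.u 0 y * (t * M.u 0 y) = _)
    have e3 := inv_mem ((T.ti _ hmem hx₁.ne_one (M.u u v)⁻¹).mp (by
      simpa using Subgroup.mem_centralizer_singleton_iff.mpr e2.eq))
    rw [inv_inv] at e3
    have e4 := T.conj_eq_inv (mul_mem e3 e3) (by
      rw [M.u_sq]; exact M.orderOf_u_zero (mul_ne_zero (Model.θ_ne_zero hu) hu)) hmem
    rw [M.u_sq] at e4
    by_contra e5
    refine hx₁.not_mem_B (M.U_le_B (M.mem_U_of_commute (M.u_mem_U 0 (theta F m u * u + y))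
      (fun e => e5 (CharTwo.add_eq_zero.mp (M.u_eq_one_iff.mp e).2)) ?_))
    rw [mul_inv_rev, M.u_zero_inv, inv_eq_of_mul_eq_one_right ht2] at e4
    rw [← M.u_zero_mul_u_zero, ← mul_assoc (_ * M.u 0 y) t, mul_assoc _ (M.u 0 y) t, ← e4]
    have z1 : ∀ c g, M.u 0 c * (M.u 0 c * g) = g := fun c g => by rw [← mul_assoc, M.u_zero_sq, one_mul]
    simp only [mul_assoc, z1]
  have hsq : ∀ c : F, ∃ s, s ^ 2 = c := fun c => by
    obtain ⟨s, rfl⟩ := Model.θ_surjective (θ := theta F m) c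
    obtain ⟨s, rfl⟩ := Model.θ_surjective (θ := theta F m) s
    exact ⟨s, (M.tits s).symm⟩
  have fin : ∀ b : F, ∃ l, l ^ 2 * theta F m l = y ∧
      ((theta F m l * l) ^ 2 * ov (theta F m) 1 b) ^ 2 = (M.ρ x).trace := fun b => by
    have h0 : ov (theta F m) 1 b ≠ 0 := M.ov_ne_zero (by simp)
    obtain ⟨s, hs⟩ := hsq (M.ρ x).trace
    obtain ⟨c, hc⟩ := hsq (s / ov (theta F m) 1 b)
    obtain ⟨l, rfl⟩ := Finite.surjective_of_injective M.θ_mul_self_injective c
    have e : ((theta F m l * l) ^ 2 * ov (theta F m) 1 b) ^ 2 = (M.ρ x).trace := by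
      rw [hc, div_mul_cancel₀ _ h0, hs]
    refine ⟨l, ?_, e⟩
    rw [← M.tits]
    refine main _ (l ^ 2 * theta F m l * b) (Model.θ_ne_zero ?_) ?_
    · rintro rfl
      exact hτ (by simpa using e.symm)
    · rw [← e]
      simp only [ov, map_mul, map_pow, M.tits, map_one]
      ring
  obtain ⟨t, ht0, ht1⟩ := exists_ne_zero_one hm hF
  obtain ⟨l, e1, e2⟩ := fin 0
  obtain ⟨l', e3, e4⟩ := fin t
  obtain rfl := M.sq_mul_θ_injective (e1.trans e3.symm)
  have h0 : (theta F m l * l) ^ 2 ≠ 0 := fun e => hτ (by rw [← e2, e]; simp)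
  have e5 := mul_left_cancel₀ h0 (frobenius_inj F 2 (e2.trans e4.symm))
  have e6 : theta F m t = t := by
    simp only [ov, map_zero, map_one] at e5
    grind
  have := M.tits t
  rw [e6, e6] at this
  grind

/-- Let G = Sz(q) be a Suzuki group, q = 2^(2a+1) with a ≥ 1 (realised inside Sp₄ over the field with q elements), and let H be a proper subgroup of G. Then the action of G on the cosets of H is binary if and only if H is trivial or H is the centre of a Sylow 2-subgroup of G. Here an action is binary (relational complexity 2) when, for every n ≥ 2 and all n-tuples I, J of points, if for every pair of positions some group element carries the corresponding pair of entries of I to those of J, then a single group element carries I to J. -/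
theorem result {F : Type*} [Field F] [Fintype F] (a : ℕ) (ha : 1 ≤ a) (hF : Fintype.card F = 2 ^ (2 * a + 1))
    (H : Subgroup (Cfsg.Lie.Sz F (2 ^ (a + 1)))) (hH : H ≠ ⊤) :
    (∀ (n : ℕ) (I J : Fin n → (Cfsg.Lie.Sz F (2 ^ (a + 1))) ⧸ H), 2 ≤ n →
        (∀ i j : Fin n, i ≠ j → ∃ g : (Cfsg.Lie.Sz F (2 ^ (a + 1))), g • I i = J i ∧ g • I j = J j) → ∃ g : (Cfsg.Lie.Sz F (2 ^ (a + 1))), ∀ i, g • I i = J i) ↔
      (H = ⊥ ∨ ∃ P : Sylow 2 (Cfsg.Lie.Sz F (2 ^ (a + 1))), H = (Subgroup.center (P : Subgroup (Cfsg.Lie.Sz F (2 ^ (a + 1))))).map (P : Subgroup (Cfsg.Lie.Sz F (2 ^ (a + 1)))).subtype) := by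
  have := charP_two hF
  set M := lieModel hF
  have := M.finite_G
  obtain ⟨t, ht0, ht1⟩ := exists_ne_zero_one ha hF
  have hc : ∀ M' : Model (theta F a) (Cfsg.Lie.Sz F (2 ^ (a + 1))), (Subgroup.center M'.U).map M'.U.subtype = M'.Z :=
    fun M' => by rw [M'.center_U ht0 ht1, Subgroup.subgroupOf_map_subtype, inf_eq_left.mpr M'.Z_le_U]
  refine ⟨fun hb => ?_, ?_⟩
  · rcases Nat.even_or_odd (Nat.card H) with h | h
    · obtain ⟨⟨x, hx⟩, h2⟩ := exists_prime_orderOf_dvd_card' 2 h.two_dvd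
      obtain ⟨h1, k, hk⟩ := M.mem_conjSet_Z_iff.mpr ((Subgroup.orderOf_coe _).trans h2)
      exact Or.inr ⟨(M.conj k).sylow, (eq_Z_of_bin _ ⟨t, ht0, ht1⟩ hH hb hx h1 ((M.mem_conj_Z _ _).mpr hk)).trans
        (hc _).symm⟩
    · exact Or.inl (not_bin_of_odd M ha hF h hb)
  · rintro (rfl | ⟨P, rfl⟩)
    · refine bin_of fun {a b c x y} hx _ _ => Or.inl ?_
      obtain ⟨k, rfl⟩ := QuotientGroup.mk_surjective a
      rw [inv_conj_eq_one_iff.mp (Subgroup.mem_bot.mp (fix_iff.mp hx)), one_smul]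
    · obtain ⟨M', h⟩ := M.exists_model_U_eq P
      rw [← h, hc]
      exact bin_Z M'

end Cfsg.Agent.S5737
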