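import Cfsg.Statements.S2457
import Mathlib
import Cfsg.Agent.CHEV.SzChar3

set_option autoImplicit false
open Cfsg

namespace Cfsg.Agent.S2457

open CL.Sz CL.Sz.Tor CL.Char CL.Sz.Setup
open scoped ComplexConjugate

theorem exists_bound {G : Type*} [Group G] [Fintype G] {P N : Subgroup G} {s : ℕ} (T : Tor P N s)
    (A : Finset (P →* ℂˣ)) (x : G) {g : G} (hg : g ≠ 1) {a : ℝ}
    (hA : ∑ l ∈ A, e P l x * e P l x = a) :
    ∃ B : ℝ, |B| ≤ s * a ∧ ∑ l ∈ A, e P l x * e P l x * e P l g = B := by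
  have hr : ∀ l y, e P l y = ((e P l y).re : ℂ) := fun l y =>
    (Complex.conj_eq_iff_re.mp (T.conj_e l y)).symm
  refine ⟨∑ l ∈ A, (e P l x).re * (e P l x).re * (e P l g).re, ?_, ?_⟩
  · have : a = ∑ l ∈ A, (e P l x).re * (e P l x).re := by
      apply Complex.ofReal_injective
      rw [← hA]
      push_cast
      exact Finset.sum_congr rfl fun l _ => by rw [← hr]
    rw [this, Finset.mul_sum]
    refine (Finset.abs_sum_le_sum_abs _ _).trans (Finset.sum_le_sum fun l _ => ?_)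
    rw [abs_mul, abs_mul_self, mul_comm]
    exact mul_le_mul_of_nonneg_right ((Complex.abs_re_le_norm _).trans (T.norm_e_le l hg))
      (mul_self_nonneg _)
  · push_cast
    exact Finset.sum_congr rfl fun l _ => by rw [← hr, ← hr]

theorem card_cent {G : Type*} [Group G] {P N : Subgroup G} {s : ℕ} (T : Tor P N s) {x : G}
    (hx : x ∈ conjSet P) : Nat.card (Subgroup.centralizer {x}) = Nat.card P := by
  obtain ⟨h1, k, hk⟩ := hx
  rw [← card_centralizer_conj k, T.cent _ hk (inv_conj_ne_one k h1)]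

theorem ne_zero_of_pos {z : ℂ} (r : ℝ) (hr : 0 < r) (h : z = r) : z ≠ 0 := by
  rw [h]; exact_mod_cast hr.ne'

theorem conjW (s : ℕ) : conj ((s : ℂ) * (2 * s ^ 2 - 1)) = (s : ℂ) * (2 * s ^ 2 - 1) := by
  simp [Complex.conj_ofNat]

section ineq

variable {σ : ℝ} (h : 2 ≤ σ)
include h

theorem p1 : 0 < 2 * σ ^ 2 - 1 := by nlinarith
theorem p2 : 0 < 2 * σ ^ 2 - 2 * σ + 1 := by nlinarith
theorem b1 : 1 / (4 * σ ^ 4) ≤ 1 / 64 := by
  apply one_div_le_one_div_of_le (by norm_num)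
  nlinarith [pow_le_pow_left₀ (by norm_num) h 4]
theorem b2 : 2 / (σ * (2 * σ ^ 2 - 1)) ≤ 1 / 7 := by
  have := p1 h
  rw [div_le_div_iff₀ (by positivity) (by norm_num)]
  nlinarith
theorem b3 : 2 * σ / (σ * (2 * σ ^ 2 - 1)) ≤ 2 / 7 := by
  have := p1 h
  rw [div_le_div_iff₀ (by positivity) (by norm_num)]
  nlinarith [mul_nonneg (by linarith : 0 ≤ σ) (by nlinarith : 0 ≤ σ ^ 2 - 4)]
theorem b4 : 2 * σ ^ 2 / (σ * (2 * σ ^ 2 - 1)) ≤ 4 / 7 := by
  have := p1 h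
  rw [div_le_div_iff₀ (by positivity) (by norm_num)]
  obtain ⟨t, ht, rfl⟩ : ∃ t, 0 ≤ t ∧ σ = t + 2 := ⟨σ - 2, by linarith, by ring⟩
  nlinarith [pow_nonneg ht 2, pow_nonneg ht 3]
theorem b5 : (2 * σ ^ 2 + 2 * σ) / ((2 * σ ^ 2 - 1) * (2 * σ ^ 2 - 2 * σ + 1)) ≤ 12 / 35 := by
  rw [div_le_div_iff₀ (mul_pos (p1 h) (p2 h)) (by norm_num)]
  obtain ⟨t, ht, rfl⟩ : ∃ t, 0 ≤ t ∧ σ = t + 2 := ⟨σ - 2, by linarith, by ring⟩
  nlinarith [pow_nonneg ht 2, pow_nonneg ht 3, pow_nonneg ht 4]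
theorem b6 : 4 * (2 * σ ^ 2 + 2 * σ - 3) / ((2 * σ ^ 2 - 1) * (2 * σ ^ 2 - 2 * σ + 1)) ≤
    63 / 65 + 2 / (σ * (2 * σ ^ 2 - 1)) := by
  have := p1 h
  have := p2 h
  rw [div_add_div _ _ (by norm_num) (by positivity),
    div_le_div_iff₀ (by positivity) (by positivity)]
  obtain ⟨t, ht, rfl⟩ : ∃ t, 0 ≤ t ∧ σ = t + 2 := ⟨σ - 2, by linarith, by ring⟩
  have : 0 ≤ t ^ 7 + t ^ 6 + t ^ 5 := by positivity
  nlinarith [pow_nonneg ht 2, pow_nonneg ht 3, pow_nonneg ht 4, pow_nonneg ht 5, pow_nonneg ht 6,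
    pow_nonneg ht 7]
theorem b7 : (2 * σ ^ 2 - 2 * σ) * (2 * σ + 1) / ((2 * σ ^ 2 - 1) * (2 * σ ^ 2 + 2 * σ + 1)) ≤
    1 / 2 := by
  have := p1 h
  rw [div_le_div_iff₀ (by positivity) (by norm_num)]
  obtain ⟨t, ht, rfl⟩ : ∃ t, 0 ≤ t ∧ σ = t + 2 := ⟨σ - 2, by linarith, by ring⟩
  nlinarith [pow_nonneg ht 2, pow_nonneg ht 3, pow_nonneg ht 4]
theorem b8 : (4 * σ ^ 2 - 6) / (4 * σ ^ 4 + 1) ≤ 1 / 2 := by
  rw [div_le_div_iff₀ (by positivity) (by norm_num)]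
  nlinarith [sq_nonneg (σ ^ 2 - 1)]

end ineq

section main

variable {F : Type*} [Field F] [CharP F 2] [Finite F] {θ : F →+* F} {G : Type*} [Group G]
  [Fintype G] {M : Model θ G} {s : ℕ} {P₁ N₁ P₂ N₂ : Subgroup G} (S : Setup M s P₁ N₁ P₂ N₂)
include S

theorem sum_H {x g : G} (hx : x ∈ conjSet M.H) (hg : g ≠ 1) :
    ∑ χ : IrrCharacter G, (χ : G → ℂ) x * (χ : G → ℂ) x * conj ((χ : G → ℂ) g) / (χ : G → ℂ) 1 ≠ 0 := by
  classical
  have := Fintype.ofFinite (M.H →* ℂˣ)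
  have := Fintype.ofFinite (P₁ →* ℂˣ)
  have := Fintype.ofFinite (P₂ →* ℂˣ)
  have hσ := S.sR
  have hA : ∑ l ∈ Finset.univ.erase 1, e M.H l x * e M.H l x = ((4 * s ^ 2 - 6 : ℝ) : ℂ) := by
    have h := column_conj (IsConj.refl x)
    rw [S.sum_irr fun χ => χ x * conj (χ x), card_cent S.T₀ hx, S.c₀C] at h
    simp only [S.St_H hx, S.X_H _ hx, S.Y₁_H _ hx, S.Y₂_H _ hx, S.W_H hx, S.T₀.conj_e, map_zero,
      map_one, mul_zero, Finset.sum_const_zero] at h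
    push_cast
    linear_combination 2 * h
  obtain ⟨B, hB, hB'⟩ := exists_bound S.T₀ _ x hg hA
  rw [S.sum_irr fun χ => χ x * χ x * conj (χ g) / χ 1]
  simp only [S.St_H hx, S.X_H _ hx, S.Y₁_H _ hx, S.Y₂_H _ hx, S.W_H hx, map_zero, map_one, mul_zero,
    zero_mul, zero_div, Finset.sum_const_zero, S.St_one, S.X_one, ← Finset.sum_div]
  have b1 := b1 hσ
  have b8 := b8 hσ
  have hU : g ∈ conjSet M.U → _ := fun h => by
    refine ne_zero_of_pos (1 + (4 * s ^ 2 - 6) / (4 * s ^ 4 + 1) / 2) ?_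
      (?_ : 1 * 1 * 1 / 1 + 1 * 1 * conj (St M g) / (4 * s ^ 4) +
        (∑ l ∈ Finset.univ.erase 1, e M.H l x * e M.H l x * conj (X M l g)) / (4 * s ^ 4 + 1) / 2 +
          0 + 0 + 0 + 0 = _)
    · have : (0 : ℝ) ≤ 4 * s ^ 2 - 6 := by nlinarith
      positivity
    · simp only [S.St_U h, S.X_U _ h, map_one, mul_one, hA]
      push_cast
      simp
  have hF : M.FPF g → _ := fun h => by
    refine ne_zero_of_pos (1 - 1 / (4 * s ^ 4)) (by linarith)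
      (?_ : 1 * 1 * 1 / 1 + 1 * 1 * conj (St M g) / (4 * s ^ 4) +
        (∑ l ∈ Finset.univ.erase 1, e M.H l x * e M.H l x * conj (X M l g)) / (4 * s ^ 4 + 1) / 2 +
          0 + 0 + 0 + 0 = _)
    simp only [S.St_FPF h, S.X_FPF _ h, map_zero, mul_zero, Finset.sum_const_zero, map_neg, map_one]
    push_cast
    ring
  rcases S.cases g with rfl | h | h | h | h | h
  · exact absurd rfl hg
  · exact hU (S.U_two h)
  · exact hU (S.U_four h)
  · refine ne_zero_of_pos (1 + 1 / (4 * s ^ 4) + B / (4 * s ^ 4 + 1) / 2) ?_ ?_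
    · have h1 : -(4 * s ^ 2 - 6) / (4 * s ^ 4 + 1) ≤ B / (4 * s ^ 4 + 1) / 2 := by
        rw [div_right_comm]
        apply div_le_div_of_nonneg_right _ (by positivity)
        have := neg_abs_le B
        push_cast at hB
        linarith
      rw [neg_div] at h1
      have : (0 : ℝ) < 1 / (4 * s ^ 4) := by positivity
      linarith
    · simp only [S.St_H h, S.X_H _ h, S.T₀.conj_e, hB', map_one]
      push_cast
      ring
  · exact hF (S.fpf₁ h)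
  · exact hF (S.fpf₂ h)

theorem sum_₁ {x g : G} (hx : x ∈ conjSet P₁) (hg : g ≠ 1) :
    ∑ χ : IrrCharacter G, (χ : G → ℂ) x * (χ : G → ℂ) x * conj ((χ : G → ℂ) g) / (χ : G → ℂ) 1 ≠ 0 := by
  classical
  have := Fintype.ofFinite (M.H →* ℂˣ)
  have := Fintype.ofFinite (P₁ →* ℂˣ)
  have := Fintype.ofFinite (P₂ →* ℂˣ)
  have hσ := S.sR
  have hf := S.fpf₁ hx
  have hA : ∑ l ∈ Finset.univ.erase 1, e P₁ l x * e P₁ l x =
      ((4 * (2 * s ^ 2 + 2 * s - 3) : ℝ) : ℂ) := by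
    have h := column_conj (IsConj.refl x)
    rw [S.sum_irr fun χ => χ x * conj (χ x), card_cent S.T₁ hx, S.c₁C] at h
    simp only [S.St_FPF hf, S.X_FPF _ hf, S.Y₁_₁ _ hx, S.Y₂_₁ _ hx, S.W_₁ hx, S.T₁.conj_e, map_zero,
      map_one, mul_zero, Finset.sum_const_zero, map_neg, neg_mul_neg] at h
    push_cast
    linear_combination 4 * h
  obtain ⟨B, hB, hB'⟩ := exists_bound S.T₁ _ x hg hA
  rw [S.sum_irr fun χ => χ x * χ x * conj (χ g) / χ 1]
  simp only [S.St_FPF hf, S.X_FPF _ hf, S.Y₁_₁ _ hx, S.Y₂_₁ _ hx, S.W_₁ hx, map_one, mul_zero,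
    zero_mul, zero_div, Finset.sum_const_zero, S.St_one, S.Y₁_one, ← Finset.sum_div, neg_mul_neg,
    conjW, S.W_one, Complex.conj_conj]
  have b1 := b1 hσ
  have b2 := b2 hσ
  have b3 := b3 hσ
  have b5 := b5 hσ
  have b6 := b6 hσ
  have p1 := p1 hσ
  have p2 := p2 hσ
  have p3 : (0 : ℝ) ≤ 2 * s ^ 2 + 2 * s - 3 := by nlinarith
  rcases S.cases g with rfl | h | h | h | h | h
  · exact absurd rfl hg
  · refine ne_zero_of_pos (1 + (2 * s ^ 2 + 2 * s - 3) * (2 * s - 1) /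
      ((2 * s ^ 2 - 1) * (2 * s ^ 2 - 2 * s + 1)) - 2 * s / (s * (2 * s ^ 2 - 1))) ?_ ?_
    · have : (0 : ℝ) ≤ 2 * s - 1 := by linarith
      have : (0 : ℝ) ≤ (2 * s ^ 2 + 2 * s - 3) * (2 * s - 1) /
        ((2 * s ^ 2 - 1) * (2 * s ^ 2 - 2 * s + 1)) := by positivity
      linarith
    · simp only [S.St_U (S.U_two h), S.Y₁_two _ h, S.W_two h, ← Finset.sum_mul, hA, map_sub,
        map_mul, map_neg, map_one, map_zero, Complex.conj_natCast, Complex.conj_ofNat]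
      push_cast
      ring
  · refine ne_zero_of_pos (1 - (2 * s ^ 2 + 2 * s - 3) /
      ((2 * s ^ 2 - 1) * (2 * s ^ 2 - 2 * s + 1))) ?_ ?_
    · have : (2 * s ^ 2 + 2 * s - 3 : ℝ) / ((2 * s ^ 2 - 1) * (2 * s ^ 2 - 2 * s + 1)) ≤
        (2 * s ^ 2 + 2 * s) / ((2 * s ^ 2 - 1) * (2 * s ^ 2 - 2 * s + 1)) :=
        div_le_div_of_nonneg_right (by linarith) (by positivity)
      linarith
    · simp only [S.St_U (S.U_four h), S.Y₁_four _ h, ← Finset.sum_mul, hA, map_neg, map_one,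
        map_zero]
      push_cast
      linear_combination (1 / (s * (2 * s ^ 2 - 1)) : ℂ) * S.W_four_add_conj h
  · refine ne_zero_of_pos (1 + 1 / (4 * s ^ 4)) (by positivity) ?_
    simp only [S.St_H h, S.Y₁_H _ h, S.W_H h, map_one, map_zero, mul_zero, Finset.sum_const_zero]
    push_cast
    ring
  · refine ne_zero_of_pos (1 - 1 / (4 * s ^ 4) - B / 4 /
      ((2 * s ^ 2 - 1) * (2 * s ^ 2 - 2 * s + 1)) + 2 / (s * (2 * s ^ 2 - 1))) ?_ ?_
    · have : B / 4 / ((2 * s ^ 2 - 1) * (2 * s ^ 2 - 2 * s + 1)) ≤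
          4 * (2 * s ^ 2 + 2 * s - 3) / ((2 * s ^ 2 - 1) * (2 * s ^ 2 - 2 * s + 1)) := by
        apply div_le_div_of_nonneg_right _ (by positivity)
        have := le_abs_self B
        push_cast at hB
        linarith
      linarith
    · simp only [S.St_FPF (S.fpf₁ h), S.Y₁_₁ _ h, S.W_₁ h, map_neg, map_one, S.T₁.conj_e, mul_neg,
        Finset.sum_neg_distrib, hB']
      push_cast
      ring
  · refine ne_zero_of_pos (1 - 1 / (4 * s ^ 4) - 2 / (s * (2 * s ^ 2 - 1))) (by linarith) ?_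
    simp only [S.St_FPF (S.fpf₂ h), S.Y₁_₂ _ h, S.W_₂ h, map_neg, map_one, map_zero, mul_zero,
      Finset.sum_const_zero]
    push_cast
    ring

theorem sum_₂ {x g : G} (hx : x ∈ conjSet P₂) (hg : g ≠ 1) :
    ∑ χ : IrrCharacter G, (χ : G → ℂ) x * (χ : G → ℂ) x * conj ((χ : G → ℂ) g) / (χ : G → ℂ) 1 ≠ 0 := by
  classical
  have := Fintype.ofFinite (M.H →* ℂˣ)
  have := Fintype.ofFinite (P₁ →* ℂˣ)
  have := Fintype.ofFinite (P₂ →* ℂˣ)
  have hσ := S.sR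
  have hf := S.fpf₂ hx
  have hA : ∑ l ∈ Finset.univ.erase 1, e P₂ l x * e P₂ l x =
      ((4 * (2 * s ^ 2 - 2 * s - 3) : ℝ) : ℂ) := by
    have h := column_conj (IsConj.refl x)
    rw [S.sum_irr fun χ => χ x * conj (χ x), card_cent S.T₂ hx, S.c₂C] at h
    simp only [S.St_FPF hf, S.X_FPF _ hf, S.Y₁_₂ _ hx, S.Y₂_₂ _ hx, S.W_₂ hx, S.T₂.conj_e, map_zero,
      map_one, mul_zero, Finset.sum_const_zero, map_neg, neg_mul_neg] at h
    push_cast
    linear_combination 4 * h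
  obtain ⟨B, hB, hB'⟩ := exists_bound S.T₂ _ x hg hA
  rw [S.sum_irr fun χ => χ x * χ x * conj (χ g) / χ 1]
  simp only [S.St_FPF hf, S.X_FPF _ hf, S.Y₁_₂ _ hx, S.Y₂_₂ _ hx, S.W_₂ hx, map_one, mul_zero,
    zero_mul, zero_div, Finset.sum_const_zero, S.St_one, S.Y₂_one, ← Finset.sum_div, neg_mul_neg,
    conjW, S.W_one, Complex.conj_conj, map_neg]
  have b1 := b1 hσ
  have b2 := b2 hσ
  have b3 := b3 hσ
  have b7 := b7 hσ
  have p1 := p1 hσ
  have p3 : (0 : ℝ) ≤ 2 * s ^ 2 - 2 * s - 3 := by nlinarith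
  have hb : ∀ a : ℝ, a ≤ (2 * s ^ 2 - 2 * s) * (2 * s + 1) →
      a / ((2 * s ^ 2 - 1) * (2 * s ^ 2 + 2 * s + 1)) ≤ 1 / 2 := fun a ha =>
    (div_le_div_of_nonneg_right ha (by positivity)).trans b7
  rcases S.cases g with rfl | h | h | h | h | h
  · exact absurd rfl hg
  · refine ne_zero_of_pos (1 - (2 * s ^ 2 - 2 * s - 3) * (2 * s + 1) /
      ((2 * s ^ 2 - 1) * (2 * s ^ 2 + 2 * s + 1)) - 2 * s / (s * (2 * s ^ 2 - 1))) ?_ ?_
    · have := hb ((2 * s ^ 2 - 2 * s - 3) * (2 * s + 1)) (by nlinarith)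
      linarith
    · simp only [S.St_U (S.U_two h), S.Y₂_two _ h, S.W_two h, ← Finset.sum_mul, hA, map_add,
        map_mul, map_neg, map_one, map_zero, Complex.conj_natCast, Complex.conj_ofNat]
      push_cast
      ring
  · refine ne_zero_of_pos (1 - (2 * s ^ 2 - 2 * s - 3) /
      ((2 * s ^ 2 - 1) * (2 * s ^ 2 + 2 * s + 1))) ?_ ?_
    · have := hb (2 * s ^ 2 - 2 * s - 3) (by nlinarith)
      linarith
    · simp only [S.St_U (S.U_four h), S.Y₂_four _ h, ← Finset.sum_mul, hA, map_neg, map_one,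
        map_zero]
      push_cast
      linear_combination (1 / (s * (2 * s ^ 2 - 1)) : ℂ) * S.W_four_add_conj h
  · refine ne_zero_of_pos (1 + 1 / (4 * s ^ 4)) (by positivity) ?_
    simp only [S.St_H h, S.Y₂_H _ h, S.W_H h, map_one, map_zero, mul_zero, Finset.sum_const_zero]
    push_cast
    ring
  · refine ne_zero_of_pos (1 - 1 / (4 * s ^ 4) + 2 / (s * (2 * s ^ 2 - 1))) ?_ ?_
    · have : (0 : ℝ) ≤ 2 / (s * (2 * s ^ 2 - 1)) := by positivity
      linarith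
    simp only [S.St_FPF (S.fpf₁ h), S.Y₂_₁ _ h, S.W_₁ h, map_neg, map_one, map_zero, mul_zero,
      Finset.sum_const_zero]
    push_cast
    ring
  · refine ne_zero_of_pos (1 - 1 / (4 * s ^ 4) - B / 4 /
      ((2 * s ^ 2 - 1) * (2 * s ^ 2 + 2 * s + 1)) - 2 / (s * (2 * s ^ 2 - 1))) ?_ ?_
    · have := hb (B / 4) (by
        have := le_abs_self B
        push_cast at hB
        nlinarith)
      linarith
    · simp only [S.St_FPF (S.fpf₂ h), S.Y₂_₂ _ h, S.W_₂ h, map_neg, map_one, S.T₂.conj_e, mul_neg,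
        Finset.sum_neg_distrib, hB']
      push_cast
      ring

theorem sum_four {x g : G} (hx : orderOf x = 4) (hg : g ≠ 1) :
    ∑ χ : IrrCharacter G, (χ : G → ℂ) x * (χ : G → ℂ) x * conj ((χ : G → ℂ) g) / (χ : G → ℂ) 1 ≠ 0 := by
  classical
  have := Fintype.ofFinite (M.H →* ℂˣ)
  have := Fintype.ofFinite (P₁ →* ℂˣ)
  have := Fintype.ofFinite (P₂ →* ℂˣ)
  have hσ := S.sR
  have hU := S.U_four hx
  have hW : W M s N₁ N₂ x * W M s N₁ N₂ x = -s ^ 2 := by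
    rcases S.W_four hx with h | h <;> rw [h] <;> linear_combination ((s : ℂ) ^ 2) * Complex.I_mul_I
  have hW' : conj (W M s N₁ N₂ x) * conj (W M s N₁ N₂ x) = -s ^ 2 := by
    rw [← map_mul, hW]; simp
  rw [S.sum_irr fun χ => χ x * χ x * conj (χ g) / χ 1]
  simp only [S.St_U hU, S.X_U _ hU, S.Y₁_four _ hx, S.Y₂_four _ hx, hW, hW', map_one, mul_zero,
    zero_mul, zero_div, S.X_one, S.Y₁_one, S.Y₂_one, ← Finset.sum_div, neg_mul_neg, one_mul,
    conjW, S.W_one, Complex.conj_conj]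
  have b4 := b4 hσ
  have b5 := b5 hσ
  have b7 := b7 hσ
  have p1 := p1 hσ
  have p2 := p2 hσ
  have p3 : (0 : ℝ) ≤ 2 * s ^ 2 - 2 := by nlinarith
  have hb : ∀ a : ℝ, a ≤ (2 * s ^ 2 - 2 * s) * (2 * s + 1) →
      a / ((2 * s ^ 2 - 1) * (2 * s ^ 2 + 2 * s + 1)) ≤ 1 / 2 := fun a ha =>
    (div_le_div_of_nonneg_right ha (by positivity)).trans b7
  have q1 : (0 : ℝ) ≤ (2 * s ^ 2 - 2) / (4 * s ^ 4 + 1) := by positivity
  rcases S.cases g with rfl | h | h | h | h | h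
  · exact absurd rfl hg
  · refine ne_zero_of_pos (1 + (2 * s ^ 2 - 2) / (4 * s ^ 4 + 1) / 2 +
      (2 * s ^ 2 + 2 * s) * (2 * s - 1) / ((2 * s ^ 2 - 1) * (2 * s ^ 2 - 2 * s + 1)) / 4 -
      (2 * s ^ 2 - 2 * s) * (2 * s + 1) / ((2 * s ^ 2 - 1) * (2 * s ^ 2 + 2 * s + 1)) / 4 +
      2 * s ^ 3 / (s * (2 * s ^ 2 - 1))) ?_ ?_
    · have : (0 : ℝ) ≤ 2 * s - 1 := by linarith
      have : (0 : ℝ) ≤ (2 * s ^ 2 + 2 * s) * (2 * s - 1) /
        ((2 * s ^ 2 - 1) * (2 * s ^ 2 - 2 * s + 1)) := by positivity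
      have : (0 : ℝ) ≤ 2 * s ^ 3 / (s * (2 * s ^ 2 - 1)) := by positivity
      linarith
    · simp only [S.X_U _ (S.U_two h), S.Y₁_two _ h, S.Y₂_two _ h, S.W_two h, Finset.sum_const,
        nsmul_eq_mul, S.T₀.card_hom_erase, S.T₁.card_hom_erase, S.T₂.card_hom_erase, S.c₀C, S.c₁C,
        S.c₂C, map_add, map_sub, map_mul, map_neg, map_one, Complex.conj_natCast, Complex.conj_ofNat]
      push_cast
      ring
  · refine ne_zero_of_pos (1 + (2 * s ^ 2 - 2) / (4 * s ^ 4 + 1) / 2 -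
      (2 * s ^ 2 + 2 * s) / ((2 * s ^ 2 - 1) * (2 * s ^ 2 - 2 * s + 1)) / 4 -
      (2 * s ^ 2 - 2 * s) / ((2 * s ^ 2 - 1) * (2 * s ^ 2 + 2 * s + 1)) / 4) ?_ ?_
    · have := hb (2 * s ^ 2 - 2 * s) (by nlinarith)
      linarith
    · simp only [S.X_U _ (S.U_four h), S.Y₁_four _ h, S.Y₂_four _ h, Finset.sum_const,
        nsmul_eq_mul, S.T₀.card_hom_erase, S.T₁.card_hom_erase, S.T₂.card_hom_erase, S.c₀C, S.c₁C,
        S.c₂C, map_neg, map_one]
      push_cast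
      linear_combination (-s ^ 2 / (s * (2 * s ^ 2 - 1)) : ℂ) * S.W_four_add_conj h
  · refine ne_zero_of_pos (1 - 1 / (4 * s ^ 4 + 1)) ?_ ?_
    · rw [sub_pos, div_lt_one (by positivity)]
      have : (0 : ℝ) < s ^ 4 := by positivity
      linarith
    · simp only [S.X_H _ h, S.Y₁_H _ h, S.Y₂_H _ h, S.W_H h, S.T₀.conj_e, S.T₀.sum_e_erase h,
        map_zero, Finset.sum_const_zero]
      push_cast
      ring
  · refine ne_zero_of_pos (1 + 1 / ((2 * s ^ 2 - 1) * (2 * s ^ 2 - 2 * s + 1)) -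
      2 * s ^ 2 / (s * (2 * s ^ 2 - 1))) ?_ ?_
    · have : (0 : ℝ) ≤ 1 / ((2 * s ^ 2 - 1) * (2 * s ^ 2 - 2 * s + 1)) := by positivity
      linarith
    · simp only [S.X_FPF _ (S.fpf₁ h), S.Y₁_₁ _ h, S.Y₂_₁ _ h, S.W_₁ h, S.T₁.conj_e, map_neg,
        Finset.sum_neg_distrib, S.T₁.sum_e_erase h, map_zero, map_one, Finset.sum_const_zero]
      push_cast
      ring
  · refine ne_zero_of_pos (1 + 1 / ((2 * s ^ 2 - 1) * (2 * s ^ 2 + 2 * s + 1)) +
      2 * s ^ 2 / (s * (2 * s ^ 2 - 1))) (by positivity) ?_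
    simp only [S.X_FPF _ (S.fpf₂ h), S.Y₁_₂ _ h, S.Y₂_₂ _ h, S.W_₂ h, S.T₂.conj_e, map_neg,
      Finset.sum_neg_distrib, S.T₂.sum_e_erase h, map_zero, map_one, Finset.sum_const_zero]
    push_cast
    ring

end main

/-- A strong covering result in the direction of Thompson's conjecture (non-identity elements) for the Suzuki groups: let q = 2^(2m+1) ≥ 8, F the field with q elements and Sz(q) the Suzuki group over F. For every element x of Sz(q) of order greater than 2, every non-identity element of Sz(q) is a product of two conjugates of x. -/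
theorem result {F : Type*} [Field F] [Fintype F] (m : ℕ) (hm : 1 ≤ m) (hF : Fintype.card F = 2 ^ (2 * m + 1))
    (x : Cfsg.Lie.Sz F (2 ^ (m + 1))) (hx2 : 2 < orderOf x) : ∀ g : Cfsg.Lie.Sz F (2 ^ (m + 1)), g ≠ 1 → ∃ u v : Cfsg.Lie.Sz F (2 ^ (m + 1)), g = (u * x * u⁻¹) * (v * x * v⁻¹) := by
  intro g hg
  have := charP_two hF
  set M := lieModel hF
  have := M.finite_G
  have := Fintype.ofFinite ↥(Cfsg.Lie.Sz F (2 ^ (m + 1)))
  obtain ⟨P₁, N₁, P₂, N₂, S⟩ := M.exists_setup hm hF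
  have key : ∑ χ : IrrCharacter ↥(Cfsg.Lie.Sz F (2 ^ (m + 1))), χ.1 x * χ.1 x * conj (χ.1 g) /
      χ.1 1 ≠ 0 := by
    rcases S.cases x with rfl | h | h | h | h | h
    · simp at hx2
    · omega
    · exact sum_four S h hg
    · exact sum_H S h hg
    · exact sum_₁ S h hg
    · exact sum_₂ S h hg
  have h1 : (Nat.card {y // IsConj x y} : ℂ) ≠ 0 := by
    have : Nonempty {y // IsConj x y} := ⟨⟨x, IsConj.refl x⟩⟩
    exact_mod_cast Nat.card_pos.ne'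
  have h2 := mul_ne_zero (div_ne_zero (mul_ne_zero h1 h1) (card_ne_zero ↥(Cfsg.Lie.Sz F (2 ^ (m + 1))))) key
  rw [← card_class_mul_eq] at h2
  obtain ⟨⟨⟨a, b⟩, ha, hb, h⟩⟩ := (Nat.card_pos_iff.mp (Nat.pos_of_ne_zero (by exact_mod_cast h2))).1
  obtain ⟨u, rfl⟩ := isConj_iff.mp ha
  obtain ⟨v, rfl⟩ := isConj_iff.mp hb
  exact ⟨u, v, h.symm⟩

end Cfsg.Agent.S2457
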