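import Cfsg.Statements.S2372
import Cfsg.Agent.CHEV.ToriGlue

set_option autoImplicit false
open Cfsg

namespace Cfsg.Agent.S2372

open CL.Chev Cfsg.Lie in
set_option backward.isDefEq.respectTransparency false in
theorem chk : TorChk (D := chevF4) (piL (D := chevF4) ([3, 1, 2, 0, 1, 2] : List (Fin 4))) (m := 3) ![1, 0, 0, 0]
    (!![0, 1, 0, 0; -1, -2, -2, 0; 1, 2, 3, 1; 0, -1, -2, -1] : Matrix (Fin 4) (Fin 4) ℤ)
    (!![1, 0, -1, 0; 0, -1, 0, -1; 0, 1, 1, 1; 0, 0, -1, -1] : Matrix (Fin 4) (Fin 4) ℤ)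
    (!![1, 1, 1, 0; 0, 0, 1, 1; 0, 1, 1, 0; 0, -1, -1, -1] : Matrix (Fin 4) (Fin 4) ℤ) 2 2 := by
  decide +kernel

/-- The group F₄(q) contains a cyclic subgroup of order q⁴ + 1 which is its own centralizer. -/
theorem result {F : Type*} [Field F] [Fintype F] (q : ℕ) (hF : Fintype.card F = q) :
    ∃ H : Subgroup ↥(Cfsg.Lie.chevF4.group F), IsCyclic ↥H ∧ Nat.card ↥H = q ^ 4 + 1 ∧
      Subgroup.centralizer (H : Set ↥(Cfsg.Lie.chevF4.group F)) = H := by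
  simpa only [CL.Chev.card_ker_F4, one_mul] using CL.Chev.exists_torus_group (by simp) CL.Chev.scRep_F4 _ chk hF
    (hF ▸ Fintype.one_lt_card) (N := q ^ 4 + 1) (by simp [CL.Chev.evq, Fin.sum_univ_succ])

end Cfsg.Agent.S2372
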