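import Cfsg.Statements.S0267
import Cfsg.Agent.CLAS.PGL2Basic
import Cfsg.Agent.S0266

set_option autoImplicit false
open Cfsg

namespace Cfsg.Agent.S0267

open CL.PGL2 Matrix in
theorem sl_smul {F : Type*} [Field F] (g : Matrix.SpecialLinearGroup (Fin 2) F) (x : P1 F) :
    g • x = ofMat g.1 g.det_ne_zero • x := by
  induction x using Projectivization.ind with | _ v hv => rfl

/-- SL_2(q) is 3-transitive on the q+1 points of the projective line if and only if q is even. -/
theorem result {F : Type*} [Field F] [Fintype F] : MulAction.IsMultiplyPretransitive (Matrix.SpecialLinearGroup (Fin 2) F) (Projectivization F (Fin 2 → F)) 3 ↔ ringChar F = 2 := by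
  constructor
  · intro h
    by_contra hc
    obtain ⟨t, ht⟩ := FiniteField.exists_nonsquare (F := F) hc
    have ht0 : t ≠ 0 := by rintro rfl; exact ht ⟨0, by simp⟩
    rw [MulAction.isMultiplyPretransitive_iff] at h
    have hinj : ∀ s : F, s ≠ 0 → Function.Injective
        (![CL.PGL2.inf, CL.PGL2.pt 0, CL.PGL2.pt s] : Fin 3 → CL.PGL2.P1 F) := by
      intro s hs i j hij
      fin_cases i <;> fin_cases j <;>
        simp_all [CL.PGL2.inf_ne_pt, CL.PGL2.pt_ne_inf, CL.PGL2.pt_inj, hs.symm]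
    obtain ⟨g, hg⟩ := h ⟨_, hinj 1 one_ne_zero⟩ ⟨_, hinj t ht0⟩
    have h0 : g • (CL.PGL2.inf : CL.PGL2.P1 F) = CL.PGL2.inf := DFunLike.congr_fun hg 0
    have h1 : g • CL.PGL2.pt (0 : F) = CL.PGL2.pt 0 := DFunLike.congr_fun hg 1
    have h2 : g • CL.PGL2.pt (1 : F) = CL.PGL2.pt t := DFunLike.congr_fun hg 2
    rw [sl_smul] at h0 h1 h2
    rw [CL.PGL2.ofMat_smul_inf_eq_inf] at h0
    rw [CL.PGL2.ofMat_smul_pt_eq_pt] at h1 h2
    have hd := g.2
    rw [Matrix.det_fin_two] at hd
    apply ht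
    refine ⟨g.1 0 0, ?_⟩
    simp only [mul_zero, zero_add, mul_one, h0] at h1 h2 hd
    rw [h1] at h2
    linear_combination (-g.1 0 0) * h2 - t * hd
  · intro hc
    have h3 := (Cfsg.Agent.S0266.result (F := F)).1
    rw [MulAction.isMultiplyPretransitive_iff] at h3 ⊢
    intro x y
    obtain ⟨g, hg⟩ := h3 x y
    obtain ⟨m, hm, rfl⟩ := CL.PGL2.exists_ofMat g
    obtain ⟨s, hs⟩ := FiniteField.isSquare_of_char_two hc m.det
    have hs0 : s ≠ 0 := by rintro rfl; simp_all
    have hd : (s⁻¹ • m).det = 1 := by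
      rw [Matrix.det_smul, hs]; simp only [Fintype.card_fin]; field_simp
    let g : Matrix.SpecialLinearGroup (Fin 2) F := ⟨s⁻¹ • m, hd⟩
    refine ⟨g, ?_⟩
    ext i
    rw [Function.Embedding.smul_apply, sl_smul, ← hg, Function.Embedding.smul_apply]
    congr 1
    exact CL.PGL2.ofMat_smul_eq hm _

end Cfsg.Agent.S0267
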