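import Cfsg.Statements.S0806
import Cfsg.Agent.CLAS.PGL2Subfield

set_option autoImplicit false
open Cfsg

namespace Cfsg.Agent.S0806

open CL.Dk CL.PGL2

/-- Minimal index (Galois): if q ∉ {2, 3, 5, 7, 9, 11} then every proper subgroup of PSL_2(q) has index ≥ q + 1, and some subgroup has index exactly q + 1. -/
theorem result {F : Type*} [Field F] [Fintype F] {q : ℕ} (hF : Fintype.card F = q) (hq : q ∉ ({2, 3, 5, 7, 9, 11} : Finset ℕ)) : (∀ H : Subgroup (Matrix.ProjectiveSpecialLinearGroup (Fin 2) F), H ≠ ⊤ → q + 1 ≤ H.index) ∧ ∃ H : Subgroup (Matrix.ProjectiveSpecialLinearGroup (Fin 2) F), H.index = q + 1 := by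
  have hq' : Nat.card F = q := by rw [Nat.card_eq_fintype_card, hF]
  obtain ⟨p, hp⟩ := CharP.exists F
  have : Fact p.Prime := ⟨CharP.char_is_prime F p⟩
  have h1q : 1 < q := hq' ▸ Finite.one_lt_card
  simp only [Finset.mem_insert, Finset.mem_singleton, not_or] at hq
  have hd : 0 < Nat.gcd 2 (q - 1) := Nat.gcd_pos_of_pos_left _ two_pos
  have hd2 : Nat.gcd 2 (q - 1) ≤ 2 := Nat.gcd_le_left _ two_pos
  have hL := CL.SL.gcd_mul_card_PSL_two (F := F)
  rw [hq', sq_sub_one_eq] at hL
  have key : ∀ H : Subgroup (Matrix.ProjectiveSpecialLinearGroup (Fin 2) F),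
      q * ((q + 1) * (q - 1)) = H.index * (Nat.gcd 2 (q - 1) * Nat.card H) := by
    intro H
    rw [← hL, ← H.index_mul_card]
    ring
  constructor
  · intro H hH
    suffices h : Nat.gcd 2 (q - 1) * Nat.card H ≤ q * (q - 1) by
      by_contra h'
      have h1 := key H
      have h2 : H.index * (Nat.gcd 2 (q - 1) * Nat.card H) ≤ q * (q * (q - 1)) :=
        Nat.mul_le_mul (by omega) h
      have h3 : 0 < q * (q - 1) := Nat.mul_pos (by omega) (by omega)
      nlinarith
    rw [← Subgroup.card_map_of_injective (psl2pgl_injective (F := F))]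
    have hle : H.map (psl2pgl F) ≤ pslIn F := H.map_le_range _
    have hne : ¬ pslIn F ≤ H.map (psl2pgl F) := fun h => hH (by
      rw [eq_top_iff, ← Subgroup.map_le_map_iff_of_injective psl2pgl_injective,
        ← MonoidHom.range_eq_map]
      exact h)
    generalize H.map (psl2pgl F) = H' at *
    rcases dickson_sub (algebraMap F (AlgebraicClosure F)) p H' with ⟨x, hx⟩ |
      ⟨x, y, h1, h2, h3⟩ | ⟨h, h'⟩ | ⟨h, rfl⟩ | ⟨k, h, h1, h3⟩
    · rw [← hq', ← gcd_mul_card_stabilizer_inf_pslIn x]
      exact Nat.mul_le_mul_left _ (Subgroup.card_le_of_le (le_inf hx hle))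
    · have h4 := Subgroup.card_le_of_le (le_inf h3 hle)
      rw [card_eq_two_mul_of_le_pairN inf_le_left (not_pairN_inf_pslIn_le _ h1 h2), ← inf_assoc,
        inf_eq_left.2 (pairT_le_pairN _ _ _)] at h4
      have h5 := gcd_mul_card_pairT_inf_pslIn _ h1 h2
      have h6 : Nat.card (pairT (mapG (algebraMap F (AlgebraicClosure F))) x y) ≤ q + 1 := by
        rcases (torus_data _ h1 h2).1 with h | h <;> omega
      rw [hq'] at h5
      have h7 : 2 * (q + 1) ≤ q * (q - 1) := by
        obtain ⟨n, rfl⟩ : ∃ n, q = n + 4 := ⟨q - 4, by omega⟩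
        simp only [show n + 4 - 1 = n + 3 by omega]
        nlinarith
      nlinarith
    · have hc := card_of_isPoly h
      have hp2 : p ≠ 2 := by
        rintro rfl
        omega
      have hodd := odd_card_of_char_ne_two (F := F) p hp2
      rw [hq'] at hodd
      obtain ⟨m, hm⟩ := hodd
      have : 13 * 12 ≤ q * (q - 1) := Nat.mul_le_mul (by omega) (by omega)
      have : Nat.gcd 2 (q - 1) * Nat.card H' ≤ 2 * 60 := Nat.mul_le_mul hd2 (by omega)
      omega
    · have hc := card_of_alt_five h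
      have hodd := odd_card_of_char_ne_two (F := F) 3 (by decide)
      rw [hq'] at hodd
      obtain ⟨m, hm⟩ := hodd
      have : 13 * 12 ≤ q * (q - 1) := Nat.mul_le_mul (by omega) (by omega)
      have : Nat.gcd 2 (q - 1) * Nat.card H' ≤ 2 * 60 := Nat.mul_le_mul hd2 (by omega)
      omega
    · rcases surjective_or_exists_pow k.subtype with hs | ⟨m, hm, hm'⟩
      · exfalso
        apply hne
        rcases h3 with h3 | ⟨-, h3⟩ <;> rw [h3]
        · rw [pglOf_eq_top hs, cjs_of_normal]
          exact le_top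
        · rw [pslOf_eq_pslIn hs, cjs_of_normal]
      · have h4 : H' ≤ cjs h (pglOf k.subtype) := by
          rcases h3 with h3 | ⟨-, h3⟩ <;> rw [h3]
          exact cjs_mono _ (pslOf_le_pglOf _)
        have h5 := Subgroup.card_le_of_le h4
        rw [card_cjs, card_pglOf] at h5
        exact (Nat.mul_le_mul hd2 h5).trans (card_pgl_mul_le (by omega) hm (hm'.trans hq'))
  · refine ⟨(MulAction.stabilizer _ (inf : P1 F) ⊓ pslIn F).comap (psl2pgl F), ?_⟩
    have h1 := key ((MulAction.stabilizer _ (inf : P1 F) ⊓ pslIn F).comap (psl2pgl F))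
    rw [Nat.card_congr (comapEquivOfLe psl2pgl_injective
      (S := MulAction.stabilizer _ (inf : P1 F) ⊓ pslIn F) inf_le_right).toEquiv, ← hq',
      gcd_mul_card_stabilizer_inf_pslIn, hq'] at h1
    apply Nat.eq_of_mul_eq_mul_right (Nat.mul_pos (by omega) (by omega) : 0 < q * (q - 1))
    rw [← h1]
    ring

end Cfsg.Agent.S0806
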