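import Cfsg.Statements.S2150
import Cfsg.Agent.KSG.CoopV2
import Cfsg.Agent.S0822

set_option autoImplicit false
open Cfsg

namespace Cfsg.Agent.S2150

open CL.Coop CL.Uni CL.Sp CL.Witt Module

/-- Minimal index of a proper subgroup of the four-dimensional unitary groups: for a field F with q² elements, every proper subgroup of PSU₄(q) has index at least (q + 1)(q³ + 1), and that index is attained. -/
theorem result {F : Type*} [Field F] [Fintype F] (q : ℕ) (hF : Fintype.card F = q ^ 2) (hq : 2 ≤ q) : (∀ H : Subgroup (Cfsg.PSU 4 F q), H ≠ ⊤ → (q + 1) * (q ^ 3 + 1) ≤ H.index) ∧ (∃ H : Subgroup (Cfsg.PSU 4 F q), H.index = (q + 1) * (q ^ 3 + 1)) := by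
  obtain ⟨π, hπ, h1⟩ := exists_piSU hF (n := 4) (by omega)
  have hf := std_nondeg hF (Fin 4)
  have hn : finrank F (Fin 4 → F) = 4 := by simp
  have hs : Nat.card {v // (std hF (Fin 4)).q v = 0} = (q ^ 4 - 1) * (q ^ 3 + 1) + 1 :=
    (CL.FormCount.card_hermForm_eq_zero hF 4).trans (by rw [if_pos (by decide)])
  have hp := fun k => Nat.one_le_pow k q (by omega)
  refine ⟨?_, ?_⟩
  · rcases hq.eq_or_lt with rfl | h
    · obtain ⟨e⟩ := S0822.result (K := ZMod 3) hF (ZMod.card 3)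
      obtain ⟨π', hπ', -⟩ := exists_piSp (F := ZMod 3) 2
      exact le_index_of_orbit (e.symm.toMonoidHom.comp π') (e.symm.surjective.comp hπ')
        fun K _ ω _ hE => min_sp_four_three (spForm_nondeg 2 _) (finrank_sp _ _) (by simp) hE
    · exact le_index_of_orbit π hπ fun K _ ω hK hE => min_four hf hn h hK hE hs
  obtain ⟨H, hH⟩ := index_plane hf (idx2 (sig_ne_id hF) hf hn.ge)
    (FormType.exists_add_σ_eq_zero (sig_ne_id hF) (sig_sig hF)) π hπ h1 (s := (q ^ 2 - 1) * (q + 1))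
    (by rw [hs, hn, card_sq hF, card_ker_π]; zify [hp]; ring)
  rw [add_right_cancel ((card_zero_succ (F := F) _ (std hF (Fin 4)).q_zero).symm.trans hs),
    card_sq hF, show (q ^ 4 - 1) * (q ^ 3 + 1) * _ =
    (q + 1) * (q ^ 3 + 1) * (((q ^ 2) ^ 2 - 1) * ((q ^ 2) ^ 2 - q ^ 2)) by
      zify [hp, Nat.one_le_pow 2 _ (hp 2), Nat.le_self_pow two_ne_zero (q ^ 2)]; ring] at hH
  refine ⟨H, Nat.eq_of_mul_eq_mul_right (Nat.mul_pos ?_ ?_) hH⟩
  all_goals exact Nat.sub_pos_of_lt (by nlinarith [Nat.pow_le_pow_left hq 2])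

end Cfsg.Agent.S2150
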