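import Cfsg.Statements.S2141
import Cfsg.Agent.KSG.CoopS3

set_option autoImplicit false
open Cfsg

namespace Cfsg.Agent.S2141

open CL.Coop CL.Sp

/-- Minimal index of a proper subgroup of the symplectic groups over fields with at least 3 elements: for m ≥ 2 and a field F with q ≥ 3 elements, (m, q) ≠ (2, 3), every proper subgroup of PSp_2m(F) has index at least (q^(2m) − 1)/(q − 1), and that index is attained. -/
theorem result {F : Type*} [Field F] [Fintype F] {q : ℕ} (hF : Fintype.card F = q) (m : ℕ) (hm : 2 ≤ m) (hq : 3 ≤ q) (hexc : ¬ (m = 2 ∧ q = 3)) : (∀ H : Subgroup (Cfsg.PSp m F), H ≠ ⊤ → (q ^ (2 * m) - 1) / (q - 1) ≤ H.index) ∧ (∃ H : Subgroup (Cfsg.PSp m F), H.index = (q ^ (2 * m) - 1) / (q - 1)) := by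
  obtain ⟨π, hπ, h1⟩ := exists_piSp (F := F) m
  have hf := spForm_nondeg m F
  obtain rfl : Nat.card F = q := Nat.card_eq_fintype_card.trans hF
  obtain ⟨k, rfl⟩ := Nat.exists_eq_add_of_le' (show 1 ≤ m by omega)
  refine ⟨le_index_of_orbit π hπ fun K _ ω hK hE => Nat.div_le_of_le_mul ((min_alt hf
    (finrank_sp _ F) hq (by omega) (by omega) hK hE).trans_eq (mul_comm _ _)), ?_⟩
  obtain ⟨x, hx⟩ := exists_ne (0 : Fin (k + 1) ⊕ Fin (k + 1) → F)
  obtain ⟨H, hH⟩ := exists_index_line π hπ (spForm _ F).E.subtype hx (p := (· ≠ 0))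
    (fun g hg => (h1 g hg).elim (fun h => ⟨1, by simp [h]⟩) fun h => ⟨-1, by simp [h]⟩)
    fun v => ⟨fun hv => by
      obtain ⟨g, hg, h⟩ := hf.witt_vector hx hv (by simp [CL.Witt.Form.alt_q])
      exact ⟨⟨g, hf.alt_E_eq_O ▸ hg⟩, 1, one_ne_zero, by simp [h]⟩,
      fun ⟨g, c, hc, h⟩ => h ▸ smul_ne_zero hc (by simpa using hx)⟩
  rw [card_ne_eq (finrank_sp _ F)] at hH
  exact ⟨H, (Nat.div_eq_of_eq_mul_left (by omega) hH.symm).symm⟩

end Cfsg.Agent.S2141
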