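import Cfsg.Statements.S2142
import Cfsg.Agent.KSG.CoopSp2
import Cfsg.Agent.CLAS.FormCount

set_option autoImplicit false
open Cfsg

namespace Cfsg.Agent.S2142

open CL.Coop CL.Sp

/-- Minimal index of a proper subgroup of the symplectic groups over the field with 2 elements: for m ≥ 3, every proper subgroup of Sp_2m(2) has index at least 2^(m−1)(2^m − 1), and that index is attained. -/
theorem result {F : Type*} [Field F] [Fintype F] (hF : Fintype.card F = 2) (m : ℕ) (hm : 3 ≤ m) : (∀ H : Subgroup (Cfsg.PSp m F), H ≠ ⊤ → 2 ^ (m - 1) * (2 ^ m - 1) ≤ H.index) ∧ (∃ H : Subgroup (Cfsg.PSp m F), H.index = 2 ^ (m - 1) * (2 ^ m - 1)) := by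
  classical
  obtain ⟨π, hπ, h1⟩ := exists_piSp (F := F) m
  have hF' : Nat.card F = 2 := by rw [Nat.card_eq_fintype_card, hF]
  have h2 := one_add_one hF'
  refine ⟨le_index_of_orbit π hπ fun K _ ω _ hne =>
    min_alt_two (spForm_nondeg m F) hF' (finrank_sp m F) hm hne, ?_⟩
  have h3 := CL.FormCount.card_quadFormPlus_eq hF m 1
  rw [if_neg one_ne_zero, zero_add, mul_comm] at h3
  have : Nonempty {v : Fin m ⊕ Fin m → F // quadFormPlus m F v = 1} :=
    (Nat.card_pos_iff.mp (h3 ▸ Nat.mul_pos (by positivity)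
      (Nat.sub_pos_of_lt (Nat.one_lt_two_pow (by omega))))).1
  obtain ⟨z, hz⟩ := this
  obtain ⟨H, hH⟩ := exists_index_two (spForm_nondeg m F) hF' π hπ (θ := quadFormPlus m F)
    (fun g hg v => (h1 g hg).elim (fun h => h v) fun h => by
      rw [h, neg_eq_iff_add_eq_zero, ← one_smul F v, ← add_smul, h2, zero_smul])
    (fun x y => by
      simp only [quadFormPlus, spForm_B_eq, Pi.add_apply, ← Finset.sum_add_distrib]
      exact Finset.sum_congr rfl fun i _ => by
        linear_combination (x (.inl i) * y (.inr i)) * h2) z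
  exact ⟨H, by rw [hH, hz, h3]⟩

end Cfsg.Agent.S2142
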