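import Cfsg.Statements.S0826
import Cfsg.Agent.CLAS.SpForm

set_option autoImplicit false
open Cfsg

namespace Cfsg.Agent.S0826

open CL.Witt Matrix

variable {n : ℕ}

/-- Even-weight vectors with vanishing coordinate at `o`. -/
def U (o : Fin (2 * n)) : Submodule (ZMod 2) (Fin (2 * n) → ZMod 2) where
  carrier := {v | ∑ i, v i = 0 ∧ v o = 0}
  add_mem' ha hb := ⟨by simp [Finset.sum_add_distrib, ha.1, hb.1], by simp [ha.2, hb.2]⟩
  zero_mem' := by simp
  smul_mem' c v h := ⟨by simp [← Finset.mul_sum, h.1], by simp [h.2]⟩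

theorem two_mul_cast : ((2 * n : ℕ) : ZMod 2) = 0 := by
  rw [Nat.cast_mul]; exact mul_eq_zero_of_left rfl _

/-- The dot product restricted to `U`. -/
def fU (o : Fin (2 * n)) : Form (FormType.alt (ZMod 2)) (U o) :=
  Form.ofAlt ((Matrix.toBilin' 1).restrict (U o)) fun v => by
    have : ∀ a : ZMod 2, a * a = a := by decide
    simpa [Matrix.toBilin'_apply', dotProduct, this] using v.2.1

theorem fU_B (o : Fin (2 * n)) (u v : U o) : (fU o).B u v = ∑ i, u.1 i * v.1 i := by
  change Matrix.toBilin' 1 u.1 v.1 = _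
  simp [Matrix.toBilin'_apply', dotProduct]

theorem single_mem (o : Fin (2 * n)) (i j : Fin (2 * n)) (hi : i ≠ o) (hj : j ≠ o) :
    Pi.single i 1 + Pi.single j 1 ∈ U o :=
  ⟨by simp [Finset.sum_add_distrib, CharTwo.add_self_eq_zero], by simp [hi.symm, hj.symm]⟩

theorem fU_nondeg (o : Fin (2 * n)) : (fU o).Nondeg := fun v hv => by
  have h1 : ∀ i j, i ≠ o → j ≠ o → v.1 i = v.1 j := fun i j hi hj => by
    have := hv ⟨_, single_mem o i j hi hj⟩
    simpa [fU_B, mul_add, Finset.sum_add_distrib, Pi.single_apply, CharTwo.add_eq_zero] using this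
  ext i
  by_cases hi : i = o
  · rw [hi]; exact v.2.2
  have h2 := v.2.1
  rw [← Finset.add_sum_erase _ _ (Finset.mem_univ o), v.2.2, zero_add,
    Finset.sum_congr rfl fun j hj => h1 j i (Finset.mem_erase.mp hj).1 hi] at h2
  have h3 : (2 * n - 1 : ℕ) + (1 : ZMod 2) = 0 := by
    have : 0 < 2 * n := Fin.pos o
    rw [← Nat.cast_succ, Nat.succ_eq_add_one, Nat.sub_add_cancel this, two_mul_cast]
  simp only [Finset.sum_const, Finset.card_erase_of_mem (Finset.mem_univ _), Finset.card_univ,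
    Fintype.card_fin, nsmul_eq_mul] at h2
  rw [CharTwo.add_eq_zero.mp h3, one_mul] at h2
  exact h2

theorem finrank_U (hn : 2 ≤ n) (o : Fin (2 * n)) : Module.finrank (ZMod 2) (U o) = 2 * (n - 1) := by
  let L : (Fin (2 * n) → ZMod 2) →ₗ[ZMod 2] ZMod 2 × ZMod 2 :=
    LinearMap.prod (∑ i, LinearMap.proj i) (LinearMap.proj o)
  have h1 : LinearMap.ker L = U o := by ext v; simp [L, U]
  have h2 : LinearMap.range L = ⊤ := by
    rw [LinearMap.range_eq_top]
    rintro ⟨a, b⟩
    have : Nontrivial (Fin (2 * n)) := Fin.nontrivial_iff_two_le.mpr (by omega)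
    obtain ⟨j, hj⟩ := exists_ne o
    exact ⟨Pi.single o b + Pi.single j (a - b), by simp [L, hj.symm, Finset.sum_add_distrib]⟩
  have := LinearMap.finrank_range_add_finrank_ker L
  rw [h1, h2] at this
  simp at this
  omega

/-- The permutation action on `U`. -/
def rho (o : Fin (2 * n)) (σ : Equiv.Perm (Fin (2 * n))) : U o →ₗ[ZMod 2] U o where
  toFun v := ⟨fun i => v.1 (σ⁻¹ i) + v.1 (σ⁻¹ o), by
    rw [Finset.sum_add_distrib, Equiv.sum_comp σ⁻¹ v.1, v.2.1]
    simp only [Finset.sum_const, Finset.card_univ, Fintype.card_fin, nsmul_eq_mul, two_mul_cast]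
    simp, CharTwo.add_self_eq_zero _⟩
  map_add' u v := by ext i; simp; ring
  map_smul' c v := by ext i; simp; ring

theorem rho_apply (o : Fin (2 * n)) (σ : Equiv.Perm (Fin (2 * n))) (v : U o) (i : Fin (2 * n)) :
    (rho o σ v).1 i = v.1 (σ⁻¹ i) + v.1 (σ⁻¹ o) := rfl

theorem rho_mul (o : Fin (2 * n)) (σ τ : Equiv.Perm (Fin (2 * n))) (v : U o) :
    rho o σ (rho o τ v) = rho o (σ * τ) v := by
  ext i
  simp only [rho_apply, _root_.mul_inv_rev, Equiv.Perm.mul_apply]
  linear_combination CharTwo.add_self_eq_zero (v.1 (τ⁻¹ o))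

theorem rho_one (o : Fin (2 * n)) (v : U o) : rho o 1 v = v := by
  ext i; simp [rho_apply, v.2.2]

/-- The permutation action as a homomorphism to the isometry group. -/
def rhoHom (o : Fin (2 * n)) : Equiv.Perm (Fin (2 * n)) →* (fU o).O where
  toFun σ := ⟨{ rho o σ with
      invFun := rho o σ⁻¹
      left_inv := fun v => (rho_mul o _ _ v).trans (by rw [inv_mul_cancel, rho_one])
      right_inv := fun v => (rho_mul o _ _ v).trans (by rw [mul_inv_cancel, rho_one]) },
    (Form.alt_isIsom_iff _ _ _).mpr fun u v => by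
      change (fU o).B (rho o σ u) (rho o σ v) = _
      simp only [fU_B, rho_apply, mul_add, add_mul, Finset.sum_add_distrib, ← Finset.mul_sum,
        ← Finset.sum_mul]
      rw [Equiv.sum_comp σ⁻¹ (fun i => u.1 i * v.1 i), Equiv.sum_comp σ⁻¹ u.1,
        Equiv.sum_comp σ⁻¹ v.1, u.2.1, v.2.1]
      simp only [Finset.sum_const, Finset.card_univ, Fintype.card_fin, nsmul_eq_mul, two_mul_cast]
      simp⟩
  map_one' := by ext1; ext1 v; exact rho_one o v
  map_mul' σ τ := by ext1; ext1 v; exact (rho_mul o σ τ v).symm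

theorem rhoHom_injective (hn : 3 ≤ n) (o : Fin (2 * n)) : Function.Injective (rhoHom o) := by
  rw [injective_iff_map_eq_one]
  intro σ hσ
  have h1 : ∀ (v : U o) (i), v.1 (σ⁻¹ i) + v.1 (σ⁻¹ o) = v.1 i := fun v i =>
    congrArg (fun g : (fU o).O => (g.1 v).1 i) hσ
  have hex : ∀ s : Finset (Fin (2 * n)), s.card ≤ 5 → ∃ k, k ∉ s := fun s hs => by
    by_contra! h
    have := Finset.card_le_card (fun k _ => h k : Finset.univ ⊆ s)
    simp at this; omega
  have h2 : ∀ i, i ≠ o → σ⁻¹ i = i := fun i hi => by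
    by_contra hne
    obtain ⟨j, hj⟩ := hex {o, i, σ⁻¹ i, σ⁻¹ o} (Finset.card_le_four.trans (by omega))
    simp only [Finset.mem_insert, Finset.mem_singleton, not_or] at hj
    obtain ⟨k, hk⟩ := hex {i, j, σ i, σ j} (Finset.card_le_four.trans (by omega))
    simp only [Finset.mem_insert, Finset.mem_singleton, not_or] at hk
    have e1 := h1 ⟨_, single_mem o i j hi hj.1⟩ i
    have e2 := h1 ⟨_, single_mem o i j hi hj.1⟩ k
    have k1 : σ⁻¹ k ≠ i := fun h => hk.2.2.1 (by simp [← h])
    have k2 : σ⁻¹ k ≠ j := fun h => hk.2.2.2 (by simp [← h])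
    simp only [Pi.add_apply, Pi.single_apply, if_neg hne, if_neg (Ne.symm hj.2.2.1),
      if_neg (Ne.symm hj.2.2.2), if_neg (Ne.symm hj.2.1), if_neg k1, if_neg k2, if_neg hk.1,
      if_neg hk.2.1, if_true, add_zero, zero_add] at e1 e2
    exact one_ne_zero (e1.symm.trans e2)
  rw [← inv_eq_one]
  ext i
  by_cases hi : i = o
  · subst hi
    by_contra hne
    have hne' : σ⁻¹ i ≠ i := fun h => hne (by rw [h]; rfl)
    exact hne' ((σ⁻¹).injective (h2 _ hne'))
  · rw [h2 i hi]; rfl


/-- S_2n ≤ Sp_(2n−2)(2) for n ≥ 3: there is an injective homomorphism from the symmetric group on 2n letters into the symplectic group of degree 2n − 2 over the field with two elements. -/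
theorem result (n : ℕ) (hn : 3 ≤ n) : ∃ f : Equiv.Perm (Fin (2 * n)) →* Matrix.symplecticGroup (Fin (n - 1)) (ZMod 2), Function.Injective f := by
  let o : Fin (2 * n) := ⟨0, by omega⟩
  obtain ⟨e⟩ := CL.Sp.nonempty_O_equiv (fU_nondeg o) (finrank_U (by omega) o)
  exact ⟨e.toMonoidHom.comp (rhoHom o), e.injective.comp (rhoHom_injective hn o)⟩

end Cfsg.Agent.S0826
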