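import Cfsg.Statements.S0247
import Cfsg.Agent.S0826

set_option autoImplicit false
open Cfsg

namespace Cfsg.Agent.S0247

open Matrix

/-- Change of field along a ring homomorphism. -/
def spMap {F K : Type*} [Field F] [Field K] (m : ℕ) (φ : F →+* K) :
    symplecticGroup (Fin m) F →* symplecticGroup (Fin m) K where
  toFun A := ⟨A.1.map φ, SymplecticGroup.map_mem A.2 φ⟩
  map_one' := Subtype.ext (Matrix.map_one _ φ.map_zero φ.map_one)
  map_mul' _ _ := Subtype.ext Matrix.map_mul

theorem spMap_injective {F K : Type*} [Field F] [Field K] (m : ℕ) (φ : F →+* K) :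
    Function.Injective (spMap m φ) := fun _ _ h =>
  Subtype.ext (Matrix.map_injective φ.injective (congrArg Subtype.val h))


/-- Sp_4(2) is isomorphic to the symmetric group S_6. -/
theorem result {F : Type*} [Field F] [Fintype F] (hF : Fintype.card F = 2) : Nonempty (Matrix.symplecticGroup (Fin 2) F ≃* Equiv.Perm (Fin 6)) := by
  obtain ⟨f, hf⟩ := Cfsg.Agent.S0826.result 3 le_rfl
  let e : ZMod 2 ≃+* F := FiniteField.ringEquivOfCardEq (by simp [hF])
  refine ⟨(MulEquiv.ofBijective ((spMap 2 e.toRingHom).comp f) ?_).symm⟩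
  refine (Nat.bijective_iff_injective_and_card _).mpr ⟨(spMap_injective 2 _).comp hf, ?_⟩
  rw [CL.Sp.card_symplecticGroup, Nat.card_eq_fintype_card (α := F), hF, Nat.card_perm]
  simp [Finset.prod_range_succ, Nat.factorial]

end Cfsg.Agent.S0247
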