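import Cfsg.Statements.S2366
import Cfsg.Agent.CLAS.UniOrd
import Cfsg.Agent.S2476

set_option autoImplicit false
open Cfsg

namespace Cfsg.Agent.S2366

/-- The set of element orders of PSU(3, q) for an odd prime power q = p^n: writing d = gcd(3, q + 1), a positive integer is the order of some element exactly when it divides one of q + 1, p(q + 1)/d, (q² − 1)/d, (q² − q + 1)/d. -/
theorem result {F : Type*} [Field F] [Fintype F] (p : ℕ) [Fact p.Prime] [CharP F p] (hp : p ≠ 2) (q : ℕ) (hF : Fintype.card F = q ^ 2) :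
    Set.range (orderOf : Cfsg.PSU 3 F q → ℕ) =
      {s : ℕ | s ∣ q + 1} ∪ {s : ℕ | s ∣ p * (q + 1) / Nat.gcd 3 (q + 1)} ∪
        {s : ℕ | s ∣ (q ^ 2 - 1) / Nat.gcd 3 (q + 1)} ∪ {s : ℕ | s ∣ (q ^ 2 - q + 1) / Nat.gcd 3 (q + 1)} := by
  open CL.GLn CL.UniED CL.SpU Polynomial in
  have hpp : p.Prime := Fact.out
  have hq := CL.SqField.two_le hF
  have hd : Nat.gcd 3 (q + 1) ∣ q + 1 := Nat.gcd_dvd_right _ _
  have hpd : p * (q + 1) / Nat.gcd 3 (q + 1) = p * ((q + 1) / Nat.gcd (q + 1) 3) := by
    rw [Nat.mul_div_assoc _ hd, Nat.gcd_comm]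
  have hN2 : NN q 2 = q ^ 2 - 1 := NN_even (by omega) even_two
  have hg3 := gg_pos hq (m := 3) three_pos
  ext m
  simp only [Set.mem_range, Set.mem_union, Set.mem_ofPred_eq]
  constructor
  · rintro ⟨y, rfl⟩
    induction y using QuotientGroup.induction_on with
    | H A =>
    obtain ⟨s, hs, hu, hw, hdet⟩ := exists_hasED_su hF A
    have hfix : ∀ (a : F) e, (X - C a, e) ∈ s → (∀ x ∈ s, x.1.natDegree = 1 → x.2 = e →
        x = (X - C a, e)) → a ^ (q + 1) = 1 := fun a e h1 h2 => by
      have h0 := hu.2.1 _ h1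
      have h3 := h2 _ (hu.DD_mem hF h1) (by
        simp only [DD]
        rw [natDegree_dl hF h0, natDegree_X_sub_C]) rfl
      exact (dl_X_sub_C_eq_iff hF (by simpa using h0)).1 (congrArg Prod.fst h3)
    simp only [orderOf_dvd_iff_pow_eq_one]
    rcases hs.1.cases_three hw with
      ⟨P, hP, rfl⟩ | ⟨a, rfl⟩ | ⟨P, b, hP, rfl⟩ | ⟨a, b, rfl⟩ | ⟨a, b, c, rfl⟩
    · right
      have h1 : dl hF P = P := by
        have := hu.2.2
        rw [Multiset.map_singleton, Multiset.singleton_inj] at this
        exact congrArg Prod.fst this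
      obtain ⟨m, e, ω, δ, hb⟩ := Blk.exists_data hF ⟨(P, 1), Or.inl ⟨h1, rfl⟩⟩ hu
      obtain rfl : 1 = e := hb.exp_eq (P, 1) (by simp)
      refine psu_pow_eq_one_of_bd hF p (by omega) hs hb ?_ (by simp)
      rw [mul_comm, dvd_mul_iff_div_gcd_dvd hg3, gcd_gg, gg_three]
    · left; left; right
      simp only [psu_pow_eq_one_iff_ed hF p (by omega) hs, Multiset.mem_singleton, forall_eq,
        X_sub_C_dvd_X_pow_sub_C_iff, exists_and_right, exists_eq', true_and]
      rw [clog_three_of_ne hpp hp, pow_one, hpd]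
      exact dvd_mul_right _ _
    · exfalso
      have hm : (P, 1) ∈ ({(P, 1), (X - C b, 1)} : Multiset (F[X] × ℕ)) := by simp
      have h1 := hu.DD_mem hF hm
      have h2 := natDegree_dl hF (hu.2.1 _ hm)
      simp only [DD, Multiset.insert_eq_cons, Multiset.mem_cons, Multiset.mem_singleton,
        Prod.mk.injEq, and_true] at h1
      rcases h1 with h1 | h1
      · have := (odd_of_dl_eq hF (hu.1 _ hm).2.1 (hu.2.1 _ hm) h1).1
        simp only [hP] at this
        exact absurd this (by decide)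
      · simp only [h1, natDegree_X_sub_C, hP] at h2
        omega
    · left; left; right
      have ha := hfix a 2 (by simp) (by simp)
      simp only [dt, Multiset.insert_eq_cons, Multiset.map_cons, Multiset.map_singleton,
        Multiset.prod_cons, Multiset.prod_singleton, pow_one, norm_root_X_sub_C] at hdet
      simp only [psu_pow_eq_one_iff_ed hF p (by omega) hs, Multiset.insert_eq_cons,
        Multiset.mem_cons, Multiset.mem_singleton,
        forall_eq_or_imp, forall_eq, Nat.clog_one_right, pow_zero, one_dvd, and_true,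
        X_sub_C_dvd_X_pow_sub_C_iff, exists_eq_right', clog_two hpp, pow_one, hpd]
      refine ⟨?_, dvd_mul_right _ _⟩
      rw [S2476.pow_eq_pow_iff hdet, ← orderOf_dvd_iff_pow_eq_one]
      refine (orderOf_dvd_of_pow_eq_one ha).trans ?_
      rw [dvd_mul_iff_div_gcd_dvd (by omega)]
      exact dvd_mul_left _ _
    · simp only [psu_pow_eq_one_iff_ed hF p (by omega) hs]
      have key : ∀ a b c : F, a * b * c = 1 → b = (a ^ q)⁻¹ →
          a ^ ((q ^ 2 - 1) / Nat.gcd 3 (q + 1)) = b ^ ((q ^ 2 - 1) / Nat.gcd 3 (q + 1)) ∧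
          a ^ ((q ^ 2 - 1) / Nat.gcd 3 (q + 1)) = c ^ ((q ^ 2 - 1) / Nat.gcd 3 (q + 1)) := by
        intro a b c h1 h2
        have ha : a ≠ 0 := by rintro rfl; simp at h1
        have h3 := FiniteField.pow_card_sub_one_eq_one a ha
        rw [hF] at h3
        obtain ⟨k, hk⟩ : Nat.gcd 3 (q + 1) ∣ q ^ 2 - 1 := hd.trans (hN2 ▸ dvd_mul_left _ _)
        have h4 : ∀ j, Nat.gcd 3 (q + 1) ∣ j → (a ^ k) ^ j = 1 := by
          rintro _ ⟨j, rfl⟩
          rw [pow_mul, ← pow_mul a, mul_comm k, ← hk, h3, one_pow]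
        rw [hk, Nat.mul_div_cancel_left _ (Nat.gcd_pos_of_pos_left _ three_pos)]
        have h5 : a ^ k = b ^ k := by
          rw [h2, inv_pow, ← pow_mul, mul_comm q, pow_mul, eq_comm,
            inv_pow_eq_iff (pow_ne_zero _ ha), h4 _ hd]
        refine ⟨h5, ?_⟩
        have h6 := congrArg (· ^ k) h1
        have h7 := h4 3 (Nat.gcd_dvd_left _ _)
        simp only [mul_pow, ← h5, one_pow] at h6
        apply mul_left_cancel₀ (mul_ne_zero (pow_ne_zero k ha) (pow_ne_zero k ha))
        rw [h6, ← h7]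
        ring
      simp only [dt, Multiset.insert_eq_cons, Multiset.map_cons, Multiset.map_singleton,
        Multiset.prod_cons, Multiset.prod_singleton, pow_one, norm_root_X_sub_C] at hdet
      have ha : a ≠ 0 := by rintro rfl; simp at hdet
      have hb : b ≠ 0 := by rintro rfl; simp at hdet
      have hc : c ≠ 0 := by rintro rfl; simp at hdet
      have h1 := hu.DD_mem hF (x := (X - C a, 1)) (by simp)
      have h2 := hu.DD_mem hF (x := (X - C b, 1)) (by simp)
      have h3 := hu.DD_mem hF (x := (X - C c, 1)) (by simp)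
      simp only [DD, dl_X_sub_C hF ha, dl_X_sub_C hF hb, dl_X_sub_C hF hc, Multiset.insert_eq_cons,
        Multiset.mem_cons, Multiset.mem_singleton, Prod.mk.injEq, and_true, sub_right_inj,
        C_inj] at h1 h2 h3
      simp only [Multiset.insert_eq_cons, Multiset.mem_cons, Multiset.mem_singleton,
        forall_eq_or_imp, forall_eq, Nat.clog_one_right, pow_zero, one_dvd, and_true,
        X_sub_C_dvd_X_pow_sub_C_iff, exists_eq_left']
      rcases h1 with h1 | h1 | h1
      · rcases h2 with h2 | h2 | h2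
        · have := key b a c (by rw [← hdet]; ring) h2.symm
          exact Or.inl (Or.inr ⟨this.1, this.2.symm.trans this.1⟩)
        · rcases h3 with h3 | h3 | h3
          · have := key c a b (by rw [← hdet]; ring) h3.symm
            exact Or.inl (Or.inr ⟨this.2.symm.trans this.1, this.1⟩)
          · have := key c b a (by rw [← hdet]; ring) h3.symm
            exact Or.inl (Or.inr ⟨this.1.symm.trans this.2, this.2⟩)
          · rw [inv_pow_eq_iff ‹_›] at h1 h2 h3
            exact Or.inl (Or.inl (Or.inl ⟨h2.trans h1.symm, h3.trans h1.symm⟩))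
        · have := key b c a (by rw [← hdet]; ring) h2.symm
          exact Or.inl (Or.inr ⟨this.2, this.1.symm.trans this.2⟩)
      · have := key a b c (by rw [← hdet]; ring) h1.symm
        exact Or.inl (Or.inr ⟨this.1.symm, this.2.symm⟩)
      · have := key a c b (by rw [← hdet]; ring) h1.symm
        exact Or.inl (Or.inr ⟨this.2.symm, this.1.symm⟩)
  · have h' : ∀ N, m ∣ N → (∃ y : Cfsg.PSU 3 F q, orderOf y = N) →
        ∃ y : Cfsg.PSU 3 F q, orderOf y = m := by
      rintro _ h1 ⟨y, rfl⟩
      exact exists_orderOf_eq_of_dvd_orderOf h1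
    obtain ⟨a, ha0, ha⟩ := exists_orderOf_eq_of_dvd_card_sub_one (F := F) (m := q + 1) (by
      rw [hF, ← hN2]
      exact dvd_mul_left _ _)
    have ha1 : a ^ (q + 1) = 1 := by rw [← ha, pow_orderOf_eq_one]
    rintro (((h1 | h1) | h1) | h1) <;> refine h' _ h1 ?_
    · obtain ⟨B, h2, h3, h4⟩ := exists_jordan hF p ha1 one_pos
      obtain ⟨B', h2', h3', h4'⟩ := exists_jordan hF p (a := a⁻¹) (by rw [inv_pow, ha1, inv_one])
        one_pos
      obtain ⟨B'', h2'', h3'', h4''⟩ := exists_jordan hF p (one_pow (q + 1)) one_pos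
      obtain ⟨y, hy⟩ := ((h2.prodMap h2').prodMap h2'').exists_psu hF (n := 3) (by omega) (by simp)
        (by simp [LinearMap.det_prodMap, h3, h3', h3'', ha0])
      refine ⟨y, orderOf_eq_of_forall_iff fun k => ?_⟩
      simp [hy, prodMap_pow_eq_algebraMap_iff, h4, h4', h4'', ← orderOf_dvd_iff_pow_eq_one, ha]
    · obtain ⟨y, hy⟩ := exists_psu_jordan_pred hF p (n := 3) (by omega) ha1
      refine ⟨y, orderOf_eq_of_forall_iff fun k => ?_⟩
      rw [hy, ← orderOf_dvd_iff_pow_eq_one, ha, dvd_mul_iff_div_gcd_dvd (by omega),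
        show 3 - 1 = 2 from rfl, clog_two hpp, pow_one, hpd]
      have h2 : p.Coprime ((q + 1) / Nat.gcd (q + 1) 3) := by
        refine (char_coprime_card_sub_one (F := F) p).coprime_dvd_right
          ((Nat.div_dvd_of_dvd (Nat.gcd_dvd_left _ _)).trans ?_)
        rw [hF, ← hN2]
        exact dvd_mul_left _ _
      exact ⟨fun h => h2.mul_dvd_of_dvd_of_dvd h.2 h.1,
        fun h => ⟨(dvd_mul_left _ _).trans h, (dvd_mul_right _ _).trans h⟩⟩
    · rw [← hN2]
      exact exists_psu_torus_pred hF (n := 2) (by omega)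
    · obtain ⟨y, hy⟩ := exists_singer_psu hF (n := 3) (by omega)
      refine ⟨y, orderOf_eq_of_forall_iff fun k => ?_⟩
      rw [hy, mul_comm k, dvd_mul_iff_div_gcd_dvd hg3, gcd_gg, gg_three]

end Cfsg.Agent.S2366
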