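import Cfsg.Statements.S4294
import Cfsg.Agent.TECH.Amitsur
import Cfsg.Agent.S4293
import Cfsg.Agent.S3359

set_option autoImplicit false
open Cfsg

namespace Cfsg.Agent.S4294

/-- A finite non-solvable subgroup of the multiplicative group of a division ring is isomorphic to the binary icosahedral group SL(2,5). -/
theorem result {D : Type*} [DivisionRing D] (H : Subgroup Dˣ) [Finite H] (hH : ¬ Group.IsSolvable H) :
    Nonempty (H ≃* Matrix.SpecialLinearGroup (Fin 2) (ZMod 5)) := by
  classical
  have hne : H ≠ ⊥ := by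
    rintro rfl
    exact hH inferInstance
  obtain ⟨G₀, hN, hi, S, M, hSM, -, hc, ⟨e⟩, -, h30⟩ :=
    Cfsg.Agent.S3359.result hH (Cfsg.Agent.S4293.result H hne)
  let ι : H →* D := (Units.coeHom D).comp H.subtype
  have hι : Function.Injective ι := Units.val_injective.comp H.subtype_injective
  let φ : CL.Amitsur.SL5 →* D := ι.comp (S.subtype.comp e.symm.toMonoidHom)
  have hφ : Function.Injective φ := hι.comp (S.subtype_injective.comp e.symm.injective)
  have hφS : ∀ s : H, s ∈ S → ∃ x, ι s = φ x := fun s hs => ⟨e ⟨s, hs⟩, by simp [φ]⟩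
  have hM : M = ⊥ := by
    rw [eq_bot_iff]
    intro z hz
    rw [Subgroup.mem_bot]
    apply hι
    rw [map_one]
    refine CL.Amitsur.no_cent φ hφ (p := Nat.card M) (fun x => ?_)
      (h30.coprime_dvd_right (by norm_num) |>.mul_right (h30.coprime_dvd_right (n := 10) (by norm_num)) |>.coprime_dvd_right (show 20 ∣ 2 * 10 by norm_num)) ?_
    · show ι _ * ι z = ι z * ι _
      rw [← map_mul, ← map_mul]
      exact congrArg ι (hc _ (e.symm x).2 z hz)
    · rw [← map_pow]
      have : (⟨z, hz⟩ : M) ^ Nat.card M = 1 := pow_card_eq_one'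
      rw [show z ^ Nat.card M = 1 from congrArg Subtype.val this, map_one]
  rw [hM, sup_bot_eq] at hSM
  subst hSM
  have htop : S = ⊤ := by
    rcases hi with hi | hi
    · exact Subgroup.index_eq_one.1 hi
    · exfalso
      obtain ⟨y, hy⟩ : ∃ y : H, y ∉ S := by
        by_contra hcon
        push Not at hcon
        rw [(Subgroup.eq_top_iff' S).2 hcon, Subgroup.index_top] at hi
        omega
      obtain ⟨x, hx⟩ := CL.Amitsur.no_index_two φ hφ (y := ι y) (Units.ne_zero _) (fun x => by
        obtain ⟨x', hx'⟩ := hφS _ (hN.conj_mem _ (e.symm x).2 y)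
        refine ⟨x', ?_⟩
        rw [← hx', ← map_mul, inv_mul_cancel_right, map_mul]; rfl) (fun x => by
        obtain ⟨t, ht⟩ := hφS _ (Subgroup.mul_self_mem_of_index_two hi (((e.symm x : S) : H) * y))
        exact ⟨t, by rw [← ht, map_mul, map_mul]; rfl⟩)
      exact hy (by rw [hι hx]; exact (e.symm x).2)
  subst htop
  exact ⟨Subgroup.topEquiv.symm.trans e⟩

end Cfsg.Agent.S4294
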