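import Cfsg.Statements.S1480
import Cfsg.Agent.ODD.ThBender

set_option autoImplicit false
open Cfsg CL.MSS CL.BG

namespace Cfsg.Agent.S1480

/-- Let G be a finite group and p a prime such that the normalizer of every nontrivial p-subgroup of G is p-constrained; if p = 2 assume also that the Sylow 2-subgroups of G have nilpotency class at most 2. Let E be an abelian p-subgroup containing an elementary abelian subgroup of order p ^ 3 and containing every element of p-power order of C_G(E). Then for every prime q ≠ p, any two maximal E-invariant q-subgroups of G are conjugate by an element of O_{p'}(C_G(E)). -/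
theorem result {G : Type*} [Group G] [Finite G] (p : ℕ) [Fact p.Prime]
    (hloc : ∀ T : Subgroup G, IsPGroup p T → T ≠ ⊥ → Cfsg.IsPConstrained p ↥(Subgroup.normalizer (T : Set G)))
    (h2 : p = 2 → ∀ S : Sylow p G, Group.IsNilpotent (S : Subgroup G) ∧ Group.nilpotencyClass (S : Subgroup G) ≤ 2)
    (E : Subgroup G) (hEp : IsPGroup p E) (hEc : IsMulCommutative E) (hE3 : ¬ Cfsg.PRankLE p 2 E)
    (hEfull : ∀ x ∈ Subgroup.centralizer (E : Set G), IsPGroup p (Subgroup.zpowers x) → x ∈ E)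
    (q : ℕ) [Fact q.Prime] (hqp : q ≠ p) :
    ∀ Q₁ ∈ Cfsg.maxInvSubgroups ⊤ E {q}, ∀ Q₂ ∈ Cfsg.maxInvSubgroups ⊤ E {q},
        ∃ k ∈ Cfsg.piCoreOf (Cfsg.primesNotDvd p) (Subgroup.centralizer (E : Set G)), Q₂ = Q₁.map (MulAut.conj k).toMonoidHom := by
  intro Q₁ h₁ Q₂ h₂
  have hp : p.Prime := Fact.out
  have e : piCoreOf (primesNotDvd p) 𝐂(E) = piCoreOf {p}ᶜ 𝐂(E) :=
    pcore_congr fun r hr _ => ⟨fun h he => h.2 (Set.mem_singleton_iff.1 he ▸ dvd_rfl),
      fun h => ⟨hr, fun hd => h ((Nat.prime_dvd_prime_iff_eq hr hp).1 hd)⟩⟩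
  rw [e]
  refine thompson_transitivity hEp hEc hE3 hqp (fun u hu hu1 R hR hER hRu => ?_) h₁ h₂
  have hc := hloc (Subgroup.zpowers u) (hEp.to_le (Subgroup.zpowers_le.2 hu))
    (fun h => hu1 (Subgroup.zpowers_eq_bot.1 h))
  have hCN : 𝐂₁(u) ≤ 𝐍(Subgroup.zpowers u) := by rw [← cent_zpowers]; exact cent_le_norm _
  have hEX : E ≤ 𝐍(Subgroup.zpowers u) :=
    (le_cent1_iff.2 (le_cent_of_abelian hEc hu)).trans hCN
  have hR' : PiGrp {p}ᶜ R := piGrp_compl_of_isPGroup hR hqp
  by_cases hp2 : p = 2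
  · refine thompson_bender_class2 hc hEX hEp (hRu.trans hCN) hR' hER (fun S hS _ => ?_)
      fun x hx hxp => hEfull x hx.2 hxp
    obtain ⟨T, hT⟩ := hS.exists_le_sylow
    obtain ⟨k1, k2⟩ := h2 hp2 T
    have k3 := Subgroup.lowerCentralSeries_eq_bot_iff_nilpotencyClass_le.2 k2
    have k4 := Subgroup.top_subtype_lowerCentralSeries (T : Subgroup G) 2
    rw [k3, Subgroup.map_bot] at k4
    exact (der1S hT).trans ((comm_eq_bot_iff.1 k4.symm).trans (centS hT))
  · exact thompson_bender hp2 hc hEX hEp (hRu.trans hCN) hR' hER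
      fun x hx hxp => hEfull x hx.2 (isPGroup_zpowers (k := 1) (by rwa [pow_one]))

end Cfsg.Agent.S1480
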