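import Cfsg.Statements.S1757
import Cfsg.Agent.TECH.Conj
import Cfsg.Agent.SOLV.Basic

set_option autoImplicit false
open Cfsg

namespace Cfsg.Agent.S1757

open CL.MSS

/-- Let p be a prime and A, B p-subgroups of the finite group G, each of which meets every conjugate of itself other than itself trivially. Suppose the order of A is at most that of B, A and B intersect trivially, and B normalizes A. Then A and B commute elementwise. -/
theorem result {G : Type*} [Group G] [Finite G] (p : ℕ) [Fact p.Prime] (A B : Subgroup G)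
    (hA : IsPGroup p ↥A) (hB : IsPGroup p ↥B)
    (hAti : ∀ g : G, A.map (MulAut.conj g).toMonoidHom = A ∨ A.map (MulAut.conj g).toMonoidHom ⊓ A = ⊥)
    (hBti : ∀ g : G, B.map (MulAut.conj g).toMonoidHom = B ∨ B.map (MulAut.conj g).toMonoidHom ⊓ B = ⊥)
    (hle : Nat.card ↥A ≤ Nat.card ↥B) (hAB : A ⊓ B = ⊥) (hN : B ≤ Subgroup.normalizer (A : Set G)) : ⁅A, B⁆ = ⊥ := by
  by_cases hAN : A ≤ Subgroup.normalizer (B : Set G)
  · rw [eq_bot_iff, ← hAB]
    exact le_inf (commutator_le_left_of_normalizes hN) (commutator_le_right_of_normalizes hAN)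
  exfalso
  have hP : IsPGroup p (A ⊔ B : Subgroup G) := isPGroup_sup_of_normalizes' hA hB hN
  set N : Subgroup G := (A ⊔ B) ⊓ Subgroup.normalizer (B : Set G) with hNdef
  have hlt : N < A ⊔ B := by
    refine lt_of_le_of_ne inf_le_left fun h => hAN ?_
    have : A ⊔ B ≤ N := h.ge
    exact le_sup_left.trans (this.trans inf_le_right)
  obtain ⟨x, ⟨hxP, hxN⟩, hx⟩ := SetLike.exists_of_lt (lt_inf_normalizer_of_lt hP hlt)
  have hBN : B ≤ N := le_inf le_sup_right Subgroup.le_normalizer
  have hxB : x •ᶜ B ≤ N := cj_le_of_mem_normalizer hBN hxN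
  have hne : x •ᶜ B ≠ B := fun h => hx ⟨hxP, mem_normalizer_iff_cj.2 h⟩
  have hbot := (hBti x).resolve_left hne
  have h1 := CL.card_sup_of_disjoint (hxB.trans inf_le_right) hbot
  rw [card_cj] at h1
  have h2 : Nat.card ↥(x •ᶜ B ⊔ B) ≤ Nat.card N := Subgroup.card_le_of_le (sup_le hxB hBN)
  have h3 : Nat.card N < Nat.card ↥(A ⊔ B) := CL.card_lt_of_lt hlt
  have h4 := CL.card_sup_of_disjoint hN (by rw [inf_comm]; exact hAB)
  rw [sup_comm] at h4
  have h5 : Nat.card B * Nat.card A ≤ Nat.card B * Nat.card B := Nat.mul_le_mul_left _ hle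
  omega

end Cfsg.Agent.S1757
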