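import Cfsg.Statements.S1780
import Mathlib

set_option autoImplicit false
open Cfsg

namespace Cfsg.Agent.S1780

/-- Let A be a finite abelian 2-group and t an automorphism of A whose order is a power of 2. If every element of A fixed by t² is fixed by t, then t fixes every element of A. -/
theorem result {A : Type*} [CommGroup A] [Finite A]
    (hA : IsPGroup 2 A) (t : MulAut A) (ht : ∃ k : ℕ, orderOf t = 2 ^ k) (hC : ∀ a : A, t (t a) = a → t a = a) :
    ∀ a : A, t a = a := by
  classical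
  by_contra hne
  push Not at hne
  obtain ⟨a₀, ha₀⟩ := hne
  obtain ⟨k, hk⟩ := ht
  -- δ a = t a / a
  let δ : A →* A := (t : A →* A) / MonoidHom.id A
  have hδ : ∀ a, δ a = t a / a := fun a => rfl
  let B : Subgroup A := δ.range
  have hBt : ∀ a : A, (t : Equiv.Perm A) a ∈ B ↔ a ∈ B := by
    intro a
    constructor
    · rintro ⟨b, hb⟩
      refine ⟨t.symm b, ?_⟩
      apply t.injective
      rw [hδ] at hb ⊢
      simp only [map_div, MulEquiv.apply_symm_apply]
      exact hb
    · rintro ⟨b, rfl⟩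
      refine ⟨t b, ?_⟩
      rw [hδ, hδ]
      change _ = t (t b / b)
      rw [map_div]
  let σ : Equiv.Perm B := Equiv.Perm.subtypePerm (t : Equiv.Perm A) hBt
  have hσ : σ ^ 2 ^ k = 1 := by
    have h1 : (t : Equiv.Perm A) ^ 2 ^ k = 1 := by
      have := congrArg (MulAut.toPerm A) (pow_orderOf_eq_one t)
      rw [map_pow, map_one, hk] at this
      exact this
    ext x
    simp only [σ, Equiv.Perm.subtypePerm_pow, Equiv.Perm.subtypePerm_apply, h1]
    rfl
  have hBne : B ≠ ⊥ := by
    intro h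
    have : δ a₀ ∈ B := ⟨a₀, rfl⟩
    rw [h, Subgroup.mem_bot, hδ, div_eq_one] at this
    exact ha₀ this
  have hdvd : 2 ∣ Nat.card B := by
    rcases (hA.to_subgroup B).card_eq_or_dvd with h | h
    · exact absurd (Subgroup.card_eq_one.1 h) hBne
    · exact h
  letI := Fintype.ofFinite B
  rw [Nat.card_eq_fintype_card] at hdvd
  obtain ⟨⟨c, a, rfl⟩, hc1, hc2⟩ := Equiv.Perm.exists_fixed_point_of_prime' hdvd hσ (a := 1)
    (Subtype.ext (map_one t))
  have hc1' : t (δ a) = δ a := congrArg Subtype.val hc1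
  have hc2' : δ a ≠ 1 := fun h => hc2 (Subtype.ext h)
  -- pass to a power of order two
  obtain ⟨m, hm⟩ := hA (δ a)
  have hex : ∃ m : ℕ, δ a ^ 2 ^ m = 1 := ⟨m, hm⟩
  have hm0 : Nat.find hex ≠ 0 := by
    intro h
    have := Nat.find_spec hex
    rw [h] at this
    exact hc2' (by simpa using this)
  obtain ⟨j, hj⟩ := Nat.exists_eq_succ_of_ne_zero hm0
  have hj1 : δ a ^ 2 ^ (j + 1) = 1 := by
    have := Nat.find_spec hex
    rwa [hj] at this
  have hj2 : δ a ^ 2 ^ j ≠ 1 := Nat.find_min hex (by omega)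
  set b := a ^ 2 ^ j with hb
  have hδb : δ b = δ a ^ 2 ^ j := map_pow δ a _
  have htb : t b = δ b * b := by rw [hδ]; simp
  have hfix : t (δ b) = δ b := by rw [hδb, map_pow, hc1']
  have hsq : δ b * δ b = 1 := by
    rw [hδb, ← pow_add, ← hj1]; congr 1; ring
  have h2 : t (t b) = b := by
    rw [htb, map_mul, hfix, htb, ← mul_assoc, hsq, one_mul]
  have h3 := hC b h2
  apply hj2
  rw [← hδb, hδ, h3, div_self']

end Cfsg.Agent.S1780
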