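import Cfsg.Statements.S1781
import Cfsg.Agent.TECH.Conj
import Cfsg.Agent.S1757
import Cfsg.Agent.S1780

set_option autoImplicit false
open Cfsg

namespace Cfsg.Agent.S1781

open CL.MSS

/-- Let A be an abelian 2-subgroup of the finite group G such that every conjugate of A equals A or meets A trivially, and let g ∈ G with g A g⁻¹ ≠ A. Then either the subgroup of those elements of A that normalize g A g⁻¹ is an elementary abelian 2-group, or A and g A g⁻¹ commute elementwise. -/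
theorem result {G : Type*} [Group G] [Finite G] (A : Subgroup G)
    (hA2 : IsPGroup 2 ↥A) (hAa : IsMulCommutative ↥A)
    (hti : ∀ h : G, A.map (MulAut.conj h).toMonoidHom = A ∨ A.map (MulAut.conj h).toMonoidHom ⊓ A = ⊥)
    (g : G) (hg : A.map (MulAut.conj g).toMonoidHom ≠ A) :
    Cfsg.IsElementaryAbelian 2 (A ⊓ Subgroup.normalizer ((A.map (MulAut.conj g).toMonoidHom : Subgroup G) : Set G)) ∨
      ⁅A, A.map (MulAut.conj g).toMonoidHom⁆ = ⊥ := by
  set B := g •ᶜ A with hB
  have hAB : B ⊓ A = ⊥ := (hti g).resolve_left hg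
  have hB2 : IsPGroup 2 B := isPGroup_cj g hA2
  have hBa : IsMulCommutative B := isMulCommutative_cj g hAa
  have hAc : ∀ x ∈ A, ∀ y ∈ A, x * y = y * x := fun x hx y hy =>
    congrArg Subtype.val (hAa.is_comm.comm (⟨x, hx⟩ : A) ⟨y, hy⟩)
  -- an element centralizing a nontrivial element of `A` normalizes `A`
  have hnorm : ∀ a ∈ A, a ≠ 1 → ∀ b : G, b * a * b⁻¹ = a → b ∈ Subgroup.normalizer (A : Set G) := by
    intro a ha ha1 b hb
    rw [mem_normalizer_iff_cj]
    refine (hti b).resolve_right fun h => ha1 ?_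
    have : a ∈ (b •ᶜ A) ⊓ A := ⟨hb ▸ conj_mem_cj ha, ha⟩
    rwa [h, Subgroup.mem_bot] at this
  by_cases hE : ∀ a ∈ A ⊓ Subgroup.normalizer (B : Set G), a ^ 2 = 1
  · left
    refine ⟨⟨⟨fun x y => Subtype.ext (hAc _ x.2.1 _ y.2.1)⟩⟩, hE⟩
  right
  push Not at hE
  obtain ⟨a, ⟨haA, haN⟩, ha2⟩ := hE
  have ha1 : a ≠ 1 := by rintro rfl; simp at ha2
  let t : MulAut B := B.normalizerMonoidHom ⟨a, haN⟩
  have ht : ∀ b : B, ((t b : B) : G) = a * b * a⁻¹ := fun b => rfl
  have hfix : ∀ b : B, t b = b := by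
    letI : CommGroup B := { (inferInstance : Group B) with mul_comm := hBa.is_comm.comm }
    refine Cfsg.Agent.S1780.result hB2 t ?_ ?_
    · obtain ⟨k, hk⟩ := hA2 ⟨a, haA⟩
      have hk' : a ^ 2 ^ k = 1 := congrArg Subtype.val hk
      have : t ^ 2 ^ k = 1 := by
        rw [← map_pow]
        have : (⟨a, haN⟩ : Subgroup.normalizer (B : Set G)) ^ 2 ^ k = 1 := Subtype.ext hk'
        rw [this, map_one]
      obtain ⟨j, -, hj⟩ := (Nat.dvd_prime_pow Nat.prime_two).1 (orderOf_dvd_of_pow_eq_one this)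
      exact ⟨j, hj⟩
    · intro b hb
      have hb' : a * (a * b * a⁻¹) * a⁻¹ = b := congrArg Subtype.val hb
      have hbN : (b : G) ∈ Subgroup.normalizer (A : Set G) := by
        refine hnorm (a ^ 2) (A.pow_mem haA 2) ha2 b ?_
        calc (b : G) * a ^ 2 * (b : G)⁻¹ = (a * (a * b * a⁻¹) * a⁻¹) * a ^ 2 * (b : G)⁻¹ := by rw [hb']
          _ = a ^ 2 := by simp only [pow_two]; group
      have h1 : a * b * a⁻¹ * (b : G)⁻¹ ∈ B ⊓ A := by
        refine Subgroup.mem_inf.2 ⟨?_, ?_⟩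
        · exact B.mul_mem (t b).2 (B.inv_mem b.2)
        · have := (Subgroup.mem_normalizer_iff.1 hbN a⁻¹).1 (A.inv_mem haA)
          have h2 := A.mul_mem haA this
          simpa only [mul_assoc] using h2
      rw [hAB, Subgroup.mem_bot] at h1
      apply Subtype.ext
      rw [ht]
      exact mul_inv_eq_one.1 h1
  have hBN : B ≤ Subgroup.normalizer (A : Set G) := by
    intro b hb
    refine hnorm a haA ha1 b ?_
    have := congrArg Subtype.val (hfix ⟨b, hb⟩)
    rw [ht] at this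
    simp only at this
    calc b * a * b⁻¹ = (a * b * a⁻¹) * a * b⁻¹ := by rw [this]
      _ = a := by group
  refine Cfsg.Agent.S1757.result 2 A B hA2 hB2 hti ?_ (card_cj g A).ge (by rw [inf_comm]; exact hAB) hBN
  intro h
  have h1 : h •ᶜ B = g •ᶜ ((g⁻¹ * h * g) •ᶜ A) := by
    rw [hB, ← cj_mul, ← cj_mul]; congr 3; group
  rcases hti (g⁻¹ * h * g) with h2 | h2
  · left
    rw [h1, h2]
  · right
    rw [h1, hB, ← cj_inf, h2, cj_bot]

end Cfsg.Agent.S1781
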