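import Cfsg.Statements.S0679
import Cfsg.Agent.PERM.Deg11

set_option autoImplicit false
open Cfsg

namespace Cfsg.Agent.S0679

/-- A non-solvable transitive permutation group on 11 points that does not contain the alternating group is either sharply 4-transitive (of order 7920) or isomorphic to the projective special linear group of degree 2 over the field with 11 elements. -/
theorem result {α : Type*} [Fintype α] [DecidableEq α] (hα : Fintype.card α = 11) (G : Subgroup (Equiv.Perm α)) [MulAction.IsPretransitive G α] (hG : ¬ Group.IsSolvable G) (hA : ¬ alternatingGroup α ≤ G) : (MulAction.IsMultiplyPretransitive G α 4 ∧ ∀ x : Fin 4 ↪ α, MulAction.stabilizer G x = ⊥) ∨ Nonempty (G ≃* Matrix.ProjectiveSpecialLinearGroup (Fin 2) (ZMod 11)) := by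
  have h : CL.PermMod.D11 G := ⟨hα, ‹_›, hG, hA⟩
  rcases h.card_cases h.le_alt with hc | hc
  · have : Fact (Nat.Prime 11) := ⟨by norm_num⟩
    exact Or.inr (h.psl h.le_alt hc)
  · refine Or.inl ⟨h.four_trans h.le_alt hc, fun x => ?_⟩
    rw [eq_bot_iff]
    intro g hg
    refine h.sharp h.le_alt hc (le_trans (by simp)
      (CL.PermMod.le_card_fixedBy (Finset.univ.map x) fun a ha => ?_))
    obtain ⟨i, -, rfl⟩ := Finset.mem_map.1 ha
    exact DFunLike.congr_fun hg i

end Cfsg.Agent.S0679
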