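import Cfsg.Statements.S4221
import Cfsg.Agent.PERM.HallK

set_option autoImplicit false
open Cfsg

namespace Cfsg.Agent.S4221

open MulAction CL.HallK in
theorem ok {α : Type*} [Fintype α] [DecidableEq α] (G : Subgroup (Equiv.Perm α))
    (hG : IsMultiplyPretransitive G α 4) (x : Fin 4 ↪ α)
    (hodd : Odd (Nat.card (stabilizer G x))) : Ok G α 4 := by
  refine ⟨hG, fun g hg S hS hfix => ?_⟩
  let y : Fin 4 ↪ α := (S.equivFinOfCardEq hS).symm.toEmbedding.trans (Function.Embedding.subtype _)
  obtain ⟨u, hu⟩ := hG.exists_smul_eq y x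
  have h1 : u * g * u⁻¹ ∈ stabilizer G x := by
    rw [mem_stabilizer_iff]
    refine DFunLike.ext _ _ fun i => ?_
    have e1 : u • y i = x i := DFunLike.congr_fun hu i
    have e2 : g • y i = y i := hfix _ ((S.equivFinOfCardEq hS).symm i).2
    change (u * g * u⁻¹) • x i = x i
    rw [← e1, mul_smul, mul_smul, inv_smul_smul, e2]
  have h2 := CL.InvT.eq_one_of_odd (x := u * g * u⁻¹) (by
      calc u * g * u⁻¹ * (u * g * u⁻¹) = u * (g * g) * u⁻¹ := by group
        _ = 1 := by rw [hg]; group)
    (hodd.of_dvd_nat (Subgroup.orderOf_dvd_natCard _ h1))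
  simpa using h2

/-- Let `G` be a `4`-fold transitive permutation group on a finite set of `n` points in which the pointwise stabilizer of some four distinct points has odd order. Then `n = 4` or `n = 5` with `G` the full symmetric group, or `n = 6` or `n = 7` with `G` the alternating group, or `n = 11` and `G` has order `7920`. -/
theorem result {α : Type*} [Fintype α] [DecidableEq α] (G : Subgroup (Equiv.Perm α)) (hG : MulAction.IsMultiplyPretransitive G α 4) (x : Fin 4 ↪ α) (hodd : Odd (Nat.card (MulAction.stabilizer G x))) : ((Fintype.card α = 4 ∨ Fintype.card α = 5) ∧ G = ⊤) ∨ ((Fintype.card α = 6 ∨ Fintype.card α = 7) ∧ G = alternatingGroup α) ∨ (Fintype.card α = 11 ∧ Nat.card G = 7920) := by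
  have H := ok G hG x hodd
  have hn : 4 ≤ Fintype.card α := by simpa using Fintype.card_le_of_embedding x
  have hc : Nat.card α = Fintype.card α := Nat.card_eq_fintype_card
  by_cases h8 : 8 ≤ Fintype.card α
  · have hs := H.sharp le_rfl (by omega)
    have := hs.four (by omega)
    have h11 : Nat.card α = 11 := by omega
    exact Or.inr (Or.inr ⟨by omega, (hs.simple_eleven h11).2⟩)
  by_cases h5 : Fintype.card α ≤ 5
  · exact Or.inl ⟨by omega, Equiv.Perm.eq_top_of_isMultiplyPretransitive
      (MulAction.isMultiplyPretransitive_of_le (n := 4) (by omega) (by omega))⟩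
  refine Or.inr (Or.inl ⟨by omega, CL.HallK.eq_alt (H.large le_rfl (by omega) (by omega)) ?_⟩)
  rintro rfl
  obtain ⟨a, b, hab⟩ := Fintype.exists_pair_of_one_lt_card (α := α) (by omega)
  obtain ⟨S, hS, hS'⟩ := Finset.exists_subset_card_eq (s := ({a, b} : Finset α)ᶜ) (n := 4) (by
    rw [Finset.card_compl, Finset.card_pair hab]; omega)
  have := H.inv ⟨Equiv.swap a b, Subgroup.mem_top _⟩ (Subtype.ext (Equiv.swap_mul_self a b)) S hS'
    (fun s hs => by
      have := hS hs
      simp only [Finset.mem_compl, Finset.mem_insert, Finset.mem_singleton, not_or] at this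
      exact Equiv.swap_apply_of_ne_of_ne this.1 this.2)
  exact hab (Equiv.swap_eq_one_iff.1 (congrArg Subtype.val this))

end Cfsg.Agent.S4221
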