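import Cfsg.Statements.S4220
import Cfsg.Agent.FGS.Miller
import Cfsg.Agent.FGS.PrimeCyc
import Cfsg.Agent.S0711
import Cfsg.Agent.S0415
import Cfsg.Agent.PERM.Witt
import Cfsg.Agent.PERM.JordanCycle

set_option autoImplicit false
open Cfsg

namespace Cfsg.Agent.S4220


open MulAction

/-- Let `n = kp + r` with `p` prime, `1 ≤ k < p` and `r > k`, excluding the case `k = 1, r = 2`. Then a permutation group of degree `n` that is `(r + 1)`-fold transitive contains the alternating group. -/
theorem result {α : Type*} [Fintype α] [DecidableEq α] (G : Subgroup (Equiv.Perm α)) {k p r : ℕ} (hp : p.Prime) (hn : Fintype.card α = k * p + r) (hk : 1 ≤ k) (hpk : k < p) (hrk : k < r) (hex : ¬ (k = 1 ∧ r = 2)) (hG : MulAction.IsMultiplyPretransitive G α (r + 1)) : alternatingGroup α ≤ G := by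
  classical
  by_contra hA
  haveI := Fact.mk hp
  have hr3 : 3 ≤ r := by omega
  have hp2 := hp.two_le
  have hkp : 2 ≤ k * p := by nlinarith
  have hcard : r + 1 ≤ Fintype.card α := by omega
  have hmin : ∀ g : G, g.1.support.card < 2 * r → g = 1 := by
    intro g hg
    by_contra h1
    exact hA (Cfsg.Agent.S0711.result G (k := r + 1) (by omega) hcard hG g.1 g.2
      (fun h => h1 (Subtype.ext h)) (by omega)).2
  have hGr : IsMultiplyPretransitive G α r :=
    isMultiplyPretransitive_of_le (n := r + 1) (by omega) (by simpa using hcard)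
  have hprim : IsPreprimitive G α := isPreprimitive_of_is_two_pretransitive
    (isMultiplyPretransitive_of_le (n := r + 1) (by omega) (by simpa using hcard))
  obtain ⟨e⟩ : Nonempty (Fin r ↪ α) := Function.Embedding.nonempty_of_card_le (by simp; omega)
  have hΔ : (Set.range e).ncard = r := by
    rw [← Set.image_univ, Set.ncard_image_of_injective _ e.injective, Set.ncard_univ, Nat.card_eq_fintype_card,
      Fintype.card_fin]
  have hΔc : (Set.range e)ᶜ.ncard = k * p := by
    have := Set.ncard_add_ncard_compl (Set.range e)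
    rw [Nat.card_eq_fintype_card] at this
    omega
  set H : Subgroup G := ⊤ ⊓ fixingSubgroup G (Set.range e) with hH
  obtain ⟨P, hP⟩ := CL.MSS.exists_sylIn p H
  have hHfix : ∀ v ∈ H, ∀ δ ∈ Set.range e, v • δ = δ := fun v hv δ hδ =>
    (mem_fixingSubgroup_iff _).1 hv.2 δ hδ
  have horb : ∀ ω ∉ Set.range e, orbit H ω = (Set.range e)ᶜ := by
    intro ω hω
    ext y
    constructor
    · rintro ⟨u, rfl⟩ hc
      have h1 := hHfix u u.2 _ hc
      have h2 : (u : G) • ω = ω := smul_left_cancel (u : G) h1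
      exact hω (h2 ▸ hc)
    · intro hy
      obtain ⟨g, hg⟩ := exists_smul_eq G (Fin.Embedding.cons e hω) (Fin.Embedding.cons e hy)
      refine ⟨⟨g, trivial, (mem_fixingSubgroup_iff _).2 ?_⟩, DFunLike.congr_fun hg 0⟩
      rintro _ ⟨i, rfl⟩
      exact DFunLike.congr_fun hg i.succ
  have hsupp : ∀ (g : G) (S : Set α), (∀ ω ∉ S, g • ω = ω) → g.1.support.card ≤ S.ncard := by
    intro g S hS
    rw [← Set.ncard_coe_finset]
    refine Set.ncard_le_ncard fun ω hω => ?_
    by_contra hc
    exact Equiv.Perm.mem_support.1 hω (hS ω hc)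
  have hcfg : CL.FGS.Miller.Cfg p P (Set.range e) := by
    refine ⟨hP.pgroup, fun v hv => hHfix v (hP.le hv), fun ω hω => ?_, fun g hg => ?_⟩
    · obtain ⟨j, hj⟩ := hP.pgroup.index (stabilizer P ω)
      have hle : (stabilizer P ω).index ≤ k * p := by
        rw [index_stabilizer, ← hΔc, ← horb ω hω]
        refine Set.ncard_le_ncard ?_
        rintro _ ⟨u, rfl⟩
        exact ⟨⟨u, hP.le u.2⟩, rfl⟩
      have hj2 : j < 2 := (Nat.pow_lt_pow_iff_right hp.one_lt).1 (by nlinarith)
      have hj0 : j ≠ 0 := by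
        rintro rfl
        rw [pow_zero, Subgroup.index_eq_one] at hj
        apply hP.not_dvd_relIndex
        have h1 : P.subgroupOf H ≤ stabilizer H ω := fun u hu => by
          have : (⟨u, hu⟩ : P) ∈ stabilizer P ω := hj ▸ Subgroup.mem_top _
          exact this
        refine Dvd.dvd.trans ?_ (Subgroup.index_dvd_of_le h1)
        rw [index_stabilizer, horb ω hω, hΔc]
        exact dvd_mul_left _ _
      rw [hj, show j = 1 by omega, pow_one]
    · refine hmin g ((hsupp g (Set.range e) hg).trans_lt (by omega))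
  have hB : ∀ g ∈ P, ∀ ω ∉ Set.range e, (∀ ω' ∉ orbit P ω, g • ω' = ω') → g = 1 := by
    intro g hg ω hω hgω
    by_contra h1
    have h2 := hsupp g _ hgω
    rw [hcfg.ncard_orbit hω] at h2
    have h3 : orderOf g.1 = p := by
      rw [Subgroup.orderOf_coe]; exact orderOf_eq_prime (hcfg.pow hg) h1
    obtain ⟨h4, h5⟩ := CL.FGS.PCycle.isCycle_of_orderOf hp h3 (by omega)
    exact hA (CL.Perm.alternatingGroup_le_of_prime_cycle G hprim hp (by nlinarith) h4 h5 g.2)
  have hW : ∀ σ : Equiv.Perm (Fin r), ∃ x ∈ Subgroup.normalizer (P : Set G), ∀ i, x • e i = e (σ i) := by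
    intro σ
    have hf : ∀ j, e j ∈ fixedPoints P α := fun j v => hcfg.fix v v.2 _ ⟨j, rfl⟩
    exact CL.Perm.witt_exists ⊤ hGr e hP e (σ.toEmbedding.trans e) hf fun i => hf _
  obtain ⟨rfl, rfl, rfl⟩ := hcfg.main hB hΔc hk hpk hrk hr3 hW
  have := Cfsg.Agent.S0415.result G (by omega) fun x => by
    rw [eq_bot_iff]
    intro g hg
    refine hmin g ((hsupp g (Set.range x)ᶜ fun ω hω => ?_).trans_lt ?_)
    · obtain ⟨i, rfl⟩ := not_not.1 hω
      exact DFunLike.congr_fun hg i
    · have h1 := Set.ncard_add_ncard_compl (Set.range x)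
      rw [← Set.image_univ, Set.ncard_image_of_injective _ x.injective, Set.ncard_univ, Nat.card_eq_fintype_card,
        Fintype.card_fin, Nat.card_eq_fintype_card, Set.image_univ] at h1
      omega
  omega

end Cfsg.Agent.S4220
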