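import Cfsg.Statements.S2910
import Cfsg.Agent.PLOC.Critical
import Cfsg.Agent.PLOC.FrobeniusNPC
import Cfsg.Agent.SIG.Quasisimple
import Cfsg.Agent.TECH.FStarPP

set_option autoImplicit false
open Cfsg

namespace Cfsg.Agent.S2910

open CL.MSS Subgroup

/-- Let p be an odd prime dividing the order of the finite group G and P a Sylow p-subgroup of G. If Ω₁(P) (generated by the elements of order dividing p) is contained in the centre of G, then G has a normal p-complement. In particular, if G is quasisimple then Ω₁(P) is not central in G. -/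
theorem result {G : Type*} [Group G] [Finite G] {p : ℕ} [Fact p.Prime] (hp : p ≠ 2) (hdiv : p ∣ Nat.card G) (P : Sylow p G) (hZ : Cfsg.omegaOne p (P : Subgroup G) ≤ Subgroup.center G) : Cfsg.HasNormalPComplement p G ∧ ¬ Cfsg.IsQuasisimple G := by
  have h1 : Cfsg.HasNormalPComplement p G := by
    rw [CL.Tr.hasNPC_iff_forall_le_sylow P]
    intro Q hQ g hg hc
    have h := CL.PG.aut_eq_one_of_fix_omega hp (P.isPGroup'.to_le hQ)
      (Q.normalizerMonoidHom ⟨g, hg⟩) (Nat.Coprime.coprime_dvd_left
        ((orderOf_map_dvd _ _).trans (by rw [← orderOf_coe])) hc) fun x hx => by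
      have : (x : G) ∈ center G := hZ (subset_closure ⟨hQ x.2, congrArg Subtype.val hx⟩)
      apply Subtype.ext
      change g * x * g⁻¹ = x
      rw [mem_center_iff.1 this g, mul_inv_cancel_right]
    intro x hx
    have e : g * x * g⁻¹ = x := congrArg Subtype.val (DFunLike.congr_fun h (⟨x, hx⟩ : Q))
    exact (mul_inv_eq_iff_eq_mul.1 e).symm
  refine ⟨h1, fun hq => ?_⟩
  have h2 := perfect_le_presOf (p := p) hq.commutator_top
  rw [presOf_top, top_le_iff] at h2
  rw [CL.hasNPC_iff_not_dvd_card_pResidual, h2, card_top] at h1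
  exact h1 hdiv

end Cfsg.Agent.S2910
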