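import Cfsg.Statements.S0244
import Mathlib.LinearAlgebra.SymplecticGroup
import Mathlib.Tactic

set_option autoImplicit false
open Cfsg

namespace Cfsg.Agent.S0244

/-- Sp_2 = SL_2: a matrix on Fin 1 ⊕ Fin 1 lies in Mathlib's symplectic group iff its determinant is 1. -/
theorem result {R : Type*} [CommRing R] (A : Matrix (Fin 1 ⊕ Fin 1) (Fin 1 ⊕ Fin 1) R) : A ∈ Matrix.symplecticGroup (Fin 1) R ↔ A.det = 1 := by
  have hdet : A.det = A (Sum.inl 0) (Sum.inl 0) * A (Sum.inr 0) (Sum.inr 0) -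
      A (Sum.inl 0) (Sum.inr 0) * A (Sum.inr 0) (Sum.inl 0) := by
    rw [← Matrix.det_reindex_self (finSumFinEquiv : Fin 1 ⊕ Fin 1 ≃ Fin 2), Matrix.det_fin_two]
    rfl
  rw [← Matrix.fromBlocks_toBlocks A, SymplecticGroup.fromBlocks_mem_iff, Matrix.fromBlocks_toBlocks,
    hdet]
  constructor
  · rintro ⟨-, -, h⟩
    have := congrFun (congrFun h 0) 0
    simp [Matrix.mul_apply, Matrix.toBlocks₁₁, Matrix.toBlocks₁₂, Matrix.toBlocks₂₁,
      Matrix.toBlocks₂₂] at this
    rw [← this]; ring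
  · intro h
    refine ⟨?_, ?_, ?_⟩
    all_goals
      ext i j
      obtain rfl : i = 0 := Subsingleton.elim _ _
      obtain rfl : j = 0 := Subsingleton.elim _ _
      simp [Matrix.mul_apply, Matrix.toBlocks₁₁, Matrix.toBlocks₁₂, Matrix.toBlocks₂₁,
        Matrix.toBlocks₂₂]
    · ring
    · ring
    · rw [← h]; ring

end Cfsg.Agent.S0244
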