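import Cfsg.Statements.S0436
-- import your own Cfsg.Agent.* helpers here

set_option autoImplicit false
open Cfsg

namespace Cfsg.Agent.S0436

/-- For distinct commuting members a, b of a set of 3-transpositions E, a member e of E centralises the product a * b if and only if it centralises both a and b. -/
theorem result {G : Type*} [Group G] {E : Set G} (hE : Cfsg.IsThreeTranspositionSet E) {a b e : G} (ha : a ∈ E) (hb : b ∈ E) (he : e ∈ E) (hab : a ≠ b) (hcomm : Commute a b) : Commute e (a * b) ↔ (Commute e a ∧ Commute e b) := by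
  have sq : ∀ d ∈ E, d * d = 1 := fun d hd => by
    have := pow_orderOf_eq_one d
    rwa [hE.1 d hd, pow_two] at this
  have comm_of : ∀ d ∈ E, ∀ f ∈ E, (d * f) ^ 2 = 1 → Commute d f := fun d hd f hf h => by
    have h1 : d * f = (d * f)⁻¹ := by
      rw [eq_inv_iff_mul_eq_one, ← pow_two, h]
    have hd' : d⁻¹ = d := inv_eq_of_mul_eq_one_right (sq d hd)
    have hf' : f⁻¹ = f := inv_eq_of_mul_eq_one_right (sq f hf)
    rw [mul_inv_rev, hd', hf'] at h1
    exact h1
  refine ⟨fun h => ?_, fun h => h.1.mul_right h.2⟩
  have hb' : b = a * (a * b) := by rw [← mul_assoc, sq a ha, one_mul]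
  have ha' : a = (a * b) * b := by rw [mul_assoc, sq b hb, mul_one]
  rcases hE.2 e he a ha with h1 | h1
  · have h2 := comm_of e he a ha h1
    exact ⟨h2, by rw [hb']; exact h2.mul_right h⟩
  rcases hE.2 e he b hb with h2 | h2
  · have h3 := comm_of e he b hb h2
    exact ⟨by rw [ha']; exact h.mul_right h3, h3⟩
  exfalso
  have hc : Commute (e * a) (a * b) := h.mul_left ((Commute.refl a).mul_right hcomm)
  have ht : (a * b) * (a * b) = 1 := by
    calc (a * b) * (a * b) = a * (b * a) * b := by group
      _ = a * (a * b) * b := by rw [hcomm.eq]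
      _ = (a * a) * (b * b) := by simp only [mul_assoc]
      _ = 1 := by rw [sq a ha, sq b hb, one_mul]
  have h3 : e * b = (e * a) * (a * b) := by rw [mul_assoc, ← hb']
  rw [h3, hc.mul_pow, h1, one_mul, pow_succ, pow_two, ht, one_mul] at h2
  apply hab
  rw [hb', h2, mul_one]

end Cfsg.Agent.S0436
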