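import Cfsg.Statements.S0437
import Cfsg.Agent.S0436

set_option autoImplicit false
open Cfsg

namespace Cfsg.Agent.S0437

/-- For three distinct, pairwise commuting members a, b, c of a set of 3-transpositions E, a member e of E centralises a * b * c if and only if it centralises each of a, b and c. -/
theorem result {G : Type*} [Group G] {E : Set G} (hE : Cfsg.IsThreeTranspositionSet E) {a b c e : G} (ha : a ∈ E) (hb : b ∈ E) (hc : c ∈ E) (he : e ∈ E) (hab : a ≠ b) (hac : a ≠ c) (hbc : b ≠ c) (h₁ : Commute a b) (h₂ : Commute a c) (h₃ : Commute b c) : Commute e (a * b * c) ↔ (Commute e a ∧ Commute e b ∧ Commute e c) := by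
  have sq : ∀ d ∈ E, d * d = 1 := fun d hd => by
    have := pow_orderOf_eq_one d
    rwa [hE.1 d hd, pow_two] at this
  have comm_of : ∀ d ∈ E, ∀ f ∈ E, (d * f) ^ 2 = 1 → Commute d f := fun d hd f hf h => by
    have h1 : d * f = (d * f)⁻¹ := by
      rw [eq_inv_iff_mul_eq_one, ← pow_two, h]
    have hd' : d⁻¹ = d := inv_eq_of_mul_eq_one_right (sq d hd)
    have hf' : f⁻¹ = f := inv_eq_of_mul_eq_one_right (sq f hf)
    rw [mul_inv_rev, hd', hf'] at h1
    exact h1
  have braid : ∀ d ∈ E, ∀ f ∈ E, (d * f) ^ 3 = 1 → ∀ x, d * (f * (d * x)) = f * (d * (f * x)) := by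
    intro d hd f hf h x
    have hd' : d⁻¹ = d := inv_eq_of_mul_eq_one_right (sq d hd)
    have hf' : f⁻¹ = f := inv_eq_of_mul_eq_one_right (sq f hf)
    have h1 : (d * f * d) * (f * d * f) = 1 := by rw [← h]; simp only [pow_succ, pow_zero, one_mul, mul_assoc]
    have h2 : d * f * d = f * d * f := by
      rw [eq_inv_of_mul_eq_one_left h1]; simp only [mul_inv_rev, hd', hf', mul_assoc]
    simp only [← mul_assoc]; rw [h2]
  refine ⟨fun h => ?_, fun h => (h.1.mul_right h.2.1).mul_right h.2.2⟩
  rcases hE.2 e he c hc with h1 | h1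
  · have h2 := comm_of e he c hc h1
    have h3 : Commute e (a * b) := by
      have : a * b = a * b * c * c := by rw [mul_assoc (a * b), sq c hc, mul_one]
      rw [this]; exact h.mul_right h2
    have := (S0436.result hE ha hb he hab h₁).1 h3
    exact ⟨this.1, this.2, h2⟩
  rcases hE.2 e he b hb with h2 | h2
  · have h2 := comm_of e he b hb h2
    have h3 : Commute e (a * c) := by
      have : a * c = a * b * c * b := by
        rw [mul_assoc a b, h₃.eq, mul_assoc, mul_assoc, sq b hb, mul_one]
      rw [this]; exact h.mul_right h2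
    have := (S0436.result hE ha hc he hac h₂).1 h3
    exact ⟨this.1, h2, this.2⟩
  rcases hE.2 e he a ha with h3 | h3
  · have h2 := comm_of e he a ha h3
    have h3 : Commute e (b * c) := by
      have : b * c = a * (a * b * c) := by
        rw [← mul_assoc, ← mul_assoc, sq a ha, one_mul]
      rw [this]; exact h2.mul_right h
    have := (S0436.result hE hb hc he hbc h₃).1 h3
    exact ⟨h2, this.1, this.2⟩
  exfalso
  -- t = abc is central in ⟨a,b,c,e⟩
  obtain ⟨t, ht⟩ : ∃ t, t = a * b * c := ⟨_, rfl⟩
  rw [← ht] at h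
  have haa : ∀ x, a * (a * x) = x := fun x => by rw [← mul_assoc, sq a ha, one_mul]
  have hbb : ∀ x, b * (b * x) = x := fun x => by rw [← mul_assoc, sq b hb, one_mul]
  have hcc : ∀ x, c * (c * x) = x := fun x => by rw [← mul_assoc, sq c hc, one_mul]
  have hee : ∀ x, e * (e * x) = x := fun x => by rw [← mul_assoc, sq e he, one_mul]
  have hba : ∀ x, b * (a * x) = a * (b * x) := fun x => by rw [← mul_assoc, ← h₁.eq, mul_assoc]
  have hca : ∀ x, c * (a * x) = a * (c * x) := fun x => by rw [← mul_assoc, ← h₂.eq, mul_assoc]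
  have hcb : ∀ x, c * (b * x) = b * (c * x) := fun x => by rw [← mul_assoc, ← h₃.eq, mul_assoc]
  have hea := braid e he a ha h3
  have hbe : ∀ x, b * (e * (b * x)) = e * (b * (e * x)) := fun x => (braid e he b hb h2 x).symm
  have hbeab : ∀ x, b * (e * (a * (b * x))) = e * (b * (e * (a * x))) := fun x => by
    rw [← hba, hbe]
  have htt : t * t = 1 := by
    have : ∀ x, (a * b * c) * (a * b * c) * x = x := fun x => by
      simp only [mul_assoc, haa, hbb, hcc, hba, hca, hcb]
    rw [ht]; simpa using this 1
  have hct : c = a * b * t := by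
    have : ∀ x, c * x = a * b * (a * b * c) * x := fun x => by
      simp only [mul_assoc, haa, hbb, hcc, hba, hca, hcb]
    rw [ht]; simpa using this 1
  have hat : Commute a t := ht ▸ ((Commute.refl a).mul_right h₁).mul_right h₂
  have hbt : Commute b t := ht ▸ (h₁.symm.mul_right (Commute.refl b)).mul_right h₃
  have hc3 : Commute (e * a * b) t := (h.mul_left hat).mul_left hbt
  have h4 : (e * a * b) ^ 4 = 1 := by
    have : ∀ x, (e * a * b) ^ 4 * x = x := fun x => by
      simp only [pow_succ, pow_zero, one_mul, mul_assoc, haa, hbb, hee, hba, hea, hbe, hbeab]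
    simpa using this 1
  have h5 : e * c = (e * a * b) * t := by rw [hct]; simp only [mul_assoc]
  rw [h5, hc3.mul_pow, pow_succ t, pow_two t, htt, one_mul] at h1
  have h6 : e * a * b = t := by
    have : (e * a * b) ^ 3 * (e * a * b) = (e * a * b) ^ 3 * t := by rw [← pow_succ, h4, h1]
    exact mul_left_cancel this
  have h7 : e * c = 1 := by rw [h5, h6, htt]
  have h8 : e = c := by
    have := sq c hc
    exact mul_right_cancel (h7.trans this.symm)
  subst h8
  -- now e commutes with a and (e a)^3 = 1
  have : (e * a) ^ 3 = e * a := by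
    have : ∀ x, (e * a) ^ 3 * x = e * a * x := fun x => by
      simp only [pow_succ, pow_zero, one_mul, mul_assoc, haa, hcc, hca]
    simpa using this 1
  rw [h3] at this
  apply hac
  have h9 := sq a ha
  exact (mul_right_cancel (this.symm.trans h9.symm)).symm

end Cfsg.Agent.S0437
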