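import Cfsg.Statements.S0438
-- import your own Cfsg.Agent.* helpers here

set_option autoImplicit false
open Cfsg

namespace Cfsg.Agent.S0438

/-- Let E be a set of 3-transpositions closed under conjugation, and x an involutory automorphism of the group mapping E to itself. If some a in E fails to commute with its image x a, then x fixes an element of E. -/
theorem result {G : Type*} [Group G] {E : Set G} (hE : Cfsg.IsThreeTranspositionSet E) (hconj : ∀ g : G, ∀ d ∈ E, g * d * g⁻¹ ∈ E) (x : G ≃* G) (hx : ∀ g : G, x (x g) = g) (hxE : ∀ d ∈ E, x d ∈ E) {a : G} (ha : a ∈ E) (h : ¬ Commute a (x a)) : ∃ d ∈ E, x d = d := by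
  have sq : ∀ d ∈ E, d * d = 1 := fun d hd => by
    have := pow_orderOf_eq_one d
    rwa [hE.1 d hd, pow_two] at this
  have hb := hxE a ha
  have ha' : a⁻¹ = a := inv_eq_of_mul_eq_one_right (sq a ha)
  have hb' : (x a)⁻¹ = x a := inv_eq_of_mul_eq_one_right (sq _ hb)
  rcases hE.2 a ha _ hb with h1 | h1
  · exfalso; apply h
    have h2 : a * x a = (a * x a)⁻¹ := by
      rw [eq_inv_iff_mul_eq_one, ← pow_two, h1]
    rw [mul_inv_rev, ha', hb'] at h2
    exact h2
  refine ⟨a * x a * a⁻¹, hconj a _ hb, ?_⟩
  have h2 : (x a * a * x a) * (a * x a * a) = 1 := by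
    have : (x a * a * x a) * (a * x a * a) = a⁻¹ * (a * x a) ^ 3 * a := by
      simp only [pow_succ, pow_zero, one_mul, mul_assoc, inv_mul_cancel_left]
    rw [this, h1]; group
  rw [ha', map_mul, map_mul, hx, eq_inv_of_mul_eq_one_left h2]
  simp only [mul_inv_rev, ha', hb', mul_assoc]

end Cfsg.Agent.S0438
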