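import Cfsg.Statements.S0472
import Cfsg.Agent.SPOR.Fi23

set_option autoImplicit false
open Cfsg

namespace Cfsg.Agent.S0472

/-- The Fischer group of order 4089470473293004800 exists as a 3-transposition group: a simple group of that order generated by a conjugacy class of 31671 3-transpositions, the centraliser of each being a non-split double cover of a simple group of order 64561751654400. -/
theorem result : ∃ (G : Type) (_ : Group G) (_ : Finite G), Cfsg.IsFi23 G ∧ ∃ D : Set G, Cfsg.IsThreeTranspositionClass D ∧ Nat.card D = 31671 ∧ ∀ d ∈ D, ∃ (K : Type) (_ : Group K), Cfsg.IsFi22 K ∧ Cfsg.IsNonsplitDoubleCover (Subgroup.centralizer ({d} : Set G)) K := by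
  refine ⟨Spor.Fi23, inferInstance, inferInstance, ⟨CL.Fi23.isSimpleGroup, CL.Fi23.card⟩, CL.Fi23.D,
    CL.Fi23.isThreeTranspositionClass, CL.Fi23.card_D, fun d hd => ⟨Spor.Fi22, inferInstance,
      ⟨CL.Fi22.isSimpleGroup, CL.Fi22.card⟩, ?_⟩⟩
  obtain ⟨x, rfl⟩ := isConj_iff.1 hd
  refine CL.CE.IsNonsplitDoubleCover.congr CL.Fi23.cover_H
    (((MulAut.conj x).subgroupMap _).trans (MulEquiv.subgroupCongr ?_)) (MulEquiv.refl _)
  rw [CL.Fi23.H_eq]
  ext y
  obtain ⟨y, rfl⟩ := (MulAut.conj x).surjective y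
  rw [show MulAut.conj x y = ((MulAut.conj x : _ ≃* _) : Spor.Fi23 →* Spor.Fi23) y from rfl,
    Subgroup.mem_map_iff_mem (f := ((MulAut.conj x : _ ≃* _) : Spor.Fi23 →* Spor.Fi23))
      (MulAut.conj x).injective, Subgroup.mem_centralizer_singleton_iff,
    Subgroup.mem_centralizer_singleton_iff, ← (MulAut.conj x).injective.eq_iff, map_mul, map_mul]
  rfl

end Cfsg.Agent.S0472
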