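import Cfsg.Statements.S0473
import Mathlib
import Cfsg.Agent.SPOR.FiHe
import Cfsg.Agent.SPOR.FiA10
import Cfsg.Agent.SPOR.FiEx24

set_option autoImplicit false
open Cfsg

namespace Cfsg.Agent.S0473

theorem simple_of_equiv {A B : Type*} [Group A] [Group B] (e : A ≃* B) [IsSimpleGroup A] {n : ℕ}
    (h : Nat.card A = n) : IsSimpleGroup B ∧ Nat.card B = n :=
  ⟨e.symm.isSimpleGroup, (Nat.card_congr e.toEquiv).symm.trans h⟩

/-- The largest Fischer 3-transposition group: a group of order 2 · 1255205709190661721292800 generated by a conjugacy class of 306936 3-transpositions, in which a transposition centraliser has order 2 · 4089470473293004800 and contains a simple subgroup of order 4089470473293004800; its subgroup of index 2 is simple and contains simple subgroups of orders 4089470473293004800 and 4030387200. -/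
theorem result : ∃ (G : Type) (_ : Group G) (_ : Finite G), Nat.card G = 2 * 1255205709190661721292800 ∧ ∃ D : Set G, Cfsg.IsThreeTranspositionClass D ∧ Nat.card D = 306936 ∧ (∀ d ∈ D, Nat.card (Subgroup.centralizer ({d} : Set G)) = 2 * 4089470473293004800 ∧ ∃ K : Subgroup G, K ≤ Subgroup.centralizer ({d} : Set G) ∧ Cfsg.IsFi23 K) ∧ ∃ H : Subgroup G, H.index = 2 ∧ Cfsg.IsFi24' H ∧ (∃ K : Subgroup H, Cfsg.IsFi23 K) ∧ (∃ K : Subgroup H, Cfsg.IsHe K) := by
  have h23 := CL.Fi23.isSimpleGroup
  have hHe := CL.He.isSimpleGroup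
  obtain ⟨e23⟩ := CL.Fi24.equiv_K23
  refine ⟨Spor.Fi24, inferInstance, inferInstance, CL.Fi24.card, CL.Fi24.D,
    CL.Fi24.isThreeTranspositionClass, CL.Fi24.card_D, fun d hd => ?_, commutator Spor.Fi24,
    CL.Fi24.index_commutator, ⟨CL.Fi24.isSimpleGroup_commutator, CL.Fi24.card_commutator⟩,
    ⟨CL.Fi24.K23.subgroupOf _, simple_of_equiv (e23.trans
      (Subgroup.subgroupOfEquivOfLe CL.Fi24.K23_le_commutator).symm) CL.Fi23.card⟩, ?_⟩
  · obtain ⟨x, rfl⟩ := isConj_iff.1 hd
    have hc : CL.Fi24.H.map (MulAut.conj x).toMonoidHom =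
        Subgroup.centralizer {x * CL.Fi24.g 11 * x⁻¹} := by
      rw [CL.Fi24.H_eq]
      ext y
      obtain ⟨y, rfl⟩ := (MulAut.conj x).surjective y
      rw [show MulAut.conj x y = (MulAut.conj x).toMonoidHom y from rfl,
        Subgroup.mem_map_iff_mem (f := (MulAut.conj x).toMonoidHom)
          (MulAut.conj x).injective, Subgroup.mem_centralizer_singleton_iff,
        Subgroup.mem_centralizer_singleton_iff, ← (MulAut.conj x).injective.eq_iff, map_mul, map_mul]
      rfl
    rw [← hc]
    refine ⟨?_, CL.Fi24.K23.map (MulAut.conj x).toMonoidHom, Subgroup.map_mono CL.Fi24.K23_le_H,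
      simple_of_equiv (e23.trans (Subgroup.equivMapOfInjective _ _ (MulAut.conj x).injective))
        CL.Fi23.card⟩
    rw [← Nat.card_congr (Subgroup.equivMapOfInjective _ _ (MulAut.conj x).injective).toEquiv,
      CL.Fi24.card_H]
  · obtain ⟨K, ⟨e⟩⟩ := CL.Fi.D24.exists_he CL.Fi.D24.is24 CL.FiA.gp24
    have hs := simple_of_equiv e.symm CL.He.card
    have hle : K ≤ commutator Spor.Fi24 := by
      have := hs.1
      rcases IsSimpleGroup.eq_bot_or_eq_top_of_normal ((commutator Spor.Fi24).subgroupOf K)
        inferInstance with h | h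
      · exfalso
        have h1 := Subgroup.relIndex_dvd_index_of_normal (commutator Spor.Fi24) K
        rw [Subgroup.relIndex, h, Subgroup.index_bot, hs.2, CL.Fi24.index_commutator] at h1
        exact absurd h1 (by norm_num)
      · exact Subgroup.subgroupOf_eq_top.1 h
    exact ⟨K.subgroupOf _, simple_of_equiv (e.symm.trans (Subgroup.subgroupOfEquivOfLe hle).symm)
      CL.He.card⟩

end Cfsg.Agent.S0473
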