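import Cfsg.Statements.S0505
import Cfsg.Agent.SIG.FStarLocal
import Cfsg.Agent.SOLV.Fitting
import Cfsg.Agent.SOLV.PGroupCyclicSCN

set_option autoImplicit false
open Cfsg

namespace Cfsg.Agent.S0505

theorem aux {G : Type*} [Group G] [Finite G]
    (h : ∀ t : G, orderOf t = 2 → IsPGroup 2 (CL.Comp.fstarOf (Subgroup.centralizer ({t} : Set G))))
    (T : Subgroup G) (hT : IsPGroup 2 T) (h1 : T ≠ ⊥) :
    IsPGroup 2 (CL.Comp.fstarOf (Subgroup.normalizer (T : Set G))) := by
  obtain ⟨t, ht⟩ := exists_prime_orderOf_dvd_card' (G := T) 2 (by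
    obtain ⟨k, hk⟩ := IsPGroup.iff_card.1 hT
    rcases k with _ | k
    · exact absurd (Subgroup.card_eq_one.1 hk) h1
    · rw [hk]; exact dvd_pow_self 2 k.succ_ne_zero)
  rw [CL.Comp.isPGroup_fstarOf_normalizer_iff hT]
  refine CL.Comp.isPGroup_fstarOf_centralizer_mono (Subgroup.zpowers_le.2 t.2) hT ?_
  rw [CL.PCyc.centralizer_zpowers]
  exact h t (by rw [Subgroup.orderOf_coe, ht])

/-- Let G be a finite group of even order in which the centralizer of every involution is solvable and has trivial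
core (no nontrivial normal subgroup of odd order). Then G is of characteristic 2 type. -/
theorem result {G : Type*} [Group G] [Finite G]
    (h2 : Even (Nat.card G))
    (hs : ∀ t : G, orderOf t = 2 → Group.IsSolvable (Subgroup.centralizer ({t} : Set G)))
    (hc : ∀ t : G, orderOf t = 2 → Cfsg.oddCore (Subgroup.centralizer ({t} : Set G)) = ⊥) :
    Cfsg.IsCharacteristicTwoType G := by
  refine ⟨h2, fun T hT h1 => CL.Comp.fstar_eq_pCore_iff_centralizer.1
    (CL.Comp.fstar_eq_pCore_iff_isPGroup_fstarOf.2 (aux (fun t ht => ?_) T hT h1))⟩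
  haveI := hs t ht
  exact CL.Comp.fstar_eq_pCore_iff_isPGroup_fstarOf.1 (CL.Comp.fstar_eq_pCore_iff_centralizer.2
    (CL.centralizer_pCore_le_of_isSolvable (hc t ht)))

end Cfsg.Agent.S0505
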