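import Cfsg.Statements.S0547
import Cfsg.Agent.SOLV.Primitive

set_option autoImplicit false
open Cfsg

namespace Cfsg.Agent.S0547

theorem regular {G : Type*} [Group G] {Ω : Type*} [MulAction G Ω] [FaithfulSMul G Ω]
    (hprim : MulAction.IsPreprimitive G Ω) (M : Subgroup G) [M.Normal] (hM : M ≠ ⊥)
    [IsMulCommutative M] :
    MulAction.IsPretransitive M Ω ∧ ∀ ω : Ω, ∀ m ∈ M, m • ω = ω → m = 1 := by
  have ht : MulAction.IsPretransitive M Ω := by
    refine MulAction.IsQuasiPreprimitive.isPretransitive_of_normal fun h => hM ?_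
    rw [eq_bot_iff]
    intro m hm
    refine eq_of_smul_eq_smul (α := Ω) fun ω => ?_
    have : ω ∈ MulAction.fixedPoints M Ω := h ▸ Set.mem_univ ω
    rw [one_smul]
    exact this ⟨m, hm⟩
  refine ⟨ht, fun ω m hm h => eq_of_smul_eq_smul (α := Ω) fun β => ?_⟩
  obtain ⟨n, rfl⟩ := ht.exists_smul_eq ω β
  have : m * n = n * m := congrArg Subtype.val (mul_comm' (⟨m, hm⟩ : M) n)
  rw [one_smul, Subgroup.smul_def, ← mul_smul, this, mul_smul, h]

/-- Let a finite solvable group G act faithfully and primitively on a set, and let M be a minimal normal subgroup of G. Then M is transitive with trivial point stabilizers, and the number of points equals the order of M, which is a prime power p ^ d with d ≥ 1. -/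
theorem result {G : Type*} [Group G] [Finite G] [Group.IsSolvable G] {Ω : Type*} [Nonempty Ω] [MulAction G Ω] [FaithfulSMul G Ω] (hprim : MulAction.IsPreprimitive G Ω) (M : Subgroup G) [M.Normal] (hM : M ≠ ⊥) (hmin : ∀ K : Subgroup G, K.Normal → K ≤ M → K = ⊥ ∨ K = M) : MulAction.IsPretransitive M Ω ∧ (∀ ω : Ω, MulAction.stabilizer M ω = ⊥) ∧ ∃ p d : ℕ, p.Prime ∧ 0 < d ∧ Nat.card Ω = p ^ d ∧ Nat.card M = p ^ d := by
  have hM' : CL.IsMinNormal M := ⟨inferInstance, hM, hmin⟩
  have := hM'.isMulCommutative_of_isSolvable inferInstance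
  obtain ⟨ht, hr⟩ := regular hprim M hM
  obtain ⟨p, hp, hMp⟩ := hM'.exists_isPGroup_of_isSolvable inferInstance
  have := Fact.mk hp
  obtain ⟨d, hd⟩ := IsPGroup.iff_card.1 hMp
  have hst : ∀ ω : Ω, MulAction.stabilizer M ω = ⊥ := fun ω =>
    eq_bot_iff.2 fun m hm => Subtype.ext (hr ω m m.2 hm)
  refine ⟨ht, hst, p, d, hp, Nat.pos_of_ne_zero ?_, ?_, hd⟩
  · rintro rfl
    exact hM (Subgroup.card_eq_one.1 (by simpa using hd))
  · obtain ⟨ω⟩ := ‹Nonempty Ω›
    rw [← hd, ← MulAction.index_stabilizer_of_transitive M ω, hst, Subgroup.index_bot]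

end Cfsg.Agent.S0547
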