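import Cfsg.Statements.S0556
import Cfsg.Agent.SOLV.Frobenius
import Cfsg.Agent.SOLV.MinNormal

set_option autoImplicit false
open Cfsg

namespace Cfsg.Agent.S0556

theorem aux {G : Type*} [Group G] [Finite G] (A : Subgroup G) (hA : IsCoatom A)
    [IsMulCommutative A] (hc : A.normalCore = ⊥) : derivedSeries G 2 = ⊥ := by
  obtain ⟨V, hV, hVn, hVA⟩ : ∃ V : Subgroup G, IsMulCommutative V ∧ V.Normal ∧ V ⊔ A = ⊤ := by
    by_cases hb : A = ⊥
    · subst hb
      obtain ⟨x, hx⟩ : ∃ x : G, x ∉ (⊥ : Subgroup G) := by
        by_contra! h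
        exact hA.1 (eq_top_iff.mpr fun x _ => h x)
      have h1 : Subgroup.zpowers x = ⊤ := hA.2 _ (bot_lt_iff_ne_bot.mpr fun h =>
        hx (h ▸ Subgroup.mem_zpowers x))
      exact ⟨Subgroup.zpowers x, inferInstance, by rw [h1]; infer_instance, by rw [h1, top_sup_eq]⟩
    · have hF : IsFrobeniusComplement A := by
        refine ⟨hb, hA.1, CL.Frob.malnormal_iff.mpr fun g hg x hx hx' => ?_⟩
        have h1 : A ≤ Subgroup.centralizer {g * x * g⁻¹} := fun a ha =>
          Subgroup.mem_centralizer_singleton_iff.mpr (setLike_mul_comm ha hx')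
        by_cases h2 : Subgroup.centralizer {g * x * g⁻¹} = ⊤
        · have h3 : g * x * g⁻¹ ∈ A.normalCore := fun b => by
            have := Subgroup.mem_centralizer_singleton_iff.mp (h2.ge (Subgroup.mem_top b))
            rw [this, mul_inv_cancel_right]
            exact hx'
          rw [hc, Subgroup.mem_bot] at h3
          calc x = g⁻¹ * (g * x * g⁻¹) * g := by group
            _ = 1 := by rw [h3]; simp
        · exfalso
          have h3 : Subgroup.centralizer {g * x * g⁻¹} = A := (hA.le_iff.mp h1).resolve_left h2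
          have h4 : ∀ a ∈ A, g * a * g⁻¹ ∈ A := fun a ha => by
            rw [← h3, Subgroup.mem_centralizer_singleton_iff]
            have := setLike_mul_comm ha hx
            calc g * a * g⁻¹ * (g * x * g⁻¹) = g * (a * x) * g⁻¹ := by group
              _ = g * x * g⁻¹ * (g * a * g⁻¹) := by rw [this]; group
          have h5 : g ∈ Subgroup.normalizer (A : Set G) :=
            Subgroup.mem_normalizer_fintype h4
          have h6 : Subgroup.normalizer (A : Set G) = ⊤ :=
            hA.2 _ (lt_of_le_of_ne Subgroup.le_normalizer fun h => hg (h ▸ h5))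
          have h7 : A.Normal := Subgroup.normalizer_eq_top_iff.mp h6
          exact hb (by rw [← hc, Subgroup.normalCore_eq_self])
      obtain ⟨K, -, hKn, hKA, hK, hfpf⟩ := CL.Frob.exists_kernel hF
      obtain ⟨V, hVK, hV, hVc, hAV⟩ :=
        CL.Frob.exists_invariant_abelian hK Subgroup.le_normalizer_of_normal hfpf
      have h1 : V ⊔ A = ⊤ := hA.2 _ (lt_of_le_of_ne le_sup_right fun h =>
        hV (le_bot_iff.mp (hKA.disjoint hVK (le_sup_left.trans h.ge))))
      exact ⟨V, hVc, Subgroup.normalizer_eq_top_iff.mp (eq_top_iff.mpr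
        (h1 ▸ sup_le Subgroup.le_normalizer hAV)), h1⟩
  have h1 : derivedSeries G 1 ≤ V := by
    rw [derivedSeries_succ, derivedSeries_zero, Subgroup.commutator_le]
    intro x _ y _
    rw [← QuotientGroup.eq_one_iff, ← QuotientGroup.mk'_apply, map_commutatorElement,
      commutatorElement_eq_one_iff_mul_comm]
    obtain ⟨v, hv, a, ha, rfl⟩ := Subgroup.mem_sup_of_normal_left.mp (hVA.ge (Subgroup.mem_top x))
    obtain ⟨w, hw, b, hb, rfl⟩ := Subgroup.mem_sup_of_normal_left.mp (hVA.ge (Subgroup.mem_top y))
    have hv' : QuotientGroup.mk' V v = 1 := (QuotientGroup.eq_one_iff v).mpr hv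
    have hw' : QuotientGroup.mk' V w = 1 := (QuotientGroup.eq_one_iff w).mpr hw
    rw [map_mul, map_mul, hv', hw', one_mul, one_mul, ← map_mul, ← map_mul, setLike_mul_comm ha hb]
  rw [derivedSeries_succ, eq_bot_iff, Subgroup.commutator_le]
  intro x hx y hy
  rw [Subgroup.mem_bot, commutatorElement_eq_one_iff_mul_comm]
  exact setLike_mul_comm (h1 hx) (h1 hy)


/-- If a finite group has a maximal subgroup that is abelian, then the third term of its derived series is trivial (so the group is solvable of derived length at most three). -/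
theorem result {G : Type*} [Group G] [Finite G] (A : Subgroup G) (hA : IsCoatom A) [IsMulCommutative A] : derivedSeries G 3 = ⊥ := by
  have hle : (QuotientGroup.mk' A.normalCore).ker ≤ A := by
    rw [QuotientGroup.ker_mk']
    exact A.normalCore_le
  have hs := QuotientGroup.mk'_surjective A.normalCore
  have h1 : IsCoatom (A.map (QuotientGroup.mk' A.normalCore)) := by
    refine ⟨fun h => hA.1 ?_, fun B hB => ?_⟩
    · rw [← Subgroup.comap_map_eq_self hle, h, Subgroup.comap_top]
    · have h2 : A < B.comap (QuotientGroup.mk' A.normalCore) := by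
        refine lt_of_le_of_ne (Subgroup.map_le_iff_le_comap.mp hB.le) fun h => hB.ne ?_
        rw [← Subgroup.map_comap_eq_self_of_surjective hs B, ← h]
      rw [← Subgroup.map_comap_eq_self_of_surjective hs B, hA.2 _ h2,
        Subgroup.map_top_of_surjective _ hs]
  have h2 : (A.map (QuotientGroup.mk' A.normalCore)).normalCore = ⊥ := by
    rw [eq_bot_iff]
    intro x hx
    induction x using QuotientGroup.induction_on with | H x => ?_
    rw [Subgroup.mem_bot, QuotientGroup.eq_one_iff]
    intro b
    rw [← Subgroup.comap_map_eq_self hle]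
    exact hx (b : G ⧸ A.normalCore)
  have h3 := aux _ h1 h2
  have h4 : derivedSeries G 2 ≤ A := by
    refine le_trans ?_ hle
    rw [← Subgroup.map_eq_bot_iff, map_derivedSeries_eq hs, h3]
  rw [derivedSeries_succ, eq_bot_iff, Subgroup.commutator_le]
  intro x hx y hy
  rw [Subgroup.mem_bot, commutatorElement_eq_one_iff_mul_comm]
  exact setLike_mul_comm (h4 hx) (h4 hy)

end Cfsg.Agent.S0556
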