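import Cfsg.Statements.S0618
import Cfsg.Agent.PLOC.FF4

set_option autoImplicit false
open Cfsg

namespace Cfsg.Agent.S0618

/-- A p-separable group with trivial p'-core in which the Thompson factorization fails has p = 2 or 3, and J(G) induces on the normal closure of Ω₁(Z(S)) a group containing a normal SL(2, p). -/
theorem result {G : Type*} [Group G] [Finite G] {p : ℕ} [Fact p.Prime] (hsep : Cfsg.IsPSolvable p G) (hO : Cfsg.pPrimeCore p G = ⊥) (hnf : ¬ Cfsg.IsThompsonFactorizable p G) : (p = 2 ∨ p = 3) ∧ ∃ E : Subgroup G, Subgroup.centralizer ((⨆ S : Sylow p G, Cfsg.omegaOne p ((S : Subgroup G) ⊓ Subgroup.centralizer ((S : Subgroup G) : Set G))) : Set G) ≤ E ∧ E ≤ Cfsg.thompsonSubgroup p G ⊔ Subgroup.centralizer ((⨆ S : Sylow p G, Cfsg.omegaOne p ((S : Subgroup G) ⊓ Subgroup.centralizer ((S : Subgroup G) : Set G))) : Set G) ∧ Cfsg.thompsonSubgroup p G ⊔ Subgroup.centralizer ((⨆ S : Sylow p G, Cfsg.omegaOne p ((S : Subgroup G) ⊓ Subgroup.centralizer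 ((S : Subgroup G) : Set G))) : Set G) ≤ Subgroup.normalizer (E : Set G) ∧ ∃ hn : ((Subgroup.centralizer ((⨆ S : Sylow p G, Cfsg.omegaOne p ((S : Subgroup G) ⊓ Subgroup.centralizer ((S : Subgroup G) : Set G))) : Set G)).subgroupOf E).Normal, Nonempty ((↥E ⧸ (Subgroup.centralizer ((⨆ S : Sylow p G, Cfsg.omegaOne p ((S : Subgroup G) ⊓ Subgroup.centralizer ((S : Subgroup G) : Set G))) : Set G)).subgroupOf E) ≃* Matrix.SpecialLinearGroup (Fin 2) (ZMod p)) := by
  haveI := CL.Th.sylowOmegaZ_normal (p := p) (G := G)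
  have h0 : Subgroup.centralizer ((⨆ S : Sylow p G, Cfsg.omegaOne p ((S : Subgroup G) ⊓ Subgroup.centralizer ((S : Subgroup G) : Set G))) : Set G) = Subgroup.centralizer (CL.Th.sylowOmegaZ p G : Set G) := by
    rw [CL.Th.centralizer_iSup]
    ext x
    simp only [Subgroup.mem_centralizer_iff, Subgroup.mem_iInf, Set.iSup_eq_iUnion,
      Set.mem_iUnion, forall_exists_index]
    exact ⟨fun h S y hy => h y S hy, fun h y S hy => h S y hy⟩
  rw [h0]
  have hJ : ¬ thompsonSubgroup p G ≤ Subgroup.centralizer (CL.Th.sylowOmegaZ p G : Set G) :=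
    fun h => hnf (CL.Th.thompsonFactorizable_of_le_centralizer h)
  have hV := CL.Th.elemAb_sylowOmegaZ_of_isPSolvable hsep hO
  let M := CL.Th.stdModel (CL.Th.sylowOmegaZ p G)
  have hO' := CL.Th.pCore_quotient_centralizer_sylowOmegaZ (p := p) (G := G)
  obtain ⟨T, hT⟩ := M.exists_transv hV hsep hO' hJ
  have h := M.ffHyp_thompson hV hsep hO'
  have hE := h.sl2On_ffE hT
  have hc : ((thompsonSubgroup p G).map M.σ).comap M.σ =
      thompsonSubgroup p G ⊔ Subgroup.centralizer (CL.Th.sylowOmegaZ p G : Set G) := by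
    rw [Subgroup.comap_map_eq, M.ker]
  refine ⟨hE.two_or_three, (CL.Th.ffE p _ T).comap M.σ, M.ker ▸ Subgroup.ker_le_comap _ _,
    hc ▸ Subgroup.comap_mono hE.le, ?_, ?_⟩
  · exact hc.ge.trans ((Subgroup.comap_mono (h.le_normalizer_ffE
      (M.thompson_eq_sSup hV hsep hO') hT)).trans (Subgroup.le_normalizer_comap _))
  · obtain ⟨e⟩ := hE.equiv
    refine CL.Th.exists_quotient_equiv (e.toMonoidHom.comp (M.σ.subgroupComap _))
      (e.surjective.comp (CL.Th.subgroupComap_surjective_of_le _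
        (hE.le.trans (Subgroup.map_le_range _ _)))) ?_
    ext x
    rw [MonoidHom.mem_ker, Subgroup.mem_subgroupOf, ← M.ker, MonoidHom.mem_ker,
      MonoidHom.comp_apply, MulEquiv.coe_toMonoidHom, e.map_eq_one_iff, Subtype.ext_iff]
    rfl

end Cfsg.Agent.S0618
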