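import Cfsg.Statements.S0716
import Cfsg.Agent.PERM.PermAlg
import Cfsg.Agent.S0669

set_option autoImplicit false
open Cfsg

namespace Cfsg.Agent.S0716

open CL.PermAlg CL.Char MulAction in
theorem counts {G : Type*} [Group G] [Fintype G] {Ω : Type*} [Fintype Ω] [MulAction G Ω]
    [IsPretransitive G Ω] (a : Ω) : ∃ (s : Finset (IrrCharacter G)) (n : IrrCharacter G → ℕ),
      (∀ χ : IrrCharacter G, χ ∈ s ↔ (χ : G → ℂ) ≠ fun _ => 1) ∧
      (∀ χ : IrrCharacter G, classInner (pc G Ω) χ = n χ) ∧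
      (∀ χ ∉ s, n χ = 1) ∧
      Nat.card (orbitRel.Quotient (stabilizer G a) Ω) = 1 + ∑ χ ∈ s, n χ ^ 2 ∧
      (Fintype.card Ω : ℂ) = 1 + ∑ χ ∈ s, n χ * (χ : G → ℂ) 1 := by
  classical
  have : Nonempty Ω := ⟨a⟩
  obtain ⟨n, hn, hn'⟩ := (isCharacter_perm G Ω).exists_nat_coeffs
  have h1 : n ⟨_, isIrrCharacter_one⟩ = 1 := by
    have := hn ⟨_, isIrrCharacter_one⟩
    rw [inner_pc_one] at this
    exact_mod_cast this.symm
  refine ⟨Finset.univ.erase ⟨_, isIrrCharacter_one⟩, n, fun χ => by simp [Subtype.ext_iff], hn,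
    fun χ hχ => ?_, ?_, ?_⟩
  · simp only [Finset.mem_erase, ne_eq, Finset.mem_univ, and_true, not_not] at hχ
    rw [hχ, h1]
  · have h2 := inner_self_sum_irr n
    rw [← hn', classInner_perm_perm, Nat.cast_inj, Cfsg.Agent.S0669.result a,
      ← Finset.add_sum_erase _ _ (Finset.mem_univ ⟨_, isIrrCharacter_one⟩), h1] at h2
    simpa using h2
  · have h2 := congrFun hn' 1
    rw [Finset.sum_apply, ← Finset.add_sum_erase _ _ (Finset.mem_univ ⟨_, isIrrCharacter_one⟩),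
      h1] at h2
    simpa using h2

open CL.PermAlg CL.Char MulAction in
theorem part_a {G : Type*} [Group G] [Fintype G] {Ω : Type*} [Fintype Ω] [MulAction G Ω]
    [IsPretransitive G Ω] (a : Ω) (f : ℕ) (hf : ∀ χ : G → ℂ, IsIrrCharacter G χ →
      χ ≠ (fun _ => 1) → classInner (pc G Ω) χ ≠ 0 → χ 1 = f) :
    (∀ χ : G → ℂ, IsIrrCharacter G χ → classInner (pc G Ω) χ = 0 ∨ classInner (pc G Ω) χ = 1) ∧
      ∀ b : Ω, b ≠ a → Nat.card (orbit (stabilizer G a) b) = f := by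
  classical
  obtain ⟨s, n, hs, hn, hn1, h1, h2⟩ := counts (G := G) a
  have h3 : Fintype.card Ω = 1 + f * ∑ χ ∈ s, n χ := by
    apply Nat.cast_injective (R := ℂ)
    rw [h2]
    push_cast
    rw [Finset.mul_sum]
    congr 1
    refine Finset.sum_congr rfl fun χ hχ => ?_
    by_cases h0 : n χ = 0
    · simp [h0]
    · rw [hf χ χ.2 ((hs χ).1 hχ) (by rwa [hn, Nat.cast_ne_zero]), mul_comm]
  have := Fintype.ofFinite (orbitRel.Quotient (stabilizer G a) Ω)
  have h4 := sum_card_suborbits (G := G) a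
  let q₀ : orbitRel.Quotient (stabilizer G a) Ω := Quotient.mk'' a
  have hq : ∀ b : Ω, (Quotient.mk'' b : orbitRel.Quotient (stabilizer G a) Ω) = q₀ ↔ b = a := by
    intro b
    refine ⟨fun h => ?_, fun h => by rw [h]⟩
    obtain ⟨g, rfl⟩ := Quotient.exact' h
    exact g.2
  have h5 : Nat.card (orbit (stabilizer G a) q₀.out) = 1 := by
    rw [(hq _).1 (Quotient.out_eq' q₀), Nat.card_eq_one_iff_unique]
    refine ⟨⟨?_⟩, ⟨⟨a, mem_orbit_self a⟩⟩⟩
    rintro ⟨_, g, rfl⟩ ⟨_, h, rfl⟩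
    exact Subtype.ext (g.2.trans h.2.symm)
  rw [← Finset.add_sum_erase _ _ (Finset.mem_univ q₀), h5, h3, add_right_inj] at h4
  have h6 : ∀ q ∈ Finset.univ.erase q₀, f ≤ Nat.card (orbit (stabilizer G a) q.out) := by
    intro q hq'
    have : Nonempty (orbit (stabilizer G a) q.out) := ⟨⟨_, mem_orbit_self _⟩⟩
    refine Nat.le_of_dvd Nat.card_pos (dvd_subdegree f (fun χ h1 h2 h3 =>
      ⟨1, by rw [hf χ h1 h2 h3]; simp⟩) fun h => (Finset.mem_erase.1 hq').1 ?_)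
    rw [← (hq _).2 h, Quotient.out_eq']
  have h7 : (Finset.univ.erase q₀).card = ∑ χ ∈ s, n χ ^ 2 := by
    rw [Finset.card_erase_of_mem (Finset.mem_univ _), Finset.card_univ,
      ← Nat.card_eq_fintype_card, h1]
    omega
  have h8 := Finset.sum_le_sum h6
  rw [Finset.sum_const, h7, smul_eq_mul, h4] at h8
  have h9 : ∀ χ ∈ s, n χ ≤ n χ ^ 2 := fun χ _ => Nat.le_self_pow two_ne_zero _
  have h10 := Finset.sum_le_sum h9
  have h11 : ∑ χ ∈ s, n χ = ∑ χ ∈ s, n χ ^ 2 := by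
    rcases Nat.eq_zero_or_pos f with rfl | hf0
    · refine Finset.sum_congr rfl fun χ hχ => ?_
      by_cases h0 : n χ = 0
      · simp [h0]
      · exact absurd (hf χ χ.2 ((hs χ).1 hχ) (by rwa [hn, Nat.cast_ne_zero]))
          (by simpa using χ.2.one_ne_zero)
    · rw [mul_comm] at h8
      exact le_antisymm h10 (Nat.le_of_mul_le_mul_left h8 hf0)
  refine ⟨fun χ hχ => ?_, fun b hb => ?_⟩
  · rw [hn ⟨χ, hχ⟩]
    by_cases h : ⟨χ, hχ⟩ ∈ s
    · have h12 := (Finset.sum_eq_sum_iff_of_le h9).1 h11 _ h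
      have : n ⟨χ, hχ⟩ = 0 ∨ n ⟨χ, hχ⟩ = 1 := by
        by_contra hc
        have : 2 ≤ n ⟨χ, hχ⟩ := by omega
        nlinarith
      exact_mod_cast this
    · simp [hn1 _ h]
  · have h12 := (Finset.sum_eq_sum_iff_of_le h6).1
      (by rw [Finset.sum_const, h7, smul_eq_mul, h4, h11, mul_comm]) (Quotient.mk'' b)
      (by simpa [hq] using hb)
    rw [h12, orbit_eq_iff.2 (Quotient.exact' (Quotient.out_eq' (Quotient.mk'' b :
      orbitRel.Quotient (stabilizer G a) Ω)))]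

/-- (a) If all non-principal irreducible constituents of the permutation character of a transitive group have the same degree `f`, the character is multiplicity-free and all non-trivial subdegrees equal `f`. (b) A transitive group of rank at most 5 has multiplicity-free permutation character. -/
theorem result {G : Type*} [Group G] [Fintype G] {Ω : Type*} [Fintype Ω] [MulAction G Ω] [MulAction.IsPretransitive G Ω] (a : Ω) : ((f : ℕ) → (∀ χ : G → ℂ, Cfsg.IsIrrCharacter G χ → χ ≠ (fun _ => 1) → Cfsg.classInner (fun g : G => (Nat.card (MulAction.fixedBy Ω g) : ℂ)) χ ≠ 0 → χ 1 = f) → (∀ χ : G → ℂ, Cfsg.IsIrrCharacter G χ → Cfsg.classInner (fun g : G => (Nat.card (MulAction.fixedBy Ω g) : ℂ)) χ = 0 ∨ Cfsg.classInner (fun g : G => (Nat.card (MulAction.fixedBy Ω g) : ℂ)) χ = 1) ∧ ∀ b : Ω, b ≠ a → Nat.card (MulAction.orbit (MulAction.stabilizer G a) b) = f) ∧ (Nat.card (MulAction.orbitRel.Quotient (MulAction.stabilizer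 G a) Ω) ≤ 5 → ∀ χ : G → ℂ, Cfsg.IsIrrCharacter G χ → Cfsg.classInner (fun g : G => (Nat.card (MulAction.fixedBy Ω g) : ℂ)) χ = 0 ∨ Cfsg.classInner (fun g : G => (Nat.card (MulAction.fixedBy Ω g) : ℂ)) χ = 1) := by
  classical
  refine ⟨part_a a, fun hr χ hχ => ?_⟩
  obtain ⟨s, n, hs, hn, hn1, h1, h2⟩ := counts (G := G) a
  by_contra hc
  apply hc
  obtain ⟨f, -, hf⟩ := hχ.exists_pos_degree
  refine (part_a a f fun ψ hψ h3 h4 => ?_).1 χ hχ
  rw [hn ⟨χ, hχ⟩] at hc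
  rw [hn ⟨ψ, hψ⟩, Nat.cast_ne_zero] at h4
  have h5 : 2 ≤ n ⟨χ, hχ⟩ := by
    by_contra h
    have : n ⟨χ, hχ⟩ = 0 ∨ n ⟨χ, hχ⟩ = 1 := by omega
    exact hc (by exact_mod_cast this)
  have h6 : ⟨χ, hχ⟩ ∈ s := by
    by_contra h
    have := hn1 _ h
    omega
  by_contra h7
  have h8 : (⟨χ, hχ⟩ : IrrCharacter G) ≠ ⟨ψ, hψ⟩ := fun h => h7 (by
    rw [← hf, Subtype.mk.inj h])
  have h9 := Finset.sum_le_sum_of_subset (f := fun χ => n χ ^ 2)
    (s := {⟨χ, hχ⟩, ⟨ψ, hψ⟩}) (t := s) (by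
      simp only [Finset.insert_subset_iff, h6, Finset.singleton_subset_iff, true_and]
      exact (hs _).2 h3)
  rw [Finset.sum_pair h8] at h9
  have := Nat.pos_of_ne_zero h4
  nlinarith

end Cfsg.Agent.S0716
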