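import Cfsg.Statements.S0718
import Cfsg.Agent.PERM.PermAlg

set_option autoImplicit false
open Cfsg

namespace Cfsg.Agent.S0718

/-- Multiplicity-freeness of the permutation character is equivalent to commutativity of the centraliser ring, i.e. of the algebra of `G`-equivariant endomorphisms of the complex permutation module. -/
theorem result {G : Type*} [Group G] [Fintype G] {Ω : Type*} [Fintype Ω] [MulAction G Ω] : (∀ χ : G → ℂ, Cfsg.IsIrrCharacter G χ → Cfsg.classInner (fun g : G => (Nat.card (MulAction.fixedBy Ω g) : ℂ)) χ = 0 ∨ Cfsg.classInner (fun g : G => (Nat.card (MulAction.fixedBy Ω g) : ℂ)) χ = 1) ↔ ∀ S T : (Ω → ℂ) →ₗ[ℂ] (Ω → ℂ), S ∈ ((Cfsg.permRep ℂ G Ω).linHom (Cfsg.permRep ℂ G Ω)).invariants → T ∈ ((Cfsg.permRep ℂ G Ω).linHom (Cfsg.permRep ℂ G Ω)).invariants → S ∘ₗ T = T ∘ₗ S := by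
  classical
  have key : ∀ S : (Ω → ℂ) →ₗ[ℂ] (Ω → ℂ),
      S ∈ ((Cfsg.permRep ℂ G Ω).linHom (Cfsg.permRep ℂ G Ω)).invariants ↔
        ∀ g, Commute S (CL.Char.permRep G Ω g) := by
    intro S
    rw [Representation.mem_invariants]
    refine forall_congr' fun g => ?_
    rw [Representation.linHom_apply]
    change CL.Char.permRep G Ω g * S * CL.Char.permRep G Ω g⁻¹ = S ↔ _
    constructor
    · intro h
      change S * _ = _
      conv_lhs => rw [← h]
      rw [mul_assoc, ← map_mul]
      simp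
    · intro h
      rw [← h.eq, mul_assoc, ← map_mul]
      simp
  simp only [key]
  rw [show (fun g : G => (Nat.card (MulAction.fixedBy Ω g) : ℂ)) = _ from
    CL.PermAlg.character_eq.symm]
  exact ⟨fun h S T hS hT => CL.PermAlg.commute_of_multFree _ h hS hT,
    fun h χ hχ => CL.PermAlg.multFree_of_commute _ h hχ⟩

end Cfsg.Agent.S0718
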