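import Cfsg.Statements.S0719
import Cfsg.Agent.PERM.PermAlg
import Cfsg.Agent.S0669
import Cfsg.Agent.S0717

set_option autoImplicit false
open Cfsg

namespace Cfsg.Agent.S0719

theorem arith {m k u : ℤ} (hm : 2 ≤ m) (h2 : 2 ≤ k) (h3 : k ≤ 2 * m - 3)
    (h : 2 * m * k = k ^ 2 + (k - u * m) ^ 2 * (m - 1) + (u * m - k - u) ^ 2 * m) :
    ∃ a : ℕ, 0 < a ∧ m = 2 * a ^ 2 + 2 * a + 1 ∧
      (k = a * (2 * a + 1) ∨ k = (a + 1) * (2 * a + 1)) := by
  obtain ⟨t, rfl⟩ : ∃ t, k = t - u + u * m := ⟨k + u - u * m, by ring⟩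
  have h4 : (m - 1) * (u * (2 - u)) = 2 * (t * (t - 1)) := by
    apply mul_left_cancel₀ (by omega : m ≠ 0)
    linear_combination h
  have h5 : 0 ≤ t * (t - 1) := by
    rcases le_or_gt t 0 with h | h <;> nlinarith
  have h6 : 0 ≤ u * (2 - u) := by
    by_contra hc
    nlinarith
  have h7 : u = 0 ∨ u = 1 ∨ u = 2 := by
    by_contra hc
    have : u < 0 ∨ 2 < u := by omega
    rcases this with h | h <;> nlinarith
  rcases h7 with rfl | rfl | rfl
  · exfalso
    nlinarith
  · rcases le_or_gt t 0 with ht | ht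
    · obtain ⟨a, ha⟩ := Int.eq_ofNat_of_zero_le (by omega : 0 ≤ -t)
      obtain rfl : t = -a := by omega
      refine ⟨a, ?_, by linear_combination h4, Or.inl (by linear_combination h4)⟩
      rcases Nat.eq_zero_or_pos a with rfl | h
      · simp at h4
        omega
      · exact h
    · obtain ⟨a, ha⟩ := Int.eq_ofNat_of_zero_le (by omega : 0 ≤ t - 1)
      obtain rfl : t = a + 1 := by omega
      refine ⟨a, ?_, by linear_combination h4, Or.inr (by linear_combination h4)⟩
      rcases Nat.eq_zero_or_pos a with rfl | h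
      · simp at h4
        omega
      · exact h
  · exfalso
    nlinarith

open MulAction in
theorem two_le {G : Type*} [Group G] {Ω : Type*} [Fintype Ω] [MulAction G Ω]
    (hprim : IsPreprimitive G Ω) (hn : 2 < Fintype.card Ω) {a b : Ω} (hab : b ≠ a) {t : G}
    (h1 : t • a = b) (h2 : t • b = a) : 2 ≤ Nat.card (orbit (stabilizer G a) b) := by
  classical
  by_contra hc
  have : Nonempty (orbit (stabilizer G a) b) := ⟨⟨_, mem_orbit_self _⟩⟩
  have h3 : Nat.card (orbit (stabilizer G a) b) = 1 := by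
    have := Nat.card_pos (α := orbit (stabilizer G a) b)
    omega
  have h4 := (Nat.card_eq_one_iff_unique.1 h3).1
  have h5 : ∀ g : G, g • a = a → g • b = b := fun g hg =>
    congrArg Subtype.val (h4.elim ⟨g • b, ⟨⟨g, hg⟩, rfl⟩⟩ ⟨b, mem_orbit_self b⟩)
  have h6 : ∀ g : G, g • a = b → g • b = a := fun g hg => by
    have := h5 (t * g) (by rw [mul_smul, hg, h2])
    rw [mul_smul, ← h1] at this
    rw [← h1]
    exact smul_left_cancel t this
  have hB : IsBlock G ({a, b} : Set Ω) := by
    rw [isBlock_iff_smul_eq_of_mem]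
    intro g x hx hg
    have h7 : (g • a = a ∧ g • b = b) ∨ (g • a = b ∧ g • b = a) := by
      rcases hx with rfl | rfl <;> rcases hg with hg | hg
      · exact Or.inl ⟨hg, h5 g hg⟩
      · exact Or.inr ⟨hg, h6 g hg⟩
      · have := h6 g⁻¹ (inv_smul_eq_iff.2 hg.symm)
        exact Or.inr ⟨(inv_smul_eq_iff.1 this).symm, hg⟩
      · have := h6 (g * t) (by rw [mul_smul, h1, hg])
        rw [mul_smul, h2] at this
        exact Or.inl ⟨this, hg⟩
    rcases h7 with h | h <;> simp [Set.smul_set_insert, h.1, h.2, Set.pair_comm]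
  rcases hprim.isTrivialBlock_of_isBlock hB with h | h
  · exact hab (h (by simp) (by simp))
  · have := congrArg Set.ncard h
    rw [Set.ncard_pair hab.symm, Set.ncard_univ, Nat.card_eq_fintype_card] at this
    omega

open CL.Char CL.PermAlg CL.PermMod MulAction in
/-- Groups of Wielandt type: if a primitive group of degree `2m` has rank 3 and permutation character `1 + χ₁ + χ₂` with irreducible `χ₁, χ₂` of degrees `m - 1` and `m`, then `m = 2a² + 2a + 1` for some positive integer `a` and the two non-trivial subdegrees are `a(2a+1)` and `(a+1)(2a+1)`. -/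
theorem result {G : Type*} [Group G] [Fintype G] {Ω : Type*} [Fintype Ω] [MulAction G Ω] (hprim : MulAction.IsPreprimitive G Ω) {m : ℕ} (hm : Fintype.card Ω = 2 * m) (a₀ : Ω) (hrank : Nat.card (MulAction.orbitRel.Quotient (MulAction.stabilizer G a₀) Ω) = 3) (χ₁ χ₂ : G → ℂ) (h₁ : Cfsg.IsIrrCharacter G χ₁) (h₂ : Cfsg.IsIrrCharacter G χ₂) (hπ : (fun g : G => (Nat.card (MulAction.fixedBy Ω g) : ℂ)) = fun g => 1 + χ₁ g + χ₂ g) (hd₁ : χ₁ 1 = (m : ℂ) - 1) (hd₂ : χ₂ 1 = m) : ∃ a : ℕ, 0 < a ∧ m = 2 * a ^ 2 + 2 * a + 1 ∧ ∀ b : Ω, b ≠ a₀ → Nat.card (MulAction.orbit (MulAction.stabilizer G a₀) b) = a * (2 * a + 1) ∨ Nat.card (MulAction.orbit (MulAction.stabilizer G a₀) b) = (a + 1) * (2 * a + 1) := by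
  classical
  have : Nonempty Ω := ⟨a₀⟩
  have hπ' : pc G Ω = (fun _ => 1) + χ₁ + χ₂ := hπ
  have hin : ∀ χ, IsIrrCharacter G χ → classInner (pc G Ω) χ =
      (if (fun _ => 1) = χ then 1 else 0) + (if χ₁ = χ then 1 else 0) +
        (if χ₂ = χ then 1 else 0) := fun χ hχ => by
    rw [hπ', classInner_add_left, classInner_add_left, isIrrCharacter_one.inner hχ, h₁.inner hχ,
      h₂.inner hχ]
  have h0 := hin _ isIrrCharacter_one
  rw [inner_pc_one, if_pos rfl] at h0
  have n1 : χ₁ ≠ fun _ => 1 := fun h => by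
    rw [if_pos h] at h0
    split_ifs at h0 <;> norm_num at h0
  have n2 : χ₂ ≠ fun _ => 1 := fun h => by
    rw [if_neg n1, if_pos h] at h0
    norm_num at h0
  have n12 : χ₁ ≠ χ₂ := fun h => by
    rw [h, hd₂] at hd₁
    simp [eq_sub_iff_add_eq] at hd₁
  have hm2 : 2 ≤ m := by
    obtain ⟨d, hd, hd'⟩ := h₁.exists_pos_degree
    rw [hd₁, sub_eq_iff_eq_add] at hd'
    have : m = d + 1 := by exact_mod_cast hd'
    omega
  have i1 : classInner (pc G Ω) χ₁ = 1 := by rw [hin _ h₁]; simp [n1.symm, n12.symm]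
  have i2 : classInner (pc G Ω) χ₂ = 1 := by rw [hin _ h₂]; simp [n2.symm, n12]
  have i3 : ∀ χ, IsIrrCharacter G χ → classInner (pc G Ω) χ ≠ 0 →
      χ = (fun _ => 1) ∨ χ = χ₁ ∨ χ = χ₂ := fun χ hχ h => by
    by_contra hc
    push Not at hc
    rw [hin _ hχ] at h
    simp [hc.1.symm, hc.2.1.symm, hc.2.2.symm] at h
  have hsp : ∀ a b : Ω, ∃ g : G, g • a = b ∧ g • b = a := by
    refine Cfsg.Agent.S0717.result.2 fun χ hχ h => ?_
    have h6 := classInner_conj_conj (pc G Ω) χ
    have h7 : (fun g => (starRingEnd ℂ) (pc G Ω g)) = pc G Ω := by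
      ext g
      simp
    rw [h7] at h6
    have h8 := i3 _ hχ.conj (by rwa [h6, _root_.map_ne_zero])
    have h9 : (fun g => (starRingEnd ℂ) (χ g)) = (fun _ => 1) → χ = fun _ => 1 := fun h => by
      ext g
      simpa using congrArg (starRingEnd ℂ) (congrFun h g)
    rcases i3 χ hχ h with rfl | rfl | rfl
    · exact ⟨inner_pc_one, by simp⟩
    · refine ⟨i1, ?_⟩
      rcases h8 with h | h | h
      · exact absurd (h9 h) n1
      · exact congrFun h
      · have := congrFun h 1
        rw [hχ.isCharacter.conj_one, hd₁, hd₂] at this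
        simp [sub_eq_self] at this
    · refine ⟨i2, ?_⟩
      rcases h8 with h | h | h
      · exact absurd (h9 h) n2
      · have := congrFun h 1
        rw [hχ.isCharacter.conj_one, hd₁, hd₂] at this
        simp [eq_sub_iff_add_eq] at this
      · exact congrFun h
  have hsym : ∀ x y : Ω, cls G x y = cls G y x := fun x y => cls_eq_iff.2 (hsp y x)
  have expand : ∀ f : G → ℂ, IsClassFunction G f →
      (∀ χ, IsIrrCharacter G χ → classInner (pc G Ω) χ = 0 → classInner f χ = 0) →
      f 1 = classInner f (fun _ => 1) + classInner f χ₁ * (m - 1) + classInner f χ₂ * m := by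
    intro f hf h
    rw [hf.apply_eq_sum 1, ← Finset.sum_subset (Finset.subset_univ
      {⟨_, isIrrCharacter_one⟩, ⟨_, h₁⟩, ⟨_, h₂⟩}), Finset.sum_insert, Finset.sum_pair]
    · simp [hd₁, hd₂, add_assoc]
    · simpa using n12
    · simp [n1.symm, n2.symm]
    · intro χ _ hχ
      rw [h χ χ.2, zero_mul]
      by_contra hc
      apply hχ
      simpa [Subtype.ext_iff] using i3 χ χ.2 hc
  have key : ∀ b, b ≠ a₀ → ∃ a : ℕ, 0 < a ∧ m = 2 * a ^ 2 + 2 * a + 1 ∧
      (Nat.card (orbit (stabilizer G a₀) b) = a * (2 * a + 1) ∨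
        Nat.card (orbit (stabilizer G a₀) b) = (a + 1) * (2 * a + 1)) := by
    intro b hb
    have hd : ∀ x y : Ω, y ≠ a₀ → cls G x x ≠ cls G a₀ y := fun x y hy h =>
      hy (cls_eq_diag.1 h.symm).symm
    obtain ⟨c, hc, hbc, hall⟩ : ∃ c, c ≠ a₀ ∧ cls G a₀ b ≠ cls G a₀ c ∧
        ∀ x y, x = y ∨ cls G x y = cls G a₀ b ∨ cls G x y = cls G a₀ c := by
      have := Fintype.ofFinite (orbitRel.Quotient G (Ω × Ω))
      rw [← Cfsg.Agent.S0669.result, Nat.card_eq_fintype_card] at hrank
      have h1 : ((Finset.univ.erase (cls G a₀ a₀)).erase (cls G a₀ b)).card = 1 := by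
        rw [Finset.card_erase_of_mem (by simpa using (hd _ _ hb).symm),
          Finset.card_erase_of_mem (Finset.mem_univ _), Finset.card_univ, hrank]
      obtain ⟨q, hq⟩ := Finset.card_eq_one.1 h1
      obtain ⟨x, y, rfl⟩ := cls_surj q
      obtain ⟨g, rfl⟩ := exists_smul_eq G a₀ x
      rw [← smul_inv_smul g y, cls_smul] at hq
      have h2 := hq ▸ Finset.mem_singleton_self _
      simp only [Finset.mem_erase, Finset.mem_univ, and_true] at h2
      refine ⟨g⁻¹ • y, fun h => h2.2 (by rw [h]), h2.1.symm, fun x y => ?_⟩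
      by_contra h
      push Not at h
      apply h.2.2
      rw [← Finset.mem_singleton, ← hq]
      simp only [Finset.mem_erase, Finset.mem_univ, and_true]
      exact ⟨h.2.1, fun h' => h.1 (cls_eq_diag.1 h')⟩
    obtain ⟨t, ht1, ht2⟩ := hsp a₀ b
    obtain ⟨t', ht1', ht2'⟩ := hsp a₀ c
    have k1 := two_le hprim (by omega) hb ht1 ht2
    have k2 := two_le hprim (by omega) hc ht1' ht2'
    set k := Nat.card (orbit (stabilizer G a₀) b) with hk
    set k' := Nat.card (orbit (stabilizer G a₀) c) with hk'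
    have hJ : (1 : Matrix Ω Ω ℂ) + adj ℂ (cls G a₀ b) + adj ℂ (cls G a₀ c) =
        Matrix.of fun _ _ => 1 := by
      ext x y
      simp only [Matrix.add_apply, adj_apply, Matrix.of_apply]
      by_cases hxy : x = y
      · subst hxy
        simp [hd _ _ hb, hd _ _ hc]
      · rcases (hall x y).resolve_left hxy with h | h <;> simp [hxy, h, hbc, hbc.symm]
    have hkk : 1 + k + k' = 2 * m := by
      have := congrArg (fun M : Matrix Ω Ω ℂ => ∑ y, M a₀ y) hJ
      simp only [Matrix.add_apply, Finset.sum_add_distrib, sum_adj, Matrix.of_apply,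
        Matrix.one_apply, Finset.sum_ite_eq, Finset.mem_univ, if_true, Finset.sum_const,
        Finset.card_univ, hm, nsmul_eq_mul, mul_one] at this
      exact_mod_cast this
    set A := adj ℂ (cls G a₀ b) with hA
    have hAi : InvMat G A := invMat_adj ℂ _
    have hA2 : InvMat G (A ^ 2) := by rw [pow_two]; exact hAi.mul hAi
    have hint : ∀ x y, ∃ n : ℤ, (A ^ 2) x y = n := by
      intro x y
      choose N hN using adj_int (cls G a₀ b)
      exact ⟨∑ z, N x z * N z y, by simp [pow_two, Matrix.mul_apply, hA, hN]⟩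
    have hdiag : ∀ x, (A ^ 2) x x = k := by
      intro x
      rw [← sum_adj, ← hAi.row_sum x a₀, pow_two, Matrix.mul_apply]
      refine Finset.sum_congr rfl fun y _ => ?_
      simp only [hA, adj_apply, hsym y x]
      split_ifs <;> simp
    obtain ⟨l, hl⟩ := hint a₀ b
    obtain ⟨μ, hμ⟩ := hint a₀ c
    have hsq : A ^ 2 = ((k : ℂ) - μ) • (1 : Matrix Ω Ω ℂ) + ((l : ℂ) - μ) • A +
        (μ : ℂ) • Matrix.of fun _ _ => 1 := by
      ext x y
      simp only [Matrix.add_apply, Matrix.smul_apply, Matrix.of_apply, smul_eq_mul]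
      by_cases hxy : x = y
      · subst hxy
        rw [hdiag]
        simp [hA, adj_apply, hd _ _ hb]
      · rcases (hall x y).resolve_left hxy with h | h
        · rw [hA2.eq_of_cls h, hl]
          simp [hxy, hA, adj_apply, h]
        · rw [hA2.eq_of_cls h, hμ]
          simp [hxy, hA, adj_apply, h, hbc.symm]
    have spec : ∀ χ, IsIrrCharacter G χ → classInner (pc G Ω) χ = 1 →
        classInner (φ (A ^ 2)) χ = classInner (φ A) χ ^ 2 := by
      intro χ hχ h
      obtain ⟨s, -, hs⟩ := exists_spectrum_mat hAi (adj_int _) hχ.isCharacter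
      have e0 := hs 0
      simp only [pow_zero, φ_one, Multiset.map_const', Multiset.sum_replicate, nsmul_eq_mul,
        mul_one, h] at e0
      obtain ⟨r, rfl⟩ := Multiset.card_eq_one.1 (by exact_mod_cast e0.symm)
      have e1 := hs 1
      rw [pow_one] at e1
      simp [hs 2, e1]
    have spec0 : ∀ (j : ℕ) χ, IsIrrCharacter G χ → classInner (pc G Ω) χ = 0 →
        classInner (φ (A ^ j)) χ = 0 := by
      intro j χ hχ h
      obtain ⟨s, -, hs⟩ := exists_spectrum_mat hAi (adj_int _) hχ.isCharacter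
      have e0 := hs 0
      simp only [pow_zero, φ_one, Multiset.map_const', Multiset.sum_replicate, nsmul_eq_mul,
        mul_one, h] at e0
      obtain rfl := Multiset.card_eq_zero.1 (by exact_mod_cast e0.symm)
      simp [hs j]
    have t1 := expand _ (isClassFunction_φ hAi) (by simpa using spec0 1)
    have t2 := expand _ (isClassFunction_φ hA2) (spec0 2)
    rw [spec _ isIrrCharacter_one inner_pc_one, spec _ h₁ i1, spec _ h₂ i2] at t2
    rw [inner_φ_one hAi a₀, sum_adj, ← hk] at t1 t2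
    have t3 : φ A (1 : G) = 0 := Finset.sum_eq_zero fun x _ => by
      rw [one_smul, hA, adj_apply, if_neg (hd _ _ hb)]
    have t4 : φ (A ^ 2) (1 : G) = 2 * m * k := by simp [φ, hdiag, hm]
    have quad : ∀ χ, IsIrrCharacter G χ → classInner (pc G Ω) χ = 1 → χ ≠ (fun _ => 1) →
        classInner (φ A) χ ^ 2 = (k - μ) + (l - μ) * classInner (φ A) χ := by
      intro χ hχ h h'
      have e : (φ (Matrix.of fun _ _ : Ω => (1 : ℂ)) : G → ℂ) =
          (Fintype.card Ω : ℂ) • fun _ => 1 := by
        ext g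
        simp [φ]
      rw [← spec χ hχ h, hsq, φ_add, φ_add, φ_smul, φ_smul, φ_smul, classInner_add_left,
        classInner_add_left, classInner_smul_left, classInner_smul_left, classInner_smul_left,
        φ_one, h, e, classInner_smul_left, isIrrCharacter_one.inner_of_ne hχ h'.symm]
      ring
    have q1 := quad _ h₁ i1 n1
    have q2 := quad _ h₂ i2 n2
    rw [t3] at t1
    rw [t4] at t2
    set r := classInner (φ A) χ₁
    set s := classInner (φ A) χ₂
    have hrs : r ≠ s := by
      intro h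
      rw [← h] at t1 t2
      have e1 : ((2 * m : ℕ) : ℂ) * ((k : ℕ) * ((k + 1 : ℕ) - (2 * m : ℕ))) = 0 := by
        push_cast
        linear_combination (1 - 2 * m) * t2 + (r * (2 * m - 1) - k) * t1
      simp only [mul_eq_zero, Nat.cast_eq_zero, sub_eq_zero, Nat.cast_inj] at e1
      omega
    have e1 : r + s = l - μ := by
      apply mul_left_cancel₀ (sub_ne_zero.2 hrs)
      linear_combination q1 - q2
    have e2 : r = k - (μ - l) * m := by linear_combination t1 + m * e1
    have e3 : s = (μ - l) * m - k - (μ - l) := by linear_combination e1 - e2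
    rw [e2, e3] at t2
    obtain ⟨a, ha, h1, h2⟩ := arith (m := m) (k := k) (u := μ - l) (by omega) (by omega)
      (by omega) (by exact_mod_cast t2)
    exact ⟨a, ha, by exact_mod_cast h1, by exact_mod_cast h2⟩
  obtain ⟨b₀, hb₀⟩ := Fintype.exists_ne_of_one_lt_card (by omega : 1 < Fintype.card Ω) a₀
  obtain ⟨a, ha, h1, -⟩ := key b₀ hb₀
  refine ⟨a, ha, h1, fun b hb => ?_⟩
  obtain ⟨a', -, h2, h3⟩ := key b hb
  obtain rfl : a = a' := by
    by_contra h
    rcases Nat.lt_or_gt_of_ne h with h | h <;> nlinarith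
  exact h3

end Cfsg.Agent.S0719
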