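import Cfsg.Statements.S0766
import Cfsg.Agent.CLAS.SpForm
import Cfsg.Agent.S0765

set_option autoImplicit false
open Cfsg

namespace Cfsg.Agent.S0766

/-- The subgroup generated by the symplectic transvections acts transitively on ordered pairs (u, v) with f(u, v) = 1. -/
theorem result {F : Type*} [Field F] (m : ℕ) (u v u' v' : Fin m ⊕ Fin m → F) (h : Cfsg.sympForm m F u v = 1) (h' : Cfsg.sympForm m F u' v' = 1) : ∃ A ∈ Subgroup.closure {A : Matrix.symplecticGroup (Fin m) F | ∃ (w : Fin m ⊕ Fin m → F) (c : F), (A : Matrix (Fin m ⊕ Fin m) (Fin m ⊕ Fin m) F) = Cfsg.sympTransvection m w c}, (A : Matrix (Fin m ⊕ Fin m) (Fin m ⊕ Fin m) F).mulVec u = u' ∧ (A : Matrix (Fin m ⊕ Fin m) (Fin m ⊕ Fin m) F).mulVec v = v' := by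
  have hf := CL.Sp.spForm_nondeg m F
  rw [← CL.Sp.spForm_B] at h h'
  obtain ⟨g, hg, h1, h2⟩ := hf.witt_pair
    ((CL.Sp.spForm m F).linearIndependent_pair (x := u) (y := v) rfl (by simp [h]))
    ((CL.Sp.spForm m F).linearIndependent_pair (x := u') (y := v') rfl (by simp [h'])) rfl rfl
    (h'.trans h.symm)
  refine ⟨(CL.Sp.spEquiv m F).symm ⟨g, hg⟩, ?_, ?_, ?_⟩
  · rw [Cfsg.Agent.S0765.result]
    trivial
  · exact (CL.Sp.spEquiv_symm_mulVec _ _).trans h1
  · exact (CL.Sp.spEquiv_symm_mulVec _ _).trans h2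

end Cfsg.Agent.S0766
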