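import Cfsg.Statements.S0809
import Cfsg.Agent.CLAS.SL2Two

set_option autoImplicit false
open Cfsg

namespace Cfsg.Agent.S0809

open CL.Dk CL.PGL2 Matrix
open scoped MatrixGroups

theorem exists_gen {F : Type*} [Field F] [Finite F] (h2 : (2 : F) ≠ 0) (A : Subgroup SL(2, F))
    (hA : Nat.card A = 4) : ∃ s : PGL(2, F), s ≠ 1 ∧ s * s = 1 ∧ s ∈ pslIn F ∧
      A = (Subgroup.zpowers s).comap (sl2pgl F) := by
  have h1 := neg_one_mem_of_even h2 (H := A) (by rw [hA]; decide)
  have h3 := card_eq_two_mul_card_map h2 h1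
  have h4 : Nat.card (A.map (sl2pgl F)) = 2 := by omega
  have := isCyclic_of_prime_card h4
  obtain ⟨s, hs⟩ := (Subgroup.isCyclic_iff_exists_zpowers_eq_top _).1 this
  have h5 : orderOf s = 2 := by rw [← Nat.card_zpowers, hs, h4]
  refine ⟨s, ?_, ?_, ?_, ?_⟩
  · rintro rfl
    simp at h5
  · have := pow_orderOf_eq_one s
    rwa [h5, sq] at this
  · rw [← range_sl2pgl]
    exact A.map_le_range _ (hs ▸ Subgroup.mem_zpowers s)
  · rw [hs, comap_map_sl2pgl h1]

theorem cjs_comap {G H : Type*} [Group G] [Group H] (φ : G →* H) (g : G) (S : Subgroup H) :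
    cjs g (S.comap φ) = (cjs (φ g) S).comap φ := by
  ext x
  simp [mem_cjs]

/-- In SL_2(q), q odd: any two subgroups of order 4 are conjugate, and the normaliser of a subgroup of order 4 has order 2(q − 1) if q ≡ 1 (mod 4) and 2(q + 1) if q ≡ 3 (mod 4); consequently all involutions of PSL_2(q) are conjugate. -/
theorem result {F : Type*} [Field F] [Fintype F] {q : ℕ} (hF : Fintype.card F = q) (hodd : Odd q) (A : Subgroup (Matrix.SpecialLinearGroup (Fin 2) F)) (hA : Nat.card A = 4) : (∀ B : Subgroup (Matrix.SpecialLinearGroup (Fin 2) F), Nat.card B = 4 → ∃ g : Matrix.SpecialLinearGroup (Fin 2) F, B = A.map (MulAut.conj g).toMonoidHom) ∧ (q % 4 = 1 → Nat.card ↥(Subgroup.normalizer (A : Set (Matrix.SpecialLinearGroup (Fin 2) F))) = 2 * (q - 1)) ∧ (q % 4 = 3 → Nat.card ↥(Subgroup.normalizer (A : Set (Matrix.SpecialLinearGroup (Fin 2) F))) = 2 * (q + 1)) ∧ (∀ x y : Matrix.ProjectiveSpecialLinearGroup (Fin 2) F, orderOf x = 2 → orderOf y = 2 →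 IsConj x y) := by
  have hq : Nat.card F = q := by rw [Nat.card_eq_fintype_card, hF]
  rw [← hq] at hodd ⊢
  have h2 := two_ne_zero_of_odd hodd
  obtain ⟨s, hs1, hs2, hs3, rfl⟩ := exists_gen h2 A hA
  have : Fact (ringChar F).Prime := ⟨CharP.char_is_prime F _⟩
  have hs4 : orderOf s = 2 := orderOf_eq_prime (by rw [sq, hs2]) hs1
  obtain ⟨x, y, hxy, hm⟩ := exists_mem_pairT_of_not_dvd (algebraMap F (AlgebraicClosure F))
    (ringChar F) hs1 (by
      rw [hs4]
      intro h
      exact ringChar_ne_two_of_odd hodd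
        ((Nat.prime_dvd_prime_iff_eq Fact.out Nat.prime_two).1 h))
  have hne : pairT (mapG (algebraMap F (AlgebraicClosure F))) x y ≠ ⊥ := fun e =>
    hs1 (by rwa [e, Subgroup.mem_bot] at hm)
  have hN : Subgroup.normalizer (((Subgroup.zpowers s).comap (sl2pgl F) : Subgroup SL(2, F)) :
      Set SL(2, F)) =
      (pairN (mapG (algebraMap F (AlgebraicClosure F))) x y ⊓ pslIn F).comap (sl2pgl F) := by
    rw [← normalizer_eq_pairN (mapG_injective _) hxy (Subgroup.zpowers_le.2 hm)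
      (by rwa [Ne, Subgroup.zpowers_eq_bot])]
    ext g
    rw [Subgroup.mem_comap, Subgroup.mem_inf, and_iff_left (sl2pgl_mem_pslIn g),
      ← cjs_eq_iff_mem_normalizer, ← cjs_eq_iff_mem_normalizer, cjs_comap]
    have hz : Subgroup.zpowers s ≤ (sl2pgl F).range := by
      rw [range_sl2pgl, Subgroup.zpowers_le]; exact hs3
    refine ⟨fun h => ?_, fun h => by rw [h]⟩
    have h' := congrArg (Subgroup.map (sl2pgl F)) h
    rwa [Subgroup.map_comap_eq_self hz, Subgroup.map_comap_eq_self (by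
        rw [range_sl2pgl] at hz ⊢; exact cjs_le_pslIn_iff.2 hz)] at h'
  have hc := card_comap_sl2pgl h2
    (S := pairN (mapG (algebraMap F (AlgebraicClosure F))) x y ⊓ pslIn F) inf_le_right
  rw [← hN, card_eq_two_mul_of_le_pairN inf_le_left (not_pairN_inf_pslIn_le _ hxy hne),
    ← inf_assoc, inf_eq_left.2 (pairT_le_pairN _ _ _)] at hc
  have h5 := gcd_mul_card_pairT_inf_pslIn _ hxy hne
  rw [gcd_two_of_odd hodd] at h5
  have h6 := Subgroup.orderOf_dvd_natCard
    (pairT (mapG (algebraMap F (AlgebraicClosure F))) x y ⊓ pslIn F) ⟨hm, hs3⟩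
  rw [hs4] at h6
  refine ⟨fun B hB => ?_, fun h => ?_, fun h => ?_, fun x y hx hy => ?_⟩
  · obtain ⟨t, ht1, ht2, ht3, rfl⟩ := exists_gen h2 B hB
    obtain ⟨h, hh, rfl⟩ := exists_conj_pslIn_of_involution hodd hs1 ht1 hs2 ht2 hs3 ht3
    rw [← range_sl2pgl] at hh
    obtain ⟨g, rfl⟩ := hh
    exact ⟨g, by rw [← cjs_zpowers, ← cjs_comap]; rfl⟩
  · rcases (torus_data _ hxy hne).1 with h' | h' <;> omega
  · rcases (torus_data _ hxy hne).1 with h' | h' <;> omega
  · rw [← orderOf_injective _ psl2pgl_injective] at hx hy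
    have k : ∀ g : PGL(2, F), orderOf g = 2 → g ≠ 1 ∧ g * g = 1 := fun g hg =>
      ⟨by rintro rfl; simp at hg, by have := pow_orderOf_eq_one g; rwa [hg, sq] at this⟩
    obtain ⟨_, ⟨g, rfl⟩, e⟩ := exists_conj_pslIn_of_involution hodd (k _ hx).1 (k _ hy).1
      (k _ hx).2 (k _ hy).2 ⟨x, rfl⟩ ⟨y, rfl⟩
    exact isConj_iff.2 ⟨g, psl2pgl_injective (by simpa using e)⟩

end Cfsg.Agent.S0809
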