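import Cfsg.Statements.S0817
import Cfsg.Agent.CLAS.OutOrth3

set_option autoImplicit false
open Cfsg

namespace Cfsg.Agent.S0817

open CL.OutOrth


/-- |Aut(PΩ⁺_2m(q))| for q = p^f, m ≥ 4: |PΩ⁺_2m(q)| times f, times 3 when m = 4, times 2 if p = 2, and times 8 or 4 if p is odd according as m(q−1)/2 is even or odd. -/
theorem result {F : Type*} [Field F] [Fintype F] (p f : ℕ) [Fact p.Prime] (hf : 1 ≤ f) (hF : Fintype.card F = p ^ f) (m : ℕ) (hm : 4 ≤ m) : Nat.card (MulAut (Cfsg.POmega F (Cfsg.quadFormPlus m F))) = (if m = 4 then 3 else 1) * (if p = 2 then 2 else (if Even (m * (p ^ f - 1) / 2) then 8 else 4)) * f * Nat.card (Cfsg.POmega F (Cfsg.quadFormPlus m F)) := by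
  have : NeZero f := ⟨by omega⟩
  refine (ok_plus (by omega)).card_mulAut.trans ?_
  congr 1
  rw [CL.Orth.coe_QPlus]
  by_cases hp : p = 2
  · subst hp
    have := out_QPlus_two hF hm
    split_ifs at this ⊢ with h1 h2 <;> obtain ⟨e⟩ := this <;> rw [Nat.card_congr e.toEquiv] <;>
      simp_all [Fintype.card_perm, Nat.factorial]
  · have := out_QPlus_odd hF hp hm
    simp only [even_iff_not hF hp, if_neg hp]
    split_ifs at this ⊢ with h1 h2 h3 <;> obtain ⟨e⟩ := this <;> rw [Nat.card_congr e.toEquiv]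
    · subst h1; exact absurd h2.2 (by decide)
    · simp [Fintype.card_perm, Nat.factorial]
    · simp; ring
    · simp [DihedralGroup.card]

end Cfsg.Agent.S0817
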