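import Cfsg.Statements.S0819
import Cfsg.Agent.S2476

set_option autoImplicit false
open Cfsg

namespace Cfsg.Agent.S0819

/-- No element of PSL_3(4) has order 15. -/
theorem result {F : Type*} [Field F] [Fintype F] (hF : Fintype.card F = 4) (g : Matrix.ProjectiveSpecialLinearGroup (Fin 3) F) : orderOf g ≠ 15 := by
  intro hg
  have : CharP F 2 := charP_of_card_eq_prime_pow (p := 2) (f := 2) (by simpa using hF)
  have h := (Cfsg.Agent.S2476.result (F := F) 2).le ⟨g, hg⟩
  rw [hF] at h
  simp at h

end Cfsg.Agent.S0819
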