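import Cfsg.Statements.S0910
import Cfsg.Agent.BLK.Princ2
import Cfsg.Agent.CHAR.Burnside
-- import your own Cfsg.Agent.* helpers here

set_option autoImplicit false
open Cfsg

namespace Cfsg.Agent.S0910

/-- Let G be a non-abelian finite simple group and p a prime. If an irreducible character χ lies in the principal block (relative to a maximal ideal of the algebraic integers containing p) and χ 1 is a power of p, then χ is the principal character. -/
theorem result {G : Type*} [Group G] [Finite G] (p : ℕ) [Fact p.Prime] (M : Ideal Cfsg.AlgInt) (hM : Cfsg.IsPModular p M) [IsSimpleGroup G] (hna : ∃ a b : G, a * b ≠ b * a) (χ : Cfsg.IrrCharacter G) (hχ : χ ∈ Cfsg.principalBlock M G) (k : ℕ) (hdeg : (χ : G → ℂ) 1 = (p : ℂ) ^ k) : (χ : G → ℂ) = fun _ => 1 := by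
  by_contra h1
  obtain ⟨a, b, hab⟩ := hna
  apply hab
  have hker := χ.2.charKer_eq_bot_of_simple h1
  have hd : Cfsg.charDegree (χ : G → ℂ) = p ^ k := CL.Blk.charDegree_of_eq (by rw [hdeg, Nat.cast_pow])
  rcases Nat.eq_zero_or_pos k with rfl | hk
  · have := χ.2.commutator_le_charKer_iff.2 (by simpa using hdeg)
    rw [hker, le_bot_iff, commutator_eq_bot_iff_center_eq_top] at this
    exact Subgroup.mem_center_iff.1 (this ▸ Subgroup.mem_top b) a
  · have hp : p ∣ Nat.card G := (dvd_pow_self p hk.ne').trans (hd ▸ CL.Blk.charDegree_dvd_card χ)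
    obtain ⟨P⟩ : Nonempty (Sylow p G) := inferInstance
    have : Nontrivial (P : Subgroup G) := (Subgroup.nontrivial_iff_ne_bot _).2 (P.ne_bot_of_dvd_card hp)
    have := P.isPGroup'.center_nontrivial
    obtain ⟨⟨z, hz⟩, hz1⟩ := exists_ne (1 : Subgroup.center (P : Subgroup G))
    have hz1' : (z : G) ≠ 1 := fun h => hz1 (Subtype.ext (Subtype.ext h))
    have hi := CL.Blk.not_dvd_index_centralizer_of_sylow P (g := z)
      fun u hu => congrArg Subtype.val (Subgroup.mem_center_iff.1 hz ⟨u, hu⟩)
    have := (χ.2.eq_zero_or_norm_eq (z : G) (by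
      rw [hd]; exact Nat.Coprime.pow_left _ ((Nat.Prime.coprime_iff_not_dvd hM.1).2 hi))).resolve_left
      (CL.Blk.principal_apply_ne_zero' hM hχ hi)
    rw [← χ.2.mem_charCenter, χ.2.charCenter_eq_center hker] at this
    exact CL.Char.mul_comm_of_simple_of_mem_center hz1' this a b

end Cfsg.Agent.S0910
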