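import Cfsg.Statements.S0904
import Cfsg.Agent.S0910
import Cfsg.Agent.BLK.Princ2
import Cfsg.Agent.CHAR.BrauerChar
import Cfsg.Agent.CHAR.Burnside
-- import your own Cfsg.Agent.* helpers here

set_option autoImplicit false
open Cfsg

namespace Cfsg.Agent.S0904

/-- no element of order `s * r` -/
theorem aux {G : Type*} [Group G] [Finite G] [IsSimpleGroup G] (p q r a b : ℕ) (hp : p.Prime)
    (hq : q.Prime) (hr : r.Prime) (hpr : p ≠ r) (hqr : q ≠ r)
    (hcard : Nat.card G = p ^ a * q ^ b * r) (hna : ∃ a b : G, a * b ≠ b * a) (g : G)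
    (h1 : p ∣ orderOf g) (h2 : r ∣ orderOf g) : False := by
  have : Fact p.Prime := ⟨hp⟩
  obtain ⟨M, hM⟩ := CL.Glb.exists_isPModular hp
  obtain ⟨χ, hχ, hne, hd, h0⟩ := CL.Blk.exists_principal_not_dvd hM hq h1
  have hcop : ∀ s n : ℕ, s.Prime → s ≠ r → Nat.Coprime r (s ^ n) := fun s n hs hsr =>
    Nat.Coprime.pow_right _ ((Nat.coprime_primes hr hs).2 hsr.symm)
  have hrd : ¬ r ∣ charDegree (χ : G → ℂ) := fun h => by
    refine h0 (χ.2.eq_zero_of_defect_zero (k := 1) hr ?_ (by simpa using h) h2)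
    rw [hcard, pow_succ, pow_one, Nat.mul_dvd_mul_iff_right hr.pos]
    intro h'
    exact (Nat.Prime.coprime_iff_not_dvd hr).1
      (Nat.Coprime.mul_right (hcop p a hp hpr) (hcop q b hq hqr)) h'
  have hdvd := CL.Blk.charDegree_dvd_card χ
  rw [hcard] at hdvd
  have h3 := Nat.Coprime.dvd_of_dvd_mul_right (((Nat.Prime.coprime_iff_not_dvd hr).2 hrd).symm) hdvd
  have h4 := Nat.Coprime.dvd_of_dvd_mul_right
    (Nat.Coprime.pow_right b ((Nat.Prime.coprime_iff_not_dvd hq).2 hd).symm) h3
  obtain ⟨k, -, hk⟩ := (Nat.dvd_prime_pow hp).1 h4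
  exact hne (Cfsg.Agent.S0910.result p M hM hna χ hχ k (by rw [CL.Blk.irr_one_eq, hk, Nat.cast_pow]))

/-- Let G be a finite simple group of order p ^ a * q ^ b * r with p, q, r distinct primes. Then every Sylow r-subgroup S of G satisfies C_G(S) = S. -/
theorem result {G : Type*} [Group G] [Finite G] [IsSimpleGroup G] (p q r a b : ℕ) (hp : p.Prime) (hq : q.Prime) [Fact r.Prime] (hpq : p ≠ q) (hpr : p ≠ r) (hqr : q ≠ r) (hcard : Nat.card G = p ^ a * q ^ b * r) (S : Sylow r G) : Subgroup.centralizer (S : Set G) = (S : Subgroup G) := by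
  have hr : r.Prime := Fact.out
  have hcop : ∀ s n : ℕ, s.Prime → s ≠ r → Nat.Coprime r (s ^ n) := fun s n hs hsr =>
    Nat.Coprime.pow_right _ ((Nat.coprime_primes hr hs).2 hsr.symm)
  have hS : Nat.card (S : Subgroup G) = r := by
    rw [S.card_eq_multiplicity, hcard, Nat.factorization_mul (mul_ne_zero (pow_ne_zero _ hp.ne_zero)
      (pow_ne_zero _ hq.ne_zero)) hr.ne_zero, Finsupp.add_apply, Nat.factorization_eq_zero_of_not_dvd
      ((Nat.Prime.coprime_iff_not_dvd hr).1 (Nat.Coprime.mul_right (hcop p a hp hpr) (hcop q b hq hqr))),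
      hr.factorization_self, zero_add, pow_one]
  have hcyc : IsCyclic (S : Subgroup G) := isCyclic_of_prime_card hS
  have hle : (S : Subgroup G) ≤ Subgroup.centralizer (S : Set G) := fun x hx y hy => by
    have := hcyc.commGroup.mul_comm (⟨y, hy⟩ : (S : Subgroup G)) ⟨x, hx⟩
    exact congrArg Subtype.val this
  by_cases hna : ∃ a b : G, a * b ≠ b * a
  · refine le_antisymm ?_ hle
    have hrd : r ∣ Nat.card (S : Subgroup G) := by rw [hS]
    obtain ⟨y, hy⟩ := exists_prime_orderOf_dvd_card' r hrd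
    have hy' : orderOf (y : G) = r := by rw [Subgroup.orderOf_coe, hy]
    have hP : IsPGroup r (Subgroup.centralizer (S : Set G)) := by
      refine IsPGroup.iff_card.2 ⟨_, Nat.eq_prime_pow_of_unique_prime_dvd Nat.card_pos.ne' ?_⟩
      intro s hs hsd
      by_contra hsr
      have : Fact s.Prime := ⟨hs⟩
      obtain ⟨x, hx⟩ := exists_prime_orderOf_dvd_card' s hsd
      have hx' : orderOf (x : G) = s := by rw [Subgroup.orderOf_coe, hx]
      have hc : Commute (x : G) y := (x.2 y y.2).symm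
      have ho : orderOf ((x : G) * y) = s * r := by
        rw [hc.orderOf_mul_eq_mul_orderOf_of_coprime (by
          rw [hx', hy']; exact (Nat.coprime_primes hs hr).2 hsr), hx', hy']
      have hsG : s ∣ p ^ a * q ^ b * r := hcard ▸ hsd.trans (Subgroup.card_subgroup_dvd_card _)
      rcases (Nat.Prime.dvd_mul hs).1 hsG with h | h
      · rcases (Nat.Prime.dvd_mul hs).1 h with h | h
        · obtain rfl := (Nat.prime_dvd_prime_iff_eq hs hp).1 (hs.dvd_of_dvd_pow h)
          exact aux s q r a b hp hq hr hpr hqr hcard hna _ (ho ▸ dvd_mul_right _ _) (ho ▸ dvd_mul_left _ _)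
        · obtain rfl := (Nat.prime_dvd_prime_iff_eq hs hq).1 (hs.dvd_of_dvd_pow h)
          exact aux s p r b a hq hp hr hqr hpr (by rw [hcard, mul_comm (p ^ a)]) hna _
            (ho ▸ dvd_mul_right _ _) (ho ▸ dvd_mul_left _ _)
      · exact hsr ((Nat.prime_dvd_prime_iff_eq hs hr).1 h)
    exact (S.is_maximal' hP hle).le
  · push Not at hna
    have hn : (S : Subgroup G).Normal := ⟨fun n hn g => by rwa [hna g n, mul_inv_cancel_right]⟩
    rcases hn.eq_bot_or_eq_top with h | h
    · rw [h, Subgroup.card_bot] at hS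
      exact absurd hS.symm hr.one_lt.ne'
    · rw [h]
      exact top_le_iff.1 fun x _ y _ => hna y x

end Cfsg.Agent.S0904
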