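import Cfsg.Statements.S0992
import Cfsg.Agent.INV.SmallMisc

set_option autoImplicit false
open Cfsg

namespace Cfsg.Agent.S0992

/-- Let G be a non-abelian finite simple group of even order not divisible by 8, and T a Sylow 2-subgroup. Then T is a Klein four-group and the centralizer of T has index 3 in the normalizer of T. -/
theorem result {G : Type*} [Group G] [Finite G] [IsSimpleGroup G] (hG : ¬ IsMulCommutative G) (h2 : Even (Nat.card G)) (h8 : ¬ 8 ∣ Nat.card G) (T : Sylow 2 G) : IsKleinFour ↥(T : Subgroup G) ∧ (Subgroup.centralizer ((T : Subgroup G) : Set G)).relIndex (Subgroup.normalizer ((T : Subgroup G) : Set G)) = 3 := by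
  have h2' : 2 ∣ Nat.card G := h2.two_dvd
  have hmin : (Nat.card G).minFac = 2 := (Nat.minFac_eq_two_iff _).2 h2'
  have hnc : ¬ IsCyclic T := fun hc =>
    CL.Small.not_normalizer_le_centralizer hG T h2' (hc.normalizer_le_centralizer hmin)
  obtain ⟨k, hk⟩ := T.2.exists_card_eq
  have hk2 : k = 2 := by
    have h1 : k < 3 := by
      by_contra! h
      exact h8 (((pow_dvd_pow 2 h).trans (dvd_of_eq hk.symm)).trans
        (Subgroup.card_subgroup_dvd_card _))
    have h3 : ¬ k ≤ 1 := by
      intro h
      exact hnc (isCyclic_of_card_dvd_prime (p := 2) (hk ▸ pow_dvd_pow 2 h))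
    omega
  subst hk2
  have hK : IsKleinFour (T : Subgroup G) :=
    ⟨hk, (not_isCyclic_iff_exponent_eq_prime Nat.prime_two hk).1 hnc⟩
  refine ⟨hK, ?_⟩
  have := hK.isMulCommutative
  have h3 := (CL.Small.relIndex_centralizer_dvd_card_mulAut (T : Subgroup G)).trans
    (CL.Small.card_mulAut_dvd_factorial _)
  rw [hk] at h3
  have h4 := CL.Small.relIndex_centralizer_ne_one hG T h2'
  have h5 : ¬ 2 ∣ (Subgroup.centralizer ((T : Subgroup G) : Set G)).relIndex
      (Subgroup.normalizer ((T : Subgroup G) : Set G)) := fun h =>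
    T.not_dvd_index ((h.trans (CL.Small.relIndex_centralizer_dvd_of_comm T)).trans
      (Subgroup.relIndex_dvd_index_of_le Subgroup.le_normalizer))
  generalize (Subgroup.centralizer ((T : Subgroup G) : Set G)).relIndex
      (Subgroup.normalizer ((T : Subgroup G) : Set G)) = e at h3 h4 h5
  have h6 : e ≤ 24 := Nat.le_of_dvd (by norm_num) h3
  interval_cases e <;> simp_all (decide := true)

end Cfsg.Agent.S0992
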