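import Cfsg.Statements.S0997
import Cfsg.Agent.INV.Def1BT

set_option autoImplicit false
open Cfsg

namespace Cfsg.Agent.S0997

theorem ar1 {g d : ℕ} (h : d ∣ g) (h0 : 0 < g) (h1 : g < 2 * d) : g = d := by
  obtain ⟨l, rfl⟩ := h
  rcases l with _ | _ | l
  · omega
  · exact mul_one d
  · nlinarith

theorem ar2 {k p : ℕ} (h : 1 ≤ k) (h1 : k * p < 2 * p) : k = 1 := by
  have := Nat.lt_of_mul_lt_mul_right h1
  omega

theorem ar3 {a p k l : ℤ} (h : a = (k - l) * p) (h1 : -p < a) (h2 : a < p) : k = l := by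
  by_contra h'
  rcases lt_or_gt_of_ne h' with h' | h' <;> nlinarith

theorem ar4 {a K p e : ℕ} (h : 1 + (K * p + a) ≤ e ^ 2) (h1 : e ≤ 2 * K + 1) (h2 : 3 * e + 1 ≤ p)
    (h3 : 1 < e) : False := by
  obtain ⟨f, rfl⟩ : ∃ f, e = f + 1 := ⟨e - 1, by omega⟩
  nlinarith [Nat.mul_le_mul h2 (show f ≤ 2 * K by omega)]

theorem ar5 {a K e : ℕ} (h : 1 + (K * (2 * e + 1) + a) ≤ e ^ 2) (h1 : e ≤ 2 * K) : False := by
  nlinarith [Nat.mul_le_mul_right e h1]

set_option maxHeartbeats 1600000 in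
open Subgroup CL.Small CL.D1 CL.Char in
theorem key {G : Type*} [Group G] [Finite G] [IsSimpleGroup G] (hG : ¬ IsMulCommutative G)
    {p q b g : ℕ} [hp : Fact p.Prime] [hq : Fact q.Prime] (hpq : q ≠ p)
    (hG' : Nat.card G = p * (q ^ b * g)) (hg : g + 1 < p) (hqg : ¬ q ∣ g) (P : Sylow p G)
    (hP : Nat.card P = p) : Nat.card (centralizer ((P : Subgroup G) : Set G)) = p ∧
      2 * Nat.card (Sylow p G) < (p + 1) * (p + 2) ∧ ∃ m, p = 2 ^ m + 1 ∨ p + 1 = 2 ^ m := by
  classical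
  have hperf := commutator_eq_top hG
  obtain ⟨e, c, h1, -, h3, -, h5, h6⟩ := prime_sylow_data hG P hP
  obtain ⟨x, -, hx⟩ := exists_mem_orderOf_eq_prime (P : Subgroup G) p (by rw [hP])
  obtain ⟨D⟩ := exists_data hperf (odd_of_card_sylow hG P hP) P hP h5
  obtain ⟨θ, hθ⟩ := D.Y_nonempty
  set v := Nat.card (Sylow p G)
  have hg0 : 0 < g := Nat.pos_of_ne_zero (by rintro rfl; simp at hqg)
  have hv : v * c * e = q ^ b * g :=
    Nat.eq_of_mul_eq_mul_left hp.out.pos (by rw [← hG', h6]; ring)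
  have hd : ∀ χ : IrrCharacter G, χ ∈ D.X ∨ χ ∈ D.Y → charDegree χ.1 ∣ q ^ b * g := fun χ hχ =>
    (D.deg_dvd hx hχ).trans (by
      rw [index_centralizer_eq P hP h3 h6 hx, ← hv]; exact ⟨c, by ring⟩)
  have hd' : ∀ d, d ∣ q ^ b * g → ¬ q ∣ d → d ∣ g := fun d h h' =>
    ((hq.out.coprime_iff_not_dvd.2 h').symm.pow_right b).dvd_of_dvd_mul_left h
  obtain ⟨a, a', K, L, c1, c2, c3, c4, c5, c6, c7, c8, c9, c10⟩ := D.exists_counts hperf hx hθ
  have hX : ∀ χ ∈ D.X, q ∣ charDegree χ.1 := fun χ hχ => by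
    by_contra h
    have h7 := Nat.le_of_dvd hg0 (hd' _ (hd χ (Or.inl hχ)) h)
    by_cases h8 : D.δ χ = 1
    · obtain ⟨k, hk, -, hk'⟩ := c9 χ hχ h8
      have := Nat.mul_le_mul_right p hk
      omega
    · obtain ⟨k, hk, -, hk'⟩ := c10 χ hχ h8
      have := Nat.mul_le_mul_right p hk
      omega
  have hS : ∀ S ⊆ D.X, (q : ℤ) ∣ ∑ χ ∈ S, D.δ χ * charDegree χ.1 := fun S hS =>
    Finset.dvd_sum fun χ hχ => (Int.natCast_dvd_natCast.2 (hX χ (hS hχ))).mul_left _
  have hθq : (q : ℤ) ∣ D.ε * charDegree θ.1 - 1 := by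
    rw [D.deg_eqn hθ, add_sub_cancel_left]; exact hS _ subset_rfl
  have hq1 : ¬ (q : ℤ) ∣ 1 := fun h => hq.out.ne_one (by exact_mod_cast Int.eq_one_of_dvd_one (by omega) h)
  have hθq' : ¬ q ∣ charDegree θ.1 := fun h => hq1 (by
    simpa using ((Int.natCast_dvd_natCast.2 h).mul_left D.ε).sub hθq)
  have hdg := hd' _ (hd θ (Or.inr hθ)) hθq'
  have hdle := Nat.le_of_dvd hg0 hdg
  have hc1 : c = 1 := by
    by_contra hc1
    have := D.two_mul_lt_of_ne hG P hP h3 hc1 (Or.inr hθ)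
    omega
  subst hc1
  have hd2 := degree_ne_one hperf (D.ne_one (Or.inr hθ))
  have hte := D.card_Y
  have ht0 : 0 < D.Y.card := D.Y_nonempty.card_pos
  have hep := Nat.le_mul_of_pos_left e ht0
  have hp0 : (0 : ℤ) < p := by exact_mod_cast hp.out.pos
  obtain ⟨χ₀, hχ₀⟩ : D.X.Nonempty := Finset.card_pos.1 (by have := D.card_X; omega)
  have hb : b ≠ 0 := by
    rintro rfl
    exact hqg ((hX χ₀ hχ₀).trans (by simpa using hd χ₀ (Or.inl hχ₀)))
  obtain ⟨Q⟩ : Nonempty (Sylow q G) := inferInstance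
  have hQ : Nat.card Q = q ^ b := card_sylow_eq_of_factor Q (m := p * g) (by rw [hG']; ring) (by
    rw [hq.out.dvd_mul, Nat.prime_dvd_prime_iff_eq hq.out hp.out]
    exact not_or.2 ⟨hpq, hqg⟩)
  obtain ⟨S, hS1, hS2, i, hi, hS3⟩ := D.principal_dvd hG P hP h3 hpq
    (hG' ▸ ((dvd_pow_self q hb).mul_right _).mul_left _) hθ Q
  rw [hQ] at hS3
  have hi1 : i = 1 := hi.resolve_left fun h => hq1 (by
    simpa [h] using ((Int.natCast_dvd_natCast.2 (dvd_pow_self q hb)).trans hS3).sub (hS S hS1))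
  rw [hi1, one_mul] at hS3
  have hKL : (D.ε = 1 ∧ charDegree θ.1 = e ∧ K = L) ∨
      (D.ε = -1 ∧ charDegree θ.1 + e = p ∧ K + 1 = L) := by
    rcases D.ε_sign with h | h <;> rw [h] at c8
    · have := ar3 (a := charDegree θ.1 - e) (p := p) (k := K) (l := L) (by linear_combination c8)
        (by omega) (by omega)
      rw [this, sub_self] at c8
      exact Or.inl ⟨h, by omega, by omega⟩
    · have := ar3 (a := p - charDegree θ.1 - e) (p := p) (k := K + 1) (l := L)
        (by linear_combination c8) (by omega) (by omega)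
      rw [← this, sub_add_cancel_left] at c8
      exact Or.inr ⟨h, by omega, by omega⟩
  have ht2 : 2 ≤ D.Y.card := by
    by_contra h
    rw [show D.Y.card = 1 by omega] at hte
    omega
  obtain ⟨θ', hθ', hne⟩ := Finset.exists_mem_ne ht2 θ
  have hpos := D.sum_pos_le hθ hθ' hne.symm
  have hneg := D.sum_neg_le hθ hθ' hne.symm (D.deg_Y_eq hθ' hθ)
  have h2e := Nat.mul_le_mul_right e ht2
  refine ⟨by rw [h3, mul_one], ?_⟩
  rw [mul_one] at hv
  rcases hKL with ⟨hε, hde, rfl⟩ | ⟨hε, hde, rfl⟩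
  · rw [c6, hde] at hpos
    have ht : D.Y.card = 2 := by
      by_contra h
      have := Nat.mul_le_mul_right e (show 3 ≤ D.Y.card by omega)
      exact ar4 hpos (by omega) (by omega) h1
    rw [ht] at hte
    have hK : 2 * K + 1 = e := by
      by_contra h
      exact ar5 (hte ▸ hpos) (by omega)
    have hA : ∀ χ ∈ D.X, D.δ χ = 1 → charDegree χ.1 = p + 1 := fun χ hχ h => by
      obtain ⟨k, hk, hk1, hk'⟩ := c9 χ hχ h
      rw [hk', show k = 1 by omega, one_mul]
    have hB : ∀ χ ∈ D.X, ¬ D.δ χ = 1 → charDegree χ.1 + 1 = p := fun χ hχ h => by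
      obtain ⟨k, hk, hk1, hk'⟩ := c10 χ hχ h
      rw [hk', show k = 1 by omega, one_mul]
    obtain ⟨χ, hχ⟩ := Finset.card_pos.1 ((show 0 < a by omega).trans_eq c4.symm)
    obtain ⟨ψ, hψ⟩ := Finset.card_pos.1 ((show 0 < a' by omega).trans_eq c5.symm)
    rw [Finset.mem_filter] at hχ hψ
    have h7 := hX χ hχ.1
    have h8 := hd χ (Or.inl hχ.1)
    rw [hA χ hχ.1 hχ.2] at h7 h8
    have hq2 : q = 2 := (Nat.prime_dvd_prime_iff_eq hq.out Nat.prime_two).1 (by
      rw [← hB ψ hψ.1 hψ.2] at h7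
      exact (Nat.dvd_add_right (hX ψ hψ.1)).1 h7)
    subst hq2
    have hge : g = e := ar1 (hde ▸ hdg) hg0 (by omega)
    subst hge
    obtain ⟨m, -, hm⟩ := (Nat.dvd_prime_pow Nat.prime_two).1 (Nat.Coprime.dvd_of_dvd_mul_right
      (Nat.isCoprime_iff_coprime.1 ⟨K + 1, -(2 * K + 3), by
        zify at hK hte; rw [← hK] at hte ⊢; push_cast; rw [← hte]; ring⟩) h8)
    refine ⟨?_, m, Or.inr hm⟩
    have h9 : ∀ χ ∈ S, ¬ D.δ χ = 1 := fun χ hχ h => hS2 χ hχ m (by rw [hA χ (hS1 hχ) h, hm])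
    rw [Finset.sum_congr rfl (g := fun χ => -(charDegree χ.1 : ℤ)) fun χ hχ => by
      rw [(D.δ_sign χ (hS1 hχ)).resolve_left (h9 χ hχ)]; simp, Finset.sum_neg_distrib, hε, hde,
      ← Nat.cast_sum] at hS3
    have h10 := Finset.sum_le_sum_of_subset (f := fun χ : IrrCharacter G => charDegree χ.1)
      (fun χ hχ => Finset.mem_filter.2 ⟨hS1 hχ, h9 χ hχ⟩ : S ⊆ D.X.filter fun χ => ¬ D.δ χ = 1)
    have h11 := Int.le_of_dvd (by omega) hS3.neg_right
    rw [← Nat.eq_of_mul_eq_mul_right hg0 hv] at h11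
    have h12 : v + 1 ≤ K * p + g := by omega
    clear * - h12 hK hte
    subst hte hK
    nlinarith
  · have hge : g = charDegree θ.1 := ar1 hdg hg0 (by omega)
    obtain ⟨j, -, hj⟩ := (Nat.dvd_prime_pow hq.out).1 (Nat.Coprime.dvd_of_dvd_mul_right
      (k := e) (n := g) (Nat.isCoprime_iff_coprime.1 ⟨1 - D.Y.card, 1, by
        zify at hde hte; rw [hge]; linear_combination hde - hte⟩) ⟨v, by rw [← hv, mul_comm]⟩)
    have hq2 : q = 2 := (Nat.prime_dvd_prime_iff_eq hq.out Nat.prime_two).1 (by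
      have h7 : (q : ℤ) ∣ e := Int.natCast_dvd_natCast.2 ((dvd_pow_self q (by
        rintro rfl; exact h1.ne' hj)).trans (dvd_of_eq hj.symm))
      have h8 := (h7.mul_left (D.Y.card - 1)).add hθq
      rw [hε, show ((D.Y.card : ℤ) - 1) * e + (-1 * charDegree θ.1 - 1) = -2 by
        zify at hde hte; linear_combination hte - hde] at h8
      exact Int.natCast_dvd_natCast.1 (dvd_neg.1 h8))
    subst hq2
    have key : (∃ m, p = 2 ^ m + 1) ∧ (∀ χ ∈ D.X, ¬ D.δ χ = 1 → charDegree χ.1 + 1 = p) ∧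
        (e = 2 ∨ D.Y.card = 2) := by
      by_cases he : e = 2
      · obtain ⟨χ, hχ⟩ := Finset.card_eq_one.1 (show D.X.card = 1 by have := D.card_X; omega)
        have h7 := D.deg_eqn hθ
        rw [hχ, Finset.sum_singleton, hε] at h7
        have h8 : charDegree χ.1 = g + 1 := by
          rcases D.δ_sign χ (by simp [hχ]) with h | h <;> rw [h] at h7 <;> omega
        obtain ⟨m, -, hm⟩ := (Nat.dvd_prime_pow Nat.prime_two).1 (Nat.Coprime.dvd_of_dvd_mul_right
          (by rw [h8]; simp) (hd χ (by simp [hχ])))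
        refine ⟨⟨m, by omega⟩, fun ψ hψ _ => ?_, Or.inl he⟩
        rw [hχ, Finset.mem_singleton] at hψ
        rw [hψ]
        omega
      have h4 : 4 ∣ e := hj ▸ pow_dvd_pow 2 (show 2 ≤ j by
        by_contra h
        have : j ≤ 1 := by omega
        interval_cases j <;> omega)
      have h7 := h4.mul_left D.Y.card
      obtain ⟨χ, hχ, h8⟩ : ∃ χ ∈ D.X, ¬ 4 ∣ charDegree χ.1 := by
        by_contra! h
        have h8 : (4 : ℤ) ∣ ∑ χ ∈ D.X, D.δ χ * charDegree χ.1 :=
          Finset.dvd_sum fun χ hχ => (Int.natCast_dvd_natCast.2 (h χ hχ)).mul_left _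
        have h9 := D.deg_eqn hθ
        rw [hε] at h9
        omega
      obtain ⟨y, hy⟩ := hX χ hχ
      have hl := hd' y ((Dvd.intro_left 2 hy.symm).trans (hd χ (Or.inl hχ))) (by omega)
      have h9 : y ≤ g := Nat.le_of_dvd hg0 hl
      have h10 : 2 * y = p + 1 := by
        by_cases h8 : D.δ χ = 1
        · obtain ⟨k, hk, -, hk'⟩ := c9 χ hχ h8
          rw [ar2 (p := p) hk (by omega)] at hk'
          omega
        · obtain ⟨k, hk, -, hk'⟩ := c10 χ hχ h8
          rw [ar2 (p := p) hk (by omega)] at hk'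
          omega
      have h11 := ar1 hl hg0 (by omega)
      have ht : D.Y.card = 2 := by
        by_contra h
        have := Nat.mul_le_mul_right e (show 3 ≤ D.Y.card by omega)
        omega
      rw [ht] at hte
      refine ⟨⟨j + 1, by rw [pow_succ]; omega⟩, fun ψ hψ h => ?_, Or.inr ht⟩
      obtain ⟨k, hk, hk1, hk'⟩ := c10 ψ hψ h
      have h12 := hX ψ hψ
      have h13 : k ≠ 2 := by rintro rfl; omega
      by_cases h14 : k = 1
      · rw [hk', h14, one_mul]
      have h15 : (K + 1) * p = 2 * (K + 1) * e + (K + 1) := by rw [← hte]; ring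
      rw [show charDegree θ.1 = e + 1 by omega] at hneg
      have h16 := Nat.mul_le_mul_right e (show e + 2 ≤ 2 * (K + 1) by omega)
      have h17 : (e + 1) ^ 2 = (e + 2) * e + 1 := by ring
      omega
    obtain ⟨⟨m, hm⟩, hB, he⟩ := key
    refine ⟨?_, m, Or.inl hm⟩
    have h9 : ∀ χ ∈ S, D.δ χ = 1 := fun χ hχ => by
      by_contra h
      exact hS2 χ hχ m (dvd_of_eq (by have := hB χ (hS1 hχ) h; omega))
    rw [Finset.sum_congr rfl (g := fun χ => (charDegree χ.1 : ℤ)) fun χ hχ => by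
      rw [h9 χ hχ, one_mul], hε, ← Nat.cast_sum] at hS3
    have h10 := Finset.sum_le_sum_of_subset (f := fun χ : IrrCharacter G => charDegree χ.1)
      (fun χ hχ => Finset.mem_filter.2 ⟨hS1 hχ, h9 χ hχ⟩ : S ⊆ D.X.filter fun χ => D.δ χ = 1)
    have h11 := Int.le_of_dvd (by omega) hS3
    have h12 : (K + 1) * p = K * p + p := by ring
    have h13 : 2 ^ b ≤ ∑ χ ∈ D.X with ¬ D.δ χ = 1, charDegree χ.1 := by omega
    rcases he with rfl | ht
    · obtain rfl : K = 0 := by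
        have h14 := Finset.sum_congr (s₁ := D.X.filter fun χ => ¬ D.δ χ = 1) rfl
          (g := fun _ => p - 1) fun χ hχ => Nat.eq_sub_of_add_eq
            (hB χ (Finset.mem_filter.1 hχ).1 (Finset.mem_filter.1 hχ).2)
        rw [h14, Finset.sum_const, c5, smul_eq_mul] at c7
        have h15 := Nat.mul_le_mul_right (p - 1) (show a' ≤ 1 by omega)
        exact Nat.succ_injective (ar2 (k := K + 1) (p := p) (by omega) (by omega))
      have h14 := Nat.mul_le_mul (show 2 ^ b ≤ p by omega) (show g ≤ p by omega)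
      have h15 : (p + 1) * (p + 2) = p * p + 3 * p + 2 := by ring
      omega
    · rw [ht] at hte
      rw [show charDegree θ.1 = e + 1 by omega] at hneg hge
      have h14 := Nat.mul_le_mul_right g (h13.trans hneg)
      rw [← hv, hge] at h14
      rw [← hte]
      refine Nat.lt_of_mul_lt_mul_right (a := e) ?_
      clear * - h14 h1
      nlinarith

/-- Let G be a non-cyclic finite simple group of order p * q^b * g₀, where p and q are distinct primes and g₀ < p - 1. Then either p has the form 2^m + 1 or 2^m - 1 and G is isomorphic to the projective special linear group of dimension 2 over the field with p elements, or p = 2^m + 1 > 3 and G is isomorphic to that group over the field with 2^m elements. -/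
theorem result {G : Type*} [Group G] [Finite G] [IsSimpleGroup G] (hG : ¬ IsCyclic G) (p q b g₀ : ℕ) (hp : p.Prime) (hq : q.Prime) (hpq : p ≠ q) (hG' : Nat.card G = p * q ^ b * g₀) (hg : g₀ < p - 1) : (∃ (m : ℕ) (F : Type) (_ : Field F) (_ : Fintype F), Fintype.card F = p ∧ (p = 2 ^ m + 1 ∨ p = 2 ^ m - 1) ∧ Nonempty (G ≃* Matrix.ProjectiveSpecialLinearGroup (Fin 2) F)) ∨ (∃ (m : ℕ) (F : Type) (_ : Field F) (_ : Fintype F), Fintype.card F = 2 ^ m ∧ p = 2 ^ m + 1 ∧ 3 < p ∧ Nonempty (G ≃* Matrix.ProjectiveSpecialLinearGroup (Fin 2) F)) := by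
  have := Fact.mk hp
  have := Fact.mk hq
  have hG1 := CL.Small.not_comm_of_not_isCyclic hG
  have h0 : g₀ ≠ 0 := by rintro rfl; exact Nat.card_pos.ne' hG'
  obtain ⟨k, g, h1, rfl⟩ := Nat.exists_eq_pow_mul_and_not_dvd h0 q hq.ne_one
  have h2 : g ≤ q ^ k * g := Nat.le_mul_of_pos_left _ (pow_pos hq.pos _)
  obtain ⟨P⟩ : Nonempty (Sylow p G) := inferInstance
  have hP : Nat.card P = p := (CL.Small.card_sylow_eq_of_factor P (a := 1)
    (by rw [hG', pow_one, mul_assoc]) (by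
      rw [hp.dvd_mul, not_or]
      exact ⟨fun h => hpq ((Nat.prime_dvd_prime_iff_eq hp hq).1 (hp.dvd_of_dvd_pow h)),
        Nat.not_dvd_of_pos_of_lt (Nat.pos_of_ne_zero h0) (by omega)⟩)).trans (pow_one p)
  obtain ⟨h3, h4, m, h5⟩ := key hG1 hpq.symm (b := b + k) (g := g) (by rw [hG']; ring) (by omega)
    h1 P hP
  refine (CL.D1.brauer_simple hG1 P hP h4 ?_).imp_left fun ⟨F, _, _, h6, _, h7⟩ =>
    ⟨m, F, inferInstance, inferInstance, h6, h5.imp_right (by omega), h7⟩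
  have := Nat.mul_le_mul_left (p - 1) (CL.Small.one_lt_card_sylow (p := p) hG1
    (hP ▸ Subgroup.card_subgroup_dvd_card (P : Subgroup G)))
  omega

end Cfsg.Agent.S0997
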