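import Cfsg.Statements.S0998
import Cfsg.Agent.S0997
import Cfsg.Agent.INV.Small5400
import Cfsg.Agent.INV.SmallPSL2
import Cfsg.Agent.CLAS.SLBasic

set_option autoImplicit false
open Cfsg

namespace Cfsg.Agent.S0998

theorem two_of_four {q r b : ℕ} (hq : q.Prime) (hr : r.Prime) (h : 4 ∣ r * q ^ b) : q = 2 := by
  by_contra h2
  have h3 := (Nat.Coprime.pow 2 b ((Nat.coprime_primes Nat.prime_two hq).2 (Ne.symm h2))
    ).dvd_of_dvd_mul_right h
  rcases (Nat.dvd_prime hr).1 h3 with h | h
  · omega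
  · rw [← h] at hr; norm_num at hr

theorem odd_dvd {a r b : ℕ} (hr : r.Prime) (h : a ∣ r * 2 ^ b) (ha : ¬ 2 ∣ a) : a = 1 ∨ a = r :=
  (Nat.dvd_prime hr).1 (((Nat.prime_two.coprime_iff_not_dvd.2 ha).symm.pow_right b
    ).dvd_of_dvd_mul_right h)

theorem key {G : Type*} [Group G] [Finite G] [IsSimpleGroup G] (hG : ¬ IsCyclic G) {p q r b : ℕ}
    (hp : p.Prime) (hq : q.Prime) (hr : r.Prime) (hpq : p ≠ q) (hpr : r < p) (hqr : q ≠ r)
    (hG' : Nat.card G = p * r * q ^ b) : Nat.card G = 60 ∨ Nat.card G = 168 := by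
  have hr2 := hr.two_le
  have hp2 := hp.eq_two_or_odd.resolve_left (by omega)
  by_cases h1 : r < p - 1
  · rcases Cfsg.Agent.S0997.result hG p q b r hp hq hpq (by rw [hG']; ring) h1 with
      ⟨m, F, _, _, h2, -, ⟨e⟩⟩ | ⟨m, F, _, _, h2, h3, h4, ⟨e⟩⟩
    · have h3 := CL.SL.gcd_mul_card_PSL_two (F := F)
      obtain ⟨a, rfl⟩ : ∃ a, p = 2 * a + 1 := ⟨p / 2, by omega⟩
      rw [← Nat.card_congr e.toEquiv, Nat.card_eq_fintype_card (α := F), h2, Nat.add_sub_cancel,
        Nat.gcd_mul_right_right, show (2 * a + 1) ^ 2 - 1 = 2 * (2 * (a * (a + 1))) from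
          Nat.sub_eq_of_eq_add (by ring), mul_left_comm, Nat.mul_right_inj two_ne_zero] at h3
      have h4 : r * q ^ b = 2 * (a * (a + 1)) :=
        Nat.eq_of_mul_eq_mul_left hp.pos (by rw [← h3, hG', mul_assoc])
      obtain rfl := two_of_four hq hr (h4 ▸ Nat.mul_dvd_mul_left 2
        (even_iff_two_dvd.1 (Nat.even_mul_succ_self a)))
      have h5 : r = 3 := by
        have h5 : a % 3 ≠ 1 := fun h => by
          have := (Nat.prime_dvd_prime_iff_eq Nat.prime_three hp).1 (by omega)
          omega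
        have h6 : 3 ∣ r * 2 ^ b := h4 ▸ Dvd.dvd.mul_left (Nat.prime_three.dvd_mul.2 (by omega)) _
        exact ((odd_dvd hr h6 (by norm_num)).resolve_left (by norm_num)).symm
      by_cases h6 : 2 ∣ a
      · have := odd_dvd (a := a + 1) (b := b) hr ⟨2 * a, by rw [h4]; ring⟩ (by omega)
        rw [h3, show a = 2 by omega]
        norm_num
      · have := odd_dvd (a := a) (b := b) hr ⟨2 * (a + 1), by rw [h4]; ring⟩ h6
        rw [h3, show a = 3 by omega]
        norm_num
    · have h5 := CL.SL.gcd_mul_card_PSL_two (F := F)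
      obtain ⟨k, rfl⟩ : ∃ k, m = k + 2 := ⟨m - 2, by
        have : 1 < m := (Nat.pow_lt_pow_iff_right one_lt_two).1 (by omega)
        omega⟩
      obtain ⟨a, ha⟩ : ∃ a, 2 ^ k = a + 1 := ⟨2 ^ k - 1, by have := Nat.two_pow_pos k; omega⟩
      rw [pow_add, ha] at h2 h3
      rw [← Nat.card_congr e.toEquiv, Nat.card_eq_fintype_card (α := F), h2,
        (Nat.prime_two.coprime_iff_not_dvd.2 (by omega)).gcd_eq_one, one_mul,
        show ((a + 1) * 2 ^ 2) ^ 2 - 1 = p * (4 * a + 3) from
          Nat.sub_eq_of_eq_add (by rw [h3]; ring), mul_left_comm] at h5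
      have h6 : r * q ^ b = (a + 1) * 2 ^ 2 * (4 * a + 3) :=
        Nat.eq_of_mul_eq_mul_left hp.pos (by rw [← h5, hG', mul_assoc])
      obtain rfl := two_of_four (b := b) hq hr ⟨(a + 1) * (4 * a + 3), by rw [h6]; ring⟩
      have h7 := odd_dvd (a := 4 * a + 3) (b := b) hr (Dvd.intro_left _ h6.symm) (by omega)
      have h8 : a = 0 := by
        have h8 : ¬ 3 ∣ a + 1 := fun h => by
          have := Nat.prime_three.dvd_of_dvd_pow (ha ▸ h)
          omega
        by_cases h9 : 3 ∣ p
        · have := (Nat.prime_dvd_prime_iff_eq Nat.prime_three hp).1 h9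
          omega
        · have h10 : a % 3 = 0 ∨ a % 3 = 1 ∨ a % 3 = 2 := by omega
          have := (Nat.prime_dvd_prime_iff_eq Nat.prime_three hr).1 (by
            rcases h10 with h | h | h <;> omega)
          omega
      rw [h5, h3, h8]
      norm_num
  · obtain rfl : r = 2 := hr.eq_two_or_odd.resolve_right (by omega)
    obtain rfl : p = 3 := by omega
    obtain ⟨K, hK⟩ := CL.Small.exists_index_two_of_mod_four (G := G) (by
      have := (hq.odd_of_ne_two hqr).pow (n := b)
      rw [Nat.odd_iff] at this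
      omega)
    have h2 := CL.Small.two_mul_card_dvd_factorial (CL.Small.not_comm_of_not_isCyclic hG) K
      (by rintro rfl; simp at hK)
    rw [hK, hG'] at h2
    have := Nat.le_of_dvd (by norm_num) h2
    have := pow_pos hq.pos b
    simp [Nat.factorial] at *
    omega

/-- A non-cyclic finite simple group whose order has the form p * r * q^b for distinct primes p, q, r is isomorphic to the projective special linear group of dimension 2 over the field with 5 or with 7 elements. -/
theorem result {G : Type*} [Group G] [Finite G] [IsSimpleGroup G] (hG : ¬ IsCyclic G) (p q r b : ℕ) (hp : p.Prime) (hq : q.Prime) (hr : r.Prime) (hpq : p ≠ q) (hpr : p ≠ r) (hqr : q ≠ r) (hG' : Nat.card G = p * r * q ^ b) : (∃ (F : Type) (_ : Field F) (_ : Fintype F), Fintype.card F = 5 ∧ Nonempty (G ≃* Matrix.ProjectiveSpecialLinearGroup (Fin 2) F)) ∨ (∃ (F : Type) (_ : Field F) (_ : Fintype F), Fintype.card F = 7 ∧ Nonempty (G ≃* Matrix.ProjectiveSpecialLinearGroup (Fin 2) F)) := by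
  have := Fact.mk (show Nat.Prime 5 by norm_num)
  have := Fact.mk (show Nat.Prime 7 by norm_num)
  have h : Nat.card G = 60 ∨ Nat.card G = 168 := by
    rcases lt_or_gt_of_ne hpr with h | h
    · exact key hG hr hq hp hqr.symm h hpq.symm (by rw [hG', mul_comm p])
    · exact key hG hp hq hr hpq h hqr hG'
  exact h.imp (fun h => ⟨ZMod 5, inferInstance, inferInstance, ZMod.card 5,
    CL.Small.psl_of_card_prime (p := 5) (m := 12) h (by norm_num) (by decide) (ZMod.card 5)⟩)
    fun h => ⟨ZMod 7, inferInstance, inferInstance, ZMod.card 7,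
      CL.Small.psl_of_card_prime (p := 7) (m := 24) h (by norm_num) (by decide) (ZMod.card 7)⟩

end Cfsg.Agent.S0998
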