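import Cfsg.Statements.S1001
import Mathlib
import Cfsg.Agent.INV.Def1
import Cfsg.Agent.BLK.Princ2
import Cfsg.Agent.CHAR.Burnside
import Cfsg.Agent.CHAR.BrauerChar

set_option autoImplicit false
open Cfsg

namespace Cfsg.Agent.S1001

/-- In a finite simple group whose order has the form p * 3^a * 2^b with p prime, the centralizer of any element of order p is the cyclic group it generates. -/
theorem result {G : Type*} [Group G] [Finite G] [IsSimpleGroup G] (p a b : ℕ) (hp : p.Prime) (hG : Nat.card G = p * 3 ^ a * 2 ^ b) (x : G) (hx : orderOf x = p) : Subgroup.centralizer ({x} : Set G) = Subgroup.zpowers x := by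
  have hx1 : x ≠ 1 := fun e => hp.one_lt.ne (by rw [← hx, e, orderOf_one])
  by_cases hA : IsMulCommutative G
  · have : (Subgroup.zpowers x).Normal := inferInstance
    rw [(this.eq_bot_or_eq_top).resolve_left (by simpa using hx1), eq_top_iff]
    exact fun g _ => Subgroup.mem_centralizer_singleton_iff.2 (mul_comm' g x)
  have hns : ¬ Group.IsSolvable G := fun h => hA ⟨⟨IsSimpleGroup.comm_iff_isSolvable.2 h⟩⟩
  have h23 : p ≠ 2 ∧ p ≠ 3 := by
    constructor <;> rintro rfl <;> apply hns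
    · exact CL.Char.isSolvable_of_card_dvd_pow_mul_pow (a := a) (b := b + 1) Nat.prime_three
        Nat.prime_two (by rw [hG]; exact Dvd.intro_left 1 (by ring))
    · exact CL.Char.isSolvable_of_card_dvd_pow_mul_pow (a := a + 1) (b := b) Nat.prime_three
        Nat.prime_two (by rw [hG]; exact Dvd.intro_left 1 (by ring))
  have hle : Subgroup.zpowers x ≤ Subgroup.centralizer ({x} : Set G) :=
    Subgroup.zpowers_le.2 (Subgroup.mem_centralizer_singleton_iff.2 rfl)
  by_contra hne
  have h1 := ((Subgroup.zpowers x).subgroupOf (Subgroup.centralizer ({x} : Set G))).card_mul_index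
  rw [Nat.card_congr (Subgroup.subgroupOfEquivOfLe hle).toEquiv, Nat.card_zpowers, hx] at h1
  obtain ⟨q, hq, hqd⟩ := Nat.exists_prime_and_dvd (n := ((Subgroup.zpowers x).subgroupOf
    (Subgroup.centralizer ({x} : Set G))).index)
    fun e => hne (le_antisymm (Subgroup.relIndex_eq_one.1 e) hle)
  have h2 : q ∣ 3 ^ a * 2 ^ b := Nat.dvd_of_mul_dvd_mul_left hp.pos (by
    rw [← mul_assoc, ← hG]
    exact (h1 ▸ Nat.mul_dvd_mul_left p hqd).trans (Subgroup.card_subgroup_dvd_card _))
  have := Fact.mk hq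
  obtain ⟨y, hy⟩ := exists_prime_orderOf_dvd_card' (G := Subgroup.centralizer ({x} : Set G)) q
    (h1 ▸ hqd.mul_left p)
  rw [← Subgroup.orderOf_coe] at hy
  obtain ⟨r, k, l, hr, hrp, hqp, hc⟩ : ∃ r k l : ℕ, r.Prime ∧ r ≠ p ∧ q ≠ p ∧
      Nat.card G = p * r ^ l * q ^ k := by
    rcases (hq.dvd_mul).1 h2 with h | h
    · obtain rfl := (Nat.prime_dvd_prime_iff_eq hq Nat.prime_three).1 (hq.dvd_of_dvd_pow h)
      exact ⟨2, a, b, Nat.prime_two, h23.1.symm, h23.2.symm, by rw [hG]; ring⟩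
    · obtain rfl := (Nat.prime_dvd_prime_iff_eq hq Nat.prime_two).1 (hq.dvd_of_dvd_pow h)
      exact ⟨3, b, a, Nat.prime_three, h23.2.symm, h23.1.symm, hG⟩
  have ho : orderOf ((y : G) * x) = q * p := by
    rw [← hy, ← hx]
    exact Commute.orderOf_mul_eq_mul_orderOf_of_coprime
      (Subgroup.mem_centralizer_singleton_iff.1 y.2)
      (by rw [hy, hx]; exact (Nat.coprime_primes hq hp).2 hqp)
  obtain ⟨M, hM⟩ := CL.BS.exists_isPModular q hq
  obtain ⟨χ, hχ, c1, c2, c3⟩ := CL.Blk.exists_principal_not_dvd hM hr (y := (y : G) * x)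
    (ho ▸ Dvd.intro _ rfl)
  have hpr : p.Coprime r := (Nat.coprime_primes hp hr).2 hrp.symm
  have hpq : p.Coprime q := (Nat.coprime_primes hp hq).2 hqp.symm
  have c4 : ¬ p ∣ charDegree χ.1 := fun h => c3 (χ.2.eq_zero_of_defect_zero (k := 1) hp (by
    rw [hc, mul_assoc, pow_succ, pow_one, Nat.mul_dvd_mul_iff_left hp.pos]
    exact (Nat.Prime.coprime_iff_not_dvd hp).1 ((hpr.pow_right _).mul_right (hpq.pow_right _)))
    (by simpa using h) (ho ▸ Dvd.intro_left _ rfl))
  refine CL.D1.notMem_principal_of_pow hA hM ((hy ▸ orderOf_dvd_natCard (y : G) :))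
    (fun e => c1 (by rw [e]; rfl)) (k := k) ?_ hχ
  exact Nat.Coprime.dvd_of_dvd_mul_left
    (((Nat.Prime.coprime_iff_not_dvd hp).2 c4).symm.mul_right
      (((Nat.Prime.coprime_iff_not_dvd hr).2 c2).symm.pow_right l)) (hc ▸ χ.2.charDegree_dvd_card)

end Cfsg.Agent.S1001
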