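import Cfsg.Statements.S1007
import Cfsg.Agent.INV.O168

set_option autoImplicit false
open Cfsg

namespace Cfsg.Agent.S1007

/-- Let G be a simple group of order 168 and T a Sylow 2-subgroup. Then T contains exactly two subgroups that are Klein four-groups; they are not conjugate in G; and the normalizer of every Klein four-subgroup of G is isomorphic to the symmetric group of degree 4. -/
theorem result {G : Type*} [Group G] [Finite G] [IsSimpleGroup G] (h : Nat.card G = 168) (T : Sylow 2 G) : Nat.card {U : Subgroup G // U ≤ (T : Subgroup G) ∧ IsKleinFour ↥U} = 2 ∧ (∀ U W : Subgroup G, U ≤ (T : Subgroup G) → W ≤ (T : Subgroup G) → IsKleinFour ↥U → IsKleinFour ↥W → U ≠ W → ∀ g : G, U.map (MulAut.conj g).toMonoidHom ≠ W) ∧ ∀ U : Subgroup G, IsKleinFour ↥U → Nonempty (↥(Subgroup.normalizer (U : Set G)) ≃* Equiv.Perm (Fin 4)) := by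
  obtain ⟨k, s, D⟩ := CL.O168.exists_D8 h T
  refine ⟨?_, fun U W hU hW hKU hKW hne g hg =>
    hne (CL.O168.eq_of_conj_four D hU hW hKU.card_four hKW.card_four hg),
    fun U hK => CL.O168.perm_four_of_card h (CL.O168.card_norm_four h hK)⟩
  rw [Nat.card_eq_two_iff]
  refine ⟨⟨_, inf_le_left, D.four_klein D.sT D.sk⟩,
    ⟨_, inf_le_left, D.four_klein (mul_mem D.kT D.sT) D.ks_not⟩,
    fun h => D.four_ne (congrArg Subtype.val h), ?_⟩
  ext U
  simp only [Set.mem_insert_iff, Set.mem_singleton_iff, Set.mem_univ, iff_true, Subtype.ext_iff]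
  exact D.four_cases U.2.1 U.2.2

end Cfsg.Agent.S1007
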