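import Cfsg.Statements.S1010
import Cfsg.Agent.FGS.PseudoSylow
import Cfsg.Agent.S0074

set_option autoImplicit false
open Cfsg

namespace Cfsg.Agent.S1010

open CL CL.PSyl CL.SR Subgroup MulAction

theorem simple_case {S : Type*} [Group S] [Finite S] [IsSimpleGroup S] [Fact (Nat.Prime 5)]
    (hc : ¬ IsMulCommutative S) (hd : 5 ∣ Nat.card S) (hn : Nat.card (Sylow 5 S) = 21) :
    False := by
  have hP : ∀ P : Sylow 5 S, Nat.card P = 5 := fun P =>
    Cfsg.Agent.S4343.result hc 5 hd (by rw [hn]; norm_num) P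
  let T : Sylow 2 S := default
  obtain ⟨P, hTP⟩ := exists_le_normalizer (p := 5) T.isPGroup' (by rw [hn]; omega)
  obtain ⟨e, k, he1, he2, hC, -, -, hS⟩ := Small.prime_sylow_data hc P (hP P)
  have he : 2 ∣ e := by
    have h6 : e ≤ 4 := Nat.le_of_dvd (by norm_num) he2
    interval_cases e <;> simp_all
  have hncyc : ¬ IsCyclic (T : Subgroup S) := fun h => by
    have hodd := odd_card_of_isCyclic_sylow_two hc T h
    rw [hS] at hodd
    exact Nat.not_even_iff_odd.2 hodd
      (even_iff_two_dvd.2 (Dvd.dvd.mul_left (Dvd.dvd.mul_left he _) _))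
  set C := centralizer ((P : Subgroup S) : Set S) with hCdef
  set T₀ : Subgroup S := (T : Subgroup S) ⊓ C with hT₀
  have hT₀p : IsPGroup 2 T₀ := T.isPGroup'.to_le inf_le_left
  have hfixP : ∀ g ∈ (T : Subgroup S), g • P = P := fun g hg => sylow_smul_eq_iff.2 (hTP hg)
  have key : ∀ g ∈ T₀, ∀ Q : Sylow 5 S, Q ≠ P → g • Q = Q → g = 1 := by
    intro g hg Q hQ hgQ
    by_contra hg1
    obtain ⟨t, ht, ht2⟩ := exists_involution (T := T₀ ⊓ stabilizer S Q)
      (hT₀p.to_le inf_le_left) (fun h => hg1 (mem_bot.1 (h ▸ mem_inf.2 ⟨hg, hgQ⟩)))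
    obtain ⟨f, m, hf, h1, h2, h3, -, h4⟩ := fixed_moved_data hc hd P Nat.prime_two ht2 ht.1.2
    have h5 := h4 rfl
    have h6 : f = 1 := by omega
    rw [h6] at hf
    obtain ⟨R, hR⟩ := Set.ncard_eq_one.1 hf.symm
    have hPR : P ∈ ({R} : Set _) := hR ▸ hfixP t ht.1.1
    have hQR : Q ∈ ({R} : Set _) := hR ▸ ht.2
    exact hQ (hQR.trans hPR.symm)
  have hΩ : {Q : Sylow 5 S | Q ≠ P}.ncard = 20 := by
    have h1 : {Q : Sylow 5 S | Q ≠ P} = Set.univ \ {P} := by ext; simp
    rw [h1, Set.ncard_sdiff_singleton_of_mem (Set.mem_univ _), Set.ncard_univ, hn]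
  have hΩinv : ∀ g ∈ (T : Subgroup S), ∀ Q ∈ {Q : Sylow 5 S | Q ≠ P},
      g • Q ∈ {Q : Sylow 5 S | Q ≠ P} := by
    intro g hg Q hQ h
    exact hQ (smul_left_cancel g (h.trans (hfixP g hg).symm))
  have hdvd : Nat.card T₀ ∣ 20 := hΩ ▸ card_dvd_ncard_of_free T₀ _
    (fun g hg => hΩinv g hg.1) (fun g hg Q hQ h => key g hg Q hQ h)
  obtain ⟨a, ha⟩ := IsPGroup.iff_card.1 hT₀p
  have ha2 : a ≤ 2 := by
    by_contra hcon
    have : 2 ^ 3 ∣ 20 := (pow_dvd_pow 2 (by omega)).trans (ha ▸ hdvd)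
    omega
  interval_cases a
  · refine hncyc (isCyclic_of_inf_centralizer (hP P) hTP fun x hx hxC => ?_)
    have : T₀ = ⊥ := card_eq_one.1 ha
    exact mem_bot.1 (this ▸ mem_inf.2 ⟨hx, hxC⟩)
  · -- `T` is abelian
    have hcen : ∀ c ∈ T₀, ∀ x ∈ (T : Subgroup S), x * c = c * x := by
      intro c hc' x hx
      by_cases h1 : c = 1
      · simp [h1]
      have h2 : x * c * x⁻¹ ∈ T₀ := ⟨T.1.mul_mem (T.1.mul_mem hx hc'.1) (T.1.inv_mem hx), by
        have hn := (normal_subgroupOf_centralizer_normalizer ((P : Subgroup S) : Set S)).conj_mem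
          ⟨c, centralizer_le_normalizer _ hc'.2⟩ hc'.2 ⟨x, hTP hx⟩
        exact hn⟩
      obtain ⟨y, -, hy⟩ := (Nat.card_eq_two_iff' (1 : T₀)).1 ha
      have h3 := hy ⟨c, hc'⟩ (fun h => h1 (congrArg Subtype.val h))
      have h4 := hy ⟨_, h2⟩ (fun h => h1 (by simpa using congrArg Subtype.val h))
      have h5 : x * c * x⁻¹ = c := congrArg Subtype.val (h4.trans h3.symm)
      exact mul_inv_eq_iff_eq_mul.1 h5
    obtain ⟨t, ht, hgen⟩ := exists_generator_mod_centralizer (hP P) hTP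
    have hab : IsMulCommutative T := ⟨⟨fun x y => Subtype.ext (by
      obtain ⟨i, hi⟩ := hgen x x.2
      obtain ⟨j, hj⟩ := hgen y y.2
      have hi' : (x : S) * (t ^ i)⁻¹ ∈ T₀ :=
        ⟨T.1.mul_mem x.2 (T.1.inv_mem (T.1.pow_mem ht i)), hi⟩
      have hj' : (y : S) * (t ^ j)⁻¹ ∈ T₀ :=
        ⟨T.1.mul_mem y.2 (T.1.inv_mem (T.1.pow_mem ht j)), hj⟩
      have h1 : Commute (y : S) (x * (t ^ i)⁻¹) := hcen _ hi' _ y.2
      have h2 : Commute (t ^ i) (y * (t ^ j)⁻¹) := hcen _ hj' _ (T.1.pow_mem ht i)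
      have h3 : Commute (t ^ i) (t ^ j) := Commute.pow_pow_self t i j
      have h4 : Commute (t ^ i) (y : S) := by simpa using h2.mul_right h3
      have h5 : Commute (y : S) x := by simpa using h1.mul_right h4.symm
      exact h5.symm.eq)⟩⟩
    have h74 := Cfsg.Agent.S0074.result T hab
    rw [Small.commutator_eq_top hc, top_inf_eq] at h74
    obtain ⟨z, hz, hz1⟩ : ∃ z ∈ T₀, z ≠ 1 := by
      obtain ⟨y, hy, -⟩ := (Nat.card_eq_two_iff' (1 : T₀)).1 ha
      exact ⟨y, y.2, fun h => hy (Subtype.ext h)⟩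
    have hNT : normalizer (T : Set S) ≤ normalizer ((P : Subgroup S) : Set S) := by
      intro g hg
      rw [← sylow_smul_eq_iff]
      by_contra hne
      refine hz1 (key z hz _ hne ?_)
      have h1 : g⁻¹ * z * g ∈ (T : Subgroup S) := by
        have := (mem_normalizer_iff''.1 hg z).1 hz.1
        exact this
      have h2 := hfixP _ h1
      rw [mul_smul, mul_smul, inv_smul_eq_iff] at h2
      exact h2
    have hTC : (T : Subgroup S) ≤ C := by
      rw [h74]
      exact inf_le_left.trans ((commutator_mono hNT hNT).trans (commutator_normalizer_le (hP P)))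
    have hTT : T₀ = T := inf_eq_left.2 hTC
    rw [hTT] at ha
    exact hncyc (isCyclic_of_prime_card (p := 2) ha)
  · obtain ⟨β, hβ, hβ8⟩ : ∃ β ∈ {Q : Sylow 5 S | Q ≠ P},
        ¬ 8 ∣ (stabilizer S β).relIndex (T : Subgroup S) := by
      by_contra hcon
      push Not at hcon
      have := dvd_ncard_of_orbits (T : Subgroup S) 8 _ hΩinv hcon
      omega
    set Tβ : Subgroup S := (T : Subgroup S) ⊓ stabilizer S β with hTβ
    have hcyc : IsCyclic Tβ := isCyclic_of_inf_centralizer (hP P) (inf_le_left.trans hTP)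
      fun x hx hxC => key x ⟨hx.1, hxC⟩ β hβ hx.2
    obtain ⟨⟨h, hh⟩, hgen⟩ := IsCyclic.exists_ofOrder_eq_natCard (α := Tβ)
    have hord : orderOf h = Nat.card Tβ := by rw [← hgen, orderOf_mk]
    have h1 := Small.card_inf_mul_relIndex (stabilizer S β) (T : Subgroup S)
    rw [← hTβ] at h1
    obtain ⟨b, hb⟩ := IsPGroup.iff_card.1 T.isPGroup'
    obtain ⟨c, -, hc'⟩ := (Nat.dvd_prime_pow Nat.prime_two).1
      (hb ▸ relIndex_dvd_card (stabilizer S β) (T : Subgroup S))
    have hc2 : c ≤ 2 := by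
      by_contra hcon
      exact hβ8 (hc' ▸ pow_dvd_pow 2 (show 3 ≤ c by omega))
    have hidx := T.not_dvd_index
    have h2 := (T : Subgroup S).card_mul_index
    have h3 := T₀.card_mul_index
    rw [← h1, hc', ← hord] at h2
    rw [ha] at h3
    have h4 : 4 ∣ k := by
      have : 2 ^ 2 ∣ 5 * k := hC ▸ ha ▸ card_dvd_of_le inf_le_right
      omega
    have h8 : 8 ∣ Nat.card S := by
      rw [hS]
      obtain ⟨k', rfl⟩ := h4
      obtain ⟨e', rfl⟩ := he
      exact ⟨Nat.card (Sylow 5 S) * (5 * k' * e'), by ring⟩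
    have hodd : ∀ u v : ℕ, ¬ 2 ∣ u → ¬ 2 ∣ v → ¬ 8 ∣ u * 2 ^ c * v := by
      intro u v hu hv h
      have h5 : ¬ 2 ∣ u * v := fun h => (Nat.prime_two.dvd_mul.1 h).elim hu hv
      rw [mul_right_comm] at h
      interval_cases c <;> omega
    have hev : Even (orderOf h) := by
      by_contra hcon
      exact hodd _ _ (fun h => hcon (even_iff_two_dvd.2 h)) hidx (h2 ▸ h8)
    obtain ⟨u, hu⟩ := two_mul_orderOf_dvd_index hc T₀ hev (fun j a hja => by
      have h5 : (a⁻¹ * h ^ j * a) • a⁻¹ • P = a⁻¹ • P := by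
        rw [← mul_smul, mul_assoc, mul_inv_cancel, mul_one, mul_smul,
          hfixP _ (T.1.pow_mem hh.1 j)]
      have h6 : (a⁻¹ * h ^ j * a) • a⁻¹ • β = a⁻¹ • β := by
        rw [← mul_smul, mul_assoc, mul_inv_cancel, mul_one, mul_smul,
          mem_stabilizer_iff.1 ((stabilizer S β).pow_mem hh.2 j)]
      by_contra hne
      have hne' : a⁻¹ * h ^ j * a ≠ 1 := fun h7 => hne (by
        have : h ^ j = a * (a⁻¹ * h ^ j * a) * a⁻¹ := by group
        rw [this, h7]; group)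
      have h7 : a⁻¹ • P = P := by
        by_contra h8; exact hne' (key _ hja _ h8 h5)
      have h8 : a⁻¹ • β = P := by
        by_contra h8; exact hne' (key _ hja _ h8 h6)
      exact hβ (smul_left_cancel a⁻¹ (h8.trans h7.symm)))
    rw [hu, ← h2] at h3
    have h9 : orderOf h * (8 * u) = orderOf h * (1 * 2 ^ c * (T : Subgroup S).index) := by
      linarith
    have h10 := Nat.eq_of_mul_eq_mul_left (orderOf_pos h) h9
    exact hodd 1 _ (by norm_num) hidx ⟨u, h10.symm⟩

/-- No finite group has exactly twenty-one Sylow 5-subgroups. -/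
theorem result {G : Type*} [Group G] [Finite G] : Nat.card (Sylow 5 G) ≠ 21 := by
  intro h
  have : Fact (Nat.Prime 5) := ⟨by norm_num⟩
  obtain ⟨S, _, _, hS, hc, hd, hn⟩ := exists_simple h (by norm_num) (by decide +kernel) (by
    intro a b hab ha hb
    have h1 : a ≤ 21 := Nat.le_of_dvd (by norm_num) ⟨b, hab.symm⟩
    interval_cases a <;> omega)
  exact simple_case hc hd hn

end Cfsg.Agent.S1010
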