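import Cfsg.Statements.S1075
import Mathlib
import Cfsg.Agent.CHEV.ReeConcrete
import Cfsg.Agent.CHEV.ReeBasic
import Cfsg.Agent.S1011
import Cfsg.Agent.SOLV.Core

set_option autoImplicit false
open Cfsg

namespace Cfsg.Agent.S1075

open CL.Ree
open scoped commutatorElement

section
variable {σ : ZMod 3 →+* ZMod 3} {G : Type*} [Group G] (M : Model σ G)

theorem sigma_id (σ : ZMod 3 →+* ZMod 3) (x : ZMod 3) : σ x = x := by
  rw [Subsingleton.elim σ (RingHom.id _)]; rfl

include M in
theorem card_G : Nat.card G = 1512 := by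
  rw [M.card_G, Nat.card_zmod]; norm_num

include M in
theorem index_dvd {K : Subgroup G} [hK : K.Normal] (h : K ≠ ⊥) : K.index ∣ 3 := by
  have := M.finite_G
  have hnot : ¬ K ≤ M.B := by
    intro hle
    refine h (eq_bot_iff.mpr fun k hk => M.eq_one_of_forall_smul_eq fun a => ?_)
    obtain ⟨g, hg⟩ := M.exists_smul_eq_inf a
    have h1 := M.smul_inf_eq_inf.mpr (hle (hK.conj_mem k hk g))
    rw [← hg, mul_smul, mul_smul, inv_smul_smul] at h1
    exact smul_left_cancel g h1
  have htop : M.B ⊔ K = ⊤ := M.eq_top_of_B_le le_sup_left fun hle => hnot (le_sup_right.trans hle)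
  have hidx : K.index = K.relIndex M.B := by
    rw [← Subgroup.relIndex_sup_right, htop, Subgroup.relIndex_top_right]
  have hB : Nat.card M.B = 54 := by rw [M.card_B, Nat.card_zmod]; norm_num
  have hmul : Nat.card (K.subgroupOf M.B) * K.index = 54 := by
    rw [hidx, ← hB]; exact Subgroup.card_mul_index _
  have hKc : Nat.card K * K.index = 1512 := by rw [Subgroup.card_mul_index, card_G M]
  have h2 : 2 ∣ Nat.card K := by
    have h54 : K.index ∣ 54 := Dvd.intro_left _ hmul
    by_contra h2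
    have h8 : 8 ∣ K.index := by
      have : (8 : ℕ).Coprime (Nat.card K) :=
        Nat.Coprime.pow_left 3 ((Nat.Prime.coprime_iff_not_dvd Nat.prime_two).mpr h2)
      exact this.dvd_of_dvd_mul_left (by rw [hKc]; norm_num)
    exact absurd (h8.trans h54) (by norm_num)
  obtain ⟨t, ht⟩ := exists_prime_orderOf_dvd_card' (hp := ⟨Nat.prime_two⟩) 2 h2
  have hε : M.ε ∈ K := by
    have ht' : orderOf (t : G) = 2 := by rw [Subgroup.orderOf_coe, ht]
    have h1 : (t : G) ≠ 1 := fun h => by simp [h] at ht'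
    have h2 : (t : G) * t = 1 := by rw [← sq, ← ht', pow_orderOf_eq_one]
    obtain ⟨c, hc⟩ := isConj_iff.mp (M.isConj_ε h1 h2).symm
    exact hc ▸ hK.conj_mem _ t.2 c
  have hg : M.u 1 0 0 * M.ε * (M.u 1 0 0)⁻¹ * M.ε ∈ K := K.mul_mem (hK.conj_mem _ hε _) hε
  have hgU : M.u 1 0 0 * M.ε * (M.u 1 0 0)⁻¹ * M.ε ∈ M.U ∧
      M.u 1 0 0 * M.ε * (M.u 1 0 0)⁻¹ * M.ε ∉ M.Y := by
    rw [mul_assoc, mul_assoc, ← mul_assoc M.ε, M.u_inv, M.ε_conj_u, M.u_mul, M.u_mem_Y_iff]
    exact ⟨M.u_mem_U _ _ _, by decide⟩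
  have h9 : 9 ∣ Nat.card (K.subgroupOf M.B) := by
    rw [← M.orderOf_of_not_mem_Y hgU.1 hgU.2]
    have := orderOf_dvd_natCard (⟨⟨_, M.U_le_B hgU.1⟩, hg⟩ : K.subgroupOf M.B)
    rwa [← Subgroup.orderOf_coe, ← Subgroup.orderOf_coe] at this
  have h2' : 2 ∣ Nat.card (K.subgroupOf M.B) := by
    rw [← M.orderOf_ε]
    have := orderOf_dvd_natCard (⟨⟨_, M.ε_mem_B⟩, hε⟩ : K.subgroupOf M.B)
    rwa [← Subgroup.orderOf_coe, ← Subgroup.orderOf_coe] at this
  obtain ⟨c, hc⟩ : 18 ∣ Nat.card (K.subgroupOf M.B) :=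
    Nat.Coprime.mul_dvd_of_dvd_of_dvd (by norm_num : Nat.Coprime 2 9) h2' h9
  rw [hc] at hmul
  exact Dvd.intro_left c (by linarith)

/-- The kernel of `u a y z ↦ y - a²`. -/
def S : Subgroup G where
  carrier := {g | ∃ a z, g = M.u a (a ^ 2) z}
  one_mem' := ⟨0, 0, by simp [M.u_zero]⟩
  mul_mem' := by
    rintro _ _ ⟨a, z, rfl⟩ ⟨b, w, rfl⟩
    rw [M.u_mul, sigma_id]
    have e : ∀ a b : ZMod 3, a ^ 2 + b ^ 2 - a * b = (a + b) ^ 2 := by decide
    exact ⟨a + b, _, by rw [e]⟩
  inv_mem' := by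
    rintro _ ⟨a, z, rfl⟩
    rw [Set.mem_ofPred_eq, M.u_inv, sigma_id]
    have e : ∀ a : ZMod 3, -a ^ 2 - a * a = (-a) ^ 2 := by decide
    exact ⟨-a, _, by rw [e]⟩

include M in
theorem commutator_ne_top : commutator G ≠ ⊤ := by
  have := M.finite_G
  intro htop
  have h1 : M.u 0 1 0 ∈ commutator G ⊓ (M.sylow : Subgroup G) := ⟨htop ▸ Subgroup.mem_top _, M.u_mem_U _ _ _⟩
  rw [Subgroup.commutator_inf_eq_focalSubgroup, Subgroup.focalSubgroup_def, M.coe_sylow] at h1
  have hle : Subgroup.closure {g | g ∈ M.U ∧ ∃ x ∈ M.U, ∃ u : G, g = ⁅x, u⁆} ≤ S M := by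
    rw [Subgroup.closure_le]
    rintro _ ⟨hg, x, hx, k, rfl⟩
    by_cases h1 : x = 1
    · simp [h1]
    have hk : k ∈ M.B := by
      refine M.mem_B_of_conj_mem_U (M.U.inv_mem hx) (inv_ne_one.mpr h1) ?_
      have := M.U.mul_mem (M.U.inv_mem hx) hg
      rwa [commutatorElement_def, ← mul_assoc, ← mul_assoc, ← mul_assoc, inv_mul_cancel, one_mul] at this
    obtain ⟨a, y, z, rfl⟩ := hx
    obtain ⟨b, v, w, l, rfl⟩ := hk
    have e : ⁅M.u a y z, M.u b v w * M.h l⁆ =
        M.u a y z * (M.u b v w * (M.h l * (M.u a y z)⁻¹ * (M.h l)⁻¹) * (M.u b v w)⁻¹) := by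
      rw [commutatorElement_def]; group
    rw [e, M.u_inv, M.u_inv, M.h_conj_u, M.u_mul, M.u_mul, M.u_mul]
    refine ⟨_, _, M.u_eq_iff.mpr ⟨rfl, ?_, rfl⟩⟩
    simp only [sigma_id]
    have hl : (l : ZMod 3) ≠ 0 := l.ne_zero
    generalize (l : ZMod 3) = l at hl
    clear hg h1 e
    revert a y b v l; decide
  obtain ⟨a, z, h⟩ := hle h1
  obtain ⟨rfl, h, -⟩ := M.u_inj h
  exact absurd h (by decide)

include M in
theorem commutator_ne_bot : commutator G ≠ ⊥ := by
  intro h
  have h1 : ⁅M.u 1 0 0, M.ε⁆ ∈ commutator G :=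
    Subgroup.commutator_mem_commutator (Subgroup.mem_top _) (Subgroup.mem_top _)
  rw [h, Subgroup.mem_bot, commutatorElement_def, M.ε_inv, mul_assoc, mul_assoc, ← mul_assoc M.ε, M.u_inv,
    M.ε_conj_u, M.u_mul, M.u_eq_one_iff] at h1
  exact absurd h1.1 (by decide)

include M in
theorem index_commutator : (commutator G).index = 3 :=
  ((Nat.dvd_prime Nat.prime_three).mp (index_dvd M (commutator_ne_bot M))).resolve_left
    fun h => commutator_ne_top M (Subgroup.index_eq_one.mp h)

include M in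
theorem card_commutator : Nat.card (commutator G) = 504 := by
  have := Subgroup.card_mul_index (commutator G)
  rw [index_commutator M, card_G M] at this
  omega

include M in
theorem isSimpleGroup : IsSimpleGroup (commutator G) := by
  have := M.finite_G
  have hc := card_commutator M
  have : Nontrivial (commutator G) := (Subgroup.nontrivial_iff_ne_bot _).mpr (commutator_ne_bot M)
  have h7 : Fact (Nat.Prime 7) := ⟨by norm_num⟩
  have big : ∀ K : Subgroup G, K.Normal → K ≠ ⊥ → 504 ∣ Nat.card K := fun K hK h => by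
    obtain ⟨c, hc⟩ := index_dvd M h
    have h1 := Subgroup.card_mul_index K
    rw [card_G M] at h1
    refine ⟨c, ?_⟩
    have h2 : K.index ≠ 0 := Subgroup.index_ne_zero_of_finite
    refine Nat.eq_of_mul_eq_mul_right (Nat.pos_of_ne_zero h2) ?_
    rw [h1, mul_assoc, mul_comm c, ← hc]; norm_num
  refine ⟨fun N hN => ?_⟩
  by_contra hcon
  push Not at hcon
  obtain ⟨hb, ht⟩ := hcon
  have hcm : Nat.card (N.map (commutator G).subtype) = Nat.card N :=
    Subgroup.card_map_of_injective (commutator G).subtype_injective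
  by_cases h : 7 ∣ Nat.card N
  · let T : Subgroup G := Subgroup.normalClosure {g | g ^ 7 = 1}
    have hT : T ≤ N.map (commutator G).subtype := by
      refine (Subgroup.closure_le _).mpr fun x hx => ?_
      obtain ⟨g, hg, hx⟩ := Group.mem_conjugatesOfSet_iff.mp hx
      have hx7 : x ^ 7 = 1 := by
        obtain ⟨c, rfl⟩ := isConj_iff.mp hx
        rw [conj_pow, show g ^ 7 = 1 from hg, mul_one, mul_inv_cancel]
      have hxD : x ∈ commutator G := by
        have h3 := (commutator G).pow_mem (Subgroup.pow_index_mem (commutator G) x) 5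
        rwa [index_commutator M, ← pow_mul, show 3 * 5 = 7 * 2 + 1 from rfl, pow_succ, pow_mul, hx7, one_pow,
          one_mul] at h3
      refine ⟨⟨x, hxD⟩, ?_, rfl⟩
      have hi : N.index ∣ 72 := by
        obtain ⟨c, hc'⟩ := h
        have h1 := Subgroup.card_mul_index N
        rw [hc, hc'] at h1
        exact Dvd.intro_left c (by linarith)
      obtain ⟨d, hd⟩ := hi
      have h3 := N.pow_mem (Subgroup.pow_index_mem N ⟨x, hxD⟩) (d * 4)
      have hx7' : (⟨x, hxD⟩ : commutator G) ^ 7 = 1 := Subtype.ext hx7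
      rwa [← pow_mul, ← mul_assoc, ← hd, show 72 * 4 = 7 * 41 + 1 from rfl, pow_succ, pow_mul, hx7', one_pow,
        one_mul] at h3
    have hTb : T ≠ ⊥ := by
      obtain ⟨t, ht⟩ := exists_prime_orderOf_dvd_card' (G := G) 7 (by rw [card_G M]; norm_num)
      intro hb
      have : t ∈ T := Subgroup.subset_normalClosure (show t ^ 7 = 1 by rw [← ht, pow_orderOf_eq_one])
      rw [hb, Subgroup.mem_bot] at this
      simp [this] at ht
    have h1 := (big T inferInstance hTb).trans (Subgroup.card_dvd_of_le hT)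
    rw [hcm, ← hc] at h1
    exact ht (Subgroup.eq_top_of_le_card _ (Nat.le_of_dvd Nat.card_pos h1))
  · have hs : (N.map (commutator G).subtype).IsSubnormal :=
      Subgroup.IsSubnormal.trans' hN.isSubnormal (Subgroup.Normal.isSubnormal inferInstance)
    have hle := CL.le_pPrimeCore_of_isSubnormal (p := 7) hs
      (by rw [hcm]; exact ((Nat.Prime.coprime_iff_not_dvd h7.out).mpr h).symm)
    have hne : pPrimeCore 7 G ≠ ⊥ := fun h0 => hb (by
      rw [h0, le_bot_iff, Subgroup.map_eq_bot_iff_of_injective _ (commutator G).subtype_injective] at hle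
      exact hle)
    exact CL.not_dvd_card_pPrimeCore 7 G ((by norm_num : 7 ∣ 504).trans (big _ inferInstance hne))

end

/-- The derived subgroup of ²G₂(3) (θ = identity over the field with three elements) has order 504 = 1512/3 and is isomorphic to PSL₂ over the field with eight elements. -/
theorem result {L : Type*} [Field L] [Fintype L] (hL : Fintype.card L = 8) :
    Nat.card ↥(commutator ↥(Cfsg.Lie.twistedG2 (ZMod 3) 1)) = 504 ∧
      Nonempty (↥(commutator ↥(Cfsg.Lie.twistedG2 (ZMod 3) 1)) ≃* Matrix.ProjectiveSpecialLinearGroup (Fin 2) L) := by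
  have M : Model (CL.Ree.sigma (ZMod 3) 0) (Cfsg.Lie.twistedG2 (ZMod 3) 1) := model (K := ZMod 3) (m := 0) (by simp)
  have := M.finite_G
  have := isSimpleGroup M
  exact ⟨card_commutator M, Cfsg.Agent.S1011.result (card_commutator M) hL⟩

end Cfsg.Agent.S1075
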