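import Cfsg.Statements.S1153
import Mathlib
import Cfsg.Agent.CHEV.ReeConcrete
import Cfsg.Agent.CHEV.ReeBasic

set_option autoImplicit false
open Cfsg

namespace Cfsg.Agent.S1153

/-- In the small Ree group ²G₂(q), q = 3^(2m+1), realised as G¹ inside the Chevalley group G₂ over the field with q elements, with `B¹ = G¹ ∩ B`: in the action of `G¹` on the cosets of `B¹`, the joint stabiliser of any three distinct cosets has order at most 2, and for some three distinct cosets it has order exactly 2. -/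
theorem result {K : Type*} [Field K] [Fintype K] {m : ℕ} (hK : Fintype.card K = 3 ^ (2 * m + 1)) :
    (∀ x y z : ↥(Cfsg.Lie.twistedG2 K (3 ^ m)) ⧸ ((Cfsg.Lie.chevG2.borelSubgroup K ⊓ Cfsg.Lie.twistedG2 K (3 ^ m))).subgroupOf (Cfsg.Lie.twistedG2 K (3 ^ m)), x ≠ y → x ≠ z → y ≠ z →
        Nat.card ↥(MulAction.stabilizer ↥(Cfsg.Lie.twistedG2 K (3 ^ m)) x ⊓ MulAction.stabilizer ↥(Cfsg.Lie.twistedG2 K (3 ^ m)) y ⊓ MulAction.stabilizer ↥(Cfsg.Lie.twistedG2 K (3 ^ m)) z) ≤ 2) ∧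
      ∃ x y z : ↥(Cfsg.Lie.twistedG2 K (3 ^ m)) ⧸ ((Cfsg.Lie.chevG2.borelSubgroup K ⊓ Cfsg.Lie.twistedG2 K (3 ^ m))).subgroupOf (Cfsg.Lie.twistedG2 K (3 ^ m)), x ≠ y ∧ x ≠ z ∧ y ≠ z ∧
        Nat.card ↥(MulAction.stabilizer ↥(Cfsg.Lie.twistedG2 K (3 ^ m)) x ⊓ MulAction.stabilizer ↥(Cfsg.Lie.twistedG2 K (3 ^ m)) y ⊓ MulAction.stabilizer ↥(Cfsg.Lie.twistedG2 K (3 ^ m)) z) = 2 := by
  have := CL.Ree.charP_three hK
  have hK' := Nat.card_eq_fintype_card.trans hK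
  rw [← CL.Ree.model_B hK']
  set M := CL.Ree.model hK'
  have := M.finite_G
  have key : ∀ x y z : M.Ω, x ≠ y → x ≠ z → y ≠ z → Nat.card ↥(MulAction.stabilizer ↥(Cfsg.Lie.twistedG2 K (3 ^ m)) x ⊓
      MulAction.stabilizer ↥(Cfsg.Lie.twistedG2 K (3 ^ m)) y ⊓
      MulAction.stabilizer ↥(Cfsg.Lie.twistedG2 K (3 ^ m)) z) ≤ 2 := fun x y z h1 h2 h3 => by
    obtain ⟨k, hk⟩ := M.stabilizer_three h1 h2 h3
    refine le_trans (Subgroup.card_le_of_le (K := Subgroup.zpowers (k⁻¹ * M.ε * k)) fun g hg => ?_) ?_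
    · rcases hk g hg.1.1 hg.1.2 hg.2 with rfl | rfl
      exacts [one_mem _, Subgroup.mem_zpowers _]
    · rw [Nat.card_zpowers, ← M.orderOf_ε]
      exact (by simpa using orderOf_injective (MulAut.conj k⁻¹).toMonoidHom (MulAut.conj k⁻¹).injective M.ε :
        orderOf (k⁻¹ * M.ε * k) = _).le
  have h1 := (M.pt_ne_inf 0 0 0).symm
  have h2 := (M.pt_ne_inf 0 1 0).symm
  have h3 : M.pt 0 0 0 ≠ M.pt 0 1 0 := fun h => zero_ne_one (M.pt_inj h).2.1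
  refine ⟨key, M.inf, M.pt 0 0 0, M.pt 0 1 0, h1, h2, h3, le_antisymm (key _ _ _ h1 h2 h3) ?_⟩
  rw [← M.orderOf_ε, ← Nat.card_zpowers]
  exact Subgroup.card_le_of_le (Subgroup.zpowers_le_of_mem ⟨⟨M.ε_smul_inf, M.ε_smul_eq_iff.mpr (Or.inr ⟨_, rfl⟩)⟩,
    M.ε_smul_eq_iff.mpr (Or.inr ⟨_, rfl⟩)⟩)

end Cfsg.Agent.S1153
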