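import Cfsg.Statements.S1164
import Cfsg.Agent.CHEV.CTApp
import Cfsg.Agent.CHEV.Core

set_option autoImplicit false
set_option maxHeartbeats 400000
open Cfsg
open CL.Chev

namespace Cfsg.Agent.S1164

/-- Curtis–Tits: for the Chevalley datum of type D₄, F₄, E₆, E₇ or E₈ and a field `K` with at least four elements, there is an isomorphism from the group presented by the Curtis–Tits relators (additivity, the commutator relators and the `h̄`-relators only for roots inside a common rank-two subsystem spanned by two fundamental roots, all other generators killed) onto the group of Steinberg's presentation, sending each generator `x̄_r(t)` with `r` in such a subsystem to `x̄_r(t)`. -/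
theorem result (D : Cfsg.Lie.ChevalleyDatum)
    (hD : D ∈ [Cfsg.Lie.chevD4, Cfsg.Lie.chevF4, Cfsg.Lie.chevE6, Cfsg.Lie.chevE7, Cfsg.Lie.chevE8])
    (K : Type*) [Field K] [Fintype K] (hK : 4 ≤ Fintype.card K) :
    ∃ e : D.CurtisTitsGroup K ≃* D.SteinbergGroup K,
      ∀ (i j r : ℕ) (t : K), D.InRankTwoSub i j r →
        e (PresentedGroup.mk (D.curtisTitsRels K) (D.stX r t)) = D.stGen K r t := by
  classical
  obtain ⟨g⟩ := good_of_mem (D := D) (by
    simp only [List.mem_cons, List.not_mem_nil, or_false] at hD ⊢; tauto)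
  have hsub : ∀ (i j : Fin D.rank) (r : Rt D), D.InRankTwoSub i j r ↔ r ∈ (rootSys D).sub {i, j} := fun i j r =>
    ⟨fun h k hk => (cor_eq_zero_iff r k).1 (h.2.2.2 k k.2 (fun e => hk (Or.inl (Fin.ext e)))
      fun e => hk (Or.inr (Fin.ext e))), fun h => ⟨r.2, i.2, j.2, fun k hk h1 h2 => (cor_eq_zero_iff r ⟨k, hk⟩).2
        (h _ (by rintro (e | e); exacts [h1 (congrArg Fin.val e), h2 (congrArg Fin.val e)]))⟩⟩
  have hsub' : ∀ {i j r : ℕ} (h : D.InRankTwoSub i j r),
      (⟨r, h.1⟩ : Rt D) ∈ (rootSys D).sub {⟨i, h.2.1⟩, ⟨j, h.2.2.1⟩} := fun h => (hsub _ _ _).1 h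
  let x : Rt D → K → D.SteinbergGroup K := fun r t =>
    if ∃ i j, r ∈ (rootSys D).sub {i, j} then (stS D K).x r t else 1
  have hx : ∀ i j, ∀ r ∈ (rootSys D).sub {i, j}, ∀ t, x r t = (stS D K).x r t := fun i j r hr t => if_pos ⟨i, j, hr⟩
  have hn : ∀ i j, ∀ r ∈ (rootSys D).sub {i, j}, ∀ t, nR x r t = (stS D K).n r t := fun i j r hr t => by
    rw [nR, hx i j r hr, hx i j (ng r) ((rootSys D).neg_mem_sub.2 hr)]; rfl
  have hrel : ∀ g ∈ D.curtisTitsRels K, stLift x g = 1 := by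
    rintro _ (((⟨r, t, hr, h, rfl⟩ | ⟨i, j, r, t, u, h, rfl⟩) | ⟨i, j, r, s, t, u, h, h', e1, e2, rfl⟩) |
      ⟨i, j, r, t, u, h, ht, hu, rfl⟩)
    · rw [stLift_stX' x ⟨r, hr⟩]
      exact if_neg fun ⟨i, j, h1⟩ => h i j ((hsub i j ⟨r, hr⟩).2 h1)
    · refine (rel1_iff x ⟨r, h.1⟩ t u).2 ?_
      simp only [hx _ _ _ (hsub' h), (stS D K).x_add]
    · refine (rel2_iff x ⟨r, h.1⟩ ⟨s, h'.1⟩ t u).2 ?_
      rw [hx _ _ _ (hsub' h), hx _ _ _ (hsub' h'), cprod_congr (x' := (stS D K).x) fun k hk =>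
        hx _ _ k ((rootSys D).closed_sub _ _ (hsub' h) _ (hsub' h') k hk)]
      exact stS_exact _ _ (fun e => e1 (congrArg Fin.val e)) (fun e => e2 ((congrArg Fin.val e).trans (ng_val _))) t u
    · refine (rel3_iff x ⟨r, h.1⟩ t u).2 ?_
      simp only [hn _ _ _ (hsub' h)]
      exact stS_R3 _ t u ht hu
  let θ : D.CurtisTitsGroup K →* D.SteinbergGroup K := pgLift x hrel
  let y := pgx (D.curtisTitsRels K)
  have hθ : ∀ i j, ∀ r ∈ (rootSys D).sub {i, j}, ∀ t, θ (y r t) = (stS D K).x r t := fun i j r hr t =>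
    (pgLift_pgx x hrel r t).trans (hx i j r hr t)
  obtain ⟨S, h1, h2⟩ := (CTData.ofPre (R := rootSys D) y
    (fun i j r hr t u => (rel1_iff y r t u).1
      (stLift_pgx_rel (Or.inl (Or.inl (Or.inr ⟨i, j, r, t, u, (hsub i j r).2 hr, rfl⟩)))))
    (fun i j r hr s hs e1 e2 t u => by
      have := (rel2_iff y r s t u).1 (stLift_pgx_rel (Or.inl (Or.inr ⟨i, j, r, s, t, u, (hsub i j r).2 hr,
        (hsub i j s).2 hs, fun e => e1 (Fin.ext e), fun e => e2 (Fin.ext (e.trans (ng_val r).symm)), rfl⟩)))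
      have e : (y s u)⁻¹ * (y r t)⁻¹ * y s u * y r t = cprod y r s t u := by rw [mul_assoc, this]; group
      rw [e]; exact cprod_mem y r s t u)
    stS_good hθ exists_neighbour).exists_stData stS_good hθ
  have hc : ExactComm S.x := exact_of_map S θ (h2 ▸ stS_good) (h2 ▸ stS_exact)
  have h3 : S.R3 := S.R3_of_simple fun i t u ht hu => by
    have a1 : (rootSys D).simple i ∈ (rootSys D).sub {i, i} := (rootSys D).simple_mem_sub.2 (by simp)
    have a2 : ∀ t, S.n ((rootSys D).simple i) t = nR y (sm i) t := fun t => by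
      rw [StData.n, h1 i i _ a1, h1 i i _ ((rootSys D).neg_mem_sub.2 a1)]; rfl
    simp only [StData.h, a2]
    exact (rel3_iff y (sm i) t u).1 (stLift_pgx_rel (Or.inr ⟨i, i, sm i, t, u, (hsub i i _).2 a1, ht, hu, rfl⟩))
  refine ⟨MonoidHom.toMulEquiv θ (ssLift S hc h3) (pgx_hom_ext fun r t => ?_) (pgx_hom_ext fun r t => ?_),
    fun i j r t h => hθ _ _ _ (hsub' h) t⟩
  · by_cases h : ∃ i j, r ∈ (rootSys D).sub {i, j}
    · obtain ⟨i, j, h⟩ := h
      rw [MonoidHom.comp_apply, hθ i j r h, stS_x, ssLift_stGen, h1 i j r h]; rfl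
    · have : y r t = 1 := PresentedGroup.one_of_mem (Or.inl (Or.inl (Or.inl ⟨r, t, r.2,
        fun i j h' => h ⟨_, _, hsub' h'⟩, rfl⟩)))
      change _ = y r t
      rw [MonoidHom.comp_apply]
      change ssLift S hc h3 (θ (y r t)) = _
      rw [this, map_one, map_one]
  · change θ (ssLift S hc h3 (D.stGen K r t)) = (stS D K).x r t
    rw [ssLift_stGen, ← h2]; rfl

end Cfsg.Agent.S1164
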