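import Cfsg.Statements.S1177

set_option autoImplicit false
open Cfsg

namespace Cfsg.Agent.S1177

theorem mem_map_conj {G : Type*} [Group G] (A : Subgroup G) (g x : G) :
    x ∈ A.map (MulAut.conj g).toMonoidHom ↔ g⁻¹ * x * g ∈ A := by
  constructor
  · rintro ⟨a, ha, rfl⟩
    simpa [mul_assoc] using ha
  · intro h
    exact ⟨_, h, by simp [mul_assoc]⟩

/-- Let A be a nontrivial elementary abelian 2-subgroup of a finite group G which is a T.I. set (each conjugate of A meets A trivially or equals A) and which does not commute elementwise with any conjugate of A other than A itself. Then for every a ∈ A, a ≠ 1, every conjugate of A contained in C_G(a) is equal to A (A is weakly closed in C_G(a)). -/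
theorem result {G : Type*} [Group G] [Finite G] (A : Subgroup G) (hA : Cfsg.IsElementaryAbelian 2 A) (hA1 : A ≠ ⊥) (hTI : ∀ g : G, A.map (MulAut.conj g).toMonoidHom ⊓ A = ⊥ ∨ A.map (MulAut.conj g).toMonoidHom = A) (hb : ∀ g : G, (∀ a ∈ A, ∀ b ∈ A.map (MulAut.conj g).toMonoidHom, a * b = b * a) → A.map (MulAut.conj g).toMonoidHom = A) (a : G) (ha : a ∈ A) (ha1 : a ≠ 1) (g : G) (hg : A.map (MulAut.conj g).toMonoidHom ≤ Subgroup.centralizer ({a} : Set G)) : A.map (MulAut.conj g).toMonoidHom = A := by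
  set B := A.map (MulAut.conj g).toMonoidHom with hB
  -- TI consequence: an element centralizing a nontrivial element of `A` normalizes `A`
  have hnorm : ∀ x u : G, u ∈ A → u ≠ 1 → x * u = u * x → ∀ v ∈ A, x * v * x⁻¹ ∈ A := by
    intro x u hu hu1 hxu v hv
    rcases hTI x with h | h
    · exfalso
      have : u ∈ A.map (MulAut.conj x).toMonoidHom ⊓ A :=
        ⟨⟨u, hu, by simp [hxu]⟩, hu⟩
      rw [h] at this
      exact hu1 this
    · rw [← h]
      exact ⟨v, hv, rfl⟩
  rcases hTI g with hAB | hAB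
  swap
  · exact hAB
  apply hb
  have hBA : ∀ b ∈ B, ∀ v ∈ A, b * v * b⁻¹ ∈ A := fun b hb' =>
    hnorm b a ha ha1 (Subgroup.mem_centralizer_singleton_iff.mp (hg hb'))
  have hcard : Nat.card B = Nat.card A :=
    Subgroup.card_map_of_injective (MulAut.conj g).injective
  have hAB' : ∀ u ∈ A, ∀ b ∈ B, u * b * u⁻¹ ∈ B := by
    intro u hu
    by_cases hu1 : u = 1
    · intro b hb'
      simpa [hu1] using hb'
    let f : B → A := fun b => ⟨b * u * (b : G)⁻¹, hBA b b.2 u hu⟩
    have hf : ¬ Function.Injective f := by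
      intro hinj
      have hsurj : Function.Surjective f :=
        ((Nat.bijective_iff_injective_and_card f).mpr ⟨hinj, hcard⟩).2
      obtain ⟨b, hb'⟩ := hsurj 1
      apply hu1
      have : (b : G) * u * (b : G)⁻¹ = 1 := congrArg Subtype.val hb'
      simpa using this
    simp only [Function.Injective, not_forall] at hf
    obtain ⟨b1, b2, h12, hne⟩ := hf
    have h12' : (b1 : G) * u * (b1 : G)⁻¹ = b2 * u * (b2 : G)⁻¹ := congrArg Subtype.val h12
    have hc : ((b2 : G)⁻¹ * b1) ∈ B := B.mul_mem (B.inv_mem b2.2) b1.2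
    have hc1 : (b2 : G)⁻¹ * b1 ≠ 1 := by
      intro h
      apply hne
      apply Subtype.ext
      exact (inv_mul_eq_one.mp h).symm
    have hcu : u * ((b2 : G)⁻¹ * b1) = ((b2 : G)⁻¹ * b1) * u := by
      calc u * ((b2 : G)⁻¹ * b1) = (b2 : G)⁻¹ * (b2 * u * (b2 : G)⁻¹) * b1 := by group
        _ = ((b2 : G)⁻¹ * b1) * u := by rw [← h12']; group
    intro b hb'
    replace hc := (mem_map_conj A g _).mp hc
    replace hb' := (mem_map_conj A g _).mp hb'
    apply (mem_map_conj A g _).mpr
    have := hnorm (g⁻¹ * u * g) _ hc (by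
      intro h
      apply hc1
      calc (b2 : G)⁻¹ * b1 = g * (g⁻¹ * ((b2 : G)⁻¹ * b1) * g) * g⁻¹ := by group
        _ = 1 := by rw [h]; group) (by
      calc g⁻¹ * u * g * (g⁻¹ * ((b2 : G)⁻¹ * b1) * g) = g⁻¹ * (u * ((b2 : G)⁻¹ * b1)) * g := by
            group
        _ = _ := by rw [hcu]; group) _ hb'
    convert this using 1
    group
  intro u hu b hb'
  have h1 : u * b * u⁻¹ * b⁻¹ ∈ B ⊓ A := by
    refine Subgroup.mem_inf.mpr ⟨B.mul_mem (hAB' u hu b hb') (B.inv_mem hb'), ?_⟩
    have := A.mul_mem hu (hBA b hb' _ (A.inv_mem hu))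
    convert this using 1
    group
  rw [hAB, Subgroup.mem_bot] at h1
  calc u * b = (u * b * u⁻¹ * b⁻¹) * (b * u) := by group
    _ = b * u := by rw [h1, one_mul]

end Cfsg.Agent.S1177
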