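import Cfsg.Statements.S1234
import Cfsg.Agent.S1232
import Cfsg.Agent.SOLV.SemiR2

set_option autoImplicit false
open Cfsg

namespace Cfsg.Agent.S1234

open Subgroup CL.SR1

/-- Let S be a finite 2-group and Q ≤ S a subgroup of order 32 having an elementary abelian subgroup E of order 16 and an involution s ∉ E whose centralizer in E has order 4 (so Q ≅ (Z₂ × Z₂) ≀ Z₂). If C_S(Z(Q)) = Q, then every section of S has 2-rank at most 4. -/
theorem result {S : Type*} [Group S] [Finite S] (hS : IsPGroup 2 S) (Q E : Subgroup S) (hEQ : E ≤ Q) (hE : Cfsg.IsElementaryAbelian 2 E) (hE16 : Nat.card E = 16) (hQ32 : Nat.card Q = 32) (s : S) (hsQ : s ∈ Q) (hsE : s ∉ E) (hs : orderOf s = 2) (hfix : Nat.card ↥(E ⊓ Subgroup.centralizer ({s} : Set S)) = 4) (hC : Subgroup.centralizer (((Subgroup.center Q).map Q.subtype : Subgroup S) : Set S) = Q) : Cfsg.SectionalPRankLE 2 4 S := by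
  have s2 : s * s = 1 := by rw [← pow_two, ← hs, pow_orderOf_eq_one]
  have hi : E.relIndex Q = 2 := by
    have := relIndex_mul_relIndex ⊥ _ _ bot_le hEQ
    rw [relIndex_bot_left, relIndex_bot_left, hE16, hQ32] at this; omega
  have hEc : ∀ a ∈ E, ∀ b ∈ E, Commute a b := fun a ha b hb =>
    have := hE.1
    congrArg Subtype.val (mul_comm' (⟨a, ha⟩ : E) ⟨b, hb⟩)
  have hQ : ∀ q ∈ Q, q ∈ E ∨ q * s ∈ E := fun q hq => by
    rw [mul_iff hi hq hsQ]; tauto
  have hZ : ∀ z ∈ (center Q).map Q.subtype, z ∈ E ∧ Commute z s := by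
    rintro _ ⟨z, hz, rfl⟩
    have hz' : ∀ q ∈ Q, Commute (z : S) q := fun q hq =>
      (congrArg Subtype.val (mem_center_iff.1 hz ⟨q, hq⟩)).symm
    refine ⟨(hQ z z.2).resolve_right fun h => ?_, hz' s hsQ⟩
    have : E ⊓ centralizer ({s} : Set S) = E := inf_eq_left.2 fun e he =>
      mem_centralizer_singleton_iff.2 (by
        simpa using ((hz' e (hEQ he)).symm.inv_right.mul_right (hEc e he _ h)).eq)
    rw [this, hE16] at hfix; omega
  have hA : ∀ a ∈ Q ⊓ centralizer ({s} : Set S), ∃ e ∈ E, Commute e s ∧ (a = e ∨ a = e * s) :=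
    fun a ha => by
      have h1 : Commute a s := mem_centralizer_singleton_iff.1 ha.2
      rcases hQ a ha.1 with h | h
      · exact ⟨a, h, h1, .inl rfl⟩
      · exact ⟨_, h, h1.mul_left (Commute.refl s), .inr (by rw [mul_assoc, s2, mul_one])⟩
  have hAc : ∀ a ∈ Q ⊓ centralizer ({s} : Set S), ∀ b ∈ Q ⊓ centralizer ({s} : Set S),
      Commute a b := fun a ha b hb => by
    obtain ⟨e, he, e1, e2⟩ := hA a ha
    obtain ⟨f, hf, f1, f2⟩ := hA b hb
    have := hEc e he f hf
    rcases e2 with rfl | rfl <;> rcases f2 with rfl | rfl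
    · exact this
    · exact this.mul_right e1
    · exact this.mul_left f1.symm
    · exact (this.mul_right e1).mul_left (f1.symm.mul_right (Commute.refl s))
  have hsA : s ∈ Q ⊓ centralizer ({s} : Set S) := ⟨hsQ, mem_centralizer_singleton_iff.2 rfl⟩
  refine Cfsg.Agent.S1232.result hS (Q ⊓ centralizer ({s} : Set S))
    ⟨⟨⟨fun a b => Subtype.ext (hAc _ a.2 _ b.2)⟩⟩, fun a ha => ?_⟩ ?_ (le_antisymm (fun c hc => ?_)
      fun a ha b hb => hAc b hb a ha)
  · obtain ⟨e, he, e1, rfl | rfl⟩ := hA a ha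
    · exact hE.2 _ he
    · rw [e1.mul_pow, hE.2 _ he, pow_two, s2, one_mul]
  · have h1 := relIndex_mul_relIndex ⊥ (E ⊓ centralizer ({s} : Set S))
      (Q ⊓ centralizer ({s} : Set S)) bot_le (inf_le_inf_right _ hEQ)
    have h2 : (E ⊓ centralizer ({s} : Set S)).relIndex (Q ⊓ centralizer ({s} : Set S)) = 2 := by
      rw [relIndex, index_eq_two_iff]
      refine ⟨⟨s, hsA⟩, fun x => ?_⟩
      have h3 := mul_iff hi x.2.1 hsQ
      have h4 := x.2.2
      have h5 := (mul_mem x.2 hsA).2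
      change Xor ((x : S) * s ∈ E ∧ (x : S) * s ∈ centralizer ({s} : Set S))
        ((x : S) ∈ E ∧ (x : S) ∈ centralizer ({s} : Set S))
      unfold Xor; tauto
    rw [relIndex_bot_left, relIndex_bot_left, h2, hfix] at h1; omega
  · refine ⟨hC ▸ fun z hz => hc z ⟨hEQ (hZ z hz).1, mem_centralizer_singleton_iff.2 (hZ z hz).2⟩,
      mem_centralizer_singleton_iff.2 (hc s hsA).symm⟩

end Cfsg.Agent.S1234
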