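import Cfsg.Statements.S3180
import Cfsg.Agent.TECH.SylIn

set_option autoImplicit false
open Cfsg

namespace Cfsg.Agent.S3180

open CL.MSS in

/-- Let P be a Sylow p-subgroup of a finite group J and P₁ a subgroup of P that is weakly closed in P with respect to J. If J acts on a set and two points, each fixed by every element of P₁, lie in one J-orbit, then they lie in one orbit of the normalizer of P₁ in J. -/
theorem result {J : Type*} [Group J] [Finite J]
    {p : ℕ} [Fact p.Prime] (P : Sylow p J) (P₁ : Subgroup J) (hW : Cfsg.IsWeaklyClosed P₁ (P : Subgroup J))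
    {Ω : Type*} [MulAction J Ω] (x y : Ω) (hx : ∀ g ∈ P₁, g • x = x) (hy : ∀ g ∈ P₁, g • y = y)
    (hc : ∃ g : J, g • x = y) :
    ∃ g ∈ Subgroup.normalizer (P₁ : Set J), g • x = y := by
  obtain ⟨g, rfl⟩ := hc
  have hP₁ : IsPGroup p P₁ := P.2.to_le hW.1
  have h1 : P₁ ≤ MulAction.stabilizer J (g • x) := fun a ha => hy a ha
  have h2 : g •ᶜ P₁ ≤ MulAction.stabilizer J (g • x) := by
    rintro _ ⟨a, ha, rfl⟩
    change (g * a * g⁻¹) • g • x = g • x
    rw [mul_smul, inv_smul_smul, mul_smul, hx a ha]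
  obtain ⟨Q, hQ, hPQ⟩ := exists_sylIn_ge hP₁ h1
  obtain ⟨h, hh, hhQ⟩ := hQ.exists_conj_le (isPGroup_cj g hP₁) h2
  obtain ⟨k, -, hk⟩ := (sylIn_top P).exists_conj_le hQ.pgroup le_top
  have e1 := hW.2 k ((cj_mono k hPQ).trans hk)
  have e2 := hW.2 (k * (h * g)) (by
    rw [cj_mul, cj_mul]
    exact (cj_mono k hhQ).trans hk)
  refine ⟨h * g, ?_, ?_⟩
  · rw [mem_normalizer_iff_cj, ← cj_inj k, ← cj_mul, e1, e2]
  · rw [mul_smul]
    exact hh

end Cfsg.Agent.S3180
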