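import Cfsg.Statements.S1313
import Cfsg.Agent.SIG.FStar

set_option autoImplicit false
open Cfsg

namespace Cfsg.Agent.S1313

theorem card_mulAut_le (X : Type*) [Group X] [Finite X] :
    Nat.card (MulAut X) ≤ (Nat.card X - 1).factorial := by
  classical
  have hc : Nat.card {x : X // x ≠ 1} = Nat.card X - 1 := by
    have := Fintype.ofFinite X
    simp [Nat.card_eq_fintype_card, Fintype.card_subtype_compl]
  rw [← hc, ← Nat.card_perm]
  refine Nat.card_le_card_of_injective
    (fun e : MulAut X => Equiv.Perm.subtypePerm e.toEquiv (fun x => by simp)) ?_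
  intro e f h
  ext x
  by_cases hx : x = 1
  · simp [hx]
  · exact congrArg Subtype.val (Equiv.congr_fun h ⟨x, hx⟩)

/-- For a finite group H, |H| ≤ |F*(H)|!. -/
theorem result {H : Type*} [Group H] [Finite H] : Nat.card H ≤ Nat.factorial (Nat.card ↥(Cfsg.generalizedFittingSubgroup H)) := by
  set F := generalizedFittingSubgroup H
  let φ : H →* MulAut F := MulAut.conjNormal
  have hker : φ.ker ≤ F := by
    refine le_trans ?_ CL.Comp.centralizer_fstar_le
    intro x hx y hy
    have := congrArg Subtype.val (MulEquiv.congr_fun (MonoidHom.mem_ker.mp hx) ⟨y, hy⟩)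
    simp only [φ, MulAut.conjNormal_apply, MulAut.one_apply] at this
    rw [mul_inv_eq_iff_eq_mul] at this
    exact this.symm
  have h1 : Nat.card H = Nat.card φ.range * Nat.card φ.ker := by
    rw [← Subgroup.index_ker, Subgroup.index_mul_card]
  have h2 : Nat.card φ.range ≤ (Nat.card F - 1).factorial :=
    (Subgroup.card_le_card_group _).trans (card_mulAut_le F)
  have h3 : Nat.card φ.ker ≤ Nat.card F := Subgroup.card_le_of_le hker
  have h4 : 0 < Nat.card F := Nat.card_pos
  rw [h1, ← Nat.mul_factorial_pred h4.ne', mul_comm]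
  exact Nat.mul_le_mul h3 h2

end Cfsg.Agent.S1313
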