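import Cfsg.Statements.S1337
import Mathlib
import Cfsg.Agent.SOLV.PGroupCyclicSCN
import Cfsg.Agent.PLOC.PRank
import Cfsg.Agent.PLOC.ElemAb

set_option autoImplicit false
open Cfsg

namespace Cfsg.Agent.S1337


open CL.Th

theorem card_le_index_mul {G : Type*} [Group G] [Finite G] (H K : Subgroup G) :
    Nat.card H ≤ K.index * Nat.card (H ⊓ K : Subgroup G) := by
  have h1 := Subgroup.card_mul_index (K.subgroupOf H)
  have h2 : (K.subgroupOf H).index ≤ K.index := by
    rw [← Subgroup.relIndex_top_right K]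
    exact Subgroup.relIndex_le_of_le_right le_top
      (by rw [Subgroup.relIndex_top_right]; exact Subgroup.index_ne_zero_of_finite)
  have h3 : Nat.card (K.subgroupOf H) = Nat.card (H ⊓ K : Subgroup G) := by
    rw [← Subgroup.card_map_of_injective (K := K.subgroupOf H) H.subtype_injective,
      Subgroup.subgroupOf_map_subtype, inf_comm]
  rw [← h1, h3, mul_comm]
  exact Nat.mul_le_mul_right _ h2

theorem pow_le_card_inf {G : Type*} [Group G] [Finite G] {p k : ℕ} (hp : 0 < p) {H K : Subgroup G}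
    (hK : K.index ≤ p) (hH : p ^ (k + 1) ≤ Nat.card H) : p ^ k ≤ Nat.card (H ⊓ K : Subgroup G) := by
  have := hH.trans ((card_le_index_mul H K).trans (Nat.mul_le_mul_right _ hK))
  rw [pow_succ'] at this
  exact Nat.le_of_mul_le_mul_left this hp

theorem not_rank_iff {G : Type*} [Group G] [Finite G] {p k : ℕ} [hp : Fact p.Prime] {C : Subgroup G} :
    ¬ PRankLE p k C ↔ ∃ F ≤ C, IsElementaryAbelian p F ∧ p ^ (k + 1) ≤ Nat.card F := by
  constructor
  · intro h
    obtain ⟨A, hA⟩ := not_forall.mp h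
    push Not at hA
    obtain ⟨h1, h2, h3⟩ := hA
    have hE : IsElementaryAbelian p A := ⟨h1, h2⟩
    refine ⟨A.map C.subtype, Subgroup.map_subtype_le _, elemAb_map hE _, ?_⟩
    rw [Subgroup.card_map_of_injective C.subtype_injective]
    obtain ⟨n, hn⟩ := elemAb_card hE
    rw [hn] at h3 ⊢
    exact Nat.pow_le_pow_right hp.out.pos ((Nat.pow_lt_pow_iff_right hp.out.one_lt).mp h3)
  · rintro ⟨F, hFC, hF, hc⟩ h
    have h1 := elemAb_subgroupOf hF C
    have := h _ h1.1 h1.2
    rw [Nat.card_congr (Subgroup.subgroupOfEquivOfLe hFC).toEquiv] at this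
    have h2 := (Nat.pow_le_pow_iff_right hp.out.one_lt).mp (hc.trans this)
    omega

theorem not_rank_iff' {G : Type*} [Group G] [Finite G] {p k : ℕ} [hp : Fact p.Prime] :
    ¬ PRankLE p k G → ∃ F : Subgroup G, IsElementaryAbelian p F ∧ p ^ (k + 1) ≤ Nat.card F := by
  intro h
  obtain ⟨A, hA⟩ := not_forall.mp h
  push Not at hA
  obtain ⟨h1, h2, h3⟩ := hA
  have hE : IsElementaryAbelian p A := ⟨h1, h2⟩
  refine ⟨A, hE, ?_⟩
  obtain ⟨n, hn⟩ := elemAb_card hE
  rw [hn] at h3 ⊢
  exact Nat.pow_le_pow_right hp.out.pos ((Nat.pow_lt_pow_iff_right hp.out.one_lt).mp h3)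


/-- Let P be a finite p-group of p-rank greater than 2. Then P has a normal elementary abelian subgroup U of order p², and for every elementary abelian X ≤ P with |X| ≥ p²: X is joined to U by a chain of pairwise commuting elementary abelian subgroups of order ≥ p² if and only if C_P(X) has p-rank greater than 2. -/
theorem result {P : Type*} [Group P] [Finite P] (p : ℕ) [Fact p.Prime] (hP : IsPGroup p P) (hrk : ¬ Cfsg.PRankLE p 2 P) : ∃ U : Subgroup P, U.Normal ∧ Cfsg.IsElementaryAbelian p U ∧ Nat.card ↥U = p ^ 2 ∧ ∀ X : Subgroup P, Cfsg.IsElementaryAbelian p X → p ^ 2 ≤ Nat.card ↥X → (Relation.ReflTransGen (fun A B : Subgroup P => Cfsg.IsElementaryAbelian p A ∧ p ^ 2 ≤ Nat.card ↥A ∧ Cfsg.IsElementaryAbelian p B ∧ p ^ 2 ≤ Nat.card ↥B ∧ ∀ a ∈ A, ∀ b ∈ B, a * b = b * a) X U ↔ ¬ Cfsg.PRankLE p 2 ↥(Subgroup.centralizer (X : Set P))) := by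

  have hp : p.Prime := Fact.out
  obtain ⟨E, hE, hE3⟩ := not_rank_iff' hrk
  have hpp : p < p ^ 2 := by
    calc p = p ^ 1 := (pow_one p).symm
      _ < p ^ 2 := Nat.pow_lt_pow_right hp.one_lt (by norm_num)
  have h23 : p ^ 2 ≤ p ^ (2 + 1) := Nat.pow_le_pow_right hp.pos (by norm_num)
  obtain ⟨U, hUn, hU, hU2⟩ : ∃ U : Subgroup P, U.Normal ∧ IsElementaryAbelian p U ∧ Nat.card U = p ^ 2 := by
    rcases CL.PCyc.isCyclic_or_normal_elemAb_or_isDQS hP with h | h | ⟨h2, n, a, b, h⟩
    · exact absurd (inferInstance : IsCyclic E) (CL.PCyc.not_isCyclic_of_elemAb hp hE (hpp.trans_le (h23.trans hE3)))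
    · exact h
    · exfalso
      have h1 := pow_le_card_inf hp.pos (K := Subgroup.zpowers a) (by rw [h.index_eq, h2]) hE3
      refine CL.PCyc.not_isCyclic_of_elemAb hp (elemAb_inf_left hE _) (hpp.trans_le h1) ?_
      exact isCyclic_of_injective (Subgroup.inclusion inf_le_right) (Subgroup.inclusion_injective _)
  have hidx := CL.PG.index_centralizer_le hP U hU2.le
  refine ⟨U, hUn, hU, hU2, fun X hX hX2 => ⟨fun h => ?_, fun h => ?_⟩⟩
  · induction h using Relation.ReflTransGen.head_induction_on with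
    | refl =>
      rw [not_rank_iff]
      have h1 := pow_le_card_inf hp.pos hidx hE3
      by_cases hle : E ⊓ Subgroup.centralizer (U : Set P) ≤ U
      · have heq := Subgroup.eq_of_le_of_card_ge hle (hU2 ▸ h1)
        refine ⟨E, fun x hx => Subgroup.mem_centralizer_iff.mpr fun u hu => ?_, hE, hE3⟩
        exact elemAb_comm hE (heq.ge hu).1 hx
      · refine ⟨(E ⊓ Subgroup.centralizer (U : Set P)) ⊔ U, sup_le inf_le_right (elemAb_le_centralizer hU),
          elemAb_sup (elemAb_inf_left hE _) hU inf_le_right, ?_⟩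
        exact CL.PG.pow_succ_le_card_of_lt hP (right_lt_sup.mpr hle) hU2.ge
    | @head A B hAB _ ih =>
      obtain ⟨hA, hA2, hB, hB2, hc⟩ := hAB
      by_cases hBA : B = A
      · exact hBA ▸ ih hB hB2
      rw [not_rank_iff]
      have hBc : B ≤ Subgroup.centralizer (A : Set P) := fun b hb =>
        Subgroup.mem_centralizer_iff.mpr fun a ha => hc a ha b hb
      refine ⟨B ⊔ A, sup_le hBc (elemAb_le_centralizer hA), elemAb_sup hB hA hBc, ?_⟩
      by_cases hle : B ≤ A
      · exact CL.PG.pow_succ_le_card_of_lt hP ((lt_of_le_of_ne hle hBA).trans_le le_sup_right) hB2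
      · exact CL.PG.pow_succ_le_card_of_lt hP (right_lt_sup.mpr hle) hA2
  · obtain ⟨F, hFC, hF, hF3⟩ := not_rank_iff.mp h
    have h1 := pow_le_card_inf hp.pos hidx hF3
    have h2 := elemAb_inf_left hF (Subgroup.centralizer (U : Set P))
    refine Relation.ReflTransGen.head (b := F ⊓ Subgroup.centralizer (U : Set P))
      ⟨hX, hX2, h2, h1, fun a ha b hb => Subgroup.mem_centralizer_iff.mp (hFC hb.1) a ha⟩
      (Relation.ReflTransGen.single ⟨h2, h1, hU, hU2.ge, fun a ha b hb =>
        (Subgroup.mem_centralizer_iff.mp ha.2 b hb).symm⟩)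

end Cfsg.Agent.S1337
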