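import Cfsg.Statements.S1349
import Cfsg.Agent.FGS.ThompDih

set_option autoImplicit false
open Cfsg

namespace Cfsg.Agent.S1349

open Subgroup CL

/-- Let G be finite, L ≤ G solvable of odd order, and A an elementary abelian 2-subgroup of order 2^d (d ≥ 1) normalizing L with C_A(L) = 1. Then there are subgroups A_1, …, A_d of A of order 2 generating A and subgroups L_1, …, L_d of L such that each A_i ⊔ L_i is dihedral of order 2 n_i with n_i odd and at least 3, and A_i ⊔ L_i commutes elementwise with A_j ⊔ L_j for i ≠ j. -/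
theorem result {G : Type*} [Group G] [Finite G] (L A : Subgroup G) (hLs : Group.IsSolvable ↥L) (hLodd : Odd (Nat.card ↥L)) (hA : Cfsg.IsElementaryAbelian 2 A) (d : ℕ) (hd : 1 ≤ d) (hAd : Nat.card ↥A = 2 ^ d) (hAL : A ≤ Subgroup.normalizer (L : Set G)) (hfaith : A ⊓ Subgroup.centralizer (L : Set G) = ⊥) : ∃ (Ai : Fin d → Subgroup G) (Li : Fin d → Subgroup G) (n : Fin d → ℕ), (∀ i, Ai i ≤ A ∧ Nat.card ↥(Ai i) = 2 ∧ Li i ≤ L ∧ Odd (n i) ∧ 3 ≤ n i ∧ Nonempty (↥(Ai i ⊔ Li i) ≃* DihedralGroup (n i))) ∧ (⨆ i, Ai i) = A ∧ ∀ i j, i ≠ j → ∀ x ∈ Ai i ⊔ Li i, ∀ y ∈ Ai j ⊔ Li j, x * y = y * x := by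
  obtain ⟨M, hM, hMc, x, a, F⟩ := CL.TDih.exists_fam_of_solvable hA hLodd hLs hAL hfaith hAd
  have hML : M ≤ L := hM.trans (fittingOf_le L)
  have hMo : Odd (Nat.card M) := Odd.of_dvd_nat hLodd (card_dvd_of_le hML)
  have haa : ∀ i, a i * a i = 1 := fun i => by rw [← sq]; exact hA.2 _ (F.amem i)
  refine ⟨fun i => zpowers (a i), fun i => zpowers (x i), fun i => orderOf (x i), fun i => ?_,
    F.gen, ?_⟩
  · have hodd : Odd (orderOf (x i)) := by
      rw [← Nat.card_zpowers]
      exact Odd.of_dvd_nat hMo (card_dvd_of_le (zpowers_le.2 (F.mem i)))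
    refine ⟨zpowers_le.2 (F.amem i), ?_, zpowers_le.2 (hML (F.mem i)), hodd, ?_, ?_⟩
    · rw [Nat.card_zpowers, CL.TwoInv.orderOf_eq_two_of (haa i) (F.a_ne_one hMo i)]
    · have h2 := (F.prime i).two_le
      obtain ⟨m, hm⟩ := hodd
      simp only
      omega
    · have := CL.TwoInv.nonempty_closure_mulEquiv_dihedral rfl (haa i) (F.inv i) (F.a_notMem hMo i)
      have e : Subgroup.closure ({x i, a i} : Set G) = zpowers (a i) ⊔ zpowers (x i) := by
        rw [zpowers_eq_closure, zpowers_eq_closure, ← Subgroup.closure_union, Set.singleton_union,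
          Set.pair_comm]
      rwa [e] at this
  · intro i j hij u hu v hv
    have h1 : ∀ s t : G, s * t = t * s → zpowers s ≤ centralizer (zpowers t : Set G) := by
      intro s t h
      rw [zpowers_le, mem_centralizer_iff]
      intro z hz
      obtain ⟨n, rfl⟩ := mem_zpowers_iff.1 hz
      exact (Commute.zpow_left h.symm n).eq
    have h2 : zpowers (a j) ⊔ zpowers (x j) ≤
        centralizer ((zpowers (a i) ⊔ zpowers (x i) : Subgroup G) : Set G) := by
      refine sup_le (le_centralizer_iff.1 (sup_le (h1 _ _ ?_) (h1 _ _ ?_)))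
        (le_centralizer_iff.1 (sup_le (h1 _ _ ?_) (h1 _ _ ?_)))
      · exact congrArg Subtype.val (hA.1.is_comm.comm (⟨a i, F.amem i⟩ : A) ⟨a j, F.amem j⟩)
      · exact (F.comm j i hij.symm).symm
      · exact F.comm i j hij
      · exact F.x_comm hMc i j
    exact mem_centralizer_iff.1 (h2 hv) u hu

end Cfsg.Agent.S1349
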