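import Cfsg.Statements.S5560
import Cfsg.Agent.S1187
import Cfsg.Agent.SOLV.Core
import Cfsg.Agent.FGS.CoprimeIndex
import Cfsg.Agent.INV.SylowAux

set_option autoImplicit false
open Cfsg

namespace Cfsg.Agent.S5560

open CL.MSS CL.Iso

theorem index_pow {G : Type*} [Group G] [Finite G] {p : ℕ} (hp : p.Prime) (hp2 : p ≠ 2)
    {d : G} (hd : IsIsolatedInvolution d)
    (hprod : ∀ g : G, ∃ k : ℕ, orderOf (d * (g * d * g⁻¹)) = p ^ k) :
    ∃ k, (Subgroup.centralizer ({d} : Set G)).index = p ^ k := by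
  refine ⟨_, Nat.eq_prime_pow_of_unique_prime_dvd Subgroup.index_ne_zero_of_finite ?_⟩
  intro q hq hqd
  by_contra hqp
  have : Fact q.Prime := ⟨hq⟩
  obtain ⟨Q, -, hQmax⟩ := Finite.exists_le_maximal
    (p := fun R : Subgroup G => IsPGroup q R ∧ d ∈ Subgroup.normalizer (R : Set G)) (a := ⊥)
    ⟨IsPGroup.of_bot, Subgroup.le_normalizer_of_normal (Subgroup.mem_top d)⟩
  obtain ⟨P, hP⟩ := Cfsg.Agent.S1187.result d hd Q hQmax.1.1 hQmax.1.2
    (fun R h1 h2 h3 => le_antisymm (hQmax.2 ⟨h1, h2⟩ h3) h3)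
  have hle : Q ≤ Subgroup.centralizer ({d} : Set G) := by
    intro x hx
    have h1 : d * (x * d * x⁻¹) ∈ Q := by
      have h1 : d * x * d⁻¹ ∈ Q := (Subgroup.mem_normalizer_iff.mp hQmax.1.2 x).mp hx
      rw [iso_inv hd] at h1
      have := Subgroup.mul_mem _ h1 (Subgroup.inv_mem _ hx)
      convert this using 1
      group
    obtain ⟨k, hk⟩ := hprod x
    have h2 := CL.SylowAux.eq_one_of_mem_of_coprime hQmax.1.1 h1
      (by rw [hk]; exact Nat.Coprime.pow_left k ((Nat.coprime_primes hp hq).mpr (Ne.symm hqp)))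
    have h3 := eq_inv_of_mul_eq_one_right h2
    rw [iso_inv hd] at h3
    exact Subgroup.mem_centralizer_singleton_iff.mpr (mul_inv_eq_iff_eq_mul.mp h3)
  exact P.not_dvd_index (hqd.trans (by rw [hP]; exact Subgroup.index_dvd_of_le hle))

/-- A Z*-type result for an odd prime p. Let G be a finite group and d an involution of G such that the product of any two conjugates of d has order a power of p. Then the product of any two conjugates of d lies in the largest normal p-subgroup O_p(G); in other words the conjugacy class of d lies in the coset O_p(G)d, and d is central modulo O_p(G). -/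
theorem result {G : Type*} [Group G] [Finite G] {p : ℕ} (hp : p.Prime) (hp2 : p ≠ 2)
    (d : G) (hd : orderOf d = 2)
    (hprod : ∀ a ∈ conjugatesOf d, ∀ b ∈ conjugatesOf d, ∃ k : ℕ, orderOf (a * b) = p ^ k) :
    ∀ a ∈ conjugatesOf d, ∀ b ∈ conjugatesOf d, a * b ∈ Cfsg.pCore p G := by
  have : Fact p.Prime := ⟨hp⟩
  have hdd := mul_self_of_orderOf_two hd
  have hiso : IsIsolatedInvolution d := by
    refine ⟨hd, fun g hc => ?_⟩
    obtain ⟨k, hk⟩ := hprod d mem_conjugatesOf_self (g * d * g⁻¹) (isConj_iff.mpr ⟨g, rfl⟩)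
    have h1 := eq_one_of_sq_of_odd (a := d * (g * d * g⁻¹))
      (by rw [hk]; exact (hp.odd_of_ne_two hp2).pow)
      (by rw [← pow_two, hc.mul_pow, pow_two, pow_two, hdd, conj_mul_self hdd, one_mul])
    have h2 := eq_inv_of_mul_eq_one_right h1
    rwa [inv_eq_of_mul_self hdd] at h2
  obtain ⟨k, hk⟩ := index_pow hp hp2 hiso
    (fun g => hprod d mem_conjugatesOf_self (g * d * g⁻¹) (isConj_iff.mpr ⟨g, rfl⟩))
  obtain ⟨Q, -, hQmax⟩ := Finite.exists_le_maximal
    (p := fun R : Subgroup G => IsPGroup p R ∧ d ∈ Subgroup.normalizer (R : Set G)) (a := ⊥)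
    ⟨IsPGroup.of_bot, Subgroup.le_normalizer_of_normal (Subgroup.mem_top d)⟩
  obtain ⟨P, hP⟩ := Cfsg.Agent.S1187.result d hiso Q hQmax.1.1 hQmax.1.2
    (fun R h1 h2 h3 => le_antisymm (hQmax.2 ⟨h1, h2⟩ h3) h3)
  set C := Subgroup.centralizer ({d} : Set G) with hC
  have hcop : Nat.Coprime Q.index C.index := by
    rw [hk, ← hP]
    exact Nat.Coprime.pow_right k ((Nat.Prime.coprime_iff_not_dvd hp).mpr P.not_dvd_index).symm
  -- every element is a product of an element of `Q` and an element of `C`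
  have hQC : ∀ g : G, ∃ x ∈ Q, ∃ c ∈ C, g = x * c := CL.exists_mul_eq_of_coprime_index Q C hcop
  have hmem : ∀ a ∈ conjugatesOf d, a * d ∈ Q := by
    intro a ha
    obtain ⟨g, rfl⟩ := isConj_iff.mp ha
    obtain ⟨x, hx, c, hc, rfl⟩ := hQC g
    have h1 : d * x⁻¹ * d⁻¹ ∈ Q := (Subgroup.mem_normalizer_iff.mp hQmax.1.2 x⁻¹).mp (Q.inv_mem hx)
    rw [iso_inv hiso] at h1
    have h2 : c * d = d * c := Subgroup.mem_centralizer_singleton_iff.mp hc
    have := Q.mul_mem hx h1
    convert this using 1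
    calc x * c * d * (x * c)⁻¹ * d = x * (c * d) * c⁻¹ * x⁻¹ * d := by group
      _ = _ := by rw [h2]; group
  have hmem2 : ∀ a ∈ conjugatesOf d, ∀ b ∈ conjugatesOf d, a * b ∈ Q := by
    intro a ha b hb
    have := Q.mul_mem (hmem a ha) (Q.inv_mem (hmem b hb))
    have hbb := isConj_mul_self hdd hb
    convert this using 1
    rw [mul_inv_rev, inv_eq_of_mul_self hbb]
    group
  intro a ha b hb
  have hcore : Q.normalCore ≤ Cfsg.pCore p G :=
    CL.le_pCore (hQmax.1.1.to_le Q.normalCore_le)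
  apply hcore
  intro g
  have := hmem2 _ (ha.trans (isConj_iff.mpr ⟨g, rfl⟩)) _ (hb.trans (isConj_iff.mpr ⟨g, rfl⟩))
  convert this using 1
  group

end Cfsg.Agent.S5560
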