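import Cfsg.Statements.S1708
import Cfsg.Agent.SPOR.HU.B100

set_option autoImplicit false
open Cfsg

namespace Cfsg.Agent.S1708

open CL.HU CL.HN CL.CE CL.Net in
theorem aux {N : Type} [Group N] (e : A ≃* N) :
    ∃ K : Subgroup N, K.Normal ∧ K.index = 2 ∧ Cfsg.IsNonsplitDoubleCover K Cfsg.Spor.HS :=
  ⟨χ.ker.map (e : A →* N), Subgroup.Normal.map inferInstance _ e.surjective,
    (Subgroup.index_map_equiv _ e).trans index_χ,
    IsNonsplitDoubleCover.congr cover_M0 (e.subgroupMap _) (MulEquiv.refl _)⟩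

/-- In the presented Harada–Norton group, the subgroup N generated by the images of x, y, z has a normal subgroup of index 2 which is a non-split double cover of the Higman–Sims group. -/
theorem result : ∃ K : Subgroup (((Subgroup.closure ({Cfsg.Spor.HN.x, Cfsg.Spor.HN.y, Cfsg.Spor.HN.z} : Set (FreeGroup Cfsg.Spor.HN.Gen))).map (PresentedGroup.mk (Cfsg.Spor.coxRelators Cfsg.Spor.HN.edges ∪ {r | r ∈ Cfsg.Spor.HN.extra})))), K.Normal ∧ K.index = 2 ∧ Cfsg.IsNonsplitDoubleCover K Cfsg.Spor.HS := by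
  have h := CL.HN.map_closure [Spor.HN.x, Spor.HN.y, Spor.HN.z]
    (S := {Spor.HN.x, Spor.HN.y, Spor.HN.z}) (by simp) (ws := CL.Net.ltrs 5) (by decide +kernel)
  exact aux ((MonoidHom.ofInjective CL.HN.ψ_injective).trans
    (MulEquiv.subgroupCongr (CL.HN.ψ_range.trans h.symm)))

end Cfsg.Agent.S1708
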