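import Cfsg.Statements.S1755
import Mathlib
import Cfsg.Agent.INV.SylowAux
import Cfsg.Agent.SIG.FStar
import Cfsg.Agent.SIG.SPE
import Cfsg.Agent.TECH.Conj

set_option autoImplicit false
open Cfsg

namespace Cfsg.Agent.S1755


open CL.MSS

theorem eq_of_cyclic {T : Type*} [Group T] {B : Subgroup T} (hB : IsCyclic B) {a b : T}
    (ha : a ∈ B) (hb : b ∈ B) (hao : orderOf a = 2) (hbo : orderOf b = 2) : a = b :=
  congrArg Subtype.val (CL.SylowAux.eq_of_isCyclic_of_orderOf_eq_two (G := B) (x := ⟨a, ha⟩) (y := ⟨b, hb⟩)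
    ((Subgroup.orderOf_coe _).symm.trans hao) ((Subgroup.orderOf_coe _).symm.trans hbo))

theorem eq_of_char {T : Type*} [Group T] (hT : IsOfSymplecticType T) {z : T}
    (hz : z ∈ Subgroup.center T) (hzo : orderOf z = 2) {B : Subgroup T} (hBc : B.Characteristic)
    (hBa : IsMulCommutative B) {a : T} (ha : a ∈ B) (hao : orderOf a = 2) : a = z := by
  have hc : a ∈ Subgroup.center T := by
    refine Subgroup.mem_center_iff.mpr fun g => ?_
    have h1 : g * a * g⁻¹ = a :=
      eq_of_cyclic (hT.2 B hBc hBa) ((inferInstance : B.Normal).conj_mem a ha g) ha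
        (by rw [← hao]; exact (MulAut.conj g).orderOf_eq a) hao
    rw [mul_inv_eq_iff_eq_mul] at h1
    exact h1
  exact eq_of_cyclic (hT.2 _ inferInstance inferInstance) hc hz hao hzo


/-- Let G be a finite group and let z be an involution of G such that Q, the generalized Fitting subgroup of the centralizer C of z, is a 2-group of symplectic type (every characteristic abelian subgroup of Q is cyclic). Let B be a characteristic abelian subgroup of Q, viewed as a subgroup of G. Then for every g in G, the conjugate of B by g either equals B or meets B trivially. -/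
theorem result {G : Type*} [Group G] [Finite G] (z : G) (hz : orderOf z = 2) (hQ : Cfsg.IsOfSymplecticType ↥(Cfsg.generalizedFittingSubgroup ↥(Subgroup.centralizer ({z} : Set G))))
    (B : Subgroup ↥(Cfsg.generalizedFittingSubgroup ↥(Subgroup.centralizer ({z} : Set G)))) (hBc : B.Characteristic) (hBa : IsMulCommutative ↥B) (g : G) :
    ((B.map (Cfsg.generalizedFittingSubgroup ↥(Subgroup.centralizer ({z} : Set G))).subtype).map (Subgroup.centralizer ({z} : Set G)).subtype).map (MulAut.conj g).toMonoidHom =
        (B.map (Cfsg.generalizedFittingSubgroup ↥(Subgroup.centralizer ({z} : Set G))).subtype).map (Subgroup.centralizer ({z} : Set G)).subtype ∨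
      ((B.map (Cfsg.generalizedFittingSubgroup ↥(Subgroup.centralizer ({z} : Set G))).subtype).map (Subgroup.centralizer ({z} : Set G)).subtype).map (MulAut.conj g).toMonoidHom ⊓
        (B.map (Cfsg.generalizedFittingSubgroup ↥(Subgroup.centralizer ({z} : Set G))).subtype).map (Subgroup.centralizer ({z} : Set G)).subtype = ⊥ := by

  haveI : Fact (Nat.Prime 2) := ⟨Nat.prime_two⟩
  let C := Subgroup.centralizer ({z} : Set G)
  have hC : C = Subgroup.centralizer ({z} : Set G) := rfl
  have hzC : z ∈ C := Subgroup.mem_centralizer_singleton_iff.mpr rfl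
  have hcen : (⟨z, hzC⟩ : C) ∈ Subgroup.center C := Subgroup.mem_center_iff.mpr fun g =>
    Subtype.ext (Subgroup.mem_centralizer_singleton_iff.mp g.2)
  let z₁ : generalizedFittingSubgroup C := ⟨⟨z, hzC⟩, CL.Comp.center_le_fstar hcen⟩
  have hz₁ : z₁ ∈ Subgroup.center (generalizedFittingSubgroup C) :=
    Subgroup.mem_center_iff.mpr fun g => Subtype.ext (Subgroup.mem_center_iff.mp hcen g)
  have hz₁o : orderOf z₁ = 2 := by rw [← Subgroup.orderOf_coe, ← Subgroup.orderOf_coe]; exact hz
  let B' := (B.map (generalizedFittingSubgroup C).subtype).map C.subtype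
  have key : ∀ a ∈ B', orderOf a = 2 → a = z := by
    rintro _ ⟨_, ⟨a, ha, rfl⟩, rfl⟩ hao
    have := eq_of_char hQ hz₁ hz₁o hBc hBa ha
      (by rw [← Subgroup.orderOf_coe, ← Subgroup.orderOf_coe]; exact hao)
    rw [this]; rfl
  have hB2 : IsPGroup 2 B' := ((hQ.1.to_subgroup B).map _).map _
  haveI := CL.Comp.fstar_normal (G := C)
  have hn : (B.map (generalizedFittingSubgroup C).subtype).Normal := inferInstance
  by_cases h : g •ᶜ B' ⊓ B' = ⊥
  · exact Or.inr h
  left
  obtain ⟨t, ht, hto⟩ := CL.SPE.exists_mem_orderOf_eq_of_isPGroup (hB2.to_le inf_le_right) h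
  have h1 : t = z := key t ht.2 hto
  have h2 : g⁻¹ * t * g = z := key _ (mem_cj.mp ht.1)
    (by rw [← hto]; simpa using (MulAut.conj g⁻¹).orderOf_eq t)
  have hg : g ∈ C := by
    rw [hC, Subgroup.mem_centralizer_singleton_iff]
    rw [h1] at h2
    calc g * z = g * (g⁻¹ * z * g) := by rw [h2]
      _ = z * g := by group
  have := subtype_map_cj (⟨g, hg⟩ : C) (B.map (generalizedFittingSubgroup C).subtype)
  rw [cj_eq_of_normal] at this
  exact this.symm

end Cfsg.Agent.S1755
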