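import Cfsg.Statements.S1774
import Mathlib
import Cfsg.Agent.S1755
import Cfsg.Agent.SPOR.LXSing
import Cfsg.Agent.SOLV.Core

set_option autoImplicit false
open Cfsg

namespace Cfsg.Agent.S1774


open CL.MSS

theorem sq_cases {T : Type*} [Group T] [Finite T] (hT : IsOfSymplecticType T) {z : T}
    (hz : z ∈ Subgroup.center T) (hzo : orderOf z = 2) (h4 : ∀ x : T, x ^ 4 = 1) (x : T) :
    x * x = 1 ∨ x * x = z := by
  haveI : Fact (Nat.Prime 2) := ⟨Nat.prime_two⟩
  have hsq : ∀ y : T, (y * y) * (y * y) = 1 := fun y => by rw [← h4 y]; simp [pow_succ, mul_assoc]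
  let K : Subgroup T := Subgroup.closure (Set.range fun y : T => y * y)
  have hKc : K.Characteristic := by
    refine Subgroup.characteristic_iff_map_le.mpr fun φ => ?_
    rw [MonoidHom.map_closure, Subgroup.closure_le]
    rintro _ ⟨_, ⟨y, rfl⟩, rfl⟩
    exact Subgroup.subset_closure ⟨φ y, by simp⟩
  let W : Subgroup T := K ⊓ Subgroup.centralizer (K : Set T)
  have hWc : W.Characteristic := by
    refine Subgroup.characteristic_iff_map_le.mpr fun φ => ?_
    refine (Subgroup.map_inf_le _ _ _).trans (inf_le_inf ?_ ?_)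
    · exact Subgroup.characteristic_iff_map_le.mp hKc φ
    · exact Subgroup.characteristic_iff_map_le.mp inferInstance φ
  have hWa : IsMulCommutative W := CL.Comp.isMulCommutative_of_le_centralizer
    (CL.Comp.inf_centralizer_le_centralizer K)
  have hinv : ∀ a ∈ W, a * a = 1 → a = 1 ∨ a = z := by
    intro a ha h
    by_cases h1 : a = 1
    · exact Or.inl h1
    · exact Or.inr (Cfsg.Agent.S1755.eq_of_char hT hz hzo hWc hWa ha (CL.LX.orderOf_eq_two_of h1 h))
  have hfix : ∀ a ∈ W, a * a = 1 → ∀ t : T, t * a * t⁻¹ = a := by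
    intro a ha h t
    rcases hinv a ha h with rfl | rfl
    · group
    · rw [Subgroup.mem_center_iff.mp hz t]; group
  have hgen : ∀ y : T, y * y ∈ K := fun y => Subgroup.subset_closure ⟨y, rfl⟩
  have step : ∀ y ∈ K, y * y ∈ W → (∀ t : T, y⁻¹ * (t * y * t⁻¹) ∈ W) → y ∈ W := by
    intro y hy hyy ht
    refine ⟨hy, ?_⟩
    have : K ≤ Subgroup.centralizer {y} := by
      refine (Subgroup.closure_le _).mpr ?_
      rintro _ ⟨t, rfl⟩
      refine Subgroup.mem_centralizer_singleton_iff.mpr ?_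
      set w := y⁻¹ * (t * y * t⁻¹) with hw
      have hwW : w ∈ W := ht t
      have e1 : t * y * t⁻¹ = y * w := by rw [hw]; group
      have e2 : y * w = w * y := Subgroup.mem_centralizer_iff.mp hwW.2 y hy
      have e3 : w * w = 1 := by
        have a1 := hfix _ hyy (hsq y) t
        have a2 : t * (y * y) * t⁻¹ = y * y * (w * w) := by
          calc t * (y * y) * t⁻¹ = (t * y * t⁻¹) * (t * y * t⁻¹) := by group
            _ = y * (w * y) * w := by rw [e1]; group
            _ = _ := by rw [← e2]; group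
        rw [a2] at a1
        exact mul_left_cancel (a := y * y) (by rw [a1, mul_one])
      have e4 := hfix w hwW e3 t
      calc t * t * y = t * (t * y * t⁻¹) * t⁻¹ * (t * t) := by group
        _ = t * (y * w) * t⁻¹ * (t * t) := by rw [e1]
        _ = (t * y * t⁻¹) * (t * w * t⁻¹) * (t * t) := by group
        _ = y * (w * w) * (t * t) := by rw [e1, e4]; group
        _ = _ := by rw [e3, mul_one]
    exact Subgroup.mem_centralizer_iff.mpr fun k hk => Subgroup.mem_centralizer_singleton_iff.mp (this hk)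
  have hKW : K ≤ W := by
    by_contra hn
    have hne : K.map (QuotientGroup.mk' W) ≠ ⊥ := by
      rw [Ne, Subgroup.map_eq_bot_iff, QuotientGroup.ker_mk']; exact hn
    have hq : IsPGroup 2 (T ⧸ W) := hT.1.to_quotient W
    haveI : (K.map (QuotientGroup.mk' W)).Normal :=
      (inferInstance : K.Normal).map _ (QuotientGroup.mk'_surjective W)
    have := inf_centralizer_ne_bot (P := ⊤) (hq.to_subgroup _) (hq.to_subgroup _)
      (by rw [Subgroup.normalizer_eq_top]) hne
    obtain ⟨⟨_, ⟨y, hy, rfl⟩, hc⟩, hy1⟩ := Subgroup.ne_bot_iff_exists_ne_one.mp this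
    have hyW : y ∉ W := fun h => hy1 (Subtype.ext ((QuotientGroup.eq_one_iff y).mpr h))
    have ht : ∀ t : T, y⁻¹ * (t * y * t⁻¹) ∈ W := by
      intro t
      rw [← QuotientGroup.eq_one_iff]
      have := Subgroup.mem_centralizer_iff.mp hc (QuotientGroup.mk' W t) (Subgroup.mem_top _)
      simp only [QuotientGroup.mk'_apply] at this
      simp only [QuotientGroup.mk_mul, QuotientGroup.mk_inv, this]
      group
    refine hyW (step y hy (step _ (hgen y) (by rw [hsq]; exact W.one_mem) fun t => ?_) ht)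
    have e2 : y * (y⁻¹ * (t * y * t⁻¹)) = (y⁻¹ * (t * y * t⁻¹)) * y :=
      Subgroup.mem_centralizer_iff.mp (ht t).2 y hy
    have : (y * y)⁻¹ * (t * (y * y) * t⁻¹) = (y⁻¹ * (t * y * t⁻¹)) * (y⁻¹ * (t * y * t⁻¹)) := by
      calc (y * y)⁻¹ * (t * (y * y) * t⁻¹)
          = y⁻¹ * ((y⁻¹ * (t * y * t⁻¹)) * y) * (y⁻¹ * (t * y * t⁻¹)) := by group
        _ = _ := by rw [← e2]; group
    rw [this]
    exact W.mul_mem (ht t) (ht t)
  exact hinv _ (hKW (hgen x)) (hsq x)

/-- element form of the hypothesis -/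
structure SY {G : Type*} [Group G] (Q : Subgroup G) (z : G) : Prop where
  z_mem : z ∈ Q
  z_ne : z ≠ 1
  z_sq : z * z = 1
  z_comm : ∀ x ∈ Q, x * z = z * x
  sq : ∀ x ∈ Q, x * x = 1 ∨ x * x = z
  cent : ∀ x ∈ Q, (∀ y ∈ Q, x * y = y * x) → x * x = 1 → x = 1 ∨ x = z
  norm : ∀ c : G, c * z = z * c → ∀ y ∈ Q, c * y * c⁻¹ ∈ Q
  self_cent : ∀ x : G, (∀ y ∈ Q, x * y = y * x) → x ∈ Q
  two : (∀ c : G, c * z = z * c → c ^ 8 = 1) → ∀ c : G, c * z = z * c → c ∈ Q

variable {G : Type*} [Group G] {Q : Subgroup G} {z : G}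

theorem SY.comm (h : SY Q z) {x y : G} (hx : x ∈ Q) (hy : y ∈ Q) :
    x * y = y * x ∨ x * y = y * x * z := by
  have e : x * y = (x * x) * ((x⁻¹ * y) * (x⁻¹ * y)) * (y⁻¹ * y⁻¹) * (y * x) := by group
  have hz := h.z_comm _ (Q.mul_mem hy hx)
  have hzz : z * z * z = z := by rw [h.z_sq, one_mul]
  rcases h.sq x hx with e1 | e1 <;> rcases h.sq _ (Q.mul_mem (Q.inv_mem hx) hy) with e2 | e2 <;>
    rcases h.sq _ (Q.inv_mem hy) with e3 | e3 <;> rw [e1, e2, e3] at e <;>
    simp only [one_mul, mul_one, h.z_sq, hzz, ← hz] at e <;> simp only [e, true_or, or_true]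

theorem SY.conj (h : SY Q z) (g : G) : SY (g •ᶜ Q) (g * z * g⁻¹) where
  z_mem := conj_mem_cj h.z_mem
  z_ne := fun e => h.z_ne (by simpa using e)
  z_sq := by
    calc g * z * g⁻¹ * (g * z * g⁻¹) = g * (z * z) * g⁻¹ := by group
      _ = 1 := by rw [h.z_sq]; group
  z_comm := by
    intro x hx
    obtain ⟨y, hy, rfl⟩ := mem_cj'.mp hx
    calc g * y * g⁻¹ * (g * z * g⁻¹) = g * (y * z) * g⁻¹ := by group
      _ = _ := by rw [h.z_comm y hy]; group
  sq := by
    intro x hx
    obtain ⟨y, hy, rfl⟩ := mem_cj'.mp hx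
    have : g * y * g⁻¹ * (g * y * g⁻¹) = g * (y * y) * g⁻¹ := by group
    rw [this]
    rcases h.sq y hy with e | e <;> rw [e]
    · left; group
    · right; rfl
  cent := by
    intro x hx hc hxx
    obtain ⟨y, hy, rfl⟩ := mem_cj'.mp hx
    have h1 : ∀ w ∈ Q, y * w = w * y := fun w hw => by
      have := hc _ (conj_mem_cj (g := g) hw)
      calc y * w = g⁻¹ * (g * y * g⁻¹ * (g * w * g⁻¹)) * g := by group
        _ = _ := by rw [this]; group
    have h2 : y * y = 1 := by
      calc y * y = g⁻¹ * (g * y * g⁻¹ * (g * y * g⁻¹)) * g := by group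
        _ = _ := by rw [hxx]; group
    rcases h.cent y hy h1 h2 with e | e <;> rw [e]
    · left; group
    · right; rfl
  norm := by
    intro c hc x hx
    obtain ⟨y, hy, rfl⟩ := mem_cj'.mp hx
    have := h.norm (g⁻¹ * c * g) (by
      calc g⁻¹ * c * g * z = g⁻¹ * (c * (g * z * g⁻¹)) * g := by group
        _ = _ := by rw [hc]; group) y hy
    refine mem_cj.mpr ?_
    convert this using 1; group
  self_cent := by
    intro x hx
    refine mem_cj.mpr (h.self_cent _ fun y hy => ?_)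
    have := hx _ (conj_mem_cj (g := g) hy)
    calc g⁻¹ * x * g * y = g⁻¹ * (x * (g * y * g⁻¹)) * g := by group
      _ = _ := by rw [this]; group
  two := by
    intro h8 c hc
    refine mem_cj.mpr (h.two (fun d hd => ?_) _ ?_)
    · have := h8 (g * d * g⁻¹) (by
        calc g * d * g⁻¹ * (g * z * g⁻¹) = g * (d * z) * g⁻¹ := by group
          _ = _ := by rw [hd]; group)
      rw [conj_pow] at this
      simpa using this
    · calc g⁻¹ * c * g * z = g⁻¹ * (c * (g * z * g⁻¹)) * g := by group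
        _ = _ := by rw [hc]; group

theorem SY.cj_eq [Finite G] (h : SY Q z) {g g' : G} (e : g * z * g⁻¹ = g' * z * g'⁻¹) :
    g •ᶜ Q = g' •ᶜ Q := by
  have h1 : (g'⁻¹ * g) •ᶜ Q = Q := cj_eq_of_le (cj_le_iff_forall.mpr (h.norm _ (by
    calc g'⁻¹ * g * z = g'⁻¹ * (g * z * g⁻¹) * g := by group
      _ = _ := by rw [e]; group)))
  have : g = g' * (g'⁻¹ * g) := by group
  rw [this, cj_mul, h1]

theorem SY.exists_conj (h : SY Q z) {s : G} (hs : s ∈ Q) (h1 : s ≠ 1) (hz : s ≠ z) (h2 : s * s = 1) :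
    ∃ q ∈ Q, q * s * q⁻¹ = s * z := by
  have : ¬ ∀ y ∈ Q, s * y = y * s := fun hc => by
    rcases h.cent s hs hc h2 with e | e
    exacts [h1 e, hz e]
  push Not at this
  obtain ⟨y, hy, hne⟩ := this
  refine ⟨y, hy, ?_⟩
  rcases h.comm hy hs with e | e
  · exact absurd e.symm hne
  · rw [e, mul_assoc s y z, h.z_comm y hy]; group

theorem SY.symm [Finite G] (h : SY Q z) {g : G} (hs : g * z * g⁻¹ ∈ Q) (hsz : g * z * g⁻¹ ≠ z) :
    z ∈ g •ᶜ Q := by
  have hP := h.conj g
  obtain ⟨q, hq, hqs⟩ := h.exists_conj hs hP.z_ne hsz hP.z_sq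
  by_cases hi : ∃ i ∈ Q, (∀ y ∈ Q, i * y = y * i) ∧ i * i = z
  · obtain ⟨i, hi, hic, hii⟩ := hi
    set s := g * z * g⁻¹ with hsdef
    set P := g •ᶜ Q with hPdef
    by_contra hzP
    have hzs : z * s = s * z := (h.z_comm s hs).symm
    have hno : ∀ p ∈ P, p * z * p⁻¹ ≠ z * s := by
      intro p hp e
      apply hzP
      have hps : p * s * p⁻¹ = s := by rw [hP.z_comm p hp]; group
      have hqz : q * z * q⁻¹ = z := by rw [h.z_comm q hq]; group
      have e1 : (p * q * p) * z * (p * q * p)⁻¹ = s := by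
        calc (p * q * p) * z * (p * q * p)⁻¹ = p * (q * (p * z * p⁻¹) * q⁻¹) * p⁻¹ := by group
          _ = p * ((q * z * q⁻¹) * (q * s * q⁻¹)) * p⁻¹ := by rw [e]; group
          _ = p * (s * (z * z)) * p⁻¹ := by rw [hqz, hqs, ← mul_assoc z s z, hzs, mul_assoc s z z]
          _ = s := by rw [h.z_sq, mul_one, hps]
      have e2 : (p * q * p) * s * (p * q * p)⁻¹ = z := by
        calc (p * q * p) * s * (p * q * p)⁻¹ = p * (q * (p * s * p⁻¹) * q⁻¹) * p⁻¹ := by group
          _ = p * (s * z) * p⁻¹ := by rw [hps, hqs]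
          _ = (p * s * p⁻¹) * (p * z * p⁻¹) := by group
          _ = (s * s) * z := by rw [hps, e, hzs]; group
          _ = z := by rw [hP.z_sq, one_mul]
      rw [hPdef, ← h.cj_eq (g := p * q * p) (g' := g) e1]
      have := conj_mem_cj (g := p * q * p) hs
      rwa [e2] at this
    have hno' : ∀ p ∈ P, z * p * z⁻¹ = p ∨ z * p * z⁻¹ = p * s → p * z = z * p := by
      rintro p hp (e | e)
      · rw [mul_inv_eq_iff_eq_mul] at e; exact e.symm
      · exfalso
        refine hno _ (P.inv_mem hp) ?_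
        calc p⁻¹ * z * p⁻¹⁻¹ = p⁻¹ * (z * p * z⁻¹) * z := by group
          _ = _ := by rw [e, hzs]; group
    have his : i * s = s * i := hic s hs
    have hiP := hP.norm i his
    have hzP' := hP.norm z hzs
    have hzi : z⁻¹ = z := inv_eq_of_mul_eq_one_right h.z_sq
    -- the centralizer of `z` in `P` centralizes `i`
    have hA : ∀ a ∈ P, a * z = z * a → i * a * i⁻¹ = a := by
      intro a ha haz
      have m1 : a * i * a⁻¹ ∈ Q := h.norm a haz i hi
      have c1 : ∀ y ∈ Q, a * i * a⁻¹ * y = y * (a * i * a⁻¹) := by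
        intro y hy
        have := hic _ (h.norm a⁻¹ (by
          calc a⁻¹ * z = a⁻¹ * (z * a) * a⁻¹ := by group
            _ = _ := by rw [← haz]; group) y hy)
        calc a * i * a⁻¹ * y = a * (i * (a⁻¹ * y * a⁻¹⁻¹)) * a⁻¹ := by group
          _ = _ := by rw [this]; group
      have c2 : ∀ y ∈ Q, a * i * a⁻¹ * i⁻¹ * y = y * (a * i * a⁻¹ * i⁻¹) := by
        intro y hy
        calc a * i * a⁻¹ * i⁻¹ * y = a * i * a⁻¹ * (i⁻¹ * (y * i)) * i⁻¹ := by group
          _ = (a * i * a⁻¹ * y) * i⁻¹ := by rw [← hic y hy]; group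
          _ = _ := by rw [c1 y hy]; group
      have c3 : a * i * a⁻¹ * i⁻¹ * (a * i * a⁻¹ * i⁻¹) = 1 := by
        calc a * i * a⁻¹ * i⁻¹ * (a * i * a⁻¹ * i⁻¹)
            = a * i * a⁻¹ * (i⁻¹ * (a * i * a⁻¹)) * i⁻¹ := by group
          _ = a * (i * i) * a⁻¹ * (i * i)⁻¹ := by rw [← c1 _ (Q.inv_mem hi)]; group
          _ = 1 := by rw [hii, haz]; group
      rcases h.cent _ (Q.mul_mem m1 (Q.inv_mem hi)) c2 c3 with e | e
      · calc i * a * i⁻¹ = (a * i * a⁻¹ * i⁻¹) * (i * a * i⁻¹) := by rw [e, one_mul]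
          _ = a := by group
      · exfalso; apply hzP; rw [← e]
        have := P.mul_mem ha (hiP _ (P.inv_mem ha))
        simpa [mul_assoc] using this
    have hconj : ∀ w ∈ P, ∀ c ∈ P, w⁻¹ * c * w = c ∨ w⁻¹ * c * w = c * s := by
      intro w hw c hc
      rcases hP.comm hc hw with e | e
      · left; rw [mul_assoc, e]; group
      · right; rw [mul_assoc, e]; group
    refine hzP (hP.self_cent z fun p hp => (hno' p hp ?_).symm)
    set w := p⁻¹ * (z * p * z⁻¹) with hw
    have hwP : w ∈ P := P.mul_mem (P.inv_mem hp) (hzP' p hp)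
    have hpw : z * p * z⁻¹ = p * w := by rw [hw]; group
    have hwz : w * z = z * w := by
      apply hno' w hwP
      have : z * w * z⁻¹ = w⁻¹ := by
        calc z * w * z⁻¹ = (z * p * z⁻¹)⁻¹ * ((z * z) * p * (z * z)⁻¹) := by rw [hw]; group
          _ = w⁻¹ := by rw [h.z_sq, hw]; group
      rw [this]
      rcases hP.sq w hwP with e | e
      · left; exact inv_eq_of_mul_eq_one_right e
      · right
        refine inv_eq_of_mul_eq_one_right ?_
        rw [← mul_assoc, e, hP.z_sq]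
    have hwi := hA w hwP hwz
    set c := p⁻¹ * (i * p * i⁻¹) with hc
    have hcP : c ∈ P := P.mul_mem (P.inv_mem hp) (hiP p hp)
    have hpc : i * p * i⁻¹ = p * c := by rw [hc]; group
    have hcz : c * z = z * c := by
      apply hno' c hcP
      have : z * c * z⁻¹ = w⁻¹ * c * w := by
        calc z * c * z⁻¹ = (z * p * z⁻¹)⁻¹ * ((z * i) * p * (z * i)⁻¹) := by rw [hc]; group
          _ = (z * p * z⁻¹)⁻¹ * (i * (z * p * z⁻¹) * i⁻¹) := by rw [← hic z h.z_mem]; group
          _ = (p * w)⁻¹ * ((i * p * i⁻¹) * (i * w * i⁻¹)) := by rw [hpw]; group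
          _ = _ := by rw [hpc, hwi]; group
      rw [this]
      exact hconj w hwP c hcP
    have hci := hA c hcP hcz
    have : z * p * z⁻¹ = p * (c * c) := by
      calc z * p * z⁻¹ = i * (i * p * i⁻¹) * i⁻¹ := by rw [← hii]; group
        _ = i * (p * c) * i⁻¹ := by rw [hpc]
        _ = (i * p * i⁻¹) * (i * c * i⁻¹) := by group
        _ = _ := by rw [hpc, hci]; group
    rw [this]
    rcases hP.sq c hcP with e | e <;> rw [e]
    · left; group
    · right; rfl
  · have hcent : ∀ x ∈ Q, (∀ y ∈ Q, x * y = y * x) → x = 1 ∨ x = z := by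
      intro x hx hc
      rcases h.sq x hx with e | e
      · exact h.cent x hx hc e
      · exact absurd ⟨x, hx, hc, e⟩ hi
    have hES : CL.LX.ES Q z := ⟨h.z_mem, h.z_ne, h.z_sq, h.z_comm, hcent,
      fun x hx y hy => h.comm hx hy, h.sq, q, hq, _, hs, fun e => h.z_ne (by
        rw [e, mul_inv_cancel_right] at hqs
        exact mul_left_cancel (a := g * z * g⁻¹) (by rw [← hqs, mul_one]))⟩
    have hLX : CL.LX.LX Q z := ⟨hES, fun x hx => hcent x (h.self_cent x hx) hx, h.norm⟩
    by_cases hab : ∀ x ∈ Q, ∀ y ∈ Q, (g * z * g⁻¹) * x = x * (g * z * g⁻¹) →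
        (g * z * g⁻¹) * y = y * (g * z * g⁻¹) → x * y = y * x
    · have h8 := fun c => hLX.pow_eight_of_abelian (c := c) hs hP.z_ne hsz hP.z_sq hab
      refine mem_cj.mpr (h.two h8 _ ?_)
      have := h.z_comm _ hs
      calc g⁻¹ * z * g * z = g⁻¹ * (z * (g * z * g⁻¹)) * g := by group
        _ = _ := by rw [← this]; group
    · push Not at hab
      exact hLX.symm hs hab


/-- Let G be a finite group and let z be an involution of G such that Q, the generalized Fitting subgroup of the centralizer C of z, is a 2-group of symplectic type (every characteristic abelian subgroup of Q is cyclic); suppose every element of Q has order dividing 4. Let g ∈ G with z' = g z g⁻¹ ≠ z and z' ∈ Q. Then z lies in the conjugate g Q g⁻¹, and the subgroup X generated by Q and g Q g⁻¹ induces every automorphism of the four-group generated by z and z': for any two distinct non-identity elements u, v of that four-group there is x ∈ X with x z x⁻¹ = u and x z' x⁻¹ = v. -/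
theorem result {G : Type*} [Group G] [Finite G] (z : G) (hz : orderOf z = 2) (hQ : Cfsg.IsOfSymplecticType ↥(Cfsg.generalizedFittingSubgroup ↥(Subgroup.centralizer ({z} : Set G))))
    (h4 : ∀ q ∈ (Cfsg.generalizedFittingSubgroup ↥(Subgroup.centralizer ({z} : Set G))).map (Subgroup.centralizer ({z} : Set G)).subtype, q ^ 4 = 1) (g : G) (hne : g * z * g⁻¹ ≠ z) (hin : g * z * g⁻¹ ∈ (Cfsg.generalizedFittingSubgroup ↥(Subgroup.centralizer ({z} : Set G))).map (Subgroup.centralizer ({z} : Set G)).subtype) :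
    z ∈ ((Cfsg.generalizedFittingSubgroup ↥(Subgroup.centralizer ({z} : Set G))).map (Subgroup.centralizer ({z} : Set G)).subtype).map (MulAut.conj g).toMonoidHom ∧
      ∀ u ∈ Subgroup.closure ({z, g * z * g⁻¹} : Set G), ∀ v ∈ Subgroup.closure ({z, g * z * g⁻¹} : Set G),
        u ≠ 1 → v ≠ 1 → u ≠ v →
          ∃ x ∈ (Cfsg.generalizedFittingSubgroup ↥(Subgroup.centralizer ({z} : Set G))).map (Subgroup.centralizer ({z} : Set G)).subtype ⊔ ((Cfsg.generalizedFittingSubgroup ↥(Subgroup.centralizer ({z} : Set G))).map (Subgroup.centralizer ({z} : Set G)).subtype).map (MulAut.conj g).toMonoidHom, x * z * x⁻¹ = u ∧ x * (g * z * g⁻¹) * x⁻¹ = v := by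

  haveI : Fact (Nat.Prime 2) := ⟨Nat.prime_two⟩
  let C := Subgroup.centralizer ({z} : Set G)
  have hCm : ∀ {c : G}, c ∈ C ↔ c * z = z * c := Subgroup.mem_centralizer_singleton_iff
  have hzC : z ∈ C := hCm.mpr rfl
  have hcen : (⟨z, hzC⟩ : C) ∈ Subgroup.center C := Subgroup.mem_center_iff.mpr fun g =>
    Subtype.ext (Subgroup.mem_centralizer_singleton_iff.mp g.2)
  let z₁ : generalizedFittingSubgroup C := ⟨⟨z, hzC⟩, CL.Comp.center_le_fstar hcen⟩
  have hz₁ : z₁ ∈ Subgroup.center (generalizedFittingSubgroup C) :=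
    Subgroup.mem_center_iff.mpr fun g => Subtype.ext (Subgroup.mem_center_iff.mp hcen g)
  have hz₁o : orderOf z₁ = 2 := by rw [← Subgroup.orderOf_coe, ← Subgroup.orderOf_coe]; exact hz
  have hzQ : z ∈ (generalizedFittingSubgroup C).map C.subtype := ⟨z₁, z₁.2, rfl⟩
  have h : SY ((generalizedFittingSubgroup C).map C.subtype) z := by
    refine ⟨hzQ, CL.LX.ne_one_of_orderOf hz, CL.LX.sq_of_orderOf hz, ?_, ?_, ?_, ?_, ?_, ?_⟩
    · rintro _ ⟨x, -, rfl⟩; exact hCm.mp x.2
    · rintro _ ⟨x, hx, rfl⟩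
      rcases sq_cases hQ hz₁ hz₁o (fun y => Subtype.ext (Subtype.ext (h4 _ ⟨y, y.2, rfl⟩))) ⟨x, hx⟩
        with e | e
      · left; exact congrArg (fun y : generalizedFittingSubgroup C => ((y : C) : G)) e
      · right; exact congrArg (fun y : generalizedFittingSubgroup C => ((y : C) : G)) e
    · rintro _ ⟨x, hx, rfl⟩ hc hxx
      by_cases h1 : (x : G) = 1
      · exact Or.inl h1
      right
      have := Cfsg.Agent.S1755.eq_of_char hQ hz₁ hz₁o (B := Subgroup.center _) inferInstance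
        inferInstance (a := ⟨x, hx⟩)
        (Subgroup.mem_center_iff.mpr fun y => Subtype.ext (Subtype.ext (hc _ ⟨y, y.2, rfl⟩).symm))
        (by rw [← Subgroup.orderOf_coe, ← Subgroup.orderOf_coe]; exact CL.LX.orderOf_eq_two_of h1 hxx)
      exact congrArg (fun y : generalizedFittingSubgroup C => ((y : C) : G)) this
    · intro c hc y hy
      exact conj_mem_of_normalizes (CL.Comp.le_normalizer_fstarOf C) (hCm.mpr hc) hy
    · intro x hx
      exact CL.Comp.inf_centralizer_fstarOf_le C ⟨hCm.mpr (hx z hzQ),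
        Subgroup.mem_centralizer_iff.mpr fun y hy => (hx y hy).symm⟩
    · intro h8 c hc
      refine ⟨⟨c, hCm.mpr hc⟩, CL.Comp.pCore_le_fstar 2 (CL.le_pCore (N := ⊤) ?_ (Subgroup.mem_top _)), rfl⟩
      exact fun x => ⟨3, Subtype.ext (Subtype.ext (h8 _ (hCm.mp x.1.2)))⟩
  change z ∈ g •ᶜ ((generalizedFittingSubgroup C).map C.subtype) ∧ ∀ u ∈ _, ∀ v ∈ _, _ → _ → _ →
    ∃ x ∈ ((generalizedFittingSubgroup C).map C.subtype) ⊔ g •ᶜ ((generalizedFittingSubgroup C).map C.subtype), _
  change _ ∈ (generalizedFittingSubgroup C).map C.subtype at hin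
  generalize (generalizedFittingSubgroup C).map C.subtype = Q at *
  have hzP := h.symm hin hne
  have hP := h.conj g
  refine ⟨hzP, ?_⟩
  set s := g * z * g⁻¹ with hs
  set P := g •ᶜ Q
  obtain ⟨q, hq, hqs⟩ := h.exists_conj hin hP.z_ne hne hP.z_sq
  obtain ⟨p, hp, hpz⟩ := hP.exists_conj hzP h.z_ne hne.symm h.z_sq
  have hzs : z * s = s * z := (h.z_comm s hin).symm
  have hps : p * s * p⁻¹ = s := by rw [hP.z_comm p hp]; group
  have hqz : q * z * q⁻¹ = z := by rw [h.z_comm q hq]; group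
  rw [← hzs] at hqs
  have hqzs : q * (z * s) * q⁻¹ = s := by
    calc q * (z * s) * q⁻¹ = (q * z * q⁻¹) * (q * s * q⁻¹) := by group
      _ = s := by rw [hqz, hqs, ← mul_assoc, h.z_sq, one_mul]
  have hpzs : p * (z * s) * p⁻¹ = z := by
    calc p * (z * s) * p⁻¹ = (p * z * p⁻¹) * (p * s * p⁻¹) := by group
      _ = z := by rw [hpz, hps, mul_assoc, hP.z_sq, mul_one]
  have hmem : ∀ u ∈ Subgroup.closure ({z, s} : Set G), u = 1 ∨ u = z ∨ u = s ∨ u = z * s := by
    intro u hu
    have a1 : z * (z * s) = s := by rw [← mul_assoc, h.z_sq, one_mul]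
    have a2 : s * (z * s) = z := by rw [hzs, ← mul_assoc, hP.z_sq, one_mul]
    have a3 : z * s * z = s := by rw [mul_assoc, ← hzs, a1]
    have a4 : z * s * s = z := by rw [mul_assoc, hP.z_sq, mul_one]
    have a5 : z * s * (z * s) = 1 := by rw [← mul_assoc, a3, hP.z_sq]
    induction hu using Subgroup.closure_induction with
    | mem x hx => rcases hx with rfl | rfl <;> simp
    | one => simp
    | mul x y _ _ hx hy =>
      rcases hx with rfl | rfl | rfl | rfl <;> rcases hy with rfl | rfl | rfl | rfl <;>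
        simp only [mul_one, one_mul, h.z_sq, hP.z_sq, a1, a2, a3, a4, a5, ← hzs, true_or, or_true]
    | inv x _ hx =>
      rcases hx with rfl | rfl | rfl | rfl
      · simp
      · rw [inv_eq_of_mul_eq_one_right h.z_sq]; simp
      · rw [inv_eq_of_mul_eq_one_right hP.z_sq]; simp
      · rw [inv_eq_of_mul_eq_one_right a5]; simp
  have mq : q ∈ Q ⊔ P := Subgroup.mem_sup_left hq
  have mp : p ∈ Q ⊔ P := Subgroup.mem_sup_right hp
  have cc : ∀ a b x : G, a * b * x * (a * b)⁻¹ = a * (b * x * b⁻¹) * a⁻¹ := fun a b x => by group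
  intro u hu v hv hu1 hv1 huv
  rcases hmem u hu with rfl | hu | hu | hu
  · exact absurd rfl hu1
  all_goals rcases hmem v hv with rfl | hv | hv | hv
  all_goals first | exact absurd rfl hv1 | exact absurd (hu.trans hv.symm) huv | rw [hu, hv]
  · exact ⟨1, one_mem _, by group, by group⟩
  · exact ⟨q, mq, hqz, hqs⟩
  · exact ⟨p * (q * p), mul_mem mp (mul_mem mq mp), by rw [cc, cc, hpz, hqzs, hps],
      by rw [cc, cc, hps, hqs, hpzs]⟩
  · exact ⟨q * p, mul_mem mq mp, by rw [cc, hpz, hqzs], by rw [cc, hps, hqs]⟩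
  · exact ⟨p * q, mul_mem mp mq, by rw [cc, hqz, hpz], by rw [cc, hqs, hpzs]⟩
  · exact ⟨p, mp, hpz, hps⟩

end Cfsg.Agent.S1774
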