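import Cfsg.Statements.S1782
import Cfsg.Agent.TECH.Conj
import Cfsg.Agent.S1757

set_option autoImplicit false
open Cfsg

namespace Cfsg.Agent.S1782

open CL.MSS

theorem comm_of_commutator_eq_bot {G : Type*} [Group G] {A B : Subgroup G} (h : ⁅A, B⁆ = ⊥)
    {a b : G} (ha : a ∈ A) (hb : b ∈ B) : a * b = b * a :=
  ((Subgroup.commutator_eq_bot_iff_le_centralizer.1 h) ha b hb).symm

/-- A proper subgroup of a `p`-subgroup `L` lies in a proper subgroup normalized by `L`. -/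
theorem exists_normal_lt {G : Type*} [Group G] [Finite G] {p : ℕ} [Fact p.Prime] {X L : Subgroup G}
    (hL : IsPGroup p L) (h : X < L) :
    ∃ M : Subgroup G, X ≤ M ∧ M < L ∧ L ≤ Subgroup.normalizer (M : Set G) := by
  obtain ⟨M, hXM, hM⟩ := Finite.exists_le_maximal (p := fun M : Subgroup G => M < L) h
  refine ⟨M, hXM, hM.prop, ?_⟩
  have h1 := lt_inf_normalizer_of_lt hL hM.prop
  by_contra hn
  have h2 : L ⊓ Subgroup.normalizer (M : Set G) < L :=
    lt_of_le_of_ne inf_le_left fun h => hn (by rw [← h]; exact inf_le_right)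
  exact h1.not_ge (hM.le_of_ge h2 h1.le)

theorem frattini_eq_bot_of_sq {R : Type*} [Group R] [Finite R] (h : ∀ r : R, r * r = 1) :
    frattini R = ⊥ := by
  have hinv : ∀ r : R, r⁻¹ = r := fun r => inv_eq_of_mul_eq_one_right (h r)
  have hcomm : ∀ a b : R, a * b = b * a := fun a b => by
    rw [← hinv (a * b), mul_inv_rev, hinv, hinv]
  rw [eq_bot_iff]
  intro x hx
  rw [Subgroup.mem_bot]
  by_contra hx1
  obtain ⟨H, -, hH⟩ := Finite.exists_le_maximal (p := fun H : Subgroup R => x ∉ H) (a := ⊥)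
    (by simpa using hx1)
  have hco : IsCoatom H := by
    refine ⟨fun h => hH.prop (h ▸ Subgroup.mem_top x), fun K hK => ?_⟩
    have hxK : x ∈ K := by
      by_contra hxK
      exact hK.not_ge (hH.le_of_ge hxK hK.le)
    rw [eq_top_iff]
    intro y _
    by_cases hy : y ∈ H
    · exact hK.le hy
    let H' : Subgroup R :=
      { carrier := {g | g ∈ H ∨ g * y ∈ H}
        one_mem' := Or.inl H.one_mem
        mul_mem' := by
          rintro a b (ha | ha) (hb | hb)
          · exact Or.inl (H.mul_mem ha hb)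
          · exact Or.inr (by rw [mul_assoc]; exact H.mul_mem ha hb)
          · refine Or.inr ?_
            have : a * b * y = a * y * b := by rw [mul_assoc, hcomm b y, mul_assoc]
            rw [this]; exact H.mul_mem ha hb
          · refine Or.inl ?_
            have : a * b = a * y * (b * y) := by
              rw [hcomm b y, ← mul_assoc, mul_assoc a y y, h y, mul_one]
            rw [this]; exact H.mul_mem ha hb
        inv_mem' := by
          intro a ha
          rw [hinv]; exact ha }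
    have hle : H ≤ H' := fun g hg => Or.inl hg
    have hxH' : x ∈ H' := by
      by_contra hx'
      exact hy (hH.le_of_ge hx' hle (Or.inr (by rw [h y]; exact H.one_mem)))
    rcases hxH' with h1 | h1
    · exact absurd h1 hH.prop
    · have := K.mul_mem (K.inv_mem hxK) (hK.le h1)
      simpa using this
  exact hH.prop (frattini_le_coatom hco hx)

theorem inf_normalizer_eq_bot {S : Type*} [Group S] [Finite S] (hS : IsPGroup 2 S) {R T : Subgroup S}
    (hR : ∀ g : S, g •ᶜ R = R ∨ g •ᶜ R ⊓ R = ⊥) (hT : ∀ g : S, g •ᶜ T = T ∨ g •ᶜ T ⊓ T = ⊥)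
    (hc : ∀ t ∈ T, t •ᶜ R ≠ R → ⁅t •ᶜ R, R⁆ = ⊥)
    (h1 : ¬ T ≤ Subgroup.normalizer (R : Set S)) (h2 : ¬ R ≤ Subgroup.normalizer (T : Set S)) :
    R ⊓ Subgroup.normalizer (T : Set S) = ⊥ := by
  obtain ⟨t, ht, htN⟩ := SetLike.not_le_iff_exists.1 h1
  have htR : t •ᶜ R ≠ R := fun h => htN (mem_normalizer_iff_cj.2 h)
  have claim : ∀ r₀ ∈ R, r₀ ∈ Subgroup.normalizer (T : Set S) → r₀ ≠ 1 →
      ∀ r ∈ R, r * r₀ = r₀ * r → r ∈ Subgroup.normalizer (T : Set S) := by
    intro r₀ hr₀ hr₀N hr₀1 r hr hcomm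
    by_contra hrN
    have hrT : r •ᶜ T ≠ T := fun h => hrN (mem_normalizer_iff_cj.2 h)
    have c := comm_of_commutator_eq_bot (hc t ht htR) (conj_mem_cj (g := t) hr₀) hr
    have hw : r₀⁻¹ * (t * r₀ * t⁻¹) ∈ T := by
      have := (Subgroup.mem_normalizer_iff''.1 hr₀N t).1 ht
      have h3 := T.mul_mem this (T.inv_mem ht)
      simpa only [mul_assoc] using h3
    have hw2 : r * (r₀⁻¹ * (t * r₀ * t⁻¹)) * r⁻¹ = r₀⁻¹ * (t * r₀ * t⁻¹) := by
      have hc' : r * r₀⁻¹ = r₀⁻¹ * r := by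
        calc r * r₀⁻¹ = r₀⁻¹ * (r₀ * r) * r₀⁻¹ := by group
          _ = r₀⁻¹ * (r * r₀) * r₀⁻¹ := by rw [hcomm]
          _ = r₀⁻¹ * r := by group
      calc r * (r₀⁻¹ * (t * r₀ * t⁻¹)) * r⁻¹ = (r * r₀⁻¹) * (t * r₀ * t⁻¹) * r⁻¹ := by group
        _ = r₀⁻¹ * (r * (t * r₀ * t⁻¹)) * r⁻¹ := by rw [hc']; group
        _ = r₀⁻¹ * ((t * r₀ * t⁻¹) * r) * r⁻¹ := by rw [c]
        _ = _ := by group
    have hw3 : r₀⁻¹ * (t * r₀ * t⁻¹) ∈ (r •ᶜ T) ⊓ T := ⟨hw2 ▸ conj_mem_cj hw, hw⟩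
    rw [(hT r).resolve_left hrT, Subgroup.mem_bot, inv_mul_eq_one] at hw3
    have hw4 : r₀ ∈ (t •ᶜ R) ⊓ R := ⟨hw3 ▸ conj_mem_cj hr₀, hr₀⟩
    rw [(hR t).resolve_left htR, Subgroup.mem_bot] at hw4
    exact hr₀1 hw4
  by_contra hne
  obtain ⟨⟨r₀, hr₀, hr₀N⟩, hr₀1⟩ := (Subgroup.ne_bot_iff_exists_ne_one).1 hne
  have hr₀1' : r₀ ≠ 1 := fun h => hr₀1 (Subtype.ext h)
  have hRne : R ≠ ⊥ := fun h => hr₀1' (by
    have : r₀ ∈ R := hr₀
    rwa [h, Subgroup.mem_bot] at this)
  have hz := inf_centralizer_ne_bot (hS.to_subgroup R) (hS.to_subgroup R) Subgroup.le_normalizer hRne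
  obtain ⟨⟨z, hz1, hz2⟩, hz3⟩ := (Subgroup.ne_bot_iff_exists_ne_one).1 hz
  have hz3' : z ≠ 1 := fun h => hz3 (Subtype.ext h)
  have hzN := claim r₀ hr₀ hr₀N hr₀1' z hz1 (hz2 r₀ hr₀).symm
  exact h2 fun r hr => claim z hz1 hzN hz3' r hr (hz2 r hr)

/-- Let S be a finite 2-group and Δ a set of subgroups of S closed under conjugation by S, all of the same order, each with nontrivial Frattini subgroup, and such that two distinct members of Δ meet trivially. Then any two distinct members of Δ commute elementwise. -/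
theorem result {S : Type*} [Group S] [Finite S] (hS : IsPGroup 2 S)
    (Δ : Set (Subgroup S)) (hinv : ∀ s : S, ∀ R ∈ Δ, R.map (MulAut.conj s).toMonoidHom ∈ Δ)
    (hΦ : ∀ R ∈ Δ, frattini ↥R ≠ ⊥) (hord : ∀ R ∈ Δ, ∀ T ∈ Δ, Nat.card ↥R = Nat.card ↥T)
    (hti : ∀ R ∈ Δ, ∀ T ∈ Δ, R = T ∨ R ⊓ T = ⊥) :
    ∀ R ∈ Δ, ∀ T ∈ Δ, R ≠ T → ⁅R, T⁆ = ⊥ := by
  have key : ∀ n : ℕ, ∀ L : Subgroup S, Nat.card L = n →
      ∀ R ∈ Δ, ∀ T ∈ Δ, R ≤ L → T ≤ L → R ≠ T → ⁅R, T⁆ = ⊥ := by
    intro n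
    induction n using Nat.strong_induction_on with
    | _ n ih =>
    intro L hL R hR T hT hRL hTL hne
    -- distinct `L`-conjugates of a proper member commute
    have hconj : ∀ X ∈ Δ, X < L → ∀ l ∈ L, l •ᶜ X ≠ X → ⁅l •ᶜ X, X⁆ = ⊥ := by
      intro X hX hXL l hl hlX
      obtain ⟨M, hXM, hML, hLM⟩ := exists_normal_lt (hS.to_subgroup L) hXL
      exact ih _ (hL ▸ CL.card_lt_of_lt hML) M rfl _ (hinv l X hX) X hX
        (cj_le_of_mem_normalizer hXM (hLM hl)) hXM hlX
    have hlt : ∀ X ∈ Δ, ∀ Y ∈ Δ, X ≤ L → Y ≤ L → X ≠ Y → X < L := by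
      intro X hX Y hY hXL hYL hXY
      refine lt_of_le_of_ne hXL fun h => hXY ?_
      exact (Subgroup.eq_of_le_of_card_ge (h ▸ hYL) (hord X hX Y hY).le).symm
    have hRlt := hlt R hR T hT hRL hTL hne
    have hTlt := hlt T hT R hR hTL hRL hne.symm
    have hti' : ∀ X ∈ Δ, ∀ g : S, g •ᶜ X = X ∨ g •ᶜ X ⊓ X = ⊥ := fun X hX g =>
      hti _ (hinv g X hX) X hX
    have hRT : R ⊓ T = ⊥ := (hti R hR T hT).resolve_left hne
    by_cases h1 : T ≤ Subgroup.normalizer (R : Set S)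
    · exact Cfsg.Agent.S1757.result 2 R T (hS.to_subgroup R) (hS.to_subgroup T) (hti' R hR)
        (hti' T hT) (hord R hR T hT).le hRT h1
    by_cases h2 : R ≤ Subgroup.normalizer (T : Set S)
    · rw [Subgroup.commutator_comm]
      exact Cfsg.Agent.S1757.result 2 T R (hS.to_subgroup T) (hS.to_subgroup R) (hti' T hT)
        (hti' R hR) (hord T hT R hR).le (by rw [inf_comm]; exact hRT) h2
    exfalso
    have hR0 := inf_normalizer_eq_bot hS (hti' R hR) (hti' T hT)
      (fun t ht => hconj R hR hRlt t (hTL ht)) h1 h2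
    have hT0 := inf_normalizer_eq_bot hS (hti' T hT) (hti' R hR)
      (fun t ht => hconj T hT hTlt t (hRL ht)) h2 h1
    -- an involution of `T`
    have hTne : T ≠ ⊥ := by
      rintro rfl
      exact h1 bot_le
    have hdvd : 2 ∣ Nat.card T := by
      rcases (hS.to_subgroup T).card_eq_or_dvd with h | h
      · exact absurd (Subgroup.card_eq_one.1 h) hTne
      · exact h
    obtain ⟨t, ht⟩ := exists_prime_orderOf_dvd_card' 2 hdvd
    have ht2 : (t : S) * t = 1 := by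
      have := pow_orderOf_eq_one t
      rw [ht, pow_two] at this
      exact congrArg Subtype.val this
    have ht1 : (t : S) ≠ 1 := by
      intro h
      have : t = 1 := Subtype.ext h
      rw [this, orderOf_one] at ht
      omega
    have htinv : (t : S)⁻¹ = t := inv_eq_of_mul_eq_one_right ht2
    have htR : (t : S) •ᶜ R ≠ R := by
      intro h
      have : (t : S) ∈ T ⊓ Subgroup.normalizer (R : Set S) := ⟨t.2, mem_normalizer_iff_cj.2 h⟩
      rw [hT0, Subgroup.mem_bot] at this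
      exact ht1 this
    apply hΦ R hR
    apply frattini_eq_bot_of_sq
    intro r
    by_contra hr2
    have hr1 : (r : S) ≠ 1 := by
      intro h
      have : r = 1 := Subtype.ext h
      rw [this] at hr2
      simp at hr2
    have hrT : (r : S) •ᶜ T ≠ T := by
      intro h
      have : (r : S) ∈ R ⊓ Subgroup.normalizer (T : Set S) := ⟨r.2, mem_normalizer_iff_cj.2 h⟩
      rw [hR0, Subgroup.mem_bot] at this
      exact hr1 this
    have c1 := comm_of_commutator_eq_bot (hconj T hT hTlt r (hRL r.2) hrT)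
      (conj_mem_cj (g := (r : S)) t.2) t.2
    have c2 := comm_of_commutator_eq_bot (hconj R hR hRlt t (hTL t.2) htR)
      (conj_mem_cj (g := (t : S)) r.2) r.2
    set s : S := t * r * (t : S)⁻¹ with hs
    -- r t r⁻¹ t = t r t r⁻¹, i.e. r s⁻¹ = s r⁻¹
    have h3 : (r : S) * s⁻¹ = s * (r : S)⁻¹ := by
      rw [hs, mul_inv_rev, mul_inv_rev, inv_inv, htinv]
      simpa only [mul_assoc] using c1
    have h4 : (r : S) * r = s * s := by
      calc (r : S) * r = (r * s⁻¹) * (s * r) := by group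
        _ = (s * (r : S)⁻¹) * (r * s) := by rw [h3, c2]
        _ = s * s := by group
    have h5 : (r : S) * r ∈ ((t : S) •ᶜ R) ⊓ R := by
      refine ⟨?_, R.mul_mem r.2 r.2⟩
      rw [h4]
      exact Subgroup.mul_mem _ (conj_mem_cj r.2) (conj_mem_cj r.2)
    rw [(hti' R hR t).resolve_left htR, Subgroup.mem_bot] at h5
    exact hr2 (Subtype.ext h5)
  intro R hR T hT hne
  exact key _ ⊤ rfl R hR T hT le_top le_top hne

end Cfsg.Agent.S1782
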