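import Cfsg.Statements.S1783
import Mathlib
import Cfsg.Agent.S1782
import Cfsg.Agent.SIG.FStar
import Cfsg.Agent.SOLV.Frattini
import Cfsg.Agent.PLOC.PFrattini
import Cfsg.Agent.TECH.Conj

set_option autoImplicit false
open Cfsg

namespace Cfsg.Agent.S1783


open CL.MSS
open scoped commutatorElement

theorem amb {G : Type*} [Group G] [Finite G] {S : Subgroup G} (hS : IsPGroup 2 S) {A : Subgroup G}
    (hAa : IsMulCommutative A) (hx : ∃ a ∈ A, a ^ 2 ≠ 1)
    (hti : ∀ h : G, h •ᶜ A = A ∨ h •ᶜ A ⊓ A = ⊥) {g h : G} (hg : g •ᶜ A ≤ S) (hh : h •ᶜ A ≤ S)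
    {x y : G} (hx' : x ∈ g •ᶜ A) (hy : y ∈ h •ᶜ A) : x * y = y * x := by
  haveI : Fact (Nat.Prime 2) := ⟨Nat.prime_two⟩
  have hti' : ∀ g h : G, g •ᶜ A = h •ᶜ A ∨ g •ᶜ A ⊓ h •ᶜ A = ⊥ := by
    intro g h
    have e : g •ᶜ A = h •ᶜ ((h⁻¹ * g) •ᶜ A) := by rw [← cj_mul, mul_inv_cancel_left]
    rcases hti (h⁻¹ * g) with e1 | e1
    · left; rw [e, e1]
    · right; rw [e, ← cj_inf, e1, cj_bot]
  by_cases hgh : g •ᶜ A = h •ᶜ A
  · rw [← hgh] at hy
    haveI := isMulCommutative_cj g hAa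
    exact setLike_mul_comm hx' hy
  have hinj := Subgroup.map_injective S.subtype_injective
  have key := Cfsg.Agent.S1782.result hS {R : Subgroup S | ∃ g : G, R.map S.subtype = g •ᶜ A}
    (by
      rintro s R ⟨g, hg⟩
      exact ⟨s * g, by rw [subtype_map_cj, hg, cj_mul]⟩)
    (by
      rintro R ⟨g, hg⟩ hb
      obtain ⟨a, ha, ha2⟩ := hx
      have h2 := ((CL.PG.frattini_eq_bot_iff (hS.to_subgroup R)).mp hb).2
      have := conj_mem_cj (g := g) ha
      rw [← hg] at this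
      obtain ⟨r, hr, e⟩ := this
      have e2 : (r : G) ^ 2 = 1 := congrArg (fun y : R => ((y : S) : G)) (h2 ⟨r, hr⟩)
      rw [show (r : G) = g * a * g⁻¹ from e, conj_pow] at e2
      exact ha2 (by simpa using e2))
    (by
      rintro R ⟨g, hg⟩ T ⟨h, hh⟩
      rw [← Subgroup.card_map_of_injective (K := R) S.subtype_injective,
        ← Subgroup.card_map_of_injective (K := T) S.subtype_injective, hg, hh, card_cj, card_cj])
    (by
      rintro R ⟨g, hg⟩ T ⟨h, hh⟩
      rcases hti' g h with e | e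
      · left; exact hinj (by rw [hg, hh, e])
      · right; exact hinj (by rw [Subgroup.map_inf _ _ _ S.subtype_injective, hg, hh, e, Subgroup.map_bot]))
    ((g •ᶜ A).subgroupOf S) ⟨g, Subgroup.map_subgroupOf_eq_of_le hg⟩
    ((h •ᶜ A).subgroupOf S) ⟨h, Subgroup.map_subgroupOf_eq_of_le hh⟩
    (fun e => hgh (by
      rw [← Subgroup.map_subgroupOf_eq_of_le hg, e, Subgroup.map_subgroupOf_eq_of_le hh]))
  exact congrArg Subtype.val (Cfsg.Agent.S1782.comm_of_commutator_eq_bot key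
    (a := ⟨x, hg hx'⟩) (b := ⟨y, hh hy⟩) hx' hy)


/-- Let X be a finite group whose generalized Fitting subgroup equals its largest normal 2-subgroup Q, and let A be an abelian 2-subgroup of X such that every conjugate of A equals A or meets A trivially. Let B be the subgroup generated by the squares of the elements of A. Then B lies in Q, and if B is not an elementary abelian 2-group then the normal closure of B in X is commutative. -/
theorem result {X : Type*} [Group X] [Finite X]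
    (hX : Cfsg.generalizedFittingSubgroup X = Cfsg.pCore 2 X) (A : Subgroup X) (hA2 : IsPGroup 2 ↥A) (hAa : IsMulCommutative ↥A)
    (hti : ∀ h : X, A.map (MulAut.conj h).toMonoidHom = A ∨ A.map (MulAut.conj h).toMonoidHom ⊓ A = ⊥) :
    Subgroup.closure ((fun a : X => a ^ 2) '' (A : Set X)) ≤ Cfsg.pCore 2 X ∧
      (¬ Cfsg.IsElementaryAbelian 2 (Subgroup.closure ((fun a : X => a ^ 2) '' (A : Set X))) →
        IsMulCommutative ↥(Subgroup.normalClosure ((fun a : X => a ^ 2) '' (A : Set X)))) := by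

  haveI : Fact (Nat.Prime 2) := ⟨Nat.prime_two⟩
  have hcomm : ∀ a ∈ A, ∀ b ∈ A, a * b = b * a := fun a ha b hb =>
    setLike_mul_comm ha hb
  set B := Subgroup.closure ((fun a : X => a ^ 2) '' (A : Set X)) with hB
  have hBA : B ≤ A := (Subgroup.closure_le _).mpr (by rintro _ ⟨a, ha, rfl⟩; exact A.pow_mem ha 2)
  have hQ2 : IsPGroup 2 (pCore 2 X) := CL.isPGroup_pCore 2 X
  haveI : (pCore 2 X).Normal := hX ▸ CL.Comp.fstar_normal
  have hBQ : B ≤ pCore 2 X := by
    refine (Subgroup.closure_le _).mpr ?_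
    rintro _ ⟨a, ha, rfl⟩
    by_cases hx : ∃ a ∈ A, a ^ 2 ≠ 1
    swap
    · push Not at hx
      show a ^ 2 ∈ pCore 2 X
      rw [hx a ha]; exact one_mem _
    have hS : IsPGroup 2 (A ⊔ pCore 2 X : Subgroup X) := hA2.to_sup_of_normal_right hQ2
    refine CL.le_pCore_of_commutator_le_frattini (CL.Comp.fstar_eq_pCore_iff_centralizer.mp hX)
      (H := Subgroup.zpowers (a ^ 2)) ?_ (Subgroup.mem_zpowers _)
    rw [Subgroup.commutator_le]
    rintro q hq _ ⟨k, rfl⟩
    have hb : a ^ k ∈ A := A.zpow_mem ha k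
    have e : (a ^ 2) ^ k = (a ^ k) ^ 2 := by rw [← zpow_natCast, ← zpow_natCast, ← zpow_mul, ← zpow_mul, mul_comm]
    show ⁅q, (a ^ 2) ^ k⁆ ∈ _
    rw [e]
    generalize a ^ k = b at hb
    have h1 : (q * b * q⁻¹) * b = b * (q * b * q⁻¹) :=
      amb hS hAa hx hti (g := q) (h := 1) (cj_le_of_mem le_sup_left (Subgroup.mem_sup_right hq))
        (by rw [cj_one]; exact le_sup_left) (conj_mem_cj hb) (by rw [cj_one]; exact hb)
    have h2 : ⁅q, b ^ 2⁆ = (q * b * q⁻¹ * b⁻¹) ^ 2 := by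
      rw [commutatorElement_def, pow_two, pow_two]
      calc q * (b * b) * q⁻¹ * (b * b)⁻¹ = q * b * q⁻¹ * b⁻¹ * (b * (q * b * q⁻¹)) * b⁻¹ * b⁻¹ := by group
        _ = _ := by rw [← h1]; group
    rw [h2]
    refine CL.PG.pow_mem_frattini_map hQ2 ?_
    have := (pCore 2 X).mul_mem hq ((inferInstance : (pCore 2 X).Normal).conj_mem _ ((pCore 2 X).inv_mem hq) b)
    simpa [mul_assoc] using this
  refine ⟨hBQ, fun hne => ?_⟩
  have hBa : IsMulCommutative B := ⟨⟨fun x y => Subtype.ext (hcomm _ (hBA x.2) _ (hBA y.2))⟩⟩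
  have hx : ∃ a ∈ B, a ^ 2 ≠ 1 := by
    by_contra h
    push Not at h
    exact hne ⟨hBa, h⟩
  have htiB : ∀ h : X, h •ᶜ B = B ∨ h •ᶜ B ⊓ B = ⊥ := by
    intro h
    rcases hti h with e | e
    · left
      apply cj_eq_of_le
      rw [hB, cj_closure, Subgroup.closure_le]
      rintro _ ⟨_, ⟨a, ha, rfl⟩, rfl⟩
      exact Subgroup.subset_closure ⟨h * a * h⁻¹, e ▸ conj_mem_cj ha, conj_pow⟩
    · right
      exact le_bot_iff.mp (e ▸ inf_le_inf (cj_mono h hBA) hBA)
  have hcl : ∀ g : X, g •ᶜ B ≤ pCore 2 X := fun g => by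
    rw [← cj_eq_of_normal g (pCore 2 X)]; exact cj_mono g hBQ
  refine CL.Comp.isMulCommutative_of_le_centralizer ?_
  rw [Subgroup.normalClosure, Subgroup.centralizer_closure, Subgroup.closure_le]
  intro x hx1
  refine Subgroup.mem_centralizer_iff.mpr fun y hy => ?_
  obtain ⟨x', hx', hc⟩ := Group.mem_conjugatesOfSet_iff.mp hx1
  obtain ⟨y', hy', hc'⟩ := Group.mem_conjugatesOfSet_iff.mp hy
  obtain ⟨g, rfl⟩ := isConj_iff.mp hc
  obtain ⟨h, rfl⟩ := isConj_iff.mp hc'
  exact amb hQ2 hBa hx htiB (hcl h) (hcl g) (conj_mem_cj (Subgroup.subset_closure hy'))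
    (conj_mem_cj (Subgroup.subset_closure hx'))

end Cfsg.Agent.S1783
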