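import Cfsg.Statements.S1786
import Cfsg.Agent.TECH.LargeTI3
import Cfsg.Agent.PLOC.PFrattini
import Cfsg.Agent.SIG.FStar

set_option autoImplicit false
open Cfsg

namespace Cfsg.Agent.S1786

open Subgroup CL.MSS CL.LTI
open scoped commutatorElement MatrixGroups


/-- Let G be a finite group, V an elementary abelian 2-subgroup of G and M the normalizer of V; write Q for the largest normal 2-subgroup of M. Suppose (1) the generalized Fitting subgroup of M equals Q; (2) V is a maximal abelian normal subgroup of M; (3) every conjugate of V equals V or meets V trivially, and for some g ∈ G the conjugate V' = g V g⁻¹ is different from V and contained in Q. Let P be the centralizer of V in Q, W the subgroup generated by V and V', and H the subgroup generated by P and g P g⁻¹. Then: (a) V is contained in g Q g⁻¹; (b) every non-identity element of W lies in exactly one conjugate of V contained in W, H normalizes W, and H modulo the centralizer of W in H is isomorphic to the special linear group of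 dimension 2 over the field with |V| elements; (c) P = Q, and V equals the Frattini subgroup, the centre and the commutator subgroup of Q. -/
theorem result {G : Type*} [Group G] [Finite G] (V : Subgroup G)
    (hV : Cfsg.IsElementaryAbelian 2 V)
    (h1 : (Cfsg.generalizedFittingSubgroup ↥(Subgroup.normalizer (V : Set G))).map (Subgroup.normalizer (V : Set G)).subtype =
      (Cfsg.pCore 2 ↥(Subgroup.normalizer (V : Set G))).map (Subgroup.normalizer (V : Set G)).subtype)
    (h2 : ∀ A : Subgroup G, V ≤ A → A ≤ Subgroup.normalizer (V : Set G) → IsMulCommutative ↥A →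
      (∀ m ∈ Subgroup.normalizer (V : Set G), ∀ a ∈ A, m * a * m⁻¹ ∈ A) → A = V)
    (hti : ∀ x : G, V.map (MulAut.conj x).toMonoidHom = V ∨ V.map (MulAut.conj x).toMonoidHom ⊓ V = ⊥)
    (g : G) (hg : V.map (MulAut.conj g).toMonoidHom ≠ V)
    (hgQ : V.map (MulAut.conj g).toMonoidHom ≤ (Cfsg.pCore 2 ↥(Subgroup.normalizer (V : Set G))).map (Subgroup.normalizer (V : Set G)).subtype) :
    let Q : Subgroup G := (Cfsg.pCore 2 ↥(Subgroup.normalizer (V : Set G))).map (Subgroup.normalizer (V : Set G)).subtype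
    let P : Subgroup G := Q ⊓ Subgroup.centralizer (V : Set G)
    let W : Subgroup G := V ⊔ V.map (MulAut.conj g).toMonoidHom
    let H : Subgroup G := P ⊔ P.map (MulAut.conj g).toMonoidHom
    V ≤ Q.map (MulAut.conj g).toMonoidHom ∧
      (∀ w ∈ W, w ≠ 1 → ∃! U : Subgroup G, (∃ x : G, U = V.map (MulAut.conj x).toMonoidHom) ∧ U ≤ W ∧ w ∈ U) ∧
      H ≤ Subgroup.normalizer (W : Set G) ∧
      (∀ hN : ((Subgroup.centralizer (W : Set G)).subgroupOf H).Normal, ∃ (F : Type) (_ : Field F) (_ : Fintype F), Fintype.card F = Nat.card ↥V ∧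
        Nonempty (↥H ⧸ (Subgroup.centralizer (W : Set G)).subgroupOf H ≃* Matrix.SpecialLinearGroup (Fin 2) F)) ∧
      P = Q ∧ (frattini ↥Q).map Q.subtype = V ∧ (Subgroup.center ↥Q).map Q.subtype = V ∧ (commutator ↥Q).map Q.subtype = V := by
  have h : CL.LTI.LT V :=
    { sq := fun v hv => by rw [← sq]; exact hV.2 v hv
      comm := fun a ha b hb => congrArg Subtype.val (hV.1.is_comm.comm (⟨a, ha⟩ : V) ⟨b, hb⟩)
      chp := by
        rw [← chP_iff, ← map_injective (normalizer (V : Set G)).subtype_injective h1]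
        exact CL.Comp.centralizer_fstar_le
      max := fun A a1 a2 a3 a4 => h2 A a1 a2
        ⟨⟨fun a b => Subtype.ext (a3 a a.2 b b.2)⟩⟩ fun m hm a ha => conj_mem_of_normalizes a4 hm ha
      ti := hti }
  have hT : Tw V (g •ᶜ V) :=
    ⟨⟨g, rfl⟩, hg, le_inf hgQ (h.cent_of_norm hg (hgQ.trans (map_subtype_le _)))⟩
  have hs := h.symm hT
  have hPQ := h.PP_eq hT
  intro Q P W H
  have eP : P = PP V := rfl
  have eQ : Q = PP V := hPQ.symm
  have eH : H = PP V ⊔ PP (g •ᶜ V) := by rw [← PP_cj]; rfl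
  have eW : W = V ⊔ g •ᶜ V := rfl
  refine ⟨?_, ?_, ?_, ?_, hPQ, ?_, ?_, ?_⟩
  · rw [eQ, PP_cj]; exact hs.le
  · intro w hw hw1
    obtain ⟨U, hU, ho⟩ := h.exists_opp hT
    have : ∃ x : G, w ∈ x •ᶜ V := by
      rcases h.part hT hU ho hw with h3 | ⟨u, -, h3⟩
      · exact ⟨1, by rwa [cj_one]⟩
      · exact ⟨u * g, by rwa [cj_mul]⟩
    obtain ⟨x, hx⟩ := this
    refine ⟨x •ᶜ V, ⟨⟨x, rfl⟩, h.part_le hT hw hw1 hx, hx⟩, ?_⟩
    rintro _ ⟨⟨y, rfl⟩, -, hy⟩
    exact h.eq_of_mem hy hx hw1
  · rw [eH]; exact h.H_norm hT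
  · intro hN
    obtain ⟨n, hn⟩ := IsPGroup.iff_card.1 h.pgroup
    have hn0 : n ≠ 0 := by
      rintro rfl
      obtain ⟨v, hv, hv1⟩ := h.tw_exV hT
      exact hv1 (mem_bot.1 (card_eq_one.1 hn ▸ hv))
    letI : Fintype (GaloisField 2 n) := Fintype.ofFinite _
    have hF : Fintype.card (GaloisField 2 n) = Nat.card V := by
      rw [hn, ← Nat.card_eq_fintype_card, GaloisField.card 2 n hn0]
    refine ⟨GaloisField 2 n, inferInstance, inferInstance, hF, ?_⟩
    have ha := h.actsAs hT _ hF
    rw [← eH] at ha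
    obtain ⟨ρ, hρ, hk⟩ := CL.Push.actsAs_iso ha
    refine ⟨(QuotientGroup.quotientMulEquivOfEq ?_).trans
      (QuotientGroup.quotientKerEquivOfSurjective ρ hρ)⟩
    ext e
    rw [mem_subgroupOf, MonoidHom.mem_ker, hk, mem_centralizer_iff]
    simp only [mem_bot, commutatorElement_eq_one_iff_mul_comm]
    rfl
  · rw [eQ]
    have hp := PP_pgroup V
    apply le_antisymm
    · rw [map_le_iff_le_comap]
      refine (CL.PG.frattini_le_iff hp).2 ⟨?_, fun y => ?_⟩
      · rw [← map_le_iff_le_comap, map_subtype_commutator]; exact h.comm_le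
      · rw [sq]; exact h.sq_mem y.2
    · refine le_trans ?_ (map_mono (CL.PG.commutator_le_frattini hp))
      rw [map_subtype_commutator, h.comm_eq hT]
  · rw [eQ]
    apply le_antisymm
    · rintro _ ⟨z, hz, rfl⟩
      exact h.mem_of_cent z.2 fun y hy => congrArg Subtype.val (mem_center_iff.1 hz ⟨y, hy⟩)
    · intro v hv
      exact ⟨⟨v, h.le_PP hv⟩, mem_center_iff.2 fun y => Subtype.ext (PP_comm y.2 hv).symm, rfl⟩
  · rw [eQ, map_subtype_commutator, h.comm_eq hT]

end Cfsg.Agent.S1786
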