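import Cfsg.Statements.S1892
import Cfsg.Agent.TECH.SecC
import Cfsg.Agent.PLOC.PConstrained

set_option autoImplicit false
open Cfsg

namespace Cfsg.Agent.S1892

open Subgroup CL.MSS

/-- Let S be a finite p-solvable group with no nontrivial normal subgroup of order prime to p, A a p-subgroup of S, and Q a nontrivial A-invariant subgroup of order prime to p with [A, Q] = Q. Then the commutator [O_p(S), A, Q] is nontrivial. -/
theorem result {S : Type*} [Group S] [Finite S] {p : ℕ} [Fact p.Prime]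
    (hS : Cfsg.IsPSolvable p S) (hred : Cfsg.pPrimeCore p S = ⊥)
    (A Q : Subgroup S) (hA : IsPGroup p A) (hQ : ¬ p ∣ Nat.card Q) (hQ1 : Q ≠ ⊥)
    (hinv : ∀ a ∈ A, ∀ x ∈ Q, a * x * a⁻¹ ∈ Q) (hAQ : ⁅A, Q⁆ = Q) :
    ⁅⁅Cfsg.pCore p S, A⁆, Q⁆ ≠ ⊥ := by
  intro h
  have hc : (Nat.card Q).Coprime p := ((Nat.Prime.coprime_iff_not_dvd Fact.out).2 hQ).symm
  have hch := CL.PC.charP_iff_isPConstrained.2 ⟨CL.PC.isPConstrained_of_isPSolvable hS, hred⟩
  set O := Cfsg.pCore p S
  have hn : ∀ X : Subgroup S, X ≤ normalizer (O : Set S) := fun X => le_normalizer_of_normal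
  have hAQ' : A ≤ normalizer (Q : Set S) := le_normalizer_of_cj_le fun a ha =>
    cj_le_iff_forall.2 (hinv a ha)
  have h1 : ⁅O, ncl A Q⁆ ≤ centralizer (Q : Set S) :=
    commutator_ncl_le (le_normalizer_centralizer hAQ') (hn _)
      (le_normalizer_centralizer le_normalizer) (commutator_eq_bot_iff_le_centralizer.1 h)
  have h2 := CL.coprime_le_centralizer_of_commutator_le Q O (hn _)
    (CL.coprime_card_of_isPGroup pcore_isPGroup hc) (Or.inr (CL.isSolvable_of_isPGroup pcore_isPGroup))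
    ((commutator_mono le_rfl (hAQ.ge.trans (commutator_le_ncl A Q))).trans h1)
  exact hQ1 (eq_bot_of_isPGroup_of_not_dvd
    (pcore_isPGroup.to_le ((le_centralizer_symm h2).trans hch)) le_rfl hQ)

end Cfsg.Agent.S1892
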