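import Cfsg.Statements.S1893
import Cfsg.Agent.TECH.SecC
import Cfsg.Agent.TECH.PMin
import Cfsg.Agent.PLOC.QdFree
import Cfsg.Agent.SOLV.PiSep

set_option autoImplicit false
open Cfsg

namespace Cfsg.Agent.S1893

open Subgroup CL.MSS

theorem mem_fitting {G : Type*} [Group G] [Finite G] [Group.IsSolvable G] {q : ℕ} [Fact q.Prime]
    (hq : 5 ≤ q ∨ pCore q G = ⊥) {X : Subgroup G} (hX : IsPGroup q X)
    (h : ⁅⁅fittingSubgroup G, X⁆, X⁆ = ⊥) : X ≤ fittingSubgroup G := by
  set F := fittingSubgroup G with hF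
  set W := F ⊓ pPrimeCore q G with hW
  have hOF : pCore q G ≤ F := CL.pCore_le_fittingSubgroup q
  have hFW : F = pCore q G ⊔ W := by
    rw [hW, ← inf_sup_of_normalizes hOF le_normalizer_of_normal,
      inf_of_le_left (CL.fittingSubgroup_le_pCore_sup q)]
  have hXW : X ≤ centralizer (W : Set G) := le_centralizer_symm
    (CL.coprime_le_centralizer_of_commutator_le X W le_normalizer_of_normal
      (CL.coprime_card_of_isPGroup hX (CL.coprime_of_le_pPrimeCore inf_le_right)).symm
      (Or.inl (CL.isSolvable_of_isPGroup hX)) ((commutator_mono inf_le_left le_rfl).trans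
        (commutator_eq_bot_iff_le_centralizer.1 h)))
  have hC := CL.centralizer_fittingSubgroup_le G
  rcases hq with hq | hq
  · intro x hx
    obtain ⟨K, hK, hxK, h1⟩ := CL.PSt.inOp_of_not_involves (p := q) (by omega)
      (CL.PSt.not_involves_qd_of_not_involves_sl2 (CL.PSt.not_involves_sl2_of_isSolvable hq))
      pcore_isPGroup (a := x) (le_bot_iff.1 ((commutator_mono (commutator_mono hOF (zpowers_le.2 hx))
        (zpowers_le.2 hx)).trans h.le))
    set R := K ⊓ centralizer (W : Set G) with hR
    have h2 : presOf q R ≤ centralizer (R : Set G) := presOf_le_iff.2 fun g hg hg' => by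
      obtain ⟨k, hk⟩ := h1 g hg.1
      have h3 : g ∈ F := hC (by
        rw [← hF, hFW, centralizer_sup_eq]
        exact mem_inf.2 ⟨mem_of_pow_mem_of_coprime hg' hk, hg.2⟩)
      have h4 : g ∈ W := mem_inf.2 ⟨h3, CL.le_pPrimeCore_of_le_fittingSubgroup (zpowers_le.2 h3)
        (by rwa [Nat.card_zpowers]) (mem_zpowers g)⟩
      exact le_centralizer_symm (inf_le_right : R ≤ _) h4
    obtain ⟨T, hT, hxT⟩ := exists_sylIn_ge (hX.to_le (zpowers_le.2 hx))
      (zpowers_le.2 (mem_inf.2 ⟨hxK, hXW hx⟩ : x ∈ R))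
    have h3 : R ≤ normalizer (T : Set G) := by
      exact hT.presOf_sup.ge.trans (sup_le (le_normalizer_of_le_centralizer
        (h2.trans (centralizer_anti hT.le))) le_normalizer)
    exact hOF (le_pcore_of_subnormal ((CL.SnIn.of_le_normalizer hT.le h3).isSubnormal
      (Normal.isSubnormal inferInstance)) hT.pgroup (hxT (mem_zpowers x)))
  · rw [hq, bot_sup_eq] at hFW
    exact (hFW ▸ hXW).trans hC

/-- Let S be a finite solvable group, π a set of primes containing neither 2 nor 3, H a Hall π-subgroup of S, and A a self-centralizing normal subgroup of the Fitting subgroup F(H). Then C_S(A) = A × D for a normal subgroup D of C_S(A) whose order has no prime divisor in π. -/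
theorem result {S : Type*} [Group S] [Finite S] [Group.IsSolvable S]
    (π : Set ℕ) (h2 : 2 ∉ π) (h3 : 3 ∉ π) (H : Subgroup S) (hH : Cfsg.IsPiHall π H)
    (A : Subgroup S) (hA : Cfsg.IsSCN ((Cfsg.fittingSubgroup H).map H.subtype) A) :
    ∃ D : Subgroup S, D ≤ Subgroup.centralizer (A : Set S) ∧
      (∀ c ∈ Subgroup.centralizer (A : Set S), ∀ d ∈ D, c * d * c⁻¹ ∈ D) ∧
      A ⊓ D = ⊥ ∧ A ⊔ D = Subgroup.centralizer (A : Set S) ∧
      ∀ q : ℕ, q.Prime → q ∣ Nat.card D → q ∉ π := by
  obtain ⟨h1, h4, h5⟩ := hA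
  change A ≤ fittingOf H at h1
  change fittingOf H ≤ _ at h4
  change fittingOf H ⊓ _ = A at h5
  set N := piCore πᶜ S with hN
  set f := QuotientGroup.mk' N with hf
  have hs : Function.Surjective f := QuotientGroup.mk'_surjective N
  have hker : f.ker = N := QuotientGroup.ker_mk' N
  have hAH : A ≤ H := h1.trans (CL.fittingOf_le H)
  have hHN : H ⊓ N = ⊥ := disjoint_iff.1 (disjoint_of_coprime_natCard
    ((CL.isPiHall_iff.1 hH).1.coprime (CL.isPiNum_card_piCore _ _)))
  have hO : piCore πᶜ (S ⧸ N) = ⊥ := CL.piCore_quotient_piCore _ _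
  set F := fittingSubgroup (S ⧸ N) with hF
  have hFH : F ≤ H.map f := by
    refine (CL.fittingSubgroup_le_piCore_sup π).trans ?_
    rw [hO, sup_bot_eq]
    exact CL.IsPiHall.piCore_le (CL.IsPiHall.map hH hs)
  have hF0 : H ⊓ F.comap f ≤ fittingOf H := by
    refine CL.le_fittingOf inf_le_left (le_normalizer_inf le_normalizer le_normalizer_of_normal) ?_
    have : Group.IsNilpotent ((H ⊓ F.comap f).map f) := CL.isNilpotent_of_le_fittingSubgroup
      (map_le_iff_le_comap.2 inf_le_right)
    refine Subgroup.isNilpotent_of_ker_le_center (f.subgroupMap _) ?_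
    rw [ker_subgroupMap, hker, subgroupOf_eq_bot.2]
    · exact bot_le
    · exact disjoint_iff.2 (le_bot_iff.1 (le_trans (le_inf (inf_le_right.trans inf_le_left)
        inf_le_left) hHN.le))
  have hF1 : (H ⊓ F.comap f).map f = F := by
    refine le_antisymm (map_le_iff_le_comap.2 inf_le_right) fun y hy => ?_
    obtain ⟨x, hx, rfl⟩ := hFH hy
    exact mem_map_of_mem f (mem_inf.2 ⟨hx, hy⟩)
  have h6 : F ≤ normalizer ((A.map f : Subgroup (S ⧸ N)) : Set (S ⧸ N)) :=
    hF1.ge.trans ((map_mono (hF0.trans h4)).trans (le_normalizer_map f))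
  have h7 : F ⊓ centralizer ((A.map f : Subgroup (S ⧸ N)) : Set (S ⧸ N)) ≤ A.map f := by
    intro y hy
    obtain ⟨x, hx, rfl⟩ := hF1.ge hy.1
    refine mem_map_of_mem f (h5.le (mem_inf.2 ⟨hF0 hx, fun a ha => ?_⟩))
    have : (x * a)⁻¹ * (a * x) ∈ H ⊓ N := mem_inf.2 ⟨mul_mem (inv_mem (mul_mem hx.1 (hAH ha)))
      (mul_mem (hAH ha) hx.1), by
        rw [← hker, MonoidHom.mem_ker, map_mul, map_inv, map_mul, map_mul,
          hy.2 _ (mem_map_of_mem f ha), inv_mul_cancel]⟩
    rw [hHN, mem_bot, inv_mul_eq_one] at this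
    exact this.symm
  have h8 : centralizer ((A.map f : Subgroup (S ⧸ N)) : Set (S ⧸ N)) ≤ A.map f := by
    refine le_trans (le_inf ?_ le_rfl) h7
    refine CL.le_of_forall_isPGroup_le fun q _ P => ?_
    have hX := sylIn_map_subtype P
    refine mem_fitting (q := q) ?_ hX.pgroup ?_
    · by_cases hq : q ∈ π
      · left
        have hq' : q.Prime := Fact.out
        have := hq'.two_le
        by_contra h9
        interval_cases q
        exacts [h2 hq, h3 hq, absurd hq' (by decide)]
      · right
        rw [eq_bot_iff, ← hO]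
        exact CL.pCore_le_piCore hq
    · have h9 := commutator_eq_bot_iff_le_centralizer.2 hX.le
      have h10 := commutator_eq_bot_iff_le_centralizer.1 (commutator_commutator_eq_bot_of_rotate
        (H₁ := F) (by rw [h9, commutator_bot_left]) (commutator_eq_bot_iff_le_centralizer.2
          ((commutator_le_left_of_normalizes h6).trans (le_centralizer_symm hX.le))))
      exact commutator_eq_bot_iff_le_centralizer.2 (((le_inf (commutator_le_left _ _) h10).trans
        h7).trans (le_centralizer_symm hX.le))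
  have hAC : A ≤ centralizer (A : Set S) := h5.ge.trans inf_le_right
  refine ⟨N ⊓ centralizer (A : Set S), inf_le_right, fun c hc d hd => conj_mem_of_normalizes
    (le_normalizer_inf le_normalizer_of_normal le_normalizer) hc hd, ?_, ?_, fun q hq hd => ?_⟩
  · exact le_bot_iff.1 ((inf_le_inf hAH inf_le_left).trans hHN.le)
  · rw [inf_comm, ← inf_sup_of_normalizes hAC le_normalizer_of_normal, inf_eq_left, ← hker,
      ← Subgroup.map_le_map_iff]
    exact (map_centralizer_le_centralizer_image _ _).trans h8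
  · exact CL.isPiNum_card_of_le_piCore inf_le_left q hq hd

end Cfsg.Agent.S1893
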