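import Cfsg.Statements.S1894
import Cfsg.Agent.PLOC.PNormal

set_option autoImplicit false
set_option linter.unusedVariables false
open Cfsg

namespace Cfsg.Agent.S1894

/-- Let P be a finite p-group, A a normal subgroup of P and B an abelian subgroup of A that is normal in P. Then some subgroup C of A containing B is normal in P and is self-centralizing and normal in A (C ∈ SCN(A)). -/
theorem result {P : Type*} [Group P] [Finite P] {p : ℕ} [Fact p.Prime] (hP : IsPGroup p P)
    (A : Subgroup P) [A.Normal] (B : Subgroup P) [B.Normal] (hBA : B ≤ A) (hB : IsMulCommutative B) :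
    ∃ C : Subgroup P, C.Normal ∧ B ≤ C ∧ Cfsg.IsSCN A C := by
  let S : Set (Subgroup P) := {C | C.Normal ∧ IsMulCommutative C ∧ C ≤ A}
  obtain ⟨C, hBC, hC⟩ := (Set.toFinite S).exists_le_maximal (a := B) ⟨inferInstance, hB, hBA⟩
  obtain ⟨h1, h2, h3⟩ := hC.prop
  refine ⟨C, h1, hBC, h3, Subgroup.le_normalizer_of_normal, ?_⟩
  have hle : C ≤ A ⊓ Subgroup.centralizer (C : Set P) := le_inf h3 (Subgroup.le_centralizer C)
  by_contra hne
  obtain ⟨K, hK, hCK, hKN, hcard, hcomm⟩ := CL.PN.exists_normal_between hP C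
    (A ⊓ Subgroup.centralizer (C : Set P)) (lt_of_le_of_ne hle (Ne.symm hne))
  have hlt : C < K := by
    refine lt_of_le_of_ne hCK ?_
    rintro rfl
    have := (Fact.out : p.Prime).one_lt
    have h0 : 0 < Nat.card C := Nat.card_pos
    nlinarith
  obtain ⟨z, hzK, hzC⟩ := SetLike.exists_of_lt hlt
  have hD : C ⊔ Subgroup.zpowers z ≤ K := sup_le hCK ((Subgroup.zpowers_le).2 hzK)
  have hmem : C ⊔ Subgroup.zpowers z ∈ S := by
    refine ⟨?_, ?_, hD.trans (hKN.trans inf_le_left)⟩
    · rw [← Subgroup.normalizer_eq_top_iff, eq_top_iff, Subgroup.le_normalizer_iff_commutator_le_left]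
      exact (Subgroup.commutator_mono hD le_rfl).trans (hcomm.trans le_sup_left)
    · rw [← Subgroup.le_centralizer_iff_isMulCommutative]
      have hz : Subgroup.zpowers z ≤ Subgroup.centralizer (C : Set P) :=
        (Subgroup.zpowers_le).2 (hKN hzK).2
      refine sup_le ?_ ?_ <;> rw [Subgroup.le_centralizer_iff] <;> refine sup_le ?_ ?_
      · exact Subgroup.le_centralizer C
      · exact hz
      · exact Subgroup.le_centralizer_iff.1 hz
      · exact Subgroup.le_centralizer _
  exact hzC (hC.le_of_ge hmem le_sup_left (Subgroup.mem_sup_right (Subgroup.mem_zpowers z)))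

end Cfsg.Agent.S1894
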