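import Cfsg.Statements.S1895
import Cfsg.Agent.TECH.PCentral
import Cfsg.Agent.TECH.SylIn

set_option autoImplicit false
open Cfsg

namespace Cfsg.Agent.S1895

open Subgroup CL.MSS

/-- Let p be an odd prime and G a finite p-solvable group with no elementary abelian subgroup of order p³. Then every chief factor H/K of G (H, K normal in G with no normal subgroup of G strictly between them) whose order is a power of p has order p or p². -/
theorem result {G : Type*} [Group G] [Finite G] {p : ℕ} [Fact p.Prime] (hp : p ≠ 2)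
    (hG : Cfsg.IsPSolvable p G) (hr : Cfsg.PRankLE p 2 G)
    (H K : Subgroup G) [H.Normal] [K.Normal] (hKH : K < H) (hpow : ∃ n : ℕ, K.relIndex H = p ^ n)
    (hchief : ∀ L : Subgroup G, L.Normal → K ≤ L → L ≤ H → L = K ∨ L = H) :
    K.relIndex H = p ∨ K.relIndex H = p ^ 2 := by
  obtain ⟨n, hn⟩ := hpow
  have hp' : p.Prime := Fact.out
  obtain ⟨T, hT⟩ := exists_sylIn p H
  have hKT : K ⊔ T = H := by
    have hle : K ⊔ T ≤ H := sup_le hKH.le hT.le
    refine le_antisymm hle (relIndex_eq_one.1 ?_)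
    have h1 : (K ⊔ T).relIndex H ∣ p ^ n := hn ▸ relIndex_dvd_of_le_left H le_sup_left
    have h2 : (K ⊔ T).relIndex H ∣ T.relIndex H := relIndex_dvd_of_le_left H le_sup_right
    obtain ⟨k, hk, hk2⟩ := (Nat.dvd_prime_pow hp').1 h1
    rcases k with _ | k
    · simpa using hk2
    · exact absurd ((hk2 ▸ dvd_pow_self p (Nat.succ_ne_zero k)).trans h2) hT.not_dvd_relIndex
  have hfr : K ⊔ normalizer (T : Set G) = ⊤ := by
    have h1 := hT.frattini_sup (H := ⊤) le_top (le_normalizer_of_normal)
    rw [top_inf_eq, ← hKT, sup_assoc, sup_eq_right.2 (le_normalizer (H := T))] at h1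
    exact h1
  have hnorm : ∀ U : Subgroup G, normalizer (T : Set G) ≤ normalizer (U : Set G) →
      (K ⊔ U).Normal := by
    intro U hU
    rw [← normalizer_eq_top_iff, eq_top_iff, ← hfr]
    refine sup_le (le_sup_left.trans le_normalizer) (fun g hg => ?_)
    rw [mem_normalizer_iff_cj, cj_sup, cj_eq_of_mem_normalizer (hU hg), cj_eq_of_normal]
  have hTK : ¬ T ≤ K := fun h => hKH.ne (by rw [← hKT, sup_eq_left.2 h])
  obtain ⟨U, V, hUT, hU, hV, hVU, hVK, hUK, hi⟩ :=
    exists_step_of_rank_two hp hT.pgroup (fun E _ hE => hr E hE.1 hE.2) hTK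
  have h1 : K ⊔ U = H := by
    rcases hchief _ (hnorm U hU) le_sup_left (sup_le hKH.le (hUT.trans hT.le)) with h | h
    · exact absurd (h ▸ le_sup_right) hUK
    · exact h
  have h2 : K.relIndex H ≤ p ^ 2 := by
    rw [← h1, relIndex_sup_left]
    exact (relIndex_le_of_le_left hVK (index_ne_zero_of_finite)).trans hi
  rw [hn] at h2 ⊢
  have h3 : n ≤ 2 := (Nat.pow_le_pow_iff_right hp'.one_lt).1 h2
  have h4 : n ≠ 0 := by
    rintro rfl
    exact hKH.not_ge (relIndex_eq_one.1 (by simpa using hn))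
  interval_cases n
  · exact absurd rfl h4
  · exact Or.inl (pow_one p)
  · exact Or.inr rfl

end Cfsg.Agent.S1895
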