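import Cfsg.Statements.S1897
import Cfsg.Agent.SPOR.F24.U43
import Cfsg.Agent.CHEV.SL2Hom
import Cfsg.Agent.SPOR.GraphIso

set_option autoImplicit false
open Cfsg

namespace Cfsg.Agent.S1897

open CL CL.F24 CL.SL2Hom Matrix

/-- matrix with a given code -/
def dec3 (c : ℕ) : Matrix (Fin 3) (Fin 3) F9 :=
  Matrix.of fun i j => ⟨(c / 9 ^ (3 * i.val + j.val) % 3 : ℕ), (c / 9 ^ (3 * i.val + j.val) / 3 % 3 : ℕ)⟩

theorem mem_su {A : Matrix (Fin 3) (Fin 3) F9} (h3 : Aᵀ * A.map (· ^ 3) = 1) (u v : Fin 3 → F9) :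
    hermForm 3 F9 3 (A *ᵥ u) (A *ᵥ v) = hermForm 3 F9 3 u v := by
  have e : ∀ x y : Fin 3 → F9, hermForm 3 F9 3 x y = x ⬝ᵥ fun i => y i ^ 3 := fun _ _ => rfl
  have e2 : (fun i => (A *ᵥ v) i ^ 3) = A.map (· ^ 3) *ᵥ fun i => v i ^ 3 := by
    funext i
    simp only [mulVec, dotProduct, Fin.sum_univ_three, cube_add9, mul_pow, Matrix.map_apply]
  rw [e, e, e2, ← vecMul_transpose, ← dotProduct_mulVec, mulVec_mulVec, h3, one_mulVec]

/-- powers of the first generator -/
def xm (t : ZMod 7) : Matrix (Fin 3) (Fin 3) F9 := dec3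
  (([43053283, 36167229, 226142429, 111471086, 105187619, 377995445, 814275] : List ℕ).getD t.val 0)
/-- powers of the second generator -/
def ym (t : ZMod 7) : Matrix (Fin 3) (Fin 3) F9 := dec3
  (([43053283, 283629782, 305289171, 271835861, 164387645, 205668765, 146633483] : List ℕ).getD t.val 0)

theorem xm_ok : ∀ t, (xm t).det = 1 ∧ (xm t)ᵀ * (xm t).map (· ^ 3) = 1 := by decide +kernel
theorem ym_ok : ∀ t, (ym t).det = 1 ∧ (ym t)ᵀ * (ym t).map (· ^ 3) = 1 := by decide +kernel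

/-- root elements -/
def xs (t : ZMod 7) : SU 3 F9 3 := ⟨⟨xm t, (xm_ok t).1⟩, mem_su (xm_ok t).2⟩
/-- root elements -/
def ys (t : ZMod 7) : SU 3 F9 3 := ⟨⟨ym t, (ym_ok t).1⟩, mem_su (ym_ok t).2⟩

instance instFact7 : Fact (Nat.Prime 7) := ⟨by norm_num⟩

theorem x_add : ∀ s t, xm (s + t) = xm s * xm t := by decide +kernel
theorem y_add : ∀ s t, ym (s + t) = ym s * ym t := by decide +kernel
theorem inv7 : ∀ t : ZMod 7, t ≠ 0 → t * t ^ 5 = 1 := by decide
theorem cj : ∀ t : ZMod 7, t ≠ 0 → ∀ u, xm t * ym (-t ^ 5) * xm t * xm u =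
    ym (-(t ^ 5) ^ 2 * u) * (xm t * ym (-t ^ 5) * xm t) := by decide +kernel
theorem nc : ∀ s t : ZMod 7, s ≠ 0 → t ≠ 0 → ∀ c : F9, xm s * ym t ≠ c • (ym t * xm s) := by
  decide +kernel
theorem sq1 : xm 1 * ym (-1) * xm 1 * (xm 1 * ym (-1) * xm 1) = 1 := by decide +kernel

theorem rel : Rel xs ys := by
  refine ⟨fun s t => Uni.suMat_injective 3 F9 3 (x_add s t),
    fun s t => Uni.suMat_injective 3 F9 3 (y_add s t), fun t ht u => ?_⟩
  rw [mul_inv_eq_iff_eq_mul, nn, inv_eq_of_mul_eq_one_right (inv7 t ht)]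
  exact Uni.suMat_injective 3 F9 3 (cj t ht u)

theorem aux : ∃ H : Subgroup (PSU 3 F9 3),
    Nonempty (H ≃* Matrix.ProjectiveSpecialLinearGroup (Fin 2) (ZMod 7)) := by
  have R : Rel (fun t => (xs t : PSU 3 F9 3)) (fun t => (ys t : PSU 3 F9 3)) :=
    ⟨fun s t => by rw [rel.x_add]; rfl, fun s t => by rw [rel.y_add]; rfl, fun t ht u => by
      rw [← rel.conj t ht u]; rfl⟩
  obtain ⟨φ, -, h1, h2, h3⟩ := exists_hom_of_finite R
  have hk : φ.ker = Subgroup.center (SpecialLinearGroup (Fin 2) (ZMod 7)) := by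
    refine le_antisymm (h3 fun s t hs ht h => ?_) fun A hA => ?_
    · obtain ⟨c, hc⟩ := (Uni.psu_mk_eq_iff card_F9 (by norm_num) (A := xs s * ys t)
        (B := ys t * xs s)).1 h
      exact nc s t hs ht c hc
    · obtain ⟨r, hr, hA⟩ := Matrix.SpecialLinearGroup.mem_center_iff.1 hA
      rw [Fintype.card_fin] at hr
      have : r = 1 ∨ r = -1 := by clear hA; revert r; decide
      rcases this with rfl | rfl
      · have : A = 1 := Subtype.ext (by rw [← hA]; simp)
        rw [this]; exact one_mem _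
      · have : A = upper 1 * lower (-1) * upper 1 * (upper 1 * lower (-1) * upper 1) :=
          Subtype.ext (by rw [← hA]; decide +kernel)
        rw [MonoidHom.mem_ker, this]
        simp only [map_mul, h1, h2]
        have e : xs 1 * ys (-1) * xs 1 * (xs 1 * ys (-1) * xs 1) = 1 :=
          Uni.suMat_injective 3 F9 3 sq1
        exact congrArg (QuotientGroup.mk' _) e
  exact ⟨φ.range, ⟨((QuotientGroup.quotientKerEquivRange φ).symm.trans
    (QuotientGroup.quotientMulEquivOfEq hk))⟩⟩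

/-- The projective special unitary group PSU₃(3) (realised over the field with 9 elements) has a subgroup isomorphic to PSL₂(7). -/
theorem result {F : Type*} [Field F] [Fintype F] (hF : Fintype.card F = 9)
    {K : Type*} [Field K] [Fintype K] (hK : Fintype.card K = 7) :
    ∃ H : Subgroup (Cfsg.PSU 3 F 3), Nonempty (H ≃* Matrix.ProjectiveSpecialLinearGroup (Fin 2) K) := by
  obtain ⟨H, ⟨e⟩⟩ := aux
  obtain ⟨f⟩ := Uni.nonempty_psuCongr (F := F9) (K := F) (by rw [card_F9, hF]; rfl) 3 3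
  exact ⟨H.map f.toMonoidHom, ⟨(f.subgroupMap H).symm.trans (e.trans
    (CL.Graph.pslCongr (FiniteField.ringEquivOfCardEq (by rw [hK, ZMod.card]))))⟩⟩

end Cfsg.Agent.S1897
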