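import Cfsg.Statements.S1898
import Cfsg.Agent.TECH.Crit4

set_option autoImplicit false
set_option linter.unusedVariables false
open Cfsg

namespace Cfsg.Agent.S1898

open scoped commutatorElement


/-- Let X be a finite 2-group whose derived subgroup is elementary abelian and central. Then the subgroup generated by the elements of order dividing 4 has exponent dividing 4, and every automorphism of X fixing each element of order dividing 4 has 2-power order. -/
theorem result {X : Type*} [Group X] [Finite X] (hX : IsPGroup 2 X)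
    (hel : Cfsg.IsElementaryAbelian 2 (commutator X)) (hcen : commutator X ≤ Subgroup.center X) :
    (∀ x ∈ Subgroup.closure {g : X | g ^ 4 = 1}, x ^ 4 = 1) ∧
      ∀ φ : MulAut X, (∀ g : X, g ^ 4 = 1 → φ g = g) → ∃ k : ℕ, φ ^ (2 ^ k) = 1 := by

  have h2 : ∀ x y z : X, Commute z ⁅x, y⁆ := CL.PG.commute_commutator_of_le_center hcen
  have h3 : ∀ x y : X, ⁅x, y⁆ ^ 2 = 1 := fun x y =>
    hel.2 _ (Subgroup.commutator_mem_commutator (Subgroup.mem_top x) (Subgroup.mem_top y))
  refine ⟨fun x hx => CL.PG.pow_eq_one_of_mem_closure (fun _ h => h) (fun a _ b _ ha hb => ?_) hx,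
    fun φ hφ => CL.PG.exists_pow_eq_one_of_coprime_imp (isOfFinOrder_of_finite φ) fun k hk => ?_⟩
  · rw [CL.PG.mul_pow_four (h2 _ _ _) (h2 _ _ _) (h3 _ _), ha, hb, one_mul]
  · refine MulEquiv.ext fun x => CL.PG.aut_fix_of_small Nat.prime_two (φ ^ k) hk (H := ⊤)
      (hX.to_subgroup ⊤) (fun _ _ => trivial) (fun x _ y _ z _ => h2 x y z)
      (fun x _ y _ => h3 x y) (fun y _ hy => ?_) trivial
    rw [CL.PG.small_two_iff] at hy
    induction k with
    | zero => rfl
    | succ k ih => exact (MulAction.stabilizer (MulAut X) y).pow_mem (hφ y hy) (k + 1)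

end Cfsg.Agent.S1898
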