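import Cfsg.Statements.S1899
import Cfsg.Agent.TECH.Conj

set_option autoImplicit false
open Cfsg

namespace Cfsg.Agent.S1899

open Subgroup

/-- Let a dihedral group of order 2n, n odd and n > 1, act on a finite abelian 2-group A through automorphisms d and t with d^n = 1, t² = 1 and t d t⁻¹ = d⁻¹, and suppose that d fixes only the identity. Then A is the internal direct product of C_A(t) and its image under d. -/
theorem result {A : Type*} [CommGroup A] [Finite A] (hA : IsPGroup 2 A)
    {n : ℕ} (hn : Odd n) (hn1 : 1 < n) (d t : MulAut A) (hd : d ^ n = 1) (ht : t ^ 2 = 1) (hdt : t * d * t⁻¹ = d⁻¹)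
    (hfix : ∀ a : A, d a = a → a = 1) :
    (MulEquiv.toMonoidHom t).eqLocus (MonoidHom.id A) ⊓ ((MulEquiv.toMonoidHom t).eqLocus (MonoidHom.id A)).map d.toMonoidHom = ⊥ ∧
      (MulEquiv.toMonoidHom t).eqLocus (MonoidHom.id A) ⊔ ((MulEquiv.toMonoidHom t).eqLocus (MonoidHom.id A)).map d.toMonoidHom = ⊤ := by
  have ht' : ∀ a, t (t a) = a := fun a => by rw [← MulAut.mul_apply, ← sq, ht, MulAut.one_apply]
  have htd : ∀ a, t (d a) = d⁻¹ (t a) := fun a => by
    rw [← hdt, MulAut.mul_apply, MulAut.mul_apply, MulAut.inv_apply_self]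
  have hfix2 : ∀ a, d (d a) = a → a = 1 := by
    intro a h
    obtain ⟨k, rfl⟩ := hn
    have h1 : ∀ j : ℕ, (d ^ (2 * j)) a = a := by
      intro j
      induction j with
      | zero => simp
      | succ j ih => rw [mul_add, pow_add, MulAut.mul_apply, mul_one, sq, MulAut.mul_apply, h, ih]
    apply hfix
    have := DFunLike.congr_fun hd a
    rwa [pow_succ', MulAut.mul_apply, h1] at this
  constructor
  · rw [eq_bot_iff]
    rintro _ ⟨h1, c, hc, rfl⟩
    have h2 : t (d c) = d c := h1
    have h3 : t c = c := hc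
    rw [htd, h3] at h2
    have h4 : c = 1 := hfix2 c (by rw [← h2, MulAut.apply_inv_self])
    rw [h4, map_one]; exact one_mem _
  · rw [eq_top_iff]
    intro a _
    have hinj : Function.Injective fun b : A => b * (d (d b))⁻¹ := by
      intro b c h
      simp only at h
      have := hfix2 (b * c⁻¹) (by
        rw [map_mul, map_mul, map_inv, map_inv, mul_inv_eq_mul_inv_iff_mul_eq_mul, mul_comm,
          ← mul_inv_eq_mul_inv_iff_mul_eq_mul.1 h.symm])
      exact mul_inv_eq_one.1 this
    obtain ⟨b, rfl⟩ := Finite.surjective_of_injective hinj a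
    have e : b * (d (d b))⁻¹ = (b * t b) * d (d b * t (d b))⁻¹ := by
      rw [htd, map_inv, map_mul, MulAut.apply_inv_self, mul_inv, mul_assoc, mul_comm (t b),
        inv_mul_cancel_right]
    simp only
    rw [e]
    refine mul_mem_sup ?_ ⟨_, inv_mem ?_, rfl⟩
    · change t (b * t b) = b * t b
      rw [map_mul, ht', mul_comm]
    · change t (d b * t (d b)) = d b * t (d b)
      rw [map_mul, ht', mul_comm]

end Cfsg.Agent.S1899
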