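import Cfsg.Statements.S1900
import Cfsg.Agent.TECH.SecC
import Cfsg.Agent.SOLV.CoprimeGen
import Cfsg.Agent.TECH.SylIn

set_option autoImplicit false
open Cfsg

namespace Cfsg.Agent.S1900

open Subgroup CL.MSS

/-- Let S = PQ be a finite group with P a normal Sylow p-subgroup and Q elementary abelian of order q², q a prime different from p. If exactly two subgroups X₁, X₂ of order q in Q have a nontrivial centralizer in P, then P is the internal direct product of C_P(X₁) and C_P(X₂): they commute elementwise, meet trivially and generate P. -/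
theorem result {S : Type*} [Group S] [Finite S] {p q : ℕ} [Fact p.Prime] [Fact q.Prime] (hpq : p ≠ q)
    (P : Sylow p S) [(P : Subgroup S).Normal] (Q : Subgroup S) (hQ : Cfsg.IsElementaryAbelian q Q) (hQc : Nat.card Q = q ^ 2)
    (hS : (P : Subgroup S) ⊔ Q = ⊤)
    (X₁ X₂ : Subgroup S) (h₁ : X₁ ≤ Q) (h₂ : X₂ ≤ Q) (h₁₂ : X₁ ≠ X₂) (hc₁ : Nat.card X₁ = q) (hc₂ : Nat.card X₂ = q)
    (hf₁ : (P : Subgroup S) ⊓ Subgroup.centralizer (X₁ : Set S) ≠ ⊥)
    (hf₂ : (P : Subgroup S) ⊓ Subgroup.centralizer (X₂ : Set S) ≠ ⊥)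
    (honly : ∀ X : Subgroup S, X ≤ Q → Nat.card X = q →
      (P : Subgroup S) ⊓ Subgroup.centralizer (X : Set S) ≠ ⊥ → X = X₁ ∨ X = X₂) :
    ⁅(P : Subgroup S) ⊓ Subgroup.centralizer (X₁ : Set S), (P : Subgroup S) ⊓ Subgroup.centralizer (X₂ : Set S)⁆ = ⊥ ∧
      ((P : Subgroup S) ⊓ Subgroup.centralizer (X₁ : Set S)) ⊓ ((P : Subgroup S) ⊓ Subgroup.centralizer (X₂ : Set S)) = ⊥ ∧
      ((P : Subgroup S) ⊓ Subgroup.centralizer (X₁ : Set S)) ⊔ ((P : Subgroup S) ⊓ Subgroup.centralizer (X₂ : Set S)) = P := by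
  have hP := P.isPGroup'
  have := hQ.1
  have hq : q.Prime := Fact.out
  have hn : ∀ X : Subgroup S, X ≤ normalizer ((P : Subgroup S) : Set S) :=
    fun X => le_normalizer_of_normal
  have hcop : ∀ X K : Subgroup S, X ≤ Q → K ≤ P → (Nat.card X).Coprime (Nat.card K) := by
    intro X K h1 h2
    refine CL.coprime_card_of_isPGroup (hP.to_le h2) (Nat.Coprime.coprime_dvd_left
      (card_dvd_of_le h1) ?_)
    rw [hQc]
    exact ((Nat.coprime_primes hq Fact.out).2 hpq.symm).pow_left 2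
  have hQX : ∀ X : Subgroup S, X ≤ Q → Q ≤ centralizer (X : Set S) := fun X h =>
    CL.le_centralizer_of_le_of_isMulCommutative h
  have hnc : ¬ IsCyclic Q := fun hc => by
    have h2 : Nat.card Q ∣ q := by
      rw [← hc.exponent_eq_card, Monoid.exponent_dvd_iff_forall_pow_eq_one]
      exact fun g => Subtype.ext (hQ.2 g g.2)
    rw [hQc] at h2
    have := Nat.le_of_dvd hq.pos h2
    nlinarith [hq.two_le]
  have hgen : ∀ K : Subgroup S, K ≤ P → Q ≤ normalizer (K : Set S) →
      K ≤ (K ⊓ centralizer (X₁ : Set S)) ⊔ (K ⊓ centralizer (X₂ : Set S)) := by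
    intro K hK hQK
    refine CL.coprime_le_of_forall_centralizer_le Q K _ hnc hQK (hcop _ _ le_rfl hK) fun a ha ha1 => ?_
    rw [← centralizer_zpowers]
    by_cases h : (P : Subgroup S) ⊓ centralizer ((zpowers a : Subgroup S) : Set S) = ⊥
    · exact (inf_le_inf_right _ hK).trans (h.le.trans bot_le)
    · rcases honly _ (zpowers_le.2 ha) (by rw [Nat.card_zpowers, orderOf_eq_prime (hQ.2 a ha) ha1]) h
        with h | h <;> rw [h]
      exacts [le_sup_left, le_sup_right]
  have h12 : X₁ ⊓ X₂ = ⊥ := by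
    rcases (Nat.dvd_prime hq).1 (hc₁ ▸ card_dvd_of_le (inf_le_left : X₁ ⊓ X₂ ≤ X₁)) with h | h
    · exact card_eq_one.1 h
    · exact absurd ((eq_of_le_of_card_ge inf_le_left (by rw [h, hc₁])).symm.trans
        (eq_of_le_of_card_ge inf_le_right (by rw [h, hc₂]))) h₁₂
  have hsup : X₁ ⊔ X₂ = Q := by
    have h1 := card_dvd_of_le (sup_le h₁ h₂)
    have h2 := card_dvd_of_le (le_sup_left : X₁ ≤ X₁ ⊔ X₂)
    rw [hQc, Nat.dvd_prime_pow hq] at h1
    obtain ⟨i, hi, e⟩ := h1
    interval_cases i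
    · rw [hc₁, e, pow_zero, Nat.dvd_one] at h2
      exact absurd h2 hq.ne_one
    · exact absurd ((eq_of_le_of_card_ge le_sup_left (by rw [e, hc₁, pow_one])).trans
        (eq_of_le_of_card_ge le_sup_right (by rw [e, hc₂, pow_one])).symm) h₁₂
    · exact eq_of_le_of_card_ge (sup_le h₁ h₂) (by rw [e, hQc])
  have hCQ : (P : Subgroup S) ⊓ centralizer (Q : Set S) = ⊥ := by
    obtain ⟨x, hx, hx1⟩ := X₁.bot_or_exists_ne_one.resolve_left fun h => by
      rw [h, card_bot] at hc₁; exact hq.ne_one hc₁.symm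
    obtain ⟨y, hy, hy1⟩ := X₂.bot_or_exists_ne_one.resolve_left fun h => by
      rw [h, card_bot] at hc₂; exact hq.ne_one hc₂.symm
    have hxy : x * y ∈ Q := mul_mem (h₁ hx) (h₂ hy)
    have hx2 : x * y ∉ X₂ := fun h => hx1 (mem_bot.1 (h12 ▸ mem_inf.2
      ⟨hx, (Subgroup.mul_mem_cancel_right _ hy).1 h⟩))
    have hx1' : x * y ∉ X₁ := fun h => hy1 (mem_bot.1 (h12 ▸ mem_inf.2
      ⟨(Subgroup.mul_mem_cancel_left _ hx).1 h, hy⟩))
    by_contra h
    rcases honly _ (zpowers_le.2 hxy) (by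
      rw [Nat.card_zpowers, orderOf_eq_prime (hQ.2 _ hxy) fun e => hx2 (e ▸ one_mem _)])
      (fun e => h (le_bot_iff.1 ((inf_le_inf_left _ (centralizer_anti (zpowers_le.2 hxy))).trans
        e.le))) with e | e
    exacts [hx1' (e ▸ mem_zpowers _), hx2 (e ▸ mem_zpowers _)]
  set C₁ := (P : Subgroup S) ⊓ centralizer (X₁ : Set S) with hC₁
  set C₂ := (P : Subgroup S) ⊓ centralizer (X₂ : Set S) with hC₂
  have hb : C₁ ⊓ C₂ = ⊥ := by
    rw [hC₁, hC₂, ← inf_inf_distrib_left, ← centralizer_sup_eq, hsup, hCQ]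
  have hc : C₁ ⊔ C₂ = P := le_antisymm (sup_le inf_le_left inf_le_left) (hgen _ le_rfl (hn _))
  refine ⟨?_, hb, hc⟩
  have hQC : ∀ X : Subgroup S, X ≤ Q → Q ≤ normalizer (((P : Subgroup S) ⊓
      centralizer (X : Set S) : Subgroup S) : Set S) := fun X h =>
    le_normalizer_inf (hn _) ((hQX X h).trans le_normalizer)
  have key : ∀ (X A B N : Subgroup S), X ≤ Q → A ≤ centralizer (X : Set S) → B ≤ P → A ≤ P →
      Q ≤ normalizer (B : Set S) → B ⊓ centralizer (X : Set S) = ⊥ → (P : Subgroup S) ≤ normalizer (N : Set S) →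
      Q ≤ normalizer (N : Set S) → ⁅⁅A, B⁆, X⁆ ≤ N → ⁅A, B⁆ ≤ N := by
    intro X A B N hX hA hB hA' hQB hBX hPN hQN h
    have h1 := CL.coprime_commutator_sup_centralizer X B (hX.trans hQB) (hcop _ _ hX hB)
      (Or.inr (CL.isSolvable_of_isPGroup (hP.to_le hB)))
    rw [hBX, sup_bot_eq] at h1
    rw [Subgroup.commutator_comm, ← h1]
    refine three_subgroups_of_normalizes (hB.trans hPN) (hX.trans hQN) (hA'.trans hPN) ?_ h
    rw [commutator_eq_bot_iff_le_centralizer.2 (le_centralizer_symm hA), commutator_bot_left]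
    exact bot_le
  set D := ⁅C₁, C₂⁆ with hD
  have hPD : (P : Subgroup S) ≤ normalizer (D : Set S) :=
    hc.ge.trans (sup_le (normalizer_commutator_ge_left _ _) (normalizer_commutator_ge_right _ _))
  have hDP : D ≤ P := (commutator_mono inf_le_left inf_le_left).trans
    (commutator_le_left_of_normalizes le_normalizer)
  have hQD : Q ≤ normalizer (D : Set S) := le_normalizer_commutator (hQC _ h₁) (hQC _ h₂)
  have hN0 : ⁅D, (P : Subgroup S)⁆ ≤ D := commutator_le_left_of_normalizes hPD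
  have hQN0 : Q ≤ normalizer ((⁅D, (P : Subgroup S)⁆ : Subgroup S) : Set S) :=
    le_normalizer_commutator hQD (hn _)
  have hQD2 : Q ≤ normalizer ((D ⊓ centralizer (X₂ : Set S) : Subgroup S) : Set S) :=
    le_normalizer_inf hQD ((hQX _ h₂).trans le_normalizer)
  refine CL.eq_bot_of_le_commutator_of_isNilpotent hP.isNilpotent hDP ?_
  have h1 : D ≤ ⁅D, (P : Subgroup S)⁆ ⊔ (D ⊓ centralizer (X₂ : Set S)) := by
    have hQN := le_normalizer_sup hQN0 hQD2
    have hPN : (P : Subgroup S) ≤ normalizer ((⁅D, (P : Subgroup S)⁆ ⊔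
        (D ⊓ centralizer (X₂ : Set S)) : Subgroup S) : Set S) := le_normalizer_of_commutator_le
      ((commutator_mono (sup_le hN0 inf_le_left) le_rfl).trans le_sup_left)
    refine key X₁ C₁ C₂ _ h₁ inf_le_right inf_le_left inf_le_left (hQC _ h₂) ?_ hPN hQN ?_
    · exact le_bot_iff.1 (le_trans (le_inf (inf_le_inf_right _ inf_le_left) inf_le_left) hb.le)
    · refine (commutator_mono (hgen D hDP hQD) le_rfl).trans (sup_commutator_le_of_normalizes
        ((inf_le_left.trans hDP).trans hPN) ((inf_le_left.trans hDP).trans hPN) ?_ ?_)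
      · rw [commutator_eq_bot_iff_le_centralizer.2 inf_le_right]; exact bot_le
      · exact le_sup_of_le_right (commutator_le_left_of_normalizes (h₁.trans hQD2))
  have hPN0 : (P : Subgroup S) ≤ normalizer ((⁅D, (P : Subgroup S)⁆ : Subgroup S) : Set S) :=
    normalizer_commutator_ge_right _ _
  refine (Subgroup.commutator_comm C₁ C₂).le.trans (key X₂ C₂ C₁ _ h₂ inf_le_right inf_le_left
    inf_le_left (hQC _ h₁) ?_ hPN0 hQN0 ?_)
  · exact le_bot_iff.1 (le_trans (le_inf inf_le_left (inf_le_inf_right _ inf_le_left)) hb.le)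
  · rw [Subgroup.commutator_comm C₂ C₁]
    refine (commutator_mono h1 le_rfl).trans (sup_commutator_le_of_normalizes le_normalizer
      ((inf_le_left.trans hDP).trans hPN0) (commutator_le_left_of_normalizes (h₂.trans hQN0)) ?_)
    rw [commutator_eq_bot_iff_le_centralizer.2 inf_le_right]; exact bot_le

end Cfsg.Agent.S1900
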