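import Cfsg.Statements.S1901
import Cfsg.Agent.TECH.PMin
import Cfsg.Agent.SOLV.PSolvable

set_option autoImplicit false
open Cfsg

namespace Cfsg.Agent.S1901

open Subgroup CL.MSS

universe u

theorem aux {p : ℕ} [Fact p.Prime] (n : ℕ) : ∀ (G : Type u) [Group G] [Finite G], Nat.card G = n →
    Cfsg.IsPSolvable p G → ∀ P Q X : Subgroup G, SylIn p P ⊤ → (Nat.card Q).Coprime p →
      Q ≤ normalizer (P : Set G) → IsPGroup p X → X ≤ normalizer (Q : Set G) → ⁅Q, X⁆ = ⊥ := by
  induction n using Nat.strong_induction_on with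
  | _ n ih =>
  intro G _ _ hn hG P Q X hP hQ hQP hX hXQ
  rcases subsingleton_or_nontrivial G with h | h
  · exact Subsingleton.elim _ _
  have key : ∀ (M : Subgroup G) [M.Normal], M ≠ ⊥ → ⁅Q, X⁆ ≤ M := by
    intro M _ hM
    have hlt : Nat.card (G ⧸ M) < n := by
      rw [← hn, ← M.index_mul_card, ← index_eq_card]
      exact lt_mul_of_one_lt_right (Nat.pos_of_ne_zero index_ne_zero_of_finite)
        (one_lt_card_iff_ne_bot _ |>.2 hM)
    have hf := QuotientGroup.mk'_surjective M
    have hP' := hP.map (QuotientGroup.mk' M)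
    rw [map_top_of_surjective _ hf] at hP'
    rw [CL.Comp.commutator_le_iff_map_eq_bot]
    exact ih _ hlt (G ⧸ M) rfl (CL.IsPSolvable.quotient hG M) _ _ _ hP'
      (Nat.Coprime.coprime_dvd_left (card_map_dvd _ _) hQ)
      ((map_mono hQP).trans (le_normalizer_map _)) (hX.map _)
      ((map_mono hXQ).trans (le_normalizer_map _))
  have h1 : ⁅Q, X⁆ ≤ Q := commutator_le_left_of_normalizes hXQ
  rcases CL.IsPSolvable.pCore_ne_bot_or hG with h2 | h2
  · exact eq_bot_of_isPGroup_of_not_dvd (pcore_isPGroup.to_le (key _ h2)) h1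
      ((Nat.Prime.coprime_iff_not_dvd Fact.out).1 hQ.symm)
  · have h3 : ⁅⁅Q, X⁆, P⁆ = ⊥ := eq_bot_of_isPGroup_of_not_dvd
      (hP.pgroup.to_le (commutator_le_right_of_normalizes (h1.trans hQP)))
      ((commutator_mono (key _ h2) le_rfl).trans (commutator_le_left _ _))
      (CL.not_dvd_card_pPrimeCore p G)
    have h4 := le_centralizer_symm (commutator_eq_bot_iff_le_centralizer.1 h3)
    have h5 : SylIn p P (normalizer ((⁅Q, X⁆ : Subgroup G) : Set G)) :=
      hP.of_le (le_normalizer_of_le_centralizer h4) le_top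
    obtain ⟨g, hg, h6⟩ := h5.exists_le_conj hX (normalizer_commutator_ge_right _ _)
    have h7 := h6.trans (cj_le_of_mem_normalizer h4 (normalizer_le_normalizer_centralizer _ hg))
    rw [← CL.coprime_commutator_commutator X Q hXQ (CL.coprime_card_of_isPGroup hX hQ).symm
      (Or.inl (CL.isSolvable_of_isPGroup hX))]
    exact commutator_eq_bot_iff_le_centralizer.2 (le_centralizer_symm h7)

/-- Let G be a finite p-solvable group and Q a subgroup of order prime to p such that p divides the index of C_G(Q) in N_G(Q). Then Q normalizes no Sylow p-subgroup of G. -/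
theorem result {G : Type*} [Group G] [Finite G] {p : ℕ} [Fact p.Prime]
    (hG : Cfsg.IsPSolvable p G) (Q : Subgroup G) (hQ : ¬ p ∣ Nat.card Q)
    (hA : p ∣ (Subgroup.centralizer (Q : Set G)).relIndex (Subgroup.normalizer (Q : Set G)))
    (P : Sylow p G) : ¬ Q ≤ Subgroup.normalizer ((P : Subgroup G) : Set G) := by
  intro h
  obtain ⟨X, hX⟩ := exists_sylIn p (normalizer (Q : Set G))
  have := aux _ G rfl hG P Q X (sylIn_top P) ((Nat.Prime.coprime_iff_not_dvd Fact.out).2 hQ).symm h
    hX.pgroup hX.le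
  exact hX.not_dvd_relIndex (hA.trans (relIndex_dvd_of_le_left _
    (le_centralizer_symm (commutator_eq_bot_iff_le_centralizer.1 this))))

end Cfsg.Agent.S1901
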