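import Cfsg.Statements.S1902
import Cfsg.Agent.TECH.BaerTrick
import Cfsg.Agent.TECH.SylIn
import Cfsg.Agent.SOLV.PSolvable
import Cfsg.Agent.SOLV.Coprime

set_option autoImplicit false
open Cfsg

namespace Cfsg.Agent.S1902

open Subgroup CL.MSS

/-- Let p be an odd prime, G a finite p-solvable group, and B an elementary abelian subgroup of order p² such that B is the subgroup generated by the elements of order p of some Sylow p-subgroup of C_G(b₀), for some nontrivial b₀ ∈ B. Then every B-invariant subgroup of G of order prime to p lies in O_{p'}(G). -/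
theorem result {G : Type*} [Group G] [Finite G] {p : ℕ} [Fact p.Prime] (hp : p ≠ 2)
    (hG : Cfsg.IsPSolvable p G) (B : Subgroup G) (hB : Cfsg.IsElementaryAbelian p B) (hBc : Nat.card B = p ^ 2)
    (b₀ : G) (hb₀ : b₀ ∈ B) (hb₁ : b₀ ≠ 1) (P : Sylow p ↥(Subgroup.centralizer ({b₀} : Set G)))
    (hBP : B = Subgroup.closure {x : G | x ∈ ((P : Subgroup ↥(Subgroup.centralizer ({b₀} : Set G))).map
      (Subgroup.centralizer ({b₀} : Set G)).subtype : Subgroup G) ∧ orderOf x = p})
    (Q : Subgroup G) (hQ : ¬ p ∣ Nat.card Q) (hinv : ∀ b ∈ B, ∀ x ∈ Q, b * x * b⁻¹ ∈ Q) :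
    Q ≤ Cfsg.pPrimeCore p G := by
  have hp' : p.Prime := Fact.out
  set N := Cfsg.pPrimeCore p G with hN
  set π := QuotientGroup.mk' N with hπ
  have hs : Function.Surjective π := QuotientGroup.mk'_surjective N
  have hker : π.ker = N := QuotientGroup.ker_mk' N
  have hNc : (Nat.card N).Coprime p := CL.coprime_card_pPrimeCore p G
  have hBp : IsPGroup p B := IsPGroup.of_card hBc
  have hQc : (Nat.card Q).Coprime p := ((Nat.Prime.coprime_iff_not_dvd hp').2 hQ).symm
  have hQc' : (Nat.card (Q.map π)).Coprime p :=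
    Nat.Coprime.coprime_dvd_left (card_map_dvd Q π) hQc
  set O := Cfsg.pCore p (G ⧸ N) with hO
  have hOp : IsPGroup p O := CL.isPGroup_pCore p _
  have hdisj : O ⊓ Q.map π = ⊥ := CL.inf_eq_bot_of_isPGroup_of_coprime hOp hQc'
  have hBQ : B.map π ≤ normalizer ((Q.map π : Subgroup _) : Set (G ⧸ N)) := by
    refine le_normalizer_of_cj_le ?_
    rintro _ ⟨b, hb, rfl⟩
    rw [cj_le_iff_forall]
    rintro _ ⟨x, hx, rfl⟩
    exact ⟨_, hinv b hb x hx, by simp⟩
  let C := centralizer ({b₀} : Set G)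
  have hC : C = centralizer ({b₀} : Set G) := rfl
  have hsyl := (sylIn_map_subtype P).map π
  have hz : IsPGroup p (zpowers b₀) := hBp.to_le (zpowers_le.2 hb₀)
  have hCm := CL.centralizer_map_of_coprime π hs (zpowers b₀)
    (by rw [hker]; exact CL.coprime_card_of_isPGroup_of_coprime hz hNc)
    (Or.inl (by have := hz.isNilpotent; infer_instance))
  have hCz : centralizer ((zpowers b₀ : Subgroup G) : Set G) = C := by
    rw [hC, zpowers_eq_closure, centralizer_closure]
  rw [hCz] at hCm
  have key : Q.map π ≤ centralizer (O : Set (G ⧸ N)) := by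
    refine le_centralizer_of_odd_pq hp hOp (hBp.map π) hQc' le_normalizer_of_normal
      le_normalizer_of_normal hBQ (fun u hu hup huc => ?_)
    have h1 : u ∈ C.map π := by
      rw [← hCm]
      exact centralizer_le (map_mono (zpowers_le.2 hb₀)) huc
    have h2 : O ⊓ C.map π ≤ _ := hsyl.le_of_normalized (hOp.to_le inf_le_left) inf_le_right
      (le_normalizer_of_cj_le (fun x hx => by
        rw [cj_inf, cj_eq_of_normal, cj_eq_of_mem (hsyl.le hx)]))
    obtain ⟨y, hy, rfl⟩ := h2 (mem_inf.2 ⟨hu, h1⟩)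
    have h3 : y ^ p = 1 := by
      have h4 := CL.inf_eq_bot_of_isPGroup_of_coprime (sylIn_map_subtype P).pgroup hNc
      rw [← mem_bot, ← h4]
      refine mem_inf.2 ⟨pow_mem hy p, ?_⟩
      rw [← hker, MonoidHom.mem_ker, map_pow, hup]
    have h4 : y ∈ B := by
      by_cases h1 : y = 1
      · rw [h1]; exact B.one_mem
      · rw [hBP]
        exact Subgroup.subset_closure ⟨hy, orderOf_eq_prime h3 h1⟩
    intro q hq
    have h5 : π y * q * (π y)⁻¹ * q⁻¹ ∈ O ⊓ Q.map π := by
      refine mem_inf.2 ⟨?_, mul_mem (conj_mem_of_normalizes hBQ (mem_map_of_mem π h4) hq)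
        (inv_mem hq)⟩
      rw [mul_assoc, mul_assoc, ← mul_assoc q]
      exact mul_mem hu ((inferInstance : O.Normal).conj_mem _ (inv_mem hu) q)
    rw [hdisj, mem_bot, mul_inv_eq_one, mul_inv_eq_iff_eq_mul] at h5
    exact h5.symm
  have h0 := CL.IsPSolvable.centralizer_pCore_le (CL.IsPSolvable.quotient hG N)
    (CL.pPrimeCore_quotient_pPrimeCore p G)
  have h1 : Q.map π = ⊥ := by
    rw [← hdisj, eq_comm, inf_eq_right]
    exact key.trans h0
  rwa [Subgroup.map_eq_bot_iff, hker] at h1

end Cfsg.Agent.S1902
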