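import Cfsg.Statements.S1903
import Cfsg.Agent.CLAS.U3Rank1
import Cfsg.Agent.CLAS.U3Aut
import Cfsg.Agent.CHEV.PSElem

set_option autoImplicit false
open Cfsg

namespace Cfsg.Agent.S1903

theorem card_modEq {X : Type*} [Finite X] (f : X → X) (hf : ∀ x, f (f (f (f (f x)))) = x)
    (p : X → Prop) (hp : ∀ x, p x → p (f x)) :
    Nat.card {x // p x} ≡ Nat.card {x // p x ∧ f x = x} [MOD 5] := by
  classical
  have := Fintype.ofFinite X
  have : Fact (Nat.Prime 5) := ⟨by norm_num⟩
  let g : Function.End {x // p x} := fun x => ⟨f x, hp _ x.2⟩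
  have := Equiv.Perm.card_fixedPoints_modEq (f := g) (p := 5) (n := 1)
    (funext fun x => Subtype.ext (hf x))
  rw [← Nat.card_eq_fintype_card, ← Nat.card_eq_fintype_card] at this
  convert this using 1
  exact Nat.card_congr ⟨fun x => ⟨⟨x.1, x.2.1⟩, Subtype.ext x.2.2⟩,
    fun x => ⟨x.1.1, x.1.2, congrArg Subtype.val x.2⟩, fun _ => rfl, fun _ => rfl⟩

/-- Companion matrix of the fifth cyclotomic polynomial over `𝔽₂`. -/
def cm (c : Fin 4 → ZMod 2) : Fin 4 → ZMod 2 := ![c 3, c 0 + c 3, c 1 + c 3, c 2 + c 3]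

theorem exists_addEquiv {V : Type*} [AddCommGroup V] (h2 : ∀ v : V, v + v = 0)
    (hV : Nat.card V = 16) (β : V →+ V)
    (hβ : ∀ v, v + β v + β (β v) + β (β (β v)) + β (β (β (β v))) = 0) :
    ∃ e : (Fin 4 → ZMod 2) ≃+ V, ∀ c, e (cm c) = β (e c) := by
  have : Finite V := Nat.finite_of_card_ne_zero (by omega)
  have : Nontrivial V := Finite.one_lt_card_iff_nontrivial.1 (by omega)
  obtain ⟨v, hv⟩ := exists_ne (0 : V)
  let _ : Module (ZMod 2) V := AddCommGroup.zmodModule (fun x => by rw [two_nsmul, h2])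
  let B : (Fin 4 → ZMod 2) →+ V := AddMonoidHom.mk'
    (fun c => c 0 • v + c 1 • β v + c 2 • β (β v) + c 3 • β (β (β v))) fun c d => by
      simp only [Pi.add_apply, add_smul]; abel
  have hB : ∀ c, B (cm c) = β (B c) := fun c => by
    have h4 : β (β (β (β v))) = v + β v + β (β v) + β (β (β v)) := by
      rw [← sub_eq_zero, sub_eq_add_neg, neg_eq_of_add_eq_zero_left (h2 _), add_comm, hβ]
    simp only [B, cm, AddMonoidHom.mk'_apply, map_add, ZMod.map_smul, h4, smul_add]
    simp [add_smul]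
    abel
  have hinj : Function.Injective B := by
    rw [injective_iff_map_eq_zero]
    intro c hc
    by_contra h0
    have key : ∀ c : Fin 4 → ZMod 2, c ≠ 0 → ∃ d : Fin 4 → Fin 2,
        (d 0).1 • c + (d 1).1 • cm c + (d 2).1 • cm (cm c) + (d 3).1 • cm (cm (cm c)) =
          ![1, 0, 0, 0] := by decide
    obtain ⟨d, hd⟩ := key c h0
    have := congrArg B hd
    simp only [map_add, map_nsmul, hB, hc, map_zero, smul_zero, add_zero] at this
    exact hv (by simpa [B] using this.symm)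
  exact ⟨AddEquiv.ofBijective B (hinj.bijective_of_nat_card_le (by simp [hV])), hB⟩

open CL.U3 in
theorem exists_iso.{u} {P : Type u} [Group P] (hP : Nat.card P = 64)
    (hZ : IsKleinFour (Subgroup.center P)) (α : MulAut P) (hα : ∀ x, α (α (α (α (α x)))) = x)
    (hinv : ∀ (A : Type u) [CommGroup A] (l : P →* A), (∀ x, l (α x) = l x) → ∀ x, l x = 1)
    {F : Type*} [Field F] [Fintype F] (hF : Fintype.card F = 4 ^ 2) (ζ : Fˣ) (hζ : orderOf ζ = 5) :
    ∃ θ : P ≃* S hF, ∀ x, θ (α x) = S.tor ζ (θ x) := by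
  have : Finite P := Nat.finite_of_card_ne_zero (by omega)
  set Z := Subgroup.center P
  have hZ4 : Nat.card Z = 4 := hZ.card_four
  have hZ2 : ∀ z ∈ Z, z * z = 1 := fun z hz =>
    congrArg Subtype.val (IsKleinFour.mul_self (⟨z, hz⟩ : Z))
  have hαZ : ∀ z, z ∈ Z → α z ∈ Z := fun z hz => MulEquivClass.apply_mem_center α hz
  have hfixZ : ∀ z ∈ Z, α z = z := by
    have h := card_modEq α hα (· ∈ Z) hαZ
    let i : {x // x ∈ Z ∧ α x = x} → Z := fun x => ⟨x.1, x.2.1⟩
    have hi : Function.Injective i := fun x y h => Subtype.ext (congrArg (fun z : Z => z.1) h)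
    have h1 := Nat.card_le_card_of_injective i hi
    have h2 := hi.bijective_of_nat_card_le (by rw [hZ4] at h h1 ⊢; unfold Nat.ModEq at h; omega)
    intro z hz
    obtain ⟨x, hx⟩ := h2.2 ⟨z, hz⟩
    rw [← show x.1 = z from congrArg Subtype.val hx, x.2.2]
  let β : P ⧸ Z →* P ⧸ Z := QuotientGroup.map Z Z α.toMonoidHom hαZ
  have hβ : ∀ x : P, β x = (α x : P) := fun _ => rfl
  have hβ5 : ∀ x, β (β (β (β (β x)))) = x := fun x => by
    obtain ⟨x, rfl⟩ := QuotientGroup.mk_surjective x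
    simp only [hβ, hα]
  have hQ : Nat.card (P ⧸ Z) = 16 := by
    have := Subgroup.card_eq_card_quotient_mul_card_subgroup Z
    rw [hZ4, hP] at this
    omega
  have hQ2 : IsPGroup 2 (P ⧸ Z) := IsPGroup.of_card (n := 4) hQ
  have : Nontrivial (P ⧸ Z) := Finite.one_lt_card_iff_nontrivial.1 (by omega)
  have hdiv : ∀ H : Subgroup (P ⧸ Z), Nat.card H ≡ 1 [MOD 5] → H = ⊥ ∨ H = ⊤ := fun H hH => by
    have h1 : Nat.card H ∣ 2 ^ 4 := (H.card_subgroup_dvd_card).trans hQ.dvd
    obtain ⟨k, hk, h2⟩ := (Nat.dvd_prime_pow Nat.prime_two).1 h1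
    rw [h2] at hH
    interval_cases k
    · exact Or.inl (Subgroup.eq_bot_of_card_eq _ h2)
    · simp [Nat.ModEq] at hH
    · simp [Nat.ModEq] at hH
    · simp [Nat.ModEq] at hH
    · exact Or.inr (Subgroup.eq_top_of_card_eq _ (h2.trans hQ.symm))
  have hfpf : ∀ x, β x = x → x = 1 := by
    have h := card_modEq β hβ5 (fun _ => True) fun _ _ => trivial
    simp only [true_and] at h
    rw [Nat.card_congr (Equiv.subtypeUnivEquiv fun _ => trivial), hQ] at h
    rcases hdiv (β.eqLocus (MonoidHom.id _)) (h.symm.trans (by decide)) with h | h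
    · exact fun x hx => (Subgroup.eq_bot_iff_forall _).1 h x hx
    · exfalso
      have h1 := hinv _ (Abelianization.of.comp (QuotientGroup.mk' Z)) fun x =>
        congrArg Abelianization.of ((Subgroup.eq_top_iff' _).1 h (x : P ⧸ Z))
      have := hQ2.isNilpotent
      refine (Group.IsSolvable.commutator_lt_top_of_nontrivial (P ⧸ Z)).ne
        ((Subgroup.eq_top_iff' _).2 fun x => ?_)
      obtain ⟨x, rfl⟩ := QuotientGroup.mk_surjective x
      rw [← Abelianization.ker_of]
      exact h1 x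
  have hsqQ : ∀ x : P ⧸ Z, x * x = 1 := by
    let Ω : Subgroup (P ⧸ Z) :=
      { carrier := {x | x ∈ Subgroup.center _ ∧ x * x = 1}
        one_mem' := ⟨one_mem _, one_mul _⟩
        mul_mem' := fun {a b} ha hb => ⟨mul_mem ha.1 hb.1, by
          rw [mul_assoc, ← mul_assoc b, ← Subgroup.mem_center_iff.1 hb.1 a, mul_assoc, hb.2,
            mul_one, ha.2]⟩
        inv_mem' := fun {a} ha => ⟨inv_mem ha.1, by rw [← mul_inv_rev, ha.2, inv_one]⟩ }
    have hβs : Function.Surjective β := fun x => ⟨_, hβ5 x⟩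
    have h := card_modEq β hβ5 (· ∈ Ω) fun x hx => ⟨Subgroup.mem_center_iff.2 fun y => by
      obtain ⟨y, rfl⟩ := hβs y
      rw [← map_mul, ← map_mul, Subgroup.mem_center_iff.1 hx.1], by rw [← map_mul, hx.2, map_one]⟩
    rw [(Nat.card_eq_one_iff_exists (α := {x // x ∈ Ω ∧ β x = x})).2 ⟨⟨1, one_mem _, map_one β⟩,
      fun x => Subtype.ext (hfpf _ x.2.2)⟩] at h
    rcases hdiv Ω h with h | h
    · exfalso
      have := hQ2.center_nontrivial
      obtain ⟨k, hk, h1⟩ := (hQ2.to_subgroup (Subgroup.center _)).nontrivial_iff_card.1 this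
      obtain ⟨x, hx⟩ := exists_prime_orderOf_dvd_card' (G := Subgroup.center (P ⧸ Z)) 2
        (h1 ▸ dvd_pow_self 2 hk.ne')
      have h2 := (Subgroup.eq_bot_iff_forall _).1 h x ⟨x.2, by
        rw [← pow_two, ← Subgroup.coe_pow, ← hx, pow_orderOf_eq_one, Subgroup.coe_one]⟩
      rw [show x = 1 from Subtype.ext h2, orderOf_one] at hx
      omega
    · exact fun x => ((Subgroup.eq_top_iff' _).1 h x).2
  let _ : CommGroup (P ⧸ Z) :=
    { (inferInstance : Group (P ⧸ Z)) with mul_comm := CL.PS.mul_comm_of_mul_self hsqQ }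
  have hch : CharP F 2 := charP_two (n := 2) (by omega) hF
  have h2 : (2 : F) = 0 := CharTwo.two_eq_zero
  have hζ5 : (ζ : F) ^ 5 = 1 := by rw [← Units.val_pow_eq_pow_val, ← hζ, pow_orderOf_eq_one]; rfl
  have hζ1 : (ζ : F) ≠ 1 := fun h => by rw [Units.ext h (v := 1), orderOf_one] at hζ; omega
  have hΦ : 1 + (ζ : F) + ζ ^ 2 + ζ ^ 3 + ζ ^ 4 = 0 :=
    mul_left_cancel₀ (sub_ne_zero.2 hζ1) (by linear_combination hζ5)
  obtain ⟨e₁, he₁⟩ := exists_addEquiv (V := Additive (P ⧸ Z)) hsqQ hQ β.toAdditive fun v =>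
    hfpf (v.toMul * β v.toMul * β (β v.toMul) * β (β (β v.toMul)) * β (β (β (β v.toMul)))) (by
      simp only [map_mul, hβ5]
      ac_rfl)
  obtain ⟨e₂, he₂⟩ := exists_addEquiv (V := F) CharTwo.add_self_eq_zero
    (by rw [Nat.card_eq_fintype_card, hF]; rfl) (AddMonoidHom.mulLeft (ζ : F)) fun v => by
      simp only [AddMonoidHom.coe_mulLeft]
      linear_combination v * hΦ
  let f : P → F := fun x => e₂ (e₁.symm (Additive.ofMul (x : P ⧸ Z)))
  have fmul : ∀ x y, f (x * y) = f x + f y := fun x y => by simp [f]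
  have fα : ∀ x, f (α x) = ζ * f x := fun x => by
    simp only [f]
    rw [← hβ, show Additive.ofMul (β x) = β.toAdditive (e₁ (e₁.symm (Additive.ofMul (x : P ⧸ Z))))
      by simp, ← he₁, AddEquiv.symm_apply_apply, he₂]
    rfl
  have fker : ∀ x, f x = 0 ↔ x ∈ Z := fun x => by simp [f]
  have fsurj : ∀ a, ∃ x, f x = a := fun a => by
    obtain ⟨x, hx⟩ := QuotientGroup.mk_surjective (e₁ (e₂.symm a)).toMul
    exact ⟨x, by simp [f, hx]⟩
  have finv : ∀ x, f x⁻¹ = f x := fun x => by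
    have := fmul x⁻¹ x
    rw [inv_mul_cancel, (fker 1).2 (one_mem _)] at this
    linear_combination this.symm - f x * h2
  choose r hr using fsurj
  have hsqZ : ∀ x, x * x ∈ Z := fun x => (fker _).1 (by rw [fmul, CharTwo.add_self_eq_zero])
  let _ : CommGroup Z := { (inferInstance : Group Z) with
    mul_comm := fun a b => Subtype.ext (Subgroup.mem_center_iff.1 b.2 a) }
  let sq : P → Additive Z := fun x => Additive.ofMul ⟨x * x, hsqZ x⟩
  have hA : ∀ a : Additive Z, a + a = 0 := fun a => IsKleinFour.mul_self (G := Z) a.toMul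
  have sq_congr : ∀ x y, f x = f y → sq x = sq y := fun x y h => by
    have hz : x⁻¹ * y ∈ Z := (fker _).1 (by rw [fmul, finv, h, CharTwo.add_self_eq_zero])
    refine congrArg Additive.ofMul (Subtype.ext ?_)
    have e : y = x * (x⁻¹ * y) := by simp
    generalize x⁻¹ * y = z at hz e
    subst e
    change x * x = x * z * (x * z)
    rw [mul_assoc, ← mul_assoc z, ← Subgroup.mem_center_iff.1 hz x, mul_assoc, hZ2 z hz, mul_one]
  have hcZ : ∀ x y, x⁻¹ * y * x * y⁻¹ ∈ Z := fun x y => (fker _).1 (by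
    simp only [fmul, finv]; linear_combination (f x + f y) * h2)
  let c : P → P → Additive Z := fun x y => Additive.ofMul ⟨_, hcZ x y⟩
  have sq_mul : ∀ x y, sq (x * y) = sq x + c x y + sq y := fun x y =>
    congrArg Additive.ofMul (Subtype.ext (by simp [sq, c, mul_assoc]))
  have c_mul : ∀ x y w, c x (y * w) = c x y + c x w := fun x y w =>
    congrArg Additive.ofMul (Subtype.ext (by
      change x⁻¹ * (y * w) * x * (y * w)⁻¹ = x⁻¹ * y * x * y⁻¹ * (x⁻¹ * w * x * w⁻¹)
      rw [mul_assoc _ y⁻¹, Subgroup.mem_center_iff.1 (hcZ x w) y⁻¹]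
      group))
  let s : F → Additive Z := fun a => sq (r a)
  have hs : ∀ x, s (f x) = sq x := fun x => sq_congr _ _ (hr _)
  have s3 : ∀ a b d, s (a + (b + d)) + s (a + b) + s (a + d) + s (b + d) + s a + s b + s d = 0 :=
    fun a b d => by
      rw [← hr a, ← hr b, ← hr d]
      simp only [← fmul, hs]
      rw [sq_mul (r a), sq_mul (r a), sq_mul (r a), c_mul, ← hA (sq (r a) + sq (r a) +
        c (r a) (r b) + c (r a) (r d) + sq (r b) + sq (r d) + sq (r b * r d))]
      abel
  have sζ : ∀ a, s (ζ * a) = s a := fun a => by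
    rw [← hr a, ← fα, hs, hs]
    exact congrArg Additive.ofMul (Subtype.ext ((map_mul α _ _).symm.trans (hfixZ _ (hsqZ _))))
  have s5 : ∀ a b, a ^ 5 = b ^ 5 → s a = s b := fun a b h => by
    by_cases hb : b = 0
    · rw [hb, zero_pow (by omega)] at h
      rw [hb, eq_zero_of_pow_eq_zero h]
    have hp : IsPrimitiveRoot (ζ : F) 5 := by
      rw [IsPrimitiveRoot.coe_units_iff, ← hζ]; exact IsPrimitiveRoot.orderOf ζ
    obtain ⟨i, -, hi⟩ := hp.eq_pow_of_pow_eq_one (ξ := a / b)
      (by rw [div_pow, h, div_self (pow_ne_zero _ hb)])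
    rw [show a = ζ ^ i * b by rw [hi, div_mul_cancel₀ _ hb]]
    clear hi
    induction i with
    | zero => simp
    | succ i ih => rw [pow_succ', mul_assoc, sζ, ih]
  let T : F → Additive Z := fun w => s (Function.invFun (· ^ 5) w)
  have hT : ∀ a, T (a ^ 5) = s a := fun a => s5 _ _ (Function.invFun_eq (f := (· ^ 5)) ⟨a, rfl⟩)
  have T0 : T 0 = 0 := by
    rw [← zero_pow (n := 5) (by omega), hT, ← (fker 1).2 (one_mem _), hs]
    exact congrArg Additive.ofMul (Subtype.ext (one_mul 1))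
  obtain ⟨ω, hω⟩ : ∃ ω : F, ω = ζ + ζ ^ 4 := ⟨_, rfl⟩
  have T1 : T (ω + 1) = T ω + T 1 := by
    have := s3 1 ζ (ζ ^ 2)
    simp only [← hT] at this
    rw [show (1 + (ζ + ζ ^ 2) : F) ^ 5 = ω by grind, show (1 + ζ : F) ^ 5 = ω by grind,
      show (1 + ζ ^ 2 : F) ^ 5 = ω + 1 by grind, show (ζ + ζ ^ 2 : F) ^ 5 = ω by grind, one_pow,
      hζ5, show ((ζ : F) ^ 2) ^ 5 = 1 by grind] at this
    rw [← sub_eq_zero, ← this, ← sub_eq_zero, ← neg_eq_zero,
      ← hA (T ω + T ω + T 1 + T 1)]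
    abel
  set W := (CL.Uni.HT hF).π.ker
  have hW : ∀ w : W, (w : F) + w ^ 4 = 0 := fun w => w.2
  have hW4 : ∀ w : W, (w : F) = 0 ∨ (w : F) = 1 ∨ (w : F) = ω ∨ (w : F) = ω + 1 := fun w => by
    have := hW w
    have h : (w : F) * (w - 1) * (w - ω) * (w - (ω + 1)) = 0 := by grind
    simpa [sub_eq_zero, or_assoc] using h
  have hA' : ∀ a b : Additive Z, a + (a + b) = b := fun a b => by rw [← add_assoc, hA, zero_add]
  let L : W →+ Additive Z := AddMonoidHom.mk' (fun w => T w) fun v w => by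
    rw [AddSubgroup.coe_add]
    rcases hW4 v with h | h | h | h <;> rcases hW4 w with h' | h' | h' | h' <;>
      simp [h, h', T0, hA, hA', CharTwo.add_self_eq_zero, add_comm (1 : F) ω, T1, add_comm (T 1),
        add_assoc, add_left_comm (1 : F) ω, CharTwo.add_cancel_left]
  have hn : ∀ a : F, a ^ 4 * a ∈ W := fun a => by
    change a ^ 4 * a + (a ^ 4 * a) ^ 4 = 0
    rw [S.norm_fixed hF, CharTwo.add_self_eq_zero]
  let ι₁ : Multiplicative W →* P := Z.subtype.comp L.toMultiplicativeLeft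
  have hι : ∀ x, ι₁ (Multiplicative.ofAdd ⟨_, hn (f x)⟩) = x * x := fun x => by
    change ((T (f x ^ 4 * f x)).toMul : P) = _
    rw [← pow_succ, hT, hs]
    rfl
  have hrange : ι₁.range = Z := by
    refine le_antisymm (by rintro _ ⟨w, rfl⟩; exact Subtype.property _) fun z hz => ?_
    by_contra hz'
    have : ι₁.range.Normal := ⟨by
      rintro _ ⟨w, rfl⟩ g
      rw [Subgroup.mem_center_iff.1 (show ι₁ w ∈ Z from Subtype.property _) g, mul_inv_cancel_right]
      exact ⟨w, rfl⟩⟩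
    have : Nontrivial Z := Finite.one_lt_card_iff_nontrivial.1 (by omega)
    obtain ⟨a, ha⟩ := exists_ne (0 : Additive Z)
    obtain ⟨μ, -, hμ⟩ := CL.PS.exists_hom_ne_one hA a ι₁.range (fun x => ⟨_, hι x⟩) hz'
    let α' := α.toMonoidHom
    have := hinv _ (μ * μ.comp α' * (μ.comp α').comp α' * ((μ.comp α').comp α').comp α' *
      (((μ.comp α').comp α').comp α').comp α') (fun x => by
        simp only [α', MonoidHom.mul_apply, MonoidHom.comp_apply, MulEquiv.coe_toMonoidHom, hα]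
        simp only [mul_comm, mul_left_comm]) z
    simp only [α', MonoidHom.mul_apply, MonoidHom.comp_apply, MulEquiv.coe_toMonoidHom,
      hfixZ z hz, hμ, ← ofAdd_add, hA, zero_add, ofAdd_eq_one] at this
    exact ha this
  have hι₁ : Function.Injective ι₁ := by
    have h1 : Function.Surjective ι₁.rangeRestrict := ι₁.rangeRestrict_surjective
    exact fun a b h => (h1.bijective_of_nat_card_le (by
      rw [hrange, hZ4]; exact (CL.Uni.card_ker_π hF).le)).1 (Subtype.ext h)
  let ι₂ : Multiplicative W →* S hF := MonoidHom.mk' (fun w => S.z w.toAdd (hW _)) fun v w => by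
    ext <;> simp
  let f₁ : P →* Multiplicative F := MonoidHom.mk' (fun x => Multiplicative.ofAdd (f x))
    fun x y => by rw [fmul, ofAdd_add]
  obtain ⟨e, he, -⟩ := CL.PS.exists_mulEquiv_of_sq (W := W)
    (fun w => Subtype.ext (CharTwo.add_self_eq_zero _)) f₁ (S.aHom (hF := hF))
    (fun a => ⟨r a.toAdd, congrArg Multiplicative.ofAdd (hr _)⟩) S.aHom_surjective ι₁ ι₂ hι₁
    (fun v w h => Subtype.ext (congrArg S.b h)) (fun x => hrange ▸ fker x)
    (fun x => ⟨fun hx => ⟨Multiplicative.ofAdd ⟨x.b, S.tr_b_of_a hx⟩, S.ext hx.symm rfl⟩,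
      by rintro ⟨w, rfl⟩; rfl⟩)
    (fun w x => (Subgroup.mem_center_iff.1 (Subtype.property _ : ι₁ w ∈ Z) x).symm)
    (fun w x => (Subgroup.mem_center_iff.1 (S.mem_center_iff.2 rfl) x).symm)
    (fun x y h => ⟨_, (hι x).symm, S.ext (S.sq_a h2 y) (by
      rw [S.sq_b h2, show y.a = f x from h.symm]; rfl)⟩)
  replace he : ∀ x, (e x).a = f x := he
  obtain ⟨h, hh, e1⟩ := S.exists_eq_cen (α := (e.symm.trans (α.trans e)) * (S.tor ζ)⁻¹) fun a => by
    obtain ⟨x, rfl⟩ := S.exists_a hF a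
    rw [S.abar_a, ← map_inv, MulAut.mul_apply, MulEquiv.trans_apply, MulEquiv.trans_apply, he, fα,
      ← he, e.apply_symm_apply, S.tor_a, Units.mul_inv_cancel_left]
  have e2 : ∀ x, e (α x) = S.cen h hh (S.tor ζ (e x)) := fun x => by simp [← e1]
  have h1ζ : (1 - ζ : F) ≠ 0 := sub_ne_zero.2 hζ1.symm
  refine ⟨e.trans (S.cen (h.comp (AddMonoidHom.mulLeft (ζ * (1 - ζ : F)⁻¹))) fun a => hh _),
    fun x => ?_⟩
  ext
  · simp [e2]
  · simp only [MulEquiv.trans_apply, e2, S.cen_b, S.tor_b, S.cen_a, S.tor_a,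
      AddMonoidHom.comp_apply, AddMonoidHom.coe_mulLeft, ← pow_succ, hζ5, one_mul, add_assoc,
      ← map_add]
    congr 2
    field_simp
    ring

/-- A finite group of order 320 whose derived subgroup has order 64 and has centre a Klein four-group is isomorphic to the centralizer of an involution in PSU₃(4). -/
theorem result {G : Type*} [Group G] [Finite G] (hG : Nat.card G = 320) (hD : Nat.card (commutator G) = 64)
    (hZ : IsKleinFour (Subgroup.center (commutator G)))
    {F : Type*} [Field F] [Fintype F] (hF : Fintype.card F = 16) :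
    ∃ t : Cfsg.PSU 3 F 4, orderOf t = 2 ∧ Nonempty (G ≃* Subgroup.centralizer ({t} : Set (Cfsg.PSU 3 F 4))) := by
  open CL.Uni CL.U3 CL.Witt in
  have hF' : Fintype.card F = 4 ^ 2 := hF
  have : Fact (Nat.Prime 5) := ⟨by norm_num⟩
  obtain ⟨g, hg⟩ := exists_prime_orderOf_dvd_card' (G := G) 5 (by rw [hG]; norm_num)
  have hc : (commutator G).IsComplement' (Subgroup.zpowers g) :=
    Subgroup.isComplement'_of_coprime (by rw [hD, Nat.card_zpowers, hg, hG])
      (by rw [hD, Nat.card_zpowers, hg]; norm_num)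
  set ψ := ((commutator G).normalizerMonoidHom).comp
    (Subgroup.inclusion ((commutator G).normalizer_eq_top ▸ le_top : Subgroup.zpowers g ≤ _))
  let E : commutator G ⋊[ψ] Subgroup.zpowers g ≃* G := SemidirectProduct.mulEquivSubgroup hc
  set k : Subgroup.zpowers g := ⟨g, Subgroup.mem_zpowers g⟩
  have hk : orderOf k = 5 := by rw [← Subgroup.orderOf_coe, hg]
  have hgen : ∀ x, x ∈ Subgroup.zpowers k := by
    rintro ⟨_, n, rfl⟩; exact ⟨n, rfl⟩
  have hgen' : ∀ x, ∃ n : ℕ, k ^ n = x := fun x => (mem_powers_iff_mem_zpowers.2 (hgen x))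
  obtain ⟨c, hc5⟩ := exists_prime_orderOf_dvd_card' (G := Fˣ) 5
    (by rw [Nat.card_units, Nat.card_eq_fintype_card, hF]; norm_num)
  have hc1 : c ^ 5 = 1 := by rw [← hc5, pow_orderOf_eq_one]
  obtain ⟨θ, hθ⟩ := exists_iso hD hZ (ψ k) (fun x => by
      simp only [← MulAut.mul_apply, ← map_mul]
      rw [show k * (k * (k * (k * k))) = k ^ 5 by simp [pow_succ'], ← hk, pow_orderOf_eq_one, map_one,
        MulAut.one_apply])
    (fun A _ l hl x => by
      let Λ : commutator G ⋊[ψ] Subgroup.zpowers g →* A := SemidirectProduct.lift l 1 fun y => by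
        obtain ⟨n, rfl⟩ := hgen' y
        ext x
        induction n with
        | zero => simp
        | succ n ih => simpa [pow_succ', hl] using ih
      have := Abelianization.commutator_subset_ker (Λ.comp E.symm.toMonoidHom) x.2
      rw [MonoidHom.mem_ker, show (x : G) = E (SemidirectProduct.inl x) from (mul_one _).symm] at this
      simpa [Λ] using this) hF' (c ^ 2)
    (by rw [Nat.Coprime.orderOf_pow (by rw [hc5]; norm_num), hc5])
  let j : Subgroup.zpowers g →* Fˣ := monoidHomOfForallMemZpowers hgen (g' := c) (by rw [hk, hc5])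
  have hj : j k = c := monoidHomOfForallMemZpowers_apply_gen _ _
  have hji : Function.Injective j := (injective_iff_map_eq_one _).2 fun x hx => by
    obtain ⟨n, rfl⟩ := hgen' x
    rw [map_pow, hj, ← orderOf_dvd_iff_pow_eq_one, hc5] at hx
    rwa [← orderOf_dvd_iff_pow_eq_one, hk]
  set f := std hF' (Fin 3)
  have hf : f.Nondeg := std_nondeg hF' _
  obtain ⟨u, hu0, hu⟩ := exists_isotropic (sig_ne_id hF') hf (by simp)
  obtain ⟨Ψ, hΨ, hr, -⟩ := exists_hom_borel hf (by simp) hu hu0 ψ θ j hji fun y x => by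
    obtain ⟨n, rfl⟩ := hgen' y
    rw [map_pow j, hj, show (c ^ n) ^ 4 * ((c ^ n) ^ 4 * (c ^ n)⁻¹) = (c ^ 5) ^ n * (c ^ 2) ^ n by
      group, hc1, one_pow, one_mul]
    induction n with
    | zero => simp
    | succ n ih => rw [pow_succ', pow_succ', map_mul, map_mul, MulAut.mul_apply, hθ, ih]; rfl
  have hch : CharP F 2 := charP_two (n := 2) (by omega) hF
  have hπ : (HT hF').π 1 = 0 := by rw [HT_π, one_pow, CharTwo.add_self_eq_zero]
  have hZ1 : Subgroup.center (Cfsg.SU 3 F 4) = ⊥ :=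
    Subgroup.eq_bot_of_card_eq _ (by rw [card_center_SU hF' (by omega)]; rfl)
  let ε : f.SO ≃* Cfsg.PSU 3 F 4 := (suEquiv hF' 3).symm.trans
    ((QuotientGroup.quotientMulEquivOfEq hZ1).trans QuotientGroup.quotientBot).symm
  let t : f.SO := ⟨f.ei u 0 1, f.ei_mem_SO u 0 1⟩
  let Φ : G →* Cfsg.PSU 3 F 4 := (ε.toMonoidHom.comp
    (Ψ.codRestrict _ fun x => ((hr _).1 ⟨x, rfl⟩).1)).comp E.symm.toMonoidHom
  have hΦ : Function.Injective Φ :=
    (ε.injective.comp ((MonoidHom.injective_codRestrict _ _ _).2 hΨ)).comp E.symm.injective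
  refine ⟨ε t, ?_, ⟨(MonoidHom.ofInjective hΦ).trans (MulEquiv.subgroupCongr ?_)⟩⟩
  · rw [ε.orderOf_eq]
    refine orderOf_eq_prime (Subtype.ext ?_) fun h => ?_
    · rw [pow_two, Subgroup.coe_mul, Form.ei_zero_mul_ei_zero hu hπ hπ, CharTwo.add_self_eq_zero,
        Form.ei_zero, Subgroup.coe_one]
    · exact not_scalar_tv hf (by simp) hu hu0 one_ne_zero hπ ⟨1, fun v => by
        rw [show f.ei u 0 1 = 1 from congrArg Subtype.val h]; simp⟩
  · ext x
    obtain ⟨x, rfl⟩ := ε.surjective x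
    rw [Subgroup.mem_centralizer_singleton_iff, ← map_mul, ← map_mul, ε.apply_eq_iff_eq,
      Subtype.ext_iff, Subgroup.coe_mul, Subgroup.coe_mul,
      commute_tv_iff hf hu hu0 one_ne_zero hπ (f.SO_le_O x.2)]
    constructor
    · rintro ⟨y, hy⟩
      obtain ⟨-, l, hl⟩ := (hr x).1 ⟨E.symm y, congrArg Subtype.val (ε.injective hy)⟩
      refine ⟨_, ?_, hl⟩
      rw [← Units.val_pow_eq_pow_val, ← map_pow, orderOf_dvd_iff_pow_eq_one.1
        ((orderOf_dvd_of_mem_zpowers (hgen l)).trans hk.dvd), map_one, Units.val_one]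
    · rintro ⟨d, hd, hx⟩
      have hp : IsPrimitiveRoot (c : F) 5 := by
        rw [IsPrimitiveRoot.coe_units_iff, ← hc5]; exact IsPrimitiveRoot.orderOf c
      obtain ⟨i, -, rfl⟩ := hp.eq_pow_of_pow_eq_one hd
      obtain ⟨y, hy⟩ := (hr x).2 ⟨x.2, k ^ i, by simp [hx, hj]⟩
      exact ⟨E y, congrArg ε (Subtype.ext (by simpa using hy))⟩

end Cfsg.Agent.S1903
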