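import Cfsg.Statements.S1905
import Cfsg.Agent.INV.IFix
import Cfsg.Agent.SIG.SPE

set_option autoImplicit false
open Cfsg

namespace Cfsg.Agent.S1905

open CL.MSS Subgroup CL.TwoInv CL.SylowAux

theorem sylIn_top_of {S : Type*} [Group S] [Finite S] {M : Subgroup S} (hM : Even (Nat.card M))
    (hC : ∀ i ∈ M, orderOf i = 2 → Subgroup.centralizer ({i} : Set S) ≤ M) {X : Subgroup S}
    (hX : SylIn 2 X M) : SylIn 2 X ⊤ := by
  have hX1 : X ≠ ⊥ := hX.ne_bot hM.two_dvd
  obtain ⟨T, hT, hXT⟩ := exists_sylIn_ge hX.pgroup (le_top (a := X))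
  obtain ⟨i, hi, hi2⟩ := CL.SPE.exists_mem_orderOf_eq_of_isPGroup hX.pgroup hX1
  have hT1 : T ≠ ⊥ := fun h => hX1 (le_bot_iff.1 (h ▸ hXT))
  obtain ⟨z, hz, hz2⟩ := CL.SPE.exists_mem_orderOf_eq_of_isPGroup
    (hT.pgroup.to_le inf_le_left) (inf_centralizer_ne_bot hT.pgroup hT.pgroup le_normalizer hT1)
  have hzM : z ∈ M := hC i (hX.le hi) hi2
    (mem_centralizer_singleton_iff.2 (hz.2 i (hXT hi)).symm)
  have hTM : T ≤ M := fun t ht => hC z hzM hz2 (mem_centralizer_singleton_iff.2 (hz.2 t ht))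
  rw [← hX.max T hT.pgroup hXT hTM]
  exact hT

/-- Let M be a subgroup of even order of a finite group S such that M contains the centralizer in S of each of its involutions and the normal core of M in S has odd order. Then all involutions of S are conjugate. If moreover N_S(X) ≤ M for a Sylow 2-subgroup X of M and I is an involution in the centre of X, then all involutions of M are conjugate in M and M = M₀ C_M(I) for some subgroup M₀ of M of odd order. -/
theorem result {S : Type*} [Group S] [Finite S] (M : Subgroup S) (hM : Even (Nat.card M))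
    (hC : ∀ i ∈ M, orderOf i = 2 → Subgroup.centralizer ({i} : Set S) ≤ M) (hcore : Odd (Nat.card M.normalCore)) :
    (∀ x y : S, orderOf x = 2 → orderOf y = 2 → IsConj x y) ∧
      ∀ (X : Sylow 2 M) (I : M), I ∈ (Subgroup.center ↥(X : Subgroup ↥M)).map (X : Subgroup ↥M).subtype → orderOf I = 2 →
        Subgroup.normalizer (((X : Subgroup M).map M.subtype : Subgroup S) : Set S) ≤ M →
        (∀ x y : M, orderOf x = 2 → orderOf y = 2 → IsConj x y) ∧
          ∃ M₀ : Subgroup M, Odd (Nat.card M₀) ∧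
            ∀ m : M, ∃ a ∈ M₀, ∃ c ∈ Subgroup.centralizer ({I} : Set M), m = a * c := by
  obtain ⟨P, hP⟩ := exists_sylIn 2 M
  have hP' := sylIn_top_of hM hC hP
  have hinto : ∀ x : S, orderOf x = 2 → ∃ g : S, g * x * g⁻¹ ∈ M := fun x hx => by
    obtain ⟨g, -, hg⟩ := hP'.exists_conj_le (isPGroup_zpowers_two (mul_self_of_orderOf_eq_two hx))
      le_top
    exact ⟨g, hP.le (hg (conj_mem_cj (mem_zpowers x)))⟩
  obtain ⟨u, hu, huM⟩ : ∃ u : S, orderOf u = 2 ∧ u ∉ M := by
    by_contra! hn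
    obtain ⟨t, htM, ht⟩ := exists_mem_orderOf_eq_two_of_even hM
    refine odd_card_iff.1 hcore t (fun g => hn _ ?_) ht
    rw [orderOf_conj, ht]
  have hu2 := mul_self_of_orderOf_eq_two hu
  have hone : ∀ x y : S, orderOf x = 2 → orderOf y = 2 → IsConj x y := by
    have key : ∀ s : S, orderOf s = 2 → IsConj s u := fun s hs => by
      obtain ⟨g, hg⟩ := hinto s hs
      have hs' : orderOf (g * s * g⁻¹) = 2 := by rw [orderOf_conj, hs]
      refine (isConj_iff.2 ⟨g, rfl⟩).trans (isConj_of_odd (mul_self_of_orderOf_eq_two hs') hu2 ?_)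
      rw [← Nat.not_even_iff_odd]
      intro he
      obtain ⟨hz, hzt, hzu⟩ := half_pow_spec (mul_self_of_orderOf_eq_two hs') hu2
        (orderOf_pos _).ne' he
      exact huM (hC _ (hC _ hg hs' (mem_centralizer_singleton_iff.2 hzt.eq)) hz
        (mem_centralizer_singleton_iff.2 hzu.symm.eq))
    exact fun x y hx hy => (key x hx).trans (key y hy).symm
  refine ⟨hone, fun X I hI hI2 hN => ?_⟩
  have hX := sylIn_map_subtype X
  have hX' := sylIn_top_of hM hC hX
  have hI2' : orderOf (I : S) = 2 := by rw [orderOf_coe, hI2]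
  have hXI : (X : Subgroup M).map M.subtype ≤ centralizer ({(I : S)} : Set S) := by
    rintro _ ⟨x, hx, rfl⟩
    obtain ⟨y, hy, rfl⟩ := hI
    exact mem_centralizer_singleton_iff.2
      (congrArg (fun a : (X : Subgroup M) => ((a : M) : S)) (mem_center_iff.1 hy ⟨x, hx⟩))
  have hfus : ∀ g : S, g * I * g⁻¹ ∈ M → g ∈ M := fun g hg => by
    have h1 : g •ᶜ ((X : Subgroup M).map M.subtype) ≤ M := by
      refine le_trans ?_ (hC _ hg (by rw [orderOf_conj, hI2']))
      rw [← cj_centralizer_singleton]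
      exact cj_mono g hXI
    have h2 : SylIn 2 (g •ᶜ ((X : Subgroup M).map M.subtype)) M :=
      (hX'.cj_of_mem (mem_top g)).of_le h1 le_top
    obtain ⟨m, hm, he⟩ := h2.exists_conj hX
    rw [← cj_mul] at he
    have := hN (mem_normalizer_iff_cj.2 he)
    simpa using M.mul_mem (M.inv_mem hm) this
  have hSE : IsStronglyEmbedded M := by
    refine CL.StrongEmb.isStronglyEmbedded_iff.2 ⟨fun h => huM (h ▸ mem_top u), hM, ?_⟩
    intro t ht ht2 g hg
    obtain ⟨h, rfl⟩ := isConj_iff.1 (hone I t hI2' ht2)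
    have hh := hfus h ht
    have := hfus (g * h) (by simpa only [mul_inv_rev, mul_assoc] using hg)
    simpa using M.mul_mem this (M.inv_mem hh)
  refine ⟨fun x y hx hy => ?_, ?_⟩
  · obtain ⟨h, hh, he⟩ := CL.StrongEmb.exists_conj_of_involutions hSE x.2 y.2
      (by rw [orderOf_coe, hx]) (by rw [orderOf_coe, hy])
    exact isConj_iff.2 ⟨⟨h, hh⟩, Subtype.ext he⟩
  · have hI := CL.IFix.of_isStronglyEmbedded hSE
    have hux : u • ((1 : S) : S ⧸ M) ≠ (1 : S) := fun h => huM ((CL.IFix.mem_iff_smul_one M u).2 h)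
    let D : Subgroup S := M ⊓ MulAction.stabilizer S (u • ((1 : S) : S ⧸ M))
    have hD : Odd (Nat.card D) := hI.odd_card_of_fix hux.symm
      (fun d hd => (CL.IFix.mem_iff_smul_one M d).1 hd.1) (fun d hd => hd.2)
    refine ⟨D.subgroupOf M, ?_, fun m => ?_⟩
    · rwa [Nat.card_congr (subgroupOfEquivOfLe (inf_le_left : D ≤ M)).toEquiv]
    · obtain ⟨k, hk1, hk2, -, hk⟩ := hI.exists_inverted_conj (s := I) (t := m * I * (m : S)⁻¹)
        hu2 hux hI2' ((CL.IFix.mem_iff_smul_one M _).1 I.2) (by rw [orderOf_conj, hI2'])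
        ((CL.IFix.mem_iff_smul_one M _).1 (M.mul_mem (M.mul_mem m.2 I.2) (M.inv_mem m.2)))
      have hkM : k ∈ M := (CL.IFix.mem_iff_smul_one M _).2 hk1
      refine ⟨⟨k, hkM⟩, ⟨hkM, hk2⟩, ⟨k, hkM⟩⁻¹ * m, ?_, by group⟩
      rw [mem_centralizer_singleton_iff]
      apply Subtype.ext
      change k⁻¹ * m * I = I * (k⁻¹ * m)
      calc k⁻¹ * m * I = k⁻¹ * (m * I * (m : S)⁻¹) * m := by group
        _ = _ := by rw [← hk]; group

end Cfsg.Agent.S1905
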