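import Cfsg.Statements.S1906
import Cfsg.Agent.FGS.TwoRankLin
import Cfsg.Agent.TECH.ExtTransfer
import Cfsg.Agent.INV.IndexTwo
import Cfsg.Agent.PLOC.PNormal

set_option autoImplicit false
open Cfsg

namespace Cfsg.Agent.S1906

open Subgroup Matrix

theorem zero_of_comm {F : Type*} [Field F] {M : Matrix (Fin 3) (Fin 3) F} {d : Fin 3 → F}
    (h : M * diagonal d = diagonal d * M) {i j : Fin 3} (hij : d i ≠ d j) : M i j = 0 := by
  have := congrFun (congrFun h i) j
  rw [mul_diagonal, diagonal_mul, mul_comm, ← sub_eq_zero, ← sub_mul, mul_eq_zero] at this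
  exact this.resolve_left (sub_ne_zero.mpr hij.symm)

theorem eq_diag {F : Type*} [Field F] {M : Matrix (Fin 3) (Fin 3) F}
    (h : ∀ i j, i ≠ j → M i j = 0) : M = diagonal (fun i => M i i) := by
  ext i j
  by_cases hij : i = j
  · subst hij; simp
  · rw [h i j hij, diagonal_apply_ne _ hij]

theorem uniq {F Y : Type*} [Field F] [Group Y] (h2 : (-1 : F) ≠ 1)
    (σ : Y →* Matrix (Fin 3) (Fin 3) F) (hσ : Function.Injective σ) (e : Fin 3 → Y)
    (he : ∀ k, σ (e k) = diagonal (fun i => if i = k then -1 else 1))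
    (hna : ¬ IsMulCommutative Y) {u w : Y} (hu : u ∈ center Y) (hw : w ∈ center Y)
    (hu2 : u * u = 1) (hw2 : w * w = 1) (hu1 : u ≠ 1) (hw1 : w ≠ 1) (du : (σ u).det = 1)
    (dw : (σ w).det = 1) : u = w := by
  have key : ∀ u ∈ center Y, u * u = 1 → u ≠ 1 → (σ u).det = 1 →
      ∃ k, σ u = diagonal (fun i => if i = k then 1 else -1) := by
    intro u hu hu2 hu1 du
    have h1 : σ u = diagonal (fun i => σ u i i) := eq_diag fun i j hij =>
      zero_of_comm (d := fun l => if l = i then -1 else 1) (by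
        rw [← he, ← map_mul, ← map_mul, mem_center_iff.mp hu]) (by simp [hij.symm, h2])
    generalize (fun i => σ u i i) = d at h1
    have h3 : ∀ i, d i = 1 ∨ d i = -1 := fun i => by
      have := congrArg σ hu2
      rw [map_mul, h1, diagonal_mul_diagonal, map_one] at this
      exact mul_self_eq_one_iff.mp (by simpa using congrFun (congrFun this i) i)
    rw [h1, det_diagonal, Fin.prod_univ_three] at du
    have h4 : ¬ (d 0 = 1 ∧ d 1 = 1 ∧ d 2 = 1) := fun h => hu1 (hσ (by
      rw [h1, map_one, ← diagonal_one]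
      congr 1; ext i; fin_cases i <;> simp [h.1, h.2.1, h.2.2]))
    rw [h1]
    rcases h3 0 with a | a <;> rcases h3 1 with b | b <;> rcases h3 2 with c | c <;>
      simp only [a, b, c, mul_one, mul_neg, neg_neg, and_self, not_true_eq_false] at du h4
    all_goals first
      | exact absurd du h2
      | (refine ⟨0, ?_⟩; congr 1; ext i; fin_cases i <;> simp [a, b, c]; done)
      | (refine ⟨1, ?_⟩; congr 1; ext i; fin_cases i <;> simp [a, b, c]; done)
      | (refine ⟨2, ?_⟩; congr 1; ext i; fin_cases i <;> simp [a, b, c]; done)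
  obtain ⟨k, hk⟩ := key u hu hu2 hu1 du
  obtain ⟨l, hl⟩ := key w hw hw2 hw1 dw
  by_cases hkl : k = l
  · exact hσ (by rw [hk, hl, hkl])
  exfalso
  have hd : ∀ x : Y, σ x = diagonal (fun i => σ x i i) := fun x => eq_diag fun i j hij => by
    have h1 : σ x * σ u = σ u * σ x := by rw [← map_mul, ← map_mul, mem_center_iff.mp hu]
    have h3 : σ x * σ w = σ w * σ x := by rw [← map_mul, ← map_mul, mem_center_iff.mp hw]
    rw [hk] at h1
    rw [hl] at h3
    have h4 : ∀ i j k l : Fin 3, i ≠ j → k ≠ l → (i = k ∨ j = k) ∨ (i = l ∨ j = l) := by decide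
    rcases h4 i j k l hij hkl with (rfl | rfl) | (rfl | rfl)
    · exact zero_of_comm h1 (by simp [hij.symm, h2.symm])
    · exact zero_of_comm h1 (by simp [hij, h2])
    · exact zero_of_comm h3 (by simp [hij.symm, h2.symm])
    · exact zero_of_comm h3 (by simp [hij, h2])
  refine hna ⟨⟨fun x y => hσ ?_⟩⟩
  rw [map_mul, map_mul, hd x, hd y, diagonal_mul_diagonal, diagonal_mul_diagonal]
  simp only [mul_comm]

theorem exists_sigma {F Y : Type*} [Field F] [Group Y] [Finite Y] (h2 : (2 : F) ≠ 0)
    (f : Y →* GL (Fin 3) F) (hf : Function.Injective f) (E : Subgroup Y)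
    (hE : ∀ a ∈ E, a ^ 2 = 1) (hE8 : Nat.card E = 8) :
    ∃ σ : Y →* Matrix (Fin 3) (Fin 3) F, Function.Injective σ ∧ ∃ e : Fin 3 → Y,
      ∀ k, σ (e k) = diagonal (fun i => if i = k then -1 else 1) := by
  classical
  have hneg : (-1 : F) ≠ 1 := fun h => h2 (by linear_combination -h)
  let ρ := CL.DL.matRep f
  have hρ : Function.Injective ρ := (injective_iff_map_eq_one _).mpr fun a ha =>
    hf ((CL.DL.matRep_eq_one ha).trans (map_one f).symm)
  have h1 := CL.TR.exists_weights h2 (ρ.comp E.subtype) (fun a => Subtype.ext (hE a a.2))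
  rw [show Module.finrank F (Fin 3 → F) = 3 by simp] at h1
  obtain ⟨b, χ, h1, h3⟩ := h1
  let σ : Y →* Matrix (Fin 3) (Fin 3) F := (LinearMap.toMatrixAlgEquiv b).toMulEquiv.toMonoidHom.comp ρ
  have hσ : Function.Injective σ := (LinearMap.toMatrixAlgEquiv b).injective.comp hρ
  have hd : ∀ a : E, σ a = diagonal (fun k => χ k a) := fun a => by
    ext i j
    change LinearMap.toMatrixAlgEquiv b (ρ a) i j = _
    rw [LinearMap.toMatrixAlgEquiv_apply]
    have := h1 j a
    change ρ a (b j) = _ at this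
    rw [this, map_smul, Module.Basis.repr_self, diagonal_apply]
    by_cases hij : i = j
    · subst hij; simp
    · simp [hij]
  let s : E → Fin 3 → Bool := fun a k => decide (χ k a = 1)
  have hs : Function.Injective s := fun a a' h => Subtype.ext (hσ (by
    rw [hd, hd]
    congr 1; ext k
    have := congrFun h k
    simp only [s, decide_eq_decide] at this
    rcases h3 k a with h4 | h4 <;> rcases h3 k a' with h5 | h5 <;> simp_all))
  have hb := hs.bijective_of_nat_card_le (by rw [hE8]; simp)
  choose a h4 using fun k : Fin 3 => hb.2 (fun i => decide (i ≠ k))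
  refine ⟨σ, hσ, fun k => a k, fun k => ?_⟩
  rw [hd]
  congr 1; ext i
  have := congrFun (h4 k) i
  simp only [s, decide_eq_decide] at this
  split_ifs with h6
  · exact (h3 i _).resolve_left fun h5 => this.mp h5 h6
  · exact this.mpr h6

/-- Let G be a finite group with no subgroup of index 2 whose Sylow 2-subgroup X embeds in GL₃(F) for a finite field F of odd order. If X contains an elementary abelian subgroup of order 8, then X is abelian. -/
theorem result {G : Type*} [Group G] [Finite G] (hG : ∀ H : Subgroup G, H.index ≠ 2) (X : Sylow 2 G)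
    {F : Type*} [Field F] [Fintype F] (hF : Odd (Fintype.card F))
    (f : ↥(X : Subgroup G) →* GL (Fin 3) F) (hf : Function.Injective f)
    (E : Subgroup G) (hE : E ≤ (X : Subgroup G)) (hEa : Cfsg.IsElementaryAbelian 2 E) (hE8 : Nat.card E = 8) :
    IsMulCommutative (X : Subgroup G) := by
  by_contra hna
  have h2 : (2 : F) ≠ 0 := by
    intro h
    have h1 : ringChar F = 2 := by
      have := (ringChar.spec F 2).mp (by exact_mod_cast h)
      exact ((Nat.dvd_prime Nat.prime_two).mp this).resolve_left (CharP.ringChar_ne_one)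
    have := FiniteField.even_card_iff_char_two.mp h1
    rcases hF with ⟨k, hk⟩
    omega
  have hneg : (-1 : F) ≠ 1 := fun h => h2 (by linear_combination -h)
  obtain ⟨σ, hσ, e, he⟩ := exists_sigma h2 f hf (E.subgroupOf X)
    (fun a ha => Subtype.ext (hEa.2 a ha))
    ((Nat.card_congr (subgroupOfEquivOfLe hE).toEquiv).trans hE8)
  obtain ⟨z, hz⟩ : ∃ z, σ z = -1 := ⟨e 0 * e 1 * e 2, by
    simp only [map_mul, he, diagonal_mul_diagonal]
    ext i j; fin_cases i <;> fin_cases j <;> simp⟩
  have hzc : z ∈ center (X : Subgroup G) := mem_center_iff.mpr fun x => hσ (by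
    rw [map_mul, map_mul, hz]; simp)
  have hz2 : z * z = 1 := hσ (by rw [map_mul, hz, map_one]; simp)
  have hdz : (σ z).det = -1 := by rw [hz, det_neg]; simp [Odd.neg_one_pow (by decide : Odd 3)]
  let δ : (X : Subgroup G) →* Fˣ := (Matrix.detMonoidHom.comp σ).toHomUnits
  have hδ : ∀ x, (δ x : F) = (σ x).det := fun _ => rfl
  have hδ1 : ∀ x, δ.rangeRestrict x = 1 ↔ (σ x).det = 1 := fun x => by
    rw [← hδ, Subtype.ext_iff, Units.ext_iff]; rfl
  obtain ⟨g, hg, hg1, hgX⟩ := CL.MSS.extremal_transfer (CL.Iso.sylow_two_odd_index X)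
    (X.isPGroup'.of_surjective _ δ.rangeRestrict_surjective) δ.rangeRestrict (y := z)
    (by rw [CL.Iso.pResidual_two_eq_top_iff.mpr hG]; trivial) (congrArg Subtype.val hz2) z.2
    (by rw [Ne, hδ1]; exact hdz ▸ hneg) (fun g h => by
      have h1 : (⟨_, h⟩ : (X : Subgroup G)) * ⟨_, h⟩ = 1 := Subtype.ext (by
        have : (z : G) * z = 1 := congrArg Subtype.val hz2
        simp only [MulMemClass.mk_mul_mk, OneMemClass.coe_one]
        rw [show g * z * g⁻¹ * (g * z * g⁻¹) = g * (z * z) * g⁻¹ by group, this]; group)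
      have h3 := congrArg (fun x => (σ x).det) h1
      simp only [map_mul, det_mul, map_one, det_one] at h3
      refine (mul_self_eq_one_iff.mp h3).imp (hδ1 _).mpr fun h4 => Subtype.ext (Units.ext ?_)
      exact h4.trans hdz.symm) X.isPGroup' (fun x hx => mem_centralizer_singleton_iff.mpr
        (congrArg Subtype.val (mem_center_iff.mp hzc ⟨x, hx⟩)))
  rw [CL.MSS.cj_le_iff_forall] at hgX
  let α0 : (X : Subgroup G) →* (X : Subgroup G) :=
    ((MulAut.conj g).toMonoidHom.comp (X : Subgroup G).subtype).codRestrict _ (fun x => hgX x x.2)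
  have hα0 : Function.Injective α0 := fun a b h =>
    Subtype.ext ((MulAut.conj g).injective (congrArg Subtype.val h))
  let α := MulEquiv.ofBijective α0 (Finite.injective_iff_bijective.mp hα0)
  have hcen : ∀ x ∈ center (X : Subgroup G), α x ∈ center (X : Subgroup G) := fun x hx =>
    mem_center_iff.mpr fun y => by
      obtain ⟨y, rfl⟩ := α.surjective y
      rw [← map_mul, ← map_mul, mem_center_iff.mp hx]
  obtain ⟨u, hu, huc, huo⟩ := CL.PN.exists_mem_center_orderOf_eq X.isPGroup'
    (commutator (X : Subgroup G)) (fun h => hna (by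
      rwa [commutator_eq_bot_iff_center_eq_top, center_eq_top_iff] at h))
  have hu2 : u * u = 1 := by rw [← pow_two]; exact orderOf_dvd_iff_pow_eq_one.mp huo.dvd
  have hdu : ∀ φ : (X : Subgroup G) →* Fˣ, φ u = 1 := fun φ => Abelianization.commutator_subset_ker φ hu
  have h3 : α z = α u := uniq hneg σ hσ e he hna (hcen z hzc) (hcen u huc)
    (by rw [← map_mul, hz2, map_one]) (by rw [← map_mul, hu2, map_one])
    (by rw [Ne, EmbeddingLike.map_eq_one_iff]; rintro h; rw [h, map_one, det_one] at hdz; exact hneg hdz.symm)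
    (by rw [Ne, EmbeddingLike.map_eq_one_iff]; rintro rfl; simp at huo)
    ((hδ1 _).mp hg1) (congrArg Units.val (hdu (δ.comp α.toMonoidHom)))
  rw [α.injective h3, ← hδ, hdu δ] at hdz
  exact hneg hdz.symm

end Cfsg.Agent.S1906
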