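import Cfsg.Statements.S1907
import Cfsg.Agent.TECH.SylIn
import Cfsg.Agent.SOLV.Coprime
import Cfsg.Agent.SOLV.CoprimeSylow
import Cfsg.Agent.SOLV.Core
import Cfsg.Agent.TECH.SecC

set_option autoImplicit false
open Cfsg

namespace Cfsg.Agent.S1907

open Subgroup CL.MSS

/-- Let P be a Sylow p-subgroup of a finite group G, H = P ∩ O_{p',p}(G), N = N_G(H) and D = O_{p'}(G). (a) If y is an element of p-power order of N and d ∈ D with d⁻¹ y d ∈ N, then d = d₁ d₂ with d₁ ∈ C_D(y) and d₂ ∈ C_D(H). (b) Two elements of P that are conjugate in G are conjugate in N. -/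
theorem result {G : Type*} [Group G] [Finite G] {p : ℕ} [Fact p.Prime] (P : Sylow p G) :
    (∀ y ∈ Subgroup.normalizer (((P : Subgroup G) ⊓ Cfsg.pPrimePCore p G : Subgroup G) : Set G), (∃ k : ℕ, orderOf y = p ^ k) →
      ∀ d ∈ Cfsg.pPrimeCore p G, d⁻¹ * y * d ∈ Subgroup.normalizer (((P : Subgroup G) ⊓ Cfsg.pPrimePCore p G : Subgroup G) : Set G) →
        ∃ d₁ ∈ Cfsg.pPrimeCore p G ⊓ Subgroup.centralizer ({y} : Set G),
          ∃ d₂ ∈ Cfsg.pPrimeCore p G ⊓ Subgroup.centralizer (((P : Subgroup G) ⊓ Cfsg.pPrimePCore p G : Subgroup G) : Set G), d = d₁ * d₂) ∧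
    ∀ x y : G, x ∈ (P : Subgroup G) → y ∈ (P : Subgroup G) → IsConj x y →
      ∃ n ∈ Subgroup.normalizer (((P : Subgroup G) ⊓ Cfsg.pPrimePCore p G : Subgroup G) : Set G), n * x * n⁻¹ = y := by
  set D := Cfsg.pPrimeCore p G with hD
  set H := (P : Subgroup G) ⊓ Cfsg.pPrimePCore p G with hH
  have hDc : (Nat.card D).Coprime p := CL.coprime_card_pPrimeCore p G
  have hHp : IsPGroup p H := P.isPGroup'.to_le inf_le_left
  have hND : ∀ x ∈ D, x ∈ normalizer (H : Set G) → x ∈ centralizer (H : Set G) := by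
    intro x hx hn h hh
    have h1 : x * h * x⁻¹ * h⁻¹ ∈ H ⊓ D := by
      refine mem_inf.2 ⟨H.mul_mem ((mem_normalizer_iff.1 hn h).1 hh) (H.inv_mem hh), ?_⟩
      rw [mul_assoc, mul_assoc, ← mul_assoc h]
      exact D.mul_mem hx ((inferInstance : D.Normal).conj_mem _ (D.inv_mem hx) h)
    rw [CL.inf_eq_bot_of_isPGroup_of_coprime hHp hDc, mem_bot, mul_inv_eq_one,
      mul_inv_eq_iff_eq_mul] at h1
    exact h1.symm
  have ha : ∀ y ∈ normalizer (H : Set G), (∃ k : ℕ, orderOf y = p ^ k) →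
      ∀ d ∈ D, d⁻¹ * y * d ∈ normalizer (H : Set G) →
        ∃ d₁ ∈ D ⊓ centralizer ({y} : Set G), ∃ d₂ ∈ D ⊓ centralizer (H : Set G), d = d₁ * d₂ := by
    rintro y hy ⟨k, hk⟩ d hd hdy
    have hyp : IsPGroup p (zpowers y) := IsPGroup.of_card (by rw [Nat.card_zpowers, hk])
    have he : zpowers (d⁻¹ * y * d) = d⁻¹ •ᶜ zpowers y := by rw [cj_zpowers, inv_inv]
    have hzp : IsPGroup p (zpowers (d⁻¹ * y * d)) := he ▸ isPGroup_cj _ hyp
    have hmod : ∀ a : G, d⁻¹ * a * d * a⁻¹ ∈ D := fun a => by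
      rw [mul_assoc, mul_assoc, ← mul_assoc a]
      exact D.mul_mem (D.inv_mem hd) ((inferInstance : D.Normal).conj_mem _ hd a)
    obtain ⟨c, hc, h1⟩ := CL.coprime_le_conj (zpowers (d⁻¹ * y * d))
      (D ⊓ centralizer (H : Set G)) (zpowers y)
      (le_normalizer_inf le_normalizer_of_normal (le_normalizer_centralizer (zpowers_le.2 hdy)))
      (CL.coprime_card_of_isPGroup_of_coprime hzp
        (Nat.Coprime.coprime_dvd_left (card_dvd_of_le inf_le_left) hDc))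
      (Or.inl (CL.isSolvable_of_isPGroup hzp)) (fun a ha => by
        have ha' := ha
        rw [he, mem_cj'] at ha
        obtain ⟨b, hb, rfl⟩ := ha
        rw [inv_inv] at ha' ⊢
        refine ⟨d⁻¹ * b * d * b⁻¹, mem_inf.2 ⟨hmod b, hND _ (hmod b) (mul_mem (zpowers_le.2 hdy ha')
          (inv_mem (zpowers_le.2 hy hb)))⟩, b, hb, by group⟩)
    have h2 := CL.mem_conj_smul_iff.1 (h1 (mem_zpowers _))
    have h3 : c⁻¹ * (d⁻¹ * y * d) * c * y⁻¹ ∈ zpowers y ⊓ D := by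
      refine mem_inf.2 ⟨mul_mem h2 (inv_mem (mem_zpowers y)), ?_⟩
      have : c⁻¹ * (d⁻¹ * y * d) * c * y⁻¹ = (d * c)⁻¹ * (y * (d * c) * y⁻¹) := by group
      rw [this]
      exact D.mul_mem (D.inv_mem (D.mul_mem hd hc.1))
        ((inferInstance : D.Normal).conj_mem _ (D.mul_mem hd hc.1) y)
    rw [CL.inf_eq_bot_of_isPGroup_of_coprime hyp hDc, mem_bot] at h3
    refine ⟨d * c, mem_inf.2 ⟨D.mul_mem hd hc.1, ?_⟩, c⁻¹, inv_mem hc, by group⟩
    rw [mem_centralizer_singleton_iff]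
    calc d * c * y = d * c * (c⁻¹ * (d⁻¹ * y * d) * c * y⁻¹) * y := by rw [h3, mul_one]
      _ = y * (d * c) := by group
  refine ⟨ha, fun x y hx hy hxy => ?_⟩
  have hPN : (P : Subgroup G) ≤ normalizer (H : Set G) :=
    le_normalizer_inf le_normalizer (by unfold Cfsg.pPrimePCore; exact le_normalizer_of_normal)
  obtain ⟨g, rfl⟩ := isConj_iff.1 hxy
  have hn : (Cfsg.pPrimePCore p G).Normal := by unfold Cfsg.pPrimePCore; infer_instance
  have hsyl := sylIn_inf_normal P (Cfsg.pPrimePCore p G)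
  have hDH : Cfsg.pPrimePCore p G ≤ D ⊔ H := by
    have h1 := hsyl.map (QuotientGroup.mk' D)
    have h2 : IsPGroup p ((Cfsg.pPrimePCore p G).map (QuotientGroup.mk' D)) := by
      unfold Cfsg.pPrimePCore
      rw [CL.map_comap_mk']
      exact CL.isPGroup_pCore p _
    rw [sup_comm, ← CL.map_mk'_le_map_mk'_iff]
    exact (h1.eq_of_isPGroup h2).ge
  obtain ⟨m, hm, n, hn', e⟩ := hsyl.frattini (x := g⁻¹) (le_normalizer_of_normal (mem_top _))
  obtain ⟨d, hd, h, hh, rfl⟩ := (mem_sup_of_normalizes_left (H := H) (N := D)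
    le_normalizer_of_normal).1 (hDH hm)
  have hN : h * n ∈ normalizer (H : Set G) := mul_mem (le_normalizer hh) hn'
  have hg : g = (h * n)⁻¹ * d⁻¹ := by rw [← inv_inv g, e]; group
  obtain ⟨k, hk⟩ := IsPGroup.iff_orderOf.1 P.isPGroup' ⟨x, hx⟩
  obtain ⟨d₁, h1, d₂, h2, e2⟩ := ha x (hPN hx) ⟨k, by simpa using hk⟩ d hd (by
    have : d⁻¹ * x * d = (h * n) * (g * x * g⁻¹) * (h * n)⁻¹ := by rw [hg]; group
    rw [this]
    exact mul_mem (mul_mem hN (hPN hy)) (inv_mem hN))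
  refine ⟨(h * n)⁻¹ * d₂⁻¹, mul_mem (inv_mem hN) (inv_mem (centralizer_le_normalizer _ h2.2)), ?_⟩
  have h3 : d₁ * x = x * d₁ := mem_centralizer_singleton_iff.1 h1.2
  rw [hg, e2]
  calc (h * n)⁻¹ * d₂⁻¹ * x * ((h * n)⁻¹ * d₂⁻¹)⁻¹
      = (h * n)⁻¹ * d₂⁻¹ * d₁⁻¹ * (d₁ * x) * ((h * n)⁻¹ * d₂⁻¹)⁻¹ := by group
    _ = _ := by rw [h3]; group

end Cfsg.Agent.S1907
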