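import Cfsg.Statements.S1924
import Cfsg.Agent.FGS.SemiReg
import Cfsg.Agent.INV.IndexTwo
import Cfsg.Agent.PLOC.NPC
import Cfsg.Agent.SOLV.Basic

set_option autoImplicit false
open Cfsg

namespace Cfsg.Agent.S1924

open Subgroup CL

theorem two_mul_dvd {G : Type*} [Group G] [Finite G] (hG : pResidual 2 G = ⊤)
    (V : Subgroup G) {g : G} (hm : Even (orderOf g))
    (h : ∀ (j : ℕ) (a : G), a⁻¹ * g ^ j * a ∈ V → g ^ j = 1) : 2 * orderOf g ∣ V.index := by
  classical
  have := Fintype.ofFinite (G ⧸ V)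
  have key : ∀ (j : ℕ) (x : G ⧸ V), g ^ j • x = x → g ^ j = 1 := by
    intro j x hx
    induction x using QuotientGroup.induction_on with
    | H a =>
      rw [MulAction.Quotient.smul_coe, smul_eq_mul, eq_comm, QuotientGroup.eq, ← mul_assoc] at hx
      exact h j a hx
  have h1 := CL.SR.two_mul_dvd_ncard_moved (X := G ⧸ V) (g := g)
    (CL.Iso.hom_eq_one_of_no_index_two (CL.Iso.pResidual_two_eq_top_iff.mp hG)
      CL.Iso.isPGroup_two_intUnits
      (Equiv.Perm.sign.comp (MulAction.toPermHom G (G ⧸ V))) g) hm fun j x hx => Or.inl (key j x hx)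
  have h2 : {x : G ⧸ V | g • x ≠ x} = Set.univ := by
    refine Set.eq_univ_of_forall fun x hx => ?_
    have := key 1 x (by rwa [pow_one])
    rw [pow_one] at this
    rw [this, orderOf_one] at hm
    exact Nat.not_even_one hm
  rwa [h2, Set.ncard_univ] at h1

theorem dih_out {n : ℕ} (hn : 2 ≤ n) (C : Subgroup (DihedralGroup n)) [IsCyclic C]
    (hi : C.index = 2) {x : DihedralGroup n} (hx : x ∉ C) : orderOf x = 2 := by
  have : NeZero n := ⟨by omega⟩
  have hc := C.card_mul_index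
  rw [hi, DihedralGroup.nat_card] at hc
  obtain ⟨c, rfl⟩ := (Subgroup.isCyclic_iff_exists_zpowers_eq_top C).1 inferInstance
  rw [Nat.card_zpowers] at hc
  rcases x with i | i
  swap
  · exact DihedralGroup.orderOf_sr i
  rcases c with j | j
  · exfalso
    have h1 : zpowers (DihedralGroup.r j) = zpowers (DihedralGroup.r (1 : ZMod n)) := by
      refine eq_of_le_of_card_ge (zpowers_le.mpr ?_) ?_
      · exact ⟨(j.val : ℤ), by simp [DihedralGroup.r_one_pow]⟩
      · rw [Nat.card_zpowers, Nat.card_zpowers, DihedralGroup.orderOf_r_one]; omega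
    exact hx (h1 ▸ ⟨(i.val : ℤ), by simp [DihedralGroup.r_one_pow]⟩)
  · rw [DihedralGroup.orderOf_sr] at hc
    obtain rfl : n = 2 := by omega
    refine orderOf_eq_prime (by clear hx; revert i; decide) ?_
    rintro h
    exact hx (h ▸ one_mem _)

/-- A consequence of Thompson's transfer lemma. Let G be a finite group, L a subgroup with O²(L) = L, T a Sylow 2-subgroup of L and S a Sylow 2-subgroup of G containing T. Suppose D ≤ S is a dihedral subgroup of order at least 4 (the four-group counts) with D ∩ T = 1 and S = TD as a set of products (so |S| = |T|·|D|), and C ≤ D is cyclic of index 2 in D. If no involution of D outside C is G-conjugate to an involution of the subgroup generated by T and C, and the involution of C is not G-conjugate to any involution of T, then G has a normal subgroup K, containing every Sylow 2-subgroup of L as a Sylow 2-subgroup, with G = KD. -/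
theorem result {G : Type*} [Group G] [Finite G] (L T S D C : Subgroup G) (hL : Cfsg.pResidual 2 ↥L = ⊤)
    (hTL : T ≤ L) (hT2 : IsPGroup 2 T) (hTsyl : ¬ 2 ∣ T.relIndex L)
    (hS2 : IsPGroup 2 S) (hSsyl : ¬ 2 ∣ S.index) (hTS : T ≤ S)
    (hDS : D ≤ S) (hDih : ∃ n : ℕ, 2 ≤ n ∧ Nonempty (↥D ≃* DihedralGroup n)) (hDT : D ⊓ T = ⊥) (hTD : T ⊔ D = S) (hTDc : Nat.card T * Nat.card D = Nat.card S)
    (hCD : C ≤ D) (hC : IsCyclic ↥C) (hCi : C.relIndex D = 2)
    (h1 : ∀ x ∈ D, x ∉ C → orderOf x = 2 → ∀ g : G, g * x * g⁻¹ ∈ T ⊔ C → False)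
    (h2 : ∀ c ∈ C, orderOf c = 2 → ∀ g : G, g * c * g⁻¹ ∈ T → False) :
    ∃ K : Subgroup G, K.Normal ∧ K ⊔ D = ⊤ ∧
      ∀ T' : Subgroup G, T' ≤ L → IsPGroup 2 T' → ¬ 2 ∣ T'.relIndex L → T' ≤ K ∧ ¬ 2 ∣ T'.relIndex K := by
  have : Fact (Nat.Prime 2) := ⟨Nat.prime_two⟩
  set K := pResidual 2 G with hK
  have hLK : L ≤ K := by
    have := map_pResidual_le (p := 2) L.subtype
    rwa [hL, ← MonoidHom.range_eq_map, range_subtype] at this
  have hout : ∀ x ∈ D, x ∉ C → orderOf x = 2 := by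
    obtain ⟨n, hn, ⟨e⟩⟩ := hDih
    intro x hx hxC
    have hcy : IsCyclic (C.subgroupOf D) :=
      isCyclic_of_surjective _ (subgroupOfEquivOfLe hCD).symm.surjective
    have : IsCyclic ((C.subgroupOf D).map e.toMonoidHom) :=
      isCyclic_of_surjective _ (e.subgroupMap _).surjective
    have h3 := dih_out hn ((C.subgroupOf D).map e.toMonoidHom)
      (by rw [index_map_of_bijective e.bijective]; exact hCi) (x := e ⟨x, hx⟩) (by
        rintro ⟨y, hy, hyx⟩
        obtain rfl : y = ⟨x, hx⟩ := e.injective hyx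
        exact hxC hy)
    rwa [MulEquiv.orderOf_eq, orderOf_mk] at h3
  have hinj : ∀ A : Subgroup G, A ≤ D → ∀ (B : Subgroup G) (h1 : T ≤ B) (h2 : A ≤ B),
      Function.Injective (fun p : T × A => (⟨p.1 * p.2, mul_mem (h1 p.1.2) (h2 p.2.2)⟩ : B)) := by
    rintro A hA B h1 h2 ⟨t, a⟩ ⟨t', a'⟩ h
    have h3 : (t : G) * a = t' * a' := congrArg Subtype.val h
    have h4 : (t' : G)⁻¹ * t = a' * (a : G)⁻¹ := by
      rw [inv_mul_eq_iff_eq_mul, ← mul_assoc, ← h3, mul_inv_cancel_right]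
    have h5 : (t' : G)⁻¹ * t ∈ D ⊓ T :=
      ⟨h4 ▸ D.mul_mem (hA a'.2) (D.inv_mem (hA a.2)), T.mul_mem (T.inv_mem t'.2) t.2⟩
    rw [hDT, mem_bot] at h5
    rw [h5] at h4
    exact Prod.ext (Subtype.ext (inv_mul_eq_one.mp h5).symm)
      (Subtype.ext (mul_inv_eq_one.mp h4.symm).symm)
  have hT0 : 0 < Nat.card T := Nat.card_pos
  have hC0 : 0 < Nat.card C := Nat.card_pos
  have hCD' := card_mul_relIndex_of_le hCD
  have hM : (T ⊔ C).relIndex S = 2 := by
    have hle : T ⊔ C ≤ S := sup_le hTS (hCD.trans hDS)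
    have h3 := Nat.card_le_card_of_injective _ (hinj C hCD (T ⊔ C) le_sup_left le_sup_right)
    have h4 := card_mul_relIndex_of_le hle
    have h5 : (T ⊔ C).relIndex S ≠ 1 := by
      intro h
      obtain ⟨x, hx, hxC⟩ : ∃ x ∈ D, x ∉ C := by
        by_contra h'
        push Not at h'
        rw [relIndex_eq_one.mpr h'] at hCi
        omega
      exact h1 x hx hxC (hout x hx hxC) 1 (by simpa using relIndex_eq_one.mp h (hDS hx))
    have h6 : (T ⊔ C).relIndex S ≠ 0 := index_ne_zero_of_finite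
    rw [Nat.card_prod] at h3
    rw [← hTDc, ← hCD', hCi] at h4
    by_contra h7
    have : 3 ≤ (T ⊔ C).relIndex S := by omega
    have := Nat.mul_le_mul h3 this
    have : 0 < Nat.card T * Nat.card C := Nat.mul_pos hT0 hC0
    nlinarith
  have hKC : D ⊓ K ≤ C := by
    intro x hx
    by_contra hxC
    obtain ⟨N, hN, hxN⟩ := CL.Iso.thompson_transfer_inv
      (Nat.not_even_iff_odd.mp fun h => hSsyl h.two_dvd) hM (hDS hx.1) (hout x hx.1 hxC)
      (fun g => h1 x hx.1 hxC (hout x hx.1 hxC) g)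
    exact hxN (CL.Iso.pResidual_two_le_of_index_two hN hx.2)
  have hbij := (Nat.bijective_iff_injective_and_card _).mpr ⟨hinj D le_rfl S hTS hDS, by
    rw [Nat.card_prod, hTDc]⟩
  have hTK : T ≤ K := hTL.trans hLK
  have hSK : Nat.card ↥(S ⊓ K) = Nat.card T * Nat.card ↥(D ⊓ K) := by
    rw [← Nat.card_prod]
    refine (Nat.card_eq_of_bijective _ ⟨hinj (D ⊓ K) inf_le_left (S ⊓ K) (le_inf hTS hTK)
      (inf_le_inf_right _ hDS), ?_⟩).symm
    rintro ⟨s, hs⟩
    obtain ⟨⟨t, d⟩, h⟩ := hbij.2 ⟨s, hs.1⟩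
    have h3 : (t : G) * d = s := congrArg Subtype.val h
    exact ⟨⟨t, d, d.2, (mul_mem_cancel_left (hTK t.2)).mp (h3 ▸ hs.2)⟩, Subtype.ext h3⟩
  have hodd : ¬ 2 ∣ (S ⊓ K).relIndex K := by
    rw [inf_relIndex_right]
    intro h
    have h3 : K ⊔ S = ⊤ := pResidual_sup_sylow (hS2.toSylow hSsyl)
    have h4 := card_sup_mul_card_inf S K
    have h5 := card_inf_mul_relIndex S K
    have h6 := S.card_mul_index
    rw [sup_comm, h3, card_top, ← h6, ← h5] at h4
    have h7 : 0 < Nat.card S * Nat.card ↥(S ⊓ K) := Nat.mul_pos Nat.card_pos Nat.card_pos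
    have : S.index = S.relIndex K := Nat.eq_of_mul_eq_mul_left h7 (by linarith)
    exact hSsyl (this ▸ h)
  have hrel : T.relIndex K = Nat.card ↥(D ⊓ K) * (S ⊓ K).relIndex K := by
    rw [← relIndex_mul_relIndex T (S ⊓ K) K (le_inf hTS hTK) inf_le_right]
    congr 1
    have := card_mul_relIndex_of_le (le_inf hTS hTK)
    rw [hSK] at this
    exact Nat.eq_of_mul_eq_mul_left hT0 this
  have hbot : D ⊓ K = ⊥ := by
    by_contra hne
    have : IsCyclic ↥(D ⊓ K) := isCyclic_of_le hKC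
    obtain ⟨c, hc⟩ := (Subgroup.isCyclic_iff_exists_zpowers_eq_top (D ⊓ K)).1 this
    have hcm : c ∈ D ⊓ K := hc ▸ mem_zpowers c
    have hco : orderOf c = Nat.card ↥(D ⊓ K) := by rw [← hc, Nat.card_zpowers]
    have hp : IsPGroup 2 ↥(D ⊓ K) := hS2.to_le (inf_le_left.trans hDS)
    obtain ⟨n, hn0, hn⟩ := hp.nontrivial_iff_card.mp ((nontrivial_iff_ne_bot _).mpr hne)
    have h3 := two_mul_dvd (pResidual_pResidual (p := 2) (G := G)) (T.subgroupOf K)
      (g := ⟨c, hcm.2⟩) (by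
        rw [orderOf_mk, hco, hn]
        exact (Nat.even_pow.mpr ⟨even_two, hn0.ne'⟩)) (by
        intro j a ha
        by_contra hj
        have hj' : c ^ j ≠ 1 := fun h => hj (Subtype.ext h)
        have hd : 2 ∣ orderOf (c ^ j) := by
          obtain ⟨k, -, hk⟩ := (Nat.dvd_prime_pow Nat.prime_two).mp
            (hn ▸ hco ▸ orderOf_pow_dvd (x := c) j)
          rcases k with _ | k
          · exact absurd (orderOf_eq_one_iff.mp hk) hj'
          · exact hk ▸ dvd_pow_self 2 k.succ_ne_zero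
        refine h2 ((c ^ j) ^ (orderOf (c ^ j) / 2)) (pow_mem (pow_mem (hKC hcm) _) _)
          (orderOf_pow_orderOf_div (orderOf_pos _).ne' hd) (a : G)⁻¹ ?_
        have h4 : (a : G)⁻¹ * c ^ j * a ∈ T := ha
        have h5 := pow_mem h4 (orderOf (c ^ j) / 2)
        rwa [show (a : G)⁻¹ * c ^ j * a = (a : G)⁻¹ * c ^ j * (a : G)⁻¹⁻¹ by rw [inv_inv],
          conj_pow] at h5)
    rw [orderOf_mk, hco] at h3
    change _ ∣ T.relIndex K at h3
    rw [hrel, mul_comm] at h3
    exact hodd (Nat.dvd_of_mul_dvd_mul_left Nat.card_pos h3)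
  rw [hbot, card_bot, one_mul] at hrel
  refine ⟨K, inferInstance, ?_, fun T' h3 h4 h5 => ⟨h3.trans hLK, ?_⟩⟩
  · have h3 : K ⊔ S = ⊤ := pResidual_sup_sylow (hS2.toSylow hSsyl)
    rw [eq_top_iff, ← h3, ← hTD]
    exact sup_le le_sup_left (sup_le (hTK.trans le_sup_left) le_sup_right)
  · rw [← relIndex_mul_relIndex T' L K h3 hLK]
    intro h
    rcases (Nat.prime_two.dvd_mul).mp h with h | h
    · exact h5 h
    · exact hodd (hrel ▸ h.trans (Dvd.intro_left _ (relIndex_mul_relIndex T L K hTL hLK)))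

end Cfsg.Agent.S1924
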