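import Cfsg.Statements.S1935
import Cfsg.Agent.PLOC.JTr.TwoSub
import Cfsg.Agent.PLOC.Offender
import Cfsg.Agent.TECH.SL2Sec

set_option autoImplicit false
open Cfsg

namespace Cfsg.Agent.S1935

open Subgroup CL.Th CL.JLim
open scoped commutatorElement

theorem quad_iff {Ω : Type*} [Group Ω] {p : ℕ} [Fact p.Prime] {V G : Subgroup Ω} {M : Type*}
    [AddCommGroup M] [Module (ZMod p) M] {ρ : G →* Module.End (ZMod p) M} {π : Ω → M}
    (h : CL.Push.SecMod G V ⊥ ρ π) (A : Subgroup G) :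
    Quad ρ A ↔ ⁅⁅V, A.map G.subtype⁆, A.map G.subtype⁆ = ⊥ := by
  have key : ∀ a a' : G, (ρ a - 1) * (ρ a' - 1) = 0 ↔ ∀ x ∈ V, ⁅(a : Ω), ⁅(a' : Ω), x⁆⁆ = 1 :=
    fun a a' => by
      have e : ∀ x ∈ V, ((ρ a - 1) * (ρ a' - 1)) (π x) = 0 ↔ ⁅(a : Ω), ⁅(a' : Ω), x⁆⁆ = 1 :=
        fun x hx => by
          rw [Module.End.mul_apply, LinearMap.sub_apply, LinearMap.sub_apply, Module.End.one_apply,
            Module.End.one_apply, h.comm a' hx, sub_eq_zero, h.fix_iff a (h.comm_mem a' hx), mem_bot]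
      refine ⟨fun k x hx => (e x hx).1 (by rw [k]; rfl), fun k => LinearMap.ext fun v => ?_⟩
      obtain ⟨x, hx, rfl⟩ := h.surj v
      exact (e x hx).2 (k x hx)
  rw [commutator_eq_bot_iff_le_centralizer, commutator_comm, commutator_le]
  refine ⟨?_, fun k a ha a' ha' => (key a a').2 fun x hx => commutatorElement_eq_one_iff_mul_comm.2
    (k _ ⟨a', ha', rfl⟩ x hx _ ⟨a, ha, rfl⟩)⟩
  rintro k _ ⟨a', ha', rfl⟩ x hx _ ⟨a, ha, rfl⟩
  exact commutatorElement_eq_one_iff_mul_comm.1 ((key a a').1 (k a ha a' ha') x hx)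

theorem card_fix {Ω : Type*} [Group Ω] {p : ℕ} [Fact p.Prime] {V G : Subgroup Ω} {M : Type*}
    [AddCommGroup M] [Module (ZMod p) M] {ρ : G →* Module.End (ZMod p) M} {π : Ω → M}
    (h : CL.Push.SecMod G V ⊥ ρ π) (A : Subgroup G) :
    Nat.card (fixS ρ A) = Nat.card (V ⊓ centralizer (A.map G.subtype : Set Ω) : Subgroup Ω) := by
  rw [← relIndex_bot_left, ← h.card_sub inf_le_left]
  congr 2
  ext v
  obtain ⟨x, hx, rfl⟩ := h.surj v
  rw [h.mem_sub_iff bot_le inf_le_left hx]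
  refine ⟨fun k => ⟨hx, ?_⟩, fun k a ha => (h.fix_iff a hx).2
    (commutatorElement_eq_one_iff_mul_comm.2 (k.2 _ ⟨a, ha, rfl⟩))⟩
  rintro _ ⟨a, ha, rfl⟩
  exact commutatorElement_eq_one_iff_mul_comm.1 ((h.fix_iff a hx).1 (k a ha))

/-- Let p ≥ 5 be a prime and, inside an ambient finite group, let G be a p-subgroup acting faithfully by conjugation on an elementary abelian p-subgroup V that it normalizes (only the identity of G centralizes V). Suppose V is an F-module for G: some nontrivial elementary abelian subgroup E of G satisfies #E · #C_V(E) ≥ #V. Then G contains such an offender A that moreover acts quadratically on V ([V, A, A] = 1) and is normal in its normal closure in G. -/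
theorem result {Ω : Type*} [Group Ω] [Finite Ω] (p : ℕ) [Fact p.Prime] (hp : 5 ≤ p) (V G : Subgroup Ω) (hV : Cfsg.IsElementaryAbelian p V) (hG : IsPGroup p ↥G) (hGV : G ≤ Subgroup.normalizer (V : Set Ω)) (hfaith : G ⊓ Subgroup.centralizer (V : Set Ω) = ⊥) (hF : ∃ E : Subgroup Ω, E ≤ G ∧ E ≠ ⊥ ∧ Cfsg.IsElementaryAbelian p E ∧ Nat.card ↥V ≤ Nat.card ↥E * Nat.card ↥(V ⊓ Subgroup.centralizer (E : Set Ω))) : ∃ A : Subgroup Ω, A ≤ G ∧ A ≠ ⊥ ∧ Cfsg.IsElementaryAbelian p A ∧ Nat.card ↥V ≤ Nat.card ↥A * Nat.card ↥(V ⊓ Subgroup.centralizer (A : Set Ω)) ∧ ⁅⁅V, A⁆, A⁆ = ⊥ ∧ ∀ g ∈ Subgroup.closure {x : Ω | ∃ h ∈ G, ∃ a ∈ A, x = h * a * h⁻¹}, ∀ a ∈ A, g * a * g⁻¹ ∈ A := by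
  obtain ⟨E, hEG, hE1, hE, hEV⟩ := hF
  obtain ⟨B, ⟨b1, b2⟩, hmax⟩ := Set.exists_max_image {B : Subgroup Ω | B ≤ E ∧ B ≠ ⊥} (offMeas V)
    (Set.toFinite _) ⟨E, le_rfl, hE1⟩
  have b3 : Nat.card V ≤ offMeas V B := hEV.trans (hmax E ⟨le_rfl, hE1⟩)
  have hB := elemAb_mono hE b1
  have nt : ∀ B : Subgroup Ω, B ≤ G → (⁅V, B⁆ = ⊥ ↔ B = ⊥) := fun B hB =>
    ⟨fun e => le_bot_iff.1 (hfaith ▸ le_inf hB (le_centralizer_iff.1
      (commutator_eq_bot_iff_le_centralizer.1 e))), fun e => by rw [e, commutator_bot_right]⟩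
  obtain ⟨-, -, t1, t2⟩ := timmesfeld hV ((b1.trans hEG).trans hGV) (A := B) ⟨fun C hC => by
      by_cases h : C = ⊥
      · rw [h]; exact (offMeas_bot V).le.trans b3
      · exact hmax C ⟨hC.trans b1, h⟩, by rw [elemAb_commutator_eq_bot hB]; exact bot_le,
    fun a ha => by rw [hB.2 a ha]; exact one_mem _⟩ le_rfl
  set D := B ⊓ centralizer ((⁅V, B⁆ : Subgroup Ω) : Set Ω) with hD
  have hDG : D ≤ G := inf_le_left.trans (b1.trans hEG)
  obtain ⟨M, _, _, _, ρ, π, h⟩ := CL.Push.exists_secMod (p := p) (U₀ := ⊥) hGV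
    le_normalizer_of_normal bot_le (elemAb_commutator_eq_bot hV).le hV.2
  have hρ : Function.Injective ρ := (injective_iff_map_eq_one ρ).2 fun a ha => Subtype.ext
    (mem_bot.1 (hfaith ▸ ⟨a.2, fun x hx =>
      (commutatorElement_eq_one_iff_mul_comm.1 ((h.eq_one_iff a).1 ha x hx)).symm⟩))
  have e := map_subgroupOf_eq_of_le hDG
  obtain ⟨A, k1, k2, k3, k4⟩ := exists_mutual hp hG hρ (m := Nat.card V) (A0 := D.subgroupOf G)
    (fun k => t2 (fun l => b2 ((nt B (b1.trans hEG)).1 l)) ((nt D hDG).2 (by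
      rw [← e, k, Subgroup.map_bot])))
    ((quad_iff h _).2 (by
      rw [e, commutator_comm, commutator_eq_bot_iff_le_centralizer]
      exact inf_le_right.trans (centralizer_le (commutator_mono le_rfl inf_le_left))))
    (by rw [card_fix h, e, ← card_map_of_injective (f := G.subtype) G.subtype_injective, e]
        exact b3.trans t1.ge)
  refine ⟨A.map G.subtype, map_subtype_le A, fun e => k1
    ((map_eq_bot_iff_of_injective _ G.subtype_injective).1 e), ⟨⟨⟨?_⟩⟩, ?_⟩, ?_,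
    (quad_iff h A).1 k2, fun g hg => ?_⟩
  · rintro ⟨_, a, ha, rfl⟩ ⟨_, a', ha', rfl⟩
    have h1 := k2 a ha a' ha'
    have h2 := k2 a' ha' a ha
    have e : a * a' = a' * a := hρ (by
      rw [map_mul, map_mul]; linear_combination (norm := noncomm_ring) h1 - h2)
    exact Subtype.ext (congrArg (fun t : G => (t : Ω)) e)
  · rintro _ ⟨a, ha, rfl⟩
    refine congrArg Subtype.val (hρ (a₁ := a ^ p) (a₂ := 1) ?_)
    rw [map_pow_of_sq (p := p) (z := ρ a - 1) (by abel) (k2 a ha a ha)]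
    simp
  · rwa [card_fix h, ← card_map_of_injective (f := G.subtype) G.subtype_injective] at k3
  · have : g ∈ normalizer ((A.map G.subtype : Subgroup Ω) : Set Ω) := by
      refine (closure_le _).2 ?_ hg
      rintro _ ⟨x, hx, _, ⟨a, ha, rfl⟩, rfl⟩
      exact le_normalizer_map _ ⟨_, k4 ⟨x, hx⟩ a ha, rfl⟩
    exact fun a ha => (mem_normalizer_iff.1 this a).1 ha

end Cfsg.Agent.S1935
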