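import Cfsg.Statements.S1940
import Cfsg.Agent.TECH.Trace

set_option autoImplicit false
open Cfsg

namespace Cfsg.Agent.S1940

open CL.MSS Subgroup

/-- Let the finite group L act by automorphisms on the finite abelian group M, and let N be an L-invariant subgroup of M such that M/N is a p-group on which L acts trivially (every l • m lies in the coset mN). If every element of M is a product of an element of N and an element fixed by a Sylow p-subgroup T of L, then every element of M is a product of an element of N and an element fixed by all of L. -/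
theorem result {L : Type*} [Group L] [Finite L] {M : Type*} [CommGroup M] [Finite M] [MulDistribMulAction L M]
    {p : ℕ} [Fact p.Prime] (N : Subgroup M) (hN : ∀ (l : L) (m : M), m ∈ N → l • m ∈ N)
    (hquot : IsPGroup p (M ⧸ N)) (htriv : ∀ (l : L) (m : M), (l • m) * m⁻¹ ∈ N) (T : Sylow p L)
    (hT : ∀ m : M, ∃ n ∈ N, ∃ c : M, (∀ t ∈ (T : Subgroup L), t • c = c) ∧ m = n * c) :
    ∀ m : M, ∃ n ∈ N, ∃ c : M, (∀ l : L, l • c = c) ∧ m = n * c := by
  obtain ⟨τ, h1, h2⟩ := exists_trace (V := M) (⊤ : Subgroup L) (T : Subgroup L) (top_sup_eq _)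
  intro m
  obtain ⟨n, hn, c, hc, rfl⟩ := hT m
  obtain ⟨k, hk⟩ := hquot (QuotientGroup.mk' N c)
  obtain ⟨a, ha⟩ := exists_pow_pow_eq_self hk
    ((Nat.Prime.coprime_iff_not_dvd Fact.out).2 T.not_dvd_index).symm
  have h3 := h2 N c fun l _ => htriv l c
  refine ⟨n * (c * (τ c ^ a)⁻¹), N.mul_mem hn ?_, τ c ^ a, fun l => ?_, by group⟩
  · rw [← QuotientGroup.eq_one_iff, ← QuotientGroup.mk'_apply] at h3 ⊢
    rw [map_mul, map_inv, mul_inv_eq_one, map_pow] at h3 ⊢
    rw [h3, ha]
  · have := h1 c (fun s hs => hc s hs.2) l (mem_top l) 1 (one_mem _)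
    rw [mul_one, one_smul] at this
    rw [smul_pow', this]

end Cfsg.Agent.S1940
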