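import Cfsg.Statements.S1941
import Cfsg.Agent.TECH.FStarPP
import Cfsg.Agent.TECH.Trace
import Cfsg.Agent.SOLV.Hol
import Cfsg.Agent.TECH.WielJoin

set_option autoImplicit false
open Cfsg

namespace Cfsg.Agent.S1941

open Subgroup CL.MSS CL.Comp
open scoped commutatorElement

/-- Let G be a finite group with no nontrivial normal subgroup of order prime to p, T a Sylow p-subgroup of G and E(G) the layer of G (the subgroup generated by its components). An automorphism of G of p-power order that fixes T and E(G) elementwise is inner. -/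
theorem result {G : Type*} [Group G] [Finite G] {p : ℕ} [Fact p.Prime] (hcore : Cfsg.pPrimeCore p G = ⊥)
    (T : Sylow p G) (α : MulAut G) (hα : ∃ j : ℕ, orderOf α = p ^ j) (hfixT : ∀ x ∈ (T : Subgroup G), α x = x)
    (hfixE : ∀ x ∈ Cfsg.layer G, α x = x) : ∃ g : G, ∀ x : G, α x = g * x * g⁻¹ := by
  obtain ⟨j, hj⟩ := hα
  set A := zpowers α with hA
  have hAp : IsPGroup p A := isPGroup_zpowers (k := j) (hj ▸ pow_orderOf_eq_one α)
  have : Finite A := by
    have := Finite.of_injective (fun f : MulAut G => (f : G → G)) DFunLike.coe_injective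
    infer_instance
  set K : Subgroup (CL.Hol A G) := (⊤ : Subgroup G).map CL.Hol.inl with hK
  have hKn : K.Normal := CL.Hol.normal_map_inl_top
  set a : CL.Hol A G := CL.Hol.inr ⟨α, mem_zpowers α⟩ with ha
  set B : Subgroup (CL.Hol A G) := (⊤ : Subgroup A).map CL.Hol.inr with hB
  have hBp : IsPGroup p B := (hAp.to_subgroup ⊤).map _
  have hBK : B ⊔ K = ⊤ := by rw [sup_comm]; exact CL.Hol.map_inl_top_sup_map_inr_top
  have hres : presOf p (⊤ : Subgroup (CL.Hol A G)) ≤ K := by
    rw [← hBK]; exact presOf_sup_le le_normalizer_of_normal (pow_mem_of_isPGroup hBp K)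
  have hcent : ∀ H : Subgroup G, (∀ x ∈ H, α x = x) → H.map CL.Hol.inl ≤ centralizer (B : Set (CL.Hol A G)) := by
    intro H hH
    rw [CL.Hol.map_inl_le_centralizer_iff]
    intro x hx
    rw [CL.mem_actFix]
    rintro ⟨_, k, rfl⟩ -
    exact MulAction.mem_fixedBy_zpow (show x ∈ MulAction.fixedBy G α from hH x hx) k
  have haB : a ∈ B := ⟨_, mem_top _, rfl⟩
  have hT := hcent _ hfixT
  have hS : SylIn p (B ⊔ (T : Subgroup G).map CL.Hol.inl) ⊤ := by
    rw [← hBK]
    exact (sylIn_self hBp).sup_of_normalizes ((sylIn_top T).map _) le_normalizer_of_normal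
      (isPGroup_sup_of_normalizes' hBp (T.isPGroup'.map _) (hT.trans (centralizer_le_normalizer _)))
  have haS : a ∈ centralizer ((B ⊔ (T : Subgroup G).map CL.Hol.inl : Subgroup (CL.Hol A G)) :
      Set (CL.Hol A G)) := by
    rw [centralizer_sup_eq]
    refine mem_inf.2 ⟨?_, le_centralizer_iff.1 hT haB⟩
    rintro _ ⟨⟨_, k, rfl⟩, -, rfl⟩
    rw [ha, ← map_mul, ← map_mul]
    congr 1
    exact Subtype.ext (Commute.zpow_self α k).eq
  have hO : Cfsg.pPrimeCore p (CL.Hol A G) = ⊥ := by
    have h1 : Cfsg.pPrimeCore p (CL.Hol A G) ≤ K := fun x hx => hres (mem_presOf (mem_top x)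
      (Nat.Coprime.coprime_dvd_left (orderOf_dvd_natCard _ hx) (CL.coprime_card_pPrimeCore p _)))
    obtain ⟨H, -, hH⟩ := CL.Hol.exists_eq_map_inl h1
    rw [← hH, CL.Hol.map_inl_eq_bot]
    refine CL.pPrimeCore_eq_bot_iff.1 hcore H ?_ ?_
    · rw [← normalizer_eq_top_iff, eq_top_iff, ← CL.Hol.map_inl_le_normalizer_iff (A := A), hH]
      exact le_normalizer_of_normal
    · rw [← CL.Hol.card_map_inl (A := A), hH]; exact CL.coprime_card_pPrimeCore p _
  have hE : Cfsg.layer (CL.Hol A G) = (Cfsg.layer G).map CL.Hol.inl := by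
    rw [← layerOf_eq_layer hKn.isSubnormal ((perfect_le_presOf (p := p) commutator_layer_self).trans
      ((presOf_mono le_top).trans hres)), layer_map_of_injective _ CL.Hol.inl_injective,
      MonoidHom.range_eq_map]
  set O := Cfsg.pCore p (CL.Hol A G) with hOd
  have hOS : O ≤ B ⊔ (T : Subgroup G).map CL.Hol.inl :=
    hS.le_of_normalized pcore_isPGroup le_top le_normalizer_of_normal
  have haC : a ∈ centralizer (O : Set (CL.Hol A G)) := centralizer_le hOS haS
  have haO : a ∈ O := by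
    rw [hOd, ← CL.fittingSubgroup_eq_pCore hO]
    refine centralizer_fstar_le_fitting ?_
    rw [fstar_eq_layer_sup_pCore hO, centralizer_sup_eq]
    exact mem_inf.2 ⟨hE ▸ le_centralizer_iff.1 (hcent _ hfixE) haB, haC⟩
  have hVn : (O ⊓ centralizer (O : Set (CL.Hol A G))).Normal := inferInstance
  obtain ⟨c, hc, w, hw, e⟩ := averaging_sylow (V := O ⊓ centralizer (O : Set (CL.Hol A G))) (H := ⊤)
    (W := (O ⊓ centralizer (O : Set (CL.Hol A G))) ⊓ K)
    (isMulCommutative_of_le_centralizer (inf_centralizer_le_centralizer O))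
    (pcore_isPGroup.to_le inf_le_left) le_normalizer_of_normal hS inf_le_left (mem_inf.2 ⟨haO, haC⟩)
    haS fun l hl => mem_inf.2 ⟨commutator_le_right ⊤ _ (commutator_mem_commutator (mem_top l)
      (mem_inf.2 ⟨haO, haC⟩)), commutator_le_left _ ⊤ (commutator_mem_commutator (hres hl) (mem_top a))⟩
  obtain ⟨g, -, rfl⟩ := hw.2
  refine ⟨g, fun x => CL.Hol.inl_injective (A := A) ?_⟩
  have h1 := CL.Hol.conj_inl (⟨α, mem_zpowers α⟩ : A) x
  rw [← ha, e] at h1
  refine h1.symm.trans ?_
  rw [map_mul, map_mul, map_inv, mul_inv_rev, ← mul_assoc, mul_assoc c, mul_assoc c,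
    ← hc.2 _ (mem_top _), mul_inv_cancel_right]

end Cfsg.Agent.S1941
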