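import Cfsg.Statements.S1944
import Cfsg.Agent.TECH.IsolZ
import Cfsg.Agent.TECH.Trace

set_option autoImplicit false
set_option linter.unusedVariables false
open Cfsg

namespace Cfsg.Agent.S1944


theorem core {X : Type*} [Group X] [Finite X] {p : ℕ} [Fact p.Prime] {T : Subgroup X}
    (hT : CL.Misc.SylIn p T ⊤)
    (hZ : T ⊓ Subgroup.centralizer (T : Set X) ≤ Cfsg.pCore p X) :
    ∃ K : Subgroup X, (∀ x ∈ Subgroup.center X, x ∈ K → x = 1) ∧
      ∀ z ∈ T, z ∈ Subgroup.centralizer (T : Set X) →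
        ∃ w ∈ T, w ∈ Subgroup.center X ∧ w⁻¹ * z ∈ K := by
  set V := Cfsg.pCore p X ⊓ Subgroup.centralizer (Cfsg.pCore p X : Set X) with hV
  have hOT : Cfsg.pCore p X ≤ T := hT.le_of_normalizes (CL.isPGroup_pCore p X) le_top
    (by rw [Subgroup.normalizer_eq_top]; exact le_top)
  have hVc : IsMulCommutative V := ⟨⟨fun a b => Subtype.ext (b.2.2 a a.2.1)⟩⟩
  have hVn : V.Normal := inferInstance
  have hVp : IsPGroup p V := (CL.isPGroup_pCore p X).to_le inf_le_left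
  obtain ⟨τ, h1, h2⟩ := CL.MSS.exists_trace_ambient (L := ⊤) (T := T) hVc
    (by rw [Subgroup.normalizer_eq_top]) (by rw [Subgroup.normalizer_eq_top]; exact le_top)
    (by rw [Subgroup.normalizer_eq_top]; exact le_top)
  rw [top_inf_eq] at h1
  rw [top_sup_eq] at h2
  have hcop : (T.relIndex ⊤).Coprime p :=
    ((Nat.Prime.coprime_iff_not_dvd Fact.out).2 hT.not_dvd).symm
  have h3 : ∀ v : V, (v : X) ∈ Subgroup.center X → τ v = v ^ T.relIndex ⊤ := by
    intro v hv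
    have := h2 ⊥ v fun l _ => by
      rw [Subgroup.mem_bot, commutatorElement_eq_one_iff_mul_comm]
      exact Subgroup.mem_center_iff.1 hv l
    exact Subtype.ext (mul_inv_eq_one.1 (Subgroup.mem_bot.1 this))
  refine ⟨τ.ker.map V.subtype, ?_, fun z hz hzc => ?_⟩
  · rintro _ hx ⟨v, hv, rfl⟩
    obtain ⟨k, hk⟩ := hVp v
    obtain ⟨m, hm⟩ := CL.MSS.exists_pow_pow_eq_self hk hcop
    rw [← h3 v hx, (MonoidHom.mem_ker.1 hv), one_pow] at hm
    rw [← hm]; rfl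
  · have hzV : z ∈ V := ⟨hZ ⟨hz, hzc⟩, Subgroup.centralizer_le hOT hzc⟩
    have h4 : (τ ⟨z, hzV⟩ : X) ∈ Subgroup.center X := by
      rw [Subgroup.mem_center_iff]
      intro g
      have := h1 ⟨z, hzV⟩ hzc g trivial 1 T.one_mem ⟨z, hzV⟩ (by simp)
      rw [mul_one] at this
      exact mul_inv_eq_iff_eq_mul.1 this
    obtain ⟨k, hk⟩ := hVp (τ ⟨z, hzV⟩)
    obtain ⟨m, hm⟩ := CL.MSS.exists_pow_pow_eq_self hk hcop
    refine ⟨(τ ⟨z, hzV⟩ ^ m : V), hOT (τ ⟨z, hzV⟩ ^ m).2.1, pow_mem h4 m,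
      (τ ⟨z, hzV⟩ ^ m)⁻¹ * ⟨z, hzV⟩, ?_, rfl⟩
    show τ _ = 1
    rw [map_mul, map_inv, h3 _ (pow_mem h4 m), ← pow_mul, mul_comm m, pow_mul, hm, inv_mul_cancel]


/-- Let S be a Sylow p-subgroup of the finite group G and suppose that the centre Z(S) lies in O_{p',p}(G). The elements of S each of which is its only G-conjugate in S form a subgroup W of Z(S); W is then a direct factor of Z(S): there is a subgroup K of Z(S) with W ∩ K = 1 and WK = Z(S). -/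
theorem result {G : Type*} [Group G] [Finite G] {p : ℕ} [Fact p.Prime] (S : Sylow p G)
    (hZ : ((S : Subgroup G) ⊓ Subgroup.centralizer ((S : Subgroup G) : Set G)) ≤ Cfsg.pPrimePCore p G) :
    ∃ W K : Subgroup G, (∀ x : G, x ∈ W ↔ (x ∈ (S : Subgroup G) ∧ ∀ g : G, g * x * g⁻¹ ∈ (S : Subgroup G) → g * x * g⁻¹ = x)) ∧
      K ≤ ((S : Subgroup G) ⊓ Subgroup.centralizer ((S : Subgroup G) : Set G)) ∧ W ⊓ K = ⊥ ∧ W ⊔ K = ((S : Subgroup G) ⊓ Subgroup.centralizer ((S : Subgroup G) : Set G)) := by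

  set O := Cfsg.pPrimeCore p G with hO
  set f := QuotientGroup.mk' O with hf
  have hSO : ∀ x ∈ (S : Subgroup G), f x = 1 → x = 1 := by
    intro x hx h1
    have : x ∈ (S : Subgroup G) ⊓ O := ⟨hx, (QuotientGroup.eq_one_iff x).1 h1⟩
    rwa [CL.inf_eq_bot_of_isPGroup_of_coprime S.isPGroup' (CL.coprime_card_pPrimeCore p G)] at this
  have hT : CL.Misc.SylIn p ((S : Subgroup G).map f) ⊤ := by
    have := (CL.Misc.sylIn_top S).map f
    rwa [Subgroup.map_top_of_surjective _ (QuotientGroup.mk'_surjective O)] at this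
  have hlift : ∀ s ∈ (S : Subgroup G),
      f s ∈ Subgroup.centralizer (((S : Subgroup G).map f : Subgroup (G ⧸ O)) : Set (G ⧸ O)) →
      s ∈ Subgroup.centralizer ((S : Subgroup G) : Set G) := by
    intro s hs h t ht
    have h1 := hSO (t * s * (s * t)⁻¹) (mul_mem (mul_mem ht hs) (inv_mem (mul_mem hs ht))) (by
      rw [map_mul, map_inv, map_mul, map_mul, h (f t) ⟨t, ht, rfl⟩, mul_inv_cancel])
    exact mul_inv_eq_one.1 h1
  obtain ⟨K, hK1, hK2⟩ := core hT (by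
    rintro _ ⟨⟨s, hs, rfl⟩, h⟩
    exact hZ ⟨hs, hlift s hs h⟩)
  refine ⟨(S : Subgroup G) ⊓ (Subgroup.center (G ⧸ O)).comap f,
    ((S : Subgroup G) ⊓ Subgroup.centralizer ((S : Subgroup G) : Set G)) ⊓ K.comap f,
    fun x => ⟨fun hx => ⟨hx.1, fun g hg => ?_⟩, fun hx => ⟨hx.1, ?_⟩⟩, inf_le_left, ?_,
    le_antisymm (sup_le ?_ inf_le_left) ?_⟩
  · have h1 := hSO (g * x * g⁻¹ * x⁻¹) (mul_mem hg (inv_mem hx.1)) (by
      rw [map_mul, map_mul, map_mul, Subgroup.mem_center_iff.1 hx.2 (f g), map_inv, map_inv]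
      group)
    exact mul_inv_eq_one.1 h1
  · have hiso := CL.Isol.isolated_of_sylow S hx.1 hx.2
    have h1 := CL.Isol.isolated_mk hiso (CL.Misc.isPGroup_zpowers_of_mem S.isPGroup' hx.1) O
    have h2 : f x ∈ Cfsg.pCore p (G ⧸ O) := by
      refine hZ ⟨hx.1, fun t ht => ?_⟩
      exact Subgroup.mem_centralizer_singleton_iff.1
        (CL.Isol.le_centralizer hiso S.isPGroup' hx.1 ht)
    show f x ∈ Subgroup.center (G ⧸ O)
    rw [Subgroup.mem_center_iff]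
    intro g
    have h3 := CL.Isol.conj_eq h1 (CL.isPGroup_pCore p _) h2
      ((inferInstance : (Cfsg.pCore p (G ⧸ O)).Normal).conj_mem _ h2 g)
    exact mul_inv_eq_iff_eq_mul.1 h3
  · rw [eq_bot_iff]
    rintro x ⟨hx1, hx2⟩
    exact hSO x hx1.1 (hK1 _ hx1.2 hx2.2)
  · rintro x ⟨hx1, hx2⟩
    exact ⟨hx1, hlift x hx1 (Subgroup.center_le_centralizer _ hx2)⟩
  · intro z hz
    obtain ⟨_, ⟨w, hw, rfl⟩, hwc, hk⟩ := hK2 (f z) ⟨z, hz.1, rfl⟩
      (CL.map_le_centralizer_map f inf_le_right ⟨z, hz, rfl⟩)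
    have hwZ := hlift w hw (Subgroup.center_le_centralizer _ hwc)
    rw [show z = w * (w⁻¹ * z) by group]
    refine mul_mem (Subgroup.mem_sup_left ⟨hw, hwc⟩) (Subgroup.mem_sup_right
      (Subgroup.mem_inf.2 ⟨Subgroup.mul_mem _ (Subgroup.inv_mem _ (Subgroup.mem_inf.2 ⟨hw, hwZ⟩)) hz,
        ?_⟩))
    show f (w⁻¹ * z) ∈ K
    rwa [map_mul, map_inv]

end Cfsg.Agent.S1944
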