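import Cfsg.Statements.S1945
import Cfsg.Agent.S1985
import Cfsg.Agent.TECH.KInf
import Cfsg.Agent.SOLV.PSolvable
import Cfsg.Agent.ODD.PuigThm

set_option autoImplicit false

namespace Cfsg.Agent.S1945

open Subgroup

/-- The conclusion, for a subgroup `S`. -/
def Concl {G : Type*} [Group G] (S : Subgroup G) : Prop :=
  ∃ W K : Subgroup G, (∀ x : G, x ∈ W ↔ (x ∈ S ∧ ∀ g : G, g * x * g⁻¹ ∈ S → g * x * g⁻¹ = x)) ∧
      K ≤ (S ⊓ centralizer (S : Set G)) ∧ W ⊓ K = ⊥ ∧ W ⊔ K = (S ⊓ centralizer (S : Set G))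

theorem split {G : Type*} [Group G] [Finite G] {p : ℕ} [hp : Fact p.Prime] (S N A : Subgroup G)
    (hS : IsPGroup p S) (hi : ¬ p ∣ S.relIndex N) (hSN : S ≤ N) (hAS : A ≤ S)
    (hA : ∀ a ∈ A, ∀ b ∈ A, a * b = b * a) (hNA : N ≤ normalizer (A : Set G))
    (hZ : S ⊓ centralizer (S : Set G) ≤ A)
    (hW : ∀ x ∈ S ⊓ centralizer (N : Set G), ∀ g : G, g * x * g⁻¹ ∈ S → g * x * g⁻¹ = x) :
    Concl S := by
  classical
  let _ : CommGroup A := { (inferInstance : Group A) with
    mul_comm := fun a b => Subtype.ext (hA a a.2 b b.2) }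
  let ρ : N →* MulAut A := A.normalizerMonoidHom.comp (inclusion hNA)
  have hρ : ∀ (n : N) (a : A), ((ρ n a : A) : G) = n * a * (n : G)⁻¹ := fun n a => rfl
  have _ : Fintype (N ⧸ S.subgroupOf N) := Fintype.ofFinite _
  let ψ : A →* A := ∏ c : N ⧸ S.subgroupOf N, (ρ c.out).toMonoidHom
  have hψ : ∀ a, ψ a = ∏ c : N ⧸ S.subgroupOf N, ρ c.out a := fun a => by
    simp only [ψ, MonoidHom.finsetProd_apply]; rfl
  have hk : Fintype.card (N ⧸ S.subgroupOf N) = S.relIndex N := by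
    rw [relIndex, index, Nat.card_eq_fintype_card]
  -- on elements centralised by N, ψ is a power
  have hpow : ∀ a : A, (a : G) ∈ centralizer (N : Set G) → ψ a = a ^ S.relIndex N := by
    intro a ha
    rw [hψ, ← hk, ← Finset.card_univ, ← Finset.prod_const]
    refine Finset.prod_congr rfl fun c _ => Subtype.ext ?_
    rw [hρ, mem_centralizer_iff.1 ha _ c.out.2]; group
  have hinv : ∀ a : A, (a : G) ∈ centralizer (S : Set G) → (ψ a : G) ∈ centralizer (N : Set G) := by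
    intro a ha
    rw [mem_centralizer_iff]
    intro m hm
    have h1 : ρ ⟨m, hm⟩ (ψ a) = ψ a := by
      rw [hψ, map_prod]
      refine Fintype.prod_equiv (MulAction.toPerm (⟨m, hm⟩ : N)) _ _ fun c => ?_
      have : (MulAction.toPerm (⟨m, hm⟩ : N)) c = QuotientGroup.mk ((⟨m, hm⟩ : N) * c.out) := by
        rw [MulAction.toPerm_apply, ← smul_eq_mul, ← MulAction.Quotient.smul_mk, QuotientGroup.out_eq']
      rw [this]
      obtain ⟨s, hs⟩ := QuotientGroup.mk_out_eq_mul (S.subgroupOf N) ((⟨m, hm⟩ : N) * c.out)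
      rw [hs, map_mul, map_mul, MulAut.mul_apply, MulAut.mul_apply]
      congr 2
      apply Subtype.ext
      have h3 : ((s : N) : G) * a = a * ((s : N) : G) := mem_centralizer_iff.1 ha _ s.2
      rw [hρ, h3]; group
    have h2 := congrArg (fun x : A => (x : G)) h1
    simp only [hρ] at h2
    rwa [mul_inv_eq_iff_eq_mul] at h2
  have hcop : ∀ a : A, (orderOf a).Coprime (S.relIndex N) := by
    intro a
    obtain ⟨k, hk⟩ := (IsPGroup.iff_orderOf.1 (hS.to_le hAS)) a
    rw [hk]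
    exact Nat.Coprime.pow_left _ ((Nat.Prime.coprime_iff_not_dvd hp.out).2 hi)
  have hWZ : S ⊓ centralizer (N : Set G) ≤ S ⊓ centralizer (S : Set G) :=
    inf_le_inf_left _ (centralizer_le hSN)
  refine ⟨S ⊓ centralizer (N : Set G), (S ⊓ centralizer (S : Set G)) ⊓ ψ.ker.map A.subtype,
    fun x => ⟨fun hx => ⟨hx.1, hW x hx⟩, fun hx => ⟨hx.1, ?_⟩⟩, inf_le_left, ?_, ?_⟩
  · have hxA : x ∈ A := hZ ⟨hx.1, mem_centralizer_iff.2 fun s hs => by
      have := hx.2 s (S.mul_mem (S.mul_mem hs hx.1) (S.inv_mem hs))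
      rw [mul_inv_eq_iff_eq_mul] at this; exact this⟩
    refine mem_centralizer_iff.2 fun n hn => ?_
    have := hx.2 n (hAS (ρ ⟨n, hn⟩ ⟨x, hxA⟩).2)
    rw [mul_inv_eq_iff_eq_mul] at this; exact this
  · rw [eq_bot_iff]
    rintro x ⟨hx, -, a, ha, rfl⟩
    have h1 : a ^ S.relIndex N = 1 := by rw [← hpow a hx.2]; exact ha
    have h2 : orderOf a = 1 := Nat.Coprime.eq_one_of_dvd (hcop a) (orderOf_dvd_of_pow_eq_one h1)
    rw [orderOf_eq_one_iff.1 h2]; exact one_mem _
  · refine le_antisymm (sup_le hWZ inf_le_left) fun z hz => ?_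
    let a : A := ⟨z, hZ hz⟩
    obtain ⟨m, hm⟩ := exists_pow_eq_self_of_coprime (hcop (ψ a)).symm
    have hw : ((ψ a ^ m : A) : G) ∈ centralizer (N : Set G) := by
      rw [coe_pow]; exact pow_mem (hinv a hz.2) m
    have hw' : ((ψ a ^ m : A) : G) ∈ S ⊓ centralizer (N : Set G) := ⟨hAS (ψ a ^ m).2, hw⟩
    have : z = ((ψ a ^ m : A) : G) * (((ψ a ^ m)⁻¹ * a : A) : G) := by simp [a]
    rw [this]
    refine mul_mem (mem_sup_left hw') (mem_sup_right ⟨?_, (ψ a ^ m)⁻¹ * a, ?_, rfl⟩)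
    · rw [coe_mul, coe_inv]; exact Subgroup.mul_mem _ (Subgroup.inv_mem _ (hWZ hw')) hz
    · rw [SetLike.mem_coe, MonoidHom.mem_ker, map_mul, map_inv, hpow _ hw, ← pow_mul, mul_comm m, pow_mul, hm,
        inv_mul_cancel]

theorem Concl.cj {G : Type*} [Group G] {S : Subgroup G} (h : Concl S) (e : G ≃* G)
    : Concl (S.map e.toMonoidHom) := by
  obtain ⟨W, K, hW, hK, h1, h2⟩ := h
  have hc : (S ⊓ centralizer (S : Set G)).map e.toMonoidHom =
      S.map e.toMonoidHom ⊓ centralizer (S.map e.toMonoidHom : Set G) := by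
    ext x
    constructor
    · rintro ⟨y, ⟨hy, hy'⟩, rfl⟩
      refine ⟨⟨y, hy, rfl⟩, mem_centralizer_iff.2 ?_⟩
      rintro _ ⟨s, hs, rfl⟩
      rw [← map_mul, ← map_mul, mem_centralizer_iff.1 hy' s hs]
    · rintro ⟨⟨y, hy, rfl⟩, h⟩
      refine ⟨y, ⟨hy, mem_centralizer_iff.2 fun s hs => e.injective ?_⟩, rfl⟩
      rw [map_mul, map_mul]
      exact mem_centralizer_iff.1 h _ ⟨s, hs, rfl⟩
  refine ⟨W.map e.toMonoidHom, K.map e.toMonoidHom, fun x => ?_, hc ▸ map_mono hK, ?_, ?_⟩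
  · obtain ⟨y, rfl⟩ := e.surjective x
    have hm : ∀ (H : Subgroup G) (y : G), e y ∈ H.map e.toMonoidHom ↔ y ∈ H := fun H y =>
      mem_map_iff_mem (f := e.toMonoidHom) e.injective
    rw [hm, hm, hW]
    refine and_congr_right fun _ => ⟨fun h g => ?_, fun h g hg => e.injective ?_⟩
    · obtain ⟨g, rfl⟩ := e.surjective g
      rw [← map_inv, ← map_mul, ← map_mul, hm]
      exact fun hg => congrArg e (h g hg)
    · have := h (e g)
      rw [← map_inv, ← map_mul, ← map_mul, hm] at this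
      exact this hg
  · rw [← map_inf _ _ _ e.injective, h1, Subgroup.map_bot]
  · rw [← Subgroup.map_sup, h2, hc]

theorem of_K {G : Type*} [Group G] [Finite G] {p : ℕ} [hp : Fact p.Prime] (S K : Subgroup G)
    (hS : IsPGroup p S) (hi : ¬ p ∣ S.index) (hKS : K ≤ S) (hSN : S ≤ normalizer (K : Set G))
    (hZ : S ⊓ centralizer (S : Set G) ≤ K)
    (hW : ∀ x ∈ S ⊓ centralizer ((normalizer (K : Set G) : Subgroup G) : Set G), ∀ g : G,
      g * x * g⁻¹ ∈ S → g * x * g⁻¹ = x) :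
    Concl S := by
  refine split S (normalizer (K : Set G)) (K ⊓ centralizer (K : Set G)) hS
    (fun h => hi (h.trans (relIndex_dvd_index_of_le hSN))) hSN (inf_le_left.trans hKS)
    (fun a ha b hb => mem_centralizer_iff.1 hb.2 a ha.1) ?_
    (le_inf hZ (inf_le_right.trans (centralizer_le hKS))) hW
  have key : ∀ n ∈ normalizer (K : Set G), ∀ x ∈ K ⊓ centralizer (K : Set G),
      n * x * n⁻¹ ∈ K ⊓ centralizer (K : Set G) := by
    intro n hn x hx
    refine ⟨(mem_normalizer_iff.1 hn x).1 hx.1, mem_centralizer_iff.2 fun k hk => ?_⟩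
    have h1 : n⁻¹ * k * n⁻¹⁻¹ ∈ K := (mem_normalizer_iff.1 (inv_mem hn) k).1 hk
    have h2 := mem_centralizer_iff.1 hx.2 _ h1
    calc k * (n * x * n⁻¹) = n * ((n⁻¹ * k * n⁻¹⁻¹) * x) * n⁻¹ := by group
      _ = n * x * n⁻¹ * k := by rw [h2]; group
  intro n hn
  refine mem_normalizer_iff.2 fun x => ⟨key n hn x, fun hx => ?_⟩
  have := key _ (inv_mem hn) _ hx
  simpa [mul_assoc] using this

open Cfsg in
/-- Let S be a Sylow p-subgroup of the finite group G, and assume that p is odd or that G is solvable. -/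
theorem result {G : Type*} [Group G] [Finite G] {p : ℕ} [Fact p.Prime] (S : Sylow p G) (h : p ≠ 2 ∨ Group.IsSolvable G) :
    ∃ W K : Subgroup G, (∀ x : G, x ∈ W ↔ (x ∈ (S : Subgroup G) ∧ ∀ g : G, g * x * g⁻¹ ∈ (S : Subgroup G) → g * x * g⁻¹ = x)) ∧
      K ≤ ((S : Subgroup G) ⊓ Subgroup.centralizer ((S : Subgroup G) : Set G)) ∧ W ⊓ K = ⊥ ∧ W ⊔ K = ((S : Subgroup G) ⊓ Subgroup.centralizer ((S : Subgroup G) : Set G)) := by
  change Concl (S : Subgroup G)
  rcases h with h | h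
  · obtain ⟨hZ, T, -, hT, hi, hW⟩ := Cfsg.Agent.S1985.result (G := G) h
    rw [relIndex_top_right] at hi
    have hc : Concl T := by
      refine of_K T (inducedFunctor kInfLower T) hT hi (map_subtype_le _) ?_ (hZ T hT) ?_
      · have := CL.CF.kInfLower_characteristic T
        intro t ht
        have key : ∀ t ∈ T, ∀ x ∈ inducedFunctor kInfLower T, t * x * t⁻¹ ∈ inducedFunctor kInfLower T := by
          rintro t ht _ ⟨x, hx, rfl⟩
          exact ⟨_, (inferInstance : (kInfLower T).Normal).conj_mem x hx ⟨t, ht⟩, rfl⟩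
        refine mem_normalizer_iff.2 fun x => ⟨key t ht x, fun hx => ?_⟩
        simpa [mul_assoc] using key _ (inv_mem ht) _ hx
      · intro x hx g
        refine hW x ?_ g (mem_top g)
        rwa [top_inf_eq]
    let T' : Sylow p G := hT.toSylow hi
    obtain ⟨g, hg⟩ := MulAction.exists_smul_eq G T' S
    have := hc.cj (MulAut.conj g)
    rw [← hg]; exact this
  · have hs : IsPSolvable p G := CL.isPSolvable_of_isSolvable p G
    let M := pPrimePCore p G
    have hM : M.Normal := inferInstance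
    let Q : Subgroup G := (S : Subgroup G) ⊓ M
    have hSN : (S : Subgroup G) ≤ normalizer (Q : Set G) := by
      have key : ∀ t ∈ (S : Subgroup G), ∀ x ∈ Q, t * x * t⁻¹ ∈ Q := fun t ht x hx =>
        ⟨S.1.mul_mem (S.1.mul_mem ht hx.1) (S.1.inv_mem ht), hM.conj_mem x hx.2 t⟩
      intro t ht
      refine mem_normalizer_iff.2 fun x => ⟨key t ht x, fun hx => ?_⟩
      simpa [mul_assoc] using key _ (inv_mem ht) _ hx
    refine of_K (p := p) (S : Subgroup G) Q S.isPGroup' S.not_dvd_index inf_le_left hSN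
      (inf_le_inf_left _ (CL.IsPSolvable.centralizer_sylow_le hs S)) ?_
    intro x hx g hg
    have hF : normalizer (Q : Set G) ⊔ M = ⊤ := CL.BG.normalizer_sylow_inf_sup_eq_top S M
    have hO : (pPrimeCore p G).Normal := inferInstance
    have h1 : pPrimeCore p G ⊔ normalizer (Q : Set G) = ⊤ := by
      rw [eq_top_iff, ← hF]
      refine sup_le le_sup_right ?_
      rw [show M = pPrimeCore p G ⊔ Q from (CL.pPrimeCore_sup_sylow_inf S).symm]
      exact sup_le_sup_left le_normalizer _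
    have h2 : g ∈ ((pPrimeCore p G ⊔ normalizer (Q : Set G) : Subgroup G) : Set G) := by
      rw [h1]; trivial
    rw [normal_mul] at h2
    obtain ⟨o, ho, n, hn, rfl⟩ := h2
    have hnx : n * x * n⁻¹ = x := by rw [mem_centralizer_iff.1 hx.2 n hn]; group
    have h3 : o * n * x * (o * n)⁻¹ = o * x * o⁻¹ := by
      conv_rhs => rw [← hnx]
      group
    change o * n * x * (o * n)⁻¹ ∈ _ at hg
    change o * n * x * (o * n)⁻¹ = x
    rw [h3] at hg ⊢
    have h4 : o * x * o⁻¹ * x⁻¹ ∈ (S : Subgroup G) ⊓ pPrimeCore p G :=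
      ⟨S.1.mul_mem hg (S.1.inv_mem hx.1), by
        have := mul_mem ho (hO.conj_mem _ (inv_mem ho) x)
        simpa [mul_assoc] using this⟩
    have h5 : (S : Subgroup G) ⊓ pPrimeCore p G = ⊥ := by
      obtain ⟨k, hk⟩ := IsPGroup.iff_card.1 S.isPGroup'
      refine inf_eq_bot_of_coprime ?_
      rw [hk]
      exact Nat.Coprime.pow_left _ (CL.coprime_card_pPrimeCore p G).symm
    rw [h5, mem_bot, mul_inv_eq_one] at h4
    exact h4

end Cfsg.Agent.S1945
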