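import Cfsg.Statements.S1946
import Cfsg.Agent.TECH.Crit4
import Cfsg.Agent.TECH.SubnP
import Cfsg.Agent.PLOC.FrobeniusNPC

set_option autoImplicit false
set_option linter.unusedVariables false
open Cfsg

namespace Cfsg.Agent.S1946

open scoped commutatorElement


/-- Let P be a Sylow p-subgroup of the finite group G. Then G has a normal p-complement if and only if P controls the fusion of its elements of order dividing p (dividing 4 when p = 2): whenever such an element a of P has a G-conjugate g a g⁻¹ in P, that conjugate is already x a x⁻¹ for some x in P. -/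
theorem result {G : Type*} [Group G] [Finite G] {p : ℕ} [Fact p.Prime] (P : Sylow p G) :
    Cfsg.HasNormalPComplement p G ↔
      ∀ a ∈ (P : Subgroup G), (a ^ p = 1 ∨ (p = 2 ∧ a ^ 4 = 1)) → ∀ g : G, g * a * g⁻¹ ∈ (P : Subgroup G) →
        ∃ x ∈ (P : Subgroup G), g * a * g⁻¹ = x * a * x⁻¹ := by

  constructor
  · intro h a ha _ g hg
    obtain ⟨z, hz, hc⟩ := CL.exists_sylow_conj_of_hasNPC h P g
    exact ⟨z, hz, (hc a ha hg).symm⟩
  · intro h
    rw [CL.Tr.hasNPC_iff_forall_le_sylow P]
    intro Q hQP g hg ho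
    have hQ : IsPGroup p Q := P.isPGroup'.to_le hQP
    obtain ⟨D, hle, hn, hs, -, hf⟩ := CL.PG.exists_small_critical_ambient hQ
    refine hf g hg ho ?_
    obtain ⟨n, hn0⟩ := CL.MSS.exists_iterCommutator_eq_bot P.isPGroup' P.isPGroup'
      Subgroup.le_normalizer
    have := CL.MSS.mem_centralizer_of_chain ho n
      (fun i => D ⊓ Cfsg.iterCommutator (P : Subgroup G) P i)
      (fun i _ => hQ.to_le (inf_le_left.trans hle)) (fun i hi r hr => ⟨?_, ?_⟩) (by simp [hn0])
    · exact fun d hd => this d ⟨hd, hQP (hle hd)⟩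
    · rw [commutatorElement_def, mul_assoc, mul_assoc, ← mul_assoc g]
      exact D.mul_mem hr.1 ((Subgroup.mem_normalizer_iff.1 (hn hg) _).1 (D.inv_mem hr.1))
    · obtain ⟨x, hx, e⟩ := h r (hQP (hle hr.1)) (hs r hr.1) g
        (hQP (hle ((Subgroup.mem_normalizer_iff.1 (hn hg) _).1 hr.1)))
      have e1 : ⁅r, g⁆ = ⁅r, x⁆ := by
        simp only [commutatorElement_def]
        calc r * g * r⁻¹ * g⁻¹ = r * (g * r * g⁻¹)⁻¹ := by group
          _ = r * (x * r * x⁻¹)⁻¹ := by rw [e]
          _ = _ := by group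
      show ⁅r, g⁆ ∈ Cfsg.iterCommutator (P : Subgroup G) P (i + 1)
      rw [e1, CL.MSS.iterCommutator_succ]
      exact Subgroup.commutator_mem_commutator hr.2 hx

end Cfsg.Agent.S1946
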