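import Cfsg.Statements.S1948
import Cfsg.Agent.TECH.MiscBal

set_option autoImplicit false
set_option linter.unusedVariables false
open Cfsg

namespace Cfsg.Agent.S1948

open CL.Misc

/-- Let S be a Sylow p-subgroup of the finite group G. Then G = N_G(S)·O_{p'}(G) if and only if G is p-constrained and N_G(S) controls fusion in S, in the sense that whenever a subgroup Q of S has a conjugate g Q g⁻¹ inside S, the element g is a product n c with n normalizing S and c centralizing Q. -/
theorem result {G : Type*} [Group G] [Finite G] {p : ℕ} [Fact p.Prime] (S : Sylow p G) :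
    Subgroup.normalizer ((S : Subgroup G) : Set G) ⊔ Cfsg.pPrimeCore p G = ⊤ ↔
      (Cfsg.IsPConstrained p G ∧
        ∀ Q : Subgroup G, Q ≤ (S : Subgroup G) → ∀ g : G, Q.map (MulAut.conj g).toMonoidHom ≤ (S : Subgroup G) →
          ∃ n ∈ Subgroup.normalizer ((S : Subgroup G) : Set G), ∃ c ∈ Subgroup.centralizer (Q : Set G), g = n * c) := by
  have hd : (S : Subgroup G) ⊓ pPrimeCore p G = ⊥ :=
    CL.inf_eq_bot_of_isPGroup_of_coprime S.isPGroup' (CL.coprime_card_pPrimeCore p G)
  constructor
  · intro h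
    refine ⟨?_, ?_⟩
    · rw [isPConstrained_iff_quotient]
      apply centralizer_pCore_le_of_normal_sylow (CL.pPrimeCore_quotient_pPrimeCore p G)
      have h1 := (sylIn_top S).map (QuotientGroup.mk' (pPrimeCore p G))
      rw [Subgroup.map_top_of_surjective _ (QuotientGroup.mk'_surjective _)] at h1
      have h2 : ((S : Subgroup G).map (QuotientGroup.mk' (pPrimeCore p G))).Normal := by
        rw [← Subgroup.normalizer_eq_top_iff, eq_top_iff,
          ← Subgroup.map_top_of_surjective _ (QuotientGroup.mk'_surjective (pPrimeCore p G)), ← h,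
          Subgroup.map_sup, (CL.map_mk'_eq_bot_iff _ _).2 le_rfl, sup_bot_eq]
        exact Subgroup.le_normalizer_map _
      rw [h1.eq_of_le (CL.isPGroup_pCore p _) (CL.le_pCore h1.isPGroup) le_top]
      exact h1
    · intro Q hQ g hg
      have hg' : g ∈ ((Subgroup.normalizer ((S : Subgroup G) : Set G) ⊔ pPrimeCore p G : Subgroup G) : Set G) := by
        rw [h]; trivial
      rw [Subgroup.mul_normal] at hg'
      obtain ⟨n, hn, c, hc, rfl⟩ := hg'
      refine ⟨n, hn, c, ?_, rfl⟩
      rw [Subgroup.mem_centralizer_iff]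
      intro q hq
      have h1 : n * c * q * (n * c)⁻¹ ∈ (S : Subgroup G) := hg (conj_mem_map_conj _ hq)
      have h2 : c * q * c⁻¹ ∈ (S : Subgroup G) := by
        rw [Subgroup.mem_normalizer_iff.1 hn]
        convert h1 using 1; group
      have h3 : c * q * c⁻¹ * q⁻¹ ∈ (S : Subgroup G) ⊓ pPrimeCore p G := by
        refine ⟨Subgroup.mul_mem _ h2 (Subgroup.inv_mem _ (hQ hq)), ?_⟩
        have : q * c⁻¹ * q⁻¹ ∈ pPrimeCore p G :=
          Subgroup.Normal.conj_mem inferInstance _ (Subgroup.inv_mem _ hc) q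
        have := Subgroup.mul_mem _ hc this
        rwa [show c * (q * c⁻¹ * q⁻¹) = c * q * c⁻¹ * q⁻¹ by group] at this
      rw [hd, Subgroup.mem_bot] at h3
      calc q * c = (c * q * c⁻¹ * q⁻¹) * q * c := by rw [h3, one_mul]
        _ = c * q := by group
  · rintro ⟨h1, h2⟩
    have := pPrimePCore_normal (p := p) (G := G)
    have hQ := sylIn_inf_normal S (pPrimePCore p G)
    have hle : pPrimePCore p G ≤ Subgroup.normalizer ((S : Subgroup G) : Set G) ⊔ pPrimeCore p G := by
      rw [← hQ.sup_pPrimeCore]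
      exact sup_le_sup_right (inf_le_left.trans Subgroup.le_normalizer) _
    rw [eq_top_iff]
    intro g _
    obtain ⟨k, hk, hkg⟩ := hQ.frattini (g := g) (by rw [Subgroup.normalizer_eq_top]; trivial)
    obtain ⟨n, hn, c, hc, e⟩ := h2 _ inf_le_left (k * g)
      ((Subgroup.mem_normalizer_iff_map_conj_eq.1 hkg).le.trans inf_le_left)
    have e2 : g = k⁻¹ * (n * c) := by rw [← e]; group
    rw [e2]
    exact Subgroup.mul_mem _ (Subgroup.inv_mem _ (hle hk)) (Subgroup.mul_mem _
      (Subgroup.mem_sup_left hn) (hle (IsPConstrained.centralizer_le h1 hQ hc)))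

end Cfsg.Agent.S1948
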