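import Cfsg.Statements.S1949
import Cfsg.Agent.TECH.Crit4
import Cfsg.Agent.PLOC.NPC
import Cfsg.Agent.PLOC.PRank

set_option autoImplicit false
set_option linter.unusedVariables false
open Cfsg

namespace Cfsg.Agent.S1949

/-- Let P be a finite p-group and G a group of automorphisms of P containing the inner automorphisms. Then there is a G-invariant subgroup D of P, contained in the subgroup generated by the elements x⁻¹α(x) with x in P and α in O^p(G), of exponent dividing p when p is odd and dividing 4 when p = 2, with [D, P] ≤ Z(D), such that every automorphism in G of order prime to p that fixes D elementwise is the identity; moreover every maximal abelian subgroup A of D is normal in P and every automorphism in G fixing A elementwise has p-power order. -/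
theorem result {P : Type*} [Group P] [Finite P] {p : ℕ} [Fact p.Prime] (hP : IsPGroup p P)
    (G : Subgroup (MulAut P)) (hG : Cfsg.Inn P ≤ G) :
    ∃ D : Subgroup P,
      (∀ α ∈ G, D.map α.toMonoidHom = D) ∧
      D ≤ Subgroup.closure {y : P | ∃ α ∈ Cfsg.pResidual p ↥G, ∃ x : P, y = x⁻¹ * (α : MulAut P) x} ∧
      (∀ d ∈ D, d ^ p = 1 ∨ (p = 2 ∧ d ^ 4 = 1)) ∧
      ⁅D, (⊤ : Subgroup P)⁆ ≤ D ⊓ Subgroup.centralizer (D : Set P) ∧
      (∀ α ∈ G, (orderOf α).Coprime p → (∀ d ∈ D, α d = d) → α = 1) ∧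
      ∀ A : Subgroup P, A ≤ D → IsMulCommutative ↥A →
        (∀ B : Subgroup P, A ≤ B → B ≤ D → IsMulCommutative ↥B → B = A) →
        A.Normal ∧ ∀ α ∈ G, (∀ a ∈ A, α a = a) → ∃ k : ℕ, orderOf α = p ^ k := by

  have hΓ : ∀ g : P, MulAut.conj g ∈ G := fun g => hG ⟨g, rfl⟩
  set R := Subgroup.closure {y : P | ∃ α ∈ Cfsg.pResidual p ↥G, ∃ x : P, y = x⁻¹ * (α : MulAut P) x}
    with hRdef
  have hR : CL.PG.AutInv G R := by
    intro β hβ
    have : R ≤ R.comap β.toMonoidHom := by
      refine (Subgroup.closure_le _).2 ?_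
      rintro _ ⟨α, hα, x, rfl⟩
      refine Subgroup.subset_closure ⟨⟨β, hβ⟩ * α * ⟨β, hβ⟩⁻¹,
        (CL.pResidual_normal p G).conj_mem α hα _, β x, ?_⟩
      simp
    exact fun x hx => this hx
  obtain ⟨D, hle, hD, hs, hc, hf⟩ := CL.PG.exists_small_critical hP hΓ hR
  have hfaith : ∀ α ∈ G, (orderOf α).Coprime p → (∀ d ∈ D, α d = d) → α = 1 := by
    intro α hα ho h
    refine CL.PG.aut_eq_one_of_fix_of_mem α ho (hP.to_subgroup R) (hf α hα ho h) fun g => ?_
    exact Subgroup.subset_closure ⟨⟨α, hα⟩, CL.mem_pResidual_of_coprime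
      (by rwa [← Subgroup.orderOf_coe]), g, rfl⟩
  refine ⟨D, fun α hα => hD.map_eq hα, hle, hs, hc, hfaith, fun A hAD hA hmax => ?_⟩
  have hC : D ⊓ Subgroup.centralizer (A : Set P) ≤ A := by
    intro x hx
    have := hmax (A ⊔ Subgroup.zpowers x) le_sup_left (sup_le hAD (Subgroup.zpowers_le.2 hx.1))
      (CL.PG.isMulCommutative_sup_zpowers hA hx.2)
    rw [← this]
    exact Subgroup.mem_sup_right (Subgroup.mem_zpowers x)
  have hAn : A.Normal := by
    rw [← Subgroup.normalizer_eq_top_iff, eq_top_iff, Subgroup.le_normalizer_iff_commutator_le_left]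
    exact ((Subgroup.commutator_mono hAD le_rfl).trans hc).trans
      ((inf_le_inf_left _ (Subgroup.centralizer_le hAD)).trans hC)
  refine ⟨hAn, fun α hα h => ?_⟩
  obtain ⟨k, hk⟩ := CL.PG.exists_pow_eq_one_of_coprime_imp (p := p) (isOfFinOrder_of_finite α)
    fun k hk => hfaith _ (pow_mem hα k) hk fun d hd =>
      CL.PG.aut_fix_of_centralizer_le _ hk (hP.to_subgroup A)
        (by rw [Subgroup.normalizer_eq_top]; exact le_top) (hD _ (pow_mem hα k)) hC
        (fun a ha => (MulAction.stabilizer (MulAut P) a).pow_mem (h a ha) k) hd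
  obtain ⟨i, -, hi⟩ := (Nat.dvd_prime_pow Fact.out).1 (orderOf_dvd_of_pow_eq_one hk)
  exact ⟨i, hi⟩

end Cfsg.Agent.S1949
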