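import Cfsg.Statements.S1952
import Cfsg.Agent.PLOC.Yoshida
import Cfsg.Agent.PLOC.PFrattini

set_option autoImplicit false
set_option linter.unusedVariables false
open Cfsg

namespace Cfsg.Agent.S1952


theorem list_prod_coe {P : Type*} [Group P] (A : Subgroup P) [IsMulCommutative A] (f : ℕ → A) (n : ℕ) :
    ((List.range n).map (fun i => (f i : P))).prod =
      ((letI : CommGroup A := { (inferInstance : Group A) with mul_comm := fun a b => mul_comm' a b }
        ∏ i ∈ Finset.range n, f i : A) : P) := by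
  letI : CommGroup A := { (inferInstance : Group A) with mul_comm := fun a b => mul_comm' a b }
  induction n with
  | zero => simp
  | succ n ih =>
    rw [List.range_succ, List.map_append, List.prod_append, ih, Finset.prod_range_succ]
    simp


/-- Let P be a finite p-group with a normal elementary abelian subgroup A of index p, and let x ∈ A and y ∈ P with y outside A. If the product of the p conjugates y^(-i) x y^i (i = 0, …, p−1) is not the identity, then the wreath product Z_p ≀ Z_p, realised as a Sylow p-subgroup of the symmetric group of degree p², is a homomorphic image of P. -/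
theorem result {P : Type*} [Group P] [Finite P] {p : ℕ} [Fact p.Prime] (hP : IsPGroup p P) (A : Subgroup P) [A.Normal]
    (hA : Cfsg.IsElementaryAbelian p A) (hidx : A.index = p) (x y : P) (hx : x ∈ A) (hy : y ∉ A)
    (hprod : ((List.range p).map (fun i => (y ^ i)⁻¹ * x * y ^ i)).prod ≠ 1) :
    ∃ (Q : Sylow p (Equiv.Perm (Fin (p ^ 2)))) (f : P →* ↥(Q : Subgroup (Equiv.Perm (Fin (p ^ 2))))), Function.Surjective f := by

  have := hA.1
  letI : CommGroup A := { (inferInstance : Group A) with mul_comm := fun a b => mul_comm' a b }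
  have hyN : y ∈ Subgroup.normalizer (A : Set P) := by
    rw [Subgroup.normalizer_eq_top]; trivial
  have hexp : ∀ a : A, a ^ p = 1 := fun a => Subtype.ext (hA.2 a a.2)
  have h0 := CL.Tr.map_iterate_comm_eq_prod (p := p) hexp (MonoidHom.id A) hyN hx
  have h1 := list_prod_coe A (fun i => ⟨(y ^ i)⁻¹ * x * y ^ i,
    CL.Tr.inv_conj_mem_of_mem_normalizer (pow_mem hyN i) hx⟩) p
  have hw : (⟨_, CL.Tr.iterate_comm_mem hyN hx (p - 1)⟩ : A) ∉ (⊥ : Subgroup A) := by
    intro h
    apply hprod
    rw [Subgroup.mem_bot] at h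
    refine h1.trans ?_
    have h2 := h0.symm.trans h
    exact congrArg Subtype.val h2
  obtain ⟨M, hM, -, hwM⟩ := CL.PG.exists_coatom_ge_not_mem (p := p) (N := (⊥ : Subgroup A))
    (by rw [commutator_eq_bot]) (fun g => by rw [hexp g]; exact one_mem _) hw
  have hMi : M.index = p := CL.PG.coatom_index (hP.to_subgroup A) hM
  set M' : Subgroup P := M.map A.subtype with hM'
  have hMA : M' ≤ A := Subgroup.map_subtype_le _
  have hM'i : M'.relIndex A = p := by
    rw [Subgroup.relIndex, Subgroup.subgroupOf, hM', Subgroup.comap_map_eq_self_of_injective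
      A.subtype_injective, hMi]
  have hwM' : (fun t : P => t⁻¹ * y⁻¹ * t * y)^[p - 1] x ∉ M' := by
    rintro ⟨t, ht, ht'⟩
    apply hwM
    have h5 : t = ⟨_, CL.Tr.iterate_comm_mem hyN hx (p - 1)⟩ := Subtype.ext ht'
    rw [← h5]; exact ht
  have hc : Nat.card (P ⧸ M') = p ^ 2 := by
    rw [pow_two]
    nth_rw 1 [← hM'i, ← hidx]
    exact (Subgroup.relIndex_mul_index hMA).symm
  let e := (Finite.equivFinOfCardEq hc).permCongrHom
  let ρ : P →* Equiv.Perm (Fin (p ^ 2)) :=
    e.toMonoidHom.comp (MulAction.toPermHom P (P ⧸ M'))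
  have hker : ρ.ker ≤ M' := by
    rw [← MonoidHom.comap_ker, (MonoidHom.ker_eq_bot_iff _).mpr e.injective, MonoidHom.comap_bot,
      ← Subgroup.normalCore_eq_ker]
    exact Subgroup.normalCore_le _
  have hp : IsPGroup p ρ.range := hP.of_surjective _ ρ.rangeRestrict_surjective
  obtain ⟨Q, hQ⟩ := hp.exists_le_sylow
  have : (A.map ρ.rangeRestrict).Normal :=
    Subgroup.Normal.map inferInstance _ ρ.rangeRestrict_surjective
  have h2 := CL.Tr.pow_le_card_of_iterate_comm_ne_one hp (ρ.rangeRestrict y) (p - 1)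
    (A.map ρ.rangeRestrict) (y := ρ.rangeRestrict x) ⟨x, hx, rfl⟩ (by
      have h3 : ∀ k, (fun t => t⁻¹ * (ρ.rangeRestrict y)⁻¹ * t * ρ.rangeRestrict y)^[k]
          (ρ.rangeRestrict x) =
          ρ.rangeRestrict ((fun t : P => t⁻¹ * y⁻¹ * t * y)^[k] x) := fun k => by
        induction k with
        | zero => rfl
        | succ k ih =>
          rw [Function.iterate_succ_apply', ih, ← map_inv, ← map_inv, ← map_mul, ← map_mul, ← map_mul,
            Function.iterate_succ_apply']
      rw [h3]
      exact fun h4 => hwM' (hker (congrArg Subtype.val h4)))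
  have h3 := (A.map ρ.rangeRestrict).card_mul_index
  rw [Subgroup.index_map_eq _ ρ.rangeRestrict_surjective (by
    rw [MonoidHom.ker_rangeRestrict]
    exact hker.trans hMA), hidx] at h3
  rw [Nat.sub_add_cancel (Fact.out : p.Prime).one_le] at h2
  have h4 : ρ.range = Q := Subgroup.eq_of_le_of_card_ge hQ (by
    rw [← h3, CL.Tr.card_sylow_perm_sq, pow_succ]
    exact Nat.mul_le_mul_right p h2)
  refine ⟨Q, ρ.codRestrict _ fun x => hQ ⟨x, rfl⟩, fun y => ?_⟩
  obtain ⟨x, hx⟩ := h4.ge y.2
  exact ⟨x, Subtype.ext hx⟩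

end Cfsg.Agent.S1952
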