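import Cfsg.Statements.S1953
import Cfsg.Agent.FUS.Glaub

set_option autoImplicit false
open Cfsg

namespace Cfsg.Agent.S1953

open CL.Fus Multiplicative in
theorem exists_hom_of_qdAt {G : Type*} [Group G] [Finite G] {p : ℕ} [Fact p.Prime] {T B : Subgroup G}
    (h : QdAt p (groupFusionSystem T) B) :
    ∃ (H : Subgroup G) (σ : H →* Matrix.SpecialLinearGroup (Fin 2) (ZMod p)),
      H ≤ Subgroup.normalizer (B : Set G) ∧ Function.Surjective σ ∧
      Subgroup.centralizer (B : Set G) ≤ σ.ker.map H.subtype := by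
  obtain ⟨π, h1, h2, h⟩ := h
  let N : Subgroup G :=
    { carrier := {g | g ∈ Subgroup.normalizer (B : Set G) ∧
        ∃ A : Matrix.SpecialLinearGroup (Fin 2) (ZMod p), ∀ x ∈ B, π (cj g x) = ofAdd (A • toAdd (π x))}
      one_mem' := ⟨Subgroup.one_mem _, 1, fun x _ => by rw [cj_one, one_smul, ofAdd_toAdd]⟩
      mul_mem' := fun {a b} ⟨ha, A, eA⟩ ⟨hb, C, eC⟩ => ⟨Subgroup.mul_mem _ ha hb, A * C, fun x hx => by
        rw [cj_mul, eA _ (cj_mem_of_mem_normalizer hb hx), eC x hx, toAdd_ofAdd, mul_smul]⟩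
      inv_mem' := fun {a} ⟨ha, A, eA⟩ => ⟨Subgroup.inv_mem _ ha, A⁻¹, fun x hx => by
        have := eA _ (cj_mem_of_mem_normalizer (Subgroup.inv_mem _ ha) hx)
        rw [cj_cj_inv] at this
        rw [this, toAdd_ofAdd, inv_smul_smul, ofAdd_toAdd]⟩ }
  have huniq : ∀ {g : G} {A C : Matrix.SpecialLinearGroup (Fin 2) (ZMod p)},
      (∀ x ∈ B, π (cj g x) = ofAdd (A • toAdd (π x))) →
      (∀ x ∈ B, π (cj g x) = ofAdd (C • toAdd (π x))) → A = C := fun hA hC =>
    sl2_eq_of_smul fun w => by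
      obtain ⟨x, hx, e⟩ := h2 (ofAdd w)
      have := (hA x hx).symm.trans (hC x hx)
      rwa [e, toAdd_ofAdd, ofAdd.apply_eq_iff_eq] at this
  let σ : N →* Matrix.SpecialLinearGroup (Fin 2) (ZMod p) :=
    MonoidHom.mk' (fun g => g.2.2.choose) fun a b =>
      huniq (a * b).2.2.choose_spec fun x hx => by
        rw [Subgroup.coe_mul, cj_mul, a.2.2.choose_spec _ (cj_mem_of_mem_normalizer b.2.1 hx),
          b.2.2.choose_spec x hx, toAdd_ofAdd, mul_smul]
  have hσ : ∀ g : N, ∀ x ∈ B, π (cj g x) = ofAdd (σ g • toAdd (π x)) := fun g => g.2.2.choose_spec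
  refine ⟨N, σ, fun g hg => hg.1, fun A => ?_, fun c hc => ?_⟩
  · obtain ⟨f, hf, hm, e⟩ := h A
    obtain ⟨-, -, g, eg⟩ := mor_group_iff.1 hf
    have hg : g ∈ N := ⟨mem_normalizer_of_cj_mem fun x hx => eg hx ▸ hm x hx, A,
      fun x hx => eg hx ▸ e x hx⟩
    exact ⟨⟨g, hg⟩, huniq (hσ ⟨g, hg⟩) fun x hx => eg hx ▸ e x hx⟩
  · have h3 : ∀ x ∈ B, π (cj c x) =
        ofAdd ((1 : Matrix.SpecialLinearGroup (Fin 2) (ZMod p)) • toAdd (π x)) := fun x hx => by
      rw [cj_eq_of_mem_centralizer hc hx, one_smul, ofAdd_toAdd]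
    have hN : c ∈ N := ⟨Subgroup.centralizer_le_normalizer _ hc, 1, h3⟩
    exact ⟨⟨c, hN⟩, huniq (hσ ⟨c, hN⟩) h3, rfl⟩

open CL.Fus

/-- Let p be an odd prime and P a Sylow p-subgroup of the finite group G, and suppose that for no p-subgroup Q of G does N_G(Q)/C_G(Q) have a section isomorphic to SL₂(p). Call a subgroup Q of P centric-radical when Z(Q) is a Sylow p-subgroup of C_G(Q) and the only normal subgroup X of N_G(Q) containing Q·C_G(Q) such that the index of Q·C_G(Q) in X is a power of p is Q·C_G(Q) itself (that is, N_G(Q)/Q·C_G(Q) has no nontrivial normal p-subgroup). Then there is a centric-radical subgroup Q of P contained in every centric-radical subgroup of P; it is normal in P, and N_G(Q) controls strong fusion in P: whenever a subgroup A of P has g A g⁻¹ ≤ P, the element g is a product h c with h in N_G(Q) and c centralizing A. -/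
theorem result {G : Type*} [Group G] [Finite G] {p : ℕ} [Fact p.Prime] (hp : p ≠ 2) (P : Sylow p G)
    (hfree : ∀ Q : Subgroup G, IsPGroup p ↥Q → ¬ ∃ (H K : Subgroup G) (_ : (K.subgroupOf H).Normal),
      Subgroup.centralizer (Q : Set G) ≤ K ∧ K ≤ H ∧ H ≤ Subgroup.normalizer (Q : Set G) ∧
      Nonempty ((↥H ⧸ K.subgroupOf H) ≃* Matrix.SpecialLinearGroup (Fin 2) (ZMod p)))
    (cr : Subgroup G → Prop)
    (hcr : ∀ Q : Subgroup G, cr Q ↔ (Q ≤ (P : Subgroup G) ∧
      (∃ R : Sylow p ↥(Subgroup.centralizer (Q : Set G)),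
        (R : Subgroup ↥(Subgroup.centralizer (Q : Set G))).map (Subgroup.centralizer (Q : Set G)).subtype = Q ⊓ Subgroup.centralizer (Q : Set G)) ∧
      ∀ X : Subgroup G, X ≤ Subgroup.normalizer (Q : Set G) →
        (∀ n ∈ Subgroup.normalizer (Q : Set G), X.map (MulAut.conj n).toMonoidHom = X) →
        Q ⊔ Subgroup.centralizer (Q : Set G) ≤ X → (∃ k : ℕ, (Q ⊔ Subgroup.centralizer (Q : Set G)).relIndex X = p ^ k) →
        X = Q ⊔ Subgroup.centralizer (Q : Set G))) :
    ∃ Q : Subgroup G, cr Q ∧ (∀ R : Subgroup G, cr R → Q ≤ R) ∧ (∀ x ∈ (P : Subgroup G), Q.map (MulAut.conj x).toMonoidHom = Q) ∧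
      ∀ A : Subgroup G, A ≤ (P : Subgroup G) → ∀ g : G, A.map (MulAut.conj g).toMonoidHom ≤ (P : Subgroup G) →
        ∃ h ∈ Subgroup.normalizer (Q : Set G), ∃ c ∈ Subgroup.centralizer (A : Set G), g = h * c := by
  have hF := Grp.isSaturated P
  have hq : ¬ QdSec p (groupFusionSystem (P : Subgroup G)) := fun ⟨B, hB⟩ => by
    obtain ⟨H, σ, h1, h2, h3⟩ := exists_hom_of_qdAt hB
    have e : (σ.ker.map H.subtype).subgroupOf H = σ.ker :=
      Subgroup.comap_map_eq_self_of_injective H.subtype_injective _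
    have hn : ((σ.ker.map H.subtype).subgroupOf H).Normal := by rw [e]; infer_instance
    exact hfree B (isPGroup_of_le P.isPGroup' hB.le) ⟨H, σ.ker.map H.subtype, hn, h3,
      Subgroup.map_subtype_le _, h1, ⟨(QuotientGroup.quotientMulEquivOfEq e).trans
        (QuotientGroup.quotientKerEquivOfSurjective σ h2)⟩⟩
  obtain ⟨hc, hr⟩ := cr_core_of_isConstrained P.isPGroup' (isConstrained_of_isSolvableSystem P.isPGroup' hF
    (isSolvableSystem_of_not_qdSec hp P.isPGroup' hF hq))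
  have hn := core_normal (groupFusionSystem (P : Subgroup G))
  generalize (groupFusionSystem (P : Subgroup G)).core = Q at hc hr hn
  have hk : ∀ R : Subgroup G, kNorm ⊤ R (Inn R) = R ⊔ Subgroup.centralizer (R : Set G) := fun R => by
    rw [kNorm_inn le_top]; exact congrArg _ (top_inf_eq _)
  refine ⟨Q, (hcr Q).2 ⟨hn.1, ?_, fun X h1 h2 h3 ⟨k, h4⟩ => le_antisymm ?_ h3⟩, fun R hR => ?_,
    fun x hx => ?_, fun A hA g hg => ?_⟩
  · obtain ⟨R, hR⟩ := (Grp.isFullyCentralized_iff P hn.1).1 (fullyCentralized_of_isCentric hc)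
    refine ⟨R, ?_⟩
    rw [hR, Subgroup.subgroupOf_map_subtype]
    exact le_antisymm (le_inf (centralizerIn_le_of_isCentric hc) inf_le_right)
      (inf_le_inf_right _ hn.1)
  · have hO : autInducedBy X Q ≤ Inn Q := by
      rw [← hr.2]
      refine le_map_pCore ?_ (fun α hα => ?_) fun ⟨α, hα⟩ => ?_
      · rw [Grp.autGroup_eq hn.1]; exact autInducedBy_mono le_top Q
      · rw [Grp.autGroup_eq hn.1] at hα
        obtain ⟨n, -, hn', rfl⟩ := mem_autInducedBy_iff_cjAut.1 hα
        refine mem_normalizer_of_cj_mem fun β hβ => ?_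
        obtain ⟨x, hx, hx', rfl⟩ := mem_autInducedBy_iff_cjAut.1 hβ
        rw [cj_apply, ← cjAut_inv, ← cjAut_mul, ← cjAut_mul]
        exact cjAut_mem_autInducedBy (h2 n hn' ▸ Subgroup.mem_map_of_mem _ hx) _
      · obtain ⟨x, hx, hx', rfl⟩ := mem_autInducedBy_iff_cjAut.1 hα
        have : ((Q ⊔ Subgroup.centralizer (Q : Set G)).subgroupOf X).Normal := by
          refine (Subgroup.normal_subgroupOf_iff_le_normalizer h3).2 fun y hy =>
            normalizer_sup_of_mem (h1 hy) (Grp.normalizer_le_normalizer_centralizer' Q (h1 hy))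
        have h5 := Subgroup.pow_index_mem ((Q ⊔ Subgroup.centralizer (Q : Set G)).subgroupOf X) ⟨x, hx⟩
        rw [show Subgroup.index _ = _ from h4, Subgroup.mem_subgroupOf, ← hk] at h5
        obtain ⟨-, κ, hκ, e⟩ := h5
        obtain ⟨m, hm⟩ := isPGroup_inn (isPGroup_of_le P.isPGroup' hn.1) ⟨κ, hκ⟩
        refine ⟨k + m, Subtype.ext ?_⟩
        have h6 : cjAut Q x hx' ^ p ^ k = κ := by
          rw [eq_cjAut_of_eqOn e]
          exact (map_pow Q.normalizerMonoidHom ⟨x, hx'⟩ _).symm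
        simp only [Subgroup.coe_pow, pow_add, pow_mul, h6]
        exact congrArg Subtype.val hm
    rw [← hk]
    exact fun x hx => ⟨trivial, _, hO (cjAut_mem_autInducedBy hx (h1 hx)), autFun_cjAut _⟩
  · obtain ⟨hRP, ⟨T, hT⟩, H⟩ := (hcr R).1 hR
    have hs := sylIn_map_subtype T
    rw [hT] at hs
    have hRp := isPGroup_of_le P.isPGroup' hRP
    refine le_of_normal_of_cr P.isPGroup' hn ((hs.le_of_le_normalizer' inf_le_right
      (isPGroup_of_le P.isPGroup' inf_le_left) (inf_le_right.trans ((Subgroup.centralizer_le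
        inf_le_left).trans (Subgroup.centralizer_le_normalizer _)))).trans inf_le_left)
      ⟨hRP, le_antisymm (fun α hα => ?_) (inn_le_map_pCore _ hRP hRp)⟩
    set O := (pCore p ((groupFusionSystem (P : Subgroup G)).autGroup R)).map
      ((groupFusionSystem (P : Subgroup G)).autGroup R).subtype with hO
    have hXN : kNorm ⊤ R O ≤ Subgroup.normalizer (R : Set G) :=
      (kNorm_le_normalizerIn _ _ _).trans inf_le_right
    have hCX : R ⊔ Subgroup.centralizer (R : Set G) ≤ kNorm ⊤ R O :=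
      hk R ▸ kNorm_mono _ _ (inn_le_map_pCore _ hRP hRp)
    have h1 := H (kNorm ⊤ R O) hXN (fun n hn' => ?_) hCX ?_
    · have h2 := map_pCore_le _ hα
      rw [Grp.autGroup_eq hRP] at h2
      obtain ⟨g, -, e⟩ := mem_autInducedBy_iff.1 h2
      have h3 : g ∈ kNorm ⊤ R (Inn R) := hk R ▸ h1 ▸ ⟨trivial, α, hα, e⟩
      obtain ⟨-, κ, hκ, e'⟩ := h3
      rwa [mulAut_ext_autFun (α := α) (β := κ) fun x hx => (e hx).trans (e' hx).symm]
    · rw [← img_cj, ← mem_normalizer_iff_img_cj]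
      refine mem_normalizer_of_cj_mem fun x hx => ?_
      have hx' := hXN hx
      obtain ⟨-, κ, hκ, e⟩ := hx
      have h2 : cjAut R n hn' ∈ (groupFusionSystem (P : Subgroup G)).autGroup R := by
        rw [Grp.autGroup_eq hRP]; exact cjAut_mem_autInducedBy (Subgroup.mem_top n) _
      refine ⟨trivial, _, (Subgroup.mem_normalizer_iff.1 (le_normalizer_map_pCore _ h2) κ).1 hκ, ?_⟩
      rw [eq_cjAut_of_eqOn e, ← cjAut_inv, ← cjAut_mul, ← cjAut_mul]
      exact autFun_cjAut _
    · have h2 := card_normalizerIn (kNorm ⊤ R O) R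
      rw [show FusionSystem.normalizerIn (kNorm ⊤ R O) R = kNorm ⊤ R O from inf_eq_left.2 hXN,
        show FusionSystem.centralizerIn (kNorm ⊤ R O) R = Subgroup.centralizer (R : Set G) from
          inf_eq_right.2 (le_sup_right.trans hCX), autInducedBy_kNorm] at h2
      obtain ⟨k, hk'⟩ := ((isPGroup_map_pCore _).to_le
        (inf_le_right : autInducedBy ⊤ R ⊓ O ≤ O)).exists_card_eq
      have h3 := Subgroup.card_mul_index ((Subgroup.centralizer (R : Set G)).subgroupOf (kNorm ⊤ R O))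
      rw [Nat.card_congr (Subgroup.subgroupOfEquivOfLe (le_sup_right.trans hCX)).toEquiv, h2, hk',
        Nat.mul_right_inj Nat.card_pos.ne'] at h3
      have h4 := Subgroup.relIndex_dvd_of_le_left (kNorm ⊤ R O)
        (le_sup_right : Subgroup.centralizer (R : Set G) ≤ R ⊔ _)
      rw [show Subgroup.relIndex _ _ = _ from h3] at h4
      obtain ⟨m, -, hm⟩ := (Nat.dvd_prime_pow Fact.out).1 h4
      exact ⟨m, hm⟩
  · rw [← img_cj, ← mem_normalizer_iff_img_cj]
    exact sc_le_normalizer (sc_of_normal hn) hx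
  · obtain ⟨k, hk, e, hkQ⟩ := normal_ext hn (mor_cj_group (g := g) hA fun x hx =>
      hg (Subgroup.mem_map_of_mem _ hx))
    obtain ⟨-, -, h, e'⟩ := mor_group_iff.1 hk
    refine ⟨h, mem_normalizer_iff_img_cj.2 ?_, h⁻¹ * g, mem_centralizer_iff_cj.2 fun x hx => ?_, by simp⟩
    · rw [← img_congr (e'.mono (SetLike.coe_subset_coe.2 le_sup_right)), hkQ]
    · rw [cj_mul, ← e hx, e' (Subgroup.mem_sup_left hx), cj_inv_cj]

end Cfsg.Agent.S1953
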