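import Cfsg.Statements.S1956
import Cfsg.Agent.TECH.MiscSyl

set_option autoImplicit false
set_option linter.unusedVariables false
open Cfsg

namespace Cfsg.Agent.S1956

open CL.Misc

/-- Let P be a Sylow p-subgroup of the finite group G such that every element of P of order dividing p (dividing 4 when p = 2) is central in P. Then the fusion of these elements is controlled by N_G(P): if such an element a of P has g a g⁻¹ in P, then g = n c with n normalizing P and c commuting with a. -/
theorem result {G : Type*} [Group G] [Finite G] {p : ℕ} [Fact p.Prime] (P : Sylow p G)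
    (hcen : ∀ a ∈ (P : Subgroup G), (a ^ p = 1 ∨ (p = 2 ∧ a ^ 4 = 1)) → ∀ y ∈ (P : Subgroup G), a * y = y * a) :
    ∀ a ∈ (P : Subgroup G), (a ^ p = 1 ∨ (p = 2 ∧ a ^ 4 = 1)) → ∀ g : G, g * a * g⁻¹ ∈ (P : Subgroup G) →
      ∃ n ∈ Subgroup.normalizer ((P : Subgroup G) : Set G), ∃ c : G, c * a = a * c ∧ g = n * c := by
  intro a ha hap g hg
  have h1 : (P : Subgroup G) ≤ Subgroup.centralizer ({a} : Set G) := fun y hy =>
    Subgroup.mem_centralizer_singleton_iff.2 (hcen a ha hap y hy).symm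
  have h2 : (P : Subgroup G).map (MulAut.conj g⁻¹).toMonoidHom ≤ Subgroup.centralizer ({a} : Set G) := by
    rintro _ ⟨y, hy, rfl⟩
    have := hcen _ hg (by
      rcases hap with h | ⟨h, h'⟩
      · left; rw [conj_pow, h]; group
      · right; refine ⟨h, ?_⟩; rw [conj_pow, h']; group) y hy
    rw [Subgroup.mem_centralizer_singleton_iff]
    simp only [MulEquiv.coe_toMonoidHom, MulAut.conj_apply]
    calc g⁻¹ * y * g⁻¹⁻¹ * a = g⁻¹ * (y * (g * a * g⁻¹)) * g := by group
      _ = g⁻¹ * ((g * a * g⁻¹) * y) * g := by rw [this]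
      _ = _ := by group
  obtain ⟨c, hc, hcc⟩ := (sylIn_of_sylow P h1).exists_conj_le (P.isPGroup'.map _) h2
  have h3 : c * g⁻¹ ∈ Subgroup.normalizer ((P : Subgroup G) : Set G) := by
    apply Subgroup.mem_normalizer_fintype
    intro y hy
    have := hcc _ (conj_mem_map_conj g⁻¹ hy)
    rwa [show c * (g⁻¹ * y * g⁻¹⁻¹) * c⁻¹ = c * g⁻¹ * y * (c * g⁻¹)⁻¹ by group] at this
  exact ⟨(c * g⁻¹)⁻¹, Subgroup.inv_mem _ h3, c, Subgroup.mem_centralizer_singleton_iff.1 hc, by group⟩

end Cfsg.Agent.S1956
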