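import Cfsg.Statements.S2133
import Cfsg.Agent.SPOR.A10.HeM24

set_option autoImplicit false
open Cfsg

namespace Cfsg.Agent.S2133

/-- The Mathieu group M₂₄ (the automorphism group of the length-24 binary code) has an involution whose centraliser is isomorphic to the centraliser of a transvection in SL(5, 2) (a group of shape 2^{1+6}:GL(3, 2)). -/
theorem result (s : Matrix.SpecialLinearGroup (Fin 5) (ZMod 2)) (hs : (s : Matrix (Fin 5) (Fin 5) (ZMod 2)) = Matrix.transvection 0 1 1) : ∃ z : ↥Cfsg.M24, orderOf z = 2 ∧ Nonempty (↥(Subgroup.centralizer ({z} : Set ↥Cfsg.M24)) ≃* ↥(Subgroup.centralizer ({s} : Set (Matrix.SpecialLinearGroup (Fin 5) (ZMod 2))))) := by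
  obtain ⟨S⟩ := CL.A10.Hd.exists_St_M24
  obtain ⟨e⟩ := CL.A10.Hd.exists_stdEquiv hs
  exact ⟨_, S.orderOf_z, ⟨S.equiv.trans e.symm⟩⟩


end Cfsg.Agent.S2133
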