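import Cfsg.Statements.S2162
import Cfsg.Agent.KSG.GLnJordan

set_option autoImplicit false
open Cfsg

namespace Cfsg.Agent.S2162

open CL.GLn

theorem result {F : Type*} [Field F] [Fintype F] [CharP F 2] {n : ℕ} (hn : 3 ≤ n) (a b : Matrix.SpecialLinearGroup (Fin n) F) (ha : orderOf a = 2) (hb : orderOf b = 2) :
    IsConj a b ↔ ((a : Matrix (Fin n) (Fin n) F) - 1).rank = ((b : Matrix (Fin n) (Fin n) F) - 1).rank := by
  have hsq : ∀ a : Matrix.SpecialLinearGroup (Fin n) F, orderOf a = 2 →
      ((a : Matrix (Fin n) (Fin n) F) - 1) ^ 2 = 0 := by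
    intro a ha
    have h1 := pow_char_pow_eq_one_iff F 2 (a : Matrix (Fin n) (Fin n) F) 1
    rw [pow_one] at h1
    rw [← h1, ← Matrix.SpecialLinearGroup.coe_pow, ← ha, pow_orderOf_eq_one,
      Matrix.SpecialLinearGroup.coe_one]
  constructor
  · intro h
    have := (isConj_iff_rank_aeval _ _).1 (isConj_coe_of_isConj_sl h) (Polynomial.X - 1)
    simpa using this
  · intro h
    refine isConj_sl_of_isConj (isConj_of_unipotent_of_rank ⟨_, hsq a ha⟩ ⟨_, hsq b hb⟩ ?_) ?_
    · intro k
      rcases k with _ | _ | k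
      · simp
      · simpa using h
      · rw [pow_eq_zero_of_le (by omega) (hsq a ha), pow_eq_zero_of_le (by omega) (hsq b hb)]
    · intro c hc
      obtain ⟨μ, hμ⟩ := exists_hasJT_one ⟨_, hsq a ha⟩
      have hne : μ ≠ 0 := by
        rintro rfl
        have := hμ.sum_eq_card
        simp at this
        omega
      obtain ⟨e, he⟩ := Multiset.exists_mem_of_ne_zero hne
      have h1 := hμ.pos e he
      have h2 := (hμ.sub_one_pow_eq_zero_iff 2).1 (hsq a ha) e he
      obtain ⟨d, hd⟩ : ∃ d : F, d ^ e = c := by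
        obtain rfl | rfl : e = 1 ∨ e = 2 := by omega
        · exact ⟨c, pow_one c⟩
        · exact (frobenius F 2).injective.surjective_of_finite (Equiv.refl F) c
      have hd0 : d ≠ 0 := by
        rintro rfl
        rw [zero_pow h1.ne'] at hd
        exact hc hd.symm
      rw [← hd]
      exact exists_gl_commute_det (hμ.exists_commute_det_pow he hd0)

end Cfsg.Agent.S2162
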