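import Cfsg.Statements.S2163
import Cfsg.Agent.KSG.GLnJordan

set_option autoImplicit false
open Cfsg

namespace Cfsg.Agent.S2163

open CL.GLn

theorem result {F : Type*} [Field F] [Fintype F] [CharP F 2] {n : ℕ} (hn : 3 ≤ n) (ℓ : ℕ) (h1 : 1 ≤ ℓ) (h2 : 2 * ℓ ≤ n) :
    ∃ a : Matrix.SpecialLinearGroup (Fin n) F, (a : Matrix (Fin n) (Fin n) F) = 1 + Matrix.of (fun i j : Fin n => if j.val < ℓ ∧ i.val = j.val + (n - ℓ) then (1 : F) else 0) ∧ orderOf a = 2 ∧ ((a : Matrix (Fin n) (Fin n) F) - 1).rank = ℓ := by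
  set N : Matrix (Fin n) (Fin n) F :=
    Matrix.of (fun i j : Fin n => if j.val < ℓ ∧ i.val = j.val + (n - ℓ) then (1 : F) else 0) with hN
  have hN2 : N * N = 0 := by
    ext i j
    rw [Matrix.mul_apply]
    refine Finset.sum_eq_zero fun x _ => ?_
    simp only [hN, Matrix.of_apply]
    split_ifs <;> first | omega | simp
  let P : Matrix (Fin n) (Fin ℓ) F := Matrix.of fun i k => if i.val = k.val + (n - ℓ) then 1 else 0
  let Q : Matrix (Fin ℓ) (Fin n) F := Matrix.of fun k j => if j.val = k.val then 1 else 0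
  have hPQ : N = P * Q := by
    ext i j
    rw [Matrix.mul_apply]
    simp only [hN, P, Q, Matrix.of_apply]
    by_cases hj : j.val < ℓ
    · rw [Finset.sum_eq_single ⟨j.val, hj⟩]
      · simp [hj]
      · intro x _ hx
        rw [if_neg (fun h : j.val = x.val => hx (Fin.ext h.symm)), mul_zero]
      · simp
    · rw [if_neg (by tauto)]
      symm
      refine Finset.sum_eq_zero fun x _ => ?_
      rw [if_neg (fun h : j.val = x.val => hj (h ▸ x.2)), mul_zero]
  have hP : P.transpose * P = 1 := by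
    ext i j
    rw [Matrix.mul_apply, Finset.sum_eq_single ⟨i.val + (n - ℓ), by omega⟩]
    · simp [P, Matrix.one_apply, Fin.ext_iff]
    · intro x _ hx
      simp only [P, Matrix.transpose_apply, Matrix.of_apply]
      rw [if_neg (fun h : x.val = i.val + (n - ℓ) => hx (Fin.ext h)), zero_mul]
    · simp
  have hQ : Q * Q.transpose = 1 := by
    ext i j
    rw [Matrix.mul_apply, Finset.sum_eq_single ⟨i.val, by omega⟩]
    · simp [Q, Matrix.one_apply, Fin.ext_iff]
    · intro x _ hx
      simp only [Q, Matrix.transpose_apply, Matrix.of_apply]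
      rw [if_neg (fun h : x.val = i.val => hx (Fin.ext h)), zero_mul]
    · simp
  have hrank : N.rank = ℓ := by
    apply le_antisymm
    · rw [hPQ]
      exact (Matrix.rank_mul_le_left _ _).trans (Matrix.rank_le_width _)
    · have h3 : P.transpose * N * Q.transpose = 1 := by
        rw [hPQ, ← Matrix.mul_assoc, hP, Matrix.one_mul, hQ]
      calc ℓ = (1 : Matrix (Fin ℓ) (Fin ℓ) F).rank := by simp
        _ ≤ (P.transpose * N).rank := by rw [← h3]; exact Matrix.rank_mul_le_left _ _
        _ ≤ N.rank := Matrix.rank_mul_le_right _ _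
  have hnil : (1 + N - 1) ^ 2 = 0 := by rw [add_sub_cancel_left, pow_two, hN2]
  let a : Matrix.SpecialLinearGroup (Fin n) F := ⟨1 + N, det_eq_one_of_isNilpotent_sub_one ⟨_, hnil⟩⟩
  have ha : (a : Matrix (Fin n) (Fin n) F) = 1 + N := rfl
  refine ⟨a, ha, ?_, by rw [ha, add_sub_cancel_left, hrank]⟩
  rw [orderOf_eq_prime_iff]
  constructor
  · have h1 := pow_char_pow_eq_one_iff F 2 (1 + N) 1
    rw [pow_one] at h1
    apply Subtype.ext
    rw [Matrix.SpecialLinearGroup.coe_pow]
    exact h1.2 hnil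
  · intro h
    have h3 : 1 + N = 1 := by rw [← ha, h]; rfl
    have h4 : N = 0 := by simpa using h3
    rw [h4, Matrix.rank_zero] at hrank
    omega

end Cfsg.Agent.S2163
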