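import Cfsg.Statements.S2164
import Cfsg.Agent.KSG.SpUClasses
import Cfsg.Agent.S2162

set_option autoImplicit false
open Cfsg

namespace Cfsg.Agent.S2164

open CL.GLn CL.SpU

/-- Conjugacy of involutions in the special unitary group SU_n(q), q even, n ≥ 3, realised over the field F with q² elements as the matrices of determinant 1 preserving the form Σ u_i v_i^q: for two elements of order 2 of SU_n(q) the following are equivalent — they are conjugate in SU_n(q); they are conjugate in SL_n(F); the matrices a − 1 and b − 1 have the same rank. -/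
theorem result {F : Type*} [Field F] [Fintype F] [CharP F 2] {n q : ℕ} (hF : Fintype.card F = q ^ 2) (hn : 3 ≤ n) (a b : ↥(Cfsg.SU n F q)) (ha : orderOf a = 2) (hb : orderOf b = 2) :
    (IsConj a b ↔ IsConj (a : Matrix.SpecialLinearGroup (Fin n) F) (b : Matrix.SpecialLinearGroup (Fin n) F)) ∧
    (IsConj a b ↔ (((a : Matrix.SpecialLinearGroup (Fin n) F) : Matrix (Fin n) (Fin n) F) - 1).rank = (((b : Matrix.SpecialLinearGroup (Fin n) F) : Matrix (Fin n) (Fin n) F) - 1).rank) := by
  have ha' : orderOf (a : Matrix.SpecialLinearGroup (Fin n) F) = 2 := by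
    rwa [Subgroup.orderOf_coe]
  have hb' : orderOf (b : Matrix.SpecialLinearGroup (Fin n) F) = 2 := by
    rwa [Subgroup.orderOf_coe]
  have key : IsConj a b ↔ IsConj (a : Matrix.SpecialLinearGroup (Fin n) F)
      (b : Matrix.SpecialLinearGroup (Fin n) F) := by
    refine ⟨fun h => (Cfsg.SU n F q).subtype.map_isConj h, fun h => ?_⟩
    refine isConj_SU_of_isConj hF a b (isConj_coe_of_isConj_sl h) ?_
    have hsq : (suToMat n F q a - 1) ^ 2 = 0 := by
      have h1 := pow_char_pow_eq_one_iff F 2 (suToMat n F q a) 1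
      rw [pow_one] at h1
      rw [← h1, ← map_pow, ← ha, pow_orderOf_eq_one, map_one]
    intro c hc
    obtain ⟨μ, hμ⟩ := exists_hasJT_one ⟨_, hsq⟩
    have hne : μ ≠ 0 := by
      rintro rfl
      have := hμ.sum_eq_card
      simp at this
      omega
    obtain ⟨e, he⟩ := Multiset.exists_mem_of_ne_zero hne
    have h1 := hμ.pos e he
    have h2 := (hμ.sub_one_pow_eq_zero_iff 2).1 hsq e he
    obtain ⟨d, hd⟩ : ∃ d : F, d ^ e = c := by
      obtain rfl | rfl : e = 1 ∨ e = 2 := by omega
      · exact ⟨c, pow_one c⟩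
      · exact (frobenius F 2).injective.surjective_of_finite (Equiv.refl F) c
    have hd0 : d ≠ 0 := by
      rintro rfl
      rw [zero_pow h1.ne'] at hd
      exact hc hd.symm
    rw [← hd]
    exact exists_gl_commute_det (hμ.exists_commute_det_pow he hd0)
  exact ⟨key, key.trans (Cfsg.Agent.S2162.result hn _ _ ha' hb')⟩

end Cfsg.Agent.S2164
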