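import Cfsg.Statements.S2165
import Cfsg.Agent.KSG.SpUClasses

set_option autoImplicit false
open Cfsg

namespace Cfsg.Agent.S2165

open CL.GLn CL.SpU Matrix

/-- In SU_n(q), q even, n ≥ 3 (matrices of determinant 1 over the field with q² elements preserving Σ u_i v_i^q): for every ℓ with 1 ≤ ℓ and 2ℓ ≤ n, the permutation matrix of the involution of {0, …, n−1} exchanging i and n − ℓ + i for each i < ℓ lies in SU_n(q), has order 2, and differs from the identity by a matrix of rank ℓ. So every rank between 1 and n/2 occurs for involutions of SU_n(q). -/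
theorem result {F : Type*} [Field F] [Fintype F] [CharP F 2] {n q : ℕ} (hF : Fintype.card F = q ^ 2) (hn : 3 ≤ n) (ℓ : ℕ) (h1 : 1 ≤ ℓ) (h2 : 2 * ℓ ≤ n) :
    ∃ a : ↥(Cfsg.SU n F q), (((a : Matrix.SpecialLinearGroup (Fin n) F) : Matrix (Fin n) (Fin n) F) = Matrix.of (fun i j : Fin n => if (j.val < ℓ ∧ i.val = j.val + (n - ℓ)) ∨ (i.val < ℓ ∧ j.val = i.val + (n - ℓ)) ∨ (i = j ∧ ℓ ≤ i.val ∧ i.val < n - ℓ) then (1 : F) else 0)) ∧ orderOf a = 2 ∧ ((((a : Matrix.SpecialLinearGroup (Fin n) F) : Matrix (Fin n) (Fin n) F)) - 1).rank = ℓ := by
  classical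
  let s : Fin n → Fin n := fun i =>
    if h : i.val < ℓ then ⟨i.val + (n - ℓ), by omega⟩
    else if n - ℓ ≤ i.val then ⟨i.val - (n - ℓ), by omega⟩ else i
  have hs : ∀ i : Fin n, (s i).val = if i.val < ℓ then i.val + (n - ℓ)
      else if n - ℓ ≤ i.val then i.val - (n - ℓ) else i.val := by
    intro i
    simp only [s]
    split_ifs <;> rfl
  have hss : ∀ i, s (s i) = i := by
    intro i
    have := i.2
    apply Fin.ext
    rw [hs, hs]
    split_ifs <;> omega
  set M : Matrix (Fin n) (Fin n) F := Matrix.of (fun i j : Fin n => if (j.val < ℓ ∧ i.val = j.val + (n - ℓ)) ∨ (i.val < ℓ ∧ j.val = i.val + (n - ℓ)) ∨ (i = j ∧ ℓ ≤ i.val ∧ i.val < n - ℓ) then (1 : F) else 0) with hM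
  have hM' : ∀ i j, M i j = if j = s i then 1 else 0 := by
    intro i j
    have := i.2
    have := j.2
    rw [hM, Matrix.of_apply]
    refine if_congr ?_ rfl rfl
    simp only [Fin.ext_iff, hs]
    split_ifs <;> omega
  have hMM : M * M = 1 := by
    ext i j
    simp only [Matrix.mul_apply, hM', ite_mul, one_mul, zero_mul, Finset.sum_ite_eq',
      Finset.mem_univ, if_true, hss, Matrix.one_apply, eq_comm]
  have hct : ct hF M = M := by
    ext i j
    rw [ct_apply, hM', hM']
    have : i = s j ↔ j = s i := ⟨fun h => by rw [h, hss], fun h => by rw [h, hss]⟩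
    by_cases h : j = s i
    · rw [if_pos h, if_pos (this.mpr h), one_pow]
    · rw [if_neg h, if_neg (mt this.mp h), CL.SqField.zero_pow_q hF]
  have hdet : M.det = 1 := by
    have h := congrArg Matrix.det hMM
    rw [Matrix.det_mul, Matrix.det_one] at h
    have h2 : (M.det - 1) ^ 2 = 0 := by
      have : (2 : F) = 0 := CharTwo.two_eq_zero
      linear_combination h + (1 - M.det) * this
    exact sub_eq_zero.mp (pow_eq_zero_iff two_ne_zero |>.mp h2)
  have hrank : (M - 1).rank = ℓ := by
    apply le_antisymm
    · obtain ⟨P, hP⟩ : ∃ P : Matrix (Fin n) (Fin ℓ) F, ∀ i k, P i k =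
        if i.val = k.val ∨ i.val = k.val + (n - ℓ) then 1 else 0 :=
        ⟨Matrix.of fun i k => if i.val = k.val ∨ i.val = k.val + (n - ℓ) then 1 else 0,
          fun _ _ => rfl⟩
      have hl : ℓ ≤ n := by omega
      have : M - 1 = P * ((M - 1).submatrix (Fin.castLE hl) id : Matrix (Fin ℓ) (Fin n) F) := by
        ext i j
        have hi := i.2
        rw [Matrix.mul_apply]
        simp only [hP, ite_mul, one_mul, zero_mul, Matrix.submatrix_apply, id]
        by_cases h : i.val < ℓ
        · rw [Finset.sum_eq_single ⟨i.val, h⟩]
          · simp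
          · intro k _ hk
            have := k.2
            rw [if_neg]
            simp only [Ne, Fin.ext_iff] at hk
            omega
          · simp
        · by_cases h' : n - ℓ ≤ i.val
          · rw [Finset.sum_eq_single ⟨i.val - (n - ℓ), by omega⟩]
            · rw [if_pos (Or.inr (by simp; omega))]
              have e : Fin.castLE hl ⟨i.val - (n - ℓ), by omega⟩ = s i := by
                apply Fin.ext
                rw [hs, if_neg h, if_pos h']; rfl
              rw [e, Matrix.sub_apply, Matrix.sub_apply, hM', hM', hss, Matrix.one_apply,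
                Matrix.one_apply, CharTwo.sub_eq_add, CharTwo.sub_eq_add, add_comm]
              simp only [eq_comm]
            · intro k _ hk
              have := k.2
              rw [if_neg]
              simp only [Ne, Fin.ext_iff] at hk
              omega
            · simp
          · rw [Finset.sum_eq_zero]
            · have e : s i = i := by
                apply Fin.ext
                rw [hs, if_neg h, if_neg h']
              rw [Matrix.sub_apply, hM', e, Matrix.one_apply]
              simp only [eq_comm, sub_self]
            · intro k _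
              have := k.2
              rw [if_neg]
              omega
      rw [this]
      exact (Matrix.rank_mul_le_left _ _).trans (Matrix.rank_le_width P)
    · have : ((M - 1).submatrix (Fin.castLE (by omega : ℓ ≤ n))
          (fun k : Fin ℓ => s (Fin.castLE (by omega) k))) = 1 := by
        ext i j
        have hi := i.2
        have hj := j.2
        rw [Matrix.submatrix_apply, Matrix.sub_apply, hM', Matrix.one_apply, Matrix.one_apply,
          if_neg (c := Fin.castLE _ i = _), sub_zero]
        · refine if_congr ?_ rfl rfl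
          simp only [Fin.ext_iff, hs, Fin.val_castLE, hi, hj, if_true]
          omega
        · simp only [Fin.ext_iff, hs, Fin.val_castLE, hj, if_true]
          omega
      have h3 := Matrix.rank_submatrix_le (M - 1) (Fin.castLE (by omega : ℓ ≤ n))
        (fun k : Fin ℓ => s (Fin.castLE (by omega) k))
      rwa [this, Matrix.rank_one, Fintype.card_fin] at h3
  refine ⟨mkSU hF M (by rw [hct, hMM]) hdet, rfl, ?_, hrank⟩
  refine orderOf_eq_prime ?_ ?_
  · apply suToMat_injective
    rw [map_pow, map_one, pow_two]
    exact hMM
  · intro h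
    have h3 : M = 1 := congrArg (suToMat n F q) h
    rw [h3, sub_self, Matrix.rank_zero] at hrank
    omega

end Cfsg.Agent.S2165
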