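import Mathlib
import Cfsg.Statements.S2173
import Cfsg.Agent.KSG.OrthInvol

set_option autoImplicit false
open Cfsg

namespace Cfsg.Agent.S2173

open CL.Orth Module


/-- For the quadratic form Σ x_i y_i + (z₁² + c z₁ z₂ + d z₂²) in dimension 2m with anisotropic binary part over a finite field F of characteristic two, m ≥ 4 (minus type): two involutions of the commutator subgroup Ω that are conjugate in the full isometry group O are conjugate by an element of Ω (no class of involutions of O inside Ω splits). -/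
theorem result {F : Type*} [Field F] [Fintype F] [CharP F 2] {m : ℕ} (hm : 4 ≤ m) (c d : F) (hcd : ∀ z₁ z₂ : F, z₁ ^ 2 + c * z₁ * z₂ + d * z₂ ^ 2 = 0 → z₁ = 0 ∧ z₂ = 0) (t s : ↥(Cfsg.isometryGroup F (Cfsg.quadFormMinus (m - 1) F c d))) (ht : orderOf t = 2) (hs : orderOf s = 2) (htO : t ∈ Cfsg.Omega F (Cfsg.quadFormMinus (m - 1) F c d)) (hsO : s ∈ Cfsg.Omega F (Cfsg.quadFormMinus (m - 1) F c d)) (hconj : IsConj t s) :
    ∃ g ∈ Cfsg.Omega F (Cfsg.quadFormMinus (m - 1) F c d), g * t * g⁻¹ = s := by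
  have hQ := QMinus_nondeg (m - 1) F hcd
  have h6 := finrank_minus (K := F) (m - 1)
  have ht2 := toO_mul_self (R := QMinus (m - 1) F c d) (t := t) (by have := pow_orderOf_eq_one t; rwa [ht] at this)
  exact (exists_Omega_conj_iff (R := QMinus (m - 1) F c d) t s).2 (exists_commutator_conj hQ
    (reflGroup_eq_top hQ (Or.inr (by omega))) ht2
    (fun h' => not_isPlus_QMinus hcd ⟨_, h'.2, h'.1⟩)
    ((toO (QMinus (m - 1) F c d)).toMonoidHom.map_isConj hconj))

end Cfsg.Agent.S2173
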