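import Cfsg.Statements.S2179
import Cfsg.Agent.CHEV.CentChk2

set_option autoImplicit false
open Cfsg

namespace Cfsg.Agent.S2179

open CL.Chev Cfsg.Lie

theorem prod_wt {F : Type*} [Field F] (s : Fin chevF4.rank → Fˣ) (r : ℕ) {a b c d : ℤ}
    (h : [certF4.wt 0 r, certF4.wt 1 r, certF4.wt 2 r, certF4.wt 3 r] = [a, b, c, d]) :
    (∏ i : Fin chevF4.rank, (s i : F) ^ (Good.C chevF4).wt i r) =
      (s (0 : Fin 4) : F) ^ a * (s (1 : Fin 4) : F) ^ b * (s (2 : Fin 4) : F) ^ c * (s (3 : Fin 4) : F) ^ d := by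
  simp only [List.cons.injEq, and_true] at h
  obtain ⟨rfl, rfl, rfl, rfl⟩ := h
  exact Fin.prod_univ_four fun i : Fin 4 => (s i : F) ^ certF4.wt i r

/-- Centralizers of the two remaining classes of involutions in the Chevalley group G of type F₄ over a finite field F of characteristic two (this problem's root numbering for type F₄, from the Chevalley data module: p₁, p₂ short, p₃, p₄ long with indices 33, 27, 25, 24 and negatives 14, 20, 22, 23; U generated by the positive root subgroups). For an element of G with matrix x_47(1)x_44(1) (highest root times highest short root): its centralizer in G is generated by U, X_{−p₂} and X_{−p₃}. For an element of G with matrix x_39(1)x_45(1) (roots (1,2,2,1) and (2,4,2,1), an orthogonal short/long pair): its centralizer in G is generated by X_{p₁}, X_{−p₁}, X_{p₄}, X_{−p₄} and the root subgroups of all positive roots other than p₂ (27), p₃ (25), p₁ + p₂ (34) and p₃ + p₄ (26). -/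
theorem result {F : Type*} [Field F] [Fintype F] [CharP F 2] (w v : GL Cfsg.Lie.chevF4.Idx F) (hw : (w : Matrix Cfsg.Lie.chevF4.Idx Cfsg.Lie.chevF4.Idx F) = Cfsg.Lie.chevF4.x F 47 1 * Cfsg.Lie.chevF4.x F 44 1) (hv : (v : Matrix Cfsg.Lie.chevF4.Idx Cfsg.Lie.chevF4.Idx F) = Cfsg.Lie.chevF4.x F 39 1 * Cfsg.Lie.chevF4.x F 45 1) :
    Cfsg.Lie.chevF4.group F ⊓ Subgroup.centralizer {w} = Cfsg.Lie.chevF4.posUnipotent F ⊔ Cfsg.Lie.chevF4.rootSubgroup F 20 ⊔ Cfsg.Lie.chevF4.rootSubgroup F 22 ∧
    Cfsg.Lie.chevF4.group F ⊓ Subgroup.centralizer {v} = Cfsg.Lie.chevF4.rootSubgroup F 33 ⊔ Cfsg.Lie.chevF4.rootSubgroup F 14 ⊔ Cfsg.Lie.chevF4.rootSubgroup F 24 ⊔ Cfsg.Lie.chevF4.rootSubgroup F 23 ⊔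
      Subgroup.closure {g : GL Cfsg.Lie.chevF4.Idx F | ∃ (r : ℕ) (c : F), Cfsg.Lie.chevF4.IsPosRoot r ∧ r ∉ [27, 25, 34, 26] ∧ (g : Matrix Cfsg.Lie.chevF4.Idx Cfsg.Lie.chevF4.Idx F) = Cfsg.Lie.chevF4.x F r c} := by
  have hp := CharP.cast_eq_zero F 2
  have hw' : w = xN (stData chevF4 F).x 47 1 * xN (stData chevF4 F).x 44 1 :=
    Units.ext (by rw [Units.val_mul, xN_stData_val, xN_stData_val, hw])
  have hv' : v = xN (stData chevF4 F).x 39 1 * xN (stData chevF4 F).x 45 1 :=
    Units.ext (by rw [Units.val_mul, xN_stData_val, xN_stData_val, hv])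
  constructor
  · have e1 := prod_eq_of_weqM (D := chevF4) hp [] (by simp) (w₁ := [(47, 1), (44, 1)]) (w₂ := [(44, 1), (47, 1)])
      (by decide +kernel)
    simp only [List.map_cons, List.map_nil, List.prod_cons, List.prod_nil, mul_one, PE.ev_one] at e1
    rw [← stData_grp, stData_exact.centralizer_of_chk stData_good stData_R3 hp (T := [44, 47]) (L₁ := [44])
      (L₂ := [47]) (r₁ := ⟨47, by decide⟩) (r₂ := ⟨44, by decide⟩) (a := 1) (b := 1) (J := [1, 2]) (by decide +kernel)
      one_ne_zero one_ne_zero (xN_mem_setL (by decide) 1) (xN_mem_setL (by decide) 1) hw' (hw'.trans e1)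
      (A := [44, 47]) (M := posL 48 ++ [20, 22]) (L := []) (L₀ := posL 48)
      (hw' ▸ mul_mem (xN_mem_setL (by decide) 1) (xN_mem_setL (by decide) 1)) (by decide +kernel)
      (by decide +kernel) (List.Perm.refl _) (fun _ h => List.mem_append_left _ h),
      show setL chevF4 (posL 48 ++ [20, 22]) = setL chevF4 (posL chevF4.nroots) ∪ setL chevF4 [20, 22] from
        Set.ext fun _ => List.mem_append, StData.XS_union, setL_posL, XS_setL_cons (by decide),
      XS_setL_singleton (by decide), sup_assoc, ← stData_U]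
    · rfl
    intro s c u hu h
    have e3 : w = ([(47, (1 : F)), (44, 1)].map fun a => xN (stData chevF4 F).x a.1 a.2).prod := by simp [hw']
    rw [hu, List.map_nil, List.prod_nil, one_mul, inv_one, mul_one, e3] at h
    have := tor_coords stData_R3 stData_good (L := [47, 44]) (by decide +kernel) (by decide +kernel) (by decide) _ _
      rfl rfl h
    simp only [List.map_cons, List.map_nil, List.cons.injEq, Prod.mk.injEq, true_and, and_true, mul_one,
      prod_wt s 47 (a := 0) (b := 0) (c := 0) (d := 1) (by decide +kernel),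
      prod_wt s 44 (a := 1) (b := 0) (c := 0) (d := 0) (by decide +kernel), zpow_zero, zpow_one, one_mul,
      Units.val_eq_one] at this
    refine ⟨fun i hi => ?_, by simp⟩
    rcases (by decide : ∀ i : Fin 4, i.val ∉ [1, 2] → i = 0 ∨ i = 3) i hi with rfl | rfl
    exacts [this.2, this.1]
  · have e1 := prod_eq_of_weqM (D := chevF4) hp [] (by simp) (w₁ := [(39, 1), (45, 1)]) (w₂ := [(45, 1), (39, 1)])
      (by decide +kernel)
    simp only [List.map_cons, List.map_nil, List.prod_cons, List.prod_nil, mul_one, PE.ev_one] at e1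
    rw [← stData_grp, stData_exact.centralizer_of_chk stData_good stData_R3 hp (T := [39, 40, 44, 45, 46, 47])
      (L₁ := [40, 44, 45, 46, 47]) (L₂ := [39, 40, 44, 46, 47]) (r₁ := ⟨39, by decide⟩) (r₂ := ⟨45, by decide⟩) (a := 3)
      (b := 2) (J := [0, 3]) (by decide +kernel)
      one_ne_zero one_ne_zero (xN_mem_setL (by decide) 1) (xN_mem_setL (by decide) 1) hv' (hv'.trans e1)
      (A := [39, 45]) (M := 33 :: 14 :: 24 :: 23 :: (posL 48).filter (· ∉ [27, 25, 34, 26])) (L := [27, 25, 34, 26])
      (L₀ := (posL 48).filter (· ∉ [27, 25, 34, 26]))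
      (hv' ▸ mul_mem (xN_mem_setL (by decide) 1) (xN_mem_setL (by decide) 1)) (by decide +kernel)
      (by decide +kernel) (by decide +kernel) (fun _ h => List.mem_append_right [33, 14, 24, 23] h),
      XS_setL_cons (by decide), XS_setL_cons (by decide), XS_setL_cons (by decide), XS_setL_cons (by decide)]
    · simp only [← sup_assoc]
      congr 1
      have := closure_x_eq (D := chevF4) (F := F) (fun r => chevF4.IsPosRoot r ∧ r ∉ [27, 25, 34, 26]) fun r h => h.1.1
      simp only [and_assoc] at this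
      rw [this]; congr 1; ext r
      rw [mem_setL, List.mem_filter, Set.mem_ofPred_eq, ← rootSys_isPos', isPos_iff_mem_posL, decide_eq_true_iff]; rfl
    intro s c u hu h
    have e2 := prod_eq_of_weqM (D := chevF4) hp [c 27, c 25, c 34, c 26] (by simp)
      (w₁ := [(27, .var 0), (25, .var 1), (34, .var 2), (26, .var 3), (39, 1), (45, 1)])
      (w₂ := [(39, 1), (40, .var 0), (44, .var 2), (45, 1), (46, .var 1), (47, .var 3), (27, .var 0), (25, .var 1),
        (34, .var 2), (26, .var 3)]) (by decide +kernel)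
    have e3 : u * v * u⁻¹ = ([(39, (1 : F)), (40, c 27), (44, c 34), (45, 1), (46, c 25), (47, c 26)].map
        fun a => xN (stData chevF4 F).x a.1 a.2).prod := by
      rw [mul_inv_eq_iff_eq_mul, hu, hv']
      simpa [mul_assoc] using e2
    have e4 : v = ([(39, (1 : F)), (40, 0), (44, 0), (45, 1), (46, 0), (47, 0)].map
        fun a => xN (stData chevF4 F).x a.1 a.2).prod := by simp [xN_zero, hv']
    rw [e3] at h
    have := tor_coords stData_R3 stData_good (L := [39, 40, 44, 45, 46, 47]) (by decide +kernel) (by decide +kernel)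
      (by decide) _ _ rfl rfl (h.trans e4)
    simp only [List.map_cons, List.map_nil, List.cons.injEq, Prod.mk.injEq, true_and, and_true, mul_one,
      prod_wt s 39 (a := 0) (b := -1) (c := 1) (d := 0) (by decide +kernel),
      prod_wt s 45 (a := 0) (b := 2) (c := -1) (d := 0) (by decide +kernel), zpow_zero, zpow_one, one_mul,
      mul_eq_zero, Finset.prod_eq_zero_iff, Finset.mem_univ, zpow_ne_zero _ (Units.ne_zero _), exists_false,
      false_or] at this
    obtain ⟨a1, a2, a3, a4, a5, a6⟩ := this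
    refine ⟨fun i hi => ?_, by simp [a2, a3, a5, a6]⟩
    rw [zpow_neg_one, inv_mul_eq_one₀ (Units.ne_zero _)] at a1
    rw [← a1, ← zpow_add₀ (Units.ne_zero _), show (2 : ℤ) + -1 = 1 from rfl, zpow_one] at a4
    rcases (by decide : ∀ i : Fin 4, i.val ∉ [0, 3] → i = 1 ∨ i = 2) i hi with rfl | rfl
    exacts [Units.val_eq_one.1 a4, Units.val_eq_one.1 (a1 ▸ a4)]

end Cfsg.Agent.S2179
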