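import Cfsg.Statements.S2181
import Cfsg.Agent.CHEV.Inv2E

set_option autoImplicit false
open Cfsg

namespace Cfsg.Agent.S2181

open CL.Chev Cfsg.Lie

theorem inv_ncard {D : ChevalleyDatum} [CL.Chev.Good D] {K : Type*} [Field K] [CharP K 2] {rk : List (List ℕ × ℕ)}
    (hk : (Good.C D).chkReps D.nroots D.rank rk = true)
    (h1 : ∀ t ∈ (stData D K).grp, orderOf t = 2 → ∃ T ∈ rk.map Prod.fst, ∃ g ∈ (stData D K).grp,
      g * t * g⁻¹ = (stData D K).tL T) (h2 : ∀ e ∈ rk, ∀ e' ∈ rk, e.2 = e'.2 → e = e') :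
    (ConjClasses.mk '' {g : ↥(D.group K) | orderOf g = 2}).ncard = rk.toFinset.card := by
  rw [stData_grp] at h1
  have hm : ∀ L, (stData D K).tL L ∈ D.group K := fun L =>
    stData_grp.le (StData.XS_le_grp _ _ (StData.tL_mem L))
  have e : ConjClasses.mk '' {g : ↥(D.group K) | orderOf g = 2} =
      (fun e : List ℕ × ℕ => ConjClasses.mk (⟨_, hm e.1⟩ : D.group K)) '' (rk.toFinset : Set _) := by
    ext c
    constructor
    · rintro ⟨g, hg, rfl⟩
      obtain ⟨T, hT, h, hh, e⟩ := h1 g.1 g.2 ((Subgroup.orderOf_coe g).trans hg)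
      obtain ⟨a, ha, rfl⟩ := List.mem_map.1 hT
      exact ⟨a, by simpa using ha, (ConjClasses.mk_eq_mk_iff_isConj.2 (isConj_iff.2 ⟨⟨h, hh⟩, Subtype.ext e⟩)).symm⟩
    · rintro ⟨a, ha, rfl⟩
      exact ⟨⟨_, hm a.1⟩, (Subgroup.orderOf_mk _ _).trans (orderOf_tL hk (by simpa using ha)), rfl⟩
  rw [e, Set.InjOn.ncard_image, Set.ncard_coe_finset]
  intro a ha b hb h
  obtain ⟨g, hg⟩ := isConj_iff.1 (ConjClasses.mk_eq_mk_iff_isConj.1 h)
  exact h2 a (by simpa using ha) b (by simpa using hb)
    (rank_eq_of_conj hk (by simpa using ha) (by simpa using hb) (congrArg Subtype.val hg))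

/-- The Chevalley group of type E₇ over a finite field of characteristic two (the matrix group generated by the root elements) has exactly five conjugacy classes of elements of order 2. -/
theorem result {F : Type*} [Field F] [Fintype F] [CharP F 2] :
    (ConjClasses.mk '' {g : ↥(Cfsg.Lie.chevE7.group F) | orderOf g = 2}).ncard = 5 := by
  exact (inv_ncard (rk := rkE7) (by decide +kernel) exists_rep_E7 rkE7_inj).trans (by decide)

end Cfsg.Agent.S2181
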