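import Cfsg.Statements.S2189
import Cfsg.Agent.CHEV.SubSpec
import Cfsg.Agent.CHEV.Core

set_option autoImplicit false
open Cfsg

namespace Cfsg.Agent.S2189

open CL.Chev Cfsg.Lie

/-- Finite subgroups of an adjoint Chevalley group over an algebraically closed field that contain the group over a finite subfield. Let k be an algebraically closed field of prime characteristic p, G the Chevalley group of type G₂, B₂, D₄, F₄, E₆, E₇ or E₈ over k (the matrix group generated by the root elements x_s(t), t ∈ k), and q = p^a with a ≥ 1. Let L be the subgroup generated by the root elements x_s(t) with t^q = t (the Chevalley group over the field of q elements inside G), and let M be a finite subgroup of G containing L. Then for some r ≥ 1, M contains every root element x_s(t) with t^(q^r) = t and every element of M is a matrix all of whose entries c satisfy c^(q^r) = c (so M lies between the Chevalley group over the field with q^r elements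 and the group of points of G fixed by the q^r-th power map). -/
theorem result {k : Type*} [Field k] [IsAlgClosed k] (p : ℕ) [Fact p.Prime] [CharP k p] (D : Cfsg.Lie.ChevalleyDatum) (hD : D ∈ [Cfsg.Lie.chevG2, Cfsg.Lie.chevB2, Cfsg.Lie.chevD4, Cfsg.Lie.chevF4, Cfsg.Lie.chevE6, Cfsg.Lie.chevE7, Cfsg.Lie.chevE8]) (a : ℕ) (ha : 1 ≤ a) (M : Subgroup (GL D.Idx k)) (hMfin : Finite ↥M) (hMG : M ≤ D.group k)
    (hLM : Subgroup.closure {g : GL D.Idx k | ∃ (s : ℕ) (t : k), t ^ (p ^ a) = t ∧ (g : Matrix D.Idx D.Idx k) = D.x k s t} ≤ M) :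
    ∃ r : ℕ, 1 ≤ r ∧ Subgroup.closure {g : GL D.Idx k | ∃ (s : ℕ) (t : k), t ^ ((p ^ a) ^ r) = t ∧ (g : Matrix D.Idx D.Idx k) = D.x k s t} ≤ M ∧
      ∀ g ∈ M, ∀ i j : D.Idx, ((g : Matrix D.Idx D.Idx k) i j) ^ ((p ^ a) ^ r) = (g : Matrix D.Idx D.Idx k) i j := by
  obtain ⟨inst⟩ := good_of_mem hD
  have hp := (Fact.out : p.Prime).one_lt
  obtain ⟨s, hs, h0⟩ := exists_finite_params hMG
  obtain ⟨N, hN⟩ : ∃ N, N = a * (Nat.card M).factorial := ⟨_, rfl⟩
  have hN0 : N ≠ 0 := hN ▸ mul_ne_zero (by omega) (Nat.factorial_ne_zero _)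
  have hfin : {t : k | t ^ p ^ N = t}.Finite :=
    (Polynomial.finite_setOfPred_isRoot (FiniteField.X_pow_card_pow_sub_X_ne_zero k hN0 hp)).subset fun t ht => by
      simpa [sub_eq_zero] using ht
  obtain ⟨R, hR, hφ⟩ := exists_spec p (hs.union hfin)
  have hι : Function.Injective (Matrix.GeneralLinearGroup.map (n := D.Idx) R.subtype) := fun _ _ e =>
    Units.ext (Matrix.map_injective Subtype.val_injective (congrArg Units.val e))
  obtain ⟨MR, hMR⟩ : ∃ MR, MR = grpR D R ⊓ M.comap (Matrix.GeneralLinearGroup.map R.subtype) := ⟨_, rfl⟩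
  have lift : ∀ g ∈ M, ∃ g' ∈ MR, Matrix.GeneralLinearGroup.map R.subtype g' = g := fun g hg =>
    let ⟨g', h, e⟩ := h0 R (Set.subset_union_left.trans hR) hg; ⟨g', hMR ▸ ⟨h, (e ▸ hg : _ ∈ M)⟩, e⟩
  have proj : ∀ g ∈ MR, Matrix.GeneralLinearGroup.map R.subtype g ∈ M := fun g hg => (hMR.le hg).2
  have hx : ∀ (r : Rt D) (t : R), (t : k) ^ p ^ a = t → (xg r t : GL D.Idx R) ∈ MR := fun r t ht =>
    hMR ▸ ⟨Subgroup.subset_closure ⟨r, t, rfl⟩, hLM (Subgroup.subset_closure ⟨r, t, ht,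
      (val_eq_x_iff_xg _ _ _).2 (map_xgR _ _ _)⟩)⟩
  have key : ∀ (K : Type _) (_ : Field K) (_ : Finite K) (_ : CharP K p) (φ : R →+* K), ∃ n, 0 < n ∧ n ∣ N ∧
      (∀ (r : Rt D) t, xg r t ∈ MR.map (Matrix.GeneralLinearGroup.map φ) ↔ t ^ p ^ n = t) ∧
      ∀ g ∈ MR, ∀ i j, φ ((g : Matrix D.Idx D.Idx R) i j) ^ p ^ n = φ ((g : Matrix D.Idx D.Idx R) i j) := by
    intro K _ _ _ φ
    obtain ⟨A, h1, h2⟩ := entries_mem p hD (M := MR.map (Matrix.GeneralLinearGroup.map φ))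
      ((Subgroup.map_mono (hMR ▸ inf_le_left)).trans (map_grpR_le φ)) fun r g e =>
        ⟨_, hx r 1 (one_pow _), by rw [map_xgR, map_one, (val_eq_x_iff_xg _ _ _).1 e]⟩
    obtain ⟨n, hn, h3, h4⟩ := exists_pow_iff p A
    refine ⟨n, hn, hN ▸ (Nat.dvd_factorial hn ((Nat.lt_pow_self hp).le.trans (h3 ▸ ?_))).mul_left _, fun r t =>
      (h1 r t _ ((val_eq_x_iff_xg _ _ _).2 rfl)).trans (h4 t), fun g hg i j => (h4 _).1 (h2 _ ⟨g, hg, rfl⟩ i j)⟩
    choose f hf e using fun t : A => (h1 (topR D) t _ ((val_eq_x_iff_xg _ _ _).2 rfl)).2 t.2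
    refine Nat.card_le_card_of_injective (fun t => ⟨_, proj _ (hf t)⟩) fun t u h => Subtype.ext ?_
    exact stData_good.x_injective (topR D) ((e t).symm.trans ((hι (congrArg Subtype.val h)) ▸ e u))
  have h1 : ∀ g ∈ MR, ∀ i j, (g : Matrix D.Idx D.Idx R) i j ^ p ^ N = (g : Matrix D.Idx D.Idx R) i j := by
    intro g hg i j
    by_contra e
    obtain ⟨K, _, _, _, φ, h⟩ := hφ _ (sub_ne_zero.2 e)
    obtain ⟨n, -, h2, -, h3⟩ := key K _ ‹_› ‹_› φ
    exact h (by rw [map_sub, map_pow, pow_pow_eq_of_dvd h2 (h3 g hg i j), sub_self])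
  obtain ⟨K, _, _, _, φ, -⟩ := hφ 1 one_ne_zero
  obtain ⟨n, hn, h2, h3, h4⟩ := key K _ ‹_› ‹_› φ
  have : CharP R p := CharP.subring k p R
  have inj : ∀ x y : R, x ^ p ^ N = x → y ^ p ^ N = y → φ x = φ y → x = y := fun x y hx hy e => by
    by_contra h
    have h5 : (x - y) ^ (p ^ N - 1) = 1 := mul_right_cancel₀ (sub_ne_zero.2 h) (by
      rw [← pow_succ, Nat.sub_add_cancel (Nat.one_le_pow _ _ (by omega)), sub_pow_char_pow, hx, hy, one_mul])
    have := congrArg φ h5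
    rw [map_pow, map_sub, e, sub_self, zero_pow (by have := Nat.one_lt_pow hN0 hp; omega), map_one] at this
    exact zero_ne_one this
  have inj' : ∀ x : R, x ^ p ^ N = x → φ x ^ p ^ n = φ x → x ^ p ^ n = x := fun x hx e =>
    inj _ _ (by rw [← pow_mul, mul_comm, pow_mul, hx]) hx (by rw [map_pow, e])
  obtain ⟨r, rfl⟩ : a ∣ n := by
    have h5 := Nat.one_lt_pow (show a ≠ 0 by omega) hp
    have : NeZero ((p ^ a - 1 : ℕ) : k) := ⟨by
      rw [Nat.cast_sub h5.le, Nat.cast_pow, CharP.cast_eq_zero, zero_pow (by omega)]; simp⟩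
    obtain ⟨z, hz⟩ := HasEnoughRootsOfUnity.exists_primitiveRoot k (p ^ a - 1)
    have h6 : z ^ p ^ a = z := by
      rw [← Nat.sub_add_cancel h5.le, pow_succ, hz.pow_eq_one, one_mul]
    have h7 := pow_pow_eq_of_dvd (hN ▸ dvd_mul_right a _ : a ∣ N) h6
    have h8 := inj' ⟨z, hR (Or.inr h7)⟩ (Subtype.ext h7) ((h3 (topR D) _).1 ⟨_, hx _ _ h6, map_xgR _ _ _⟩)
    refine dvd_of_pow_sub_one_dvd hp (hz.dvd_of_pow_eq_one _ (mul_right_cancel₀ (hz.ne_zero (by omega)) ?_))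
    rw [← pow_succ, Nat.sub_add_cancel (Nat.one_le_pow _ _ (by omega)), one_mul]
    exact congrArg Subtype.val h8
  refine ⟨r, Nat.pos_of_mul_pos_left hn, (Subgroup.closure_le _).2 ?_, fun g hg i j => ?_⟩
  · rintro g ⟨s, t, ht, e⟩
    rw [← pow_mul] at ht
    by_cases hs : s < D.nroots
    swap
    · rw [← xN_stData_val, xN, dif_neg hs, Units.val_inj] at e
      exact e ▸ M.one_mem
    have h5 := pow_pow_eq_of_dvd h2 ht
    obtain ⟨t, rfl⟩ : ∃ u : R, t = u := ⟨⟨t, hR (Or.inr h5)⟩, rfl⟩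
    obtain ⟨g', h6, h7⟩ := (h3 ⟨s, hs⟩ (φ t)).2 (by rw [← map_pow, show t ^ p ^ (a * r) = t from Subtype.ext ht])
    obtain rfl : g' = xg ⟨s, hs⟩ t := Units.ext (Matrix.ext fun i j => inj _ _ (h1 g' h6 i j) (by
      have := map_xgR (iterateFrobenius R p N) ⟨s, hs⟩ t
      rw [show iterateFrobenius R p N t = t from Subtype.ext h5] at this
      exact Matrix.ext_iff.2 (congrArg Units.val this) i j)
      (Matrix.ext_iff.2 (congrArg Units.val (h7.trans (map_xgR φ _ t).symm)) i j))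
    rw [(val_eq_x_iff_xg ⟨s, hs⟩ _ g).1 e, ← show _ = xg _ (t : k) from map_xgR R.subtype _ t]
    exact proj _ h6
  · obtain ⟨g', hg', rfl⟩ := lift g hg
    rw [← pow_mul]
    exact congrArg Subtype.val (inj' _ (h1 g' hg' i j) (h4 g' hg' i j))

end Cfsg.Agent.S2189
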