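import Cfsg.Statements.S2190
import Cfsg.Agent.CHEV.SubSpec
import Cfsg.Agent.CHEV.Core

set_option autoImplicit false
open Cfsg

namespace Cfsg.Agent.S2190

open CL.Chev Cfsg.Lie

/-- Subfield subgroups of prime degree are maximal. Let K be a finite field with q^r elements, r a prime, q a power of the characteristic, and G the Chevalley group of type G₂, B₂, D₄, F₄, E₆, E₇ or E₈ over K (the matrix group generated by the root elements). Let M be the subgroup of G consisting of the matrices all of whose entries lie in the subfield with q elements (entries c with c^q = c). Then M is a proper subgroup of G and is maximal: every subgroup of G containing M is M or G. -/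
theorem result {K : Type*} [Field K] [Fintype K] (p : ℕ) [Fact p.Prime] [CharP K p] (D : Cfsg.Lie.ChevalleyDatum) (hD : D ∈ [Cfsg.Lie.chevG2, Cfsg.Lie.chevB2, Cfsg.Lie.chevD4, Cfsg.Lie.chevF4, Cfsg.Lie.chevE6, Cfsg.Lie.chevE7, Cfsg.Lie.chevE8]) (a r : ℕ) (ha : 1 ≤ a) (hr : r.Prime) (hK : Fintype.card K = (p ^ a) ^ r) (M : Subgroup (GL D.Idx K))
    (hM : ∀ g : GL D.Idx K, g ∈ M ↔ g ∈ D.group K ∧ ∀ i j : D.Idx, ((g : Matrix D.Idx D.Idx K) i j) ^ (p ^ a) = (g : Matrix D.Idx D.Idx K) i j) :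
    M ≠ D.group K ∧ ∀ H : Subgroup (GL D.Idx K), M ≤ H → H ≤ D.group K → H = M ∨ H = D.group K := by
  obtain ⟨inst⟩ := good_of_mem hD
  have hK' : Nat.card K = (p ^ a) ^ r := by rw [Nat.card_eq_fintype_card, hK]
  have hx : ∀ (s : Rt D) (t : K), (xg s t : GL D.Idx K) ∈ M ↔ t ^ p ^ a = t := fun s t =>
    (hM _).trans ((and_iff_right ((stG D K).x s t).2).trans
      ((mem_frobTw (f := iterateFrobenius K p a) (g := (stG D K).x s t)).symm.trans x_mem_frobTw))
  constructor
  · rintro rfl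
    obtain ⟨t, ht⟩ := exists_pow_ne (Nat.one_lt_pow (by omega) (Fact.out : p.Prime).one_lt) hr.two_le hK'
    exact ht ((hx (topR D) t).1 ((stG D K).x _ t).2)
  intro H h1 h2
  obtain ⟨A, h3, h4⟩ := entries_mem p hD h2 fun s g e => (val_eq_x_iff_xg s 1 g).1 e ▸ h1 ((hx s 1).2 (one_pow _))
  rcases eq_or_top_of_prime p ha hr hK' A (fun t ht => (h3 (topR D) t _ ((val_eq_x_iff_xg _ _ _).2 rfl)).1
    (h1 ((hx _ t).2 ht))) with h | rfl
  · exact Or.inl (le_antisymm (fun g hg => (hM g).2 ⟨h2 hg, fun i j => h _ (h4 g hg i j)⟩) h1)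
  · refine Or.inr (le_antisymm h2 ?_)
    rw [group_eq, Subgroup.closure_le]
    rintro _ ⟨s, t, rfl⟩
    exact (h3 s t _ ((val_eq_x_iff_xg _ _ _).2 rfl)).2 trivial

end Cfsg.Agent.S2190
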