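import Cfsg.Statements.S2191
import Cfsg.Agent.CHEV.SubTw2

set_option autoImplicit false
open Cfsg

namespace Cfsg.Agent.S2191

open CL.Chev Cfsg.Lie

/-- In the twisted group ²E₆(q), realised inside the Chevalley group of type E₆ over the field K with q² elements (q a power of the characteristic) as the subgroup generated by the root elements, and products of root elements, that the twisting map fixes, the subgroup of matrices all of whose entries lie in the subfield with q elements (entries c with c^q = c; it contains the subgroup of type F₄ over that subfield) is a proper maximal subgroup. -/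
theorem result {K : Type*} [Field K] [Fintype K] (p : ℕ) [Fact p.Prime] [CharP K p] (q : ℕ) (hq : ∃ a : ℕ, 1 ≤ a ∧ q = p ^ a) (hK : Fintype.card K = q ^ 2) (M : Subgroup (GL Cfsg.Lie.chevE6.Idx K))
    (hM : ∀ g : GL Cfsg.Lie.chevE6.Idx K, g ∈ M ↔ g ∈ Cfsg.Lie.twistedE6 K q ∧ ∀ i j : Cfsg.Lie.chevE6.Idx, ((g : Matrix Cfsg.Lie.chevE6.Idx Cfsg.Lie.chevE6.Idx K) i j) ^ q = (g : Matrix Cfsg.Lie.chevE6.Idx Cfsg.Lie.chevE6.Idx K) i j) :
    M ≠ Cfsg.Lie.twistedE6 K q ∧ ∀ H : Subgroup (GL Cfsg.Lie.chevE6.Idx K), M ≤ H → H ≤ Cfsg.Lie.twistedE6 K q → H = M ∨ H = Cfsg.Lie.twistedE6 K q := by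
  obtain ⟨a, ha, rfl⟩ := hq
  have hK' : Nat.card K = (p ^ a) ^ 2 := by rw [Nat.card_eq_fintype_card, hK]
  obtain ⟨T, h, hT, -⟩ := exists_twist_E6 ((Fact.out : p.Prime).isPrimePow.pow (by omega)) hK'
  refine maximal_of_frob (φ := iterateFrobenius K p a) (iterateFrobenius_def p a) hM (fun e => ?_)
    (le_fix_or_E6 p (iterateFrobenius_def p a) h hT)
  obtain ⟨t, ht⟩ := exists_pow_ne h.two_le le_rfl hK'
  exact ht (eq_of_evG_mem_frobTw [56, 36] rfl (by decide +kernel) (by decide +kernel) (by decide)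
    (e (evG_mem_range (w := [(56, t), (36, t ^ p ^ a)]) (Or.inr ⟨t, (e6p1, e6p6), by simp, rfl⟩))))

end Cfsg.Agent.S2191
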