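import Cfsg.Statements.S2194
import Cfsg.Agent.CLAS.PL.Fin
import Cfsg.Agent.CLAS.RkG2
-- import your own Cfsg.Agent.* helpers here

set_option autoImplicit false
open Cfsg

namespace Cfsg.Agent.S2194

/-- Primitive rank 3 actions of the projective special linear groups in dimension at least 5. Let G ≅ PSL_n(F), n ≥ 5, F a finite field with q elements, act faithfully and primitively on a finite set X so that a point stabilizer has exactly three orbits on X. Then X has as many points as there are 2-dimensional subspaces of F^n: |X|·(q² − 1)(q − 1) = (q^n − 1)(q^(n−1) − 1). (The action is in fact the one on the lines of the projective space, or on its subspaces of dimension n − 2; only the number of points is asserted here.) -/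
theorem result {G X : Type*} [Group G] [Finite G] [MulAction G X] [FaithfulSMul G X] [Fintype X] {F : Type*} [Field F] [Fintype F] (n : ℕ) (hn : 5 ≤ n) (e : G ≃* Matrix.ProjectiveSpecialLinearGroup (Fin n) F) (hprim : MulAction.IsPreprimitive G X) (x : X) (h3 : Nat.card (MulAction.orbitRel.Quotient ↥(MulAction.stabilizer G x) X) = 3) :
    Fintype.card X * ((Fintype.card F ^ 2 - 1) * (Fintype.card F - 1)) = (Fintype.card F ^ n - 1) * (Fintype.card F ^ (n - 1) - 1) := by
  let S := Matrix.SpecialLinearGroup (Fin n) F
  let π : S × Fˣ →* G := e.symm.toMonoidHom.comp ((QuotientGroup.mk' _).comp (MonoidHom.fst _ _))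
  have hπ : Function.Surjective π := e.symm.surjective.comp
    ((QuotientGroup.mk'_surjective _).comp Prod.fst_surjective)
  let _ := MulAction.compHom X π
  obtain ⟨h1, h2⟩ := CL.Rk.comp_data π hπ hprim x
  let ρ : S × Fˣ →* (Fin n → F) ≃ₗ[F] (Fin n → F) := MonoidHom.mk'
    (fun p => p.2 • Matrix.SpecialLinearGroup.toLin' p.1) fun a b => by
      ext1 v
      simp [smul_smul, mul_comm]
  have hd : ∀ (c : Fˣ) (g : (Fin n → F) ≃ₗ[F] (Fin n → F)),
      LinearEquiv.det (c • g) = c ^ n * LinearEquiv.det g := fun c g => by
    ext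
    rw [LinearEquiv.coe_det, show (c • g).toLinearMap = (c : F) • g.toLinearMap from rfl]
    simp [LinearEquiv.coe_det]
  have h5 := CL.PL.card_eq (X := X) (by simpa using hn) ρ (by
    ext g
    refine ⟨?_, fun ⟨c, hc⟩ => ⟨(Matrix.SpecialLinearGroup.toLin'_equiv.symm ⟨c⁻¹ • g, by
      simpa [hd, inv_mul_eq_one] using hc.symm⟩, c), ?_⟩⟩
    · rintro ⟨⟨s, c⟩, rfl⟩
      exact ⟨c, (hd c _).trans (by
        rw [show LinearEquiv.det (Matrix.SpecialLinearGroup.toLin' s) = 1 from
          (Matrix.SpecialLinearGroup.toLin'_equiv s).2]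
        simp)⟩
    · have := congrArg Subtype.val (Matrix.SpecialLinearGroup.toLin'_equiv.apply_symm_apply
        (⟨c⁻¹ • g, by simpa [hd, inv_mul_eq_one] using hc.symm⟩ : SpecialLinearGroup F (Fin n → F)))
      exact (congrArg (c • ·) this).trans (by ext1 v; simp)) x (fun ⟨s, d⟩ c h => by
    have hs : s ∈ Subgroup.center S := Subgroup.mem_center_iff.2 fun t =>
      Matrix.SpecialLinearGroup.toLin'_injective (by
        have k : ∀ v, Matrix.SpecialLinearGroup.toLin' s v = ((d⁻¹ : Fˣ) : F) • c • v := fun v => by
          rw [← h v]; simp [ρ]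
        ext1 v
        simp only [map_mul, LinearEquiv.mul_apply, k, map_smul])
    change e.symm (QuotientGroup.mk s) • x = x
    rw [(QuotientGroup.eq_one_iff s).2 hs, map_one, one_smul]) (h2.trans h3)
  simpa using h5

end Cfsg.Agent.S2194
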