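import Cfsg.Statements.S2195
import Cfsg.Agent.CLAS.RkZ
import Cfsg.Agent.CLAS.RkG2
import Cfsg.Agent.CLAS.SpForm
-- import your own Cfsg.Agent.* helpers here

set_option autoImplicit false
open Cfsg

namespace Cfsg.Agent.S2195

/-- Primitive rank 3 actions of the projective symplectic groups in dimension at least 6 over fields of odd order. Let G ≅ PSp_{2k}(F), k ≥ 3, F a finite field with q elements, q odd, act faithfully and primitively on a finite set X so that a point stabilizer has exactly three orbits. Then X has as many points as the projective space of F^{2k}: |X|·(q − 1) = q^{2k} − 1. (The action is in fact the one on the points of the projective space, all of which are isotropic for the symplectic form; only the number of points is asserted here.) -/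
theorem result {G X : Type*} [Group G] [Finite G] [MulAction G X] [FaithfulSMul G X] [Fintype X] {F : Type*} [Field F] [Fintype F] (k : ℕ) (hk : 3 ≤ k) (hq : Odd (Fintype.card F)) (e : G ≃* Cfsg.PSp k F) (hprim : MulAction.IsPreprimitive G X) (x : X) (h3 : Nat.card (MulAction.orbitRel.Quotient ↥(MulAction.stabilizer G x) X) = 3) :
    Fintype.card X * (Fintype.card F - 1) = Fintype.card F ^ (2 * k) - 1 := by
  let π : (CL.Sp.spForm k F).O →* G := e.symm.toMonoidHom.comp
    ((QuotientGroup.mk' _).comp (CL.Sp.spEquiv k F).symm.toMonoidHom)
  have hπ : Function.Surjective π := e.symm.surjective.comp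
    ((QuotientGroup.mk'_surjective _).comp (CL.Sp.spEquiv k F).symm.surjective)
  letI := MulAction.compHom X π
  obtain ⟨h1, h2⟩ := CL.Rk.comp_data π hπ hprim x
  have h4 : (2 : F) ≠ 0 := Ring.two_ne_zero fun h =>
    (Nat.not_even_iff_odd.2 hq) (FiniteField.even_card_of_char_two h |> Nat.even_iff.2)
  have h5 := CL.Rk.card_eq (CL.Sp.spForm_nondeg k F) h4 (by rw [CL.Sp.finrank_sp]; omega) x
    (h2.trans h3)
  rwa [CL.Sp.finrank_sp, Nat.card_eq_fintype_card, Nat.card_eq_fintype_card] at h5

end Cfsg.Agent.S2195
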