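import Cfsg.Statements.S2197
import Cfsg.Agent.CHEV.Tits
import Cfsg.Agent.PERM.ElemFix
import Cfsg.Agent.PERM.PrimeDeg3
-- import your own Cfsg.Agent.* helpers here

set_option autoImplicit false
open Cfsg

namespace Cfsg.Agent.S2197

open CL.Chev CL.Chev.Tits CL.ElemFix Cfsg.Lie

def ev (w : List ℕ) : Bool := (w.filter fun i => i = 2 ∨ i = 3).length % 2 = 0

theorem P_mem {w : List ℕ} (h : ev w = true) : P w ∈ commutator G := by
  obtain ⟨h1, h2, h3, h4⟩ := quot_facts (QuotientGroup.mk' (commutator G))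
    (isPGroup_quotient _ commutator_ne_bot)
  have key : ∀ w : List ℕ, QuotientGroup.mk' (commutator G) (P w) =
      QuotientGroup.mk' (commutator G) s ^ (w.filter fun i => i = 2 ∨ i = 3).length := by
    intro w
    induction w with
    | nil => simp [P]
    | cons i w ih =>
      rw [show P (i :: w) = [y, Y, s, S].getD i 1 * P w from rfl, map_mul, ih]
      rcases i with _ | _ | _ | _ | i
      · simpa using h1
      · simpa using h2
      · simp [pow_succ']
      · simpa [pow_succ'] using h4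
      · simp
  rw [← QuotientGroup.eq_one_iff, ← QuotientGroup.mk'_apply, key]
  simp only [ev, decide_eq_true_eq] at h
  rw [← Nat.div_add_mod (List.length _) 2, h, add_zero, pow_mul, h3, one_pow]

def eqW (w w' : List ℕ) : Bool := allLt 52 fun c => Nat.beq (A w (2 ^ c)) (A w' (2 ^ c))

def neW (w w' : List ℕ) : Bool := (List.range 52).any fun c =>
  A w (2 ^ c) < 2 ^ 52 ∧ A w' (2 ^ c) < 2 ^ 52 ∧ A w (2 ^ c) ≠ A w' (2 ^ c)

theorem P_ne {w w' : List ℕ} (h : neW w w' = true) : P w ≠ P w' := by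
  simp only [neW, List.any_eq_true, decide_eq_true_eq] at h
  obtain ⟨c, -, h⟩ := h
  exact fun e => (rp_P w).ne (rp_P w') (2 ^ c) h (congrArg j e)

def wp (w : List ℕ) (n : ℕ) : List ℕ := (List.replicate n w).flatten

theorem P_wp (w : List ℕ) (n : ℕ) : P (wp w n) = P w ^ n := by
  induction n with
  | zero => rfl
  | succ k ih => rw [wp, List.replicate_succ, List.flatten_cons, P_append, ← wp, ih, pow_succ']

noncomputable def T (w : List ℕ) (h : ev w = true) : TitsGroup := ⟨P w, P_mem h⟩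

theorem pair {p : ℕ} (hp : p.Prime) {a b : List ℕ} (ha : ev a = true) (hb : ev b = true) (L : List (List ℕ))
    (h : (eqW (wp a p) [] && neW a [] && eqW (a ++ b) (b ++ a) && (List.range p).all fun i =>
      neW b (wp a i) && ev (L.getD i []) && eqW (L.getD i [] ++ a) (b ++ wp a i ++ L.getD i [])) = true) :
    Pair p (T a ha) (T b hb) := by
  simp only [Bool.and_eq_true, List.all_eq_true, List.mem_range] at h
  obtain ⟨⟨⟨h1, h2⟩, h3⟩, h4⟩ := h
  have := Fact.mk hp
  have ho : orderOf (T a ha) = p := orderOf_eq_prime (Subtype.ext ((P_wp a p).symm.trans (P_eq h1)))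
    fun e => P_ne h2 (congrArg Subtype.val e)
  refine ⟨hp, ho, Subtype.ext (by have := P_eq h3; simp only [P_append] at this; exact this), fun hm => ?_, fun i hi => ?_⟩
  · classical
    have := finite_G
    rw [mem_zpowers_iff_mem_range_orderOf, ho, Finset.mem_image] at hm
    obtain ⟨i, hi, e⟩ := hm
    exact P_ne (h4 i (Finset.mem_range.1 hi)).1.1 ((congrArg Subtype.val e).symm.trans (P_wp a i).symm)
  · refine isConj_iff.2 ⟨T _ (h4 i hi).1.2, ?_⟩
    rw [mul_inv_eq_iff_eq_mul]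
    have := P_eq (h4 i hi).2
    simp only [P_append, P_wp] at this
    exact Subtype.ext this

def wa : List ℕ := [2, 3, 3, 3]
def wb : List ℕ := [2, 0, 2, 3, 1, 3, 0, 2, 1, 3, 0, 2, 0, 2, 3, 1, 3, 2, 0, 2, 1, 0]
def wc : List ℕ := [1, 0, 2, 3, 0, 1, 3, 1, 3, 2, 0, 1, 3, 3, 1, 3, 1, 0]
def wd : List ℕ := [1, 3, 3, 1, 3, 3, 1, 3, 2, 0, 2, 1, 3, 0, 2, 2, 0]

noncomputable def a : TitsGroup := T wa (by decide)
noncomputable def b : TitsGroup := T wb (by decide)
noncomputable def c : TitsGroup := T wc (by decide)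
noncomputable def d : TitsGroup := T wd (by decide)

theorem pair5 : Pair 5 a b := pair (by norm_num) _ _
  [[1, 0, 2, 0, 2, 1, 3, 1, 3, 1, 3, 2, 0, 1, 3, 3, 0], [1, 3, 2, 2, 1, 0, 2, 3, 0, 2, 0, 1, 3, 1, 3, 1, 0],
   [0, 1, 3, 2, 0, 2, 1, 0, 2, 0, 2, 0, 2, 3, 0, 2, 1, 0], [0, 1, 3, 2, 1, 3, 1, 3, 0, 2, 0, 2, 0, 2, 2, 0],
   [1, 0, 2, 1, 3, 3, 2, 2, 2, 0, 1, 0]] (by decide +kernel)

theorem pair3 : Pair 3 c d := pair (by norm_num) _ _
  [[0, 2, 0, 2, 2, 0, 2, 2, 0, 2, 2, 0, 1, 3], [3, 2, 2, 0, 2, 2, 0, 2, 0, 2, 3, 3, 2],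
   [1, 3, 0, 2, 2, 0, 2, 1, 3, 0, 2]] (by decide +kernel)

theorem ca : c * a * c⁻¹ = b := by
  rw [mul_inv_eq_iff_eq_mul]
  have := P_eq (w := wc ++ wa) (w' := wb ++ wc) (by decide +kernel)
  simp only [P_append] at this
  exact Subtype.ext this

theorem cb : c * b * c⁻¹ = (a * b)⁻¹ := by
  rw [mul_inv_eq_iff_eq_mul, eq_inv_mul_iff_mul_eq]
  have := P_eq (w := wa ++ wb ++ (wc ++ wb)) (w' := wc) (by decide +kernel)
  simp only [P_append] at this
  exact Subtype.ext this

attribute [irreducible] a b c d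

theorem hc (x : TitsGroup) (hx : x ∈ Subgroup.zpowers a ⊔ Subgroup.zpowers b) :
    c * x * c⁻¹ ∈ Subgroup.zpowers a ⊔ Subgroup.zpowers b ∧ (c * x * c⁻¹ = x → x = 1) := by
  have := finite_G
  have hM : ∀ k l m n : ℤ, a ^ k * b ^ l * (a ^ m * b ^ n) = a ^ (k + m) * b ^ (l + n) := fun k l m n => by
    rw [zpow_add, zpow_add, (pair5.comm.zpow_zpow m l).symm.mul_mul_mul_comm]
  have hF : ∀ k l : ℤ, c * (a ^ k * b ^ l) * c⁻¹ = a ^ (-l) * b ^ (k - l) := fun k l => by
    rw [← MulAut.conj_apply, map_mul, map_zpow, map_zpow, MulAut.conj_apply, MulAut.conj_apply, ca, cb,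
      inv_zpow', pair5.comm.mul_zpow, ← one_mul (b ^ k), ← zpow_zero a, hM, zero_add, sub_eq_add_neg]
  have h25 : orderOf x ∣ 5 ^ 2 := pair5.card ▸ Subgroup.orderOf_dvd_natCard _ hx
  obtain ⟨i, j, e⟩ := pair5.exists_eq hx
  refine ⟨by rw [e, hF]; exact Subgroup.mul_mem_sup (Subgroup.zpow_mem_zpowers _ _) (Subgroup.zpow_mem_zpowers _ _),
    fun h => ?_⟩
  have h3 : x ^ 3 = 1 := by
    have : x ^ 3 = x * (c * x * c⁻¹) * (c * (c * x * c⁻¹) * c⁻¹) := by rw [h, h, pow_succ, pow_two]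
    rw [this, e, hF, hF, hM, hM]
    ring_nf
    simp
  exact orderOf_eq_one_iff.1 (Nat.eq_one_of_dvd_coprimes (by norm_num) h25 (orderOf_dvd_of_pow_eq_one h3))

theorem degs : allLt 4242 (fun n => !(Nat.beq (17971200 % (n * (n - 1))) 0) || Nat.ble n 16 ||
    [25, 26, 27, 40, 65].contains n) = true := by decide +kernel

/-- The Tits group (the commutator subgroup of ²F₄(2)) has no faithful 2-transitive action on a finite set with more than two points. -/
theorem result {Ω : Type*} [Fintype Ω] [MulAction Cfsg.Lie.TitsGroup Ω] [FaithfulSMul Cfsg.Lie.TitsGroup Ω] (hΩ : 3 ≤ Fintype.card Ω) :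
    ¬ MulAction.IsMultiplyPretransitive Cfsg.Lie.TitsGroup Ω 2 := by
  intro h2
  have := finite_G
  have ht : MulAction.IsPretransitive TitsGroup Ω := MulAction.isPretransitive_of_is_two_pretransitive
  have h1 := CL.PermMod.mul_dvd_card_of_two_transitive h2 (by omega)
  rw [card_tits, ← Nat.card_eq_fintype_card] at h1
  rw [← Nat.card_eq_fintype_card] at hΩ
  have hlt : fx Ω a < Nat.card Ω := by
    rw [fx, ← Set.ncard_univ]
    refine Set.ncard_lt_ncard (Set.ssubset_univ_iff.2 fun e => ?_)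
    have := pair5.ha
    rw [MulAction.fixedBy_eq_univ_iff_eq_one.1 e, orderOf_one] at this
    omega
  have h5 := pair5.modEq (Ω := Ω)
  have h3 := pair3.modEq (Ω := Ω)
  have hn : Nat.card Ω ≤ 16 ∨ Nat.card Ω = 25 ∨ Nat.card Ω = 26 ∨ Nat.card Ω = 27 ∨ Nat.card Ω = 40 ∨
      Nat.card Ω = 65 := by
    have key : ∀ n < 4242, n * (n - 1) ∣ 17971200 → n ≤ 16 ∨ n = 25 ∨ n = 26 ∨ n = 27 ∨ n = 40 ∨ n = 65 := by
      intro n hn h
      simpa [Nat.mod_eq_zero_of_dvd h, Nat.ble_eq, or_assoc] using (allLt_iff _ _).1 degs n hn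
    refine key _ (lt_of_not_ge fun h => ?_) h1
    have := (Nat.mul_le_mul h (show 4241 ≤ Nat.card Ω - 1 by omega)).trans (Nat.le_of_dvd (by norm_num) h1)
    omega
  rw [Nat.ModEq] at h5 h3
  by_cases h40 : Nat.card Ω = 40 ∨ Nat.card Ω = 65
  · have h6 := pair5.mul_fx_le (Ω := Ω) fun ω hω => by
      have h7 := Subgroup.card_dvd_of_le hω
      have h8 := (MulAction.stabilizer TitsGroup ω).card_mul_index
      rw [MulAction.index_stabilizer_of_transitive, card_tits] at h8
      rw [pair5.card] at h7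
      rcases h40 with e | e <;> rw [e] at h8 <;> omega
    omega
  have hf : fx Ω a < 3 ∧ Nat.card Ω = 5 ^ 2 + fx Ω a := by omega
  have h6 := pair5.subsingleton (by omega) hf.2 hc
  have h7 : MulAction.fixedBy Ω a ⊆ MulAction.fixedBy Ω c := by
    have inv : ∀ ω ∈ MulAction.fixedBy Ω a, c • ω ∈ MulAction.fixedBy Ω a := by
      intro ω hω
      rw [← pair5.fixedBy_eq (by omega) (Subgroup.mem_sup_right (Subgroup.mem_zpowers b))
        (fun e => pair5.nmem (e ▸ one_mem _)), ← ca, ← MulAction.smul_fixedBy]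
      exact Set.smul_mem_smul_set hω
    intro ω hω
    by_contra hne
    have h8 : c • c • c • ω = ω := by
      rw [smul_smul, smul_smul, ← pow_two, ← pow_succ, show 2 + 1 = orderOf c from pair3.ha.symm,
        pow_orderOf_eq_one, one_smul]
    have h9 : c • ω ≠ ω := hne
    have : 2 < fx Ω a := (Set.two_lt_ncard_iff (Set.toFinite _)).2 ⟨ω, c • ω, c • c • ω, hω, inv _ hω,
      inv _ (inv _ hω), h9.symm, fun e => h9 ((congrArg (c • ·) e).trans h8),
      fun e => h9 ((smul_left_cancel_iff c).1 e).symm⟩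
    omega
  have h8 := Set.ncard_sdiff_add_ncard_of_subset h7
  have h9 := (Set.ncard_le_one_iff_subsingleton).2 h6
  simp only [fx] at hf h3
  omega

end Cfsg.Agent.S2197
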