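import Cfsg.Statements.S2205
import Mathlib
import Cfsg.Agent.PERM.Atk4

set_option autoImplicit false
open Cfsg

namespace Cfsg.Agent.S2205

/-- A finite group acting faithfully and 2-transitively on a set with p² + 1 points, p a prime, is doubly primitive — a point stabilizer acts primitively on the remaining p² points — unless p = 2 and the group is the Frobenius group of order 20. -/
theorem result {G Ω : Type*} [Group G] [Finite G] [Fintype Ω] [MulAction G Ω] [FaithfulSMul G Ω] (p : ℕ) (hp : p.Prime) (hΩ : Fintype.card Ω = p ^ 2 + 1) (h2 : MulAction.IsMultiplyPretransitive G Ω 2) (a : Ω) :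
    MulAction.IsPreprimitive ↥(MulAction.stabilizer G a) ↥(SubMulAction.ofStabilizer G a) ∨ (p = 2 ∧ Nat.card G = 20) := by
  have h : CL.Atk.Two G Ω p := ⟨hp, fun g hg => eq_of_smul_eq_smul (α := Ω) (by simpa using hg),
    MulAction.is_two_pretransitive_iff.1 h2, by rw [Nat.card_eq_fintype_card, hΩ]⟩
  have htr : MulAction.IsPretransitive (MulAction.stabilizer G a)
      (SubMulAction.ofStabilizer G a) := ⟨fun x y => by
    obtain ⟨g, g1, g2⟩ := h.two (Ne.symm x.2) (Ne.symm y.2)
    exact ⟨⟨g, g1⟩, Subtype.ext g2⟩⟩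
  by_cases hB : ∀ B : Set (SubMulAction.ofStabilizer G a),
    MulAction.IsBlock (MulAction.stabilizer G a) B → MulAction.IsTrivialBlock B
  · exact Or.inl { isTrivialBlock_of_isBlock := fun {B} => hB B }
  right
  push Not at hB
  obtain ⟨B, hB, hT⟩ := hB
  rw [MulAction.IsTrivialBlock, not_or, Set.not_subsingleton_iff] at hT
  have hc : Nat.card (SubMulAction.ofStabilizer G a) = p ^ 2 :=
    (Nat.card_coe_set_eq {c | c ≠ a}).trans (h.ncard_ne a)
  have hd := hB.ncard_dvd_card hT.1.nonempty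
  rw [hc] at hd
  obtain ⟨i, hi, e⟩ := (Nat.dvd_prime_pow hp).1 hd
  have hi1 : i = 1 := by
    have h1 := (Set.one_lt_ncard_iff_nontrivial (s := B)).2 hT.1
    have h2 : i ≠ 2 := fun h' => hT.2 (Set.eq_of_subset_of_ncard_le (Set.subset_univ _)
      (by rw [e, h', Set.ncard_univ, hc]))
    have h3 : i ≠ 0 := fun h' => by rw [e, h'] at h1; simp at h1
    omega
  obtain ⟨Q⟩ := h.sys (a := a) (B := Subtype.val '' B) (fun ⟨x, _, e⟩ => x.2 e)
    (by rw [Set.ncard_image_of_injective _ Subtype.val_injective, e, hi1, pow_one]) (by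
      rintro g hg _ ⟨x, hx, rfl⟩ ⟨x', hx', e⟩ _ ⟨y, hy, rfl⟩
      have := hB.smul_eq_of_mem (g := ⟨g, hg⟩) hx (by rwa [show (⟨g, hg⟩ : MulAction.stabilizer G a) • x = x' from Subtype.ext e.symm])
      exact ⟨(⟨g, hg⟩ : MulAction.stabilizer G a) • y, this ▸ Set.smul_mem_smul_set hy, rfl⟩)
  exact h.main Q

end Cfsg.Agent.S2205
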