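import Cfsg.Statements.S2212
import Cfsg.Agent.PERM.PGU3b

set_option autoImplicit false
open Cfsg

namespace Cfsg.Agent.S2212


/-- Characterization of the three-dimensional projective unitary groups over finite fields of characteristic two by the centralizer of an involution. Let q = 2^n > 2 and let PGU₃(q) be the quotient of the full unitary group of a non-degenerate Hermitian form in three variables over the field with q² elements by its centre. Let G be a finite group of even order in which all involutions are conjugate, the centralizer of an involution is isomorphic to the centralizer of an involution in PGU₃(q), and a Sylow 2-subgroup is not normal. Then G ≅ PGU₃(q). -/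
theorem result {G : Type*} [Group G] [Finite G] {F : Type*} [Field F] [Fintype F] [CharP F 2] (q : ℕ) (hq : 2 < q) (hF : Fintype.card F = q ^ 2)
    (heven : Even (Nat.card G)) (hconj : ∀ s t : G, orderOf s = 2 → orderOf t = 2 → IsConj s t)
    (hC : ∀ (x : G) (y : (↥(Cfsg.GU 3 F q) ⧸ Subgroup.center ↥(Cfsg.GU 3 F q))), orderOf x = 2 → orderOf y = 2 →
      Nonempty (↥(Subgroup.centralizer ({x} : Set G)) ≃* ↥(Subgroup.centralizer ({y} : Set (↥(Cfsg.GU 3 F q) ⧸ Subgroup.center ↥(Cfsg.GU 3 F q))))))
    (hS : ∀ P : Sylow 2 G, ¬ (P : Subgroup G).Normal) :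
    Nonempty (G ≃* (↥(Cfsg.GU 3 F q) ⧸ Subgroup.center ↥(Cfsg.GU 3 F q))) := by
  obtain ⟨y, hy, h⟩ := CL.PGU3.exists_cu hF
  exact CL.PGU3.recog hq heven (fun s hs => let ⟨e⟩ := hC s y hs hy; h.congr e.symm) hS

end Cfsg.Agent.S2212
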