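import Cfsg.Statements.S2214
import Cfsg.Agent.CHEV.Base2

set_option autoImplicit false
open Cfsg

namespace Cfsg.Agent.S2214

/-- Let k be an algebraically closed field of prime characteristic p, G the adjoint Chevalley group of type G₂, B₂, D₄, F₄, E₆, E₇ or E₈ over k (the matrix group generated by the root elements x_s(t), t ∈ k, acting on the Lie algebra), q = p^a with a ≥ 1, and K a subgroup of G containing every root element x_s(t) with t^q = t and consisting of matrices all of whose entries c satisfy c^q = c. Then the centralizer of K in G is trivial, and the normalizer of K in G is exactly the set of elements of G all of whose entries c satisfy c^q = c. -/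
theorem result {k : Type*} [Field k] [IsAlgClosed k] (p : ℕ) [Fact p.Prime] [CharP k p] (D : Cfsg.Lie.ChevalleyDatum) (hD : D ∈ [Cfsg.Lie.chevG2, Cfsg.Lie.chevB2, Cfsg.Lie.chevD4, Cfsg.Lie.chevF4, Cfsg.Lie.chevE6, Cfsg.Lie.chevE7, Cfsg.Lie.chevE8]) (a : ℕ) (ha : 1 ≤ a) (K : Subgroup (GL D.Idx k)) (hKG : K ≤ D.group k)
    (hLK : Subgroup.closure {g : GL D.Idx k | ∃ (s : ℕ) (t : k), t ^ (p ^ a) = t ∧ (g : Matrix D.Idx D.Idx k) = D.x k s t} ≤ K)
    (hKfix : ∀ g ∈ K, ∀ i j : D.Idx, ((g : Matrix D.Idx D.Idx k) i j) ^ (p ^ a) = (g : Matrix D.Idx D.Idx k) i j) :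
    D.group k ⊓ Subgroup.centralizer (K : Set (GL D.Idx k)) = ⊥ ∧
    ∀ g : GL D.Idx k, g ∈ D.group k → (g ∈ Subgroup.normalizer (K : Set (GL D.Idx k)) ↔ ∀ i j : D.Idx, ((g : Matrix D.Idx D.Idx k) i j) ^ (p ^ a) = (g : Matrix D.Idx D.Idx k) i j) := by
  obtain ⟨_⟩ := CL.Chev.good_of_mem hD
  have h1 : ∀ g : GL D.Idx k, (∀ i j : D.Idx, ((g : Matrix D.Idx D.Idx k) i j) ^ (p ^ a) = (g : Matrix D.Idx D.Idx k) i j) ↔
      Matrix.GeneralLinearGroup.map (iterateFrobenius k p a) g = g :=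
    fun g => ⟨fun h => Units.ext (Matrix.ext h), fun h i j =>
      congrArg (fun x : GL D.Idx k => (x : Matrix D.Idx D.Idx k) i j) h⟩
  have h2 : ∀ g ∈ D.group k, (∀ y ∈ K, y * g = g * y) → g = 1 := fun g hg h => CL.Chev.eq_one_of_comm_one hg fun r =>
    (h _ (hLK (Subgroup.subset_closure ⟨r, 1, one_pow _, CL.Chev.xg_val' r 1⟩))).symm
  simp only [h1] at hKfix ⊢
  refine ⟨eq_bot_iff.2 fun g hg => h2 g hg.1 hg.2, fun g hg => ⟨fun h => ?_, fun h => ?_⟩⟩
  · refine (inv_mul_eq_one.1 (h2 _ (mul_mem (inv_mem hg) (CL.Chev.map_mem_group _ hg)) fun y hy => ?_)).symm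
    have := hKfix _ ((h y).1 hy)
    rw [map_mul, map_mul, map_inv, hKfix y hy, mul_inv_eq_iff_eq_mul] at this
    rw [mul_assoc g⁻¹, this]; group
  · let f := ((iterateFrobenius k p a).eqLocusField (RingHom.id k)).subtype
    have h3 : ∀ g ∈ D.group k, Matrix.GeneralLinearGroup.map (iterateFrobenius k p a) g = g → ∀ y ∈ K,
        g * y * g⁻¹ ∈ K := fun g hg h y hy => by
      obtain ⟨g, hg0, rfl⟩ := CL.Chev.mem_map_hat_of_fixed f (fun t ht => ⟨⟨t, ht⟩, rfl⟩) hg h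
      obtain ⟨y, hy0, rfl⟩ := CL.Chev.mem_map_hat_of_fixed f (fun t ht => ⟨⟨t, ht⟩, rfl⟩) (hKG hy) (hKfix y hy)
      have h4 : (D.group _).map (Matrix.GeneralLinearGroup.map f) ≤ K := by
        rw [CL.Chev.group_eq, MonoidHom.map_closure, Subgroup.closure_le]
        rintro _ ⟨_, ⟨r, t, rfl⟩, rfl⟩
        exact hLK (Subgroup.subset_closure ⟨r, t, t.2, by rw [CL.Chev.map_xg]; exact CL.Chev.xg_val' r _⟩)
      simpa using mul_mem (h4 ⟨_, CL.Chev.comm_mem_group hg0 hy0, rfl⟩) hy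
    refine fun y => ⟨h3 g hg h y, fun hy => ?_⟩
    simpa [mul_assoc] using h3 g⁻¹ (inv_mem hg) (by rw [map_inv, h]) _ hy

end Cfsg.Agent.S2214
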