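import Cfsg.Statements.S2227
import Cfsg.Agent.CHEV.E62Loc
import Cfsg.Agent.KSG.AltPres

set_option autoImplicit false
open Cfsg

namespace Cfsg.Agent.S2227

open CL.E62 CL.Chev CL.M4 Cfsg.Lie Subgroup Matrix

theorem centralizer_equiv {G H : Type*} [Group G] [Group H] {x : G} (hx : orderOf x = 5) (α : H →* G)
    (hα : Function.Injective α) (hZ : center H = ⊥) (hc : α.range ≤ centralizer {x})
    (h : centralizer {x} ≤ zpowers x ⊔ α.range) : Nonempty (centralizer {x} ≃* Multiplicative (ZMod 5) × H) := by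
  have := Fact.mk Nat.prime_five
  let e : Multiplicative (ZMod 5) ≃* zpowers x := mulEquivOfPrimeCardEq (p := 5) (by simp) (by rw [Nat.card_zpowers, hx])
  have a1 : ((zpowers x).subtype.comp e.toMonoidHom).range = zpowers x := by
    rw [MonoidHom.range_comp, MonoidHom.range_eq_top.2 e.surjective, ← MonoidHom.range_eq_map, range_subtype]
  have a2 : ∀ a, Commute x (α a) := fun a => (mem_centralizer_singleton_iff.1 (hc ⟨a, rfl⟩)).symm
  have a3 : ∀ m a, Commute (((zpowers x).subtype.comp e.toMonoidHom) m) (α a) := fun m a => by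
    obtain ⟨k, hk⟩ := (e m).2
    exact (show _ = ((zpowers x).subtype.comp e.toMonoidHom) m from hk) ▸ (a2 a).zpow_left k
  refine ⟨(MulEquiv.subgroupCongr ?_).trans (MonoidHom.ofInjective ((MonoidHom.noncommCoprod_injective _ _ a3).2
    ⟨(subtype_injective _).comp e.injective, hα, ?_⟩)).symm⟩
  · rw [MonoidHom.noncommCoprod_range, a1]
    exact h.antisymm (sup_le (zpowers_le.2 (mem_centralizer_singleton_iff.2 rfl)) hc)
  · rw [a1, disjoint_def]
    refine fun h1 h2 => by_contra fun h3 => ?_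
    obtain ⟨a, rfl⟩ := zpowers_le.2 h2 ((zpowers_eq Nat.prime_five hx h1 h3).ge (mem_zpowers x))
    rw [mem_bot.1 (hZ.le (mem_center_iff.2 fun b => hα (by simpa using (a2 b).symm.eq)) : a ∈ ⊥), map_one, orderOf_one] at hx
    omega

/-- Weyl group elements permuting the elements of order five of a torus -/
def w5 : List (List ℕ) := [[], [0, 2, 3, 4, 5, 1, 3, 4, 2, 3, 0, 2, 1, 3, 4, 5, 3, 4, 1],
  [0, 2, 3, 4, 5, 1, 3, 4, 2, 3, 0, 2, 1, 3, 4, 5, 1, 3, 4, 3], [0, 2, 3, 4, 5, 1, 3, 4, 2, 3, 0, 2, 1, 3, 4, 5, 4, 1, 3, 1],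
  [0, 2, 3, 4, 5, 1, 3, 4, 2, 3, 0, 2, 1, 3, 4, 5, 3], [], [0, 2, 3, 4, 5, 1, 3, 4, 2, 3, 0, 2, 1, 3, 4, 5, 2, 3, 4, 3, 1],
  [3, 2, 1, 3], [5, 4, 3, 2, 1, 3, 4, 5, 1, 3, 1], [5, 4, 3, 2, 1, 3, 4, 5, 2, 3], [3, 4, 1, 3, 1],
  [5, 4, 3, 2, 1, 3, 4, 5, 3, 4, 3, 1], [0, 2, 3, 4, 5, 1, 3, 4, 2, 3, 0, 2, 1, 3, 4, 5, 2, 1, 3, 4],
  [5, 4, 3, 2, 1, 3, 4, 5, 4, 2, 1, 3, 1], [3, 4, 2, 3, 1], [1, 3, 4, 1, 3], [2, 3, 4, 2, 3],
  [5, 4, 3, 2, 1, 3, 4, 5, 2, 1, 3, 4, 3], [0, 2, 3, 4, 5, 1, 3, 4, 2, 3, 0, 2, 1, 3, 4, 5, 2, 1, 3, 1],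
  [5, 4, 3, 2, 1, 3, 4, 5, 4, 3], [4, 1], [5, 4, 3, 2, 1, 3, 4, 5, 2, 3, 4, 1], [5, 4, 3, 2, 1, 3, 4, 5, 1, 3, 4],
  [3, 2, 1, 3, 4, 1], [0, 2, 3, 4, 5, 1, 3, 4, 2, 3, 0, 2, 1, 3, 4, 5, 4, 2, 3]]

theorem c5 : ∀ i < 5, ∀ j < 5, (i = 0 ∧ j = 0) ∨ ∀ x, ((5 : ℕ) : ℤ) ∣
    (vv [0, 3, 0, 0, 1, 0] ᵥ* corM (piL (ll (w5.getD (5 * i + j) [])))) x -
      (((i : ℕ) : ℤ) • vv [0, 3, 0, 0, 1, 0] + ((j : ℕ) : ℤ) • vv [0, 4, 2, 1, 0, 0]) x := by decide +kernel

theorem exists_conj {K : Type*} [Field K] [Fintype K] (hK : Fintype.card K = 4) :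
    ∃ x0 : twistedE6 K 2, ∀ x, orderOf x = 5 → IsConj x0 x := by
  have hc := card_eq hK
  have : Finite (twistedE6 K 2) := Nat.finite_of_card_ne_zero (by rw [hc]; norm_num)
  have := Fact.mk Nat.prime_five
  obtain ⟨φ, A, τ, G1, ψ, pr, h, hC⟩ := exists_model hK (ll [3, 4, 1, 3, 2, 1])
  obtain ⟨z, hz⟩ := exists_z A.frob.cast_eq_zero (n := 5) (by decide)
  obtain ⟨T, a1, a2, a3, -, a5⟩ := two A h hz Nat.prime_five (a := vv [0, 3, 0, 0, 1, 0]) (b := vv [0, 4, 2, 1, 0, 0])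
    (by decide +kernel) (by decide +kernel) (r := rr 16) (by decide +kernel) (by decide +kernel)
  obtain ⟨g0, h0⟩ := (hC.fix _).2 (a1 a3).2
  refine ⟨pr g0, fun x hx => ?_⟩
  obtain ⟨y, T', b1, b2⟩ := hC.exists_conj_le (a1.trans inf_le_right) Nat.prime_five (by decide) a2
    (by rw [hc]; decide +kernel) (IsPGroup.of_card (n := 1) (by rw [Nat.card_zpowers, hx]; rfl) : IsPGroup 5 (zpowers x))
  obtain ⟨g, hg, e⟩ := b2.le (mem_map_of_mem _ (mem_zpowers x))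
  obtain ⟨i, hi, j, hj, b3⟩ := a5 _ (b1 hg)
  refine IsConj.trans ?_ (isConj_iff.2 ⟨y, e.symm⟩).symm
  rcases c5 i hi j hj with ⟨rfl, rfl⟩ | b4
  · rw [(tz_eq_one_iff hz).2 (by simp), map_one, map_eq_one_iff _ hC.inj] at b3
    rw [b3, map_one, eq_comm] at e
    simp [(map_eq_one_iff _ (MulAut.conj y).injective).1 e] at hx
  obtain ⟨m, -, hm⟩ := (stS chevE6 (AlgebraicClosure K)).exists_acts (ww_mem (ll (w5.getD (5 * i + j) [])))
  obtain ⟨u, hu, b5⟩ := A.exists_conj_fixed h.gf (a1 a3).2 (a1 (b1 hg)).2 (A.cast_orderOf_ne_zero (a1 a3).1)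
    (isConj_iff.2 ⟨m, by rw [A.r3.conj_torHom hm, act_tz, b3, (tz_eq_iff hz).2 b4]⟩)
  obtain ⟨u, rfl⟩ := (hC.fix _).2 hu
  exact pr.map_isConj (isConj_iff.2 ⟨u, hC.inj (by simpa [h0] using b5)⟩)

/-- the Weyl group element for which the centraliser is split -/
def l2 : List I6 := ll [4, 3, 2, 1, 3, 4, 3, 2, 1, 3, 2, 1, 0]

/-- a generator of the fixed torus -/
def a2 : I6 → ℤ := vv [2, 3, 1, 6, 8, 10]

/-- generators of the alternating group -/
def wA (i : Fin 6) : List (ℕ × ℕ) := (![[23, 32, 39, 48], [40, 31, 47, 24], [23, 24, 31, 39, 40, 47], [24, 31, 32, 40, 47, 48],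
  [25, 39, 32, 48, 23, 25], [34, 39, 32, 48, 23, 34]] i).map fun r => (r, 0)

/-- the code of a word -/
noncomputable def cd (w : List (ℕ × ℕ)) : ℕ := wc (Good.C chevE6) 72 6 78 CM RM w

theorem cA : (∀ i, ∀ a ∈ wA i, a.1 < 72 ∧ a.2 = 0 ∧ ((15 : ℕ) : ℤ) ∣ evI ((3 : ℤ) • a2) (rr a.1)) ∧
    (∀ i, pw 78 CM RM (cd (wA i)) 3 = CL.F2M.oneC 78) ∧
    (∀ i j, i ≠ j → pw 78 CM RM (cd (wA i ++ wA j)) 2 = CL.F2M.oneC 78) ∧
    ∃ i j : Fin 78, i ≠ j ∧ (cd (wA 0)).testBit (78 * j + i) = true ∧ (cd (wA 0)).testBit (78 * 78 + (78 * j + i)) = false := by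
  refine ⟨by decide +kernel, by decide +kernel, by decide +kernel, 3, 0, by decide +kernel⟩

theorem c2 : FixChk l2 15 a2 ∧ (∀ r, ((15 : ℕ) : ℤ) ∣ evI ((3 : ℤ) • a2) r → ng (piL l2 r) = r) ∧
    (∀ i, Pi.single i 1 = a2 i • vv [0, 0, 1] + (1 + (corM (piL l2) + corM (piL l2))) *ᵥ vv ([[-1], [-2, -1, 1], [], [-4, 0, 2, -1],
      [-6, 0, 2, 0, -1], [-8, 0, 2, 0, 0, -1]].getD i [])) ∧
    (15 : ℤ) • vv [0, 0, 1] = (1 + (corM (piL l2) + corM (piL l2))) *ᵥ vv [12, 0, -3, 0, 0, 2] ∧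
    ((3 : ℤ) • a2) ᵥ* of (rootSys chevE6).A = vv [9, 0, -18, 0, 0, 36] ∧
    ∀ i, ((15 : ℕ) : ℤ) ∣ (((5 : ℤ) • a2) ᵥ* of (rootSys chevE6).A) i := by
  rw [rootSys_A_E6]; decide +kernel

set_option backward.isDefEq.respectTransparency false in
theorem exists_cent {K : Type*} [Field K] [Fintype K] (hK : Fintype.card K = 4) : ∃ x : twistedE6 K 2, orderOf x = 5 ∧
    Nonempty (centralizer {x} ≃* Multiplicative (ZMod 5) × alternatingGroup (Fin 8)) := by
  have := charP_of_natCard Nat.prime_two (F := K) (n := 2) (by rw [Nat.card_eq_fintype_card, hK]; rfl)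
  have := Fact.mk Nat.prime_five
  obtain ⟨ω, hω⟩ := CL.F4.exists_root hK
  replace hω : algebraMap K (AlgebraicClosure K) ω ^ 2 + algebraMap K _ ω + 1 = 0 := by
    simpa using congrArg (algebraMap K (AlgebraicClosure K)) hω
  set ω := algebraMap K (AlgebraicClosure K) ω
  obtain ⟨φ, A, τ, G1, ψ, pr, h, hC⟩ := exists_model hK l2
  obtain ⟨z, hz⟩ := exists_z A.frob.cast_eq_zero (n := 15) (by decide)
  obtain ⟨g, hg⟩ := (hC.fix _).2 ((fix_iff A h hz).2 c2.1)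
  have a1 : ∀ k : ℤ, ψ (g ^ k) = A.r3.torHom (tz z (k • a2)) := fun k => by rw [map_zpow, hg, tz_smul, map_zpow]
  have a3 : pr (g ^ (5 : ℤ)) = 1 := (hC.ker _).2 (a1 5 ▸ (A.r3.center_eq A.good A.top).ge
    ⟨_, (matHom_zpow_const ..).trans ((tz_eq_one_iff hz).2 c2.2.2.2.2.2), rfl⟩)
  have a4 : orderOf (g ^ (3 : ℤ)) = 5 := by
    rw [← orderOf_injective ψ hC.inj, a1, orderOf_injective _ A.sc]
    exact orderOf_tz hz Nat.prime_five (by decide +kernel) (by decide +kernel)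
  have a4' : (g ^ (3 : ℤ)) ^ 5 = 1 := a4 ▸ pow_orderOf_eq_one _
  have a5 : orderOf (pr (g ^ (3 : ℤ))) = 5 := orderOf_eq_prime (by rw [← map_pow, a4', map_one]) fun e => by
    rw [hC.eq_of_pr' (e.trans (map_one pr).symm) (n := 5) (by decide) a4' (one_pow _), orderOf_one] at a4
    omega
  set t := tz z ((3 : ℤ) • a2)
  set M := centralizer {A.r3.torHom t} ⊓ fixS (stField chevE6 φ) ⊓ fixS τ
  have b0 : ∀ r ∈ (rootSys chevE6).Phi t, (rootSys chevE6).neg (ww l2 r) = r := fun r hr => by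
    rw [ww_apply]; exact c2.2.1 r ((mem_Phi hz).1 hr)
  let xs : List (ℕ × ℕ) → chevE6.SteinbergGroup (AlgebraicClosure K) := fun w =>
    (w.map fun a => xN (stS chevE6 _).x a.1 (ω ^ a.2)).prod
  have b1 : ∀ i, xs (wA i) ∈ M := fun i => list_prod_mem fun x hx => by
    obtain ⟨⟨r, j⟩, ha, rfl⟩ := List.mem_map.1 hx
    obtain ⟨h1, rfl, h3⟩ := cA.1 i _ ha
    have h4 : r = (rr r).1 := (Nat.mod_eq_of_lt h1).symm
    rw [← mem_Phi hz] at h3
    rw [h4, xN_val, pow_zero]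
    exact ⟨⟨(A.centralizer_torHom t).ge (mem_sup_left ((stS chevE6 _).x_mem_XS h3 _)), (A.fe ..).trans (by rw [map_one]; rfl)⟩,
      (h.x ..).trans (by rw [b0 _ h3, one_pow]; rfl)⟩
  choose y hy using fun i => (hC.fix _).2 (b1 i).2
  have b2 : ∀ w, (∀ a ∈ w, a.1 < 72) → rho _ hn (thetaS chevE6 _ (xs w)).1 = dec ω 78 (cd w) := fun w hw => by
    refine Eq.trans (congrArg _ (congrArg _ ?_)) (dec_wc hn ok hω hw).symm
    simp only [xs, evG, map_list_prod, List.map_map]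
    refine congrArg _ (List.map_congr_left fun a ha => ?_)
    exact (congrArg _ (xN_val _ ⟨a.1, hw a ha⟩ _)).trans ((thetaS_x ..).trans (xN_val _ ⟨a.1, hw a ha⟩ _).symm)
  have b3 : ∀ u w k, ψ u = xs w → (∀ a ∈ w, a.1 < 72) → pw 78 CM RM (cd w) k = CL.F2M.oneC 78 → pr u ^ k = 1 :=
    fun u w k e hw hk => by
      rw [← map_pow, hC.ker, ← ker_thetaS, map_pow, e]
      exact Subtype.ext (rho_injective hn (by rw [map_pow, coe_pow, map_pow, b2 w hw, ← dec_pw ok hω, hk, dec_one]; simp))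
  obtain ⟨α, hα⟩ := CL.AltPres.exists_alt_hom 6 (fun i => pr (y i))
    (fun i => b3 _ _ _ (hy i) (fun a ha => (cA.1 i a ha).1) (cA.2.1 i)) fun i j hij => by
      rw [← map_mul]
      exact b3 _ (wA i ++ wA j) _ (by simp only [map_mul, hy, xs, List.map_append, List.prod_append])
        (fun a ha => (List.mem_append.1 ha).elim (fun h => (cA.1 i a h).1) fun h => (cA.1 j a h).1) (cA.2.2.1 i j hij)
  have := alternatingGroup.isSimpleGroup (α := Fin 8) (by simp)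
  have b4 : Function.Injective α := (MonoidHom.ker_eq_bot_iff _).1 (α.normal_ker.eq_bot_or_eq_top.resolve_right fun e => by
    obtain ⟨i, j, h1, h2, h3⟩ := cA.2.2.2
    have h4 := b2 _ fun a ha => (cA.1 0 a ha).1
    rw [← hy, ker_thetaS.ge ((hC.ker _).1 ((hα 0).symm.trans (e.ge (mem_top _))))] at h4
    have := congrFun₂ h4 i j
    simp [dec_apply, h1, h2, h3] at this)
  have b5 : α.range = (M.comap ψ).map pr := by
    obtain ⟨-, h2⟩ := SubChk.card_centralizer A (n := 15) (c := vv [9, 0, -18, 0, 0, 36])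
      (β := ![rr 46, rr 39, rr 37]) (N := 6) (M := ⟨!![1, 3, 2; 3, 1, 3; 2, 3, 1], by decide, by decide, by decide⟩)
      (by decide +kernel) (B := [[2, -1, 0], [-1, 2, -1], [0, -1, 2]]) (d := [1, 1, 1])
      (Φ := [[1, 0, 0], [0, 1, 0], [0, 0, 1], [1, 1, 0], [0, 1, 1], [1, 1, 1]]) (by decide +kernel) (by decide +kernel)
      (N' := 60) (ks := [2, 1, 0]) (Es := [[(0, 0), (1, 0), (2, 0), (3, 0)], [(0, 0), (1, 0), (2, 0)], [(0, 0), (1, 0)]])
      (by decide +kernel) (by decide) (t := t) (z := z) (by rw [hz]; rfl) (c2.2.2.2.2.1 ▸ matHom_zpow_const ..)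
    replace h2 := h2.trans (show _ = 20160 by decide +kernel)
    have := Nat.finite_of_card_ne_zero (h2.trans_ne (by decide))
    have : Finite M := Finite.of_injective _ (inclusion_injective inf_le_left)
    have h3 := hC.card_comap (T := M) inf_le_right
    have : Finite (M.comap ψ) := Nat.finite_of_card_ne_zero (h3 ▸ Nat.card_pos.ne')
    have := Finite.of_surjective _ (pr.subgroupMap_surjective (M.comap ψ))
    refine eq_of_le_of_card_ge ?_ ?_
    · rw [MonoidHom.range_eq_map, ← CL.AltPres.closure_gen 6, MonoidHom.map_closure, closure_le]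
      rintro _ ⟨_, ⟨i, rfl⟩, rfl⟩
      exact hα i ▸ mem_map_of_mem pr (show ψ (y i) ∈ M from hy i ▸ b1 i)
    · refine (Nat.le_of_dvd Nat.card_pos (card_map_dvd _ _)).trans (h3.trans_le ((card_le_of_le inf_le_left).trans_eq ?_))
      rw [h2, ← Nat.card_congr (MonoidHom.ofInjective b4).toEquiv, nat_card_alternatingGroup]
      simp [Nat.factorial]
  have b6 : pr g ∈ zpowers (pr (g ^ (3 : ℤ))) := ⟨2, by
    beta_reduce; rw [← map_zpow, ← _root_.zpow_mul, show (3 * 2 : ℤ) = 5 + 1 from rfl, _root_.zpow_add_one, map_mul, a3, one_mul]⟩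
  refine ⟨_, a5, centralizer_equiv a5 α b4 (alternatingGroup.center_eq_bot (by simp)) ?_ fun u hu => ?_⟩
  · rw [b5]
    rintro _ ⟨u, hu, rfl⟩
    rw [mem_centralizer_singleton_iff, ← map_mul, ← map_mul]
    exact congrArg pr (hC.inj (by rw [map_mul, map_mul, a1]; exact mem_centralizer_singleton_iff.1 hu.1.1))
  obtain ⟨u, rfl⟩ := hC.surj u
  have b7 : u * g ^ (3 : ℤ) * u⁻¹ = g ^ (3 : ℤ) := hC.eq_of_pr' (by
    rw [map_mul, map_mul, mem_centralizer_singleton_iff.1 hu]; simp) (n := 5) (by decide) (by rw [conj_pow, a4']; simp) a4'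
  obtain ⟨a, ha, ha', s, hs, e⟩ := A.exists_mul_of_comm h b0 ((hC.fix _).1 ⟨u, rfl⟩) (by
    rw [← a1]; exact (show Commute u _ from mul_inv_eq_iff_eq_mul.1 b7).map ψ)
  obtain ⟨a, rfl⟩ := (hC.fix _).2 ha'
  have b8 : ∀ x, uchr s ((1 + (corM (piL l2) + corM (piL l2))) *ᵥ x) = 1 := fun x => by
    rw [h.tor, A.sc.eq_iff, inv_eq_iff_mul_eq_one, RootSys.act, coM_ww, sq, mul_comm] at hs
    rw [← uchr_matHom, matHom_add, matHom_add, matHom_one, hs]; simp [uchr]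
  have b9 : uchr s (vv [0, 0, 1]) ∈ zpowers z := by
    have : NeZero (orderOf z) := ⟨by rw [hz]; decide⟩
    refine (IsPrimitiveRoot.orderOf z).zpowers_eq.ge ((mem_rootsOfUnity _ _).2 ?_)
    rw [hz, ← zpow_natCast, ← uchr_smul]
    exact c2.2.2.2.1 ▸ b8 _
  obtain ⟨k, hk⟩ := b9
  obtain rfl : u = a * g ^ k := hC.inj (by
    rw [e, map_mul, a1]
    refine congrArg (_ * A.r3.torHom ·) (funext fun i => ?_)
    rw [← uchr_single s i, c2.2.2.1 i, uchr_add, b8, uchr_smul, ← hk, mul_one, ← _root_.zpow_mul]; rfl)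
  rw [map_mul, map_zpow _ g k]
  exact mul_mem (mem_sup_right (b5.ge (mem_map_of_mem pr ⟨ha, ha'⟩))) (mem_sup_left (zpow_mem b6 k))


/-- In the twisted group ²E₆(2) all elements of order 5 are conjugate, and the centralizer of an element of order 5 is isomorphic to the direct product of a cyclic group of order 5 with the alternating group of degree 8. -/
theorem result {K : Type*} [Field K] [Fintype K] (hK : Fintype.card K = 4) :
    (∀ x y : ↥(Cfsg.Lie.twistedE6 K 2), orderOf x = 5 → orderOf y = 5 → IsConj x y) ∧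
      ∀ x : ↥(Cfsg.Lie.twistedE6 K 2), orderOf x = 5 →
        Nonempty (↥(Subgroup.centralizer ({x} : Set ↥(Cfsg.Lie.twistedE6 K 2))) ≃* (Multiplicative (ZMod 5) × ↥(alternatingGroup (Fin 8)))) := by
  obtain ⟨x0, h0⟩ := exists_conj hK
  obtain ⟨y, hy, ⟨e⟩⟩ := exists_cent hK
  refine ⟨fun x y hx hy => (h0 x hx).symm.trans (h0 y hy), fun x hx => ?_⟩
  obtain ⟨c, rfl⟩ := isConj_iff.1 ((h0 y hy).symm.trans (h0 x hx))
  refine ⟨((MulEquiv.subgroupCongr ?_).trans ((MulAut.conj c).subgroupMap _).symm).trans e⟩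
  ext u
  obtain ⟨u, rfl⟩ := (MulAut.conj c).surjective u
  refine Iff.trans ?_ (mem_map_iff_mem (MulAut.conj c).injective).symm
  rw [mem_centralizer_singleton_iff, mem_centralizer_singleton_iff, ← MulAut.conj_apply, ← map_mul, ← map_mul, (MulAut.conj c).injective.eq_iff]

end Cfsg.Agent.S2227
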