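import Cfsg.Statements.S2231
import Cfsg.Agent.KSG.PSL2Basic
import Cfsg.Agent.PLOC.Qd

set_option autoImplicit false
set_option maxHeartbeats 200000
open Cfsg CL.GL2 CL.Char

namespace Cfsg.Agent.S2231

/-- Let p be an odd prime and K a finite field of characteristic p. Then Qd(p) (the natural semidirect product of an elementary abelian group of order p² by SL₂(p)) is not involved in the projective special linear group PSL₂(K). -/
theorem result {p : ℕ} [Fact p.Prime] (hp : p ≠ 2) {K : Type*} [Field K] [Fintype K] [CharP K p] : ¬ Cfsg.Involves ↥(Cfsg.qd p) (Matrix.ProjectiveSpecialLinearGroup (Fin 2) K) := by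
  classical
  intro h
  have h1 := CL.Sec.involves_mono_surjective h (pslMk K) pslMk_surjective
  have hT : IsMulCommutative (unipSylow K p : Subgroup (Matrix.SpecialLinearGroup (Fin 2) K)) := by
    rw [coe_unipSylow]
    exact ⟨⟨fun x y => Subtype.ext (unipSL_comm x.2 y.2)⟩⟩
  have hf := CL.Sec.finite_of_involves h1
  obtain ⟨S⟩ : Nonempty (Sylow p (qd p)) := Sylow.nonempty
  have h2 := CL.Sec.abelian_sylow_of_involves h1 hT S
  have hu := CL.Sec.orderOf_u_one (p := p)
  have hu' := CL.Sec.u_one_ne_one (p := p)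
  generalize CL.Dickson.u (1 : ZMod p) = u at hu hu'
  obtain ⟨y, hy⟩ := CL.Qd.proj_surjective u
  have hk := CL.Qd.isPGroup_ker (p := p)
  have hc := CL.Qd.centralizer_ker (p := p)
  generalize CL.Qd.proj (p := p) = f at hy hk hc
  have h3 : IsPGroup p ((Subgroup.zpowers u).comap f) :=
    IsPGroup.comap_of_ker_isPGroup (IsPGroup.of_card (n := 1) (by
      rw [Nat.card_zpowers, hu, pow_one])) _ hk
  have h4 := CL.Sec.isMulCommutative_of_sylow h2 h3
  have m2 : y ∈ (Subgroup.zpowers u).comap f := Subgroup.mem_comap.2 (hy ▸ Subgroup.mem_zpowers _)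
  have h5 : y ∈ Subgroup.centralizer (f.ker : Set (qd p)) := by
    refine Subgroup.mem_centralizer_iff.2 fun x hx => ?_
    have m1 : x ∈ (Subgroup.zpowers u).comap f :=
      Subgroup.mem_comap.2 ((MonoidHom.mem_ker.1 hx).symm ▸ one_mem _)
    exact Subgroup.mul_comm_of_mem_isMulCommutative _ m1 m2
  rw [hc] at h5
  exact hu' (hy.symm.trans h5)

end Cfsg.Agent.S2231
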