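import Cfsg.Statements.S2232
import Cfsg.Agent.CLAS.U3Rank1
import Cfsg.Agent.PLOC.QdFree

set_option autoImplicit false
open Cfsg

namespace Cfsg.Agent.S2232

theorem not_involves_of_ti {G : Type*} [Group G] [Finite G] {p : ℕ} [Fact p.Prime] (hp : p ≠ 2)
    (hTI : ∀ {P Q : Sylow p G} {x}, x ≠ 1 → x ∈ P → x ∈ Q → P = Q) :
    ¬ Cfsg.Involves ↥(Cfsg.qd p) G := fun h => by
  obtain ⟨P, hP, hP0, h⟩ := (CL.PSt.involves_qd_iff_local hp).1 h
  obtain ⟨L, φ, hφ⟩ := CL.Sec.involves_iff.1 (CL.Qd.involves_sl2_of_involves_qd h)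
  obtain ⟨S, hS⟩ := hP.exists_le_sylow
  obtain ⟨⟨x, hx⟩, hx1⟩ := Subgroup.ne_bot_iff_exists_ne_one.1 hP0
  set ι := (Subgroup.normalizer (P : Set G)).subtype.comp L.subtype
  have hι : Function.Injective ι := Subtype.val_injective.comp Subtype.val_injective
  have key : ∀ Q : Sylow p L, (Q : Subgroup L) = S.comap ι := fun Q => by
    refine (Q.3 (S.2.comap_of_injective ι hι) ?_).symm
    have h1 : IsPGroup p (Q.map ι ⊔ P : Subgroup G) :=
      (Q.2.map ι).to_sup_of_normal_right' hP (by rintro _ ⟨y, -, rfl⟩; exact y.1.2)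
    obtain ⟨T, hT⟩ := h1.exists_le_sylow
    rw [← Subgroup.map_le_iff_le_comap, hTI (fun h => hx1 (Subtype.ext h)) (hS hx)
      (hT (Subgroup.mem_sup_right hx))]
    exact le_sup_left.trans hT
  have : Subsingleton (Sylow p L) := ⟨fun Q R => Sylow.ext ((key Q).trans (key R).symm)⟩
  have := (Sylow.mapSurjective_surjective hφ p).subsingleton
  obtain ⟨Q, hQ⟩ := (IsPGroup.of_card (n := 1) (G := Subgroup.zpowers (CL.Dickson.u (1 : ZMod p)))
    (by rw [Nat.card_zpowers, CL.Sec.orderOf_u_one, pow_one])).exists_le_sylow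
  have := Q.normal_of_subsingleton
  exact CL.Qd.u_one_not_mem_pCore hp (CL.le_pCore Q.2 (hQ (Subgroup.mem_zpowers _)))

/-- Let p be an odd prime, q a power of p and K a finite field with q² elements. Then Qd(p) (the natural semidirect product of an elementary abelian group of order p² by SL₂(p)) is not involved in the projective special unitary group PSU₃(q) realised over K. -/
theorem result {p : ℕ} [Fact p.Prime] (hp : p ≠ 2) {K : Type*} [Field K] [Fintype K] [CharP K p] (n : ℕ) (hn : 1 ≤ n) (hK : Fintype.card K = (p ^ n) ^ 2) : ¬ Cfsg.Involves ↥(Cfsg.qd p) (Cfsg.PSU 3 K (p ^ n)) := by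
  exact fun h => not_involves_of_ti hp
    (CL.U3.sylow_eq_of_mem (CL.Uni.suEquiv hK 3) (CL.Uni.std_nondeg hK _) (by simp))
    (CL.Sec.involves_mono_surjective h (QuotientGroup.mk' _) (QuotientGroup.mk'_surjective _))

end Cfsg.Agent.S2232
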