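import Cfsg.Statements.S2238
import Mathlib
import Cfsg.Agent.CHEV.SzCount
import Cfsg.Agent.CHEV.SzAction

set_option autoImplicit false
open Cfsg

namespace Cfsg.Agent.S2238

theorem le_centralizer {G : Type*} [Group G] {U : Subgroup G} (hU : IsCyclic U) {g : G} (hg : g ∈ U) :
    U ≤ Subgroup.centralizer {g} := by
  intro x hx
  rw [Subgroup.mem_centralizer_singleton_iff]
  have := hU.isMulCommutative.is_comm.comm (⟨x, hx⟩ : U) ⟨g, hg⟩
  exact congrArg Subtype.val this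

theorem pow_card {G : Type*} [Group G] {U : Subgroup G} {g : G} (hg : g ∈ U) :
    g ^ Nat.card U = 1 :=
  congrArg Subtype.val (pow_card_eq_one' (G := U) (x := ⟨g, hg⟩))

/-- The partition of the Suzuki group: with q = 2^(2m+1), m ≥ 1, r = 2^m and the Suzuki group realised as the stabiliser in SL₄ of the Suzuki–Tits ovoid, every non-identity element lies in exactly one subgroup that is either a Sylow 2-subgroup or a cyclic subgroup of order q − 1, q + 2r + 1 or q − 2r + 1. -/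
theorem result {F : Type*} [Field F] [Fintype F] {m : ℕ} (hm : 1 ≤ m) (hF : Fintype.card F = 2 ^ (2 * m + 1)) (g : ↥(Cfsg.Sz F m)) (hg : g ≠ 1) :
    ∃! U : Subgroup ↥(Cfsg.Sz F m), ((∃ P : Sylow 2 ↥(Cfsg.Sz F m), U = (P : Subgroup ↥(Cfsg.Sz F m))) ∨
      (IsCyclic ↥U ∧ Nat.card ↥U ∈ ({2 ^ (2 * m + 1) - 1, 2 ^ (2 * m + 1) + 2 ^ (m + 1) + 1, 2 ^ (2 * m + 1) - 2 ^ (m + 1) + 1} : Set ℕ))) ∧ g ∈ U := by
  have := CL.Sz.charP_two hF
  have hq := CL.Sz.natCard_eq hF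
  set M0 := CL.Sz.ovModel hm hF
  have := M0.finite_G
  have hkk : CL.Sz.kPlus m * CL.Sz.kMinus m = Nat.card F ^ 2 + 1 := by
    rw [hq]; exact CL.Sz.kPlus_mul_kMinus m
  have hP : ∀ P : Sylow 2 ↥(Cfsg.Sz F m), g ∈ (P : Subgroup _) → g ^ 4 = 1 := by
    intro P h
    obtain ⟨M, hM⟩ := M0.exists_model_U_eq P
    rw [← hM] at h
    exact M.pow_four_of_mem_U h
  have hT : ∀ k, k = CL.Sz.kPlus m ∨ k = CL.Sz.kMinus m → g ^ k = 1 → g ^ (Nat.card F ^ 2 + 1) = 1 := by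
    rintro k (rfl | rfl) h
    · rw [← hkk, pow_mul, h, one_pow]
    · rw [← hkk, mul_comm, pow_mul, h, one_pow]
  have hC : ∀ U : Subgroup ↥(Cfsg.Sz F m), Nat.card ↥U ∈ ({2 ^ (2 * m + 1) - 1, 2 ^ (2 * m + 1) + 2 ^ (m + 1) + 1, 2 ^ (2 * m + 1) - 2 ^ (m + 1) + 1} : Set ℕ) →
      Nat.card U = Nat.card F - 1 ∨ (Nat.card U = CL.Sz.kPlus m ∨ Nat.card U = CL.Sz.kMinus m) := by
    intro U h
    rw [hq]
    simpa using h
  have c1 := CL.Sz.Model.coprime_four_sq_add_one (F := F)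
  have c2 := CL.Sz.Model.coprime_four_sub_one (F := F)
  have c3 := CL.Sz.Model.coprime_sub_one_sq_add_one (F := F)
  rcases M0.trichotomy hg with ⟨-, k, hk⟩ | ⟨-, k, hk⟩ | hf
  · set M := M0.conj k
    have hgU : g ∈ M.U := (M0.mem_conj_U k g).mpr hk
    have h4 := M.pow_four_of_mem_U hgU
    refine ⟨M.U, ⟨Or.inl ⟨M.sylow, rfl⟩, hgU⟩, ?_⟩
    rintro U ⟨⟨P, rfl⟩ | ⟨-, hc⟩, hU⟩
    · obtain ⟨j, hj⟩ := M.exists_conj_U_eq P
      rw [← hj] at hU ⊢
      have hjB : j ∈ M.B := (M.conj_mem_U_iff hgU hg j).mp ((M.mem_conj_U j g).mp hU)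
      ext x
      rw [M.mem_conj_U]
      constructor
      · intro h
        simpa [mul_assoc] using M.conj_mem_U hjB h
      · intro h
        simpa using M.conj_mem_U (M.B.inv_mem hjB) h
    · exfalso
      rcases hC U hc with h | h
      · exact hg (CL.Sz.Model.eq_one_of_pow_coprime c2 h4 (h ▸ pow_card hU))
      · exact hg (CL.Sz.Model.eq_one_of_pow_coprime c1 h4 (hT _ h (pow_card hU)))
  · set M := M0.conj k
    have hgH : g ∈ M.H := (M0.mem_conj_H k g).mpr hk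
    have h4 := M.pow_of_mem_H hgH
    refine ⟨M.H, ⟨Or.inr ⟨M.isCyclic_H, by rw [M.card_H, hq]; simp⟩, hgH⟩, ?_⟩
    rintro U ⟨⟨P, rfl⟩ | ⟨hcyc, hc⟩, hU⟩
    · exact absurd (CL.Sz.Model.eq_one_of_pow_coprime c2 (hP P hU) h4) hg
    · rcases hC U hc with h | h
      · have hle := le_centralizer hcyc hU
        rw [M.centralizer_of_mem_H hgH hg] at hle
        exact Subgroup.eq_of_le_of_card_ge hle (by rw [h, M.card_H])
      · exact absurd (CL.Sz.Model.eq_one_of_pow_coprime c3 h4 (hT _ h (pow_card hU))) hg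
  · have h4 := hf.pow_eq_one
    obtain ⟨k, hk, hgk⟩ : ∃ k, (k = CL.Sz.kPlus m ∨ k = CL.Sz.kMinus m) ∧ g ^ k = 1 := by
      rcases hf.pow_eq_one_or hF with h | h
      · exact ⟨_, Or.inl rfl, h⟩
      · exact ⟨_, Or.inr rfl, h⟩
    have hcard := ((M0.torus hm hF hk).2 g hg hgk).2.2.1
    refine ⟨Subgroup.centralizer {g}, ⟨Or.inr ⟨hf.isCyclic_centralizer, ?_⟩,
      Subgroup.mem_centralizer_singleton_iff.mpr rfl⟩, ?_⟩
    · rw [hcard]; rcases hk with rfl | rfl <;> simp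
    rintro U ⟨⟨P, rfl⟩ | ⟨hcyc, hc⟩, hU⟩
    · exact absurd (CL.Sz.Model.eq_one_of_pow_coprime c1 (hP P hU) h4) hg
    · rcases hC U hc with h | h
      · exact absurd (CL.Sz.Model.eq_one_of_pow_coprime c3 (h ▸ pow_card hU) h4) hg
      · have hle := le_centralizer hcyc hU
        have := ((M0.torus hm hF h).2 g hg (pow_card hU)).2.2.1
        exact Subgroup.eq_of_le_of_card_ge hle this.le

end Cfsg.Agent.S2238
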