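import Cfsg.Statements.S2239
import Mathlib
import Cfsg.Agent.CHEV.SzSub

set_option autoImplicit false
open Cfsg

namespace Cfsg.Agent.S2239

theorem eq_of_order_eq {a b : ℕ} (ha : 1 ≤ a) (hb : 1 ≤ b)
    (h : a ^ 2 * (a ^ 2 + 1) * (a - 1) = b ^ 2 * (b ^ 2 + 1) * (b - 1)) (ha2 : 2 ≤ a) : a = b := by
  have key : ∀ a b : ℕ, 1 ≤ a → a < b →
      a ^ 2 * (a ^ 2 + 1) * (a - 1) < b ^ 2 * (b ^ 2 + 1) * (b - 1) := by
    intro a b ha hab
    have h1 : a ^ 2 < b ^ 2 := Nat.pow_lt_pow_left hab two_ne_zero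
    exact Nat.mul_lt_mul_of_le_of_lt (Nat.mul_le_mul h1.le (by omega)) (by omega)
      (Nat.mul_pos (Nat.pow_pos (by omega)) (by omega))
  rcases lt_trichotomy a b with h1 | h1 | h1
  · exact absurd h (key a b ha h1).ne
  · exact h1
  · exact absurd h (key b a hb h1).ne'

/-- Subfield subgroups of the Suzuki group: let q = 2^(2m+1) and s = 2^(2k+1) with m, k ≥ 1 and 2k+1 dividing 2m+1 (so q is a power of s), both groups realised as stabilisers in SL₄ of the Suzuki–Tits ovoid. Then Sz(q) has a subgroup isomorphic to Sz(s), and any two subgroups of Sz(q) isomorphic to Sz(s) are conjugate. -/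
theorem result {F : Type*} [Field F] [Fintype F] {m : ℕ} (hm : 1 ≤ m) (hF : Fintype.card F = 2 ^ (2 * m + 1)) {K : Type*} [Field K] [Fintype K] {k : ℕ} (hk : 1 ≤ k) (hK : Fintype.card K = 2 ^ (2 * k + 1)) (hdiv : 2 * k + 1 ∣ 2 * m + 1) :
    (∃ S : Subgroup ↥(Cfsg.Sz F m), Nonempty (↥S ≃* ↥(Cfsg.Sz K k))) ∧
    ∀ S₁ S₂ : Subgroup ↥(Cfsg.Sz F m), Nonempty (↥S₁ ≃* ↥(Cfsg.Sz K k)) → Nonempty (↥S₂ ≃* ↥(Cfsg.Sz K k)) →
      ∃ g : ↥(Cfsg.Sz F m), S₂ = S₁.map (MulAut.conj g).toMonoidHom := by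
  have := CL.Sz.charP_two hF
  have := CL.Sz.charP_two hK
  have hq := CL.Sz.natCard_eq hF
  have hs := CL.Sz.natCard_eq hK
  set M := CL.Sz.ovModel hm hF
  set M' := CL.Sz.ovModel hk hK
  have := M.finite_G
  obtain ⟨f⟩ := CL.Sz.exists_ringHom_of_dvd hs hq hdiv
  have key : ∀ S : Subgroup ↥(Cfsg.Sz F m), Nonempty (↥S ≃* ↥(Cfsg.Sz K k)) →
      ∃ g, S = (M.conj g).sub f.fieldRange := by
    rintro S ⟨e⟩
    have hc : Nat.card S = Nat.card K ^ 2 * (Nat.card K ^ 2 + 1) * (Nat.card K - 1) := by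
      rw [← M'.card_G]; exact Nat.card_congr e.toEquiv
    have h8 : 8 ∣ Nat.card S := by
      rw [hc, hs, ← pow_mul, mul_assoc]
      exact (pow_dvd_pow 2 (by omega : 3 ≤ (2 * k + 1) * 2)).mul_right _
    have h5 : ∀ n : ℕ, 5 ∣ (2 ^ (2 * n + 1)) ^ 2 + 1 := by
      intro n
      have : (2 ^ (2 * n + 1)) ^ 2 = 4 * 16 ^ n := by
        rw [← pow_mul, show (2 * n + 1) * 2 = 2 + 4 * n by ring, pow_add, pow_mul]; norm_num
      rw [this]
      have h16 : 16 ^ n % 5 = 1 := by rw [Nat.pow_mod]; simp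
      omega
    rcases M.sub_cases hm hF S with ⟨g, h⟩ | ⟨g, h⟩ | ⟨x, hx, h⟩ | ⟨g, T, hT, h⟩
    · exfalso
      have : Fact (Nat.Prime 5) := ⟨by norm_num⟩
      obtain ⟨⟨x, hxS⟩, hx⟩ := exists_prime_orderOf_dvd_card' (G := S) 5 (by
        rw [hc, hs]; exact ((h5 k).mul_left _).mul_right _)
      rw [← Subgroup.orderOf_coe] at hx
      simp only at hx
      refine CL.Sz.Model.FPF.not_mem_B ((M.conj g).FPF_iff.mpr ⟨?_, ?_⟩) (h hxS)
      · rintro rfl; simp at hx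
      · rw [← orderOf_dvd_iff_pow_eq_one, hx, hq]; exact h5 m
    · exfalso
      have h1 := h8.trans (Subgroup.card_dvd_of_le h)
      rw [CL.Sz.Model.card_N] at h1
      have h2 := CL.Sz.Model.two_dvd_card (F := F)
      have h3 := CL.Sz.Model.one_lt_card (F := F)
      omega
    · exfalso
      have h1 := h8.trans (Subgroup.card_dvd_of_le h)
      rw [(hx.card_centralizer hm hF).2] at h1
      have h2 : 2 ∣ Nat.card F ^ 2 + 1 := (by omega : 2 ∣ _).trans hx.card_centralizer_dvd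
      have h3 := (CL.Sz.Model.two_dvd_card (F := F)).trans (dvd_pow_self _ two_ne_zero)
      omega
    · refine ⟨g, ?_⟩
      have h1 := (M.conj g).card_sub hF T
      rw [← h, hc] at h1
      have h2 := eq_of_order_eq Nat.card_pos Nat.card_pos h1 Finite.one_lt_card
      rw [h, CL.Sz.fieldRange_eq_of_card_eq f T.subtype h2, T.fieldRange_subtype]
  constructor
  · obtain ⟨e, -⟩ := (M.subModel f (CL.Sz.map_theta hK hF f)).exists_equiv M'
    exact ⟨_, ⟨e⟩⟩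
  · intro S₁ S₂ h₁ h₂
    obtain ⟨g₁, rfl⟩ := key S₁ h₁
    obtain ⟨g₂, rfl⟩ := key S₂ h₂
    refine ⟨g₂ * g₁⁻¹, ?_⟩
    ext x
    rw [Subgroup.mem_map_equiv, M.mem_conj_sub, M.mem_conj_sub, MulAut.conj_symm_apply]
    simp [mul_assoc]

end Cfsg.Agent.S2239
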