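import Cfsg.Statements.S2240
import Mathlib
import Cfsg.Agent.CHEV.SzSubfield

set_option autoImplicit false
open Cfsg

namespace Cfsg.Agent.S2240

open CL.Sz in
theorem conj_mem_iff {F : Type*} [Field F] [CharP F 2] {θ : F →+* F} {G : Type*} [Group G]
    (M : Model θ G) {E : Subgroup G} {l : Fˣ} (hl : M.h l ∈ Subgroup.normalizer (E : Set G)) (y : F) :
    M.u 0 y ∈ E ↔ M.u 0 ((l : F) ^ 2 * θ l * y) ∈ E := by
  have := Subgroup.mem_normalizer_iff.mp hl (M.u 0 y)
  rwa [M.h_conj_u, mul_zero] at this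

/-- Elementary abelian TI-subgroups of the Suzuki group: let q = 2^(2m+1) with m ≥ 1, the group realised as the stabiliser in SL₄ of the Suzuki–Tits ovoid, and n ≥ 2. There is an elementary abelian 2-subgroup E of order 2^n that is a TI-subgroup (every conjugate of E meeting E nontrivially is E itself) if and only if n divides 2m + 1. -/
theorem result {F : Type*} [Field F] [Fintype F] {m : ℕ} (hm : 1 ≤ m) (hF : Fintype.card F = 2 ^ (2 * m + 1)) (n : ℕ) (hn : 2 ≤ n) :
    (∃ E : Subgroup ↥(Cfsg.Sz F m), Cfsg.IsElementaryAbelian 2 E ∧ Nat.card ↥E = 2 ^ n ∧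
      ∀ x : ↥(Cfsg.Sz F m), E ⊓ E.map (MulAut.conj x).toMonoidHom ≠ ⊥ → x ∈ Subgroup.normalizer (E : Set ↥(Cfsg.Sz F m))) ↔ n ∣ 2 * m + 1 := by
  have := CL.Sz.charP_two hF
  have hq := CL.Sz.natCard_eq hF
  set M0 := CL.Sz.ovModel hm hF
  have := M0.finite_G
  constructor
  · rintro ⟨E, ⟨-, hE2⟩, hcard, hTI⟩
    have hp : IsPGroup 2 E := IsPGroup.of_card hcard
    obtain ⟨P, hP⟩ := hp.exists_le_sylow
    obtain ⟨M, hM⟩ := M0.exists_model_U_eq P
    rw [← hM] at hP
    have hZ : E ≤ M.Z := fun x hx => M.mem_Z_of_sq (hP hx) (by rw [← pow_two]; exact hE2 x hx)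
    obtain ⟨a, ha0, ha⟩ : ∃ a : F, a ≠ 0 ∧ M.u 0 a ∈ E := by
      have : Nontrivial E := by
        rw [← Finite.one_lt_card_iff_nontrivial, hcard]
        exact Nat.one_lt_two_pow (by omega)
      obtain ⟨⟨x, hx⟩, hx1⟩ := exists_ne (1 : E)
      obtain ⟨y, rfl⟩ := hZ hx
      refine ⟨y, ?_, hx⟩
      rintro rfl
      exact hx1 (Subtype.ext M.u_zero)
    have key : ∀ c : F, c ≠ 0 → M.u 0 (c * a) ∈ E → ∀ y, M.u 0 y ∈ E ↔ M.u 0 (c * y) ∈ E := by
      intro c hc hca y
      obtain ⟨l, hl⟩ := M.exists_sq_mul_θ_eq hc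
      rw [← hl]
      refine conj_mem_iff M (hTI _ ?_) y
      intro hbot
      have : M.u 0 (c * a) ∈ E ⊓ E.map (MulAut.conj (M.h l)).toMonoidHom :=
        ⟨hca, M.u 0 a, ha, by simp [M.h_conj_u, hl]⟩
      rw [hbot, Subgroup.mem_bot, M.u_eq_one_iff] at this
      exact mul_ne_zero hc ha0 this.2
    let K : Subfield F :=
      { carrier := {c | M.u 0 (c * a) ∈ E}
        one_mem' := by simpa using ha
        zero_mem' := by simp [M.u_zero, E.one_mem]
        add_mem' := fun {b c} hb hc => by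
          simp only [Set.mem_setOf_eq] at hb hc ⊢
          rw [add_mul, ← M.u_zero_mul_u_zero]; exact E.mul_mem hb hc
        neg_mem' := fun {b} hb => by rwa [CharTwo.neg_eq]
        mul_mem' := fun {b c} hb hc => by
          simp only [Set.mem_setOf_eq] at hb hc ⊢
          by_cases h0 : b = 0
          · simp [h0, M.u_zero, E.one_mem]
          · rw [mul_assoc]; exact (key b h0 hb _).mp hc
        inv_mem' := fun b hb => by
          simp only [Set.mem_setOf_eq] at hb ⊢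
          by_cases h0 : b = 0
          · simp [h0, M.u_zero, E.one_mem]
          · rw [key b h0 hb, mul_inv_cancel_left₀ h0]; exact ha }
    have hK : Nat.card K = 2 ^ n := by
      rw [← hcard]
      refine Nat.card_congr (Equiv.ofBijective (fun c => ⟨M.u 0 (c.1 * a), c.2⟩) ⟨?_, ?_⟩)
      · intro b c h
        exact Subtype.ext (mul_right_cancel₀ ha0 (M.u_inj (Subtype.mk.inj h)).2)
      · rintro ⟨x, hx⟩
        obtain ⟨y, rfl⟩ := hZ hx
        refine ⟨⟨y / a, ?_⟩, Subtype.ext ?_⟩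
        · change M.u 0 (y / a * a) ∈ E
          rwa [div_mul_cancel₀ _ ha0]
        · simp [div_mul_cancel₀ _ ha0]
    exact CL.Sz.dvd_of_ringHom hK hq K.subtype
  · intro hdvd
    obtain ⟨f⟩ := CL.Sz.exists_ringHom_of_dvd (GaloisField.card 2 n (by omega)) hq hdvd
    let φ : Multiplicative (GaloisField 2 n) →* ↥(Cfsg.Sz F m) :=
      { toFun := fun c => M0.u 0 (f c.toAdd)
        map_one' := by simp [M0.u_zero]
        map_mul' := fun a b => by simp [M0.u_zero_mul_u_zero] }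
    have hφ : Function.Injective φ := fun a b h =>
      Multiplicative.toAdd.injective (f.injective (M0.u_inj h).2)
    refine ⟨φ.range, ⟨inferInstance, ?_⟩, ?_, ?_⟩
    · rintro _ ⟨c, rfl⟩
      rw [pow_two]; exact M0.u_zero_sq _
    · rw [← GaloisField.card 2 n (by omega)]
      exact (Nat.card_congr (MonoidHom.ofInjective hφ).toEquiv).symm
    · intro x hx
      obtain ⟨⟨g, ⟨b, hb⟩, ⟨_, ⟨a, rfl⟩, ha⟩⟩, hg⟩ := (Subgroup.ne_bot_iff_exists_ne_one.mp hx)
      have hg1 : g ≠ 1 := fun h => hg (Subtype.ext h)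
      simp only [MulEquiv.toMonoidHom_eq_coe, MonoidHom.coe_coe, MulAut.conj_apply] at ha
      have ha1 : φ a ≠ 1 := by rintro h; rw [h] at ha; exact hg1 (by simpa using ha.symm)
      have hxB : x ∈ M0.B := M0.mem_B_of_conj_mem_U (M0.u_mem_U _ _) ha1
        (by change x * φ a * x⁻¹ ∈ _; rw [ha, ← hb]; exact M0.u_mem_U _ _)
      obtain ⟨s, t, l, rfl⟩ := M0.mem_B.mp hxB
      have e : ∀ y, M0.u s t * M0.h l * M0.u 0 y * (M0.u s t * M0.h l)⁻¹ =
          M0.u 0 ((l : F) ^ 2 * CL.Sz.theta F m l * y) := by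
        intro y
        have : M0.u s t * M0.h l * M0.u 0 y * (M0.u s t * M0.h l)⁻¹ =
          M0.u s t * (M0.h l * M0.u 0 y * (M0.h l)⁻¹) * (M0.u s t)⁻¹ := by group
        rw [this, M0.h_conj_u, mul_zero, M0.u_conj_u_zero]
      have ha0 : a.toAdd ≠ 0 := by
        intro h; apply ha1; change M0.u 0 (f a.toAdd) = 1; rw [h, map_zero, M0.u_zero]
      have hc : (l : F) ^ 2 * CL.Sz.theta F m l = f (b.toAdd / a.toAdd) := by
        have h1 : M0.u s t * M0.h l * M0.u 0 (f a.toAdd) * (M0.u s t * M0.h l)⁻¹ =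
          M0.u 0 (f b.toAdd) := ha.trans hb.symm
        rw [e, M0.u_eq_iff] at h1
        rw [map_div₀, ← h1.2, mul_div_cancel_right₀ _ ((map_ne_zero f).mpr ha0)]
      refine Subgroup.mem_normalizer_fintype ?_
      rintro _ ⟨c, rfl⟩
      refine ⟨Multiplicative.ofAdd (b.toAdd / a.toAdd * c.toAdd), ?_⟩
      change _ = M0.u s t * M0.h l * M0.u 0 (f c.toAdd) * (M0.u s t * M0.h l)⁻¹
      rw [e, hc, ← map_mul]
      rfl

end Cfsg.Agent.S2240
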