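import Cfsg.Statements.S2241
import Mathlib
import Cfsg.Agent.CHEV.SzAction

set_option autoImplicit false
open Cfsg

namespace Cfsg.Agent.S2241

/-- Real 2-elements of the Suzuki group: with q = 2^(2m+1), m ≥ 1, and the group realised as the stabiliser in SL₄ of the Suzuki–Tits ovoid, a non-identity element of a Sylow 2-subgroup is conjugate to its inverse if and only if it is an involution; in particular no element of order 4 is conjugate to its inverse. -/
theorem result {F : Type*} [Field F] [Fintype F] {m : ℕ} (hm : 1 ≤ m) (hF : Fintype.card F = 2 ^ (2 * m + 1)) (P : Sylow 2 ↥(Cfsg.Sz F m)) (g : ↥(Cfsg.Sz F m)) (hg : g ∈ (P : Subgroup ↥(Cfsg.Sz F m))) (h1 : g ≠ 1) :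
    IsConj g g⁻¹ ↔ orderOf g = 2 := by
  have := CL.Sz.charP_two hF
  obtain ⟨M, hM⟩ := (CL.Sz.ovModel hm hF).exists_model_U_eq P
  rw [← hM] at hg
  constructor
  · intro h
    obtain ⟨k, hk⟩ := isConj_iff.mp h
    have hkB : k ∈ M.B := M.mem_B_of_conj_mem_U hg h1 (by rw [hk]; exact M.U.inv_mem hg)
    obtain ⟨x, y, rfl⟩ := hg
    obtain ⟨a, b, l, rfl⟩ := M.mem_B.mp hkB
    by_cases hx : x = 0
    · subst hx
      exact M.orderOf_u_zero (by rintro rfl; exact h1 M.u_zero)
    exfalso
    have e : M.u a b * M.h l * M.u x y * (M.u a b * M.h l)⁻¹ =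
        M.u a b * (M.h l * M.u x y * (M.h l)⁻¹) * (M.u a b)⁻¹ := by group
    rw [e, M.h_conj_u, mul_inv_eq_iff_eq_mul, M.u_inv, M.u_mul, M.u_mul, M.u_eq_iff] at hk
    obtain ⟨hk1, hk2⟩ := hk
    have hl : (l : F) = 1 := by
      apply CL.Sz.Model.θ_eq_one (θ := CL.Sz.theta F m)
      apply mul_right_cancel₀ hx
      grind
    rw [hl, map_one] at hk2
    set θ := CL.Sz.theta F m with hθ
    have hx' : θ x ≠ 0 := CL.Sz.Model.θ_ne_zero hx
    -- with `c = a / x`: `θ c + c = 1`, which is impossible
    have hc : θ (a / x) = a / x + 1 := by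
      rw [map_div₀]; field_simp; grind
    have hc2 : (a / x) ^ 2 = a / x := by
      rw [← M.tits, hc, map_add, map_one, hc]; grind
    have : a / x = 0 ∨ a / x = 1 := by
      have : (a / x) * (a / x + 1) = 0 := by grind
      rcases mul_eq_zero.mp this with h | h
      · exact Or.inl h
      · right; grind
    rcases this with h | h <;> rw [h] at hc <;> simp at hc
  · intro h
    have : g * g = 1 := by rw [← pow_two, ← h, pow_orderOf_eq_one]
    rw [← eq_inv_iff_mul_eq_one.mpr this]

end Cfsg.Agent.S2241
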