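import Cfsg.Statements.S2244
import Cfsg.Agent.CHEV.WeakCl

set_option autoImplicit false
open Cfsg

namespace Cfsg.Agent.S2244

/-- Weakly closed unipotent subgroups of Chevalley groups: let G be the Chevalley group of type G₂, B₂, D₄, F₄, E₆, E₇ or E₈ over a finite field F (the matrix group generated by the root elements), with |F| ≠ 2, and |F| ≠ 3 as well for the types G₂, B₂, D₄, F₄. Let U be the subgroup generated by the positive root subgroups. If X ≤ U is weakly closed in U with respect to G (every G-conjugate of X lying in U equals X), then X is the unipotent radical U_J of a standard parabolic subgroup for some set J of fundamental roots. -/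
theorem result {F : Type*} [Field F] [Fintype F] (D : Cfsg.Lie.ChevalleyDatum) (hD : D ∈ [Cfsg.Lie.chevG2, Cfsg.Lie.chevB2, Cfsg.Lie.chevD4, Cfsg.Lie.chevF4, Cfsg.Lie.chevE6, Cfsg.Lie.chevE7, Cfsg.Lie.chevE8])
    (h2 : Fintype.card F ≠ 2) (h3 : D ∈ [Cfsg.Lie.chevG2, Cfsg.Lie.chevB2, Cfsg.Lie.chevD4, Cfsg.Lie.chevF4] → Fintype.card F ≠ 3)
    (X : Subgroup (GL D.Idx F)) (hXU : X ≤ D.posUnipotent F)
    (hwc : ∀ g ∈ D.group F, X.map (MulAut.conj g).toMonoidHom ≤ D.posUnipotent F → X.map (MulAut.conj g).toMonoidHom = X) :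
    ∃ J : Set ℕ, (∀ j ∈ J, j < D.rank) ∧ X = D.unipotentRadical F J := by
  classical
  have hcard : 1 < Fintype.card F := Fintype.one_lt_card
  have e1 : ∃ t : F, t ≠ 0 ∧ t ≠ 1 := by
    by_contra hn
    push Not at hn
    have : (Finset.univ : Finset F) ⊆ {0, 1} := fun t _ => by
      by_cases h : t = 0
      · simp [h]
      · simp [hn t h]
    have := (Finset.card_le_card this).trans Finset.card_le_two
    rw [Finset.card_univ] at this
    omega
  have e2 : Fintype.card F ≠ 3 → ∃ t : F, t ≠ 0 ∧ t ^ 2 ≠ 1 := fun h3 => by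
    by_contra hn
    push Not at hn
    have : (Finset.univ : Finset F) ⊆ {0, 1, -1} := fun t _ => by
      by_cases h : t = 0
      · simp [h]
      · rcases sq_eq_one_iff.1 (hn t h) with h | h <;> simp [h]
    have := (Finset.card_le_card this).trans Finset.card_le_three
    rw [Finset.card_univ] at this
    omega
  have key : ∀ [CL.Chev.Good D] (two : Bool), (two = true → Fintype.card F ≠ 3) →
      (CL.Chev.Good.C D).chkWC D.nroots D.rank two = true →
      ∃ J : Set ℕ, (∀ j ∈ J, j < D.rank) ∧ X = D.unipotentRadical F J := by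
    intro _ two h4 h
    obtain ⟨J, hJ⟩ := CL.Chev.eq_UJ_of_chkWC (S := CL.Chev.stData D F) CL.Chev.stData_exact CL.Chev.stData_good
      e1 (fun h => e2 (h4 h)) h (X := X) (by rwa [CL.Chev.stData_U])
      (by rwa [CL.Chev.stData_U, CL.Chev.stData_grp])
    refine ⟨Fin.val '' J, by rintro _ ⟨j, -, rfl⟩; exact j.2, ?_⟩
    rw [← CL.Chev.stData_UJ, hJ]
    congr 1
    ext i
    exact (Fin.val_injective.mem_set_image).symm
  simp only [List.mem_cons, List.not_mem_nil, or_false] at hD
  rcases hD with rfl | rfl | rfl | rfl | rfl | rfl | rfl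
  · exact key true (fun _ => h3 (by simp)) CL.Chev.chkWC_G2
  · exact key true (fun _ => h3 (by simp)) CL.Chev.chkWC_B2
  · exact key true (fun _ => h3 (by simp)) CL.Chev.chkWC_D4
  · exact key true (fun _ => h3 (by simp)) CL.Chev.chkWC_F4
  · exact key false (fun h => absurd h (by simp)) CL.Chev.chkWC_E6
  · exact key false (fun h => absurd h (by simp)) CL.Chev.chkWC_E7
  · exact key false (fun h => absurd h (by simp)) CL.Chev.chkWC_E8

end Cfsg.Agent.S2244
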