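import Cfsg.Statements.S2249
import Cfsg.Agent.FGS.TwoRankLin

set_option autoImplicit false
open Cfsg

namespace Cfsg.Agent.S2249

open Subgroup Module CL.TR
open scoped commutatorElement

universe w

section
variable {F : Type w} [Field F]

theorem matRep_inj (n : ℕ) : Function.Injective (CL.DL.matRep (MonoidHom.id (GL (Fin n) F))) := by
  rw [injective_iff_map_eq_one]
  intro a ha
  exact CL.DL.matRep_eq_one ha

theorem exists_hom (d m e : ℕ) (hd : d ≠ 0) :
    ∃ f : Wr (GL (Fin d) F) m × GL (Fin e) F →* GL (Fin (d * m + e)) F, Function.Injective f := by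
  have : NeZero d := ⟨hd⟩
  let ρ₁ := wrRep (CL.DL.matRep (MonoidHom.id (GL (Fin d) F))) m
  let ρ₂ := CL.DL.matRep (MonoidHom.id (GL (Fin e) F))
  let ρ : Representation F (Wr (GL (Fin d) F) m × GL (Fin e) F)
      ((Fin m → Fin d → F) × (Fin e → F)) :=
    { toFun := fun g => (ρ₁ g.1).prodMap (ρ₂ g.2)
      map_one' := by rw [Prod.fst_one, Prod.snd_one, map_one, map_one]; rfl
      map_mul' := fun a b => by rw [Prod.fst_mul, Prod.snd_mul, map_mul, map_mul]; rfl }
  refine CL.DL.exists_GL_of_rep (ρ := ρ) ?_ ?_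
  · rw [injective_iff_map_eq_one]
    intro g hg
    refine Prod.ext (wrRep_injective (matRep_inj d) ?_) (matRep_inj e ?_)
    · rw [Prod.fst_one, map_one]
      exact LinearMap.ext fun v => congrArg Prod.fst (LinearMap.congr_fun hg (v, 0))
    · rw [Prod.snd_one, map_one]
      exact LinearMap.ext fun v => congrArg Prod.snd (LinearMap.congr_fun hg (0, v))
  · rw [finrank_prod, finrank_pi_fintype]
    simp [mul_comm]

theorem neg_elemAb (d : ℕ) : Cfsg.IsElementaryAbelian 2 (zpowers (-1 : GL (Fin d) F)) := by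
  refine ⟨inferInstance, ?_⟩
  rintro _ ⟨k, rfl⟩
  simp only
  rw [← zpow_natCast, ← zpow_mul, mul_comm, zpow_mul, zpow_natCast, neg_one_sq, one_zpow]

instance neg_normal (d : ℕ) : (zpowers (-1 : GL (Fin d) F)).Normal := by
  have hzc : zpowers (-1 : GL (Fin d) F) ≤ center _ :=
    zpowers_le.mpr (mem_center_iff.mpr fun g => by simp)
  exact ⟨fun a ha g => by rw [mem_center_iff.mp (hzc ha) g, mul_inv_cancel_right]; exact ha⟩

theorem card_neg (h2 : (2 : F) ≠ 0) {d : ℕ} (hd : d ≠ 0) :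
    Nat.card (zpowers (-1 : GL (Fin d) F)) = 2 := by
  rw [Nat.card_zpowers]
  refine orderOf_eq_prime neg_one_sq fun h => ?_
  have := congrArg (fun g : GL (Fin d) F => g.1 ⟨0, Nat.pos_of_ne_zero hd⟩ ⟨0, Nat.pos_of_ne_zero hd⟩) h
  simp at this
  exact h2 (by linear_combination -this)

theorem lower (h2 : (2 : F) ≠ 0) (d m e : ℕ) (hd : d ≠ 0) (he : e ≤ 1) :
    ∃ E : Subgroup (Wr (GL (Fin d) F) m × GL (Fin e) F), E.Normal ∧
      Cfsg.IsElementaryAbelian 2 E ∧ 2 ^ (m + e) ≤ Nat.card E := by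
  refine ⟨(base (zpowers (-1 : GL (Fin d) F)) m).prod (zpowers (-1 : GL (Fin e) F)),
    inferInstance, ⟨.of_setLike_mul_comm fun a ha b hb => Prod.ext ?_ ?_, fun a ha => Prod.ext ?_ ?_⟩, ?_⟩
  · have := (base_elemAb (m := m) (neg_elemAb (F := F) d)).1
    exact setLike_mul_comm (s := base (zpowers (-1 : GL (Fin d) F)) m) ha.1 hb.1
  · exact setLike_mul_comm (s := zpowers (-1 : GL (Fin e) F)) ha.2 hb.2
  · exact (base_elemAb (neg_elemAb d)).2 _ ha.1
  · exact (neg_elemAb e).2 _ ha.2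
  · rw [Nat.card_congr (Subgroup.prodEquiv _ _).toEquiv, Nat.card_prod, card_base, card_neg h2 hd,
      pow_add]
    refine Nat.mul_le_mul_left _ ?_
    interval_cases e
    · exact Nat.one_le_iff_ne_zero.mpr (by
        rw [Nat.card_zpowers]
        exact (isOfFinOrder_iff_pow_eq_one.mpr ⟨2, two_pos, neg_one_sq⟩).orderOf_pos.ne')
    · rw [card_neg h2 one_ne_zero, pow_one]

theorem val_W [Fintype F] (hF : Odd (Fintype.card F)) (d m e : ℕ) :
    padicValNat 2 (Nat.card (Wr (GL (Fin d) F) m × GL (Fin e) F)) =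
      m * gv (Fintype.card F) d + padicValNat 2 m.factorial + gv (Fintype.card F) e := by
  classical
  rw [Nat.card_prod, padicValNat.mul Nat.card_pos.ne' Nat.card_pos.ne', card_Wr,
    padicValNat.mul (pow_ne_zero _ Nat.card_pos.ne') m.factorial_ne_zero, padicValNat.pow,
    val_card_GL hF, val_card_GL hF]

theorem sq_eq_one_of_commute [Fintype F] (hq : Fintype.card F % 4 = 3) {u c : GL (Fin 2) F}
    (hu : u ^ 2 = 1) (hu1 : u ∉ zpowers (-1 : GL (Fin 2) F)) (huc : c * u = u * c) {k : ℕ}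
    (hc : c ^ 2 ^ k = 1) : c ^ 2 = 1 := by
  have h2 : (2 : F) ≠ 0 := two_ne_zero_of_odd (Nat.odd_iff.mpr (by omega))
  let σ := CL.DL.matRep (MonoidHom.id (GL (Fin 2) F))
  obtain ⟨b, χ, h1, h3⟩ := exists_weights h2 (σ.comp (zpowers u).subtype) (by
    rintro ⟨_, j, rfl⟩
    apply Subtype.ext
    simp only [SubmonoidClass.coe_pow, OneMemClass.coe_one]
    rw [← zpow_natCast, ← zpow_mul, mul_comm, zpow_mul, zpow_natCast, hu, one_zpow])
  have hr : finrank F (Fin 2 → F) = 2 := by simp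
  let b' := b.reindex (finCongr hr)
  let t : Fin 2 → F := fun i => χ ((finCongr hr).symm i) ⟨u, mem_zpowers u⟩
  have h4 : ∀ i, σ u (b' i) = t i • b' i := fun i => by
    simp only [b', Basis.reindex_apply]; exact h1 _ ⟨u, mem_zpowers u⟩
  have h5 : ∀ i, t i = 1 ∨ t i = -1 := fun i => h3 _ _
  have h6 : t 0 ≠ t 1 := by
    intro h
    apply hu1
    rcases h5 0 with h7 | h7
    · have : u = 1 := matRep_inj 2 (b'.ext fun i => by
        fin_cases i <;> simp [← h, h7, show CL.DL.matRep (MonoidHom.id _) u = σ u from rfl, h4])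
      rw [this]; exact one_mem _
    · have : u = -1 := matRep_inj 2 (b'.ext fun i => by
        have e : CL.DL.matRep (MonoidHom.id (GL (Fin 2) F)) (-1) (b' i) = -b' i := by
          change Matrix.toLin' (-1) _ = _
          simp
        rw [e]
        fin_cases i <;> simp [← h, h7, show CL.DL.matRep (MonoidHom.id _) u = σ u from rfl, h4])
      rw [this]; exact mem_zpowers _
  have h7 : ∀ i, ∃ a : F, σ c (b' i) = a • b' i := by
    intro i
    have e1 : σ u (σ c (b' i)) = t i • σ c (b' i) := by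
      rw [← Module.End.mul_apply, ← map_mul, ← huc, map_mul, Module.End.mul_apply, h4, map_smul]
    have e2 := b'.sum_repr (σ c (b' i))
    rw [Fin.sum_univ_two] at e2
    rw [← e2, map_add, map_smul, map_smul, h4, h4] at e1
    have e3 := congrArg (fun v => b'.repr v 0) e1
    have e4 := congrArg (fun v => b'.repr v 1) e1
    simp at e3 e4
    fin_cases i
    · refine ⟨b'.repr (σ c (b' 0)) 0, ?_⟩
      have : b'.repr (σ c (b' 0)) 1 = 0 := by
        by_contra hne
        exact h6 (mul_left_cancel₀ hne (by simpa [mul_comm] using e4)).symm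
      simpa [this] using e2.symm
    · refine ⟨b'.repr (σ c (b' 1)) 1, ?_⟩
      have : b'.repr (σ c (b' 1)) 0 = 0 := by
        by_contra hne
        exact h6 (mul_left_cancel₀ hne (by simpa [mul_comm] using e3))
      simpa [this] using e2.symm
  refine matRep_inj 2 (b'.ext fun i => ?_)
  obtain ⟨a, ha⟩ := h7 i
  have h8 : ∀ j : ℕ, σ (c ^ j) (b' i) = a ^ j • b' i := by
    intro j
    induction j with
    | zero => simp
    | succ j ih => rw [pow_succ, map_mul, Module.End.mul_apply, ha, map_smul, ih, smul_smul, pow_succ']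
  have h9 : a ^ 2 ^ k = 1 := by
    have := h8 (2 ^ k)
    rw [hc, map_one, Module.End.one_apply] at this
    exact (smul_left_injective F (b'.ne_zero i) ((one_smul F _).trans this)).symm
  have h10 : a ^ (Fintype.card F - 1) = 1 :=
    FiniteField.pow_card_sub_one_eq_one a (by rintro rfl; simp at h9)
  have h11 : a ^ 2 = 1 := by
    obtain ⟨r, hr⟩ : ∃ r, Fintype.card F - 1 = 2 * (2 * r + 1) := ⟨Fintype.card F / 4, by omega⟩
    rw [hr, pow_mul] at h10
    have h12 : (a ^ 2) ^ 2 ^ k = 1 := by rw [← pow_mul, mul_comm, pow_mul, h9, one_pow]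
    exact orderOf_eq_one_iff.mp (Nat.eq_one_of_dvd_coprimes
      (Nat.Coprime.pow_left k (Nat.coprime_two_left.mpr ⟨r, rfl⟩))
      (orderOf_dvd_of_pow_eq_one h12) (orderOf_dvd_of_pow_eq_one h10))
  change σ (c ^ 2) (b' i) = σ 1 (b' i)
  rw [h8, h11, map_one, one_smul, Module.End.one_apply]

theorem card_sylow_two [Fintype F] (hq : Fintype.card F % 4 = 3) (R : Sylow 2 (GL (Fin 2) F)) :
    16 ≤ Nat.card (R : Subgroup (GL (Fin 2) F)) := by
  classical
  have hF : Odd (Fintype.card F) := Nat.odd_iff.mpr (by omega)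
  rw [R.card_eq_multiplicity, Nat.factorization_def _ Nat.prime_two, val_card_GL hF]
  have h1 := val_odd_pow hq 0
  have h2 : 3 ≤ padicValNat 2 (Fintype.card F ^ 2 - 1) :=
    (padicValNat_dvd_iff_le (Nat.sub_pos_of_lt
      (Nat.one_lt_pow two_ne_zero Fintype.one_lt_card)).ne').mp (Nat.eight_dvd_sq_sub_one_of_odd hF)
  have : 4 ≤ gv (Fintype.card F) 2 := by
    simp only [gv, Finset.sum_range_succ, Finset.sum_range_zero] at h1 ⊢
    norm_num at h1 ⊢
    omega
  exact Nat.pow_le_pow_right two_pos this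

theorem le_neg_of_normalized [Fintype F] (hq : Fintype.card F % 4 = 3)
    (R : Sylow 2 (GL (Fin 2) F)) (U : Subgroup (GL (Fin 2) F)) (hU : ∀ u ∈ U, u ^ 2 = 1)
    (hR : (R : Subgroup (GL (Fin 2) F)) ≤ normalizer (U : Set (GL (Fin 2) F))) :
    U ≤ zpowers (-1 : GL (Fin 2) F) := by
  classical
  have h2 : (2 : F) ≠ 0 := two_ne_zero_of_odd (Nat.odd_iff.mpr (by omega))
  intro u hu
  by_contra hu1
  have hne : U ≠ ⊥ := by
    rintro rfl
    rw [mem_bot] at hu
    exact hu1 (by rw [hu]; exact one_mem _)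
  have hUp : IsPGroup 2 U := fun x => ⟨1, Subtype.ext (by simpa using hU x x.2)⟩
  have h1 := CL.PN.commutator_lt_of_isPGroup hUp R.isPGroup' hR hne
  have h3 : Nat.card ↥⁅U, (R : Subgroup (GL (Fin 2) F))⁆ ≤ 2 := by
    have a := card_le_GL h2 U hU
    obtain ⟨c, hc⟩ := card_dvd_of_le h1.le
    have b := CL.PN.card_lt_of_lt h1
    rw [hc] at a b
    have : 2 ≤ c := by
      by_contra hcon
      push Not at hcon
      interval_cases c <;> omega
    nlinarith
  have h4 := CL.PG.relIndex_centralizer_le_card (R : Subgroup (GL (Fin 2) F))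
      ⁅U, (R : Subgroup (GL (Fin 2) F))⁆ u fun x hx => by
    rw [commutator_comm U]
    exact commutator_mem_commutator hx hu
  have h5 : Nat.card ↥(centralizer {u} ⊓ (R : Subgroup (GL (Fin 2) F))) ≤ 2 ^ 2 := by
    refine card_le_GL h2 _ fun c hc => ?_
    obtain ⟨k, hk⟩ := R.isPGroup' ⟨c, hc.2⟩
    exact sq_eq_one_of_commute hq (hU u hu) hu1 (mem_centralizer_singleton_iff.mp hc.1) (k := k)
      (congrArg Subtype.val hk)
  have h6 := CL.PN.card_inf_mul_relIndex (centralizer {u}) (R : Subgroup (GL (Fin 2) F))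
  have h7 := card_sylow_two hq R
  have := Nat.mul_le_mul h5 (h4.trans h3)
  omega

theorem upper [Fintype F] (hq : Fintype.card F % 4 = 3) (m e : ℕ) :
    ∃ T : Sylow 2 (Wr (GL (Fin 2) F) m × GL (Fin e) F), 
      ∀ E : Subgroup (T : Subgroup (Wr (GL (Fin 2) F) m × GL (Fin e) F)),
      E.Normal → Cfsg.IsElementaryAbelian 2 E → Nat.card E ≤ 2 ^ (m + e) := by
  classical
  have h2 : (2 : F) ≠ 0 := two_ne_zero_of_odd (Nat.odd_iff.mpr (by omega))
  obtain ⟨R⟩ : Nonempty (Sylow 2 (GL (Fin 2) F)) := inferInstance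
  obtain ⟨T, hT⟩ := ((base_isPGroup (m := m) R.isPGroup').map
    (MonoidHom.inl _ (GL (Fin e) F))).exists_le_sylow
  refine ⟨T, fun E hEn hE => ?_⟩
  let s : Fin m → R → T := fun i x => ⟨(SemidirectProduct.inl (Pi.mulSingle i x.1), 1),
    hT ⟨_, mem_base.mpr ⟨rfl, fun j => by
      change (Pi.mulSingle i x.1 : Fin m → GL (Fin 2) F) j ∈ _
      by_cases h : j = i
      · subst h; simp
      · simp [Pi.mulSingle_eq_of_ne h]⟩, rfl⟩⟩
  have hsq : ∀ (w : Wr (GL (Fin 2) F) m) (i : Fin m), w.right = 1 → w ^ 2 = 1 → w.left i ^ 2 = 1 := by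
    intro w i h1 h3
    have := congrArg (fun y : Wr (GL (Fin 2) F) m => y.left i) h3
    simpa [sq, mul_left, h1] using this
  have hE2 : ∀ w ∈ E, (w.1.1) ^ 2 = 1 := fun w hw =>
    congrArg (fun y : T => y.1.1) (hE.2 w hw)
  have hright : ∀ w ∈ E, w.1.1.right = 1 := by
    intro w hw
    by_contra hne
    obtain ⟨i, hi⟩ : ∃ i, w.1.1.right⁻¹ i ≠ i := by
      by_contra hcon
      push Not at hcon
      exact hne (inv_eq_one.mp (Equiv.ext hcon))
    have h3 : ∀ x ∈ (R : Subgroup (GL (Fin 2) F)), x ^ 2 = 1 := by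
      intro x hx
      have h4 : ⁅s i ⟨x, hx⟩, w⁆ ∈ E := by
        rw [commutatorElement_def]
        exact E.mul_mem (hEn.conj_mem w hw _) (E.inv_mem hw)
      have h5 := hsq _ i (by simp [commutatorElement_def, s]) (hE2 _ h4)
      have hi' : (Equiv.symm w.1.1.right) i ≠ i := hi
      simpa [commutatorElement_def, s, mul_left, inv_left, Pi.mulSingle_eq_of_ne hi'] using h5
    have := card_le_GL h2 _ h3
    have := card_sylow_two hq R
    omega
  have hleft : ∀ (i : Fin m), ∀ w ∈ E, w.1.1.left i ∈ zpowers (-1 : GL (Fin 2) F) := by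
    intro i
    let π : E →* GL (Fin 2) F := MonoidHom.mk' (fun w => w.1.1.1.left i) (by
      intro a b
      change (a.1.1.1 * b.1.1.1).left i = _
      rw [mul_left, hright _ a.2]; rfl)
    have := le_neg_of_normalized hq R π.range (by
      rintro _ ⟨w, rfl⟩
      exact hsq _ i (hright _ w.2) (hE2 _ w.2)) (by
      intro x hx
      refine mem_normalizer_fintype ?_
      rintro _ ⟨w, rfl⟩
      refine ⟨⟨_, hEn.conj_mem w.1 w.2 (s i ⟨x, hx⟩)⟩, ?_⟩
      simp [π, s, mul_left, inv_left, hright _ w.2])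
    intro w hw
    exact this ⟨⟨w, hw⟩, rfl⟩
  let E₂ : Subgroup (GL (Fin e) F) := E.map ((MonoidHom.snd _ _).comp (Subgroup.subtype _))
  have h3 : Nat.card E₂ ≤ 2 ^ e := card_le_GL h2 _ (by
    rintro _ ⟨w, hw, rfl⟩
    rw [← map_pow, hE.2 w hw, map_one])
  let g : E → base (zpowers (-1 : GL (Fin 2) F)) m × E₂ := fun w =>
    (⟨w.1.1.1, mem_base.mpr ⟨hright _ w.2, fun i => hleft i _ w.2⟩⟩, ⟨w.1.1.2, w.1, w.2, rfl⟩)
  have hg : Function.Injective g := by
    intro a b hab
    exact Subtype.ext (Subtype.ext (Prod.ext (congrArg (fun y => y.1.1) hab)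
      (congrArg (fun y => y.2.1) hab)))
  refine (Nat.card_le_card_of_injective g hg).trans ?_
  rw [Nat.card_prod, card_base, card_neg h2 two_ne_zero, pow_add]
  exact Nat.mul_le_mul_left _ h3

end

/-- The normal 2-rank of the general linear group over a finite field of odd order q: for n ≥ 1 and S a Sylow 2-subgroup of GL_n(F), the largest rank of an elementary abelian subgroup of S that is normal in S equals n when q ≡ 1 (mod 4) and ⌊(n + 1)/2⌋ when q ≡ 3 (mod 4). -/
theorem result {F : Type*} [Field F] [Fintype F] {q : ℕ} (hF : Fintype.card F = q) (hodd : Odd q) (n : ℕ) (hn : 1 ≤ n) (S : Sylow 2 (Matrix.GeneralLinearGroup (Fin n) F)) :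
    (q % 4 = 1 → ((∃ E : Subgroup ↥(S : Subgroup (Matrix.GeneralLinearGroup (Fin n) F)), E.Normal ∧ Cfsg.IsElementaryAbelian 2 E ∧ 2 ^ (n) ≤ Nat.card ↥E) ∧
      ∀ E : Subgroup ↥(S : Subgroup (Matrix.GeneralLinearGroup (Fin n) F)), E.Normal → Cfsg.IsElementaryAbelian 2 E → Nat.card ↥E ≤ 2 ^ (n))) ∧
    (q % 4 = 3 → ((∃ E : Subgroup ↥(S : Subgroup (Matrix.GeneralLinearGroup (Fin n) F)), E.Normal ∧ Cfsg.IsElementaryAbelian 2 E ∧ 2 ^ ((n + 1) / 2) ≤ Nat.card ↥E) ∧
      ∀ E : Subgroup ↥(S : Subgroup (Matrix.GeneralLinearGroup (Fin n) F)), E.Normal → Cfsg.IsElementaryAbelian 2 E → Nat.card ↥E ≤ 2 ^ ((n + 1) / 2))) := by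
  classical
  subst hF
  have h2 := two_ne_zero_of_odd hodd
  constructor
  · intro hq
    refine ⟨?_, fun E _ hE => ?_⟩
    · obtain ⟨m, rfl⟩ : ∃ m, n = 1 * m + 0 := ⟨n, by ring⟩
      obtain ⟨f, hf⟩ := exists_hom (F := F) 1 m 0 one_ne_zero
      obtain ⟨T⟩ : Nonempty (Sylow 2 (Wr (GL (Fin 1) F) m × GL (Fin 0) F)) := inferInstance
      obtain ⟨e⟩ := sylow_equiv f hf (by
        rw [val_card_GL hodd, val_W hodd, one_mul, add_zero, gv_one_mod hq Fintype.one_lt_card m]
        omega) T S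
      have := lower_of_equiv e (lower_sylow (lower h2 1 m 0 one_ne_zero zero_le_one) T)
      simpa using this
    · rw [← card_map_of_injective (Subgroup.subtype_injective _)]
      refine card_le_GL h2 _ ?_
      rintro _ ⟨x, hx, rfl⟩
      rw [← map_pow, hE.2 x hx, map_one]
  · intro hq
    obtain ⟨m, e, he, rfl⟩ : ∃ m e, e ≤ 1 ∧ n = 2 * m + e := ⟨n / 2, n % 2, by omega, by omega⟩
    obtain ⟨f, hf⟩ := exists_hom (F := F) 2 m e two_ne_zero
    obtain ⟨T, hT⟩ := upper hq m e
    obtain ⟨φ⟩ := sylow_equiv f hf (by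
      rw [val_card_GL hodd, val_W hodd, ← gv_three_mod hq]
      interval_cases e
      · simp
      · rw [gv_succ, val_odd_pow hq]
        have := val_odd_pow hq 0
        simp only [gv, Finset.sum_range_one] at this ⊢
        norm_num at this ⊢
        omega) T S
    rw [show (2 * m + e + 1) / 2 = m + e by omega]
    exact ⟨lower_of_equiv φ (lower_sylow (lower h2 2 m e two_ne_zero he) T), upper_of_equiv φ hT⟩

end Cfsg.Agent.S2249
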