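import Cfsg.Statements.S2251
import Mathlib
import Cfsg.Agent.CHEV.SzSub

set_option autoImplicit false
open Cfsg

namespace Cfsg.Agent.S2251

/-- The subgroups of the Suzuki group: with q = 2^(2m+1), m ≥ 1, r = 2^m and the group realised as the stabiliser in SL₄ of the Suzuki–Tits ovoid, every proper subgroup is contained in the normalizer of a Sylow 2-subgroup, or in the normalizer of a cyclic subgroup of order q − 1, q + 2r + 1 or q − 2r + 1, or in a subgroup isomorphic to a smaller Suzuki group Sz(s) with s = 2^(2k+1) ≥ 8 and 2k+1 a proper divisor of 2m+1. -/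
theorem result {F : Type*} [Field F] [Fintype F] {m : ℕ} (hm : 1 ≤ m) (hF : Fintype.card F = 2 ^ (2 * m + 1)) (M : Subgroup ↥(Cfsg.Sz F m)) (hM : M ≠ ⊤) :
    (∃ P : Sylow 2 ↥(Cfsg.Sz F m), M ≤ Subgroup.normalizer ((P : Subgroup ↥(Cfsg.Sz F m)) : Set ↥(Cfsg.Sz F m))) ∨
    (∃ U : Subgroup ↥(Cfsg.Sz F m), IsCyclic ↥U ∧ Nat.card ↥U ∈ ({2 ^ (2 * m + 1) - 1, 2 ^ (2 * m + 1) + 2 ^ (m + 1) + 1, 2 ^ (2 * m + 1) - 2 ^ (m + 1) + 1} : Set ℕ) ∧
      M ≤ Subgroup.normalizer (U : Set ↥(Cfsg.Sz F m))) ∨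
    (∃ (K : Type) (_ : Field K) (_ : Fintype K) (k : ℕ), 1 ≤ k ∧ k < m ∧ Fintype.card K = 2 ^ (2 * k + 1) ∧ 2 * k + 1 ∣ 2 * m + 1 ∧
      ∃ S : Subgroup ↥(Cfsg.Sz F m), Nonempty (↥S ≃* ↥(Cfsg.Sz K k)) ∧ M ≤ S) := by
  have := CL.Sz.charP_two hF
  have hq := CL.Sz.natCard_eq hF
  set M0 := CL.Sz.ovModel hm hF
  obtain ⟨t, ht0, ht1⟩ := CL.Sz.exists_ne_zero_one hm hF
  rcases M0.sub_cases hm hF M with ⟨g, h⟩ | ⟨g, h⟩ | ⟨x, hx, h⟩ | ⟨g, S, hS, h⟩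
  · exact Or.inl ⟨(M0.conj g).sylow, by rwa [CL.Sz.Model.coe_sylow, CL.Sz.Model.normalizer_U]⟩
  · refine Or.inr (Or.inl ⟨(M0.conj g).H, (M0.conj g).isCyclic_H, ?_, ?_⟩)
    · rw [CL.Sz.Model.card_H, hq]; simp
    · rwa [CL.Sz.Model.normalizer_H _ ht0 ht1]
  · refine Or.inr (Or.inl ⟨_, hx.isCyclic_centralizer, ?_, h⟩)
    rcases (hx.card_centralizer hm hF).1 with h | h <;> simp [h]
  · obtain ⟨k, hk, hd, h1, h2⟩ := CL.Sz.exists_card_subfield hF S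
    have hK : Nat.card (GaloisField 2 (2 * k + 1)) = 2 ^ (2 * k + 1) := GaloisField.card 2 _ (by omega)
    let := Fintype.ofFinite (GaloisField 2 (2 * k + 1))
    rw [Nat.card_eq_fintype_card] at hK
    refine Or.inr (Or.inr ⟨GaloisField 2 (2 * k + 1), inferInstance, this, k, h1 hS, h2 ?_, hK, hd,
      M, ?_, le_rfl⟩)
    · rintro rfl
      exact hM (h.trans (CL.Sz.Model.sub_top _))
    · obtain ⟨M'⟩ := (M0.conj g).nonempty_model_sub hF S hK hk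
      obtain ⟨e, -⟩ := M'.exists_equiv (CL.Sz.ovModel (h1 hS) hK)
      exact h ▸ ⟨e⟩

end Cfsg.Agent.S2251
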