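import Cfsg.Statements.S2254
import Cfsg.Agent.KSG.AltNil

set_option autoImplicit false
open Cfsg

namespace Cfsg.Agent.S2254

/-- Let n ≡ 3 (mod 4). Then every nilpotent subgroup of the symmetric group on n letters has order at most 3 times the order of a Sylow 2-subgroup of the symmetric group on n − 3 letters; the bound is attained by a nilpotent subgroup isomorphic to the direct product of such a Sylow 2-subgroup with a cyclic group of order 3; and any two nilpotent subgroups attaining the bound are conjugate. -/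
theorem result  (n : ℕ) (hn : n % 4 = 3)
    (P : Sylow 2 (Equiv.Perm (Fin (n - 3)))) :
    (∀ N : Subgroup (Equiv.Perm (Fin n)), Group.IsNilpotent N → Nat.card N ≤ 3 * Nat.card P) ∧
    (∃ M : Subgroup (Equiv.Perm (Fin n)), Group.IsNilpotent M ∧ Nat.card M = 3 * Nat.card P ∧
      Nonempty (M ≃* (↥(P : Subgroup (Equiv.Perm (Fin (n - 3)))) × Multiplicative (ZMod 3)))) ∧
    (∀ N₁ N₂ : Subgroup (Equiv.Perm (Fin n)), Group.IsNilpotent N₁ → Group.IsNilpotent N₂ →
      Nat.card N₁ = 3 * Nat.card P → Nat.card N₂ = 3 * Nat.card P →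
      ∃ g : Equiv.Perm (Fin n), N₂ = N₁.map (MulAut.conj g).toMonoidHom) := by
  have hP : Nat.card P = 2 ^ CL.KSG.e2 (n - 3) := by
    rw [CL.KSG.card_sylow_two_perm]; simp
  have hn' : Fintype.card (Fin n) % 4 = 3 := by simpa using hn
  refine ⟨fun N hN => ?_, ?_, fun N₁ N₂ hN₁ hN₂ h₁ h₂ => ?_⟩
  · have h := CL.KSG.card_le_nilF N hN
    rw [Nat.card_eq_fintype_card (α := Fin n), Fintype.card_fin, CL.KSG.nilF_of_eq hn] at h
    rwa [hP]
  · obtain ⟨c, hc, h⟩ := CL.KSG.exists_threeCycle_commute (Fin.castLEEmb (Nat.sub_le n 3))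
      (by simp; omega)
    exact CL.KSG.exists_prod_three _ (Equiv.Perm.viaEmbeddingHom_injective _) hc.orderOf h _
      P.isPGroup'
  · rw [hP] at h₁ h₂
    have key : ∀ N : Subgroup (Equiv.Perm (Fin n)), Group.IsNilpotent N →
        Nat.card N = 3 * 2 ^ CL.KSG.e2 (n - 3) → ∃ (Q : Subgroup (Equiv.Perm (Fin n)))
          (c : Equiv.Perm (Fin n)), N = Q ⊔ Subgroup.zpowers c ∧ c.IsThreeCycle ∧
            CL.MSS.SylIn 2 Q (Subgroup.centralizer {c}) := by
      intro N hN h
      obtain ⟨Q, c, e1, e2, e3, e4⟩ := CL.KSG.exists_decomp_three hN h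
      have h3 := CL.KSG.isThreeCycle_of_dvd_card_centralizer hn' e2 (by
        rw [Fintype.card_fin, ← e3]; exact Subgroup.card_dvd_of_le e4)
      refine ⟨Q, c, e1, h3, CL.KSG.sylIn_of_card e4 e3 ?_⟩
      simpa only [Fintype.card_fin] using CL.KSG.not_dvd_card_centralizer_threeCycle h3
    obtain ⟨Q₁, c₁, rfl, a1, a2⟩ := key N₁ hN₁ h₁
    obtain ⟨Q₂, c₂, rfl, b1, b2⟩ := key N₂ hN₂ h₂
    exact CL.KSG.exists_conj_of_decomp
      (Equiv.Perm.isConj_iff_cycleType_eq.2 (a1.trans b1.symm)) a2 b2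

end Cfsg.Agent.S2254
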