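import Cfsg.Statements.S2255
import Cfsg.Agent.KSG.AltNil

set_option autoImplicit false
open Cfsg

namespace Cfsg.Agent.S2255

/-- Let n be a natural number not congruent to 3 modulo 4, with n ∉ {5, 6, 9}. Then every nilpotent subgroup of the alternating group on n letters has order at most the order of a Sylow 2-subgroup of the alternating group (so the nilpotent subgroups of largest order are exactly the Sylow 2-subgroups). -/
theorem result  (n : ℕ) (hn : n % 4 ≠ 3)
    (h5 : n ≠ 5) (h6 : n ≠ 6) (h9 : n ≠ 9)
    (N : Subgroup (alternatingGroup (Fin n))) (hN : Group.IsNilpotent N)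
    (P : Sylow 2 (alternatingGroup (Fin n))) :
    Nat.card N ≤ Nat.card P := by
  by_cases h2 : 2 ≤ n
  swap
  · have : Subsingleton (Fin n) := by
      rw [← Finite.card_le_one_iff_subsingleton]; simp; omega
    have : Nat.card N ≤ 1 := Finite.card_le_one_iff_subsingleton.2 inferInstance
    exact this.trans Nat.card_pos
  have h := CL.KSG.two_mul_card_le_nilF (α := Fin n) (by simpa using h2)
    (by rw [Fintype.card_fin]; omega) (by simpa using h5) (by simpa using h6) (by simpa using h9)
    (N.map (alternatingGroup (Fin n)).subtype) (CL.isNilpotent_map _ _) (Subgroup.map_subtype_le _)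
  rw [Subgroup.card_map_of_injective Subtype.val_injective, CL.KSG.nilF_of_ne (by simpa using hn),
    ← CL.KSG.two_mul_card_sylow_two_alt (by simpa using h2) P] at h
  omega

end Cfsg.Agent.S2255
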