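import Cfsg.Statements.S2256
import Cfsg.Agent.KSG.AltNil
import Cfsg.Agent.KSG.AltAut

set_option autoImplicit false
open Cfsg

namespace Cfsg.Agent.S2256

/-- Let n ≡ 3 (mod 4) with n ≥ 7. Then every nilpotent subgroup of the alternating group on n letters has order at most 3 times the order of a Sylow 2-subgroup of the alternating group on n − 3 letters; the bound is attained by a nilpotent subgroup isomorphic to the direct product of such a Sylow 2-subgroup with a cyclic group of order 3; and any two nilpotent subgroups of the alternating group attaining the bound are conjugate in it. -/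
theorem result  (n : ℕ) (hn : n % 4 = 3) (h7 : 7 ≤ n)
    (P : Sylow 2 (alternatingGroup (Fin (n - 3)))) :
    (∀ N : Subgroup (alternatingGroup (Fin n)), Group.IsNilpotent N → Nat.card N ≤ 3 * Nat.card P) ∧
    (∃ M : Subgroup (alternatingGroup (Fin n)), Group.IsNilpotent M ∧ Nat.card M = 3 * Nat.card P ∧
      Nonempty (M ≃* (↥(P : Subgroup (alternatingGroup (Fin (n - 3)))) × Multiplicative (ZMod 3)))) ∧
    (∀ N₁ N₂ : Subgroup (alternatingGroup (Fin n)), Group.IsNilpotent N₁ → Group.IsNilpotent N₂ →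
      Nat.card N₁ = 3 * Nat.card P → Nat.card N₂ = 3 * Nat.card P →
      ∃ g : alternatingGroup (Fin n), N₂ = N₁.map (MulAut.conj g).toMonoidHom) := by
  have hP : 2 * Nat.card P = 2 ^ CL.KSG.e2 (n - 3) := by
    rw [CL.KSG.two_mul_card_sylow_two_alt (by simp; omega)]; simp
  have hn' : Fintype.card (Fin n) % 4 = 3 := by simpa using hn
  refine ⟨fun N hN => ?_, ?_, fun N₁ N₂ hN₁ hN₂ h₁ h₂ => ?_⟩
  · by_cases h9 : n = 9
    · omega
    have h := CL.KSG.two_mul_card_le_nilF (α := Fin n) (by simp; omega)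
      (by simp; omega) (by simp; omega) (by simp; omega) (by simpa using h9)
      (N.map (alternatingGroup (Fin n)).subtype) (CL.isNilpotent_map _ _) (Subgroup.map_subtype_le _)
    rw [Subgroup.card_map_of_injective Subtype.val_injective, Fintype.card_fin,
      CL.KSG.nilF_of_eq hn, ← hP] at h
    omega
  · obtain ⟨c, hc, h⟩ := CL.KSG.exists_threeCycle_commute (Fin.castLEEmb (Nat.sub_le n 3))
      (by simp; omega)
    obtain ⟨φ, h1, h2⟩ := CL.KSG.exists_alt_embedding (Fin.castLEEmb (Nat.sub_le n 3))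
    exact CL.KSG.exists_prod_three φ h1 (c := ⟨c, hc.mem_alternatingGroup⟩)
      (by rw [← Subgroup.orderOf_coe, hc.orderOf])
      (fun g => Subtype.ext (by simpa only [Subgroup.coe_mul, h2] using h g)) _ P.isPGroup'
  · obtain ⟨a, ha⟩ := P.isPGroup'.exists_card_eq
    rw [ha] at h₁ h₂ hP
    rw [← pow_succ'] at hP
    have key : ∀ N : Subgroup (alternatingGroup (Fin n)), Group.IsNilpotent N →
        Nat.card N = 3 * 2 ^ a → ∃ (Q : Subgroup (alternatingGroup (Fin n)))
          (c : alternatingGroup (Fin n)), N = Q ⊔ Subgroup.zpowers c ∧ c.1.IsThreeCycle ∧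
            CL.MSS.SylIn 2 Q (Subgroup.centralizer {c}) := by
      intro N hN h
      obtain ⟨Q, c, e1, e2, e3, e4⟩ := CL.KSG.exists_decomp_three hN h
      have e5 : orderOf c.1 = 3 := by rw [Subgroup.orderOf_coe, e2]
      have e6 : ¬ Subgroup.centralizer {c.1} ≤ alternatingGroup (Fin n) := fun hle => by
        obtain ⟨m, hm, h5⟩ := CL.KSG.exists_five_le_of_centralizer_le (by simp; omega) hle
        have := Nat.le_of_dvd (by omega) (e5 ▸ Equiv.Perm.dvd_of_mem_cycleType hm)
        omega
      have e7 := CL.KSG.card_centralizer_alt e6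
      have h3 := CL.KSG.isThreeCycle_of_dvd_card_centralizer hn' e5 (by
        rw [Fintype.card_fin, ← hP, ← e7, pow_succ', ← e3]
        exact Nat.mul_dvd_mul_left _ (Subgroup.card_dvd_of_le e4))
      refine ⟨Q, c, e1, h3, CL.KSG.sylIn_of_card e4 e3 fun hd => ?_⟩
      refine CL.KSG.not_dvd_card_centralizer_threeCycle h3 ?_
      rw [Fintype.card_fin, pow_succ', ← hP, ← e7]
      exact Nat.mul_dvd_mul_left _ hd
    obtain ⟨Q₁, c₁, rfl, a1, a2⟩ := key N₁ hN₁ h₁
    obtain ⟨Q₂, c₂, rfl, b1, b2⟩ := key N₂ hN₂ h₂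
    exact CL.KSG.exists_conj_of_decomp
      (alternatingGroup.isThreeCycle_isConj (by simp; omega) a1 b1) a2 b2

end Cfsg.Agent.S2256
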