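import Cfsg.Statements.S2257
import Cfsg.Agent.KSG.SL2Solub

set_option autoImplicit false
open Cfsg CL.GL2 CL.Char

namespace Cfsg.Agent.S2257

/-- Let G = PSL_2(F) with F a field of order q = 2^p, p prime, and for x ∈ G call the solubilizer of x the set of y ∈ G such that x and y generate a solvable subgroup. Then the solubilizer of an involution has 3q(q − 1) elements; that of a non-identity element of order dividing q − 1 has 2q(q − 1) elements; and that of a non-identity element of order dividing q + 1 has 2(q + 1) elements. -/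
theorem result (p : ℕ) (hp : p.Prime) {F : Type*} [Field F] [Fintype F]
    (hF : Fintype.card F = 2 ^ p) (x : Matrix.ProjectiveSpecialLinearGroup (Fin 2) F) :
    (orderOf x = 2 → Nat.card {y : Matrix.ProjectiveSpecialLinearGroup (Fin 2) F // Group.IsSolvable ↥(Subgroup.closure ({x, y} : Set (Matrix.ProjectiveSpecialLinearGroup (Fin 2) F)))} = 3 * 2 ^ p * (2 ^ p - 1)) ∧
    (x ≠ 1 → orderOf x ∣ 2 ^ p - 1 → Nat.card {y : Matrix.ProjectiveSpecialLinearGroup (Fin 2) F // Group.IsSolvable ↥(Subgroup.closure ({x, y} : Set (Matrix.ProjectiveSpecialLinearGroup (Fin 2) F)))} = 2 * 2 ^ p * (2 ^ p - 1)) ∧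
    (x ≠ 1 → orderOf x ∣ 2 ^ p + 1 → Nat.card {y : Matrix.ProjectiveSpecialLinearGroup (Fin 2) F // Group.IsSolvable ↥(Subgroup.closure ({x, y} : Set (Matrix.ProjectiveSpecialLinearGroup (Fin 2) F)))} = 2 * (2 ^ p + 1)) := by
  classical
  have hq : 2 ∣ Fintype.card F := hF ▸ dvd_pow_self 2 hp.ne_zero
  have h2 := two_eq_zero_of_even hq
  have : CharP F 2 := CharTwo.of_one_ne_zero_of_two_eq_zero one_ne_zero h2
  have h1 := Fintype.one_lt_card (α := F)
  obtain ⟨x, rfl⟩ := pslMk_surjective x
  have hs := sol_pslMk x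
  have hd := Reg.gcd_mul_orderOf_dvd (self_mem_centSL x)
  rw [gcd_even h2, one_mul] at hs hd
  rw [← hF]
  change (_ → sol _ = _) ∧ (_ → _ → sol _ = _) ∧ (_ → _ → sol _ = _)
  rw [hs]
  have hr : ∀ n, ¬ 2 ∣ n → pslMk F x ≠ 1 → orderOf (pslMk F x) ∣ n → Reg x := fun n hn h e => by
    by_contra hr
    exact hn (orderOf_pslMk_eq_char 2 hr (fun e => h (pslMk_eq_one_iff.2 e)) ▸ e)
  have h0 : Reg x → (x : Matrix (Fin 2) (Fin 2) F).trace ≠ 0 := fun h e => h (by
    rw [e]; linear_combination (-2) * h2)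
  have hc : ∀ n, n ∣ Fintype.card F + 1 → n ∣ Fintype.card F - 1 → n = 1 := fun n a b => by
    have h3 : n ∣ 2 := by
      have := Nat.dvd_sub a b
      rwa [show Fintype.card F + 1 - (Fintype.card F - 1) = 2 by omega] at this
    rcases (Nat.dvd_prime Nat.prime_two).1 h3 with e | e
    · exact e
    · subst e; omega
  refine ⟨fun h => ?_, fun h e => ?_, fun h e => ?_⟩
  · have hr : ¬ Reg x := fun hr => by
      rw [h] at hd
      rcases hr.cases with ⟨-, e⟩ | ⟨-, e⟩ <;> rw [e] at hd <;> omega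
    obtain ⟨g, u, b, hu, hb, rfl⟩ := exists_conj_upSL_of_not_reg hr fun e => by
      rw [pslMk_eq_one_iff.2 e, orderOf_one] at h
      omega
    obtain rfl : u = 1 := Units.ext (by
      have h3 : (u : F) * u = 1 := by nth_rewrite 1 [← hu]; exact u.inv_mul
      rcases mul_self_eq_one_iff.1 h3 with e | e
      · exact e
      · rw [e, Units.val_one]; linear_combination -h2)
    rw [sol_conj, sol_upSL_even h2 hb]
  · have hr := hr _ (by omega) h e
    refine sol_split hr (fun hn => h (orderOf_eq_one_iff.1 (hc _ ?_ e))) (h0 hr) fun h => (h h2).elim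
    exact card_centSL_noEig hn ▸ hd
  · have hr := hr _ (by omega) h e
    rcases hr.cases with ⟨hn, -⟩ | ⟨-, e'⟩
    · exact sol_noEig hn (h0 hr) fun h => (h h2).elim
    · exact (h (orderOf_eq_one_iff.1 (hc _ e (e' ▸ hd)))).elim

end Cfsg.Agent.S2257
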