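import Cfsg.Statements.S2258
import Cfsg.Agent.KSG.SL2Solub
import Cfsg.Agent.PLOC.SL23

set_option autoImplicit false
open Cfsg CL.GL2 CL.Char

namespace Cfsg.Agent.S2258

open scoped MatrixGroups
open Matrix

variable {F : Type*} [Field F] [Fintype F] [DecidableEq F]

theorem cube_iff {t : F} : t ^ 3 = t ↔ t = 0 ∨ t ^ 2 = 1 := by
  rw [← sub_eq_zero, show t ^ 3 - t = t * (t ^ 2 - 1) by ring, mul_eq_zero, sub_eq_zero]

theorem exists_cast [CharP F 3] {t : F} (h : t ^ 3 = t) : ∃ e : ZMod 3, ZMod.castHom (dvd_refl 3) F e = t := by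
  rcases cube_iff.1 h with h | h
  · exact ⟨0, by rw [map_zero, h]⟩
  · rcases sq_eq_one_iff.1 h with h | h
    · exact ⟨1, by rw [map_one, h]⟩
    · exact ⟨-1, by rw [map_neg, map_one, h]⟩

theorem trace_cube (h3 : (3 : F) = 0) (hq : Fintype.card F % 8 = 3) (hq3 : 3 ∣ Fintype.card F) {t : SL(2, F)}
    (h : orderOf t ∣ 48) : (t : Matrix (Fin 2) (Fin 2) F).trace ^ 3 = (t : Matrix (Fin 2) (Fin 2) F).trace := by
  have h2 : (2 : F) ≠ 0 := two_ne_zero_of_odd (Nat.odd_iff.2 (by omega))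
  rw [cube_iff]
  by_cases hr : Reg t
  · left
    have hd := Reg.gcd_mul_orderOf_dvd (self_mem_centSL t)
    have h1 := (orderOf_map_dvd (pslMk F) t).trans h
    have h4 : orderOf (pslMk F t) ≠ 1 := fun e => hr.not_isScal (pslMk_eq_one_iff.1 (orderOf_eq_one_iff.1 e))
    rw [gcd_odd h2] at hd
    rw [← orderOf_pslMk_eq_two_iff h2]
    generalize orderOf (pslMk F t) = n at *
    have h5 := Nat.le_of_dvd (by decide) h1
    rcases hr.cases with ⟨-, e⟩ | ⟨-, e⟩ <;> rw [e] at hd <;> interval_cases n <;> omega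
  · right
    rw [Reg, not_not] at hr
    linear_combination hr + h3

theorem solv_upSL [CharP F 3] {b : F} (hb : b ≠ 0) {y : SL(2, F)}
    (h1 : (y : Matrix (Fin 2) (Fin 2) F).trace ^ 3 = (y : Matrix (Fin 2) (Fin 2) F).trace)
    (h2 : (b * (y : Matrix (Fin 2) (Fin 2) F) 1 0) ^ 2 = 1) :
    Group.IsSolvable (Subgroup.closure ({upSL 1 b, y} : Set SL(2, F))) := by
  have hc : (y : Matrix (Fin 2) (Fin 2) F) 1 0 ≠ 0 := fun e => by simp [e] at h2
  obtain ⟨τ, hτ⟩ := exists_cast h1
  obtain ⟨e, he⟩ := exists_cast (cube_iff.2 (Or.inr h2))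
  have hee : e * e = 1 := (ZMod.castHom (dvd_refl 3) F).injective (by rw [map_mul, he, map_one, ← sq, h2])
  let φ : SL(2, ZMod 3) →* SL(2, F) := (sig (Units.mk0 b hb)).toMonoidHom.comp
    (Matrix.SpecialLinearGroup.map (ZMod.castHom (dvd_refl 3) F))
  have : Group.IsSolvable SL(2, ZMod 3) := isSolvable_of_card_dvd_pow_mul_pow (a := 3) (b := 1) Nat.prime_two
    Nat.prime_three (by rw [CL.Tr.card_sl23]; decide)
  let s := -(y : Matrix (Fin 2) (Fin 2) F) 0 0 / (y : Matrix (Fin 2) (Fin 2) F) 1 0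
  rw [← isSolvable_closure_congr (MulAut.conj (upSL 1 s)), MulAut.conj_apply, MulAut.conj_apply,
    unipSL_comm (mem_unipSL.2 ⟨s, rfl⟩) (mem_unipSL.2 ⟨b, rfl⟩), mul_inv_cancel_right]
  refine isSolvable_closure_of_mem (K := φ.range) (Group.isSolvable_of_surjective φ.rangeRestrict_surjective)
    ⟨mkSL !![1, 1; 0, 1] (by simp), ?_⟩ ⟨mkSL !![0, -e; e, τ] (by simp [hee]), ?_⟩
  · refine SL_ext_iff.2 (mat_ext ?_ ?_ ?_ ?_) <;> simp [φ, coe_sig, coe_upSL_one, coe_mkSL]
  · rw [eq_mul_inv_iff_mul_eq]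
    have hd := y.2
    rw [det_fin_two] at hd
    rw [trace_fin_two] at hτ
    have k : ∀ i j, (φ (mkSL !![0, -e; e, τ] (by simp [hee])) : Matrix (Fin 2) (Fin 2) F) i j =
        !![0, -(b * (b * (y : Matrix (Fin 2) (Fin 2) F) 1 0)); (y : Matrix (Fin 2) (Fin 2) F) 1 0,
          (y : Matrix (Fin 2) (Fin 2) F) 0 0 + (y : Matrix (Fin 2) (Fin 2) F) 1 1] i j := by
      rw [← hτ, ← he]
      intro i j
      fin_cases i <;> fin_cases j <;> simp [φ, coe_sig, coe_mkSL]
      rw [← ZMod.castHom_apply (h := dvd_refl 3), he, inv_mul_cancel_left₀ hb]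
    refine SL_ext_iff.2 (mat_ext ?_ ?_ ?_ ?_) <;>
      simp only [Matrix.SpecialLinearGroup.coe_mul, mul_00, mul_01, mul_10, mul_11, k, coe_upSL_one, of_apply,
        cons_val', cons_val_zero, cons_val_one, cons_val_fin_one, s] <;> field_simp
    · ring
    · linear_combination hd - h2
    · ring
    · ring

theorem solv_of_cube [CharP F 3] {u y : SL(2, F)} (hu : ¬ Reg u)
    (h1 : (y : Matrix (Fin 2) (Fin 2) F).trace ^ 3 = (y : Matrix (Fin 2) (Fin 2) F).trace)
    (h2 : ((u * y : SL(2, F)) : Matrix (Fin 2) (Fin 2) F).trace ^ 3 =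
      ((u * y : SL(2, F)) : Matrix (Fin 2) (Fin 2) F).trace) :
    Group.IsSolvable (Subgroup.closure ({u, y} : Set SL(2, F))) := by
  have h3 : (3 : F) = 0 := CharP.cast_eq_zero F 3
  by_cases hs : IsScal (u : Matrix (Fin 2) (Fin 2) F)
  · rw [Set.pair_comm]; exact isSolvable_of_isScal y hs
  obtain ⟨g, e, b, he, hb, rfl⟩ := exists_conj_upSL_of_not_reg hu hs
  obtain ⟨y, rfl⟩ := (MulAut.conj g).surjective y
  rw [← MulAut.conj_apply, isSolvable_closure_congr]
  rw [MulAut.conj_apply, conj_mul, trace_conj_SL] at h2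
  rw [MulAut.conj_apply, trace_conj_SL] at h1
  have key : ∀ b : F, b ≠ 0 → ((upSL 1 b * y : SL(2, F)) : Matrix (Fin 2) (Fin 2) F).trace ^ 3 =
      ((upSL 1 b * y : SL(2, F)) : Matrix (Fin 2) (Fin 2) F).trace →
      Group.IsSolvable (Subgroup.closure ({upSL 1 b, y} : Set SL(2, F))) := fun b hb h2 => by
    rw [trace_upSL_mul, ← trace_fin_two] at h2
    rcases cube_iff.1 (show (b * (y : Matrix (Fin 2) (Fin 2) F) 1 0) ^ 3 = b * (y : Matrix (Fin 2) (Fin 2) F) 1 0 by
      linear_combination h2 - h1 - ((y : Matrix (Fin 2) (Fin 2) F).trace * (b * (y : Matrix (Fin 2) (Fin 2) F) 1 0) *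
        ((y : Matrix (Fin 2) (Fin 2) F).trace + b * (y : Matrix (Fin 2) (Fin 2) F) 1 0)) * h3) with h | h
    · exact ((ce_upSL_iff inv_one hb).2 ((mul_eq_zero.1 h).resolve_left hb)).isSolvable
    · exact solv_upSL hb h1 h
  have h4 : (e : F) * e = 1 := by nth_rewrite 1 [← he]; exact e.inv_mul
  rcases mul_self_eq_one_iff.1 h4 with h | h
  · obtain rfl : e = 1 := Units.ext h
    exact key b hb h2
  · obtain rfl : e = -1 := Units.ext h
    have : upSL (-1) b = -upSL 1 (-b) := SL_ext_iff.2 (by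
      rw [Matrix.SpecialLinearGroup.coe_neg, coe_upSL_one, coe_upSL_neg_one]; simp)
    rw [this, neg_mul, Matrix.SpecialLinearGroup.coe_neg, trace_neg] at h2
    rw [this, ← isSolvable_closure_pslMk_iff, pslMk_neg, isSolvable_closure_pslMk_iff]
    exact key _ (neg_ne_zero.2 hb) (by linear_combination -h2)

theorem sol_upSL_three [CharP F 3] (hq : Fintype.card F % 8 = 3) {b : F} (hb : b ≠ 0) :
    sol (upSL 1 b) = Fintype.card F * (Fintype.card F + 5) := by
  have h3 : (3 : F) = 0 := CharP.cast_eq_zero F 3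
  have h2 : (2 : F) ≠ 0 := two_ne_zero_of_odd (Nat.odd_iff.2 (by omega))
  have key : ∀ y : SL(2, F), Group.IsSolvable (Subgroup.closure ({upSL 1 b, y} : Set SL(2, F))) ↔
      (y : Matrix (Fin 2) (Fin 2) F) 1 0 = 0 ∨ ((b * (y : Matrix (Fin 2) (Fin 2) F) 1 0) ^ 2 = 1 ∧
        ((y : Matrix (Fin 2) (Fin 2) F) 0 0 + (y : Matrix (Fin 2) (Fin 2) F) 1 1) ^ 3 =
        (y : Matrix (Fin 2) (Fin 2) F) 0 0 + (y : Matrix (Fin 2) (Fin 2) F) 1 1) := fun y => by
    rw [← trace_fin_two]
    constructor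
    · intro hy
      rcases solvable_pair_cases (not_isScal_upSL_one hb) hy with e | e | e | ⟨-, K, h, hx, hy⟩
      · rw [normalizer_centSL_upSL inv_one hb] at e
        exact Or.inl (mem_borelSL.1 e)
      · exact Or.inl ((ce_upSL_iff inv_one hb).1 e)
      · exact (trace_ne_zero_of_not_reg h2 (not_reg_upSL_one b) e.1).elim
      · have h1 := trace_cube h3 hq (char_dvd_card 3) ((Subgroup.orderOf_dvd_natCard _ hy).trans h)
        have h2 := trace_cube h3 hq (char_dvd_card 3) ((Subgroup.orderOf_dvd_natCard _ (mul_mem hx hy)).trans h)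
        rw [trace_upSL_mul, ← trace_fin_two] at h2
        refine (cube_iff.1 (show (b * (y : Matrix (Fin 2) (Fin 2) F) 1 0) ^ 3 = b * (y : Matrix (Fin 2) (Fin 2) F) 1 0 by
          linear_combination h2 - h1 - ((y : Matrix (Fin 2) (Fin 2) F).trace * (b * (y : Matrix (Fin 2) (Fin 2) F) 1 0) *
          ((y : Matrix (Fin 2) (Fin 2) F).trace + b * (y : Matrix (Fin 2) (Fin 2) F) 1 0)) * h3)).imp
          (fun h => (mul_eq_zero.1 h).resolve_left hb) fun h => ⟨h, h1⟩
    · rintro (e | e)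
      exacts [((ce_upSL_iff inv_one hb).2 e).isSolvable, solv_upSL hb e.2 e.1]
  rw [sol, Nat.card_congr (Equiv.subtypeEquivRight key),
    card_SL_bruhat fun a _ c d => c = 0 ∨ ((b * c) ^ 2 = 1 ∧ (a + d) ^ 3 = a + d)]
  simp only [Units.ne_zero, false_or, true_or]
  rw [Nat.card_congr (Equiv.subtypeProdEquivProd (p := fun c : Fˣ => (b * c) ^ 2 = 1)
    (q := fun x : F × F => (x.1 + x.2) ^ 3 = x.1 + x.2)), Nat.card_prod,
    card_subtype_prod fun a d : F => (a + d) ^ 3 = a + d,
    Finset.sum_congr rfl fun a _ => (card_subtype_eq_card {-a, 1 - a, -1 - a} fun d => ?_).trans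
      (Finset.card_eq_three.2 ⟨_, _, _, fun e => one_ne_zero (α := F) (by linear_combination -e),
        fun e => one_ne_zero (α := F) (by linear_combination e), fun e => h2 (by linear_combination e), rfl⟩),
    (card_subtype_eq_card {(Units.mk0 b hb)⁻¹, -(Units.mk0 b hb)⁻¹} fun c => ?_).trans
      (Finset.card_pair fun e => h2 ?_)]
  · have := Fintype.card_pos (α := F)
    simp only [Nat.card_eq_fintype_card, Fintype.card_subtype_true, Fintype.card_prod,
      Fintype.card_units, Finset.sum_const, Finset.card_univ, smul_eq_mul]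
    obtain ⟨k, hk⟩ : ∃ k, Fintype.card F = k + 1 := ⟨_, (Nat.succ_pred_eq_of_pos this).symm⟩
    rw [hk, Nat.add_sub_cancel]
    ring
  · simp only [Finset.mem_insert, Finset.mem_singleton, Units.ext_iff, Units.val_neg, Units.val_inv_eq_inv_val,
      Units.val_mk0, sq_eq_one_iff]
    exact or_congr ⟨fun e => by field_simp; linear_combination e, fun e => by rw [e]; field_simp⟩
      ⟨fun e => by field_simp; linear_combination e, fun e => by rw [e]; field_simp⟩
  · have := congrArg Units.val e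
    simp only [Units.val_neg, Units.val_inv_eq_inv_val, Units.val_mk0] at this
    exact (mul_eq_zero.1 (by linear_combination this)).resolve_right (inv_ne_zero hb)
  · simp only [cube_iff, Finset.mem_insert, Finset.mem_singleton, sq_eq_one_iff]
    exact or_congr ⟨fun e => by linear_combination e, fun e => by linear_combination e⟩
      (or_congr ⟨fun e => by linear_combination e, fun e => by linear_combination e⟩
        ⟨fun e => by linear_combination e, fun e => by linear_combination e⟩)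

theorem sq_add_one_ne (hq : Fintype.card F % 8 = 3) (r : F) : r ^ 2 ≠ -1 + 0 * r := fun e =>
  FiniteField.isSquare_neg_one_iff.1 ⟨r, by linear_combination -e⟩ (by omega)

theorem card_sq_add_sq (hq : Fintype.card F % 8 = 3) {c : F} (hc : c ≠ 0) :
    Nat.card {z : F × F // z.1 ^ 2 + z.2 ^ 2 = c} = Fintype.card F + 1 := by
  have := Fact.mk (sq_add_one_ne hq)
  rw [← card_norm_eq (a := -1) (b := 0) hc]
  exact (Nat.card_congr ((QuadraticAlgebra.equivProd (-1 : F) 0).subtypeEquiv fun z => iff_of_eq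
    (congrArg (· = c) (by rw [QuadraticAlgebra.norm_def]; simp [sq, QuadraticAlgebra.equivProd])))).symm

theorem sq_add_sq_eq_zero (hq : Fintype.card F % 8 = 3) {u v : F} (h : u ^ 2 + v ^ 2 = 0) : u = 0 ∧ v = 0 := by
  by_cases hv : v = 0
  · simpa [hv] using h
  · exact (sq_add_one_ne hq (u / v) (by field_simp; linear_combination h)).elim

theorem card_SL_quat (h2 : (2 : F) ≠ 0) (Q : F → F → F → F → Prop) :
    Nat.card {y : SL(2, F) // Q ((y : Matrix (Fin 2) (Fin 2) F) 0 0 + (y : Matrix (Fin 2) (Fin 2) F) 1 1)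
      ((y : Matrix (Fin 2) (Fin 2) F) 0 1 - (y : Matrix (Fin 2) (Fin 2) F) 1 0)
      ((y : Matrix (Fin 2) (Fin 2) F) 0 0 - (y : Matrix (Fin 2) (Fin 2) F) 1 1)
      ((y : Matrix (Fin 2) (Fin 2) F) 0 1 + (y : Matrix (Fin 2) (Fin 2) F) 1 0)} =
    Nat.card {z : (F × F) × F × F // z.2.1 ^ 2 + z.2.2 ^ 2 = z.1.1 ^ 2 + z.1.2 ^ 2 - 4 ∧ Q z.1.1 z.1.2 z.2.1 z.2.2} := by
  refine Nat.card_congr (Equiv.ofBijective (fun y => ⟨((_, _), _, _), ?_, y.2⟩) ⟨?_, ?_⟩)
  · have := y.1.2
    rw [det_fin_two] at this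
    linear_combination -4 * this
  · intro x y e
    simp only [Subtype.mk.injEq, Prod.mk.injEq] at e
    obtain ⟨⟨e1, e2⟩, e3, e4⟩ := e
    refine Subtype.ext (SL_ext_iff.2 (mat_ext ?_ ?_ ?_ ?_)) <;> refine mul_left_cancel₀ h2 ?_
    · linear_combination e1 + e3
    · linear_combination e2 + e4
    · linear_combination e4 - e2
    · linear_combination e1 - e3
  · rintro ⟨⟨⟨s, t⟩, u, v⟩, h, hQ⟩
    have e1 : (s + u) / 2 + (s - u) / 2 = s := by field_simp; ring
    have e2 : (v + t) / 2 - (v - t) / 2 = t := by field_simp; ring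
    have e3 : (s + u) / 2 - (s - u) / 2 = u := by field_simp; ring
    have e4 : (v + t) / 2 + (v - t) / 2 = v := by field_simp; ring
    refine ⟨⟨mkSL !![(s + u) / 2, (v + t) / 2; (v - t) / 2, (s - u) / 2] ?_, ?_⟩,
      Subtype.ext (Prod.ext (Prod.ext e1 e2) (Prod.ext e3 e4))⟩
    · rw [det_fin_two_of]
      field_simp
      linear_combination -h
    · show Q ((s + u) / 2 + (s - u) / 2) ((v + t) / 2 - (v - t) / 2) ((s + u) / 2 - (s - u) / 2)
        ((v + t) / 2 + (v - t) / 2)
      rwa [e1, e2, e3, e4]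

theorem sol_compSL [CharP F 3] (hq : Fintype.card F % 8 = 3) :
    sol (compSL (0 : F)) = 2 * (Fintype.card F * (Fintype.card F + 1)) := by
  have h3 : (3 : F) = 0 := CharP.cast_eq_zero F 3
  have h2 : (2 : F) ≠ 0 := two_ne_zero_of_odd (Nat.odd_iff.2 (by omega))
  have h0 : ((compSL (0 : F) : SL(2, F)) : Matrix (Fin 2) (Fin 2) F).trace = 0 := trace_compan _ _
  have hr := reg_of_trace_eq_zero h2 h0
  have hn : NoEig ((compSL (0 : F) : SL(2, F)) : Matrix (Fin 2) (Fin 2) F) := noEig_iff.2 fun c e => by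
    rw [cp_def, h0, (compSL (0 : F)).2] at e
    exact sq_add_one_ne hq c (by linear_combination e)
  have ht : ∀ y : SL(2, F), ((compSL 0 * y : SL(2, F)) : Matrix (Fin 2) (Fin 2) F).trace =
      (y : Matrix (Fin 2) (Fin 2) F) 0 1 - (y : Matrix (Fin 2) (Fin 2) F) 1 0 := fun y => by
    simp only [Matrix.SpecialLinearGroup.coe_mul, trace_fin_two, mul_00, mul_11, coe_compSL, compan, of_apply,
      cons_val', cons_val_zero, cons_val_one, cons_val_fin_one]
    ring
  have hc : ∀ y : SL(2, F), y ∈ centSL ((compSL (0 : F) : SL(2, F)) : Matrix (Fin 2) (Fin 2) F) ↔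
      (y : Matrix (Fin 2) (Fin 2) F) 0 0 - (y : Matrix (Fin 2) (Fin 2) F) 1 1 = 0 ∧
      (y : Matrix (Fin 2) (Fin 2) F) 0 1 + (y : Matrix (Fin 2) (Fin 2) F) 1 0 = 0 := fun y => by
    simp only [mem_centSL, mat_ext_iff, mul_00, mul_01, mul_10, mul_11, coe_compSL, compan, of_apply,
      cons_val', cons_val_zero, cons_val_one, cons_val_fin_one]
    exact ⟨fun e => ⟨by linear_combination -e.2.1, by linear_combination e.1⟩, fun e =>
      ⟨by linear_combination e.2, by linear_combination -e.1, by linear_combination -e.1, by linear_combination -e.2⟩⟩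
  let P : F → F → Prop := fun s t => s = 0 ∨ t = 0 ∨ (s ^ 2 = 1 ∧ t ^ 2 = 1)
  have key : ∀ y : SL(2, F), Group.IsSolvable (Subgroup.closure ({compSL 0, y} : Set SL(2, F))) ↔
      ((y : Matrix (Fin 2) (Fin 2) F) 0 0 - (y : Matrix (Fin 2) (Fin 2) F) 1 1 = 0 ∧
      (y : Matrix (Fin 2) (Fin 2) F) 0 1 + (y : Matrix (Fin 2) (Fin 2) F) 1 0 = 0) ∨
      P ((y : Matrix (Fin 2) (Fin 2) F) 0 0 + (y : Matrix (Fin 2) (Fin 2) F) 1 1)
        ((y : Matrix (Fin 2) (Fin 2) F) 0 1 - (y : Matrix (Fin 2) (Fin 2) F) 1 0) := fun y => by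
    rw [← hc, ← ht, ← trace_fin_two]
    constructor
    · intro hy
      rcases solvable_pair_cases hr.not_isScal hy with e | e | e | ⟨-, K, h, hx, hy⟩
      · by_cases e' : y ∈ centSL ((compSL (0 : F) : SL(2, F)) : Matrix (Fin 2) (Fin 2) F)
        · exact Or.inl e'
        · exact Or.inr (Or.inl (hr.trace_eq_zero e e'))
      · exact (e.not_noEig hn).elim
      · exact Or.inr (e.2.imp_right Or.inl)
      · have h1 := cube_iff.1 (trace_cube h3 hq (char_dvd_card 3) ((Subgroup.orderOf_dvd_natCard _ hy).trans h))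
        have h2 := cube_iff.1
          (trace_cube h3 hq (char_dvd_card 3) ((Subgroup.orderOf_dvd_natCard _ (mul_mem hx hy)).trans h))
        right
        simp only [P]
        tauto
    · rintro (e | e | e | e)
      · exact isSolvable_of_mem_normalizer hr.not_isScal (Subgroup.le_normalizer e)
      · exact isSolvable_of_trace_zero h0 e
      · exact isSolvable_of_trace_mul_zero h0 e
      · rw [Set.pair_comm]
        refine solv_of_cube (fun h => h (by linear_combination e.1 - h3)) (by rw [h0]; simp) (cube_iff.2 (Or.inr ?_))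
        rw [Matrix.SpecialLinearGroup.coe_mul, trace_mul_comm]
        exact e.2
  rw [sol, Nat.card_congr (Equiv.subtypeEquivRight key),
    card_SL_quat h2 fun s t u v => (u = 0 ∧ v = 0) ∨ P s t,
    card_subtype_prod fun x z : F × F => z.1 ^ 2 + z.2 ^ 2 = x.1 ^ 2 + x.2 ^ 2 - 4 ∧ ((z.1 = 0 ∧ z.2 = 0) ∨ P x.1 x.2)]
  classical
  have k1 : ∀ x : F × F, Nat.card {z : F × F // z.1 ^ 2 + z.2 ^ 2 = x.1 ^ 2 + x.2 ^ 2 - 4 ∧
      ((z.1 = 0 ∧ z.2 = 0) ∨ P x.1 x.2)} = (if x.1 ^ 2 + x.2 ^ 2 = 4 then 1 else 0) +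
        (if x.1 ^ 2 + x.2 ^ 2 ≠ 4 ∧ P x.1 x.2 then 1 else 0) * (Fintype.card F + 1) := fun x => by
    by_cases h : x.1 ^ 2 + x.2 ^ 2 = 4
    · rw [card_subtype_eq_card {(0, 0)} fun z => ?_]
      · simp [h]
      · rw [h, sub_self, Finset.mem_singleton, Prod.ext_iff]
        exact ⟨fun e => sq_add_sq_eq_zero hq e.1, fun e => ⟨by rw [e.1, e.2]; simp, Or.inl e⟩⟩
    by_cases hP : P x.1 x.2
    · simp only [hP, or_true, and_true, card_sq_add_sq hq (sub_ne_zero.2 h)]
      simp [h]
    · rw [card_subtype_eq_card ∅ fun z => ?_]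
      · simp [h, hP]
      · simp only [hP, or_false, Finset.notMem_empty, iff_false, not_and]
        intro e e1 e2
        rw [e1, e2] at e
        exact h (by linear_combination -e)
  have h4 : (4 : F) ≠ 0 := fun e => one_ne_zero (α := F) (by linear_combination e - h3)
  have k2 : ∑ x : F × F, (if x.1 ^ 2 + x.2 ^ 2 = 4 then 1 else 0) = Fintype.card F + 1 := by
    rw [← card_sq_add_sq hq h4, Nat.card_eq_fintype_card, Fintype.card_subtype, Finset.card_filter]
  have hm : (1 : F) ≠ -1 := fun e => h2 (by linear_combination e)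
  have k3 : ∀ s : F, (∑ t : F, if s ^ 2 + t ^ 2 ≠ 4 ∧ P s t then 1 else 0) + (if s = 0 then 3 else 0) =
      1 + (if s = 0 then Fintype.card F else 0) + (if s = 1 then 1 else 0) + if s = -1 then 1 else 0 := fun s => by
    rw [← Finset.card_filter]
    by_cases h0 : s = 0
    · have : (Finset.univ.filter fun t : F => s ^ 2 + t ^ 2 ≠ 4 ∧ P s t) = Finset.univ \ {1, -1} := by
        ext t
        simp only [h0, P, Finset.mem_filter, Finset.mem_univ, true_and, true_or, and_true, Finset.mem_sdiff,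
          Finset.mem_insert, Finset.mem_singleton, ← sq_eq_one_iff]
        exact not_congr ⟨fun e => by linear_combination e + h3, fun e => by linear_combination e - h3⟩
      rw [this, Finset.card_univ_sdiff, Finset.card_pair hm]
      have := Fintype.one_lt_card (α := F)
      simp [h0]
      omega
    by_cases h1 : s ^ 2 = 1
    · have : (Finset.univ.filter fun t : F => s ^ 2 + t ^ 2 ≠ 4 ∧ P s t) = {1, -1} := by
        ext t
        simp only [h0, h1, P, Finset.mem_filter, Finset.mem_univ, true_and, false_or,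
          Finset.mem_insert, Finset.mem_singleton, ← sq_eq_one_iff]
        exact ⟨fun e => e.2.resolve_left fun e' => e.1 (by rw [e']; linear_combination -h3),
          fun e => ⟨fun e' => h2 (by linear_combination e - e'), Or.inr e⟩⟩
      rw [this, Finset.card_pair hm]
      rcases sq_eq_one_iff.1 h1 with e | e <;> simp [e, hm, hm.symm]
    · have : (Finset.univ.filter fun t : F => s ^ 2 + t ^ 2 ≠ 4 ∧ P s t) = {0} := by
        ext t
        simp only [h0, h1, P, Finset.mem_filter, Finset.mem_univ, true_and, false_or, false_and, or_false,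
          Finset.mem_singleton]
        exact ⟨fun e => e.2, fun e => ⟨fun e' => h1 (by rw [e] at e'; linear_combination e' + h3), e⟩⟩
      rw [sq_eq_one_iff, not_or] at h1
      rw [this]
      simp [h0, h1.1, h1.2]
  have k4 := Finset.sum_congr rfl fun s (_ : s ∈ Finset.univ) => k3 s
  simp only [Finset.sum_add_distrib, Finset.sum_ite_eq', Finset.mem_univ, if_true, Finset.sum_const,
    Finset.card_univ, smul_eq_mul, mul_one] at k4
  rw [Finset.sum_congr rfl fun x _ => k1 x, Finset.sum_add_distrib, k2, ← Finset.sum_mul, Fintype.sum_prod_type]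
  generalize (∑ s : F, ∑ t : F, if s ^ 2 + t ^ 2 ≠ 4 ∧ P s t then 1 else 0) = n at k4 ⊢
  calc _ = (n + 1) * (Fintype.card F + 1) := by ring
    _ = _ := by rw [show n + 1 = 2 * Fintype.card F by omega, mul_assoc]

/-- Let G = PSL_2(F) with F a field of order q = 3^p, p an odd prime, and for x ∈ G call the solubilizer of x the set of y ∈ G such that x and y generate a solvable subgroup. Then the solubilizer of an involution has q(q + 1) elements; that of an element of order 3 has q(q + 5)/2 elements; that of an element of order neither 1 nor 2 dividing q − 1 has q(q − 1) elements; and that of an element of order neither 1 nor 2 dividing q + 1 has q + 1 elements. -/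
theorem result (p : ℕ) (hp : p.Prime) (hodd : Odd p) {F : Type*} [Field F] [Fintype F]
    (hF : Fintype.card F = 3 ^ p) (x : Matrix.ProjectiveSpecialLinearGroup (Fin 2) F) :
    (orderOf x = 2 → Nat.card {y : Matrix.ProjectiveSpecialLinearGroup (Fin 2) F // Group.IsSolvable ↥(Subgroup.closure ({x, y} : Set (Matrix.ProjectiveSpecialLinearGroup (Fin 2) F)))} = 3 ^ p * (3 ^ p + 1)) ∧
    (orderOf x = 3 → 2 * Nat.card {y : Matrix.ProjectiveSpecialLinearGroup (Fin 2) F // Group.IsSolvable ↥(Subgroup.closure ({x, y} : Set (Matrix.ProjectiveSpecialLinearGroup (Fin 2) F)))} = 3 ^ p * (3 ^ p + 5)) ∧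
    (x ≠ 1 → orderOf x ≠ 2 → orderOf x ∣ 3 ^ p - 1 → Nat.card {y : Matrix.ProjectiveSpecialLinearGroup (Fin 2) F // Group.IsSolvable ↥(Subgroup.closure ({x, y} : Set (Matrix.ProjectiveSpecialLinearGroup (Fin 2) F)))} = 3 ^ p * (3 ^ p - 1)) ∧
    (x ≠ 1 → orderOf x ≠ 2 → orderOf x ∣ 3 ^ p + 1 → Nat.card {y : Matrix.ProjectiveSpecialLinearGroup (Fin 2) F // Group.IsSolvable ↥(Subgroup.closure ({x, y} : Set (Matrix.ProjectiveSpecialLinearGroup (Fin 2) F)))} = 3 ^ p + 1) := by
  classical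
  have hq3 : 3 ∣ Fintype.card F := hF ▸ dvd_pow_self 3 hp.ne_zero
  have hq : Fintype.card F % 8 = 3 := by
    obtain ⟨k, rfl⟩ := hodd
    rw [hF, pow_succ, pow_mul, Nat.mul_mod, Nat.pow_mod]
    simp
  have : CharP F 3 := by
    obtain ⟨r, hr⟩ := CharP.exists F
    obtain ⟨n, hrp, hn⟩ := FiniteField.card F r
    rwa [(Nat.prime_dvd_prime_iff_eq Nat.prime_three hrp).1 (Nat.prime_three.dvd_of_dvd_pow (hn ▸ hq3))]
  have h3 : (3 : F) = 0 := CharP.cast_eq_zero F 3
  have h2 : (2 : F) ≠ 0 := two_ne_zero_of_odd (Nat.odd_iff.2 (by omega))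
  obtain ⟨x, rfl⟩ := pslMk_surjective x
  have hs := sol_pslMk x
  have hd := Reg.gcd_mul_orderOf_dvd (self_mem_centSL x)
  rw [gcd_odd h2] at hs hd
  rw [← hF]
  change (_ → sol _ = _) ∧ (_ → 2 * sol _ = _) ∧ (_ → _ → _ → sol _ = _) ∧ (_ → _ → _ → sol _ = _)
  have hr : ∀ n, ¬ 3 ∣ n → pslMk F x ≠ 1 → orderOf (pslMk F x) ∣ n → Reg x := fun n hn h e => by
    by_contra hr
    exact hn (orderOf_pslMk_eq_char 3 hr (fun e => h (pslMk_eq_one_iff.2 e)) ▸ e)
  have h0 : orderOf (pslMk F x) ≠ 2 → (x : Matrix (Fin 2) (Fin 2) F).trace ≠ 0 := fun h e =>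
    h ((orderOf_pslMk_eq_two_iff h2).2 e)
  have h48 : Reg x → orderOf (pslMk F x) ≠ 2 → (2 : F) ≠ 0 → ¬ orderOf x ∣ 48 := fun h h' _ e =>
    (cube_iff.1 (trace_cube h3 hq hq3 e)).elim (h0 h') fun e => h (by linear_combination e - h3)
  have hc : ∀ n, n ∣ Fintype.card F + 1 → n ∣ Fintype.card F - 1 → n = 1 ∨ n = 2 := fun n a b => by
    have h3 : n ∣ 2 := by
      have := Nat.dvd_sub a b
      rwa [show Fintype.card F + 1 - (Fintype.card F - 1) = 2 by omega] at this
    exact (Nat.dvd_prime Nat.prime_two).1 h3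
  refine ⟨fun h => ?_, fun h => ?_, fun h h' e => ?_, fun h h' e => ?_⟩
  · have h0 := (orderOf_pslMk_eq_two_iff h2).1 h
    obtain ⟨g, rfl⟩ := isConj_iff.1 (isConj_SL_of_trace (h := compSL 0) (reg_of_trace_eq_zero h2 h0).sep
      ((trace_compan _ _).trans h0.symm)).symm
    rw [sol_conj, sol_compSL hq] at hs
    omega
  · have hr : ¬ Reg x := fun hr => by
      rw [h] at hd
      rcases hr.cases with ⟨-, e⟩ | ⟨-, e⟩ <;> rw [e] at hd <;> omega
    obtain ⟨g, u, b, hu, hb, rfl⟩ := exists_conj_upSL_of_not_reg hr fun e => by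
      rw [pslMk_eq_one_iff.2 e, orderOf_one] at h
      omega
    rw [hs, sol_conj]
    have h4 : (u : F) * u = 1 := by nth_rewrite 1 [← hu]; exact u.inv_mul
    rcases mul_self_eq_one_iff.1 h4 with h | h
    · obtain rfl : u = 1 := Units.ext h
      exact sol_upSL_three hq hb
    · obtain rfl : u = -1 := Units.ext h
      have : upSL (-1) b = -upSL 1 (-b) := SL_ext_iff.2 (by
        rw [Matrix.SpecialLinearGroup.coe_neg, coe_upSL_one, coe_upSL_neg_one]; simp)
      rw [this, sol_neg, sol_upSL_three hq (neg_ne_zero.2 hb)]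
  · have hr := hr _ (by omega) h e
    rw [sol_split hr (fun hn => (hc _ ((dvd_mul_left _ _).trans (card_centSL_noEig hn ▸ hd)) e).elim
      (fun e => h (orderOf_eq_one_iff.1 e)) h') (h0 h') (h48 hr h'), mul_assoc] at hs
    omega
  · have hr := hr _ (by omega) h e
    rcases hr.cases with ⟨hn, -⟩ | ⟨-, e'⟩
    · rw [sol_noEig hn (h0 h') (h48 hr h')] at hs
      omega
    · exact (hc _ e ((dvd_mul_left _ _).trans (e' ▸ hd))).elim (fun e => (h (orderOf_eq_one_iff.1 e)).elim)
        fun e => (h' e).elim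

end Cfsg.Agent.S2258
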