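import Cfsg.Statements.S2259
import Mathlib
import Cfsg.Agent.CHEV.SzTor

set_option autoImplicit false
open Cfsg

namespace Cfsg.Agent.S2259

open CL.Sz CL.Sz.Model

theorem conj_mem_of_closure {G : Type*} [Group G] {N : Subgroup G} {x y g c : G}
    (hx : g⁻¹ * x * g ∈ N) (hy : g⁻¹ * y * g ∈ N) (hc : c ∈ Subgroup.closure ({x, y} : Set G)) :
    g⁻¹ * c * g ∈ N := by
  have : Subgroup.closure ({x, y} : Set G) ≤ N.comap (MulAut.conj g⁻¹).toMonoidHom := by
    rw [Subgroup.closure_le]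
    rintro _ (rfl | rfl) <;> simpa
  simpa using this hc

theorem solvable_of_conj {G : Type*} [Group G] {N : Subgroup G} (hN : Group.IsSolvable N)
    {x y g : G} (hx : g⁻¹ * x * g ∈ N) (hy : g⁻¹ * y * g ∈ N) :
    Group.IsSolvable (Subgroup.closure ({x, y} : Set G)) := by
  let f : Subgroup.closure ({x, y} : Set G) →* N :=
    ((MulAut.conj g⁻¹).toMonoidHom.comp (Subgroup.subtype _)).codRestrict N fun c => by
      simpa using conj_mem_of_closure hx hy c.2
  refine Group.isSolvable_of_isSolvable_injective (f := f) fun a b h => ?_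
  exact Subtype.ext ((MulAut.conj g⁻¹).injective (congrArg Subtype.val h))

theorem orderOf_conj' {G : Type*} [Group G] (k x : G) : orderOf (k⁻¹ * x * k) = orderOf x := by
  simpa using (MulAut.conj k⁻¹).orderOf_eq x

section

variable {F : Type*} [Field F] [CharP F 2] [Finite F] {θ : F →+* F} {G : Type*} [Group G]
  (M : Model θ G)

/-- The part of the solubilizer outside `B` coming from one class of tori. -/
def W (N : Subgroup G) (x : G) : Set G :=
  {y | y ∉ M.B ∧ ∃ g, g⁻¹ * x * g ∈ N ∧ g⁻¹ * y * g ∈ N}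

theorem exists_odd {x y : G} (hx : x ∈ M.U) (h1 : x ≠ 1) (hy : y ∉ M.B) :
    ∃ c, c ≠ 1 ∧ ∀ {P N : Subgroup G} {s : ℕ}, Tor P N s → ∀ g, g⁻¹ * x * g ∈ N →
      g⁻¹ * y * g ∈ N → g⁻¹ * c * g ∈ P := by
  have := M.finite_G
  obtain ⟨c, hc, hc1, hodd⟩ := M.exists_odd_of_not_le (L := Subgroup.closure ({x, y} : Set G))
    (Subgroup.subset_closure (by simp)) hx h1
    (fun h => hy (M.U_le_B (h (Subgroup.subset_closure (by simp)))))
  exact ⟨c, hc1, fun T g h1 h2 => T.mem_of_odd (conj_mem_of_closure h1 h2 hc)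
    (by rwa [orderOf_conj'])⟩

theorem ncard_W_mul {P N : Subgroup G} {s : ℕ} (T : Tor P N s) {x : G} (hx : x ∈ M.U)
    (h1 : x ≠ 1) : (W M N x).ncard * Nat.card N =
      {g | g⁻¹ * x * g ∈ N}.ncard * (Nat.card N - s) := by
  classical
  have := M.finite_G
  have := Fintype.ofFinite G
  have key := Finset.card_mul_eq_card_mul (s := (W M N x).toFinset)
    (t := {g | g⁻¹ * x * g ∈ N}.toFinset)
    (fun y g => g⁻¹ * y * g ∈ N) (m := Nat.card N) (n := Nat.card N - s) ?_ ?_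
  · rw [Set.ncard_eq_toFinset_card', Set.ncard_eq_toFinset_card', key]
  · intro y hy
    obtain ⟨hyB, k, hk1, hk2⟩ := Set.mem_toFinset.mp hy
    obtain ⟨c, hc1, hc⟩ := exists_odd M hx h1 hyB
    rw [Nat.card_eq_fintype_card, ← Finset.card_univ]
    symm
    refine Finset.card_bij (fun n _ => k * n) ?_ ?_ ?_
    · intro n _
      simp only [Finset.mem_bipartiteAbove, Set.mem_toFinset, Set.mem_ofPred_eq]
      exact ⟨by simpa [mul_assoc] using N.mul_mem (N.mul_mem (N.inv_mem n.2) hk1) n.2,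
        by simpa [mul_assoc] using N.mul_mem (N.mul_mem (N.inv_mem n.2) hk2) n.2⟩
    · intro a _ b _ h
      exact Subtype.ext (mul_left_cancel h)
    · intro g hg
      simp only [Finset.mem_bipartiteAbove, Set.mem_toFinset, Set.mem_ofPred_eq] at hg
      refine ⟨⟨k⁻¹ * g, (T.ti _ (hc T k hk1 hk2) (inv_conj_ne_one k hc1) _).mp ?_⟩,
        Finset.mem_univ _, by simp⟩
      simpa [mul_assoc] using hc T g hg.1 hg.2
  · intro g hg
    simp only [Set.mem_toFinset, Set.mem_ofPred_eq] at hg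
    have h2 := (M.conj g⁻¹).Tor_card_inf_B T (x := g⁻¹ * x * g)
      (by rw [mem_conj_U]; simpa [mul_assoc] using hx) (inv_conj_ne_one g h1) hg
    rw [← h2, ← SetLike.coe_sort_coe, ← SetLike.coe_sort_coe, Nat.card_coe_set_eq,
      Nat.card_coe_set_eq, ← Set.ncard_sdiff (by exact fun _ h => h.1), Set.ncard_eq_toFinset_card']
    refine Finset.card_bij (fun y _ => g⁻¹ * y * g) ?_ ?_ ?_
    · intro y hy
      simp only [Finset.mem_bipartiteBelow, Set.mem_toFinset] at hy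
      rw [Set.mem_toFinset]
      refine ⟨hy.2, fun h => hy.1.1 ?_⟩
      have := (M.mem_conj_B _ _).mp h.2
      simpa [mul_assoc] using this
    · intro a _ b _ h
      simpa using h
    · intro t ht
      rw [Set.mem_toFinset] at ht
      have h3 : g⁻¹ * (g * t * g⁻¹) * g ∈ N := by simpa [mul_assoc] using ht.1
      refine ⟨g * t * g⁻¹, ?_, by simp [mul_assoc]⟩
      simp only [Finset.mem_bipartiteBelow, Set.mem_toFinset]
      refine ⟨⟨fun h => ht.2 ⟨ht.1, (M.mem_conj_B _ _).mpr ?_⟩, g, hg, h3⟩, h3⟩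
      simpa using h

theorem ncard_W_two {P N : Subgroup G} {s : ℕ} (T : Tor P N s) {x : G} (hx : x ∈ M.U)
    (h2 : orderOf x = 2) : (W M N x).ncard = Nat.card F ^ 2 * (Nat.card P - 1) := by
  have := M.finite_G
  have h1 := ncard_W_mul M T hx (by rintro rfl; simp at h2)
  have h3 := ncard_conj_mem_mul N (X := {g | orderOf g = 2}) (x := x)
    (fun y hy => (M.conj_of_orderOf_two h2 hy).imp fun k hk => Or.inl hk)
    (fun y hy k => by simpa using (orderOf_conj' k⁻¹ y).trans hy)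
  simp only [Set.mem_ofPred_eq] at h3
  rw [M.ncard_two, T.ncard_two, M.card_G] at h3
  have hq := one_lt_card (F := F)
  have h4 : {g | g⁻¹ * x * g ∈ N}.ncard = Nat.card F ^ 2 * Nat.card P :=
    Nat.eq_of_mul_eq_mul_left (Nat.mul_pos (Nat.add_one_pos _) (by omega)) (h3.trans (by ring))
  rw [h4, T.card, ← Nat.mul_sub_one] at h1
  have : 0 < s * Nat.card P := T.card ▸ Nat.card_pos
  exact Nat.eq_of_mul_eq_mul_right this (h1.trans (by ring))

theorem ncard_W_four {P N : Subgroup G} {s : ℕ} (T : Tor P N s) {x : G} (hx : x ∈ M.U)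
    (h2 : orderOf x = 4) : (W M N x).ncard = Nat.card F * (s - 2) * (Nat.card P - 1) := by
  have := M.finite_G
  have h1 := ncard_W_mul M T hx (by rintro rfl; simp at h2)
  have h3 := ncard_conj_mem_mul N (X := {g | orderOf g = 4}) (x := x)
    (fun y hy => M.conj_of_orderOf_four h2 hy)
    (fun y hy k => by simpa using (orderOf_conj' k⁻¹ y).trans hy)
  simp only [Set.mem_ofPred_eq] at h3
  rw [M.ncard_four, T.ncard_four, M.card_G] at h3
  have hq := one_lt_card (F := F)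
  have h4 : {g | g⁻¹ * x * g ∈ N}.ncard = Nat.card F * (s - 2) * Nat.card P :=
    Nat.eq_of_mul_eq_mul_left (Nat.mul_pos (Nat.add_one_pos _) (Nat.mul_pos (by omega) (by omega)))
      (h3.trans (by ring))
  rw [h4, T.card, ← Nat.mul_sub_one] at h1
  have : 0 < s * Nat.card P := T.card ▸ Nat.card_pos
  exact Nat.eq_of_mul_eq_mul_right this (h1.trans (by ring))

theorem disjoint_W {P N P' N' : Subgroup G} {s s' : ℕ} (T : Tor P N s) (T' : Tor P' N' s')
    (h : (Nat.card P).Coprime (Nat.card P')) {x : G} (hx : x ∈ M.U) (h1 : x ≠ 1) :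
    Disjoint (W M N x) (W M N' x) := by
  rw [Set.disjoint_left]
  rintro y ⟨hy, g, hg1, hg2⟩ ⟨-, g', hg1', hg2'⟩
  obtain ⟨c, hc1, hc⟩ := exists_odd M hx h1 hy
  refine hc1 (eq_one_of_pow_coprime h ?_ ?_)
  · rw [← inv_conj_pow_eq_one_iff (k := g)]
    exact congrArg Subtype.val (pow_card_eq_one' (G := P) (x := ⟨_, hc T g hg1 hg2⟩))
  · rw [← inv_conj_pow_eq_one_iff (k := g')]
    exact congrArg Subtype.val (pow_card_eq_one' (G := P') (x := ⟨_, hc T' g' hg1' hg2'⟩))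

end

section

variable {F : Type*} [Field F] [CharP F 2] [Fintype F] {m : ℕ} {G : Type*} [Group G]
  (M : Model (theta F m) G)

theorem exists_tori (hm : 1 ≤ m) (hF : Fintype.card F = 2 ^ (2 * m + 1)) :
    ∃ P₁ N₁ P₂ N₂ : Subgroup G, Tor P₁ N₁ 4 ∧ Tor P₂ N₂ 4 ∧ Nat.card P₁ = kPlus m ∧
      Nat.card P₂ = kMinus m ∧ ∀ z, M.FPF z → ∃ g, (∀ y ∈ Subgroup.normalizer
        (Subgroup.centralizer {z} : Set G), g⁻¹ * y * g ∈ N₁) ∨ (∀ y ∈ Subgroup.normalizer
        (Subgroup.centralizer {z} : Set G), g⁻¹ * y * g ∈ N₂) := by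
  have := M.finite_G
  obtain ⟨⟨z₁, h11, h12⟩, h13⟩ := M.torus hm hF (Or.inl rfl)
  obtain ⟨⟨z₂, h21, h22⟩, h23⟩ := M.torus hm hF (Or.inr rfl)
  obtain ⟨a1, a2, a3, -⟩ := h13 z₁ h11 h12
  obtain ⟨b1, b2, b3, -⟩ := h23 z₂ h21 h22
  refine ⟨_, _, _, _, a1.tor hm hF, b1.tor hm hF, a3, b3, fun z hz => ?_⟩
  have key : ∀ z₀, M.FPF z₀ → ∀ g, g⁻¹ * z * g ∈ Subgroup.centralizer {z₀} →
      ∀ y ∈ Subgroup.normalizer (Subgroup.centralizer {z} : Set G),
        g⁻¹ * y * g ∈ Subgroup.normalizer (Subgroup.centralizer {z₀} : Set G) := by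
    intro z₀ h0 g hg y hy
    have h1 := inv_conj_ne_one g hz.ne_one
    refine ((h0.tor hm hF).ti _ hg h1 _).mp ((h0.tor hm hF).mem_of_comm hg h1 ?_)
    have := Subgroup.mem_centralizer_singleton_iff.mp ((hz.tor hm hF).conj_mem hy
      (Subgroup.mem_centralizer_singleton_iff.mpr rfl))
    calc _ = g⁻¹ * (y⁻¹ * z * y * z) * g := by group
      _ = _ := by rw [this]; group
  rcases hz.pow_eq_one_or hF with h | h
  · obtain ⟨-, g, hg⟩ : z ∈ conjSet (Subgroup.centralizer {z₁}) := a2 ▸ ⟨hz.ne_one, h⟩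
    exact ⟨g, Or.inl (key _ a1 g hg)⟩
  · obtain ⟨-, g, hg⟩ : z ∈ conjSet (Subgroup.centralizer {z₂}) := b2 ▸ ⟨hz.ne_one, h⟩
    exact ⟨g, Or.inr (key _ b1 g hg)⟩

theorem cases_of_solvable (hm : 1 ≤ m) (hp : (2 * m + 1).Prime)
    (hF : Fintype.card F = 2 ^ (2 * m + 1)) {L : Subgroup G} (hL : Group.IsSolvable L) :
    (∃ g, L ≤ (M.conj g).B) ∨ (∃ g, L ≤ (M.conj g).N) ∨
      (∃ x, M.FPF x ∧ L ≤ Subgroup.normalizer (Subgroup.centralizer {x} : Set G)) := by
  rcases M.sub_cases hm hF L with h | h | h | ⟨g, S, hS, rfl⟩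
  · exact Or.inl h
  · exact Or.inr (Or.inl h)
  · exact Or.inr (Or.inr h)
  · exfalso
    obtain ⟨k, -, hd, h1, h2⟩ := exists_card_subfield hF S
    have h3 := h1 hS
    have h4 := (Nat.dvd_prime hp).mp hd
    obtain rfl : S = ⊤ := by
      by_contra hne
      have := h2 hne
      omega
    obtain ⟨t, -, ht0, ht1⟩ := hS
    rw [sub_top] at hL
    exact M.not_isSolvable ht0 ht1
      (Group.isSolvable_of_surjective (f := (⊤ : Subgroup G).subtype)
        fun g => ⟨⟨g, trivial⟩, rfl⟩)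

theorem card_sol_U (hm : 1 ≤ m) (hp : (2 * m + 1).Prime)
    (hF : Fintype.card F = 2 ^ (2 * m + 1)) {x : G} (hx : x ∈ M.U) (h1 : x ≠ 1) :
    ∃ P₁ N₁ P₂ N₂ : Subgroup G, Tor P₁ N₁ 4 ∧ Tor P₂ N₂ 4 ∧ Nat.card P₁ = kPlus m ∧
      Nat.card P₂ = kMinus m ∧
      Nat.card {y // Group.IsSolvable (Subgroup.closure ({x, y} : Set G))} =
        Nat.card M.B + ((W M M.N x).ncard + ((W M N₁ x).ncard + (W M N₂ x).ncard)) := by
  have := M.finite_G
  obtain ⟨P₁, N₁, P₂, N₂, T₁, T₂, c₁, c₂, h⟩ := exists_tori M hm hF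
  obtain ⟨t, ht0, ht1⟩ := exists_ne_zero_one hm hF
  have T := M.tor_H ht0 ht1
  refine ⟨P₁, N₁, P₂, N₂, T₁, T₂, c₁, c₂, ?_⟩
  have hset : {y | Group.IsSolvable (Subgroup.closure ({x, y} : Set G))} =
      (M.B : Set G) ∪ (W M M.N x ∪ (W M N₁ x ∪ W M N₂ x)) := by
    ext y
    constructor
    · intro hy
      by_cases hB : y ∈ M.B
      · exact Or.inl hB
      have hx' : x ∈ Subgroup.closure ({x, y} : Set G) := Subgroup.subset_closure (by simp)
      have hy' : y ∈ Subgroup.closure ({x, y} : Set G) := Subgroup.subset_closure (by simp)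
      right
      rcases cases_of_solvable M hm hp hF hy with ⟨g, hg⟩ | ⟨g, hg⟩ | ⟨z, hz, hg⟩
      · have h2 := (M.mem_conj_B _ _).mp (hg hx')
        have h3 : g⁻¹ ∈ M.B := M.mem_B_of_conj_mem_B hx h1 (by simpa using h2)
        rw [M.conj_B_of_mem_B (M.B.inv_mem_iff.mp h3)] at hg
        exact absurd (hg hy') hB
      · exact Or.inl ⟨hB, g, (M.mem_conj_N _ _).mp (hg hx'), (M.mem_conj_N _ _).mp (hg hy')⟩
      · obtain ⟨g, h | h⟩ := h z hz
        · exact Or.inr (Or.inl ⟨hB, g, h _ (hg hx'), h _ (hg hy')⟩)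
        · exact Or.inr (Or.inr ⟨hB, g, h _ (hg hx'), h _ (hg hy')⟩)
    · rintro (h | ⟨-, g, h1, h2⟩ | ⟨-, g, h1, h2⟩ | ⟨-, g, h1, h2⟩)
      · exact solvable_of_conj M.isSolvable_B (g := 1) (by simpa using M.U_le_B hx) (by simpa using h)
      · exact solvable_of_conj T.isSolvable h1 h2
      · exact solvable_of_conj T₁.isSolvable h1 h2
      · exact solvable_of_conj T₂.isSolvable h1 h2
  have hkk : kPlus m * kMinus m = Nat.card F ^ 2 + 1 := by
    rw [natCard_eq hF]; exact kPlus_mul_kMinus m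
  have hc := coprime_sub_one_sq_add_one (F := F)
  rw [← hkk, ← c₁, ← c₂, ← M.card_H] at hc
  have e := congrArg Set.ncard hset
  rw [Set.ncard_union_eq, Set.ncard_union_eq, Set.ncard_union_eq] at e
  · exact e
  · exact disjoint_W M T₁ T₂ (by rw [c₁, c₂]; exact coprime_kPlus_kMinus m) hx h1
  · exact Set.disjoint_union_right.mpr ⟨disjoint_W M T T₁ hc.coprime_mul_right_right hx h1,
      disjoint_W M T T₂ hc.coprime_mul_left_right hx h1⟩
  · rw [Set.disjoint_left]
    rintro y hy (h | h | h) <;> exact h.1 hy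

theorem card_sol_FPF (hm : 1 ≤ m) (hp : (2 * m + 1).Prime)
    (hF : Fintype.card F = 2 ^ (2 * m + 1)) {x : G} (hx : M.FPF x) :
    Nat.card {y // Group.IsSolvable (Subgroup.closure ({x, y} : Set G))} =
      4 * Nat.card (Subgroup.centralizer {x}) := by
  have := M.finite_G
  obtain ⟨t, ht0, ht1⟩ := exists_ne_zero_one hm hF
  have T := hx.tor hm hF
  have hxx : x ∈ Subgroup.centralizer {x} := Subgroup.mem_centralizer_singleton_iff.mpr rfl
  have hodd := odd_orderOf_of_mem T.odd hxx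
  rw [← T.card]
  refine Nat.card_congr (Equiv.subtypeEquivRight fun y => ⟨fun hy => ?_, fun hy => ?_⟩)
  · have hx' : x ∈ Subgroup.closure ({x, y} : Set G) := Subgroup.subset_closure (by simp)
    have hy' : y ∈ Subgroup.closure ({x, y} : Set G) := Subgroup.subset_closure (by simp)
    rcases cases_of_solvable M hm hp hF hy with ⟨g, hg⟩ | ⟨g, hg⟩ | ⟨z, hz, hg⟩
    · exact absurd (hg hx') ((M.FPF_conj_iff g).mpr hx).not_mem_B
    · exact absurd ((M.conj g).H_le_B (((M.conj g).tor_H ht0 ht1).mem_of_odd (hg hx') hodd))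
        ((M.FPF_conj_iff g).mpr hx).not_mem_B
    · rw [hz.centralizer_eq ((hz.tor hm hF).mem_of_odd (hg hx') hodd) hx.ne_one]
      exact hg hy'
  · exact solvable_of_conj T.isSolvable (g := 1) (by simpa using T.le hxx) (by simpa using hy)

theorem card_sol_H (hm : 1 ≤ m) (hp : (2 * m + 1).Prime)
    (hF : Fintype.card F = 2 ^ (2 * m + 1)) {x : G} (hx : x ∈ M.H) (h1 : x ≠ 1) :
    Nat.card {y // Group.IsSolvable (Subgroup.closure ({x, y} : Set G))} =
      2 * Nat.card M.B := by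
  have := M.finite_G
  obtain ⟨t, ht0, ht1⟩ := exists_ne_zero_one hm hF
  have T := M.tor_H ht0 ht1
  have hodd := odd_orderOf_of_mem T.odd hx
  have hBw : ∀ y, y ∈ (M.conj M.w).B ↔ y • M.pt 0 0 = M.pt 0 0 := fun y => by
    rw [mem_conj_B_iff_smul, w_smul_inf]
  have hset : {y | Group.IsSolvable (Subgroup.closure ({x, y} : Set G))} =
      ((M.B : Set G) ∪ (M.conj M.w).B) ∪ ((M.N : Set G) \ M.H) := by
    ext y
    constructor
    · intro hy
      have hx' : x ∈ Subgroup.closure ({x, y} : Set G) := Subgroup.subset_closure (by simp)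
      have hy' : y ∈ Subgroup.closure ({x, y} : Set G) := Subgroup.subset_closure (by simp)
      rcases cases_of_solvable M hm hp hF hy with ⟨g, hg⟩ | ⟨g, hg⟩ | ⟨z, hz, hg⟩
      · have h2 := (M.mem_conj_B_iff_smul _ _).mp (hg hy')
        rcases M.fix_of_mem_H hx h1 ((M.mem_conj_B_iff_smul _ _).mp (hg hx')) with h | h
        · rw [h] at h2
          exact Or.inl (Or.inl (M.smul_inf_eq_inf.mp h2))
        · rw [h] at h2
          exact Or.inl (Or.inr ((hBw y).mpr h2))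
      · have h2 := (M.mem_conj_H _ _).mp (((M.conj g).tor_H ht0 ht1).mem_of_odd (hg hx') hodd)
        have h3 := (T.ti x hx h1 g).mp h2
        have h4 := (M.mem_conj_N _ _).mp (hg hy')
        rw [M.N.mul_mem_cancel_right h3, M.N.mul_mem_cancel_left (M.N.inv_mem h3)] at h4
        by_cases h5 : y ∈ M.H
        · exact Or.inl (Or.inl (M.H_le_B h5))
        · exact Or.inr ⟨h4, h5⟩
      · exact absurd (M.H_le_B hx)
          (hz.of_mem_centralizer ((hz.tor hm hF).mem_of_odd (hg hx') hodd) h1).not_mem_B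
    · rintro ((h | h) | h)
      · exact solvable_of_conj M.isSolvable_B (g := 1) (by simpa using M.H_le_B hx) (by simpa using h)
      · exact solvable_of_conj M.isSolvable_B (g := M.w)
          ((M.mem_conj_B _ _).mp ((hBw x).mpr (M.mem_H_iff_fix.mp hx).2)) ((M.mem_conj_B _ _).mp h)
      · exact solvable_of_conj T.isSolvable (g := 1) (by simpa using T.le hx) (by simpa using h.1)
  have hint : (M.B : Set G) ∩ (M.conj M.w).B = M.H := by
    ext y
    simp only [Set.mem_inter_iff, SetLike.mem_coe, hBw, mem_H_iff_fix, smul_inf_eq_inf]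
  have e := congrArg Set.ncard hset
  rw [Set.ncard_union_eq, Set.ncard_sdiff (by exact T.le)] at e
  · have e2 := Set.ncard_union_add_ncard_inter (M.B : Set G) (M.conj M.w).B
    rw [hint] at e2
    have e3 : ((M.conj M.w).B : Set G).ncard = Nat.card M.B := by
      rw [card_B, ← (M.conj M.w).card_B]; rfl
    have e4 : (M.B : Set G).ncard = Nat.card M.B := rfl
    have e5 : (M.N : Set G).ncard = 2 * (M.H : Set G).ncard := T.card
    refine e.trans ?_
    omega
  · rw [Set.disjoint_left]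
    rintro y hy ⟨hN, hH⟩
    have h2 := M.mem_H_iff_fix.mp (hN.resolve_left hH)
    rw [mul_smul, mul_smul, w_smul_inf, w_smul_pt_zero] at h2
    rcases hy with h | h
    · exact M.pt_ne_inf _ _ (h2.2.symm.trans (M.smul_inf_eq_inf.mpr h))
    · exact M.pt_ne_inf _ _ (((hBw y).mp h).symm.trans h2.1)

end

/-- Let G be the Suzuki group Sz(q), q = 2^(2m+1) with 2m + 1 prime and m ≥ 1, realised inside Sp_4(F) for F the field of order q, write r = 2^(m+1) (so r² = 2q), and for x ∈ G call the solubilizer of x the set of y ∈ G such that x and y generate a solvable subgroup. Then the solubilizer of an involution has q²(4q − 3) elements; that of an element of order 4 has q²(q + 3) elements; that of a non-identity element of order dividing q − 1 has 2q²(q − 1) elements; that of a non-identity element of order dividing q + r + 1 has 4(q + r + 1) elements; and that of a non-identity element of order dividing q − r + 1 has 4(q − r + 1) elements.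 -/
theorem result {F : Type*} [Field F] [Fintype F] {m : ℕ} (hm : 1 ≤ m)
    (hp : (2 * m + 1).Prime) (hF : Fintype.card F = 2 ^ (2 * m + 1)) (x : ↥(Cfsg.Lie.Sz F (2 ^ (m + 1)))) :
    (orderOf x = 2 → Nat.card {y : ↥(Cfsg.Lie.Sz F (2 ^ (m + 1))) // Group.IsSolvable ↥(Subgroup.closure ({x, y} : Set (↥(Cfsg.Lie.Sz F (2 ^ (m + 1))))))} = (2 ^ (2 * m + 1)) ^ 2 * (4 * 2 ^ (2 * m + 1) - 3)) ∧
    (orderOf x = 4 → Nat.card {y : ↥(Cfsg.Lie.Sz F (2 ^ (m + 1))) // Group.IsSolvable ↥(Subgroup.closure ({x, y} : Set (↥(Cfsg.Lie.Sz F (2 ^ (m + 1))))))} = (2 ^ (2 * m + 1)) ^ 2 * (2 ^ (2 * m + 1) + 3)) ∧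
    (x ≠ 1 → orderOf x ∣ 2 ^ (2 * m + 1) - 1 →
      Nat.card {y : ↥(Cfsg.Lie.Sz F (2 ^ (m + 1))) // Group.IsSolvable ↥(Subgroup.closure ({x, y} : Set (↥(Cfsg.Lie.Sz F (2 ^ (m + 1))))))} = 2 * (2 ^ (2 * m + 1)) ^ 2 * (2 ^ (2 * m + 1) - 1)) ∧
    (x ≠ 1 → orderOf x ∣ 2 ^ (2 * m + 1) + 2 ^ (m + 1) + 1 → Nat.card {y : ↥(Cfsg.Lie.Sz F (2 ^ (m + 1))) // Group.IsSolvable ↥(Subgroup.closure ({x, y} : Set (↥(Cfsg.Lie.Sz F (2 ^ (m + 1))))))} = 4 * (2 ^ (2 * m + 1) + 2 ^ (m + 1) + 1)) ∧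
    (x ≠ 1 → orderOf x ∣ 2 ^ (2 * m + 1) - 2 ^ (m + 1) + 1 → Nat.card {y : ↥(Cfsg.Lie.Sz F (2 ^ (m + 1))) // Group.IsSolvable ↥(Subgroup.closure ({x, y} : Set (↥(Cfsg.Lie.Sz F (2 ^ (m + 1))))))} = 4 * (2 ^ (2 * m + 1) - 2 ^ (m + 1) + 1)) := by
  have := charP_two hF
  have hq := natCard_eq hF
  set M := lieModel hF
  have hsum := kPlus_add_kMinus m
  have h1 := one_lt_kPlus m
  have h2 := one_lt_kMinus hm
  obtain ⟨t, ht0, ht1⟩ := exists_ne_zero_one hm hF
  have hq2 : 2 ≤ 2 ^ (2 * m + 1) := hq ▸ one_lt_card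
  have hFPF : ∀ k, k = kPlus m ∨ k = kMinus m → x ≠ 1 → orderOf x ∣ k →
      Nat.card {y // Group.IsSolvable (Subgroup.closure ({x, y} : Set _))} = 4 * k := by
    intro k hk hx h
    obtain ⟨a, -, b, -⟩ := (M.torus hm hF hk).2 x hx (orderOf_dvd_iff_pow_eq_one.mp h)
    rw [card_sol_FPF M hm hp hF a, b]
  refine ⟨fun h => ?_, fun h => ?_, fun hx h => ?_, hFPF _ (Or.inl rfl), hFPF _ (Or.inr rfl)⟩
  · obtain ⟨hx, g, hg⟩ := (M.mem_conjSet_U_iff (g := x)).mpr ⟨by rintro rfl; simp at h,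
      orderOf_dvd_iff_pow_eq_one.mp (by rw [h]; norm_num)⟩
    rw [← M.mem_conj_U] at hg
    obtain ⟨P₁, N₁, P₂, N₂, T₁, T₂, c₁, c₂, e⟩ := card_sol_U (M.conj g) hm hp hF hg hx
    rw [e, ncard_W_two _ T₁ hg h, ncard_W_two _ T₂ hg h, ncard_W_two _ (tor_H _ ht0 ht1) hg h,
      card_B, card_H, c₁, c₂, hq, ← mul_add, ← mul_add, ← mul_add]
    congr 1
    omega
  · obtain ⟨hx, g, hg⟩ := (M.mem_conjSet_U_iff (g := x)).mpr ⟨by rintro rfl; simp at h,
      orderOf_dvd_iff_pow_eq_one.mp (by rw [h])⟩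
    rw [← M.mem_conj_U] at hg
    obtain ⟨P₁, N₁, P₂, N₂, T₁, T₂, c₁, c₂, e⟩ := card_sol_U (M.conj g) hm hp hF hg hx
    rw [e, ncard_W_four _ T₁ hg h, ncard_W_four _ T₂ hg h, ncard_W_four _ (tor_H _ ht0 ht1) hg h,
      card_B, c₁, c₂, hq, ← mul_add, show kPlus m - 1 + (kMinus m - 1) = 2 * 2 ^ (2 * m + 1) by omega]
    obtain ⟨n, hn⟩ := Nat.exists_eq_add_of_le' (Nat.le_of_succ_le hq2)
    rw [hn]
    simp only [Nat.add_sub_cancel]
    ring
  · obtain ⟨-, g, hg⟩ := (M.mem_conjSet_H_iff (g := x)).mpr ⟨hx,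
      orderOf_dvd_iff_pow_eq_one.mp (by rwa [hq])⟩
    rw [← M.mem_conj_H] at hg
    rw [card_sol_H (M.conj g) hm hp hF hg hx, card_B, hq, mul_assoc]

end Cfsg.Agent.S2259
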