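import Cfsg.Statements.S2269
import Cfsg.Agent.KSG.AltConj
import Cfsg.Agent.KSG.AltOrder

set_option autoImplicit false
open Cfsg

namespace Cfsg.Agent.S2269

open Equiv Equiv.Perm

theorem card_alt5 : Nat.card (alternatingGroup (Fin 5)) = 60 := by
  rw [nat_card_alternatingGroup]; simp [Nat.factorial]

theorem no_four : ∀ g : Perm (Fin 5), Perm.sign g = 1 → g ^ 4 = 1 → g ^ 2 = 1 := by
  decide +kernel

theorem five (P : Sylow 2 (alternatingGroup (Fin 5)))
    (hP : IsMulCommutative (P : Subgroup (alternatingGroup (Fin 5)))) :
    ((Subgroup.centralizer ((P : Subgroup (alternatingGroup (Fin 5))) : Set (alternatingGroup (Fin 5)))).subgroupOf (Subgroup.normalizer ((P : Subgroup (alternatingGroup (Fin 5))) : Set (alternatingGroup (Fin 5))))).index = 3 ∧ IsKleinFour (P : Subgroup (alternatingGroup (Fin 5))) := by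
  have hcard : Nat.card (P : Subgroup (alternatingGroup (Fin 5))) = 4 := by
    rw [P.card_eq_multiplicity, card_alt5]
    have : Nat.factorization 60 2 = 2 := by
      rw [show (60 : ℕ) = 2 ^ 2 * 15 by norm_num, Nat.factorization_mul (by norm_num) (by norm_num),
        Nat.factorization_pow]
      simp [Nat.prime_two.factorization, Nat.factorization_eq_zero_of_not_dvd]
    rw [this]; norm_num
  refine ⟨?_, hcard, ?_⟩
  · set C := Subgroup.centralizer ((P : Subgroup (alternatingGroup (Fin 5))) : Set (alternatingGroup (Fin 5)))
    set N := Subgroup.normalizer ((P : Subgroup (alternatingGroup (Fin 5))) : Set (alternatingGroup (Fin 5)))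
    have h1 : (C.subgroupOf N).index ∣ 24 := by
      rw [← Subgroup.normalizerMonoidHom_ker, Subgroup.index_ker]
      refine (Subgroup.card_subgroup_dvd_card _).trans ?_
      have := Subgroup.card_dvd_of_injective (MulAut.toPerm (P : Subgroup (alternatingGroup (Fin 5))))
        (fun a b h => by ext x : 1; exact congrArg (fun σ : Perm _ => σ x) h)
      rwa [Nat.card_perm, hcard] at this
    have hPC : (P : Subgroup (alternatingGroup (Fin 5))) ≤ C := Subgroup.le_centralizer _
    have h2 : (C.subgroupOf N).index ∣ 15 := by
      have h3 : (P : Subgroup (alternatingGroup (Fin 5))).index = 15 := by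
        have := (P : Subgroup (alternatingGroup (Fin 5))).card_mul_index
        rw [hcard, card_alt5] at this
        omega
      rw [← h3]
      refine (Subgroup.relIndex_dvd_index_of_le (Subgroup.centralizer_le_normalizer _)).trans ?_
      exact Subgroup.index_dvd_of_le hPC
    have h3 : (C.subgroupOf N).index ∣ 3 := by simpa using Nat.dvd_gcd h1 h2
    rcases (Nat.dvd_prime Nat.prime_three).1 h3 with h4 | h4
    · exfalso
      rw [Subgroup.index_eq_one, Subgroup.subgroupOf_eq_top] at h4
      have h5 := (MonoidHom.ker_transferSylow_isComplement' P h4).card_mul_card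
      have : IsSimpleGroup (alternatingGroup (Fin 5)) := alternatingGroup.isSimpleGroup (by simp)
      rcases (inferInstance : (MonoidHom.transferSylow P h4).ker.Normal).eq_bot_or_eq_top with h | h
      · rw [h, hcard, card_alt5] at h5
        simp at h5
      · rw [h, hcard, Subgroup.card_top, card_alt5] at h5
        simp at h5
    · exact h4
  · have : Nontrivial (P : Subgroup (alternatingGroup (Fin 5))) :=
      Finite.one_lt_card_iff_nontrivial.1 (by omega)
    rw [Monoid.exponent_eq_prime_iff Nat.prime_two]
    intro g hg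
    refine orderOf_eq_prime (Subtype.ext (Subtype.ext (no_four g.1.1 g.1.2 ?_))) hg
    have : g ^ 4 = 1 := by rw [← hcard]; exact pow_card_eq_one'
    exact congrArg (fun x : (P : Subgroup (alternatingGroup (Fin 5))) => x.1.1) this

theorem inv_ne_of_orderOf {G : Type*} [Group G] {x : G} (h : 2 < orderOf x) : x⁻¹ ≠ x := by
  intro he
  have h2 : x ^ 2 = 1 := by rw [pow_two]; nth_rewrite 1 [← he]; simp
  have := Nat.le_of_dvd two_pos (orderOf_dvd_of_pow_eq_one h2)
  omega

/-- Let n ≥ 5 and let P be an abelian Sylow p-subgroup of the alternating group A_n. Then N(P)/C(P) (taken in A_n) has even order, or P is cyclic, except when n = 5 and p = 2, where P is a four-group and N(P)/C(P) has order 3. -/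
theorem result (n : ℕ) (hn : 5 ≤ n) {p : ℕ} [Fact p.Prime]
    (P : Sylow p (alternatingGroup (Fin n))) (hP : IsMulCommutative (P : Subgroup (alternatingGroup (Fin n)))) :
    (¬ (n = 5 ∧ p = 2) → 2 ∣ ((Subgroup.centralizer ((P : Subgroup (alternatingGroup (Fin n))) : Set (alternatingGroup (Fin n)))).subgroupOf (Subgroup.normalizer ((P : Subgroup (alternatingGroup (Fin n))) : Set (alternatingGroup (Fin n))))).index ∨ IsCyclic (P : Subgroup (alternatingGroup (Fin n)))) ∧
    ((n = 5 ∧ p = 2) → ((Subgroup.centralizer ((P : Subgroup (alternatingGroup (Fin n))) : Set (alternatingGroup (Fin n)))).subgroupOf (Subgroup.normalizer ((P : Subgroup (alternatingGroup (Fin n))) : Set (alternatingGroup (Fin n))))).index = 3 ∧ IsKleinFour (P : Subgroup (alternatingGroup (Fin n)))) := by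
  have hp : p.Prime := Fact.out
  refine ⟨fun h => ?_, fun ⟨h1, h2⟩ => by subst h1 h2; exact five P hP⟩
  by_cases hp2 : p = 2
  · subst hp2
    left
    have h6 : 6 ≤ n := by omega
    obtain ⟨g, hg⟩ := (exists_with_cycleType_iff (Fin n) (m := {4, 2})).2 ⟨by simpa using h6, by simp⟩
    have hA : g ∈ alternatingGroup (Fin n) := by
      rw [mem_alternatingGroup, sign_of_cycleType, hg]; decide
    have ho : orderOf (⟨g, hA⟩ : alternatingGroup (Fin n)) = 4 := by
      rw [Subgroup.orderOf_mk, ← lcm_cycleType, hg]; decide
    refine CL.KSG.two_dvd_autIndex_of_isConj_inv P hP ⟨g, hA⟩ ⟨2, ho⟩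
      (inv_ne_of_orderOf (by omega)) ?_
    refine CL.KSG.isConj_alt_of_not_centralizer_le (CL.KSG.perm_isConj_inv g) (fun hc => ?_)
    have := OnCycleFactors.odd_of_centralizer_le_alternatingGroup hc 2 (by simp [hg])
    exact absurd this (by decide)
  · have hp3 : 3 ≤ p := by have := hp.two_le; omega
    by_cases hn2 : p + 2 ≤ n
    · left
      obtain ⟨g, hg⟩ := (exists_with_cycleType_iff (Fin n) (m := {p})).2
        ⟨by simp; omega, by simp; omega⟩
      have hA : g ∈ alternatingGroup (Fin n) := by
        rw [mem_alternatingGroup, sign_of_cycleType, hg]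
        simpa using (hp.odd_of_ne_two hp2).add_one.neg_one_pow
      have ho : orderOf (⟨g, hA⟩ : alternatingGroup (Fin n)) = p := by
        rw [Subgroup.orderOf_mk, ← lcm_cycleType, hg]; simp
      refine CL.KSG.two_dvd_autIndex_of_isConj_inv P hP ⟨g, hA⟩ ⟨1, by rw [ho, pow_one]⟩
        (inv_ne_of_orderOf (by omega)) ?_
      refine alternatingGroup.isConj_of (CL.KSG.perm_isConj_inv g) ?_
      rw [← sum_cycleType]
      simpa [hg] using hn2
    · right
      have : Nontrivial (Fin n) := Fin.nontrivial_iff_two_le.2 (by omega)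
      have h1 : (Nat.card (alternatingGroup (Fin n))).factorization p ≤ 1 := by
        have h2 : Nat.card (alternatingGroup (Fin n)) ∣ n.factorial := by
          have := (alternatingGroup (Fin n)).card_subgroup_dvd_card
          rwa [Nat.card_perm, Nat.card_eq_fintype_card (α := Fin n), Fintype.card_fin] at this
        refine ((Nat.factorization_le_iff_dvd Nat.card_pos.ne' (Nat.factorial_ne_zero n)).2 h2 p).trans ?_
        have hlog : Nat.log p n < 2 := by
          apply Nat.log_lt_of_lt_pow (by omega)
          nlinarith
        rw [Nat.factorization_factorial hp hlog]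
        simp only [Nat.Ico_succ_singleton, Finset.sum_singleton, pow_one]
        exact Nat.lt_succ_iff.1 ((Nat.div_lt_iff_lt_mul (by omega)).2 (by omega))
      apply isCyclic_of_card_dvd_prime (p := p)
      rw [P.card_eq_multiplicity]
      exact (pow_dvd_pow p h1).trans (by simp)

end Cfsg.Agent.S2269
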