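import Cfsg.Statements.S2270
import Cfsg.Agent.KSG.AltConj

set_option autoImplicit false
open Cfsg

namespace Cfsg.Agent.S2270

/-- Let n ≥ 3, p an odd prime, and P an abelian Sylow p-subgroup of the symmetric group S_n (with p dividing n!, so that P ≠ 1). Then N(P)/C(P) has even order. -/
theorem result (n : ℕ) (hn : 3 ≤ n) {p : ℕ} [Fact p.Prime] (hp : p ≠ 2) (hpn : p ≤ n)
    (P : Sylow p (Equiv.Perm (Fin n))) (hP : IsMulCommutative (P : Subgroup (Equiv.Perm (Fin n)))) :
    2 ∣ ((Subgroup.centralizer ((P : Subgroup (Equiv.Perm (Fin n))) : Set (Equiv.Perm (Fin n)))).subgroupOf (Subgroup.normalizer ((P : Subgroup (Equiv.Perm (Fin n))) : Set (Equiv.Perm (Fin n))))).index := by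
  have hpp : p.Prime := Fact.out
  obtain ⟨x, hx⟩ := exists_prime_orderOf_dvd_card' (G := Equiv.Perm (Fin n)) p
    (by rw [Nat.card_perm]; simpa using (hpp.dvd_factorial).2 hpn)
  refine CL.KSG.two_dvd_autIndex_of_isConj_inv P hP x ⟨1, by simpa using hx⟩ ?_
    (CL.KSG.perm_isConj_inv x)
  intro h
  have h2 : x ^ 2 = 1 := by rw [pow_two]; nth_rewrite 1 [← h]; simp
  have := orderOf_dvd_of_pow_eq_one h2
  rw [hx] at this
  exact hp ((Nat.prime_dvd_prime_iff_eq hpp Nat.prime_two).1 this)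

end Cfsg.Agent.S2270
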