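import Cfsg.Statements.S2278
import Cfsg.Agent.KSG.RegSL

set_option autoImplicit false
open Cfsg

namespace Cfsg.Agent.S2278

section
open Matrix Module Cfsg.Geo CL.Tv CL.KSG.Irr

variable {F : Type*} [Field F] {K : Subgroup (GL (Fin (2 + 1)) F)}

theorem b00 : co 0 (bs 0 : Fin (2 + 1) → F) = 1 := co_bs_self (by omega)
theorem b11 : co 1 (bs 1 : Fin (2 + 1) → F) = 1 := co_bs_self (by omega)
theorem b22 : co 2 (bs 2 : Fin (2 + 1) → F) = 1 := co_bs_self (by omega)
theorem c3 (v : Fin (2 + 1) → F) : co 3 v = 0 := co_of_le le_rfl v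
theorem c4 (v : Fin (2 + 1) → F) : co 4 v = 0 := co_of_le (by omega) v

theorem SL_le_three [Finite F] (hI : Irred K) (hx : xU F (2 + 1) ∈ K) {w : Fin (2 + 1) → F}
    {θ : Dual F (Fin (2 + 1) → F)} (hR : Root K w θ) (hc : Conn K w θ) (h0 : θ (bs 0) ≠ 0)
    (h2 : co 2 w ≠ 0) : specialLinear (Fin (2 + 1)) F ≤ K := by
  set x := xU F (2 + 1) with hxd
  have e1 : act x w = w + co 1 w • bs 0 + co 2 w • bs 1 := ext_co fun k hk => by
    rw [co_xU]; interval_cases k <;> simp [co_bs, c3]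
  have e2 : act x (act x w) = w + (2 * co 1 w + co 2 w) • bs 0 + (2 * co 2 w) • bs 1 :=
    ext_co fun k hk => by
      rw [co_xU, co_xU, co_xU]; interval_cases k <;> simp [co_bs, c3, c4] <;> ring
  have e3 : act x⁻¹ w = w + (co 2 w - co 1 w) • bs 0 + (- co 2 w) • bs 1 :=
    act_inv_eq (ext_co fun k hk => by
      rw [co_xU]; interval_cases k <;> simp [co_bs, c3]; ring)
  have e4 : act x⁻¹ (act x⁻¹ w) = w + (3 * co 2 w - 2 * co 1 w) • bs 0 + (- 2 * co 2 w) • bs 1 := by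
    refine act_inv_eq (Eq.symm (act_inv_eq (ext_co fun k hk => ?_)))
    rw [co_xU, co_xU, co_xU]; interval_cases k <;> simp [co_bs, c3, c4] <;> ring
  refine SL_le_of_triangle hI hR hc (hc _ (K.inv_mem hx)) (Comp.self hR) (hc _ hx) ?_
  simp only [dact_apply, inv_inv]
  rw [e4, e3, e2, e1]
  simp only [map_add, map_smul, hR.2.2.1, smul_eq_mul]
  intro h
  apply pow_ne_zero 3 (mul_ne_zero h0 h2)
  linear_combination h

theorem all_of_pair [Fintype F] {ι : Type} [Fintype ι] [DecidableEq ι] {K : Subgroup (GL ι F)}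
    (h2 : (2 : F) ≠ 0) {w : ι → F} {θ : Dual F (ι → F)} (h0 : θ w = 0) (ht : HasTv K w θ)
    {x : GL ι F} (hx : x ∈ K) {lam : F} (hl : lam = θ (act x⁻¹ w) * θ (act x w)) (hl0 : lam ≠ 0)
    (hgen : Subfield.closure ({lam} : Set F) = ⊤) (hex : ¬ (Fintype.card F = 9 ∧ lam ^ 2 = -1))
    (a : F) : HasTv K w (a • θ) := by
  obtain ⟨g, hg, e⟩ : HasTv K (act x w) (dact x θ) := ht.conj hx
  have h1 : θ (act x⁻¹ w) ≠ 0 := left_ne_zero_of_mul (hl ▸ hl0)
  exact all_of_dickson (RingHom.id F) h2 hl0 hgen hex (y := θ (act x⁻¹ w) • act x w)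
    (ψ := (θ (act x⁻¹ w))⁻¹ • dact x θ) h0 (by simp [dact_act, h0]) (by simp [dact_apply, h1])
    (by simp [hl]) ht hg (by rw [e, dact_apply]) (by rw [e]; simp [dact_act, h0])
    (fun v h3 h4 => by
      have h5 : dact x θ v = 0 := by simpa [h1] using h4
      rw [e, h5]; simp [h3, h5]) a

theorem fam2 (a : F) (ha : a ≠ 0) : ∃ h : GL (Fin (2 + 1)) F,
    (h : Matrix (Fin (2 + 1)) (Fin (2 + 1)) F).det = 1 ∧ ∀ v,
      co 0 (act (h * xU F (2 + 1) * h⁻¹) v) = co 0 v + a * co 1 v ∧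
      co 1 (act (h * xU F (2 + 1) * h⁻¹) v) = co 1 v ∧
      co 2 (act (h * xU F (2 + 1) * h⁻¹) v) = co 2 v + a * co 0 v := by
  have hd : (!![0, 1, 0; 0, 0, a⁻¹; a, 0, 0] : Matrix (Fin 3) (Fin 3) F).det = 1 := by
    simp [Matrix.det_fin_three, ha]
  let h : GL (Fin (2 + 1)) F := GeneralLinearGroup.mkOfDetNeZero _ (hd.symm ▸ one_ne_zero)
  have e : ∀ u, co 0 (act h u) = co 1 u ∧ co 1 (act h u) = a⁻¹ * co 2 u ∧
      co 2 (act h u) = a * co 0 u := fun u => by
    have : act h u = (!![0, 1, 0; 0, 0, a⁻¹; a, 0, 0] : Matrix (Fin 3) (Fin 3) F) *ᵥ u := rfl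
    rw [this]
    simp [co, dotProduct, Fin.sum_univ_three]
  refine ⟨h, hd, fun v => ?_⟩
  obtain ⟨u, rfl⟩ := (act h).surjective v
  rw [act_mul, act_mul, act_inv_act]
  simp only [e, co_xU]
  refine ⟨?_, ?_, ?_⟩
  · field_simp
  · simp [c3]
  · ring

theorem caseA [Fintype F] (h2 : (2 : F) = 0) : ∃ h : GL (Fin (2 + 1)) F,
    (h : Matrix (Fin (2 + 1)) (Fin (2 + 1)) F).det = 1 ∧
    specialLinear (Fin (2 + 1)) F ≤ Subgroup.closure {xU F (2 + 1), h * xU F (2 + 1) * h⁻¹} := by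
  obtain ⟨a, ha, -, -, hgen⟩ := exists_gen (E := F)
  obtain ⟨h, hd, e⟩ := fam2 a ha
  refine ⟨h, hd, ?_⟩
  set x := xU F (2 + 1) with hx
  set z := h * x * h⁻¹ with hz
  set K := Subgroup.closure {x, z} with hK
  have xK : x ∈ K := Subgroup.subset_closure (by simp)
  have zK : z ∈ K := Subgroup.subset_closure (by simp)
  have xe : act x (bs 0) = bs 0 := xU_bs_zero
  have hz0 : co 2 (act z (bs 0)) ≠ 0 := by rw [(e _).2.2]; simp [co_bs, ha]
  have hI : Irred K := irred_xU xK zK hz0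
  have t0 : HasTv K (bs 0) (co 2) := ⟨x * x, K.mul_mem xK xK, fun v => ext_co fun k hk => by
    rw [act_mul, co_xU, co_xU, co_xU]
    interval_cases k <;> simp [co_bs, c3, c4]
    · linear_combination co 1 v * h2
    · linear_combination co 2 v * h2⟩
  have t1 : HasTv K (bs 2) (a ^ 2 • co 1) := ⟨z * z, K.mul_mem zK zK, fun v => ext_co fun k hk => by
    rw [act_mul]
    interval_cases k <;> simp [co_bs, e]
    · linear_combination a * co 1 v * h2
    · linear_combination a * co 0 v * h2⟩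
  have k1 : ∀ c : F, HasTv K (bs 0) (c • co 2) → HasTv K (bs 0) ((c * a ^ 2) • co 1) := fun c hc => by
    have := hc.comm_right t1 (by simp [co_bs]) (by simp [co_bs]) (by simp [co_bs])
    simpa [b22, smul_smul] using this
  have hall := all_of_mul (RingHom.id F) (by simp [co_bs]) t0 hgen fun c hc => by
    have h1 := k1 c hc
    have h3 := h1.conj' (K.inv_mem xK) (act_inv_eq xe) (φ' := (c * a ^ 2) • (co 1 + co 2)) fun v => by
      obtain ⟨u, rfl⟩ := (act x).surjective v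
      rw [act_inv_act, LinearMap.smul_apply, LinearMap.smul_apply, LinearMap.add_apply, co_xU]
    have h4 := h3.sub_right h1 (by simp [co_bs]) (by simp [co_bs])
    rw [smul_add, add_sub_cancel_left, mul_comm] at h4
    exact h4
  have hb : (bs 0 : Fin (2 + 1) → F) ≠ 0 := fun h => by simpa [h] using b00 (F := F)
  have hR : Root K (bs 0) (co 2) :=
    ⟨hb, fun h => by simpa [h] using b22 (F := F), by simp [co_bs], hall⟩
  have hR' : Root K (bs 0) (co 1) :=
    ⟨hb, fun h => by simpa [h] using b11 (F := F), by simp [co_bs], fun c => by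
      have := k1 _ (hall (c / a ^ 2))
      rwa [RingHom.id_apply, div_mul_cancel₀ _ (pow_ne_zero 2 ha)] at this⟩
  refine SL_le_of_two_axes hI hR (conn_of_closure hK hR ?_) hR' (v := bs 1) (by simp [co_bs])
    (by simp [co_bs])
  rintro _ (rfl | rfl)
  · exact comp_of_gen hI hR xK (Or.inl ⟨1, by rw [xe, one_smul]⟩)
  · exact comp_of_gen hI hR zK (Or.inr (Or.inl hz0))

theorem caseB [Fintype F] (hq : Fintype.card F = 25) : ∃ h : GL (Fin (2 + 1)) F,
    (h : Matrix (Fin (2 + 1)) (Fin (2 + 1)) F).det = 1 ∧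
    specialLinear (Fin (2 + 1)) F ≤ Subgroup.closure {xU F (2 + 1), h * xU F (2 + 1) * h⁻¹} := by
  have h5 : (5 : F) = 0 := by
    have := FiniteField.cast_card_eq_zero F
    rw [hq] at this
    exact pow_eq_zero_iff (two_ne_zero) |>.1 (by rw [← this]; norm_num)
  have h1 : (1 : F) ≠ 0 := one_ne_zero
  have h2 : (2 : F) ≠ 0 := fun h => h1 (by linear_combination h5 - 2 * h)
  have h3 : (3 : F) ≠ 0 := fun h => h1 (by linear_combination 2 * h - h5)
  obtain ⟨s, hs⟩ : IsSquare (3 : F) := by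
    rw [FiniteField.isSquare_iff (by
      intro h
      have := (ringChar.spec F 2).2 (by rw [h])
      exact h2 (by simpa using this)) h3, hq]
    linear_combination 106288 * h5
  obtain ⟨a, ha⟩ : ∃ a : F, a ^ 2 + a - 3 = 0 := ⟨2 + 3 * s, by
    linear_combination (-9) * hs + (6 + 3 * s) * h5⟩
  have ha0 : a ≠ 0 := fun h => h3 (by rw [h] at ha; linear_combination -ha)
  obtain ⟨h, hd, e⟩ := fam2 a ha0
  refine ⟨h, hd, ?_⟩
  set x := xU F (2 + 1) with hx
  set z := h * x * h⁻¹ with hz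
  set K := Subgroup.closure {x, z} with hK
  have xK : x ∈ K := Subgroup.subset_closure (by simp)
  have zK : z ∈ K := Subgroup.subset_closure (by simp)
  have hI : Irred K := irred_xU xK zK (by rw [(e _).2.2]; simp [co_bs, ha0])
  have y1 : ∀ v, co 0 (act (x * z) v) = co 0 v + (1 + a) * co 1 v ∧
      co 1 (act (x * z) v) = a * co 0 v + co 1 v + co 2 v ∧
      co 2 (act (x * z) v) = a * co 0 v + co 2 v := fun v => by
    rw [act_mul, co_xU, co_xU, co_xU]
    simp only [e, c3, zero_add, Nat.reduceAdd]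
    refine ⟨by ring, by ring, by ring⟩
  have y2 : ∀ v, co 0 (act (x * z * (x * z)) v) = 4 * co 0 v + (2 + 2 * a) * co 1 v + (1 + a) * co 2 v ∧
      co 1 (act (x * z * (x * z)) v) = 3 * a * co 0 v + 4 * co 1 v + 2 * co 2 v ∧
      co 2 (act (x * z * (x * z)) v) = 2 * a * co 0 v + 3 * co 1 v + co 2 v := fun v => by
    rw [act_mul]
    simp only [y1]
    refine ⟨?_, ?_, ?_⟩
    · linear_combination co 0 v * ha
    · linear_combination co 1 v * ha
    · linear_combination co 1 v * ha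
  let u : Fin (2 + 1) → F := (4 : F) • bs 0 + (3 * a) • bs 1 + (4 * a) • bs 2
  have u0 : co 0 u = 4 := by simp [u, co_bs]
  have u1 : co 1 u = 3 * a := by simp [u, co_bs]
  have u2 : co 2 u = 4 * a := by simp [u, co_bs]
  let θ : Dual F (Fin (2 + 1) → F) := co 0 + (1 + a) • (co 1 + co 2)
  have hθ : ∀ v, θ v = co 0 v + (1 + a) * (co 1 v + co 2 v) := fun v => rfl
  have t0 : HasTv K u θ := by
    refine ⟨x * z * (x * z) * (x * z * (x * z)), by apply_rules [K.mul_mem], fun v => ext_co fun k hk => ?_⟩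
    rw [act_mul, map_add, map_smul, hθ, smul_eq_mul]
    interval_cases k <;> simp only [y2, u0, u1, u2] <;> grind
  have h0 : θ u = 0 := by rw [hθ, u0, u1, u2]; grind
  have f1 : θ (act x u) = 2 + 3 * a := by
    rw [hθ, co_xU, co_xU, co_xU]; simp only [u0, u1, u2, c3, zero_add, Nat.reduceAdd]; grind
  have f2 : θ (act x⁻¹ u) = 3 + a := by
    have : act x⁻¹ u = (4 + a) • bs 0 + (-a) • bs 1 + (4 * a) • bs 2 :=
      act_inv_eq (ext_co fun k hk => by
        rw [co_xU]; interval_cases k <;> simp [co_bs, u0, u1, u2]; ring)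
    rw [this, hθ]
    simp [co_bs]
    grind
  have f3 : θ (act z u) = 1 + 2 * a := by
    rw [hθ]; simp only [e, u0, u1, u2]; grind
  have hR : Root K u θ := by
    refine ⟨fun h => ?_, fun h => ?_, h0,
      all_of_pair h2 h0 t0 xK (lam := 3 * a) ?_ (mul_ne_zero h3 ha0) ?_ (by omega)⟩
    · rw [h, map_zero] at u2; exact mul_ne_zero (by grind) ha0 u2.symm
    · have := hθ (bs 0)
      simp [h, co_bs] at this
    · rw [f1, f2]; grind
    · refine closure_eq_top_of_order (mul_ne_zero h3 ha0) fun e d he hd hc => ?_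
      have : e = 5 := by
        have h6 : e ∣ 5 ^ 2 := by rw [show 5 ^ 2 = 25 by norm_num, ← hq, hc]; exact dvd_pow_self e (by omega)
        obtain ⟨i, hi, rfl⟩ := (Nat.dvd_prime_pow Nat.prime_five).1 h6
        have h7 : (5 ^ i) ^ 2 ≤ (5 ^ i) ^ d := Nat.pow_le_pow_right (by omega) hd
        rw [← hc, hq] at h7
        interval_cases i <;> simp_all
      subst this
      grind
  refine SL_le_three hI xK hR (conn_of_closure hK hR ?_) (by simp [hθ, co_bs])
    (by rw [u2]; exact mul_ne_zero (by grind) ha0)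
  rintro _ (rfl | rfl)
  · exact comp_of_gen hI hR xK (Or.inr (Or.inl (by rw [f1]; grind)))
  · exact comp_of_gen hI hR zK (Or.inr (Or.inl (by rw [f3]; grind)))

theorem caseC [Fintype F] (h2 : (2 : F) ≠ 0) (hq : Fintype.card F ≠ 25) : ∃ h : GL (Fin (2 + 1)) F,
    (h : Matrix (Fin (2 + 1)) (Fin (2 + 1)) F).det = 1 ∧
    specialLinear (Fin (2 + 1)) F ≤ Subgroup.closure {xU F (2 + 1), h * xU F (2 + 1) * h⁻¹} := by
  obtain ⟨w, hw0, hw⟩ := exists_prim (E := F)
  have h6 : Subfield.closure ({w ^ 6} : Set F) = ⊤ := by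
    refine closure_eq_top_of_order (pow_ne_zero _ hw0) fun e d he hd hc h => ?_
    rw [← pow_mul] at h
    have h1 := hw _ h
    rw [hc] at h1
    obtain ⟨h3, h4, h5⟩ := geom_le he hd (by norm_num) h1
    have hd2 : d = 2 := h4.resolve_right (by nlinarith)
    have h7 := h5 hd2
    subst hd2
    have he5 : e ≤ 5 := by omega
    interval_cases e
    · have := FiniteField.cast_card_eq_zero F
      rw [hc] at this
      exact pow_ne_zero 2 h2 (by rw [← this]; norm_num)
    · omega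
    · omega
    · exact hq hc
  have hρ : ∀ r : F, ∃ ρ : Fin (2 + 1) → F, co 0 ρ = -4 ∧ co 1 ρ = 4 ∧ co 2 ρ = r ∧
      co 0 (act (xU F (2 + 1))⁻¹ ρ) = -8 + r := fun r =>
    ⟨(-4 : F) • bs 0 + (4 : F) • bs 1 + r • bs 2, by simp [co_bs], by simp [co_bs], by simp [co_bs], by
      simp only [map_add, map_smul, co_xU_inv_bs (show 0 < 2 + 1 by omega),
        co_xU_inv_bs (show 1 < 2 + 1 by omega), co_xU_inv_bs (show 2 < 2 + 1 by omega), smul_eq_mul]
      ring⟩
  have hsc : ∀ (μ : F) (hμ : μ ≠ 0) (h : GL (Fin (2 + 1)) F),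
      (h : Matrix (Fin (2 + 1)) (Fin (2 + 1)) F).det = (-1) ^ 2 * (μ ^ 3)⁻¹ →
      ((scl μ hμ * h : GL (Fin (2 + 1)) F) : Matrix (Fin (2 + 1)) (Fin (2 + 1)) F).det = 1 := by
    intro μ hμ h hd
    rw [Units.val_mul, Matrix.det_mul, det_scl, hd]
    simp [hμ]
  by_cases hl : w ^ 6 - 64 = 0
  · obtain ⟨ρ, r0, r1, r2, rd⟩ := hρ ((-2) ^ 3)
    obtain ⟨h, hd, g, H⟩ := exists_Rot le_rfl ρ r0 r1 (by rw [r2]; simpa using h2)
    refine ⟨scl (-2) (neg_ne_zero.2 h2) * h, hsc _ _ _ (by rw [hd, r2]), ?_⟩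
    rw [scl_conj]
    refine H.SL_le (by rw [r2]; norm_num) ?_ (Or.inl (closure_eq_top_of_mem h6 ?_))
    · rw [rd, show (-8 + (-2) ^ 3 : F) = - 2 ^ 4 by norm_num]; simpa using h2
    · rw [sub_eq_zero.1 hl]
      exact ofNat_mem _ 64
  · obtain ⟨ρ, r0, r1, r2, rd⟩ := hρ (w ^ 3)
    obtain ⟨h, hd, g, H⟩ := exists_Rot le_rfl ρ r0 r1 (by rw [r2]; simpa using hw0)
    refine ⟨scl w hw0 * h, hsc _ _ _ (by rw [hd, r2]), ?_⟩
    rw [scl_conj]
    have e : w ^ 6 - 64 = th F 2 (act (xU F (2 + 1))⁻¹ (wv ρ)) * th F 2 (act (xU F (2 + 1)) (wv ρ)) := by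
      rw [H.f_one, H.f_neg, rd, r2]; ring
    have hR := H.root (all_of_pair h2 H.th_w H.hasTv H.x_mem e hl (closure_eq_top_of_mem h6 (by
      have := add_mem (Subfield.subset_closure (Set.mem_singleton (w ^ 6 - 64)))
        (natCast_mem (Subfield.closure ({w ^ 6 - 64} : Set F)) 64)
      simpa using this)) fun ⟨h9, hl2⟩ => ?_)
    · refine SL_le_three H.irred H.x_mem hR (H.conn hR (Or.inl (right_ne_zero_of_mul (e ▸ hl)))) ?_ ?_
      · simpa [th_apply, co_bs] using h2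
      · rw [H.wk (by omega), r2]; simpa using hw0
    · have h3 : (3 : F) = 0 := by
        have := FiniteField.cast_card_eq_zero F
        rw [h9] at this
        exact pow_eq_zero_iff (two_ne_zero) |>.1 (by rw [← this]; norm_num)
      have h8 := FiniteField.pow_card_sub_one_eq_one w hw0
      have n4 : w ^ 4 ≠ 1 := fun h => by have := hw _ h; rw [h9] at this; omega
      have n2 : w ^ 2 ≠ 1 := fun h => by have := hw _ h; rw [h9] at this; omega
      rw [h9] at h8
      grind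

end

/-- Let F be a finite field. Then SL_3(F) is generated by two conjugate regular unipotent elements: there are u with u − 1 nilpotent and (u − 1)² ≠ 0, and g, such that u and g u g⁻¹ generate SL_3(F). -/
theorem result {F : Type*} [Field F] [Fintype F] :
    ∃ u g : Matrix.SpecialLinearGroup (Fin 3) F, IsNilpotent ((u : Matrix (Fin 3) (Fin 3) F) - 1) ∧ ((u : Matrix (Fin 3) (Fin 3) F) - 1) ^ (3 - 1) ≠ 0 ∧
      Subgroup.closure ({u, g * u * g⁻¹} : Set (Matrix.SpecialLinearGroup (Fin 3) F)) = ⊤ := by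
  have : ∃ h : GL (Fin (2 + 1)) F, (h : Matrix (Fin (2 + 1)) (Fin (2 + 1)) F).det = 1 ∧
      Cfsg.Geo.specialLinear (Fin (2 + 1)) F ≤ Subgroup.closure {CL.KSG.Irr.xU F (2 + 1),
        h * CL.KSG.Irr.xU F (2 + 1) * h⁻¹} := by
    by_cases h2 : (2 : F) = 0
    · exact caseA h2
    by_cases hq : Fintype.card F = 25
    · exact caseB hq
    · exact caseC h2 hq
  obtain ⟨h, hd, H⟩ := this
  obtain ⟨u, g, ⟨h1, h2⟩, h3⟩ := CL.KSG.Irr.exists_SL_two (by omega) hd H
  exact ⟨u, g, h1, h2, h3⟩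

end Cfsg.Agent.S2278
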