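import Cfsg.Statements.S2279
import Cfsg.Agent.KSG.RegSL

set_option autoImplicit false
open Cfsg

namespace Cfsg.Agent.S2279

section
open Matrix Module Cfsg.Geo CL.Tv CL.KSG.Irr

variable {F : Type*} [Field F] {m : ℕ}

def rh (m : ℕ) (c d r : F) : Fin (m + 1) → F :=
  (-4 : F) • bs 0 + (4 : F) • bs 1 + c • bs 2 + d • bs 3 + r • bs m

theorem co_rh (hm : 3 ≤ m) (c d r : F) : co 0 (rh m c d r) = -4 ∧ co 1 (rh m c d r) = 4 ∧
    co 2 (rh m c d r) = c ∧ co m (rh m c d r) = (if m = 3 then d else 0) + r ∧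
    co 0 (act (xU F (m + 1))⁻¹ (rh m c d r)) = -8 + c - d + (-1) ^ m * r := by
  have h0 : ¬ (0 = m) := by omega
  have h1 : ¬ (1 = m) := by omega
  have h2 : ¬ (2 = m) := by omega
  have h0' : ¬ (m = 0) := by omega
  have h1' : ¬ (m = 1) := by omega
  have h2' : ¬ (m = 2) := by omega
  have l1 : 1 < m + 1 := by omega
  have l2 : 2 < m + 1 := by omega
  have l3 : 3 < m + 1 := by omega
  refine ⟨?_, ?_, ?_, ?_, ?_⟩
  · simp [rh, co_bs, h0]
  · simp only [rh, map_add, map_smul, co_bs, h1, l1]; simp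
  · simp only [rh, map_add, map_smul, co_bs, h2, l2]; simp
  · simp [rh, co_bs, h0', h1', h2']
  · simp only [rh, map_add, map_smul, co_xU_inv_bs (Nat.succ_pos m), co_xU_inv_bs l1, co_xU_inv_bs l2,
      co_xU_inv_bs l3, co_xU_inv_bs (Nat.lt_succ_self m), smul_eq_mul]
    ring

theorem main1 [Fintype F] (hm : 3 ≤ m) : ∃ h : GL (Fin (m + 1)) F,
    specialLinear (Fin (m + 1)) F ≤ Subgroup.closure {xU F (m + 1), h * xU F (m + 1) * h⁻¹} := by
  obtain ⟨w, hw0, -, hw, -⟩ := exists_gen (E := F)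
  have hs : ((-1 : F) ^ m) * (-1) ^ m = 1 := by rw [← mul_pow]; simp
  have key : ∀ δ : F, δ ≠ 0 → δ + 16 ≠ 0 → (Subfield.closure ({2 * δ} : Set F) = ⊤ ∨
      ((2 : F) = 0 ∧ Subfield.closure ({δ} : Set F) = ⊤)) → ∃ h : GL (Fin (m + 1)) F,
      specialLinear (Fin (m + 1)) F ≤ Subgroup.closure {xU F (m + 1), h * xU F (m + 1) * h⁻¹} := by
    intro δ h1 h2 h3
    obtain ⟨r0, r1, r2, rm, rd⟩ := co_rh hm (-8 : F) 0 ((-1) ^ m * (δ + 16))
    have e : co 0 (act (xU F (m + 1))⁻¹ (rh m (-8 : F) 0 ((-1) ^ m * (δ + 16)))) = δ := by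
      rw [rd, ← mul_assoc, hs]; ring
    obtain ⟨h, -, g, H⟩ := exists_Rot (by omega) _ r0 r1 (by rw [rm]; simpa using h2)
    exact ⟨h, H.SL_le r2 (by rwa [e]) (by rwa [e])⟩
  by_cases h2 : (2 : F) = 0
  · refine key w hw0 ?_ (Or.inr ⟨h2, hw⟩)
    have : (16 : F) = 0 := by linear_combination 8 * h2
    rwa [this, add_zero]
  · by_cases h3 : w / 2 + 16 = 0
    · refine key (-w / 2) (by simp [hw0, h2]) (fun h4 => hw0 ?_) (Or.inl ?_)
      · have h5 : w / 2 * 2 = w := div_mul_cancel₀ w h2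
        linear_combination h3 - h4 - h5
      · rw [mul_div_cancel₀ _ h2]
        exact closure_eq_top_of_mem hw (by
          simpa using neg_mem (Subfield.subset_closure (Set.mem_singleton (-w))))
    · refine key (w / 2) (by simp [hw0, h2]) h3 (Or.inl ?_)
      rwa [mul_div_cancel₀ _ h2]

theorem main2 [Fintype F] (hm : 3 ≤ m) (hp : (Fintype.card F).Prime) : ∃ h : GL (Fin (m + 1)) F,
    (h : Matrix (Fin (m + 1)) (Fin (m + 1)) F).det = 1 ∧
    specialLinear (Fin (m + 1)) F ≤ Subgroup.closure {xU F (m + 1), h * xU F (m + 1) * h⁻¹} := by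
  have hs : ((-1 : F) ^ m) * (-1) ^ m = 1 := by rw [← mul_pow]; simp
  by_cases h3 : m = 3
  · subst h3
    by_cases h2 : (2 : F) = 0
    · obtain ⟨r0, r1, r2, rm, rd⟩ := co_rh hm (-8 : F) 0 (-1)
      obtain ⟨h, hd, g, H⟩ := exists_Rot (by omega) _ r0 r1 (by rw [rm]; simp)
      refine ⟨h, by rw [hd, rm]; norm_num, H.SL_le r2 ?_ (Or.inl (closure_eq_top_of_prime hp _))⟩
      rw [rd]
      intro h4
      have : (1 : F) = 0 := by linear_combination h4 + 8 * h2
      exact one_ne_zero this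
    · have h8 : (8 : F) ≠ 0 := by
        rw [show (8 : F) = 2 ^ 3 by norm_num]; exact pow_ne_zero _ h2
      have h16 : (16 : F) ≠ 0 := by
        rw [show (16 : F) = 2 ^ 4 by norm_num]; exact pow_ne_zero _ h2
      have h64 : (64 : F) ≠ 0 := by
        rw [show (64 : F) = 2 ^ 6 by norm_num]; exact pow_ne_zero _ h2
      obtain ⟨r0, r1, r2, rm, -⟩ := co_rh hm (0 : F) 0 (-16)
      have rm' : co 3 (rh 3 (0 : F) 0 (-16)) = -16 := by rw [rm]; simp
      obtain ⟨h, hd, g, H⟩ := exists_Rot (by omega) _ r0 r1 (by rw [rm']; simpa using h16)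
      refine ⟨scl 2 h2 * h, ?_, ?_⟩
      · rw [Units.val_mul, Matrix.det_mul, det_scl, hd, rm']
        simp only [Fintype.card_fin]
        field_simp
        norm_num
      rw [scl_conj]
      have hR := H.root (all_of_mul (RingHom.id F) H.th_w H.hasTv
        (closure_eq_top_of_prime hp 1) fun a ha => by simpa using ha)
      refine SL_le_of_conj H.irred hR (H.conn hR (Or.inl ?_)) (mul_mem H.x_mem H.x_mem) ?_ ?_
      · rw [H.f_one, r2, add_zero]; exact h8
      · rw [act_mul, th_apply]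
        simp only [co_xU]
        rw [H.w0, H.wk (by omega), H.wk (by omega), H.wk (by omega), r1, r2, rm']
        ring
      · have : act (xU F (3 + 1) * xU F (3 + 1)) ((54 : F) • bs 0 + (-44 : F) • bs 1 +
            (32 : F) • bs 2 + (-16 : F) • bs 3) = wv (rh 3 (0 : F) 0 (-16)) := by
          refine ext_co fun k hk => ?_
          rw [act_mul]
          simp only [co_xU]
          interval_cases k
          · rw [H.w0]; simp [co_bs]; norm_num
          · rw [H.wk (by omega), r1]; simp [co_bs]; norm_num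
          · rw [H.wk (by omega), r2]; simp [co_bs]; norm_num
          · rw [H.wk (by omega), rm']; simp [co_bs]
        rw [act_inv_eq this, th_apply]
        simp [co_bs]
        norm_num
        exact h64
  · obtain ⟨r0, r1, r2, rm, rd⟩ := co_rh hm (-8 : F) (-16) ((-1) ^ m)
    rw [if_neg h3, zero_add] at rm
    obtain ⟨h, hd, g, H⟩ := exists_Rot (by omega) _ r0 r1 (by rw [rm]; simp)
    refine ⟨h, by rw [hd, rm]; simp, H.SL_le r2 ?_ (Or.inl (closure_eq_top_of_prime hp _))⟩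
    rw [rd, hs]
    norm_num

end

/-- Let F be a finite field with q elements and n ≥ 4. Then SL_n(F) is generated by two regular unipotent elements (elements u with u − 1 nilpotent and (u − 1)^(n−1) ≠ 0); if q is prime, the two can be taken conjugate in SL_n(F). -/
theorem result {F : Type*} [Field F] [Fintype F] (n : ℕ) (hn : 4 ≤ n) :
    (∃ u v : Matrix.SpecialLinearGroup (Fin n) F, (IsNilpotent ((u : Matrix (Fin n) (Fin n) F) - 1) ∧ ((u : Matrix (Fin n) (Fin n) F) - 1) ^ (n - 1) ≠ 0) ∧ (IsNilpotent ((v : Matrix (Fin n) (Fin n) F) - 1) ∧ ((v : Matrix (Fin n) (Fin n) F) - 1) ^ (n - 1) ≠ 0) ∧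
      Subgroup.closure ({u, v} : Set (Matrix.SpecialLinearGroup (Fin n) F)) = ⊤) ∧
    ((Fintype.card F).Prime → ∃ u g : Matrix.SpecialLinearGroup (Fin n) F, (IsNilpotent ((u : Matrix (Fin n) (Fin n) F) - 1) ∧ ((u : Matrix (Fin n) (Fin n) F) - 1) ^ (n - 1) ≠ 0) ∧
      Subgroup.closure ({u, g * u * g⁻¹} : Set (Matrix.SpecialLinearGroup (Fin n) F)) = ⊤) := by
  obtain ⟨m, rfl⟩ : ∃ m, n = m + 1 := ⟨n - 1, by omega⟩
  refine ⟨?_, fun hp => ?_⟩
  · obtain ⟨h, H⟩ := main1 (F := F) (m := m) (by omega)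
    obtain ⟨u, hu, hu'⟩ := CL.KSG.Irr.exists_toGL (CL.KSG.Irr.det_xU (F := F) (n := m + 1))
    obtain ⟨v, hv, hv'⟩ := CL.KSG.Irr.exists_toGL
      (g := h * CL.KSG.Irr.xU F (m + 1) * h⁻¹) (by
        rw [Units.val_mul, Units.val_mul, Matrix.det_units_conj, CL.KSG.Irr.det_xU])
    refine ⟨u, v, by rw [hu']; exact ⟨CL.KSG.Irr.nilp_xU, CL.KSG.Irr.reg_xU (by omega)⟩,
      by rw [hv']; exact CL.KSG.Irr.conj_reg CL.KSG.Irr.nilp_xU (CL.KSG.Irr.reg_xU (by omega)),
      CL.KSG.Irr.closure_eq_top_of_le ?_⟩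
    rwa [Set.image_pair, hu, hv]
  · obtain ⟨h, hd, H⟩ := main2 (F := F) (m := m) (by omega) hp
    exact CL.KSG.Irr.exists_SL_two (by omega) hd H

end Cfsg.Agent.S2279
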