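import Cfsg.Statements.S2280
import Cfsg.Agent.KSG.RegSL

set_option autoImplicit false
open Cfsg

namespace Cfsg.Agent.S2280

section
open Matrix Module Cfsg.Geo CL.Tv CL.KSG.Irr

variable {F : Type*} [Field F] {m : ℕ}

theorem main [Fintype F] (m : ℕ) : ∃ g h : GL (Fin (m + 2 + 1)) F,
    (g : Matrix (Fin (m + 2 + 1)) (Fin (m + 2 + 1)) F).det = 1 ∧
    (h : Matrix (Fin (m + 2 + 1)) (Fin (m + 2 + 1)) F).det = 1 ∧
    specialLinear (Fin (m + 2 + 1)) F ≤ Subgroup.closure {xU F (m + 2 + 1),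
      g * xU F (m + 2 + 1) * g⁻¹, h * xU F (m + 2 + 1) * h⁻¹} := by
  obtain ⟨lam, hl0, -, hl, -⟩ := exists_gen (E := F)
  set x := xU F (m + 2 + 1) with hx
  set s : F := ((Equiv.Perm.sign (Fin.revPerm : Equiv.Perm (Fin (m + 2 + 1))) : ℤ) : F) with hs
  have hss : s * s = 1 := by
    rcases Int.units_eq_one_or (Equiv.Perm.sign (Fin.revPerm : Equiv.Perm (Fin (m + 2 + 1)))) with h | h <;>
      simp [hs, h]
  have hs0 : s ≠ 0 := left_ne_zero_of_mul_eq_one hss
  have b0 : co 0 (bs 0 : Fin (m + 2 + 1) → F) = 1 := co_bs_self (by omega)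
  have hd : 1 + co 0 ((s - 1) • bs 0 : Fin (m + 2 + 1) → F) = s := by simp [b0]
  set w : GL (Fin (m + 2 + 1)) F := dil _ _ (hd.symm ▸ hs0) * prm Fin.revPerm with hw
  have w1 : ∀ k, 1 ≤ k → k ≤ m + 2 → ∀ v, co k (act w v) = co (m + 2 - k) v := fun k h1 h2 v => by
    rw [hw, act_mul, act_dil, map_add, map_smul, map_smul, co_bs_ne (by omega), co_rev h2]; simp
  have w0 : ∀ v, co 0 (act w v) = s * co (m + 2) v := fun v => by
    rw [hw, act_mul, act_dil, map_add, map_smul, map_smul, b0, co_rev (by omega)]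
    simp only [smul_eq_mul, Nat.sub_zero]; ring
  have we : act w (s • bs (m + 2)) = bs 0 := ext_co fun k hk => by
    cases k with
    | zero => rw [w0, map_smul, co_bs_self (by omega), b0, smul_eq_mul, mul_one, hss]
    | succ k => rw [w1 _ (by omega) (by omega), map_smul, co_bs_ne (by omega), co_bs_ne (by omega),
        smul_zero]
  set z := w * x * w⁻¹ with hz
  set ε : F := s * (-1) ^ (m + 2) with hε
  have hε0 : ε ≠ 0 := mul_ne_zero hs0 (by simp)
  have z1 : co (m + 2) (act z⁻¹ (bs 0)) = ε := by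
    rw [show z⁻¹ = w * x⁻¹ * w⁻¹ from conj_inv, act_mul, act_mul, act_inv_eq we,
      w1 _ (by omega) le_rfl, Nat.sub_self, map_smul, map_smul, co_xU_inv_bs (by omega), smul_eq_mul]
  have z2 : ∀ v, co (m + 2) (act z v) = co (m + 2) v + co (m + 1) v := fun v => by
    obtain ⟨u, rfl⟩ := (act w).surjective v
    rw [hz, act_mul, act_mul, act_inv_act, w1 _ (by omega) le_rfl, w1 _ (by omega) le_rfl,
      w1 _ (by omega) (by omega), Nat.sub_self, co_xU, show m + 2 - (m + 1) = 0 + 1 by omega]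
  set c := lam / ε with hc
  have hc0 : c ≠ 0 := div_ne_zero hl0 hε0
  have e1 : co (m + 1) (bs 0 : Fin (m + 2 + 1) → F) = 0 := co_bs_ne (by omega)
  have e2 : co (m + 2) (bs 0 : Fin (m + 2 + 1) → F) = 0 := co_bs_ne (by omega)
  have hg0 : (c • co (m + 1) : Dual F (Fin (m + 2 + 1) → F)) (bs 0) = 0 := by simp [e1]
  set g := tv _ _ hg0 with hg
  refine ⟨g, w, mem_SL_iff.1 (tv_mem_SL _ _ _), ?_, ?_⟩
  · rw [hw, Units.val_mul, Matrix.det_mul, det_dil, det_prm, hd, hss]
  set y := g * x * g⁻¹ with hy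
  set K := Subgroup.closure {x, y, z} with hK
  have xK : x ∈ K := Subgroup.subset_closure (by simp)
  have yK : y ∈ K := Subgroup.subset_closure (by simp)
  have zK : z ∈ K := Subgroup.subset_closure (by simp)
  have xe : act x (bs 0) = bs 0 := xU_bs_zero
  have ge : act g (bs 0) = bs 0 := by rw [hg, act_tv, hg0, zero_smul, add_zero]
  have hI : Irred K := irred_xU xK (K.inv_mem zK) (by rw [z1]; exact hε0)
  have t0 : HasTv K (bs 0) (c • co (m + 2)) := by
    refine ⟨y * x⁻¹, K.mul_mem yK (K.inv_mem xK), fun v => ?_⟩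
    obtain ⟨u, rfl⟩ := (act x).surjective v
    have : act g⁻¹ u = u - (c * co (m + 1) u) • bs 0 := act_inv_eq (by
      rw [hg, act_tv]; simp [e1])
    rw [act_mul, act_inv_act, hy, act_mul, act_mul, this, map_sub, map_smul, xe, hg, act_tv]
    simp only [LinearMap.smul_apply, map_sub, map_smul, e1, smul_eq_mul]
    rw [co_xU, co_last_xU]
    module
  have t1 : HasTv K (act z⁻¹ (bs 0)) (c • (co (m + 2) + co (m + 1))) :=
    t0.conj' (K.inv_mem zK) rfl fun v => by
      obtain ⟨u, rfl⟩ := (act z).surjective v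
      rw [act_inv_act, LinearMap.smul_apply, LinearMap.smul_apply, z2, LinearMap.add_apply]
  have hall := all_of_mul (RingHom.id F) (by simp [e2]) t0 hl fun a ha => by
    have h1 := ha.comm_right t1 (by simp [e2]) (by
      rw [LinearMap.smul_apply, LinearMap.add_apply, ← z2, act_act_inv, e2, smul_zero])
      (by simp [e1, e2])
    have h2 := h1.conj' (K.inv_mem xK) (act_inv_eq xe)
      (φ' := (a * c * ε * c) • (co (m + 2) + co (m + 1) + co (m + 2))) fun v => by
        obtain ⟨u, rfl⟩ := (act x).surjective v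
        rw [act_inv_act]
        simp only [LinearMap.smul_apply, LinearMap.add_apply, z1, smul_eq_mul, RingHom.id_apply]
        rw [co_last_xU, co_xU]
        ring
    have h3 := h2.sub_right h1 (by simp [e1, e2]) (by simp [e1, e2])
    convert h3 using 1
    refine LinearMap.ext fun v => ?_
    simp only [LinearMap.smul_apply, LinearMap.add_apply, LinearMap.sub_apply, z1, smul_eq_mul,
      RingHom.id_apply, hc]
    field_simp
    ring
  have hR : Root K (bs 0) (co (m + 2)) := by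
    refine ⟨fun h => ?_, fun h => ?_, e2, fun a => ?_⟩
    · rw [h, map_zero] at b0; exact zero_ne_one b0
    · rw [h] at z1; exact hε0 z1.symm
    · have := hall (a / c)
      rwa [RingHom.id_apply, smul_smul, div_mul_cancel₀ _ hc0] at this
  refine SL_le_of_conj hI hR (conn_of_closure hK hR ?_) zK (by rw [z2, e1, e2, add_zero])
    (by rw [z1]; exact hε0)
  rintro _ (rfl | rfl | rfl)
  · exact comp_of_gen hI hR xK (Or.inl ⟨1, by rw [xe, one_smul]⟩)
  · exact comp_of_gen hI hR yK (Or.inl ⟨1, by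
      rw [hy, act_mul, act_mul, act_inv_eq ge, xe, ge, one_smul]⟩)
  · exact comp_of_gen hI hR zK (Or.inr (Or.inr (by rw [z1]; exact hε0)))

end

/-- Let F be a finite field and n ≥ 3. Then SL_n(F) is generated by three conjugate regular unipotent elements: there are u with u − 1 nilpotent and (u − 1)^(n−1) ≠ 0, and g, h, such that u, g u g⁻¹ and h u h⁻¹ generate SL_n(F). -/
theorem result {F : Type*} [Field F] [Fintype F] (n : ℕ) (hn : 3 ≤ n) :
    ∃ u g h : Matrix.SpecialLinearGroup (Fin n) F, (IsNilpotent ((u : Matrix (Fin n) (Fin n) F) - 1) ∧ ((u : Matrix (Fin n) (Fin n) F) - 1) ^ (n - 1) ≠ 0) ∧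
      Subgroup.closure ({u, g * u * g⁻¹, h * u * h⁻¹} : Set (Matrix.SpecialLinearGroup (Fin n) F)) = ⊤ := by
  obtain ⟨m, rfl⟩ : ∃ m, n = m + 2 + 1 := ⟨n - 3, by omega⟩
  obtain ⟨g, h, hg, hh, H⟩ := main (F := F) m
  obtain ⟨u, hu, hu'⟩ := CL.KSG.Irr.exists_toGL (CL.KSG.Irr.det_xU (F := F) (n := m + 2 + 1))
  obtain ⟨g', hg', -⟩ := CL.KSG.Irr.exists_toGL hg
  obtain ⟨h', hh', -⟩ := CL.KSG.Irr.exists_toGL hh
  refine ⟨u, g', h', by rw [hu']; exact ⟨CL.KSG.Irr.nilp_xU, CL.KSG.Irr.reg_xU (by omega)⟩,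
    CL.KSG.Irr.closure_eq_top_of_le ?_⟩
  rwa [Set.image_insert_eq, Set.image_pair, map_mul, map_mul, map_inv, map_mul, map_mul, map_inv,
    hu, hg', hh']

end Cfsg.Agent.S2280
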