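import Cfsg.Statements.S2281
import Cfsg.Agent.KSG.RegSp

set_option autoImplicit false
open Cfsg

namespace Cfsg.Agent.S2281

section
open Matrix Module Cfsg.Geo CL.Tv CL.KSG.Irr

variable {F : Type*} [Field F] {m : ℕ}

structure Gen (K : Subgroup (GL (Fin (m + 1) ⊕ Fin (m + 1)) F))
    (l x y z : GL (Fin (m + 1) ⊕ Fin (m + 1)) F) (c β : F) : Prop where
  hm : 1 ≤ m
  S : SpS l x
  hK : K = Subgroup.closure {x, y, z}
  hy : y ∈ SpG m F
  hz : z ∈ SpG m F
  hc : c ≠ 0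
  hβ : β ≠ 0
  ey : ∀ v, act (y * x⁻¹) v = v + (c • Bf (jL (bs 0))) v • jL (bs 0)
  ez : ∀ v, act (z * x) v = (v + co 0 (Rp v) • jL (bs m)) +
      (β ^ 2 * Bf (jR (bs m)) (v + co 0 (Rp v) • jL (bs m))) • jR (bs m)

namespace Gen

variable {K : Subgroup (GL (Fin (m + 1) ⊕ Fin (m + 1)) F)}
  {l x y z : GL (Fin (m + 1) ⊕ Fin (m + 1)) F} {c β : F} (H : Gen K l x y z c β)
include H

theorem xK : x ∈ K := H.hK ▸ Subgroup.subset_closure (by simp)
theorem yK : y ∈ K := H.hK ▸ Subgroup.subset_closure (by simp)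
theorem zK : z ∈ K := H.hK ▸ Subgroup.subset_closure (by simp)

theorem le : K ≤ SpG m F := by
  rw [H.hK, Subgroup.closure_le]
  rintro _ (rfl | rfl | rfl)
  exacts [H.S.hx, H.hy, H.hz]

theorem hB : ∀ g ∈ K, ∀ u v, Bf (act g u) (act g v) = Bf u v := fun _ hg => mem_SpG.1 (H.le hg)

theorem ze : act (z * x) (jL (bs 0)) = jL (bs 0) + (-β ^ 2) • jR (bs m) := by
  rw [H.ez]; simp [Bf_jR le_rfl, co_bs]

theorem ze' : Bf (jL (bs 0)) (act z (jL (bs 0))) ≠ 0 := by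
  have := H.ze
  rw [act_mul, H.S.x_e0] at this
  rw [this]
  simp [Bf_jL (Nat.zero_le m), co_bs, H.hβ]

theorem irred : Irred K := H.S.irred H.xK H.zK H.ze'

theorem t0 : HasTv K (jL (bs 0)) (c • Bf (jL (bs 0))) :=
  ⟨_, K.mul_mem H.yK (K.inv_mem H.xK), H.ey⟩

theorem conn [Finite F] (hR : Root K (jL (bs 0)) (Bf (jL (bs 0)))) :
    Conn K (jL (bs 0)) (Bf (jL (bs 0))) := by
  refine conn_of_closure H.hK hR ?_
  rintro _ (rfl | rfl | rfl)
  · exact comp_of_gen H.irred hR H.xK (Or.inl ⟨1, by rw [H.S.x_e0, one_smul]⟩)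
  · refine comp_of_gen H.irred hR H.yK (Or.inl ⟨1, ?_⟩)
    have := H.ey (jL (bs 0))
    rw [act_mul, act_inv_eq H.S.x_e0] at this
    rw [this]; simp [Bf_alt]
  · exact comp_of_gen H.irred hR H.zK (Or.inr (Or.inl H.ze'))

omit H in
theorem root_of {v : Vs m F} (hv : v ≠ 0) (h : ∀ a : F, HasTv K v (a • Bf v)) : Root K v (Bf v) :=
  ⟨hv, fun h0 => hv (Bf_nondeg v h0), Bf_alt v, h⟩

omit H in
theorem e_ne : (jL (bs 0) : Vs m F) ≠ 0 := fun h => by
  have := congrArg (fun v => co 0 (Lp v)) h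
  simp [co_bs] at this

theorem odd [Fintype F] (h2 : (2 : F) ≠ 0) (hβ : β = 1)
    (hgen : Subfield.closure ({-c} : Set F) = ⊤) (hex : ¬ (Fintype.card F = 9 ∧ (-c) ^ 2 = -1))
    (v : Vs m F) (a : F) : HasTv K v (a • Bf v) := by
  have hm := H.hm
  have b1 : co 0 (bs m : Fin (m + 1) → F) = 0 := co_bs_ne (by omega)
  have hall := all_of_dickson (RingHom.id F) h2 (neg_ne_zero.2 H.hc) hgen hex
    (y := -jR (bs m)) (ψ := -Bf (jR (bs m))) (by simp [Bf_alt]) (by simp [Bf_alt])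
    (by simp [Bf_jR le_rfl, co_bs]) (by simp [Bf_jL (Nat.zero_le m), co_bs]) H.t0
    (K.mul_mem H.zK H.xK) (by rw [H.ze, hβ]; simp) (by rw [H.ez]; simp [b1, Bf_alt]) (by
      intro v h1 h3
      have h4 : co m (Rp v) = 0 := by simpa [Bf_jL (Nat.zero_le m), H.hc] using h1
      have h5 : co 0 (Lp v) = 0 := by simpa [Bf_jR le_rfl] using h3
      rw [H.ez]
      simp [Bf_jL (Nat.zero_le m), Bf_jR le_rfl, h4, h5, b1])
  have hR : Root K (jL (bs 0)) (Bf (jL (bs 0))) := root_of e_ne fun a => by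
    have := hall (a / c)
    rwa [RingHom.id_apply, smul_smul, div_mul_cancel₀ _ H.hc] at this
  exact hasTv_of_form ⟨2, h2, by intro h; exact one_ne_zero (by linear_combination h : (1 : F) = 0)⟩
    H.irred hR (H.conn hR) Bf Bf_alt Bf_nondeg H.hB v a

theorem even [Fintype F] (h2 : (2 : F) = 0) {γ w : F} (hγ : c = γ ^ 2) (hw : γ * β = w)
    (hgen : Subfield.closure ({w} : Set F) = ⊤) (hF : w = 1 → ∀ a : F, a = 0 ∨ a = 1)
    (v : Vs m F) (a : F) : HasTv K v (a • Bf v) := by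
  have hm := H.hm
  have b1 : co 0 (bs m : Fin (m + 1) → F) = 0 := co_bs_ne (by omega)
  have b2 : co m (bs 0 : Fin (m + 1) → F) = 0 := co_bs_ne (by omega)
  have b3 : co 0 (bs 0 : Fin (m + 1) → F) = 1 := co_bs_self (by omega)
  have b4 : co m (bs m : Fin (m + 1) → F) = 1 := co_bs_self (by omega)
  have hγ0 : γ ≠ 0 := fun h => H.hc (by rw [hγ, h]; simp)
  have hβ0 := H.hβ
  have hw0 : w ≠ 0 := hw ▸ mul_ne_zero hγ0 hβ0
  have B0 := Bf_jL (F := F) (Nat.zero_le m)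
  have B1 := Bf_jL (F := F) (le_refl m)
  have B2 := Bf_jR (F := F) (Nat.zero_le m)
  have B3 := Bf_jR (F := F) (le_refl m)
  rw [Nat.sub_zero] at B0 B2
  rw [Nat.sub_self] at B1 B3
  set t := y * x⁻¹ with ht
  have tK : t ∈ K := K.mul_mem H.yK (K.inv_mem H.xK)
  have q1 : (β ^ 2 • Bf (jR (bs m) : Vs m F)) (jR (bs m)) = 0 := by simp [Bf_alt]
  set t' := tv _ _ q1 with ht'
  set s := tv (jL (bs m) : Vs m F) (Bf (jL (bs m))) (Bf_alt _) with hs
  have et' : ∀ v, act t' v = v + (β ^ 2 • Bf (jR (bs m))) v • jR (bs m) := act_tv _ _ _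
  have es : ∀ v, act s v = v + co 0 (Rp v) • jL (bs m) := fun v => by rw [hs, act_tv, B1]
  have e1 : z * x = t' * s := ext_act fun v => by rw [H.ez, act_mul, es, et']; rfl
  obtain ⟨-, -, k, hk⟩ := odd_orderOf h2 H.ey et' (by simp [Bf_alt]) q1
    (by simp [B0, b4, H.hc]) (by simp [B3, b3, hβ0])
  have c1 : Commute t s := ext_act fun v => by
    have et : ∀ v, act t v = v + (c • Bf (jL (bs 0))) v • jL (bs 0) := H.ey
    simp only [act_mul, et, es, LinearMap.smul_apply, B0]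
    simp; abel
  have c2 : Commute t' s := ext_act fun v => by
    simp only [act_mul, et', es, LinearMap.smul_apply, B3]
    simp [b1]; abel
  have ss : s * s = 1 := ext_act fun v => by
    rw [act_mul, es, es, act_one]
    simp only [map_add, map_smul, Rp_jL, smul_zero, add_zero]
    have : (2 : F) • (co 0 (Rp v) • (jL (bs m) : Vs m F)) = 0 := by rw [h2, zero_smul]
    linear_combination (norm := module) this
  have sK : s ∈ K := by
    have := K.pow_mem (K.mul_mem tK (K.mul_mem H.zK H.xK)) (2 * k + 1)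
    rwa [e1, ← mul_assoc, (c1.mul_left c2).mul_pow, ← hk, pow_orderOf_eq_one, one_mul, hk, pow_succ,
      pow_mul, pow_two, ss, one_pow, one_mul] at this
  have t'K : t' ∈ K := by
    have := K.mul_mem (K.mul_mem H.zK H.xK) (K.inv_mem sK)
    rwa [e1, mul_inv_cancel_right] at this
  have lK : l ∈ K := by
    have e : x = l * s := ext_act fun v => ext_LR (by simp [act_mul, es, H.S.xL, H.S.lL])
      (by simp [act_mul, es, H.S.xR, H.S.lR])
    have := K.mul_mem H.xK (K.inv_mem sK)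
    rwa [e, mul_inv_cancel_right] at this
  have dE : Dv K Bf (γ • jL (bs 0)) := (dv_smul γ).2 (hγ ▸ H.t0)
  have dG : Dv K Bf (β • jR (bs m)) := (dv_smul β).2 ⟨t', t'K, et'⟩
  have dA : Dv K Bf (jL (bs m)) := ⟨s, sK, act_tv _ _ _⟩
  have d1 := affine Bf_alt h2 hm jR (fun a b => by simp [Bf_apply]) (K.inv_mem lK)
    (H.hB _ (K.inv_mem lK)) H.S.l_jR hβ0 hγ0 (by rw [hw]; exact closure_sq_two h2 hgen)
    (by rwa [map_smul]) dE (fun a => by simp [B0])
  have d2 : ∀ α : F, Dv K Bf (γ • jL (bs 0) + α • jR (bs 0)) := fun α => by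
    have h3 := d1 (-α / (β * γ))
    rw [map_add, map_smul] at h3
    have := siegel Bf_alt h2 dG h3 dE (by simp [B3]) (by simp [B2, b2])
    convert this using 2
    simp only [map_smul, LinearMap.smul_apply, B3, Lp_jL, b3, smul_eq_mul, smul_smul]
    congr 1
    field_simp
  have d3 := affine Bf_alt h2 hm jL (fun a b => by simp [Bf_apply]) lK
    (H.hB _ lK) H.S.l_jL one_ne_zero (neg_ne_zero.2 hw0)
    (by simpa using closure_sq_two h2 hgen) (by rwa [one_smul]) (d2 w) (fun a => by simp [B0, B2])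
  by_cases hw1 : w = 1
  · have hF := hF hw1
    have hroot : ∀ v, v ≠ 0 → Dv K Bf v → Root K v (Bf v) := fun v hv h => root_of hv fun a => by
      rcases hF a with rfl | rfl
      · rw [zero_smul]; exact HasTv.zero_right _
      · rwa [one_smul]
    have hne : ∀ {u v : Vs m F}, Bf u v ≠ 0 → u ≠ 0 := fun h h0 => h (by simp [h0])
    obtain rfl : γ = 1 := (hF γ).resolve_left hγ0
    obtain rfl : β = 1 := (hF β).resolve_left hβ0
    rw [one_smul] at dE dG
    have d4 := d2 1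
    have d5 := d3 1
    rw [one_smul, one_smul] at d4 d5
    rw [map_add, add_comm (jL (bs m))] at d5
    have hR := hroot _ e_ne dE
    have p1 : Bf (jR (bs m) : Vs m F) (jL (bs 0)) ≠ 0 := by simp [B3, b3]
    have p2 : Bf (jL (bs 0) + jR (bs 0) : Vs m F) (jR (bs m)) ≠ 0 := by simp [B0, B2, b4]
    have p3 : Bf (jL (bs m) : Vs m F) (jL (bs 0) + jR (bs 0)) ≠ 0 := by simp [B1, b3]
    have p4 : Bf (jL (bs 0) + jL (bs m) : Vs m F) (jL (bs 0) + jR (bs 0)) ≠ 0 := by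
      simp [B0, B1, b3, b2]
    have c3 := ((Comp.self hR).adj (hroot _ (hne p1) dG) (Or.inl p1)).adj (hroot _ (hne p2) d4)
      (Or.inl p2)
    exact hasTv_of_form_two hF H.irred hR (H.conn hR) Bf_alt Bf_nondeg H.hB
      (c3.adj (hroot _ (hne p3) dA) (Or.inl p3)) (c3.adj (hroot _ (hne p4) d5) (Or.inl p4))
      (by simp [B0]) v a
  · have d4 : ∀ α : F, Dv K Bf (jL (bs m) - α ^ 2 • jR (bs 0)) := fun α => by
      have := tv_step Bf_alt (d2 α) (d3 (α * γ))
      convert this using 1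
      simp only [map_add, map_smul, LinearMap.add_apply, LinearMap.smul_apply, B0, B2, Rp_jL, Lp_jL,
        b4, b2, map_zero, smul_eq_mul]
      module
    have hα : (w - 1) / w ≠ 0 := div_ne_zero (sub_ne_zero.2 hw1) hw0
    set u : Vs m F := jL (bs m) - ((w - 1) / w) ^ 2 • jR (bs 0) with hu
    have d5 : Dv K Bf (w ^ 2 • u) := by
      have := tv_step Bf_alt dA (d4 (w - 1))
      convert this using 1
      simp only [hu, map_sub, map_smul, B1, Rp_jL, Rp_jR, b3, map_zero, smul_eq_mul, smul_sub, smul_smul]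
      have e1 : w ^ 2 * ((w - 1) / w) ^ 2 = (w - 1) ^ 2 := by field_simp
      have e2 : w ^ 2 = 1 + (0 - (w - 1) ^ 2 * 1) := by linear_combination (w ^ 2 - w) * h2
      rw [e1]
      conv_lhs => rw [e2]
      module
    have p1 : Bf u (jL (bs m)) ≠ 0 := by simp [hu, B1, B2, b4, hα]
    have sk : ∀ {u v : Vs m F}, Bf u v ≠ 0 → Bf v u ≠ 0 := fun h => by
      rw [skew_of_alt Bf_alt]; exact neg_ne_zero.2 h
    have r1 : Root K u (Bf u) := root_of (fun h0 => p1 (by simp [h0]))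
      (all_of_mul (RingHom.id F) (Bf_alt u) (d4 _) (closure_sq_two h2 (closure_sq_two h2 hgen))
        fun a ha => mul_of_two h2 (pow_ne_zero 2 (pow_ne_zero 2 hw0)) (d4 _) ((dv_smul _).1 d5) dA
          (Bf_alt _) (Bf_alt _) p1 (sk p1) ha)
    have p2 : Bf (jL (bs m) : Vs m F) (γ • jL (bs 0) + (1 : F) • jR (bs 0)) ≠ 0 := by simp [B1, b3]
    have p3 : Bf (γ • jL (bs 0) + (1 : F) • jR (bs 0) : Vs m F) (β • jR (bs m)) ≠ 0 := by
      simp [B0, B2, b4, hγ0, hβ0]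
    have p4 : Bf (β • jR (bs m) : Vs m F) (γ • jL (bs 0)) ≠ 0 := by simp [B3, b3, hγ0, hβ0]
    have r2 := (((r1.of_opp h2 dA (Bf_alt _) p1 (sk p1)).of_opp h2 (d2 1) (Bf_alt _) p2 (sk p2)).of_opp
      h2 dG (Bf_alt _) p3 (sk p3)).of_opp h2 dE (Bf_alt _) p4 (sk p4)
    have hR : Root K (jL (bs 0)) (Bf (jL (bs 0))) := by
      simpa [smul_smul, hγ0] using r2.smul (inv_ne_zero hγ0) (inv_ne_zero hγ0)
    exact hasTv_of_form ⟨w, hw0, hw1⟩ H.irred hR (H.conn hR) Bf Bf_alt Bf_nondeg H.hB v a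

end Gen

theorem conj_odd {m : ℕ} {l x : GL (Fin (m + 1 + 1) ⊕ Fin (m + 1 + 1)) F} (H : SpS l x)
    (h2 : (2 : F) ≠ 0) (c : F) : ∃ h ∈ SpG (m + 1) F, ∀ v, act (h * x * h⁻¹ * x⁻¹) v =
      v + (c • Bf (jL (bs 0))) v • jL (bs 0) := by
  refine H.rad_conj ((-c / 2) • ((co m).smulRight (bs 0) + (co (m + 1)).smulRight (bs 1)))
    (fun a b => ?_) fun b => ?_
  · simp [ip_bs (Nat.zero_le _), ip_bs' (Nat.zero_le _), ip_bs (show 1 ≤ m + 1 by omega),
      ip_bs' (show 1 ≤ m + 1 by omega)]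
    ring
  · have e : c = -2 * (-c / 2) := by field_simp
    simp only [LinearMap.smul_apply, LinearMap.add_apply, LinearMap.smulRight_apply, map_smul,
      map_add, co_last_xU, co_xU m, xU_bs_zero, xU_bs_succ (show 0 + 1 < m + 1 + 1 by omega)]
    conv_rhs => rw [e]
    module

theorem conj_even {m : ℕ} {l x : GL (Fin (m + 2 + 1) ⊕ Fin (m + 2 + 1)) F} (H : SpS l x)
    (h2 : (2 : F) = 0) : ∃ h ∈ SpG (m + 2) F, ∀ v, act (h * x * h⁻¹ * x⁻¹) v =
      v + ((1 : F) • Bf (jL (bs 0))) v • jL (bs 0) := by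
  refine H.rad_conj ((co m).smulRight (bs 0) + (co (m + 1)).smulRight (bs 1) +
    (co (m + 2)).smulRight (bs 2)) (fun a b => ?_) fun b => ?_
  · simp [ip_bs (Nat.zero_le _), ip_bs' (Nat.zero_le _), ip_bs (show 1 ≤ m + 2 by omega),
      ip_bs' (show 1 ≤ m + 2 by omega), ip_bs (show 2 ≤ m + 2 by omega),
      ip_bs' (show 2 ≤ m + 2 by omega)]
    ring
  · simp only [LinearMap.add_apply, LinearMap.smulRight_apply, map_smul,
      map_add, co_last_xU, co_xU m, co_xU (m + 1), xU_bs_zero,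
      xU_bs_succ (show 0 + 1 < m + 2 + 1 by omega), xU_bs_succ (show 1 + 1 < m + 2 + 1 by omega)]
    have : (2 : F) • ((co (m + 1) b + co (m + 2) b) • (bs 0 : Fin (m + 2 + 1) → F) +
      co (m + 2) b • bs 1) = 0 := by rw [h2, zero_smul]
    linear_combination (norm := module) -this

theorem conj_two {l x : GL (Fin (1 + 1) ⊕ Fin (1 + 1)) F} (H : SpS l x)
    (h2 : (2 : F) = 0) (a : F) : ∃ h ∈ SpG 1 F, ∀ v, act (h * x * h⁻¹ * x⁻¹) v =
      v + ((a ^ 2 + a) • Bf (jL (bs 0))) v • jL (bs 0) := by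
  obtain ⟨d, hd, ed⟩ := exists_lev (m := 1) (F := F) (LinearMap.id + a • (co 1).smulRight (bs 0))
    (LinearMap.id + a • (co 1).smulRight (bs 0)) fun u v => by
      simp [ip_bs (Nat.zero_le _), ip_bs' (Nat.zero_le _), co_bs]
      linear_combination (a * co 1 u * co 1 v) * h2
  obtain ⟨s, hs, es⟩ := exists_rad (m := 1) (F := F) (a • (co 0).smulRight (bs 1)) fun u v => by
    simp [ip_bs le_rfl, ip_bs' le_rfl, mul_comm]
  refine ⟨d * s, mul_mem hd hs, fun v => ?_⟩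
  obtain ⟨v, rfl⟩ := (act x).surjective v
  obtain ⟨u, rfl⟩ := (act (d * s)).surjective v
  have i1 : ∀ b : Fin (1 + 1) → F, co 1 (act (xU F (1 + 1))⁻¹ b) = co 1 b := fun b => by
    rw [← co_last_xU, act_act_inv]
  have i0 : ∀ b : Fin (1 + 1) → F, co 0 (act (xU F (1 + 1))⁻¹ b) = co 0 b - co 1 b := fun b => by
    rw [← i1 b, co_xU_inv]; ring
  have c2 : ∀ b : Fin (1 + 1) → F, co 2 b = 0 := fun b => co_of_le le_rfl b
  rw [act_mul, act_mul, act_mul, act_inv_act, act_inv_act]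
  refine ext_LR (ext_co fun k hk => ?_) (ext_co fun k hk => ?_) <;> interval_cases k <;>
    simp [act_mul, ed, es, H.xL, H.xR, co_xU, i0, i1, c2, co_bs, Bf_jL (Nat.zero_le 1)] <;> grind

theorem main [Fintype F] (hm : 1 ≤ m) (h22 : ¬ (m = 1 ∧ Fintype.card F = 2)) :
    ∃ l x, SpS l x ∧ ∃ g ∈ SpG m F, ∃ h ∈ SpG m F,
      ∀ v (c : F), HasTv (Subgroup.closure {x, g * x * g⁻¹, h * x * h⁻¹}) v (c • Bf v) := by
  obtain ⟨l, x, H⟩ := exists_SpS (m := m) (F := F)
  obtain ⟨w, hw0, hw, hgen, -⟩ := exists_gen (E := F)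
  have hcj : ∀ g ∈ SpG m F, g * x * g⁻¹ ∈ SpG m F := fun g hg =>
    mul_mem (mul_mem hg H.hx) (inv_mem hg)
  have hF : w = 1 → Fintype.card F = 2 := fun h => by
    have := hw 1 (by rw [h, one_pow])
    have := Nat.dvd_one.1 this
    omega
  refine ⟨l, x, H, ?_⟩
  by_cases h2 : (2 : F) = 0
  · obtain ⟨c, hc, g, hg, eg⟩ : ∃ c : F, c ≠ 0 ∧ ∃ h ∈ SpG m F, ∀ v, act (h * x * h⁻¹ * x⁻¹) v =
        v + (c • Bf (jL (bs 0))) v • jL (bs 0) := by
      by_cases h1 : m = 1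
      · subst h1
        refine ⟨w ^ 2 + w, fun h => h22 ⟨rfl, hF ?_⟩, conj_two H h2 w⟩
        have : w * (w - 1) = 0 := by linear_combination h - w * h2
        exact sub_eq_zero.1 ((mul_eq_zero.1 this).resolve_left hw0)
      · obtain ⟨m, rfl⟩ : ∃ m', m = m' + 2 := ⟨m - 2, by omega⟩
        exact ⟨1, one_ne_zero, conj_even H h2⟩
    have : CharP F 2 := (CharP.charP_iff_prime_eq_zero Nat.prime_two).2 (by exact_mod_cast h2)
    obtain ⟨γ, hγ⟩ := FiniteField.isSquare_of_char_two (ringChar.eq F 2) c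
    have hγ0 : γ ≠ 0 := fun h => hc (by rw [hγ, h, mul_zero])
    obtain ⟨h, hh, eh⟩ := H.exists_opp (w / γ) (div_ne_zero hw0 hγ0)
    have G : Gen _ l x _ _ c (w / γ) :=
      ⟨hm, H, rfl, hcj g hg, hcj h hh, hc, div_ne_zero hw0 hγ0, eg, eh⟩
    refine ⟨g, hg, h, hh, G.even h2 (γ := γ) (w := w) (by rw [hγ, pow_two]) (by field_simp) hgen
      fun h1 a => ?_⟩
    have := FiniteField.pow_card a
    rw [hF h1] at this
    have h3 : a * (a - 1) = 0 := by linear_combination this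
    exact (mul_eq_zero.1 h3).imp id sub_eq_zero.1
  · obtain ⟨m, rfl⟩ : ∃ m', m = m' + 1 := ⟨m - 1, by omega⟩
    obtain ⟨g, hg, eg⟩ := conj_odd H h2 (-w)
    obtain ⟨h, hh, eh⟩ := H.exists_opp 1 one_ne_zero
    have G : Gen _ l x _ _ (-w) 1 :=
      ⟨hm, H, rfl, hcj g hg, hcj h hh, neg_ne_zero.2 hw0, one_ne_zero, eg, eh⟩
    refine ⟨g, hg, h, hh, G.odd h2 rfl (by rwa [neg_neg]) fun ⟨h9, h1⟩ => ?_⟩
    have := hw 4 (by linear_combination (w ^ 2 - 1) * h1)
    rw [h9] at this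
    omega

end

/-- Let F be a finite field and n ≥ 2, excluding the case n = 2 with F of two elements (where the group is not quasisimple). Then the symplectic group Sp_2n(F) is generated by three conjugate regular unipotent elements: there are u ∈ Sp_2n(F) with u − 1 nilpotent and (u − 1)^(2n−1) ≠ 0, and g, h ∈ Sp_2n(F), such that u, g u g⁻¹ and h u h⁻¹ generate Sp_2n(F). -/
theorem result {F : Type*} [Field F] [Fintype F] (n : ℕ) (hn : 2 ≤ n) (h22 : ¬ (n = 2 ∧ Fintype.card F = 2)) :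
    ∃ u g h : Matrix.symplecticGroup (Fin n) F,
      IsNilpotent ((u : Matrix (Fin n ⊕ Fin n) (Fin n ⊕ Fin n) F) - 1) ∧
      ((u : Matrix (Fin n ⊕ Fin n) (Fin n ⊕ Fin n) F) - 1) ^ (2 * n - 1) ≠ 0 ∧
      Subgroup.closure ({u, g * u * g⁻¹, h * u * h⁻¹} : Set (Matrix.symplecticGroup (Fin n) F)) = ⊤ := by
  obtain ⟨m, rfl⟩ : ∃ m, n = m + 1 := ⟨n - 1, by omega⟩
  obtain ⟨l, x, H, g, hg, h, hh, hall⟩ := main (F := F) (m := m) (by omega)
    fun h => h22 ⟨by omega, h.2⟩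
  obtain ⟨u, g', h', hu, hc⟩ := CL.KSG.Irr.exists_Sp_three H.hx hg hh hall
  refine ⟨u, g', h', hu ▸ H.nilp, ?_, hc⟩
  rw [hu]
  exact CL.KSG.Irr.pow_ne_zero_of_fix H.fix (by simp; omega)

end Cfsg.Agent.S2281
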