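import Cfsg.Statements.S2284
import Cfsg.Agent.KSG.AltShort

set_option autoImplicit false
open Cfsg

namespace Cfsg.Agent.S2284

/-- For every n, the symmetric group S_n and the alternating group A_n each have a presentation with 2 generators and at most 8 relations. -/
theorem result (n : ℕ) : (∃ rels : Finset (FreeGroup (Fin 2)), rels.card ≤ 8 ∧ Nonempty (PresentedGroup (↑rels : Set (FreeGroup (Fin 2))) ≃* Equiv.Perm (Fin n))) ∧ (∃ rels : Finset (FreeGroup (Fin 2)), rels.card ≤ 8 ∧ Nonempty (PresentedGroup (↑rels : Set (FreeGroup (Fin 2))) ≃* ↥(alternatingGroup (Fin n)))) := by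
  by_cases hn : 5 ≤ n
  · obtain ⟨⟨-, _, r1, h1, e1, -⟩, -, _, r2, h2, e2, -⟩ := CL.KSG.hasShortPres hn
    exact ⟨⟨r1, by omega, ⟨e1⟩⟩, r2, by omega, ⟨e2⟩⟩
  constructor
  · by_cases h2 : n ≤ 1
    · have : Subsingleton (Fin n) := Fin.subsingleton_iff_le_one.2 h2
      obtain ⟨r, h, e, -⟩ := CL.KSG.exists_pres_of_subsingleton (Equiv.Perm (Fin n))
      exact ⟨r, by omega, ⟨e⟩⟩
    · obtain ⟨k, rfl⟩ : ∃ k, n = k + 2 := ⟨n - 2, by omega⟩
      obtain ⟨r, h, hr⟩ := CL.KSG.exists_pres_coxeter (k + 1)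
      obtain ⟨r', h', e, -⟩ := hr.tietze_all
        ![finRotate (k + 2), Equiv.swap 0 (finRotate (k + 2) 0)] (by
          simpa [Set.pair_comm] using Equiv.Perm.closure_cycle_adjacent_swap isCycle_finRotate
            support_finRotate (0 : Fin (k + 2)))
      refine ⟨r', h'.trans (Nat.add_le_add_right (h.trans ?_) 2 : _ ≤ 6 + 2), ⟨e⟩⟩
      have : k < 3 := by omega
      interval_cases k <;> decide
  · by_cases h2 : n ≤ 2
    · have : Subsingleton (alternatingGroup (Fin n)) := by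
        rw [alternatingGroup.eq_bot_of_card_le_two (by simpa using h2)]
        infer_instance
      obtain ⟨r, h, e, -⟩ := CL.KSG.exists_pres_of_subsingleton (alternatingGroup (Fin n))
      exact ⟨r, by omega, ⟨e⟩⟩
    · rcases (show n = 3 ∨ n = 4 by omega) with rfl | rfl
      · obtain ⟨r, h, hr⟩ := CL.KSG.exists_pres_carmichael 1
        obtain ⟨r', h', e, -⟩ := hr.tietze_all ![CL.AltPres.gen 0, CL.AltPres.gen 0] (by
          rw [← hr.closure_eq]; simp [Set.range_unique])
        exact ⟨r', by omega, ⟨e⟩⟩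
      · obtain ⟨r, h, e, -⟩ := CL.KSG.exists_pres_carmichael 2
        exact ⟨r, by omega, ⟨e⟩⟩

end Cfsg.Agent.S2284
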