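import Cfsg.Statements.S2292
import Cfsg.Agent.KSG.GenCl
import Cfsg.Agent.KSG.ShortSp

set_option autoImplicit false
open Cfsg

namespace Cfsg.Agent.S2292

/-- Let F be a finite field with q elements and m ≥ 2 with (m, q) ≠ (2, 2). Then the simple group PSp_2m(F) has a presentation with 2 generators and at most 80 relations. -/
theorem result {F : Type*} [Field F] [Fintype F] (m : ℕ) (hm : 2 ≤ m) (h22 : ¬ (m = 2 ∧ Fintype.card F = 2)) :
    ∃ rels : Finset (FreeGroup (Fin 2)), rels.card ≤ 80 ∧ Nonempty (PresentedGroup (↑rels : Set (FreeGroup (Fin 2))) ≃* Cfsg.PSp m F) := by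
  obtain ⟨n, rfl⟩ : ∃ n, m = n + 2 := ⟨m - 2, by omega⟩
  obtain ⟨a, b, hab⟩ := CL.Chev.Cl.two_gen_C (CL.Chev.Cl.pspSt_good F (n + 1)) (CL.Chev.Cl.pspSt_top F _) fun h => by
    have := Fintype.one_lt_card (α := F)
    omega
  have h3 := (CL.KSG.hasPres_SL3 (F := F)).1
  match n, a, b, hab with
  | 0, _, _, hab => exact (((CL.KSG.hasPres_PSp (CL.KSG.hasPres_Sp CL.KSG.hasPres_SL2)).two hab).mono (by norm_num)).out
  | 1, _, _, hab => exact (((CL.KSG.hasPres_PSp (CL.KSG.hasPres_Sp h3)).two hab).mono (by norm_num)).out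
  | n + 2, _, _, hab =>
    exact (((CL.KSG.hasPres_PSp (CL.KSG.hasPres_Sp (CL.KSG.hasPres_SLn (by omega) h3))).two hab).mono
      (by norm_num)).out

end Cfsg.Agent.S2292
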