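import Cfsg.Statements.S2295
import Cfsg.Agent.KSG.ShortOm

set_option autoImplicit false
open Cfsg

namespace Cfsg.Agent.S2295

/-- Let F be a finite field and n ≥ 4, and let Ω⁺_2n(F) be the commutator subgroup of the orthogonal group of the hyperbolic quadratic form Σ x_i y_i, with PΩ⁺_2n(F) its central quotient. Then Ω⁺_2n(F) has a presentation with 8 generators and at most 31 relations (at most 29 if n = 4 or 5), and PΩ⁺_2n(F) one with 8 generators and at most 32 relations (at most 30 if n = 4 or 5). -/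
theorem result {F : Type*} [Field F] [Fintype F] (n : ℕ) (hn : 4 ≤ n) :
    (∃ rels : Finset (FreeGroup (Fin 8)), rels.card ≤ 31 ∧ Nonempty (PresentedGroup (↑rels : Set (FreeGroup (Fin 8))) ≃* ↥(Cfsg.Omega F (Cfsg.quadFormPlus n F)))) ∧ (∃ rels : Finset (FreeGroup (Fin 8)), rels.card ≤ 32 ∧ Nonempty (PresentedGroup (↑rels : Set (FreeGroup (Fin 8))) ≃* Cfsg.POmega F (Cfsg.quadFormPlus n F))) ∧
    (n ≤ 5 → (∃ rels : Finset (FreeGroup (Fin 8)), rels.card ≤ 29 ∧ Nonempty (PresentedGroup (↑rels : Set (FreeGroup (Fin 8))) ≃* ↥(Cfsg.Omega F (Cfsg.quadFormPlus n F)))) ∧ (∃ rels : Finset (FreeGroup (Fin 8)), rels.card ≤ 30 ∧ Nonempty (PresentedGroup (↑rels : Set (FreeGroup (Fin 8))) ≃* Cfsg.POmega F (Cfsg.quadFormPlus n F)))) := by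
  obtain ⟨n, rfl⟩ := Nat.exists_eq_add_of_le' hn
  obtain ⟨r, h3, hr⟩ : ∃ r, CL.KSG.HasPres (Matrix.SpecialLinearGroup (Fin 3) F) 4 r ∧
      (r + if Fintype.card F ≤ 3 then 8 else 6) ≤ 18 := by
    split_ifs with h
    exacts [⟨_, CL.KSG.hasPres_SL3.2 h, le_rfl⟩, ⟨_, CL.KSG.hasPres_SL3.1, le_rfl⟩]
  have h1 := (CL.KSG.hasPres_Omega (CL.KSG.hasPres_SLn hn h3)).mono (by omega : _ ≤ 31)
  refine ⟨h1.out, (CL.KSG.hasPres_POmega (n := n + 1) h1).out, fun h5 => ?_⟩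
  have h2 : CL.KSG.HasPres (Matrix.SpecialLinearGroup (Fin (n + 4)) F) 6 (r + 10) := by
    obtain rfl | rfl : n = 0 ∨ n = 1 := by omega
    exacts [(CL.KSG.hasPres_SL4 h3).mono (by omega), CL.KSG.hasPres_SL5 h3]
  have h4 := (CL.KSG.hasPres_Omega h2).succ.mono (by omega : _ ≤ 29)
  exact ⟨h4.out, (CL.KSG.hasPres_POmega (n := n + 1) h4).out⟩

end Cfsg.Agent.S2295
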