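import Cfsg.Statements.S2296
import Cfsg.Agent.KSG.ShortSp

set_option autoImplicit false
open Cfsg

namespace Cfsg.Agent.S2296

/-- Let F be a finite field. Sp_2n(F) has a presentation with 10 generators and at most 58 relations for n ≥ 4, with 9 generators and at most 57 relations for n = 4 or 5, and with 8 generators and at most 52 relations for n = 3; in each case PSp_2n(F) has a presentation with the same number of generators and at most one more relation. -/
theorem result {F : Type*} [Field F] [Fintype F] (n : ℕ) :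
    (4 ≤ n → (∃ rels : Finset (FreeGroup (Fin 10)), rels.card ≤ 58 ∧ Nonempty (PresentedGroup (↑rels : Set (FreeGroup (Fin 10))) ≃* Matrix.symplecticGroup (Fin n) F)) ∧ (∃ rels : Finset (FreeGroup (Fin 10)), rels.card ≤ 59 ∧ Nonempty (PresentedGroup (↑rels : Set (FreeGroup (Fin 10))) ≃* Cfsg.PSp n F))) ∧
    ((n = 4 ∨ n = 5) → (∃ rels : Finset (FreeGroup (Fin 9)), rels.card ≤ 57 ∧ Nonempty (PresentedGroup (↑rels : Set (FreeGroup (Fin 9))) ≃* Matrix.symplecticGroup (Fin n) F)) ∧ (∃ rels : Finset (FreeGroup (Fin 9)), rels.card ≤ 58 ∧ Nonempty (PresentedGroup (↑rels : Set (FreeGroup (Fin 9))) ≃* Cfsg.PSp n F))) ∧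
    (n = 3 → (∃ rels : Finset (FreeGroup (Fin 8)), rels.card ≤ 52 ∧ Nonempty (PresentedGroup (↑rels : Set (FreeGroup (Fin 8))) ≃* Matrix.symplecticGroup (Fin n) F)) ∧ (∃ rels : Finset (FreeGroup (Fin 8)), rels.card ≤ 53 ∧ Nonempty (PresentedGroup (↑rels : Set (FreeGroup (Fin 8))) ≃* Cfsg.PSp n F))) := by
  have h3 := (CL.KSG.hasPres_SL3 (F := F)).1
  refine ⟨fun hn => ?_, ?_, ?_⟩
  · obtain ⟨n, rfl⟩ : ∃ m, n = m + 2 := ⟨n - 2, by omega⟩
    have h := (CL.KSG.hasPres_Sp (CL.KSG.hasPres_SLn hn h3)).mono (by norm_num : _ ≤ 58)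
    exact ⟨h.out, (CL.KSG.hasPres_PSp h).out⟩
  · rintro (rfl | rfl)
    · have h := (CL.KSG.hasPres_Sp (n := 2) (CL.KSG.hasPres_SL4 h3)).mono (by norm_num : _ ≤ 57)
      exact ⟨h.out, (CL.KSG.hasPres_PSp h).out⟩
    · have h := (CL.KSG.hasPres_Sp (n := 3) (CL.KSG.hasPres_SL5 h3)).mono (by norm_num : _ ≤ 57)
      exact ⟨h.out, (CL.KSG.hasPres_PSp h).out⟩
  · rintro rfl
    have h := (CL.KSG.hasPres_Sp (n := 1) h3).succ.mono (by norm_num : _ ≤ 52)
    exact ⟨h.out, (CL.KSG.hasPres_PSp h).out⟩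

end Cfsg.Agent.S2296
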