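import Cfsg.Statements.S2302
import Cfsg.Agent.KSG.GL2Classes

set_option autoImplicit false
open Cfsg

namespace Cfsg.Agent.S2302

/-- Over a finite field with q elements of characteristic 2, the involutions of SL₂ (the non-identity unipotent elements) form a single conjugacy class, of size q² − 1. -/
theorem result {F : Type*} [Field F] [Fintype F] [CharP F 2] (g h : Matrix.SpecialLinearGroup (Fin 2) F) (hg : orderOf g = 2) (hh : orderOf h = 2) :
    IsConj g h ∧ Nat.card (ConjClasses.mk g).carrier = Fintype.card F ^ 2 - 1 := by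
  have h2 : (2 : F) = 0 := by exact_mod_cast CharP.cast_eq_zero F 2
  obtain ⟨g1, g2⟩ := (CL.GL2.orderOf_SL_eq_char_iff 2).1 hg
  obtain ⟨h1, h3⟩ := (CL.GL2.orderOf_SL_eq_char_iff 2).1 hh
  have hgs := CL.GL2.not_isScal_of_trace_two (fun e => g1 (Subtype.ext e)) g2 g.det_coe
  refine ⟨CL.GL2.isConj_SL_of_trace_even h2 hgs
    (CL.GL2.not_isScal_of_trace_two (fun e => h1 (Subtype.ext e)) h3 h.det_coe) (h3.trans g2.symm), ?_⟩
  rw [Nat.card_coe_set_eq, CL.ncard_carrier_eq_index]
  have e := Subgroup.card_mul_index (Subgroup.centralizer ({g} : Set (Matrix.SpecialLinearGroup (Fin 2) F)))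
  rw [CL.GL2.card_SL2] at e
  rw [CL.GL2.centralizer_SL] at e ⊢
  rw [CL.GL2.card_centSL_double hgs (a := 1) (by rw [CL.GL2.cp, g2, g.det_coe]; ring)
    (by rw [g2]; ring), CL.GL2.card_sq_eq_one_of_two_eq_zero h2, one_mul] at e
  exact Nat.eq_of_mul_eq_mul_left Fintype.card_pos e

end Cfsg.Agent.S2302
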