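import Cfsg.Statements.S2332
import Cfsg.Agent.KSG.LSSLMin
import Cfsg.Agent.KSG.LSPerm

set_option autoImplicit false
open Cfsg

namespace Cfsg.Agent.S2332

open CL.LS

theorem exists_pow_ne_one {F : Type*} [Field F] [Fintype F] {k : ℕ} (h : ¬ Fintype.card F - 1 ∣ k) :
    ∃ a : F, a ≠ 0 ∧ a ^ k ≠ 1 := by
  by_contra! h1
  refine h ?_
  rw [← Nat.card_eq_fintype_card, ← Nat.card_units, ← IsCyclic.exponent_eq_card]
  exact Monoid.exponent_dvd_of_forall_pow_eq_one fun a => Units.ext (by simpa using h1 a a.ne_zero)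

/-- Smallest degree of a non-linear irreducible complex representation of SL_n over a finite field with q elements, for n ≥ 3 and (n, q) not one of (3, 2), (3, 4), (4, 2), (4, 3): every irreducible complex representation of SL_n(F) of degree at least 2 has degree at least (q^n − q)/(q − 1), and there is an irreducible complex representation of exactly that degree. -/
theorem result {F : Type*} [Field F] [Fintype F] [DecidableEq F] (n : ℕ) (hn : 3 ≤ n)
    (hex : (n, Fintype.card F) ≠ (3, 2) ∧ (n, Fintype.card F) ≠ (3, 4) ∧ (n, Fintype.card F) ≠ (4, 2) ∧ (n, Fintype.card F) ≠ (4, 3)) :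
    (∀ (k : ℕ) (ρ : Representation ℂ (Matrix.SpecialLinearGroup (Fin n) F) (Fin k → ℂ)), ρ.IsIrreducible → 2 ≤ k → (Fintype.card F ^ n - Fintype.card F) / (Fintype.card F - 1) ≤ k) ∧
    (∃ ρ : Representation ℂ (Matrix.SpecialLinearGroup (Fin n) F) (Fin ((Fintype.card F ^ n - Fintype.card F) / (Fintype.card F - 1)) → ℂ), ρ.IsIrreducible) := by
  classical
  have hq := Fintype.one_lt_card (α := F)
  let e := Matrix.SpecialLinearGroup.toLin'_equiv (n := Fin n) (R := F)
  refine ⟨fun k ρ hρ hk => ?_, ?_⟩
  · obtain ⟨g₀, hg₀⟩ := exists_ne_one_of_irreducible ρ hρ (by rwa [Module.finrank_fin_fun])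
    obtain ⟨φ, x, h₀, h₁⟩ := exists_tv_ne_one (ρ.comp e.symm.toMonoidHom) ⟨e g₀, by simpa using hg₀⟩
    have := min_degree_sl (by simpa using hn) (fun h => exists_pow_ne_one fun h' => ?_)
      (fun h => exists_pow_ne_one fun h' => ?_) (fun E hE => ?_) h₀ h₁
    · rw [Module.finrank_fin_fun, Module.finrank_fin_fun, Nat.card_eq_fintype_card] at this
      exact Nat.div_le_of_le_mul (by omega)
    · rw [Module.finrank_fin_fun] at h
      rcases (Nat.dvd_prime Nat.prime_three).mp h' with h2 | h2
      · exact hex.1 (by rw [h, show Fintype.card F = 2 by omega])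
      · exact hex.2.1 (by rw [h, show Fintype.card F = 4 by omega])
    · rw [Module.finrank_fin_fun] at h
      rcases (Nat.dvd_prime Nat.prime_two).mp h' with h2 | h2
      · exact hex.2.2.1 (by rw [h, show Fintype.card F = 2 by omega])
      · exact hex.2.2.2 (by rw [h, show Fintype.card F = 3 by omega])
    · obtain ⟨c, hc⟩ := (Representation.IsIrreducible.algebraMap_intertwiningMap_bijective_of_isAlgClosed
        (ρ := ρ)).2 ⟨E, fun g => by simpa [Module.End.mul_eq_comp] using (hE (e g)).eq.symm⟩
      exact ⟨c, (congrArg Representation.IntertwiningMap.toLinearMap hc).symm⟩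
  · have : Finite (Fˣ →* ℂˣ) := Nat.finite_of_card_ne_zero (by
      rw [CommGroup.card_monoidHom_of_hasEnoughRootsOfUnity]
      exact Nat.card_pos.ne')
    let := Fintype.ofFinite (Fˣ →* ℂˣ)
    obtain ⟨k, ρ, hρ, -, -, hk⟩ :=
      exists_perm_irreducible (F := F) (V := Fin n → F) (by simpa using hn)
    rw [Module.finrank_fin_fun, Nat.card_eq_fintype_card] at hk
    have h1 : (Fintype.card F ^ n - Fintype.card F) / (Fintype.card F - 1) = k 1 :=
      Nat.div_eq_of_eq_mul_right (by omega) (by rw [mul_add_one] at hk; omega)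
    rw [h1]
    exact ⟨_, isIrreducible_comp (hρ 1) e.toMonoidHom e.surjective⟩

end Cfsg.Agent.S2332
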