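import Cfsg.Statements.S2333
import Cfsg.Agent.KSG.LSForm
import Cfsg.Agent.CLAS.SpForm
import Cfsg.Agent.S0269

set_option autoImplicit false
open Cfsg

namespace Cfsg.Agent.S2333

open CL.LS CL.Witt

/-- For a finite field F of even order q and n ≥ 2 with (n, q) ≠ (2, 2), every irreducible complex representation of the symplectic group Sp_{2n}(F) of degree at least 2 has degree at least (q^n − 1)(q^n − q)/(2(q + 1)). -/
theorem result {F : Type*} [Field F] [Fintype F] [DecidableEq F] (n : ℕ) (hn : 2 ≤ n) (heven : Even (Fintype.card F)) (hex : (n, Fintype.card F) ≠ (2, 2)) :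
    (∀ (k : ℕ) (ρ : Representation ℂ (Matrix.symplecticGroup (Fin n) F) (Fin k → ℂ)), ρ.IsIrreducible → 2 ≤ k → (Fintype.card F ^ n - 1) * (Fintype.card F ^ n - Fintype.card F) / (2 * (Fintype.card F + 1)) ≤ k) := by
  intro k ρ hρ hk
  have hf := CL.Sp.spForm_nondeg n F
  have hr := CL.Sp.finrank_sp n F
  have hc : ringChar F = 2 := FiniteField.even_card_iff_char_two.mpr (Nat.even_iff.mp heven)
  have : CharP F 2 := ringChar.of_eq hc
  obtain ⟨g₀, hg₀⟩ := exists_ne_one_of_irreducible ρ hρ (by rwa [Module.finrank_fin_fun])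
  have hperf := CL.Sp.commutator_eq_top_of_mulEquiv (CL.Sp.spEquiv n F)
    (Cfsg.Agent.S0269.result (F := F) n (by
      have := Fintype.one_lt_card (α := F)
      simp only [ne_eq, Prod.mk.injEq] at hex
      omega))
  let ρ' := ρ.comp (CL.Sp.spEquiv n F).symm.toMonoidHom
  have := bound_alt_two hf hr (K := ℂ) (by rw [hc, ringChar.eq_zero]; omega) ρ' hn fun g hg => by
    rcases hf.normal_le_center_or_alt ρ'.toHomUnits.ker with h | h
    · obtain ⟨e, e', he⟩ := hf.exists_isHyp_alt (k := 1) (by omega)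
      have h3 := h (show g ∈ _ from Units.ext hg)
      exact hf.exists_eq_smul_of_commute_Tv (a := 1) one_ne_zero rfl (he.q_left 0)
        (he.linearIndependent_left.ne_zero 0) fun t ht =>
          (congrArg Subtype.val (Subgroup.mem_center_iff.mp h3 ⟨t, Form.Tv_le_O _ ht⟩)).symm
    · have h3 := congrArg Units.val (h (hperf ▸ Subgroup.mem_top (CL.Sp.spEquiv n F g₀)))
      exact absurd (by simpa [ρ'] using h3) hg₀
  rw [Module.finrank_fin_fun, Nat.card_eq_fintype_card] at this
  exact Nat.div_le_of_le_mul (this.trans_eq (mul_comm _ _))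

end Cfsg.Agent.S2333
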