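import Cfsg.Statements.S2336
import Cfsg.Agent.KSG.LSPerm

set_option autoImplicit false
open Cfsg

namespace Cfsg.Agent.S2336

open CL.LS

/-- Let F be a finite field with q elements and n ≥ 3. The permutation character of SL_n(F) on the non-zero vectors of F^n (the function sending a matrix to the number of non-zero vectors it fixes) is the sum of the principal character and q − 1 pairwise distinct irreducible complex characters. -/
theorem result {F : Type*} [Field F] [Fintype F] [DecidableEq F] (n : ℕ) (hn : 3 ≤ n) :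
    ∃ χ : Fin (Fintype.card F - 1) → (Matrix.SpecialLinearGroup (Fin n) F → ℂ),
      (∀ i, Cfsg.IsIrrCharacter (Matrix.SpecialLinearGroup (Fin n) F) (χ i)) ∧ Function.Injective χ ∧
      ∀ g : Matrix.SpecialLinearGroup (Fin n) F,
        (Nat.card {v : Fin n → F // v ≠ 0 ∧ (g : Matrix (Fin n) (Fin n) F).mulVec v = v} : ℂ) = 1 + ∑ i, χ i g := by
  classical
  have hc : Nat.card (Fˣ →* ℂˣ) = Fintype.card F - 1 := by
    rw [CommGroup.card_monoidHom_of_hasEnoughRootsOfUnity, Nat.card_units, Nat.card_eq_fintype_card]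
  have : Finite (Fˣ →* ℂˣ) := Nat.finite_of_card_ne_zero (by
    have := Fintype.one_lt_card (α := F)
    omega)
  let := Fintype.ofFinite (Fˣ →* ℂˣ)
  obtain ⟨k, ρ, hρ, hinj, hsum, -⟩ :=
    exists_perm_irreducible (F := F) (V := Fin n → F) (by simpa using hn)
  let e := Matrix.SpecialLinearGroup.toLin'_equiv (n := Fin n) (R := F)
  let i : Fin (Fintype.card F - 1) ≃ (Fˣ →* ℂˣ) := (Finite.equivFinOfCardEq hc).symm
  refine ⟨fun j g => (ρ (i j)).character (e g), fun j => ⟨_, (ρ (i j)).comp e.toMonoidHom, ?_, rfl⟩,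
    fun j j' h => i.injective (hinj (funext fun g => ?_)), fun g => ?_⟩
  · exact isIrreducible_comp (hρ _) _ e.surjective
  · simpa using congrFun h (e.symm g)
  · rw [i.sum_comp fun θ => (ρ θ).character (e g), ← hsum]
    rfl

end Cfsg.Agent.S2336
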