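import Cfsg.Statements.S2337
import Mathlib
import Cfsg.Agent.CHEV.SzChar3

set_option autoImplicit false
open Cfsg

namespace Cfsg.Agent.S2337

/-- For the Suzuki group Sz(q), q = 2^(2m+1) with m ≥ 1 (realised inside Sp₄ over the field with q elements), every irreducible complex representation of degree at least 2 has degree at least 2^m·(q − 1). -/
theorem result {F : Type*} [Field F] [Fintype F] (m : ℕ) (hm : 1 ≤ m) (hF : Fintype.card F = 2 ^ (2 * m + 1)) :
    (∀ (k : ℕ) (ρ : Representation ℂ (Cfsg.Lie.Sz F (2 ^ (m + 1))) (Fin k → ℂ)), ρ.IsIrreducible → 2 ≤ k → 2 ^ m * (2 ^ (2 * m + 1) - 1) ≤ k) := by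
  intro k ρ hρ hk
  have := CL.Sz.charP_two hF
  set M := CL.Sz.lieModel hF
  have := M.finite_G
  have := Fintype.ofFinite ↥(Cfsg.Lie.Sz F (2 ^ (m + 1)))
  obtain ⟨P₁, N₁, P₂, N₂, S⟩ := M.exists_setup hm hF
  have hd : k ∈ charDegrees ↥(Cfsg.Lie.Sz F (2 ^ (m + 1))) :=
    ⟨⟨_, k, ρ, hρ, rfl⟩, CL.Char.charDegree_eq_of_apply_one (CL.Char.character_one_fin ρ)⟩
  rw [S.mem_charDegrees_iff] at hd
  rw [← CL.Sz.natCard_eq hF]
  have h1 := S.hq
  have h2 := S.hs
  have h3 := S.c₁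
  have h4 := S.c₂
  generalize 2 ^ m = s at *
  have h5 : s ≤ Nat.card P₂ := by nlinarith
  have h6 : s ≤ Nat.card P₁ := by nlinarith
  have h7 : s * (Nat.card F - 1) ≤ Nat.card F ^ 2 := by
    rw [pow_two]; exact Nat.mul_le_mul (by nlinarith) (by omega)
  rcases hd with h | h | h | h | h | h
  · omega
  · omega
  · omega
  · rw [h, mul_comm]; exact Nat.mul_le_mul_left _ h5
  · rw [h, mul_comm]; exact Nat.mul_le_mul_left _ h6
  · omega

end Cfsg.Agent.S2337
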