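import Cfsg.Statements.S2338
import Mathlib
import Cfsg.Agent.CHEV.MinG5
import Cfsg.Agent.CHEV.MinG6
import Cfsg.Agent.KSG.LSWeight
import Cfsg.Agent.S1055
import Cfsg.Agent.S1059
import Cfsg.Agent.S0135

set_option autoImplicit false
open Cfsg

namespace Cfsg.Agent.S2338

theorem exists_pow_ne {F : Type*} [Field F] [Fintype F] (h : 4 < Fintype.card F) : ∃ u : Fˣ, u ^ 3 ≠ 1 := by
  classical
  by_contra! h'
  have h1 := Nat.le_of_dvd three_pos (Monoid.exponent_dvd_of_forall_pow_eq_one h')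
  rw [IsCyclic.exponent_eq_card, Nat.card_eq_fintype_card, Fintype.card_units] at h1
  omega

theorem not_dvd {q k : ℕ} (h3 : q % 3 = 0) (hq : q.Coprime k ∨ k = q ^ 4 + q ^ 2) (h9 : 9 ≤ q)
    (h1 : q ^ 4 + q ^ 2 ≤ k + 2) (h2 : k ≤ q ^ 4 + q ^ 2) : ¬ k ∣ q ^ 6 * (q ^ 2 - 1) * (q ^ 6 - 1) := fun h => by
  have e1 : 1 ≤ q ^ 2 := Nat.one_le_pow _ _ (by omega)
  have e2 : 1 ≤ q ^ 6 := Nat.one_le_pow _ _ (by omega)
  have e3 : (81 : ℤ) ≤ (q : ℤ) ^ 2 := by nlinarith [show (9 : ℤ) ≤ q by exact_mod_cast h9]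
  rcases (by omega : k = q ^ 4 + q ^ 2 ∨ k + 1 = q ^ 4 + q ^ 2 ∨ k + 2 = q ^ 4 + q ^ 2) with e | e | e
  · have c : (q ^ 2 + 1).Coprime (q ^ 6) := Nat.Coprime.pow_right _ (by simp [sq])
    have d := c.dvd_of_dvd_mul_left (mul_assoc (q ^ 6) _ _ ▸ (Dvd.intro_left (q ^ 2) (by rw [e]; ring)).trans h)
    zify [e1, e2] at d
    have := Int.le_of_dvd four_pos ((dvd_sub d (dvd_mul_right _ ((q : ℤ) ^ 6 - 2 * q ^ 4 + 2 * q ^ 2 - 3))).trans
      (dvd_of_eq (by ring)))
    omega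
  · have c := hq.resolve_right (by omega)
    have d := (c.symm.pow_right 6).dvd_of_dvd_mul_left (mul_assoc (q ^ 6) _ _ ▸ h)
    zify [e1, e2] at d e
    have := Int.le_of_dvd (by omega : 0 < 6 * (q : ℤ) ^ 2 - 4) ((dvd_sub (dvd_mul_right _
      ((q : ℤ) ^ 4 - 2 * q ^ 2 + 3)) d).trans (dvd_of_eq (by rw [eq_sub_of_add_eq e]; ring)))
    nlinarith
  · have c := hq.resolve_right (by omega)
    have d := (c.symm.pow_right 6).dvd_of_dvd_mul_left (mul_assoc (q ^ 6) _ _ ▸ h)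
    zify [e1, e2] at d e
    have := Int.le_of_dvd (by omega : 0 < 9 * (q : ℤ) ^ 2 - 9) ((dvd_sub (dvd_mul_right _
      ((q : ℤ) ^ 4 - 2 * q ^ 2 + 4)) d).trans (dvd_of_eq (by rw [eq_sub_of_add_eq e]; ring)))
    nlinarith

/-- Lower bounds for the degrees of non-linear irreducible complex representations of the Chevalley group of type G₂ over a finite field with q elements: the degree is at least q³ + 1 when q ≡ 1 (mod 3) and q > 4, at least q³ − 1 when q ≡ 2 (mod 3) and q > 2, and at least q⁴ + q² + 1 when q ≡ 0 (mod 3) and q > 3. -/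
theorem result {F : Type*} [Field F] [Fintype F] (k : ℕ) (ρ : Representation ℂ (Cfsg.Lie.chevG2.group F) (Fin k → ℂ)) (hρ : ρ.IsIrreducible) (hk : 2 ≤ k) :
    (Fintype.card F % 3 = 1 → 4 < Fintype.card F → Fintype.card F ^ 3 + 1 ≤ k) ∧
    (Fintype.card F % 3 = 2 → 2 < Fintype.card F → Fintype.card F ^ 3 - 1 ≤ k) ∧
    (Fintype.card F % 3 = 0 → 3 < Fintype.card F → Fintype.card F ^ 4 + Fintype.card F ^ 2 + 1 ≤ k) := by
  classical
  have hq2 : 1 < Fintype.card F := Fintype.one_lt_card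
  have hinj : 2 < Fintype.card F → Function.Injective ρ := fun h => by
    obtain ⟨a, ha⟩ : ∃ u : F, u ∉ ({0, 1} : Finset F) := by
      by_contra! h'
      have := (Finset.card_le_card fun u _ => h' u : Finset.univ.card ≤ _).trans Finset.card_le_two
      rw [Finset.card_univ] at this
      omega
    have := (Cfsg.Agent.S1055.result ⟨a, by simpa using ha⟩).1
    obtain ⟨g, hg⟩ := CL.LS.exists_ne_one_of_irreducible ρ hρ (by simpa using hk)
    rw [← MonoidHom.ker_eq_bot_iff]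
    exact (IsSimpleGroup.eq_bot_or_eq_top_of_normal _ inferInstance).resolve_right fun h =>
      hg (h.ge (Subgroup.mem_top g))
  obtain ⟨ψ, hψ⟩ := CL.LS.exists_addChar_ne_one (F := F) (K := ℂ) (by
    rw [ringChar.eq ℂ 0]; exact (CharP.ringChar_ne_zero_of_finite F).symm)
  have hk' : Module.finrank ℂ (Fin k → ℂ) = k := by simp
  refine ⟨fun h1 h2 => ?_, fun h1 h2 => ?_, fun h1 h2 => ?_⟩
  · obtain ⟨u, hu⟩ := exists_pow_ne h2
    exact hk' ▸ CL.MinG.cube_lt hψ (hinj (by omega)) h1 hu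
  · obtain ⟨u, hu⟩ := exists_pow_ne (F := F) (by omega)
    exact hk' ▸ (CL.MinG.n3_bound hψ (CL.MinG.three_ne (by omega)) (hinj h2) hu).1
  · have : Fact (Nat.Prime 3) := ⟨Nat.prime_three⟩
    have hp : ((3 : ℕ) : F) = 0 := (ringChar.spec F 3).2 (by
      have := (prime_dvd_char_iff_dvd_card (R := F) 3).2 (Nat.dvd_of_mod_eq_zero h1)
      obtain ⟨n, hn, -⟩ := FiniteField.card F (ringChar F)
      rw [(Nat.prime_dvd_prime_iff_eq Nat.prime_three hn).1 this])
    have : CharP F 3 := (CharP.charP_iff_prime_eq_zero Nat.prime_three).2 hp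
    obtain ⟨n, -, hn⟩ := FiniteField.card F 3
    have h9 : 9 ≤ Fintype.card F := by
      rw [hn] at h2 ⊢
      exact Nat.pow_le_pow_right three_pos (show 2 ≤ (n : ℕ) from (Nat.pow_lt_pow_iff_right (by norm_num)).1
        (show 3 ^ 1 < _ from h2))
    have h3 := CL.MinG.p3_bound hψ hp (hinj (by omega)) h9
    have h4 := Cfsg.Agent.S0135.result ρ
    rw [Cfsg.Agent.S1059.result rfl] at h4
    rw [hk'] at h3 h4
    by_contra! h5
    refine not_dvd h1 ?_ h9 h3 (by omega) h4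
    have : 3 ∣ Fintype.card F ^ 4 + Fintype.card F ^ 2 :=
      dvd_add (dvd_pow (Nat.dvd_of_mod_eq_zero h1) (by norm_num)) (dvd_pow (Nat.dvd_of_mod_eq_zero h1) (by norm_num))
    refine or_iff_not_imp_right.2 fun h => ?_
    rw [hn]
    exact Nat.Coprime.pow_left _ ((Nat.Prime.coprime_iff_not_dvd Nat.prime_three).2 (by omega))

end Cfsg.Agent.S2338
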