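import Cfsg.Statements.S2340
import Cfsg.Agent.CHEV.MinDeg7

set_option autoImplicit false
open Cfsg

open CL.Chev
namespace Cfsg.Agent.S2340



/-- For the Chevalley group of type E₆ over a finite field with q elements (the group generated by the root elements), every irreducible complex representation of degree at least 2 has degree at least q(q⁶ + q³ + 1)(q⁴ + 1). -/
theorem result {F : Type*} [Field F] [Fintype F] :
    (∀ (k : ℕ) (ρ : Representation ℂ (Cfsg.Lie.chevE6.group F) (Fin k → ℂ)), ρ.IsIrreducible → 2 ≤ k → Fintype.card F * (Fintype.card F ^ 6 + Fintype.card F ^ 3 + 1) * (Fintype.card F ^ 4 + 1) ≤ k) := by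

  intro k ρ hρ hk
  have hq : IsPrimePow (Fintype.card F) := (Fintype.nonempty_field_iff.1 ⟨inferInstance⟩)
  have h0 : (Good.C Lie.chevE6).md0 72 6 id 71 1 10 = true := by decide +kernel
  have h := (stG_good (D := Lie.chevE6) (F := F)).md_triv stG_top (StData.Twist.long_of_md0 h0)
  have := isSimpleGroup_group (D := Lie.chevE6) (F := F) (by simp) (by rintro (h | h) <;> cases congrArg (·.rank) h)
  have h1 := h.main_tab (p := id) (fun _ => rfl) hρ (by simpa using hk) (θ := (71 : Fin 72)) (i := (1 : Fin 6)) h0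
    (conn_of_mdc (p := id) (fun _ => rfl) [2, 0, 3, 1, 3, 4] [3, 0, 2, 1, 2, 3] (by decide +kernel))
    (by decide +kernel) (by decide +kernel) (by decide +kernel)
  rw [sum_pow_eq (P := [6, 5, 5, 5, 4, 3, 3, 2, 1, 1, 1]) (by decide +kernel),
    sum_pow_eq (P := [1, 1, 1, 2, 3, 3, 4, 5, 5, 5, 6, 6, 5, 5, 5, 4, 3, 3, 2, 1, 1, 1])
    (by decide +kernel), Module.finrank_fin_fun, Nat.card_eq_fintype_card] at h1
  generalize Fintype.card F = q at hq h1
  obtain ⟨r, rfl⟩ := Nat.exists_eq_add_of_le' hq.two_le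
  simp only [evalP, show r + 2 - 1 = r + 1 from rfl] at h1
  rcases h1 with h1 | ⟨h1, h2⟩
  · refine Nat.le_of_mul_le_mul_left (le_trans ?_ h1) hq.pos
    ring_nf; omega
  · rw [mul_assoc]
    refine close₁ (n := 6) (a := 10) (X := (r + 1) * evalP (r + 2) (List.replicate 12 1))
      (Y := (r + 2) ^ 9 + (r + 2) ^ 8 + (r + 2) ^ 6 + (r + 2) ^ 5 + (r + 2) ^ 2 + 1)
      hq (le_trans (le_of_eq ?_) (Nat.add_le_add_right h1 6))
      (by convert h2 using 1; simp only [evalP, List.replicate]; ring)
      (fun h => ?_) (by simp only [evalP, List.replicate]; ring) ?_ fun h => ?_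
    · ring
    · have : r < 5 := by omega
      clear h h1 h2 hq
      revert r; decide +kernel
    · ring_nf; omega
    · clear h1 h2
      obtain ⟨s, rfl⟩ := Nat.exists_eq_add_of_le' (show 5 ≤ r by omega)
      ring_nf; omega

end Cfsg.Agent.S2340
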