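import Cfsg.Statements.S2341
import Cfsg.Agent.CHEV.MinDeg7
import Cfsg.Agent.S1070

set_option autoImplicit false
open Cfsg

open CL.Chev
namespace Cfsg.Agent.S2341



/-- For the twisted group ²E₆(q), realised over the field with q² elements (q a prime power), every irreducible complex representation of degree at least 2 has degree at least q(q⁶ − q³ + 1)(q⁴ + 1). -/
theorem result {K : Type*} [Field K] [Fintype K] (q : ℕ) (hq : IsPrimePow q) (hK : Fintype.card K = q ^ 2) :
    (∀ (k : ℕ) (ρ : Representation ℂ (Cfsg.Lie.twistedE6 K q) (Fin k → ℂ)), ρ.IsIrreducible → 2 ≤ k → q * (q ^ 6 - q ^ 3 + 1) * (q ^ 4 + 1) ≤ k) := by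

  intro k ρ hρ hk
  obtain ⟨T, hT, hM, -⟩ := exists_twist_E6 hq (Nat.card_eq_fintype_card.trans hK)
  have h0 : (Good.C Lie.chevE6).md0 72 6 ([5, 1, 4, 3, 2, 0].getD · 0) 71 1 10 = true := by decide +kernel
  have h := hT.md stG_good (jG_injective _) hM (StData.Twist.long_of_md0 h0)
  have : IsSimpleGroup (Lie.chevE6.genSubgroup K (Lie.e6Words K q)) := (S1070.result hq hK).1
  have hp : ∀ i, (T.π i : ℕ) = ([5, 1, 4, 3, 2, 0].getD · 0) i := fun i =>
    (congrArg Fin.val (hT.π i)).trans (by clear * -; revert i; change ∀ i : Fin 6, _; decide)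
  have h1 := h.main_tab (D := Lie.chevE6) (p := ([5, 1, 4, 3, 2, 0].getD · 0)) hp hρ (by simpa using hk) (θ := (71 : Fin 72))
    (i := (1 : Fin 6)) h0 (conn_of_mdc (p := ([5, 1, 4, 3, 2, 0].getD · 0)) hp [2, 0, 3, 1, 3, 4] [3, 0, 2, 1, 2, 3] (by decide +kernel))
    (by decide +kernel) (by decide +kernel) (by decide +kernel)
  rw [sum_pow_eq (P := [2, 1, 1, 1, 2, 1, 1, 0, 1, 1, 1]) (by decide +kernel),
    sum_pow_eq (P := [1, 1, 1, 0, 1, 1, 2, 1, 1, 1, 2, 2, 1, 1, 1, 2, 1, 1, 0, 1, 1, 1])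
    (by decide +kernel), Module.finrank_fin_fun] at h1
  clear h hT hM hp this hK hρ ρ T
  obtain ⟨r, rfl⟩ := Nat.exists_eq_add_of_le' hq.two_le
  simp only [evalP, show r + 2 - 1 = r + 1 from rfl] at h1
  rw [show (r + 2) ^ 6 - (r + 2) ^ 3 = (r + 2) ^ 3 * (r + 1) * ((r + 2) ^ 2 + r + 3) from
    Nat.sub_eq_of_eq_add (by ring)]
  rcases h1 with h1 | ⟨h1, h2⟩
  · refine Nat.le_of_mul_le_mul_left (le_trans ?_ h1) hq.pos
    ring_nf; omega
  · rw [mul_assoc]
    refine close₂ (n := 2) (a := 10) (X := (r + 1) * evalP (r + 2) (List.replicate 12 1))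
      (Y := evalP r [219, 1164, 2655, 3464, 2862, 1557, 559, 128, 17, 1])
      hq (le_trans (le_of_eq ?_) (Nat.add_le_add_right h1 2))
      (by convert h2 using 1; simp only [evalP, List.replicate]; ring)
      (fun h => ?_) (by simp only [evalP, List.replicate]; ring) ?_
    · ring
    · obtain rfl : r = 0 := by omega
      decide +kernel
    · simp only [evalP]; ring_nf; omega

end Cfsg.Agent.S2341
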