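import Cfsg.Statements.S2342
import Cfsg.Agent.CHEV.MinDeg8
import Cfsg.Agent.S1071

set_option autoImplicit false
open Cfsg

open CL.Chev
namespace Cfsg.Agent.S2342



/-- For the twisted group ³D₄(q), realised over the field with q³ elements (q a prime power), every irreducible complex representation of degree at least 2 has degree at least q(q⁴ − q² + 1). -/
theorem result {K : Type*} [Field K] [Fintype K] (q : ℕ) (hq : IsPrimePow q) (hK : Fintype.card K = q ^ 3) :
    (∀ (k : ℕ) (ρ : Representation ℂ (Cfsg.Lie.twistedD4 K q) (Fin k → ℂ)), ρ.IsIrreducible → 2 ≤ k → q * (q ^ 4 - q ^ 2 + 1) ≤ k) := by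

  intro k ρ hρ hk
  obtain ⟨T, hT, hM, -⟩ := exists_twist_D4 hq (Nat.card_eq_fintype_card.trans hK)
  have h0 : (Good.C Lie.chevD4).md0 24 4 ([2, 1, 3, 0].getD · 0) 23 1 4 = true := by decide +kernel
  have h := hT.md stG_good (jG_injective _) hM (StData.Twist.long_of_md0 h0)
  have : IsSimpleGroup (Lie.chevD4.genSubgroup K (Lie.d4Words K q)) := (S1071.result hq hK).1
  have hp : ∀ i, (T.π i : ℕ) = ([2, 1, 3, 0].getD · 0) i := fun i =>
    (congrArg Fin.val (hT.π i)).trans (by clear * -; revert i; change ∀ i : Fin 4, _; decide)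
  obtain ⟨t, hn⟩ := h.top_of_md0 (D := Lie.chevD4) (p := ([2, 1, 3, 0].getD · 0)) hp (θ := (23 : Fin 24))
    (i := (1 : Fin 4)) h0 (conn_of_mdc (p := ([2, 1, 3, 0].getD · 0)) hp [] [] (by decide +kernel))
  have e2 := StData.Twist.fix_iff_fxF (D := Lie.chevD4) (p := ([2, 1, 3, 0].getD · 0)) h.hA hp
  have h3 : (Good.C Lie.chevD4).md2 24 4 ([2, 1, 3, 0].getD · 0) 1 = false := by decide +kernel
  have h1 := hT.main h t hρ (by simpa using hk) hn (fun β h5 h6 h7 => by
      rw [← Bool.not_eq_true, Cert.md2, Cert.anyLt_iff] at h3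
      refine h3 ⟨β, β.2, ?_⟩
      replace h7 := ((rootSys Lie.chevD4).pair_simple (1 : Fin 4) β).symm.trans h7
      simp only [Bool.and_eq_true, ieq_iff]
      exact ⟨⟨(h.pair_θ t β).symm.trans h6, (StData.Twist.wt_eq (D := Lie.chevD4) β (1 : Fin 4)).symm.trans h7⟩,
        (e2 β).1 h5⟩)
    (L := Finset.univ.filter fun r : Rt Lie.chevD4 =>
      (Good.C Lie.chevD4).fxF Lie.chevD4.rank ([2, 1, 3, 0].getD · 0) r = true) (by simp [e2])
  erw [StData.Twist.sum_nn (D := Lie.chevD4)] at h1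
  rw [sum_pow_eq (P := [1, 1, 0, 0, 1, 1, 0, 0, 1, 1]) (by decide +kernel),
    Module.finrank_fin_fun] at h1
  clear h0 h3 e2 hn t h hT hM hp this hK hρ ρ T
  obtain ⟨r, rfl⟩ := Nat.exists_eq_add_of_le' hq.two_le
  simp only [evalP, show r + 2 - 1 = r + 1 from rfl] at h1
  rw [show (r + 2) ^ 4 - (r + 2) ^ 2 = (r + 2) ^ 2 * (r + 1) * (r + 3) from Nat.sub_eq_of_eq_add (by ring)]
  rcases h1 with h1 | ⟨h1, h2⟩
  · refine Nat.le_of_mul_le_mul_left (le_trans ?_ h1) hq.pos
    ring_nf; omega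
  · refine close₂ (n := 1) (a := 4) (X := (r + 1) * evalP (r + 2) (List.replicate 6 1))
      (Y := evalP r [11, 28, 23, 8, 1])
      hq (le_trans (le_of_eq ?_) (Nat.add_le_add_right h1 1))
      (by convert h2 using 1; simp only [evalP, List.replicate]; ring)
      (fun h => by omega) (by simp only [evalP, List.replicate]; ring) ?_
    · ring
    · simp only [evalP]; ring_nf; omega

end Cfsg.Agent.S2342
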