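import Cfsg.Statements.S2344
import Cfsg.Agent.KSG.MDOFin

set_option autoImplicit false
open Cfsg

namespace Cfsg.Agent.S2344

open Module CL.MDO CL.Witt CL.Witt.Form CL.Orth CL.FormCount

/-- For a finite field F of odd order q > 3 and n ≥ 3, every irreducible complex representation of degree at least 2 of Ω_{2n+1}(F) (the commutator subgroup of the isometry group of the quadratic form x₀² + x₁y₁ + ⋯ + x_ny_n) has degree at least (q^{2n} − 1)/(q² − 1). -/
theorem result {F : Type*} [Field F] [Fintype F] (n : ℕ) (hn : 3 ≤ n) (hodd : Odd (Fintype.card F)) (h3 : 3 < Fintype.card F) :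
    (∀ (k : ℕ) (ρ : Representation ℂ (Cfsg.Omega F (Cfsg.quadFormOdd n F)) (Fin k → ℂ)), ρ.IsIrreducible → 2 ≤ k → (Fintype.card F ^ (2 * n) - 1) / (Fintype.card F ^ 2 - 1) ≤ k) := by
  classical
  intro k ρ hρ hk
  obtain ⟨m, rfl⟩ := Nat.exists_eq_add_of_le' hn
  generalize hF : Fintype.card F = q at *
  have hf := (ofQuad_nondeg_iff _).mpr (QOdd_nondeg (m + 3) F (CL.Root.two_ne_zero_of_odd (hF ▸ hodd)))
  obtain ⟨ρ', hS, h1⟩ := exists_rep (QOdd (m + 3) F) hf (by simp; omega) ρ hρ hk
  have hp := fun k => Nat.one_le_pow k q (by omega)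
  have hq : (4 : ℤ) ≤ q := by omega
  have hX : (1 : ℤ) ≤ q ^ (2 * m) := by exact_mod_cast hp _
  obtain ⟨d, hd⟩ := sub_one_dvd_pow_sub_one ((q : ℤ) ^ 2) (m + 3)
  have h2 := min_degree hf (k := 2 * m) (by simp; ring) (Nat.card_eq_fintype_card.trans hF) hS h1
    (S := q ^ (2 * m + 6) - 1) (s := q ^ (2 * m + 4) - 1) (D := k) (by simp) (by
      refine (congrArg _ (card_quadFormOdd_eq hF (m + 3) 0)).trans ?_
      rw [card_sq_eq_zero]
      push_cast [hp]
      ring) (by ring)
  refine div_le_of (d := d) (by omega) (by push_cast [hp]; linear_combination -hd) ?_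
  rcases h2 with h2 | h2 | h2
  · refine le_trans (le_of_mul_le_mul_right ?_ (show (0 : ℤ) < q ^ 2 - 1 by nlinarith)) h2
    have h3 : (0 : ℤ) ≤ q ^ 4 - 4 * q ^ 2 + 2 := by nlinarith [show (16 : ℤ) ≤ q ^ 2 by nlinarith]
    linear_combination -hd + mul_nonneg h3 (show (0 : ℤ) ≤ q ^ (2 * m + 2) by positivity) +
      zero_le_one (α := ℤ)
  · refine arith_odd (q := q) (X := q ^ (2 * m + 4)) (by omega) ?_ (by linear_combination -hd)
      ((h2 (Or.inl (by rw [Nat.card_eq_fintype_card]; omega))).imp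
        (fun h => by linear_combination h) fun h => by linear_combination h)
    exact pow_lt_pow_right₀ (by omega) (by omega)
  · omega

end Cfsg.Agent.S2344
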