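import Cfsg.Statements.S2345
import Cfsg.Agent.KSG.MDOFin

set_option autoImplicit false
open Cfsg

namespace Cfsg.Agent.S2345

open Module CL.MDO CL.Witt CL.Witt.Form CL.Orth CL.FormCount

/-- For a finite field F with q > 3 elements and n ≥ 4, every irreducible complex representation of degree at least 2 of Ω⁺_{2n}(F) (the commutator subgroup of the isometry group of the hyperbolic quadratic form x₁y₁ + ⋯ + x_ny_n) has degree at least (q^n − 1)(q^{n−1} + q)/(q² − 1). -/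
theorem result {F : Type*} [Field F] [Fintype F] (n : ℕ) (hn : 4 ≤ n) (h3 : 3 < Fintype.card F) :
    (∀ (k : ℕ) (ρ : Representation ℂ (Cfsg.Omega F (Cfsg.quadFormPlus n F)) (Fin k → ℂ)), ρ.IsIrreducible → 2 ≤ k → (Fintype.card F ^ n - 1) * (Fintype.card F ^ (n - 1) + Fintype.card F) / (Fintype.card F ^ 2 - 1) ≤ k) := by
  classical
  intro k ρ hρ hk
  obtain ⟨m, rfl⟩ := Nat.exists_eq_add_of_le' hn
  generalize hF : Fintype.card F = q at *
  have hf := (ofQuad_nondeg_iff _).mpr (QPlus_nondeg (m + 4) F)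
  obtain ⟨ρ', hS, h1⟩ := exists_rep (QPlus (m + 4) F) hf (by simp; omega) ρ hρ hk
  have hp := fun k => Nat.one_le_pow k q (by omega)
  have hq : (4 : ℤ) ≤ q := by omega
  have hY : (q : ℤ) ^ 2 ≤ q ^ (m + 2) := pow_le_pow_right₀ (by omega) (by omega)
  obtain ⟨d, hd⟩ : ∃ d : ℤ, d * (q ^ 2 - 1) = (q ^ 2 * q ^ (m + 2) - 1) * (q * q ^ (m + 2) + q) := by
    obtain ⟨t, h | h⟩ := exists_pow_eq q (m + 2) <;> rw [h]
    · exact ⟨(1 + q ^ 2 * t) * (q * (1 + (q ^ 2 - 1) * t) + q), by ring⟩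
    · exact ⟨(q ^ 2 + q + 1 + q ^ 3 * (q + 1) * t) * (q * (1 + q * (q - 1) * t)), by ring⟩
  have h2 := min_degree hf (k := 2 * m + 1) (by simp; ring) (Nat.card_eq_fintype_card.trans hF) hS
    h1 (S := (q ^ (m + 4) - 1) * (q ^ (m + 3) + 1)) (s := (q ^ (m + 3) - 1) * (q ^ (m + 2) + 1))
    (D := k) (by simp) (by
      refine (congrArg _ (card_quadFormPlus_eq hF (m + 4) 0)).trans ?_
      rw [if_pos rfl]
      push_cast [hp]
      ring) (by ring)
  refine div_le_of (d := d) (by omega) (by push_cast [hp]; linear_combination hd) ?_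
  rcases h2 with h2 | h2 | h2
  · refine le_trans (le_of_mul_le_mul_right ?_ (show (0 : ℤ) < q ^ 2 - 1 by nlinarith)) h2
    have h3 : (0 : ℤ) ≤ q ^ 4 - 5 * q ^ 2 + 2 := by nlinarith [show (16 : ℤ) ≤ q ^ 2 by nlinarith]
    have h4 : (q : ℤ) ^ (m + 5) ≤ q ^ (2 * m + 5) := pow_le_pow_right₀ (by omega) (by omega)
    linear_combination hd + mul_nonneg h3 (show (0 : ℤ) ≤ q ^ (2 * m + 3) by positivity) + h4 +
      (by positivity : (0 : ℤ) ≤ q ^ (m + 3) + q)
  · exact arith_plus hq hY hd ((h2 (Or.inl (by rw [Nat.card_eq_fintype_card]; omega))).imp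
      (fun h => by linear_combination h) fun h => by linear_combination h)
  · omega

end Cfsg.Agent.S2345
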