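import Cfsg.Statements.S2346
import Cfsg.Agent.KSG.MDOFin

set_option autoImplicit false
open Cfsg

namespace Cfsg.Agent.S2346

open Module CL.MDO CL.Witt CL.Witt.Form CL.Orth CL.FormCount

/-- For a finite field F with q elements, n ≥ 4, and a, b ∈ F with z₁² + a z₁z₂ + b z₂² anisotropic, every irreducible complex representation of degree at least 2 of Ω⁻_{2n}(F) (the commutator subgroup of the isometry group of x₁y₁ + ⋯ + x_{n−1}y_{n−1} + z₁² + a z₁z₂ + b z₂²) has degree at least (q^n + 1)(q^{n−1} − q)/(q² − 1). -/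
theorem result {F : Type*} [Field F] [Fintype F] (n : ℕ) (hn : 4 ≤ n) (a b : F) (hab : ∀ z₁ z₂ : F, z₁ ^ 2 + a * z₁ * z₂ + b * z₂ ^ 2 = 0 → z₁ = 0 ∧ z₂ = 0) :
    (∀ (k : ℕ) (ρ : Representation ℂ (Cfsg.Omega F (Cfsg.quadFormMinus (n - 1) F a b)) (Fin k → ℂ)), ρ.IsIrreducible → 2 ≤ k → (Fintype.card F ^ n + 1) * (Fintype.card F ^ (n - 1) - Fintype.card F) / (Fintype.card F ^ 2 - 1) ≤ k) := by
  classical
  intro k ρ hρ hk
  obtain ⟨m, rfl⟩ := Nat.exists_eq_add_of_le' hn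
  have h0 := Fintype.one_lt_card (α := F)
  generalize hF : Fintype.card F = q at *
  have hf := (ofQuad_nondeg_iff _).mpr (QMinus_nondeg (m + 3) F hab)
  obtain ⟨ρ', hS, h1⟩ := exists_rep (QMinus (m + 3) F a b) hf (by simp; omega) ρ hρ hk
  have hp := fun k => Nat.one_le_pow k q (by omega)
  have hq : (2 : ℤ) ≤ q := by omega
  have hY : (q : ℤ) ^ 2 ≤ q ^ (m + 2) := pow_le_pow_right₀ (by omega) (by omega)
  obtain ⟨d, hd⟩ : ∃ d : ℤ, d * (q ^ 2 - 1) = (q ^ 2 * q ^ (m + 2) + 1) * (q * q ^ (m + 2) - q) := by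
    obtain ⟨t, h | h⟩ := exists_pow_eq q (m + 2) <;> rw [h]
    · exact ⟨(q ^ 2 * (1 + (q ^ 2 - 1) * t) + 1) * (q * t), by ring⟩
    · exact ⟨(q ^ 2 - q + 1 + q ^ 3 * (q - 1) * t) * (q * (1 + q * (q + 1) * t)), by ring⟩
  have hN : finrank F ((Fin (m + 3) ⊕ Fin (m + 3)) ⊕ Fin 2 → F) = 2 * m + 1 + 7 := by simp; ring
  have h2 := min_degree hf hN (Nat.card_eq_fintype_card.trans hF) hS
    h1 (S := (q ^ (m + 4) + 1) * (q ^ (m + 3) - 1)) (s := (q ^ (m + 3) + 1) * (q ^ (m + 2) - 1))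
    (D := k) (by simp) (by
      refine (congrArg _ (card_quadFormMinus_eq hF (m + 3) hab 0)).trans ?_
      rw [if_pos rfl]
      push_cast [hp]
      ring) (by ring)
  refine div_le_of (d := d) h0 (by
    push_cast [Nat.le_self_pow (Nat.succ_ne_zero (m + 2)) q]; linear_combination hd) ?_
  have hq2 : (0 : ℤ) < q ^ 2 - 1 := by nlinarith
  rcases h2 with h2 | h2 | ⟨-, c, hc, t, A, h2, h3, h4⟩
  · refine le_trans (le_of_mul_le_mul_right ?_ hq2) h2
    have h3 : (0 : ℤ) ≤ q ^ 4 - 4 * q ^ 2 + 2 := by nlinarith [show (4 : ℤ) ≤ q ^ 2 by nlinarith]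
    have h4 : (q : ℤ) ^ (m + 3) ≤ q ^ (m + 5) := pow_le_pow_right₀ (by omega) (by omega)
    linear_combination hd + mul_nonneg h3 (show (0 : ℤ) ≤ q ^ (2 * m + 3) by positivity) + h4 +
      (by positivity : (0 : ℤ) ≤ q)
  · refine arith_minus hq hY hd ((h2 (Or.inr ?_)).imp
      (fun h => by linear_combination h) fun h => by linear_combination h)
    rcases m.eq_zero_or_pos with rfl | h
    · exact Or.inr ⟨hN.ge, rfl, fun X hX => finrank_le_of_singular_QMinus hab hX.1⟩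
    · exact Or.inl (by omega)
  · have h5 : t = q * (q ^ (m + 2) * (q ^ (m + 3) + 1)) := by
      have h6 := h2.trans (congrArg _ (card_quadFormMinus_eq hF (m + 3) hab c))
      rw [if_neg hc] at h6
      push_cast [hp] at h6
      linear_combination h6
    subst h5
    rcases m.eq_zero_or_pos with rfl | h
    · refine le_trans (le_of_mul_le_mul_right ?_ hq2) (le_of_mul_le_mul_left h3 (by omega))
      linear_combination hd + mul_nonneg hq2.le (show (0 : ℤ) ≤ q * (q - 1) by nlinarith)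
    obtain ⟨h5, h6⟩ := h4 (by omega)
    have h7 : A = (q - 1) * q ^ (m + 3) * (q ^ (m + 2) - 1) :=
      mul_right_cancel₀ (by positivity) (h5.trans (by ring))
    have h8 : (k : ℤ) * (q ^ 2 - 1) = (q ^ (m + 4) + 1) * (q ^ (m + 3) + 1) :=
      mul_right_cancel₀ (b := (q : ℤ) ^ (m + 3) * (q ^ (m + 3) - 1)) (mul_ne_zero (by positivity)
        (sub_ne_zero.mpr (one_lt_pow₀ (by omega) (by omega)).ne'))
        (by rw [h7] at h6; linear_combination h6)
    refine le_of_mul_le_mul_right ?_ hq2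
    linear_combination hd - h8 + (by positivity : (0 : ℤ) ≤ (q ^ (m + 4) + 1) * (q + 1))

end Cfsg.Agent.S2346
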