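import Cfsg.Statements.S2347
import Cfsg.Agent.KSG.LSWeil

set_option autoImplicit false
open Cfsg

namespace Cfsg.Agent.S2347

open CL.LS CL.Witt

/-- Smallest degree of a non-linear irreducible complex representation of the symplectic group Sp_{2n} over a finite field of odd order q, n ≥ 2: every irreducible complex representation of degree at least 2 has degree at least (q^n − 1)/2, and there is an irreducible complex representation of exactly that degree (a Weil representation). -/
theorem result {F : Type*} [Field F] [Fintype F] [DecidableEq F] (n : ℕ) (hn : 2 ≤ n) (hodd : Odd (Fintype.card F)) :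
    (∀ (k : ℕ) (ρ : Representation ℂ (Matrix.symplecticGroup (Fin n) F) (Fin k → ℂ)), ρ.IsIrreducible → 2 ≤ k → (Fintype.card F ^ n - 1) / 2 ≤ k) ∧
    (∃ ρ : Representation ℂ (Matrix.symplecticGroup (Fin n) F) (Fin ((Fintype.card F ^ n - 1) / 2) → ℂ), ρ.IsIrreducible) := by
  have hf := CL.Sp.spForm_nondeg n F
  have h2 : (2 : F) ≠ 0 := fun h => by
    have := FiniteField.even_card_of_char_two (F := F) (CharP.ringChar_of_prime_eq_zero Nat.prime_two h)
    obtain ⟨k, hk⟩ := hodd
    omega
  have hK : ringChar ℂ ≠ ringChar F := by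
    rw [ringChar.eq_zero]
    exact (CharP.char_ne_zero_of_finite F _).symm
  refine ⟨fun k ρ hρ hk => ?_, ?_⟩
  · obtain ⟨g₀, hg₀⟩ := exists_ne_one_of_irreducible ρ hρ (by rwa [Module.finrank_fin_fun])
    let ρ' := ρ.comp (CL.Sp.spEquiv n F).symm.toMonoidHom
    have := bound_alt_odd hf (CL.Sp.finrank_sp n F) h2 hK ρ' (by
      by_contra! h
      have h3 := congrArg Units.val ((hf.eq_top_of_tvO (N := ρ'.toHomUnits.ker)
        fun v c => Units.ext (h v c)).ge (Subgroup.mem_top (CL.Sp.spEquiv n F g₀)))
      exact hg₀ (by simpa [ρ'] using h3))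
    rw [Module.finrank_fin_fun, Nat.card_eq_fintype_card] at this
    omega
  · obtain ⟨ψ, hψ⟩ := exists_addChar_ne_one hK
    have h := isHeis_schr n h2 hψ
    obtain ⟨ρ, hρ⟩ := h.exists_weil
    have h3 := h.two_mul_finrank_neg_one
    rw [Module.finrank_fintype_fun_eq_card, Fintype.card_fun, Fintype.card_fin] at h3
    have h4 : 3 ≤ Fintype.card F ^ n :=
      le_trans (by have := Fintype.one_lt_card (α := F); obtain ⟨k, hk⟩ := hodd; omega)
        (Nat.le_self_pow (by omega) _)
    obtain ⟨ρ', hρ', -⟩ := exists_irreducible (ρ.comp (CL.Sp.spEquiv n F).toMonoidHom)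
      (fun g => IsHeis.mapsTo_weil hρ (-1) _) (fun h0 => by rw [h0, finrank_bot] at h3; omega)
      (fun U hU hinv => h.eq_bot_or_eq hρ hU fun g => by
        simpa using hinv ((CL.Sp.spEquiv n F).symm g))
      (k := (Fintype.card F ^ n - 1) / 2) (by omega)
    exact ⟨ρ', hρ'⟩

end Cfsg.Agent.S2347
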