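import Cfsg.Statements.S2352
import Cfsg.Agent.KSG.AltBasic

set_option autoImplicit false
open Cfsg

namespace Cfsg.Agent.S2352

/-- A non-trivial law holds in only finitely many alternating groups: for every non-trivial element w of the free group on countably many generators there is N such that for all n ≥ N some substitution of elements of the alternating group of degree n into w is not the identity. -/
theorem result (w : FreeGroup ℕ) (hw : w ≠ 1) :
    ∃ N : ℕ, ∀ n : ℕ, N ≤ n → ∃ f : ℕ → alternatingGroup (Fin n), FreeGroup.lift f w ≠ 1 := by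
  classical
  obtain ⟨L, rfl⟩ := Quot.exists_rep w
  change FreeGroup.mk L ≠ 1 at hw
  let S : Finset (FreeGroup ℕ) := (L.tails.map FreeGroup.mk).toFinset
  have hS : ∀ l, l <:+ L → FreeGroup.mk l ∈ S := fun l hl =>
    List.mem_toFinset.2 (List.mem_map.2 ⟨l, (List.mem_tails _ _).2 hl, rfl⟩)
  refine ⟨S.card + 2, fun n hn => ?_⟩
  obtain ⟨e⟩ : Nonempty (S ↪ Fin n) :=
    Function.Embedding.nonempty_of_card_le (by simp; omega)
  have key : ∀ a : ℕ, ∃ σ ∈ alternatingGroup (Fin n),
      ∀ s : {s : S // FreeGroup.of a * s.1 ∈ S}, σ (e s.1) = e ⟨_, s.2⟩ := by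
    intro a
    refine CL.KSG.exists_even_extending_pair _ _ (e.injective.comp Subtype.val_injective)
      (fun s t h => ?_) ?_
    · have := congrArg Subtype.val (e.injective h)
      exact Subtype.ext (Subtype.ext (mul_left_cancel this))
    · have := Fintype.card_subtype_le (fun s : S => FreeGroup.of a * s.1 ∈ S)
      simp only [Fintype.card_coe, Fintype.card_fin] at this ⊢
      omega
  choose σ hσ hσ' using key
  refine ⟨fun a => ⟨σ a, hσ a⟩, fun h => hw ?_⟩
  have h1 : (1 : FreeGroup ℕ) ∈ S := hS [] (List.nil_suffix)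
  have main : ∀ l (hl : l <:+ L),
      (FreeGroup.lift (fun a => (⟨σ a, hσ a⟩ : alternatingGroup (Fin n))) (FreeGroup.mk l)).1
        (e ⟨1, h1⟩) = e ⟨FreeGroup.mk l, hS l hl⟩ := by
    intro l
    induction l with
    | nil => intro _; rfl
    | cons x l ih =>
      intro hl
      have hl' : l <:+ L := (List.suffix_cons x l).trans hl
      obtain ⟨a, b⟩ := x
      have e1 : FreeGroup.mk ((a, b) :: l) = FreeGroup.mk [(a, b)] * FreeGroup.mk l := by
        rw [FreeGroup.mul_mk]; rfl
      conv_lhs => rw [e1, map_mul, Subgroup.coe_mul, Equiv.Perm.mul_apply, ih hl']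
      cases b
      · have e2 : FreeGroup.mk [(a, false)] = (FreeGroup.of a)⁻¹ := rfl
        have e3 : FreeGroup.of a * FreeGroup.mk ((a, false) :: l) = FreeGroup.mk l := by
          rw [e1, e2, mul_inv_cancel_left]
        rw [e2, map_inv, FreeGroup.lift_apply_of, Subgroup.coe_inv, Equiv.Perm.inv_eq_iff_eq]
        have := hσ' a ⟨⟨_, hS _ hl⟩, e3 ▸ hS l hl'⟩
        simp only [e3] at this
        exact this.symm
      · have e2 : FreeGroup.mk [(a, true)] = FreeGroup.of a := rfl
        rw [e2, FreeGroup.lift_apply_of]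
        exact hσ' a ⟨⟨_, hS l hl'⟩, hS _ hl⟩
  have := main L List.suffix_rfl
  rw [show FreeGroup.lift (fun a => (⟨σ a, hσ a⟩ : alternatingGroup (Fin n))) (FreeGroup.mk L) = 1
    from h] at this
  exact (congrArg Subtype.val (e.injective this)).symm

end Cfsg.Agent.S2352
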