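import Cfsg.Statements.S2353
import Cfsg.Agent.KSG.PSL2Basic

set_option autoImplicit false
open Cfsg CL.GL2 CL.Char

namespace Cfsg.Agent.S2353

open Polynomial Matrix
open scoped MatrixGroups

/-- Free generators of a subgroup of SL₂ over a polynomial ring. -/
def xg {R : Type*} [CommRing R] (t : R) (i : ℕ) : SL(2, R) :=
  ⟨!![1 + t ^ (i + 1) * t ^ (i + 1), t ^ (i + 1); t ^ (i + 1), 1], by rw [det_fin_two_of]; ring⟩

theorem coe_xg {R : Type*} [CommRing R] (t : R) (i : ℕ) : (xg t i : Matrix (Fin 2) (Fin 2) R) =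
    !![1 + t ^ (i + 1) * t ^ (i + 1), t ^ (i + 1); t ^ (i + 1), 1] := rfl

theorem mul_sum {R : Type*} [CommRing R] (A M : SL(2, R)) (j : Fin 2) :
    (A * M) j 0 + (A * M) j 1 = A j 0 * (M 0 0 + M 0 1) + A j 1 * (M 1 0 + M 1 1) := by
  show ((A : Matrix (Fin 2) (Fin 2) R) * M) j 0 + ((A : Matrix (Fin 2) (Fin 2) R) * M) j 1 = _
  simp only [Matrix.mul_apply, Fin.sum_univ_two]
  ring

theorem xg_apply {R : Type*} [CommRing R] (t : R) (i : ℕ) (j k : Fin 2) : xg t i j k =
    !![1 + t ^ (i + 1) * t ^ (i + 1), t ^ (i + 1); t ^ (i + 1), 1] j k := rfl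

theorem xg_inv_apply {R : Type*} [CommRing R] (t : R) (i : ℕ) (j k : Fin 2) : (xg t i)⁻¹ j k =
    !![1, -t ^ (i + 1); -t ^ (i + 1), 1 + t ^ (i + 1) * t ^ (i + 1)] j k := by
  show adjugate (xg t i : Matrix (Fin 2) (Fin 2) R) j k = _
  rw [coe_xg, adjugate_fin_two_of]

theorem map_lift {R S : Type*} [CommRing R] [CommRing S] (φ : R →+* S) (t : R) (w : FreeGroup ℕ) :
    SpecialLinearGroup.map φ (FreeGroup.lift (xg t) w) = FreeGroup.lift (xg (φ t)) w := by
  have : (SpecialLinearGroup.map φ).comp (FreeGroup.lift (xg t)) = FreeGroup.lift (xg (φ t)) := by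
    ext i j k
    rw [MonoidHom.comp_apply, FreeGroup.lift_apply_of, FreeGroup.lift_apply_of]
    show φ ((xg t i : Matrix (Fin 2) (Fin 2) R) j k) = (xg (φ t) i : Matrix (Fin 2) (Fin 2) S) j k
    fin_cases j <;> fin_cases k <;> simp [coe_xg]
  exact DFunLike.congr_fun this w

variable {F : Type*} [Field F]

theorem deg_lt {f a b : F[X]} (hf : 0 < f.degree) (ha : a ≠ 0) (h : b.degree ≤ a.degree) :
    a.degree < (b + f * a).degree := by
  have h1 : a.degree < (f * a).degree := by
    rw [degree_mul]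
    conv_lhs => rw [← zero_add a.degree]
    exact WithBot.add_lt_add_right (degree_ne_bot.2 ha) hf
  rwa [degree_add_eq_right_of_degree_lt (h.trans_lt h1)]

theorem deg_pow (i : ℕ) : 0 < ((X : F[X]) ^ (i + 1)).degree := by
  rw [degree_X_pow]; exact_mod_cast Nat.succ_pos i

theorem deg_sub {i j : ℕ} (h : i ≠ j) : 0 < ((X : F[X]) ^ (i + 1) - X ^ (j + 1)).degree := by
  rcases lt_or_gt_of_ne h with h | h
  · rw [degree_sub_eq_right_of_degree_lt (by simpa [degree_X_pow] using by exact_mod_cast Nat.succ_lt_succ h)]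
    exact deg_pow j
  · rw [degree_sub_eq_left_of_degree_lt (by simpa [degree_X_pow] using by exact_mod_cast Nat.succ_lt_succ h)]
    exact deg_pow i

/-- The ping-pong invariant. -/
def Inv (x : ℕ × Bool) (u v : F[X]) : Prop :=
  (x.2 = true ∧ (u - X ^ (x.1 + 1) * v).degree < v.degree) ∨
    (x.2 = false ∧ (v + X ^ (x.1 + 1) * u).degree < u.degree)

theorem Inv.deg {x : ℕ × Bool} {u v : F[X]} (h : Inv x u v) :
    (x.2 = true ∧ v ≠ 0 ∧ v.degree < u.degree) ∨ (x.2 = false ∧ u ≠ 0 ∧ u.degree < v.degree) := by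
  rcases h with ⟨h1, h⟩ | ⟨h1, h⟩
  · have h0 : v ≠ 0 := by rintro rfl; simp at h
    exact Or.inl ⟨h1, h0, by simpa using deg_lt (deg_pow x.1) h0 h.le⟩
  · have h0 : u ≠ 0 := by rintro rfl; simp at h
    exact Or.inr ⟨h1, h0, by simpa using deg_lt (f := -X ^ (x.1 + 1)) (by rw [degree_neg]; exact deg_pow x.1) h0 h.le⟩

theorem inv_prod (x : ℕ × Bool) (L : List (ℕ × Bool)) (h : FreeGroup.IsReduced (x :: L)) :
    Inv x ((FreeGroup.lift (xg (X : F[X])) (FreeGroup.mk (x :: L)) : SL(2, F[X])) 0 0 +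
        (FreeGroup.lift (xg (X : F[X])) (FreeGroup.mk (x :: L)) : SL(2, F[X])) 0 1)
      ((FreeGroup.lift (xg (X : F[X])) (FreeGroup.mk (x :: L)) : SL(2, F[X])) 1 0 +
        (FreeGroup.lift (xg (X : F[X])) (FreeGroup.mk (x :: L)) : SL(2, F[X])) 1 1) := by
  have step : ∀ (x : ℕ × Bool) (L : List (ℕ × Bool)) (M : SL(2, F[X])),
      FreeGroup.lift (xg (X : F[X])) (FreeGroup.mk L) = M →
      ((x.2 = true → (M 0 0 + M 0 1).degree < (M 1 0 + M 1 1 + X ^ (x.1 + 1) * (M 0 0 + M 0 1)).degree) ∧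
      (x.2 = false → (M 1 0 + M 1 1).degree < (M 0 0 + M 0 1 - X ^ (x.1 + 1) * (M 1 0 + M 1 1)).degree)) →
      Inv x ((FreeGroup.lift (xg (X : F[X])) (FreeGroup.mk (x :: L)) : SL(2, F[X])) 0 0 +
        (FreeGroup.lift (xg (X : F[X])) (FreeGroup.mk (x :: L)) : SL(2, F[X])) 0 1)
      ((FreeGroup.lift (xg (X : F[X])) (FreeGroup.mk (x :: L)) : SL(2, F[X])) 1 0 +
        (FreeGroup.lift (xg (X : F[X])) (FreeGroup.mk (x :: L)) : SL(2, F[X])) 1 1) := by
    rintro ⟨i, b⟩ L M hM ⟨h1, h2⟩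
    rw [FreeGroup.lift_mk] at hM ⊢
    rw [List.map_cons, List.prod_cons, hM]
    cases b
    · refine Or.inr ⟨rfl, ?_⟩
      rw [cond_false, mul_sum, mul_sum]
      simp only [xg_inv_apply]
      convert h2 rfl using 2 <;> simp <;> ring
    · refine Or.inl ⟨rfl, ?_⟩
      rw [cond_true, mul_sum, mul_sum]
      simp only [xg_apply]
      convert h1 rfl using 2 <;> simp <;> ring
  induction L generalizing x with
  | nil =>
    refine step x [] 1 (by simp) ⟨fun _ => ?_, fun _ => ?_⟩
    · convert deg_lt (a := 1) (b := 1) (deg_pow (F := F) x.1) one_ne_zero le_rfl using 2 <;> simp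
    · convert deg_lt (F := F) (a := 1) (b := 1) (f := -X ^ (x.1 + 1))
        (by rw [degree_neg]; exact deg_pow x.1) one_ne_zero le_rfl using 2 <;> simp [sub_eq_add_neg]
  | cons y L ih =>
    rw [FreeGroup.isReduced_cons_cons] at h
    have H := ih y h.2
    refine step x (y :: L) _ rfl ?_
    generalize (FreeGroup.lift (xg (X : F[X])) (FreeGroup.mk (y :: L)) : SL(2, F[X])) = M at H
    generalize M 0 0 + M 0 1 = u at H
    generalize M 1 0 + M 1 1 = v at H
    rcases H.deg with ⟨e, h0, h1⟩ | ⟨e, h0, h1⟩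
    · refine ⟨fun _ => deg_lt (deg_pow _) (by rintro rfl; simp at h1) h1.le, fun hx => ?_⟩
      have hne : y.1 ≠ x.1 := fun e' => by simpa [e, hx] using h.1 e'.symm
      have := deg_lt (deg_sub hne) h0 (H.resolve_right (by simp [e])).2.le
      convert this using 2; ring
    · refine ⟨fun hx => ?_, fun _ => ?_⟩
      · have hne : x.1 ≠ y.1 := fun e' => by simpa [e, hx] using h.1 e'
        have := deg_lt (deg_sub hne) h0 (H.resolve_left (by simp [e])).2.le
        convert this using 2; ring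
      · have := deg_lt (f := -X ^ (x.1 + 1)) (by rw [degree_neg]; exact deg_pow x.1)
          (show v ≠ 0 by rintro rfl; simp at h1) h1.le
        convert this using 2; ring

/-- A non-trivial law holds in PSL_2 over only finitely many finite fields: for every non-trivial element w of the free group on countably many generators there is N such that over every finite field with at least N elements some substitution of elements of PSL_2 into w is not the identity. -/
theorem result (w : FreeGroup ℕ) (hw : w ≠ 1) :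
    ∃ N : ℕ, ∀ (F : Type*) [Field F] [Fintype F], N ≤ Fintype.card F →
      ∃ f : ℕ → Matrix.ProjectiveSpecialLinearGroup (Fin 2) F, FreeGroup.lift f w ≠ 1 := by
  classical
  let M := FreeGroup.lift (xg (X : ℤ[X])) w
  refine ⟨(M 0 0 + M 0 1 - (M 1 0 + M 1 1)).natDegree + 1, fun F _ _ hF => ?_⟩
  have h1 := map_lift (mapRingHom (Int.castRingHom F)) X w
  have hne : (M 0 0 + M 0 1 - (M 1 0 + M 1 1)).map (Int.castRingHom F) ≠ 0 := by
    obtain ⟨x, L, hL⟩ := List.exists_cons_of_ne_nil (mt FreeGroup.toWord_eq_nil_iff.1 hw)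
    have := (inv_prod (F := F) x L (hL ▸ FreeGroup.isReduced_toWord)).deg
    rw [← hL, FreeGroup.mk_toWord] at this
    simp only [coe_mapRingHom, map_X] at h1
    rw [← h1] at this
    intro e
    rw [Polynomial.map_sub, sub_eq_zero, Polynomial.map_add, Polynomial.map_add] at e
    rcases this with ⟨-, -, h⟩ | ⟨-, -, h⟩
    exacts [h.ne' (congrArg degree e), h.ne (congrArg degree e)]
  obtain ⟨t, ht⟩ : ∃ t : F, ((M 0 0 + M 0 1 - (M 1 0 + M 1 1)).map (Int.castRingHom F)).eval t ≠ 0 := by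
    by_contra hc
    push Not at hc
    exact hne (eq_zero_of_natDegree_lt_card_of_eval_eq_zero _ Function.injective_id hc
      (natDegree_map_le.trans_lt hF))
  refine ⟨fun i => pslMk F (xg t i), fun e => ht ?_⟩
  have h2 : (pslMk F).comp (FreeGroup.lift (xg t)) = FreeGroup.lift fun i => pslMk F (xg t i) := by
    ext i; simp
  have h3 := map_lift (eval₂RingHom (Int.castRingHom F) t) X w
  simp only [coe_eval₂RingHom, eval₂_X] at h3
  rw [← h2, MonoidHom.comp_apply, pslMk_eq_one_iff, ← h3] at e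
  obtain ⟨e1, e2, e3⟩ := e
  rw [eval_map, eval₂_sub, eval₂_add, eval₂_add]
  exact sub_eq_zero.2 ((congrArg₂ (· + ·) e3 (e1.trans e2.symm)).trans (add_comm _ _))

end Cfsg.Agent.S2353
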