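import Cfsg.Statements.S2354
import Mathlib
import Cfsg.Agent.CHEV.SzConcrete

set_option autoImplicit false
open Cfsg

namespace Cfsg.Agent.S2354

open CL.Sz Polynomial

section

variable {F : Type*} [Field F] [CharP F 2] {θ : F →+* F} {G : Type*} [Group G] (M : Model θ G) (r : ℕ)

/-- The last column is polynomial in the parameter, with dominant first entry. -/
def Good (n : ℕ) (g : F → G) : Prop := ∃ p : Fin 4 → F[X], p 0 ≠ 0 ∧ (p 0).natDegree = r * n ∧
  (∀ i, (p i).natDegree ≤ r * n) ∧ ∀ a i, M.ρ (g a) i 3 = (p i).eval a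

theorem good_w : Good M r 0 fun _ => M.w :=
  ⟨![1, 0, 0, 0], one_ne_zero, by simp, fun i => by fin_cases i <;> simp, fun a i => by
    fin_cases i <;> simp [M.ρ_w, Cfsg.suzukiForm]⟩

variable {M r} (hr : 2 ≤ r) (hθ : ∀ x, θ x = x ^ r)
include hr hθ

theorem Good.step {n : ℕ} {g : F → G} (h : Good M r n g) {d : F} (hd : d ≠ 0) :
    Good M r (n + 1) fun a => M.u 0 (d * a) * (M.w * g a) := by
  obtain ⟨p, h0, h1, h2, h3⟩ := h
  have e1 : ∀ i, (C d * X * p i).natDegree ≤ r * n + 1 := fun i =>
    natDegree_mul_le.trans (by rw [natDegree_C_mul_X _ hd]; have := h2 i; omega)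
  have e0 : C (θ d) * X ^ r ≠ 0 := mul_ne_zero (by simpa using hd) (pow_ne_zero _ X_ne_zero)
  have e2 : (C (θ d) * X ^ r * p 0).natDegree = r * (n + 1) := by
    rw [natDegree_mul e0 h0, natDegree_C_mul_X_pow _ _ (Model.θ_ne_zero hd), h1]; ring
  have e3 : (p 3 + C d * X * p 1 + C (θ d) * X ^ r * p 0).natDegree = r * (n + 1) := by
    rw [natDegree_add_eq_right_of_natDegree_lt, e2]
    refine ((natDegree_add_le _ _).trans (max_le ((h2 3).trans (Nat.le_succ _)) (e1 1))).trans_lt ?_
    rw [e2]; linarith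
  refine ⟨![p 3 + C d * X * p 1 + C (θ d) * X ^ r * p 0, p 2 + C d * X * p 0, p 1, p 0], fun h => ?_, e3,
    fun i => ?_, fun a i => ?_⟩
  · change p 3 + _ + _ = 0 at h
    rw [h, natDegree_zero] at e3
    exact absurd e3.symm (by positivity)
  · fin_cases i
    · exact e3.le
    · exact ((natDegree_add_le _ _).trans (max_le ((h2 2).trans (Nat.le_succ _)) (e1 0))).trans (by linarith)
    · exact (h2 1).trans (by linarith)
    · exact (h2 0).trans (by linarith)
  · rw [map_mul, map_mul, M.ρ_u, M.ρ_w, Matrix.mul_apply]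
    simp only [J_mul_apply, h3, Fin.sum_univ_four]
    fin_cases i <;> simp [uMat, ov, Fin.rev, ← hθ]

theorem good_word (lam : ℕ × Bool → F) (L : List (ℕ × Bool)) (hL : FreeGroup.IsReduced L) (h0 : ∀ x, lam x ≠ 0)
    (hinj : ∀ x ∈ L, ∀ y ∈ L, lam (x.1, !x.2) = lam y → (x.1, !x.2) = y) (c : F)
    (hc : c ≠ (L.head?.map lam).getD 0) :
    Good M r (L.length + 1) fun a => M.u 0 (c * a) *
      FreeGroup.lift (fun i => M.u 0 (lam (i, true) * a) * M.w * M.u 0 (lam (i, false) * a)) (FreeGroup.mk L) := by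
  induction L generalizing c with
  | nil => simpa [M.w_mul_w, ← FreeGroup.one_eq_mk] using (good_w M r).step hr hθ hc
  | cons x L ih =>
    have := (ih hL.tail (fun a ha b hb => hinj a (List.mem_cons_of_mem _ ha) b (List.mem_cons_of_mem _ hb))
      (lam (x.1, !x.2)) ?_).step hr hθ (d := c + lam x) fun h => hc (by simpa using CharTwo.add_eq_zero.mp h)
    · rw [List.length_cons]
      convert this using 2 with a
      rw [FreeGroup.lift_mk, FreeGroup.lift_mk, List.map_cons, List.prod_cons, add_mul, ← M.u_zero_mul_u_zero]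
      rcases x with ⟨i, _ | _⟩ <;> simp [M.u_zero_inv, M.w_inv, mul_assoc]
    · rcases L with _ | ⟨y, L⟩
      · exact h0 _
      · intro h
        have h1 := hinj x (by simp) y (by simp) h
        have h2 := (List.isChain_cons_cons.mp hL).1
        subst h1
        simp at h2

end

/-- A non-trivial law holds in only finitely many Suzuki groups: for every non-trivial element w of the free group on countably many generators there is N such that for q = 2^(2m+1) with m ≥ N some substitution of elements of the Suzuki group over the field with q elements into w is not the identity. -/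
theorem result (w : FreeGroup ℕ) (hw : w ≠ 1) :
    ∃ N : ℕ, ∀ (F : Type*) [Field F] [Fintype F] (m : ℕ), 1 ≤ m → N ≤ m →
      Fintype.card F = 2 ^ (2 * m + 1) →
      ∃ f : ℕ → ↥(Cfsg.Lie.Sz F (2 ^ (m + 1))), FreeGroup.lift f w ≠ 1 := by
  obtain ⟨K, hK⟩ := (w.toWord.finite_toSet.image Prod.fst).bddAbove
  refine ⟨K + w.toWord.length + 1, fun F _ _ m hm hN hF => ?_⟩
  have := charP_two hF
  obtain ⟨ζ, hζ⟩ := IsCyclic.exists_ofOrder_eq_natCard (α := Fˣ)
  rw [Nat.card_units, Nat.card_eq_fintype_card, hF] at hζ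
  have h1 : m < 2 ^ m := Nat.lt_two_pow_self
  have h2 : 2 * m + 1 < 2 ^ (2 * m + 1) := Nat.lt_two_pow_self
  obtain ⟨p, h0, hp, -, h⟩ := good_word (M := lieModel hF) (r := 2 ^ (m + 1)) (by omega) (theta_apply m)
    (fun x => (ζ ^ (2 * x.1 + x.2.toNat) : Fˣ)) w.toWord FreeGroup.isReduced_toWord (fun x => Units.ne_zero _)
    (fun x hx y hy h => by
      have hx' : x.1 ≤ K := hK ⟨x, hx, rfl⟩
      have hy' : y.1 ≤ K := hK ⟨y, hy, rfl⟩
      have b1 := Bool.toNat_le (!x.2)
      have b2 := Bool.toNat_le y.2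
      have := pow_injOn_Iio_orderOf (by rw [Set.mem_Iio]; dsimp only; omega) (by rw [Set.mem_Iio]; omega) (Units.ext h)
      dsimp only at this
      refine Prod.ext (by dsimp only; omega) ?_
      have : (!x.2).toNat = y.2.toNat := by omega
      revert this
      cases x.2 <;> cases y.2 <;> simp) 0 (by
    rcases hL : w.toWord with _ | ⟨x, L⟩
    · exact absurd (FreeGroup.toWord_eq_nil_iff.mp hL) hw
    · exact (Units.ne_zero _).symm)
  by_contra! H
  refine h0 (Polynomial.eq_zero_of_natDegree_lt_card_of_eval_eq_zero _ Function.injective_id (fun a => ?_) ?_)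
  · rw [id, ← h]
    simp [FreeGroup.mk_toWord, H, Model.u_zero]
  · rw [hp, hF, show 2 * m + 1 = m + 1 + m by ring, pow_add 2 (m + 1)]
    exact (Nat.mul_lt_mul_left (by positivity)).mpr (by omega)

end Cfsg.Agent.S2354
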