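import Cfsg.Statements.S2356
import Cfsg.Agent.CLAS.U3Inv

set_option autoImplicit false
open Cfsg

namespace Cfsg.Agent.S2356

/-- Let q be odd, F the field with q² elements, S = SU_3(F) (determinant-one isometries of the standard Hermitian form) and t an involution of S. Then: exactly q(q−1) involutions other than t commute with t; exactly q(q−2)(q²−1) involutions do not commute with t but commute with some involution commuting with t; exactly (q+1)(q²−1) involutions x do not commute with t and admit no involution commuting with both t and x; and every involution can be reached from t in at most three steps, each step going to an involution that commutes with the previous one (the commuting involution graph is connected of diameter 3). -/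
theorem result {F : Type*} [Field F] [Fintype F] {q : ℕ} (hq : Odd q)
    (hF : Fintype.card F = q ^ 2) (t : ↥(Cfsg.SU 3 F q)) (ht : t ≠ 1) (ht2 : t * t = 1) :
    Nat.card {x : ↥(Cfsg.SU 3 F q) // x ≠ 1 ∧ x * x = 1 ∧ x ≠ t ∧ Commute t x} = q * (q - 1) ∧
    Nat.card {x : ↥(Cfsg.SU 3 F q) // x ≠ 1 ∧ x * x = 1 ∧ ¬ Commute t x ∧
        ∃ y : ↥(Cfsg.SU 3 F q), y ≠ 1 ∧ y * y = 1 ∧ Commute t y ∧ Commute y x} = q * (q - 2) * (q ^ 2 - 1) ∧
    Nat.card {x : ↥(Cfsg.SU 3 F q) // x ≠ 1 ∧ x * x = 1 ∧ ¬ Commute t x ∧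
        ∀ y : ↥(Cfsg.SU 3 F q), y ≠ 1 → y * y = 1 → ¬ (Commute t y ∧ Commute y x)} = (q + 1) * (q ^ 2 - 1) ∧
    ∀ x : ↥(Cfsg.SU 3 F q), x ≠ 1 → x * x = 1 →
      ∃ y z : ↥(Cfsg.SU 3 F q), y ≠ 1 ∧ y * y = 1 ∧ z ≠ 1 ∧ z * z = 1 ∧
        Commute t y ∧ Commute y z ∧ Commute z x := by
  open CL.Uni CL.Witt in
  have h2 := two_ne_zero_of_odd hF hq
  set f := std hF (Fin 3)
  have hf : f.Nondeg := std_nondeg hF (Fin 3)
  have h3 : Module.finrank F (Fin 3 → F) = 3 := by simp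
  set e := suEquiv hF 3
  obtain ⟨u, hu, rfl⟩ := exists_eq_I e h2 hf h3 ht ht2
  have hq2 := CL.SqField.two_le hF
  have hpos : 0 < q ^ 2 - 1 := by
    have : 2 ^ 2 ≤ q ^ 2 := Nat.pow_le_pow_left hq2 2
    omega
  set W := f.perp (F ∙ u)
  have hW : (f.restrict W).Nondeg := hf.restrict_perp (restrict_span_nondeg hu)
  have hd : Module.finrank F W = 2 := by
    rw [hf.finrank_perp, finrank_span_singleton (ne_zero_of_q hu), h3]
  have : Fintype W := Fintype.ofFinite W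
  have hp : ∀ w : W, f.B u w = 0 := fun w => f.mem_perp_span_singleton.1 w.2
  have hcom : ∀ (a : F) (w : W), f.q (a • u + w) ≠ 0 → a ≠ 0 → (w : Fin 3 → F) ≠ 0 →
      ((∃ y : ↥(Cfsg.SU 3 F q), y ≠ 1 ∧ y * y = 1 ∧ Commute (I e u) y ∧
        Commute y (I e (a • u + w))) ↔ f.q w ≠ 0) := fun a w hv ha hw =>
    common_iff h2 hf h3 hu (hp w) ha hw hv
  refine ⟨?_, ?_, ?_, fun x hx1 hx => ?_⟩
  · refine Nat.eq_of_mul_eq_mul_right hpos ?_
    rw [card_invol (e := e) h2 hf h3 fun x => x ≠ I e u ∧ Commute (I e u) x,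
      ← card_q_ne_zero_two hW hd]
    refine Nat.card_congr ⟨fun v => ⟨⟨v.1, f.mem_perp_span_singleton.2
      (((commute_I_iff h2 h3 hu v.2.1).1 v.2.2.2).resolve_left fun h =>
        v.2.2.1 ((I_eq_iff h2 h3 hu v.2.1).2 h).symm)⟩, v.2.1⟩,
      fun w => ⟨w.1, w.2, fun h => ?_, (commute_I_iff h2 h3 hu w.2).2 (Or.inr (hp _))⟩,
      fun _ => rfl, fun _ => rfl⟩
    obtain ⟨c, hc⟩ := (I_eq_iff h2 h3 hu w.2).1 h.symm
    replace hc : (w.1 : Fin 3 → F) = c • u := hc
    have h1 := hp w.1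
    rw [hc, f.B_smul_right, ← f.herm_q, mul_eq_zero, or_iff_left hu] at h1
    exact ne_zero_of_q (f := f) (u := w.1) w.2 (by rw [hc, h1, zero_smul])
  · refine Nat.eq_of_mul_eq_mul_right hpos ?_
    rw [card_invol (e := e) h2 hf h3 fun x => ¬ Commute (I e u) x ∧
      ∃ y : ↥(Cfsg.SU 3 F q), y ≠ 1 ∧ y * y = 1 ∧ Commute (I e u) y ∧ Commute y x,
      ← Nat.card_congr ((splitEquiv hu).subtypeEquiv
        (p := fun p => (f.q p.2 ≠ 0 ∧ p.1 ≠ 0 ∧ p.1 ^ (q + 1) ≠ -f.q p.2 / f.q u)) fun p => ?_),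
      CL.FormCount.card_subtype_prod' fun (a : F) (w : W) =>
        f.q w ≠ 0 ∧ a ≠ 0 ∧ a ^ (q + 1) ≠ -f.q w / f.q u]
    · classical
      have : ∀ w : W, Nat.card {a : F // f.q w ≠ 0 ∧ a ≠ 0 ∧ a ^ (q + 1) ≠ -f.q w / f.q u} =
          if f.q w ≠ 0 then (q + 1) * (q - 2) else 0 := fun w => by
        split_ifs with h
        · simp only [h, ne_eq, not_false_eq_true, true_and]
          refine card_ne_zero_norm_ne (hF := hF) (div_ne_zero (neg_ne_zero.2 h) hu) ?_
          rw [← HT_σ hF, map_div₀, map_neg]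
          exact congrArg₂ (fun a b => -a / b) (σ_q (f := f) _) (σ_q (f := f) _)
        · simp [h]
      simp only [this]
      rw [← Finset.sum_filter, Finset.sum_const, smul_eq_mul, ← Fintype.card_subtype,
        ← Nat.card_eq_fintype_card]
      erw [card_q_ne_zero_two hW hd]
      zify [show 1 ≤ q ^ 2 by omega, hq2, show 1 ≤ q by omega]
      ring
    · have hq' : f.q (p.1 • u + p.2) ≠ 0 ↔ p.1 ^ (q + 1) ≠ -f.q p.2 / f.q u := by
        rw [q_smul_add (hp _), sig_apply, ← pow_succ, Ne, Ne, eq_div_iff hu, add_eq_zero_iff_eq_neg]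
      rw [splitEquiv_apply, ← hq']
      constructor
      · rintro ⟨h1, ha, hv⟩
        exact ⟨hv, (not_commute_iff h2 h3 hu (hp _) hv).2 ⟨ha, ne_zero_of_q h1⟩,
          (hcom _ _ hv ha (ne_zero_of_q h1)).2 h1⟩
      · rintro ⟨hv, hc, hy⟩
        obtain ⟨ha, hw⟩ := (not_commute_iff h2 h3 hu (hp _) hv).1 hc
        exact ⟨(hcom _ _ hv ha hw).1 hy, ha, hv⟩
  · refine Nat.eq_of_mul_eq_mul_right hpos ?_
    rw [card_invol (e := e) h2 hf h3 fun x => ¬ Commute (I e u) x ∧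
      ∀ y : ↥(Cfsg.SU 3 F q), y ≠ 1 → y * y = 1 → ¬ (Commute (I e u) y ∧ Commute y x),
      ← Nat.card_congr ((splitEquiv hu).subtypeEquiv
        (p := fun p => (p.1 ≠ 0 ∧ p.2 ≠ 0 ∧ (f.restrict W).q p.2 = 0)) fun p => ?_),
      Nat.card_congr (Equiv.subtypeProdEquivProd (p := fun a : F => a ≠ 0)
        (q := fun w : W => w ≠ 0 ∧ (f.restrict W).q w = 0)), Nat.card_prod, card_isotropic_two hW hd,
      ← Nat.card_congr unitsEquivNeZero, Nat.card_units, Nat.card_eq_fintype_card, hF]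
    · ring
    · rw [splitEquiv_apply, f.restrict_q, ← Subtype.coe_ne_coe (a := p.2), Submodule.coe_zero]
      constructor
      · rintro ⟨ha, hw, h0⟩
        have hv : f.q (p.1 • u + p.2) ≠ 0 := by
          rw [q_smul_add (hp _), h0, add_zero]
          exact mul_ne_zero (mul_ne_zero ((map_ne_zero _).2 ha) ha) hu
        exact ⟨hv, (not_commute_iff h2 h3 hu (hp _) hv).2 ⟨ha, hw⟩, fun y hy1 hy h =>
          (hcom _ _ hv ha hw).1 ⟨y, hy1, hy, h⟩ h0⟩
      · rintro ⟨hv, hc, hy⟩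
        obtain ⟨ha, hw⟩ := (not_commute_iff h2 h3 hu (hp _) hv).1 hc
        refine ⟨ha, hw, by_contra fun h0 => ?_⟩
        obtain ⟨y, hy1, hy2, h⟩ := (hcom _ _ hv ha hw).2 h0
        exact hy y hy1 hy2 h
  · obtain ⟨v, hv, rfl⟩ := exists_eq_I e h2 hf h3 hx1 hx
    obtain ⟨⟨a, w⟩, rfl⟩ := (splitEquiv hu).surjective v
    rw [splitEquiv_apply] at hv hx1 hx ⊢
    by_cases hc : Commute (I e u) (I e (a • u + w))
    · exact ⟨_, _, ht, ht2, ht, ht2, Commute.refl _, Commute.refl _, hc⟩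
    obtain ⟨ha, hw⟩ := (not_commute_iff h2 h3 hu (hp _) hv).1 hc
    by_cases h0 : f.q w ≠ 0
    · obtain ⟨y, hy1, hy, h1, h1'⟩ := (hcom _ _ hv ha hw).2 h0
      exact ⟨y, y, hy1, hy, hy1, hy, h1, Commute.refl _, h1'⟩
    push Not at h0
    have hqv : f.q (a • u + w) = sig hF a * a * f.q u := by rw [q_smul_add (hp _), h0, add_zero]
    obtain ⟨t, ht'⟩ := hW.exists_B_eq (x := w) (fun h => hw (by simp [h])) 1
    obtain ⟨b, hb⟩ := CL.SqField.exists_trace_eq hF (μ := -(f.q (a • u + w))⁻¹) (by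
      rw [← HT_σ hF, map_neg, map_inv₀]
      exact congrArg (fun a => -a⁻¹) (σ_q (f := f) _))
    obtain ⟨d, hd'⟩ := (f.restrict W).exists_q_add_smul_eq (p := w) (t := t) h0
      (by rw [Ne, Form.B_eq_zero_comm, ht']; exact one_ne_zero) b
    set y := t + d • w
    have hy : f.q y = -(f.q (a • u + w))⁻¹ := hd'.trans hb
    have hy0 : f.q y ≠ 0 := by simpa [hy] using hv
    have hwy : f.B w y = 1 := by
      change (f.restrict W).B w (t + d • w) = 1
      rw [Form.B_add_right, ht', Form.B_smul_right, (f.restrict W).B_self_eq_zero h0, mul_zero,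
        add_zero]
    have hyv : f.B y (a • u + w) = 1 := by
      rw [f.B_add_right, f.B_smul_right, f.B_eq_zero_symm (hp y), mul_zero, zero_add,
        f.herm_symm w y, hwy, map_one]
    have hz : f.B y (a • u + w - (f.q y)⁻¹ • (y : Fin 3 → F)) = 0 := by
      rw [f.B_sub_right, hyv, f.B_smul_right, ← f.herm_q, inv_mul_cancel₀ hy0, sub_self]
    have e1 : a • u + (w : Fin 3 → F) =
        (f.q y)⁻¹ • (y : Fin 3 → F) + (a • u + w - (f.q y)⁻¹ • (y : Fin 3 → F)) := by abel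
    have hz0 : f.q (a • u + w - (f.q y)⁻¹ • (y : Fin 3 → F)) ≠ 0 := fun h => by
      have := q_smul_add hz (f.q y)⁻¹
      rw [← e1, h, add_zero, map_inv₀, σ_q, inv_mul_cancel_right₀ hy0, hy, inv_neg, inv_inv,
        eq_neg_iff_add_eq_zero, ← two_mul] at this
      exact mul_ne_zero h2 hv this
    obtain ⟨z, hz1, hz2, c1, c2⟩ := (common_iff (e := e) h2 hf h3 hy0 hz (inv_ne_zero hy0)
      (ne_zero_of_q hz0) (e1 ▸ hv)).2 hz0
    rw [← e1] at c2
    exact ⟨I e y, z, I_ne_one h2 h3 hy0, I_mul_self h3 hy0, hz1, hz2,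
      (commute_I_iff h2 h3 hu hy0).2 (Or.inr (hp y)), c1, c2⟩

end Cfsg.Agent.S2356
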