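import Cfsg.Statements.S2358
import Mathlib
import Cfsg.Agent.CHEV.ReeConcrete
import Cfsg.Agent.CHEV.ReeTori

set_option autoImplicit false
open Cfsg

namespace Cfsg.Agent.S2358

/-- Let R be the small Ree group over the field with q = 3^(2m+1) ≥ 27 elements. If d divides one of (q−1)/2, (q+1)/4, q − 3^(m+1) + 1 or q + 3^(m+1) + 1, then any two cyclic subgroups of R of order d are conjugate in R. -/
theorem result {K : Type*} [Field K] [Fintype K] {m : ℕ} (hm : 1 ≤ m)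
    (hK : Fintype.card K = 3 ^ (2 * m + 1)) (d : ℕ)
    (hd : d ∣ (3 ^ (2 * m + 1) - 1) / 2 ∨ d ∣ (3 ^ (2 * m + 1) + 1) / 4 ∨ d ∣ 3 ^ (2 * m + 1) - 3 ^ (m + 1) + 1 ∨ d ∣ 3 ^ (2 * m + 1) + 3 ^ (m + 1) + 1)
    (A B : Subgroup ↥(Cfsg.Lie.twistedG2 K (3 ^ m))) (hA : IsCyclic A) (hB : IsCyclic B)
    (hAd : Nat.card A = d) (hBd : Nat.card B = d) :
    ∃ g : ↥(Cfsg.Lie.twistedG2 K (3 ^ m)), B = A.map (MulAut.conj g).toMonoidHom := by
  have := CL.Ree.charP_three hK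
  have hK' := Nat.card_eq_fintype_card.trans hK
  set M := CL.Ree.model hK'
  have := M.finite_G
  have hq := CL.Ree.three_lt_card hm hK'
  subst hAd
  rcases hd with h | h | h | h
  · exact (M.tor_A₁ hq).exists_eq_map hA hB (by rwa [M.card_A₁, hK']) hBd.symm
  · exact (M.tor_A₂ hq).exists_eq_map hA hB (by rwa [M.card_A₂, hK']) hBd.symm
  · obtain ⟨C, T, h1, -⟩ := M.exists_tor hm hK' (Or.inl rfl)
    exact T.exists_eq_map hA hB (h1 ▸ h) hBd.symm
  · obtain ⟨C, T, h1, -⟩ := M.exists_tor hm hK' (Or.inr rfl)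
    exact T.exists_eq_map hA hB (h1 ▸ h) hBd.symm

end Cfsg.Agent.S2358
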