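import Cfsg.Statements.S2359
import Mathlib
import Cfsg.Agent.CHEV.ReeConcrete
import Cfsg.Agent.CHEV.ReeQuart

set_option autoImplicit false
open Cfsg

namespace Cfsg.Agent.S2359

/-- Let R be the small Ree group over the field with q = 3^(2m+1) ≥ 27 elements. If H is a cyclic subgroup of R of order (q−1)/2, then the centralizer of H in R is cyclic of order q−1, and every non-trivial subgroup of H has the same centralizer as H. If H is a cyclic subgroup of order (q+1)/4, then the centralizer of H is abelian of order q+1 with no element of order 4 (so it is the direct product of H and a group of order 4 whose non-identity elements all have order 2), and every non-trivial subgroup of H has the same centralizer as H. -/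
theorem result {K : Type*} [Field K] [Fintype K] {m : ℕ} (hm : 1 ≤ m)
    (hK : Fintype.card K = 3 ^ (2 * m + 1)) (H : Subgroup ↥(Cfsg.Lie.twistedG2 K (3 ^ m))) (hH : IsCyclic H) :
    (Nat.card H = (3 ^ (2 * m + 1) - 1) / 2 →
      IsCyclic ↥(Subgroup.centralizer (H : Set ↥(Cfsg.Lie.twistedG2 K (3 ^ m)))) ∧
        Nat.card ↥(Subgroup.centralizer (H : Set ↥(Cfsg.Lie.twistedG2 K (3 ^ m)))) = 3 ^ (2 * m + 1) - 1 ∧
        ∀ A : Subgroup ↥(Cfsg.Lie.twistedG2 K (3 ^ m)), A ≤ H → A ≠ ⊥ →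
          Subgroup.centralizer (A : Set ↥(Cfsg.Lie.twistedG2 K (3 ^ m))) = Subgroup.centralizer (H : Set ↥(Cfsg.Lie.twistedG2 K (3 ^ m)))) ∧
    (Nat.card H = (3 ^ (2 * m + 1) + 1) / 4 →
      IsMulCommutative ↥(Subgroup.centralizer (H : Set ↥(Cfsg.Lie.twistedG2 K (3 ^ m)))) ∧
        Nat.card ↥(Subgroup.centralizer (H : Set ↥(Cfsg.Lie.twistedG2 K (3 ^ m)))) = 3 ^ (2 * m + 1) + 1 ∧
        (∀ x ∈ Subgroup.centralizer (H : Set ↥(Cfsg.Lie.twistedG2 K (3 ^ m))), orderOf x ≠ 4) ∧
        ∀ A : Subgroup ↥(Cfsg.Lie.twistedG2 K (3 ^ m)), A ≤ H → A ≠ ⊥ →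
          Subgroup.centralizer (A : Set ↥(Cfsg.Lie.twistedG2 K (3 ^ m))) = Subgroup.centralizer (H : Set ↥(Cfsg.Lie.twistedG2 K (3 ^ m)))) := by
  have := CL.Ree.charP_three hK
  have hK' := Nat.card_eq_fintype_card.trans hK
  set M := CL.Ree.model hK'
  have := M.finite_G
  have hq : 3 < Nat.card K := hK' ▸ Nat.pow_lt_pow_right (by norm_num : 1 < 3) (by omega : 1 < 2 * m + 1)
  rw [← hK', ← M.card_A₁, ← M.card_A₂]
  refine ⟨fun h => ?_, fun h => ?_⟩
  · obtain ⟨k, T⟩ := (M.tor_A₁ hq).exists_tor hH h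
    rw [T.centralizer_eq le_rfl T.ne]
    have := M.isCyclic_H
    exact ⟨isCyclic_of_surjective _ (M.H.equivMapOfInjective _ (MulAut.conj k).injective).surjective,
      (Subgroup.card_map_of_injective (MulAut.conj k).injective).trans M.card_H, fun A => T.centralizer_eq⟩
  · obtain ⟨k, T⟩ := (M.tor_A₂ hq).exists_tor hH h
    rw [T.centralizer_eq le_rfl T.ne]
    refine ⟨⟨⟨fun a b => Subtype.ext (T.comm _ a.2 _ b.2)⟩⟩,
      (Subgroup.card_map_of_injective (MulAut.conj k).injective).trans M.card_D, fun x _ hx => ?_,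
      fun A => T.centralizer_eq⟩
    have h1 := orderOf_dvd_of_pow_eq_one (n := 2) ((sq x).trans (M.sq_eq_one_of_pow_four (hx ▸ pow_orderOf_eq_one x)))
    rw [hx] at h1
    norm_num at h1

end Cfsg.Agent.S2359
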