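import Cfsg.Statements.S2410
import Mathlib
import Cfsg.Agent.CHEV.SzCount
import Cfsg.Agent.CHEV.SzAction

set_option autoImplicit false
open Cfsg

namespace Cfsg.Agent.S2410

open CL.Sz in
theorem U_le {F : Type*} [Field F] [CharP F 2] [Finite F] {θ : F →+* F} {G : Type*} [Group G]
    (M : Model θ G) {K : Subgroup G} (hH : M.H ≤ K) {x y : F} (hx : x ≠ 0) (hu : M.u x y ∈ K) :
    M.U ≤ K := by
  have hZ : ∀ b, M.u 0 b ∈ K := by
    intro b
    by_cases hb : b = 0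
    · rw [hb, M.u_zero]; exact K.one_mem
    obtain ⟨l, hl⟩ := M.exists_h_conj_u_zero (mul_ne_zero (Model.θ_ne_zero (θ := θ) hx) hx) hb
    rw [← hl, ← M.u_sq x y]
    exact K.mul_mem (K.mul_mem (hH (M.h_mem_H l)) (K.mul_mem hu hu)) (K.inv_mem (hH (M.h_mem_H l)))
  rintro _ ⟨a, b, rfl⟩
  by_cases ha : a = 0
  · rw [ha]; exact hZ b
  obtain ⟨l, hl⟩ := Model.exists_θ_eq (θ := θ) (div_ne_zero ha hx)
  have h1 := K.mul_mem (K.mul_mem (hH (M.h_mem_H l)) hu) (K.inv_mem (hH (M.h_mem_H l)))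
  rw [M.h_conj_u, hl, div_mul_cancel₀ _ hx] at h1
  have h2 := K.mul_mem (hZ (b + (l : F) ^ 2 * (a / x) * y)) h1
  rw [M.u_mul] at h2
  convert h2 using 2
  · simp
  · rw [map_zero, zero_mul, add_zero, add_assoc, CharTwo.add_self_eq_zero, add_zero]

/-- The Suzuki group over the field with `2^(2m+1)` elements, `m ≥ 1` (realised as the stabiliser in `SL₄` of the Suzuki–Tits ovoid), is generated by two of its elements. -/
theorem result {F : Type*} [Field F] [Fintype F] {m : ℕ} (hm : 1 ≤ m) (hF : Fintype.card F = 2 ^ (2 * m + 1)) :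
    ∃ a b : ↥(Cfsg.Sz F m), Subgroup.closure ({a, b} : Set ↥(Cfsg.Sz F m)) = ⊤ := by
  have := CL.Sz.charP_two hF
  set M := CL.Sz.ovModel hm hF
  obtain ⟨t, ht0, ht1⟩ := CL.Sz.exists_ne_zero_one hm hF
  obtain ⟨ζ, hζ⟩ := IsCyclic.exists_generator (α := Fˣ)
  refine ⟨M.h ζ, M.w * M.u 1 0, ?_⟩
  set K := Subgroup.closure ({M.h ζ, M.w * M.u 1 0} : Set ↥(Cfsg.Sz F m))
  have ha : M.h ζ ∈ K := Subgroup.subset_closure (by simp)
  have hb : M.w * M.u 1 0 ∈ K := Subgroup.subset_closure (by simp)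
  have hH : M.H ≤ K := by
    rintro _ ⟨l, rfl⟩
    obtain ⟨n, rfl⟩ := hζ l
    simp only [map_zpow]
    exact K.zpow_mem ha n
  set l := Units.mk0 t ht0
  have hl := hH (M.h_mem_H l)
  have h1 := K.mul_mem hl (K.mul_mem (K.mul_mem (K.inv_mem hb) hl) hb)
  have e : M.h l * ((M.w * M.u 1 0)⁻¹ * M.h l * (M.w * M.u 1 0)) =
      (M.h l * (M.u 1 0)⁻¹ * (M.h l)⁻¹) * M.u 1 0 := by
    rw [mul_inv_rev, M.w_inv, ← map_inv, ← M.w_h_w]; group
  rw [e, M.u_inv, M.h_conj_u, M.u_mul] at h1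
  refine M.eq_top_of_U_le (U_le M hH ?_ h1) fun h => ?_
  · intro h
    apply ht1
    apply CL.Sz.Model.θ_eq_one (θ := CL.Sz.theta F m)
    simp only [l, Units.val_mk0] at h
    grind
  · exact M.w_not_mem_B ((M.B.mul_mem_cancel_right (M.u_mem_B 1 0)).mp (h hb))

end Cfsg.Agent.S2410
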