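import Cfsg.Statements.S2426
import Cfsg.Agent.CHEV.RankOneQuad

set_option autoImplicit false
open Cfsg

namespace Cfsg.Agent.S2426

/-- The rank-one Steinberg presentation of `SL₂` over a finite field `K`: generators `x(t)`, `y(t)` (`t ∈ K`; the two opposite root subgroups) subject to additivity `x(t)x(u) = x(t+u)`, `y(t)y(u) = y(t+u)` and, with `w(t) = x(t) y(−t⁻¹) x(t)` and `w'(t) = y(t) x(−t⁻¹) y(t)` for `t ≠ 0`, the relations `w(t) x(u) w(t)⁻¹ = y(−t⁻² u)` and `w'(t) y(u) w'(t)⁻¹ = x(−t⁻² u)`, present `SL₂(K)`, with `x(t) ↦ (1 t; 0 1)` and `y(t) ↦ (1 0; t 1)`. -/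
theorem result {K : Type*} [Field K] [Finite K] :
    ∃ e : PresentedGroup
        ({g : FreeGroup (Bool × K) | ∃ (b : Bool) (t u : K), g = FreeGroup.of (b, t) * FreeGroup.of (b, u) * (FreeGroup.of (b, t + u))⁻¹} ∪
          {g | ∃ (b : Bool) (t u : K), t ≠ 0 ∧
            g = (FreeGroup.of (b, t) * FreeGroup.of (!b, -t⁻¹) * FreeGroup.of (b, t)) * FreeGroup.of (b, u) *
                  (FreeGroup.of (b, t) * FreeGroup.of (!b, -t⁻¹) * FreeGroup.of (b, t))⁻¹ * (FreeGroup.of (!b, -(t⁻¹ ^ 2 * u)))⁻¹})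
        ≃* Matrix.SpecialLinearGroup (Fin 2) K,
      (∀ t : K, ((e (PresentedGroup.of (true, t)) : Matrix (Fin 2) (Fin 2) K)) = !![1, t; 0, 1]) ∧
      (∀ t : K, ((e (PresentedGroup.of (false, t)) : Matrix (Fin 2) (Fin 2) K)) = !![1, 0; t, 1]) := by
  set rels : Set (FreeGroup (Bool × K)) := _ ∪ _ with hrels
  have hrel : ∀ g ∈ rels, PresentedGroup.mk rels g = 1 := fun g hg => PresentedGroup.one_of_mem hg
  have hadd : ∀ (b : Bool) (t u : K), (PresentedGroup.of (b, t + u) : PresentedGroup rels) =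
      PresentedGroup.of (b, t) * PresentedGroup.of (b, u) := fun b t u => by
    have := hrel _ (Or.inl ⟨b, t, u, rfl⟩)
    rw [map_mul, map_mul, map_inv, mul_inv_eq_one] at this
    exact this.symm
  have R : CL.SL2Hom.Rel (fun t : K => (PresentedGroup.of (true, t) : PresentedGroup rels))
      fun t => PresentedGroup.of (false, t) := by
    refine ⟨hadd true, hadd false, fun t ht u => ?_⟩
    have := hrel _ (Or.inr ⟨true, t, u, ht, rfl⟩)
    simp only [map_mul, map_inv, mul_inv_eq_one] at this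
    rw [neg_mul]
    exact this
  obtain ⟨φ, -, h1, h2, -⟩ := CL.SL2Hom.exists_hom_of_finite R
  have R' := CL.RankOne.rel_sl2 (k := K)
  let f : Bool × K → Matrix.SpecialLinearGroup (Fin 2) K := fun p =>
    if p.1 then CL.SL2Hom.upper p.2 else CL.SL2Hom.lower p.2
  have hf : ∀ g ∈ rels, FreeGroup.lift f g = 1 := by
    rintro _ (⟨b, t, u, rfl⟩ | ⟨b, t, u, ht, rfl⟩)
    · simp only [map_mul, map_inv, FreeGroup.lift_apply_of, mul_inv_eq_one]
      cases b
      · exact (R'.y_add t u).symm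
      · exact (R'.x_add t u).symm
    · simp only [map_mul, map_inv, FreeGroup.lift_apply_of, mul_inv_eq_one]
      cases b
      · have h3 := R'.n_eq (neg_ne_zero.2 (inv_ne_zero ht))
        have h4 := R'.n_y (neg_ne_zero.2 (inv_ne_zero ht)) u
        rw [inv_neg, inv_inv, neg_neg] at h3
        rw [h3, neg_sq, neg_mul] at h4
        exact mul_inv_eq_iff_eq_mul.2 h4
      · have := R'.conj t ht u
        rw [neg_mul] at this
        exact this
  let ψ : PresentedGroup rels →* Matrix.SpecialLinearGroup (Fin 2) K := PresentedGroup.toGroup hf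
  have h3 : ∀ p, ψ (PresentedGroup.of p) = f p := fun p => PresentedGroup.toGroup.of hf
  have h4 : φ.comp ψ = MonoidHom.id _ := PresentedGroup.ext fun ⟨b, t⟩ => by
    rw [MonoidHom.comp_apply, h3]
    cases b
    · exact h2 t
    · exact h1 t
  have hs : Function.Surjective ψ := by
    intro g
    by_cases hc : g 1 0 = 0
    · rw [CL.SL2Hom.bruhat_zero g hc (CL.SL2Hom.ne_zero_of_eq_zero g hc), CL.SL2Hom.nmat_eq, CL.SL2Hom.nmat_eq]
      change _ ∈ ψ.range
      simp only [CL.SL2Hom.nn]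
      repeat' first | exact ⟨_, h3 (true, _)⟩ | exact ⟨_, h3 (false, _)⟩ | refine mul_mem ?_ ?_
    · rw [CL.SL2Hom.bruhat_ne g hc, CL.SL2Hom.nmat_eq]
      change _ ∈ ψ.range
      simp only [CL.SL2Hom.nn]
      repeat' first | exact ⟨_, h3 (true, _)⟩ | exact ⟨_, h3 (false, _)⟩ | refine mul_mem ?_ ?_
  refine ⟨MulEquiv.ofBijective ψ ⟨Function.LeftInverse.injective (g := φ) (DFunLike.congr_fun h4), hs⟩,
    fun t => ?_, fun t => ?_⟩
  · exact congrArg Subtype.val (h3 (true, t))
  · exact congrArg Subtype.val (h3 (false, t))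

end Cfsg.Agent.S2426
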