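import Cfsg.Statements.S2444
import Cfsg.Agent.KSG.GLnPole

set_option autoImplicit false
open Cfsg

namespace Cfsg.Agent.S2444

open CL.GLn Polynomial Module

theorem of_isConj {G : Type*} [Group G] {g y : G} (h : IsConj y (g * y)) :
    ∃ a b : G, g = a * b * a⁻¹ * b⁻¹ := by
  obtain ⟨c, hc⟩ := isConj_iff.1 h
  exact ⟨c, y, by rw [hc, mul_inv_cancel_right]⟩

theorem simil_smul_cyc {F : Type*} [Field F] {m : ℕ} {c a : F} (ha0 : a ≠ 0) (ha : a ^ m = 1)
    (hm : m ≠ 0) : Simil (a • cyc (X ^ m - C c : F[X])) (cyc (X ^ m - C c)) := by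
  have hmon := monic_X_pow_sub_C c hm
  have := finiteDimensional_adjoinRoot hmon.ne_zero
  have h1 : a • cyc (X ^ m - C c : F[X]) = aeval (cyc (X ^ m - C c : F[X])) (C a * X) := by
    simp [Algebra.smul_def]
  have h2 : ∀ b : F, b ^ m = 1 → (X ^ m - C c : F[X]).comp (C b * X) = X ^ m - C c := fun b hb => by
    simp [mul_pow, ← C_pow, hb]
  have h3 : ∀ b : F, b ^ m = 1 → ∀ P, (X ^ m - C c : F[X]) ∣ P →
      (X ^ m - C c : F[X]) ∣ P.comp (C b * X) := by
    rintro b hb _ ⟨Q, rfl⟩
    rw [mul_comp, h2 b hb]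
    exact dvd_mul_right _ _
  refine simil_cyc_of_vector (a := 1) hmon (finrank_adjoinRoot _).symm fun P => ?_
  rw [h1, ← aeval_comp, aeval_cyc_apply, mul_one, AdjoinRoot.mk_eq_zero]
  refine ⟨fun h => ?_, h3 a ha P⟩
  have := h3 a⁻¹ (by rw [inv_pow, ha, inv_one]) _ h
  rwa [comp_assoc, mul_comp, C_comp, X_comp, ← mul_assoc, ← C_mul, mul_inv_cancel₀ ha0, C_1,
    one_mul, comp_X] at this

theorem result {F : Type*} [Field F] [Fintype F] (n : ℕ) (hn : 2 ≤ n) (hex : n = 2 → 4 ≤ Fintype.card F) :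
    ∀ g : Matrix.SpecialLinearGroup (Fin n) F, ∃ a b : Matrix.SpecialLinearGroup (Fin n) F, g = a * b * a⁻¹ * b⁻¹ := by
  intro g
  by_cases hg : ∃ c : F, (g : Matrix (Fin n) (Fin n) F) = algebraMap F _ c
  · obtain ⟨a, ha⟩ := hg
    have h1 : a ^ n = 1 := by
      have := g.det_coe
      rwa [ha, Algebra.algebraMap_eq_smul_one, Matrix.det_smul, Matrix.det_one, mul_one,
        Fintype.card_fin] at this
    have ha0 : a ≠ 0 := by
      rintro rfl
      rw [zero_pow (by omega)] at h1
      exact zero_ne_one h1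
    obtain ⟨k, hk⟩ := orderOf_dvd_of_pow_eq_one h1
    set m := orderOf a with hm
    have hm0 : m ≠ 0 := by
      intro h
      rw [h] at hk
      omega
    have hmF : (m : F) ≠ 0 := by
      obtain ⟨p, hp⟩ := CharP.exists F
      have := Fact.mk (CharP.char_is_prime F p)
      exact natCast_ne_zero_of_coprime p ((char_coprime_card_sub_one (F := F) p).coprime_dvd_right
        (orderOf_dvd_of_pow_eq_one (FiniteField.pow_card_sub_one_eq_one a ha0))).symm
    let f : F[X] := X ^ m - C (-(-1) ^ m)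
    have hf : f.Monic := monic_X_pow_sub_C _ hm0
    have := finiteDimensional_adjoinRoot hf.ne_zero
    have hfd : f.natDegree = m := natDegree_X_pow_sub_C
    let b : Basis (Fin n) F (Fin k → AdjoinRoot f) := finBasisOfFinrankEq F _ (by
      simp [finrank_pi_fintype, finrank_adjoinRoot, hfd, hk, mul_comm])
    have h2 := (simil_toMatrix b (model fun _ : Fin k => f)).symm
    set Y := LinearMap.toMatrix b b (model fun _ : Fin k => f)
    have h3 : Y.det = 1 := by
      rw [← LinearMap.det_toLin', h2.det, model, det_piMap]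
      refine Finset.prod_eq_one fun _ _ => ((Simil.refl _).det_of_cyc hf).trans ?_
      rw [hfd, coeff_zero_eq_eval_zero]
      simp [f, hm0, ← mul_pow]
    have h4 : Module.End.IsSemisimple (Matrix.toLin' Y) := by
      refine Module.End.isSemisimple_of_squarefree_aeval_eq_zero
        (separable_X_pow_sub_C (-(-1) ^ m) hmF (by simp)).squarefree ?_
      rw [h2.aeval_eq_zero_iff, model, aeval_piMap]
      refine LinearMap.ext fun v => funext fun i => ?_
      exact LinearMap.congr_fun (Simil.refl (cyc f)).aeval_cyc_self (v i)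
    have h5 : Simil (Matrix.toLin' Y) (Matrix.toLin' ((g : Matrix (Fin n) (Fin n) F) * Y)) := by
      have h5 : Simil (a • model fun _ : Fin k => f) (model fun _ : Fin k => f) :=
        Simil.pi (A := fun _ : Fin k => a • cyc f) fun _ =>
          simil_smul_cyc ha0 (pow_orderOf_eq_one a) hm0
      refine (h2.trans h5.symm).trans ?_
      obtain ⟨e, he⟩ := h2.symm
      refine ⟨e, fun v => ?_⟩
      rw [ha, ← Algebra.smul_def, map_smul, LinearMap.smul_apply, LinearMap.smul_apply, map_smul, he]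
    let y : Matrix.SpecialLinearGroup (Fin n) F := ⟨Y, h3⟩
    have : Nonempty (Fin n) := ⟨⟨0, by omega⟩⟩
    exact of_isConj (y := y) (isConj_sl_of_isConj ((isConj_iff_simil _ _).2 h5)
      (exists_gl_commute_det_of_isSemisimple h4))
  · obtain ⟨h, δ, hm, hd, h0, hδ⟩ : ∃ (h : F[X]) (δ : F), h.Monic ∧ h.natDegree + 1 = n ∧
        (-1) ^ h.natDegree * h.coeff 0 * δ = 1 ∧ h.eval δ ≠ 0 := by
      rcases eq_or_ne n 2 with rfl | hn2
      · obtain ⟨a, ha⟩ := exists_orderOf_eq_of_dvd (K := F) dvd_rfl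
        refine ⟨X - C (a : F), (a : F)⁻¹, monic_X_sub_C _, by simp, by simp, fun h => ?_⟩
        have h1 : a ^ 2 = 1 := Units.ext (by
          rw [eval_sub, eval_X, eval_C, sub_eq_zero, inv_eq_iff_eq_inv,
            ← mul_eq_one_iff_eq_inv₀ a.ne_zero] at h
          simpa [sq] using h)
        have := Nat.le_of_dvd two_pos (orderOf_dvd_of_pow_eq_one h1)
        rw [ha, Nat.card_eq_fintype_card] at this
        have := hex rfl
        omega
      · obtain ⟨m, rfl⟩ : ∃ m, n = m + 3 := ⟨n - 3, by omega⟩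
        have h1 : (X ^ (m + 2) + (C (-(-1) ^ m) * X + C ((-1) ^ m)) : F[X]).natDegree = m + 2 := by
          rw [natDegree_add_eq_left_of_degree_lt, natDegree_X_pow]
          rw [degree_X_pow]
          exact degree_linear_le.trans_lt (by exact_mod_cast by omega)
        refine ⟨X ^ (m + 2) + (C (-(-1) ^ m) * X + C ((-1) ^ m)), 1,
          monic_X_pow_add (degree_linear_le.trans_lt (by exact_mod_cast by omega)), by rw [h1], ?_,
          by simp⟩
        rw [h1, coeff_zero_eq_eval_zero]
        simp [pow_add, ← mul_pow]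
    have hf := hm.mul (monic_X_sub_C δ)
    have hfd : (h * (X - C δ)).natDegree = h.natDegree + 1 := by
      rw [hm.natDegree_mul (monic_X_sub_C δ), natDegree_X_sub_C]
    have h1 : (-1) ^ (h * (X - C δ)).natDegree * (h * (X - C δ)).coeff 0 = 1 := by
      rw [hfd, mul_coeff_zero, pow_succ, coeff_sub, coeff_X_zero, coeff_C_zero]
      linear_combination h0
    obtain ⟨Y, h2, h3⟩ := exists_matrix_mul_simil_cyc (sl_det_ne_zero g) (not_exists.1 hg) hm
      (by simpa using hd) (by rintro h; simp [h] at h0) hf (by simpa [hfd] using hd) hδ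
      (by rw [g.det_coe, h1, h0, one_mul])
    let y : Matrix.SpecialLinearGroup (Fin n) F := ⟨Y, by
      rw [← LinearMap.det_toLin', h2.det_of_cyc hf, h1]⟩
    exact of_isConj (y := y) (isConj_sl_of_isConj ((isConj_iff_simil _ _).2 (h2.trans h3.symm))
      fun c hc => exists_gl_commute_det (h2.exists_commute_det_of_cyc_mul hm hδ hc))

end Cfsg.Agent.S2444
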