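import Cfsg.Statements.S2446
import Cfsg.Agent.KSG.OreU5

set_option autoImplicit false
open Cfsg

namespace Cfsg.Agent.S2446

/-- In the special unitary group SU(n,q), n ≥ 3, realised over the field F with q² elements as the determinant-one isometries of the standard Hermitian form, and with (n,q) ≠ (3,2), every element is a commutator a·b·a⁻¹·b⁻¹ of two elements of SU(n,q). -/
theorem result {F : Type*} [Field F] [Fintype F] (n q : ℕ) (hn : 3 ≤ n) (hF : Fintype.card F = q ^ 2) (hex : ¬ (n = 3 ∧ q = 2)) :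
    ∀ g : Cfsg.SU n F q, ∃ a b : Cfsg.SU n F q, g = a * b * a⁻¹ * b⁻¹ := by
  intro g
  obtain ⟨n, rfl⟩ : ∃ k, n = k + 1 := ⟨n - 1, by omega⟩
  by_cases h : ∃ c : F, ∀ v, (CL.Uni.suEquiv hF _ g).1 v = c • v
  · obtain ⟨c, h⟩ := h
    refine CL.Ore.su_scalar hF g (ζ := c) (Matrix.toLin'.injective (LinearMap.ext fun v => ?_))
    exact (h v).trans (by simp)
  have h2 : 2 ≤ q := by
    by_contra hc
    have := Fintype.one_lt_card (α := F)
    have : q ^ 2 ≤ 1 ^ 2 := Nat.pow_le_pow_left (by omega) 2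
    omega
  obtain ⟨a, ha, b, hb, e⟩ := CL.Ore.su_comm (CL.Uni.sig_ne_id hF) (CL.Uni.std_nondeg hF _)
    (by simpa using hn) (by
      rw [Nat.card_eq_fintype_card, hF]
      rcases h2.eq_or_lt with rfl | h3
      · exact Or.inr ⟨rfl, fun _ => rfl, by simp; omega⟩
      · exact Or.inl (by nlinarith)) (CL.Uni.suEquiv hF _ g).2 h
  refine ⟨(CL.Uni.suEquiv hF _).symm ⟨a, ha⟩, (CL.Uni.suEquiv hF _).symm ⟨b, hb⟩,
    (CL.Uni.suEquiv hF _).injective (Subtype.ext ?_)⟩
  simpa using e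

end Cfsg.Agent.S2446
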