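import Cfsg.Statements.S2450
import Cfsg.Agent.KSG.SL2Prod

set_option autoImplicit false
open Cfsg CL.GL2 CL.Char

namespace Cfsg.Agent.S2450

/-- The Arad–Herzog conjecture for PSL(2,q): let F be a finite field with q ≥ 4 elements. For any two non-identity elements a, b of PSL(2,F), the set of products of a conjugate of a with a conjugate of b is not a single conjugacy class. -/
theorem result {F : Type*} [Field F] [Fintype F] (h4 : 4 ≤ Fintype.card F)
    (a b : Matrix.ProjectiveSpecialLinearGroup (Fin 2) F) (ha : a ≠ 1) (hb : b ≠ 1) (c : Matrix.ProjectiveSpecialLinearGroup (Fin 2) F) :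
    {g : Matrix.ProjectiveSpecialLinearGroup (Fin 2) F | ∃ u v : Matrix.ProjectiveSpecialLinearGroup (Fin 2) F, g = (u * a * u⁻¹) * (v * b * v⁻¹)} ≠ {g | IsConj c g} := by
  classical
  intro hc
  obtain ⟨a, rfl⟩ := pslMk_surjective a
  obtain ⟨b, rfl⟩ := pslMk_surjective b
  obtain ⟨c, rfl⟩ := pslMk_surjective c
  obtain ⟨u, hu⟩ := exists_conj_lower_ne_zero (mt pslMk_eq_one_iff.2 ha)
  obtain ⟨v, hv⟩ := exists_conj_lower_ne_zero (mt pslMk_eq_one_iff.2 hb)
  have key : ∀ w, IsConj (pslMk F c) (pslMk F (u * a * u⁻¹ * (w * (v * b * v⁻¹) * w⁻¹))) := fun w => by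
    have := Set.ext_iff.1 hc (pslMk F (u * a * u⁻¹ * (w * (v * b * v⁻¹) * w⁻¹)))
    refine this.1 ⟨pslMk F u, pslMk F (w * v), ?_⟩
    simp only [map_mul, map_inv, mul_inv_rev, mul_assoc]
  obtain ⟨s, h1, h2⟩ := exists_quadratic_ne h4 (neg_ne_zero.2 (mul_ne_zero hu hv)) _ _
  have := trace_of_isConj_pslMk ((key 1).symm.trans (key (upSL 1 s)))
  rw [trace_mul_conj_upSL, one_mul, inv_one, mul_one] at this
  exact this.elim h1 h2

end Cfsg.Agent.S2450
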