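import Cfsg.Statements.S2455
import Cfsg.Agent.KSG.SL2Prod

set_option autoImplicit false
open Cfsg CL.GL2 CL.Char

namespace Cfsg.Agent.S2455

/-- A strong covering result in the direction of Thompson's conjecture (non-identity elements) for PSL(2,q), q odd: let F be a finite field of odd characteristic p with at least 5 elements and let x ∈ PSL(2,F) have order greater than 2 and not divisible by p (so x is not unipotent). Then every non-identity element of PSL(2,F) is a product of two conjugates of x. -/
theorem result {F : Type*} [Field F] [Fintype F] (p : ℕ) [Fact p.Prime] [CharP F p] (hp : p ≠ 2) (h5 : 5 ≤ Fintype.card F)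
    (x : Matrix.ProjectiveSpecialLinearGroup (Fin 2) F) (hx2 : 2 < orderOf x) (hxp : ¬ p ∣ orderOf x) : ∀ g : Matrix.ProjectiveSpecialLinearGroup (Fin 2) F, g ≠ 1 → ∃ u v : Matrix.ProjectiveSpecialLinearGroup (Fin 2) F, g = (u * x * u⁻¹) * (v * x * v⁻¹) := by
  classical
  intro g hg
  obtain ⟨x, rfl⟩ := pslMk_surjective x
  obtain ⟨g, rfl⟩ := pslMk_surjective g
  have h2 := two_ne_zero_of_char_ne (F := F) p hp
  have hs := mt pslMk_eq_one_iff.2 hg
  have hr : Reg x := by
    by_contra hr
    rcases (Nat.dvd_prime Fact.out).1 (orderOf_pslMk_dvd_char p hr) with h | h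
    · omega
    · exact hxp h.symm.dvd
  have ht : (x : Matrix (Fin 2) (Fin 2) F).trace ≠ 0 := fun h => by
    have := (orderOf_pslMk_eq_two_iff h2).2 h
    omega
  by_cases hg : Reg g
  · obtain ⟨α, β, h⟩ := exists_conic_point h2 hg (x : Matrix (Fin 2) (Fin 2) F).trace
      (x : Matrix (Fin 2) (Fin 2) F).trace
    exact exists_conj_mul_conj hr hs (Or.inl rfl) h
  · have : ((g : Matrix (Fin 2) (Fin 2) F).trace - 2) * ((g : Matrix (Fin 2) (Fin 2) F).trace + 2) = 0 := by
      linear_combination not_not.1 hg
    rcases mul_eq_zero.1 this with h | h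
    · exact exists_conj_mul_conj hr hs (α := 1 / (2 * (x : Matrix (Fin 2) (Fin 2) F).trace))
        (β := 1 / (2 * (x : Matrix (Fin 2) (Fin 2) F).trace)) (Or.inr rfl) (by
          rw [sub_eq_zero.1 h]; field_simp; ring)
    · exact exists_conj_mul_conj hr hs (α := 1 / (2 * (x : Matrix (Fin 2) (Fin 2) F).trace))
        (β := -1 / (2 * (x : Matrix (Fin 2) (Fin 2) F).trace)) (Or.inl rfl) (by
          rw [eq_neg_of_add_eq_zero_left h]; field_simp; ring)

end Cfsg.Agent.S2455
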