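import Cfsg.Statements.S2456
import Cfsg.Agent.KSG.SL2Prod

set_option autoImplicit false
open Cfsg CL.GL2 CL.Char

namespace Cfsg.Agent.S2456

/-- A strong covering result in the direction of Thompson's conjecture (non-identity elements) for PSL(2,q), q even: let F be a finite field of characteristic 2 with q ≥ 4 elements and let x ∈ PSL(2,F) have order greater than 2 and not dividing q + 1. Then every non-identity element of PSL(2,F) is a product of two conjugates of x. -/
theorem result {F : Type*} [Field F] [Fintype F] [CharP F 2] (h4 : 4 ≤ Fintype.card F)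
    (x : Matrix.ProjectiveSpecialLinearGroup (Fin 2) F) (hx2 : 2 < orderOf x) (hxq : ¬ orderOf x ∣ Fintype.card F + 1) : ∀ g : Matrix.ProjectiveSpecialLinearGroup (Fin 2) F, g ≠ 1 → ∃ u v : Matrix.ProjectiveSpecialLinearGroup (Fin 2) F, g = (u * x * u⁻¹) * (v * x * v⁻¹) := by
  classical
  intro g hg
  obtain ⟨x, rfl⟩ := pslMk_surjective x
  obtain ⟨g, rfl⟩ := pslMk_surjective g
  have hr : Reg x := by
    by_contra hr
    have := Nat.le_of_dvd two_pos (orderOf_pslMk_dvd_char 2 hr)
    omega
  have hn : ¬ NoEig (x : Matrix (Fin 2) (Fin 2) F) := fun hn => hxq (by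
    rw [← card_centSL_noEig hn]
    exact (Dvd.intro_left _ rfl).trans (Reg.gcd_mul_orderOf_dvd (self_mem_centSL x)))
  rw [noEig_iff] at hn
  push Not at hn
  obtain ⟨a, ha⟩ := hn
  rw [cp_def, x.2] at ha
  exact exists_conj_mul_conj hr (mt pslMk_eq_one_iff.2 hg) (α := a) (β := 0) (Or.inl rfl)
    (by linear_combination ha)

end Cfsg.Agent.S2456
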