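import Cfsg.Statements.S2459
import Cfsg.Agent.KSG.GLnPole

set_option autoImplicit false
open Cfsg

namespace Cfsg.Agent.S2459

open CL.GLn Polynomial Module

theorem result {F : Type*} [Field F] [Fintype F] (p : ℕ) [Fact p.Prime] [CharP F p] (h3 : 3 ≤ Fintype.card F) :
    ∃ x : Matrix.ProjectiveSpecialLinearGroup (Fin 3) F, ¬ p ∣ orderOf x ∧ ∀ g : Matrix.ProjectiveSpecialLinearGroup (Fin 3) F, g ≠ 1 → ∃ u v : Matrix.ProjectiveSpecialLinearGroup (Fin 3) F, g = (u * x * u⁻¹) * (v * x * v⁻¹) := by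
  classical
  obtain ⟨s, -, hs⟩ := Finset.exists_mem_notMem_of_card_lt_card (s := ({2, -2} : Finset F))
    (t := Finset.univ) (Finset.card_le_two.trans_lt h3)
  simp only [Finset.mem_insert, Finset.mem_singleton, not_or] at hs
  let h : F[X] := X ^ 2 - C s * X + 1
  have hm : h.Monic := by simp only [h]; monicity!
  have hd : h.natDegree = 2 := by simp only [h]; compute_degree!
  have h0 : h.coeff 0 = 1 := by simp [h]
  have h1 : h.eval 1 ≠ 0 := fun h' => hs.1 (by
    simp only [h, eval_add, eval_sub, eval_pow, eval_X, eval_mul, eval_C, eval_one] at h'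
    linear_combination -h')
  have hf := hm.mul (monic_X_sub_C 1)
  have hfd : (h * (X - C 1)).natDegree = 3 := by
    rw [hm.natDegree_mul (monic_X_sub_C 1), natDegree_X_sub_C, hd]
  have hsq : Squarefree (h * (X - C 1)) := by
    refine (Separable.mul ?_ separable_X_sub_C ((irreducible_X_sub_C 1).coprime_iff_not_dvd.2
      (by rwa [dvd_iff_isRoot])).symm).squarefree
    have h2 : (4 - s ^ 2) ≠ 0 := fun h => by
      rcases mul_eq_zero.1 (show (s - 2) * (s + 2) = 0 by linear_combination -h) with h | h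
      · exact hs.1 (sub_eq_zero.1 h)
      · exact hs.2 (eq_neg_of_add_eq_zero_left h)
    have h3 : (C (4 - s ^ 2)⁻¹ * C (4 - s ^ 2) : F[X]) = 1 := by
      rw [← C_mul, inv_mul_cancel₀ h2, C_1]
    refine ⟨C (4 - s ^ 2)⁻¹ * 4, -C (4 - s ^ 2)⁻¹ * (2 * X - C s), ?_⟩
    rw [← h3]
    simp only [h, derivative_add, derivative_X_pow, derivative_mul, derivative_C,
      derivative_X, derivative_one, map_sub, map_pow, map_ofNat, Nat.cast_ofNat]
    ring
  let x : Matrix.SpecialLinearGroup (Fin 3) F := ⟨!![0, -1, 0; 1, s, 0; 0, 0, 1], by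
    simp [Matrix.det_fin_three]⟩
  let w : Matrix.SpecialLinearGroup (Fin 3) F := ⟨!![0, 1, 0; 1, 0, 0; 0, 0, -1], by
    simp [Matrix.det_fin_three]⟩
  have hw : x⁻¹ = w * x * w⁻¹ := by
    rw [eq_mul_inv_iff_mul_eq, inv_mul_eq_iff_eq_mul]
    refine Subtype.ext ?_
    change !![0, 1, 0; 1, 0, 0; 0, 0, -1] = !![0, -1, 0; 1, s, 0; 0, 0, 1] *
      (!![0, 1, 0; 1, 0, 0; 0, 0, -1] * !![0, -1, 0; 1, s, 0; 0, 0, 1])
    simp
  have hx : (x : Matrix (Fin 3) (Fin 3) F).charpoly = h * (X - C 1) := by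
    change Matrix.charpoly !![0, -1, 0; 1, s, 0; 0, 0, 1] = _
    simp [Matrix.charpoly, Matrix.det_fin_three, h]
    ring
  have hxs : Module.End.IsSemisimple (Matrix.toLin' (x : Matrix (Fin 3) (Fin 3) F)) := by
    refine Module.End.isSemisimple_of_squarefree_aeval_eq_zero hsq ?_
    rw [← hx, ← Matrix.charpoly_toLin', LinearMap.aeval_self_charpoly]
  have := finiteDimensional_adjoinRoot hf.ne_zero
  have hx' : Simil (Matrix.toLin' (x : Matrix (Fin 3) (Fin 3) F)) (cyc (h * (X - C 1))) :=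
    simil_of_isSemisimple_of_charpoly_eq hxs
      (Module.End.isSemisimple_of_squarefree_aeval_eq_zero hsq (Simil.refl _).aeval_cyc_self)
      (by rw [Matrix.charpoly_toLin', hx, charpoly_cyc hf])
  refine ⟨QuotientGroup.mk x, fun hp => ?_, fun g hg => ?_⟩
  · refine (Fact.out : p.Prime).coprime_iff_not_dvd.1 (coprime_orderOf_of_isSemisimple p
      ((Units.coeHom (Matrix (Fin 3) (Fin 3) F)).comp Matrix.SpecialLinearGroup.toGL)
      (fun a b h => Subtype.ext h) (isOfFinOrder_of_finite x) hxs).symm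
      (hp.trans (orderOf_map_dvd (QuotientGroup.mk' _) x))
  · induction g using QuotientGroup.induction_on with
    | H g =>
    rw [Ne, QuotientGroup.eq_one_iff, mem_center_sl_iff] at hg
    have h2 : (-1) ^ (h * (X - C 1)).natDegree * (h * (X - C 1)).coeff 0 = 1 := by
      rw [hfd, mul_coeff_zero, h0]
      norm_num
    obtain ⟨Y, h4, h5⟩ := exists_matrix_mul_simil_cyc (sl_det_ne_zero g) (not_exists.1 hg) hm
      (by simp [hd]) (by simp [h0]) hf (by rw [hfd, Fintype.card_fin]) h1 (by rw [g.det_coe, h2, hd, h0]; norm_num)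
    let y : Matrix.SpecialLinearGroup (Fin 3) F := ⟨Y, by
      rw [← LinearMap.det_toLin', h4.det_of_cyc hf, h2]⟩
    obtain ⟨u, hu⟩ := isConj_iff.1 (isConj_sl_of_isConj (a := x) (b := g * y)
      ((isConj_iff_simil _ _).2 (hx'.trans h5.symm)) (exists_gl_commute_det_of_isSemisimple hxs))
    obtain ⟨v, hv⟩ := isConj_iff.1 (isConj_sl_of_isConj (a := x) (b := y)
      ((isConj_iff_simil _ _).2 (hx'.trans h4.symm)) (exists_gl_commute_det_of_isSemisimple hxs))
    have h6 : g = (u * x * u⁻¹) * ((v * w) * x * (v * w)⁻¹) := by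
      have h6 : (v * w) * x * (v * w)⁻¹ = (v * x * v⁻¹)⁻¹ := by
        simp only [mul_inv_rev, inv_inv, hw, mul_assoc]
      rw [hu, h6, hv, mul_inv_cancel_right]
    exact ⟨u, QuotientGroup.mk (v * w), congrArg QuotientGroup.mk h6⟩

end Cfsg.Agent.S2459
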