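import Cfsg.Statements.S2460
import Cfsg.Agent.KSG.ThSp4

set_option autoImplicit false
open Cfsg

namespace Cfsg.Agent.S2460

open CL.Thomp

/-- A form of Thompson's conjecture for the simple groups PSp(4,q), q ≥ 3 (covering the non-identity elements), with a semisimple class: for F a finite field of characteristic p with at least 3 elements there is an element x of PSp(4,F) of order prime to p such that every non-identity element of PSp(4,F) is a product of two conjugates of x. -/
theorem result {F : Type*} [Field F] [Fintype F] (p : ℕ) [Fact p.Prime] [CharP F p] (h3 : 3 ≤ Fintype.card F) :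
    ∃ x : Cfsg.PSp 2 F, ¬ p ∣ orderOf x ∧ ∀ g : Cfsg.PSp 2 F, g ≠ 1 → ∃ u v : Cfsg.PSp 2 F, g = (u * x * u⁻¹) * (v * x * v⁻¹) := by
  obtain ⟨t, d, ht, h1, hd⟩ := exists_irr h3
  let π := QuotientGroup.mk' (Subgroup.center (Matrix.symplecticGroup (Fin 2) F))
  refine ⟨π (lev (comp hd)), fun h => not_dvd_comp hd p
    (h.trans (orderOf_map_dvd (π.comp lev) (comp hd))), fun g _ => ?_⟩
  obtain ⟨g, rfl⟩ := QuotientGroup.mk'_surjective _ g
  obtain ⟨a, b, ha, hb, h⟩ := exists_mul hd h1 ht g
  obtain ⟨u, rfl⟩ := isConj_iff.mp ha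
  obtain ⟨v, rfl⟩ := isConj_iff.mp hb
  refine ⟨π u, π v, ?_⟩
  simp only [← map_inv, ← map_mul]
  rcases h with h | h
  · rw [h]
  · refine QuotientGroup.eq.mpr (CL.SpCenter.mem_center_iff.mpr (Or.inr ?_))
    rw [Submonoid.coe_mul, neg_eq_iff_eq_neg.mpr h |>.symm, Matrix.mul_neg, ← Submonoid.coe_mul,
      inv_mul_cancel, Submonoid.coe_one]

end Cfsg.Agent.S2460
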