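import Cfsg.Statements.S2463
import Cfsg.Agent.CHEV.GaussF4
import Cfsg.Agent.CHEV.TitsCls

set_option autoImplicit false
open Cfsg

namespace Cfsg.Agent.S2463

/-- A form of Thompson's conjecture for the simple groups of type ²F₄ (covering the non-identity elements) with a semisimple class: if M is a large Ree group ²F₄(2^(2m+1)) with m ≥ 1, or the Tits group, then there is an element x of M of odd order such that every non-identity element of M is a product of two conjugates of x. -/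
theorem result {M : Type*} [Group M] [Finite M] (hM : Cfsg.Lie.Iso2F4 M ∨ Cfsg.Lie.IsoTits M) :
    ∃ x : M, Odd (orderOf x) ∧ ∀ g : M, g ≠ 1 → ∃ u v : M, g = (u * x * u⁻¹) * (v * x * v⁻¹) := by
  have key : ∀ {L : Type} [Group L] {N : Subgroup L}, (M ≃* N) → (∃ x : N, Odd (orderOf x) ∧ ∀ g : N, g ≠ 1 →
      ∃ u v : N, g = (u * x * u⁻¹) * (v * x * v⁻¹)) →
      ∃ x : M, Odd (orderOf x) ∧ ∀ g : M, g ≠ 1 → ∃ u v : M, g = (u * x * u⁻¹) * (v * x * v⁻¹) := by
    rintro L _ N e ⟨x, h1, h2⟩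
    refine ⟨e.symm x, by rwa [MulEquiv.orderOf_eq], fun g hg => ?_⟩
    obtain ⟨u, v, h⟩ := h2 (e g) (by simpa using hg)
    exact ⟨e.symm u, e.symm v, e.injective (by simpa using h)⟩
  obtain ⟨K, _, _, m, hm, hK, ⟨e⟩⟩ | h := hM
  · exact key e (CL.Chev.sq_F4 hm hK)
  · unfold Lie.IsoTits at h
    obtain ⟨e⟩ := h
    obtain ⟨x, h1, h2⟩ := CL.Chev.TCl.sq_tits
    exact key e ⟨x, h1, fun g _ => h2 g⟩

end Cfsg.Agent.S2463
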