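import Cfsg.Statements.S2467
import Cfsg.Agent.KSG.AltOrder

set_option autoImplicit false
open Cfsg

namespace Cfsg.Agent.S2467

theorem counts (r : ℕ) (m : Multiset ℕ) (h : ∀ a ∈ m, a = 2 ∨ a = r ∨ a = 2 * r) :
    ∃ x y z : ℕ, m.sum = 2 * x + r * y + 2 * r * z ∧ m.card = x + y + z ∧
      (x + z = 0 → ∀ a ∈ m, a = r) ∧ (y + z = 0 → ∀ a ∈ m, a = 2) := by
  induction m using Multiset.induction_on with
  | empty => exact ⟨0, 0, 0, by simp, by simp, by simp, by simp⟩
  | cons a s ih =>
    obtain ⟨x, y, z, h1, h2, h3, h4⟩ := ih (fun b hb => h b (Multiset.mem_cons_of_mem hb))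
    rcases h a (Multiset.mem_cons_self _ _) with ha | ha | ha
    · refine ⟨x + 1, y, z, by rw [Multiset.sum_cons, h1, ha]; ring,
        by rw [Multiset.card_cons, h2]; ring, by omega, ?_⟩
      intro hz b hb
      rcases Multiset.mem_cons.1 hb with rfl | hb
      · exact ha
      · exact h4 hz b hb
    · refine ⟨x, y + 1, z, by rw [Multiset.sum_cons, h1, ha]; ring,
        by rw [Multiset.card_cons, h2]; ring, ?_, by omega⟩
      intro hz b hb
      rcases Multiset.mem_cons.1 hb with rfl | hb
      · exact ha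
      · exact h3 hz b hb
    · exact ⟨x, y, z + 1, by rw [Multiset.sum_cons, h1, ha]; ring,
        by rw [Multiset.card_cons, h2]; ring, by omega, by omega⟩

/-- Adjacency of 2 and an odd prime in the prime graph of the alternating groups: let r be an odd prime at most n, with n ≥ 4. The alternating group of degree n has an element of order 2r if and only if r + 4 ≤ n. -/
theorem result (n r : ℕ) (hn : 4 ≤ n) (hr : r.Prime) (hr2 : r ≠ 2) (hrn : r ≤ n) :
    (2 * r ∈ Set.range (orderOf : alternatingGroup (Fin n) → ℕ)) ↔ r + 4 ≤ n := by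
  rw [CL.KSG.mem_range_orderOf_alt_iff]
  have hco : Nat.Coprime 2 r := (Nat.coprime_primes Nat.prime_two hr).2 (Ne.symm hr2)
  have hr3 : 3 ≤ r := by have := hr.two_le; omega
  obtain ⟨w, hw⟩ := hr.odd_of_ne_two hr2
  constructor
  · rintro ⟨m, h1, h2, h3, h4⟩
    obtain ⟨a, ha, har⟩ :=
      CL.KSG.exists_mem_of_prime_dvd_lcm Nat.prime_two m (h4 ▸ Dvd.intro _ rfl)
    obtain ⟨b, hb, hbs⟩ := CL.KSG.exists_mem_of_prime_dvd_lcm hr m (h4 ▸ Dvd.intro_left _ rfl)
    have hall : ∀ c ∈ m, c = 2 ∨ c = r ∨ c = 2 * r := by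
      intro c hc
      have hd : c ∣ 2 * r := h4 ▸ Multiset.dvd_lcm hc
      have hc2 := h2 c hc
      obtain ⟨u, v, hu, hv, rfl⟩ := (Nat.dvd_mul).1 hd
      rcases (Nat.dvd_prime Nat.prime_two).1 hu with rfl | rfl <;>
        rcases (Nat.dvd_prime hr).1 hv with rfl | rfl <;> omega
    obtain ⟨x, y, z, e1, e2, e3, e4⟩ := counts r m hall
    have hxz : x + z ≠ 0 := by
      intro h
      have := e3 h a ha
      omega
    have hyz : y + z ≠ 0 := by
      intro h
      have := e4 h b hb
      subst this
      have := Nat.le_of_dvd two_pos hbs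
      omega
    have hev : Even (x + z) := by
      rw [e1, e2, hw] at h3
      have : 2 * x + (2 * w + 1) * y + 2 * (2 * w + 1) * z + (x + y + z) =
          2 * (x + (w + 1) * y + (2 * w + 1) * z) + (x + z) := by ring
      rw [this] at h3
      exact (Nat.even_add.1 h3).1 (even_two_mul _)
    obtain ⟨t, ht⟩ := hev
    rcases Nat.eq_zero_or_pos z with hz | hz
    · subst hz
      have : r * 1 ≤ r * y := Nat.mul_le_mul_left r (by omega)
      omega
    · rcases Nat.eq_zero_or_pos x with hx | hx
      · have : 2 * r * 2 ≤ 2 * r * z := Nat.mul_le_mul_left _ (by omega)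
        omega
      · have : 2 * r * 1 ≤ 2 * r * z := Nat.mul_le_mul_left _ (by omega)
        omega
  · intro h
    refine ⟨{r, 2, 2}, by simpa [add_assoc] using h, ?_, ?_, ?_⟩
    · intro a ha
      simp only [Multiset.insert_eq_cons, Multiset.mem_cons, Multiset.mem_singleton] at ha
      rcases ha with rfl | rfl | rfl
      · exact hr.two_le
      · exact le_rfl
      · exact le_rfl
    · refine ⟨w + 4, ?_⟩
      simp
      omega
    · simp only [Multiset.insert_eq_cons, Multiset.lcm_cons, Multiset.lcm_singleton, normalize_eq]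
      rw [lcm_same, normalize_eq, mul_comm]
      exact hco.symm.lcm_eq_mul

end Cfsg.Agent.S2467
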