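import Cfsg.Statements.S2471
import Cfsg.Agent.KSG.PSL2Basic

set_option autoImplicit false
open Cfsg CL.GL2 CL.Char

namespace Cfsg.Agent.S2471

/-- In PSL(2,q) with q odd, the characteristic p is isolated from 2 in the prime graph: for F a finite field of odd characteristic p with at least 5 elements, PSL(2,F) has no element of order 2p. -/
theorem result {F : Type*} [Field F] [Fintype F] (p : ℕ) [Fact p.Prime] [CharP F p] (hp : p ≠ 2) (h5 : 5 ≤ Fintype.card F) (g : Matrix.ProjectiveSpecialLinearGroup (Fin 2) F) :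
    orderOf g ≠ 2 * p := by
  classical
  obtain ⟨g, rfl⟩ := pslMk_surjective g
  intro h
  have hp0 : 0 < p := (Fact.out : p.Prime).pos
  by_cases hr : Reg g
  · have h1 := Reg.gcd_mul_orderOf_dvd (self_mem_centSL g)
    have h2 : p ∣ Nat.card (centSL (g : Matrix (Fin 2) (Fin 2) F)) :=
      ((Dvd.intro_left 2 h.symm).mul_left _).trans h1
    rcases hr.cases with ⟨-, e⟩ | ⟨-, e⟩ <;> rw [e] at h2
    exacts [not_char_dvd_succ p h2, not_char_dvd_pred p h2]
  · have := Nat.le_of_dvd hp0 (h ▸ orderOf_pslMk_dvd_char p hr)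
    omega

end Cfsg.Agent.S2471
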