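import Cfsg.Statements.S2478
import Cfsg.Agent.KSG.GLnClsNum

set_option autoImplicit false
open Cfsg

namespace Cfsg.Agent.S2478

open CL.GLn

theorem result {F : Type*} [Field F] [Fintype F] (n : ℕ) (hn : 1 ≤ n) :
    Fintype.card F ^ n - Fintype.card F ^ (n - 1) ≤ Nat.card (ConjClasses (Matrix.GeneralLinearGroup (Fin n) F)) ∧ Nat.card (ConjClasses (Matrix.GeneralLinearGroup (Fin n) F)) ≤ Fintype.card F ^ n := by
  rw [card_conjClasses_GL]
  refine ⟨le_trans (le_of_eq ?_) (le_card_US le_rfl hn), card_US_le le_rfl⟩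
  obtain ⟨k, rfl⟩ : ∃ k, n = k + 1 := ⟨n - 1, by omega⟩
  rw [Nat.add_sub_cancel, Nat.sub_mul, one_mul, pow_succ']

end Cfsg.Agent.S2478
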