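import Cfsg.Statements.S2479
import Cfsg.Agent.KSG.GLnClsNum

set_option autoImplicit false
open Cfsg

namespace Cfsg.Agent.S2479

open CL.GLn

theorem result {F : Type*} [Field F] [Fintype F] (n : ℕ) (hn : 2 ≤ n) :
    Fintype.card F ^ (n - 1) < Nat.card (ConjClasses (Matrix.SpecialLinearGroup (Fin n) F)) ∧ 2 * Nat.card (ConjClasses (Matrix.SpecialLinearGroup (Fin n) F)) ≤ 5 * Fintype.card F ^ (n - 1) ∧
      (3 ≤ n → Nat.card (ConjClasses (Matrix.SpecialLinearGroup (Fin n) F)) ≤ Fintype.card F ^ (n - 1) + 3 * Fintype.card F ^ (n - 2)) := by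
  have hq := Fintype.one_lt_card (α := F)
  have h1 := card_conjClasses_SL_le (F := F) (by omega : 0 < n)
  refine ⟨lt_card_conjClasses_SL hn, ?_, fun h3 => ?_⟩
  · have h2 := two_mul_sumU_le (F := F) (by omega : 1 ≤ n) le_rfl
    apply Nat.le_of_mul_le_mul_left (c := Fintype.card F - 1) _ (by omega)
    rw [mul_left_comm]
    omega
  · exact Nat.le_of_mul_le_mul_left (h1.trans (sumU_three_le h3 le_rfl)) (by omega)

end Cfsg.Agent.S2479
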