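import Mathlib
import Cfsg.Statements.S2483
import Cfsg.Agent.KSG.Cov5

set_option autoImplicit false
open Cfsg

namespace Cfsg.Agent.S2483

open CL.Cov CL.GLn Module Matrix in

/-- The covering number of PSL(n,q) is n: let F be a finite field with q ≥ 4 elements and n ≥ 3. For every non-identity element x of PSL(n,F), every element of PSL(n,F) is a product of n conjugates of x; and for some non-identity x, some element is not a product of n − 1 conjugates of x. -/
theorem result {F : Type*} [Field F] [Fintype F] (h4 : 4 ≤ Fintype.card F) (n : ℕ) (hn : 3 ≤ n) :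
    (∀ x : Matrix.ProjectiveSpecialLinearGroup (Fin n) F, x ≠ 1 → ∀ g : Matrix.ProjectiveSpecialLinearGroup (Fin n) F, ∃ f : Fin n → Matrix.ProjectiveSpecialLinearGroup (Fin n) F, g = (List.ofFn fun i => f i * x * (f i)⁻¹).prod) ∧
    (∃ x : Matrix.ProjectiveSpecialLinearGroup (Fin n) F, x ≠ 1 ∧ ∃ g : Matrix.ProjectiveSpecialLinearGroup (Fin n) F, ∀ f : Fin (n - 1) → Matrix.ProjectiveSpecialLinearGroup (Fin n) F, g ≠ (List.ofFn fun i => f i * x * (f i)⁻¹).prod) := by
  let φ : SpecialLinearGroup (Fin n) F →* End F (Fin n → F) :=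
    (toLinAlgEquiv' : Matrix (Fin n) (Fin n) F ≃ₐ[F] _).toMonoidHom.comp
      SpecialLinearGroup.coeMonoidHom
  have h1 : Function.Injective φ := toLinAlgEquiv'.injective.comp Subtype.val_injective
  have h2 : ∀ g, LinearMap.det (φ g) = 1 := fun g => (LinearMap.det_toLin' _).trans g.2
  have h3 : ∀ y, LinearMap.det y = 1 → ∃ g, φ g = y := fun y hy =>
    ⟨⟨LinearMap.toMatrix' y, by rwa [LinearMap.det_toMatrix']⟩, toLin'_toMatrix' y⟩
  let π : SpecialLinearGroup (Fin n) F →* ProjectiveSpecialLinearGroup (Fin n) F :=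
    QuotientGroup.mk' _
  have hπ : Function.Surjective π := QuotientGroup.mk'_surjective _
  have h5 : ∀ g, π g = 1 ↔ ¬NS (φ g) := fun g => by
      rw [QuotientGroup.mk'_apply, QuotientGroup.eq_one_iff, NS, not_forall]
      refine ⟨fun h => ?_, fun ⟨c, hc⟩ => Subgroup.mem_center_iff.mpr fun k => h1 (by
        rw [map_mul, map_mul, not_not.mp hc, Algebra.commutes])⟩
      obtain ⟨c, -, hc⟩ := Matrix.SpecialLinearGroup.mem_center_iff.mp h
      exact ⟨c, not_not.mpr ((congrArg toLinAlgEquiv' hc).symm.trans (AlgEquiv.commutes _ c))⟩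
  have h6 : ∀ {k : ℕ} (x : SpecialLinearGroup (Fin n) F) (f : Fin k → SpecialLinearGroup (Fin n) F),
      π (List.ofFn fun i => f i * x * (f i)⁻¹).prod =
      (List.ofFn fun i => π (f i) * π x * (π (f i))⁻¹).prod :=
    fun x f => by rw [map_list_prod, List.map_ofFn]; rfl
  have h7 : ∀ f x, ∃ e : (Fin n → F) ≃ₗ[F] (Fin n → F), (e : End F (Fin n → F)) = φ f ∧
      cj e (φ x) = φ (f * x * f⁻¹) := fun f x => by
    obtain ⟨e, he⟩ := exists_equiv ((Group.isUnit f).map φ)
    exact ⟨e, he, cj_eq_of_mul (by rw [he, ← map_mul, ← map_mul, inv_mul_cancel_right])⟩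
  have h8 : finrank F (Fin n → F) = n := by simp
  refine ⟨fun x hx g => ?_, ?_⟩
  · obtain ⟨x, rfl⟩ := hπ x
    obtain ⟨g, rfl⟩ := hπ g
    obtain ⟨c, hc⟩ := exists_smul_mem_pow h4 (by rwa [h8]) (not_not.mp ((h5 x).not.mp hx)) (h2 x)
      (h2 g)
    rw [h8, Set.mem_pow] at hc
    obtain ⟨y, hy⟩ := hc
    have : ∀ i, ∃ f, φ (f * x * f⁻¹) = y i := fun i => by
      obtain ⟨e, he, he'⟩ := (y i).2
      obtain ⟨f, hf⟩ := h3 _ he
      obtain ⟨e', h9, h10⟩ := h7 f x
      exact ⟨f, by rw [← h10, ← he', LinearEquiv.toLinearMap_injective (h9.trans hf)]⟩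
    choose f hf using this
    refine ⟨fun i => π (f i), ?_⟩
    rw [← h6, ← inv_mul_eq_one, ← map_inv, ← map_mul, h5]
    refine fun h => h c ?_
    rw [map_mul, map_list_prod, List.map_ofFn, show φ ∘ _ = fun i => (y i).1 from funext hf, hy,
      mul_smul_comm, ← map_mul, inv_mul_cancel, map_one, Algebra.algebraMap_eq_smul_one]
  · let i₀ : Fin n := ⟨0, by omega⟩
    let i₁ : Fin n := ⟨1, by omega⟩
    have h9 : i₀ ≠ i₁ := by simp [i₀, i₁]
    let τ : End F (Fin n → F) := 1 + (LinearMap.proj i₀).smulRight (Pi.single i₁ 1)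
    obtain ⟨x, hx⟩ := h3 τ (by rw [det_tv fun _ => rfl]; simp [h9])
    obtain ⟨g, hg, hg'⟩ := exists_no_eigen (F := F) (V := Fin n → F) (by omega)
    obtain ⟨g, rfl⟩ := h3 g hg
    refine ⟨π x, fun h => (h5 x).mp h (ns_iff.mpr ⟨Pi.single i₀ 1, fun h => ?_⟩), π g,
      fun f hf => ?_⟩
    · obtain ⟨c, hc⟩ := Submodule.mem_span_singleton.mp h
      simpa [hx, τ, h9.symm] using congrFun hc i₁
    · choose f' hf' using fun i => hπ (f i)
      rw [← funext hf', ← h6, ← inv_mul_eq_one, ← map_inv, ← map_mul, h5,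
        NS, not_forall] at hf
      obtain ⟨c, hc⟩ := hf
      have h10 := finrank_le_of_mem_pow (C := Sm τ) (fun y hy => by
        rw [← finrank_eigenspace_eq hy, ← finrank_ker_dual_add_one (φ := LinearMap.proj i₀)
          fun h => by simpa using LinearMap.congr_fun h (Pi.single i₀ 1)]
        exact Nat.succ_le_succ (Submodule.finrank_mono fun v hv => by
          simpa [τ] using hv)) (k := n - 1)
        (y := φ (List.ofFn fun i => f' i * x * (f' i)⁻¹).prod) (Set.mem_pow.mpr ⟨fun i =>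
          ⟨φ (f' i * x * (f' i)⁻¹), by
            obtain ⟨e, -, he⟩ := h7 (f' i) x
            rw [← he, hx]
            exact simil_cj e τ⟩, by rw [map_list_prod, List.map_ofFn]; rfl⟩)
      generalize (List.ofFn fun i => f' i * x * (f' i)⁻¹).prod = y at hc h10
      obtain ⟨v, hv, hv0⟩ := (Submodule.ne_bot_iff ((φ y).eigenspace 1)).mp fun h => by
        rw [h, finrank_bot] at h10; omega
      have h11 : c • φ g v = v := by
        simpa [← End.mul_apply, ← map_mul, End.mem_eigenspace_iff.mp hv] using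
          congrArg (fun u => φ g (u v)) (not_not.mp hc).symm
      have h12 : c ≠ 0 := by rintro rfl; exact hv0 (by simpa using h11.symm)
      exact hv0 ((Submodule.eq_bot_iff _).mp (hg' c⁻¹) v (End.mem_eigenspace_iff.mpr
        ((eq_inv_smul_iff₀ h12).mpr h11)))

end Cfsg.Agent.S2483
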