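import Cfsg.Statements.S2485
import Cfsg.Agent.KSG.PSL2Basic

set_option autoImplicit false
open scoped Pointwise
open Cfsg CL.GL2 CL.Char

namespace Cfsg.Agent.S2485

open Matrix

section

variable {F : Type*} [Field F] [Fintype F] [DecidableEq F]

/-- the elements commuting with `J` up to sign -/
def pc (J : Matrix (Fin 2) (Fin 2) F) : Subgroup (GL (Fin 2) F) where
  carrier := {g | (g : Matrix (Fin 2) (Fin 2) F) * J = J * g ∨ (g : Matrix (Fin 2) (Fin 2) F) * J = -(J * g)}
  one_mem' := Or.inl (by simp)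
  mul_mem' := by
    rintro a b (ha | ha) (hb | hb) <;>
      simp only [Set.mem_ofPred_eq, Units.val_mul, mul_assoc, hb, mul_neg] <;>
      simp only [← mul_assoc, ha, neg_mul, neg_neg, true_or, or_true]
  inv_mem' := by
    rintro a ha
    have k : ∀ X, ((a⁻¹ : GL (Fin 2) F) : Matrix (Fin 2) (Fin 2) F) * X =
        (a⁻¹ : GL (Fin 2) F) * (X * a) * (a⁻¹ : GL (Fin 2) F) := fun X => by
      simp only [mul_assoc, Units.mul_inv, mul_one]
    refine ha.imp (fun h => ?_) fun h => ?_
    · rw [k, ← h, ← mul_assoc, Units.inv_mul, one_mul]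
    · rw [k, ← neg_eq_iff_eq_neg.2 h, mul_neg, ← mul_assoc, Units.inv_mul, one_mul, neg_mul]

theorem aux {k : ℕ} (hk : Fintype.card F + 1 = 2 ^ k) (hq : Fintype.card F % 4 = 3)
    (H : Sylow 2 (GL (Fin 2) F ⧸ Subgroup.center (GL (Fin 2) F)))
    (x : GL (Fin 2) F ⧸ Subgroup.center (GL (Fin 2) F)) :
    (H : Subgroup (GL (Fin 2) F ⧸ Subgroup.center (GL (Fin 2) F))) ⊓ MulAut.conj x • (H : Subgroup _) ≠ ⊥ := by
  have h2 : (2 : F) ≠ 0 := two_ne_zero_of_odd (Nat.odd_iff.2 (by omega))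
  have hsq : ∀ r : F, r ^ 2 + 1 ≠ 0 := fun r e =>
    FiniteField.isSquare_neg_one_iff.1 ⟨r, by linear_combination -e⟩ hq
  let J : Matrix (Fin 2) (Fin 2) F := compan 0 1
  have hn : NoEig J := noEig_iff.2 fun c e => by
    rw [cp_def, trace_compan, det_compan] at e
    exact hsq c (by linear_combination e)
  have hJ : J * J = -1 := by rw [sq_eq, trace_compan, det_compan]; simp
  let π := QuotientGroup.mk' (Subgroup.center (GL (Fin 2) F))
  have hx : ∀ g : GL (Fin 2) F, (g : Matrix (Fin 2) (Fin 2) F) * J = -(J * g) → g ∉ centGL J := fun g h e => by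
    rw [mem_centGL.1 e, eq_neg_iff_add_eq_zero, ← two_smul F, smul_eq_zero] at h
    have := congrArg det (h.resolve_left h2)
    rw [det_mul, det_compan, one_mul, det_zero] at this
    exact g.det_ne_zero this
  have hmul : ∀ g h : GL (Fin 2) F, (g : Matrix (Fin 2) (Fin 2) F) * J = -(J * g) →
      (h : Matrix (Fin 2) (Fin 2) F) * J = -(J * h) → g * h ∈ centGL J := fun g h a b => by
    rw [mem_centGL, Units.val_mul, mul_assoc, b, mul_neg, ← mul_assoc, a, neg_mul, neg_neg, mul_assoc]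
  have hle : centGL J ≤ pc J := fun g h => Or.inl (mem_centGL.1 h)
  have hi : ((centGL J).subgroupOf (pc J)).index = 2 := by
    have hw : (GeneralLinearGroup.mkOfDetNeZero !![(1 : F), 0; 0, -1] (by simp) : Matrix (Fin 2) (Fin 2) F) * J =
        -(J * (GeneralLinearGroup.mkOfDetNeZero !![(1 : F), 0; 0, -1] (by simp))) := by
      rw [coe_mkOfDetNeZero]; simp [J, compan]
    refine Subgroup.index_eq_two_iff.2 ⟨⟨_, Or.inr hw⟩, fun b => ?_⟩
    simp only [Subgroup.mem_subgroupOf, Subgroup.coe_mul]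
    rcases b.2 with h | h
    · exact Or.inr ⟨mem_centGL.2 h, fun e => hx _ hw ((Subgroup.mul_mem_cancel_left _ (mem_centGL.2 h)).1 e)⟩
    · exact Or.inl ⟨hmul _ _ h hw, hx _ h⟩
  have hc := Subgroup.card_mul_index ((centGL J).subgroupOf (pc J))
  rw [hi, Nat.card_congr (Subgroup.subgroupOfEquivOfLe hle).toEquiv, card_centGL_noEig hn] at hc
  have hP : IsPGroup 2 ((pc J).map π) := by
    rintro ⟨_, g, hg, rfl⟩
    refine ⟨k + 1, Subtype.ext ?_⟩
    have h1 : g * g ∈ centGL J := hg.elim (fun h => mul_mem (mem_centGL.2 h) (mem_centGL.2 h)) fun h => hmul _ _ h h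
    obtain ⟨z, hz⟩ := (commute_iff_emb hn.not_isScal _).1 (mem_centGL.1 h1)
    have := Fact.mk hn
    show π g ^ 2 ^ (k + 1) = 1
    rw [pow_succ', pow_mul, ← map_pow, ← map_pow, QuotientGroup.mk'_apply, QuotientGroup.eq_one_iff,
      mem_center_GL_iff, Units.val_pow_eq_pow_val, sq, ← hz, ← map_pow, ← hk, ← algebraMap_norm_eq_pow, emb_algebraMap]
    exact isScal_smul_one _
  have hidx : ¬ 2 ∣ ((pc J).map π).index := by
    rw [Subgroup.index_map_eq _ (QuotientGroup.mk'_surjective _) (by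
      rw [QuotientGroup.ker_mk']
      exact fun g hg => Or.inl ((mem_center_GL_iff.1 hg).commute J).symm)]
    have h1 := (pc J).card_mul_index
    obtain ⟨m, hm⟩ : 2 ∣ Fintype.card F - 1 := by omega
    rw [← hc, card_GL2, show Fintype.card F ^ 2 - 1 = (Fintype.card F + 1) * (Fintype.card F - 1) from
      Nat.sq_sub_sq _ 1, show Fintype.card F * (Fintype.card F + 1) * (Fintype.card F - 1) ^ 2 =
        (Fintype.card F + 1) * (Fintype.card F - 1) * 2 * (Fintype.card F * m) by rw [sq]; nth_rewrite 1 [hm]; ring] at h1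
    rw [Nat.eq_of_mul_eq_mul_left (Nat.mul_pos (Nat.mul_pos (by omega) (by omega)) two_pos) h1, Nat.prime_two.dvd_mul]
    omega
  have key : ∀ y : GL (Fin 2) F, ∃ w : GL (Fin 2) F, w ∈ pc J ∧ y⁻¹ * w * y ∈ pc J ∧ π w ≠ 1 := by
    intro y
    obtain ⟨J', hJ'⟩ : ∃ J' : Matrix (Fin 2) (Fin 2) F, J' = y * J * (y⁻¹ : GL (Fin 2) F) := ⟨_, rfl⟩
    have e1 : J' * J' = -1 := by
      rw [hJ']
      simp only [mul_assoc, Units.inv_mul_cancel_left]
      rw [← mul_assoc J, hJ, neg_one_mul, mul_neg, Units.mul_inv]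
    have e2 : ∀ w : GL (Fin 2) F, w ∈ pc J' → y⁻¹ * w * y ∈ pc J := fun w hw => by
      have k : ((y⁻¹ * w * y : GL (Fin 2) F) : Matrix (Fin 2) (Fin 2) F) * J = (y⁻¹ : GL (Fin 2) F) * (w * J') * y := by
        simp only [hJ', Units.val_mul, mul_assoc, Units.inv_mul, mul_one]
      have k' : J * ((y⁻¹ * w * y : GL (Fin 2) F) : Matrix (Fin 2) (Fin 2) F) = (y⁻¹ : GL (Fin 2) F) * (J' * w) * y := by
        simp only [hJ', Units.val_mul, mul_assoc, Units.inv_mul_cancel_left]
      refine hw.imp (fun h => ?_) fun h => ?_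
      · rw [k, k', h]
      · rw [k, k', h, mul_neg, neg_mul]
    by_cases h : J * J' = J' * J
    · refine ⟨GeneralLinearGroup.mkOfDetNeZero J hn.det_ne_zero, Or.inl rfl, e2 _ (Or.inl h), fun e => ?_⟩
      exact hn.not_isScal (mem_center_GL_iff.1 ((QuotientGroup.eq_one_iff _).1 e))
    · have a1 : (J * J' - J' * J) * J = -(J * (J * J' - J' * J)) := by
        rw [sub_mul, mul_sub, mul_assoc J' J, ← mul_assoc J J, hJ, mul_assoc]; simp
      have a2 : (J * J' - J' * J) * J' = -(J' * (J * J' - J' * J)) := by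
        rw [sub_mul, mul_sub, mul_assoc J J', ← mul_assoc J' J', e1, mul_assoc]; simp [sub_eq_add_neg]
      have hd : (J * J' - J' * J).det ≠ 0 := by
        have h' := sub_ne_zero.2 h
        generalize J * J' - J' * J = w at a1 h'
        intro e
        obtain ⟨b1, b2, -, -⟩ := mat_ext_iff.1 a1
        simp only [J, compan, mul_00, mul_01, Matrix.neg_apply, of_apply, cons_val', cons_val_zero, cons_val_one,
          cons_val_fin_one] at b1 b2
        rw [det_fin_two] at e
        have c1 : w 1 0 = w 0 1 := by linear_combination -b1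
        have c2 : w 1 1 = -w 0 0 := by linear_combination -b2
        rw [c1, c2] at e
        by_cases h0 : w 0 1 = 0
        · have : w 0 0 = 0 := pow_eq_zero_iff two_ne_zero |>.1 (by rw [h0] at e; linear_combination -e)
          exact h' (mat_ext this h0 (c1.trans h0) (by rw [c2, this]; simp))
        · exact hsq (w 0 0 / w 0 1) (by field_simp; linear_combination -e)
      refine ⟨GeneralLinearGroup.mkOfDetNeZero _ hd, Or.inr a1, e2 _ (Or.inr a2), fun e => hx (GeneralLinearGroup.mkOfDetNeZero _ hd) a1 ?_⟩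
      exact mem_centGL.2 ((mem_center_GL_iff.1 ((QuotientGroup.eq_one_iff _).1 e)).commute J).symm
  obtain ⟨g, rfl⟩ := MulAction.exists_smul_eq (GL (Fin 2) F ⧸ Subgroup.center (GL (Fin 2) F)) (hP.toSylow hidx) H
  obtain ⟨y, hy⟩ := QuotientGroup.mk'_surjective _ (g⁻¹ * x * g)
  obtain ⟨w, h1, h3, h4⟩ := key y
  intro e
  have : g * π w * g⁻¹ ∈ (⊥ : Subgroup _) := by
    rw [← e, Sylow.coe_subgroup_smul, IsPGroup.toSylow_coe]
    refine Subgroup.mem_inf.2 ⟨Subgroup.smul_mem_pointwise_smul _ (MulAut.conj g) _ (Subgroup.mem_map_of_mem π h1), ?_⟩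
    have := Subgroup.smul_mem_pointwise_smul _ (MulAut.conj x) _
      (Subgroup.smul_mem_pointwise_smul _ (MulAut.conj g) _ (Subgroup.mem_map_of_mem π h3))
    rw [map_mul, map_mul, map_inv, show π y = _ from hy] at this
    rwa [show MulAut.conj x • MulAut.conj g • ((g⁻¹ * x * g)⁻¹ * π w * (g⁻¹ * x * g)) = g * π w * g⁻¹ by
      simp only [MulAut.smul_def, MulAut.conj_apply]
      group] at this
  exact h4 (by simpa using this)

end

/-- Let q = 2^k − 1 ≥ 7 be a prime and let G = PGL(2,q), the general linear group of degree 2 over the field with q elements modulo its centre. Then any two Sylow 2-subgroups of G have a non-trivial intersection: for a Sylow 2-subgroup H and every x ∈ G, H ∩ H^x ≠ 1. -/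
theorem result {q k : ℕ} [Fact q.Prime] (hk : q + 1 = 2 ^ k) (hq : 7 ≤ q)
    (H : Sylow 2 (GL (Fin 2) (ZMod q) ⧸ Subgroup.center (GL (Fin 2) (ZMod q))))
    (x : GL (Fin 2) (ZMod q) ⧸ Subgroup.center (GL (Fin 2) (ZMod q))) :
    (H : Subgroup (GL (Fin 2) (ZMod q) ⧸ Subgroup.center (GL (Fin 2) (ZMod q)))) ⊓ MulAut.conj x • (H : Subgroup _) ≠ ⊥ := by
  refine aux (k := k) (by rwa [ZMod.card]) ?_ H x
  rw [ZMod.card]
  rcases k with _ | _ | k
  · omega
  · omega
  · rw [pow_succ, pow_succ] at hk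
    omega

end Cfsg.Agent.S2485
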