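import Mathlib
import Cfsg.Statements.S2486
import Cfsg.Agent.KSG.GLnBigCell

set_option autoImplicit false
open scoped Pointwise
open Cfsg

namespace Cfsg.Agent.S2486

open CL.GLn


/-- Let n ≥ 4 and let G be a finite group with a normal subgroup N of index 2 isomorphic to SL(n,2) and with trivial centralizer in G (so G is the extension of the simple group L_n(2) by its inverse-transpose automorphism, its full automorphism group). Then any two Sylow 2-subgroups of G have a non-trivial intersection: for a Sylow 2-subgroup H and every x ∈ G, H ∩ H^x ≠ 1. -/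
theorem result {G : Type*} [Group G] [Finite G] {n : ℕ} (hn : 4 ≤ n) (N : Subgroup G) [N.Normal]
    (e : N ≃* Matrix.SpecialLinearGroup (Fin n) (ZMod 2)) (hidx : N.index = 2)
    (hC : Subgroup.centralizer (N : Set G) = ⊥)
    (H : Sylow 2 G) (x : G) :
    (H : Subgroup G) ⊓ MulAut.conj x • (H : Subgroup G) ≠ ⊥ := by
  classical
  let S : Sylow 2 (Matrix.SpecialLinearGroup (Fin n) (ZMod 2)) :=
    Sylow.ofCard (uniSL n (ZMod 2)) (card_uniSL_eq_pow 2)
  let j : Matrix.SpecialLinearGroup (Fin n) (ZMod 2) →* G := N.subtype.comp e.symm.toMonoidHom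
  have hj : Function.Injective j := N.subtype_injective.comp e.symm.injective
  have hjN : ∀ g ∈ N, ∃ a, j a = g := fun g hg => ⟨e ⟨g, hg⟩, by simp [j]⟩
  have hjN' : ∀ a, j a ∈ N := fun a => (e.symm a).2
  obtain ⟨K, hK⟩ := (S.isPGroup'.map j).exists_le_sylow
  have hU : ∀ a, j a ∈ (K : Subgroup G) ↔ a ∈ uniSL n (ZMod 2) := fun a => by
    have h1 : (K : Subgroup G).comap j = S := S.is_maximal'
      (K.isPGroup'.comap_of_injective j hj) (Subgroup.map_le_iff_le_comap.mp hK)
    exact SetLike.ext_iff.mp h1 a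
  obtain ⟨t, ht, htN⟩ : ∃ t ∈ (K : Subgroup G), t ∉ N := by
    by_contra! h
    exact K.not_dvd_index (hidx.symm.dvd.trans (Subgroup.index_dvd_of_le h))
  have key : ∀ a, ∃ z ∈ (K : Subgroup G), z ≠ 1 ∧ (j a)⁻¹ * z * j a ∈ (K : Subgroup G) :=
    fun a => by
      rcases bigCell_or a with ⟨u, hu, v, hv, w, hw, ha⟩ | ⟨-, u, hu, hu1, hu'⟩
      · obtain ⟨a', ha'⟩ := hjN (t * j a * t⁻¹) (‹N.Normal›.conj_mem _ (hjN' a) t)
        rcases bigCell_or a' with ⟨u', hu', v', hv', w', hw', ha''⟩ | ⟨-, u', hu', hu1, hu''⟩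
        · obtain rfl : w = w' := hw.eq_of_llm hw' fun i => by
            have h1 := hw.llm_ne_zero i
            have h2 := hw'.llm_ne_zero i
            revert h1 h2
            generalize llm w.1 i = s
            generalize llm w'.1 i = s'
            revert s s'
            decide
          refine ⟨j (u * u'⁻¹) * t, mul_mem ((hU _).mpr (mul_mem hu (inv_mem hu'))) ht,
            fun h => htN (by rw [eq_inv_of_mul_eq_one_right h]; exact inv_mem (hjN' _)), ?_⟩
          have h3 : (j a)⁻¹ * (j (u * u'⁻¹) * t) * j a = j (v⁻¹ * v') * t := by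
            rw [mul_assoc, mul_assoc, ← mul_inv_eq_iff_eq_mul, mul_assoc, mul_assoc, ← ha',
              ← map_inv, ← map_mul, ← map_mul, ha, ha'']
            congr 1
            group
          rw [h3]
          exact mul_mem ((hU _).mpr (mul_mem (inv_mem hv) hv')) ht
        · refine ⟨t⁻¹ * j u' * t, mul_mem (mul_mem (inv_mem ht) ((hU _).mpr hu')) ht,
            fun h => hu1 (hj (by rw [map_one, ← conj_eq_one_iff (a := t⁻¹), inv_inv, h])), ?_⟩
          have h3 : (j a)⁻¹ * (t⁻¹ * j u' * t) * j a = t⁻¹ * j (a'⁻¹ * u' * a') * t := by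
            rw [map_mul, map_mul, map_inv, ha']
            group
          rw [h3]
          exact mul_mem (mul_mem (inv_mem ht) ((hU _).mpr hu'')) ht
      · exact ⟨j u, (hU _).mpr hu, fun h => hu1 (hj (h.trans (map_one j).symm)),
          by rw [← map_inv, ← map_mul, ← map_mul]; exact (hU _).mpr hu'⟩
  obtain ⟨y, rfl⟩ := MulAction.exists_smul_eq G K H
  obtain ⟨a, k, hk, hx⟩ : ∃ a, ∃ k ∈ (K : Subgroup G), y⁻¹ * x * y = j a * k := by
    by_cases h : y⁻¹ * x * y ∈ N
    · obtain ⟨a, ha⟩ := hjN _ h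
      exact ⟨a, 1, one_mem _, by rw [ha, mul_one]⟩
    · obtain ⟨a, ha⟩ := hjN (y⁻¹ * x * y * t⁻¹)
        ((Subgroup.mul_mem_iff_of_index_two hidx).mpr (by simp [h, htN]))
      exact ⟨a, t, ht, by rw [ha, inv_mul_cancel_right]⟩
  obtain ⟨z, hz, hz1, hz'⟩ := key a
  refine fun h => hz1 ((conj_eq_one_iff (a := y)).mp ((Subgroup.eq_bot_iff_forall _).mp h _
    (Subgroup.mem_inf.mpr ⟨?_, ?_⟩)))
  · rw [Sylow.coe_subgroup_smul, Subgroup.mem_pointwise_smul_iff_inv_smul_mem]
    simpa [mul_assoc] using hz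
  · rw [Sylow.coe_subgroup_smul, Subgroup.mem_pointwise_smul_iff_inv_smul_mem,
      Subgroup.mem_pointwise_smul_iff_inv_smul_mem]
    have h3 : (MulAut.conj y)⁻¹ • (MulAut.conj x)⁻¹ • (y * z * y⁻¹) =
        (y⁻¹ * x * y)⁻¹ * z * (y⁻¹ * x * y) := by simp [mul_assoc]
    rw [h3, hx, show (j a * k)⁻¹ * z * (j a * k) = k⁻¹ * ((j a)⁻¹ * z * j a) * k by group]
    exact mul_mem (mul_mem (inv_mem hk) hz') hk

end Cfsg.Agent.S2486
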