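import Mathlib
import Cfsg.Statements.S2487
import Cfsg.Agent.KSG.OrthStd

set_option autoImplicit false
open scoped Pointwise
open Cfsg

namespace Cfsg.Agent.S2487

open CL.Orth QuadraticMap Module

variable {F : Type*} [Field F]

theorem exists_ne_one {V : Type*} [AddCommGroup V] [Module F V] [FiniteDimensional F V]
    {Q : QuadraticForm F V} (hQ : (polarBilin Q).Nondegenerate) (Y : Submodule F V)
    (hY : finrank F Y + 2 ≤ finrank F V) : ∃ g : O Q, g ≠ 1 ∧ ∀ y ∈ Y, g.1 y = y := by
  by_cases h : ∃ v ∈ perp Q Y, Q v ≠ 0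
  · obtain ⟨v, hv, hv'⟩ := h
    refine ⟨refl Q v, fun h1 => ?_, fun y hy => refl_of_polar_eq_zero (mem_perp'.mp hv y hy)⟩
    have hv0 : v ≠ 0 := by rintro rfl; simp at hv'
    obtain ⟨y, hy⟩ := exists_polar_ne_zero hQ hv0
    have := refl_apply (Q := Q) v y
    rw [h1, O_one_apply, eq_comm, sub_eq_self, smul_eq_zero] at this
    exact this.elim (mul_ne_zero (inv_ne_zero hv') hy) hv0
  · push Not at h
    have h2 := finrank_perp hQ Y
    have : Nontrivial (perp Q Y) := Module.nontrivial_of_finrank_pos (R := F) (by omega)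
    obtain ⟨u, hu⟩ := exists_ne (0 : perp Q Y)
    obtain ⟨v, hv⟩ := exists_linearIndependent_pair_of_one_lt_finrank (R := F) (by omega) hu
    have huv : polar Q (u : V) v = 0 := by
      have := Q_add Q (u : V) v
      rwa [h _ (add_mem u.2 v.2), h _ u.2, h _ v.2, zero_add, zero_add, eq_comm] at this
    refine ⟨eich Q (h _ u.2) huv, fun h1 => ?_, fun y hy => by
      simp [eich_apply, mem_perp'.mp u.2 y hy, mem_perp'.mp v.2 y hy]⟩
    obtain ⟨y, hy⟩ := exists_polar_ne_zero hQ (x := (u : V)) (by simpa using hu)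
    have := eich_apply (h _ u.2) huv y
    rw [h1, O_one_apply, h _ v.2, zero_mul, zero_smul, sub_zero] at this
    refine hy (neg_eq_zero.mp ((LinearIndependent.pair_iff.mp hv) (polar Q (v : V) y)
      (-polar Q (u : V) y) (Subtype.ext ?_)).2)
    simp only [Submodule.coe_add, Submodule.coe_smul, Submodule.coe_zero, neg_smul,
      Submodule.coe_neg]
    rw [← sub_eq_add_neg, ← add_right_inj y, add_zero, ← add_sub_assoc, ← this]

theorem pow_eq_one [Fintype F] (hF : Fintype.card F = 2) {m : ℕ} (i : Fin m) (g : O (QPlus m F))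
    (hg : ∀ j, j ≠ i → g.1 (Pi.single (.inl j) 1) = Pi.single (.inl j) 1) : g ^ 2 ^ 3 = 1 := by
  have h01 : ∀ a : F, a ≠ 0 → a = 1 := fun a ha => by
    simpa [hF] using FiniteField.pow_card_sub_one_eq_one a ha
  have h2 : (2 : F) = 0 := by simpa [hF] using FiniteField.cast_card_eq_zero F
  have h1 : ∀ v j, j ≠ i → g.1 v (.inr j) = v (.inr j) := fun v j hj => by
    rw [← polar_QPlus_single_inl m F (g.1 v), ← hg j hj, O_polar, polar_QPlus_single_inl]
  have hW : ∀ v : Fin m ⊕ Fin m → F, (∀ j, v (.inr j) = 0) → v (.inl i) = 0 → g.1 v = v :=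
    fun v hv hv' => by
      conv => congr <;> rw [pi_eq_sum_univ' v]
      simp only [map_sum, map_smul]
      refine Finset.sum_congr rfl ?_
      rintro (j | j) -
      · by_cases hj : j = i
        · simp [hj, hv']
        · rw [hg j hj]
      · simp [hv]
  have hP : ∀ u v : Fin m ⊕ Fin m → F, (∀ j, j ≠ i → u (.inr j) = 0) →
      (∀ j, j ≠ i → v (.inr j) = 0) →
      polar (QPlus m F) u v = u (.inl i) * v (.inr i) + u (.inr i) * v (.inl i) :=
    fun u v hu hv => by
      rw [polar_QPlus, Finset.sum_eq_single i (fun j _ hj => by simp [hu j hj, hv j hj]) (by simp)]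
  have hQ : ∀ u : Fin m ⊕ Fin m → F, (∀ j, j ≠ i → u (.inr j) = 0) →
      QPlus m F u = u (.inl i) * u (.inr i) := fun u hu => by
    rw [QPlus_apply, Finset.sum_eq_single i (fun j _ hj => by simp [hu j hj]) (by simp)]
  let e : Fin m ⊕ Fin m → F := Pi.single (.inl i) 1
  let f : Fin m ⊕ Fin m → F := Pi.single (.inr i) 1
  have he : ∀ j, j ≠ i → e (.inr j) = 0 := fun j hj => by simp [e]
  have hf : ∀ j, j ≠ i → f (.inr j) = 0 := fun j hj => by simp [f, hj]
  have e₁ := O_map g e
  have e₂ := O_map g f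
  have e₃ := O_polar g e f
  rw [hQ _ fun j hj => (h1 _ j hj).trans (he j hj), hQ _ he] at e₁
  rw [hQ _ fun j hj => (h1 _ j hj).trans (hf j hj), hQ _ hf] at e₂
  rw [hP _ _ (fun j hj => (h1 _ j hj).trans (he j hj)) fun j hj => (h1 _ j hj).trans (hf j hj),
    hP _ _ he hf] at e₃
  have h3 : ∀ v : Fin m ⊕ Fin m → F, (∀ j, j ≠ i → v (.inr j) = 0) → ∀ k, k = .inl i ∨ k = .inr i →
      g.1 v k = v (.inl i) * g.1 e k + v (.inr i) * g.1 f k := fun v hv k hk => by
    have := congrFun (hW (v - v (.inl i) • e - v (.inr i) • f) (fun j => by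
      by_cases hj : j = i
      · simp [e, f, hj]
      · simp [hv j hj, he j hj, hf j hj]) (by simp [e, f])) k
    simp only [map_sub, map_smul, Pi.sub_apply, Pi.smul_apply, smul_eq_mul] at this
    rcases hk with rfl | rfl
    · simp only [e, f, Pi.single_eq_same, ne_eq, reduceCtorEq, not_false_eq_true,
        Pi.single_eq_of_ne] at this ⊢
      linear_combination this
    · simp only [e, f, Pi.single_eq_same, ne_eq, reduceCtorEq, not_false_eq_true,
        Pi.single_eq_of_ne] at this ⊢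
      linear_combination this
  have h4 : ∀ v : Fin m ⊕ Fin m → F, (∀ j, j ≠ i → v (.inr j) = 0) → ∀ k, k = .inl i ∨ k = .inr i →
      g.1 (g.1 v) k = v k := fun v hv k hk => by
    rw [h3 _ (fun j hj => (h1 _ j hj).trans (hv j hj)) k hk, h3 v hv _ (Or.inl rfl),
      h3 v hv _ (Or.inr rfl)]
    simp only [e, f, Pi.single_eq_same, ne_eq, reduceCtorEq, not_false_eq_true,
      Pi.single_eq_of_ne, mul_zero, mul_one, add_zero] at e₁ e₂ e₃
    change g.1 e _ * g.1 e _ = _ at e₁
    change g.1 f _ * g.1 f _ = _ at e₂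
    change g.1 e _ * g.1 f _ + g.1 e _ * g.1 f _ = _ at e₃
    by_cases ha : g.1 e (.inl i) = 0
    · rw [ha, zero_mul, zero_add] at e₃
      have hb := h01 _ (left_ne_zero_of_mul_eq_one e₃)
      have hc := h01 _ (right_ne_zero_of_mul_eq_one e₃)
      rw [hc, one_mul] at e₂
      rcases hk with rfl | rfl <;> simp [ha, hb, hc, e₂]
    · have hb := (mul_eq_zero.mp e₁).resolve_left ha
      rw [hb, zero_mul, add_zero, h01 _ ha, one_mul] at e₃
      rw [e₃, mul_one] at e₂
      rcases hk with rfl | rfl <;> simp [h01 _ ha, hb, e₃, e₂]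
  let M : Module.End F (Fin m ⊕ Fin m → F) := (g * g).1.toLinearMap - 1
  have hM : ∀ v, M v = g.1 (g.1 v) - v := fun v => rfl
  have h5 : ∀ v j, j ≠ i → M v (.inr j) = 0 := fun v j hj => by simp [hM, h1 _ j hj]
  have h6 : M * (M * M) = 0 := LinearMap.ext fun v => by
    have h7 : g.1 (M (M v)) = M (M v) := hW _ (fun j => by
      by_cases hj : j = i
      · rw [hj, hM, Pi.sub_apply, h4 _ (h5 v) _ (Or.inr rfl), sub_self]
      · exact h5 _ j hj) (by rw [hM, Pi.sub_apply, h4 _ (h5 v) _ (Or.inl rfl), sub_self])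
    change M (M (M v)) = 0
    rw [hM, h7, h7, sub_self]
  have h8 : ∀ X : Module.End F (Fin m ⊕ Fin m → F), (1 + X) * (1 + X) = 1 + X * X := fun X => by
    have : X + X = 0 := by rw [← two_smul F, h2, zero_smul]
    calc (1 + X) * (1 + X) = 1 + X * X + (X + X) := by noncomm_ring
      _ = _ := by rw [this, add_zero]
  have h9 : (1 + M) * (1 + M) * ((1 + M) * (1 + M)) = 1 := by
    rw [h8, h8, mul_assoc, h6, mul_zero, add_zero]
  refine O_ext fun v => ?_
  have := LinearMap.congr_fun h9 v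
  simp only [M, add_sub_cancel] at this
  rw [show g ^ 2 ^ 3 = (g * g) * (g * g) * ((g * g) * (g * g)) by
    simp only [show 2 ^ 3 = 8 from rfl, pow_succ, pow_zero, one_mul, mul_assoc]]
  exact this


/-- Let m ≥ 4 and let G be the full isometry group of the hyperbolic quadratic form x₁y₁ + ⋯ + x_m y_m on the 2m-dimensional space over the field with 2 elements (the orthogonal group O⁺(2m,2), which contains Ω⁺(2m,2) with index 2). Then any two Sylow 2-subgroups of G have a non-trivial intersection: for a Sylow 2-subgroup H and every x ∈ G, H ∩ H^x ≠ 1. -/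
theorem result {F : Type*} [Field F] [Fintype F] (hF : Fintype.card F = 2) {m : ℕ} (hm : 4 ≤ m)
    (H : Sylow 2 (Cfsg.isometryGroup F (Cfsg.quadFormPlus m F)))
    (x : Cfsg.isometryGroup F (Cfsg.quadFormPlus m F)) :
    (H : Subgroup (Cfsg.isometryGroup F (Cfsg.quadFormPlus m F))) ⊓ MulAut.conj x • (H : Subgroup _) ≠ ⊥ := by
  classical
  let i : Fin m := ⟨0, by omega⟩
  let φ : Cfsg.isometryGroup F (Cfsg.quadFormPlus m F) ≃* O (QPlus m F) := toO (QPlus m F)
  let P : Subgroup (O (QPlus m F)) :=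
    { carrier := {g | ∀ j, j ≠ i → g.1 (Pi.single (.inl j) 1) = Pi.single (.inl j) 1}
      mul_mem' := fun ha hb j hj => by rw [O_mul_apply, hb j hj, ha j hj]
      one_mem' := fun j hj => rfl
      inv_mem' := fun {g} ha j hj => by rw [← ha j hj, O_inv_apply, ha j hj] }
  have hP : IsPGroup 2 P := fun g => ⟨3, Subtype.ext (pow_eq_one hF i g.1 g.2)⟩
  obtain ⟨K, hK⟩ := (hP.map φ.symm.toMonoidHom).exists_le_sylow
  obtain ⟨y, rfl⟩ := MulAction.exists_smul_eq (Cfsg.isometryGroup F (Cfsg.quadFormPlus m F)) K H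
  let s : O (QPlus m F) → Finset (Fin m ⊕ Fin m → F) := fun a =>
    (Finset.univ.erase i).image fun j => a.1 (Pi.single (.inl j) 1)
  have hs : ∀ a, (s a).card ≤ m - 1 := fun a => Finset.card_image_le.trans (by simp)
  obtain ⟨g, hg, hg'⟩ := exists_ne_one (QPlus_nondeg m F)
    (Submodule.span F (s (φ y) ∪ s (φ (x * y)) : Finset _)) (by
      have := (finrank_span_finset_le_card (R := F) (s (φ y) ∪ s (φ (x * y)))).trans
        ((Finset.card_union_le _ _).trans (add_le_add (hs _) (hs _)))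
      rw [Module.finrank_fintype_fun_eq_card, Fintype.card_sum, Fintype.card_fin]
      unfold Set.finrank at this
      omega)
  have key : ∀ a, (∀ v ∈ s (φ a), g.1 v = v) → a⁻¹ * φ.symm g * a ∈ (K : Subgroup _) :=
    fun a ha => hK ⟨(φ a)⁻¹ * g * φ a, fun j hj => by
      rw [O_mul_apply, O_mul_apply, ha _ (Finset.mem_image_of_mem _ (by simpa using hj)),
        O_inv_apply], by simp⟩
  refine fun h => hg ((MulEquiv.map_eq_one_iff φ.symm).mp ((Subgroup.eq_bot_iff_forall _).mp h _
    (Subgroup.mem_inf.mpr ⟨?_, ?_⟩)))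
  · rw [Sylow.coe_subgroup_smul, Subgroup.mem_pointwise_smul_iff_inv_smul_mem]
    simpa using key y fun v hv => hg' v (Submodule.subset_span (by simp [hv]))
  · rw [Sylow.coe_subgroup_smul, Subgroup.mem_pointwise_smul_iff_inv_smul_mem,
      Subgroup.mem_pointwise_smul_iff_inv_smul_mem]
    simpa [mul_assoc] using key (x * y) fun v hv =>
      hg' v (Submodule.subset_span (Finset.mem_coe.mpr (Finset.mem_union_right _ hv)))

end Cfsg.Agent.S2487
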