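import Cfsg.Statements.S2488
import Mathlib
import Cfsg.Agent.PLOC.PNormal

set_option autoImplicit false
open scoped Pointwise
open Cfsg

namespace Cfsg.Agent.S2488

open Equiv Equiv.Perm
open scoped Pointwise

/-- A fixed involution of the alternating group of degree six. -/
def z0 : Perm (Fin 6) := swap 0 1 * swap 2 3

theorem z0_cent :
    (Finset.univ.filter fun w : Perm (Fin 6) => z0 * w = w * z0 ∧ Perm.sign w = 1).card ≤ 8 := by
  decide +kernel

theorem z0_count1 : (Finset.univ.filter fun w : Perm (Fin 6) =>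
    w * w = 1 ∧ Perm.sign w = 1 ∧ z0 * w * (z0 * w) * (z0 * w) = 1).card < 32 := by
  decide +kernel

theorem z0_count2 : (Finset.univ.filter fun w : Perm (Fin 6) =>
    w * w = 1 ∧ w ≠ 1 ∧ Perm.sign w = 1 ∧ z0 * w * (z0 * w) * (z0 * w) ≠ 1).card < 32 := by
  decide +kernel

theorem z0_cycleType : z0.cycleType = {2, 2} := by decide +kernel

theorem isConj_z0 (w : alternatingGroup (Fin 6)) (hw : orderOf w = 2) : IsConj w.1 z0 := by
  rw [isConj_iff_cycleType_eq, z0_cycleType]
  have ho : orderOf w.1 = 2 := by rw [Subgroup.orderOf_coe, hw]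
  obtain ⟨k, hk⟩ := cycleType_prime_order (σ := w.1) (by rw [ho]; exact Nat.prime_two)
  rw [ho] at hk
  have h1 := sum_cycleType_le w.1
  have h2 := mem_alternatingGroup.1 w.2
  rw [sign_of_cycleType, hk] at h2
  rw [hk] at h1 ⊢
  simp only [Multiset.sum_replicate, smul_eq_mul, Fintype.card_fin, Multiset.card_replicate] at h1 h2
  have : k ≤ 2 := by omega
  interval_cases k
  · exact absurd h2 (by decide)
  · rfl
  · exact absurd h2 (by decide)

theorem card_le_of_inj {X : Type*} (f : X → Perm (Fin 6)) (hf : Function.Injective f)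
    (s : Finset (Perm (Fin 6))) (hs : ∀ x, f x ∈ s) : Nat.card X ≤ s.card := by
  rw [← Nat.card_eq_finsetCard]
  exact Nat.card_le_card_of_injective (fun x => (⟨f x, hs x⟩ : s))
    (fun a b h => hf (congrArg Subtype.val h))

/-- Let G be a finite group with a normal subgroup N of index 4 isomorphic to the alternating group of degree 6 and with trivial centralizer in G (so G is the full automorphism group of A₆). Then any two Sylow 2-subgroups of G have a non-trivial intersection: for a Sylow 2-subgroup H and every x ∈ G, H ∩ H^x ≠ 1. -/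
theorem result {G : Type*} [Group G] [Finite G] (N : Subgroup G) [N.Normal]
    (e : N ≃* alternatingGroup (Fin 6)) (hidx : N.index = 4)
    (hC : Subgroup.centralizer (N : Set G) = ⊥)
    (H : Sylow 2 G) (x : G) :
    (H : Subgroup G) ⊓ MulAut.conj x • (H : Subgroup G) ≠ ⊥ := by
  intro hbot
  have hN : Nat.card N = 360 := by
    rw [Nat.card_congr e.toEquiv, nat_card_alternatingGroup]; simp [Nat.factorial]
  have hG : Nat.card G = 1440 := by rw [← N.card_mul_index, hN, hidx]
  have hH : Nat.card (H : Subgroup G) = 32 := by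
    rw [H.card_eq_multiplicity, hG]
    have : Nat.factorization 1440 2 = 5 := by
      rw [show (1440 : ℕ) = 2 ^ 5 * 45 by norm_num,
        Nat.factorization_mul (by norm_num) (by norm_num), Nat.factorization_pow]
      simp [Nat.prime_two.factorization, Nat.factorization_eq_zero_of_not_dvd]
    rw [this]; norm_num
  have hrel : ∀ K : Subgroup G, Nat.card K ≤ Nat.card (N.subgroupOf K) * 4 := by
    intro K
    rw [← (N.subgroupOf K).card_mul_index]
    exact Nat.mul_le_mul_left _ (Nat.le_of_dvd (by norm_num)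
      (hidx ▸ Subgroup.relIndex_dvd_index_of_normal N K))
  have hne : N.subgroupOf (H : Subgroup G) ≠ ⊥ := by
    intro h
    have := hrel H
    rw [h, hH, Subgroup.card_bot] at this
    omega
  obtain ⟨z, hzN, hzc, hzo⟩ := CL.PN.exists_mem_center_orderOf_eq H.isPGroup' _ hne
  have hzN' : z.1 ∈ N := hzN
  have hzo' : orderOf (e ⟨z.1, hzN'⟩) = 2 := by
    rw [MulEquiv.orderOf_eq, Subgroup.orderOf_mk, Subgroup.orderOf_coe, hzo]
  obtain ⟨σ, hσ⟩ := isConj_iff.1 (isConj_z0 _ hzo')
  let f : N →* Perm (Fin 6) := (MulAut.conj σ).toMonoidHom.comp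
    ((alternatingGroup (Fin 6)).subtype.comp e.toMonoidHom)
  have hf : Function.Injective f :=
    (MulAut.conj σ).injective.comp (Subtype.val_injective.comp e.injective)
  have hfz : f ⟨z.1, hzN'⟩ = z0 := hσ
  have hfs : ∀ n, Perm.sign (f n) = 1 := fun n =>
    mem_alternatingGroup.1 (Subgroup.Normal.conj_mem inferInstance _ (e n).2 σ)
  have hHz : ∀ h ∈ (H : Subgroup G), h * z.1 = z.1 * h := fun h hh =>
    congrArg Subtype.val (Subgroup.mem_center_iff.1 hzc ⟨h, hh⟩)
  have hCH : (H : Subgroup G) = Subgroup.centralizer {z.1} := by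
    apply Subgroup.eq_of_le_of_card_ge
    · exact fun h hh => Subgroup.mem_centralizer_singleton_iff.2 (hHz h hh)
    · refine (hrel _).trans ?_
      rw [hH]
      have h8 : Nat.card (N.subgroupOf (Subgroup.centralizer {z.1})) ≤ 8 := by
        refine le_trans (card_le_of_inj
          (fun c : N.subgroupOf (Subgroup.centralizer {z.1}) => f ⟨c.1.1, c.2⟩)
          (fun a b h => Subtype.ext (Subtype.ext (congrArg (fun n : N => n.1) (hf h)))) _ (fun c => ?_)) z0_cent
        rw [Finset.mem_filter]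
        refine ⟨Finset.mem_univ _, ?_, hfs _⟩
        rw [← hfz, ← map_mul, ← map_mul]
        congr 1
        exact Subtype.ext (Subgroup.mem_centralizer_singleton_iff.1 c.1.2).symm
      omega
  have hmem : ∀ h : G, h * (x * z.1 * x⁻¹) * h⁻¹ ∈ N := fun h =>
    Subgroup.Normal.conj_mem inferInstance _ (Subgroup.Normal.conj_mem inferInstance _ hzN' x) h
  let w : ↥(H : Subgroup G) → ↥N := fun h => ⟨_, hmem h.1⟩
  have hw : Function.Injective w := by
    intro a b hab
    have h1 : a.1 * (x * z.1 * x⁻¹) * a.1⁻¹ = b.1 * (x * z.1 * x⁻¹) * b.1⁻¹ := congrArg Subtype.val hab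
    have h2 : b.1⁻¹ * a.1 ∈ (H : Subgroup G) ⊓ MulAut.conj x • (H : Subgroup G) := by
      refine Subgroup.mem_inf.2 ⟨mul_mem (inv_mem b.2) a.2, ?_⟩
      rw [Subgroup.mem_pointwise_smul_iff_inv_smul_mem]
      refine hCH.ge (Subgroup.mem_centralizer_singleton_iff.2 ?_)
      simp only [← map_inv, MulAut.smul_def, MulAut.conj_apply, inv_inv]
      calc x⁻¹ * (b.1⁻¹ * a.1) * x * z.1
          = x⁻¹ * b.1⁻¹ * (a.1 * (x * z.1 * x⁻¹) * a.1⁻¹) * a.1 * x := by group
        _ = _ := by rw [h1]; group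
    rw [hbot, Subgroup.mem_bot, inv_mul_eq_one] at h2
    exact Subtype.ext h2.symm
  have hz2 : z.1 * z.1 = 1 := by
    have := pow_orderOf_eq_one z
    rw [hzo, pow_two] at this
    exact congrArg Subtype.val this
  have hz1 : z.1 ≠ 1 := fun h => by
    rw [show z = 1 from Subtype.ext h, orderOf_one] at hzo
    omega
  have hw2 : ∀ h, f (w h) * f (w h) = 1 := fun h => by
    rw [← map_mul, ← map_one f]
    congr 1
    apply Subtype.ext
    show h.1 * (x * z.1 * x⁻¹) * h.1⁻¹ * (h.1 * (x * z.1 * x⁻¹) * h.1⁻¹) = 1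
    calc _ = h.1 * x * (z.1 * z.1) * x⁻¹ * h.1⁻¹ := by group
      _ = 1 := by rw [hz2]; group
  have hw1 : ∀ h, f (w h) ≠ 1 := fun h he => by
    have : h.1 * (x * z.1 * x⁻¹) * h.1⁻¹ = 1 := congrArg Subtype.val (hf (he.trans (map_one f).symm))
    apply hz1
    calc z.1 = x⁻¹ * h.1⁻¹ * (h.1 * (x * z.1 * x⁻¹) * h.1⁻¹) * h.1 * x := by group
      _ = 1 := by rw [this]; group
  have hw3 : ∀ h, z0 * f (w h) * (z0 * f (w h)) * (z0 * f (w h)) = 1 ↔
      (z.1 * (x * z.1 * x⁻¹)) ^ 3 = 1 := fun h => by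
    rw [← hfz, ← map_mul, ← map_mul, ← map_mul, map_eq_one_iff f hf, Subtype.ext_iff]
    have e1 : z.1 * (h.1 * (x * z.1 * x⁻¹) * h.1⁻¹) = h.1 * (z.1 * (x * z.1 * x⁻¹)) * h.1⁻¹ := by
      rw [← mul_assoc, ← mul_assoc, ← hHz h.1 h.2]; group
    show z.1 * (h.1 * (x * z.1 * x⁻¹) * h.1⁻¹) * (z.1 * (h.1 * (x * z.1 * x⁻¹) * h.1⁻¹)) *
      (z.1 * (h.1 * (x * z.1 * x⁻¹) * h.1⁻¹)) = 1 ↔ _
    rw [e1, ← pow_three', conj_pow, conj_eq_one_iff]
  by_cases h3 : (z.1 * (x * z.1 * x⁻¹)) ^ 3 = 1
  · refine absurd (lt_of_le_of_lt (card_le_of_inj (fun h => f (w h)) (hf.comp hw) _ (fun h => ?_))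
      z0_count1) (by omega)
    exact Finset.mem_filter.2 ⟨Finset.mem_univ _, hw2 h, hfs _, (hw3 h).2 h3⟩
  · refine absurd (lt_of_le_of_lt (card_le_of_inj (fun h => f (w h)) (hf.comp hw) _ (fun h => ?_))
      z0_count2) (by omega)
    exact Finset.mem_filter.2 ⟨Finset.mem_univ _, hw2 h, hw1 h, hfs _, fun hh => h3 ((hw3 h).1 hh)⟩

end Cfsg.Agent.S2488
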