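import Cfsg.Statements.S2490
import Cfsg.Agent.SPOR.Ord11c
-- import your own Cfsg.Agent.* helpers here

set_option autoImplicit false
open Cfsg

namespace Cfsg.Agent.S2490

/-- Let G be a finite group of order 7920 = 2⁴·3²·5·11 (the order of the smallest Mathieu group) and suppose its prime graph (vertices the prime divisors of the order, distinct p, q joined when there is an element of order pq) is disconnected: the prime divisors split into two non-empty parts with no element of order pq for p in one part and q in the other. Then G is simple. -/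
theorem result {G : Type*} [Group G] [Finite G] (hord : Nat.card G = 7920)
    (hdisc : (∃ A : Set ℕ, (∃ a ∈ A, a.Prime ∧ a ∣ Nat.card G) ∧ (∃ b ∉ A, b.Prime ∧ b ∣ Nat.card G) ∧
      ∀ a ∈ A, ∀ b ∉ A, a.Prime → b.Prime → a ∣ Nat.card G → b ∣ Nat.card G → ¬ ∃ g : G, orderOf g = a * b)) :
    IsSimpleGroup G := by
  obtain ⟨A, ⟨a, haA, ha, ha'⟩, ⟨b, hbA, hb, hb'⟩, h⟩ := hdisc
  have key : ∀ p ∈ [2, 3, 5, 11], ∀ q ∈ [2, 3, 5, 11], ¬ (p ∈ A ↔ q ∈ A) →
      ∀ g : G, orderOf g ≠ p * q := fun p hp q hq hpq g hg => by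
    have h1 : ∀ p ∈ [2, 3, 5, 11], p.Prime ∧ p ∣ Nat.card G := by simp [hord]; norm_num
    by_cases h2 : p ∈ A
    · exact h p h2 q (by tauto) (h1 p hp).1 (h1 q hq).1 (h1 p hp).2 (h1 q hq).2 ⟨g, hg⟩
    · exact h q (by tauto) p h2 (h1 q hq).1 (h1 p hp).1 (h1 q hq).2 (h1 p hp).2
        ⟨g, hg.trans (mul_comm _ _)⟩
  have h2 : ∀ p : ℕ, p.Prime → p ∣ Nat.card G → p = 2 ∨ p = 3 ∨ p = 5 ∨ p = 11 := fun p hp h => by
    have := Nat.mem_primeFactors.2 ⟨hp, h, Nat.card_pos.ne'⟩
    rw [hord, show Nat.primeFactors 7920 = {2, 3, 5, 11} by decide +kernel] at this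
    simpa using this
  by_cases h3 : 11 ∈ A ↔ 2 ∈ A
  swap
  · exact CL.Ord.simple_of_not_22 hord (key 11 (by simp) 2 (by simp) h3)
  by_cases h4 : 11 ∈ A ↔ 3 ∈ A
  swap
  · exact (CL.Ord.false_of_three hord (key 2 (by simp) 3 (by simp) (by tauto))
      (key 11 (by simp) 3 (by simp) h4)).elim
  have h5 : ¬ (5 ∈ A ↔ 11 ∈ A) := by
    rcases h2 a ha ha' with rfl | rfl | rfl | rfl <;>
      rcases h2 b hb hb' with rfl | rfl | rfl | rfl <;> tauto
  refine CL.Ord.simple_of_five hord fun q hq => key 5 (by simp) q (by simp_all; tauto) ?_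
  simp only [List.mem_cons, List.not_mem_nil, or_false] at hq
  rcases hq with rfl | rfl | rfl <;> tauto

end Cfsg.Agent.S2490
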