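import Cfsg.Statements.S2495
import Cfsg.Agent.KSG.GLnSmall
import Cfsg.Agent.KSG.Zsigmondy

set_option autoImplicit false
open Cfsg

namespace Cfsg.Agent.S2495

open CL.GLn Polynomial Module

theorem gcd_geom {q : ℕ} (hq : 2 ≤ q) (n : ℕ) :
    Nat.gcd ((q ^ n - 1) / (q - 1)) (q - 1) = Nat.gcd n (q - 1) := by
  rw [← Nat.geomSum_eq hq]
  refine Nat.ModEq.gcd_eq ?_
  have h1 : q ≡ 1 [MOD q - 1] := ((Nat.modEq_iff_dvd' (by omega)).2 dvd_rfl).symm
  induction n with
  | zero => rfl
  | succ n ih =>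
    rw [Finset.sum_range_succ]
    exact ih.add (by simpa using h1.pow n)

theorem gcd_dvd_iff {m t : ℕ} (hm : m ≠ 0) (ht : t ≠ 0) :
    Nat.gcd (2 * m) t ∣ m ↔ padicValNat 2 t < padicValNat 2 (2 * m) := by
  rw [padicValNat.mul two_ne_zero hm, padicValNat_self]
  constructor
  · intro h
    by_contra h1
    have h2 : 2 ^ (padicValNat 2 m + 1) ∣ t := (padicValNat_dvd_iff_le ht).2 (by omega)
    have h3 : 2 ^ (padicValNat 2 m + 1) ∣ 2 * m := by
      rw [pow_succ']
      exact Nat.mul_dvd_mul_left _ pow_padicValNat_dvd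
    exact pow_succ_padicValNat_not_dvd hm ((Nat.dvd_gcd h3 h2).trans h)
  · intro h
    rw [Nat.dvd_iff_prime_pow_dvd_dvd]
    intro p k hp h1
    rcases eq_or_ne p 2 with rfl | h2
    · have := (padicValNat_dvd_iff_le ht).1 (h1.trans (Nat.gcd_dvd_right _ _))
      exact (padicValNat_dvd_iff_le hm).2 (by omega)
    · exact (((Nat.coprime_primes hp Nat.prime_two).2 h2).pow_left k).dvd_of_dvd_mul_left
        (h1.trans (Nat.gcd_dvd_left _ _))

theorem dvd_iff {q m : ℕ} (hq : 2 ≤ q) (hm : m ≠ 0) :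
    q ^ m + 1 ∣ (q ^ (2 * m) - 1) / (q - 1) / Nat.gcd ((q ^ (2 * m) - 1) / (q - 1)) (q - 1) ↔
      padicValNat 2 (q - 1) < padicValNat 2 (2 * m) := by
  rw [Nat.dvd_div_iff_mul_dvd (Nat.gcd_dvd_left _ _), gcd_geom hq, ← gcd_dvd_iff hm (by omega)]
  have h1 : (q ^ (2 * m) - 1) / (q - 1) = (q ^ m - 1) / (q - 1) * (q ^ m + 1) := by
    rw [mul_comm _ (q ^ m + 1), ← Nat.mul_div_assoc _ (Nat.sub_one_dvd_pow_sub_one _ _), mul_comm 2, pow_mul]
    congr 1
    simpa using Nat.sq_sub_sq (q ^ m) 1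
  rw [h1, Nat.mul_dvd_mul_iff_right (by omega)]
  refine ⟨fun h => ?_, fun h => ?_⟩
  · have := Nat.dvd_gcd h (Nat.gcd_dvd_right _ _)
    rw [gcd_geom hq] at this
    exact this.trans (Nat.gcd_dvd_left _ _)
  · have := Nat.dvd_gcd h (Nat.gcd_dvd_right _ _)
    rw [← gcd_geom hq m] at this
    exact this.trans (Nat.gcd_dvd_left _ _)

theorem result {F : Type*} [Field F] [Fintype F] {q : ℕ} (hF : Fintype.card F = q) (hodd : Odd q)
    {n : ℕ} (hn : 4 ≤ n) (heven : Even n) :
    (∃ g : Matrix.ProjectiveSpecialLinearGroup (Fin n) F, orderOf g = q ^ (n / 2) + 1) ↔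
      padicValNat 2 (q - 1) < padicValNat 2 n := by
  subst hF
  obtain ⟨m, rfl⟩ := heven.two_dvd
  obtain ⟨p, hchar⟩ := CharP.exists F
  have hp : p.Prime := CharP.char_is_prime F p
  have := Fact.mk hp
  have hq : 2 ≤ Fintype.card F := Fintype.one_lt_card
  have hM : 0 < (Fintype.card F ^ (2 * m) - 1) / (Fintype.card F - 1) := by
    have : 1 < Fintype.card F ^ (2 * m) := Nat.one_lt_pow (by omega) hq
    exact Nat.div_pos (Nat.le_of_dvd (by omega) (Nat.sub_one_dvd_pow_sub_one _ _)) (by omega)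
  rw [Nat.mul_div_cancel_left _ two_pos, ← dvd_iff hq (by omega)]
  constructor
  · rintro ⟨y, hy⟩
    induction y using QuotientGroup.induction_on with
    | H A =>
    obtain ⟨r, hr, h1⟩ := CL.Zsig.exists_prime_orderOf_eq_of_three_le (a := Fintype.card F)
      (n := 2 * m) hq (by omega) (fun h => absurd (h.1 ▸ hodd) (by decide))
    obtain ⟨h2, h3⟩ := (CL.Zsig.orderOf_eq_iff_primitive (by omega) (by omega)).1 h1
    have h4 : r ∣ Fintype.card F ^ m + 1 := by
      rw [mul_comm, pow_mul, ← one_pow 2, Nat.sq_sub_sq] at h2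
      exact (hr.prime.dvd_or_dvd h2).resolve_right (h3 m (by omega) (by omega))
    have hrp : r ≠ p := by
      rintro rfl
      exact hr.coprime_iff_not_dvd.1 (char_coprime_card_pow_sub_one r (by omega)) h2
    obtain ⟨s, hs⟩ := exists_hasED (Matrix.toLin' (A : Matrix (Fin (2 * m)) (Fin (2 * m)) F))
    obtain ⟨⟨P, e⟩, hx, h5⟩ := hs.exists_orderOf_dvd_natDegree_sl p hr hrp
      ((h4.trans hy.symm.dvd).trans (orderOf_map_dvd (QuotientGroup.mk' _) A))
    rw [h1] at h5
    have h6 := Nat.le_of_dvd (hs.1.natDegree_pos hx) h5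
    have h7 := hs.le_card hx
    have h8 := hs.1.natDegree_le hx
    rw [Fintype.card_fin] at h7
    have h9 : P.natDegree = 2 * m := by simp only at h6 h7 h8; omega
    obtain rfl : e = 1 := by
      simp only [h9] at h7 h8
      exact (Nat.mul_eq_right (by omega)).1 (le_antisymm h7 h8)
    obtain rfl := hs.eq_singleton hx (by simp [h9])
    have hP1 : Irreducible P := (hs.1 _ hx).2.1
    have := Fact.mk hP1
    have h10 := algebraMap_norm_root hP1
    have hdet := hs.prod_norm_eq_one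
    simp only [Multiset.map_singleton, Multiset.prod_singleton, pow_one] at hdet
    rw [hdet, map_one, h9] at h10
    have h11 : AdjoinRoot.root P ≠ 0 := by
      intro h
      rw [h, zero_pow (by omega)] at h10
      exact one_ne_zero h10
    rw [← hy, orderOf_dvd_iff_pow_eq_one, psl_pow_eq_one_iff]
    simp only [hs.matrix_pow_eq_algebraMap_iff, Multiset.mem_singleton, forall_eq, pow_one]
    simp only [dvd_X_pow_sub_C_iff]
    rw [pow_mem_range_algebraMap_iff h11, ← orderOf_dvd_iff_pow_eq_one]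
    refine (orderOf_dvd_of_pow_eq_one h10.symm).trans ?_
    rw [dvd_mul_iff_div_gcd_dvd hM]
  · intro h
    have : NeZero (2 * m) := ⟨by omega⟩
    obtain ⟨x, hx⟩ := exists_extension_orderOf (F := F) p (2 * m)
      (Nat.div_dvd_of_dvd (Nat.sub_one_dvd_pow_sub_one (Fintype.card F) (2 * m)))
    have hx0 : x ≠ 0 := by
      rintro rfl
      rw [orderOf_zero] at hx
      omega
    obtain ⟨y, hy⟩ := exists_psl_of_algebra (F := F) (n := Fin (2 * m))
      (by simp only [FiniteField.finrank_extension, Fintype.card_fin]) x (by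
        apply (algebraMap F (FiniteField.Extension F p (2 * m))).injective
        rw [FiniteField.algebraMap_norm_eq_pow, natCard_extension', Nat.card_eq_fintype_card,
          ← hx, pow_orderOf_eq_one, map_one])
    refine exists_orderOf_eq_of_dvd_orderOf (x := y) (h.trans (Eq.dvd (Eq.symm ?_)))
    refine orderOf_eq_of_forall_iff fun k => ?_
    rw [hy, pow_mem_range_algebraMap_iff hx0, ← orderOf_dvd_iff_pow_eq_one, hx,
      dvd_mul_iff_div_gcd_dvd hM]

end Cfsg.Agent.S2495
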