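import Cfsg.Statements.S2496
import Cfsg.Agent.CLAS.UniOrd
import Cfsg.Agent.S2495

set_option autoImplicit false
open Cfsg

namespace Cfsg.Agent.S2496

/-- Let q be an odd prime power, n ≥ 4 even, and U = PSU(n,q) (realised over the field with q² elements). Then U has an element of order q^(n/2) + (−1)^(n/2) — that is, q^(n/2) + 1 when n/2 is even and q^(n/2) − 1 when n/2 is odd — if and only if the 2-part of n exceeds the 2-part of q + 1. -/
theorem result {F : Type*} [Field F] [Fintype F] {q : ℕ} (hF : Fintype.card F = q ^ 2) (hodd : Odd q)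
    {n : ℕ} (hn : 4 ≤ n) (heven : Even n) :
    (∃ g : Cfsg.PSU n F q, orderOf g = if Even (n / 2) then q ^ (n / 2) + 1 else q ^ (n / 2) - 1) ↔
      padicValNat 2 (q + 1) < padicValNat 2 n := by
  open CL.GLn CL.UniED CL.SpU Polynomial in
  obtain ⟨m, rfl⟩ := heven.two_dvd
  obtain ⟨p, hchar⟩ := CharP.exists F
  have hp : p.Prime := CharP.char_is_prime F p
  have := Fact.mk hp
  have hq := CL.SqField.two_le hF
  have hM := gg_pos hq (m := 2 * m) (by omega)
  rw [Nat.mul_div_cancel_left _ two_pos, ← S2495.gcd_dvd_iff (by omega) (by omega)]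
  set N := if Even m then q ^ m + 1 else q ^ m - 1 with hN
  have h1m : 1 < q ^ m := Nat.one_lt_pow (by omega) hq
  have hN0 : 0 < N := by rw [hN]; split_ifs <;> omega
  have hgg : gg q (2 * m) = gg q m * N := by
    have := gg_two_mul (q := q) (by omega) m
    zify
    rw [this, hN]
    split_ifs with h
    · rw [h.neg_one_pow]
      push_cast
      ring
    · rw [(Nat.not_even_iff_odd.1 h).neg_one_pow, Nat.cast_sub h1m.le]
      push_cast
      ring
  have key : N ∣ gg q (2 * m) / Nat.gcd (gg q (2 * m)) (q + 1) ↔ Nat.gcd (2 * m) (q + 1) ∣ m := by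
    rw [Nat.dvd_div_iff_mul_dvd (Nat.gcd_dvd_left _ _), gcd_gg, hgg,
      Nat.mul_dvd_mul_iff_right hN0, dvd_gg_iff_of_dvd (Nat.gcd_dvd_right _ _)]
  rw [← key]
  constructor
  · rintro ⟨y, hy⟩
    induction y using QuotientGroup.induction_on with
    | H A =>
    have hr : ∃ r, r.Prime ∧ r ∣ N ∧ r ∣ q ^ (2 * m) - 1 ∧ ∀ k, 0 < k → r ∣ NN q k → 2 * m ≤ k := by
      have hpar : ∀ r k, Odd k → r ∣ NN q k → r ∣ q ^ (2 * k) - 1 := fun r k hk h => by
        rw [mul_comm, pow_mul, ← one_pow 2, Nat.sq_sub_sq, ← NN_odd hk]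
        exact h.mul_right _
      rcases Nat.even_or_odd m with hm | hm
      · obtain ⟨r, hr, h1⟩ := CL.Zsig.exists_prime_orderOf_eq_of_three_le (a := q)
          (n := 2 * m) hq (by omega) (fun h => absurd (h.1 ▸ hodd) (by decide))
        obtain ⟨h2, h3⟩ := (CL.Zsig.orderOf_eq_iff_primitive (by omega) (by omega)).1 h1
        refine ⟨r, hr, ?_, h2, fun k hk h => ?_⟩
        · rw [mul_comm, pow_mul, ← one_pow 2, Nat.sq_sub_sq] at h2
          rw [hN, if_pos hm]
          exact (hr.prime.dvd_or_dvd h2).resolve_right (h3 m (by omega) (by omega))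
        · rcases Nat.even_or_odd k with hk' | hk'
          · rw [NN_even (by omega) hk', ← orderOf_dvd_iff_dvd_pow_sub_one (by omega), h1] at h
            exact Nat.le_of_dvd hk h
          · have h4 := hpar r k hk' h
            rw [← orderOf_dvd_iff_dvd_pow_sub_one (by omega), h1,
              Nat.mul_dvd_mul_iff_left two_pos] at h4
            exact absurd (hm.two_dvd.trans h4) hk'.not_two_dvd_nat
      · obtain ⟨r, hr, h1⟩ := CL.Zsig.exists_prime_orderOf_eq_of_three_le (a := q)
          (n := m) hq (by obtain ⟨j, rfl⟩ := hm; omega) (fun h => absurd (h.1 ▸ hodd) (by decide))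
        obtain ⟨h2, h3⟩ := (CL.Zsig.orderOf_eq_iff_primitive (by omega) (by omega)).1 h1
        have hc : m.Coprime 2 := (Nat.coprime_two_right).2 hm
        refine ⟨r, hr, by rwa [hN, if_neg (Nat.not_even_iff_odd.2 hm)],
          h2.trans (Nat.pow_sub_one_dvd_pow_sub_one _ (dvd_mul_left _ _)), fun k hk h => ?_⟩
        rcases Nat.even_or_odd k with hk' | hk'
        · rw [NN_even (by omega) hk', ← orderOf_dvd_iff_dvd_pow_sub_one (by omega), h1] at h
          exact Nat.le_of_dvd hk (hc.symm.mul_dvd_of_dvd_of_dvd hk'.two_dvd h)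
        · exfalso
          have h4 := hpar r k hk' h
          rw [← orderOf_dvd_iff_dvd_pow_sub_one (by omega), h1, hc.dvd_mul_left, ← h1,
            orderOf_dvd_iff_dvd_pow_sub_one (by omega)] at h4
          rw [NN_odd hk'] at h
          have h5 := Nat.dvd_sub h h4
          have h6 : 1 ≤ q ^ k := Nat.one_le_pow _ _ (by omega)
          rw [show q ^ k + 1 - (q ^ k - 1) = 2 by omega,
            Nat.prime_dvd_prime_iff_eq hr Nat.prime_two] at h5
          subst h5
          refine h3 1 one_pos (by omega) ?_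
          obtain ⟨j, rfl⟩ := hodd
          simp
    obtain ⟨r, hr, h1, h2, h3⟩ := hr
    have hrp : r ≠ p := by
      rintro rfl
      refine hr.coprime_iff_not_dvd.1 (char_coprime_card_pow_sub_one (F := F) r (d := m)
        (by omega)) ?_
      rwa [hF, ← pow_mul]
    obtain ⟨s, hs, hu, hw, -⟩ := exists_hasED_su hF A
    obtain ⟨k, hk⟩ := (h1.trans hy.symm.dvd).trans (orderOf_map_dvd (QuotientGroup.mk' _) A)
    have hk0 : 0 < k := Nat.pos_of_mul_pos_left (hk ▸ orderOf_pos A)
    have hpow : ∀ j, Matrix.toLin' (suToMat (2 * m) F q A) ^ j = 1 ↔ orderOf A ∣ j := fun j => by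
      rw [← map_one (algebraMap F _), toLin'_pow_eq_algebraMap_iff, map_one, ← map_pow,
        map_eq_one_iff _ suToMat_injective, orderOf_dvd_iff_pow_eq_one]
    obtain ⟨b, t, m', e, ω, δ, rfl, hb, ht, hd, h4⟩ := exists_blk_of_prime_dvd hF p hu hs hr hrp
      (k := k) ((hpow _).2 hk.dvd) (fun h => by
        have := Nat.le_of_dvd hk0 ((hpow _).1 h)
        have := hr.two_le
        nlinarith)
    have h5 := h3 m' hd.m_pos (h4.trans hd.dvd_NN)
    rw [wt_add, hd.wt_eq] at hw
    have h6 := Nat.le_mul_of_pos_right m' hd.e_pos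
    obtain rfl : t = 0 := by
      by_contra h
      have := wt_pos ht.1 h
      omega
    obtain rfl : e = 1 := by
      have := hd.e_pos
      by_contra h
      have : m' * 2 ≤ m' * e := Nat.mul_le_mul_left _ (by omega)
      omega
    rw [add_zero] at hs
    rw [← hy, orderOf_dvd_iff_pow_eq_one]
    refine psu_pow_eq_one_of_bd hF p (by omega) hs hd ?_ (by simp)
    rw [mul_comm _ (q + 1), dvd_mul_iff_div_gcd_dvd hM]
  · intro h
    obtain ⟨y, hy⟩ := exists_singer_psu hF (n := 2 * m) (by omega)
    refine exists_orderOf_eq_of_dvd_orderOf (x := y) (h.trans (Eq.dvd (Eq.symm ?_)))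
    refine orderOf_eq_of_forall_iff fun k => ?_
    rw [hy, mul_comm k, dvd_mul_iff_div_gcd_dvd hM]

end Cfsg.Agent.S2496
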