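import Cfsg.Statements.S2504
import Cfsg.Agent.KSG.AltAb

set_option autoImplicit false
open Cfsg

namespace Cfsg.Agent.S2504

/-- The largest order of an abelian subgroup of the alternating group of degree n is 3^k when n = 3k, 4·3^(k−1) when n = 3k + 1, and 16·3^(k−2) when n = 3k + 2, for every k ≥ 2 (so for all degrees n ≥ 6). -/
theorem result (k : ℕ) (hk : 2 ≤ k) :
    IsGreatest {c : ℕ | ∃ A : Subgroup (alternatingGroup (Fin (3 * k))), IsMulCommutative A ∧ Nat.card A = c} (3 ^ k) ∧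
    IsGreatest {c : ℕ | ∃ A : Subgroup (alternatingGroup (Fin (3 * k + 1))), IsMulCommutative A ∧ Nat.card A = c}
      (4 * 3 ^ (k - 1)) ∧
    IsGreatest {c : ℕ | ∃ A : Subgroup (alternatingGroup (Fin (3 * k + 2))), IsMulCommutative A ∧ Nat.card A = c}
      (16 * 3 ^ (k - 2)) := by
  obtain ⟨j, rfl⟩ := Nat.exists_eq_add_of_le' hk
  refine ⟨?_, ?_, ?_⟩
  · have := CL.KSG.isGreatest_alt (α := Fin (3 * (j + 2)))
    rwa [Fintype.card_fin, CL.KSG.abG_three_mul] at this
  · have := CL.KSG.isGreatest_alt (α := Fin (3 * (j + 2) + 1))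
    rwa [Fintype.card_fin, CL.KSG.abG_three_mul_add_one (j + 1)] at this
  · have := CL.KSG.isGreatest_alt (α := Fin (3 * (j + 2) + 2))
    rwa [Fintype.card_fin, CL.KSG.abG_three_mul_add_two] at this

end Cfsg.Agent.S2504
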