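import Cfsg.Statements.S2505
import Cfsg.Agent.KSG.AltAb

set_option autoImplicit false
open Cfsg

namespace Cfsg.Agent.S2505

/-- The largest order of an abelian subgroup of the symmetric group of degree n is 3^k when n = 3k, 4·3^(k−1) when n = 3k + 1, and 2·3^k when n = 3k + 2, for every k ≥ 1. -/
theorem result (k : ℕ) (hk : 1 ≤ k) :
    IsGreatest {c : ℕ | ∃ A : Subgroup (Equiv.Perm (Fin (3 * k))), IsMulCommutative A ∧ Nat.card A = c} (3 ^ k) ∧
    IsGreatest {c : ℕ | ∃ A : Subgroup (Equiv.Perm (Fin (3 * k + 1))), IsMulCommutative A ∧ Nat.card A = c}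
      (4 * 3 ^ (k - 1)) ∧
    IsGreatest {c : ℕ | ∃ A : Subgroup (Equiv.Perm (Fin (3 * k + 2))), IsMulCommutative A ∧ Nat.card A = c}
      (2 * 3 ^ k) := by
  obtain ⟨j, rfl⟩ := Nat.exists_eq_add_of_le' hk
  have key : ∀ n (A : Subgroup (Equiv.Perm (Fin n))), IsMulCommutative A →
      Nat.card A ≤ CL.KSG.abF n := fun n A hA => by
    have := CL.KSG.card_le_abF (S := Finset.univ) hA (by rw [CL.KSG.permOn_univ]; exact le_top)
    simpa using this
  refine ⟨⟨?_, ?_⟩, ⟨?_, ?_⟩, ⟨?_, ?_⟩⟩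
  · obtain ⟨A, -, h2, h3⟩ := CL.KSG.exists_card_eq_abG (Finset.univ : Finset (Fin (3 * (j + 1))))
    rw [Finset.card_univ, Fintype.card_fin, CL.KSG.abG_three_mul] at h3
    exact ⟨A, h2, h3⟩
  · rintro _ ⟨A, hA, rfl⟩
    exact CL.KSG.abF_three_mul _ ▸ key _ A hA
  · obtain ⟨A, -, h2, h3⟩ :=
      CL.KSG.exists_card_eq_abG (Finset.univ : Finset (Fin (3 * (j + 1) + 1)))
    rw [Finset.card_univ, Fintype.card_fin, CL.KSG.abG_three_mul_add_one] at h3
    exact ⟨A, h2, h3⟩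
  · rintro _ ⟨A, hA, rfl⟩
    have := key _ A hA
    rwa [CL.KSG.abF_three_mul_add_one] at this
  · obtain ⟨A, -, h2, h3⟩ := CL.KSG.exists_card_eq_two_mul_abG
      (S := (Finset.univ : Finset (Fin (3 * (j + 1) + 2)))) (by simp)
    rw [Finset.card_univ, Fintype.card_fin, Nat.add_sub_cancel, CL.KSG.abG_three_mul] at h3
    exact ⟨A, h2, h3⟩
  · rintro _ ⟨A, hA, rfl⟩
    exact CL.KSG.abF_three_mul_add_two _ ▸ key _ A hA

end Cfsg.Agent.S2505
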