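import Cfsg.Statements.S2506
import Cfsg.Agent.KSG.AltAb

set_option autoImplicit false
open scoped Pointwise
open Cfsg

namespace Cfsg.Agent.S2506

/-- In the alternating group of any degree, any two abelian subgroups of the largest possible order (among abelian subgroups) are conjugate. -/
theorem result (n : ℕ)
    (A B : Subgroup (alternatingGroup (Fin n))) (hA : IsMulCommutative A) (hB : IsMulCommutative B)
    (hAmax : ∀ C : Subgroup (alternatingGroup (Fin n)), IsMulCommutative C → Nat.card C ≤ Nat.card A)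
    (hBmax : ∀ C : Subgroup (alternatingGroup (Fin n)), IsMulCommutative C → Nat.card C ≤ Nat.card B) :
    ∃ g : alternatingGroup (Fin n), B = MulAut.conj g • A := by
  obtain ⟨⟨C, hC, hC'⟩, h2⟩ := CL.KSG.isGreatest_alt (α := Fin n)
  have key : ∀ D : Subgroup (alternatingGroup (Fin n)), IsMulCommutative D →
      Nat.card C ≤ Nat.card D → Nat.card (D.map (alternatingGroup (Fin n)).subtype) =
        CL.KSG.abG (Finset.univ : Finset (Fin n)).card := fun D hD h => by
    rw [Subgroup.card_map_of_injective (Subgroup.subtype_injective _)]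
    exact le_antisymm (h2 ⟨D, hD, rfl⟩) (hC' ▸ h)
  obtain ⟨g, hg, h⟩ := CL.KSG.exists_conj_of_card_eq_abG (S := Finset.univ) inferInstance
    inferInstance (by rw [CL.KSG.altOn_univ]; exact Subgroup.map_subtype_le _)
    (by rw [CL.KSG.altOn_univ]; exact Subgroup.map_subtype_le _) (key A hA (hAmax C hC))
    (key B hB (hBmax C hC))
  refine ⟨⟨g, hg.2⟩, Subgroup.map_injective (Subgroup.subtype_injective _) ?_⟩
  rw [← h]
  ext x
  constructor
  · rintro ⟨_, ⟨y, hy, rfl⟩, rfl⟩
    exact ⟨_, Subgroup.smul_mem_pointwise_smul _ _ _ hy, rfl⟩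
  · rintro ⟨_, ⟨y, hy, rfl⟩, rfl⟩
    exact ⟨_, ⟨y, hy, rfl⟩, rfl⟩

end Cfsg.Agent.S2506
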