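import Cfsg.Statements.S2511
import Cfsg.Agent.CLAS.UniOrd
import Cfsg.Agent.S2510

set_option autoImplicit false
open Cfsg

namespace Cfsg.Agent.S2511

/-- Let F be a finite field with q² elements, q = p^a, n ≥ 3 with (n, q) ≠ (3, 2), L = PSU(n, q) realised over F, and let r be a prime dividing q + 1 and not dividing n. Then for every m the direct product L × L × L × (ℤ/r)^m has the same set of element orders as L × L × L; and if n − 1 is not a power of p, then already L × L × (ℤ/r)^m has the same set of element orders as L × L. -/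
theorem result {F : Type*} [Field F] [Fintype F] (p a n q r m : ℕ) (hp : p.Prime) (ha : 1 ≤ a) (hq : q = p ^ a) (hF : Fintype.card F = q ^ 2)
    (hn : 3 ≤ n) (hn3 : ¬ (n = 3 ∧ q = 2)) (hr : r.Prime) (hrq : r ∣ q + 1) (hrn : ¬ r ∣ n) :
    Set.range (orderOf : Cfsg.PSU n F q × Cfsg.PSU n F q × Cfsg.PSU n F q × Multiplicative (Fin m → ZMod r) → ℕ) = Set.range (orderOf : Cfsg.PSU n F q × Cfsg.PSU n F q × Cfsg.PSU n F q → ℕ) ∧
    ((¬ ∃ j : ℕ, n - 1 = p ^ j) →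
      Set.range (orderOf : Cfsg.PSU n F q × Cfsg.PSU n F q × Multiplicative (Fin m → ZMod r) → ℕ) = Set.range (orderOf : Cfsg.PSU n F q × Cfsg.PSU n F q → ℕ)) := by
  open CL.GLn CL.UniED in
  have := Fact.mk hp
  have : CharP F p := charP_of_card_eq_prime_pow (p := p) (f := a * 2) (by rw [hF, hq, pow_mul])
  obtain ⟨S, hS⟩ := exists_singer_psu hF (n := n) (by omega)
  have hS' := (hS _).1 (pow_orderOf_eq_one S)
  obtain ⟨u, hu⟩ := exists_regular_unipotent_psu hF p (n := n) (by omega)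
  obtain ⟨ζ, hζ0, hζ⟩ := exists_orderOf_eq_of_dvd_card_sub_one (F := F) (m := r) (hrq.trans (by
    rw [hF, ← one_pow 2, Nat.sq_sub_sq]
    exact dvd_mul_right _ _))
  obtain ⟨v, hv⟩ := exists_psu_jordan_pred hF p (n := n) (by omega) (a := ζ)
    (orderOf_dvd_iff_pow_eq_one.1 (hζ ▸ hrq))
  obtain ⟨hv1, hv2⟩ := (hv _).1 (pow_orderOf_eq_one v)
  rw [← orderOf_dvd_iff_pow_eq_one, hζ, (hr.coprime_iff_not_dvd.2 hrn).dvd_mul_left] at hv1
  have hd := psu_dichotomy hF p (n := n) (by omega) hr hrq hrn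
  refine ⟨Set.Subset.antisymm ?_ ?_, fun hj => Set.Subset.antisymm ?_ ?_⟩
  · rintro _ ⟨⟨x, y, z, w⟩, rfl⟩
    have hw := S2510.orderOf_dvd_of_zmod w
    suffices h : ∃ t : Cfsg.PSU n F q × Cfsg.PSU n F q × Cfsg.PSU n F q, orderOf x ∣ orderOf t ∧
        orderOf y ∣ orderOf t ∧ orderOf z ∣ orderOf t ∧ r ∣ orderOf t by
      obtain ⟨t, h1, h2, h3, h4⟩ := h
      refine exists_orderOf_eq_of_dvd_orderOf (x := t) ?_
      simp only [Prod.orderOf_mk, Nat.lcm_dvd_iff]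
      exact ⟨h1, h2, h3, hw.trans h4⟩
    have l1 : ∀ a b c : ℕ, a ∣ a.lcm (b.lcm c) := fun a b c => Nat.dvd_lcm_left _ _
    have l2 : ∀ a b c : ℕ, b ∣ a.lcm (b.lcm c) := fun a b c =>
      (Nat.dvd_lcm_left _ _).trans (Nat.dvd_lcm_right _ _)
    have l3 : ∀ a b c : ℕ, c ∣ a.lcm (b.lcm c) := fun a b c =>
      (Nat.dvd_lcm_right _ _).trans (Nat.dvd_lcm_right _ _)
    rcases hd x with ⟨x', h1, h2⟩ | hx
    · refine ⟨(x', y, z), ?_⟩
      simp only [Prod.orderOf_mk]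
      exact ⟨h1.trans (l1 _ _ _), l2 _ _ _, l3 _ _ _, h2.trans (l1 _ _ _)⟩
    rcases hd y with ⟨y', h1, h2⟩ | hy
    · refine ⟨(x, y', z), ?_⟩
      simp only [Prod.orderOf_mk]
      exact ⟨l1 _ _ _, h1.trans (l2 _ _ _), l3 _ _ _, h2.trans (l2 _ _ _)⟩
    rcases hd z with ⟨z', h1, h2⟩ | hz
    · refine ⟨(x, y, z'), ?_⟩
      simp only [Prod.orderOf_mk]
      exact ⟨l1 _ _ _, l2 _ _ _, h1.trans (l3 _ _ _), h2.trans (l3 _ _ _)⟩
    refine ⟨(S, u, v), ?_⟩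
    simp only [Prod.orderOf_mk]
    have h1 := hS'.trans (Nat.mul_dvd_mul_right (l1 (orderOf S) (orderOf u) (orderOf v)) _)
    have h2 := hu.symm.dvd.trans (l2 (orderOf S) (orderOf u) (orderOf v))
    exact ⟨hx _ h1 h2, hy _ h1 h2, hz _ h1 h2, hv1.trans (l3 _ _ _)⟩
  · rintro _ ⟨⟨x, y, z⟩, rfl⟩
    exact ⟨(x, y, z, 1), by simp [Prod.orderOf_mk]⟩
  · rintro _ ⟨⟨x, y, w⟩, rfl⟩
    have hw := S2510.orderOf_dvd_of_zmod w
    suffices h : ∃ t : Cfsg.PSU n F q × Cfsg.PSU n F q, orderOf x ∣ orderOf t ∧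
        orderOf y ∣ orderOf t ∧ r ∣ orderOf t by
      obtain ⟨t, h1, h2, h4⟩ := h
      refine exists_orderOf_eq_of_dvd_orderOf (x := t) ?_
      simp only [Prod.orderOf_mk, Nat.lcm_dvd_iff]
      exact ⟨h1, h2, hw.trans h4⟩
    rcases hd x with ⟨x', h1, h2⟩ | hx
    · refine ⟨(x', y), ?_⟩
      simp only [Prod.orderOf_mk]
      exact ⟨h1.trans (Nat.dvd_lcm_left _ _), Nat.dvd_lcm_right _ _,
        h2.trans (Nat.dvd_lcm_left _ _)⟩
    rcases hd y with ⟨y', h1, h2⟩ | hy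
    · refine ⟨(x, y'), ?_⟩
      simp only [Prod.orderOf_mk]
      exact ⟨Nat.dvd_lcm_left _ _, h1.trans (Nat.dvd_lcm_right _ _),
        h2.trans (Nat.dvd_lcm_right _ _)⟩
    refine ⟨(S, v), ?_⟩
    simp only [Prod.orderOf_mk]
    have h0 : Nat.clog p n ≤ Nat.clog p (n - 1) := by
      rw [Nat.clog_le_iff_le_pow hp.one_lt]
      have h3 := Nat.le_pow_clog hp.one_lt (n - 1)
      have h4 : n - 1 ≠ p ^ Nat.clog p (n - 1) := fun h => hj ⟨_, h⟩
      omega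
    have h1 := hS'.trans (Nat.mul_dvd_mul_right (Nat.dvd_lcm_left (orderOf S) (orderOf v)) _)
    have h2 := ((pow_dvd_pow p h0).trans hv2).trans (Nat.dvd_lcm_right (orderOf S) (orderOf v))
    exact ⟨hx _ h1 h2, hy _ h1 h2, hv1.trans (Nat.dvd_lcm_right _ _)⟩
  · rintro _ ⟨⟨x, y⟩, rfl⟩
    exact ⟨(x, y, 1), by simp [Prod.orderOf_mk]⟩

end Cfsg.Agent.S2511
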