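import Mathlib
import Cfsg.Statements.S2512
import Cfsg.Agent.KSG.SpecSp

set_option autoImplicit false
open Cfsg

namespace Cfsg.Agent.S2512

open CL.SpecK CL.Orth

theorem pair {G : Type*} [Group G] [Finite G] {R : ℕ} (hR : R ∈ Set.range (orderOf : G → ℕ))
    {a b : G} (ha : orderOf a ∣ R) (hb : orderOf b ∣ R) :
    ∃ c : G, orderOf c = (orderOf a).lcm (orderOf b) := by
  obtain ⟨x, rfl⟩ := hR
  exact CL.GLn.exists_orderOf_eq_of_dvd_orderOf (Nat.lcm_dvd ha hb)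

theorem lcm_ext {a b : ℕ} (h : ∀ k, a ∣ k ↔ b ∣ k) : a = b :=
  Nat.dvd_antisymm ((h b).2 dvd_rfl) ((h a).1 dvd_rfl)

theorem ranges {G : Type*} [Group G] [Finite G] {R₁ R₂ : ℕ} {C : Prop} (m : ℕ)
    (h1 : R₁ ∈ Set.range (orderOf : G → ℕ)) (h2 : R₂ ∈ Set.range (orderOf : G → ℕ))
    (h3 : 2 ∈ Set.range (orderOf : G → ℕ))
    (h : ∀ a : G, (∃ a' : G, orderOf a' = (orderOf a).lcm 2) ∨ orderOf a ∣ R₁ ∨
      (orderOf a ∣ R₂ ∧ C)) :
    Set.range (orderOf : G × G × G × Multiplicative (Fin m → ZMod 2) → ℕ) =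
      Set.range (orderOf : G × G × G → ℕ) ∧
    (¬ C → Set.range (orderOf : G × G × Multiplicative (Fin m → ZMod 2) → ℕ) =
      Set.range (orderOf : G × G → ℕ)) := by
  obtain ⟨z, hz⟩ := h3
  have hd : ∀ d : Multiplicative (Fin m → ZMod 2), orderOf d = 1 ∨ orderOf d = 2 := fun d =>
    (Nat.dvd_prime Nat.prime_two).1 (orderOf_dvd_of_pow_eq_one (Multiplicative.toAdd.injective
      (funext fun i => by simp [CharTwo.two_eq_zero])))
  refine ⟨Set.Subset.antisymm ?_ ?_, fun hC => Set.Subset.antisymm ?_ ?_⟩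
  · rintro _ ⟨⟨a, b, c, d⟩, rfl⟩
    rcases hd d with e | e
    · exact ⟨(a, b, c), by simp [Prod.orderOf, e]⟩
    have key : ∀ a' b' c' : G, (∀ k, (orderOf a' ∣ k ∧ orderOf b' ∣ k ∧ orderOf c' ∣ k) ↔
        orderOf a ∣ k ∧ orderOf b ∣ k ∧ orderOf c ∣ k ∧ 2 ∣ k) →
        orderOf (a, b, c, d) ∈ Set.range (orderOf : G × G × G → ℕ) := fun a' b' c' h =>
      ⟨(a', b', c'), lcm_ext fun k => by simpa [Prod.orderOf, e, Nat.lcm_dvd_iff] using h k⟩
    rcases h a with ⟨a', ha⟩ | ha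
    · exact key a' b c fun k => by rw [ha, Nat.lcm_dvd_iff]; tauto
    rcases h b with ⟨b', hb⟩ | hb
    · exact key a b' c fun k => by rw [hb, Nat.lcm_dvd_iff]; tauto
    rcases h c with ⟨c', hc⟩ | hc
    · exact key a b c' fun k => by rw [hc, Nat.lcm_dvd_iff]
    have hab : (∃ x : G, orderOf x = (orderOf a).lcm (orderOf b)) ∨
        (∃ x : G, orderOf x = (orderOf a).lcm (orderOf c)) ∨
        ∃ x : G, orderOf x = (orderOf b).lcm (orderOf c) := by
      rcases ha with ha | ⟨ha, -⟩ <;> rcases hb with hb | ⟨hb, -⟩ <;> rcases hc with hc | ⟨hc, -⟩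
      exacts [.inl (pair h1 ha hb), .inl (pair h1 ha hb), .inr (.inl (pair h1 ha hc)),
        .inr (.inr (pair h2 hb hc)), .inr (.inr (pair h1 hb hc)), .inr (.inl (pair h2 ha hc)),
        .inl (pair h2 ha hb), .inl (pair h2 ha hb)]
    rcases hab with ⟨x, hx⟩ | ⟨x, hx⟩ | ⟨x, hx⟩
    · exact key x c z fun k => by rw [hx, hz, Nat.lcm_dvd_iff]; tauto
    · exact key x b z fun k => by rw [hx, hz, Nat.lcm_dvd_iff]; tauto
    · exact key x a z fun k => by rw [hx, hz, Nat.lcm_dvd_iff]; tauto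
  · rintro _ ⟨⟨a, b, c⟩, rfl⟩
    exact ⟨(a, b, c, 1), by simp [Prod.orderOf]⟩
  · rintro _ ⟨⟨a, b, d⟩, rfl⟩
    rcases hd d with e | e
    · exact ⟨(a, b), by simp [Prod.orderOf, e]⟩
    have key : ∀ a' b' : G, (∀ k, (orderOf a' ∣ k ∧ orderOf b' ∣ k) ↔
        orderOf a ∣ k ∧ orderOf b ∣ k ∧ 2 ∣ k) →
        orderOf (a, b, d) ∈ Set.range (orderOf : G × G → ℕ) := fun a' b' h =>
      ⟨(a', b'), lcm_ext fun k => by simpa [Prod.orderOf, e, Nat.lcm_dvd_iff] using h k⟩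
    rcases h a with ⟨a', ha⟩ | ha
    · exact key a' b fun k => by rw [ha, Nat.lcm_dvd_iff]; tauto
    rcases h b with ⟨b', hb⟩ | hb
    · exact key a b' fun k => by rw [hb, Nat.lcm_dvd_iff]
    obtain ⟨x, hx⟩ := pair h1 (ha.resolve_right fun h => hC h.2) (hb.resolve_right fun h => hC h.2)
    exact key x z fun k => by rw [hx, hz, Nat.lcm_dvd_iff]; tauto
  · rintro _ ⟨⟨a, b⟩, rfl⟩
    exact ⟨(a, b, 1), by simp [Prod.orderOf]⟩

theorem cases {F : Type*} [Field F] [Fintype F] (p : ℕ) [Fact p.Prime] [CharP F p]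
    (hq : Odd (Fintype.card F)) {n : ℕ} (hn : 2 ≤ n) {ε₀ : Bool}
    (hε : ∀ ε, ¬ 4 ∣ tq (Fintype.card F) (n, ε) → ε = ε₀) {k : ℕ} (hk : Odd k)
    (h : SpSpec F n k) : SpSpec F n (2 * k) ∨ k ∣ tq (Fintype.card F) (n, ε₀) / 2 ∨
      (k ∣ p ^ Nat.clog p (2 * n) ∧ ∃ j, 2 * n - 1 = p ^ j) := by
  have hp : p.Prime := Fact.out
  have h2 := CL.Orth.two_ne_zero_of_odd_card hq
  have hp2 : Odd p := hq.of_dvd_nat (char_dvd_card p)
  obtain ⟨T, j, h3, h4, h5⟩ := struct_of_spSpec p h (.inl hk)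
  rcases T.eq_empty_or_nonempty with rfl | ⟨t, ht⟩
  · rw [Finset.lcm_empty, mul_one] at h5
    rw [Finset.sum_empty] at h4
    by_cases h6 : room p j ≤ 2 * (n - 1)
    · exact .inl ((spO_room p h6).two_mul h2 (spO_one 0) (by omega) (by omega) (by omega) hk
        (by rwa [Nat.lcm_one_right]))
    · refine .inr (.inr ⟨h5.trans (pow_dvd_pow p (le_clog_of_room hp.one_lt (by omega))), j - 1, ?_⟩)
      obtain ⟨r, hr⟩ := hp2.pow (n := j - 1)
      unfold room at h4 h6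
      split_ifs at h4 h6 <;> omega
  obtain ⟨T, ht', rfl⟩ : ∃ T', t ∉ T' ∧ T = insert t T' :=
    ⟨T.erase t, Finset.notMem_erase t T, (Finset.insert_erase ht).symm⟩
  have h6 := h3 t ht
  have h7 : ∀ u ∈ T, 0 < u.1 := fun u hu => h3 u (Finset.mem_insert_of_mem hu)
  rw [Finset.sum_insert ht'] at h4
  by_cases h8 : t.1 < n
  · refine .inl ((spO_tq h6).two_mul h2 ((spO_lcm_tq T h7).lcm
      (spO_room p (k := j) (n := (room p j + 1) / 2) (by omega))) h6 (by omega) h8 hk (h5.trans ?_))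
    refine Nat.Coprime.mul_dvd_of_dvd_of_dvd (Nat.Coprime.pow_left _ ?_)
      ((Nat.dvd_lcm_right _ _).trans (Nat.dvd_lcm_right _ _)) ?_
    · rw [hp.coprime_iff_not_dvd]
      intro h9
      obtain ⟨u, hu, h9⟩ := (hp.prime.dvd_finsetProd_iff _).1 (h9.trans
        (Finset.lcm_dvd fun _ ht => Finset.dvd_prod_of_mem _ ht))
      exact not_dvd_tq hp (char_dvd_card p) Fintype.card_pos (h3 u hu) h9
    · rw [Finset.lcm_insert]
      exact lcm_dvd_lcm dvd_rfl (Nat.dvd_lcm_left _ _)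
  obtain rfl : j = 0 := by_contra fun e => by
    rw [room, if_neg e] at h4
    omega
  obtain rfl : T = ∅ := Finset.eq_empty_of_forall_notMem fun u hu => by
    have := Finset.single_le_sum (f := fun t : ℕ × Bool => t.1) (fun _ _ => Nat.zero_le _) hu
    have := h7 u hu
    omega
  obtain ⟨d, ε⟩ := t
  obtain rfl : d = n := by simp at h4 h8; omega
  obtain ⟨r, hr⟩ := even_tq hq (d, ε)
  have h9 : k ∣ r := by
    refine (Nat.coprime_two_right.2 hk).dvd_of_dvd_mul_left ?_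
    simpa [hr, two_mul] using h5
  have h10 : tq (Fintype.card F) (d, ε) / 2 = r := by omega
  by_cases h11 : 4 ∣ tq (Fintype.card F) (d, ε)
  · exact .inl (spSpec_of_dvd (spSpec_half hq h6) (h10 ▸
      (Nat.coprime_two_left.2 hk).mul_dvd_of_dvd_of_dvd (by omega) h9))
  · exact .inr (.inl (hε ε h11 ▸ h10 ▸ h9))


/-- Let F be a finite field of odd order q = p^a, n ≥ 2 (with q ≥ 3 automatic), and L = PSp(2n, F). Then for every m the direct product L × L × L × (ℤ/2)^m has the same set of element orders as L × L × L; and if 2n − 1 is not a power of p, then already L × L × (ℤ/2)^m has the same set of element orders as L × L. -/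
theorem result {F : Type*} [Field F] [Fintype F] (p a n m : ℕ) (hp : p.Prime) (ha : 1 ≤ a) (hF : Fintype.card F = p ^ a) (hodd : Odd (Fintype.card F))
    (hn : 2 ≤ n) :
    Set.range (orderOf : Cfsg.PSp n F × Cfsg.PSp n F × Cfsg.PSp n F × Multiplicative (Fin m → ZMod 2) → ℕ) = Set.range (orderOf : Cfsg.PSp n F × Cfsg.PSp n F × Cfsg.PSp n F → ℕ) ∧
    ((¬ ∃ j : ℕ, 2 * n - 1 = p ^ j) →
      Set.range (orderOf : Cfsg.PSp n F × Cfsg.PSp n F × Multiplicative (Fin m → ZMod 2) → ℕ) = Set.range (orderOf : Cfsg.PSp n F × Cfsg.PSp n F → ℕ)) := by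
  have := Fact.mk hp
  have : CharP F p := by
    obtain ⟨p', _⟩ := CharP.exists F
    obtain ⟨k, hp', hk⟩ := FiniteField.card F p'
    obtain rfl : p = p' := (Nat.prime_dvd_prime_iff_eq hp hp').1
      (hp.dvd_of_dvd_pow (hk ▸ hF ▸ dvd_pow_self p (by omega)))
    assumption
  have h2 := CL.Orth.two_ne_zero_of_odd_card hodd
  obtain ⟨ε₀, hε⟩ : ∃ ε₀, ∀ ε, ¬ 4 ∣ tq (Fintype.card F) (n, ε) → ε = ε₀ := by
    obtain ⟨r, hr⟩ := hodd.pow (n := n)
    by_cases h : 4 ∣ tq (Fintype.card F) (n, true)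
    · exact ⟨false, fun ε h' => by cases ε; exacts [rfl, absurd h h']⟩
    · refine ⟨true, fun ε h' => ?_⟩
      cases ε
      · rw [tq_true] at h
        rw [tq_false] at h'
        omega
      · rfl
  refine ranges m (mem_range_PSp_iff.2 (spSpec_half hodd (t := (n, ε₀)) (by omega)))
    (mem_range_PSp_iff.2 ((spO_unip p (by omega)).spSpec
      (.inl (hodd.of_dvd_nat (char_dvd_card p)).pow)))
    (mem_range_PSp_iff.2 ((spO_one 1).two_mul h2 (spO_one 0) one_pos (by omega) (by omega) odd_one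
      (one_dvd _))) fun x => ?_
  rcases Nat.even_or_odd (orderOf x) with h | h
  · exact .inl ⟨x, (Nat.lcm_eq_left (even_iff_two_dvd.1 h)).symm⟩
  · refine (cases p hodd hn hε h (mem_range_PSp_iff.1 ⟨x, rfl⟩)).imp_left fun h' => ?_
    rw [(Nat.coprime_two_right.2 h).lcm_eq_mul, mul_comm]
    exact mem_range_PSp_iff.2 h'

end Cfsg.Agent.S2512
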