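import Cfsg.Statements.S2513
import Cfsg.Agent.KSG.GLnOrders3

set_option autoImplicit false
open Cfsg

namespace Cfsg.Agent.S2513

open CL.GLn Polynomial Module

theorem exists_dvd_of_le {d n : ℕ} (hd : 0 < d) (hn : d ≤ n) : ∃ j, d ∣ j ∧ n / 2 < j ∧ j ≤ n := by
  refine ⟨n / d * d, dvd_mul_left _ _, ?_, Nat.div_mul_le_self _ _⟩
  have h1 := Nat.div_add_mod' n d
  have h2 := Nat.mod_lt n hd
  have h3 : d ≤ n / d * d := Nat.le_mul_of_pos_left _ (Nat.div_pos hn hd)
  omega

theorem result {F : Type*} [Field F] [Fintype F] (hF : Fintype.card F = 2) (n k : ℕ) (hn : 2 ≤ n) (hk : (n + 3) / 2 ≤ k) :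
    Set.range (orderOf : (Fin k → Matrix.ProjectiveSpecialLinearGroup (Fin n) F) → ℕ) = Set.range (orderOf : (Fin ((n + 3) / 2) → Matrix.ProjectiveSpecialLinearGroup (Fin n) F) → ℕ) := by
  have := Fact.mk Nat.prime_two
  have : CharP F 2 := charP_of_card_eq_prime hF
  have hco : ∀ m : ℕ, m.Coprime (Fintype.card F - 1) := fun m => by simp [hF]
  obtain ⟨u, hu⟩ := exists_regular_unipotent_psl (F := F) 2 (n := n) (by omega)
  have h1 : ∀ j, 0 < j → j ≤ n → ∃ y : Matrix.ProjectiveSpecialLinearGroup (Fin n) F,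
      orderOf y = Fintype.card F ^ j - 1 := fun j hj hjn => by
    have : NeZero j := ⟨hj.ne'⟩
    obtain ⟨x, hx⟩ := exists_extension_orderOf (F := F) 2 j dvd_rfl
    have h2 : 1 < Fintype.card F ^ j := Nat.one_lt_pow hj.ne' Fintype.one_lt_card
    obtain ⟨A, hA⟩ := exists_sl_orderOf_of_le (F := F) (n := Fin n)
      (by simp only [FiniteField.finrank_extension, Fintype.card_fin, hjn]) x
      (norm_eq_one_of_coprime (hco _) (by omega) (hx ▸ pow_orderOf_eq_one x))
    exact (psl_orderOf_iff_sl (hco _)).2 ⟨A, hA.trans hx⟩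
  choose! y hy using h1
  let t : Fin ((n + 3) / 2) → Matrix.ProjectiveSpecialLinearGroup (Fin n) F := fun i =>
    if i.1 = 0 then u else y (n / 2 + i)
  have h2 : 2 ^ Nat.clog 2 n ∣ orderOf t := by
    rw [← hu]
    exact orderOf_apply_dvd_orderOf (x := t) ⟨0, by omega⟩
  have h3 : ∀ j, n / 2 < j → j ≤ n → Fintype.card F ^ j - 1 ∣ orderOf t := fun j h1 h2 => by
    have h3 := orderOf_apply_dvd_orderOf (x := t) ⟨j - n / 2, by omega⟩
    simp only [t] at h3
    rwa [if_neg (by omega), show n / 2 + (j - n / 2) = j by omega, hy j (by omega) h2] at h3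
  have h4 : ∀ x : Matrix.ProjectiveSpecialLinearGroup (Fin n) F, x ^ orderOf t = 1 := fun x => by
    induction x using QuotientGroup.induction_on with
    | H A =>
    obtain ⟨s, hs⟩ := exists_hasED (Matrix.toLin' (A : Matrix (Fin n) (Fin n) F))
    rw [psl_pow_eq_one_iff]
    refine ⟨1, ?_⟩
    rw [map_one, hs.matrix_pow_eq_one_iff' 2 (sl_det_ne_zero A)]
    intro x hx
    have h5 := hs.le_card hx
    rw [Fintype.card_fin] at h5
    obtain ⟨j, h6, h7, h8⟩ := exists_dvd_of_le (hs.1.natDegree_pos hx)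
      ((hs.1.natDegree_le hx).trans h5)
    refine ⟨(dvd_X_pow_card_pow_sub_one (hs.1 x hx).2.1
      (hs.not_dvd_X_of_det_ne_zero (sl_det_ne_zero A) hx)).trans ?_,
      (pow_dvd_pow _ (Nat.clog_mono_right _ ((hs.1.exp_le hx).trans h5))).trans h2⟩
    obtain ⟨c, hc⟩ := (Nat.pow_sub_one_dvd_pow_sub_one _ h6).trans (h3 j h7 h8)
    rw [hc, pow_mul]
    exact sub_one_dvd_pow_sub_one _ _
  refine Set.Subset.antisymm ?_ ?_
  · rintro _ ⟨x, rfl⟩
    exact exists_orderOf_eq_of_dvd_orderOf (x := t)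
      (orderOf_dvd_of_pow_eq_one (funext fun i => h4 (x i)))
  · rintro _ ⟨x, rfl⟩
    refine ⟨fun i => if h : i.1 < (n + 3) / 2 then x ⟨i, h⟩ else 1,
      orderOf_eq_orderOf_iff.2 fun m => ⟨fun h => funext fun i => ?_, fun h => funext fun i => ?_⟩⟩
    · simpa using congrFun h ⟨i, by omega⟩
    · rw [Pi.pow_apply]
      split_ifs with h1
      · exact congrFun h _
      · simp

end Cfsg.Agent.S2513
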