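import Cfsg.Statements.S2514
import Mathlib

set_option autoImplicit false
open Cfsg

namespace Cfsg.Agent.S2514

theorem exists_orderOf_eq_of_dvd {X : Type*} [Group X] [Finite X] (x : X) {d : ℕ}
    (hd : d ∣ orderOf x) : ∃ y : X, orderOf y = d :=
  ⟨x ^ (orderOf x / d), orderOf_pow_orderOf_div (orderOf_pos x).ne' hd⟩

theorem exists_max {X : Type*} [Group X] [Finite X] (x : X) :
    ∃ y : X, orderOf x ∣ orderOf y ∧
      ∀ m ∈ Set.range (orderOf : X → ℕ), orderOf y ∣ m → m = orderOf y := by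
  obtain ⟨y, hy, hmax⟩ := Set.exists_max_image {y : X | orderOf x ∣ orderOf y} orderOf
    (Set.toFinite _) ⟨x, dvd_rfl⟩
  refine ⟨y, hy, ?_⟩
  rintro m ⟨z, rfl⟩ hz
  exact le_antisymm (hmax z (dvd_trans hy hz)) (Nat.le_of_dvd (orderOf_pos z) hz)

theorem pi_pow_eq_one {ι X : Type*} [Group X] (x : ι → X) (n : ℕ) :
    x ^ n = 1 ↔ ∀ i, orderOf (x i) ∣ n := by
  simp only [orderOf_dvd_iff_pow_eq_one, funext_iff, Pi.pow_apply, Pi.one_apply]

theorem prod_pow_eq_one {ι X Y : Type*} [Group X] [Group Y] (x : ι → X) (y : Y) (n : ℕ) :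
    (x, y) ^ n = 1 ↔ (∀ i, orderOf (x i) ∣ n) ∧ orderOf y ∣ n := by
  rw [← pi_pow_eq_one, orderOf_dvd_iff_pow_eq_one, Prod.pow_mk, Prod.mk_eq_one]

/-- For a finite group X write μ(X) for the set of element orders of X that are maximal under divisibility. Let G and H be finite groups and k ≥ 1 such that μ(H) ⊆ μ(G) and μ(G) has fewer than k elements outside μ(H). Then the direct product of k copies of G has the same set of element orders as the direct product of k − 1 copies of G with H. -/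
theorem result {G H : Type*} [Group G] [Finite G] [Group H] [Finite H] (k : ℕ) (hk : 1 ≤ k)
    (hsub : {n : ℕ | n ∈ Set.range (orderOf : H → ℕ) ∧ ∀ m ∈ Set.range (orderOf : H → ℕ), n ∣ m → m = n} ⊆ {n : ℕ | n ∈ Set.range (orderOf : G → ℕ) ∧ ∀ m ∈ Set.range (orderOf : G → ℕ), n ∣ m → m = n})
    (hfew : ({n : ℕ | n ∈ Set.range (orderOf : G → ℕ) ∧ ∀ m ∈ Set.range (orderOf : G → ℕ), n ∣ m → m = n} \ {n : ℕ | n ∈ Set.range (orderOf : H → ℕ) ∧ ∀ m ∈ Set.range (orderOf : H → ℕ), n ∣ m → m = n}).ncard < k) :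
    Set.range (orderOf : (Fin k → G) → ℕ) = Set.range (orderOf : (Fin (k - 1) → G) × H → ℕ) := by
  obtain ⟨k, rfl⟩ : ∃ k', k = k' + 1 := ⟨k - 1, by omega⟩
  show Set.range (orderOf : (Fin (k + 1) → G) → ℕ) = Set.range (orderOf : (Fin k → G) × H → ℕ)
  apply Set.Subset.antisymm
  · rintro _ ⟨g, rfl⟩
    choose y hy hmax using fun i => exists_max (g i)
    by_cases hH : ∃ i, orderOf (y i) ∈ Set.range (orderOf : H → ℕ)
    · obtain ⟨i, h, hh⟩ := hH
      obtain ⟨h', hh'⟩ := exists_orderOf_eq_of_dvd h (hh ▸ hy i)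
      refine ⟨(fun j => g (i.succAbove j), h'), ?_⟩
      rw [orderOf_eq_orderOf_iff]
      intro n
      rw [prod_pow_eq_one, pi_pow_eq_one, hh', Fin.forall_iff_succAbove i, and_comm]
    · push Not at hH
      have hmem : ∀ i, orderOf (y i) ∈ ({n : ℕ | n ∈ Set.range (orderOf : G → ℕ) ∧ ∀ m ∈ Set.range (orderOf : G → ℕ), n ∣ m → m = n} \ {n : ℕ | n ∈ Set.range (orderOf : H → ℕ) ∧ ∀ m ∈ Set.range (orderOf : H → ℕ), n ∣ m → m = n}) :=
        fun i => ⟨⟨⟨y i, rfl⟩, hmax i⟩, fun h => hH i h.1⟩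
      have hfin : ({n : ℕ | n ∈ Set.range (orderOf : G → ℕ) ∧ ∀ m ∈ Set.range (orderOf : G → ℕ), n ∣ m → m = n} \ {n : ℕ | n ∈ Set.range (orderOf : H → ℕ) ∧ ∀ m ∈ Set.range (orderOf : H → ℕ), n ∣ m → m = n}).Finite :=
        (Set.finite_range (orderOf : G → ℕ)).subset (fun n hn => hn.1.1)
      have hninj : ¬ Function.Injective (fun i => orderOf (y i)) := by
        intro hinj
        have h1 := Set.ncard_le_ncard (Set.range_subset_iff.2 hmem) hfin
        rw [Set.ncard_range_of_injective hinj] at h1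
        simp only [Nat.card_eq_fintype_card, Fintype.card_fin] at h1
        omega
      simp only [Function.Injective, not_forall] at hninj
      obtain ⟨i, j, hij, hne⟩ := hninj
      obtain ⟨j', rfl⟩ := Fin.exists_succAbove_eq (Ne.symm hne)
      have hl : Nat.lcm (orderOf (g i)) (orderOf (g (i.succAbove j'))) ∣ orderOf (y i) :=
        Nat.lcm_dvd (hy i) (hij ▸ hy _)
      obtain ⟨z, hz⟩ := exists_orderOf_eq_of_dvd _ hl
      classical
      refine ⟨(Function.update (fun j => g (i.succAbove j)) j' z, 1), ?_⟩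
      rw [orderOf_eq_orderOf_iff]
      intro n
      rw [prod_pow_eq_one, pi_pow_eq_one, Fin.forall_iff_succAbove i]
      constructor
      · rintro ⟨h1, -⟩
        have h2 := h1 j'
        rw [Function.update_self, hz, Nat.lcm_dvd_iff] at h2
        refine ⟨h2.1, fun j => ?_⟩
        by_cases hj : j = j'
        · exact hj ▸ h2.2
        · have := h1 j
          rwa [Function.update_of_ne hj] at this
      · rintro ⟨h1, h2⟩
        refine ⟨fun j => ?_, by simp⟩
        by_cases hj : j = j'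
        · subst hj
          rw [Function.update_self, hz]
          exact Nat.lcm_dvd h1 (h2 _)
        · rw [Function.update_of_ne hj]
          exact h2 j
  · rintro _ ⟨⟨g, h⟩, rfl⟩
    obtain ⟨y, hy, hmax⟩ := exists_max h
    obtain ⟨⟨x, hx⟩, -⟩ := hsub ⟨⟨y, rfl⟩, hmax⟩
    obtain ⟨z, hz⟩ := exists_orderOf_eq_of_dvd x (hx ▸ hy)
    refine ⟨Fin.cons z g, ?_⟩
    rw [orderOf_eq_orderOf_iff]
    intro n
    rw [prod_pow_eq_one, pi_pow_eq_one, Fin.forall_fin_succ, and_comm]
    simp [hz]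

end Cfsg.Agent.S2514
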