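import Cfsg.Statements.S2515
import Mathlib
import Cfsg.Agent.PERM.SpecGL2
import Cfsg.Agent.KSG.PSL2Basic

set_option autoImplicit false
open Cfsg

namespace Cfsg.Agent.S2515

open Matrix CL.GL2 CL.Spec
open scoped MatrixGroups

section aux
variable {F : Type} [Field F] [CharP F 3]



noncomputable def fr : SL(2, F) →* SL(2, F) := Matrix.SpecialLinearGroup.map (frobenius F 3)

theorem fr_apply (g : SL(2, F)) (i j : Fin 2) : (fr g : Matrix (Fin 2) (Fin 2) F) i j = (g : Matrix (Fin 2) (Fin 2) F) i j ^ 3 := by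
  simp [fr, frobenius_def]

noncomputable def rho0 : ℤˣ × SL(2, F) →* Module.End F (Matrix (Fin 2) (Fin 2) F) where
  toFun x := (((x.1 : ℤ) : F)) • (LinearMap.mulLeft F (x.2 : Matrix (Fin 2) (Fin 2) F)).comp
    (LinearMap.mulRight F ((fr x.2⁻¹ : SL(2, F)) : Matrix (Fin 2) (Fin 2) F))
  map_one' := by
    ext1 v
    simp
  map_mul' x y := by
    ext1 v
    simp [Matrix.mul_assoc, smul_smul, mul_comm]

abbrev Gp (F : Type) [Field F] [CharP F 3] : Type := (rho0 (F := F)).toHomUnits.range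

noncomputable def el : ℤˣ × SL(2, F) →* Gp F := (rho0 (F := F)).toHomUnits.rangeRestrict

theorem el_surj : Function.Surjective (el (F := F)) := MonoidHom.rangeRestrict_surjective _

theorem el_smul (x : ℤˣ × SL(2, F)) (v : Matrix (Fin 2) (Fin 2) F) :
    el x • v = ((x.1 : ℤ) : F) • ((x.2 : Matrix (Fin 2) (Fin 2) F) * (v * ((fr x.2⁻¹ : SL(2, F)) : Matrix (Fin 2) (Fin 2) F))) := rfl

theorem eq_one_of_smul {a : Gp F} (h : ∀ v : Matrix (Fin 2) (Fin 2) F, a • v = v) : a = 1 := by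
  apply Subtype.ext
  apply Units.ext
  ext1 v
  exact h v

theorem fix_iff (x : ℤˣ × SL(2, F)) (v : Matrix (Fin 2) (Fin 2) F) :
    el x • v = v ↔ ((x.1 : ℤ) : F) • ((x.2 : Matrix (Fin 2) (Fin 2) F) * v) = v * (fr x.2 : Matrix (Fin 2) (Fin 2) F) := by
  rw [el_smul, ← Matrix.mul_assoc, ← Matrix.smul_mul]
  have h1 : ((fr x.2⁻¹ : SL(2, F)) : Matrix (Fin 2) (Fin 2) F) * (fr x.2 : Matrix (Fin 2) (Fin 2) F) = 1 := by
    rw [← Matrix.SpecialLinearGroup.coe_mul, ← map_mul]; simp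
  have h2 : (fr x.2 : Matrix (Fin 2) (Fin 2) F) * ((fr x.2⁻¹ : SL(2, F)) : Matrix (Fin 2) (Fin 2) F) = 1 := by
    rw [← Matrix.SpecialLinearGroup.coe_mul, ← map_mul]; simp
  constructor
  · intro h
    conv_rhs => rw [← h]
    rw [Matrix.mul_assoc, h1, Matrix.mul_one]
  · intro h
    rw [h, Matrix.mul_assoc, h2, Matrix.mul_one]

theorem el_one_eq_one_iff (g : SL(2, F)) : el (1, g) = 1 ↔ IsScal (g : Matrix (Fin 2) (Fin 2) F) := by
  constructor
  · intro h
    have h0 := (fix_iff (1, g) !![1, 0; 0, 0]).1 (by rw [h, one_smul])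
    have h1 := (fix_iff (1, g) !![0, 0; 1, 0]).1 (by rw [h, one_smul])
    have a := congrFun (congrFun h0 0) 0
    have b := congrFun (congrFun h0 1) 0
    have c := congrFun (congrFun h1 0) 0
    have d := congrFun (congrFun h1 1) 0
    simp [Matrix.mul_apply, Fin.sum_univ_two] at a b c d
    exact ⟨c, b, by rw [a, d]⟩
  · intro h
    apply eq_one_of_smul
    intro v
    rw [fix_iff]
    have hd : (g : Matrix (Fin 2) (Fin 2) F) 0 0 ^ 2 = 1 := by rw [← h.det, g.det_coe]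
    have h3 : (g : Matrix (Fin 2) (Fin 2) F) 0 0 ^ 3 = (g : Matrix (Fin 2) (Fin 2) F) 0 0 := by rw [pow_succ, hd, one_mul]
    have hf : (fr g : Matrix (Fin 2) (Fin 2) F) = (g : Matrix (Fin 2) (Fin 2) F) := by
      ext i j
      rw [fr_apply]
      fin_cases i <;> fin_cases j
      · exact h3
      · simp [h.1]
      · simp [h.2.1]
      · simp only [Fin.mk_one, Fin.isValue, ← h.2.2]; exact h3
    simp only [Units.val_one, Int.cast_one, one_smul, hf]
    exact (h.commute v).symm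

theorem three_eq : (3 : F) = 0 := by exact_mod_cast CharP.cast_eq_zero F 3

theorem el_neg_ne : el ((-1, 1) : ℤˣ × SL(2, F)) ≠ 1 := by
  intro h
  have h0 := (fix_iff ((-1, 1) : ℤˣ × SL(2, F)) 1).1 (by rw [h, one_smul])
  have a := congrFun (congrFun h0 0) 0
  simp at a
  have : (1 : F) = 0 := by linear_combination three_eq (F := F) + a
  exact one_ne_zero this

theorem orderOf_el_neg : orderOf (el ((-1, 1) : ℤˣ × SL(2, F))) = 2 := by
  apply orderOf_eq_prime _ el_neg_ne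
  rw [← map_pow]
  have : ((-1, 1) : ℤˣ × SL(2, F)) ^ 2 = 1 := by ext1 <;> simp
  rw [this, map_one]

theorem cayley (g : SL(2, F)) : (g : Matrix (Fin 2) (Fin 2) F) * (g : Matrix (Fin 2) (Fin 2) F) = (g : Matrix (Fin 2) (Fin 2) F).trace • (g : Matrix (Fin 2) (Fin 2) F) - 1 := by
  have hd := g.det_coe
  rw [det_fin_two] at hd
  ext i j
  fin_cases i <;> fin_cases j <;>
    simp [Matrix.mul_apply, Fin.sum_univ_two, trace_fin_two] <;> first | ring1 | linear_combination -hd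

theorem trace_fr (g : SL(2, F)) : (fr g : Matrix (Fin 2) (Fin 2) F).trace = (g : Matrix (Fin 2) (Fin 2) F).trace ^ 3 := by
  haveI : Fact (Nat.Prime 3) := ⟨by norm_num⟩
  rw [trace_fin_two, trace_fin_two, fr_apply, fr_apply, add_pow_char]

theorem fixed_cases (hns : ∀ t : F, t ^ 2 ≠ -1) (x : ℤˣ × SL(2, F)) {v : Matrix (Fin 2) (Fin 2) F} (hv : v ≠ 0)
    (h : el x • v = v) : el x ^ 2 = 1 ∨ el x ^ 3 = 1 := by
  obtain ⟨e, g⟩ := x
  rw [fix_iff] at h
  simp only at h
  set ε : F := ((e : ℤ) : F) with hε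
  have hε2 : ε * ε = 1 := by
    rw [hε, ← Int.cast_mul, ← Units.val_mul, Int.units_mul_self]; simp
  set t := (g : Matrix (Fin 2) (Fin 2) F).trace with ht
  have h1 : v * ((fr g : Matrix (Fin 2) (Fin 2) F) * (fr g : Matrix (Fin 2) (Fin 2) F)) = (g : Matrix (Fin 2) (Fin 2) F) * (g : Matrix (Fin 2) (Fin 2) F) * v := by
    rw [← Matrix.mul_assoc, ← h, Matrix.smul_mul, Matrix.mul_assoc, ← h, Matrix.mul_smul,
      smul_smul, hε2, one_smul, Matrix.mul_assoc]
  rw [cayley, cayley, trace_fr, ← ht, Matrix.mul_sub, Matrix.sub_mul, Matrix.mul_smul, ← h,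
    Matrix.smul_mul, Matrix.mul_one, Matrix.one_mul, sub_left_inj, smul_smul] at h1
  have hgv : (g : Matrix (Fin 2) (Fin 2) F) * v ≠ 0 := by
    intro h0
    apply hv
    have : ((g⁻¹ : SL(2, F)) : Matrix (Fin 2) (Fin 2) F) * ((g : Matrix (Fin 2) (Fin 2) F) * v) = 0 := by rw [h0, Matrix.mul_zero]
    rwa [← Matrix.mul_assoc, ← Matrix.SpecialLinearGroup.coe_mul, inv_mul_cancel,
      Matrix.SpecialLinearGroup.coe_one, Matrix.one_mul] at this
  have h2 : t ^ 3 * ε = t := by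
    have := sub_eq_zero.2 h1
    rw [← sub_smul, smul_eq_zero] at this
    exact sub_eq_zero.1 (this.resolve_right hgv)
  by_cases ht0 : t = 0
  · left
    rw [← map_pow]
    have : ((e, g) : ℤˣ × SL(2, F)) ^ 2 = (1, g ^ 2) := by
      ext1
      · simp [pow_two, Int.units_mul_self]
      · rfl
    rw [this, el_one_eq_one_iff, pow_two, Matrix.SpecialLinearGroup.coe_mul, cayley, ← ht, ht0]
    simp [IsScal]
  · right
    have h3 : t ^ 2 * ε = 1 := by
      apply mul_left_cancel₀ ht0; linear_combination h2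
    rcases Int.units_eq_one_or e with rfl | rfl
    · rw [← map_pow]
      have : ((1, g) : ℤˣ × SL(2, F)) ^ 3 = (1, g ^ 3) := by
        ext1
        · simp
        · rfl
      have hε1 : ε = 1 := by simp [hε]
      rw [hε1, mul_one] at h3
      rw [this, el_one_eq_one_iff, pow_three, Matrix.SpecialLinearGroup.coe_mul,
        Matrix.SpecialLinearGroup.coe_mul, cayley, ← ht, Matrix.mul_sub, Matrix.mul_smul, cayley, ← ht,
        smul_sub, smul_smul, ← pow_two, h3, one_smul, Matrix.mul_one]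
      have : (g : Matrix (Fin 2) (Fin 2) F) - t • (1 : Matrix (Fin 2) (Fin 2) F) - (g : Matrix (Fin 2) (Fin 2) F) = (-t) • (1 : Matrix (Fin 2) (Fin 2) F) := by
        rw [neg_smul]; abel
      rw [this]
      exact isScal_smul_one _
    · exfalso
      have hε1 : ε = -1 := by simp [hε]
      apply hns t
      rw [hε1] at h3
      linear_combination -h3

theorem orderOf_el_one (g : SL(2, F)) :
    orderOf (el (1, g)) = orderOf (g : SL(2, F) ⧸ Subgroup.center SL(2, F)) := by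
  apply Nat.dvd_antisymm
  · rw [orderOf_dvd_iff_pow_eq_one, ← map_pow]
    have : ((1, g) : ℤˣ × SL(2, F)) ^ orderOf (g : SL(2, F) ⧸ Subgroup.center SL(2, F)) =
        (1, g ^ orderOf (g : SL(2, F) ⧸ Subgroup.center SL(2, F))) := by
      ext1
      · simp
      · rfl
    rw [this, el_one_eq_one_iff, Matrix.SpecialLinearGroup.coe_pow, ← orderOf_psl2_dvd_iff]
  · rw [orderOf_psl2_dvd_iff, ← Matrix.SpecialLinearGroup.coe_pow, ← el_one_eq_one_iff]
    have : ((1, g ^ orderOf (el (1, g))) : ℤˣ × SL(2, F)) = (1, g) ^ orderOf (el (1, g)) := by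
      ext1
      · simp
      · rfl
    rw [this, map_pow, pow_orderOf_eq_one]

theorem orderOf_el_neg_mul (g : SL(2, F)) (h : Odd (orderOf (el (1, g)))) :
    orderOf (el (-1, g)) = 2 * orderOf (el (1, g)) := by
  have e : ((-1, g) : ℤˣ × SL(2, F)) = (-1, 1) * (1, g) := by ext1 <;> simp
  have hc : Commute (el ((-1, 1) : ℤˣ × SL(2, F))) (el (1, g)) := by
    apply Commute.map
    show _ * _ = _ * _
    ext1 <;> simp
  rw [e, map_mul, hc.orderOf_mul_eq_mul_orderOf_of_coprime, orderOf_el_neg]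
  rw [orderOf_el_neg]
  exact (Nat.coprime_two_left).2 h

theorem orderOf_el_dvd (e : ℤˣ) (g : SL(2, F)) {n : ℕ} (h2 : 2 ∣ n)
    (h : orderOf (el (1, g)) ∣ n) : orderOf (el (e, g)) ∣ n := by
  rw [orderOf_dvd_iff_pow_eq_one, ← map_pow] at h ⊢
  obtain ⟨k, rfl⟩ := h2
  have : ((e, g) : ℤˣ × SL(2, F)) ^ (2 * k) = (1, g) ^ (2 * k) := by
    ext1
    · simp [pow_mul, pow_two, Int.units_mul_self]
    · rfl
  rw [this, h]

theorem exists_nine : ∃ a : Aff (Matrix (Fin 2) (Fin 2) F) (Gp F), nsum a.g a.v ≠ 0 ∧ orderOf a.g = 3 := by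
  let u : SL(2, F) := ⟨!![1, 1; 0, 1], by simp⟩
  have hfu : fr u = u := by
    ext i j
    rw [fr_apply]
    fin_cases i <;> fin_cases j <;> simp [u]
  have ho : orderOf (el (1, u)) = 3 := by
    haveI : Fact (Nat.Prime 3) := ⟨by norm_num⟩
    apply orderOf_eq_prime
    · rw [← map_pow]
      have : ((1, u) : ℤˣ × SL(2, F)) ^ 3 = (1, u ^ 3) := by
        ext1
        · simp
        · rfl
      rw [this, el_one_eq_one_iff, Matrix.SpecialLinearGroup.coe_pow]
      exact (isScal_unip_pow 3).2 (by rw [ringChar.eq F 3])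
    · rw [Ne, el_one_eq_one_iff]
      intro h
      exact one_ne_zero (α := F) (by simpa [u] using h.1)
  refine ⟨⟨!![0, 0; 1, 0], el (1, u)⟩, ?_, ho⟩
  have hui : ((u⁻¹ : SL(2, F)) : Matrix (Fin 2) (Fin 2) F) = !![1, -1; 0, 1] := by
    rw [Matrix.SpecialLinearGroup.coe_inv]; simp [u, adjugate_fin_two]
  have hs : ∀ v : Matrix (Fin 2) (Fin 2) F, el (1, u) • v = !![1, 1; 0, 1] * (v * !![1, -1; 0, 1]) := by
    intro v
    rw [el_smul, map_inv, hfu, hui]
    simp [u]
  intro h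
  simp only [nsum, ho, Finset.sum_range_succ, Finset.range_zero, Finset.sum_empty, pow_zero,
    one_smul, pow_one, zero_add, pow_two, mul_smul, hs] at h
  have a := congrFun (congrFun h 0) 1
  simp at a
  have : (1 : F) = 0 := by linear_combination a + 2 * three_eq (F := F)
  exact one_ne_zero this

end aux

/-- Let q = 3^α with α ≥ 3 odd. There is a finite group H having a non-trivial normal 3-subgroup and whose element orders maximal under divisibility are exactly 6, 9, q − 1 and (q + 1)/2. -/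
theorem result (α : ℕ) (hα : 3 ≤ α) (hodd : Odd α) :
    ∃ (H : Type) (_ : Group H) (_ : Fintype H), (∃ P : Subgroup H, P.Normal ∧ P ≠ ⊥ ∧ IsPGroup 3 ↥P) ∧
      {n : ℕ | n ∈ Set.range (orderOf : H → ℕ) ∧ ∀ m ∈ Set.range (orderOf : H → ℕ), n ∣ m → m = n} = ({6, 9, 3 ^ α - 1, (3 ^ α + 1) / 2} : Set ℕ) := by
  classical
  haveI : Fact (Nat.Prime 3) := ⟨by norm_num⟩
  let F := GaloisField 3 α
  letI : Fintype F := Fintype.ofFinite F
  have hq : Fintype.card F = 3 ^ α := by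
    rw [← Nat.card_eq_fintype_card]; exact GaloisField.card 3 α (by omega)
  have hmod : 3 ^ α % 4 = 3 := by
    obtain ⟨k, rfl⟩ := hodd
    rw [pow_succ, pow_mul, Nat.mul_mod, Nat.pow_mod]; simp
  have h27 : 27 ≤ 3 ^ α := by
    calc 27 = 3 ^ 3 := by norm_num
      _ ≤ 3 ^ α := Nat.pow_le_pow_right (by norm_num) hα
  have h3 : 3 ∣ 3 ^ α := dvd_pow_self 3 (by omega)
  have hns : ∀ t : F, t ^ 2 ≠ -1 := by
    intro t ht
    have : IsSquare (-1 : F) := ⟨t, by rw [← ht, pow_two]⟩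
    rw [FiniteField.isSquare_neg_one_iff, hq] at this
    exact this hmod
  have hV : ∀ v : Matrix (Fin 2) (Fin 2) F, 3 • v = 0 := by
    intro v
    rw [← Nat.cast_smul_eq_nsmul F, Nat.cast_ofNat, three_eq, zero_smul]
  haveI : Finite (Module.End F (Matrix (Fin 2) (Fin 2) F)) := Finite.of_injective (fun f => (f : Matrix (Fin 2) (Fin 2) F → Matrix (Fin 2) (Fin 2) F)) DFunLike.coe_injective
  have hsp := spec_PSL2 (F := F)
  rw [hq, ringChar.eq F 3, Nat.gcd_eq_right (by omega : 2 ∣ 3 ^ α - 1),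
    Nat.gcd_eq_right (by omega : 2 ∣ 3 ^ α + 1)] at hsp
  have hex : ∀ n, n ∣ 3 ∨ n ∣ (3 ^ α - 1) / 2 ∨ n ∣ (3 ^ α + 1) / 2 →
      ∃ g : SL(2, F), orderOf (el (1, g)) = n := by
    intro n hn
    have : n ∈ Set.range (orderOf : ProjectiveSpecialLinearGroup (Fin 2) F → ℕ) := by
      rw [hsp]; exact hn
    obtain ⟨x, hx⟩ := this
    obtain ⟨g, rfl⟩ := QuotientGroup.mk_surjective x
    exact ⟨g, by rw [orderOf_el_one]; exact hx⟩
  have hup : ∀ a : Aff (Matrix (Fin 2) (Fin 2) F) (Gp F), orderOf a ∣ 6 ∨ orderOf a ∣ 9 ∨ orderOf a ∣ 3 ^ α - 1 ∨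
      orderOf a ∣ (3 ^ α + 1) / 2 := by
    intro a
    obtain ⟨⟨e, g⟩, hx⟩ := el_surj a.g
    rcases Aff.orderOf_cases (by norm_num : Nat.Prime 3) hV a with ⟨-, h⟩ | ⟨h0, h⟩
    · rw [h, ← hx]
      have : orderOf (el (1, g)) ∈
          Set.range (orderOf : ProjectiveSpecialLinearGroup (Fin 2) F → ℕ) :=
        ⟨_, (orderOf_el_one g).symm⟩
      rw [hsp] at this
      rcases this with h1 | h1 | h1
      · exact Or.inl (orderOf_el_dvd e g (by norm_num) (h1.trans (by norm_num)))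
      · exact Or.inr (Or.inr (Or.inl (orderOf_el_dvd e g (by omega)
          (h1.trans (Nat.div_dvd_of_dvd (by omega))))))
      · exact Or.inr (Or.inr (Or.inr (orderOf_el_dvd e g (by omega) h1)))
    · have hf := smul_nsum a.g a.v
      rw [← hx] at hf h0
      rw [h, ← hx]
      rcases fixed_cases hns _ h0 hf with h1 | h1
      · exact Or.inl (Nat.mul_dvd_mul_right (orderOf_dvd_of_pow_eq_one h1) 3)
      · exact Or.inr (Or.inl (Nat.mul_dvd_mul_right (orderOf_dvd_of_pow_eq_one h1) 3))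
  have m6 : 6 ∈ Set.range (orderOf : Aff (Matrix (Fin 2) (Fin 2) F) (Gp F) → ℕ) := by
    obtain ⟨g, hg⟩ := hex 3 (Or.inl dvd_rfl)
    refine ⟨⟨0, el (-1, g)⟩, ?_⟩
    rw [Aff.orderOf_mk_zero, orderOf_el_neg_mul g (by rw [hg]; decide), hg]
  have m9 : 9 ∈ Set.range (orderOf : Aff (Matrix (Fin 2) (Fin 2) F) (Gp F) → ℕ) := by
    obtain ⟨a, h0, h1⟩ := exists_nine (F := F)
    rcases Aff.orderOf_cases (by norm_num : Nat.Prime 3) hV a with ⟨h, -⟩ | ⟨-, h⟩
    · exact absurd h h0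
    · exact ⟨a, by rw [h, h1]⟩
  have mm : 3 ^ α - 1 ∈ Set.range (orderOf : Aff (Matrix (Fin 2) (Fin 2) F) (Gp F) → ℕ) := by
    obtain ⟨g, hg⟩ := hex ((3 ^ α - 1) / 2) (Or.inr (Or.inl dvd_rfl))
    refine ⟨⟨0, el (-1, g)⟩, ?_⟩
    rw [Aff.orderOf_mk_zero, orderOf_el_neg_mul g (by rw [hg, Nat.odd_iff]; omega), hg]
    omega
  have mp : (3 ^ α + 1) / 2 ∈ Set.range (orderOf : Aff (Matrix (Fin 2) (Fin 2) F) (Gp F) → ℕ) := by
    obtain ⟨g, hg⟩ := hex ((3 ^ α + 1) / 2) (Or.inr (Or.inr dvd_rfl))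
    exact ⟨⟨0, el (1, g)⟩, by rw [Aff.orderOf_mk_zero, hg]⟩
  refine ⟨Aff (Matrix (Fin 2) (Fin 2) F) (Gp F), inferInstance, Fintype.ofFinite _, ⟨Aff.proj.ker, inferInstance,
    Aff.ker_ne_bot, ?_⟩, ?_⟩
  · rintro ⟨a, ha⟩
    refine ⟨1, Subtype.ext ?_⟩
    obtain ⟨v, g⟩ := a
    have hg : g = 1 := ha
    subst hg
    show (⟨v, 1⟩ : Aff (Matrix (Fin 2) (Fin 2) F) (Gp F)) ^ (3 ^ 1) = 1
    rw [← orderOf_dvd_iff_pow_eq_one, Aff.orderOf_mk_one, addOrderOf_dvd_iff_nsmul_eq_zero]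
    exact hV v
  · generalize 3 ^ α = q at *
    have n1 : ¬ (q + 1) / 2 ∣ q - 1 := by
      intro h
      have h' : (q + 1) / 2 ∣ 2 * ((q + 1) / 2) - (q - 1) := Nat.dvd_sub (dvd_mul_left _ _) h
      have : 2 * ((q + 1) / 2) - (q - 1) = 2 := by omega
      rw [this] at h'
      have := Nat.le_of_dvd (by norm_num) h'
      omega
    have n2 : ¬ q - 1 ∣ (q + 1) / 2 := fun h => by
      have := Nat.le_of_dvd (by omega) h
      omega
    ext n
    simp only [Set.mem_setOf_eq, Set.mem_insert_iff, Set.mem_singleton_iff]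
    constructor
    · rintro ⟨⟨a, rfl⟩, hn⟩
      rcases hup a with h | h | h | h
      · exact Or.inl (hn _ m6 h).symm
      · exact Or.inr (Or.inl (hn _ m9 h).symm)
      · exact Or.inr (Or.inr (Or.inl (hn _ mm h).symm))
      · exact Or.inr (Or.inr (Or.inr (hn _ mp h).symm))
    · intro hn
      have key : ∀ n, n ∈ Set.range (orderOf : Aff (Matrix (Fin 2) (Fin 2) F) (Gp F) → ℕ) →
          (n ∣ 6 → n = 6) → (n ∣ 9 → n = 9) → (n ∣ q - 1 → n = q - 1) →
          (n ∣ (q + 1) / 2 → n = (q + 1) / 2) →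
          n ∈ Set.range (orderOf : Aff (Matrix (Fin 2) (Fin 2) F) (Gp F) → ℕ) ∧
            ∀ m ∈ Set.range (orderOf : Aff (Matrix (Fin 2) (Fin 2) F) (Gp F) → ℕ), n ∣ m → m = n := by
        intro n h0 h1 h2 h3 h4
        refine ⟨h0, ?_⟩
        rintro _ ⟨a, rfl⟩ hd
        rcases hup a with h | h | h | h
        · have := h1 (hd.trans h); exact Nat.dvd_antisymm (this ▸ h) hd
        · have := h2 (hd.trans h); exact Nat.dvd_antisymm (this ▸ h) hd
        · have := h3 (hd.trans h); exact Nat.dvd_antisymm (this ▸ h) hd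
        · have := h4 (hd.trans h); exact Nat.dvd_antisymm (this ▸ h) hd
      rcases hn with rfl | rfl | rfl | rfl
      · exact key _ m6 (fun _ => rfl) (fun h => by omega) (fun h => by omega) (fun h => by omega)
      · exact key _ m9 (fun h => by omega) (fun _ => rfl) (fun h => by omega) (fun h => by omega)
      · refine key _ mm (fun h => ?_) (fun h => ?_) (fun _ => rfl) (fun h => absurd h n2)
        · have := Nat.le_of_dvd (by norm_num) h; omega
        · have := Nat.le_of_dvd (by norm_num) h; omega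
      · refine key _ mp (fun h => ?_) (fun h => ?_) (fun h => absurd h n1) (fun _ => rfl)
        · have := Nat.le_of_dvd (by norm_num) h; omega
        · have := Nat.le_of_dvd (by norm_num) h; omega

end Cfsg.Agent.S2515
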