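import Cfsg.Statements.S2516
import Mathlib

set_option autoImplicit false
open Cfsg

namespace Cfsg.Agent.S2516

theorem sd_pow {F : Type*} [Field F] {V : Type*} [AddCommGroup V] [Module F V]
    {G : Type*} [Group G] (ρ : Representation F G V)
    (x : Multiplicative V ⋊[(MulAutMultiplicative V).symm.toMonoidHom.comp
        ((DistribMulAction.toAddAut ((V →ₗ[F] V)ˣ) V).comp ρ.asGroupHom)] G) (n : ℕ) :
    (x ^ n).left = Multiplicative.ofAdd
      ((∑ i ∈ Finset.range n, (ρ x.right) ^ i) (Multiplicative.toAdd x.left)) := by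
  induction n with
  | zero => rw [pow_zero, Finset.sum_range_zero]; rfl
  | succ n ih =>
    rw [pow_succ, SemidirectProduct.mul_left, ih, Finset.sum_range_succ, LinearMap.add_apply,
      ofAdd_add]
    congr 1
    have : (x ^ n).right = x.right ^ n := map_pow SemidirectProduct.rightHom x n
    rw [this, ← map_pow]
    rfl

/-- Let F be a field of characteristic p > 0, V a non-zero finite-dimensional F-vector space, G a finite group and ρ a representation of G on V; form the semidirect product V ⋊ G. For g ∈ G of order k, the coset Vg contains an element of order pk if and only if the minimal polynomial of ρ(g) does not divide 1 + X + ⋯ + X^(k−1). -/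
theorem result {F : Type*} [Field F] (p : ℕ) [Fact p.Prime] [CharP F p] {V : Type*} [AddCommGroup V] [Module F V] [FiniteDimensional F V] [Nontrivial V]
    {G : Type*} [Group G] [Finite G] (ρ : Representation F G V) (g : G) :
    (∃ x : Multiplicative V ⋊[(MulAutMultiplicative V).symm.toMonoidHom.comp
        ((DistribMulAction.toAddAut ((V →ₗ[F] V)ˣ) V).comp ρ.asGroupHom)] G,
        x.right = g ∧ orderOf x = p * orderOf g) ↔
      ¬ (minpoly F (ρ g) ∣ ∑ i ∈ Finset.range (orderOf g), (Polynomial.X : Polynomial F) ^ i) := by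
  have hk : orderOf g ≠ 0 := (orderOf_pos g).ne'
  have hp : p.Prime := Fact.out
  rw [minpoly.dvd_iff]
  have hev : Polynomial.aeval (ρ g)
      (∑ i ∈ Finset.range (orderOf g), (Polynomial.X : Polynomial F) ^ i) =
      ∑ i ∈ Finset.range (orderOf g), (ρ g) ^ i := by simp [map_sum]
  rw [hev]
  have key : ∀ x : Multiplicative V ⋊[(MulAutMultiplicative V).symm.toMonoidHom.comp
        ((DistribMulAction.toAddAut ((V →ₗ[F] V)ˣ) V).comp ρ.asGroupHom)] G, x.right = g →
        (orderOf x = p * orderOf g ↔
          (∑ i ∈ Finset.range (orderOf g), (ρ g) ^ i) (Multiplicative.toAdd x.left) ≠ 0) := by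
    intro x hx
    have hdvd : orderOf g ∣ orderOf x := by
      rw [← hx]
      exact orderOf_map_dvd SemidirectProduct.rightHom x
    have h1 : orderOf (x ^ orderOf g) * orderOf g = orderOf x := by
      rw [orderOf_pow' x hk, Nat.gcd_eq_right hdvd, Nat.div_mul_cancel hdvd]
    have h2 : x ^ orderOf g = SemidirectProduct.inl (Multiplicative.ofAdd
        ((∑ i ∈ Finset.range (orderOf g), (ρ g) ^ i) (Multiplicative.toAdd x.left))) := by
      ext
      · rw [sd_pow, hx]; rfl
      · have : (x ^ orderOf g).right = x.right ^ orderOf g :=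
          map_pow SemidirectProduct.rightHom x _
        rw [this, hx, pow_orderOf_eq_one]; rfl
    rw [h2, orderOf_injective _ SemidirectProduct.inl_injective, orderOf_ofAdd_eq_addOrderOf] at h1
    rw [← h1, Nat.mul_left_inj hk]
    constructor
    · intro h h0
      rw [h0, addOrderOf_zero] at h
      exact hp.one_lt.ne h
    · intro h
      refine addOrderOf_eq_prime ?_ h
      rw [← Nat.cast_smul_eq_nsmul F, CharP.cast_eq_zero, zero_smul]
  constructor
  · rintro ⟨x, hx, h⟩ h0
    rw [key x hx, h0] at h
    exact h rfl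
  · intro h
    obtain ⟨v, hv⟩ : ∃ v, (∑ i ∈ Finset.range (orderOf g), (ρ g) ^ i) v ≠ 0 := by
      by_contra hc
      push Not at hc
      exact h (LinearMap.ext hc)
    exact ⟨⟨Multiplicative.ofAdd v, g⟩, rfl, (key _ rfl).2 hv⟩

end Cfsg.Agent.S2516
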