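import Mathlib
import Cfsg.Statements.S2517
import Cfsg.Agent.KSG.SpecOrth

set_option autoImplicit false
open Cfsg

namespace Cfsg.Agent.S2517

open CL.SpecK CL.Orth CL.Nil CL.GLn CL.Witt Module QuadraticMap

universe u

theorem mem_range_sd {F : Type*} [Field F] (p : ℕ) [Fact p.Prime] [CharP F p] {V : Type*}
    [AddCommGroup V] [Module F V] {G : Type*} [Group G] [Finite G]
    (φ : G →* MulAut (Multiplicative V)) (ρ : G →* Module.End F V)
    (h : ∀ g v, φ g (Multiplicative.ofAdd v) = Multiplicative.ofAdd (ρ g v)) (M : ℕ) :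
    M ∈ Set.range (orderOf : Multiplicative V ⋊[φ] G → ℕ) ↔ ∃ g : G, M = orderOf g ∨
      M = p * orderOf g ∧ ∑ i ∈ Finset.range (orderOf g), ρ g ^ i ≠ 0 := by
  have h1 : ∀ (x : Multiplicative V ⋊[φ] G) n, (x ^ n).left = Multiplicative.ofAdd
      ((∑ i ∈ Finset.range n, ρ x.right ^ i) x.left.toAdd) := fun x n => by
    induction n with
    | zero => rw [pow_zero, Finset.sum_range_zero]; rfl
    | succ n ih =>
      rw [pow_succ, SemidirectProduct.mul_left, ih, Finset.sum_range_succ, LinearMap.add_apply,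
        ofAdd_add, show (x ^ n).right = x.right ^ n from map_pow SemidirectProduct.rightHom x n,
        ← map_pow, ← h]
      rfl
  have h2 : ∀ x : Multiplicative V ⋊[φ] G, orderOf x = addOrderOf
      ((∑ i ∈ Finset.range (orderOf x.right), ρ x.right ^ i) x.left.toAdd) * orderOf x.right := by
    intro x
    have h3 : orderOf x.right ∣ orderOf x := orderOf_map_dvd SemidirectProduct.rightHom x
    have h4 : x ^ orderOf x.right = SemidirectProduct.inl (Multiplicative.ofAdd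
        ((∑ i ∈ Finset.range (orderOf x.right), ρ x.right ^ i) x.left.toAdd)) :=
      SemidirectProduct.ext (h1 _ _)
        ((map_pow SemidirectProduct.rightHom x _).trans (pow_orderOf_eq_one _))
    rw [← orderOf_ofAdd_eq_addOrderOf,
      ← orderOf_injective (SemidirectProduct.inl (φ := φ)) SemidirectProduct.inl_injective, ← h4,
      orderOf_pow' x (orderOf_pos _).ne', Nat.gcd_eq_right h3, Nat.div_mul_cancel h3]
  have h3 : ∀ v : V, v ≠ 0 → addOrderOf v = p := fun v => addOrderOf_eq_prime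
    (by rw [← Nat.cast_smul_eq_nsmul F, CharP.cast_eq_zero, zero_smul])
  constructor
  · rintro ⟨x, rfl⟩
    refine ⟨x.right, ?_⟩
    by_cases e : (∑ i ∈ Finset.range (orderOf x.right), ρ x.right ^ i) x.left.toAdd = 0
    · exact .inl (by rw [h2, e, addOrderOf_zero, one_mul])
    · exact .inr ⟨by rw [h2, h3 _ e], fun e' => e (by rw [e']; rfl)⟩
  · rintro ⟨g, rfl | ⟨rfl, e⟩⟩
    · exact ⟨SemidirectProduct.inr g, orderOf_injective _ SemidirectProduct.inr_injective g⟩
    · obtain ⟨v, hv⟩ := DFunLike.ne_iff.1 e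
      exact ⟨⟨Multiplicative.ofAdd v, g⟩, (h2 _).trans (congrArg (· * _) (h3 _ hv))⟩

theorem exists_O {F : Type u} [Field F] [Fintype F] (h2 : (2 : F) ≠ 0) {V : Type*}
    [AddCommGroup V] [Module F V] [FiniteDimensional F V] {Q : QuadraticForm F V}
    (hQ : (polarBilin Q).Nondegenerate) {S : FS (FormType.quad F)} (h : Sg S 1 1)
    (h1 : S.dim = finrank F V) (h3 : S.dsc = dsc Q) :
    ∃ g : CL.Orth.O Q, dsign g = 1 ∧ spin g = 1 ∧ Simil S.A (toEnd Q g) := by
  obtain ⟨g, hg, h4, h5⟩ := h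
  obtain ⟨φ, hφ⟩ := exists_isometry_of_dsc_eq h2 (qfOf_nondeg S.nd) hQ h1 h3
  refine ⟨congrO φ hφ g, by rw [dsign_congrO, h4], by rw [spin_congrO (qfOf_nondeg S.nd), h5],
    φ, fun v => ?_⟩
  rw [← hg]
  exact congrArg (fun w => φ (g.1 w)) (φ.symm_apply_apply v).symm


theorem aux {F : Type*} [Field F] [Fintype F] (hF : Odd (Fintype.card F)) {ι : Type} [Fintype ι]
    [DecidableEq ι] {Q : QuadraticForm F (ι → F)} (hQ : (polarBilin Q).Nondegenerate)
    (h8 : finrank F (ι → F) = 8) (hd : dsc Q = -1) :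
    Set.range (orderOf : Cfsg.POmega F (Cfsg.quadFormOdd 4 F) → ℕ) =
      Set.range (orderOf : (Multiplicative (ι → F) ⋊[
          (MulAutMultiplicative (ι → F)).symm.toMonoidHom.comp
           ((DistribMulAction.toAddAut (LinearMap.GeneralLinearGroup F (ι → F)) (ι → F)).comp
            (Matrix.GeneralLinearGroup.toLin.toMonoidHom.comp
              ((Cfsg.isometryGroup F ⇑Q).subtype.comp (Cfsg.Omega F ⇑Q).subtype)))]
          ↥(Cfsg.Omega F ⇑Q)) → ℕ) := by
  obtain ⟨p, _⟩ := CharP.exists F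
  have := Fact.mk (CharP.char_is_prime F p)
  have h2 := CL.Orth.two_ne_zero_of_odd_card hF
  have hQ' := QOdd_nondeg 4 F h2
  have h9 : finrank F (Unit ⊕ (Fin 4 ⊕ Fin 4) → F) = 9 := by simp
  have hc := mem_commutator_iff hQ (.inl (card_ne_two_of_two_ne_zero h2))
  let ρ : ↥(Cfsg.Omega F (⇑Q)) →* Module.End F _ :=
    ((toEnd _).comp (toO Q).toMonoidHom).comp (Subgroup.subtype _)
  have hρ : ∀ g, orderOf (ρ g) = orderOf g := orderOf_injective ρ
    ((toEnd_injective.comp (toO Q).injective).comp Subtype.val_injective)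
  have key : ∀ S : FS (FormType.quad F), S.dim = 8 → S.dsc = -1 → Sg S 1 1 →
      ∃ g, Simil S.A (ρ g) := fun S h1 h3 h4 => by
    obtain ⟨g, h5, h6, h7⟩ := exists_O h2 hQ h4 (h1.trans h8.symm) (h3.trans hd.symm)
    obtain ⟨g, rfl⟩ := (toO Q).surjective g
    exact ⟨⟨g, (mem_Omega_iff g).2 ((hc _).2 ⟨h5, h6⟩)⟩, h7⟩
  ext M
  rw [mem_range_POmega_iff h2 (by omega)]
  constructor
  · rintro ⟨g, h1, h3, rfl⟩
    refine mem_of_el_nine p hF ?_ ?_ ?_ ⟨oFS hQ' g, h9, rfl, ⟨g, rfl, h1, h3⟩,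
      orderOf_injective _ toEnd_injective g⟩
    · rintro k _ h ⟨x, rfl⟩
      exact @exists_orderOf_eq_of_dvd_orderOf _ _
        (Finite.of_equiv _ SemidirectProduct.equivProd.symm) _ _ h
    · rintro _ ⟨S, h4, h5, h6, rfl⟩
      obtain ⟨g, hg⟩ := key S h4 h5 h6
      exact (mem_range_sd p _ ρ (fun _ _ => rfl) _).2 ⟨g, .inl (hg.orderOf_eq.trans (hρ g))⟩
    · intro S h4 h5 h6 h7
      obtain ⟨g, hg⟩ := key S h4 h5 h6
      have h10 := hg.aeval_eq_zero_iff (∑ i ∈ Finset.range (orderOf S.A), Polynomial.X ^ i)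
      simp only [map_sum, map_pow, Polynomial.aeval_X] at h10
      rw [Ne, h10, hg.orderOf_eq, hρ] at h7
      exact (mem_range_sd p _ ρ (fun _ _ => rfl) _).2
        ⟨g, .inr ⟨by rw [hg.orderOf_eq, hρ], h7⟩⟩
  · intro h
    obtain ⟨g, hg⟩ := (mem_range_sd p _ ρ (fun _ _ => rfl) _).1 h
    have h1 : Sg (oFS hQ (toO Q g.1)) 1 1 := ⟨_, rfl, (hc _).1 ((mem_Omega_iff g.1).1 g.2)⟩
    obtain ⟨S, h3, h4, h5, rfl⟩ : El F 9 (dsc (QOdd 4 F)) 1 M := by
      rcases hg with rfl | ⟨rfl, hg⟩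
      · have e : El F 8 (-1) 1 (orderOf g) := ⟨oFS hQ (toO Q g.1), h8, hd, h1, hρ g⟩
        have := (el_one h2 one_pos (-dsc (QOdd 4 F))).mul e
        rwa [neg_mul_neg, mul_one, Nat.lcm_one_left] at this
      · have e1 : (oFS hQ (toO Q g.1)).dim = 8 := h8
        have e2 : orderOf (oFS hQ (toO Q g.1)).A = orderOf g := hρ g
        have := el_succ_of_sum_ne_zero p hF h1 (by rw [e1]; decide) (by rw [e2]; exact hg)
          (dsc (QOdd 4 F))
        rwa [e1, e2] at this
    obtain ⟨g, h6, h7, h10⟩ := exists_O h2 hQ' h5 (h3.trans h9.symm) h4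
    exact ⟨g, h6, h7, (orderOf_injective _ toEnd_injective g).symm.trans h10.orderOf_eq.symm⟩

/-- Let F be a finite field of odd order q, let Ω₉ be the simple orthogonal group PΩ(9, F), and let Ω₈⁻ be the commutator subgroup of the isometry group of a minus-type non-singular quadratic form on V = F⁸ (the simple group PΩ⁻(8, F), acting on its natural module V). Then Ω₉ and the semidirect product V ⋊ Ω₈⁻ have exactly the same set of element orders. -/
theorem result {F : Type*} [Field F] [Fintype F] (hF : Odd (Fintype.card F)) (a b : F)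
    (hab : ∀ z₁ z₂ : F, z₁ ^ 2 + a * z₁ * z₂ + b * z₂ ^ 2 = 0 → z₁ = 0 ∧ z₂ = 0) :
    Set.range (orderOf : Cfsg.POmega F (Cfsg.quadFormOdd 4 F) → ℕ) =
      Set.range (orderOf :
        (Multiplicative (((Fin 3 ⊕ Fin 3) ⊕ Fin 2) → F)) ⋊[
          (MulAutMultiplicative (((Fin 3 ⊕ Fin 3) ⊕ Fin 2) → F)).symm.toMonoidHom.comp
           ((DistribMulAction.toAddAut (LinearMap.GeneralLinearGroup F (((Fin 3 ⊕ Fin 3) ⊕ Fin 2) → F))
              (((Fin 3 ⊕ Fin 3) ⊕ Fin 2) → F)).comp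
            (Matrix.GeneralLinearGroup.toLin.toMonoidHom.comp
              ((Cfsg.isometryGroup F (Cfsg.quadFormMinus 3 F a b)).subtype.comp
                (Cfsg.Omega F (Cfsg.quadFormMinus 3 F a b)).subtype)))]
          ↥(Cfsg.Omega F (Cfsg.quadFormMinus 3 F a b)) → ℕ) := by
  refine aux hF (QMinus_nondeg 3 F hab) (by simp) ?_
  rw [dsc_QMinus (CL.Orth.two_ne_zero_of_odd_card hF) 3 hab, show 3 + 1 = 2 * 2 from rfl, pow_mul,
    pow_two, Int.units_mul_self]

end Cfsg.Agent.S2517
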