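import Cfsg.Statements.S2518
import Cfsg.Agent.CHEV.SpecG2
import Cfsg.Agent.PERM.SpecGL2

set_option autoImplicit false
open Cfsg

namespace Cfsg.Agent.S2518

/-- Let F₃ be the field with 3 elements and F₁₃ the field with 13 elements. The Chevalley group G₂(F₃) and PSL(2, F₁₃) have the same prime graph: the same prime divisors of their orders, and for distinct primes r, s an element of order rs in one iff in the other. -/
theorem result {F : Type*} [Field F] [Fintype F] (hF : Fintype.card F = 3) {E : Type*} [Field E] [Fintype E] (hE : Fintype.card E = 13) :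
    ((∀ r : ℕ, r.Prime → (r ∣ Nat.card ↥(Cfsg.Lie.chevG2.group F) ↔ r ∣ Nat.card (Matrix.ProjectiveSpecialLinearGroup (Fin 2) E))) ∧
      (∀ r s : ℕ, r.Prime → s.Prime → r ≠ s → ((∃ x : ↥(Cfsg.Lie.chevG2.group F), orderOf x = r * s) ↔ (∃ y : (Matrix.ProjectiveSpecialLinearGroup (Fin 2) E), orderOf y = r * s)))) := by

  have : Fact (Nat.Prime 3) := ⟨Nat.prime_three⟩
  have := CL.Chev.charP_of_natCard (F := F) (n := 1) Nat.prime_three (by rw [Nat.card_eq_fintype_card, hF]; rfl)
  have := CL.Chev.charP_of_natCard (F := E) (n := 1) (p := 13) (by norm_num) (by rw [Nat.card_eq_fintype_card, hE]; rfl)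
  have h : ∀ n, Squarefree n → ((∃ x : Cfsg.Lie.chevG2.group F, orderOf x = n) ↔
      ∃ y : Matrix.ProjectiveSpecialLinearGroup (Fin 2) E, orderOf y = n) := fun n hn => by
    refine Iff.trans ?_ (Set.ext_iff.1 (CL.Spec.spec_PSL2 (F := E)) n).symm
    rw [hE, ringChar.eq E 13]
    change _ ↔ n ∣ 13 ∨ n ∣ 6 ∨ n ∣ 7
    have h1 := CL.Chev.spec_G2_lower 3 hF
    refine ⟨?_, fun h => ?_⟩
    · rintro ⟨g, rfl⟩
      have h2 : ¬ 2 * 2 ∣ orderOf g := fun h => by simpa using hn 2 h
      have h3 : ¬ 3 * 3 ∣ orderOf g := fun h => by simpa using hn 3 h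
      have h4 : ∃ m ∈ [8, 13, 7, 6, 12, 9], orderOf g ∣ m := by
        rcases CL.Chev.spec_G2_upper 3 hF g with h | h | h | h | h | h | h
        exacts [⟨_, by simp, h⟩, ⟨_, by simp, h⟩, ⟨_, by simp, h⟩, ⟨_, by simp, h⟩, ⟨_, by simp, h⟩, absurd h.1 (by simp),
          ⟨_, by simp, h 2 (by simp)⟩]
      have h5 : orderOf g < 14 := by
        obtain ⟨m, hm, h⟩ := h4
        simp only [List.mem_cons, List.not_mem_nil, or_false] at hm
        exact (Nat.le_of_dvd (by omega) h).trans_lt (by omega)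
      generalize orderOf g = n at h2 h3 h4 h5
      revert h2 h3 h4
      revert n
      decide
    · rcases h with h | h | h
      exacts [CL.Spec.mem_range_of_dvd (h1 13 (by simp)) h, CL.Spec.mem_range_of_dvd (h1 6 (by simp)) h,
        CL.Spec.mem_range_of_dvd (h1 7 (by simp)) h]
  refine ⟨fun r hr => ?_, fun r s hr hs hrs => h _ ((Nat.squarefree_mul ((Nat.coprime_primes hr hs).2 hrs)).2
    ⟨hr.prime.squarefree, hs.prime.squarefree⟩)⟩
  have : Fact r.Prime := ⟨hr⟩
  refine ⟨fun h1 => ?_, fun h1 => ?_⟩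
  · obtain ⟨y, rfl⟩ := (h r hr.prime.squarefree).1 (exists_prime_orderOf_dvd_card' r h1)
    exact orderOf_dvd_natCard y
  · obtain ⟨y, rfl⟩ := (h r hr.prime.squarefree).2 (exists_prime_orderOf_dvd_card' r h1)
    exact orderOf_dvd_natCard y

end Cfsg.Agent.S2518
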