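import Cfsg.Statements.S2519
import Cfsg.Agent.CHEV.SpecG2

set_option autoImplicit false
open Cfsg

namespace Cfsg.Agent.S2519

theorem antichain {p r : ℕ} (hp : p.Prime) (hq : p ∣ r + 1) (h : 4 ≤ r) :
    ∀ m ∈ [p * (r + 2), p * r, r ^ 2 + 2 * r, r ^ 2 + 3 * r + 3, r ^ 2 + r + 1, p ^ 2],
      ∀ n ∈ [p * (r + 2), p * r, r ^ 2 + 2 * r, r ^ 2 + 3 * r + 3, r ^ 2 + r + 1, p ^ 2], m ∣ n → n = m := by
  obtain ⟨c, hc⟩ := hq
  have h0 := hp.pos
  have h1 : ∀ n ∈ [r ^ 2 + 2 * r, r ^ 2 + 3 * r + 3, r ^ 2 + r + 1, r, r + 2], ¬ p ∣ n := by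
    have e : ∀ n k, n + 1 = (r + 1) * k ∨ n = (r + 1) * k + 1 → ¬ p ∣ n := fun n k h h' => by
      rw [hc, mul_assoc] at h
      rcases h with h | h
      · exact hp.not_dvd_one ((Nat.dvd_add_right h').1 ⟨_, h⟩)
      · exact hp.not_dvd_one ((Nat.dvd_add_right (dvd_mul_right _ _)).1 (h ▸ h'))
    simp only [List.forall_mem_cons, List.not_mem_nil, IsEmpty.forall_iff, implies_true, and_true]
    exact ⟨e _ (r + 1) (.inl (by ring)), e _ (r + 2) (.inr (by ring)), e _ r (.inr (by ring)), e _ 1 (.inl (by ring)),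
      e _ 1 (.inr (by ring))⟩
  have h2 : ∀ n ∈ [r ^ 2 + 2 * r, r ^ 2 + 3 * r + 3, r ^ 2 + r + 1], ∀ k, 0 < k → k ≤ r + 2 → ¬ n ∣ p * k := fun n hn k h3 h4 h5 => by
    have := Nat.le_of_dvd h3 (((hp.coprime_iff_not_dvd.2 (h1 n (by grind))).symm).dvd_of_dvd_mul_left h5)
    simp only [List.mem_cons, List.not_mem_nil, or_false] at hn
    rcases hn with rfl | rfl | rfl <;> nlinarith
  have h3 : p ≤ r + 1 := Nat.le_of_dvd r.succ_pos ⟨c, hc⟩
  have h4 : ¬ r ∣ p := fun h5 => by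
    rcases (Nat.dvd_prime hp).1 h5 with h6 | h6
    · omega
    · exact h1 r (by simp) (h6 ▸ dvd_rfl)
  have h5 : ¬ r ∣ r + 2 := fun h5 => by have := Nat.le_of_dvd two_pos ((Nat.dvd_add_right dvd_rfl).1 h5); omega
  have h6 : ∀ k ≤ r + 1, 0 < k → ¬ r + 2 ∣ k := fun k h6 h7 h8 => by have := Nat.le_of_dvd h7 h8; omega
  intro m hm n hn hd
  simp only [List.mem_cons, List.not_mem_nil, or_false, sq p] at hm hn
  rcases hm with rfl | rfl | rfl | rfl | rfl | rfl <;> rcases hn with rfl | rfl | rfl | rfl | rfl | rfl <;>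
    first
    | rfl
    | (refine (h1 _ ?_ (dvd_of_mul_right_dvd hd)).elim; simp; done)
    | (refine (h2 _ ?_ _ (by omega) (by omega) hd).elim; simp; done)
    | exact Nat.eq_of_dvd_of_lt_two_mul (by positivity) hd (by nlinarith)
    | (refine (h1 _ ?_ (Nat.dvd_of_mul_dvd_mul_left h0 hd)).elim; simp; done)
    | exact (h6 _ (by omega) (by omega) (Nat.dvd_of_mul_dvd_mul_left h0 hd)).elim
    | exact (h4 (Nat.dvd_of_mul_dvd_mul_left h0 hd)).elim
    | exact (h5 (Nat.dvd_of_mul_dvd_mul_left h0 hd)).elim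

/-- Let F be a finite field of odd order q = p^a ≥ 5. The element orders of the Chevalley group G₂(F) that are maximal under divisibility are exactly p(q + 1), p(q − 1), q² − 1, q² + q + 1, q² − q + 1, together with p² when p is 3 or 5. -/
theorem result {F : Type*} [Field F] [Fintype F] (p a : ℕ) (hp : p.Prime) (hp2 : p ≠ 2) (ha : 1 ≤ a) (hF : Fintype.card F = p ^ a) (hq5 : 5 ≤ Fintype.card F) :
    {n : ℕ | n ∈ Set.range (orderOf : ↥(Cfsg.Lie.chevG2.group F) → ℕ) ∧ ∀ m ∈ Set.range (orderOf : ↥(Cfsg.Lie.chevG2.group F) → ℕ), n ∣ m → m = n} =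
      ({p * (p ^ a + 1), p * (p ^ a - 1), p ^ (2 * a) - 1, p ^ (2 * a) + p ^ a + 1, p ^ (2 * a) - p ^ a + 1} : Set ℕ) ∪
        (if p = 3 ∨ p = 5 then ({p ^ 2} : Set ℕ) else ∅) := by

  have : Fact p.Prime := ⟨hp⟩
  have := CL.Chev.charP_of_natCard (F := F) hp (by rw [Nat.card_eq_fintype_card, hF])
  have hd := CL.Chev.dvd_card (F := F) p
  have h1 := CL.Chev.spec_G2_lower p hF
  have h2 := CL.Chev.spec_G2_upper p hF
  rw [hF] at hq5 hd
  rw [pow_mul']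
  generalize p ^ a = q at *
  obtain ⟨r, rfl⟩ : ∃ r, q = r + 1 := ⟨q - 1, by omega⟩
  have e1 : (r + 1) ^ 2 - 1 = r ^ 2 + 2 * r := Nat.sub_eq_of_eq_add (by ring)
  have e2 : (r + 1) ^ 2 + (r + 1) + 1 = r ^ 2 + 3 * r + 3 := by ring
  have e3 : (r + 1) ^ 2 - (r + 1) + 1 = r ^ 2 + r + 1 := congrArg (· + 1) (Nat.sub_eq_of_eq_add (by ring))
  simp only [e1, e2, e3, Nat.add_sub_cancel, add_assoc r 1 1, Nat.reduceAdd] at h1 h2 ⊢
  generalize hM : (_ ∪ _ : Set ℕ) = M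
  have h3 : ∀ n, n ∈ M ↔ n ∈ [p * (r + 2), p * r, r ^ 2 + 2 * r, r ^ 2 + 3 * r + 3, r ^ 2 + r + 1] ∨
      (p = 3 ∨ p = 5) ∧ n = p ^ 2 := fun n => by rw [← hM]; split_ifs with h <;> simp [h, -Set.union_singleton]
  have h4 : ∀ n ∈ M, ∃ g : Cfsg.Lie.chevG2.group F, orderOf g = n := fun n hn => by
    rcases (h3 n).1 hn with h | ⟨rfl | rfl, rfl⟩
    · exact h1 n (by grind)
    · exact CL.Chev.exists_unip_G2 3 (k := 1) (c := fun r => [3, 3, -3, -13, 45, -67].getD (r - 6) 0) (by norm_num) (by decide)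
        (by decide +kernel)
    · exact CL.Chev.exists_unip_G2 5 (k := 1) (c := fun r => [5, 5, -10, -70, 400, -1227].getD (r - 6) 0) (by norm_num)
        (by decide) (by decide +kernel)
  have h5 : ∀ g : Cfsg.Lie.chevG2.group F, ∃ n ∈ M, orderOf g ∣ n := fun g => by
    simp only [h3]
    rcases h2 g with h | h | h | h | h | h | h
    exacts [⟨_, by simp, h⟩, ⟨_, by simp, h⟩, ⟨_, by simp, h⟩, ⟨_, by simp, h⟩, ⟨_, by simp, h⟩, absurd h.1 hp2, by
      by_cases h6 : p = 3 ∨ p = 5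
      · exact ⟨_, .inr ⟨h6, rfl⟩, h 2 (by rcases h6 with rfl | rfl <;> norm_num)⟩
      · refine ⟨p * r, by simp, (h 1 ?_).trans (by simp)⟩
        have := hp.two_le
        have : p ≠ 4 := by rintro rfl; exact absurd hp (by norm_num)
        rw [pow_one]
        omega]
  refine Set.ext fun n => ⟨?_, fun hn => ⟨h4 n hn, ?_⟩⟩
  · rintro ⟨⟨g, rfl⟩, h⟩
    obtain ⟨n, hn, h'⟩ := h5 g
    exact h n (h4 n hn) h' ▸ hn
  · rintro _ ⟨g, rfl⟩ h
    obtain ⟨m, hm, h'⟩ := h5 g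
    have := antichain hp hd (by omega) n (by grind) m (by grind) (h.trans h')
    exact Nat.dvd_antisymm (this ▸ h') h

end Cfsg.Agent.S2519
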