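import Cfsg.Statements.S2520
import Cfsg.Agent.CHEV.SpecG2
import Cfsg.Agent.PERM.SpecBasic

set_option autoImplicit false
open Cfsg

namespace Cfsg.Agent.S2520

/-- Let F be a finite field with q = 2^a ≥ 4 elements and G₂(F) the Chevalley group of type G₂ over it. Every element order of G₂(F) maximal under divisibility lies in the set {8, 12, 2(q + 1), 2(q − 1), q² − 1, q² + q + 1, q² − q + 1}, and every member of that set is an element order of G₂(F). -/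
theorem result {F : Type*} [Field F] [Fintype F] (a : ℕ) (ha : 2 ≤ a) (hF : Fintype.card F = 2 ^ a) :
    {n : ℕ | n ∈ Set.range (orderOf : ↥(Cfsg.Lie.chevG2.group F) → ℕ) ∧ ∀ m ∈ Set.range (orderOf : ↥(Cfsg.Lie.chevG2.group F) → ℕ), n ∣ m → m = n} ⊆ ({8, 12, 2 * (2 ^ a + 1), 2 * (2 ^ a - 1), 2 ^ (2 * a) - 1, 2 ^ (2 * a) + 2 ^ a + 1, 2 ^ (2 * a) - 2 ^ a + 1} : Set ℕ) ∧
    ({8, 12, 2 * (2 ^ a + 1), 2 * (2 ^ a - 1), 2 ^ (2 * a) - 1, 2 ^ (2 * a) + 2 ^ a + 1, 2 ^ (2 * a) - 2 ^ a + 1} : Set ℕ) ⊆ Set.range (orderOf : ↥(Cfsg.Lie.chevG2.group F) → ℕ) := by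

  have := CL.Chev.charP_of_natCard (F := F) Nat.prime_two (by rw [Nat.card_eq_fintype_card, hF])
  have h1 := CL.Chev.spec_G2_lower 2 hF
  rw [pow_mul']
  generalize hM : ({8, 12, _, _, _, _, _} : Set ℕ) = M
  have h4 : M ⊆ Set.range (orderOf : Cfsg.Lie.chevG2.group F → ℕ) := by
    rw [← hM]
    rintro n (rfl | rfl | h)
    · exact CL.Chev.exists_unip_G2 2 (k := 2) (c := fun r => [4, 4, -6, -34, 156, -355].getD (r - 6) 0) (by norm_num) (by decide)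
        (by decide +kernel)
    · exact CL.Chev.exists_twelve_G2
    · exact h1 n (by grind)
  refine ⟨?_, h4⟩
  rintro _ ⟨⟨g, rfl⟩, h⟩
  obtain ⟨n, hn, h'⟩ : ∃ n ∈ M, orderOf g ∣ n := by
    rw [← hM]
    rcases CL.Chev.spec_G2_upper 2 hF g with h | h | h | h | h | h | h
    exacts [⟨_, by simp, h⟩, ⟨_, by simp, h⟩, ⟨_, by simp, h⟩, ⟨_, by simp, h⟩, ⟨_, by simp, h⟩, ⟨_, by simp, h.2⟩,
      ⟨8, by simp, h 3 (by norm_num)⟩]
  exact h n (h4 hn) h' ▸ hn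

end Cfsg.Agent.S2520
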