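import Cfsg.Statements.S2521


set_option autoImplicit false
open Cfsg

namespace Cfsg.Agent.S2521

/-- Let B be a finite group that is the semidirect product of a nilpotent normal subgroup U by an abelian subgroup T (U ∩ T = 1, UT = B), and let t ∈ T have centralizer exactly T. Then every element of the coset tU is conjugate to t in B: for each u ∈ U there is b ∈ B with b t b⁻¹ = t u. -/
theorem result {B : Type*} [Group B] [Finite B] (U T : Subgroup B) [U.Normal] (hU : Group.IsNilpotent ↥U) (hT : IsMulCommutative ↥T)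
    (hcompl : Subgroup.IsComplement' U T) (t : B) (ht : t ∈ T) (hreg : Subgroup.centralizer ({t} : Set B) = T) (u : B) (hu : u ∈ U) :
    ∃ b : B, b * t * b⁻¹ = t * u := by
  classical
  let f : U → U := fun v => ⟨t⁻¹ * (v : B) * t * (v : B)⁻¹, by
    refine U.mul_mem ?_ (U.inv_mem v.2)
    have := (inferInstance : U.Normal).conj_mem (v : B) v.2 t⁻¹
    simpa using this⟩
  have hf : Function.Injective f := by
    intro v w hvw
    have h1 : t⁻¹ * (v : B) * t * (v : B)⁻¹ = t⁻¹ * (w : B) * t * (w : B)⁻¹ := congrArg Subtype.val hvw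
    have h2 : ((w : B)⁻¹ * v) ∈ Subgroup.centralizer ({t} : Set B) := by
      rw [Subgroup.mem_centralizer_iff]
      intro g hg
      rw [Set.mem_singleton_iff] at hg
      subst hg
      have h3 : (v : B) * g * (v : B)⁻¹ = (w : B) * g * (w : B)⁻¹ := by
        have := congrArg (fun x => g * x) h1
        simpa [mul_assoc] using this
      calc g * ((w : B)⁻¹ * v) = (w : B)⁻¹ * ((w : B) * g * (w : B)⁻¹) * v := by group
        _ = (w : B)⁻¹ * ((v : B) * g * (v : B)⁻¹) * v := by rw [h3]
        _ = (w : B)⁻¹ * v * g := by group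
    rw [hreg] at h2
    have h4 : ((w : B)⁻¹ * v) ∈ U := U.mul_mem (U.inv_mem w.2) v.2
    have h5 : ((w : B)⁻¹ * v) ∈ U ⊓ T := ⟨h4, h2⟩
    rw [hcompl.disjoint.eq_bot, Subgroup.mem_bot] at h5
    exact Subtype.ext (inv_mul_eq_one.mp h5).symm
  obtain ⟨v, hv⟩ := (Finite.injective_iff_surjective.mp hf) ⟨u, hu⟩
  refine ⟨v, ?_⟩
  have h1 : t⁻¹ * (v : B) * t * (v : B)⁻¹ = u := congrArg Subtype.val hv
  rw [← h1]; group

end Cfsg.Agent.S2521
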