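import Cfsg.Statements.S2522
import Cfsg.Agent.KSG.ThLev

set_option autoImplicit false
open Cfsg

namespace Cfsg.Agent.S2522

/-- Let K be a field with at least four elements (finite or infinite), n ≥ 3, and J ∈ GL(n, K) the regular unipotent matrix (ones on the diagonal and the superdiagonal, zeros elsewhere). Then every non-scalar g ∈ GL(n, K) with det g = 1 is a product of two GL(n, K)-conjugates of J. -/
theorem result {K : Type*} [Field K] (hK : 4 ≤ Cardinal.mk K) (n : ℕ) (hn : 3 ≤ n) (J g : GL (Fin n) K)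
    (hJ : ∀ i j : Fin n, (J : Matrix (Fin n) (Fin n) K) i j = if i = j then 1 else if j.val = i.val + 1 then 1 else 0)
    (hg : ¬ ∃ c : K, (g : Matrix (Fin n) (Fin n) K) = c • (1 : Matrix (Fin n) (Fin n) K))
    (hdet : (g : Matrix (Fin n) (Fin n) K).det = 1) :
    ∃ x y : GL (Fin n) K, g = (x * J * x⁻¹) * (y * J * y⁻¹) := by
  classical
  obtain ⟨n, rfl⟩ : ∃ m, n = m + 1 := ⟨n - 1, by omega⟩
  have h1 : (J : Matrix (Fin (n + 1)) (Fin (n + 1)) K) - 1 = (jordanBlock (n + 1) K - 1).transpose := by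
    ext i j
    simp only [Matrix.sub_apply, hJ, jordanBlock, Matrix.transpose_apply, Matrix.of_apply, Fin.val_inj,
      Matrix.one_apply, @eq_comm _ j i]
  obtain ⟨A, B, h2, ⟨x, hx⟩, y, hy⟩ := CL.Thomp.exists_reg_mul_matrix (K := K) (J := J.1)
    (Cardinal.exists_finset_eq_card (by simpa using hK) |>.imp fun _ h => h.symm) (Fintype.card_fin _)
    (by rw [h1, ← Matrix.transpose_pow, CL.GLn.jordanBlock_sub_one_pow_eq_zero, Matrix.transpose_zero])
    (by
      rw [h1, ← Matrix.transpose_pow, Ne, Matrix.transpose_eq_zero]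
      exact CL.GLn.jordanBlock_sub_one_pow_ne_zero (k := n + 1) n.succ_pos) hdet
    fun c h => hg ⟨c, h⟩
  refine ⟨x, y, Units.ext ?_⟩
  simp only [Units.val_mul, hx.eq, hy.eq, Units.mul_inv_cancel_right, h2]

end Cfsg.Agent.S2522
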