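import Cfsg.Statements.S2523
import Cfsg.Agent.KSG.ThDat

set_option autoImplicit false
open Cfsg

namespace Cfsg.Agent.S2523

open CL.Chev CL.Chev.Cl CL.Thomp in

/-- Let F be a finite field with at least 9 elements and let G be one of PSL(n, F) (n ≥ 2), PSp(2m, F) (m ≥ 2), PΩ(2m+1, F) (m ≥ 3, here q odd), PΩ⁺(2m, F) (m ≥ 4), or the Chevalley group of type G₂, F₄, E₆, E₇ or E₈ over F. Then G is the square of one of its conjugacy classes (Thompson's conjecture on products of conjugacy classes, not his conjecture on class sizes): there is a conjugacy class C of G with C·C = G, i.e. every element of G is a product of two elements of C. -/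
theorem result {F : Type*} [Field F] [Fintype F] (hF : 9 ≤ Fintype.card F) {G : Type*} [Group G] [Finite G]
    (hG : (∃ n : ℕ, 2 ≤ n ∧ Nonempty (G ≃* Matrix.ProjectiveSpecialLinearGroup (Fin n) F)) ∨
      (∃ m : ℕ, 2 ≤ m ∧ Nonempty (G ≃* Cfsg.PSp m F)) ∨
      (∃ m : ℕ, 3 ≤ m ∧ Odd (Fintype.card F) ∧ Nonempty (G ≃* Cfsg.POmega F (Cfsg.quadFormOdd m F))) ∨
      (∃ m : ℕ, 4 ≤ m ∧ Nonempty (G ≃* Cfsg.POmega F (Cfsg.quadFormPlus m F))) ∨
      Nonempty (G ≃* ↥(Cfsg.Lie.chevG2.group F)) ∨ Nonempty (G ≃* ↥(Cfsg.Lie.chevF4.group F)) ∨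
      Nonempty (G ≃* ↥(Cfsg.Lie.chevE6.group F)) ∨ Nonempty (G ≃* ↥(Cfsg.Lie.chevE7.group F)) ∨ Nonempty (G ≃* ↥(Cfsg.Lie.chevE8.group F))) :
    ∃ c : G, ∀ g : G, ∃ x y : G, g = (x * c * x⁻¹) * (y * c * y⁻¹) := by
  rcases hG with ⟨n, hn, ⟨e⟩⟩ | ⟨n, hn, ⟨e⟩⟩ | ⟨n, hn, -, ⟨e⟩⟩ | ⟨n, hn, ⟨e⟩⟩ | ⟨⟨e⟩⟩ | ⟨⟨e⟩⟩ | ⟨⟨e⟩⟩ |
    ⟨⟨e⟩⟩ | ⟨⟨e⟩⟩
  · obtain ⟨n, rfl⟩ : ∃ m, n = m + 1 := ⟨n - 1, by omega⟩
    exact class_sq_of hF irred_A (dat_A (by omega)) (slSt_good ℚ n) (pslSt_good F n)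
      (pslSt_adjoint F n) (pslSt_top F n) e
  · obtain ⟨n, rfl⟩ : ∃ m, n = m + 1 := ⟨n - 1, by omega⟩
    exact class_sq_of hF irred_C (dat_C (by omega)) (pspSt_good ℚ n) (pspSt_good F n)
      (pspSt_adjoint F n) (pspSt_top F n) e
  · obtain ⟨n, rfl⟩ : ∃ m, n = m + 1 := ⟨n - 1, by omega⟩
    have h1 : 1 ≤ n := by omega
    have h2 : ∃ a : F, a ≠ 0 ∧ a ≠ 1 := by
      obtain ⟨l, h, -⟩ := exists_avoid (F := F) one_ne_zero one_ne_zero
        (by rw [Nat.card_eq_fintype_card]; simp; omega) 1 1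
      exact ⟨l, l.ne_zero, fun h' => h (Units.ext (by simpa using h'))⟩
    exact class_sq_of hF irred_B (dat_B (by omega)) (omOddSt_good h1 ⟨2, by norm_num, by norm_num⟩)
      (pomOddSt_good h1 h2) (pomOddSt_adjoint h1 h2) (pomOddSt_top h1 h2) e
  · obtain ⟨n, rfl⟩ : ∃ m, n = m + 2 := ⟨n - 2, by omega⟩
    have h1 : 1 ≤ n := by omega
    exact class_sq_of hF (irred_D h1) (dat_D (by omega)) (omPlusSt_good ℚ h1)
      (pomPlusSt_good F h1) (pomPlusSt_adjoint F h1) (pomPlusSt_top F h1) e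
  · exact class_sq_of hF rootSys_irred dat_G2 (stG_good (F := ℚ)) stG_good stG_adjoint stG_top e
  · exact class_sq_of hF rootSys_irred dat_F4 (stG_good (F := ℚ)) stG_good stG_adjoint stG_top e
  · exact class_sq_of hF rootSys_irred dat_E6 (stG_good (F := ℚ)) stG_good stG_adjoint stG_top e
  · exact class_sq_of hF rootSys_irred dat_E7 (stG_good (F := ℚ)) stG_good stG_adjoint stG_top e
  · exact class_sq_of hF rootSys_irred dat_E8 (stG_good (F := ℚ)) stG_good stG_adjoint stG_top e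

end Cfsg.Agent.S2523
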