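import Mathlib
import Cfsg.Statements.S2524
import Cfsg.Agent.KSG.WeilMain
import Cfsg.Agent.KSG.LSWeil

set_option autoImplicit false
open Cfsg

namespace Cfsg.Agent.S2524

open CL.LS CL.Witt CL.WeilR

theorem ineq {q Q : ℕ} (hq : 3 ≤ q) (hQ : q * q ≤ Q) {k : ℕ} (hk : 2 * k ≤ Q + 1) :
    k * (2 * (q + 1)) < (Q - 1) * (Q - q) := by
  obtain ⟨a, rfl⟩ := Nat.exists_eq_add_of_le hq
  obtain ⟨b, rfl⟩ := Nat.exists_eq_add_of_le hQ
  have h1 : (3 + a) * (3 + a) + b - 1 = 8 + 6 * a + a * a + b := by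
    rw [Nat.sub_eq_iff_eq_add (by nlinarith)]; ring
  have h2 : (3 + a) * (3 + a) + b - (3 + a) = 6 + 5 * a + a * a + b := by
    rw [Nat.sub_eq_iff_eq_add (by nlinarith)]; ring
  rw [h1, h2]
  have h3 : k * (2 * (3 + a + 1)) ≤ ((3 + a) * (3 + a) + b + 1) * (4 + a) := by nlinarith
  refine h3.trans_lt ?_
  nlinarith [Nat.zero_le (a * b), Nat.zero_le (a * a), Nat.zero_le (a * a * a), Nat.zero_le (b * b),
    Nat.zero_le (a * a * b), Nat.zero_le (a * a * a * a)]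


/-- Let F be a finite field of odd order q and G = Sp(2n, F) with n ≥ 2. Then G has exactly four irreducible complex characters of degree (q^n + 1)/2 or (q^n − 1)/2 (two of each), and every other non-principal irreducible character has degree at least (q^n − 1)(q^n − q)/(2(q + 1)). -/
theorem result {F : Type*} [Field F] [Fintype F] (hodd : Odd (Fintype.card F)) (n : ℕ) (hn : 2 ≤ n) :
    Nat.card {χ : Cfsg.IrrCharacter ↥(Matrix.symplecticGroup (Fin n) F) // (χ : ↥(Matrix.symplecticGroup (Fin n) F) → ℂ) 1 = (((Fintype.card F) ^ n + 1 : ℕ) : ℂ) / 2} = 2 ∧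
    Nat.card {χ : Cfsg.IrrCharacter ↥(Matrix.symplecticGroup (Fin n) F) // (χ : ↥(Matrix.symplecticGroup (Fin n) F) → ℂ) 1 = (((Fintype.card F) ^ n - 1 : ℕ) : ℂ) / 2} = 2 ∧
    ∀ χ : Cfsg.IrrCharacter ↥(Matrix.symplecticGroup (Fin n) F),
      (χ : ↥(Matrix.symplecticGroup (Fin n) F) → ℂ) 1 ≠ 1 →
      (χ : ↥(Matrix.symplecticGroup (Fin n) F) → ℂ) 1 ≠ (((Fintype.card F) ^ n + 1 : ℕ) : ℂ) / 2 →
      (χ : ↥(Matrix.symplecticGroup (Fin n) F) → ℂ) 1 ≠ (((Fintype.card F) ^ n - 1 : ℕ) : ℂ) / 2 →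
      (((Fintype.card F) ^ n - 1 : ℕ) : ℝ) * (((Fintype.card F) ^ n - Fintype.card F : ℕ) : ℝ) / (2 * ((Fintype.card F : ℕ) + 1 : ℝ)) ≤ ‖(χ : ↥(Matrix.symplecticGroup (Fin n) F) → ℂ) 1‖ := by
  classical
  have hf := CL.Sp.spForm_nondeg n F
  have hfin := CL.Sp.finrank_sp n F
  have h2 : (2 : F) ≠ 0 := fun h => by
    have := FiniteField.even_card_of_char_two (F := F) (CharP.ringChar_of_prime_eq_zero Nat.prime_two h)
    obtain ⟨k, hk⟩ := hodd
    omega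
  have hK : ringChar ℂ ≠ ringChar F := by
    rw [ringChar.eq_zero]
    exact (CharP.char_ne_zero_of_finite F _).symm
  obtain ⟨ψ, hψ⟩ := exists_addChar_ne_one hK
  obtain ⟨ν, hν⟩ := FiniteField.exists_nonsquare (F := F) (fun h => h2 (by
    have := ringChar.Nat.cast_ringChar (R := F)
    rwa [h] at this))
  have hν0 : ν ≠ 0 := by rintro rfl; exact hν IsSquare.zero
  let δ : (Fin n ⊕ Fin n → F) ≃ₗ[F] (Fin n ⊕ Fin n → F) := LinearEquiv.piCongrRight fun i =>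
    Sum.elim (fun _ => LinearEquiv.smulOfNeZero F F ν hν0) (fun _ => LinearEquiv.refl F F) i
  have hδ : ∀ x y, (CL.Sp.spForm n F).B (δ x) (δ y) = ν * (CL.Sp.spForm n F).B x y := fun x y => by
    simp only [CL.Sp.spForm_B_eq, δ, LinearEquiv.piCongrRight_apply, Sum.elim_inl, Sum.elim_inr,
      LinearEquiv.smulOfNeZero_apply, LinearEquiv.refl_apply, smul_eq_mul, Finset.mul_sum]
    exact Finset.sum_congr rfl fun i _ => by ring
  have h := isHeis_schr n h2 hψ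
  obtain ⟨ρ, hρ⟩ := h.exists_weil
  have hq : 3 ≤ Fintype.card F := by
    have := Fintype.one_lt_card (α := F); obtain ⟨k, hk⟩ := hodd; omega
  have hQ : Fintype.card F * Fintype.card F ≤ Fintype.card F ^ n := by
    rw [← pow_two]; exact Nat.pow_le_pow_right (by omega) hn
  have hQ' : 9 ≤ Fintype.card F ^ n := le_trans (Nat.mul_le_mul hq hq) hQ
  have ex : ∀ (ε : ℂ) (k : ℕ), k ≠ 0 → Module.finrank ℂ ((IsHeis.par (schr (n := n) ψ)).eigenspace ε) = k →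
      ∃ χ : IrrCharacter (Matrix.symplecticGroup (Fin n) F), χ.1 1 = k := fun ε k hk0 hk => by
    obtain ⟨ρ', hρ', -⟩ := exists_irreducible (ρ.comp (CL.Sp.spEquiv n F).toMonoidHom)
      (fun g => IsHeis.mapsTo_weil hρ ε _) (fun h0 => by rw [h0, finrank_bot] at hk; omega)
      (fun U hU hinv => h.eq_bot_or_eq hρ hU fun g => by
        simpa using hinv ((CL.Sp.spEquiv n F).symm g)) hk
    exact ⟨⟨_, k, ρ', hρ', rfl⟩, by simp [Representation.character]⟩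
  have h3 := h.two_mul_finrank_neg_one
  have h4 := h.two_mul_finrank_one
  rw [Module.finrank_fintype_fun_eq_card, Fintype.card_fun, Fintype.card_fin] at h3 h4
  set k₁ := Module.finrank ℂ ((IsHeis.par (schr (n := n) ψ)).eigenspace 1)
  set k₂ := Module.finrank ℂ ((IsHeis.par (schr (n := n) ψ)).eigenspace (-1))
  have e₁ : (((Fintype.card F) ^ n + 1 : ℕ) : ℂ) / 2 = k₁ := by
    rw [← h4]; push_cast; ring
  have e₂ : (((Fintype.card F) ^ n - 1 : ℕ) : ℂ) / 2 = k₂ := by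
    rw [← h3]; push_cast; ring
  have hd : (k₁ : ℂ) ≠ k₂ := by rw [Ne, Nat.cast_inj]; omega
  have hcls : ∀ χ : IrrCharacter (Matrix.symplecticGroup (Fin n) F), χ.1 1 = k₁ ∨ χ.1 1 = k₂ →
      χ ∈ Cls ψ (CL.Sp.spEquiv n F) 1 ∨ χ ∈ Cls ψ (CL.Sp.spEquiv n F) ν := fun χ hχ => by
    have key : ∀ k : ℕ, k ≠ 1 → 2 * k ≤ Fintype.card F ^ n + 1 → χ.1 1 = k →
        χ ∈ Cls ψ (CL.Sp.spEquiv n F) 1 ∨ χ ∈ Cls ψ (CL.Sp.spEquiv n F) ν := fun k hk1 hk hχ => by
      rcases mem_cls_or (e := CL.Sp.spEquiv n F) hf hfin hn h2 hψ hν χ hχ hk1 with h5 | h5 | h5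
      · exact Or.inl h5
      · exact Or.inr h5
      · rw [Nat.card_eq_fintype_card] at h5
        exact absurd h5 (ineq hq hQ hk).not_ge
    rcases hχ with hχ | hχ
    · exact key k₁ (by omega) (by omega) hχ
    · exact key k₂ (by omega) (by omega) hχ
  have x₁ := ex 1 k₁ (by omega) rfl
  have x₂ := ex (-1) k₂ (by omega) rfl
  obtain ⟨c₁, c₂⟩ := card_eq_two hf (by omega) h2 hψ hν δ hδ hd hcls x₁ x₂
  rw [e₁, e₂]
  refine ⟨c₁, (card_eq_two hf (by omega) h2 hψ hν δ hδ hd.symm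
    (fun χ hχ => hcls χ hχ.symm) x₂ x₁).1, fun χ n₁ n₂ n₃ => ?_⟩
  obtain ⟨k, hk⟩ : ∃ k : ℕ, χ.1 1 = k := by
    obtain ⟨χ, k, ρ, -, rfl⟩ := χ
    exact ⟨k, by simp [Representation.character]⟩
  rcases mem_cls_or (e := CL.Sp.spEquiv n F) hf hfin hn h2 hψ hν χ hk
    (fun h => n₁ (by rw [hk, h, Nat.cast_one])) with h5 | h5 | h5
  · exact ((c₂ χ (Or.inl h5)).elim n₂ n₃).elim
  · exact ((c₂ χ (Or.inr h5)).elim n₂ n₃).elim
  · rw [Nat.card_eq_fintype_card] at h5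
    rw [hk, Complex.norm_natCast, div_le_iff₀ (by positivity)]
    exact_mod_cast h5

end Cfsg.Agent.S2524
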