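import Cfsg.Statements.S2525
import Cfsg.Agent.CHEV.SpecF4
import Cfsg.Agent.PERM.SpecBasic

set_option autoImplicit false
open Cfsg

namespace Cfsg.Agent.S2525

set_option backward.isDefEq.respectTransparency false

open CL.Chev Cfsg.Lie Matrix

section
variable {F : Type*} [Field F] [Fintype F] [CharP F 2]

theorem cast_q : ((Fintype.card F : ℕ) : AlgebraicClosure F) = 0 := (CharP.cast_eq_zero_iff _ 2 _).2 (dvd_card 2)

theorem upper (g : chevF4.group F) : ∃ E ∈ [[1, 2, 3], [1, 2, 4], [1, 2, 6], [8], [12]], (2 ∣ orderOf g → 1 ∈ E) ∧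
    ∀ r : ℕ, r.Prime → r ≠ 2 → r ∣ orderOf g → orderOf (Fintype.card F : ZMod r) ∈ E := by
  obtain ⟨w, hw, t, ht, u, hu, e⟩ := spec_upper 2 (by simp) card_ker_F4 g
  obtain ⟨k, hk⟩ := StData.exists_pow_eq_one (S := stS chevF4 (AlgebraicClosure F)) Nat.prime_two (CharP.cast_eq_zero _ 2)
  have h1 : ∀ r : ℕ, r.Prime → r ≠ 2 → r ∣ orderOf g → r ∣ orderOf t := fun r hr h2 h => (hr.dvd_mul.1 (e ▸ h)).resolve_right
    fun h => h2 ((Nat.prime_dvd_prime_iff_eq hr Nat.prime_two).1 (hr.dvd_of_dvd_pow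
      (h.trans (orderOf_dvd_of_pow_eq_one (hk u (StData.XS_mono _ Set.inter_subset_left hu))))))
  obtain ⟨w, hw, ht, h⟩ : ∃ w ∈ (rootSys chevF4).W, (rootSys chevF4).act w t = t ^ Fintype.card F ∧
      (2 ∣ orderOf g → ((1 : Matrix _ _ ℤ) - (rootSys chevF4).coM w).det = 0) := by
    by_cases h0 : ((rootSys chevF4).Phi t).Nonempty
    · obtain ⟨w, hw, ht, h⟩ := RootSys.exists_det_eq_zero hw ht h0
      exact ⟨w, hw, ht, fun _ => h⟩
    refine ⟨w, hw, ht, fun ⟨m, hm⟩ => absurd (orderOf_dvd_of_pow_eq_one (x := t) (n := m) ?_) ?_⟩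
    all_goals
      rw [Set.not_nonempty_iff_eq_empty.1 h0, Set.inter_empty, StData.XS_empty, Subgroup.mem_bot] at hu
      rw [e, hu, orderOf_one, mul_one] at hm
    · refine funext fun i => Units.ext ((ExpChar.pow_prime_pow_mul_eq_one_iff 2 1 m _).1 ?_)
      simpa [← hm] using congrArg (fun x => (x i : AlgebraicClosure F)) (pow_orderOf_eq_one t)
    · have := orderOf_pos g
      rw [e, hu, orderOf_one, mul_one] at this
      exact Nat.not_dvd_of_pos_of_lt (by omega) (by omega)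
  obtain ⟨L, hL, h2⟩ := det_F4 hw
  obtain ⟨E, h3, h4, h5⟩ := orderOf_of_dvd_F4 hL
  exact ⟨E, h3, fun h6 => h4 (by simpa using (h2 1).symm.trans (by simpa using h h6)), fun r hr h6 h7 => h5 _ r hr h6
    (h2 _ ▸ (Int.natCast_dvd_natCast.2 (h1 r hr h6 h7)).trans (RootSys.orderOf_dvd_det hw Fintype.one_lt_card cast_q ht))⟩

theorem lower {r s : ℕ} (hr : r.Prime) (hs : s.Prime) (hrs : r ≠ s) {E : List ℕ}
    (hE : E ∈ [[1, 2, 3], [1, 2, 4], [1, 2, 6], [8], [12]]) (h1 : orderOf (Fintype.card F : ZMod r) ∈ E)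
    (h2 : orderOf (Fintype.card F : ZMod s) ∈ E) : ∃ g : chevF4.group F, orderOf g = r * s := by
  obtain ⟨w, hw, h⟩ : ∃ w ∈ (rootSys chevF4).W, ∀ r : ℕ, r.Prime → orderOf (Fintype.card F : ZMod r) ∈ E →
      (r : ℤ) ∣ ((Fintype.card F : Matrix _ _ ℤ) - (rootSys chevF4).coM w).det := by
    have h : ∀ (l : List (Fin 4)) (e : List (List ℤ)) (L : List ℤ),
        corM (piL (D := chevF4) l) = (of fun i j : Fin 4 => (e.getD i []).getD j 0) ∧
          cp4 (fun i j => (e.getD i []).getD j 0) = L → (∀ {K : Type} [Field K] (x : K), orderOf x ∈ E →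
          x ^ 4 - L.getD 0 0 * x ^ 3 + L.getD 1 0 * x ^ 2 - L.getD 2 0 * x + L.getD 3 0 = 0) → _ := fun l e L h h' =>
      (⟨_, word_mem_W (D := chevF4) l, fun r hr h1 => by
        have := Fact.mk hr
        rw [det_word_F4 l (fun i j => (e.getD i []).getD j 0) h.1, h.2, ← ZMod.intCast_zmod_eq_zero_iff_dvd]
        simpa [evP4] using h' _ h1⟩ : ∃ w ∈ (rootSys chevF4).W, ∀ r : ℕ, r.Prime → orderOf (Fintype.card F : ZMod r) ∈ E →
      (r : ℤ) ∣ ((Fintype.card F : Matrix _ _ ℤ) - (rootSys chevF4).coM w).det)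
    simp only [List.mem_cons, List.not_mem_nil, or_false] at hE
    rcases hE with rfl | rfl | rfl | rfl | rfl
    on_goal 1 => refine h [3, 1, 0] [[-1, -1, 0, 0], [1, 0, 0, 0], [0, 1, 1, 1], [0, 0, 0, -1]] [-1, 0, 1, -1] (by decide +kernel) ?_
    on_goal 2 => 
      refine h [2, 1, 2, 1, 0] [[-1, -2, -2, 0], [1, 1, 2, 0], [0, 0, -1, 0], [0, 1, 2, 1]] [0, 0, 0, -1]
        (by decide +kernel) ?_
    on_goal 3 => refine h [2, 1, 0] [[-1, -1, -2, 0], [1, 0, 0, 0], [0, 1, 1, 0], [0, 0, 1, 1]] [1, 0, -1, -1] (by decide +kernel) ?_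
    on_goal 4 => 
      refine h [3, 2, 1, 2, 1, 0] [[-1, -2, -2, -2], [1, 1, 2, 2], [0, 0, -1, -1], [0, 1, 2, 1]] [0, 0, 0, 1]
        (by decide +kernel) ?_
    on_goal 5 => 
      refine h [3, 2, 1, 0] [[-1, -1, -2, -2], [1, 0, 0, 0], [0, 1, 1, 1], [0, 0, 1, 0]] [0, -1, 0, 1]
        (by decide +kernel) ?_
    all_goals
      intro K _ x hx
      obtain ⟨a1, a2, a3, a4, a6, a8, a12⟩ := eq_zero_of_orderOf (x := x)
      simp only [List.mem_cons, List.not_mem_nil, or_false, List.getD_cons_zero, List.getD_cons_succ] at hx ⊢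
      push_cast
    · rcases hx with e | e | e
      exacts [by linear_combination (x + 1) * (x ^ 2 + x + 1) * a1 e, by linear_combination (x - 1) * (x ^ 2 + x + 1) * a2 e,
        by linear_combination (x ^ 2 - 1) * a3 e]
    · rcases hx with e | e | e
      exacts [by linear_combination (x + 1) * (x ^ 2 + 1) * a1 e, by linear_combination (x - 1) * (x ^ 2 + 1) * a2 e,
        by linear_combination (x ^ 2 - 1) * a4 e]
    · rcases hx with e | e | e
      exacts [by linear_combination (x + 1) * (x ^ 2 - x + 1) * a1 e, by linear_combination (x - 1) * (x ^ 2 - x + 1) * a2 e,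
        by linear_combination (x ^ 2 - 1) * a6 e]
    · linear_combination a8 hx
    · linear_combination a12 hx
  obtain ⟨a, a1, a2⟩ := RootSys.exists_of_dvd_det hw Fintype.one_lt_card cast_q hr (h r hr h1)
  obtain ⟨b, b1, b2⟩ := RootSys.exists_of_dvd_det hw Fintype.one_lt_card cast_q hs (h s hs h2)
  rw [← a2, ← b2, ← (Commute.all a b).orderOf_mul_eq_mul_orderOf_of_coprime (by rwa [a2, b2, Nat.coprime_primes hr hs])]
  exact spec_torus (by simp) card_ker_F4 hw (by rw [map_mul, a1, b1, mul_pow])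

theorem lower_two {s : ℕ} (hs : s.Prime) (h : orderOf (Fintype.card F : ZMod s) ∈ [1, 2, 3, 4, 6]) :
    ∃ g : chevF4.group F, orderOf g = 2 * s := by
  have h0 : 1 ≤ Fintype.card F := Fintype.card_pos
  have h1 : Fintype.card F ≤ Fintype.card F ^ 2 := by nlinarith
  have := Fact.mk hs
  have h2 : ∀ (l : List (Fin 4)) (M : Matrix (Fin 4) (Fin 4) ℤ), corM (piL (D := chevF4) l) = M → ∀ (N : ℕ) (x y z : ℤ),
      (x = 1 ∨ y = 1) → ((Fintype.card F : ℤ) ∣ N - 1 ∨ (Fintype.card F : ℤ) ∣ N + 1) →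
      (∀ i, (N : ℤ) ∣ (![x, y, z, 0] ᵥ* M) i - Fintype.card F * ![x, y, z, 0] i) → (N : ZMod s) = 0 →
      ∃ g : chevF4.group F, orderOf g = 2 * s := fun l M hM N x y z h3 h4 h5 h6 => by
    obtain ⟨i, hi⟩ : ∃ i, ![x, y, z, 0] i = 1 := h3.elim (fun h => ⟨0, h⟩) fun h => ⟨1, h⟩
    refine CL.Spec.mem_range_of_dvd ((exists_of_word 2 (D := chevF4) (by simp) card_ker_F4 l hM h4 h5 hi).2 ⟨rF4 47, ?_⟩)
      (mul_dvd_mul_left 2 ((ZMod.natCast_eq_zero_iff N s).1 h6))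
    rw [show wtv (rF4 47) = (![0, 0, 0, 1] : Fin 4 → ℤ) by decide +kernel]
    exact (show ![x, y, z, 0] ⬝ᵥ (![0, 0, 0, 1] : Fin 4 → ℤ) = 0 by simp).symm ▸ dvd_zero _
  obtain ⟨a1, a2, a3, a4, a6, -⟩ := eq_zero_of_orderOf (x := (Fintype.card F : ZMod s))
  simp only [List.mem_cons, List.not_mem_nil, or_false] at h
  rcases h with e | e | e | e | e
  on_goal 1 => refine h2 [] 1 (by decide +kernel) (Fintype.card F - 1) 1 0 0 (.inl rfl) (.inr ?_) (fun i => ?_) ?_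
  on_goal 4 => 
      refine h2 [0] !![-1, 0, 0, 0; 1, 1, 0, 0; 0, 0, 1, 0; 0, 0, 0, 1] (by decide +kernel) (Fintype.card F + 1) 1 0 0
        (.inl rfl) (.inl ?_) (fun i => ?_) ?_
  on_goal 7 => 
      refine h2 [1, 0] !![-1, -1, 0, 0; 1, 0, 0, 0; 0, 1, 1, 0; 0, 0, 0, 1] (by decide +kernel)
        (Fintype.card F ^ 2 + Fintype.card F + 1) 1 (Fintype.card F + 1) 0 (.inl rfl) (.inl ?_) (fun i => ?_) ?_
  on_goal 10 => 
      refine h2 [2, 1] !![1, 1, 2, 0; 0, -1, -2, 0; 0, 1, 1, 0; 0, 0, 1, 1] (by decide +kernel)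
        (Fintype.card F ^ 2 + 1) 0 1 (Fintype.card F + 1) (.inr rfl) (.inl ?_) (fun i => ?_) ?_
  on_goal 13 => 
      refine h2 [2, 1, 0] !![-1, -1, -2, 0; 1, 0, 0, 0; 0, 1, 1, 0; 0, 0, 1, 1] (by decide +kernel)
        (Fintype.card F ^ 2 - Fintype.card F + 1) 1 (Fintype.card F + 1) (2 * Fintype.card F) (.inl rfl) (.inl ?_) (fun i => ?_) ?_
  all_goals push_cast [h0, h1]
  · simp
  · fin_cases i <;> simp [dvd_sub_comm]
  · exact a1 e
  · simp
  · fin_cases i <;> simp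
    exact ⟨-1, by ring⟩
  · exact a2 e
  · exact ⟨Fintype.card F + 1, by ring⟩
  · fin_cases i <;> simp
    exact ⟨-1, by ring⟩
  · exact a3 e
  · exact ⟨Fintype.card F, by ring⟩
  · fin_cases i <;> simp
    exact ⟨-1, by ring⟩
  · exact a4 e
  · exact ⟨Fintype.card F - 1, by ring⟩
  · fin_cases i <;> simp
    exacts [⟨-1, by ring⟩, ⟨-2, by ring⟩]
  · exact a6 e

end

/-- Let F be a finite field with q = 2^n elements and G = F₄(F). For an odd prime r let e(r, q) be the multiplicative order of q modulo r. Two distinct primes r, s dividing the order of G are non-adjacent in the prime graph of G (no element of order rs) if and only if, up to swapping r and s, either r = 2 and e(s, q) ∈ {8, 12}, or r, s are both odd with k = e(r, q) < l = e(s, q) and one of: l ∈ {8, 12}; l = 6 and k ∈ {3, 4}; l = 4 and k = 3. -/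
theorem result {F : Type*} [Field F] [Fintype F] (n : ℕ) (hn : 1 ≤ n) (hF : Fintype.card F = 2 ^ n)
    (r s : ℕ) (hr : r.Prime) (hs : s.Prime) (hrs : r ≠ s) (hrG : r ∣ Nat.card ↥(Cfsg.Lie.chevF4.group F)) (hsG : s ∣ Nat.card ↥(Cfsg.Lie.chevF4.group F)) :
    (¬ ∃ x : ↥(Cfsg.Lie.chevF4.group F), orderOf x = r * s) ↔
      ((r = 2 ∧ orderOf ((Fintype.card F : ℕ) : ZMod s) ∈ ({8, 12} : Finset ℕ)) ∨ (s = 2 ∧ orderOf ((Fintype.card F : ℕ) : ZMod r) ∈ ({8, 12} : Finset ℕ)) ∨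
       (r ≠ 2 ∧ s ≠ 2 ∧
         ((orderOf ((Fintype.card F : ℕ) : ZMod r) < orderOf ((Fintype.card F : ℕ) : ZMod s) ∧ (orderOf ((Fintype.card F : ℕ) : ZMod s) ∈ ({8, 12} : Finset ℕ) ∨ (orderOf ((Fintype.card F : ℕ) : ZMod s) = 6 ∧ orderOf ((Fintype.card F : ℕ) : ZMod r) ∈ ({3, 4} : Finset ℕ)) ∨ (orderOf ((Fintype.card F : ℕ) : ZMod s) = 4 ∧ orderOf ((Fintype.card F : ℕ) : ZMod r) = 3))) ∨
          (orderOf ((Fintype.card F : ℕ) : ZMod s) < orderOf ((Fintype.card F : ℕ) : ZMod r) ∧ (orderOf ((Fintype.card F : ℕ) : ZMod r) ∈ ({8, 12} : Finset ℕ) ∨ (orderOf ((Fintype.card F : ℕ) : ZMod r) = 6 ∧ orderOf ((Fintype.card F : ℕ) : ZMod s) ∈ ({3, 4} : Finset ℕ)) ∨ (orderOf ((Fintype.card F : ℕ) : ZMod r) = 4 ∧ orderOf ((Fintype.card F : ℕ) : ZMod s) = 3)))))) := by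

  have := CL.Chev.charP_of_natCard (F := F) Nat.prime_two (by rw [Nat.card_eq_fintype_card, hF])
  have h1 : ∀ r : ℕ, r.Prime → r ≠ 2 → r ∣ Nat.card (chevF4.group F) →
      orderOf (Fintype.card F : ZMod r) ∈ [1, 2, 3, 4, 6, 8, 12] := fun r hr h2 h => by
    have := Fact.mk hr
    obtain ⟨g, hg⟩ := exists_prime_orderOf_dvd_card' r h
    obtain ⟨E, a1, -, a2⟩ := upper g
    have := a2 r hr h2 hg.symm.dvd
    grind
  have h2 : ∀ s : ℕ, s.Prime → s ≠ 2 → s ∣ Nat.card (chevF4.group F) → ((¬ ∃ x : chevF4.group F, orderOf x = 2 * s) ↔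
      orderOf (Fintype.card F : ZMod s) ∈ ({8, 12} : Finset ℕ)) := fun s hs h2 h => by
    have := h1 s hs h2 h
    refine ⟨fun h3 => by have := mt (lower_two (F := F) hs) h3; grind, fun h3 ⟨g, hg⟩ => ?_⟩
    obtain ⟨E, a1, a2, a3⟩ := upper g
    have a4 := a2 ⟨_, hg⟩
    have a5 := a3 s hs h2 (hg ▸ dvd_mul_left _ _)
    generalize orderOf (Fintype.card F : ZMod s) = k at h3 a5
    clear a2 a3
    revert a4 h3
    revert k
    revert E
    decide
  by_cases e1 : r = 2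
  · subst e1
    rw [h2 s hs hrs.symm hsG]
    simp [hrs.symm]
  by_cases e2 : s = 2
  · subst e2
    rw [mul_comm, h2 r hr hrs hrG]
    simp [hrs]
  have h3 : (∃ x : chevF4.group F, orderOf x = r * s) ↔ ∃ E ∈ [[1, 2, 3], [1, 2, 4], [1, 2, 6], [8], [12]],
      orderOf (Fintype.card F : ZMod r) ∈ E ∧ orderOf (Fintype.card F : ZMod s) ∈ E := ⟨fun ⟨g, hg⟩ => by
    obtain ⟨E, a1, -, a2⟩ := upper g
    exact ⟨E, a1, a2 r hr e1 ⟨_, hg⟩, a2 s hs e2 (hg ▸ dvd_mul_left _ _)⟩, fun ⟨E, a1, a2, a3⟩ => lower hr hs hrs a1 a2 a3⟩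
  have h4 := h1 r hr e1 hrG
  have h5 := h1 s hs e2 hsG
  simp only [h3, e1, e2, false_and, false_or, ne_eq, not_false_eq_true, true_and]
  generalize orderOf (Fintype.card F : ZMod r) = k at h4 ⊢
  generalize orderOf (Fintype.card F : ZMod s) = l at h5 ⊢
  revert l
  revert k
  decide

end Cfsg.Agent.S2525
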