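import Cfsg.Statements.S2550
import Cfsg.Agent.S0819
import Cfsg.Agent.S0256
import Cfsg.Agent.CLAS.SLBasic

set_option autoImplicit false
open Cfsg

namespace Cfsg.Agent.S2550

/-- Let F be a field with 2 elements and K a field with 4 elements. PSL_4(F) and PSL_3(K) have the same order (20160) but are not isomorphic. -/
theorem result {F K : Type*} [Field F] [Fintype F] [Field K] [Fintype K] (hF : Fintype.card F = 2) (hK : Fintype.card K = 4) : Nat.card (Matrix.ProjectiveSpecialLinearGroup (Fin 4) F) = Nat.card (Matrix.ProjectiveSpecialLinearGroup (Fin 3) K) ∧ ¬ Nonempty (Matrix.ProjectiveSpecialLinearGroup (Fin 4) F ≃* Matrix.ProjectiveSpecialLinearGroup (Fin 3) K) := by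
  obtain ⟨e⟩ := Cfsg.Agent.S0256.result hF
  refine ⟨?_, fun ⟨f⟩ => ?_⟩
  · have h1 := CL.SL.card_SL_mul (F := K) 3 (by norm_num)
    have h2 := CL.SL.card_center_mul_card_PSL (ι := Fin 3) (R := K)
    have hA := two_mul_nat_card_alternatingGroup (α := Fin 8)
    rw [CL.SL.card_center_SL, Nat.card_eq_fintype_card (α := K), hK] at h2
    rw [Nat.card_perm, Nat.card_eq_fintype_card (α := Fin 8), Fintype.card_fin] at hA
    rw [hK] at h1
    rw [Nat.card_congr e.toEquiv]
    simp only [Fin.prod_univ_three, Nat.factorial] at h1 hA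
    norm_num at h1 h2
    omega
  · let σ : Equiv.Perm (Fin 8) := ⟨![1, 2, 3, 4, 0, 6, 7, 5], ![4, 0, 1, 2, 3, 7, 5, 6],
      by decide, by decide⟩
    have hσ : σ ∈ alternatingGroup (Fin 8) := by
      rw [Equiv.Perm.mem_alternatingGroup]
      decide +kernel
    have h15 : orderOf σ = 15 := by
      refine orderOf_eq_of_pow_and_pow_div_prime (by norm_num) (by decide +kernel) fun p hp hd => ?_
      have := Nat.le_of_dvd (by norm_num) hd
      interval_cases p <;> first | (exfalso; revert hp hd; decide) | decide +kernel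
    refine Cfsg.Agent.S0819.result hK (f (e.symm ⟨σ, hσ⟩)) ?_
    rw [MulEquiv.orderOf_eq, MulEquiv.orderOf_eq, ← Subgroup.orderOf_coe, h15]

end Cfsg.Agent.S2550
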