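import Cfsg.Statements.S2556
import Mathlib
import Cfsg.Agent.CLAS.U3Aut
import Cfsg.Agent.CHEV.SzTor

set_option autoImplicit false
open Cfsg

namespace Cfsg.Agent.S2556

section key
variable {F : Type*} [Field F] [Fintype F]

theorem indep (c : (F ≃+* F) → F) [Fintype (F ≃+* F)] (h : ∀ a, ∑ σ, c σ * σ a = 0) (σ : F ≃+* F) : c σ = 0 := by
  have := (linearIndependent_monoidHom F F).comp (fun σ : F ≃+* F => (σ : F →* F))
    fun σ τ h => RingEquiv.ext fun x => DFunLike.congr_fun h x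
  exact Fintype.linearIndependent_iff.1 this c (funext fun a => by simpa using h a) σ

theorem exists_expand [CharP F 2] [Fintype (F ≃+* F)] {n : ℕ} (hF : Fintype.card F = 2 ^ n) (A : F →+ F) :
    ∃ c : (F ≃+* F) → F, ∀ a, A a = ∑ σ, c σ * σ a := by
  classical
  let _ := ZMod.algebra F 2
  let f : ((F ≃+* F) → F) → (F →+ F) := fun c =>
    AddMonoidHom.mk' (fun a => ∑ σ, c σ * σ a) fun a b => by simp [mul_add, Finset.sum_add_distrib]
  have hf : Function.Injective f := fun c d h => funext fun σ => sub_eq_zero.1 (indep (c - d) (fun a => by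
    have := DFunLike.congr_fun h a
    simp only [f, AddMonoidHom.mk'_apply] at this
    simp [sub_mul, Finset.sum_sub_distrib, this]) σ)
  have : Finite (F →+ F) := Finite.of_injective _ DFunLike.coe_injective
  obtain ⟨c, hc⟩ := (hf.bijective_of_nat_card_le (by
    rw [CL.U3.S.card_addMonoidHom 2 (k := n) (by rw [Nat.card_eq_fintype_card, hF]), Nat.card_fun,
      CL.FieldAut.card_ringAut hF])).2 A
  exact ⟨c, fun a => by rw [← hc]; rfl⟩

theorem sum_symm {ι R : Type*} [CommRing R] [CharP R 2] (s : Finset ι) (f : ι → ι → R)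
    (h : ∀ i j, f i j = f j i) : ∑ i ∈ s, ∑ j ∈ s, f i j = ∑ i ∈ s, f i i := by
  classical
  induction s using Finset.induction_on with
  | empty => simp
  | insert a s ha ih =>
    simp only [Finset.sum_insert ha, Finset.sum_add_distrib, ih, fun i => h i a]
    linear_combination (∑ i ∈ s, f a i) * CharTwo.two_eq_zero (R := R)

theorem exists_semilinear [CharP F 2] {n : ℕ} (hF : Fintype.card F = 2 ^ n) (h8 : 3 ≤ n) {θ : F ≃+* F}
    (hθ : ∀ x, θ (θ x) = x ^ 2) (hc : ∀ σ : F ≃+* F, σ * θ = θ * σ) (A B : F →+ F) (hA : A 1 ≠ 0)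
    (h : ∀ a, B (θ a * a) = θ (A a) * A a) : ∃ (c : Fˣ) (φ : F ≃+* F), ∀ a, A a = c * φ a := by
  classical
  have := Fintype.ofFinite (F ≃+* F)
  have h4 : θ * θ * (θ * θ) ≠ 1 := fun e => by
    have := (FiniteField.forall_pow_eq_one_iff F 3).1 fun x => Units.ext (by
      have := DFunLike.congr_fun e (x : F)
      simp only [RingAut.mul_apply, hθ, RingAut.one_apply] at this
      apply mul_right_cancel₀ x.ne_zero
      simp only [Units.val_pow_eq_pow_val, Units.val_one]
      linear_combination this)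
    have := Nat.le_of_dvd (by norm_num) this
    have : 2 ^ 3 ≤ 2 ^ n := Nat.pow_le_pow_right two_pos h8
    omega
  obtain ⟨c, hcA⟩ := exists_expand hF A
  obtain ⟨d, hdB⟩ := exists_expand hF B
  let e : (F ≃+* F) → (F ≃+* F) → F := fun σ τ => θ (c (θ⁻¹ * σ)) * c τ - if σ = τ * θ then d τ else 0
  have hQ : ∀ a, ∑ σ, ∑ τ, e σ τ * (σ a * τ a) = 0 := fun a => by
    have h1 : θ (A a) = ∑ σ, θ (c (θ⁻¹ * σ)) * σ a := by
      rw [hcA, map_sum]
      exact Fintype.sum_equiv (Equiv.mulLeft θ) _ _ fun σ => by simp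
    have h2 := h a
    rw [h1, hcA, hdB, Finset.sum_mul_sum] at h2
    simp only [e, sub_mul, Finset.sum_sub_distrib, ite_mul, zero_mul]
    rw [Finset.sum_comm (f := fun σ τ => if σ = τ * θ then d τ * (σ a * τ a) else 0)]
    simp only [Finset.sum_ite_eq', Finset.mem_univ, if_true, RingAut.mul_apply]
    rw [sub_eq_zero]
    simp only [map_mul] at h2
    rw [h2]
    exact Finset.sum_congr rfl fun _ _ => Finset.sum_congr rfl fun _ _ => by ring
  have hs : ∀ σ τ, e σ τ = e τ σ := fun σ τ => by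
    have : ∀ a b, ∑ σ, (∑ τ, (e σ τ + e τ σ) * τ b) * σ a = 0 := fun a b => by
      have h1 := hQ (a + b)
      have h2 : ∑ σ, ∑ τ, e τ σ * τ b * σ a = ∑ σ, ∑ τ, e σ τ * (σ b * τ a) := by
        rw [Finset.sum_comm]
        exact Finset.sum_congr rfl fun _ _ => Finset.sum_congr rfl fun _ _ => by ring
      simp only [map_add, add_mul, mul_add, Finset.sum_add_distrib, hQ, Finset.sum_mul, h2] at h1 ⊢
      rw [← h1, zero_add, add_zero, add_comm]
      congr 1
      exact Finset.sum_congr rfl fun _ _ => Finset.sum_congr rfl fun _ _ => by ring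
    exact CharTwo.add_eq_zero.1 (indep _ (fun b => indep _ (fun a => this a b) σ) τ)
  have hd : ∀ σ, e σ σ = 0 := indep _ fun a => by
    obtain ⟨a, rfl⟩ := surjective_frobenius F 2 a
    rw [← hQ a, sum_symm _ _ fun σ τ => by rw [hs σ τ, mul_comm (σ a)]]
    simp [frobenius_def, pow_two]
  have h1 : θ ≠ 1 := by rintro rfl; simp at h4
  have key : ∀ i k, c i ≠ 0 → c k ≠ 0 → i ≠ k → i = θ * θ * k := fun i k hi hk hik => by
    by_contra h2
    have h3 := hd (θ * k)
    have h5 := hs (θ * k) i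
    have h6 : θ * k ≠ i * θ := fun e => hik (mul_left_cancel (a := θ) (by rw [e, hc]))
    have h7 : i ≠ θ * k * θ := by rwa [mul_assoc, hc, ← mul_assoc]
    simp [e, h1, hk, h6, h7, hi] at h3 h5
    simp [h3, hi, hk] at h5
  obtain ⟨i, hi⟩ : ∃ i, c i ≠ 0 := by
    by_contra! h0
    exact hA (by simp [hcA, h0])
  refine ⟨Units.mk0 _ hi, i, fun a => ?_⟩
  rw [hcA, Finset.sum_eq_single i (fun k _ hk => ?_) (by simp), Units.val_mk0]
  by_contra h0
  have h2 := key i k hi (left_ne_zero_of_mul h0) hk.symm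
  have h3 := key k i (left_ne_zero_of_mul h0) hi hk
  rw [h3, ← mul_assoc] at h2
  exact h4 (by simpa using h2)

end key

/-- Pairs `(a, b)` with the Suzuki multiplication. -/
@[ext] structure T {F : Type*} [Field F] (θ : F ≃+* F) where
  a : F
  b : F

namespace T

variable {F : Type*} [Field F] {θ : F ≃+* F}

instance instMulT : Mul (T θ) := ⟨fun x y => ⟨x.a + y.a, x.b + y.b + θ x.a * y.a⟩⟩
instance instOneT : One (T θ) := ⟨⟨0, 0⟩⟩
instance instInvT : Inv (T θ) := ⟨fun x => ⟨-x.a, -x.b + θ x.a * x.a⟩⟩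

@[simp] theorem mul_a (x y : T θ) : (x * y).a = x.a + y.a := rfl
@[simp] theorem mul_b (x y : T θ) : (x * y).b = x.b + y.b + θ x.a * y.a := rfl
@[simp] theorem one_a : (1 : T θ).a = 0 := rfl
@[simp] theorem one_b : (1 : T θ).b = 0 := rfl
@[simp] theorem inv_a (x : T θ) : x⁻¹.a = -x.a := rfl
@[simp] theorem inv_b (x : T θ) : x⁻¹.b = -x.b + θ x.a * x.a := rfl

instance instGroupT : Group (T θ) :=
  Group.ofLeftAxioms (fun x y z => by ext <;> simp <;> ring) (fun x => by ext <;> simp)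
    (fun x => by ext <;> simp)

def aut (hc : ∀ σ : F ≃+* F, σ * θ = θ * σ) (c : Fˣ) (φ : F ≃+* F) : MulAut (T θ) where
  toFun x := ⟨c * φ x.a, θ c * c * φ x.b⟩
  invFun x := ⟨φ.symm (x.a / c), φ.symm (x.b / (θ c * c))⟩
  left_inv x := by ext <;> simp
  right_inv x := by ext <;> simp <;> field_simp
  map_mul' x y := by
    have : φ (θ x.a) = θ (φ x.a) := DFunLike.congr_fun (hc φ) x.a
    ext <;> simp [this] <;> ring

def cen (h : F →+ F) : MulAut (T θ) where
  toFun x := ⟨x.a, x.b + h x.a⟩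
  invFun x := ⟨x.a, x.b - h x.a⟩
  left_inv x := by ext <;> simp
  right_inv x := by ext <;> simp
  map_mul' x y := by ext <;> simp; ring

variable [CharP F 2]

theorem sq_eq (x : T θ) : x * x = ⟨0, θ x.a * x.a⟩ := by
  ext <;> simp [CharTwo.add_self_eq_zero]

theorem map_a_eq_zero (α : MulAut (T θ)) {x : T θ} (hx : x.a = 0) : (α x).a = 0 := by
  have h : x * x = 1 := by rw [sq_eq, hx]; ext <;> simp
  have := congrArg T.b (sq_eq (α x))
  rw [← map_mul, h, map_one] at this
  simpa using this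

theorem map_a (α : MulAut (T θ)) (x : T θ) : (α x).a = (α ⟨x.a, 0⟩).a := by
  have : x = ⟨0, x.b⟩ * ⟨x.a, 0⟩ := by ext <;> simp
  conv_lhs => rw [this, map_mul, mul_a, map_a_eq_zero α rfl, zero_add]

def abar (α : MulAut (T θ)) : F →+ F :=
  AddMonoidHom.mk' (fun a => (α ⟨a, 0⟩).a) fun a a' => by rw [← mul_a, ← map_mul, map_a α (_ * _)]; rfl

theorem abar_a (α : MulAut (T θ)) (x : T θ) : abar α x.a = (α x).a := (map_a α x).symm

def abarHom : MulAut (T θ) →* Equiv.Perm F :=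
  MonoidHom.toHomPerm
    { toFun α := (abar α : F → F)
      map_one' := rfl
      map_mul' α β := funext fun a => (abar_a α (β ⟨a, 0⟩)).symm }

theorem abarHom_apply (α : MulAut (T θ)) (a : F) : abarHom α a = abar α a := rfl

def bbar (α : MulAut (T θ)) : F →+ F :=
  AddMonoidHom.mk' (fun b => (α ⟨0, b⟩).b) fun b b' => by
    have : (⟨0, b + b'⟩ : T θ) = ⟨0, b⟩ * ⟨0, b'⟩ := by ext <;> simp
    rw [this, map_mul, mul_b, map_a_eq_zero α (x := ⟨0, b'⟩) rfl, mul_zero, add_zero]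

theorem bbar_sq (α : MulAut (T θ)) (a : F) : bbar α (θ a * a) = θ (abar α a) * abar α a := by
  have := congrArg T.b (sq_eq (α ⟨a, 0⟩))
  rwa [← map_mul, sq_eq] at this

theorem exists_eq_cen (hs : Function.Surjective fun a => θ a * a) {α : MulAut (T θ)}
    (hα : α ∈ abarHom.ker) : ∃ h, α = cen h := by
  have h1 : ∀ a, abar α a = a := fun a => Equiv.ext_iff.1 hα a
  have h2 : ∀ x, (α x).a = x.a := fun x => by rw [← abar_a, h1]
  have h3 : ∀ x : T θ, (α x).b = x.b + (α ⟨x.a, 0⟩).b := fun x => by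
    have : x = ⟨0, x.b⟩ * ⟨x.a, 0⟩ := by ext <;> simp
    obtain ⟨a, ha⟩ := hs x.b
    have h4 := bbar_sq α a
    rw [h1, show θ a * a = x.b from ha] at h4
    conv_lhs => rw [this, map_mul, mul_b, h2, map_zero, zero_mul, add_zero]
    exact congrArg (· + _) h4
  refine ⟨AddMonoidHom.mk' (fun a => (α ⟨a, 0⟩).b) fun a a' => ?_, ?_⟩
  · have := h3 (⟨a, 0⟩ * ⟨a', 0⟩)
    rw [map_mul, mul_b, h2, h2] at this
    simp only [mul_b, mul_a] at this
    linear_combination -this
  · ext x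
    exacts [h2 x, h3 x]

theorem cen_mem (h : F →+ F) : (cen h : MulAut (T θ)) ∈ abarHom.ker := Equiv.ext fun _ => rfl

omit [CharP F 2] in
theorem cen_mul (h h' : F →+ F) : (cen h * cen h' : MulAut (T θ)) = cen (h + h') := by
  ext x
  · rfl
  · show x.b + h' x.a + h x.a = x.b + (h x.a + h' x.a)
    ring

end T

/-- Let S be a Sylow 2-subgroup of the Suzuki group Sz(q), q = 2ⁿ with n = 2m + 1 ≥ 3 (realised as 4 × 4 matrices over the field with q elements). Then the largest normal 2-subgroup of the automorphism group of S is elementary abelian of order 2^(n²), and the automorphism group of S has order 2^(n²) · n · (q − 1). -/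
theorem result {S : Type*} [Group S] [Finite S] (m : ℕ) (hm : 1 ≤ m)
    {F : Type*} [Field F] [Fintype F] (hF : Fintype.card F = 2 ^ (2 * m + 1))
    (P : Sylow 2 ↥(Cfsg.Lie.Sz F (2 ^ (m + 1)))) (hS : Nonempty (S ≃* ↥(P : Subgroup ↥(Cfsg.Lie.Sz F (2 ^ (m + 1)))))) :
    Cfsg.IsElementaryAbelian 2 (Cfsg.pCore 2 (MulAut S)) ∧ Nat.card ↥(Cfsg.pCore 2 (MulAut S)) = 2 ^ ((2 * m + 1) ^ 2) ∧
      Nat.card (MulAut S) = 2 ^ ((2 * m + 1) ^ 2) * ((2 * m + 1) * (2 ^ (2 * m + 1) - 1)) := by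
  have := CL.Sz.charP_two hF
  have h2 : (2 : F) = 0 := CharTwo.two_eq_zero
  obtain ⟨M, hM⟩ := (CL.Sz.lieModel hF).exists_model_U_eq P
  let θ : F ≃+* F := RingEquiv.ofBijective (CL.Sz.theta F m) (Finite.injective_iff_bijective.1 (RingHom.injective _))
  have hθ : ∀ x, θ (θ x) = x ^ 2 := CL.Sz.theta_theta hF
  have hc : ∀ σ : F ≃+* F, σ * θ = θ * σ := fun σ => RingEquiv.ext fun x => by
    show σ (CL.Sz.theta F m x) = CL.Sz.theta F m (σ x)
    simp [CL.Sz.theta_apply]
  have hs : Function.Surjective fun a => θ a * a := Finite.surjective_of_injective M.θ_mul_self_injective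
  obtain ⟨e₀⟩ := hS
  let f : T θ →* M.U := MonoidHom.mk' (fun x => ⟨M.u x.a x.b, M.u_mem_U _ _⟩) fun x y =>
    Subtype.ext (M.u_mul _ _ _ _).symm
  have hf : Function.Bijective f := ⟨fun x y h => by
    have := M.u_inj (congrArg (fun g : M.U => g.1) h : M.u x.a x.b = M.u y.a y.b)
    exact T.ext this.1 this.2, by rintro ⟨_, x, y, rfl⟩; exact ⟨⟨x, y⟩, rfl⟩⟩
  let e := MulAut.congr (e₀.trans ((MulEquiv.subgroupCongr hM.symm).trans (MulEquiv.ofBijective f hf).symm))
  have hsq : ∀ α ∈ (T.abarHom (θ := θ)).ker, α ^ 2 = 1 := fun α hα => by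
    obtain ⟨h, rfl⟩ := T.exists_eq_cen hs hα
    rw [pow_two, T.cen_mul]
    ext x
    · rfl
    · show x.b + (h x.a + h x.a) = x.b
      rw [CharTwo.add_self_eq_zero, add_zero]
  have hr : Nat.card (T.abarHom (θ := θ)).range = (2 * m + 1) * (2 ^ (2 * m + 1) - 1) := by
    rw [← hF, ← CL.FieldAut.card_ringAut hF, ← Nat.card_eq_fintype_card, ← Nat.card_units, mul_comm, ← Nat.card_prod]
    symm
    refine Nat.card_congr (Equiv.ofBijective (fun p => ⟨T.abarHom (T.aut hc p.1 p.2), _, rfl⟩)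
      ⟨fun p p' h => ?_, ?_⟩)
    · have h' : ∀ a, (p.1 : F) * p.2 a = p'.1 * p'.2 a := fun a => congrArg (fun x => x.1 a) h
      have h1 : (p.1 : F) = p'.1 := by simpa using h' 1
      refine Prod.ext (Units.ext h1) (RingEquiv.ext fun a => ?_)
      have := h' a
      rw [h1] at this
      exact mul_left_cancel₀ p'.1.ne_zero this
    · rintro ⟨_, α, rfl⟩
      obtain ⟨c, φ, h⟩ := exists_semilinear hF (by omega) hθ hc (T.abar α) (T.bbar α)
        (fun h => one_ne_zero ((T.abarHom α).injective (h.trans (map_zero (T.abar α)).symm))) (T.bbar_sq α)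
      exact ⟨(c, φ), Subtype.ext (Equiv.ext fun a => (h a).symm)⟩
  have hk : Nat.card (T.abarHom (θ := θ)).ker = 2 ^ ((2 * m + 1) ^ 2) := by
    let _ := ZMod.algebra F 2
    rw [pow_two, pow_mul, ← hF, ← Nat.card_eq_fintype_card,
      ← CL.U3.S.card_addMonoidHom (A := F) 2 (by rw [Nat.card_eq_fintype_card, hF])]
    symm
    refine Nat.card_congr (Equiv.ofBijective (fun h => ⟨T.cen h, T.cen_mem h⟩) ⟨fun h h' e => ?_, fun α => ?_⟩)
    · ext a
      exact add_left_cancel (congrArg (fun α => (α.1 ⟨a, 0⟩).b) e : (0 : F) + _ = 0 + _)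
    · obtain ⟨h, e⟩ := T.exists_eq_cen hs α.2
      exact ⟨h, Subtype.ext e.symm⟩
  have hp0 : Cfsg.pCore 2 (MulAut (T θ)) = T.abarHom.ker := by
    refine le_antisymm (sSup_le fun N ⟨_, hN⟩ α hα => ?_) (CL.le_pCore fun α => ⟨1, Subtype.ext
      (by simpa using hsq _ α.2)⟩)
    obtain ⟨k, hk⟩ := hN ⟨α, hα⟩
    have h1 : orderOf (T.abarHom α) ∣ 2 ^ k := orderOf_dvd_of_pow_eq_one (by
      rw [← map_pow, show α ^ 2 ^ k = 1 from congrArg Subtype.val hk, map_one])
    have h3 := Subgroup.orderOf_dvd_natCard (T.abarHom (θ := θ)).range (x := T.abarHom α) ⟨α, rfl⟩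
    rw [hr] at h3
    have h4 : Odd ((2 * m + 1) * (2 ^ (2 * m + 1) - 1)) :=
      (odd_two_mul_add_one m).mul (Nat.Even.sub_odd Nat.one_le_two_pow (by simp [Nat.even_pow]) odd_one)
    exact orderOf_eq_one_iff.1 (Nat.eq_one_of_dvd_coprimes ((Nat.coprime_two_left.2 h4).pow_left k) h1 h3)
  have hp : Cfsg.pCore 2 (MulAut S) = (T.abarHom.ker).comap e.toMonoidHom := by
    rw [← hp0, ← CL.map_pCore_equiv e]
    exact (Subgroup.comap_map_eq_self_of_injective e.injective _).symm
  refine ⟨?_, ?_, by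
    rw [Nat.card_congr e.toEquiv, ← (T.abarHom (θ := θ)).ker.card_mul_index, Subgroup.index_ker, hr, hk]⟩
  · rw [hp]
    refine ⟨⟨⟨fun a b => Subtype.ext (e.injective ?_)⟩⟩, fun a ha => e.injective ?_⟩
    · simp only [Subgroup.coe_mul, map_mul]
      obtain ⟨h, e1⟩ := T.exists_eq_cen hs a.2
      obtain ⟨h', e2⟩ := T.exists_eq_cen hs b.2
      simp only [MulEquiv.coe_toMonoidHom] at e1 e2
      rw [e1, e2, T.cen_mul, T.cen_mul, add_comm]
    · simpa using hsq _ ha
  · rw [hp, Subgroup.comap_equiv_eq_map_symm', Subgroup.card_map_of_injective e.symm.injective, hk]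

end Cfsg.Agent.S2556
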