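import Mathlib
import Cfsg.Statements.S2558
import Cfsg.Agent.KSG.ClsNum

set_option autoImplicit false
open Cfsg

namespace Cfsg.Agent.S2558

open CL.Nil CL.Orth

/-- The number of conjugacy classes of the full orthogonal groups O⁺(2n,q) and O⁻(2n,q), q odd, 2n ≥ 4: for F a finite field of odd order q and n ≥ 2, the number k of conjugacy classes of the isometry group of the hyperbolic quadratic form Σ xᵢyᵢ on F^{2n}, and likewise of the elliptic form Σ xᵢyᵢ + (z₁² + a z₁z₂ + b z₂²) with anisotropic binary part, satisfies q^n/2 ≤ k ≤ 9.5·q^n. -/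
theorem result {F : Type*} [Field F] [Fintype F] (hodd : Odd (Fintype.card F)) (n : ℕ) (hn : 2 ≤ n) (a b : F) (hab : ∀ z₁ z₂ : F, z₁ ^ 2 + a * z₁ * z₂ + b * z₂ ^ 2 = 0 → z₁ = 0 ∧ z₂ = 0) :
    (Fintype.card F ^ n ≤ 2 * Nat.card (ConjClasses ↥(Cfsg.isometryGroup F (Cfsg.quadFormPlus n F))) ∧
      2 * Nat.card (ConjClasses ↥(Cfsg.isometryGroup F (Cfsg.quadFormPlus n F))) ≤ 19 * Fintype.card F ^ n) ∧
    (Fintype.card F ^ n ≤ 2 * Nat.card (ConjClasses ↥(Cfsg.isometryGroup F (Cfsg.quadFormMinus (n - 1) F a b))) ∧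
      2 * Nat.card (ConjClasses ↥(Cfsg.isometryGroup F (Cfsg.quadFormMinus (n - 1) F a b))) ≤ 19 * Fintype.card F ^ n) := by
  have h2 := two_ne_zero_of_odd_card hodd
  have hd : Module.finrank F ((Fin (n - 1) ⊕ Fin (n - 1)) ⊕ Fin 2 → F) = 2 * n := by
    simp; omega
  have hd' : Module.finrank F (Fin n ⊕ Fin n → F) = 2 * n := by
    simp; omega
  have e1 := card_conjClasses_congr (toO (QPlus n F))
  have e2 := card_conjClasses_congr (toO (QMinus (n - 1) F a b))
  refine ⟨⟨?_, ?_⟩, ?_, ?_⟩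
  · exact (le_card_classes_O_even (QPlus_nondeg n F) h2 hn hd').trans_eq (congrArg (2 * ·) e1.symm)
  · exact (congrArg (2 * ·) e1).trans_le
      (card_classes_O_even_le (QPlus_nondeg n F) h2 (by omega) hd')
  · exact (le_card_classes_O_even (QMinus_nondeg (n - 1) F hab) h2 hn hd).trans_eq
      (congrArg (2 * ·) e2.symm)
  · exact (congrArg (2 * ·) e2).trans_le
      (card_classes_O_even_le (QMinus_nondeg (n - 1) F hab) h2 (by omega) hd)

end Cfsg.Agent.S2558
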