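import Cfsg.Statements.S2559
import Cfsg.Agent.KSG.Ev2Low

set_option autoImplicit false
open Cfsg

namespace Cfsg.Agent.S2559

open CL.Nil CL.Orth CL.Ev2

/-- The number of conjugacy classes of the full orthogonal groups O⁺(2n,q) and O⁻(2n,q), q even, 2n ≥ 4: for F a finite field of even order q and n ≥ 2, the number k of conjugacy classes of the isometry group of the hyperbolic quadratic form Σ xᵢyᵢ on F^{2n}, and likewise of the elliptic form Σ xᵢyᵢ + (z₁² + a z₁z₂ + b z₂²) with anisotropic binary part, satisfies q^n/2 ≤ k ≤ 15·q^n. -/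
theorem result {F : Type*} [Field F] [Fintype F] (heven : Even (Fintype.card F)) (n : ℕ) (hn : 2 ≤ n) (a b : F) (hab : ∀ z₁ z₂ : F, z₁ ^ 2 + a * z₁ * z₂ + b * z₂ ^ 2 = 0 → z₁ = 0 ∧ z₂ = 0) :
    (Fintype.card F ^ n ≤ 2 * Nat.card (ConjClasses ↥(Cfsg.isometryGroup F (Cfsg.quadFormPlus n F))) ∧
      Nat.card (ConjClasses ↥(Cfsg.isometryGroup F (Cfsg.quadFormPlus n F))) ≤ 15 * Fintype.card F ^ n) ∧
    (Fintype.card F ^ n ≤ 2 * Nat.card (ConjClasses ↥(Cfsg.isometryGroup F (Cfsg.quadFormMinus (n - 1) F a b))) ∧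
      Nat.card (ConjClasses ↥(Cfsg.isometryGroup F (Cfsg.quadFormMinus (n - 1) F a b))) ≤ 15 * Fintype.card F ^ n) := by
  have : CharP F 2 := ringChar.of_eq (FiniteField.even_card_iff_char_two.2 (Nat.even_iff.1 heven))
  have hd : Module.finrank F ((Fin (n - 1) ⊕ Fin (n - 1)) ⊕ Fin 2 → F) = 2 * n := by
    simp; omega
  have hd' : Module.finrank F (Fin n ⊕ Fin n → F) = 2 * n := by
    simp; omega
  have e1 := card_conjClasses_congr (toO (QPlus n F))
  have e2 := card_conjClasses_congr (toO (QMinus (n - 1) F a b))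
  refine ⟨⟨?_, ?_⟩, ?_, ?_⟩
  · exact (le_card_classes_O (QPlus_nondeg n F) hn hd').trans_eq (congrArg (2 * ·) e1.symm)
  · exact e1.trans_le (card_classes_O_le (QPlus_nondeg n F) hd')
  · exact (le_card_classes_O (QMinus_nondeg (n - 1) F hab) hn hd).trans_eq
      (congrArg (2 * ·) e2.symm)
  · exact e2.trans_le (card_classes_O_le (QMinus_nondeg (n - 1) F hab) hd)

end Cfsg.Agent.S2559
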