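import Mathlib
import Cfsg.Statements.S2560
import Cfsg.Agent.KSG.ClsNum

set_option autoImplicit false
open Cfsg

namespace Cfsg.Agent.S2560

open CL.Nil CL.Orth

/-- The number of conjugacy classes of Ω(2n+1,q), q odd, n ≥ 2: for F a finite field of odd order q, the number k of conjugacy classes of the commutator subgroup of the isometry group of the quadratic form x₀² + Σ xᵢyᵢ on F^{2n+1} satisfies q^n/2 ≤ k ≤ 7.3·q^n. -/
theorem result {F : Type*} [Field F] [Fintype F] (hodd : Odd (Fintype.card F)) (n : ℕ) (hn : 2 ≤ n) :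
    Fintype.card F ^ n ≤ 2 * Nat.card (ConjClasses ↥(Cfsg.Omega F (Cfsg.quadFormOdd n F))) ∧
      10 * Nat.card (ConjClasses ↥(Cfsg.Omega F (Cfsg.quadFormOdd n F))) ≤ 73 * Fintype.card F ^ n := by
  have h2 := two_ne_zero_of_odd_card hodd
  have hd : Module.finrank F (Unit ⊕ (Fin n ⊕ Fin n) → F) = 2 * n + 1 := by
    simp; omega
  have e : ↥(Cfsg.Omega F ⇑(QOdd n F)) ≃* commutator (CL.Orth.O (QOdd n F)) :=
    (MulEquiv.subgroupCongr Omega_eq_comap).trans
      (MulEquiv.ofBijective ((toO (QOdd n F)).toMonoidHom.subgroupComap _)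
        ⟨fun x y h => Subtype.ext ((toO (QOdd n F)).injective (congrArg Subtype.val h)),
          MonoidHom.subgroupComap_surjective_of_surjective _ _ (toO (QOdd n F)).surjective⟩)
  have e1 := card_conjClasses_congr e
  exact ⟨(le_card_classes_omega (QOdd_nondeg n F h2) h2 (by omega) hd).trans_eq
      (congrArg (2 * ·) e1.symm),
    (congrArg (10 * ·) e1).trans_le (card_classes_omega_le (QOdd_nondeg n F h2) h2 (by omega) hd)⟩

end Cfsg.Agent.S2560
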