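import Cfsg.Statements.S2686
import Cfsg.Agent.CLAS.Bal6

set_option autoImplicit false
open Cfsg

namespace Cfsg.Agent.S2686

open CL.Lang CL.AutPSL CL.LBal CL.AutInd

/-- A criterion for the failure of local balance in almost simple groups with linear socle. Let F be a finite field of characteristic r and K = PSL_n(F) (n ≥ 2) simple. Let A be a group of automorphisms of K containing all inner automorphisms (an almost simple group with socle K), and β ∈ A an automorphism of prime order p ≠ r that is not inner-diagonal (not induced by conjugation by an invertible matrix). Then the largest normal subgroup of C_A(β) of order prime to p is nontrivial if and only if β is the composite of an inner-diagonal automorphism with the automorphism induced by a field automorphism applied entrywise (β is of field type) and p does not divide the number of fixed points of β on K. -/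
theorem result
    (F : Type*) [Field F] [Fintype F] (r : ℕ) [Fact r.Prime] [CharP F r] (n : ℕ) (hn : 2 ≤ n)
    (hK : IsSimpleGroup (Matrix.ProjectiveSpecialLinearGroup (Fin n) F))
    (𝒢 : Subgroup (MulAut (Matrix.ProjectiveSpecialLinearGroup (Fin n) F))) (hinn : ∀ k : Matrix.ProjectiveSpecialLinearGroup (Fin n) F, MulAut.conj k ∈ 𝒢)
    (p : ℕ) [Fact p.Prime] (hpr : p ≠ r) (β : MulAut (Matrix.ProjectiveSpecialLinearGroup (Fin n) F)) (hβ : β ∈ 𝒢) (hord : orderOf β = p)
    (hnot : ¬ Cfsg.IsInnerDiagonalAutPSL β) :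
    Cfsg.pPrimeCore p ↥(𝒢 ⊓ Subgroup.centralizer {β}) ≠ ⊥ ↔
      ((∃ γ φ : MulAut (Matrix.ProjectiveSpecialLinearGroup (Fin n) F), Cfsg.IsInnerDiagonalAutPSL γ ∧ Cfsg.IsFieldAutPSL φ ∧ β = φ.trans γ) ∧
        Nat.Coprime p (Nat.card ↥(MonoidHom.eqLocus β.toMonoidHom (MonoidHom.id (Matrix.ProjectiveSpecialLinearGroup (Fin n) F))))) := by
  have hp : p.Prime := Fact.out
  have hpF : (p : F) ≠ 0 := natCast_ne_zero hpr
  have : Nontrivial (Fin n) := Fin.nontrivial_iff_two_le.2 hn
  have hZ : Subgroup.center (Matrix.ProjectiveSpecialLinearGroup (Fin n) F) = ⊥ := by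
    refine (hK.eq_bot_or_eq_top_of_normal _ inferInstance).resolve_right fun h => ?_
    obtain ⟨i, j, hij⟩ := exists_pair_ne (Fin n)
    have h1 := diag_toGL (Matrix.SpecialLinearGroup.transvection hij (1 : F))
    rw [show MulAut.conj _ = 1 from MulEquiv.ext fun a => by
      simp [← Subgroup.mem_center_iff.1 (h.ge (Subgroup.mem_top _)) a]] at h1
    obtain ⟨c, hc⟩ := mem_scalars_iff'.1 (diag_eq_one_iff.1 h1)
    have h2 := congrArg Units.val hc
    simpa [Matrix.SpecialLinearGroup.transvection_coe, hij] using congrFun (congrFun h2 i) j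
  obtain ⟨γ, rfl | ⟨h3, rfl⟩⟩ := exists_eq_gam (by simpa using hn) β
  · have h1 : orderOf γ.right = p := orderOf_right frm_gam hp hord fun h =>
      hnot ((isInnerDiagonal_iff _).2 ⟨γ.left, by rw [gam_eq, show γ.right = 1 from h, map_one, mul_one]⟩)
    rw [gam_eq] at hord ⊢
    obtain ⟨α, -, h2⟩ := langProp_fld γ.right _ ⟨_, rfl⟩ (hord.trans h1.symm)
    refine (((crit_fld h1 hp hpF).of_conj (α := α⁻¹) (by rw [h2]; group)).iff hZ hinn).trans
      (and_iff_right ⟨_, _, (isInnerDiagonal_iff _).2 ⟨_, rfl⟩, (isField_iff _).2 ⟨_, rfl⟩, rfl⟩).symm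
  · refine iff_of_false (not_not.2 (bal_graph (by simpa using h3) hp hpF hord _ (inn_le hinn))) ?_
    rintro ⟨⟨_, _, h1, h2, h4⟩, -⟩
    obtain ⟨g, rfl⟩ := (isInnerDiagonal_iff _).1 h1
    obtain ⟨σ, rfl⟩ := (isField_iff _).1 h2
    exact tau_not_mem_range h3 ((Subgroup.mul_mem_cancel_left _ (MonoidHom.mem_range.2 ⟨γ, rfl⟩)).1
      ⟨⟨g, σ⟩, (gam_eq _).trans h4.symm⟩)

end Cfsg.Agent.S2686
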