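import Cfsg.Statements.S2688
import Cfsg.Agent.KSG.BalExc

set_option autoImplicit false
open Cfsg

namespace Cfsg.Agent.S2688

/-- A criterion for the failure of local balance in almost simple groups whose socle is one of the Chevalley groups of type G₂, B₂, D₄, F₄, E₆, E₇, E₈ (realised as the explicit matrix group generated by root elements over a finite field F of characteristic r, assumed simple). Let A be a group of automorphisms of that group K containing all inner automorphisms, and β ∈ A an automorphism of prime order p ≠ r that is not inner-diagonal (not induced by conjugation by an element of K times a diagonal automorphism). Then the largest normal subgroup of C_A(β) of order prime to p is nontrivial if and only if β is the composite of an inner-diagonal automorphism with an entrywise field automorphism and p does not divide the number of fixed points of β on K. -/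
theorem result (D : Cfsg.Lie.ChevalleyDatum)
    (hD : D ∈ [Cfsg.Lie.chevG2, Cfsg.Lie.chevB2, Cfsg.Lie.chevD4, Cfsg.Lie.chevF4, Cfsg.Lie.chevE6, Cfsg.Lie.chevE7, Cfsg.Lie.chevE8])
    (F : Type*) [Field F] [Fintype F] (r : ℕ) [Fact r.Prime] [CharP F r] (hK : IsSimpleGroup ↥(D.group F))
    (𝒢 : Subgroup (MulAut (↥(D.group F)))) (hinn : ∀ k : ↥(D.group F), MulAut.conj k ∈ 𝒢)
    (p : ℕ) [Fact p.Prime] (hpr : p ≠ r) (β : MulAut (↥(D.group F))) (hβ : β ∈ 𝒢) (hord : orderOf β = p)
    (hnot : ¬ D.IsInnerDiagonalAutOn (D.group F) β) :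
    Cfsg.pPrimeCore p ↥(𝒢 ⊓ Subgroup.centralizer {β}) ≠ ⊥ ↔
      ((∃ γ φ : MulAut ↥(D.group F), D.IsInnerDiagonalAutOn (D.group F) γ ∧ Cfsg.Lie.IsEntrywiseFieldAutOn (D.group F) φ ∧
          β = φ.trans γ) ∧
        Nat.Coprime p (Nat.card ↥(MonoidHom.eqLocus β.toMonoidHom (MonoidHom.id (↥(D.group F)))))) := by
  open CL.GBal CL.Chev CL.LBal Cfsg.Lie in
  have h1 : β ^ p = 1 := hord ▸ pow_orderOf_eq_one β
  have h9 := natCast_ne_zero (F := F) hpr
  simp only [List.mem_cons, List.not_mem_nil, or_false] at hD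
  rcases hD with rfl | rfl | rfl | rfl | rfl | rfl | rfl
  · refine concl r hpr inv6_G2 h1 hnot (fun h h2 _ h3 h4 => ?_) hinn
    obtain rfl := (sym_G2 h2).resolve_left h4
    exact Or.inl (concl_G2 r hpr h h3)
  · refine concl r hpr inv6_B2 h1 hnot (fun h h2 h3 _ h4 => ?_) hinn
    obtain rfl := (sym_B2 h2).resolve_left h4
    obtain rfl := eq_of_pow (q := 2) h3 h4 (by decide)
    exact absurd (two_eq_zero_of_sq (apin_B2 h)) h9
  · refine concl r hpr inv6_D4 h1 hnot (fun {_ _ π _ _} _ h2 h3 _ h4 => Or.inr ?_) hinn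
    have h5 : p = 2 ∨ p = 3 ∧ ∃ i, π i = i := by
      have h6 : ∀ π ∈ ({1, permD4, permD4 * permD4, permD4s, permD4 * permD4s, permD4 * permD4 * permD4s} : Finset _),
        π ^ 2 = 1 ∨ π ^ 3 = 1 ∧ ∃ i, π i = i := by decide +kernel
      exact (h6 π (sym_D4 h2)).imp (eq_of_pow h3 h4) (And.imp_left (eq_of_pow h3 h4))
    have h6 := (tyChk_D4 π (sym_D4 h2)).resolve_left h4 p (by rcases h5 with h | h <;> simp [h]) h3
    refine ⟨h5, long_D4, fun π' h => ?_, fun π' h => h6.2 π' (sym_D4 h), _, h6.1⟩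
    have h7 := sym_D4 h
    simp only [Finset.mem_insert, Finset.mem_singleton] at h7
    rcases h7 with rfl | rfl | rfl | rfl | rfl | rfl
    exacts [one_mem _, permD4_mem_Sym, mul_mem permD4_mem_Sym permD4_mem_Sym, permD4s_mem_Sym,
      mul_mem permD4_mem_Sym permD4s_mem_Sym, mul_mem (mul_mem permD4_mem_Sym permD4_mem_Sym) permD4s_mem_Sym]
  · refine concl r hpr inv6_F4 h1 hnot (fun h h2 h3 _ h4 => ?_) hinn
    obtain rfl := (sym_F4 h2).resolve_left h4
    obtain rfl := eq_of_pow (q := 2) h3 h4 (by decide)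
    exact absurd (two_eq_zero_of_sq fun t => (apin_F4 h t).1) h9
  · refine concl r hpr inv6_E6 h1 hnot (fun _ h2 h3 _ h4 => Or.inr ?_) hinn
    obtain rfl := (sym_E6 h2).resolve_left h4
    obtain rfl := eq_of_pow (q := 2) h3 h4 (by decide)
    refine ⟨Or.inl rfl, long_E6, fun π' h => ?_, fun π' h _ => ?_, _, tyChk_E6⟩ <;> rcases sym_E6 h with rfl | rfl
    exacts [one_mem _, permE6_mem_Sym, one_pow _, h3]
  · exact concl r hpr inv6_E7 h1 hnot (fun _ h2 _ _ h4 => absurd (sym_E7 h2) h4) hinn
  · exact concl r hpr inv6_E8 h1 hnot (fun _ h2 _ _ h4 => absurd (sym_E8 h2) h4) hinn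

end Cfsg.Agent.S2688
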