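import Cfsg.Statements.S2730
import Cfsg.Agent.CLAS.Bal4

set_option autoImplicit false
open Cfsg

namespace Cfsg.Agent.S2730

open CL.Lang CL.AutForm CL.LBal

/-- A criterion for the failure of local balance in almost simple groups whose socle is a projective symplectic group PSp_{2m}(F) (m ≥ 2, (2m, |F|) ≠ (4, 2)). Let F be a finite field of characteristic r and K the (simple) group in question; let A be a group of automorphisms of K containing all inner automorphisms, and x ∈ A an automorphism of prime order p ≠ r that is not inner-diagonal (not induced by a conformal symplectic matrix). Then the largest normal subgroup of C_A(x) of order prime to p is nontrivial if and only if x is a field automorphism of K (conjugate under Aut(K) to a non-identity standard field automorphism) and p does not divide the number of fixed points of x on K. -/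
theorem result {F : Type*} [Field F] [Fintype F] {r : ℕ} [Fact r.Prime] [CharP F r] {m : ℕ} (hm : 2 ≤ m) (hs : m = 2 → 3 ≤ Fintype.card F) (hK : IsSimpleGroup (Cfsg.PSp m F)) (A : Subgroup (MulAut (Cfsg.PSp m F))) (hinn : ∀ k : Cfsg.PSp m F, MulAut.conj k ∈ A) {p : ℕ} [Fact p.Prime] (hpr : p ≠ r) (x : MulAut (Cfsg.PSp m F)) (hxA : x ∈ A) (hord : orderOf x = p) (hnot : ¬ Cfsg.IsInnerDiagonalAutPSp x) :
    Cfsg.pPrimeCore p ↥(A ⊓ Subgroup.centralizer {x}) ≠ ⊥ ↔ (Cfsg.IsFieldAutClassPSp x ∧ Nat.Coprime p (Nat.card ↥(MonoidHom.eqLocus x.toMonoidHom (MonoidHom.id (Cfsg.PSp m F))))) := by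
  have hp : p.Prime := Fact.out
  have hpF : (p : F) ≠ 0 := natCast_ne_zero hpr
  obtain ⟨γ, rfl⟩ := mem_range_indSp hm (x := x) fun h2 =>
    hord ▸ hp.odd_of_ne_two (by rintro rfl; exact hpF (by exact_mod_cast h2))
  have hN : ∀ γ : semiGrp (CL.Sp.spForm m F), γ.1.right = 1 →
      IsInnerDiagonalAutPSp (indSp m F γ) := fun γ h =>
    ⟨_, mem_semiGrp_Sp.1 γ.2, by have := (isInducedSp_iff γ _).2 rfl; rwa [h] at this⟩
  have h1 := orderOf_right (frm_Sp hm) hp hord fun h => hnot (hN γ h)
  obtain ⟨α, h2⟩ := exists_conj_field (isSim_inr_Sp _) (fun γ h => Subgroup.subset_closure (hN γ h))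
    hord (h1 ▸ langProp_Sp hm _)
  refine (((crit_Sp hm h1 hp hpF).of_conj h2).iff ((real_Sp m).center_eq_bot (good_Sp hm)
    (by simp; omega)) hinn).trans (and_iff_right ⟨α, _, fun h => hnot (hN γ h), ?_⟩).symm
  exact (isStdFieldSp_iff _ _).2 h2

end Cfsg.Agent.S2730
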