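import Cfsg.Statements.S2732
import Cfsg.Agent.KSG.BalD4

set_option autoImplicit false
open Cfsg

namespace Cfsg.Agent.S2732

/-- A criterion for the failure of local balance in almost simple groups whose socle is a plus-type orthogonal group PΩ⁺_{2m}(F) (m ≥ 4; the form Σ xᵢ yᵢ). Let F be a finite field of characteristic r and K the (simple) group in question; let A be a group of automorphisms of K containing all inner automorphisms, and x ∈ A an automorphism of prime order p ≠ r that is not inner-diagonal (not induced by a similarity preserving the two classes of maximal totally singular subspaces). Then the largest normal subgroup of C_A(x) of order prime to p is nontrivial if and only if x is a field automorphism of K (conjugate under Aut(K) to a non-identity standard field automorphism) and p does not divide the number of fixed points of x on K. -/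
theorem result {F : Type*} [Field F] [Fintype F] {r : ℕ} [Fact r.Prime] [CharP F r] {m : ℕ} (hm : 4 ≤ m) (hK : IsSimpleGroup (Cfsg.POmega F (Cfsg.quadFormPlus m F))) (A : Subgroup (MulAut (Cfsg.POmega F (Cfsg.quadFormPlus m F)))) (hinn : ∀ k : Cfsg.POmega F (Cfsg.quadFormPlus m F), MulAut.conj k ∈ A) {p : ℕ} [Fact p.Prime] (hpr : p ≠ r) (x : MulAut (Cfsg.POmega F (Cfsg.quadFormPlus m F))) (hxA : x ∈ A) (hord : orderOf x = p) (hnot : ¬ Cfsg.IsInnerDiagonalAutPOmegaPlus m x) :
    Cfsg.pPrimeCore p ↥(A ⊓ Subgroup.centralizer {x}) ≠ ⊥ ↔ (Cfsg.IsFieldAutClassPOmega (Cfsg.quadFormPlus m F) x ∧ Nat.Coprime p (Nat.card ↥(MonoidHom.eqLocus x.toMonoidHom (MonoidHom.id (Cfsg.POmega F (Cfsg.quadFormPlus m F)))))) := by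
  open CL.Lang CL.AutForm CL.LBal CL.Orth CL.OutOrth CL.GBal in
  have hQ : OK (QPlus m F) := ok_plus (by omega)
  have hE := evenDim_QPlus (F := F) (m := m) (by omega)
  have hZ := hQ.real.center_eq_bot hQ.good hQ.three
  have h0 : ∀ γ, indO hQ γ = x → (γ.1.right = 1 → p = 2 → (indO hQ).range = ⊤) → Crit p (Inn _) x ∧
      (HasP p x ∨ IsFieldAutClassPOmega (QPlus m F) x) := by
    rintro γ rfl h
    refine (crit_even hQ hE (by omega) hord Fact.out (natCast_ne_zero hpr) (fun g hg e =>
      hnot ⟨GO.mat g, GO.mem_quadSim_iff.2 ⟨g, rfl⟩, (hE.preserves_iff (isPlus_QPlus m) g).2 hg,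
        (isInduced_iff_rho hQ.nondeg hQ.five g _).2 e⟩) fun h1 h2 _ _ _ => (h h1 h2).ge trivial).imp_right
      (Or.imp_right fun ⟨φ, _, _, _, e, h3, h4, h5, h6⟩ => e ▸ isField_plus hQ hE h3 h4 h5 h6)
  obtain ⟨h1, h2⟩ : Crit p (Inn _) x ∧ (HasP p x ∨ IsFieldAutClassPOmega (QPlus m F) x) := by
    rcases hm.eq_or_lt with rfl | h5
    · rcases crit_four r hpr hE (x := x) (hord ▸ pow_orderOf_eq_one x) with h | ⟨γ, h, h'⟩
      · exact h.imp_right Or.inl
      refine h0 γ h fun h1 _ => absurd ?_ hnot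
      obtain ⟨g, rfl⟩ := GO.exists_toSemi_eq h1
      exact ⟨GO.mat g, GO.mem_quadSim_iff.2 ⟨g, rfl⟩, (hE.preserves_iff (isPlus_QPlus 4) g).2 (h' g rfl),
        (isInduced_iff_rho hQ.nondeg hQ.five g _).2 h.symm⟩
    · have h := range_ind_QPlus (F := F) h5 (by omega)
      obtain ⟨γ, e⟩ := h.ge (Subgroup.mem_top x)
      exact h0 γ e fun _ _ => h
  exact (h1.iff hZ hinn).trans (and_iff_right_of_imp fun h =>
    h2.resolve_left fun ⟨_, hy, ho⟩ => not_coprime hZ hy ho h).symm

end Cfsg.Agent.S2732
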