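import Cfsg.Statements.S2733
import Cfsg.Agent.CLAS.Bal7

set_option autoImplicit false
open Cfsg

namespace Cfsg.Agent.S2733

open CL.Lang CL.AutForm CL.LBal CL.Orth CL.OutOrth

/-- A criterion for the failure of local balance in almost simple groups whose socle is a minus-type orthogonal group PΩ⁻_{2m+2}(F) (m ≥ 3; the form Σ xᵢ yᵢ + z₁² + a z₁ z₂ + b z₂² with anisotropic binary part). Let F be a finite field of characteristic r and K the (simple) group in question; let A be a group of automorphisms of K containing all inner automorphisms, and x ∈ A an automorphism of prime order p ≠ r that is not inner-diagonal (not induced by a class-preserving similarity, classes read over a quadratic extension). Then the largest normal subgroup of C_A(x) of order prime to p is nontrivial if and only if x is a field automorphism of K (conjugate under Aut(K) to a non-identity standard field automorphism) and p does not divide the number of fixed points of x on K. -/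
theorem result {F : Type*} [Field F] [Fintype F] {r : ℕ} [Fact r.Prime] [CharP F r] {m : ℕ} (hm : 3 ≤ m) (a b : F) (hab : (∀ z₁ z₂ : F, z₁ ^ 2 + a * z₁ * z₂ + b * z₂ ^ 2 = 0 → z₁ = 0 ∧ z₂ = 0)) (hK : IsSimpleGroup (Cfsg.POmega F (Cfsg.quadFormMinus m F a b))) (A : Subgroup (MulAut (Cfsg.POmega F (Cfsg.quadFormMinus m F a b)))) (hinn : ∀ k : Cfsg.POmega F (Cfsg.quadFormMinus m F a b), MulAut.conj k ∈ A) {p : ℕ} [Fact p.Prime] (hpr : p ≠ r) (x : MulAut (Cfsg.POmega F (Cfsg.quadFormMinus m F a b))) (hxA : x ∈ A) (hord : orderOf x = p) (hnot : ¬ Cfsg.IsInnerDiagonalAutPOmegaMinus m a b x) :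
    Cfsg.pPrimeCore p ↥(A ⊓ Subgroup.centralizer {x}) ≠ ⊥ ↔ (Cfsg.IsFieldAutClassPOmegaMinus m x ∧ Nat.Coprime p (Nat.card ↥(MonoidHom.eqLocus x.toMonoidHom (MonoidHom.id (Cfsg.POmega F (Cfsg.quadFormMinus m F a b)))))) := by
  have hQ : OK (QMinus m F a b) := ok_minus (by omega) hab
  have hE := evenDim_QMinus (m := m) (by omega) (disc_ne_zero_of_aniso hab)
  have h0 : (indO hQ).range = ⊤ := range_ind_QMinus (by omega) hab
  obtain ⟨γ, rfl⟩ : x ∈ (indO hQ).range := h0.ge trivial
  have hZ := hQ.real.center_eq_bot hQ.good hQ.three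
  obtain ⟨h1, h2⟩ := crit_even hQ hE (by omega) hord Fact.out (natCast_ne_zero hpr) (fun g hg e =>
    hnot ⟨GO.mat g, GO.mem_quadSim_iff.2 ⟨g, rfl⟩, (preservesMinus_iff hab (by omega) hE g).2 hg,
      (isInduced_iff_rho hQ.nondeg hQ.five g _).2 e⟩) fun _ _ _ _ _ => h0.ge trivial
  refine (h1.iff hZ hinn).trans (and_iff_right_of_imp fun h => ?_).symm
  rcases h2 with ⟨y, hy, h2⟩ | ⟨φ, _, _, _, e, h3, h4, h5, h6⟩
  · exact absurd h (not_coprime hZ hy h2)
  · exact e ▸ isField_minus hQ hab (by omega) h3 h4 h5 h6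

end Cfsg.Agent.S2733
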