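import Cfsg.Statements.S4411
import Cfsg.Agent.FGS.HallPQ
import Cfsg.Agent.S0618
import Cfsg.Agent.PERM.Witt

set_option autoImplicit false
open Cfsg

namespace Cfsg.Agent.S4411


open Subgroup Cfsg CL.MSS

universe u

def Aut {G : Type*} [Group G] (q : ℕ) (K : Subgroup G) : Prop :=
  q ∣ (centralizer (K : Set G)).relIndex (normalizer (K : Set G))

def Hyp (p : ℕ) (G : Type*) [Group G] : Prop :=
  ∀ H : Subgroup G, IsPGroup p ↥H →
    IsPSolvable p (↥(normalizer (H : Set G)) ⧸ (centralizer (H : Set G)).subgroupOf (normalizer (H : Set G)))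

section
variable {G : Type*} [Group G] {p q : ℕ}

theorem mem_of_coprime {D : Subgroup G} {x : G} {a b : ℕ} (h : a.Coprime b) (ha : x ^ a ∈ D)
    (hb : x ^ b ∈ D) : x ∈ D := by
  obtain ⟨s, t, hst⟩ := Nat.isCoprime_iff_coprime.2 h
  have : x = (x ^ a) ^ s * (x ^ b) ^ t := by
    rw [← zpow_natCast, ← zpow_natCast, ← zpow_mul, ← zpow_mul, ← zpow_add, mul_comm (a : ℤ),
      mul_comm (b : ℤ), hst, zpow_one]
  rw [this]
  exact D.mul_mem (D.zpow_mem ha s) (D.zpow_mem hb t)

theorem exists_q [Finite G] [hq : Fact q.Prime] {C N : Subgroup G} [(C.subgroupOf N).Normal]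
    (h : q ∣ C.relIndex N) : ∃ x ∈ N, x ∉ C ∧ ∃ k, x ^ q ^ k = 1 := by
  obtain ⟨y, hy⟩ := exists_prime_orderOf_dvd_card' (G := N ⧸ C.subgroupOf N) q h
  obtain ⟨y, rfl⟩ := QuotientGroup.mk_surjective y
  obtain ⟨m, i, hm, hi⟩ := CL.Perm.exists_pow_pElt hq.out (y : G)
  refine ⟨y ^ m, N.pow_mem y.2 m, fun hc => hm ?_, i, hi⟩
  rw [← hy, orderOf_dvd_iff_pow_eq_one, ← QuotientGroup.mk_pow, QuotientGroup.eq_one_iff]
  exact hc

theorem aut_of [Finite G] [hq : Fact q.Prime] {K D : Subgroup G} {x : G} (hx : x ∈ normalizer (K : Set G))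
    (hD : centralizer (K : Set G) ≤ D) (h1 : x ∉ D) {k : ℕ} (h2 : x ^ q ^ k ∈ D) : Aut q K := by
  obtain ⟨m, i, hm, hi⟩ := CL.Perm.exists_pow_pElt hq.out x
  have h3 : x ^ m ∉ centralizer (K : Set G) := fun hc =>
    h1 (mem_of_coprime (((Nat.Prime.coprime_iff_not_dvd hq.out).2 hm).symm.pow_right k) (hD hc) h2)
  let y : normalizer (K : Set G) ⧸ (centralizer (K : Set G)).subgroupOf (normalizer (K : Set G)) :=
    QuotientGroup.mk ⟨x ^ m, pow_mem hx m⟩
  have hy1 : y ≠ 1 := fun h => h3 (mem_subgroupOf.1 ((QuotientGroup.eq_one_iff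
    (⟨x ^ m, pow_mem hx m⟩ : normalizer (K : Set G))).1 h))
  have hy2 : y ^ q ^ i = 1 := by
    rw [← QuotientGroup.mk_pow, show (⟨x ^ m, pow_mem hx m⟩ : normalizer (K : Set G)) ^ q ^ i = 1 from
      Subtype.ext hi, QuotientGroup.mk_one]
  obtain ⟨j, -, hj⟩ := (Nat.dvd_prime_pow hq.out).1 (orderOf_dvd_of_pow_eq_one hy2)
  have hj0 : j ≠ 0 := by rintro rfl; exact hy1 (orderOf_eq_one_iff.1 hj)
  exact ((dvd_pow_self q hj0).trans hj.symm.dvd).trans (orderOf_dvd_natCard y)

theorem aut_map [Finite G] [hq : Fact q.Prime] {G' : Type*} [Group G'] [Finite G'] {f : G →* G'}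
    (hf : Function.Injective f) {K : Subgroup G} (h : Aut q K) : Aut q (K.map f) := by
  obtain ⟨x, hx, hx', k, hk⟩ := exists_q h
  refine aut_of (le_normalizer_map f ⟨x, hx, rfl⟩) le_rfl (fun hc => hx' fun y hy => hf ?_) (k := k)
    (by rw [← map_pow, hk, map_one]; exact one_mem _)
  rw [map_mul, map_mul]
  exact hc _ ⟨y, hy, rfl⟩

theorem hyp_sub [Finite G] [Fact p.Prime] (h : Hyp p G) (L : Subgroup G) : Hyp p L := by
  intro H hH
  let f : normalizer (H : Set L) →* normalizer ((H.map L.subtype : Subgroup G) : Set G) :=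
    (L.subtype.comp (normalizer (H : Set L)).subtype).codRestrict _
      fun x => le_normalizer_map L.subtype ⟨x, x.2, rfl⟩
  refine CL.IsPSolvable.of_injective (h (H.map L.subtype) (hH.map _))
    (f := QuotientGroup.map _ _ f fun x hx => ?_) ?_
  · rintro _ ⟨y, hy, rfl⟩
    exact congrArg Subtype.val (hx y hy)
  · rw [injective_iff_map_eq_one]
    intro x hx
    obtain ⟨x, rfl⟩ := QuotientGroup.mk_surjective x
    have hx' := (QuotientGroup.eq_one_iff (f x)).1 hx
    rw [QuotientGroup.eq_one_iff]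
    exact fun y hy => Subtype.ext (hx' _ ⟨y, hy, rfl⟩)

theorem hyp_quot [Finite G] [Fact p.Prime] (h : Hyp p G) (R : Subgroup G) [R.Normal] (hR : IsPGroup p R) :
    Hyp p (G ⧸ R) := by
  intro H hH
  have e := comap_normalizer_eq_of_surjective H (QuotientGroup.mk'_surjective R)
  let f : normalizer ((H.comap (QuotientGroup.mk' R) : Subgroup G) : Set G) →* normalizer (H : Set (G ⧸ R)) :=
    ((QuotientGroup.mk' R).comp (normalizer _).subtype).codRestrict _
      fun x => (e.ge x.2 :)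
  refine CL.IsPSolvable.of_surjective (h (H.comap (QuotientGroup.mk' R))
    (hH.comap_of_ker_isPGroup _ (by rwa [QuotientGroup.ker_mk'])))
    (f := QuotientGroup.map _ _ f fun x hx => ?_) ?_
  · intro y hy
    obtain ⟨y, rfl⟩ := QuotientGroup.mk_surjective y
    exact congrArg (QuotientGroup.mk' R) (hx y hy)
  · intro x
    obtain ⟨⟨x, hx⟩, rfl⟩ := QuotientGroup.mk_surjective x
    obtain ⟨x, rfl⟩ := QuotientGroup.mk_surjective x
    exact ⟨QuotientGroup.mk ⟨x, e.le hx⟩, rfl⟩

theorem index_eq_relIndex (A B : Subgroup G) (h : ∀ g, ∃ b ∈ B, ∃ a ∈ A, g = b * a) :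
    A.index = A.relIndex B := by
  have h1 : MulAction.stabilizer B ((1 : G) : G ⧸ A) = A.subgroupOf B := by
    ext b
    rw [MulAction.mem_stabilizer_iff, mem_subgroupOf]
    change (((b : G) * 1 : G) : G ⧸ A) = _ ↔ _
    rw [eq_comm, QuotientGroup.eq]
    simp
  have h2 : MulAction.orbit B ((1 : G) : G ⧸ A) = Set.univ := by
    rw [Set.eq_univ_iff_forall]
    intro g
    obtain ⟨g, rfl⟩ := QuotientGroup.mk_surjective g
    obtain ⟨b, hb, a, ha, rfl⟩ := h g
    refine ⟨⟨b, hb⟩, ?_⟩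
    change ((b * 1 : G) : G ⧸ A) = _
    rw [QuotientGroup.eq]
    simpa using ha
  rw [relIndex, ← h1, MulAction.index_stabilizer, h2, Set.ncard_univ, index]

theorem mul_pow_mem {X : Subgroup G} {n x : G} (hn : n ∈ X) (hx : x ∈ normalizer (X : Set G)) (j : ℕ) :
    (n * x) ^ j * (x ^ j)⁻¹ ∈ X := by
  induction j with
  | zero => simp
  | succ j ih =>
    have h1 := (mem_normalizer_iff.1 (pow_mem hx j) n).1 hn
    have : (n * x) ^ (j + 1) * (x ^ (j + 1))⁻¹ = (n * x) ^ j * (x ^ j)⁻¹ * (x ^ j * n * (x ^ j)⁻¹) := by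
      rw [pow_succ, pow_succ]; group
    rw [this]
    exact X.mul_mem ih h1

theorem factorizable [Finite G] [hp : Fact p.Prime] [hq : Fact q.Prime]
    (h23 : ¬ ((p = 2 ∧ q = 3) ∨ (p = 3 ∧ q = 2))) (hG : IsPSolvable p G)
    (hpq : ∀ r : ℕ, r.Prime → r ∣ Nat.card G → r ∈ ({p, q} : Set ℕ)) : IsThompsonFactorizable p G := by
  rw [CL.Th.thompsonFactorizable_iff_quotient]
  by_contra hc
  obtain ⟨h1, E, -, -, -, hn, ⟨e⟩⟩ := Cfsg.Agent.S0618.result (CL.IsPSolvable.quotient hG _)
    (CL.pPrimeCore_quotient_pPrimeCore p G) hc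
  have h2 : Nat.card (Matrix.SpecialLinearGroup (Fin 2) (ZMod p)) ∣ Nat.card G := by
    rw [← Nat.card_congr e.toEquiv]
    exact ((card_quotient_dvd_card _).trans (card_subgroup_dvd_card _)).trans (card_quotient_dvd_card _)
  apply h23
  rcases h1 with rfl | rfl
  · have h3 : Nat.card (Matrix.SpecialLinearGroup (Fin 2) (ZMod 2)) = 6 := by
      rw [Nat.card_eq_fintype_card]; decide +kernel
    have := hpq 3 Nat.prime_three (Dvd.dvd.trans (by rw [h3]; norm_num) h2)
    simp at this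
    exact Or.inl ⟨rfl, this.symm⟩
  · have h3 : Nat.card (Matrix.SpecialLinearGroup (Fin 2) (ZMod 3)) = 24 := by
      rw [Nat.card_eq_fintype_card]; decide +kernel
    have := hpq 2 Nat.prime_two (Dvd.dvd.trans (by rw [h3]; norm_num) h2)
    simp at this
    exact Or.inr ⟨rfl, this.symm⟩

theorem local_step [Finite G] [hp : Fact p.Prime] [hq : Fact q.Prime]
    (h23 : ¬ ((p = 2 ∧ q = 3) ∨ (p = 3 ∧ q = 2))) {H : Subgroup G} (hH : IsPGroup p H) (hA : Aut q H)
    (hM : IsPSolvable p (normalizer (H : Set G))) :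
    ∃ P W : Subgroup G, SylIn p P (normalizer (H : Set G)) ∧ W ≠ ⊥ ∧ W ≤ P ∧
      normalizer (P : Set G) ≤ normalizer (W : Set G) ∧
      ∃ y ∈ normalizer (H : Set G), y ∈ normalizer (W : Set G) ∧ y ∉ centralizer (H : Set G) ∧
        ∃ k, y ^ q ^ k = 1 := by
  set M := normalizer (H : Set G) with hMd
  set C := centralizer (H : Set G) with hCd
  obtain ⟨L₀, hL1, hL2⟩ := CL.FGS.HallPQ.exists_hall p q M hM
  set L := L₀.map M.subtype with hL
  have hLM : L ≤ M := map_subtype_le _
  have hrel : L.relIndex M = L₀.index := by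
    rw [relIndex, hL, subgroupOf, comap_map_eq_self_of_injective M.subtype_injective]
  obtain ⟨S⟩ : Nonempty (Sylow p L) := inferInstance
  have hS := sylIn_map_subtype S
  set P := (S : Subgroup L).map L.subtype with hP
  have hPM : SylIn p P M := by
    refine sylIn_of_not_dvd_relIndex hS.pgroup (hS.le.trans hLM) fun h => ?_
    rw [← relIndex_mul_relIndex P L M hS.le hLM, hrel] at h
    exact ((Nat.Prime.dvd_mul hp.out).1 h).elim hS.not_dvd_relIndex (hL2 p hp.out (by simp))
  have hHP : H ≤ P := hPM.le_of_normalized hH le_normalizer hPM.le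
  have hH0 : H ≠ ⊥ := by
    rintro rfl
    obtain ⟨x, -, hx, -⟩ := exists_q hA
    exact hx fun y hy => by rw [mem_bot.1 hy]; simp
  have hP0 : P ≠ ⊥ := fun h => hH0 (le_bot_iff.1 (h ▸ hHP))
  have hqL : q ∣ C.relIndex L := by
    have h1 : C.relIndex M ∣ (C ⊓ L).relIndex M := relIndex_dvd_of_le_left M inf_le_left
    rw [← relIndex_mul_relIndex (C ⊓ L) L M inf_le_right hLM, hrel, inf_relIndex_right] at h1
    exact ((Nat.Prime.dvd_mul hq.out).1 (Dvd.dvd.trans hA h1)).resolve_right (hL2 q hq.out (by simp))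
  have hCn : (C.subgroupOf L).Normal :=
    normal_subgroupOf_of_le_normalizer (hLM.trans (normalizer_le_normalizer_centralizer H))
  have hfac := factorizable (G := L) h23 (CL.IsPSolvable.map (CL.IsPSolvable.subgroup hM L₀) _)
    (fun r hr hd => hL1 r hr (by rwa [hL, card_subtype] at hd)) S
  set A := centralizer (CL.Th.omegaZ p (S : Subgroup L) : Set L) with hAd
  set B := normalizer (thompsonSubgroupOf p (S : Subgroup L) : Set L) with hBd
  have hO : pPrimeCore p L ≤ C.subgroupOf L := by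
    have hn : (H.subgroupOf L).Normal := normal_subgroupOf_of_le_normalizer hLM
    have hHp : IsPGroup p (H.subgroupOf L) := hH.comap_subtype
    have hdis : Disjoint (H.subgroupOf L) (pPrimeCore p L) := by
      obtain ⟨k, hk⟩ := IsPGroup.iff_card.1 hHp
      rw [disjoint_iff]
      exact inf_eq_bot_of_coprime (hk ▸ (CL.coprime_card_pPrimeCore p L).symm.pow_left k)
    intro x hx y hy
    exact congrArg Subtype.val (commute_of_normal_of_disjoint _ _ hn inferInstance hdis
      ⟨y, hS.le (hHP hy)⟩ x hy hx)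
  have hidx : (A ⊔ C.subgroupOf L).index = (A ⊔ C.subgroupOf L).relIndex B := by
    refine index_eq_relIndex _ _ fun g => ?_
    obtain ⟨x, hx, c, hc, n, hn, e⟩ := hfac g⁻¹
    refine ⟨n⁻¹, inv_mem hn, (x * c)⁻¹, inv_mem (mul_mem (mem_sup_right (hO hx)) (mem_sup_left hc)), ?_⟩
    rw [← mul_inv_rev, ← e, inv_inv]
  have hcase : q ∣ (C.subgroupOf L).relIndex A ∨ q ∣ (C.subgroupOf L).relIndex B := by
    have h1 : q ∣ (C.subgroupOf L).index := hqL
    rw [← relIndex_mul_index (le_sup_right : C.subgroupOf L ≤ A ⊔ C.subgroupOf L), relIndex_sup_right,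
      hidx] at h1
    exact ((Nat.Prime.dvd_mul hq.out).1 h1).imp id fun h => h.trans (relIndex_dvd_of_le_left B le_sup_right)
  rcases hcase with h | h
  · obtain ⟨y, hy, hy', k, hk⟩ := exists_q h
    refine ⟨P, CL.Th.omegaZ p P, hPM, ?_, CL.Th.omegaZ_le P, CL.Th.normalizer_le_normalizer_omegaZ P,
      y, hLM y.2, ?_, hy', k, congrArg Subtype.val hk⟩
    · refine CL.Th.omegaOne_ne_bot_of_isPGroup (hS.pgroup.to_le inf_le_left) ?_
      have : Nontrivial P := (nontrivial_iff_ne_bot P).2 hP0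
      have := hS.pgroup.center_nontrivial
      obtain ⟨z, hz⟩ := exists_ne (1 : center P)
      intro hb
      have h1 : (z : G) ∈ P ⊓ centralizer (P : Set G) :=
        ⟨z.1.2, fun w hw => congrArg Subtype.val (mem_center_iff.1 z.2 ⟨w, hw⟩)⟩
      rw [hb] at h1
      exact hz (Subtype.ext (Subtype.ext h1))
    · rw [hP, ← CL.Th.map_omegaZ _ L.subtype_injective]
      exact le_normalizer_map _ ⟨y, centralizer_le_normalizer _ hy, rfl⟩
  · obtain ⟨y, hy, hy', k, hk⟩ := exists_q h
    refine ⟨P, thompsonSubgroupOf p P, hPM, CL.Th.thompsonSubgroupOf_ne_bot_of_isPGroup hS.pgroup hP0,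
      CL.Th.thompsonSubgroupOf_le P, CL.Th.normalizer_le_normalizer_thompsonSubgroupOf P,
      y, hLM y.2, ?_, hy', k, congrArg Subtype.val hk⟩
    rw [hP, ← CL.Th.map_thompsonSubgroupOf _ L.subtype_injective]
    exact le_normalizer_map _ ⟨y, hy, rfl⟩

end

theorem main (p q : ℕ) [hp : Fact p.Prime] [hq : Fact q.Prime] (hpq : p ≠ q)
    (h23 : ¬ ((p = 2 ∧ q = 3) ∨ (p = 3 ∧ q = 2))) (G : Type u) [Group G] [Finite G] :
    Hyp p G → (∃ H : Subgroup G, IsPGroup p H ∧ Aut q H) →
      ∃ K : Subgroup G, IsPGroup p K ∧ Aut q K ∧ ¬ p ∣ (normalizer (K : Set G)).index := by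
  refine CL.card_induction (P := fun G _ _ => Hyp p G → (∃ H : Subgroup G, IsPGroup p H ∧ Aut q H) →
      ∃ K : Subgroup G, IsPGroup p K ∧ Aut q K ∧ ¬ p ∣ (normalizer (K : Set G)).index) ?_ G
  intro G _ _ ih hyp hex
  have hco : Nat.Coprime p q := (Nat.coprime_primes hp.out hq.out).2 hpq
  by_cases hR : pCore p G = ⊥
  swap
  · set R := pCore p G with hRd
    have hRp : IsPGroup p R := CL.isPGroup_pCore p G
    by_cases hRA : Aut q R
    · exact ⟨R, hRp, hRA, by rw [normalizer_eq_top, index_top]; simpa using hp.out.ne_one⟩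
    obtain ⟨H, hH, hA⟩ := hex
    obtain ⟨x, hx, hx', k, hk⟩ := exists_q hA
    have hxR : x ∈ centralizer (R : Set G) := by
      by_contra hc
      exact hRA (aut_of (by rw [normalizer_eq_top]; trivial) le_rfl hc (k := k) (hk ▸ one_mem _))
    obtain ⟨K, hK, hKA, hKi⟩ := ih (G ⧸ R) (by
      rw [← R.index_eq_card, ← R.card_mul_index]
      exact lt_mul_of_one_lt_left (Nat.pos_of_ne_zero R.index_ne_zero_of_finite)
        (R.one_lt_card_iff_ne_bot.2 hR)) (hyp_quot hyp R hRp) ⟨H.map (QuotientGroup.mk' R), hH.map _, by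
      refine aut_of (le_normalizer_map _ ⟨x, hx, rfl⟩) le_rfl (fun hc => hx' fun h hh => ?_) (k := k)
        (by rw [← map_pow, hk, map_one]; exact one_mem _)
      have h1 : x * h * x⁻¹ * h⁻¹ ∈ R := by
        rw [← QuotientGroup.eq_one_iff]
        have := hc _ ⟨h, hh, rfl⟩
        simp only [QuotientGroup.mk'_apply] at this
        simp only [QuotientGroup.mk_mul, QuotientGroup.mk_inv]
        rw [← this]; group
      set r := x * h * x⁻¹ * h⁻¹ with hr
      have h2 : ∀ j : ℕ, x ^ j * h * (x ^ j)⁻¹ = r ^ j * h := by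
        intro j
        induction j with
        | zero => simp
        | succ j ih =>
          have h3 := hxR _ (R.pow_mem h1 j)
          calc x ^ (j + 1) * h * (x ^ (j + 1))⁻¹ = x * (x ^ j * h * (x ^ j)⁻¹) * x⁻¹ := by
                rw [pow_succ']; group
            _ = (x * r ^ j) * h * x⁻¹ := by rw [ih]; group
            _ = r ^ (j + 1) * h := by rw [← h3, pow_succ, hr]; group
      have h3 := h2 (q ^ k)
      rw [hk, one_mul, inv_one, mul_one, right_eq_mul] at h3
      obtain ⟨l, hl⟩ := hRp ⟨r, h1⟩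
      have h4 : r ∈ (⊥ : Subgroup G) := mem_of_coprime (hco.pow l k) (congrArg Subtype.val hl) h3
      have h5 : x * h * x⁻¹ * h⁻¹ = 1 := h4
      rw [mul_inv_eq_one, mul_inv_eq_iff_eq_mul] at h5
      exact h5.symm⟩
    have e := comap_normalizer_eq_of_surjective K (QuotientGroup.mk'_surjective R)
    refine ⟨K.comap (QuotientGroup.mk' R), hK.comap_of_ker_isPGroup _ (by rwa [QuotientGroup.ker_mk']), ?_,
      by rwa [← e, index_comap_of_surjective _ (QuotientGroup.mk'_surjective R)]⟩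
    obtain ⟨y, hy, hy', l, hl⟩ := exists_q hKA
    obtain ⟨y, rfl⟩ := QuotientGroup.mk_surjective y
    refine aut_of (D := (centralizer (K : Set (G ⧸ R))).comap (QuotientGroup.mk' R)) (e.le hy)
      (fun z hz w hw => ?_) hy' (k := l) (by rw [mem_comap, map_pow]; exact hl ▸ one_mem _)
    obtain ⟨w, rfl⟩ := QuotientGroup.mk_surjective w
    exact congrArg (QuotientGroup.mk' R) (hz w hw)
  let val : Subgroup G → ℕ := fun K => (Nat.card (normalizer (K : Set G))).factorization p
  obtain ⟨H₀, hH₀, hmax₀⟩ := Set.exists_max_image {K : Subgroup G | IsPGroup p K ∧ Aut q K} val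
    (Set.toFinite _) hex
  obtain ⟨H, ⟨⟨hH, hA⟩, hv⟩, hmax⟩ := Set.exists_max_image
    {K : Subgroup G | (IsPGroup p K ∧ Aut q K) ∧ val K = val H₀} (fun K => Nat.card K) (Set.toFinite _)
    ⟨H₀, hH₀, rfl⟩
  have hval : ∀ K : Subgroup G, IsPGroup p K → Aut q K → ∀ j, p ^ j ∣ Nat.card (normalizer (K : Set G)) →
      j ≤ val H := fun K h1 h2 j hj =>
    ((hp.out.pow_dvd_iff_le_factorization Nat.card_pos.ne').1 hj).trans (hv ▸ hmax₀ K ⟨h1, h2⟩)
  have hM : IsPSolvable p (normalizer (H : Set G)) := by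
    obtain ⟨P, hP⟩ := exists_sylIn p (normalizer (H : Set G))
    have hHP : H ≤ P := hP.le_of_normalized hH le_normalizer hP.le
    set X := H ⊔ centralizer (H : Set G) with hX
    have hNX : normalizer (H : Set G) ≤ normalizer (X : Set G) :=
      (le_inf le_rfl (normalizer_le_normalizer_centralizer H)).trans (normalizer_inf_normalizer_le_normalizer_sup _ _)
    have hXN : X ≤ normalizer (H : Set G) := sup_le le_normalizer (centralizer_le_normalizer _)
    have hP0 := hP.inf_normal_of_le hNX hXN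
    obtain ⟨x, hx, hx', k, hk⟩ := exists_q hA
    obtain ⟨n, hn, y, hy, e⟩ := hP0.frattini (hNX hx)
    have hxX : x ∉ X := by
      intro hc
      rw [hX, ← SetLike.mem_coe, coe_mul_of_left_le_normalizer_right _ _
        (le_normalizer.trans (normalizer_le_normalizer_centralizer H))] at hc
      obtain ⟨h, hh, c, hc, rfl⟩ := hc
      obtain ⟨l, hl⟩ := hH ⟨h, hh⟩
      have hl' : h ^ p ^ l = 1 := congrArg Subtype.val hl
      refine hx' (mem_of_coprime (hco.pow l k) ?_ (hk ▸ one_mem _))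
      have hcm : Commute h c := hc h hh
      rw [hcm.mul_pow, hl', one_mul]
      exact pow_mem hc _
    have hA0 : Aut q (P ⊓ X) := by
      refine aut_of (D := X) hy ((centralizer_le (show H ≤ P ⊓ X from le_inf hHP le_sup_left)).trans le_sup_right)
        (fun hc => hxX (e ▸ mul_mem hn hc)) (k := k) ?_
      have h1 := mul_pow_mem (inv_mem hn) (hNX hx) (q ^ k)
      rwa [hk, inv_one, mul_one, e, inv_mul_cancel_left] at h1
    have hv0 : val (P ⊓ X) = val H₀ := by
      refine le_antisymm (hmax₀ _ ⟨hP0.pgroup, hA0⟩) ?_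
      rw [← hv]
      refine (hp.out.pow_dvd_iff_le_factorization Nat.card_pos.ne').1 ?_
      rw [← hP.card_eq_pow_factorization]
      exact card_dvd_of_le ((le_inf le_normalizer (hP.le.trans hNX)).trans inf_normalizer_le_normalizer_inf)
    have hHe : H = P ⊓ X := eq_of_le_of_card_ge (le_inf hHP le_sup_left) (hmax _ ⟨⟨hP0.pgroup, hA0⟩, hv0⟩)
    rw [← hHe] at hP0
    have hn : (H.subgroupOf X).Normal := normal_subgroupOf_of_le_normalizer hXN
    have hXs : IsPSolvable p X := CL.IsPSolvable.of_normal_of_quotient (H.subgroupOf X)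
      (CL.isPSolvable_of_isPGroup hH.comap_subtype)
      (CL.isPSolvable_of_coprime ((Nat.Prime.coprime_iff_not_dvd hp.out).2 hP0.not_dvd_relIndex).symm)
    exact CL.IsPSolvable.of_normal_of_quotient _
      (CL.IsPSolvable.subgroupOf (CL.IsPSolvable.of_le hXs le_sup_right) _) (hyp H hH)
  obtain ⟨P, W, hP, hW0, hWP, hPW, y, hyH, hyW, hyC, k, hk⟩ := local_step h23 hH hA hM
  refine ⟨H, hH, hA, fun hd => ?_⟩
  have hHP : H ≤ P := hP.le_of_normalized hH le_normalizer hP.le
  set T := normalizer (W : Set G) with hT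
  have hT0 : T ≠ ⊤ := fun h => by
    have := normalizer_eq_top_iff.1 h
    exact hW0 (le_bot_iff.1 (hR ▸ CL.le_pCore (hP.pgroup.to_le hWP)))
  have hPT : P ≤ T := le_normalizer.trans hPW
  obtain ⟨K, hK, hKA, hKi⟩ := ih T (CL.card_lt_of_ne_top hT0) (hyp_sub hyp T)
    ⟨H.subgroupOf T, hH.comap_subtype, by
      refine aut_of (x := ⟨y, hyW⟩) (by rw [← subgroupOf_normalizer_eq (hHP.trans hPT)]; exact hyH) le_rfl
        (fun hc => hyC fun h hh => congrArg Subtype.val (hc ⟨h, hPT (hHP hh)⟩ hh)) (k := k) ?_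
      rw [show (⟨y, hyW⟩ : T) ^ q ^ k = 1 from Subtype.ext hk]
      exact one_mem _⟩
  have h1 : p ∣ P.relIndex T := by
    by_contra hc
    have h2 := (sylIn_of_not_dvd_relIndex hP.pgroup hPT hc).of_le
      (le_inf le_top le_normalizer : P ≤ ⊤ ⊓ normalizer (P : Set G)) (inf_le_right.trans hPW)
    apply h2.of_normalizer.not_dvd_relIndex
    rw [relIndex_top_right]
    exact hd.trans (index_dvd_of_le hP.le)
  have h2 : p ^ (val H + 1) ∣ Nat.card T := by
    rw [← (P.subgroupOf T).card_mul_index, pow_succ, Nat.card_congr (subgroupOfEquivOfLe hPT).toEquiv,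
      hP.card_eq_pow_factorization]
    exact Nat.mul_dvd_mul_left _ h1
  rw [← (normalizer (K : Set T)).card_mul_index] at h2
  have h3 := (((Nat.Prime.coprime_iff_not_dvd hp.out).2 hKi).pow_left _).dvd_of_dvd_mul_right h2
  have h4 := hval (K.map T.subtype) (hK.map _) (aut_map T.subtype_injective hKA) _
    (h3.trans (by rw [← card_subtype]; exact card_dvd_of_le (le_normalizer_map _)))
  omega

/-- Let p and q be distinct primes with {p, q} ≠ {2, 3}, and let G be a finite group such that for every p-subgroup H of G the automizer N_G(H)/C_G(H) is p-solvable. If q divides the order of N_G(H)/C_G(H) for some p-subgroup H, then a Sylow p-subgroup of G has a normal subgroup K (normal in the Sylow subgroup) such that q divides the order of N_G(K)/C_G(K). -/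
theorem result {G : Type*} [Group G] [Finite G]
    (p q : ℕ) [Fact p.Prime] [Fact q.Prime] (hpq : p ≠ q) (h23 : ¬ ((p = 2 ∧ q = 3) ∨ (p = 3 ∧ q = 2)))
    (hsol : ∀ H : Subgroup G, IsPGroup p ↥H →
      Cfsg.IsPSolvable p (↥(Subgroup.normalizer (H : Set G)) ⧸ (Subgroup.centralizer (H : Set G)).subgroupOf (Subgroup.normalizer (H : Set G))))
    (H : Subgroup G) (hH : IsPGroup p ↥H)
    (hq : q ∣ ((Subgroup.centralizer (H : Set G)).subgroupOf (Subgroup.normalizer (H : Set G))).index)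
    (Gp : Sylow p G) :
    ∃ K : Subgroup G, K ≤ (Gp : Subgroup G) ∧ (Gp : Subgroup G) ≤ Subgroup.normalizer (K : Set G) ∧
      q ∣ ((Subgroup.centralizer (K : Set G)).subgroupOf (Subgroup.normalizer (K : Set G))).index := by
  obtain ⟨K, hK, hKA, hKi⟩ := main p q hpq h23 G hsol ⟨H, hH, hq⟩
  obtain ⟨P, hP⟩ := exists_sylIn p (normalizer (K : Set G))
  have hP' : SylIn p P ⊤ := by
    refine sylIn_of_not_dvd_relIndex hP.pgroup le_top fun h => ?_
    rw [relIndex_top_right, ← relIndex_mul_index hP.le] at h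
    exact ((Nat.Prime.dvd_mul Fact.out).1 h).elim hP.not_dvd_relIndex hKi
  obtain ⟨x, -, hx⟩ := hP'.exists_conj (sylIn_top Gp)
  refine ⟨K.map (MulAut.conj x).toMonoidHom, ?_, ?_, aut_map (MulAut.conj x).injective hKA⟩
  · rw [← hx]
    exact map_mono (hP.le_of_normalized hK le_normalizer hP.le)
  · rw [← hx]
    exact (map_mono hP.le).trans (le_normalizer_map _)

end Cfsg.Agent.S4411
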