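import Cfsg.Statements.S2772
import Cfsg.Agent.TECH.AmalgamS3In
import Cfsg.Agent.S4411
import Cfsg.Agent.TECH.InvolveLift
import Cfsg.Agent.PLOC.PConstrained
import Mathlib.GroupTheory.SpecificGroups.ZGroup

set_option autoImplicit false
open Cfsg

namespace Cfsg.Agent.S2772

open Subgroup

theorem eq_or_eq {X : Type*} [Group X] {C K N : Subgroup X} (h : (C.relIndex N).Prime) (h1 : C ≤ K)
    (h2 : K ≤ N) : K = C ∨ K = N := by
  have e := relIndex_mul_relIndex C K N h1 h2
  rcases (Nat.dvd_prime h).1 (Dvd.intro _ e) with e1 | e1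
  · exact Or.inl (le_antisymm (relIndex_eq_one.1 e1) h1)
  · rw [e1] at e
    have : K.relIndex N = 1 := by
      have := h.pos
      nlinarith [Nat.eq_of_mul_eq_mul_left this (e.trans (mul_one _).symm)]
    exact Or.inr (le_antisymm h2 (relIndex_eq_one.1 this))

theorem index_sylow {X : Type*} [Group X] [Finite X] (S : Sylow 2 X) {q : ℕ} (hq : q.Prime)
    (hD : Nonempty (X ⧸ Cfsg.pCore 2 X ≃* DihedralGroup q)) :
    q ≠ 2 ∧ (S : Subgroup X).index = q ∧ ∃ n, Nat.card X = 2 ^ (n + 1) * q := by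
  obtain ⟨e⟩ := hD
  have : NeZero q := ⟨hq.ne_zero⟩
  have h1 : (Cfsg.pCore 2 X).index = 2 * q := by
    rw [index_eq_card, Nat.card_congr e.toEquiv, DihedralGroup.nat_card]
  obtain ⟨n, hn⟩ := IsPGroup.iff_card.1 (CL.MSS.oP_pCore_isPGroup (p := 2) (G := X))
  have h2 : Nat.card X = 2 ^ (n + 1) * q := by
    rw [← (Cfsg.pCore 2 X).card_mul_index, hn, h1]; ring
  have h3 : q ≠ 2 := by
    rintro rfl
    have hX : IsPGroup 2 X := IsPGroup.iff_card.2 ⟨n + 2, by rw [h2]; ring⟩
    have : Cfsg.pCore 2 X = ⊤ := top_le_iff.1 (CL.MSS.oP_le_pCore (hX.to_subgroup ⊤))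
    rw [this, index_top] at h1
    omega
  refine ⟨h3, ?_, n, h2⟩
  have h4 : Nat.card S = 2 ^ (n + 1) := by
    rw [S.card_eq_multiplicity, h2, Nat.factorization_mul (by positivity) hq.ne_zero,
      Nat.prime_two.factorization_pow, hq.factorization]
    simp [h3]
  have := (S : Subgroup X).card_mul_index
  rw [h4, h2] at this
  exact Nat.eq_of_mul_eq_mul_left (by positivity) this

/-- Sims' Theorem in local form: let H be a finite non-abelian simple group and G a maximal subgroup of H with C_G(O₂(G)) ≤ O₂(G), such that N_H(S) is not contained in G for a Sylow 2-subgroup S of G and G/O₂(G) is dihedral of order 2q for a prime q. Then G is isomorphic to the symmetric group of degree 4 or to its direct product with a group of order 2. -/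
theorem result {H : Type*} [Group H] [Finite H] [IsSimpleGroup H] (hna : ¬ IsMulCommutative H) (G : Subgroup H) (hG : IsCoatom G) (hchar : Subgroup.centralizer (Cfsg.pCore 2 ↥G : Set ↥G) ≤ Cfsg.pCore 2 ↥G) (S : Sylow 2 ↥G) (hN : ¬ Subgroup.normalizer (((S : Subgroup ↥G).map G.subtype : Subgroup H) : Set H) ≤ G) (q : ℕ) (hq : q.Prime) (hD : Nonempty (↥G ⧸ Cfsg.pCore 2 ↥G ≃* DihedralGroup q)) : Nonempty (↥G ≃* Equiv.Perm (Fin 4)) ∨ Nonempty (↥G ≃* Equiv.Perm (Fin 4) × Multiplicative (ZMod 2)) := by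
  have : Fact (Nat.Prime 2) := ⟨Nat.prime_two⟩
  obtain ⟨hq2, hidx, n, hcard⟩ := index_sylow S hq hD
  set T : Subgroup H := (S : Subgroup G).map G.subtype with hT
  obtain ⟨x, hx, hxG⟩ := SetLike.not_le_iff_exists.1 hN
  have sT : CL.MSS.SylIn 2 T G := CL.MSS.sylIn_map_subtype S
  have T0 : T ≠ ⊥ := sT.ne_bot (by rw [hcard]; exact Dvd.dvd.mul_right (dvd_pow_self 2 (by omega)) q)
  have key : ∀ U : Subgroup H, U ≤ G → G ≤ normalizer (U : Set H) → x ∈ normalizer (U : Set H) →
      U = ⊥ := by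
    intro U h1 h2 h3
    have : normalizer (U : Set H) = ⊤ := hG.2 _ (lt_of_le_of_ne h2 fun e => hxG (e ▸ h3))
    rcases (normalizer_eq_top_iff.1 this).eq_bot_or_eq_top with e | e
    · exact e
    · exact absurd (top_le_iff.1 (e ▸ h1)) hG.1
  have rT : T.relIndex G = q := by
    rw [relIndex, hT, subgroupOf, comap_map_eq_self_of_injective G.subtype_injective, hidx]
  have mx : ∀ K : Subgroup H, T ≤ K → K ≤ G → K = T ∨ K = G := fun K => eq_or_eq (rT ▸ hq)
  have TG : T ≠ G := fun e => by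
    rw [e, relIndex_self] at rT
    exact hq.one_lt.ne rT
  have aZ : ¬ G ≤ centralizer (CL.MSS.omegaZ 2 T : Set H) := fun e =>
    CL.Amalg.omegaCenter_ne_bot sT.pgroup T0 (key _ ((CL.MSS.omegaZ_le T).trans sT.le)
      (e.trans (CL.Amalg.centralizer_le_normalizer' _)) (CL.MSS.normalizer_le_normalizer_omegaZ T hx))
  by_cases h3 : q = 3
  · subst h3
    set P := G.map (MulAut.conj x).toMonoidHom with hP
    have eT : T.map (MulAut.conj x).toMonoidHom = T := CL.MSS.cj_eq_of_mem_normalizer hx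
    have sP : CL.MSS.SylIn 2 T P := by have := sT.cj x; rwa [eT] at this
    have nle : ¬ G ≤ P := fun e => by
      have h1 : P = G := CL.MSS.cj_eq_of_ge e
      exact T0 (eq_bot_iff.2 (sT.le.trans (key G le_rfl le_normalizer
        (mem_normalizer_iff_map_conj_eq.2 h1)).le))
    have eI : G ⊓ P = T := by
      rcases mx (G ⊓ P) (le_inf sT.le sP.le) inf_le_left with e | e
      · exact e
      · exact absurd (inf_eq_left.1 e) nle
    have eS : G ⊔ P = ⊤ := hG.2 _ (lt_of_le_of_ne le_sup_left fun e => by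
      have h1 : P = G := CL.MSS.cj_eq_of_le (le_sup_right.trans e.ge)
      exact nle h1.ge)
    obtain ⟨e⟩ := hD
    obtain ⟨e'⟩ := CL.MSS.perm_three_equiv_dihedral
    have q1 : CL.Amalg.IsS3Mod G := CL.Amalg.isS3Mod_of_equiv ⟨e.trans e'.symm⟩
    have c1 := CL.MSS.oP_charP_iff.1 hchar
    have hb : pCoreOf 2 (G ⊔ P) = ⊥ := by
      rw [eS, CL.MSS.oP_top]
      rcases (inferInstance : (Cfsg.pCore 2 H).Normal).eq_bot_or_eq_top with e | e
      · exact e
      · refine absurd (sT.eq_of_isPGroup ((CL.MSS.oP_pCore_isPGroup (p := 2) (G := H)).to_le ?_)) TG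
        rw [e]; exact le_top
    have := CL.Amalg.iso_of_active (P₁ := G) (P₂ := P) (by rwa [eI]) (by rwa [eI]) q1
      (q1.map_equiv _) hb c1
      (by rw [hP, ← CL.MSS.oP_cj, ← CL.MSS.cj_centralizer, ← CL.MSS.cj_inf]
          exact CL.MSS.cj_mono x c1)
      (by rwa [eI])
      (by rw [eI, ← eT, ← CL.MSS.cj_omegaZ, ← CL.MSS.cj_centralizer, hP, CL.MSS.cj_le_cj_iff]
          exact aZ)
    rcases this.2.2 with h | h
    · exact Or.inl h.1
    · exact Or.inr h.1
  exfalso
  have : Fact q.Prime := ⟨hq⟩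
  have : NeZero q := ⟨hq.ne_zero⟩
  have hs : IsPSolvable 2 G := by
    refine CL.IsPSolvable.of_normal_of_quotient (Cfsg.pCore 2 G)
      (CL.isPSolvable_of_isPGroup CL.MSS.oP_pCore_isPGroup) ?_
    obtain ⟨e⟩ := hD
    have : IsZGroup (G ⧸ Cfsg.pCore 2 G) := IsZGroup.of_squarefree (by
      rw [Nat.card_congr e.toEquiv, DihedralGroup.nat_card]
      exact (Nat.squarefree_mul ((Nat.coprime_primes Nat.prime_two hq).2 hq2.symm)).2
        ⟨Nat.prime_two.squarefree, hq.squarefree⟩)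
    exact CL.isPSolvable_of_isSolvable 2 _
  have hF := Cfsg.Agent.S4411.factorizable (p := 2) (q := q) (G := G) (by omega) hs (by
    intro r hr h
    rw [hcard] at h
    rcases (Nat.Prime.dvd_mul hr).1 h with h | h
    · exact Or.inl ((Nat.prime_dvd_prime_iff_eq hr Nat.prime_two).1 (hr.dvd_of_dvd_pow h))
    · exact Or.inr ((Nat.prime_dvd_prime_iff_eq hr hq).1 h))
  have eC : G ⊓ centralizer (CL.MSS.omegaZ 2 T : Set H) = T :=
    (mx _ (le_inf sT.le (CL.MSS.le_centralizer_omegaZ T)) inf_le_left).resolve_right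
      fun e => aZ (inf_eq_left.1 e)
  have eN : G ⊓ normalizer (thompsonSubgroupOf 2 T : Set H) = T :=
    (mx _ (le_inf sT.le (CL.Th.le_normalizer_thompsonSubgroupOf T)) inf_le_left).resolve_right
      fun e => CL.Th.thompsonSubgroupOf_ne_bot_of_isPGroup sT.pgroup T0
        (key _ ((CL.Th.thompsonSubgroupOf_le T).trans sT.le) (inf_eq_left.1 e)
          (CL.Th.normalizer_le_normalizer_thompsonSubgroupOf T hx))
  refine TG (le_antisymm sT.le fun g hg => ?_)
  obtain ⟨y, hy, c, hc, m, hm, e⟩ := hF S ⟨g, hg⟩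
  rw [CL.PC.pPrimeCore_eq_bot_of_charP hchar, mem_bot] at hy
  have e' : g = c * m := by
    have := congrArg Subtype.val e
    simpa [hy] using this
  rw [e']
  refine mul_mem ?_ ?_
  · rw [← eC]
    refine mem_inf.2 ⟨c.2, fun z hz => ?_⟩
    obtain ⟨h1, h2, h3⟩ := CL.MSS.mem_omegaZ_iff.1 hz
    obtain ⟨w, hw, rfl⟩ := h1
    exact congrArg Subtype.val (hc w (CL.MSS.mem_omegaZ_iff.2
      ⟨hw, fun t ht => Subtype.ext (h2 t ⟨t, ht, rfl⟩), Subtype.ext h3⟩))
  · rw [← eN]
    refine mem_inf.2 ⟨m.2, ?_⟩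
    rw [hT, ← CL.Th.map_thompsonSubgroupOf _ G.subtype_injective]
    exact le_normalizer_map G.subtype ⟨m, hm, rfl⟩

end Cfsg.Agent.S2772
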