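import Cfsg.Statements.S2982
import Cfsg.Agent.TECH.BHS29

set_option autoImplicit false
open Cfsg

namespace Cfsg.Agent.S2982

open Subgroup CL.MSS CL.BHS

/-- Pushing up for minimal parabolic groups. Let G be a finite p-minimal group (a Sylow p-subgroup T is not normal and lies in exactly one maximal subgroup) of characteristic p (C_G(O_p(G)) ≤ O_p(G)). Suppose that no nontrivial characteristic subgroup of the Baumann subgroup B(T) is normal in G and that Ω₁(Z(T)) is not normal in G. Then G has a set of B(T)-blocks with the block structure of the local C*(G,T)-Theorem, every block E with E/O_p(E) alternating of degree 2m+1 (p = 2) has 2m+1 = 2ⁿ+1, and C*(G,T) = (C*(G,T) ∩ ⟨blocks⟩)·T. -/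
theorem result {G : Type*} [Group G] [Finite G] {p : ℕ} [Fact p.Prime] (hmin : Cfsg.IsPMinimal p G) (hG : Subgroup.centralizer (Cfsg.pCore p G : Set G) ≤ Cfsg.pCore p G) (T : Sylow p G) (hchar : ∀ C : Subgroup G, C ≤ Cfsg.baumannSubgroupOf p (T : Subgroup G) → C ≠ ⊥ → (C.subgroupOf (Cfsg.baumannSubgroupOf p (T : Subgroup G))).Characteristic → ¬ C.Normal) (hz : ¬ (Cfsg.omegaOneCenter p (T : Subgroup G)).Normal) : ∃ 𝓑 : Set (Subgroup G), Cfsg.HasBaumannBlockStructure p (T : Subgroup G) 𝓑 ∧ (∀ E ∈ 𝓑, ∀ m : ℕ, Nonempty (↥E ⧸ Cfsg.pCore p ↥E ≃* ↥(alternatingGroup (Fin (2 * m + 1)))) → ∃ n : ℕ, 2 * m + 1 = 2 ^ n + 1) ∧ Cfsg.cStarOf p (T : Subgroup G) = (Cfsg.cStarOf p (T : Subgroup G) ⊓ sSup 𝓑) ⊔ (T : Subgroup G) := by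
  obtain ⟨-, M, u⟩ := (isPMinimal_iff_top T).1 hmin
  have hT := sylIn_top T
  have cs : cStarOf p (T : Subgroup G) ≤ M := by
    refine sup_le (u.max _ (cent_symm (oz_cent _)) (lt_top_iff_ne_top.2 fun e => hz
      (normalizer_eq_top_iff.1 (top_le_iff.1 (e.ge.trans (cent_le_norm le_rfl))))))
      (iSup_le fun ⟨C, a, b, c⟩ => u.max _ ?_ (lt_top_iff_ne_top.2 fun e => hchar C a b c
        (normalizer_eq_top_iff.1 e)))
    have := CL.BlkTr.char_of_baumann a c
    exact (normal_subgroupOf_iff_le_normalizer (a.trans inf_le_left)).1 inferInstance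
  have h := (St.mk hG hT cs u.lt.ne).cstar
  have := h.str.normal h.bt hT
  refine ⟨_, h.structure, fun E a m ⟨e⟩ => ?_, ?_⟩
  · rcases (h.str.desc E a).pow e with ⟨n, e⟩ | ⟨rfl, o⟩
    · exact ⟨n, by rw [e]⟩
    · exact (h.not_orb_min ⟨fun e => h.ne (top_le_iff.1 e), M, u⟩ (CL.BHB.blk_oU a.1) o).elim
  · rw [sup_comm, ← inf_sup_of_normalizes h.TM le_normalizer_of_normal,
      (u.le_or_eq le_sup_left le_top).resolve_left fun k =>
        u.lt.not_ge (h.str.gen.ge.trans (sup_le cs (le_sup_right.trans k))), inf_top_eq]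

end Cfsg.Agent.S2982
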