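import Cfsg.Statements.S2774
import Cfsg.Agent.TECH.BlockTr
import Cfsg.Agent.TECH.CFMinTr
import Cfsg.Agent.S2982

set_option autoImplicit false
open Cfsg

namespace Cfsg.Agent.S2774

section
open Subgroup CL CL.MSS CL.CF CL.Push CL.BlkTr
open scoped commutatorElement

universe u

theorem top_mem (p : ℕ) : IsCharPFunctor.{u} p (fun _ _ => ⊤) :=
  ⟨fun _ _ _ _ _ => top_ne_bot, fun _ _ _ _ _ _ φ => map_top_of_surjective _ φ.surjective⟩

theorem gTr_all {G : Type u} [Group G] [Finite G] {p : ℕ} [Fact p.Prime] (hp : p ≠ 2) :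
    GTr p {W | IsCharPFunctor.{u} p W} G := by
  set 𝓦 : Set (∀ (Q : Type u) [Group Q], Subgroup Q) := {W | IsCharPFunctor.{u} p W} with h𝓦
  have hW : ∀ W ∈ 𝓦, IsCharPFunctor.{u} p W := fun _ h => h
  refine (sec_induction' (Φ := fun _ _ => True) (Ψ := fun H _ => GTr p 𝓦 H) (fun _ _ _ => trivial)
    fun H _ _ _ ih => ?_).self
  by_contra hc
  obtain ⟨T, hT⟩ := exists_sylIn p (⊤ : Subgroup H)
  obtain ⟨hcon, ⟨h1, h2⟩, -⟩ := min_counter_tr hW ⟨_, top_mem p⟩ ih hc hT rfl rfl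
  set M := normalizer ((focJoin (nrm (iFam 𝓦 H) ⊤ T) T ⊓ pCore p H : Subgroup H) : Set H)
  have nn : ∀ W ∈ 𝓦, ¬ (inducedFunctor W T).Normal := fun W hm h =>
    hc ((gFus_of_normal hW hm hT h).gTr hW)
  have n1 : ¬ T.Normal := fun h => nn _ (top_mem p) (by
    rwa [inducedFunctor, ← MonoidHom.range_eq_map, range_subtype])
  have n2 : NoChar T := fun U h0 hU h => by
    obtain ⟨W, k1, k2⟩ := exists_functor (p := p) U h0
    exact nn W k1 (by rwa [inducedFunctor, k2])
  have n3 : T ≠ ⊥ := fun h => n1 (h ▸ inferInstance)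
  have hM : UniqMax p T M := ⟨hT, h2, h1, h2 T le_rfl fun h => n1 (h ▸ inferInstance)⟩
  obtain ⟨𝓑, hB, -⟩ := S2982.result (isPMinimal hM n1) hcon hT.toSylowTop
    (fun C k1 k2 k3 => not_normal_of_noChar n2 (k1.trans inf_le_left) k2 (char_of_baumann k1 k3))
    (omegaZ_not_normal hT.pgroup n3 n2)
  have k := inf_comm_le hp hM (cStar_le hM n3 n2) hB
  refine hc ((famTr_iff (iFam_isCF hW) hT).2 ((le_inf inf_le_left k).trans ?_))
  exact (ih.sub h1).trCtl hW (hT.of_le hM.le le_top)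

end
open Subgroup CL CL.MSS CL.CF

/-- Let p be an odd prime and S a nontrivial Sylow p-subgroup of a finite group G. Then S ∩ G' is generated by the subgroups S ∩ (N_G(K))' as K ranges over the nontrivial characteristic subgroups of S (derived subgroups of the normalizers). -/
theorem result {G : Type*} [Group G] [Finite G] {p : ℕ} [Fact p.Prime] (hp : p ≠ 2) (S : Sylow p G) (hS : (S : Subgroup G) ≠ ⊥) : (S : Subgroup G) ⊓ commutator G = ⨆ K : {K : Subgroup ↥(S : Subgroup G) // K ≠ ⊥ ∧ K.Characteristic}, (S : Subgroup G) ⊓ ⁅Subgroup.normalizer ((((K : Subgroup ↥(S : Subgroup G))).map (S : Subgroup G).subtype : Subgroup G) : Set G), Subgroup.normalizer ((((K : Subgroup ↥(S : Subgroup G))).map (S : Subgroup G).subtype : Subgroup G) : Set G)⁆ := by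
  have hW : ∀ W ∈ {W | IsCharPFunctor p W}, IsCharPFunctor p W := fun _ h => h
  refine le_antisymm ?_ (iSup_le fun K => inf_le_inf_left _ (commutator_mono le_top le_top))
  have k0 : TrCtl _ (S : Subgroup G) ⊤ :=
    (famTr_iff (iFam_isCF hW) (sylIn_top S)).1 (gTr_all (G := G) hp)
  refine le_trans k0 (focJoin_le_iff.2 ?_)
  intro N hN
  obtain ⟨W, k1, rfl⟩ := mem_nrm_iFam.1 hN
  haveI : Nontrivial (S : Subgroup G) := (nontrivial_iff_ne_bot _).2 hS
  rw [top_inf_eq]
  let K : {K : Subgroup ↥(S : Subgroup G) // K ≠ ⊥ ∧ K.Characteristic} :=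
    ⟨W _, k1.1 _ S.isPGroup' inferInstance,
      characteristic_iff_map_eq.2 fun φ => k1.2 _ _ S.isPGroup' φ⟩
  exact le_iSup_of_le K le_rfl

end Cfsg.Agent.S2774
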