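import Cfsg.Statements.S2896
import Cfsg.Agent.TECH.ParChar

set_option autoImplicit false
open Cfsg

namespace Cfsg.Agent.S2896

open CL.MSS Subgroup CL.Comp

/-- Let p be a prime dividing the order of the finite group G, S a Sylow p-subgroup of G and X a subgroup of S. (i) If some nontrivial element z of the centre of X has F*(C_G(z)) = O_p(C_G(z)), then F*(N_G(X)) = O_p(N_G(X)). (ii) G has parabolic characteristic p if and only if F*(C_G(z)) = O_p(C_G(z)) for every nontrivial z ∈ Ω₁(Z(S)). (iii) If F*(C_G(z)) = O_p(C_G(z)) for every element z of S of order p, then G has local characteristic p. -/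
theorem result {G : Type*} [Group G] [Finite G] {p : ℕ} [Fact p.Prime] (hdiv : p ∣ Nat.card G) (S : Sylow p G) (X : Subgroup G) (hX : X ≤ (S : Subgroup G)) : (∀ z : G, z ≠ 1 → z ∈ X → (∀ x ∈ X, x * z = z * x) → Cfsg.generalizedFittingSubgroup ↥(Subgroup.centralizer ({z} : Set G)) = Cfsg.pCore p ↥(Subgroup.centralizer ({z} : Set G)) → Cfsg.generalizedFittingSubgroup ↥(Subgroup.normalizer (X : Set G)) = Cfsg.pCore p ↥(Subgroup.normalizer (X : Set G))) ∧ (Cfsg.IsOfParabolicCharacteristic p G ↔ ∀ z : G, z ≠ 1 → z ∈ Cfsg.omegaOne p ((S : Subgroup G) ⊓ Subgroup.centralizer ((S : Subgroup G) : Set G)) → Cfsg.generalizedFittingSubgroup ↥(Subgroup.centralizer ({z} : Set G)) = Cfsg.pCore p ↥(Subgroup.centralizer ({z} : Set G))) ∧ ((∀ z : G, z ∈ (S : Subgroup G) → orderOf z = p → Cfsg.generalizedFittingSubgroup ↥(Subgroup.centralizer ({z} : Set G)) = Cfsg.pCore p ↥(Subgroup.centralizer ({z} : Set G))) → Cfsg.IsOfLocalCharacteristic p G) := by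
  simp only [fstar_eq_pCore_iff_isPGroup_fstarOf]
  refine ⟨fun z _ hz _ h => isPGroup_fstarOf_normalizer_of_elem (S.isPGroup'.to_le hX) hz h,
    parabolicChar_iff (sylIn_top S), fun h => ⟨hdiv, fun R hR hR1 => ?_⟩⟩
  rw [charP_iff_isPGroup_fstarOf]
  obtain ⟨z, h1, h2, h3⟩ := exists_mem_pow_eq_one hR hR1
  obtain ⟨g, -, hg⟩ := (sylIn_top S).exists_conj_le hR le_top
  have h4 := h (g * z * g⁻¹) (hg (conj_mem_cj h1)) (orderOf_eq_prime
    (by rw [conj_pow, h3, mul_one, mul_inv_cancel]) (by simpa using h2))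
  rw [← cj_centralizer_singleton] at h4
  have h5 := isPGroup_fstarOf_cj h4 g⁻¹
  rw [inv_cj_cj] at h5
  exact isPGroup_fstarOf_normalizer_of_elem hR h1 h5

end Cfsg.Agent.S2896
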