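import Cfsg.Statements.S2898
import Cfsg.Agent.TECH.ParChar

set_option autoImplicit false
open Cfsg

namespace Cfsg.Agent.S2898

open CL.MSS Subgroup CL.Comp
open scoped commutatorElement

/-- Let G be a finite group of even order with parabolic characteristic 2. If the centre of G ⧸ O(G) is trivial, then O(G) = 1. -/
theorem result {G : Type*} [Group G] [Finite G] (h2 : 2 ∣ Nat.card G) (hG : Cfsg.IsOfParabolicCharacteristic 2 G) [hN : (Cfsg.oddCore G).Normal] (hZ : Subgroup.center (G ⧸ Cfsg.oddCore G) = ⊥) : Cfsg.oddCore G = ⊥ := by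
  obtain ⟨S⟩ : Nonempty (Sylow 2 G) := inferInstance
  have hS := sylIn_top S
  set O := Cfsg.oddCore G with hO
  have hc : (Nat.card O).Coprime 2 := CL.coprime_card_pPrimeCore 2 G
  have key : ∀ z : G, z ≠ 1 → z ∈ omegaZ 2 (S : Subgroup G) → O ⊓ centralizer ({z} : Set G) = ⊥ :=
    fun z h1 h2 => eq_bot_of_coprime_of_fstarOf ((parabolicChar_iff hS).1 hG z h1 h2) inf_le_right
      (le_normalizer_inf le_normalizer_of_normal le_normalizer)
      (Nat.Coprime.coprime_dvd_left (card_dvd_of_le inf_le_left) hc)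
  by_cases h : (S : Subgroup G) ⊓ centralizer (O : Set G) = ⊥
  · exfalso
    have hCO : centralizer (O : Set G) ≤ O := by
      refine CL.le_pPrimeCore ?_
      have := sylIn_inf_normal S (centralizer (O : Set G))
      rw [h] at this
      exact ((Nat.Prime.coprime_iff_not_dvd Nat.prime_two).2 (not_dvd_card_of_sylIn_bot this)).symm
    obtain ⟨z, -, h1, h2⟩ := exists_mem_omegaZ S.isPGroup' le_rfl le_normalizer
      (hS.ne_bot (by rwa [card_top]))
    have h3 := key z h1 h2
    have hz2 : z * z = 1 := by rw [← sq]; exact (mem_omegaZ_iff.1 h2).2.2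
    have hfp : MonoidHom.FixedPointFree (MulAut.conjNormal (H := O) z) := by
      intro x hx
      have e : z * x * z⁻¹ = x := congrArg Subtype.val hx
      have : (x : G) ∈ O ⊓ centralizer ({z} : Set G) :=
        mem_inf.2 ⟨x.2, mem_centralizer_singleton_iff.2 (by rw [← mul_inv_eq_iff_eq_mul.1 e])⟩
      rw [h3] at this
      exact Subtype.ext (mem_bot.1 this)
    have hinv := hfp.coe_eq_inv_of_involutive (fun x => by
      rw [← MulAut.mul_apply, ← map_mul, hz2, map_one, MulAut.one_apply])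
    have h4 : ∀ x ∈ O, z * x * z⁻¹ = x⁻¹ := fun x hx => congrArg Subtype.val (congrFun hinv ⟨x, hx⟩)
    have h5 : (QuotientGroup.mk z : G ⧸ O) ∈ center (G ⧸ O) := by
      rw [mem_center_iff]
      intro g
      obtain ⟨g, rfl⟩ := QuotientGroup.mk_surjective g
      rw [← QuotientGroup.mk_mul, ← QuotientGroup.mk_mul, QuotientGroup.eq]
      refine hCO fun x hx => ?_
      have e1 := h4 _ (hN.conj_mem _ hx g)
      have e2 := h4 _ (hN.conj_mem _ (inv_mem hx) z⁻¹)
      have e3 : z⁻¹ * x⁻¹ * z = x := by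
        have := h4 _ hx
        rw [← this]; group
      calc x * ((g * z)⁻¹ * (z * g)) = (z⁻¹ * x⁻¹ * z) * ((g * z)⁻¹ * (z * g)) := by rw [e3]
        _ = z⁻¹ * g⁻¹ * (g * x * g⁻¹)⁻¹ * z * g := by group
        _ = (g * z)⁻¹ * (z * g) * x := by rw [← e1]; group
    rw [hZ, mem_bot, QuotientGroup.eq_one_iff] at h5
    have : z ∈ O ⊓ centralizer ({z} : Set G) := mem_inf.2 ⟨h5, mem_centralizer_singleton_iff.2 rfl⟩
    rw [h3] at this
    exact h1 (mem_bot.1 this)
  · obtain ⟨z, h0, h1, h2⟩ := exists_mem_omegaZ S.isPGroup' inf_le_left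
      (le_normalizer_inf le_normalizer le_normalizer_of_normal) h
    rw [← key z h1 h2, eq_comm, inf_eq_left]
    exact fun x hx => mem_centralizer_singleton_iff.2 (h0.2 x hx)

end Cfsg.Agent.S2898
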