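import Cfsg.Statements.S2905
import Cfsg.Agent.TECH.PMin

set_option autoImplicit false
open Cfsg

namespace Cfsg.Agent.S2905

open CL.MSS Subgroup

/-- Let P be a finite p-minimal group (a Sylow p-subgroup S is not normal and lies in a unique maximal subgroup M of P) and let F be the normal core of M. Then: every subnormal subgroup N of P contained in M satisfies N ∩ S ≤ O_p(P); if O^p(P) has a normal Sylow p-subgroup then the order of P has at most two prime divisors; every normal subgroup N of P either contains O^p(P) or is contained in F; and O^p(P)F ⧸ F is a minimal normal subgroup of P ⧸ F. -/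
theorem result {P : Type*} [Group P] [Finite P] {p : ℕ} [Fact p.Prime] (hP : Cfsg.IsPMinimal p P) (S : Sylow p P) (M : Subgroup P) (hM : IsCoatom M) (hSM : (S : Subgroup P) ≤ M) [hF : M.normalCore.Normal] : (∀ N : Subgroup P, N.IsSubnormal → N ≤ M → N ⊓ (S : Subgroup P) ≤ Cfsg.pCore p P) ∧ ((∀ T : Sylow p ↥(Cfsg.pResidual p P), (T : Subgroup ↥(Cfsg.pResidual p P)).Normal) → (Nat.card P).primeFactors.card ≤ 2) ∧ (∀ N : Subgroup P, N.Normal → Cfsg.pResidual p P ≤ N ∨ N ≤ M.normalCore) ∧ (∀ N : Subgroup P, N.Normal → M.normalCore ≤ N → N ≤ Cfsg.pResidual p P ⊔ M.normalCore → N = M.normalCore ∨ N = Cfsg.pResidual p P ⊔ M.normalCore) ∧ M.normalCore < Cfsg.pResidual p P ⊔ M.normalCore := by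
  have hS := sylIn_top S
  have h := uniqMax_of_existsUnique (hP S).2 hM hSM
  have hK : (Cfsg.pResidual p P).Normal := pres_normal
  have h1 : ¬ Cfsg.pResidual p P ≤ M := presOf_top (p := p) (G := P) ▸ h.not_presOf_le hS
  have h3 : ∀ N : Subgroup P, N.Normal → Cfsg.pResidual p P ≤ N ∨ N ≤ M.normalCore := by
    intro N hN
    rw [normal_le_normalCore, or_iff_not_imp_right, ← presOf_top]
    exact h.presOf_le_of_not_le hS.pgroup le_top le_normalizer_of_normal
  refine ⟨fun N hN hNM => ?_, fun hT => ?_, h3, fun N hN h4 h5 => ?_, ?_⟩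
  · rw [inf_comm, ← pcoreOf_top]
    exact h.inf_le_pcoreOf_of_snIn hS (CL.SnIn.top_iff.2 hN) hNM
  · set K := Cfsg.pResidual p P
    set T := (S : Subgroup P) ⊓ K
    have h4 : SylIn p T K := sylIn_inf_normal S K
    have h5 : K ≤ normalizer (T : Set P) := (normal_subgroupOf_iff_le_normalizer h4.le).1 (hT h4.toSylow)
    have h6 : T.Normal := by
      rw [← normalizer_eq_top_iff, eq_top_iff, ← sylow_sup_pres S]
      exact sup_le (le_normalizer_inf le_normalizer le_normalizer_of_normal) h5
    set f := QuotientGroup.mk' T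
    have hf : Function.Surjective f := QuotientGroup.mk'_surjective T
    have hker : f.ker ≤ M := by rw [QuotientGroup.ker_mk']; exact inf_le_left.trans hSM
    have h7 := h.map f (inf_le_right.trans hker)
    have h8 := h4.map f
    rw [(Subgroup.map_eq_bot_iff _).2 (QuotientGroup.ker_mk' T).ge] at h8
    have : (K.map f).Normal := hK.map f hf
    obtain ⟨q, _, Q, hQ, hn, e⟩ := h7.exists_sylIn_sup (S.isPGroup'.map f) (map_mono le_top)
      le_normalizer_of_normal (coprime_card_of_sylIn_bot h8)
      (fun h9 => h1 (by rwa [Subgroup.map_le_map_iff, sup_of_le_left hker] at h9))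
    rw [map_top_of_surjective _ hf] at e
    have h9 : (Nat.card P).primeFactors ⊆ {p, q} := by
      intro r hr
      have hr' := Nat.prime_of_mem_primeFactors hr
      have h10 := Nat.dvd_of_mem_primeFactors hr
      obtain ⟨a, ha⟩ := IsPGroup.iff_card.1 h4.pgroup
      obtain ⟨b, hb⟩ := IsPGroup.iff_card.1 (S.isPGroup'.map f)
      obtain ⟨c, hc⟩ := IsPGroup.iff_card.1 hQ.pgroup
      have hQn : Q.Normal := by
        rw [← normalizer_eq_top_iff, eq_top_iff, ← e]; exact sup_le hn le_normalizer
      have h11 : Q.index ∣ p ^ b := by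
        rw [← hb, ← relIndex_top_right, ← e, relIndex_sup_right]
        exact relIndex_dvd_card _ _
      rw [← T.index_mul_card, index_eq_card, ← Q.index_mul_card, ha, hc] at h10
      have key : ∀ {s n : ℕ}, s.Prime → r ∣ s ^ n → r = s := fun hs h =>
        (Nat.prime_dvd_prime_iff_eq hr' hs).1 (hr'.dvd_of_dvd_pow h)
      rw [Finset.mem_insert, Finset.mem_singleton]
      rcases (hr'.dvd_mul.1 h10) with h12 | h12
      · rcases (hr'.dvd_mul.1 h12) with h12 | h12
        · exact Or.inl (key Fact.out (h12.trans h11))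
        · exact Or.inr (key Fact.out h12)
      · exact Or.inl (key Fact.out h12)
    exact (Finset.card_le_card h9).trans Finset.card_le_two
  · exact ((h3 N hN).imp (fun h6 => le_antisymm h5 (sup_le h6 h4)) fun h6 => le_antisymm h6 h4).symm
  · exact lt_of_le_not_ge le_sup_right fun h4 => h1 (le_sup_left.trans (h4.trans (normalCore_le M)))

end Cfsg.Agent.S2905
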