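import Cfsg.Statements.S2906
import Cfsg.Agent.TECH.PMin
import Cfsg.Agent.TECH.WielJoin

set_option autoImplicit false
open Cfsg

namespace Cfsg.Agent.S2906

open CL.MSS Subgroup CL.Comp

/-- Let P be a finite p-minimal group with O_p(P) = 1, S a Sylow p-subgroup of P and K a component of P. Then O^p(P) = F*(P) = E(P) is generated by the S-conjugates of K, and the subgroup K·N_S(K) is again p-minimal. -/
theorem result {P : Type*} [Group P] [Finite P] {p : ℕ} [Fact p.Prime] (hP : Cfsg.IsPMinimal p P) (hOp : Cfsg.pCore p P = ⊥) (S : Sylow p P) (K : Subgroup P) (hK : Cfsg.IsComponent K) : Cfsg.pResidual p P = Cfsg.generalizedFittingSubgroup P ∧ Cfsg.generalizedFittingSubgroup P = Cfsg.layer P ∧ Cfsg.layer P = ⨆ s : ↥(S : Subgroup P), K.map (MulAut.conj (s : P)).toMonoidHom ∧ Cfsg.IsPMinimal p ↥(K ⊔ ((S : Subgroup P) ⊓ Subgroup.normalizer (K : Set P))) := by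
  have hS := sylIn_top S
  obtain ⟨hSn, M, h⟩ := (isPMinimal_iff_top S).1 hP
  have hO : Cfsg.pCoreOf p (⊤ : Subgroup P) = ⊥ := pcoreOf_top.trans hOp
  have hKM : ¬ K ≤ M := by
    intro h1
    obtain ⟨F, h2, h3, h4⟩ := h.snIn_le_core (CL.SnIn.top_iff.2 hK.isSubnormal) h1
    have h5 := hS.inf_normal_of_le h4 le_top
    rw [le_bot_iff.1 ((h.inf_le_pcoreOf hS h3 h4).trans hO.le)] at h5
    have := h.isNilpotent_of_coprime hS.pgroup h3 h4 (coprime_card_of_sylIn_bot h5)
    exact hK.not_le_of_isSolvable inferInstance h2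
  have key : ∀ Y : Subgroup P, ¬ Y ≤ M → Cfsg.pResidual p P ≤ ncl Y S := fun Y hY => by
    rw [← presOf_top]
    exact h.presOf_le_of_not_le hS.pgroup le_top (ncl_normal _ _) fun h1 => hY ((le_ncl _ _).trans h1)
  have h1 : ncl K S ≤ Cfsg.layer P := ncl_le hK.le_layer le_normalizer_of_normal
  have hF : (Nat.card (Cfsg.fittingSubgroup P)).Coprime p :=
    coprime_card_of_forall_isPGroup fun _ h hP => eq_bot_of_le_fitting hOp hP h
  have h2 : Cfsg.generalizedFittingSubgroup P ≤ Cfsg.pResidual p P := by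
    rw [CL.Comp.fstar_def]
    refine sup_le (CL.Comp.layer_le_iff.2 fun L hL => ?_) fun x hx => mem_pres ?_
    · exact (perfect_le_presOf (p := p) hL.commutator_self).trans
        ((presOf_mono le_top).trans presOf_top.le)
    · exact Nat.Coprime.coprime_dvd_left (orderOf_dvd_natCard _ hx) hF
  have h3 := key K hKM
  refine ⟨le_antisymm (h3.trans (h1.trans layer_le_fstar)) h2,
    le_antisymm (h2.trans (h3.trans h1)) layer_le_fstar,
    le_antisymm (layer_le_fstar.trans (h2.trans h3)) h1, ?_⟩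
  set S₀ := (S : Subgroup P) ⊓ normalizer (K : Set P) with hS₀
  have hSK := sylIn_inf_subnormal hS hK.isSubnormal
  have hSK0 : (S : Subgroup P) ⊓ K ≤ S₀ := inf_le_inf_left _ le_normalizer
  have hp0 : IsPGroup p S₀ := hS.pgroup.to_le inf_le_left
  have h4 : SylIn p S₀ (K ⊔ S₀) := by
    have := (sylIn_self hp0).sup_of_normalizes hSK inf_le_right (by rwa [sup_of_le_left hSK0])
    rwa [sup_of_le_left hSK0, sup_comm] at this
  have hKp : K ≤ Cfsg.pResidual p P := hK.le_fstar.trans h2
  have hcomp : ∀ Y : Subgroup P, Y ≤ K → S₀ ≤ normalizer (Y : Set P) → ¬ Y ≤ M → Y = K := by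
    intro Y hYK hn hY
    have h5 : ncl Y S ≤ Y ⊔ centralizer (K : Set P) := by
      rw [ncl_le_iff]
      intro s hs
      by_cases h6 : s ∈ normalizer (K : Set P)
      · rw [cj_eq_of_mem_normalizer (hn (mem_inf.2 ⟨hs, h6⟩))]; exact le_sup_left
      · exact le_sup_of_le_right ((cj_mono s hYK).trans (le_centralizer_iff.1
          (commutator_eq_bot_iff_le_centralizer.1 (hK.commutator_conj_eq_bot h6))))
    have h6 : K ≤ Y ⊔ (K ⊓ centralizer (K : Set P)) := by
      rw [← inf_sup_of_normalizes hYK (hYK.trans (le_normalizer_centralizer le_normalizer))]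
      exact le_inf le_rfl (hKp.trans ((key Y hY).trans h5))
    exact le_antisymm hYK (perfect_le_of_le_sup_central hK.commutator_self h6
      (inf_le_right.trans (centralizer_le (sup_le hYK inf_le_left))))
  refine (isPMinimal_iff h4).2 ⟨fun h5 => ?_, (K ⊔ S₀) ⊓ M, le_inf le_sup_right
    (inf_le_left.trans h.le), lt_of_le_not_ge inf_le_left
      fun h5 => hKM (le_sup_left.trans (h5.trans inf_le_right)), fun X h5 h6 => le_inf h6.le ?_⟩
  · have h6 : K ≤ normalizer (((S : Subgroup P) ⊓ K : Subgroup P) : Set P) := by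
      have : (S : Subgroup P) ⊓ K = S₀ ⊓ K :=
        le_antisymm (le_inf hSK0 inf_le_right) (inf_le_inf_right _ inf_le_left)
      rw [this]
      exact le_normalizer_inf (le_sup_left.trans h5) le_normalizer
    have h7 : (S : Subgroup P) ⊓ K = ⊥ := le_bot_iff.1 (hOp ▸ le_pcore_of_subnormal
      ((CL.SnIn.of_le_normalizer inf_le_right h6).isSubnormal hK.isSubnormal) hSK.pgroup)
    rw [h7] at hSK
    have h8 : K ≤ Cfsg.pPrimeCore p P :=
      CL.le_pPrimeCore_of_isSubnormal hK.isSubnormal (coprime_card_of_sylIn_bot hSK)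
    obtain ⟨q, _, Q, hQ, hn, e⟩ := h.exists_sylIn_sup hS.pgroup le_top le_normalizer_of_normal
      (CL.coprime_card_pPrimeCore p P) fun h9 => hKM (h8.trans h9)
    refine hK.not_le_of_isSolvable (CL.isSolvable_of_isPGroup hQ.pgroup) (hKp.trans ?_)
    rw [← presOf_top, ← e]
    exact presOf_sup_le hn (pow_mem_of_isPGroup hS.pgroup Q)
  · have h7 : X = S₀ ⊔ (X ⊓ K) := by
      rw [← inf_sup_of_normalizes h5 inf_le_right, sup_comm, inf_of_le_left h6.le]
    rw [h7]
    refine sup_le (inf_le_left.trans h.le) (by_contra fun h8 => not_le_of_gt h6 (sup_le ?_ h5))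
    exact inf_eq_right.1 (hcomp _ inf_le_right (le_normalizer_inf (h5.trans le_normalizer)
      inf_le_right) h8)

end Cfsg.Agent.S2906
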