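import Cfsg.Statements.S2907

set_option autoImplicit false
set_option linter.unusedVariables false
open Cfsg

namespace Cfsg.Agent.S2907

theorem map_commutator_eq_of_surj {X : Type*} [Group X] (N : Subgroup X) [N.Normal] :
    (commutator X).map (QuotientGroup.mk' N) = commutator (X ⧸ N) := by
  rw [map_commutator_eq, QuotientGroup.range_mk']
  rfl


/-- Let X be a finite semi-extraspecial p-group and x an element of X outside the centre. Then the index of C_X(x) in X equals the order of Z(X), and the commutators [x, y], y ∈ X, form exactly the centre Z(X). -/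
theorem result {X : Type*} [Group X] [Finite X] {p : ℕ} [Fact p.Prime] (hX : Cfsg.IsSemiExtraspecial p X) (x : X) (hx : x ∉ Subgroup.center X) : (Subgroup.centralizer ({x} : Set X)).index = Nat.card ↥(Subgroup.center X) ∧ {z : X | ∃ y : X, z = x * y * x⁻¹ * y⁻¹} = (Subgroup.center X : Set X) := by
  obtain ⟨⟨hp, hf, hc⟩, hse⟩ := hX
  have hcomm : ∀ a b : X, a * b * a⁻¹ * b⁻¹ ∈ Subgroup.center X := fun a b =>
    hc ▸ Subgroup.commutator_mem_commutator (Subgroup.mem_top a) (Subgroup.mem_top b)
  let f : X →* X := MonoidHom.mk' (fun y => x * y * x⁻¹ * y⁻¹) (by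
    intro y z
    have := Subgroup.mem_center_iff.1 (hcomm x z) y
    calc x * (y * z) * x⁻¹ * (y * z)⁻¹ = x * y * x⁻¹ * y⁻¹ * (y * (x * z * x⁻¹ * z⁻¹)) * y⁻¹ := by group
      _ = x * y * x⁻¹ * y⁻¹ * ((x * z * x⁻¹ * z⁻¹) * y) * y⁻¹ := by rw [this]
      _ = _ := by group)
  have hf : ∀ y, f y = x * y * x⁻¹ * y⁻¹ := fun y => rfl
  have hker : f.ker = Subgroup.centralizer ({x} : Set X) := by
    ext y
    rw [MonoidHom.mem_ker, hf, Subgroup.mem_centralizer_singleton_iff, mul_inv_eq_one,
      mul_inv_eq_iff_eq_mul, eq_comm]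
  have hle : f.range ≤ Subgroup.center X := by
    rintro _ ⟨y, rfl⟩
    exact hcomm x y
  have hrange : f.range = Subgroup.center X := by
    rcases eq_top_or_exists_le_coatom (f.range.subgroupOf (Subgroup.center X)) with h | ⟨M, hM, hMle⟩
    · exact le_antisymm hle (Subgroup.subgroupOf_eq_top.1 h)
    · exfalso
      have e : (M.map (Subgroup.center X).subtype).subgroupOf (Subgroup.center X) = M :=
        Subgroup.comap_map_eq_self_of_injective (Subgroup.subtype_injective _) _
      obtain ⟨hn, ⟨-, -, hc'⟩, -⟩ := hse (M.map (Subgroup.center X).subtype) (Subgroup.map_subtype_le _)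
        (by rw [e]; exact hM)
      have h1 : (QuotientGroup.mk' (M.map (Subgroup.center X).subtype)) x ∈ Subgroup.center _ := by
        rw [Subgroup.mem_center_iff]
        intro yb
        obtain ⟨y, rfl⟩ := QuotientGroup.mk'_surjective _ yb
        rw [← map_mul, ← map_mul, eq_comm, ← mul_inv_eq_one, ← map_inv, ← map_mul]
        apply (QuotientGroup.eq_one_iff _).2
        refine ⟨⟨f y, hcomm x y⟩, hMle ⟨y, rfl⟩, ?_⟩
        simp [hf, mul_assoc]
      rw [← hc', ← map_commutator_eq_of_surj, hc] at h1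
      obtain ⟨z, hz, hzx⟩ := h1
      apply hx
      have h2 : z⁻¹ * x ∈ Subgroup.center X := Subgroup.map_subtype_le _ (QuotientGroup.eq.1 hzx)
      simpa using Subgroup.mul_mem _ hz h2
  refine ⟨by rw [← hker, Subgroup.index_ker, hrange], ?_⟩
  rw [← hrange]
  ext z
  simp only [Set.mem_setOf_eq, SetLike.mem_coe, MonoidHom.mem_range, hf, eq_comm]

end Cfsg.Agent.S2907
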