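import Cfsg.Statements.S2909
import Cfsg.Agent.TECH.PxQ2
import Cfsg.Agent.SOLV.CoprimeGen

set_option autoImplicit false
open Cfsg

namespace Cfsg.Agent.S2909

open CL.MSS Subgroup

/-- Let p be a prime, E a normal p-subgroup of the finite group G, and U a non-cyclic elementary abelian p-subgroup of G such that either C_E(U) = C_E(u) for every nontrivial u ∈ U, or [E, U] = [E, ⟨u⟩] for every nontrivial u ∈ U. If R is a subgroup of order prime to p normalized by U, then [R, U] centralizes E. -/
theorem result {G : Type*} [Group G] [Finite G] {p : ℕ} [Fact p.Prime] (E : Subgroup G) [E.Normal] (hE : IsPGroup p ↥E) (U : Subgroup G) (hU : Cfsg.IsElementaryAbelian p U) (hnc : ¬ IsCyclic ↥U) (hcond : (∀ u ∈ U, u ≠ 1 → E ⊓ Subgroup.centralizer (U : Set G) = E ⊓ Subgroup.centralizer ({u} : Set G)) ∨ (∀ u ∈ U, u ≠ 1 → ⁅E, U⁆ = ⁅E, Subgroup.zpowers u⁆)) (R : Subgroup G) (hR : ¬ p ∣ Nat.card ↥R) (hRU : U ≤ Subgroup.normalizer (R : Set G)) : ⁅R, U⁆ ≤ Subgroup.centralizer (E : Set G) := by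
  have hRc : (Nat.card R).Coprime p := ((Nat.Prime.coprime_iff_not_dvd Fact.out).2 hR).symm
  have hUp : IsPGroup p U := isPGroup_iff_forall_mem.2 fun g hg => ⟨1, by rw [pow_one, hU.2 g hg]⟩
  have := hU.1
  have hn : ∀ X : Subgroup G, X ≤ normalizer (E : Set G) := fun X => le_normalizer_of_normal
  have key : R ≤ secC U (centralizer (E : Set G)) := by
    refine CL.coprime_le_of_forall_centralizer_le U R _ hnc hRU
      (CL.coprime_card_of_isPGroup hUp hRc).symm fun u hu hu1 => ?_
    rw [le_secC_iff, ← centralizer_zpowers]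
    refine ⟨le_normalizer_of_normal, ?_⟩
    set D := R ⊓ centralizer ((zpowers u : Subgroup G) : Set G) with hD
    have hUu : U ≤ centralizer ((zpowers u : Subgroup G) : Set G) :=
      CL.le_centralizer_of_le_of_isMulCommutative (zpowers_le.2 hu)
    have hUD : U ≤ normalizer (D : Set G) := le_normalizer_inf hRU (hUu.trans le_normalizer)
    have h1 : ⁅U, D⁆ ≤ D := commutator_le_right_of_normalizes hUD
    have h2 : (Nat.card (⁅U, D⁆ : Subgroup G)).Coprime p :=
      Nat.Coprime.coprime_dvd_left (card_dvd_of_le (h1.trans inf_le_left)) hRc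
    have h3 : IsPGroup p (zpowers u) := hUp.to_le (zpowers_le.2 hu)
    have h4 : zpowers u ≤ centralizer ((⁅U, D⁆ : Subgroup G) : Set G) :=
      le_centralizer_symm (h1.trans inf_le_right)
    have h5 : D ≤ normalizer ((zpowers u : Subgroup G) : Set G) :=
      le_normalizer_of_le_centralizer inf_le_right
    have h6 : ⁅U, D⁆ ≤ ncl U D := commutator_le_ncl U D
    rcases hcond with h | h
    · refine le_centralizer_symm (CL.thompson_p_times_q _ _ E h3 h2 hE h4 (hn _) (hn _) ?_)
      refine le_centralizer_symm (h6.trans (ncl_le ?_ (le_normalizer_centralizer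
        (le_normalizer_inf (hn _) (le_normalizer_centralizer h5)))))
      rw [centralizer_zpowers, ← h u hu hu1]
      exact le_centralizer_symm inf_le_right
    · refine le_centralizer_symm (commutator_eq_bot_iff_le_centralizer.1
        (pxq_commutator hE h3 h2 (hn _) (hn _) (commutator_eq_bot_iff_le_centralizer.2 h4) ?_))
      refine (commutator_mono le_rfl h6).trans (commutator_ncl_le ?_ (hn _)
        (le_normalizer_commutator (hn _) h5) (h u hu hu1).le)
      exact le_normalizer_commutator (hn _) (le_normalizer_of_le_centralizer hUu)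
  rw [Subgroup.commutator_comm]
  exact (le_secC_iff.1 key).2

end Cfsg.Agent.S2909
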