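import Cfsg.Statements.S2911
import Cfsg.Agent.INV.ThompsonTransfer
import Cfsg.Agent.INV.Four
import Cfsg.Agent.TECH.SylIn

set_option autoImplicit false
open Cfsg

namespace Cfsg.Agent.S2911

open Subgroup CL.MSS

abbrev M := Multiplicative (ZMod 2) × DihedralGroup 4

def c : M := (Multiplicative.ofAdd 1, 1)
def z : M := (1, DihedralGroup.r 2)
def a (i : ZMod 2) : M := (Multiplicative.ofAdd i, DihedralGroup.sr 0)
def b (i : ZMod 2) : M := (Multiplicative.ofAdd i, DihedralGroup.sr 1)

def inD (i j : ZMod 2) (x : M) : Prop :=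
  x = 1 ∨ x = z ∨ x = a i ∨ x = a i * z ∨ x = b j ∨ x = b j * z ∨ x = a i * b j ∨ x = b j * a i

instance (i j : ZMod 2) : DecidablePred (inD i j) := fun x => by unfold inD; infer_instance

theorem inD_mul : ∀ i j x y, inD i j x → inD i j y → inD i j (x * y) := by decide +kernel
theorem inD_inv : ∀ i j x, inD i j x → inD i j x⁻¹ := by decide +kernel
theorem inD_xor : ∀ i j x, Xor (inD i j (x * c)) (inD i j x) := by decide +kernel
theorem inD_inv2 : ∀ i j x, inD i j x → x * x = 1 →
    x = 1 ∨ x = z ∨ x = a i ∨ x = a i * z ∨ x = b j ∨ x = b j * z := by decide +kernel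
theorem all_inv : ∀ x : M, x * x = 1 → x = 1 ∨ x = z ∨ x = c ∨ x = c * z ∨
    (∃ i, x = a i ∨ x = a i * z) ∨ (∃ i, x = b i ∨ x = b i * z) := by decide +kernel
theorem central : ∀ x : M, (∀ y, y * x = x * y) → x = 1 ∨ x = z ∨ x = c ∨ x = c * z := by
  decide +kernel
theorem sq_eq : ∀ x : M, x * x = 1 ∨ x * x = z := by decide +kernel
theorem conj_a : ∀ i, b 0 * a i * (b 0)⁻¹ = a i * z := by decide +kernel
theorem conj_b : ∀ i, a 0 * b i * (a 0)⁻¹ = b i * z := by decide +kernel
theorem c_comm : ∀ y, y * c = c * y := by decide +kernel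
theorem z_comm : ∀ y, y * z = z * y := by decide +kernel

def D (i j : ZMod 2) : Subgroup M where
  carrier := {x | inD i j x}
  one_mem' := Or.inl rfl
  mul_mem' := fun hx hy => inD_mul i j _ _ hx hy
  inv_mem' := fun hx => inD_inv i j _ hx

theorem cmem {G : Type*} [Group G] {H : Subgroup G} {g x : G} (hg : g ∈ normalizer (H : Set G))
    (hx : x ∈ H) : g * x * g⁻¹ ∈ H := (mem_normalizer_iff.1 hg x).1 hx

theorem D_index (i j : ZMod 2) : (D i j).index = 2 := index_eq_two_iff.2 ⟨c, inD_xor i j⟩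

/-- A finite group whose Sylow 2-subgroups are isomorphic to the direct product of a group of order 2 and a dihedral group of order 8 has a subgroup of index two. -/
theorem result {G : Type*} [Group G] [Finite G] (S : Sylow 2 G) (hS : Nonempty (↥(S : Subgroup G) ≃* Multiplicative (ZMod 2) × DihedralGroup 4)) : ∃ H : Subgroup G, H.index = 2 := by
  obtain ⟨e⟩ := hS
  by_contra hG
  push Not at hG
  let ι : M →* G := (S : Subgroup G).subtype.comp e.symm.toMonoidHom
  have hι : Function.Injective ι := (S : Subgroup G).subtype_injective.comp e.symm.injective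
  have hmem : ∀ x, ι x ∈ (S : Subgroup G) := fun x => (e.symm x).2
  have hsurj : ∀ g ∈ (S : Subgroup G), ∃ x, ι x = g := fun g hg => ⟨e ⟨g, hg⟩, by simp [ι]⟩
  have hS' : (⊤ : Subgroup M).map ι = S := by
    ext g
    exact ⟨by rintro ⟨x, -, rfl⟩; exact hmem x, fun hg => by
      obtain ⟨x, rfl⟩ := hsurj g hg; exact mem_map_of_mem ι trivial⟩
  have hcent : ∀ x : M, (∀ y, y * x = x * y) → ι x ∈ centralizer ((S : Subgroup G) : Set G) := by
    intro x hx g hg
    obtain ⟨y, rfl⟩ := hsurj g hg
    rw [← map_mul, ← map_mul, hx]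
  have hcz : ∀ y, y * (c * z) = c * z * y := fun y => by
    rw [← mul_assoc, c_comm y, mul_assoc, z_comm y, mul_assoc]
  -- the normalizer of `S` fixes the centre
  have hz : ∀ g ∈ normalizer ((S : Subgroup G) : Set G), g * ι z * g⁻¹ = ι z := by
    intro g hg
    obtain ⟨x, hx⟩ := hsurj _ (cmem hg (hmem (a 0 * b 0)))
    have h1 : g * ι z * g⁻¹ = ι (x * x) := by
      rw [map_mul, hx, conj_mul, ← map_mul]
      congr 3
    rcases sq_eq x with h | h
    · rw [h, map_one, conj_eq_one_iff, map_eq_one_iff ι hι] at h1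
      exact absurd h1 (by decide +kernel)
    · rw [h1, h]
  have hc : ∀ g ∈ normalizer ((S : Subgroup G) : Set G), g * ι c * g⁻¹ = ι c := by
    intro g hg
    have h0 := normalizer_le_normalizer_centralizer _ hg
    have h1 := cmem h0 (hcent c c_comm)
    obtain ⟨x, hx⟩ := hsurj _ (cmem hg (hmem c))
    have h2 : ∀ y, y * x = x * y := fun y => hι (by
      rw [map_mul, map_mul, hx]; exact h1 _ (hmem y))
    rcases central x h2 with rfl | rfl | rfl | rfl
    · rw [map_one, eq_comm, conj_eq_one_iff, map_eq_one_iff ι hι] at hx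
      exact absurd hx (by decide +kernel)
    · rw [← hz g hg, mul_left_inj, mul_right_inj] at hx
      exact absurd (hι hx) (by decide +kernel)
    · exact hx.symm
    · refine CL.Four.conj_eq_of_sq S (hcent c c_comm) hg ?_
      rw [← hx, map_mul, ← conj_mul, hz g hg, ← hx, ← map_mul]
      congr 1
  have hfix : ∀ x y : M, (∀ w, w * x = x * w) → (∀ w, w * y = y * w) → IsConj (ι x) (ι y) →
      x = y := by
    intro x y hx hy h
    obtain ⟨g, hg⟩ := isConj_iff.1 h
    obtain ⟨n, hn, h2⟩ := S.conj_eq_normalizer_conj_of_mem_centralizer (ι x) g⁻¹ (hcent x hx)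
      (by rw [inv_inv, hg]; exact hcent y hy)
    rw [inv_inv, hg] at h2
    have h3 : n⁻¹ * ι x * n⁻¹⁻¹ = ι x := by
      rcases central x hx with rfl | rfl | rfl | rfl
      · simp
      · exact hz _ (inv_mem hn)
      · exact hc _ (inv_mem hn)
      · rw [map_mul, ← conj_mul, hz _ (inv_mem hn), hc _ (inv_mem hn)]
    rw [inv_inv] at h3
    exact hι (h3.symm.trans h2.symm)
  have haz : ∀ i, IsConj (ι (a i)) (ι (a i * z)) := fun i =>
    ι.map_isConj (isConj_iff.2 ⟨_, conj_a i⟩)
  have hbz : ∀ i, IsConj (ι (b i)) (ι (b i * z)) := fun i =>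
    ι.map_isConj (isConj_iff.2 ⟨_, conj_b i⟩)
  have hT : ∀ i j, ∀ u : M, (∀ w, w * u = u * w) → u * u = 1 → u ≠ 1 → u ≠ z →
      IsConj (ι u) (ι (a i)) ∨ IsConj (ι u) (ι (b j)) := by
    intro i j u hu hu2 hu1 huz
    obtain ⟨g, x, hx, hg⟩ := CL.ThompsonTransfer.exists_conj_mem hG S (Q := (D i j).map ι)
      (hS' ▸ map_mono le_top) (by
        rw [← hS', relIndex_map_map_of_injective _ _ hι, relIndex_top_right, D_index])
      (u := ι u) (by rw [← map_mul, hu2, map_one])
    have h1 : IsConj (ι u) (ι x) := isConj_iff.2 ⟨g, hg.symm⟩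
    have h2 : x * x = 1 := hι (by rw [map_mul, hg, conj_mul, ← map_mul, hu2]; simp)
    rcases inD_inv2 i j x hx h2 with rfl | rfl | rfl | rfl | rfl | rfl
    · exact absurd (hfix _ _ hu (by simp) h1) hu1
    · exact absurd (hfix _ _ hu z_comm h1) huz
    · exact Or.inl h1
    · exact Or.inl (h1.trans (haz i).symm)
    · exact Or.inr h1
    · exact Or.inr (h1.trans (hbz j).symm)
  have hne : ¬ IsConj (ι c) (ι (c * z)) := fun h =>
    absurd (hfix _ _ c_comm hcz h) (by decide +kernel)
  have hTc := fun i j => hT i j c c_comm (by decide +kernel) (by decide +kernel) (by decide +kernel)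
  have hTcz := fun i j => hT i j (c * z) hcz (by decide +kernel) (by decide +kernel)
    (by decide +kernel)
  have ha : ∀ i, IsConj (ι c) (ι (a i)) ∨ IsConj (ι (c * z)) (ι (a i)) := fun i => by
    rcases hTc i 0 with h | h
    · exact Or.inl h
    · exact Or.inr ((hTcz i 0).resolve_right fun h' => hne (h.trans h'.symm))
  have hb : ∀ i, IsConj (ι c) (ι (b i)) ∨ IsConj (ι (c * z)) (ι (b i)) := fun i => by
    rcases hTc 0 i with h | h
    · exact Or.inr ((hTcz 0 i).resolve_left fun h' => hne (h.trans h'.symm))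
    · exact Or.inl h
  have hzc : ¬ IsConj (ι z) (ι c) := fun h =>
    absurd (hfix _ _ z_comm c_comm h) (by decide +kernel)
  have hzcz : ¬ IsConj (ι z) (ι (c * z)) := fun h =>
    absurd (hfix _ _ z_comm hcz h) (by decide +kernel)
  have hzonly : ∀ x : M, IsConj (ι z) (ι x) → x = z := by
    intro x h
    have h2 : x * x = 1 := by
      obtain ⟨g, hg⟩ := isConj_iff.1 h
      refine hι ?_
      rw [map_mul, ← hg, conj_mul, ← map_mul, show z * z = 1 by decide +kernel]
      simp
    rcases all_inv x h2 with rfl | rfl | rfl | rfl | ⟨i, rfl | rfl⟩ | ⟨i, rfl | rfl⟩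
    · exact (hfix _ _ z_comm (by simp) h).symm
    · rfl
    · exact absurd h hzc
    · exact absurd h hzcz
    · exact ((ha i).elim (fun h' => hzc (h.trans h'.symm)) fun h' => hzcz (h.trans h'.symm)).elim
    · have h := h.trans (haz i).symm
      exact ((ha i).elim (fun h' => hzc (h.trans h'.symm)) fun h' => hzcz (h.trans h'.symm)).elim
    · exact ((hb i).elim (fun h' => hzc (h.trans h'.symm)) fun h' => hzcz (h.trans h'.symm)).elim
    · have h := h.trans (hbz i).symm
      exact ((hb i).elim (fun h' => hzc (h.trans h'.symm)) fun h' => hzcz (h.trans h'.symm)).elim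
  have key : ∀ u : M, (∀ w, w * u = u * w) → IsConj (ι u) (ι (a 0)) →
      IsConj (ι u) (ι (u * z)) := by
    intro u hu h
    obtain ⟨g, hg⟩ := isConj_iff.1 h.symm
    have hSC : (S : Subgroup G) ≤ centralizer {ι u} := fun s hs =>
      mem_centralizer_singleton_iff.2 (hcent u hu s hs)
    have h1 : g * ι z * g⁻¹ ∈ centralizer {ι u} := by
      rw [mem_centralizer_singleton_iff, ← hg, conj_mul, conj_mul, ← map_mul, ← map_mul, z_comm]
    have h2 : (g * ι z * g⁻¹) ^ 2 ^ 1 = 1 := by
      rw [pow_one, pow_two, conj_mul, ← map_mul, show z * z = 1 by decide +kernel]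
      simp
    obtain ⟨k, hk, hk2⟩ := (sylIn_sylow S hSC).exists_conj_le (isPGroup_zpowers h2)
      (zpowers_le.2 h1)
    obtain ⟨x, hx⟩ := hsurj _ (hk2 (conj_mem_cj (mem_zpowers _)))
    have h3 : (k * g) * ι z * (k * g)⁻¹ = ι x := by rw [hx]; group
    obtain rfl := hzonly x (isConj_iff.2 ⟨_, h3⟩)
    have h4 : (k * g) * ι (a 0) * (k * g)⁻¹ = ι u := by
      calc (k * g) * ι (a 0) * (k * g)⁻¹ = k * (g * ι (a 0) * g⁻¹) * k⁻¹ := by group
        _ = ι u := by rw [hg, mem_centralizer_singleton_iff.1 hk]; group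
    refine (h.trans (haz 0)).trans (isConj_iff.2 ⟨k * g, ?_⟩)
    rw [map_mul, map_mul, ← conj_mul, h3, h4]
  rcases ha 0 with h | h
  · exact hne (key c c_comm h)
  · have := key _ hcz h
    rw [show c * z * z = c by decide +kernel] at this
    exact hne this.symm

end Cfsg.Agent.S2911
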