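import Cfsg.Statements.S2912
import Cfsg.Agent.INV.Rep.XsModule

set_option autoImplicit false
open Cfsg

namespace Cfsg.Agent.S2912

/-- Let p and r be distinct primes, let E be an extraspecial subgroup of order p^(2w+1) of a finite group, and let A be an elementary abelian r-subgroup normalized by E on which E acts faithfully (C_E(A) = 1). If n ≥ 1 is least with p dividing rⁿ − 1 (the smallest dimension of a faithful representation of a group of order p over the field with r elements), then the order of A is at least r^(n·p^w). -/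
theorem result {G : Type*} [Group G] [Finite G] {p r : ℕ} [Fact p.Prime] [hr : Fact r.Prime] (hpr : p ≠ r) (E A : Subgroup G) (w : ℕ) (hE : Cfsg.IsExtraspecial p ↥E) (hEcard : Nat.card ↥E = p ^ (2 * w + 1)) (hA : Cfsg.IsElementaryAbelian r A) (hnorm : E ≤ Subgroup.normalizer (A : Set G)) (hfaith : E ⊓ Subgroup.centralizer (A : Set G) = ⊥) (n : ℕ) (hn : 1 ≤ n) (hdiv : p ∣ r ^ n - 1) (hmin : ∀ k : ℕ, 1 ≤ k → p ∣ r ^ k - 1 → n ≤ k) : r ^ (n * p ^ w) ≤ Nat.card ↥A := by
  classical
  have hcm : IsMulCommutative A := hA.1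
  letI : CommGroup A := { (inferInstance : Group A) with mul_comm := fun a b => hcm.is_comm.comm a b }
  have hmem : ∀ (g : E) (a : A), g.1 * a.1 * g.1⁻¹ ∈ A := fun g a =>
    (Subgroup.mem_normalizer_iff.1 (hnorm g.2) a.1).1 a.2
  refine CL.XSM.add_bound (V := Additive A) hpr hE.1.2.2.le hE.2 w hEcard ?_
    (fun g =>
      { toFun := fun a => Additive.ofMul ⟨g.1 * (Additive.toMul a).1 * g.1⁻¹, hmem g _⟩
        map_zero' := by apply Additive.toMul.injective; apply Subtype.ext; simp
        map_add' := fun a b => by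
          apply Additive.toMul.injective; apply Subtype.ext
          show g.1 * ((Additive.toMul a).1 * (Additive.toMul b).1) * g.1⁻¹ =
            (g.1 * (Additive.toMul a).1 * g.1⁻¹) * (g.1 * (Additive.toMul b).1 * g.1⁻¹)
          group }) ?_ ?_ ?_ n hmin
  · intro x
    apply Additive.toMul.injective
    apply Subtype.ext
    exact hA.2 _ (Additive.toMul x).2
  · intro a
    apply Additive.toMul.injective; apply Subtype.ext
    show (1 : G) * (Additive.toMul a).1 * (1 : G)⁻¹ = (Additive.toMul a).1
    simp
  · intro g h a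
    apply Additive.toMul.injective; apply Subtype.ext
    show (g.1 * h.1) * (Additive.toMul a).1 * (g.1 * h.1)⁻¹ =
      g.1 * (h.1 * (Additive.toMul a).1 * h.1⁻¹) * g.1⁻¹
    group
  · intro g hg
    have : g.1 ∈ E ⊓ Subgroup.centralizer (A : Set G) := by
      refine ⟨g.2, ?_⟩
      intro a ha
      have h1 : g.1 * a * g.1⁻¹ = a :=
        congrArg (fun x : Additive A => (Additive.toMul x).1) (hg (Additive.ofMul ⟨a, ha⟩))
      calc a * g.1 = g.1 * a * g.1⁻¹ * g.1 := by rw [h1]
        _ = g.1 * a := by group
    rw [hfaith] at this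
    exact Subtype.ext this

end Cfsg.Agent.S2912
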