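import Cfsg.Statements.S2924
import Mathlib
import Cfsg.Agent.SIG.PBalance
import Cfsg.Agent.SIG.FStarLocal
import Cfsg.Agent.SIG.Bender
import Cfsg.Agent.SOLV.Frobenius
import Cfsg.Agent.S0217

set_option autoImplicit false
open Cfsg

namespace Cfsg.Agent.S2924

open CL.PComp CL.Comp in
theorem bal {G : Type*} [Group G] [Finite G] (hE : Cfsg.layer G = ⊥) {a z : G} (ha : a ^ 2 ^ 1 = 1)
    {D : Subgroup G} (hD : D ≤ opOf 2 (Subgroup.centralizer {a}))
    (hzD : ∀ d ∈ D, z * d * z⁻¹ = d⁻¹) (hzO : ∀ o ∈ Cfsg.pPrimeCore 2 G, z * o * z⁻¹ = o⁻¹) :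
    D ≤ Cfsg.pPrimeCore 2 G := by
  have hcop : (Nat.card D).Coprime 2 :=
    Nat.Coprime.coprime_dvd_left (Subgroup.card_dvd_of_le hD) (opOf_coprime 2 _)
  have h1 : D ≤ Subgroup.centralizer (Cfsg.pCore 2 G : Set G) :=
    hD.trans (opOf_centralizer_singleton_le_centralizer_pCore ha)
  have h2 : D ≤ Subgroup.centralizer (Cfsg.pPrimeCore 2 G : Set G) := by
    intro d hd o ho
    have h3 := hzO _ ((inferInstance : (Cfsg.pPrimeCore 2 G).Normal).conj_mem o ho d)
    have h4 : z * (d * o * d⁻¹) * z⁻¹ = (z * d * z⁻¹) * (z * o * z⁻¹) * (z * d * z⁻¹)⁻¹ := by group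
    rw [h4, hzD d hd, hzO o ho] at h3
    have h5 : Commute o (d ^ 2) := by
      have h6 : d⁻¹ * o * d = d * o * d⁻¹ := by
        have := congrArg (·⁻¹) h3
        simpa [mul_assoc] using this
      change o * d ^ 2 = d ^ 2 * o
      calc o * d ^ 2 = d * (d⁻¹ * o * d) * d := by simp [sq, mul_assoc]
        _ = d ^ 2 * o := by rw [h6]; simp [sq, mul_assoc]
    have h6 : (orderOf d).Coprime 2 :=
      Nat.Coprime.coprime_dvd_left (Subgroup.orderOf_dvd_natCard D hd) hcop
    obtain ⟨m, hm⟩ := exists_pow_eq_self_of_coprime h6.symm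
    rw [← hm]
    exact (h5.pow_right m).eq
  have h3 : Cfsg.fittingSubgroup G ≤ Cfsg.pCore 2 G ⊔ Cfsg.pPrimeCore 2 G :=
    CL.fittingSubgroup_le_pCore_sup 2
  have h4 : D ≤ Subgroup.centralizer (Cfsg.fittingSubgroup G : Set G) := by
    refine le_trans ?_ (Subgroup.centralizer_le h3)
    rw [centralizer_sup_eq]
    exact le_inf h1 h2
  have h5 : D ≤ Cfsg.fittingSubgroup G := h4.trans (centralizer_fitting_le_iff.2 hE)
  refine (le_opOf h5 ?_ hcop).trans
    (le_pPrimeCore_of_isSubnormal (Subgroup.Normal.isSubnormal inferInstance))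
  exact (Subgroup.le_centralizer_iff.1 h4).trans (Subgroup.centralizer_le_normalizer _)

/-- Let X be a finite group and Y an elementary abelian 2-subgroup of X of order at least 8 such that C_X(x) has no components (E(C_X(x)) = 1) for every nontrivial x ∈ Y, and F*(C_X(z)) = O₂(C_X(z)) for some nontrivial z ∈ Y. Then the subgroup generated by the cores O(C_X(y)), y ∈ Y nontrivial, has odd order and is normalized by N_X(Y). -/
theorem result {X : Type*} [Group X] [Finite X] (Y : Subgroup X) (hY : Cfsg.IsElementaryAbelian 2 Y) (h8 : 8 ≤ Nat.card ↥Y) (hE : ∀ x ∈ Y, x ≠ 1 → Cfsg.layer ↥(Subgroup.centralizer ({x} : Set X)) = ⊥) (hz : ∃ z ∈ Y, z ≠ 1 ∧ Cfsg.generalizedFittingSubgroup ↥(Subgroup.centralizer ({z} : Set X)) = Cfsg.pCore 2 ↥(Subgroup.centralizer ({z} : Set X))) : Odd (Nat.card ↥(⨆ y : {y : X // y ∈ Y ∧ y ≠ 1}, (Cfsg.oddCore ↥(Subgroup.centralizer ({(y : X)} : Set X))).map (Subgroup.centralizer ({(y : X)} : Set X)).subtype)) ∧ Subgroup.normalizer (Y : Set X)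 ≤ Subgroup.normalizer ((⨆ y : {y : X // y ∈ Y ∧ y ≠ 1}, (Cfsg.oddCore ↥(Subgroup.centralizer ({(y : X)} : Set X))).map (Subgroup.centralizer ({(y : X)} : Set X)).subtype : Subgroup X) : Set X) := by
  classical
  obtain ⟨z, hzY, hz1, hz⟩ := hz
  have hcomm : ∀ a ∈ Y, ∀ b ∈ Y, a * b = b * a := fun a ha b hb =>
    CL.PComp.comm_of_isElementaryAbelian hY ha hb
  have hYC : ∀ a ∈ Y, Y ≤ Subgroup.centralizer {a} := fun a ha b hb =>
    Subgroup.mem_centralizer_singleton_iff.2 (hcomm b hb a ha)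
  let θ : X → Subgroup X := fun a => CL.PComp.opOf 2 (Subgroup.centralizer {a})
  have hθC : ∀ a, θ a ≤ Subgroup.centralizer {a} := fun a => CL.PComp.opOf_le _ _
  have hθn : ∀ a, Subgroup.centralizer {a} ≤ Subgroup.normalizer (θ a : Set X) := fun a =>
    CL.PComp.le_normalizer_opOf _ _
  have hzz : z * z = 1 := by rw [← sq]; exact hY.2 z hzY
  have hinv : ∀ a ∈ Y, ∀ k ∈ θ a, z * k * z⁻¹ = k⁻¹ := by
    intro a ha
    refine CL.Frob.conj_eq_inv_of_involution hzz (hθn a (hYC a ha hzY)) ?_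
    have h1 := CL.Comp.isPGroup_fstarOf_inf_centralizer (P := Subgroup.zpowers a)
      (CL.Comp.fstar_eq_pCore_iff_isPGroup_fstarOf.1 hz)
      (by rw [Subgroup.zpowers_le]; exact hYC z hzY ha)
      ((CL.PComp.isPGroup_of_isElementaryAbelian hY).to_le (by rwa [Subgroup.zpowers_le]))
    rw [CL.PComp.centralizer_zpowers_eq] at h1
    have h2 := (CL.Comp.isPGroup_fstarOf_iff_layerOf.1 h1).2
    rw [eq_bot_iff, ← h2]
    refine le_trans ?_ (CL.PComp.inf_le_opOf (N := θ a) (inf_le_right.trans (hθn a))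
      (CL.PComp.opOf_coprime _ _))
    exact le_inf inf_le_left (le_inf inf_le_right (inf_le_left.trans (hθC a)))
  have hmain := Cfsg.Agent.S0217.result (p := 2) Y hcomm hY.2 h8 θ (fun a _ _ => hθC a)
    (fun a _ _ => (Nat.Prime.coprime_iff_not_dvd Nat.prime_two).1 (CL.PComp.opOf_coprime 2 _).symm)
    (fun a ha _ b hb x hx => (Subgroup.mem_normalizer_iff.1 (hθn a (hYC a ha hb)) x).1 hx)
    (fun a ha _ => Group.isSolvable_of_comm fun x y => Subtype.ext (by
      have h1 := hinv a ha _ (x * y).2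
      have h2 := hinv a ha _ x.2
      have h3 := hinv a ha _ y.2
      have h4 : z * (x * y) * z⁻¹ = (z * x * z⁻¹) * (z * y * z⁻¹) := by group
      rw [Subgroup.coe_mul, h4, h2, h3, ← mul_inv_rev, inv_inj] at h1
      exact h1.symm))
    (fun a ha _ b hb hb1 => by
      have h1 := bal (G := Subgroup.centralizer {b}) (hE b hb hb1) (a := ⟨a, hYC b hb ha⟩)
        (z := ⟨z, hYC b hb hzY⟩) (Subtype.ext (by simpa using hY.2 a ha))
        (D := (θ a).subgroupOf (Subgroup.centralizer {b})) (by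
          refine CL.PComp.le_opOf ?_ ?_ ?_
          · intro y hy
            rw [Subgroup.mem_centralizer_singleton_iff]
            exact Subtype.ext (Subgroup.mem_centralizer_singleton_iff.1 (hθC a hy))
          · intro m hm
            have hm' : (m : X) ∈ Subgroup.centralizer {a} := by
              rw [Subgroup.mem_centralizer_singleton_iff] at hm ⊢
              exact congrArg Subtype.val hm
            rw [Subgroup.mem_normalizer_iff]
            intro y
            exact Subgroup.mem_normalizer_iff.1 (hθn a hm') y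
          · refine Nat.Coprime.coprime_dvd_left ?_ (CL.PComp.opOf_coprime 2 (Subgroup.centralizer {a}))
            exact Subgroup.card_comap_dvd_of_injective _ _ (Subgroup.subtype_injective _))
        (fun d hd => Subtype.ext (hinv a ha d hd))
        (fun o ho => Subtype.ext (hinv b hb o ((CL.PComp.mem_opOf o).2 ho)))
      intro x hx
      exact (CL.PComp.mem_opOf ⟨x, hx.2⟩).2 (h1 (show (⟨x, hx.2⟩ : Subgroup.centralizer {b}) ∈
        (θ a).subgroupOf _ from hx.1)))
  refine ⟨Nat.odd_iff.2 (Nat.two_dvd_ne_zero.1 hmain.1), ?_⟩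
  change Subgroup.normalizer (Y : Set X) ≤ Subgroup.normalizer
    ((⨆ y : {y : X // y ∈ Y ∧ y ≠ 1}, θ y : Subgroup X) : Set X)
  have key : ∀ g ∈ Subgroup.normalizer (Y : Set X), ∀ x ∈ (⨆ y : {y : X // y ∈ Y ∧ y ≠ 1}, θ y),
      g * x * g⁻¹ ∈ (⨆ y : {y : X // y ∈ Y ∧ y ≠ 1}, θ y) := by
    intro g hg
    have : (⨆ y : {y : X // y ∈ Y ∧ y ≠ 1}, θ y) ≤
        (⨆ y : {y : X // y ∈ Y ∧ y ≠ 1}, θ y).comap (MulAut.conj g).toMonoidHom := by
      refine iSup_le fun y => ?_
      rw [← Subgroup.map_le_iff_le_comap]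
      refine le_trans ?_ (le_iSup _ ⟨g * y * g⁻¹, (Subgroup.mem_normalizer_iff.1 hg _).1 y.2.1,
        fun h => y.2.2 (by simpa using h)⟩)
      change _ ≤ CL.PComp.opOf 2 (Subgroup.centralizer {g * y * g⁻¹})
      have h1 : Subgroup.centralizer {g * y * g⁻¹} =
          (Subgroup.centralizer {(y : X)}).map (MulAut.conj g).toMonoidHom := by
        ext w
        rw [Subgroup.mem_map_equiv, Subgroup.mem_centralizer_singleton_iff,
          Subgroup.mem_centralizer_singleton_iff]
        simp only [MulAut.conj_symm_apply]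
        constructor
        · intro h
          calc g⁻¹ * w * g * y = g⁻¹ * (w * (g * y * g⁻¹)) * g := by group
            _ = _ := by rw [h]; group
        · intro h
          calc w * (g * y * g⁻¹) = g * (g⁻¹ * w * g * y) * g⁻¹ := by group
            _ = _ := by rw [h]; group
      rw [h1, CL.PComp.opOf_map_of_injective _ _ (MulAut.conj g).injective]
    intro x hx
    exact this hx
  intro g hg
  rw [Subgroup.mem_normalizer_iff]
  intro x
  refine ⟨key g hg x, fun h => ?_⟩
  simpa [mul_assoc] using key g⁻¹ (inv_mem hg) _ h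

end Cfsg.Agent.S2924
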