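import Cfsg.Statements.S2925
import Cfsg.Agent.TECH.SubnP
import Cfsg.Agent.SIG.Component

set_option autoImplicit false
open Cfsg

namespace Cfsg.Agent.S2925

open CL.MSS Subgroup
open scoped commutatorElement

/-- Let K be a component of the finite group X and T a Sylow 2-subgroup of X. If some abelian normal subgroup Y of T does not normalize K, then K ⧸ Z(K) has abelian Sylow 2-subgroups. -/
theorem result {X : Type*} [Group X] [Finite X] (K : Subgroup X) (hK : Cfsg.IsComponent K) (T : Sylow 2 X) (Y : Subgroup X) (hYT : Y ≤ (T : Subgroup X)) (hYn : (Y.subgroupOf (T : Subgroup X)).Normal) (hYab : IsMulCommutative ↥Y) (hnot : ¬ Y ≤ Subgroup.normalizer (K : Set X)) (P : Sylow 2 (↥K ⧸ Subgroup.center ↥K)) : IsMulCommutative ↥(P : Subgroup (↥K ⧸ Subgroup.center ↥K)) := by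
  obtain ⟨y, hy, hyn⟩ := SetLike.not_le_iff_exists.1 hnot
  have hc := hK.commutator_conj_eq_bot hyn
  have hTY : (T : Subgroup X) ≤ normalizer (Y : Set X) :=
    (normal_subgroupOf_iff_le_normalizer hYT).1 hYn
  have h1 := (sylIn_inf_subnormal (sylIn_top T) hK.isSubnormal).subgroupOf (le_refl K)
  rw [subgroupOf_self] at h1
  have h2 := h1.map (QuotientGroup.mk' (center K))
  rw [map_top_of_surjective _ (QuotientGroup.mk'_surjective _)] at h2
  obtain ⟨g, -, hg⟩ := h2.exists_conj (sylIn_top P)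
  rw [← hg]
  refine isMulCommutative_cj g (le_centralizer_iff_isMulCommutative.1 ?_)
  rintro _ ⟨s, hs, rfl⟩ _ ⟨t, ht, rfl⟩
  rw [← map_mul, ← map_mul, QuotientGroup.mk'_apply, QuotientGroup.mk'_apply, QuotientGroup.eq,
    mem_center_iff]
  have hC : y •ᶜ K ≤ centralizer (K : Set X) :=
    le_centralizer_iff.1 (commutator_eq_bot_iff_le_centralizer.1 hc)
  have hs' : y * (s : X)⁻¹ * y⁻¹ ∈ centralizer (K : Set X) := hC (conj_mem_cj (inv_mem s.2))
  have ht' : y * (t : X)⁻¹ * y⁻¹ ∈ centralizer (K : Set X) := hC (conj_mem_cj (inv_mem t.2))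
  have ha : ∀ u ∈ (T : Subgroup X), u * (y * u⁻¹ * y⁻¹) ∈ Y := fun u hu => by
    have := mul_mem (conj_mem_of_normalizes hTY hu hy) (inv_mem hy)
    simpa only [mul_assoc] using this
  have h3 := le_centralizer_iff_isMulCommutative.2 hYab (ha _ hs.1) _ (ha _ ht.1)
  simp only [coe_subtype] at h3
  generalize y * (s : X)⁻¹ * y⁻¹ = s' at hs' h3
  generalize y * (t : X)⁻¹ * y⁻¹ = t' at ht' h3
  have h4 : ((t : X) * s)⁻¹ * (s * t) = t' * s' * (s' * t')⁻¹ := by
    have e1 : (t : X) * t' * (s * s') = t * s * (t' * s') := by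
      rw [mul_assoc, ← mul_assoc t', ← ht' s s.2]; group
    have e2 : (s : X) * s' * (t * t') = s * t * (s' * t') := by
      rw [mul_assoc, ← mul_assoc s', ← hs' t t.2]; group
    rw [e1, e2] at h3
    rw [eq_mul_inv_iff_mul_eq, mul_assoc, ← h3, inv_mul_cancel_left]
  intro k
  apply Subtype.ext
  have h5 : t' * s' * (s' * t')⁻¹ ∈ centralizer (K : Set X) :=
    mul_mem (mul_mem ht' hs') (inv_mem (mul_mem hs' ht'))
  rw [← h4] at h5
  exact h5 k k.2

end Cfsg.Agent.S2925
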