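import Cfsg.Statements.S2939
import Cfsg.Agent.TECH.SylCtl

set_option autoImplicit false
open Cfsg

namespace Cfsg.Agent.S2939

open CL.MSS Subgroup Relation

theorem conjRight_subset_iff {G : Type*} [Group G] {g : G} {A : Set G} {K : Subgroup G} :
    conjRight g A ⊆ (K : Set G) ↔ A ⊆ ((g •ᶜ K : Subgroup G) : Set G) := by
  rw [conjRight, Set.image_subset_iff]
  exact ⟨fun h a ha => mem_cj.2 (h ha), fun h a ha => mem_cj.1 (h ha)⟩

/-- Let p be a prime dividing the order of the finite group G and 𝓕 a family of subgroups of G closed under conjugation, with conjugates taken as X^g = g⁻¹Xg. Then 𝓕 controls Sylow p-intersections in G (any two distinct Sylow p-subgroups S and T with S ∩ T ≠ 1 are joined by a chain S = S₀, S₁, …, Sₙ = T of Sylow p-subgroups where, for each i, some member Xᵢ of 𝓕 meets both S_{i-1} and Sᵢ in Sylow p-subgroups of Xᵢ, satisfies S ∩ T ≤ Sᵢ ∩ Xᵢ, and contains an element xᵢ with Sᵢ^{xᵢ} = S_{i-1}) if and only if 𝓕 strongly controls p-fusion in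 G (whenever A is a subset of a Sylow p-subgroup S, A contains an element other than 1, and A^g ⊆ S, the element g factorises as g = y₁⋯yₙy with y ∈ N_G(S) and each yᵢ in a member Yᵢ of 𝓕 that meets S in a Sylow p-subgroup of Yᵢ, with A^{y₁⋯yᵢ} ⊆ S ∩ Yᵢ for each i). -/
theorem result {G : Type*} [Group G] [Finite G] {p : ℕ} [Fact p.Prime] (hdiv : p ∣ Nat.card G) (𝓕 : Set (Subgroup G)) (h𝓕 : Cfsg.IsNormalSet 𝓕) : Cfsg.ControlsSylowIntersections p 𝓕 ↔ Cfsg.FamilyStronglyControlsFusion p 𝓕 := by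
  rw [csi_iff]
  constructor
  · intro h S A g hA ⟨a, ha, ha1⟩ hg
    replace hg := (conjRight_subset_iff (K := (S : Subgroup G))).1 hg
    have hD : A ⊆ (((S : Subgroup G) ⊓ g •ᶜ (S : Subgroup G) : Subgroup G) : Set G) :=
      fun x hx => ⟨hA hx, hg hx⟩
    have h1 := h S _ (sylIn_top S) ((sylIn_top S).cj_of_mem (mem_top g))
      (fun hb => ha1 (mem_bot.1 (hb ▸ hD ha)))
    let R : G → G → Prop := fun u v => ∃ Y ∈ sylowMembers p 𝓕 (S : Subgroup G), ∃ y ∈ Y,
      v = u * y ∧ conjRight v A ⊆ (S : Set G) ∩ (Y : Set G)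
    have key : ∀ B, ReflTransGen (SStep p 𝓕 ((S : Subgroup G) ⊓ g •ᶜ (S : Subgroup G))) S B →
        ∃ u, ReflTransGen R 1 u ∧ u •ᶜ (S : Subgroup G) = B := by
      intro B hB
      induction hB with
      | refl => exact ⟨1, ReflTransGen.refl, cj_one _⟩
      | tail _ k ih =>
        obtain ⟨u, hu, rfl⟩ := ih
        obtain ⟨X, k1, k2, -, x, k4, k5, k6⟩ := k
        have k7 := k2.cj u⁻¹
        rw [cj_inf, inv_cj_cj] at k7
        have k8 := (cj_mul x u (S : Subgroup G)).trans (by rw [← k5, cj_inv_cj])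
        refine ⟨x * u, hu.tail ⟨_, mem_sylowMembers_iff.2 ⟨h𝓕 X k1 u, k7⟩, _, conj_mem_cj k4,
          by group, ?_⟩, k8⟩
        change _ ⊆ (((S : Subgroup G) ⊓ u⁻¹ •ᶜ X : Subgroup G) : Set G)
        rw [conjRight_subset_iff, cj_inf, k8, cj_mul, cj_inv_cj, cj_eq_of_mem k4]
        exact hD.trans k6
    obtain ⟨u, hu, he⟩ := key _ h1
    obtain ⟨n, c, h0, hl, hc⟩ := rtg_iff_fin.1 hu
    choose Y k1 y k2 k3 k4 using hc
    have hp : ∀ i, Fin.partialProd y i = c i := by
      intro i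
      induction i using Fin.induction with
      | zero => rw [Fin.partialProd_zero, h0]
      | succ i ih => rw [Fin.partialProd_succ, ih, k3]
    refine ⟨n, Y, y, u⁻¹ * g, mem_normalizer_iff_cj.2 (by rw [cj_mul, ← he, inv_cj_cj]),
      fun i => ⟨k1 i, k2 i⟩, ?_, fun i => ?_⟩
    · have := hp (Fin.last n)
      rw [Fin.partialProd, Fin.val_last, List.take_of_length_le (by simp), hl] at this
      rw [this, mul_inv_cancel_left]
    · have := k4 i
      rwa [← hp] at this
  · intro h A B hA hB hne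
    obtain ⟨S, rfl⟩ := sylIn_top_iff.1 hA
    obtain ⟨g, -, rfl⟩ := hA.exists_conj hB
    obtain ⟨a, ha⟩ := (Subgroup.ne_bot_iff_exists_ne_one).1 hne
    obtain ⟨n, Y, y, y₀, h1, h2, h3, h4⟩ := h S
      (((S : Subgroup G) ⊓ g •ᶜ (S : Subgroup G) : Subgroup G) : Set G) g (fun x hx => hx.1)
      ⟨a, a.2, fun he => ha (Subtype.ext he)⟩ (conjRight_subset_iff.2 fun x hx => hx.2)
    refine rtg_iff_fin.2 ⟨n, fun i => Fin.partialProd y i •ᶜ (S : Subgroup G), ?_, ?_, fun i => ?_⟩
    · simp only [Fin.partialProd_zero, cj_one]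
    · simp only [Fin.partialProd, Fin.val_last]
      rw [List.take_of_length_le (by simp), h3, cj_mul, cj_eq_of_mem_normalizer h1]
    · obtain ⟨k1, k2⟩ := mem_sylowMembers_iff.1 (h2 i).1
      have e : Fin.partialProd y i.succ •ᶜ Y i = Fin.partialProd y i.castSucc •ᶜ Y i := by
        rw [Fin.partialProd_succ, cj_mul, cj_eq_of_mem (h2 i).2]
      refine ⟨Fin.partialProd y i.castSucc •ᶜ Y i, ?_, ?_, ?_, _, conj_mem_cj (h2 i).2, ?_, ?_⟩
      · have := h𝓕 _ k1 (Fin.partialProd y i.castSucc)⁻¹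
        rwa [subgroupConjRight, inv_inv] at this
      · simp only [← cj_inf]; exact k2.cj _
      · simp only [← e, ← cj_inf]; exact k2.cj _
      · simp only [Fin.partialProd_succ, ← cj_mul]
        congr 3
        group
      · have := h4 i
        change conjRight (Fin.partialProd y i.succ) _ ⊆
          (((S : Subgroup G) ⊓ Y i : Subgroup G) : Set G) at this
        rw [conjRight_subset_iff, cj_inf, e] at this
        exact this

end Cfsg.Agent.S2939
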