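import Cfsg.Statements.S2955
import Cfsg.Agent.TECH.SylCtl

set_option autoImplicit false
open Cfsg

namespace Cfsg.Agent.S2955

open CL.MSS Subgroup Relation

/-- Let p be a prime dividing the order of the finite group G and 𝓕 a conjugation-closed family of subgroups that controls Sylow p-intersections in G. Suppose the Sylow p-subgroups of G are chain-connected: any two of them are joined by a chain of Sylow p-subgroups, consecutive ones distinct with nontrivial intersection, all containing the intersection of the two ends (equivalently, the graph on the Sylow p-subgroups whose edges are the distinct pairs meeting nontrivially is connected). Then for every Sylow p-subgroup S, G is generated by N_G(S) together with the members of 𝓕 that meet S in a Sylow p-subgroup of themselves. -/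
theorem result {G : Type*} [Group G] [Finite G] (p : ℕ) [Fact p.Prime] (hdiv : p ∣ Nat.card G)
    (𝓕 : Set (Subgroup G)) (h𝓕 : Cfsg.IsNormalSet 𝓕) (hc : Cfsg.ControlsSylowIntersections p 𝓕)
    (hconn : Cfsg.IsSylowChainConnected p G) (S : Sylow p G) :
    (⨆ X ∈ Cfsg.sylowMembers p 𝓕 (S : Subgroup G), X) ⊔ Subgroup.normalizer ((S : Subgroup G) : Set G) = ⊤ := by
  set H := (⨆ X ∈ sylowMembers p 𝓕 (S : Subgroup G), X) ⊔ normalizer ((S : Subgroup G) : Set G)
  have step : ∀ D A B : Subgroup G, ReflTransGen (SStep p 𝓕 D) A B →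
      (∃ h ∈ H, h •ᶜ (S : Subgroup G) = A) → ∃ h ∈ H, h •ᶜ (S : Subgroup G) = B := by
    intro D A B hAB hA
    induction hAB with
    | refl => exact hA
    | tail _ k ih =>
      obtain ⟨h, hh, rfl⟩ := ih
      obtain ⟨X, k1, k2, -, x, k4, k5, -⟩ := k
      have k6 := k2.cj h⁻¹
      rw [cj_inf, inv_cj_cj] at k6
      have k7 : h⁻¹ •ᶜ X ≤ H := le_sup_of_le_left
        (le_iSup₂_of_le (f := fun X (_ : X ∈ sylowMembers p 𝓕 (S : Subgroup G)) => X) _
          (mem_sylowMembers_iff.2 ⟨h𝓕 X k1 h, k6⟩) le_rfl)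
      have k8 : x ∈ H := by
        have := H.mul_mem (H.mul_mem hh (k7 (conj_mem_cj k4))) (H.inv_mem hh)
        simpa [mul_assoc] using this
      exact ⟨x * h, H.mul_mem k8 hh, by rw [cj_mul, ← k5, cj_inv_cj]⟩
  refine eq_top_iff.2 fun g _ => ?_
  obtain ⟨n, c, h0, hl, -, hc'⟩ := hconn S (g • S)
  have : ∀ i, ∃ h ∈ H, h •ᶜ (S : Subgroup G) = c i := by
    intro i
    induction i using Fin.induction with
    | zero => exact ⟨1, one_mem _, by rw [cj_one, h0]⟩
    | succ i ih => exact step _ _ _ (csi_iff.1 hc _ _ (sylIn_top _) (sylIn_top _) (hc' i).2) ih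
  obtain ⟨h, hh, he⟩ := this (Fin.last n)
  rw [hl, sylow_coe_smul] at he
  have h1 : h⁻¹ * g ∈ H := mem_sup_right (mem_normalizer_iff_cj.2 (by rw [cj_mul, ← he, inv_cj_cj]))
  simpa using H.mul_mem hh h1

end Cfsg.Agent.S2955
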