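import Cfsg.Statements.S2956
import Cfsg.Agent.TECH.SylCtl

set_option autoImplicit false
open Cfsg

namespace Cfsg.Agent.S2956

open CL.MSS Subgroup Relation

/-- Let p be a prime dividing the order of the finite group G, and f an assignment to every p-subgroup P of a set f(P) of subgroups of P, each normalized by N_G(P), compatible with conjugation, such that for P ≠ 1 the members of f(P) are nontrivial. Let 𝓕 be the family of the normalizers N_G(F) of the members F of f(S) over the Sylow p-subgroups S of G, and 𝓕' the family of the maximal p-local subgroups M of G that are singular for f (the corresponding family of normalizers inside M does not control Sylow p-intersections in M). Then 𝓕 ∪ 𝓕' controls Sylow p-intersections in G. -/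
theorem result {G : Type*} [Group G] [Finite G] (p : ℕ) [Fact p.Prime] (hdiv : p ∣ Nat.card G)
    (f : Subgroup G → Set (Subgroup G)) (hf : Cfsg.IsNormalizerFunctor p f)
    (hf1 : ∀ P : Subgroup G, IsPGroup p ↥P → P ≠ ⊥ → ∀ F ∈ f P, F ≠ ⊥)
    (𝓕 𝓕' : Set (Subgroup G)) (h𝓕 : 𝓕 = Cfsg.functorFamily p f ⊤)
    (h𝓕' : 𝓕' = {M | Cfsg.IsMaximalPLocal p M ∧ ¬ Cfsg.IsFunctorRegular p f M}) :
    Cfsg.ControlsSylowIntersections p (𝓕 ∪ 𝓕') := by
  subst h𝓕
  refine csi_iff.2 fun S T hS hT hne => ?_
  suffices h : ∀ D : Subgroup G, D ≠ ⊥ → ∀ S T : Subgroup G, SylIn p S ⊤ → SylIn p T ⊤ →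
      D ≤ S ⊓ T → ReflTransGen (SStep p (functorFamily p f ⊤ ∪ 𝓕') D) S T from
    h _ hne S T hS hT le_rfl
  intro D
  induction D using WellFoundedGT.induction with
  | ind D ih =>
  intro hD
  have ih' : ∀ S T : Subgroup G, SylIn p S ⊤ → SylIn p T ⊤ → D < S ⊓ T →
      ReflTransGen (SStep p (functorFamily p f ⊤ ∪ 𝓕') D) S T := fun S T hS hT hlt =>
    rtg_sstep_mono (ih _ hlt (ne_bot_of_gt hlt) S T hS hT le_rfl) le_rfl hlt.le
  have inner : ∀ (k : ℕ) (N P : Subgroup G), IsPLocal p N → SylIn p P N →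
      Nat.card G - Nat.card P = k → ∀ S T : Subgroup G, SylIn p S ⊤ → SylIn p T ⊤ →
      D < S ⊓ N → D < T ⊓ N → ReflTransGen (SStep p (functorFamily p f ⊤ ∪ 𝓕') D) S T := by
    intro k
    induction k using Nat.strong_induction_on with
    | _ k ihk =>
    intro N P hN hP hk S T hS hT h1 h2
    obtain ⟨M, hNM, hM⟩ := exists_maximal_ge_of_wellFoundedGT (IsPLocal p) N hN
    have hM' : IsMaximalPLocal p M := ⟨hM.1, fun K hK hle => le_antisymm (hM.2 hK hle) hle⟩
    obtain ⟨S₁, hS₁, k1⟩ := exists_sylIn_ge (hS.pgroup.to_inf_left (K := M)) inf_le_right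
    obtain ⟨T₁, hT₁, k2⟩ := exists_sylIn_ge (hT.pgroup.to_inf_left (K := M)) inf_le_right
    have l1 : D < S ⊓ S₁ := h1.trans_le (le_inf inf_le_left ((inf_le_inf_left S hNM).trans k1))
    have l2 : D < T₁ ⊓ T := h2.trans_le (le_inf ((inf_le_inf_left T hNM).trans k2) inf_le_left)
    have l3 : D < S₁ := l1.trans_le inf_le_right
    have l4 : D < T₁ := l2.trans_le inf_le_left
    by_cases hreg : IsFunctorRegular p f M
    · have hc := rtg_sstep_mono (rtg_of_csi_subgroupOf le_of_mem_functorFamily hreg hS₁ hT₁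
        (fun hb => hD (le_bot_iff.1 (hb ▸ le_inf l3.le l4.le)))) le_rfl (le_inf l3.le l4.le)
      have key : ∀ B, ReflTransGen (SStep p (functorFamily p f M) D) S₁ B → D ≤ B ∧
          ∀ Q, SylIn p Q ⊤ → B ≤ Q → ReflTransGen (SStep p (functorFamily p f ⊤ ∪ 𝓕') D) S Q := by
        intro B hB
        induction hB with
        | refl => exact ⟨l3.le, fun Q hQ hle => ih' S Q hS hQ (l1.trans_le (inf_le_inf_left S hle))⟩
        | @tail A B hA st ihA =>
          have hA' := rtg_sstep_sylIn hA le_of_mem_functorFamily hS₁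
          have hB' := st.sylIn le_of_mem_functorFamily hA'
          obtain ⟨P', hP', F, hF, m1, m2, x, m3, m4, m5⟩ := st.functor_cases hf hA'
          refine ⟨m5, fun Q hQ hle => ?_⟩
          obtain ⟨QA, hQA, m6⟩ := exists_sylIn_ge hA'.pgroup (le_top (a := A))
          refine (ihA.2 QA hQA m6).trans ?_
          by_cases hP'' : SylIn p P' ⊤
          · have hA'' := hA'.trans_of_sylIn le_top hP'' hP'.le
            have hB'' := hB'.trans_of_sylIn le_top hP'' hP'.le
            rw [hA''.max QA hQA.pgroup m6 le_top, hB''.max Q hQ.pgroup hle le_top]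
            exact ReflTransGen.single
              ((sstep_functor_top hP'' hF hA'' hB'' m1 m2 m3 m4 m5).mono Set.subset_union_left le_rfl)
          · have hlt : ∀ C, SylIn p C M → D ≤ C → D < C := fun C hC hle =>
              lt_of_le_of_ne hle fun he => l3.ne (eq_of_le_of_card_ge l3.le
                (by rw [he]; exact (hS₁.card_eq hC).le))
            have hF' := (hf P' hP'.pgroup).1 F hF
            have hP1 : P' ≠ ⊥ := fun hb => by
              have := hP'.card_eq hS₁
              rw [hb, card_bot, eq_comm, card_eq_one] at this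
              exact ne_bot_of_gt l3 this
            obtain ⟨P₂, hP₂, m7⟩ := exists_sylIn_ge hP'.pgroup (le_normalizer.trans hF'.2)
            have m8 : P' ≠ P₂ := fun he => hP'' ((he ▸ hP₂ : SylIn p P' _).of_normalizer_le le_top
              (inf_le_right.trans hF'.2))
            have m9 : Nat.card P < Nat.card P₂ := (hP'.card_le hP.pgroup (hP.le.trans hNM)).trans_lt
              (lt_of_le_of_ne (card_le_of_le m7) fun he => m8 (eq_of_le_of_card_ge m7 he.ge))
            refine ihk _ ?_ _ P₂ ⟨F, hP'.pgroup.to_le hF'.1, hf1 P' hP'.pgroup hP1 F hF, rfl⟩ hP₂ rfl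
              QA Q hQA hQ ((hlt A hA' ihA.1).trans_le (le_inf m6 m1))
              ((hlt B hB' m5).trans_le (le_inf hle m2))
            have := card_le_card_group P₂
            omega
      obtain ⟨T₂, hT₂, k3⟩ := exists_sylIn_ge hT₁.pgroup (le_top (a := T₁))
      exact ((key _ hc).2 T₂ hT₂ k3).trans
        (ih' T₂ T hT₂ hT (l2.trans_le (inf_le_inf_right T k3)))
    · obtain ⟨x, hx, he⟩ := hS₁.exists_conj hT₁
      obtain ⟨S₂, hS₂, k3⟩ := exists_sylIn_ge hS₁.pgroup (le_top (a := S₁))
      have k4 : T₁ ≤ x •ᶜ S₂ := he ▸ cj_mono x k3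
      have hT₂ := hS₂.cj_of_mem (mem_top x)
      have e : ∀ A B : Subgroup G, SylIn p A M → IsPGroup p B → A ≤ B → SylIn p (B ⊓ M) M :=
        fun A B hA hB hle => by
          rwa [hA.max _ hB.to_inf_left (le_inf hle hA.le) inf_le_right]
      refine ((ih' S S₂ hS hS₂ (l1.trans_le (inf_le_inf_left S k3))).tail ?_).trans
        (ih' _ T hT₂ hT (l2.trans_le (inf_le_inf_right T k4)))
      exact ⟨M, Or.inr (h𝓕' ▸ ⟨hM', hreg⟩), e _ _ hS₁ hS₂.pgroup k3, e _ _ hT₁ hT₂.pgroup k4,
        x, hx, inv_cj_cj _ _, le_inf (l4.le.trans k4) (l4.le.trans hT₁.le)⟩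
  intro S T hS hT hle
  rcases hle.eq_or_lt with he | hlt
  swap
  · exact ih' S T hS hT hlt
  by_cases hST : S = T
  · rw [hST]
  have hDp : IsPGroup p D := hS.pgroup.to_le (hle.trans inf_le_left)
  obtain ⟨P, hP⟩ := exists_sylIn p (normalizer (D : Set G))
  refine inner _ _ P ⟨D, hDp, hD, rfl⟩ hP rfl S T hS hT
    (lt_inf_normalizer_of_lt hS.pgroup (lt_of_le_of_ne (hle.trans inf_le_left) fun h => hST ?_))
    (lt_inf_normalizer_of_lt hT.pgroup (lt_of_le_of_ne (hle.trans inf_le_right) fun h => hST ?_))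
  · exact (hS.max T hT.pgroup (h.ge.trans (hle.trans inf_le_right)) le_top).symm
  · exact hT.max S hS.pgroup (h.ge.trans (hle.trans inf_le_left)) le_top

end Cfsg.Agent.S2956
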