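import Cfsg.Statements.S2958
import Cfsg.Agent.TECH.Conj

set_option autoImplicit false
open Cfsg

namespace Cfsg.Agent.S2958

open Subgroup CL.MSS

/-- Let X, A, B be subgroups of a group G such that G is generated by the conjugates of X and every conjugate of X is contained in A or in B. Then A = G or B = G. -/
theorem result {G : Type*} [Group G] (X A B : Subgroup G) (hgen : (⨆ g : G, X.map (MulAut.conj g).toMonoidHom) = ⊤) (hcover : ∀ g : G, X.map (MulAut.conj g).toMonoidHom ≤ A ∨ X.map (MulAut.conj g).toMonoidHom ≤ B) : A = ⊤ ∨ B = ⊤ := by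
  rw [or_iff_not_imp_left]
  intro hA
  set B₀ : Subgroup G := ⨆ g : {g : G // ¬ g •ᶜ X ≤ A}, (g : G) •ᶜ X with hB₀
  have h1 : B₀ ≤ B := iSup_le fun g => (hcover g).resolve_left g.2
  have h2 : A ≤ normalizer (B₀ : Set G) := le_normalizer_of_cj_le fun a ha => by
    rw [hB₀, cj_iSup]
    refine iSup_le fun g => ?_
    rw [← cj_mul]
    refine le_iSup (fun g : {g : G // ¬ g •ᶜ X ≤ A} => (g : G) •ᶜ X) ⟨a * g, fun h => g.2 ?_⟩
    rwa [cj_mul, cj_le_iff, cj_eq_of_mem (inv_mem ha)] at h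
  have h3 : B₀.Normal := by
    rw [← normalizer_eq_top_iff, eq_top_iff, ← hgen]
    refine iSup_le fun g => ?_
    by_cases h : g •ᶜ X ≤ A
    · exact h.trans h2
    · exact (le_iSup (fun g : {g : G // ¬ g •ᶜ X ≤ A} => (g : G) •ᶜ X) ⟨g, h⟩).trans le_normalizer
  obtain ⟨g, hg⟩ : ∃ g : G, ¬ g •ᶜ X ≤ A := by
    by_contra h
    push Not at h
    exact hA (top_le_iff.1 (hgen ▸ iSup_le h))
  rw [eq_top_iff, ← hgen]
  refine iSup_le fun k => le_trans ?_ h1
  have := cj_mono (k * g⁻¹) (le_iSup (fun g : {g : G // ¬ g •ᶜ X ≤ A} => (g : G) •ᶜ X) ⟨g, hg⟩)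
  rwa [← hB₀, cj_eq_of_normal _ B₀, ← cj_mul, inv_mul_cancel_right] at this

end Cfsg.Agent.S2958
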