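import Cfsg.Statements.S2960
import Cfsg.Agent.TECH.SubnP

set_option autoImplicit false
open Cfsg

namespace Cfsg.Agent.S2960

open CL.MSS Subgroup

/-- Let G be a finite group of characteristic p (C_G(O_p(G)) ≤ O_p(G)), p prime, T a Sylow p-subgroup of G and Q a normal subgroup of T with C_T(Q) ≤ Q. Then C_G(Q) ≤ Q. -/
theorem result {G : Type*} [Group G] [Finite G] {p : ℕ} [Fact p.Prime] (hG : Subgroup.centralizer (Cfsg.pCore p G : Set G) ≤ Cfsg.pCore p G) (T : Sylow p G) (Q : Subgroup G) (hQT : Q ≤ (T : Subgroup G)) (hQn : (T : Subgroup G) ≤ Subgroup.normalizer (Q : Set G)) (hC : (T : Subgroup G) ⊓ Subgroup.centralizer (Q : Set G) ≤ Q) : Subgroup.centralizer (Q : Set G) ≤ Q := by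
  have h1 : IsPGroup p (centralizer (Q : Set G)) := by
    refine isPGroup_of_forall_coprime fun x hxC hx => ?_
    refine eq_one_of_coprime_of_mem pcore_isPGroup hx (hG ?_)
    refine pxq_lemma pcore_isPGroup (T.isPGroup'.to_le hQT) le_normalizer_of_normal hx
      (le_normalizer_of_normal (K := ⊤) (mem_top x)) (fun y hy => ?_) ?_
    · rw [mem_centralizer_iff_commutator_eq_one.1 hxC y hy]; exact one_mem _
    · exact centralizer_le (SetLike.coe_subset_coe.2
        ((inf_le_inf_right _ (pcore_le_sylow T)).trans hC)) hxC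
  exact (le_inf ((sylIn_top T).le_of_normalized h1 le_top (le_normalizer_centralizer hQn))
    le_rfl).trans hC

end Cfsg.Agent.S2960
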