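import Cfsg.Statements.S2961
import Cfsg.Agent.TECH.SubnP
import Cfsg.Agent.TECH.NClos
import Cfsg.Agent.SIG.Quasisimple

set_option autoImplicit false
open Cfsg

namespace Cfsg.Agent.S2961

open CL.MSS Subgroup
open scoped commutatorElement

/-- Let G be a finite group of characteristic p (C_G(O_p(G)) ≤ O_p(G)), p prime, T a Sylow p-subgroup of G and Q a normal subgroup of T with C_T(Q) ≤ Q. Then every subgroup L of G containing Q has characteristic p: C_L(O_p(L)) ≤ O_p(L). -/
theorem result {G : Type*} [Group G] [Finite G] {p : ℕ} [Fact p.Prime] (hG : Subgroup.centralizer (Cfsg.pCore p G : Set G) ≤ Cfsg.pCore p G) (T : Sylow p G) (Q : Subgroup G) (hQT : Q ≤ (T : Subgroup G)) (hQn : (T : Subgroup G) ≤ Subgroup.normalizer (Q : Set G)) (hC : (T : Subgroup G) ⊓ Subgroup.centralizer (Q : Set G) ≤ Q) (L : Subgroup G) (hQL : Q ≤ L) : Subgroup.centralizer (Cfsg.pCore p ↥L : Set ↥L) ≤ Cfsg.pCore p ↥L := by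
  rw [CL.MSS.charP_iff]
  set O := Cfsg.pCore p G with hO
  set D := L ⊓ centralizer (Cfsg.pCoreOf p L : Set G) with hD
  have hOn : O.Normal := inferInstance
  have hn : ∀ X : Subgroup G, X ≤ normalizer (O : Set G) := fun X => le_normalizer_of_normal
  have hOT : O ≤ T := pcore_le_sylow T
  have hLD : L ≤ normalizer (D : Set G) :=
    le_normalizer_inf le_normalizer (le_normalizer_centralizer (le_normalizer_pcoreOf L))
  have hOL : L ≤ normalizer ((O ⊓ L : Subgroup G) : Set G) := le_normalizer_inf (hn _) le_normalizer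
  have hOLp : IsPGroup p (O ⊓ L : Subgroup G) := pcore_isPGroup.to_le inf_le_left
  have h1 : O ⊓ L ≤ Cfsg.pCoreOf p L := le_pcoreOf inf_le_right hOL hOLp
  have h2 : ⁅O, ncl Q L⁆ ≤ O ⊓ L := by
    rw [ncl_def]
    refine CL.Comp.commutator_iSup_le (fun k => (cj_le_of_mem hQL k.2).trans hOL) fun k => ?_
    have h : ⁅O, Q⁆ ≤ O ⊓ L := le_inf (commutator_le_left _ _)
      ((commutator_le_right_of_normalizes (hOT.trans hQn)).trans hQL)
    have := cj_mono (k : G) h
    rwa [cj_commutator, cj_eq_of_normal, cj_eq_of_mem_normalizer (hOL k.2)] at this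
  have h0 : ∀ x : G, (orderOf x).Coprime p → x ∈ centralizer (O : Set G) → x = 1 := fun x h1 h2 =>
    eq_one_of_coprime_of_mem pcore_isPGroup h1 (hG h2)
  have h3 : IsPGroup p (ncl Q L ⊓ D : Subgroup G) := isPGroup_of_forall_coprime fun x hx hx' =>
    h0 x hx' (mem_centralizer_of_two_step hOLp hx'
      (fun v hv => h2 (commutator_mem_commutator hv hx.1)) (centralizer_le h1 hx.2.2))
  have h4 : ⁅Q, D⁆ ≤ Cfsg.pCoreOf p L := by
    refine le_trans (le_inf ?_ (commutator_le_right_of_normalizes (hQL.trans hLD)))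
      (le_pcoreOf (inf_le_right.trans inf_le_left) (le_normalizer_inf (ncl_normal Q L) hLD) h3)
    exact (commutator_mono le_rfl inf_le_left).trans (commutator_le_ncl Q L)
  refine le_pcoreOf inf_le_left hLD (isPGroup_of_forall_coprime fun x hx hx' => h0 x hx' ?_)
  have h5 : x ∈ centralizer (Q : Set G) := mem_centralizer_of_two_step (pcoreOf_isPGroup L) hx'
    (fun v hv => h4 (commutator_mem_commutator hv hx)) hx.2
  refine pxq_lemma pcore_isPGroup (T.isPGroup'.to_le hQT) (hn _) hx' (hn ⊤ (mem_top x))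
    (fun y hy => ?_) (centralizer_le ((inf_le_inf_right _ hOT).trans hC) h5)
  rw [commutatorElement_eq_one_iff_mul_comm.2 (h5 y hy)]
  exact one_mem _

end Cfsg.Agent.S2961
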