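import Cfsg.Statements.S2963
import Mathlib.GroupTheory.Perm.MaximalSubgroups

set_option autoImplicit false
set_option linter.unusedVariables false
open Cfsg

namespace Cfsg.Agent.S2963

open scoped Pointwise

/-- Let n be odd. If the symmetric group of degree n is a minimal parabolic group for the prime 2, that is, a Sylow 2-subgroup is not normal and lies in exactly one maximal subgroup, then n = 2^m + 1 for some natural number m. -/
theorem result (n : ℕ) (hn : Odd n) (h : Cfsg.IsPMinimal 2 (Equiv.Perm (Fin n))) : ∃ m : ℕ, n = 2 ^ m + 1 := by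
  have : Fact (Nat.Prime 2) := ⟨Nat.prime_two⟩
  let S : Sylow 2 (Equiv.Perm (Fin n)) := default
  obtain ⟨hnn, M, -, hM⟩ := h S
  have hodd : ¬ 2 ∣ Nat.card (Fin n) := by
    rw [Nat.card_eq_fintype_card, Fintype.card_fin]
    exact hn.not_two_dvd_nat
  obtain ⟨a, ha⟩ := S.isPGroup'.nonempty_fixed_point_of_prime_not_dvd_card (Fin n) hodd
  obtain ⟨b, hb⟩ : ∃ b, b ≠ a := by
    by_contra hh
    push Not at hh
    have : Subsingleton (Fin n) := ⟨fun x y => by rw [hh x, hh y]⟩
    apply hnn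
    rw [Subsingleton.elim (S : Subgroup (Equiv.Perm (Fin n))) ⊥]
    infer_instance
  have hco : ∀ s : Set (Fin n), s.Nonempty → sᶜ.Nonempty →
      (∀ g : (S : Subgroup (Equiv.Perm (Fin n))), ∀ x ∈ s, g • x ∈ s) →
      MulAction.stabilizer (Equiv.Perm (Fin n)) s = M := by
    intro s h1 h2 h3
    refine hM _ ⟨Equiv.Perm.isCoatom_stabilizer h1 h2 ?_, ?_⟩
    · rw [Nat.card_eq_fintype_card, Fintype.card_fin]
      intro h
      exact hn.not_two_dvd_nat ⟨_, h⟩
    · intro g hg
      rw [MulAction.mem_stabilizer_set]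
      intro x
      refine ⟨fun hx => ?_, h3 ⟨g, hg⟩ x⟩
      have := h3 ⟨g, hg⟩⁻¹ _ hx
      rwa [show (⟨g, hg⟩⁻¹ : (S : Subgroup (Equiv.Perm (Fin n)))) • g • x = x from inv_smul_smul g x] at this
  let O := MulAction.orbit (S : Subgroup (Equiv.Perm (Fin n))) b
  have haO : a ∉ O := by
    rintro ⟨g, hg⟩
    apply hb
    have h1 : g⁻¹ • a = a := ha g⁻¹
    simp only at hg
    rw [← h1, ← hg, inv_smul_smul]
  by_cases hO : O = {a}ᶜ
  · obtain ⟨m, hm⟩ := S.isPGroup'.card_orbit b
    refine ⟨m, ?_⟩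
    have h1 := Set.ncard_add_ncard_compl ({a} : Set (Fin n))
    rw [← hO, Set.ncard_singleton, Nat.card_eq_fintype_card, Fintype.card_fin,
      ← Nat.card_coe_set_eq, hm] at h1
    omega
  · exfalso
    obtain ⟨c, hc, hca⟩ : ∃ c, c ∉ O ∧ c ≠ a := by
      by_contra hh
      push Not at hh
      apply hO
      ext x
      refine ⟨fun hx e => haO (e ▸ hx), fun hx => ?_⟩
      by_contra hx'
      exact hx (hh x hx')
    have e1 := hco O ⟨b, MulAction.mem_orbit_self b⟩ ⟨a, haO⟩ (by
      rintro g _ ⟨k, rfl⟩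
      exact ⟨g * k, mul_smul g k b⟩)
    have e2 := hco {a} ⟨a, rfl⟩ ⟨b, hb⟩ (by
      rintro g _ rfl
      exact ha g)
    have h1 : Equiv.swap b c ∈ MulAction.stabilizer (Equiv.Perm (Fin n)) ({a} : Set (Fin n)) := by
      rw [MulAction.mem_stabilizer_iff, Set.smul_set_singleton, Equiv.Perm.smul_def,
        Equiv.swap_apply_of_ne_of_ne hb.symm hca.symm]
    rw [e2, ← e1, MulAction.mem_stabilizer_set] at h1
    apply hc
    have := (h1 b).2 (MulAction.mem_orbit_self b)
    rwa [Equiv.Perm.smul_def, Equiv.swap_apply_left] at this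

end Cfsg.Agent.S2963
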