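import Cfsg.Statements.S2981
import Cfsg.Agent.TECH.BHS12

set_option autoImplicit false
open Cfsg

namespace Cfsg.Agent.S2981

/-- The local C**(G,T)-Theorem for minimal parabolic groups. Let G be a finite p-minimal group (a Sylow p-subgroup T is not normal and lies in exactly one maximal subgroup) of characteristic p (C_G(O_p(G)) ≤ O_p(G)), and suppose G ≠ C**(G,T), the subgroup generated by C_G(Ω₁(Z(T))) and N_G(J(T)) (J(T) generated by the elementary abelian p-subgroups of T of largest order). Put V = Ω₁(Z(O_p(G))) and C = C_G(V). Then there are subgroups E₁, …, E_r of G containing C such that: J(G)TC = G and the E_i C/C form an internal direct product equal to J(G)C/C; any two of the E_i are conjugate by an element of T; V = C_V(⟨E_i⟩)·∏[V, E_i] with [V, E_i, E_j] = 1 for i ≠ j; for some n ≥ 1, each E_i/C is isomorphic to SL₂(pⁿ), or p = 2 and to the symmetric group of degree 2ⁿ + 1; and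 E_i acts on [V, E_i]/C_{[V,E_i]}(E_i) as the natural two-dimensional SL₂(pⁿ)-module, respectively as the symmetric group of degree 2ⁿ+1 on its even-weight permutation module. -/
theorem result {G : Type*} [Group G] [Finite G] {p : ℕ} [Fact p.Prime] (hmin : Cfsg.IsPMinimal p G) (hG : Subgroup.centralizer (Cfsg.pCore p G : Set G) ≤ Cfsg.pCore p G) (T : Sylow p G) (hne : Cfsg.cStarStarOf p (T : Subgroup G) ≠ ⊤) : ∃ (r : ℕ) (E : Fin r → Subgroup G), (∀ i, Subgroup.centralizer (Cfsg.omegaOneCenter p (Cfsg.pCore p G) : Set G) ≤ E i) ∧ Cfsg.thompsonSubgroup p G ⊔ (T : Subgroup G) ⊔ Subgroup.centralizer (Cfsg.omegaOneCenter p (Cfsg.pCore p G) : Set G) = ⊤ ∧ (⨆ i, E i) = Cfsg.thompsonSubgroup p G ⊔ Subgroup.centralizer (Cfsg.omegaOneCenter p (Cfsg.pCore p G) : Set G) ∧ (∀ i j, i ≠ j → ⁅E i, E j⁆ ≤ Subgroup.centralizer (Cfsg.omegaOneCenter p (Cfsg.pCore p G) : Set G)) ∧ (∀ i, E i ⊓ (⨆ j ∈ {j | j ≠ i},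 E j) ≤ Subgroup.centralizer (Cfsg.omegaOneCenter p (Cfsg.pCore p G) : Set G)) ∧ (∀ i j, ∃ t ∈ (T : Subgroup G), (E i).map (MulAut.conj t).toMonoidHom = E j) ∧ (Cfsg.omegaOneCenter p (Cfsg.pCore p G) ⊓ Subgroup.centralizer ((⨆ i, E i : Subgroup G) : Set G)) ⊔ (⨆ i, ⁅Cfsg.omegaOneCenter p (Cfsg.pCore p G), E i⁆) = Cfsg.omegaOneCenter p (Cfsg.pCore p G) ∧ (∀ i j, i ≠ j → ⁅⁅Cfsg.omegaOneCenter p (Cfsg.pCore p G), E i⁆, E j⁆ = ⊥) ∧ ∀ i, ∃ n : ℕ, 1 ≤ n ∧ ((∃ (F : Type) (_ : Field F) (_ : Fintype F), Fintype.card F = p ^ n ∧ (∃ _ : ((Subgroup.centralizer (Cfsg.omegaOneCenter p (Cfsg.pCore p G) : Set G)).subgroupOf (E i)).Normal, Nonempty (↥(E i) ⧸ (Subgroup.centralizer (Cfsg.omegaOneCenter p (Cfsg.pCore p G) : Set G)).subgroupOf (E i) ≃* Matrix.SpecialLinearGroup (Fin 2) F)) ∧ Cfsg.ActsAsSL2OnSection F ⊤ (E i) ⁅Cfsg.omegaOneCenter p (Cfsg.pCore p G), E i⁆ (⁅Cfsg.omegaOneCenter p (Cfsg.pCore p G), E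 i⁆ ⊓ Subgroup.centralizer ((E i : Subgroup G) : Set G))) ∨ (p = 2 ∧ (∃ _ : ((Subgroup.centralizer (Cfsg.omegaOneCenter p (Cfsg.pCore p G) : Set G)).subgroupOf (E i)).Normal, Nonempty (↥(E i) ⧸ (Subgroup.centralizer (Cfsg.omegaOneCenter p (Cfsg.pCore p G) : Set G)).subgroupOf (E i) ≃* Equiv.Perm (Fin (2 ^ n + 1)))) ∧ Cfsg.ActsAsOddPermModuleOnSection (2 ^ n + 1) ⊤ (E i) ⁅Cfsg.omegaOneCenter p (Cfsg.pCore p G), E i⁆ (⁅Cfsg.omegaOneCenter p (Cfsg.pCore p G), E i⁆ ⊓ Subgroup.centralizer ((E i : Subgroup G) : Set G)))) := by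
  open CL.BHS CL.Th CL.MSS Subgroup in
  have hS := sylIn_top T
  obtain ⟨hn, M, u⟩ := (isPMinimal_iff hS).1 (isPMinimal_top_iff.2 hmin)
  have hM : cStarStarOf p (T : Subgroup G) ≤ M := (u.le_or_eq
    ((le_normalizer_thompsonSubgroupOf _).trans le_sup_right) le_top).resolve_right hne
  have h : PM p (T : Subgroup G) M := ⟨⟨hS, u, hn⟩, hG, le_sup_left.trans hM, le_sup_right.trans hM⟩
  let F := stdModel (vz p G)
  have d := h.dm F
  have m := (h.mp F).toMP₀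
  obtain ⟨-, -, D, hD, -⟩ := h.exists_A F
  obtain ⟨B, hB, hBM⟩ := m.exists_omega d hD
  obtain ⟨r, E, e1, e2, e3, e4, e5, e6, -⟩ := d.exists_enum
  have eE : ∀ i, ((E i).comap F.σ).map F.σ = E i := fun i => by
    obtain ⟨B, -, -, e⟩ := e1 i
    exact F.map_comap_top (e ▸ d.comp_le)
  have hW : ∀ X : Subgroup G, ⁅vz p G, X⁆ ≤ vz p G := fun X => commutator_le_left _ _
  have f4 : ∀ i j, i ≠ j → ⁅vz p G, (E i).comap F.σ⁆ ≤ centralizer ((E j).comap F.σ : Set G) :=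
    fun i j hij => by
      rw [← F.lift_le_cent (hW _), ← F.comm_range, eE, eE]; exact e4 i j hij
  refine ⟨r, fun i => (E i).comap F.σ, fun i => F.cent_le_comap _, ?_, ?_, fun i j hij => ?_,
    fun i x hx => ?_, fun i j => ?_, sup_of_forall (oz_elem _).1 (fun _ => le_normalizer_of_normal)
      (fun i => ?_) f4, fun i j hij => commutator_eq_bot_iff_le_centralizer.2 (f4 i j hij),
    fun i => ?_⟩
  · rw [eq_top_iff, ← F.map_le_map', Subgroup.map_sup, h.J_map F, m.om_sup d hD]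
  · obtain ⟨i, -⟩ := e2 B hB hBM
    rw [← F.comap_map', h.J_map F, ← e5, ← sup_eq_left.2 ((F.cent_le_comap (E i)).trans
      (le_iSup (fun i => (E i).comap F.σ) i)), ← F.comap_map', Subgroup.map_iSup]
    simp only [eE]
  · rw [← F.ker, ← Subgroup.map_eq_bot_iff, map_commutator, eE, eE]
    exact commutator_eq_bot_iff_le_centralizer.2 (e3 i j hij)
  · rw [← F.ker]
    exact (e6 i).le (⟨hx.1, (iSup₂_le fun j hj => comap_mono (le_iSup₂_of_le j hj le_rfl) :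
      _ ≤ (⨆ j ∈ {j | j ≠ i}, E j).comap F.σ) hx.2⟩ : F.σ x ∈ E i ⊓ _)
  · obtain ⟨B, hB, hBM, e⟩ := e1 i
    obtain ⟨C, hC, hCM, e'⟩ := e1 j
    obtain ⟨_, ⟨t, ht, rfl⟩, e''⟩ := m.comp_conj d hB hBM hC hCM
    refine ⟨t, ht, ?_⟩
    show t •ᶜ (E i).comap F.σ = (E j).comap F.σ
    rw [e', ← e'', ← e]
    ext x
    rw [mem_cj, mem_comap, mem_comap, mem_cj, map_mul, map_mul, map_inv]
  · obtain ⟨B, hB, hBM, e⟩ := e1 i
    rw [← F.lift_inj (sup_le (hW _) inf_le_left) le_rfl, F.lift_sup (hW _) inf_le_left,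
      ← F.comm_range, ← F.range_inf_centralizer, eE, F.lift_self, e]
    exact d.comp_sup hB hBM
  · obtain ⟨B, hB, hBM, e⟩ := e1 i
    have c := m.comp_ctype d hB hBM
    rw [← e, ← eE, CType, F.comm_range, F.lift_inf_cent (hW _)] at c
    obtain ⟨n, hn, ⟨k, _, _, c1, ⟨c2⟩, c3⟩ | ⟨c1, ⟨c2⟩, c3⟩⟩ := c
    · exact ⟨n, hn, Or.inl ⟨k, inferInstance, inferInstance, c1, F.quot_iso _ c2,
        F.actsAs_sl (hW _) inf_le_left c3⟩⟩
    · exact ⟨n, hn, Or.inr ⟨c1, F.quot_iso _ c2, F.actsAs_sym (hW _) inf_le_left c3⟩⟩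

end Cfsg.Agent.S2981
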