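import Cfsg.Statements.S2989
import Cfsg.Agent.TECH.PushBaum

set_option autoImplicit false
open Cfsg

namespace Cfsg.Agent.S2989

/-- Let G be a finite group and S a Sylow p-subgroup of G in the basic pushing-up situation (G ≠ 1, C_G(O_p(G)) ≤ O_p(G), S lies in a unique maximal subgroup of G, and some quotient of G is isomorphic to PSL₂ over a field of order a power of p), and suppose that S centralizes Z(J(S)), where J(S) is generated by the abelian subgroups of S of largest order (that is, J̃(S) = C_S(Z(J(S))) = S). Call a subgroup R of S centrally large if |R|·|Z(R)| is as large as possible among subgroups of S, and let S_Φ be the subgroup generated by the Frattini subgroups Φ(Q) of those minimal centrally large subgroups Q of S whose Ω₁(Z(Q)) has the largest order among minimal centrally large subgroups. Then Z(S) or S_Φ is normal in G; and if S_Φ = 1, the minimal centrally large subgroups of S are exactly the abelian subgroups of S of largest order, and at least one of them is elementary abelian. -/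
theorem result {G : Type*} [Group G] [Finite G] {p : ℕ} [Fact p.Prime] (S : Subgroup G) (hE : Cfsg.IsPushingUpSituation p S) (hJ : S ≤ Subgroup.centralizer (Cfsg.centerThompsonAOf S : Set G)) : ((S ⊓ Subgroup.centralizer (S : Set G)).Normal ∨ ((Cfsg.frattiniOfMinimalCLJoin p ↥S).map S.subtype).Normal) ∧ (Cfsg.frattiniOfMinimalCLJoin p ↥S = ⊥ → (∀ Q : Subgroup ↥S, Cfsg.IsMinimalCentrallyLarge Q ↔ Q ∈ Cfsg.maxAbelianSubgroups ↥S) ∧ ∃ A ∈ Cfsg.maxAbelianSubgroups ↥S, Cfsg.IsElementaryAbelian p A) := by
  obtain ⟨q, M, h⟩ := CL.Push.exists_PU_of_situation hE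
  refine ⟨?_, fun hb => ?_⟩
  · by_cases hZ : CL.Push.ctr S ≤ Subgroup.center G
    · exact Or.inl (CL.Push.normal_of_le_center hZ)
    · right
      rw [CL.Push.map_frattiniOfMinimalCLJoin]
      exact h.sPhi_normal hJ hZ
  · obtain ⟨Q, hQ⟩ := CL.Push.exists_isMCLz p (⊤ : Subgroup S)
    have h1 : (frattini Q).map Q.subtype ≤ Cfsg.frattiniOfMinimalCLJoin p ↥S :=
      le_iSup_of_le (f := fun Q : {Q : Subgroup S // IsMinimalCentrallyLarge Q ∧
        Nat.card ↥(omegaOneCenter p Q) = maxOmegaCenterOfMinimalCL p S} =>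
          (frattini ↥(Q : Subgroup S)).map (Q : Subgroup S).subtype)
        ⟨Q, CL.Push.isMCLz_top_iff.2 hQ⟩ le_rfl
    rw [hb] at h1
    have hP : IsPGroup p Q := h.syl.pgroup.to_subgroup Q
    obtain ⟨h2, h3⟩ := (CL.PG.frattini_map_subtype_le_iff hP).1 h1
    have h4 := CL.Push.comm_iff_commutator.2 (le_bot_iff.1 h2)
    refine ⟨fun R => ?_, Q, ?_, CL.Th.elemAb_iff.2 ⟨CL.Th.comm_iff.1 h4, fun a ha => h3 a ha⟩⟩
    · rw [CL.Push.isMinimalCentrallyLarge_iff, ← CL.ThA.maxAbIn_top]
      exact hQ.1.iff_maxAb h4 R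
    · rw [← CL.ThA.maxAbIn_top]; exact hQ.1.1.mem_maxAbIn h4

end Cfsg.Agent.S2989
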