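import Cfsg.Statements.S2990
import Cfsg.Agent.TECH.PushBaum

set_option autoImplicit false
open Cfsg

namespace Cfsg.Agent.S2990

/-- Let G be a finite group and S a Sylow p-subgroup of G in the basic pushing-up situation (G ≠ 1, C_G(O_p(G)) ≤ O_p(G), S lies in a unique maximal subgroup of G, and some quotient of G is isomorphic to PSL₂ over a field of order a power of p), and suppose that S centralizes Z(J(S)), where J(S) is generated by the abelian subgroups of S of largest order (that is, J̃(S) = C_S(Z(J(S))) = S). Call a subgroup R of S centrally large if |R|·|Z(R)| is as large as possible among subgroups of S, let Q be a minimal centrally large subgroup of S and let S_MCL be the subgroup generated by all minimal centrally large subgroups of S. Then the derived subgroup [Q, Q] is characteristic in S; Z(S) ∩ [Q, Q] or S_MCL is normal in G; and if [Q, Q] = 1, the minimal centrally large subgroups of S are exactly the abelian subgroups of S of largest order. -/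
theorem result {G : Type*} [Group G] [Finite G] {p : ℕ} [Fact p.Prime] (S : Subgroup G) (hE : Cfsg.IsPushingUpSituation p S) (hJ : S ≤ Subgroup.centralizer (Cfsg.centerThompsonAOf S : Set G)) (Q : Subgroup ↥S) (hQ : Cfsg.IsMinimalCentrallyLarge Q) : (⁅Q, Q⁆).Characteristic ∧ (((S ⊓ Subgroup.centralizer (S : Set G)) ⊓ (⁅Q, Q⁆).map S.subtype).Normal ∨ ((Cfsg.minimalCentrallyLargeJoin ↥S).map S.subtype).Normal) ∧ (⁅Q, Q⁆ = ⊥ → ∀ R : Subgroup ↥S, Cfsg.IsMinimalCentrallyLarge R ↔ R ∈ Cfsg.maxAbelianSubgroups ↥S) := by
  obtain ⟨q, M, h⟩ := CL.Push.exists_PU_of_situation hE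
  have hQ' := CL.Push.isMinimalCentrallyLarge_iff.1 hQ
  refine ⟨Subgroup.characteristic_iff_map_eq.2 fun φ => ?_, ?_, fun hb R => ?_⟩
  · have h1 := (CL.Push.isMCL_map (f := φ.toMonoidHom) φ.injective).2 hQ'
    rw [Subgroup.map_top_of_surjective _ φ.surjective] at h1
    rw [Subgroup.map_commutator]
    exact h1.derived_eq_derived hQ'
  · rw [Subgroup.map_commutator, CL.Push.map_minimalCentrallyLargeJoin]
    exact h.mcl_dichotomy hJ (CL.Push.isMinimalCentrallyLarge_iff_map.1 hQ)
  · rw [CL.Push.isMinimalCentrallyLarge_iff, ← CL.ThA.maxAbIn_top]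
    exact hQ'.iff_maxAb (CL.Push.comm_iff_commutator.2 hb) R

end Cfsg.Agent.S2990
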