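import Cfsg.Statements.S2998
import Cfsg.Agent.TECH.MiscSyl

set_option autoImplicit false
set_option linter.unusedVariables false
open Cfsg

namespace Cfsg.Agent.S2998

open CL.Misc

/-- Let G be a finite group, p a prime, P a Sylow p-subgroup of G and x ∈ P an element such that N_G(R) ≤ C_G(x) for every nontrivial subgroup R of P. Then P ≤ C_G(x); every G-conjugate of x lying in P equals x (so g ∈ C_G(x) whenever g x g⁻¹ ∈ P); and for every normal subgroup N of G, the image of x in G ⧸ N has the same property with respect to the image of P: the normalizer of every nontrivial subgroup of the image of P centralizes the image of x. -/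
theorem result {G : Type*} [Group G] [Finite G] {p : ℕ} [Fact p.Prime] (P : Sylow p G) (x : G) (hxP : x ∈ (P : Subgroup G)) (hlc : ∀ R : Subgroup G, R ≤ (P : Subgroup G) → R ≠ ⊥ → Subgroup.normalizer (R : Set G) ≤ Subgroup.centralizer ({x} : Set G)) : (P : Subgroup G) ≤ Subgroup.centralizer ({x} : Set G) ∧ (∀ g : G, g * x * g⁻¹ ∈ (P : Subgroup G) → g * x * g⁻¹ = x) ∧ ∀ (N : Subgroup G) [N.Normal], ∀ R : Subgroup (G ⧸ N), R ≤ (P : Subgroup G).map (QuotientGroup.mk' N) → R ≠ ⊥ → Subgroup.normalizer (R : Set (G ⧸ N)) ≤ Subgroup.centralizer ({(QuotientGroup.mk x : G ⧸ N)} : Set (G ⧸ N)) := by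
  have h1 : (P : Subgroup G) ≤ Subgroup.centralizer ({x} : Set G) := by
    by_cases hP : (P : Subgroup G) = ⊥
    · rw [hP]; exact bot_le
    · exact Subgroup.le_normalizer.trans (hlc P le_rfl hP)
  refine ⟨h1, ?_, ?_⟩
  · intro g hg
    by_cases hx : x = 1
    · simp [hx]
    have hy : g * x * g⁻¹ ≠ 1 := by
      intro h
      apply hx
      simpa using h
    have hP : (P : Subgroup G) ≠ ⊥ := by
      intro h
      rw [h] at hxP
      exact hx hxP
    have h2 : Subgroup.centralizer ({g * x * g⁻¹} : Set G) ≤ Subgroup.centralizer ({x} : Set G) := by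
      refine le_trans ?_ (hlc (Subgroup.zpowers (g * x * g⁻¹)) ((Subgroup.zpowers_le).2 hg)
        (by simpa using hx))
      refine le_trans ?_ (Subgroup.centralizer_le_normalizer _)
      intro c hc
      rw [Subgroup.mem_centralizer_iff]
      rintro _ ⟨k, rfl⟩
      exact ((Commute.symm (Subgroup.mem_centralizer_singleton_iff.1 hc)).zpow_left k)
    have h3 : (P : Subgroup G).map (MulAut.conj g).toMonoidHom ≤ Subgroup.centralizer ({x} : Set G) := by
      refine le_trans ?_ h2
      rintro _ ⟨y, hy, rfl⟩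
      have := Subgroup.mem_centralizer_singleton_iff.1 (h1 hy)
      rw [Subgroup.mem_centralizer_singleton_iff]
      simp only [MulEquiv.coe_toMonoidHom, MulAut.conj_apply]
      calc g * y * g⁻¹ * (g * x * g⁻¹) = g * (y * x) * g⁻¹ := by group
        _ = g * (x * y) * g⁻¹ := by rw [this]
        _ = _ := by group
    obtain ⟨c, hc, hcc⟩ := (sylIn_of_sylow P h1).exists_conj_le (P.isPGroup'.map _) h3
    have h4 : c * g ∈ Subgroup.normalizer ((P : Subgroup G) : Set G) := by
      apply Subgroup.mem_normalizer_fintype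
      intro y hy
      have := hcc _ (conj_mem_map_conj g hy)
      rwa [show c * (g * y * g⁻¹) * c⁻¹ = c * g * y * (c * g)⁻¹ by group] at this
    have h5 : g ∈ Subgroup.centralizer ({x} : Set G) := by
      have := Subgroup.mul_mem _ (Subgroup.inv_mem _ hc) (hlc P le_rfl hP h4)
      simpa using this
    rw [Subgroup.mem_centralizer_singleton_iff.1 h5]
    group
  · intro N _ R hR hR1 gb hgb
    obtain ⟨g, rfl⟩ := QuotientGroup.mk'_surjective N gb
    set M : Subgroup G := R.comap (QuotientGroup.mk' N) with hM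
    have hNM : N ≤ M := by
      intro n hn
      rw [hM, Subgroup.mem_comap, QuotientGroup.mk'_apply, (QuotientGroup.eq_one_iff n).2 hn]
      exact R.one_mem
    have hgen : ∀ m ∈ M, ∃ r ∈ (P : Subgroup G) ⊓ M, ∃ n ∈ N, m = r * n := by
      intro m hm
      obtain ⟨r, hr, hrm⟩ := hR hm
      refine ⟨r, ⟨hr, ?_⟩, r⁻¹ * m, ?_, by group⟩
      · show QuotientGroup.mk' N r ∈ R
        rw [hrm]; exact hm
      · exact QuotientGroup.eq.1 hrm
    have hS : SylIn p ((P : Subgroup G) ⊓ M) M := by
      refine ⟨inf_le_right, P.isPGroup'.to_inf_left, ?_⟩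
      intro hd
      apply (sylIn_inf_normal P N).not_dvd
      have e1 : (P : Subgroup G) ⊓ M ⊔ N = M := by
        apply le_antisymm (sup_le inf_le_right hNM)
        intro m hm
        obtain ⟨r, hr, n, hn, rfl⟩ := hgen m hm
        exact Subgroup.mul_mem_sup hr hn
      have e2 := Subgroup.relIndex_mul_relIndex ((P : Subgroup G) ⊓ N) N M inf_le_right hNM
      have e3 := Subgroup.relIndex_mul_relIndex ((P : Subgroup G) ⊓ N) ((P : Subgroup G) ⊓ M) M
        (inf_le_inf_left _ hNM) inf_le_right
      have e4 : N.relIndex M = ((P : Subgroup G) ⊓ N).relIndex ((P : Subgroup G) ⊓ M) := by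
        conv_lhs => rw [← e1, Subgroup.relIndex_sup_right, ← Subgroup.inf_relIndex_left]
        congr 1
        rw [inf_assoc, inf_eq_right.2 hNM]
      rw [e4, ← e3, mul_comm] at e2
      have hpos : ((P : Subgroup G) ⊓ N).relIndex ((P : Subgroup G) ⊓ M) ≠ 0 :=
        Subgroup.index_ne_zero_of_finite
      rw [Nat.eq_of_mul_eq_mul_left (Nat.pos_of_ne_zero hpos) e2]
      exact hd
    have hgM : g ∈ Subgroup.normalizer (M : Set G) :=
      Subgroup.le_normalizer_comap (QuotientGroup.mk' N) hgb
    obtain ⟨k, hk, hkg⟩ := hS.frattini hgM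
    have hne : (P : Subgroup G) ⊓ M ≠ ⊥ := by
      intro h
      apply hR1
      rw [eq_bot_iff]
      intro r hr
      obtain ⟨m, rfl⟩ := QuotientGroup.mk'_surjective N r
      obtain ⟨r, hr', n, hn, rfl⟩ := hgen m hr
      rw [h, Subgroup.mem_bot] at hr'
      rw [hr', one_mul, Subgroup.mem_bot]
      exact (QuotientGroup.eq_one_iff n).2 hn
    have himg : ∀ c ∈ Subgroup.centralizer ({x} : Set G), QuotientGroup.mk' N c ∈
        Subgroup.centralizer ({(QuotientGroup.mk x : G ⧸ N)} : Set (G ⧸ N)) := by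
      intro c hc
      rw [Subgroup.mem_centralizer_singleton_iff] at hc ⊢
      exact congrArg (QuotientGroup.mk' N) hc
    obtain ⟨r, hr, n, hn, rfl⟩ := hgen k hk
    have h2 := himg _ (hlc _ inf_le_left hne hkg)
    have h3 := himg _ (h1 hr.1)
    have h4 := Subgroup.mul_mem _ (Subgroup.inv_mem _ h3) h2
    have h5 : QuotientGroup.mk' N n = 1 := (QuotientGroup.eq_one_iff n).2 hn
    rw [map_mul, map_mul, h5, mul_one, inv_mul_cancel_left] at h4
    exact h4

end Cfsg.Agent.S2998
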