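import Cfsg.Statements.S2999
import Cfsg.Agent.TECH.SL2Pair

set_option autoImplicit false
open Cfsg

namespace Cfsg.Agent.S2999

/-- Let p be a prime and let P and V be subgroups of a finite group with V elementary abelian, P normalizing V and acting faithfully on it (P ∩ C(V) = 1). Suppose P is p-minimal (a Sylow p-subgroup T of P is not normal and lies in a unique maximal subgroup M of P) and A ≤ T is an elementary abelian subgroup such that: |V/C_V(A)| ≤ |A| while |A₀|·|C_V(A₀)| < |A|·|C_V(A)| for every nontrivial proper subgroup A₀ of A; [C_V(T), P] ≠ 1; and P = ⟨A, xAx⁻¹⟩ for every x ∈ P outside M. Then, with q = |A|, there is a field F with q elements such that P ≅ SL₂(F), C_V(A) = [V, A]·C_V(P), and P acts on V/C_V(P) as SL₂(F) on its natural two-dimensional module. -/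
theorem result {G : Type*} [Group G] [Finite G] {p : ℕ} [Fact p.Prime] (V P : Subgroup G) (hV : Cfsg.IsElementaryAbelian p V) (hPV : P ≤ Subgroup.normalizer (V : Set G)) (hfaith : P ⊓ Subgroup.centralizer (V : Set G) = ⊥) (hmin : Cfsg.IsPMinimal p ↥P) (T : Sylow p ↥P) (M : Subgroup ↥P) (hM : IsCoatom M) (hTM : (T : Subgroup ↥P) ≤ M) (A : Subgroup G) (hAT : A ≤ ((T : Subgroup ↥P).map P.subtype)) (hAel : Cfsg.IsElementaryAbelian p A) (hi : Nat.card ↥V ≤ Nat.card ↥A * Nat.card ↥(V ⊓ Subgroup.centralizer ((A : Subgroup G) : Set G)) ∧ ∀ A₀ : Subgroup G, A₀ ≤ A → A₀ ≠ ⊥ → A₀ ≠ A → Nat.card ↥A₀ * Nat.card ↥(V ⊓ Subgroup.centralizer ((A₀ : Subgroup G) : Set G)) < Nat.card ↥A * Nat.card ↥(V ⊓ Subgroup.centralizer ((A : Subgroup G) : Set G))) (hii : ⁅(V ⊓ Subgroup.centralizer ((((T : Subgroup ↥P).map P.subtype) : Subgroup G) : Set G)), P⁆ ≠ ⊥) (hiii : ∀ x : ↥P, x ∉ M → A ⊔ A.map (MulAut.conj (x : G)).toMonoidHom = P) : ∃ (F : Type) (_ : Field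 F) (_ : Fintype F), Fintype.card F = Nat.card ↥A ∧ Nonempty (↥P ≃* Matrix.SpecialLinearGroup (Fin 2) F) ∧ (V ⊓ Subgroup.centralizer ((A : Subgroup G) : Set G)) = ⁅V, A⁆ ⊔ (V ⊓ Subgroup.centralizer ((P : Subgroup G) : Set G)) ∧ Cfsg.ActsAsSL2OnSection F ⊤ P V (V ⊓ Subgroup.centralizer ((P : Subgroup G) : Set G)) := by
  open CL.Push CL.Th CL.MSS Subgroup in
  obtain ⟨hTn, hTu⟩ := hmin T
  obtain ⟨M', hU⟩ := uniqMax_of_existsUnique (sylIn_top T) hTu
  obtain rfl : M' = M := by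
    by_contra hne
    exact hU.ne_top (hM.2 _ (lt_of_le_of_ne (hU.uniq M hTM hM.1) (Ne.symm hne)))
  set T' := (T : Subgroup P).map P.subtype with hT'
  set M₀ := M'.map P.subtype with hM₀
  have hAP : A ≤ P := hAT.trans (map_subtype_le _)
  have hAM : A ≤ M₀ := hAT.trans (map_mono hTM)
  obtain ⟨x, hxM⟩ := hU.exists_not_mem
  have hxM' : (x : G) ∉ M₀ := fun ⟨y, hy, e⟩ => hxM (Subtype.ext e ▸ hy)
  have hnp : ¬ IsPGroup p P := fun hp => hTn (by
    rw [(T.3 (hp.to_subgroup ⊤) le_top).symm]; infer_instance)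
  have hA1 : ¬ A ≤ pCoreOf p P := fun e => hnp (by
    refine (pcoreOf_isPGroup P).to_le (K := pCoreOf p P) ?_
    conv_lhs => rw [← hiii x hxM]
    exact sup_le e (cj_le_of_mem_normalizer e (le_normalizer_pcoreOf P x.2)))
  have hbest : IsBestOffenderOn p V A := by
    refine ⟨fun B hB => ?_, (elemAb_commutator_eq_bot hAel).le.trans bot_le,
      fun a ha => (elemAb_iff.1 hAel).2 a ha ▸ one_mem _⟩
    by_cases h1 : B = ⊥
    · rw [h1]; exact (offMeas_bot V).le.trans hi.1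
    by_cases h2 : B = A
    · rw [h2]
    · exact (hi.2 B hB h1 h2).le
  have hVA : ⁅V, A⁆ ≠ ⊥ := fun e => hA1 (by
    have : A ≤ ⊥ := hfaith ▸ le_inf hAP (comm_eq_bot_iff'.1 e)
    exact this.trans bot_le)
  have hquad : ⁅V, A⁆ ≤ centralizer (A : Set G) := by
    obtain ⟨-, -, h3, h4⟩ := timmesfeld hV (hAP.trans hPV) hbest le_rfl
    refine le_centralizer_iff.1 (inf_eq_left.1 (by_contra fun hne => ?_))
    refine (hi.2 _ inf_le_left (fun e => h4 hVA (by rw [e, commutator_bot_right])) hne).ne h3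
  have h : QPair V P A M₀ := ⟨hV.1, hPV, hAP,
    fun y hy hyM => hiii ⟨y, hy⟩ fun e => hyM ⟨⟨y, hy⟩, e, rfl⟩, hquad⟩
  have hN : ∀ a ∈ A, a ∉ pCoreOf p P → ∃ g ∈ P, g⁻¹ * a * g ∉ M₀ := by
    intro a ha haN
    by_contra hc
    push Not at hc
    refine haN ((mem_pcoreOf_iff ⟨a, hAP ha⟩).2 (hU.inf_le_pCore (N := M'.normalCore)
      (normalCore_le _) ⟨?_, fun b => ?_⟩))
    · obtain ⟨y, hy, e⟩ := hAT ha
      exact (show y = ⟨a, hAP ha⟩ from Subtype.ext e) ▸ hy
    · obtain ⟨y, hy, e⟩ := hc (b : G)⁻¹ (inv_mem b.2)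
      rw [inv_inv] at e
      exact (show y = b * ⟨a, hAP ha⟩ * b⁻¹ from Subtype.ext e) ▸ hy
  have hQT : pCoreOf p P ≤ T' := map_mono (pcore_le_sylow T)
  have hZ : ¬ V ⊓ centralizer (T' : Set G) ≤ centralizer (P : Set G) := fun e =>
    hii (commutator_eq_bot_iff_le_centralizer.2 e)
  have hn : ¬ V ⊓ centralizer (A : Set G) ≤ centralizer (P : Set G) := fun e =>
    hZ ((inf_centralizer_anti V hAT).trans e)
  set W := V ⊓ centralizer (pCoreOf p P : Set G) with hW
  have hW' : QPair W P A M₀ := h.mono inf_le_left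
    (CL.MSS.le_normalizer_inf hPV (CL.MSS.le_normalizer_centralizer (le_normalizer_pcoreOf P)))
  have hnW : ¬ W ⊓ centralizer (A : Set G) ≤ centralizer (P : Set G) := fun e =>
    hZ ((le_inf (inf_centralizer_anti V hQT) (inf_le_right.trans (centralizer_le hAT))).trans e)
  have c1 := hW'.card_mul_le hN x.2 hxM' hnW
  have c2 := card_mul_card_le W (V ⊓ centralizer (A : Set G))
  rw [← inf_assoc, inf_eq_left.2 (inf_le_left : W ≤ V)] at c2
  have c3 : (pCoreOf p P).relIndex A * Nat.card (V ⊓ centralizer (A : Set G) : Subgroup G) ≤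
      Nat.card (W ⊔ (V ⊓ centralizer (A : Set G)) : Subgroup G) := by
    refine Nat.le_of_mul_le_mul_left (le_trans ?_ c2) Nat.card_pos
    rw [← mul_assoc, mul_comm _ ((pCoreOf p P).relIndex A)]
    exact Nat.mul_le_mul_right _ c1
  have hA0 : pCoreOf p P ⊓ A = ⊥ := by
    by_contra hne
    refine (hi.2 _ inf_le_right hne fun e => hA1 (e ▸ inf_le_left)).not_ge ?_
    rw [← CL.card_inf_mul_relIndex (pCoreOf p P) A, mul_assoc]
    refine Nat.mul_le_mul_left _ (c3.trans (card_le_of_le (sup_le ?_ ?_)))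
    · exact inf_centralizer_anti V inf_le_left
    · exact inf_centralizer_anti V inf_le_right
  have hq : (pCoreOf p P).relIndex A = Nat.card A := by
    rw [← CL.card_inf_mul_relIndex (pCoreOf p P) A, hA0, card_bot, one_mul]
  have hoff := hi.1
  rw [← hq] at hoff
  obtain ⟨s1, s2, s3, s4⟩ := h.struct hN x.2 hxM' hn hoff
  have hVW : W ⊔ (V ⊓ centralizer (A : Set G)) = V :=
    eq_of_le_of_card_ge (sup_le inf_le_left inf_le_left) (hoff.trans c3)
  obtain ⟨w, hw, hw'⟩ := hW'.exists_not_mem x.2 hxM' hnW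
  have hwW : w ∈ W := hW'.cj_X_le x.2 hw
  have hwX : w ∉ V ⊓ centralizer (A : Set G) := fun e => hw' ⟨hwW, e.2⟩
  have hX : V ⊓ centralizer (A : Set G) ≤ ⁅W, A⁆ ⊔ (V ⊓ centralizer (P : Set G)) := by
    intro z hz
    obtain ⟨a, ha, e⟩ := s4 w hwW.1 hwX z hz
    have := mul_mem (mem_sup_left (commutator_mem_commutator hwW ha)) (mem_sup_right e)
    rwa [mul_inv_cancel_left] at this
  have hQ : pCoreOf p P = ⊥ := by
    rw [eq_bot_iff, ← hfaith]
    refine le_inf (pcoreOf_le P) (le_centralizer_iff.1 ?_)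
    rw [← hVW]
    refine sup_le inf_le_right (hX.trans (sup_le (hW'.comm_le.trans (inf_le_left.trans inf_le_right))
      (inf_le_right.trans (centralizer_le (pcoreOf_le P)))))
  obtain ⟨n, hcard⟩ := elemAb_card hAel
  have hn0 : n ≠ 0 := fun e => hA1 (by
    rw [e, pow_zero, card_eq_one] at hcard
    rw [hcard]; exact bot_le)
  let _ : Fintype (GaloisField p n) := Fintype.ofFinite _
  have hF : Fintype.card (GaloisField p n) = Nat.card A := by
    rw [← Nat.card_eq_fintype_card, GaloisField.card p n hn0, hcard]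
  have hact := h.actsAs (elemAb_iff.1 hV).2 hN
    (by rw [inf_comm, hA0, commutator_bot_right]; exact bot_le) x.2 hxM' hAM hn hoff
    (GaloisField p n) (hq.trans hF.symm)
  refine ⟨GaloisField p n, inferInstance, inferInstance, hF, ?_,
    le_antisymm (hX.trans (sup_le_sup_right (commutator_mono inf_le_left le_rfl) _))
      (sup_le h.comm_le h.D_le), hact⟩
  obtain ⟨ρ, h1, h2⟩ := actsAs_iso hact
  refine ⟨MulEquiv.ofBijective ρ ⟨(MonoidHom.ker_eq_bot_iff ρ).1 ?_, h1⟩⟩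
  rw [eq_bot_iff, ← pcoreOf_eq_bot_iff.1 hQ]
  refine le_pcore inferInstance (isPGroup_iff_forall_mem.2 fun k hk => ⟨1, Subtype.ext ?_⟩)
  rw [pow_one, coe_one, ← mem_bot, ← hfaith]
  refine ⟨(k ^ p).2, fun v hv => commutatorElement_eq_one_iff_mul_comm.1 ?_⟩
  have e := (h2 k).1 hk v hv
  rw [coe_pow, comm_pow_right (e.2 k k.2)]
  exact (elemAb_iff.1 hV).2 _ e.1

end Cfsg.Agent.S2999
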