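import Cfsg.Statements.S3000
import Cfsg.Agent.TECH.BHS9

set_option autoImplicit false
open Cfsg

namespace Cfsg.Agent.S3000

/-- Let p be a prime and let P and V be subgroups of a finite group with V elementary abelian, P normalizing V and acting faithfully on it (P ∩ C(V) = 1). Suppose P is p-minimal (a Sylow p-subgroup T of P is not normal and lies in a unique maximal subgroup M of P), O_p(P) = 1, C_P(C_V(T)) ≤ M, and P has a best offender on V: a subgroup A not centralizing V, with A/C_A(V) elementary abelian, such that |B|·|C_V(B)| ≤ |A|·|C_V(A)| for every subgroup B of A. Then there are subgroups E₁, …, E_r of P (r ≥ 1), pairwise commuting and forming with T a product P = (E₁ × ⋯ × E_r)T (internal direct product of the E_i), any two of which are conjugate by an element of T, such that V = C_V(E₁⋯E_r)·∏[V, E_i] with [V, E_i, E_j] = 1 for i ≠ j, and for each i there is n ≥ 1 with either E_i ≅ SL₂(pⁿ)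 acting on [V, E_i]/C_{[V,E_i]}(E_i) as on its natural two-dimensional module, or p = 2 and E_i isomorphic to the symmetric group of degree 2ⁿ + 1 acting on [V, E_i]/C_{[V,E_i]}(E_i) as on its even-weight permutation module. -/
theorem result {G : Type*} [Group G] [Finite G] {p : ℕ} [Fact p.Prime] (V P : Subgroup G) (hV : Cfsg.IsElementaryAbelian p V) (hPV : P ≤ Subgroup.normalizer (V : Set G)) (hfaith : P ⊓ Subgroup.centralizer (V : Set G) = ⊥) (hmin : Cfsg.IsPMinimal p ↥P) (T : Sylow p ↥P) (M : Subgroup ↥P) (hM : IsCoatom M) (hTM : (T : Subgroup ↥P) ≤ M) (hOp : Cfsg.pCore p ↥P = ⊥) (hoff : ∃ A : Subgroup G, A ≤ P ∧ ¬ A ≤ Subgroup.centralizer (V : Set G) ∧ Cfsg.IsBestOffenderOn p V A) (hCT : P ⊓ Subgroup.centralizer ((V ⊓ Subgroup.centralizer ((((T : Subgroup ↥P).map P.subtype) : Subgroup G) : Set G)) : Set G) ≤ M.map P.subtype) : ∃ (r : ℕ) (E : Fin r → Subgroup G), 1 ≤ r ∧ (∀ i, E i ≤ P) ∧ (∀ i j, i ≠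 j → ⁅E i, E j⁆ = ⊥) ∧ (∀ i, E i ⊓ (⨆ j ∈ {j | j ≠ i}, E j) = ⊥) ∧ (⨆ i, E i) ⊔ ((T : Subgroup ↥P).map P.subtype) = P ∧ (∀ i j, ∃ t ∈ ((T : Subgroup ↥P).map P.subtype), (E i).map (MulAut.conj t).toMonoidHom = E j) ∧ (V ⊓ Subgroup.centralizer (((⨆ i, E i) : Subgroup G) : Set G)) ⊔ (⨆ i, ⁅V, E i⁆) = V ∧ (∀ i j, i ≠ j → ⁅⁅V, E i⁆, E j⁆ = ⊥) ∧ ∀ i, ∃ n : ℕ, 1 ≤ n ∧ ((∃ (F : Type) (_ : Field F) (_ : Fintype F), Fintype.card F = p ^ n ∧ Nonempty (↥(E i) ≃* Matrix.SpecialLinearGroup (Fin 2) F) ∧ Cfsg.ActsAsSL2OnSection F ⊤ (E i) ⁅V, E i⁆ (⁅V, E i⁆ ⊓ Subgroup.centralizer ((E i : Subgroup G) : Set G))) ∨ (p = 2 ∧ Nonempty (↥(E i) ≃* Equiv.Perm (Fin (2 ^ n + 1))) ∧ Cfsg.ActsAsOddPermModuleOnSection (2 ^ n + 1) ⊤ (E i) ⁅V, E i⁆ (⁅V, E i⁆ ⊓ Subgroup.centralizer ((E i : Subgroup G) : Set G)))) := by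
  open CL.BHS CL.Th CL.MSS Subgroup in
  have hS := sylIn_map_subtype T
  obtain ⟨hn, M', u⟩ := (isPMinimal_iff hS).1 hmin
  obtain rfl : M.map P.subtype = M' := by
    have h1 : M.map P.subtype < P := lt_of_le_of_ne (map_subtype_le _) fun e =>
      hM.1 (map_injective P.subtype_injective
        (by rw [e, ← MonoidHom.range_eq_map, range_subtype]))
    have h2 := u.max _ (map_mono hTM) h1
    refine le_antisymm h2 ?_
    rw [← map_subgroupOf_eq_of_le u.lt.le]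
    refine map_mono (le_of_eq ((hM.le_iff.1 (map_le_iff_le_comap.1 h2)).resolve_left fun e => ?_))
    exact u.lt.not_ge (subgroupOf_eq_top.1 e)
  have m : MP p V P _ _ := ⟨⟨hV, hPV, hfaith, hS, u, hn, oP_eq_bot_iff.2 hOp⟩, hCT⟩
  obtain ⟨A₀, a1, a2, a3⟩ := hoff
  obtain ⟨A, hA, -⟩ := exists_mo (p := p) (V := V) a1 ⟨comm_iff.2 fun a ha b hb =>
      commutatorElement_eq_one_iff_mul_comm.1 (hfaith.le (⟨commutator_le_self P
        (commutator_mem_commutator (a1 ha) (a1 hb)), a3.2.1 (commutator_mem_commutator ha hb)⟩ :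
        _ ∈ P ⊓ _)), fun a ha => hfaith.le (⟨pow_mem (a1 ha) p, a3.2.2 a ha⟩ : _ ∈ P ⊓ _)⟩
    (fun e => a2 (e ▸ bot_le)) (bestOff_card_le a3)
  have h := m.dm hA
  obtain ⟨r, E, e1, e2, e3, e4, e5, e6, e7⟩ := h.exists_enum
  obtain ⟨B, hB, hBM⟩ := m.exists_omega h hA
  refine ⟨r, E, (e2 B hB hBM).choose.pos, fun i => ?_,
    fun i j hij => commutator_eq_bot_iff_le_centralizer.2 (e3 i j hij), e6,
    e5 ▸ m.om_sup h hA, fun i j => ?_, e7,
    fun i j hij => commutator_eq_bot_iff_le_centralizer.2 (e4 i j hij), fun i => ?_⟩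
  · obtain ⟨B, -, -, e⟩ := e1 i
    exact e ▸ h.comp_le
  · obtain ⟨B, hB, hBM, e⟩ := e1 i
    obtain ⟨C, hC, hCM, e'⟩ := e1 j
    rw [e, e']
    exact m.comp_conj h hB hBM hC hCM
  · obtain ⟨B, hB, hBM, e⟩ := e1 i
    rw [e]
    exact m.comp_ctype h hB hBM

end Cfsg.Agent.S3000
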