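import Cfsg.Statements.S3003
import Cfsg.Agent.TECH.Large
import Cfsg.Agent.SOLV.CoprimeGen
import Cfsg.Agent.PLOC.PFrattini

set_option autoImplicit false
open Cfsg

namespace Cfsg.Agent.S3003

open CL.MSS Subgroup

/-- Let G be a finite group, p a prime and Q a large p-subgroup of G: C_G(Q) ≤ Q and N_G(U) ≤ N_G(Q) for every nontrivial subgroup U of C_G(Q). Let Q ≤ G₁ ≤ G, let R be a subgroup of order prime to p normalized by G₁, and let U ≤ G₁ be a p-subgroup. If U contains a nontrivial element which is G₁-conjugate to an element of Z(Q), then C_R(U) = 1. In particular, if U is elementary abelian of order at least p² and every maximal subgroup of U contains a nontrivial element G₁-conjugate into Z(Q), then R = 1. -/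
theorem result {G : Type*} [Group G] [Finite G] {p : ℕ} [Fact p.Prime] (Q : Subgroup G) (hQp : IsPGroup p ↥Q) (hlarge : Cfsg.IsLarge Q) (G₁ : Subgroup G) (hQG : Q ≤ G₁) (R : Subgroup G) (hR : (Nat.card ↥R).Coprime p) (hGR : G₁ ≤ Subgroup.normalizer (R : Set G)) (U : Subgroup G) (hUG : U ≤ G₁) (hUp : IsPGroup p ↥U) : ((∃ x ∈ U, x ≠ 1 ∧ ∃ g ∈ G₁, g * x * g⁻¹ ∈ Q ⊓ Subgroup.centralizer (Q : Set G)) → R ⊓ Subgroup.centralizer (U : Set G) = ⊥) ∧ (Cfsg.IsElementaryAbelian p U → p ^ 2 ≤ Nat.card ↥U → (∀ U₀ : Subgroup G, U₀ ≤ U → IsCoatom (U₀.subgroupOf U) → ∃ x ∈ U₀, x ≠ 1 ∧ ∃ g ∈ G₁, g * x * g⁻¹ ∈ Q ⊓ Subgroup.centralizer (Q : Set G)) → R = ⊥) := by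
  have hb : ∀ P : Subgroup G, IsPGroup p P → P ≤ R → P = ⊥ := fun P h1 h2 =>
    eq_bot_of_isPGroup_of_not_dvd h1 h2 ((Nat.Prime.coprime_iff_not_dvd Fact.out).1 hR.symm)
  have key : ∀ U : Subgroup G, (∃ x ∈ U, x ≠ 1 ∧ ∃ g ∈ G₁, g * x * g⁻¹ ∈ Q ⊓ centralizer (Q : Set G))
      → R ⊓ centralizer (U : Set G) = ⊥ := by
    rintro U ⟨x, hx, hx1, g, hg, hy⟩
    have h1 := large_centralizer_singleton_le hlarge hy.2 (by simpa using hx1)
    have h2 : g •ᶜ (R ⊓ centralizer (U : Set G)) ≤ R ⊓ normalizer (Q : Set G) := by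
      rw [cj_inf, cj_eq_of_mem_normalizer (hGR hg)]
      refine inf_le_inf_left R (le_trans ?_ h1)
      rw [← cj_centralizer_singleton]
      exact cj_mono g (centralizer_le (Set.singleton_subset_iff.2 hx))
    have h3 : ⁅R ⊓ normalizer (Q : Set G), Q⁆ = ⊥ := hb _
      (hQp.to_le (commutator_le_right_of_normalizes inf_le_right))
      ((commutator_mono inf_le_left le_rfl).trans (commutator_le_left_of_normalizes (hQG.trans hGR)))
    rw [← cj_eq_bot_iff (g := g)]
    exact hb _ (hQp.to_le (h2.trans ((commutator_eq_bot_iff_le_centralizer.1 h3).trans hlarge.1)))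
      (h2.trans inf_le_left)
  refine ⟨key U, fun h1 h2 h3 => ?_⟩
  have := h1.1
  refine le_bot_iff.1 (CL.coprime_le_of_forall_hyperplane U R ⊥ Fact.out h1.2 (fun hb => ?_)
    (hUG.trans hGR) ?_ fun B k1 k2 => (key B (h3 B k1
      (CL.PG.isCoatom_of_index_eq_prime Fact.out k2))).le)
  · rw [hb, card_bot] at h2
    exact absurd h2 (not_le.2 (Nat.one_lt_pow two_ne_zero (Fact.out : p.Prime).one_lt))
  · obtain ⟨k, hk⟩ := IsPGroup.iff_card.1 hUp
    rw [hk]
    exact hR.symm.pow_left k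

end Cfsg.Agent.S3003
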