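import Cfsg.Statements.S3008
import Cfsg.Agent.TECH.CLMin

set_option autoImplicit false
open Cfsg

namespace Cfsg.Agent.S3008

/-- Let P be a finite p-group, with J(P) generated by its abelian subgroups of largest order and J̃(P) = C_P(Z(J(P))); call R ≤ P centrally large if |R|·|Z(R)| is as large as possible, and let P_MCL be generated by the minimal centrally large subgroups. Then: for every centrally large Q, Q·J(P) ⊇ J̃(P); some minimal centrally large subgroup of P is normalized by both J(P) and P_MCL; if P = J(P) and d(P)² = |P|·|Z(P)|, where d(P) is the largest order of an abelian subgroup, then every minimal centrally large subgroup of P is abelian; and if every minimal centrally large subgroup is abelian then J̃(P) = J(P). -/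
theorem result {p : ℕ} [Fact p.Prime] (P : Type*) [Group P] [Finite P] (hP : IsPGroup p P) : (∀ Q : Subgroup P, Cfsg.IsCentrallyLarge Q → Subgroup.centralizer ((Cfsg.thompsonSubgroupA P ⊓ Subgroup.centralizer (Cfsg.thompsonSubgroupA P : Set P) : Subgroup P) : Set P) ≤ Q ⊔ Cfsg.thompsonSubgroupA P) ∧ (∃ Q : Subgroup P, Cfsg.IsMinimalCentrallyLarge Q ∧ Cfsg.thompsonSubgroupA P ≤ Subgroup.normalizer (Q : Set P) ∧ Cfsg.minimalCentrallyLargeJoin P ≤ Subgroup.normalizer (Q : Set P)) ∧ (Cfsg.thompsonSubgroupA P = ⊤ → (∀ A ∈ Cfsg.maxAbelianSubgroups P, Nat.card ↥A ^ 2 = Nat.card P * Nat.card ↥(Subgroup.center P)) → ∀ Q : Subgroup P, Cfsg.IsMinimalCentrallyLarge Q → IsMulCommutative ↥Q) ∧ ((∀ Q : Subgroup P, Cfsg.IsMinimalCentrallyLarge Q → IsMulCommutative ↥Q) → Subgroup.centralizer ((Cfsg.thompsonSubgroupA P ⊓ Subgroup.centralizer (Cfsg.thompsonSubgroupA P : Set P) : Subgroup P) : Set P) = Cfsg.thompsonSubgroupA P) := by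
  have hN : Group.IsNilpotent P := hP.isNilpotent
  have hb : ∀ Q : Subgroup P, CL.Push.IsCL ⊤ Q → Subgroup.centralizer ((Cfsg.thompsonSubgroupA P ⊓ Subgroup.centralizer (Cfsg.thompsonSubgroupA P : Set P) : Subgroup P) : Set P) ≤ Q ⊔ Cfsg.thompsonSubgroupA P := by
    intro Q hQ
    have h5 := hQ.baumann_le_sup
    rw [top_inf_eq, Cfsg.centerThompsonAOf, CL.ThA.thompsonSubgroupAOf_top] at h5
    exact h5
  simp only [CL.Push.isMinimalCentrallyLarge_iff, CL.Push.isCentrallyLarge_iff,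
    CL.Push.minimalCentrallyLargeJoin_eq]
  refine ⟨hb, ?_, fun hJ hd Q hQ => ?_, fun h => ?_⟩
  · simpa only [CL.ThA.thompsonSubgroupAOf_top] using CL.Push.exists_mcl_normalized' (G := P)
  · have h1 := hQ.1.sup_thompson
    rw [CL.ThA.thompsonSubgroupAOf_top, hJ, sup_top_eq] at h1
    obtain ⟨A, hA⟩ := CL.ThA.maxAbIn_nonempty (⊤ : Subgroup P)
    have h2 := hd A (CL.ThA.maxAbIn_top (G := P) ▸ hA)
    have h3 : CL.Push.IsCL ⊤ A := by
      refine h1.of_le le_top ?_
      rw [CL.Push.offMeas_self_of_comm hA.2.1, ← sq, h2, CL.Th.offMeas_def, top_inf_eq,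
        Subgroup.coe_top, Subgroup.centralizer_univ, Subgroup.card_top]
    exact (((CL.Push.isMCL_of_mem_maxAbIn hA h3).iff_maxAb hA.2.1 Q).1 hQ).2.1
  · obtain ⟨Q, hQ⟩ := CL.Push.exists_isMCL (⊤ : Subgroup P)
    have h1 := CL.ThA.le_thompsonSubgroupAOf (hQ.1.mem_maxAbIn (h Q hQ))
    rw [CL.ThA.thompsonSubgroupAOf_top] at h1
    exact le_antisymm ((hb Q hQ.1).trans (sup_le h1 le_rfl)) (CL.Push.le_cent_ctr _)

end Cfsg.Agent.S3008
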