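import Cfsg.Statements.S3011
import Cfsg.Agent.TECH.Sidki

set_option autoImplicit false
set_option linter.unusedVariables false
open Cfsg

namespace Cfsg.Agent.S3011

open CL.Sidki


/-- Let G be a finite group and V a nontrivial elementary abelian 2-subgroup of G of order at most 4 such that, whenever an element of V inverts an element h of G of odd order, some nontrivial element of V commutes with h. Then V meets O₂(G) nontrivially. (The case of order at most 4 has a short argument from the Baer–Suzuki theorem.) -/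
theorem result {G : Type*} [Group G] [Finite G] (V : Subgroup G) (hV : Cfsg.IsElementaryAbelian 2 V) (hV1 : V ≠ ⊥) (hS : Cfsg.IsSidkiPair V) (h4 : Nat.card V ≤ 4) : V ⊓ Cfsg.pCore 2 G ≠ ⊥ := by

  intro hVO
  have hinv : ∀ v ∈ V, v ≠ 1 → ∃ h : G, h ≠ 1 ∧ Odd (orderOf h) ∧ v * h * v⁻¹ = h⁻¹ := by
    intro v hv hv1
    refine exists_inverted (mul_self_of_elemAb hV hv) fun hO => hv1 ?_
    have : v ∈ V ⊓ Cfsg.pCore 2 G := ⟨hv, hO⟩
    rwa [hVO] at this
  have hfour : ∀ a ∈ V, ∀ b ∈ V, a ≠ 1 → b ≠ 1 → a ≠ b → ∀ w ∈ V, w ≠ 1 →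
      w = a ∨ w = b ∨ w = a * b := by
    intro a ha b hb ha1 hb1 hab w hw hw1
    have h1 : a * b ≠ 1 := fun e => hab (by
      rw [← mul_self_of_elemAb hV hb] at e
      exact mul_right_cancel e)
    have h2 : a ≠ a * b := fun e => hb1 (by simpa using e)
    have h3 : b ≠ a * b := fun e => ha1 (by simpa using e)
    have hsub : ({1, a, b, a * b} : Set G) ⊆ (V : Set G) := by
      rintro _ (rfl | rfl | rfl | rfl)
      exacts [V.one_mem, ha, hb, V.mul_mem ha hb]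
    have hc : ({1, a, b, a * b} : Set G).ncard = 4 := by
      rw [Set.ncard_insert_of_notMem (by simp [ha1.symm, hb1.symm, h1.symm]),
        Set.ncard_insert_of_notMem (by simp [hab, hb1]), Set.ncard_pair h3]
    have heq := Set.eq_of_subset_of_ncard_le hsub (by rw [hc]; exact h4)
    have hw' : w ∈ ({1, a, b, a * b} : Set G) := heq ▸ hw
    rcases hw' with e | e | e | e
    exacts [absurd e hw1, Or.inl e, Or.inr (Or.inl e), Or.inr (Or.inr e)]
  have hne : ∀ {v h : G}, h ≠ 1 → Odd (orderOf h) → v * h * v⁻¹ = h⁻¹ → v * h ≠ h * v := by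
    intro v h h1 ho hi e
    apply h1
    apply eq_one_of_inv_eq ho
    rw [← hi, e, mul_inv_cancel_right]
  obtain ⟨⟨a₀, ha₀⟩, ha₀1⟩ := Subgroup.ne_bot_iff_exists_ne_one.1 hV1
  have ha₀1' : a₀ ≠ 1 := fun e => ha₀1 (Subtype.ext e)
  obtain ⟨x, hx1, hxo, hxi⟩ := hinv a₀ ha₀ ha₀1'
  obtain ⟨b, hb, hb1, hbx⟩ := hS x a₀ ha₀ hxo hxi
  have hab₀ : a₀ ≠ b := fun e => hne hx1 hxo hxi (e ▸ hbx)
  obtain ⟨y, hy1, hyo, hyi⟩ := hinv b hb hb1
  obtain ⟨a, ha, ha1, hay⟩ := hS y b hb hyo hyi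
  have hab : a ≠ b := fun e => hne hy1 hyo hyi (e ▸ hay)
  have hbx' : b * x * b⁻¹ = x := by rw [hbx, mul_inv_cancel_right]
  have hay' : a * y * a⁻¹ = y := by rw [hay, mul_inv_cancel_right]
  have hax : a * x * a⁻¹ = x⁻¹ := by
    rcases hfour a₀ ha₀ b hb ha₀1' hb1 hab₀ a ha ha1 with e | e | e
    · rw [e, hxi]
    · exact absurd e hab
    · rw [e, show a₀ * b * x * (a₀ * b)⁻¹ = a₀ * (b * x * b⁻¹) * a₀⁻¹ by group, hbx', hxi]
  have hall := hfour a ha b hb ha1 hb1 hab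
  have hai : a * y⁻¹ * a⁻¹ = y⁻¹ := by rw [← conj_inv, hay']
  have hbi : b * y⁻¹ * b⁻¹ = y := by rw [← conj_inv, hyi, inv_inv]
  -- `a` inverts the conjugate of `x` by `y`
  have h1 : a * (y * x * y⁻¹) * a⁻¹ = (y * x * y⁻¹)⁻¹ := by
    rw [show a * (y * x * y⁻¹) * a⁻¹ = (a * y * a⁻¹) * (a * x * a⁻¹) * (a * y⁻¹ * a⁻¹) by group,
      hay', hax, hai]
    group
  have h2 : b * (y * x * y⁻¹) * b⁻¹ = y⁻¹ * x * y := by
    rw [show b * (y * x * y⁻¹) * b⁻¹ = (b * y * b⁻¹) * (b * x * b⁻¹) * (b * y⁻¹ * b⁻¹) by group,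
      hyi, hbx', hbi]
  have hzo : Odd (orderOf (y * x * y⁻¹)) := by rwa [orderOf_conj]
  have hz1 : y * x * y⁻¹ ≠ 1 := fun e => hx1 (by simpa using e)
  have hxy : Commute x y := by
    obtain ⟨w, hw, hw1, hc⟩ := hS _ a ha hzo h1
    have hc' : w * (y * x * y⁻¹) * w⁻¹ = y * x * y⁻¹ := by rw [hc, mul_inv_cancel_right]
    rcases hall w hw hw1 with e | e | e
    · exact absurd hc (e ▸ hne hz1 hzo h1)
    · rw [e, h2] at hc'
      apply commute_of_commute_sq hyo
      show x * (y * y) = y * y * x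
      calc x * (y * y) = y * (y⁻¹ * x * y) * y := by group
        _ = y * (y * x * y⁻¹) * y := by rw [hc']
        _ = y * y * x := by group
    · exfalso
      have h3 : a * (y⁻¹ * x * y) * a⁻¹ = y⁻¹ * x⁻¹ * y := by
        rw [show a * (y⁻¹ * x * y) * a⁻¹ = (a * y⁻¹ * a⁻¹) * (a * x * a⁻¹) * (a * y * a⁻¹) by
          group, hay', hax, hai]
      rw [e, show a * b * (y * x * y⁻¹) * (a * b)⁻¹ = a * (b * (y * x * y⁻¹) * b⁻¹) * a⁻¹ by
        group, h2, h3] at hc'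
      have h4 : (y * y) * x * (y * y)⁻¹ = x⁻¹ := by
        calc (y * y) * x * (y * y)⁻¹ = y * (y * x * y⁻¹) * y⁻¹ := by group
          _ = y * (y⁻¹ * x⁻¹ * y) * y⁻¹ := by rw [hc']
          _ = x⁻¹ := by group
      have h5 : Commute x ((y * y) * (y * y)) := by
        show x * ((y * y) * (y * y)) = (y * y) * (y * y) * x
        generalize y * y = Y at h4
        calc x * (Y * Y) = (Y * x⁻¹ * Y⁻¹) * Y * Y := by
              rw [← conj_inv, h4, inv_inv, mul_assoc]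
          _ = Y * x⁻¹ * Y := by group
          _ = Y * (Y * x * Y⁻¹) * Y := by rw [h4]
          _ = Y * Y * x := by group
      have h6 : Commute x (y * y) := by
        refine commute_of_commute_sq ?_ h5
        rw [← sq]
        exact Odd.of_dvd_nat hyo (orderOf_pow_dvd _)
      exact hne hx1 hxo h4 h6.symm.eq
  have h7 : (a * b) * (x * y) * (a * b)⁻¹ = (x * y)⁻¹ := by
    rw [show (a * b) * (x * y) * (a * b)⁻¹ = a * ((b * x * b⁻¹) * (b * y * b⁻¹)) * a⁻¹ by group,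
      hbx', hyi, show a * (x * y⁻¹) * a⁻¹ = (a * x * a⁻¹) * (a * y⁻¹ * a⁻¹) by group, hax, hai,
      hxy.eq, mul_inv_rev]
  have hpo := odd_orderOf_mul hxy hxo hyo
  obtain ⟨w, hw, hw1, hc⟩ := hS _ (a * b) (V.mul_mem ha hb) hpo h7
  have hc' : w * (x * y) * w⁻¹ = x * y := by rw [hc, mul_inv_cancel_right]
  rcases hall w hw hw1 with e | e | e
  · rw [e, show a * (x * y) * a⁻¹ = (a * x * a⁻¹) * (a * y * a⁻¹) by group, hax, hay'] at hc'
    exact hx1 (eq_one_of_inv_eq hxo (mul_right_cancel hc'))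
  · rw [e, show b * (x * y) * b⁻¹ = (b * x * b⁻¹) * (b * y * b⁻¹) by group, hbx', hyi] at hc'
    exact hy1 (eq_one_of_inv_eq hyo (mul_left_cancel hc'))
  · rw [e, h7] at hc'
    have h8 := eq_one_of_inv_eq hpo hc'
    have h9 : y = x⁻¹ := eq_inv_of_mul_eq_one_right h8
    rw [h9, ← conj_inv, hax, inv_inv] at hay'
    exact hx1 (eq_one_of_inv_eq hxo hay'.symm)

end Cfsg.Agent.S3011
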