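import Cfsg.Statements.S3012
-- import your own Cfsg.Agent.* helpers here

set_option autoImplicit false
open Cfsg

namespace Cfsg.Agent.S3012

/-- Let G be a finite group, V a nontrivial elementary abelian 2-subgroup of G satisfying the Sidki pair condition (every odd-order element inverted by an element of V commutes with a nontrivial element of V), and K a normal subgroup of G with V ∩ K = 1. Then the image of V in G/K satisfies the Sidki pair condition in G/K. -/
theorem result {G : Type*} [Group G] [Finite G] (V K : Subgroup G) [K.Normal] (hV : Cfsg.IsElementaryAbelian 2 V) (hV1 : V ≠ ⊥) (hS : Cfsg.IsSidkiPair V) (hVK : V ⊓ K = ⊥) : Cfsg.IsSidkiPair (V.map (QuotientGroup.mk' K)) := by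
  rintro hb _ ⟨v, hv, rfl⟩ hodd hinv
  obtain ⟨m, hm⟩ := hodd
  obtain ⟨k, hk⟩ := QuotientGroup.mk'_surjective K (hb ^ (m + 1))
  have hv2 : v * v = 1 := by rw [← pow_two]; exact hV.2 v hv
  have hvinv : v⁻¹ = v := by rw [inv_eq_iff_mul_eq_one, hv2]
  set h1 := k * v * k⁻¹ * v⁻¹ with hh1
  have hh1inv : v * h1 * v⁻¹ = h1⁻¹ := by
    rw [hh1]
    calc v * (k * v * k⁻¹ * v⁻¹) * v⁻¹ = v * k * v * k⁻¹ * (v * v)⁻¹ := by group
      _ = v * k * v⁻¹ * k⁻¹ := by rw [hv2, hvinv]; group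
      _ = _ := by group
  have himg : QuotientGroup.mk' K h1 = hb := by
    rw [hh1]
    simp only [map_mul, map_inv, hk]
    have : (QuotientGroup.mk' K) v * (hb ^ (m + 1))⁻¹ * ((QuotientGroup.mk' K) v)⁻¹ = hb ^ (m + 1) := by
      rw [← inv_pow, ← conj_pow]
      congr 1
      calc (QuotientGroup.mk' K) v * hb⁻¹ * ((QuotientGroup.mk' K) v)⁻¹
          = ((QuotientGroup.mk' K) v * hb * ((QuotientGroup.mk' K) v)⁻¹)⁻¹ := by group
        _ = hb := by rw [hinv, inv_inv]
    calc hb ^ (m + 1) * (QuotientGroup.mk' K) v * (hb ^ (m + 1))⁻¹ * ((QuotientGroup.mk' K) v)⁻¹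
        = hb ^ (m + 1) * ((QuotientGroup.mk' K) v * (hb ^ (m + 1))⁻¹ * ((QuotientGroup.mk' K) v)⁻¹) := by group
      _ = hb ^ (orderOf hb + 1) := by rw [this, ← pow_add]; congr 1; omega
      _ = hb := by rw [pow_succ, pow_orderOf_eq_one, one_mul]
  have hpos : orderOf h1 ≠ 0 := (orderOf_pos h1).ne'
  obtain ⟨a, n, hn, han⟩ := Nat.exists_eq_two_pow_mul_odd hpos
  have hodd2 : Odd (orderOf (h1 ^ (2 ^ a))) := by
    apply Odd.of_dvd_nat hn
    apply orderOf_dvd_of_pow_eq_one
    rw [← pow_mul, ← han, pow_orderOf_eq_one]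
  have hinv2 : v * h1 ^ (2 ^ a) * v⁻¹ = (h1 ^ (2 ^ a))⁻¹ := by
    rw [← conj_pow, hh1inv, inv_pow]
  obtain ⟨w, hw, hw1, hwc⟩ := hS _ v hv hodd2 hinv2
  refine ⟨QuotientGroup.mk' K w, ⟨w, hw, rfl⟩, ?_, ?_⟩
  · intro h
    apply hw1
    have : w ∈ V ⊓ K := ⟨hw, (QuotientGroup.eq_one_iff w).1 h⟩
    rw [hVK] at this
    exact this
  · have h1c : Commute (QuotientGroup.mk' K w) (hb ^ (2 ^ a)) := by
      have := congrArg (QuotientGroup.mk' K) hwc
      simp only [map_mul, map_pow, himg] at this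
      exact this
    have hcop : (2 ^ a).Coprime (orderOf hb) := by
      apply Nat.Coprime.pow_left
      rw [Nat.coprime_two_left, hm]
      exact ⟨m, rfl⟩
    obtain ⟨c, hc⟩ := exists_pow_eq_self_of_coprime hcop
    have := h1c.pow_right c
    rw [hc] at this
    exact this

end Cfsg.Agent.S3012
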