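import Cfsg.Statements.S3013
-- import your own Cfsg.Agent.* helpers here

set_option autoImplicit false
open Cfsg

namespace Cfsg.Agent.S3013

/-- Let G be a finite group and V a nontrivial elementary abelian 2-subgroup of G satisfying the Sidki pair condition. Let v ∈ V and let x be an element of odd order inverted by v, and put C = C_G(v) ∩ C_G(x), the centralizer of the dihedral subgroup generated by v and x. Then C ∩ V is nontrivial and satisfies the Sidki pair condition inside C: every odd-order element of C inverted by an element of C ∩ V commutes with a nontrivial element of C ∩ V. -/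
theorem result {G : Type*} [Group G] [Finite G] (V : Subgroup G) (hV : Cfsg.IsElementaryAbelian 2 V) (hV1 : V ≠ ⊥) (hS : Cfsg.IsSidkiPair V) (v x : G) (hv : v ∈ V) (hx : Odd (orderOf x)) (hinv : v * x * v⁻¹ = x⁻¹) (C : Subgroup G) (hC : C = Subgroup.centralizer ({v} : Set G) ⊓ Subgroup.centralizer ({x} : Set G)) : C ⊓ V ≠ ⊥ ∧ Cfsg.IsSidkiPair ((C ⊓ V).subgroupOf C) := by
  subst hC
  have hcomm : ∀ a ∈ V, ∀ b ∈ V, a * b = b * a := by
    intro a ha b hb
    have := hV.1.is_comm.comm (⟨a, ha⟩ : V) ⟨b, hb⟩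
    exact congrArg Subtype.val this
  refine ⟨?_, ?_⟩
  · obtain ⟨w, hw, hw1, hwx⟩ := hS x v hv hx hinv
    intro h
    apply hw1
    have : w ∈ (Subgroup.centralizer ({v} : Set G) ⊓ Subgroup.centralizer ({x} : Set G)) ⊓ V := by
      refine ⟨⟨?_, ?_⟩, hw⟩
      · exact Subgroup.mem_centralizer_singleton_iff.2 (hcomm w hw v hv)
      · exact Subgroup.mem_centralizer_singleton_iff.2 hwx
    rw [h] at this
    exact this
  · rintro ⟨h, hh⟩ ⟨u, hu⟩ huV hodd hinv'
    have huV' : u ∈ V := (Subgroup.mem_subgroupOf.1 huV).2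
    have hhv : h * v = v * h := Subgroup.mem_centralizer_singleton_iff.1 hh.1
    have hhx : h * x = x * h := Subgroup.mem_centralizer_singleton_iff.1 hh.2
    have hux : u * x = x * u := Subgroup.mem_centralizer_singleton_iff.1 hu.2
    have hodd' : Odd (orderOf h) := by
      rw [← Subgroup.orderOf_coe] at hodd
      exact hodd
    have hinv'' : u * h * u⁻¹ = h⁻¹ := congrArg Subtype.val hinv'
    have hc : Commute h x := hhx
    have hoddhx : Odd (orderOf (h * x)) := by
      have := hc.orderOf_mul_dvd_mul_orderOf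
      exact Odd.of_dvd_nat (hodd'.mul hx) this
    have hvh : v * h * v⁻¹ = h := by rw [← hhv]; group
    have hux' : u * x⁻¹ * u⁻¹ = x⁻¹ := by
      have : u * x * u⁻¹ = x := by rw [hux]; group
      calc u * x⁻¹ * u⁻¹ = (u * x * u⁻¹)⁻¹ := by group
        _ = x⁻¹ := by rw [this]
    have key : (u * v) * (h * x) * (u * v)⁻¹ = (h * x)⁻¹ := by
      calc (u * v) * (h * x) * (u * v)⁻¹ = u * ((v * h * v⁻¹) * (v * x * v⁻¹)) * u⁻¹ := by group
        _ = u * (h * x⁻¹) * u⁻¹ := by rw [hvh, hinv]
        _ = (u * h * u⁻¹) * (u * x⁻¹ * u⁻¹) := by group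
        _ = h⁻¹ * x⁻¹ := by rw [hinv'', hux']
        _ = (h * x)⁻¹ := by rw [hhx]; group
    obtain ⟨w, hw, hw1, hwc⟩ := hS (h * x) (u * v) (V.mul_mem huV' hv) hoddhx key
    have hwv : Commute w v := hcomm w hw v hv
    have hwc' : Commute w (h * x) := hwc
    have h2 : Commute w (h * x⁻¹) := by
      have : h * x⁻¹ = v * (h * x) * v⁻¹ := by
        calc h * x⁻¹ = (v * h * v⁻¹) * (v * x * v⁻¹) := by rw [hvh, hinv]
          _ = _ := by group
      rw [this]
      exact (hwv.mul_right hwc').mul_right hwv.inv_right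
    have h3 : Commute w (h ^ 2) := by
      have : h ^ 2 = (h * x) * (h * x⁻¹) := by
        calc h ^ 2 = h * (h * x) * x⁻¹ := by rw [pow_two]; group
          _ = h * (x * h) * x⁻¹ := by rw [hhx]
          _ = _ := by group
      rw [this]
      exact hwc'.mul_right h2
    have h4 : Commute w h := by
      obtain ⟨k, hk⟩ := hodd'
      have : h = (h ^ 2) ^ (k + 1) := by
        rw [← pow_mul, show 2 * (k + 1) = orderOf h + 1 by omega, pow_succ, pow_orderOf_eq_one, one_mul]
      rw [this]
      exact h3.pow_right _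
    have h5 : Commute w x := by
      have : x = h⁻¹ * (h * x) := by group
      rw [this]
      exact h4.inv_right.mul_right hwc'
    have hwC : w ∈ Subgroup.centralizer ({v} : Set G) ⊓ Subgroup.centralizer ({x} : Set G) :=
      ⟨Subgroup.mem_centralizer_singleton_iff.2 hwv, Subgroup.mem_centralizer_singleton_iff.2 h5⟩
    refine ⟨⟨w, hwC⟩, Subgroup.mem_subgroupOf.2 ⟨hwC, hw⟩, ?_, ?_⟩
    · intro h
      exact hw1 (congrArg Subtype.val h)
    · exact Subtype.ext h4

end Cfsg.Agent.S3013
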