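import Cfsg.Statements.S3014
import Cfsg.Agent.TECH.Gamma

set_option autoImplicit false
set_option linter.unusedVariables false
open Cfsg

namespace Cfsg.Agent.S3014

open scoped Pointwise


/-- Let G be a finite group and H ≤ M ≤ G subgroups such that for every g ∈ G the subgroup generated by H and g H g⁻¹ meets M exactly in H. If H is a maximal subgroup of M and M is a maximal subgroup of G, then the normal closure of H in G meets M exactly in H. -/
theorem result {G : Type*} [Group G] [Finite G] (H M : Subgroup G) (hHM : H ≤ M) (hcl : ∀ g : G, (H ⊔ H.map (MulAut.conj g).toMonoidHom) ⊓ M = H) (hmaxH : IsCoatom (H.subgroupOf M)) (hmaxM : IsCoatom M) : Subgroup.normalClosure (H : Set G) ⊓ M = H := by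

  have hconj : ∀ g : G, MulAut.conj g • H ≤ M → g ∈ Subgroup.normalizer (H : Set G) := by
    intro g hg
    have h1 := hcl g
    rw [← CL.conj_smul_eq_map, inf_eq_left.2 (sup_le hHM hg)] at h1
    rw [← CL.conj_smul_eq_iff_mem_normalizer]
    exact Subgroup.eq_of_le_of_card_ge (le_sup_right.trans h1.le) (CL.card_conj_smul g H).ge
  have hn : M ≤ Subgroup.normalizer (H : Set G) := fun g hg =>
    hconj g (CL.conj_smul_le_of_mem_normalizer hHM (Subgroup.le_normalizer hg))
  have hnorm : (H.subgroupOf M).Normal := CL.normal_subgroupOf_of_le_normalizer hn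
  have hp : (H.relIndex M).Prime := CL.Misc.prime_index_of_isCoatom hmaxH
  by_cases hHn : H.Normal
  · rw [Subgroup.normalClosure_eq_self, inf_eq_left.2 hHM]
  have hNM : Subgroup.normalizer (H : Set G) = M := by
    rcases hmaxM.le_iff.1 hn with h | h
    · exact absurd (Subgroup.normalizer_eq_top_iff.1 h) hHn
    · exact h
  by_contra hne
  have hK : M ≤ Subgroup.normalClosure (H : Set G) := by
    rcases CL.Misc.eq_or_eq_of_relIndex_prime hp
      (le_inf Subgroup.le_normalClosure hHM) inf_le_right with h | h
    · exact absurd h hne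
    · exact inf_eq_right.1 h
  have hMH : ¬ M ≤ H := fun h => hp.one_lt.ne' (Subgroup.relIndex_eq_one.2 h)
  obtain ⟨N, hN, -, hHN, hNMH⟩ := CL.Misc.exists_normal_inf_eq hHM hn hp (by
    intro g hg x hx hgx
    by_contra hxH
    set J := H ⊔ MulAut.conj g⁻¹ • H with hJ
    have hxJ : Subgroup.zpowers x ≤ Subgroup.normalizer (J : Set G) := by
      refine CL.le_normalizer_sup (Subgroup.zpowers_le.2 (hn hx)) (Subgroup.zpowers_le.2 ?_)
      rw [CL.normalizer_conj_smul, CL.mem_conj_smul_iff, inv_inv]
      exact hn hgx
    have hMJ : M ≤ Subgroup.normalizer (J : Set G) := by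
      rw [← CL.Misc.sup_zpowers_eq_of_prime hp hHM hx hxH]
      exact sup_le (le_sup_left.trans Subgroup.le_normalizer) hxJ
    have hJM : ¬ J ≤ M := by
      intro h
      have := hconj g⁻¹ (le_sup_right.trans h)
      rw [hNM] at this
      exact hg (inv_mem_iff.1 this)
    have hJn : J.Normal := by
      rcases hmaxM.le_iff.1 hMJ with h | h
      · exact Subgroup.normalizer_eq_top_iff.1 h
      · exact absurd (h ▸ Subgroup.le_normalizer) hJM
    have h1 : M ≤ J := hK.trans (Subgroup.normalClosure_le_normal (show H ≤ J from le_sup_left))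
    have h2 := hcl g⁻¹
    rw [← CL.conj_smul_eq_map, ← hJ, inf_eq_right.2 h1] at h2
    exact hMH h2.le)
  apply hMH
  rw [← hNMH]
  exact le_inf (hK.trans (Subgroup.normalClosure_le_normal hHN)) le_rfl

end Cfsg.Agent.S3014
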