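import Cfsg.Statements.S3015
import Cfsg.Agent.TECH.Gamma

set_option autoImplicit false
set_option linter.unusedVariables false
open Cfsg

namespace Cfsg.Agent.S3015

open scoped Pointwise


/-- Let G be a finite non-abelian simple group, M a maximal subgroup of G and H a normal subgroup of M of prime index in M. Then G is generated by H together with one of its conjugates. -/
theorem result {G : Type*} [Group G] [Finite G] [IsSimpleGroup G] (hG : ¬ IsMulCommutative G) (M H : Subgroup G) (hmaxM : IsCoatom M) (hHM : H ≤ M) (hHn : (H.subgroupOf M).Normal) (hidx : (H.relIndex M).Prime) : ∃ g : G, H ⊔ H.map (MulAut.conj g).toMonoidHom = ⊤ := by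

  have hn : M ≤ Subgroup.normalizer (H : Set G) :=
    (Subgroup.normal_subgroupOf_iff_le_normalizer hHM).1 hHn
  set p := H.relIndex M with hp
  have : Fact p.Prime := ⟨hidx⟩
  have hMH : ¬ M ≤ H := fun h => hidx.one_lt.ne' (Subgroup.relIndex_eq_one.2 h)
  have hbot : ∀ K : Subgroup G, K ≠ ⊤ → M < Subgroup.normalizer (K : Set G) → K = ⊥ := by
    intro K hK hlt
    exact (Subgroup.normalizer_eq_top_iff.1 (hmaxM.2 _ hlt)).eq_bot_or_eq_top.resolve_right hK
  have hM1 : M ≠ ⊥ := fun h => hMH (h ▸ bot_le)
  have hNM : ∀ g, g ∉ M → ¬ MulAut.conj g • M ≤ M := by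
    intro g hg hle
    have h1 : g ∈ Subgroup.normalizer (M : Set G) := by
      rw [← CL.conj_smul_eq_iff_mem_normalizer]
      exact Subgroup.eq_of_le_of_card_ge hle (CL.card_conj_smul g M).ge
    exact hM1 (hbot M hmaxM.1 (lt_of_le_of_ne Subgroup.le_normalizer fun e => hg (e ▸ h1)))
  have hstar : ∀ g, g ∉ M → MulAut.conj g • H ≤ M → H = ⊥ := by
    intro g hg hle
    set K := Subgroup.closure {y : G | y ∈ M ∧ (orderOf y).Coprime p} with hK
    have hKM : K ≤ M := (Subgroup.closure_le _).2 fun y hy => hy.1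
    have hgen : ∀ a : G, (∀ y ∈ H, a * y * a⁻¹ ∈ M) → a ∈ Subgroup.normalizer (K : Set G) := by
      intro a ha
      apply Subgroup.mem_normalizer_fintype
      intro n hnK
      have : K ≤ MulAut.conj a⁻¹ • K := by
        refine (Subgroup.closure_le _).2 fun y hy => ?_
        have hyH : y ∈ H := by
          have := CL.mem_of_coprime_index (N := H.subgroupOf M) (g := ⟨y, hy.1⟩)
            (by rw [← Subgroup.orderOf_coe]; exact hy.2)
          exact this
        show y ∈ MulAut.conj a⁻¹ • K
        rw [CL.mem_conj_smul_iff, inv_inv]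
        refine Subgroup.subset_closure ⟨ha y hyH, ?_⟩
        have e : orderOf (a * y * a⁻¹) = orderOf y :=
          orderOf_injective (MulAut.conj a).toMonoidHom (MulAut.conj a).injective y
        rw [e]
        exact hy.2
      have h2 := this hnK
      rwa [CL.mem_conj_smul_iff, inv_inv] at h2
    have hK1 : K = ⊥ := by
      refine hbot K (fun h => hmaxM.1 (top_le_iff.1 (h ▸ hKM))) (lt_of_le_of_ne ?_ fun e => hg ?_)
      · intro m hm
        exact hgen m fun y hy => mul_mem (mul_mem hm (hHM hy)) (inv_mem hm)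
      · rw [e]
        exact hgen g fun y hy => hle (CL.conj_mem_conj_smul hy)
    have hMp : IsPGroup p M := by
      rintro ⟨y, hy⟩
      obtain ⟨n, m, hm, e⟩ := Nat.exists_eq_pow_mul_and_not_dvd (orderOf_pos y).ne' p hidx.one_lt.ne'
      refine ⟨n, Subtype.ext ?_⟩
      have h1 : y ^ p ^ n ∈ K := by
        refine Subgroup.subset_closure ⟨pow_mem hy _, ?_⟩
        have h2 : orderOf (y ^ p ^ n) ∣ m := by
          apply orderOf_dvd_of_pow_eq_one
          rw [← pow_mul, ← e, pow_orderOf_eq_one]
        exact Nat.Coprime.coprime_dvd_left h2 ((Nat.Prime.coprime_iff_not_dvd hidx).2 hm).symm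
      rw [hK1] at h1
      exact h1
    have hidx' : (MulAut.conj g • H).relIndex M = p := by
      have h1 := CL.card_mul_relIndex_of_le hle
      have h2 := CL.card_mul_relIndex_of_le hHM
      rw [CL.card_conj_smul, ← h2] at h1
      exact Nat.eq_of_mul_eq_mul_left Nat.card_pos h1
    have hlt : MulAut.conj g • H < M := lt_of_le_of_ne hle fun e => by
      rw [e, Subgroup.relIndex_self] at hidx'
      exact hidx.one_lt.ne hidx'
    obtain ⟨y, hyM, hyH, hyn⟩ := CL.Misc.exists_normalizer_growth hMp hlt
    have h3 : M ≤ Subgroup.normalizer ((MulAut.conj g • H : Subgroup G) : Set G) := by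
      rw [← CL.Misc.sup_zpowers_eq_of_prime (hidx' ▸ hidx) hle hyM hyH]
      exact sup_le Subgroup.le_normalizer (Subgroup.zpowers_le.2 hyn)
    have h4 := hbot _ (hlt.trans_le le_top).ne (lt_of_le_of_ne h3 fun e => hNM g hg (by
      conv_rhs => rw [e, CL.normalizer_conj_smul]
      exact CL.conj_smul_mono g hn))
    have h5 := CL.card_conj_smul g H
    rw [h4, Subgroup.card_bot] at h5
    exact Subgroup.eq_bot_of_card_eq H h5.symm
  by_contra hne
  push Not at hne
  obtain ⟨N, hN, hGN, -, hNMH⟩ := CL.Misc.exists_normal_inf_eq hHM hn hidx (by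
    intro g hg x hx hgx
    by_contra hxH
    have hg' : g⁻¹ ∉ M := fun h => hg (inv_mem_iff.1 h)
    have hsup := CL.Misc.sup_zpowers_eq_of_prime hidx hHM hx hxH
    by_cases hH1 : H = ⊥
    · apply hNM g hg
      rw [hH1, bot_sup_eq] at hsup
      intro y hy
      rw [CL.mem_conj_smul_iff, ← hsup] at hy
      obtain ⟨k, hk⟩ := Subgroup.mem_zpowers_iff.1 hy
      have := zpow_mem hgx k
      rwa [conj_zpow, hk, show g * (g⁻¹ * y * g) * g⁻¹ = y by group] at this
    set J := H ⊔ MulAut.conj g⁻¹ • H with hJ
    have hxJ : Subgroup.zpowers x ≤ Subgroup.normalizer (J : Set G) := by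
      refine CL.le_normalizer_sup (Subgroup.zpowers_le.2 (hn hx)) (Subgroup.zpowers_le.2 ?_)
      rw [CL.normalizer_conj_smul, CL.mem_conj_smul_iff, inv_inv]
      exact hn hgx
    have hMJ : M ≤ Subgroup.normalizer (J : Set G) := by
      rw [← hsup]
      exact sup_le (le_sup_left.trans Subgroup.le_normalizer) hxJ
    have hJM : ¬ J ≤ M := fun h => hH1 (hstar g⁻¹ hg' (le_sup_right.trans h))
    have := hbot J (hne g⁻¹) (lt_of_le_of_ne hMJ fun e => hJM (e ▸ Subgroup.le_normalizer))
    exact hJM (this ▸ bot_le))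
  have hperf : commutator G = ⊤ := by
    rcases (inferInstance : (commutator G).Normal).eq_bot_or_eq_top with h | h
    · exfalso
      apply hG
      refine ⟨⟨fun a b => ?_⟩⟩
      have := Subgroup.commutator_mem_commutator (Subgroup.mem_top a) (Subgroup.mem_top b)
      rwa [← commutator_def, h, Subgroup.mem_bot, commutatorElement_eq_one_iff_mul_comm] at this
    · exact h
  rw [hperf, top_le_iff] at hGN
  rw [hGN, top_inf_eq] at hNMH
  exact hMH hNMH.le

end Cfsg.Agent.S3015
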