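import Cfsg.Statements.S3016
import Cfsg.Agent.FGS.XC.Ind

set_option autoImplicit false
open Cfsg

namespace Cfsg.Agent.S3016

open Subgroup CL.MSS CL.XC in
/-- Let G be a finite group, p an odd prime, and H an abelian p-subgroup of G that is extremely closed (for every g, the subgroup generated by H and g H g⁻¹ meets N_G(H) exactly in H). Then the normal closure of H meets N_G(H) exactly in H, and G = N_G(H) O_{p'}(G). -/
theorem result {G : Type*} [Group G] [Finite G] {p : ℕ} [Fact p.Prime] (hp : p ≠ 2) (H : Subgroup G) (hHp : IsPGroup p H) (hHab : IsMulCommutative H) (hcl : Cfsg.IsExtremelyClosed H) : Subgroup.normalClosure (H : Set G) ⊓ Subgroup.normalizer (H : Set G) = H ∧ Subgroup.normalizer (H : Set G) ⊔ Cfsg.pPrimeCore p G = ⊤ := by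
  have h : Hy p H := ⟨hHp, fun x hx y hy => congrArg Subtype.val
    (hHab.is_comm.comm (⟨x, hx⟩ : H) ⟨y, hy⟩), fun g x hx hn => (hcl g).le ⟨hx, hn⟩⟩
  have h1 := main1 hp _ G rfl H h
  have h2 := main2 hp _ G rfl H h
  refine ⟨le_antisymm h2 (le_inf le_normalClosure le_normalizer), top_le_iff.1 ?_⟩
  have h3 : SylIn p H (normalClosure (H : Set G)) :=
    SylIn.of_normalizer_le (sylIn_self hHp) le_normalClosure h2
  rw [← h3.frattini_sup le_top (le_norm_normal _ _)]
  exact sup_le (h1.trans (sup_le_sup_right le_normalizer _)) (inf_le_right.trans le_sup_left)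

end Cfsg.Agent.S3016
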