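import Cfsg.Statements.S3019
import Cfsg.Agent.FGS.XC.PS2

set_option autoImplicit false
open Cfsg

namespace Cfsg.Agent.S3019

open Subgroup CL.MSS CL.XC in
/-- Let G be a finite group, p a prime and P a Sylow p-subgroup of G. Then G is p-solvable if and only if, for every g ∈ G, the subgroup generated by P and g P g⁻¹ is p-solvable. -/
theorem result {G : Type*} [Group G] [Finite G] {p : ℕ} [Fact p.Prime] (P : Sylow p G) : Cfsg.IsPSolvable p G ↔ ∀ g : G, Cfsg.IsPSolvable p ↥((P : Subgroup G) ⊔ (P : Subgroup G).map (MulAut.conj g).toMonoidHom) := by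
  refine ⟨fun h g => CL.IsPSolvable.subgroup h _, fun h =>
    pSolvable_of_sylow_pairs _ G rfl fun Q R => ?_⟩
  obtain ⟨a, rfl⟩ := MulAction.exists_smul_eq G P Q
  obtain ⟨b, rfl⟩ := MulAction.exists_smul_eq G (a • P) R
  have h1 := CL.IsPSolvable.map (h (a⁻¹ * b * a)) (MulAut.conj a).toMonoidHom
  have e : a •ᶜ ((P : Subgroup G) ⊔ (a⁻¹ * b * a) •ᶜ (P : Subgroup G)) =
      ((a • P : Sylow p G) : Subgroup G) ⊔ (b • a • P : Sylow p G) := by
    rw [cj_sup, ← cj_mul, sylow_coe_smul, sylow_coe_smul, sylow_coe_smul, ← cj_mul]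
    congr 2
    group
  exact e ▸ h1

end Cfsg.Agent.S3019
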