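import Cfsg.Statements.S3020
import Cfsg.Agent.TECH.MiscSyl

set_option autoImplicit false
set_option linter.unusedVariables false
open Cfsg

namespace Cfsg.Agent.S3020

open CL.Misc

/-- Let G be a finite group, p a prime and H an abelian p-subgroup of G that is extremely closed (for every g, the subgroup generated by H and g H g⁻¹ meets N_G(H) exactly in H). Then for every g ∈ G, the subgroup T generated by H and g H g⁻¹ is the product of H with O_{p'}(T), and H meets O_{p'}(T) trivially; that is, O_{p'}(T) is a normal p-complement of H in T. -/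
theorem result {G : Type*} [Group G] [Finite G] {p : ℕ} [Fact p.Prime] (H : Subgroup G) (hHp : IsPGroup p H) (hHab : IsMulCommutative H) (hcl : Cfsg.IsExtremelyClosed H) (g : G) (T : Subgroup G) (hT : T = H ⊔ H.map (MulAut.conj g).toMonoidHom) : H ⊔ (Cfsg.pPrimeCore p ↥T).map T.subtype = T ∧ H ⊓ (Cfsg.pPrimeCore p ↥T).map T.subtype = ⊥ := by
  have hHT : H ≤ T := hT ▸ le_sup_left
  have hN : T ⊓ Subgroup.normalizer (H : Set G) = H := hT ▸ hcl g
  have hS : SylIn p H T := sylIn_of_normalizer hHT (by rw [hN]; exact sylIn_self hHp)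
  have hB := burnside_pPrimeCore hS.toSylow (by
    rw [hS.coe_toSylow, ← Subgroup.subgroupOf_normalizer_eq hHT]
    intro x hx
    have hx' : (x : G) ∈ H := hN ▸ (⟨x.2, hx⟩ : (x : G) ∈ T ⊓ Subgroup.normalizer (H : Set G))
    rw [Subgroup.mem_centralizer_iff]
    intro y hy
    have h2 : (y : G) * x = x * y := congrArg Subtype.val (hHab.is_comm.comm (⟨y, hy⟩ : H) ⟨x, hx'⟩)
    exact Subtype.ext h2)
  refine ⟨?_, ?_⟩
  · have := congrArg (Subgroup.map T.subtype) hB.sup_eq_top
    rw [Subgroup.map_sup, hS.map_toSylow, ← MonoidHom.range_eq_map, Subgroup.range_subtype,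
      sup_comm] at this
    exact this
  · have := congrArg (Subgroup.map T.subtype) hB.disjoint.eq_bot
    rw [Subgroup.map_inf _ _ _ T.subtype_injective, hS.map_toSylow, Subgroup.map_bot, inf_comm] at this
    exact this

end Cfsg.Agent.S3020
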