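import Cfsg.Statements.S3021
import Mathlib.GroupTheory.Nilpotent

set_option autoImplicit false
set_option linter.unusedVariables false
open Cfsg

namespace Cfsg.Agent.S3021

theorem exists_normalizer_growth {G : Type*} [Group G] [Finite G] {p : ℕ} [Fact p.Prime]
    {H Q : Subgroup G} (hQ : IsPGroup p Q) (hlt : H < Q) :
    ∃ g ∈ Q, g ∉ H ∧ g ∈ Subgroup.normalizer (H : Set G) := by
  have : Group.IsNilpotent Q := hQ.isNilpotent
  have hnc : NormalizerCondition Q := Group.normalizerCondition_of_isNilpotent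
  have h1 : H.subgroupOf Q < ⊤ := by
    rw [lt_top_iff_ne_top, Ne, Subgroup.subgroupOf_eq_top]
    exact fun h => hlt.ne (le_antisymm hlt.le h)
  obtain ⟨⟨g, hgQ⟩, hg, hg'⟩ := SetLike.exists_of_lt (hnc _ h1)
  rw [← Subgroup.subgroupOf_normalizer_eq hlt.le] at hg
  exact ⟨g, hgQ, hg', hg⟩


/-- Let G be a finite group, p a prime and H a p-subgroup of G that is extremely closed (for every g, the subgroup generated by H and g H g⁻¹ meets N_G(H) exactly in H). Then every p-subgroup Q of G containing H has N_G(Q) ≤ N_G(H); in particular every Sylow p-subgroup P of G containing H normalizes H, and H is strongly closed in P with respect to G. -/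
theorem result {G : Type*} [Group G] [Finite G] {p : ℕ} [Fact p.Prime] (H : Subgroup G) (hHp : IsPGroup p H) (hcl : Cfsg.IsExtremelyClosed H) : (∀ Q : Subgroup G, IsPGroup p Q → H ≤ Q → Subgroup.normalizer (Q : Set G) ≤ Subgroup.normalizer (H : Set G)) ∧ ∀ P : Sylow p G, H ≤ (P : Subgroup G) → (P : Subgroup G) ≤ Subgroup.normalizer (H : Set G) ∧ Cfsg.IsStronglyClosed H (P : Subgroup G) := by
  have key : ∀ g : G, (∀ h ∈ H, g * h * g⁻¹ ∈ Subgroup.normalizer (H : Set G)) →
      g ∈ Subgroup.normalizer (H : Set G) := by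
    intro g hg
    apply Subgroup.mem_normalizer_fintype
    intro h hh
    have : g * h * g⁻¹ ∈ (H ⊔ H.map (MulAut.conj g).toMonoidHom) ⊓ Subgroup.normalizer (H : Set G) :=
      ⟨Subgroup.mem_sup_right ⟨h, hh, rfl⟩, hg h hh⟩
    rw [hcl g] at this
    exact this
  have hnorm : ∀ Q : Subgroup G, IsPGroup p Q → H ≤ Q → Q ≤ Subgroup.normalizer (H : Set G) := by
    intro Q hQ hHQ
    by_contra hne
    have hlt : Q ⊓ Subgroup.normalizer (H : Set G) < Q := by
      refine lt_of_le_of_ne inf_le_left ?_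
      intro h
      exact hne (h ▸ inf_le_right)
    obtain ⟨g, hgQ, hg1, hg2⟩ := exists_normalizer_growth hQ hlt
    apply hg1
    refine ⟨hgQ, key g ?_⟩
    intro h hh
    have : h ∈ Q ⊓ Subgroup.normalizer (H : Set G) := ⟨hHQ hh, Subgroup.le_normalizer hh⟩
    exact ((Subgroup.mem_normalizer_iff.1 hg2 h).1 this).2
  refine ⟨?_, ?_⟩
  · intro Q hQ hHQ g hg
    apply key
    intro h hh
    exact hnorm Q hQ hHQ ((Subgroup.mem_normalizer_iff.1 hg h).1 (hHQ hh))
  · intro P hP
    refine ⟨hnorm P P.isPGroup' hP, hP, ?_⟩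
    intro x hx g hg
    have : g * x * g⁻¹ ∈ (H ⊔ H.map (MulAut.conj g).toMonoidHom) ⊓ Subgroup.normalizer (H : Set G) :=
      ⟨Subgroup.mem_sup_right ⟨x, hx, rfl⟩, hnorm P P.isPGroup' hP hg⟩
    rw [hcl g] at this
    exact this

end Cfsg.Agent.S3021
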