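import Cfsg.Statements.S3022
import Cfsg.Agent.TECH.BHS29
import Cfsg.Agent.TECH.QPush2

set_option autoImplicit false
open Cfsg

namespace Cfsg.Agent.S3022

open Subgroup CL.Th CL.MSS CL.Push CL.BHS CL.QP CL.BlkTr CL.ThA
open scoped commutatorElement

variable {G : Type*} [Group G] [Finite G]

theorem pow_inner {S : Type*} [Group S] {a : MulAut S} {k : ℕ} (h : a ^ k = 1) (s : S) :
    ∃ t : S, (MulAut.conj s * a) ^ k = MulAut.conj t := by
  suffices e : ∀ j : ℕ, ∃ t : S, (MulAut.conj s * a) ^ j = MulAut.conj t * a ^ j by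
    simpa [h] using e k
  intro j
  induction j with
  | zero => exact ⟨1, by simp⟩
  | succ j ih =>
    obtain ⟨t, e⟩ := ih
    exact ⟨t * (a ^ j) s, by rw [pow_succ, e]; ext x; simp [pow_succ, mul_assoc]⟩

theorem parity {s z t : ℕ} {S L Q B : Subgroup G} (hS : SylIn 2 S ⊤) (hc : ChP 2 (⊤ : Subgroup G))
    (hB : B ≤ S) (hB' : (B.subgroupOf S).Characteristic) (b : Blk s z t L Q B) {β : MulAut S} {r : ℕ}
    {u : S} (e : β ^ (2 * r + 1) = MulAut.conj u) :
    (((ctr Q).subgroupOf S).map β.toMonoidHom).map S.subtype ≤ Q := by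
  have hφ : Function.Injective (MulAction.toPermHom G G) := MulAction.toPerm_injective
  generalize hψ : MulAction.toPermHom G G = φ at hφ
  obtain ⟨x, hx⟩ := exists_perm_conj S β
  rw [hψ] at hx
  have n : S ≤ normalizer (B : Set G) := (normal_subgroupOf_iff_le_normalizer hB).1 inferInstance
  have k : ∀ (j : ℕ) (a : S), x ^ j * φ a * (x ^ j)⁻¹ = φ ((β ^ j) a) := fun j => by
    induction j with
    | zero => simp
    | succ j ih => exact fun a => by rw [pow_succ, pow_succ, MulAut.mul_apply, ← ih, ← hx]; group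
  have k' : ∀ (j : ℕ) {Y : Subgroup G}, Y ≤ S → x ^ j •ᶜ Y.map φ =
      (((Y.subgroupOf S).map (β ^ j).toMonoidHom).map S.subtype).map φ := fun j Y hY => by
    conv_lhs => rw [← map_subgroupOf_eq_of_le hY]
    simp only [map_map]
    congr 1
    exact MonoidHom.ext (k j)
  have hQ := b.le.trans hB
  have xB : x ∈ normalizer (B.map φ : Set (Equiv.Perm G)) := mem_normalizer_iff_cj.2 (by
    rw [← pow_one x, k' 1 hB, characteristic_iff_map_eq.1 hB', map_subgroupOf_eq_of_le hB])
  have c := b.map hφ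
  rw [← map_le_map_iff_of_injective hφ, ← pow_one β, ← k' 1 (inf_le_left.trans hQ), pow_one,
    map_ctr _ hφ, cj_ctr]
  by_contra ho
  have x2 : (x * x) •ᶜ Q.map φ = Q.map φ := (c.cj xB).uniq (c.cj (mul_mem xB xB)) c (fun e =>
    (c.cj xB).opp_symm c ho (by rwa [cj_mul, ← cj_ctr, cj_le_cj_iff] at e)) ho
  have x3 : x •ᶜ Q.map φ = ((u : G) •ᶜ Q).map φ := by
    have := k' (2 * r + 1) hQ
    rw [pow_succ', pow_mul, cj_mul, sq, cj_eq_of_mem_normalizer
      (pow_mem (mem_normalizer_iff_cj.2 x2) r), e] at this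
    rw [this]
    conv_rhs => rw [← map_subgroupOf_eq_of_le hQ]
    simp only [map_map]
    rfl
  rw [x3, ← map_ctr _ hφ, map_le_map_iff_of_injective hφ] at ho
  exact ho (not_opp hS n hc le_top (b.cj (n u.2)) b le_top le_top)

/-- Let G be a finite group all of whose non-abelian simple sections are known simple groups, such that a Sylow 2-subgroup of G lies in exactly one maximal subgroup of G and C_G(O₂(G)) ≤ O₂(G). Let S be a Sylow 2-subgroup of G and A a group of automorphisms of S of odd order. Then some nontrivial A-invariant subgroup of S is normal in G. -/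
theorem result {G : Type*} [Group G] [Finite G] (hK : Cfsg.IsKGroup G) (hirr : ∀ S : Sylow 2 G, ∃! M : Subgroup G, IsCoatom M ∧ (S : Subgroup G) ≤ M) (hchar : Subgroup.centralizer (Cfsg.pCore 2 G : Set G) ≤ Cfsg.pCore 2 G) (S : Sylow 2 G) (A : Subgroup (MulAut ↥(S : Subgroup G))) (hA : Odd (Nat.card A)) : ∃ U : Subgroup G, U ≠ ⊥ ∧ U.Normal ∧ U ≤ (S : Subgroup G) ∧ ∀ a ∈ A, ∀ x : ↥(S : Subgroup G), (x : G) ∈ U → ((a x : ↥(S : Subgroup G)) : G) ∈ U := by
  obtain ⟨M, ⟨h1, h2⟩, -⟩ := hirr S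
  have u := uniqMax_of_existsUnique (hirr S) h1 h2
  have hS := sylIn_top S
  by_contra! hn
  have key : ∀ U ≤ (S : Subgroup G), U ≠ ⊥ → (U.subgroupOf S).Characteristic →
      normalizer (U : Set G) ≤ M := fun U a b c => by
    refine u.max _ ((normal_subgroupOf_iff_le_normalizer a).1 inferInstance)
      (lt_top_iff_ne_top.2 fun e => ?_)
    obtain ⟨σ, -, x, hx, k⟩ := hn U b (normalizer_eq_top_iff.1 e) a
    exact k (characteristic_iff_le_comap.1 c σ hx)
  have cn : charNormalizersJoin (S : Subgroup G) ≤ M := iSup_le fun ⟨U, a, b, c⟩ => key U a b c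
  have h0 := St.of_cnj hchar hS fun e => h1.1 (top_le_iff.1 (e.ge.trans cn))
  have h : St 2 S M := ⟨hchar, hS, h0.cs.trans cn, h1.1⟩
  have cB := char_of_baumann (p := 2) (T := (S : Subgroup G)) le_rfl (by rw [subgroupOf_self]; infer_instance)
  obtain ⟨Λ, _, _, ψ, q, S', M', a1, a2, a3, pu⟩ := exists_pu (h.pm u) (key _ (baum_le _)
    (fun e => h.J_ne (le_bot_iff.1 ((J_le_baum _).trans e.le))) cB)
  obtain ⟨f, he, ⟨P, c⟩ | ⟨_, _, _, _, _, c, -⟩⟩ := pu_dichotomy pu fun U b1 b2 b3 => by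
    have e := map_mono (f := ψ) (map_subtype_le U)
    refine a3 (le_trans ?_ (key _ ((e.trans a2.le).trans (baum_le _)) (fun e => b1 ?_)
      (char_of_baumann (p := 2) (e.trans a2.le) (a2 ▸ char_map a1 ?_))))
    · rw [MonoidHom.range_eq_map, map_le_norm_iff a1]
      exact le_normalizer_of_normal
    · rwa [map_eq_bot_iff_of_injective _ a1, map_eq_bot_iff_of_injective _ S'.subtype_injective] at e
    · rwa [subgroupOf, comap_map_eq_self_of_injective S'.subtype_injective]
  swap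
  · exact c.ne_two rfl
  have b := (blk_top pu f he c).map a1
  rw [a2, ← MonoidHom.range_eq_map] at b
  generalize (pCore 2 Λ).map ψ = Q at b
  obtain ⟨r, hr⟩ := hA
  let U : Subgroup S := ⨆ σ : S × A, ((ctr Q).subgroupOf S).map (MulAut.conj σ.1 * σ.2.1).toMonoidHom
  have l1 : U.map (S : Subgroup G).subtype ≤ Q := map_le_iff_le_comap.2 (iSup_le fun σ => by
    obtain ⟨t, e⟩ := pow_inner (k := 2 * r + 1)
      (congrArg Subtype.val (hr ▸ pow_card_eq_one' (x := σ.2))) σ.1
    exact map_le_iff_le_comap.1 (parity hS (chP_top_iff.2 hchar) (baum_le _) cB b e))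
  have l2 : ctr Q ≤ U.map (S : Subgroup G).subtype := fun x hx =>
    ⟨⟨x, baum_le _ (b.le hx.1)⟩, mem_iSup_of_mem (1, 1)
      ⟨⟨x, baum_le _ (b.le hx.1)⟩, hx, by simp⟩, rfl⟩
  have inv : ∀ (t : S) (a : A), U ≤ U.comap (MulAut.conj t * a.1).toMonoidHom := fun t a =>
    iSup_le fun σ => map_le_iff_le_comap.1 (le_iSup_of_le (t * a.1 σ.1, a * σ.2) (by
      rw [map_map]
      refine le_of_eq (congrArg (Subgroup.map · _) (MonoidHom.ext fun x => ?_))
      simp [mul_assoc]))
  have n : (S : Subgroup G) ≤ normalizer (U.map (S : Subgroup G).subtype : Set G) :=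
    fun g hg => mem_normalizer_of_cj_le (cj_le_iff_forall.2 (by
      rintro _ ⟨x, hx, rfl⟩
      exact ⟨_, inv ⟨g, hg⟩ 1 hx, rfl⟩))
  have n' : ψ.range ≤ normalizer (U.map (S : Subgroup G).subtype : Set G) :=
    (oU_sup_sylIn b.syl).ge.trans (sup_le (le_normalizer_of_commutator_le
      ((commutator_mono l1 le_rfl).trans (b.res.trans l2))) ((baum_le _).trans n))
  obtain ⟨σ, hσ, x, ⟨y, hy, e⟩, k⟩ := hn (U.map (S : Subgroup G).subtype) (fun e => b.nc
    (l2.trans (e.le.trans bot_le))) (normalizer_eq_top_iff.1 (by_contra fun e => a3 (n'.trans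
      (u.max _ n (lt_top_iff_ne_top.2 e))))) (map_subtype_le _)
  obtain rfl : y = x := Subtype.ext e
  exact k ⟨_, inv 1 ⟨σ, hσ⟩ hy, by simp⟩

end Cfsg.Agent.S3022
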