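import Cfsg.Statements.S3025
import Cfsg.Agent.SOLV.MinNormal
import Cfsg.Agent.SOLV.PGroupCyclicSCN
import Cfsg.Agent.TECH.Conj

set_option autoImplicit false
open Cfsg

namespace Cfsg.Agent.S3025

open Subgroup CL.MSS

/-- Let F be a finite group and H a nontrivial subgroup of F that is contained in every nontrivial subgroup of F which H normalizes. Then F has a nontrivial normal subgroup N contained in every nontrivial normal subgroup of F (a unique minimal normal subgroup), N is simple, and one of the following holds: C_F(N) = 1; or H = N has prime order p, C_F(N) is cyclic of order a power of p, and F/C_F(N) is cyclic of order dividing p − 1; or H = N has order 2, N is central in F, and F is a generalized quaternion group. -/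
theorem result {F : Type*} [Group F] [Finite F] (H : Subgroup F) (hH : H ≠ ⊥)
    (hmin : ∀ R : Subgroup F, R ≠ ⊥ → H ≤ Subgroup.normalizer (R : Set F) → H ≤ R) :
    ∃ N : Subgroup F, N.Normal ∧ N ≠ ⊥ ∧ (∀ M : Subgroup F, M.Normal → M ≠ ⊥ → N ≤ M) ∧ IsSimpleGroup ↥N ∧
      (Subgroup.centralizer (N : Set F) = ⊥ ∨
       (H = N ∧ (Nat.card N).Prime ∧ IsCyclic ↥(Subgroup.centralizer (N : Set F)) ∧
          (∃ k : ℕ, 1 ≤ k ∧ Nat.card ↥(Subgroup.centralizer (N : Set F)) = Nat.card N ^ k) ∧
          (∃ g : F, Subgroup.centralizer (N : Set F) ⊔ Subgroup.zpowers g = ⊤) ∧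
          (Subgroup.centralizer (N : Set F)).index ∣ Nat.card N - 1) ∨
       (H = N ∧ Nat.card N = 2 ∧ Subgroup.centralizer (N : Set F) = ⊤ ∧
          ∃ k : ℕ, 1 ≤ k ∧ Nonempty (F ≃* QuaternionGroup (2 ^ k)))) := by
  have : Nontrivial F := by
    by_contra h
    rw [not_nontrivial_iff_subsingleton] at h
    exact hH (Subsingleton.elim _ _)
  obtain ⟨N, hN⟩ := CL.exists_isMinNormal F
  have hNn := hN.normal
  have hnorm : ∀ M : Subgroup F, M.Normal → M ≠ ⊥ → H ≤ M := fun M hM h1 =>
    hmin M h1 (by rw [normalizer_eq_top]; exact le_top)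
  have hHN := hnorm N hNn hN.ne_bot
  have huniq : ∀ M : Subgroup F, M.Normal → M ≠ ⊥ → N ≤ M := fun M hM h1 =>
    (hN.inf_eq_bot_or_le M).resolve_left fun e =>
      hH (eq_bot_iff.2 (e ▸ le_inf hHN (hnorm M hM h1)))
  have hsimple : IsSimpleGroup N := by
    have := hN.nontrivial
    refine ⟨fun L hL => or_iff_not_imp_left.2 fun h1 => ?_⟩
    have h2 : N ≤ normalizer ((L.map N.subtype : Subgroup F) : Set F) :=
      CL.le_normalizer_map_subtype N L
    have h3 : L.map N.subtype ≠ ⊥ := fun e =>
      h1 ((Subgroup.map_eq_bot_iff_of_injective L N.subtype_injective).1 e)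
    have h4 : H ≤ (L.map N.subtype).normalCore := by
      intro h hh g
      have h5 : H ≤ g⁻¹ •ᶜ (L.map N.subtype) := by
        refine hmin _ (fun e => h3 (cj_eq_bot_iff.1 e)) (hHN.trans ?_)
        rw [← cj_normalizer]
        exact (cj_eq_of_normal g⁻¹ N).ge.trans (cj_mono _ h2)
      simpa using mem_cj.1 (h5 hh)
    have h6 := huniq _ inferInstance fun e => hH (eq_bot_iff.2 (e ▸ h4))
    rw [eq_top_iff]
    intro x _
    obtain ⟨y, hy, e⟩ := (normalCore_le _) (h6 x.2)
    rwa [← Subtype.ext e]
  refine ⟨N, hNn, hN.ne_bot, huniq, hsimple, or_iff_not_imp_left.2 fun hC => ?_⟩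
  set C := centralizer (N : Set F) with hCdef
  have hNC : N ≤ C := huniq C inferInstance hC
  have hcomm : IsMulCommutative N := ⟨⟨fun a b => Subtype.ext (hNC b.2 a a.2)⟩⟩
  have hp : (Nat.card N).Prime := by
    let : CommGroup N := { (inferInstance : Group N) with mul_comm := hcomm.is_comm.comm }
    exact IsSimpleGroup.prime_card
  have hF : Fact (Nat.card N).Prime := ⟨hp⟩
  have hHN' : H = N := by
    rcases (Nat.dvd_prime hp).1 (card_dvd_of_le hHN) with h | h
    · exact absurd (card_eq_one.1 h) hH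
    · exact eq_of_le_of_card_ge hHN h.ge
  have hz : ∀ x ∈ C, x ≠ 1 → N ≤ zpowers x := fun x hx h1 => by
    rw [← hHN']
    refine hmin _ (fun e => h1 (zpowers_eq_bot.1 e)) (hHN.trans ?_)
    refine le_trans ?_ (centralizer_le_normalizer _)
    intro n hn y hy
    exact ((zpowers_le.2 hx) hy n hn).symm
  have hpC : IsPGroup (Nat.card N) C := by
    refine isPGroup_iff_forall_mem.2 fun x hx => ?_
    obtain ⟨k, m, hm, h⟩ := Nat.exists_eq_pow_mul_and_not_dvd (orderOf_pos x).ne' _ hp.ne_one
    refine ⟨k, by_contra fun h1 => hm ?_⟩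
    have h2 := card_dvd_of_le (hz _ (pow_mem hx _) h1)
    rw [Nat.card_zpowers] at h2
    refine h2.trans (orderOf_dvd_of_pow_eq_one ?_)
    rw [← pow_mul, ← h, pow_orderOf_eq_one]
  have hcq := CL.PCyc.isCyclic_or_quaternion hpC fun x y hx hy _ => by
    have key : ∀ x : C, orderOf x = Nat.card N → zpowers (x : F) = N := fun x hx => by
      have h1 : (x : F) ≠ 1 := fun e => by
        rw [show x = 1 from Subtype.ext e, orderOf_one] at hx
        exact hp.ne_one hx.symm
      refine (eq_of_le_of_card_ge (hz x x.2 h1) ?_).symm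
      rw [Nat.card_zpowers, orderOf_coe, hx]
    have h1 : (y : F) ∈ zpowers (x : F) := by rw [key x hx, ← key y hy]; exact mem_zpowers _
    obtain ⟨k, hk⟩ := mem_zpowers_iff.1 h1
    exact mem_zpowers_iff.2 ⟨k, Subtype.ext (by simpa using hk)⟩
  have hcyc : IsCyclic N := isCyclic_of_prime_card rfl
  have hker : (MulAut.conjNormal (H := N)).ker = C := by
    ext g
    rw [MonoidHom.mem_ker, hCdef, mem_centralizer_iff]
    constructor
    · intro h n hn
      have := congrArg Subtype.val (DFunLike.congr_fun h ⟨n, hn⟩)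
      simp only [MulAut.conjNormal_apply, MulAut.one_apply] at this
      calc n * g = (g * n * g⁻¹) * g := by rw [this]
        _ = g * n := by group
    · intro h
      ext n
      simp only [MulAut.conjNormal_apply, MulAut.one_apply]
      rw [← h n n.2]; group
  have hidx : C.index ∣ Nat.card N - 1 := by
    rw [← hker, index_ker, ← Nat.totient_prime hp, ← IsCyclic.card_mulAut]
    exact card_subgroup_dvd_card _
  rcases hcq with h | ⟨h2, n, ⟨e⟩⟩
  · left
    refine ⟨hHN', hp, h, ?_, ?_, hidx⟩
    · obtain ⟨k, hk⟩ := IsPGroup.iff_card.1 hpC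
      refine ⟨k, Nat.one_le_iff_ne_zero.2 ?_, hk⟩
      rintro rfl
      exact hC (card_eq_one.1 (by simpa using hk))
    · have : IsCyclic (MulAut N) := isCyclic_of_injective (IsCyclic.mulAutMulEquiv N).toMonoidHom
        (IsCyclic.mulAutMulEquiv N).injective
      obtain ⟨⟨_, g, rfl⟩, hg⟩ := IsCyclic.exists_generator (α := (MulAut.conjNormal (H := N)).range)
      refine ⟨g, eq_top_iff.2 fun x _ => ?_⟩
      obtain ⟨k, hk⟩ := mem_zpowers_iff.1 (hg ⟨_, x, rfl⟩)
      have h1 : MulAut.conjNormal (H := N) g ^ k = MulAut.conjNormal (H := N) x := by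
        simpa using congrArg Subtype.val hk
      have h2 : x * (g ^ k)⁻¹ ∈ C := by
        rw [← hker, MonoidHom.mem_ker, map_mul, map_inv, map_zpow, h1, mul_inv_cancel]
      have : x = x * (g ^ k)⁻¹ * g ^ k := by group
      rw [this]
      exact mul_mem (mem_sup_left h2) (mem_sup_right (zpow_mem (mem_zpowers g) k))
  · right
    have htop : C = ⊤ := by
      rw [h2] at hidx
      exact index_eq_one.1 (Nat.dvd_one.1 hidx)
    exact ⟨hHN', h2, htop, n + 1, by omega,
      ⟨(topEquiv.symm.trans (MulEquiv.subgroupCongr htop.symm)).trans e⟩⟩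

end Cfsg.Agent.S3025
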