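import Cfsg.Statements.S3027
import Cfsg.Agent.TECH.SubnP
import Cfsg.Agent.TECH.NClos

set_option autoImplicit false
open Cfsg

namespace Cfsg.Agent.S3027

open CL.MSS Subgroup

/-- Let G be a finite group and D a normal subgroup of G such that G/D is perfect (that is, G = G′D). Then among the subnormal subgroups B of G with BD = G there is a least one, and it is normal in G. -/
theorem result {G : Type*} [Group G] [Finite G] (D : Subgroup G) [D.Normal] (hperf : ⁅(⊤ : Subgroup G), (⊤ : Subgroup G)⁆ ⊔ D = ⊤) :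
    ∃ B : Subgroup G, B.Normal ∧ B ⊔ D = ⊤ ∧ ∀ B' : Subgroup G, B'.IsSubnormal → B' ⊔ D = ⊤ → B ≤ B' := by
  have hf := QuotientGroup.mk'_surjective D
  have e : ∀ B : Subgroup G, B ⊔ D = ⊤ ↔ B.map (QuotientGroup.mk' D) = ⊤ := fun B => by
    rw [← map_top_of_surjective _ hf, map_eq_map_iff, QuotientGroup.ker_mk', top_sup_eq]
  have hc : ∀ A B : Subgroup G, A ⊔ D = ⊤ → B ⊔ D = ⊤ → ⁅A, B⁆ ⊔ D = ⊤ := fun A B hA hB => by
    rw [e] at hA hB hperf ⊢
    rw [map_commutator, map_top_of_surjective _ hf] at hperf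
    rw [map_commutator, hA, hB, hperf]
  have h1 : ∀ X C : Subgroup G, C ≤ normalizer (X : Set G) → C.IsSubnormal → X ⊔ D = ⊤ →
      C ⊔ D = ⊤ → (X ⊓ C) ⊔ D = ⊤ := by
    intro X C hn hC hX hCD
    refine subnormal_induction (L := ⊤) (motive := fun K => C ≤ K → (X ⊓ K) ⊔ D = ⊤)
      (fun _ => by rwa [inf_top_eq]) ?_ le_top (isSubnormal_subgroupOf_top_iff.2 hC) le_rfl
    intro H K hHK _ hKH _ ih hCH
    refine top_le_iff.1 ((hc _ _ (ih (hCH.trans hHK)) hCD).ge.trans (sup_le_sup_right (le_inf ?_ ?_) _))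
    · exact (commutator_mono inf_le_left le_rfl).trans (commutator_le_left_of_normalizes hn)
    · exact (commutator_mono inf_le_right hCH).trans (commutator_le_right_of_normalizes hKH)
  have h2 : ∀ A B : Subgroup G, A.IsSubnormal → B.IsSubnormal → A ⊔ D = ⊤ → B ⊔ D = ⊤ →
      (A ⊓ B) ⊔ D = ⊤ := by
    intro A B hA hB hAD hBD
    refine subnormal_induction (L := ⊤) (motive := fun K => K ⊔ D = ⊤ → (K ⊓ B) ⊔ D = ⊤)
      (fun _ => by rwa [top_inf_eq]) ?_ le_top (isSubnormal_subgroupOf_top_iff.2 hA) hAD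
    intro H K hHK _ hKH hK ih hH
    have := h1 H (K ⊓ B) (inf_le_left.trans hKH) ((isSubnormal_subgroupOf_top_iff.1 hK).inf hB) hH
      (ih (top_le_iff.1 (hH.ge.trans (sup_le_sup_right hHK _))))
    rwa [← inf_assoc, inf_of_le_left hHK] at this
  obtain ⟨B, -, hB⟩ := exists_minimal_le_of_wellFoundedLT
    (fun B : Subgroup G => B.IsSubnormal ∧ B ⊔ D = ⊤) ⊤ ⟨IsSubnormal.top, top_sup_eq _⟩
  have h3 : ∀ B' : Subgroup G, B'.IsSubnormal → B' ⊔ D = ⊤ → B ≤ B' := fun B' h h' =>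
    (hB.2 ⟨hB.1.1.inf h, h2 _ _ hB.1.1 h hB.1.2 h'⟩ inf_le_left).trans inf_le_right
  refine ⟨B, normal_of_cj fun g => cj_eq_of_ge (h3 _ ?_ ?_), hB.1.2, h3⟩
  · exact hB.1.1.map (MulAut.conj g).surjective
  · rw [← cj_eq_of_normal g D, ← cj_sup, hB.1.2, cj_top]

end Cfsg.Agent.S3027
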