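import Cfsg.Statements.S3044
import Cfsg.Agent.TECH.Isolated

set_option autoImplicit false
open Cfsg

namespace Cfsg.Agent.S3044

open Subgroup CL.MSS CL.Comp

/-- Let G be a finite group, p a prime, S a Sylow p-subgroup of G and P a p-minimal subgroup of G containing S (S is not normal in P and lies in exactly one maximal subgroup of P). Let L be the subgroup generated by N_G(S) and all p-minimal subgroups of G containing S other than P, and suppose P is isolated: O_p(L) is not contained in O_p(P). Put Y for the normal closure of O^p(P) in G. Then G = YL; P is again isolated in the subgroup YS (the subgroup L₀ generated by N_{YS}(S) and the p-minimal subgroups of YS containing S other than P has O_p(L₀) not contained in O_p(P)); and either Y = O^p(P), or p divides |Y/O_p(Y)|, Y/O_p(Y) is generated by its components (a central product of quasisimple groups), and S permutes these components transitively by conjugation. -/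
theorem result {G : Type*} [Group G] [Finite G] {p : ℕ} [Fact p.Prime] (S : Sylow p G) (P : Subgroup G) (hSP : (S : Subgroup G) ≤ P) (hPmin : Cfsg.IsPMinimal p ↥P)
    (L Y : Subgroup G)
    (hL : L = Subgroup.normalizer ((S : Subgroup G) : Set G) ⊔ ⨆ P' : {P' : Subgroup G // (S : Subgroup G) ≤ P' ∧ Cfsg.IsPMinimal p ↥P' ∧ P' ≠ P}, (P' : Subgroup G))
    (hiso : ¬ (Cfsg.pCore p ↥L).map L.subtype ≤ (Cfsg.pCore p ↥P).map P.subtype)
    (hY : Y = Subgroup.normalClosure (((Cfsg.pResidual p ↥P).map P.subtype : Subgroup G) : Set G)) :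
    Y ⊔ L = ⊤ ∧
    ¬ (Cfsg.pCore p ↥((Subgroup.normalizer ((S : Subgroup G) : Set G) ⊓ (Y ⊔ (S : Subgroup G))) ⊔
          ⨆ P' : {P' : Subgroup G // (S : Subgroup G) ≤ P' ∧ P' ≤ Y ⊔ (S : Subgroup G) ∧ Cfsg.IsPMinimal p ↥P' ∧ P' ≠ P}, (P' : Subgroup G))).map
        (Subgroup.subtype _) ≤ (Cfsg.pCore p ↥P).map P.subtype ∧
    ((Cfsg.pResidual p ↥P).map P.subtype = Y ∨
     ∃ _ : (Cfsg.pCore p ↥Y).Normal,
       p ∣ Nat.card (↥Y ⧸ Cfsg.pCore p ↥Y) ∧ Cfsg.layer (↥Y ⧸ Cfsg.pCore p ↥Y) = ⊤ ∧
       ∀ K₁ K₂ : Subgroup (↥Y ⧸ Cfsg.pCore p ↥Y), Cfsg.IsComponent K₁ → Cfsg.IsComponent K₂ →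
         ∃ s ∈ (S : Subgroup G), ((K₂.comap (QuotientGroup.mk' (Cfsg.pCore p ↥Y))).map Y.subtype) = (((K₁.comap (QuotientGroup.mk' (Cfsg.pCore p ↥Y))).map Y.subtype)).map (MulAut.conj s).toMonoidHom) := by
  have h := isoHyp_of_isolated S hSP hPmin hL hiso
  have hYn : Y.Normal := hY ▸ inferInstance
  have hXY : presOf p P ≤ Y := hY ▸ le_normalClosure
  refine ⟨top_le_iff.1 (h.gen ▸ sup_le_sup_right hXY L), fun h1 => hiso (le_trans ?_ h1), ?_⟩
  · refine oP_le_oP_of_le (sup_le ?_ (iSup_le fun P' => ?_))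
      (h.QS.trans (le_sup_of_le_left (le_inf le_normalizer le_sup_right)))
    · rw [hL]
      exact inf_le_left.trans le_sup_left
    · rw [hL]
      exact le_sup_of_le_right (le_iSup_of_le ⟨P', P'.2.1, P'.2.2.2⟩ le_rfl)
  set π := QuotientGroup.mk' (pCore p G) with hπ
  have hs : Function.Surjective π := QuotientGroup.mk'_surjective _
  have hker : π.ker = pCore p G := QuotientGroup.ker_mk' _
  have h' := h.map hs (hker.le.trans (pcore_le_sylow S))
  have hY' : Y.map π = normalClosure (((presOf p P).map π : Subgroup _) : Set (G ⧸ pCore p G)) := by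
    rw [hY, map_normalClosure _ _ hs, coe_map π]
  rcases h'.main oP_pCore_quotient_pCore hY' with ⟨h1, -⟩ | ⟨h1, h2, h3⟩
  · left
    have := presOf_normal_of_map_normal ((pcore_le_sylow S).trans hSP) h1
    rw [hY, normalClosure_eq_self]
  · right
    obtain ⟨f, hf, hr, hK⟩ := exists_quotient_pCore_hom (p := p) Y
    refine ⟨inferInstance, ?_, ?_, fun K₁ K₂ hK₁ hK₂ => ?_⟩
    · rwa [Nat.card_congr (MonoidHom.ofInjective hf).toEquiv, hr]
    · apply map_injective hf
      rw [layer_map_of_injective f hf, ← MonoidHom.range_eq_map, hr, h2]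
    · have hc : ∀ K, IsComponent K → IsCompIn (K.map f) (Y.map π) := fun K hK => by
        have := (isCompIn_top.2 hK).map_of_injective f hf
        rwa [← MonoidHom.range_eq_map, hr] at this
      obtain ⟨_, ⟨s, hs', rfl⟩, e⟩ := h3 _ _ (hc K₁ hK₁) (hc K₂ hK₂)
      refine ⟨s, hs', ?_⟩
      rw [hK, hK, e, cj_inf, cj_eq_of_normal s Y]
      congr 1
      ext x
      simp only [mem_comap, mem_cj, map_mul, map_inv, hπ]

end Cfsg.Agent.S3044
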