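import Cfsg.Statements.S3045
import Cfsg.Agent.TECH.Isolated

set_option autoImplicit false
open Cfsg

namespace Cfsg.Agent.S3045

open Subgroup CL.MSS CL.Comp

/-- Let G be a finite group, p a prime, S a Sylow p-subgroup of G and P a p-minimal subgroup of G containing S. Let L be the subgroup generated by N_G(S) and all p-minimal subgroups of G containing S other than P, and suppose O_p(L) is not contained in O_p(P). Put Y for the normal closure of O^p(P) in G. Then O^p(P) is contained in the preimage in G of F*(G/O_p(G)); and if Y is solvable, then Y = O^p(P) and Y/O_p(Y) is a t-group of nilpotency class at most 2 for some prime t ≠ p. -/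
theorem result {G : Type*} [Group G] [Finite G] {p : ℕ} [Fact p.Prime] (S : Sylow p G) (P : Subgroup G) (hSP : (S : Subgroup G) ≤ P) (hPmin : Cfsg.IsPMinimal p ↥P)
    (L Y : Subgroup G)
    (hL : L = Subgroup.normalizer ((S : Subgroup G) : Set G) ⊔ ⨆ P' : {P' : Subgroup G // (S : Subgroup G) ≤ P' ∧ Cfsg.IsPMinimal p ↥P' ∧ P' ≠ P}, (P' : Subgroup G))
    (hiso : ¬ (Cfsg.pCore p ↥L).map L.subtype ≤ (Cfsg.pCore p ↥P).map P.subtype)
    (hY : Y = Subgroup.normalClosure (((Cfsg.pResidual p ↥P).map P.subtype : Subgroup G) : Set G)) [hn : (Cfsg.pCore p G).Normal] :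
    (Cfsg.pResidual p ↥P).map P.subtype ≤ (Cfsg.generalizedFittingSubgroup (G ⧸ Cfsg.pCore p G)).comap (QuotientGroup.mk' (Cfsg.pCore p G)) ∧
    (Group.IsSolvable ↥Y → (Cfsg.pResidual p ↥P).map P.subtype = Y ∧
       ∃ _ : (Cfsg.pCore p ↥Y).Normal, ∃ t : ℕ, t.Prime ∧ t ≠ p ∧ IsPGroup t (↥Y ⧸ Cfsg.pCore p ↥Y) ∧
         ∃ _ : Group.IsNilpotent (↥Y ⧸ Cfsg.pCore p ↥Y), Group.nilpotencyClass (↥Y ⧸ Cfsg.pCore p ↥Y) ≤ 2) := by
  have h := isoHyp_of_isolated S hSP hPmin hL hiso
  have hYn : Y.Normal := hY ▸ inferInstance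
  set π := QuotientGroup.mk' (pCore p G) with hπ
  have hs : Function.Surjective π := QuotientGroup.mk'_surjective _
  have hker : π.ker = pCore p G := QuotientGroup.ker_mk' _
  have h' := h.map hs (hker.le.trans (pcore_le_sylow S))
  have hY' : Y.map π = normalClosure (((presOf p P).map π : Subgroup _) : Set (G ⧸ pCore p G)) := by
    rw [hY, map_normalClosure _ _ hs, coe_map π]
  refine ⟨map_le_iff_le_comap.1 (h'.le_fstar oP_pCore_quotient_pCore), fun hsol => ?_⟩
  obtain ⟨f, hf, hr, -⟩ := exists_quotient_pCore_hom (p := p) Y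
  rcases h'.main oP_pCore_quotient_pCore hY' with ⟨h1, h2, t, ht, htp, h3⟩ | ⟨h1, h2, h3⟩
  · have := presOf_normal_of_map_normal ((pcore_le_sylow S).trans hSP) h1
    have hXY : presOf p P = Y := by rw [hY, normalClosure_eq_self]
    rw [hXY, ← hr] at h2 h3
    have h4 : ⁅⁅(⊤ : Subgroup (Y ⧸ pCore p Y)), (⊤ : Subgroup (Y ⧸ pCore p Y))⁆,
        (⊤ : Subgroup (Y ⧸ pCore p Y))⁆ = ⊥ := by
      apply map_injective hf
      rw [map_commutator, map_commutator, ← MonoidHom.range_eq_map, h2, Subgroup.map_bot]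
    have h5 : IsPGroup t (Y ⧸ pCore p Y) := h3.of_equiv (MonoidHom.ofInjective hf).symm
    have := Fact.mk ht
    have h6 := h5.isNilpotent
    exact ⟨hXY, inferInstance, t, ht, htp, h5, h6,
      Subgroup.lowerCentralSeries_eq_bot_iff_nilpotencyClass_le.1 h4⟩
  · exfalso
    have h4 : Group.IsSolvable (Y.map π) :=
      Group.isSolvable_of_surjective (π.subgroupMap_surjective Y)
    rw [layerOf_eq_bot_of_isSolvable h4] at h2
    refine h'.ne_bot (le_bot_iff.1 ?_)
    rw [h2, hY']
    exact le_normalClosure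

end Cfsg.Agent.S3045
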