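import Cfsg.Statements.S3047
import Cfsg.Agent.TECH.R1Z
import Cfsg.Agent.SOLV.Core
import Cfsg.Agent.TECH.Amb

set_option autoImplicit false
open Cfsg

namespace Cfsg.Agent.S3047

open Subgroup in
theorem charP_of_card {F : Type} [Field F] [Fintype F] {p n : ℕ} [hp : Fact p.Prime] (hn : 1 ≤ n)
    (h : Fintype.card F = p ^ n) : CharP F p := by
  obtain ⟨r, hr⟩ := CharP.exists F
  obtain ⟨m, hr', hm⟩ := FiniteField.card F r
  have : r = p := by
    have h1 : r ∣ p ^ n := by rw [← h, hm]; exact dvd_pow_self r m.ne_zero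
    exact (Nat.prime_dvd_prime_iff_eq hr' hp.out).1 (hr'.dvd_of_dvd_pow h1)
  exact this ▸ hr

/-- Let p ≥ 5 be a prime, G a finite group all of whose composition factors are known simple groups, S a Sylow p-subgroup and P a p-minimal subgroup of G containing S such that O^p(P/O_p(P)) is isomorphic to SL₂(pᵃ), PSL₂(pᵃ), SU₃(pᵃ) or PSU₃(pᵃ) for some a ≥ 1. Let L be the subgroup generated by N_G(S) and the p-minimal subgroups of G containing S other than P. Then either O^p(P) is normal in G, or every p-element of the centre of L lies in O_p(P). -/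
theorem result {G : Type*} [Group G] [Finite G] {p : ℕ} [Fact p.Prime] (hp : 5 ≤ p) (hK : Cfsg.IsCompositionKGroup G)
    (S : Sylow p G) (P : Subgroup G) (hSP : (S : Subgroup G) ≤ P) (hPmin : Cfsg.IsPMinimal p ↥P) [hn : (Cfsg.pCore p ↥P).Normal]
    (hrk1 : ∃ (F : Type) (_ : Field F) (_ : Fintype F) (a : ℕ), 1 ≤ a ∧
      ((Fintype.card F = p ^ a ∧ (Nonempty (↥(Cfsg.pResidual p (↥P ⧸ Cfsg.pCore p ↥P)) ≃* Matrix.SpecialLinearGroup (Fin 2) F) ∨
                                  Nonempty (↥(Cfsg.pResidual p (↥P ⧸ Cfsg.pCore p ↥P)) ≃* Matrix.ProjectiveSpecialLinearGroup (Fin 2) F))) ∨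
       (Fintype.card F = p ^ (2 * a) ∧ (Nonempty (↥(Cfsg.pResidual p (↥P ⧸ Cfsg.pCore p ↥P)) ≃* ↥(Cfsg.SU 3 F (p ^ a))) ∨
                                        Nonempty (↥(Cfsg.pResidual p (↥P ⧸ Cfsg.pCore p ↥P)) ≃* Cfsg.PSU 3 F (p ^ a))))))
    (L : Subgroup G)
    (hL : L = Subgroup.normalizer ((S : Subgroup G) : Set G) ⊔ ⨆ P' : {P' : Subgroup G // (S : Subgroup G) ≤ P' ∧ Cfsg.IsPMinimal p ↥P' ∧ P' ≠ P}, (P' : Subgroup G)) :
    ((Cfsg.pResidual p ↥P).map P.subtype).Normal ∨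
    ∀ z ∈ L ⊓ Subgroup.centralizer (L : Set G), (∃ k : ℕ, orderOf z = p ^ k) → z ∈ (Cfsg.pCore p ↥P).map P.subtype := by
  right
  intro z hz ⟨k, hk⟩
  have hR : CL.R1Z.R1 p (Cfsg.pResidual p (↥P ⧸ Cfsg.pCore p ↥P)) := by
    obtain ⟨F, _, _, a, ha, ⟨hF, h⟩ | ⟨hF, h⟩⟩ := hrk1
    · have := charP_of_card ha hF
      rcases h with ⟨⟨e⟩⟩ | ⟨⟨e⟩⟩
      · exact (CL.R1Z.r1_SL2 F hp).equiv e.symm
      · exact (CL.R1Z.r1_SL2 F hp).quot.equiv e.symm
    · have := charP_of_card (by omega) hF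
      have hF' : Fintype.card F = (p ^ a) ^ 2 := by rw [hF, ← pow_mul, mul_comm]
      rcases h with ⟨⟨e⟩⟩ | ⟨⟨e⟩⟩
      · exact (CL.R1Z.r1_SU3 F rfl hF' hp).equiv e.symm
      · exact (CL.R1Z.r1_SU3 F rfl hF' hp).quot.equiv e.symm
  have hc : ∀ g ∈ Subgroup.normalizer ((S : Subgroup G) : Set G), g * z = z * g := fun g hg =>
    hz.2 g (hL ▸ Subgroup.mem_sup_left hg)
  have hzp : IsPGroup p (Subgroup.zpowers z) :=
    IsPGroup.of_card (n := k) (by rw [Nat.card_zpowers, hk])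
  have hzS : z ∈ (S : Subgroup G) := by
    have h1 := hzp.inf_normalizer_sylow S
    refine (h1.le ⟨Subgroup.mem_zpowers z, ?_⟩).2
    refine Subgroup.centralizer_le_normalizer _ fun g hg => hc g (Subgroup.le_normalizer hg)
  let π := QuotientGroup.mk' (Cfsg.pCore p ↥P)
  have hπ : Function.Surjective π := QuotientGroup.mk'_surjective _
  let S' : Sylow p P := S.subtype hSP
  have hS' : ∀ x : P, x ∈ (S' : Subgroup P) ↔ (x : G) ∈ (S : Subgroup G) := fun x => Iff.rfl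
  have hO : Cfsg.pCore p ↥P ≤ S' := (CL.isPGroup_pCore p P).le_sylow_of_normal S'
  let T := S'.mapSurjective hπ
  have hT : ∀ x : P, π x ∈ (T : Subgroup _) ↔ x ∈ (S' : Subgroup P) := by
    intro x
    change x ∈ ((S' : Subgroup P).map π).comap π ↔ _
    rw [Subgroup.comap_map_eq_self (by rw [QuotientGroup.ker_mk']; exact hO)]
  have := @CL.MSS.oU_pResidual_normal (↥P ⧸ Cfsg.pCore p ↥P) _ p
  have hcen := CL.R1Z.central hR T (z := π ⟨z, hSP hzS⟩) ?_ ((hT _).2 hzS) ?_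
  · have h1 : IsPGroup p (Subgroup.zpowers (π ⟨z, hSP hzS⟩)) := by
      rw [← MonoidHom.map_zpowers]
      refine IsPGroup.map (S'.isPGroup'.to_le ?_) π
      exact Subgroup.zpowers_le.2 hzS
    have : (Subgroup.zpowers (π ⟨z, hSP hzS⟩)).Normal :=
      ⟨fun x hx g => by
        rw [Subgroup.mem_center_iff.1 (Subgroup.zpowers_le.2 hcen hx) g, mul_inv_cancel_right]
        exact hx⟩
    have h2 := CL.le_pCore h1 (Subgroup.mem_zpowers _)
    rw [CL.pCore_quotient_pCore, Subgroup.mem_bot] at h2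
    exact ⟨⟨z, hSP hzS⟩, (QuotientGroup.eq_one_iff _).1 h2, rfl⟩
  · intro A B hA hB hAB
    by_contra hn
    push Not at hn
    obtain ⟨-, M, -, hM⟩ := hPmin S'
    have key : ∀ C : Subgroup (↥P ⧸ Cfsg.pCore p ↥P), (T : Subgroup _) ≤ C → C ≠ ⊤ →
        ∃ N, IsCoatom N ∧ C.comap π ≤ N ∧ N = M := by
      intro C hC hC'
      obtain ⟨N, hN, hle⟩ := (eq_top_or_exists_le_coatom (C.comap π)).resolve_left fun h =>
        hC' (Subgroup.comap_injective hπ (by rw [h, Subgroup.comap_top]))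
      exact ⟨N, hN, hle, hM N ⟨hN, fun x hx => hle (hC ((hT x).2 hx))⟩⟩
    obtain ⟨N, hN, h1, rfl⟩ := key A hA hn.1
    obtain ⟨N', -, h2, rfl⟩ := key B hB hn.2
    have := sup_le h1 h2
    rw [Subgroup.comap_sup_eq π A B hπ, hAB, Subgroup.comap_top] at this
    exact hN.1 (top_le_iff.1 this)
  · intro g hg
    obtain ⟨g, rfl⟩ := hπ g
    rw [← map_mul, ← map_mul]
    congr 1
    apply Subtype.ext
    refine hc g (Subgroup.mem_normalizer_fintype fun s hs => ?_)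
    have h1 := (Subgroup.mem_normalizer_iff.1 hg (π ⟨s, hSP hs⟩)).1 ((hT _).2 hs)
    rw [← map_inv, ← map_mul, ← map_mul, hT] at h1
    exact h1

end Cfsg.Agent.S3047
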