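import Cfsg.Statements.S3048
import Cfsg.Agent.TECH.Sidki

set_option autoImplicit false
set_option linter.unusedVariables false
universe u
open Cfsg

namespace Cfsg.Agent.S3048

open CL.Sidki CL.Misc


/-- Minimal counterexample reduction for the Sidki pair problem. Let G be a finite group and V a nontrivial elementary abelian 2-subgroup satisfying the Sidki pair condition with V ∩ O₂(G) = 1. Suppose that for every finite group H of smaller order, every nontrivial elementary abelian 2-subgroup W of H satisfying the Sidki pair condition meets O₂(H) nontrivially, and that the same holds in G for every such subgroup W of order smaller than that of V. Then the generalized Fitting subgroup F*(G) is a non-abelian simple group and G = V F*(G). -/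
theorem result {G : Type u} [Group G] [Finite G] (V : Subgroup G) (hV : Cfsg.IsElementaryAbelian 2 V) (hV1 : V ≠ ⊥) (hS : Cfsg.IsSidkiPair V) (hVO : V ⊓ Cfsg.pCore 2 G = ⊥) (hminG : ∀ (H : Type u) [Group H] [Finite H] (W : Subgroup H), Nat.card H < Nat.card G → Cfsg.IsElementaryAbelian 2 W → W ≠ ⊥ → Cfsg.IsSidkiPair W → W ⊓ Cfsg.pCore 2 H ≠ ⊥) (hminV : ∀ W : Subgroup G, Nat.card W < Nat.card V → Cfsg.IsElementaryAbelian 2 W → W ≠ ⊥ → Cfsg.IsSidkiPair W → W ⊓ Cfsg.pCore 2 G ≠ ⊥) : IsSimpleGroup ↥(Cfsg.generalizedFittingSubgroup G) ∧ ¬ IsMulCommutative ↥(Cfsg.generalizedFittingSubgroup G) ∧ V ⊔ Cfsg.generalizedFittingSubgroup G = ⊤ := by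

  have hp2 : ∀ {W : Subgroup G}, W ≤ V → IsPGroup 2 W := fun h => (isPGroup_of_elemAb hV).to_le h
  have hVc : ∀ {W : Subgroup G}, W ≤ V → V ≤ Subgroup.centralizer (W : Set G) :=
    fun h v hv w hw => (commute_of_elemAb hV (h hw) hv).eq
  -- quotients
  have hquot : ∀ (N : Subgroup G) [N.Normal], N ≠ ⊥ → V ⊓ N = ⊥ → Cfsg.pCore 2 (G ⧸ N) ≠ ⊥ := by
    intro N _ hN hVN h0
    refine hminG (G ⧸ N) (V.map (QuotientGroup.mk' N)) (CL.card_quotient_lt hN) (elemAb_map hV _)
      (fun e => hV1 ?_) (isSidkiPair_map hV hS N hVN) (by rw [h0, inf_bot_eq])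
    rw [CL.map_mk'_eq_bot_iff] at e
    rwa [inf_eq_left.2 e] at hVN
  have hO : Cfsg.pCore 2 G = ⊥ := by
    by_contra h
    exact hquot _ h hVO (CL.pCore_quotient_pCore 2 G)
  have hsub2 : ∀ {K : Subgroup G}, K.IsSubnormal → IsPGroup 2 K → K = ⊥ := fun hK h2 => by
    rw [eq_bot_iff, ← hO]; exact CL.le_pCore_of_isSubnormal hK h2
  have hZ : Subgroup.center G = ⊥ := by
    by_contra h
    refine hquot _ h (hsub2 (CL.normal_of_le_center inf_le_right).isSubnormal (hp2 inf_le_left)) ?_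
    set K := (Cfsg.pCore 2 (G ⧸ Subgroup.center G)).comap (QuotientGroup.mk' (Subgroup.center G))
      with hK
    obtain ⟨P, hP⟩ := exists_sylIn (p := 2) K
    obtain ⟨n, hn⟩ := (CL.isPGroup_pCore 2 (G ⧸ Subgroup.center G)).exists_card_eq
    have h1 : P ⊔ Subgroup.center G = K :=
      hP.sup_eq_of_relIndex (CL.le_comap_mk' _ _) (by rw [hK, CL.relIndex_comap_mk', hn])
    have h2 : K ≤ Subgroup.normalizer (P : Set G) := by
      rw [← h1]
      exact sup_le Subgroup.le_normalizer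
        ((Subgroup.center_le_centralizer _).trans (Subgroup.centralizer_le_normalizer _))
    have h3 : P.Normal := by
      rw [← Subgroup.normalizer_eq_top_iff, eq_top_iff]
      intro g _
      obtain ⟨k, hk, hkg⟩ := hP.frattini (g := g) (by rw [Subgroup.normalizer_eq_top]; trivial)
      exact (mul_mem_cancel_left (h2 hk)).1 hkg
    rw [hsub2 h3.isSubnormal hP.isPGroup, bot_sup_eq] at h1
    rw [← CL.map_comap_mk' (Subgroup.center G) (Cfsg.pCore 2 _), ← hK, CL.map_mk'_eq_bot_iff]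
    exact h1.ge
  -- proper subgroups
  have hkey : ∀ {W H : Subgroup G}, W ≤ V → W ≤ H → H ≠ ⊤ → W ≠ ⊥ →
      W ⊓ (Cfsg.pCore 2 H).map H.subtype = ⊥ → NS W H := by
    intro W H hWV hWH hH hW h0
    refine ns_of_not_isSidkiPair hWH fun hs => hminG H (W.subgroupOf H) (CL.card_lt_of_ne_top hH)
      (elemAb_subgroupOf (elemAb_of_le hV hWV) H) (fun e => hW ?_) hs ?_
    · rw [Subgroup.subgroupOf_eq_bot, disjoint_iff, inf_eq_left.2 hWH] at e
      exact e
    · rw [eq_bot_iff]
      rintro y ⟨hy1, hy2⟩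
      have : (y : G) ∈ W ⊓ (Cfsg.pCore 2 H).map H.subtype := ⟨hy1, y, hy2, rfl⟩
      rw [h0] at this
      exact Subtype.ext this
  have hA : ∀ {D N : Subgroup G}, D ≤ V → N.IsSubnormal → D ≤ Subgroup.normalizer (N : Set G) →
      D ⊓ Subgroup.centralizer (N : Set G) = ⊥ → D ≠ ⊥ → D ⊔ N ≠ ⊤ → NS D N := by
    intro D N hDV hN hDN hDC hD hne
    set O := (Cfsg.pCore 2 ↥(D ⊔ N)).map (D ⊔ N).subtype with hOdef
    have hNO : N ≤ Subgroup.normalizer (O : Set G) :=
      le_sup_right.trans (CL.le_normalizer_map_subtype _ _)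
    have hON : O ≤ Subgroup.normalizer (N : Set G) :=
      (Subgroup.map_subtype_le _).trans (sup_le hDN Subgroup.le_normalizer)
    have h1 : O ⊓ N = ⊥ := by
      rw [eq_bot_iff, ← hO]
      exact (CL.le_map_pCore inf_le_right (CL.le_normalizer_inf hNO Subgroup.le_normalizer)
        ((CL.isPGroup_map_pCore _).to_le inf_le_left)).trans (CL.map_pCore_le_of_isSubnormal hN)
    have h2 : O ≤ Subgroup.centralizer (N : Set G) := by
      rw [← Subgroup.commutator_eq_bot_iff_le_centralizer, eq_bot_iff, ← h1]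
      exact le_inf (Subgroup.le_normalizer_iff_commutator_le_left.1 hNO)
        (Subgroup.le_normalizer_iff_commutator_le_right.1 hON)
    obtain ⟨h, hh, w, hw, ho, hinv, hc⟩ := hkey hDV le_sup_left hne hD (by
      rw [eq_bot_iff, ← hDC]; exact inf_le_inf_left _ h2)
    refine ⟨h, mem_of_sq_mem ho ?_, w, hw, ho, hinv, hc⟩
    obtain ⟨n, hn, d, hd, rfl⟩ := (CL.mem_sup_of_le_normalizer' hDN).1 (sup_comm D N ▸ hh)
    have e1 : w * (n * d)⁻¹ * w⁻¹ = n * d := by rw [← conj_inv, hinv, inv_inv]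
    have e2 : n * d * (n * d) = n * (w * n⁻¹ * w⁻¹) := by
      have hdw := (commute_of_elemAb hV (hDV hd) (hDV hw)).eq
      calc n * d * (n * d) = n * d * (w * (n * d)⁻¹ * w⁻¹) := by rw [e1]
        _ = n * (d * w) * d⁻¹ * n⁻¹ * w⁻¹ := by group
        _ = n * (w * d) * d⁻¹ * n⁻¹ * w⁻¹ := by rw [hdw]
        _ = n * (w * n⁻¹ * w⁻¹) := by group
    rw [e2]
    exact mul_mem hn ((Subgroup.mem_normalizer_iff.1 (hDN hw) _).1 (inv_mem hn))
  have hcen : ∀ {W : Subgroup G}, Subgroup.centralizer (W : Set G) = ⊤ → W = ⊥ := by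
    intro W h
    rw [eq_bot_iff, ← hZ]
    exact Subgroup.centralizer_eq_top_iff_subset.1 h
  -- `V` acts faithfully on every nontrivial normal subgroup
  have hfaith : ∀ (N : Subgroup G) [N.Normal], N ≠ ⊥ →
      V ⊓ Subgroup.centralizer (N : Set G) = ⊥ := by
    intro N hNn hN
    by_contra hW
    set C := Subgroup.centralizer (N : Set G) with hC
    have hCn : C.Normal := inferInstance
    obtain ⟨h₂, hh₂, w, hw, ho₂, hinv₂, hc₂⟩ := hkey (W := V ⊓ C) (H := C) inf_le_left inf_le_right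
      (fun e => hN (hcen e)) hW (by
        rw [eq_bot_iff, ← hO]
        exact inf_le_right.trans (CL.map_pCore_le_of_isSubnormal hCn.isSubnormal))
    set D := V ⊓ Subgroup.centralizer ({h₂} : Set G) with hD
    have hD1 : D ≠ ⊥ := by
      obtain ⟨u, hu, hu1, e⟩ := hS h₂ w hw.1 ho₂ hinv₂
      intro h0
      have : u ∈ D := ⟨hu, Subgroup.mem_centralizer_singleton_iff.2 e⟩
      rw [h0] at this
      exact hu1 this
    obtain ⟨h₁, hh₁, t, ht, ho₁, hinv₁, hc₁⟩ := hA (D := D) (N := N) inf_le_left hNn.isSubnormal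
      (by rw [Subgroup.normalizer_eq_top]; exact le_top)
      (by
        rw [eq_bot_iff]
        rintro u ⟨⟨hu1, hu2⟩, hu3⟩
        exact hc₂ u ⟨hu1, hu3⟩ (Subgroup.mem_centralizer_singleton_iff.1 hu2))
      hD1
      (by
        intro e
        apply hW
        apply hcen
        rw [eq_top_iff, ← e]
        refine sup_le (inf_le_left.trans (hVc inf_le_left)) ?_
        rw [Subgroup.le_centralizer_iff]
        exact inf_le_right)
    have c12 : Commute h₁ h₂ := hh₂ h₁ hh₁
    have cw1 : w * h₁ * w⁻¹ = h₁ := by rw [← hw.2 h₁ hh₁, mul_inv_cancel_right]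
    have ct2 : t * h₂ * t⁻¹ = h₂ := by
      rw [Subgroup.mem_centralizer_singleton_iff.1 ht.2, mul_inv_cancel_right]
    have e1 : (w * t) * (h₁ * h₂) * (w * t)⁻¹ = (h₁ * h₂)⁻¹ := by
      rw [show (w * t) * (h₁ * h₂) * (w * t)⁻¹ = w * ((t * h₁ * t⁻¹) * (t * h₂ * t⁻¹)) * w⁻¹ by
        group, hinv₁, ct2, show w * (h₁⁻¹ * h₂) * w⁻¹ = (w * h₁ * w⁻¹)⁻¹ * (w * h₂ * w⁻¹) by group,
        cw1, hinv₂, c12.eq, mul_inv_rev]
    obtain ⟨v, hv, hv1, hvc⟩ := hS _ (w * t) (V.mul_mem hw.1 ht.1) (odd_orderOf_mul c12 ho₁ ho₂) e1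
    have cv : Commute v (h₁ * h₂) := hvc
    have cvw : Commute v w := commute_of_elemAb hV hv hw.1
    have cv' : Commute v (w * (h₁ * h₂) * w⁻¹) := (cvw.mul_right cv).mul_right cvw.inv_right
    rw [show w * (h₁ * h₂) * w⁻¹ = (w * h₁ * w⁻¹) * (w * h₂ * w⁻¹) by group, cw1, hinv₂] at cv'
    have cv1 : Commute v h₁ := by
      apply commute_of_commute_sq ho₁
      have := cv.mul_right cv'
      rwa [show h₁ * h₂ * (h₁ * h₂⁻¹) = h₁ * (h₂ * h₁) * h₂⁻¹ by group, ← c12.eq,
        show h₁ * (h₁ * h₂) * h₂⁻¹ = h₁ * h₁ by group] at this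
    have cv2 : Commute v h₂ := by
      have := cv1.inv_right.mul_right cv
      rwa [inv_mul_cancel_left] at this
    exact hv1 (hc₁ v ⟨hv, Subgroup.mem_centralizer_singleton_iff.2 cv2⟩ cv1)
  have htop : ∀ (N : Subgroup G) [N.Normal], N ≠ ⊥ → V ⊔ N = ⊤ := by
    intro N hNn hN
    by_contra hne
    exact (hA le_rfl hNn.isSubnormal (by rw [Subgroup.normalizer_eq_top]; exact le_top)
      (hfaith N hN) hV1 hne).not_isSidkiPair hS
  have hdec : ∀ (N : Subgroup G) [N.Normal], N ≠ ⊥ → ∀ g : G, ∃ n ∈ N, ∃ v ∈ V, n * v = g := by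
    intro N hNn hN g
    exact Subgroup.mem_sup_of_normal_left.1 (by rw [sup_comm, htop N hN]; trivial)
  have hcomm : ∀ (N : Subgroup G) [N.Normal], N ≠ ⊥ → ⁅(⊤ : Subgroup G), ⊤⁆ ≤ N := by
    intro N hNn hN
    rw [Subgroup.commutator_le]
    intro a _ b _
    obtain ⟨n, hn, v, hv, rfl⟩ := hdec N hN a
    obtain ⟨m, hm, w, hw, rfl⟩ := hdec N hN b
    rw [← QuotientGroup.eq_one_iff, commutatorElement_def]
    simp only [QuotientGroup.mk_mul, QuotientGroup.mk_inv, (QuotientGroup.eq_one_iff _).2 hn,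
      (QuotientGroup.eq_one_iff _).2 hm, one_mul]
    rw [← QuotientGroup.mk_mul, (commute_of_elemAb hV hv hw).eq, QuotientGroup.mk_mul]
    group
  obtain ⟨⟨v₀, hv₀⟩, hv₀1⟩ := Subgroup.ne_bot_iff_exists_ne_one.1 hV1
  have hv₀1' : v₀ ≠ 1 := fun e => hv₀1 (Subtype.ext e)
  have hF : Cfsg.fittingSubgroup G = ⊥ := by
    by_contra hF
    set F := Cfsg.fittingSubgroup G with hFdef
    set N := F ⊓ Subgroup.centralizer (F : Set G) with hN
    have hNn : N.Normal := inferInstance
    have hN1 : N ≠ ⊥ := CL.inf_centralizer_ne_bot_of_isNilpotent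
      (CL.isNilpotent_fittingSubgroup G) le_rfl Subgroup.le_normalizer hF
    have hNc : N ≤ Subgroup.centralizer (N : Set G) := CL.Comp.inf_centralizer_le_centralizer F
    obtain ⟨h, hh1, ho, hinv⟩ := exists_inverted (mul_self_of_elemAb hV hv₀) (by
      rw [hO]; exact hv₀1')
    have hhN : h ∈ N := by
      apply mem_of_sq_mem ho
      have := hcomm N hN1 (Subgroup.commutator_mem_commutator (Subgroup.mem_top h)
        (Subgroup.mem_top v₀))
      rwa [commutatorElement_def, show h * v₀ * h⁻¹ * v₀⁻¹ = h * (v₀ * h * v₀⁻¹)⁻¹ by group, hinv,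
        inv_inv] at this
    obtain ⟨w, hw, hw1, hc⟩ := hS h v₀ hv₀ ho hinv
    set M := N ⊓ Subgroup.centralizer (Subgroup.zpowers w : Set G) with hM
    have hMn : M.Normal := by
      rw [← Subgroup.normalizer_eq_top_iff, eq_top_iff, ← htop N hN1]
      refine sup_le (CL.le_normalizer_inf (by rw [Subgroup.normalizer_eq_top]; exact le_top)
        ((hVc (Subgroup.zpowers_le.2 hw)).trans Subgroup.le_normalizer)) ?_
      exact (hNc.trans (Subgroup.centralizer_le inf_le_left)).trans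
        (Subgroup.centralizer_le_normalizer _)
    have hhM : h ∈ M := ⟨hhN, by
      rw [CL.Isol.centralizer_zpowers]
      exact Subgroup.mem_centralizer_singleton_iff.2 hc.symm⟩
    have h1 := hfaith M (fun e => hh1 (by rw [e] at hhM; exact hhM))
    have h2 : w ∈ V ⊓ Subgroup.centralizer (M : Set G) :=
      ⟨hw, fun m hm => (hm.2 w (Subgroup.mem_zpowers w)).symm⟩
    rw [h1] at h2
    exact hw1 h2
  have hnt : Nontrivial G := ⟨⟨v₀, 1, hv₀1'⟩⟩
  have hFE := CL.Comp.fstar_eq_layer_of_fitting_eq_bot hF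
  have hE1 : Cfsg.layer G ≠ ⊥ := hFE ▸ CL.Comp.fstar_ne_bot
  obtain ⟨L, hL⟩ : ∃ L : Subgroup G, Cfsg.IsComponent L := by
    by_contra h
    push Not at h
    exact hE1 (CL.Comp.layer_eq_bot_iff.2 h)
  have hZL : ∀ h ∈ L, h ∈ Subgroup.centralizer (L : Set G) → h = 1 := by
    intro h h1 h2
    have := hL.center_le_fitting ⟨h1, h2⟩
    rwa [hF] at this
  have hout : ∀ a, a ∉ Subgroup.normalizer (L : Set G) → ∀ l ∈ L,
      a * l * a⁻¹ ∈ Subgroup.centralizer (L : Set G) := by
    intro a ha l hl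
    have h1 := hL.commutator_conj_eq_bot ha
    rw [Subgroup.commutator_comm, Subgroup.commutator_eq_bot_iff_le_centralizer] at h1
    exact h1 (conj_mem_map_conj a hl)
  have hVL : V ⊓ Subgroup.centralizer (L : Set G) = ⊥ := by
    rw [eq_bot_iff, ← hfaith (Subgroup.normalClosure (L : Set G)) (fun e => hL.ne_bot (by
      rw [eq_bot_iff, ← e]; exact Subgroup.le_normalClosure))]
    rintro u ⟨hu, huL⟩
    refine ⟨hu, ?_⟩
    have h1 : Subgroup.normalClosure (L : Set G) ≤ Subgroup.centralizer ({u} : Set G) := by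
      refine (Subgroup.closure_le _).2 fun y hy => ?_
      obtain ⟨l, hl, hc⟩ := Group.mem_conjugatesOfSet_iff.1 hy
      obtain ⟨g, rfl⟩ := isConj_iff.1 hc
      obtain ⟨e, he, v, hv, rfl⟩ := hdec _ hE1 g
      have h2 : e * v * l * (e * v)⁻¹ ∈ L.map (MulAut.conj v).toMonoidHom := by
        rw [show e * v * l * (e * v)⁻¹ = e * (v * l * v⁻¹) * e⁻¹ by group]
        exact (Subgroup.mem_normalizer_iff.1 ((hL.conj v).layer_le_normalizer he) _).1
          (conj_mem_map_conj v hl)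
      obtain ⟨l', hl', e'⟩ := h2
      rw [← e']
      have c1 : Commute u v := commute_of_elemAb hV hu hv
      have c2 : Commute u l' := (huL l' hl').symm
      exact Subgroup.mem_centralizer_singleton_iff.2
        ((c1.mul_right c2).mul_right c1.inv_right).symm
    intro y hy
    exact Subgroup.mem_centralizer_singleton_iff.1 (h1 hy)
  set U := V ⊓ Subgroup.normalizer (L : Set G) with hU
  have hUL : U ⊔ L = ⊤ := by
    by_contra hne
    by_cases hU1 : U = ⊥
    · have hnn : ∀ a ∈ V, a ≠ 1 → a ∉ Subgroup.normalizer (L : Set G) := by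
        intro a ha ha1 hn
        have : a ∈ U := ⟨ha, hn⟩
        rw [hU1] at this
        exact ha1 this
      obtain ⟨h, hh, hh1, ho⟩ : ∃ h ∈ L, h ≠ 1 ∧ Odd (orderOf h) := by
        by_contra hno
        push Not at hno
        refine hL.ne_bot (hsub2 hL.isSubnormal fun y => ?_)
        obtain ⟨n, hn⟩ := exists_odd_orderOf_pow (y : G)
        refine ⟨n, Subtype.ext ?_⟩
        by_contra h1
        exact hno _ (pow_mem y.2 _) h1 hn
      have hv2 := mul_self_of_elemAb hV hv₀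
      have k1 := hout v₀ (hnn v₀ hv₀ hv₀1') h hh
      have c1 : Commute h (v₀ * h * v₀⁻¹) := k1 h hh
      have e1 : v₀ * (h * (v₀ * h * v₀⁻¹)⁻¹) * v₀⁻¹ = (h * (v₀ * h * v₀⁻¹)⁻¹)⁻¹ := by
        rw [show v₀ * (h * (v₀ * h * v₀⁻¹)⁻¹) * v₀⁻¹
          = (v₀ * h * v₀⁻¹) * ((v₀ * v₀) * h⁻¹ * (v₀ * v₀)⁻¹) by group, hv2]
        group
      have ho' : Odd (orderOf (h * (v₀ * h * v₀⁻¹)⁻¹)) :=
        odd_orderOf_mul c1.inv_right ho (by rwa [orderOf_inv, orderOf_conj])
      obtain ⟨w, hw, hw1, hc⟩ := hS _ v₀ hv₀ ho' e1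
      have hc' : w * (h * (v₀ * h * v₀⁻¹)⁻¹) * w⁻¹ = h * (v₀ * h * v₀⁻¹)⁻¹ := by
        rw [hc, mul_inv_cancel_right]
      have k2 : h * (v₀ * h * v₀⁻¹)⁻¹ ∈ Subgroup.centralizer (L : Set G) := by
        by_cases hwv : w = v₀
        · rw [hwv, e1] at hc'
          rw [eq_one_of_inv_eq ho' hc']
          exact one_mem _
        · have hwv1 : w * v₀ ≠ 1 := fun e => hwv (by
            rw [← hv2] at e
            exact mul_right_cancel e)
          rw [← hc', show w * (h * (v₀ * h * v₀⁻¹)⁻¹) * w⁻¹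
            = (w * h * w⁻¹) * ((w * v₀) * h * (w * v₀)⁻¹)⁻¹ by group]
          exact mul_mem (hout w (hnn w hw hw1) h hh)
            (inv_mem (hout _ (hnn _ (V.mul_mem hw hv₀) hwv1) h hh))
      exact hh1 (hZL h hh ((mul_mem_cancel_right (inv_mem k1)).1 k2))
    · obtain ⟨h, hh, u, hu, ho, hinv, hc⟩ := hA (D := U) inf_le_left hL.isSubnormal inf_le_right
        (by rw [eq_bot_iff, ← hVL]; exact inf_le_inf_right _ inf_le_left) hU1 hne
      obtain ⟨v, hv, hv1, e⟩ := hS h u hu.1 ho hinv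
      by_cases hvn : v ∈ Subgroup.normalizer (L : Set G)
      · exact hv1 (hc v ⟨hv, hvn⟩ e)
      · have h1 := hout v hvn h hh
        rw [e, mul_inv_cancel_right] at h1
        have h2 := hZL h hh h1
        apply hU1
        rw [eq_bot_iff]
        intro a ha
        exact hc a ha (by rw [h2, mul_one, one_mul])
  have hLn : L.Normal := by
    rw [← Subgroup.normalizer_eq_top_iff, eq_top_iff, ← hUL]
    exact sup_le inf_le_right Subgroup.le_normalizer
  have hEL : Cfsg.generalizedFittingSubgroup G = L := by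
    rw [hFE]
    refine le_antisymm ?_ hL.le_layer
    rw [← CL.Comp.commutator_layer_self]
    exact (Subgroup.commutator_mono le_top le_top).trans (hcomm L hL.ne_bot)
  rw [hEL]
  refine ⟨hL.isQuasisimple.isSimpleGroup_of_center_eq_bot ?_, hL.isQuasisimple.not_isMulCommutative,
    htop L hL.ne_bot⟩
  rw [eq_bot_iff]
  intro y hy
  refine Subtype.ext (hZL y y.2 fun l hl => ?_)
  exact congrArg Subtype.val (Subgroup.mem_center_iff.1 hy ⟨l, hl⟩)

end Cfsg.Agent.S3048
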