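import Cfsg.Statements.S3049
import Cfsg.Agent.TECH.IsolZ
import Cfsg.Agent.SIG.FStar
import Cfsg.Agent.PLOC.FrobeniusNPC
import Cfsg.Agent.PLOC.Critical
import Cfsg.Agent.PLOC.ElemAb
import Cfsg.Agent.SOLV.PGroupCyclicMax

set_option autoImplicit false
set_option linter.unusedVariables false
open Cfsg

namespace Cfsg.Agent.S3049

open CL.Misc


/-- Let G be a finite group and p an odd prime with O_{p'}(G) = 1. Suppose that G has p-rank at most 2 (no elementary abelian subgroup of order p³) and that some element x of order p is isolated in G (no G-conjugate of x other than x commutes with x) and not central. Then the generalized Fitting subgroup F*(G) is a non-abelian simple group. Since O_{p'}(G) = 1, such an x is not central modulo O_{p'}(G): the hypotheses describe a counterexample to the Z*_p statement in p-rank at most 2. -/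
theorem result {G : Type*} [Group G] [Finite G] {p : ℕ} [Fact p.Prime] (hp : p ≠ 2) (hcore : Cfsg.pPrimeCore p G = ⊥)
    (hrank : Cfsg.PRankLE p 2 G) (x : G) (hx : orderOf x = p) (hiso : Cfsg.IsIsolated x) (hnc : x ∉ Subgroup.center G) :
    IsSimpleGroup ↥(Cfsg.generalizedFittingSubgroup G) ∧ ¬ IsMulCommutative ↥(Cfsg.generalizedFittingSubgroup G) := by

  have hpp : p.Prime := Fact.out
  have hxp : IsPGroup p (Subgroup.zpowers x) :=
    isPGroup_zpowers_of_orderOf (n := 1) (by rw [hx, pow_one])
  obtain ⟨P, hP, hxP'⟩ := exists_sylIn_ge hxp (le_top (a := Subgroup.zpowers x))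
  have hxP : x ∈ P := hxP' (Subgroup.mem_zpowers x)
  have hPc := CL.Isol.le_centralizer hiso hP.isPGroup hxP
  have hOP : Cfsg.pCore p G ≤ P := hP.le_of_normalizes (CL.isPGroup_pCore p G) le_top
    (by rw [Subgroup.normalizer_eq_top]; exact le_top)
  have hF := CL.fittingSubgroup_eq_pCore hcore
  obtain ⟨L, hL, hxL⟩ : ∃ L : Subgroup G, Cfsg.IsComponent L ∧
      x ∉ Subgroup.centralizer (L : Set G) := by
    by_contra hno
    push Not at hno
    have h1 : Cfsg.generalizedFittingSubgroup G ≤ Subgroup.centralizer ({x} : Set G) := by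
      rw [CL.Comp.fstar_eq_layer_sup_pCore hcore]
      refine sup_le (CL.Comp.layer_le_iff.2 fun K hK k hk => ?_) (hOP.trans hPc)
      exact Subgroup.mem_centralizer_singleton_iff.2 (hno K hK k hk)
    have h2 : x ∈ Cfsg.pCore p G := by
      rw [← hF]
      apply CL.Comp.centralizer_fstar_le_fitting
      intro k hk
      exact Subgroup.mem_centralizer_singleton_iff.1 (h1 hk)
    apply hnc
    rw [Subgroup.mem_center_iff]
    intro g
    have h3 := CL.Isol.conj_eq hiso (CL.isPGroup_pCore p G) h2
      ((inferInstance : (Cfsg.pCore p G).Normal).conj_mem x h2 g)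
    rw [show g * x = (g * x * g⁻¹) * g by group, h3]
  have hsyl : ∀ K : Subgroup G, Cfsg.IsComponent K → SylIn p (P ⊓ Cfsg.layer G ⊓ K) K :=
    fun K hK => (hP.inf_normal le_top (by rw [Subgroup.normalizer_eq_top])).inf_normal
      hK.le_layer hK.layer_le_normalizer
  have hdvd : ∀ K : Subgroup G, Cfsg.IsComponent K → p ∣ Nat.card K := by
    intro K hK
    by_contra hd
    have := CL.le_pPrimeCore_of_isSubnormal hK.isSubnormal (hpp.coprime_iff_not_dvd.2 hd).symm
    rw [hcore, le_bot_iff] at this
    exact hK.ne_bot this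
  have hno : ∀ Y : Subgroup G, Y ≤ P → Y ≤ Subgroup.centralizer (L : Set G) → Y = ⊥ := by
    intro Y hYP hYL
    by_contra hY
    have hYd : p ∣ Nat.card Y := (sylIn_self (hP.isPGroup.to_le hYP)).dvd_card (by
      obtain ⟨n, hn⟩ := (hP.isPGroup.to_le hYP).exists_card_eq
      rw [hn]
      refine dvd_pow_self p fun h0 => hY ?_
      rw [h0, pow_zero] at hn
      exact Subgroup.eq_bot_of_card_eq Y hn)
    obtain ⟨⟨y, hyY⟩, hy⟩ := exists_prime_orderOf_dvd_card' (G := Y) p hYd
    rw [← Subgroup.orderOf_coe] at hy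
    have hy' : orderOf y = p := hy
    have hyP := hYP hyY
    have hyL := hYL hyY
    have cyx : Commute y x := Subgroup.mem_centralizer_singleton_iff.1 (hPc hyP)
    obtain ⟨hA, hAc⟩ := CL.PCyc.elemAb_zpowers_sup hpp hy' hx cyx
      (fun h => hxL (Subgroup.zpowers_le.2 hyL h))
    have hz : ∀ z ∈ P, z ∈ L → z ^ p = 1 → ∀ g ∈ L, g * z * g⁻¹ ∈ P → g * z * g⁻¹ = z := by
      intro z hzP hzL hzp g hg hgz
      have hzA : z ∈ Subgroup.zpowers y ⊔ Subgroup.zpowers x := by
        have h1 := CL.Th.elemAb_sup hA (CL.Th.elemAb_zpowers hzp) (by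
          rw [CL.Isol.centralizer_zpowers]
          refine sup_le (Subgroup.zpowers_le.2 ?_) (Subgroup.zpowers_le.2 ?_)
          · exact Subgroup.mem_centralizer_singleton_iff.2 (hyL z hzL).symm
          · exact Subgroup.mem_centralizer_singleton_iff.2
              (Subgroup.mem_centralizer_singleton_iff.1 (hPc hzP)).symm)
        have h2 := hrank _ h1.1 h1.2
        rw [← hAc] at h2
        rw [Subgroup.eq_of_le_of_card_ge le_sup_left h2]
        exact Subgroup.mem_sup_right (Subgroup.mem_zpowers z)
      obtain ⟨a, ha, b, hb, rfl⟩ := (CL.mem_sup_of_le_normalizer (by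
        refine le_trans ?_ (Subgroup.centralizer_le_normalizer _)
        rw [CL.Isol.centralizer_zpowers]
        exact Subgroup.zpowers_le.2 (hPc hyP))).1 hzA
      have h3 : g * a * g⁻¹ = a := by
        rw [Subgroup.zpowers_le.2 hyL ha g hg, mul_inv_cancel_right]
      have h4 : g * (a * b) * g⁻¹ = a * (g * b * g⁻¹) := by
        rw [show g * (a * b) * g⁻¹ = (g * a * g⁻¹) * (g * b * g⁻¹) by group, h3]
      rw [h4] at hgz ⊢
      rw [CL.Isol.conj_eq (CL.Isol.isolated_of_mem_zpowers hiso hxp hb) hP.isPGroup (hxP' hb)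
        ((mul_mem_cancel_left (Subgroup.zpowers_le.2 hyP ha)).1 hgz)]
    have hnpc : Cfsg.HasNormalPComplement p L := by
      rw [CL.Tr.hasNPC_iff_forall_le_sylow (hsyl L hL).toSylow]
      intro Q hQ g hg hgo
      refine CL.PG.mem_centralizer_of_commute_omega hp ((hsyl L hL).toSylow.isPGroup'.to_le hQ)
        hg hgo fun z hzQ hzp => ?_
      have h1 : (z : G) ∈ P := (hQ hzQ).1.1
      have h2 : ((g * z * g⁻¹ : L) : G) ∈ P := (hQ ((Subgroup.mem_normalizer_iff.1 hg z).1 hzQ)).1.1
      have h3 := hz z h1 z.2 (congrArg Subtype.val hzp) g g.2 h2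
      apply Subtype.ext
      show (g : G) * z = z * g
      rw [← mul_inv_eq_iff_eq_mul]
      exact h3
    have h5 := CL.hasNPC_iff_not_dvd_card_pResidual.1 hnpc
    rcases hL.isQuasisimple.normal_top_or_le_center (Cfsg.pResidual p L) inferInstance with h | h
    · rw [h, Subgroup.card_top] at h5
      exact h5 (hdvd L hL)
    · apply hL.not_isSolvable
      have h6 : Group.IsSolvable (L ⧸ Cfsg.pResidual p L) :=
        CL.isSolvable_of_isPGroup CL.isPGroup_quotient_pResidual
      have h7 : IsMulCommutative (Cfsg.pResidual p L) :=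
        CL.isMulCommutative_of_le inferInstance h
      have h8 := CL.isSolvable_of_isMulCommutative (Cfsg.pResidual p L)
      exact Group.isSolvable_of_ker_le_range (Cfsg.pResidual p L).subtype
        (QuotientGroup.mk' (Cfsg.pResidual p L))
        (by rw [QuotientGroup.ker_mk', Subgroup.range_subtype])
  have hO : Cfsg.pCore p G = ⊥ := by
    refine hno _ hOP ?_
    rw [← hF, Subgroup.le_centralizer_iff, ← Subgroup.commutator_eq_bot_iff_le_centralizer]
    exact hL.commutator_fittingSubgroup
  have hE : Cfsg.generalizedFittingSubgroup G = L := by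
    rw [CL.Comp.fstar_eq_layer_sup_pCore hcore, hO, sup_bot_eq]
    refine le_antisymm (CL.Comp.layer_le_iff.2 fun K hK => ?_) hL.le_layer
    by_contra hne
    exact (hsyl K hK).ne_bot (hdvd K hK) (hno _ (inf_le_left.trans inf_le_left)
      (inf_le_right.trans (hK.le_centralizer_of_ne hL fun e => hne e.le)))
  rw [hE]
  refine ⟨hL.isQuasisimple.isSimpleGroup_of_center_eq_bot ?_, hL.isQuasisimple.not_isMulCommutative⟩
  rw [eq_bot_iff]
  intro y hy
  have h1 : (y : G) ∈ Cfsg.fittingSubgroup G := hL.center_le_fitting ⟨y.2, fun l hl =>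
    congrArg Subtype.val (Subgroup.mem_center_iff.1 hy ⟨l, hl⟩)⟩
  rw [hF, hO] at h1
  exact Subtype.ext h1

end Cfsg.Agent.S3049
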