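import Cfsg.Statements.S3053
import Cfsg.Agent.FUS.ResistOdd

set_option autoImplicit false
open Cfsg

namespace Cfsg.Agent.S3053

open scoped commutatorElement

/-- Let p be an odd prime and G a finite group with a Sylow p-subgroup P that is extraspecial of order p³ and exponent p². Then the centre of P is strongly closed in P with respect to G: a G-conjugate of an element of Z(P) that lies in P already lies in Z(P). In particular a nontrivial central element of P is conjugate in G to no noncentral element of P. -/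
theorem result {G : Type*} [Group G] [Finite G]
    {p : ℕ} [Fact p.Prime] (hp : p ≠ 2) (P : Sylow p G) (hE : Cfsg.IsExtraspecial p ↥P)
    (hcard : Nat.card P = p ^ 3) (hexp : Monoid.exponent ↥P = p ^ 2) :
    Cfsg.IsStronglyClosed ((Subgroup.center ↥P).map (P : Subgroup G).subtype) (P : Subgroup G) := by
  have hodd : Odd p := (Fact.out : p.Prime).odd_of_ne_two hp
  have h2 : ∀ x y z : P, Commute z ⁅x, y⁆ := CL.PG.commute_commutator_of_le_center hE.1.2.2.le
  let W₀ : Subgroup P :=
    { carrier := {x | x ^ p = 1}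
      one_mem' := one_pow p
      mul_mem' := fun ha hb => CL.PG.mul_pow_eq_one_of_odd (h2 _ _ _) (h2 _ _ _) hodd ha hb
      inv_mem' := fun {a} ha => by change a⁻¹ ^ p = 1; rw [inv_pow, show a ^ p = 1 from ha, inv_one] }
  have hW₀ : Nat.card W₀ ≤ p ^ 2 := by
    have hne : W₀ ≠ ⊤ := fun h => by
      have h1 : p ^ 2 ∣ p := hexp.symm.dvd.trans
        (Monoid.exponent_dvd_of_forall_pow_eq_one fun x => (h ▸ Subgroup.mem_top x : x ∈ W₀))
      have h3 := Nat.le_of_dvd (Fact.out : p.Prime).pos h1
      have h4 := (Fact.out : p.Prime).one_lt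
      nlinarith
    obtain ⟨k, hk, e⟩ := (Nat.dvd_prime_pow Fact.out).1 (hcard ▸ Subgroup.card_subgroup_dvd_card W₀)
    have hk3 : k ≠ 3 := fun h => hne (Subgroup.eq_top_of_card_eq _ (by rw [e, h, hcard]))
    rw [e]
    exact Nat.pow_le_pow_right (Fact.out : p.Prime).pos (by omega)
  have hN := CL.Fus.normal_of_sc_of_omega_le_sq P.isPGroup' (CL.Fus.Grp.isSaturated P) hp
    (CL.Fus.sc_top _) (W := W₀.map (P : Subgroup G).subtype)
    (fun x => ⟨by rintro ⟨x, hx, rfl⟩; exact ⟨x.2, congrArg Subtype.val hx⟩,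
      fun hx => ⟨⟨x, hx.1⟩, Subtype.ext hx.2, rfl⟩⟩)
    (by rwa [Subgroup.card_map_of_injective (P : Subgroup G).subtype_injective])
  refine ⟨Subgroup.map_subtype_le _, ?_⟩
  rintro _ ⟨x, hx, rfl⟩ g hg
  have h1 : Subgroup.zpowers (x : G) ≤ P := Subgroup.zpowers_le.2 x.2
  obtain ⟨α, -, e⟩ := CL.Fus.exists_aut_of_normal hN h1 (CL.Fus.mor_cj_group (g := g) h1
    (CL.Fus.img_le_iff.1 (by
      rw [(CL.Fus.isHomOn_cj _ g).img_zpowers]
      exact Subgroup.zpowers_le.2 hg)))
  refine ⟨α x, ?_, ?_⟩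
  · exact (Subgroup.characteristic_iff_le_comap.1 inferInstance α) hx
  · have := e (Subgroup.mem_zpowers (x : G))
    rw [CL.Fus.autFun_coe] at this
    exact this

end Cfsg.Agent.S3053
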