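import Cfsg.Statements.S3054
import Cfsg.Agent.TECH.RV
import Cfsg.Agent.PLOC.ESForm

set_option autoImplicit false
set_option linter.unusedVariables false
open Cfsg

namespace Cfsg.Agent.S3054

/-- Let p be an odd prime and G a finite group with a Sylow p-subgroup P that is extraspecial of order p³ and exponent p. Suppose P contains three distinct subgroups A of order p² (each is elementary abelian of rank 2) such that every automorphism of A of order p is induced by conjugation by an element of G; equivalently the automorphism group induced on A by its normalizer contains the special linear group of A. Then p ≤ 13. -/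
theorem result {G : Type*} [Group G] [Finite G]
    {p : ℕ} [Fact p.Prime] (hp : p ≠ 2) (P : Sylow p G) (hE : Cfsg.IsExtraspecial p ↥P)
    (hcard : Nat.card P = p ^ 3) (hexp : Monoid.exponent ↥P = p)
    (A : Fin 3 → Subgroup G) (hA : Function.Injective A) (hAP : ∀ i, A i ≤ (P : Subgroup G))
    (hAcard : ∀ i, Nat.card ↥(A i) = p ^ 2)
    (hSL : ∀ i, ∀ φ : MulAut ↥(A i), orderOf φ = p → ∃ g : G, ∀ a : ↥(A i), (φ a : G) = g * (a : G) * g⁻¹) :
    p ≤ 13 := by

  obtain ⟨z, h, hc, -⟩ := CL.ES.exists_zdata hE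
  have hd : Module.finrank (ZMod p) h.V = 2 := h.finrank_eq_of_card hcard
  let b := Module.finBasisOfFinrankEq (ZMod p) h.V hd
  have hP := CL.Misc.sylIn_top P
  have hex : ∀ x : P, x ^ p = 1 := fun x => by
    have := Monoid.pow_exponent_eq_one x
    rwa [hexp] at this
  choose a ha haz hmem hl using fun i =>
    CL.RV.exists_of_card h hc hcard hex (hAP i) (hAcard i) (hSL i)
  refine CL.RV.le_thirteen _ (CL.RV.not_dvd_card_rho hP h hc b) _ ?_
    fun i => CL.RV.good hP h hc b (ha i) (haz i) (hl i)
  intro i j hij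
  obtain ⟨c, hc'⟩ := (CL.RV.ptV_eq_iff b _ _).1 hij
  rw [← h.pr_zpw_val, h.pr_eq_iff] at hc'
  apply hA
  have hz : ∀ k, (z : G) ∈ A k := fun k => (hmem k _).2 ⟨(1, 0), CL.RV.E_left (by
    rw [Subgroup.orderOf_coe, h.order])⟩
  have haA : ∀ k, (a k : G) ∈ A k := fun k => (hmem k _).2 ⟨(0, 1), CL.RV.E_right (by
    rw [Subgroup.orderOf_coe, ha])⟩
  have h1 : (a i : G) ∈ A j := by
    obtain ⟨n, hn⟩ := hc'
    have h2 : (z : G) ^ n = ((a j : G) ^ c.val)⁻¹ * a i := by
      have := congrArg Subtype.val hn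
      simp only [SubgroupClass.coe_zpow] at this
      exact this
    rw [eq_inv_mul_iff_mul_eq] at h2
    rw [← h2]
    exact mul_mem (pow_mem (haA j) _) (zpow_mem (hz j) _)
  refine Subgroup.eq_of_le_of_card_ge (fun x hx => ?_) (by rw [hAcard, hAcard])
  obtain ⟨v, rfl⟩ := (hmem i x).1 hx
  exact mul_mem (pow_mem (hz j) _) (pow_mem h1 _)

end Cfsg.Agent.S3054
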