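import Cfsg.Statements.S3055
import Cfsg.Agent.TECH.RV
import Cfsg.Agent.PLOC.ESForm

set_option autoImplicit false
set_option linter.unusedVariables false
open Cfsg

namespace Cfsg.Agent.S3055

/-- Let p be an odd prime and G a finite group with a Sylow p-subgroup P that is extraspecial of order p³ and exponent p. If all nonidentity elements of P are conjugate in G, then p ≤ 7. -/
theorem result {G : Type*} [Group G] [Finite G]
    {p : ℕ} [Fact p.Prime] (hp : p ≠ 2) (P : Sylow p G) (hE : Cfsg.IsExtraspecial p ↥P)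
    (hcard : Nat.card P = p ^ 3) (hexp : Monoid.exponent ↥P = p)
    (hconj : ∀ x y : ↥P, x ≠ 1 → y ≠ 1 → ∃ g : G, g * (x : G) * g⁻¹ = (y : G)) :
    p ≤ 7 := by

  obtain ⟨z, h, hc, -⟩ := CL.ES.exists_zdata hE
  have hd : Module.finrank (ZMod p) h.V = 2 := h.finrank_eq_of_card hcard
  let b := Module.finBasisOfFinrankEq (ZMod p) h.V hd
  have hP := CL.Misc.sylIn_top P
  have hex : ∀ x : P, x ^ p = 1 := fun x => by
    have := Monoid.pow_exponent_eq_one x
    rwa [hexp] at this
  refine CL.RV.le_seven _ (CL.RV.not_dvd_card_rho hP h hc b) fun x => ?_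
  obtain ⟨v, hv, rfl⟩ := CL.RV.exists_ptV b x
  obtain ⟨a, rfl⟩ := h.pr_surjective v
  have haz : a ∉ Subgroup.zpowers z := mt h.pr_eq_zero_iff.2 hv
  have ha1 : a ≠ 1 := fun h1 => haz (h1 ▸ one_mem _)
  have ha : orderOf a = p := orderOf_eq_prime (hex a) ha1
  have hz1 : z ≠ 1 := fun h1 => by
    have := h.order
    rw [h1, orderOf_one] at this
    exact (Fact.out : p.Prime).one_lt.ne this
  obtain ⟨g, hg⟩ := hconj a z ha1 hz1
  exact CL.RV.good hP h hc b ha haz (CL.RV.exists_lo_of_conj hP h hc ha haz hg)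

end Cfsg.Agent.S3055
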