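import Cfsg.Statements.S3056
import Cfsg.Agent.TECH.MiscSyl

set_option autoImplicit false
set_option linter.unusedVariables false
open Cfsg

namespace Cfsg.Agent.S3056

open CL.Misc

theorem chain_of_reflTransGen {α : Type*} {r : α → α → Prop} {a b : α}
    (h : Relation.ReflTransGen r a b) :
    ∃ (n : ℕ) (f : ℕ → α), f 0 = a ∧ f n = b ∧ ∀ i < n, r (f i) (f (i + 1)) := by
  induction h with
  | refl => exact ⟨0, fun _ => a, rfl, rfl, fun i hi => absurd hi (Nat.not_lt_zero i)⟩
  | @tail b c _ h2 ih =>
    obtain ⟨n, f, h0, hn, hf⟩ := ih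
    refine ⟨n + 1, fun i => if i ≤ n then f i else c, by simp [h0], by simp, ?_⟩
    intro i hi
    by_cases h : i < n
    · simp only [if_pos h.le, if_pos (Nat.succ_le_of_lt h)]
      exact hf i h
    · have : i = n := by omega
      subst this
      simp only [le_refl, if_true, Nat.not_succ_le_self, if_false, hn]
      exact h2


/-- Let G be a finite group and p a prime. Join two Sylow p-subgroups when they are distinct and meet nontrivially. This graph on the Sylow p-subgroups is disconnected (the Sylow p-subgroups are not chain-connected through nontrivial intersections) if and only if G has a strongly p-embedded subgroup in the classical sense: a proper subgroup H of order divisible by p such that H ∩ gHg⁻¹ has order prime to p for every g outside H. -/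
theorem result {G : Type*} [Group G] [Finite G]
    (p : ℕ) [Fact p.Prime] :
    ¬ Cfsg.IsSylowChainConnected p G ↔
      ∃ H : Subgroup G, H ≠ ⊤ ∧ p ∣ Nat.card H ∧
        ∀ g : G, g ∉ H → ¬ p ∣ Nat.card ↥(H ⊓ H.map (MulAut.conj g).toMonoidHom) := by
  constructor
  · intro hn
    let r : Sylow p G → Sylow p G → Prop := fun A B => A ≠ B ∧ (A : Subgroup G) ⊓ (B : Subgroup G) ≠ ⊥
    have rsymm : ∀ A B, r A B → r B A := fun A B h => ⟨h.1.symm, by rw [inf_comm]; exact h.2⟩
    have rsmul : ∀ (g : G) A B, r A B → r (g • A) (g • B) := by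
      rintro g A B ⟨h1, h2⟩
      refine ⟨fun h => h1 (MulAction.injective g h), fun h => h2 ?_⟩
      rw [Sylow.coe_subgroup_smul, Sylow.coe_subgroup_smul, ← Subgroup.smul_inf] at h
      rw [eq_bot_iff]
      intro x hx
      have := Subgroup.smul_mem_pointwise_smul x (MulAut.conj g) _ hx
      rw [h, Subgroup.mem_bot] at this
      rw [Subgroup.mem_bot]
      simpa using this
    have Rsmul : ∀ (g : G) A B, Relation.ReflTransGen r A B → Relation.ReflTransGen r (g • A) (g • B) := by
      intro g A B h
      induction h with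
      | refl => exact .refl
      | tail _ h2 ih => exact .tail ih (rsmul g _ _ h2)
    have Rsymm : ∀ A B, Relation.ReflTransGen r A B → Relation.ReflTransGen r B A := by
      intro A B h
      induction h with
      | refl => exact .refl
      | tail _ h2 ih => exact .head (rsymm _ _ h2) ih
    have Rof : ∀ A B : Sylow p G, (A : Subgroup G) ⊓ (B : Subgroup G) ≠ ⊥ → Relation.ReflTransGen r A B := by
      intro A B h
      by_cases hAB : A = B
      · rw [hAB]
      · exact .single ⟨hAB, h⟩
    unfold Cfsg.IsSylowChainConnected at hn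
    push Not at hn
    obtain ⟨S, T, hST⟩ := hn
    have hR : ¬ Relation.ReflTransGen r S T := by
      intro hR
      by_cases hb : (S : Subgroup G) ⊓ (T : Subgroup G) = ⊥
      · obtain ⟨n, f, h0, hn, hf⟩ := chain_of_reflTransGen hR
        obtain ⟨i, hi⟩ := hST n (fun i => f i) h0 hn (fun i => hb ▸ bot_le)
        exact (hf i i.2).2 (hi (hf i i.2).1)
      · by_cases hE : S = T
        · obtain ⟨i, -⟩ := hST 0 (fun _ => S) rfl hE (fun i => inf_le_left)
          exact i.elim0
        · obtain ⟨i, hi⟩ := hST 1 ![S, T] rfl rfl (fun i => by fin_cases i; exacts [inf_le_left, inf_le_right])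
          fin_cases i
          exact hb (hi hE)
    let H : Subgroup G :=
      { carrier := {g | Relation.ReflTransGen r S (g • S)}
        one_mem' := by simp [Relation.ReflTransGen.refl]
        mul_mem' := by
          intro a b ha hb
          have := Rsmul a _ _ hb
          rw [← mul_smul] at this
          exact Relation.ReflTransGen.trans ha this
        inv_mem' := by
          intro a ha
          have := Rsmul a⁻¹ _ _ ha
          rw [inv_smul_smul] at this
          exact Rsymm _ _ this }
    have hH : ∀ g, g ∈ H ↔ Relation.ReflTransGen r S (g • S) := fun g => Iff.rfl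
    have hSH : (S : Subgroup G) ≤ H := by
      intro g hg
      rw [hH, Sylow.smul_eq_iff_mem_normalizer.2 (Subgroup.le_normalizer hg)]
    have key : ∀ x ∈ H, orderOf x = p → ∃ A : Sylow p G, x ∈ (A : Subgroup G) ∧ Relation.ReflTransGen r S A := by
      intro x hx ho
      obtain ⟨g, hg, hc⟩ := (sylIn_of_sylow S hSH).exists_conj_le
        (isPGroup_zpowers_of_orderOf (n := 1) (by rw [ho, pow_one])) ((Subgroup.zpowers_le).2 hx)
      refine ⟨g⁻¹ • S, ?_, (hH _).1 (H.inv_mem hg)⟩
      rw [Sylow.coe_subgroup_smul, Subgroup.mem_pointwise_smul_iff_inv_smul_mem]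
      simpa using hc x (Subgroup.mem_zpowers x)
    refine ⟨H, ?_, ?_, ?_⟩
    · intro h
      obtain ⟨g, rfl⟩ := MulAction.exists_smul_eq G S T
      exact hR ((hH g).1 (h ▸ Subgroup.mem_top g))
    · have hS : (S : Subgroup G) ≠ ⊥ := by
        intro h
        apply hR
        have : S = T := by
          apply Sylow.ext
          exact (S.is_maximal' T.isPGroup' (h ▸ bot_le)).symm
        rw [this]
      exact (S.isPGroup'.card_eq_or_dvd.resolve_left (fun h => hS (Subgroup.card_eq_one.1 h))).trans
        (Subgroup.card_dvd_of_le hSH)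
    · intro g hg hd
      apply hg
      obtain ⟨⟨x, hx1, hx2⟩, ho⟩ := exists_prime_orderOf_dvd_card' p hd
      have ho' : orderOf x = p := by rw [← ho, ← Subgroup.orderOf_coe]
      obtain ⟨A, hA, hSA⟩ := key x hx1 ho'
      obtain ⟨B, hB, hSB⟩ := key (g⁻¹ * x * g) (mem_map_conj.1 hx2) (by
        rw [← ho']
        have := (MulAut.conj g⁻¹).orderOf_eq x
        simpa using this)
      have h1 := Rsmul g _ _ hSB
      have h2 : Relation.ReflTransGen r A (g • B) := by
        apply Rof
        intro h
        have : x ∈ (A : Subgroup G) ⊓ ((g • B : Sylow p G) : Subgroup G) := by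
          refine Subgroup.mem_inf.2 ⟨hA, ?_⟩
          rw [Sylow.coe_subgroup_smul, Subgroup.mem_pointwise_smul_iff_inv_smul_mem]
          simpa using hB
        rw [h, Subgroup.mem_bot] at this
        rw [this, orderOf_one] at ho'
        exact (Fact.out : p.Prime).ne_one ho'.symm
      exact (hH g).2 ((hSA.trans h2).trans (Rsymm _ _ h1))
  · rintro ⟨H, hH, hpH, hse⟩ hc
    have hnorm : ∀ Q : Subgroup G, Q ≤ H → p ∣ Nat.card Q → ∀ g : G,
        Q ≤ H.map (MulAut.conj g).toMonoidHom → g ∈ H := by
      intro Q hQ hd g hg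
      by_contra hgH
      exact hse g hgH (hd.trans (Subgroup.card_dvd_of_le (le_inf hQ hg)))
    obtain ⟨T, hT⟩ := exists_sylIn (p := p) H
    have hT' : SylIn p T ⊤ := sylIn_of_normalizer le_top (by
      rw [top_inf_eq]
      refine hT.mono Subgroup.le_normalizer (fun g hg => hnorm T hT.le (hT.dvd_card hpH) g ?_)
      rw [← (Subgroup.mem_normalizer_iff_map_conj_eq.1 hg)]
      exact Subgroup.map_mono hT.le)
    obtain ⟨S, hS⟩ := hT'.exists_sylow
    have hSH : (S : Subgroup G) ≤ H := hS ▸ hT.le
    have hle : ∀ g : G, ((g • S : Sylow p G) : Subgroup G) ≤ H.map (MulAut.conj g).toMonoidHom :=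
      fun g => Subgroup.map_mono hSH
    have step : ∀ A B : Sylow p G, (A : Subgroup G) ≤ H → (A : Subgroup G) ⊓ (B : Subgroup G) ≠ ⊥ →
        (B : Subgroup G) ≤ H := by
      intro A B hA hAB
      obtain ⟨g, rfl⟩ := MulAction.exists_smul_eq G S B
      have hg : g ∈ H := hnorm _ (inf_le_left.trans hA)
        (A.isPGroup'.to_inf_left.card_eq_or_dvd.resolve_left (fun h => hAB (Subgroup.card_eq_one.1 h)))
        g (inf_le_right.trans (hle g))
      exact Sylow.smul_le hSH ⟨g, hg⟩
    obtain ⟨g, hg⟩ : ∃ g, g ∉ H := by
      by_contra h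
      push Not at h
      exact hH (eq_top_iff.2 (fun g _ => h g))
    obtain ⟨n, c, h0, hn, -, hc⟩ := hc S (g • S)
    have hall : ∀ i, (c i : Subgroup G) ≤ H := by
      intro i
      induction i using Fin.induction with
      | zero => rw [h0]; exact hSH
      | succ i ih => exact step _ _ ih (hc i).2
    have h1 := hall (Fin.last n)
    rw [hn] at h1
    apply hg
    refine hnorm _ h1 ?_ g (hle g)
    exact (sylIn_of_sylow (g • S) h1).dvd_card hpH

end Cfsg.Agent.S3056
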