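import Cfsg.Statements.S3057
import Cfsg.Agent.SIG.SPE
import Cfsg.Agent.S3056
import Cfsg.Agent.S0218
import Cfsg.Agent.PLOC.AlperinGoldschmidt
import Cfsg.Agent.PLOC.Symplectic
import Cfsg.Agent.SOLV.CoprimeGen
import Cfsg.Agent.SOLV.PSolvable
import Cfsg.Agent.SOLV.PGroupCyclicSCN
import Cfsg.Agent.TECH.PRed2

set_option autoImplicit false
open Cfsg

namespace Cfsg.Agent.S3057

open Subgroup CL.MSS

/-- Let p be a prime and G a finite p-solvable group of order divisible by p, with Sylow p-subgroup P. Then the Sylow p-subgroups of G fail to be chain-connected through nontrivial intersections (equivalently, G has a strongly p-embedded subgroup) if and only if O_p(G) = 1 and P is cyclic or, for p = 2, generalized quaternion. -/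
theorem result {G : Type*} [Group G] [Finite G]
    (p : ℕ) [Fact p.Prime] (hdiv : p ∣ Nat.card G) (hsol : Cfsg.IsPSolvable p G) (P : Sylow p G) :
    ¬ Cfsg.IsSylowChainConnected p G ↔
      Cfsg.pCore p G = ⊥ ∧ (IsCyclic ↥P ∨ (p = 2 ∧ ∃ n : ℕ, Nonempty (↥P ≃* QuaternionGroup (2 ^ n)))) := by
  have hp : p.Prime := Fact.out
  constructor
  · intro h
    obtain ⟨H, hH⟩ := (Cfsg.Agent.S3056.result p).1 h
    have hH' : Cfsg.IsStronglyPEmbedded p H := CL.SPE.isStronglyPEmbedded_iff_classical.2 hH
    obtain ⟨R, hR⟩ := exists_sylIn p H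
    obtain ⟨g, -, hg⟩ := (CL.SPE.sylIn_top_of_sylIn hH' hR).exists_conj (sylIn_top P)
    have hY := CL.SPE.cj hH' g
    have hPY : (P : Subgroup G) ≤ g •ᶜ H := hg ▸ cj_mono g hR.le
    generalize g •ᶜ H = Y at hY hPY
    refine ⟨by_contra fun h1 => CL.SPE.not_dvd_card_of_normal hY
      ((CL.pCore_le_sylow P).trans hPY)
      (dvd_card_of_isPGroup_le (CL.isPGroup_pCore p G) h1 le_rfl), ?_⟩
    rcases CL.PCyc.isCyclic_or_elemAb_or_quaternion P.isPGroup' with h1 | ⟨E, hE, hc⟩ | ⟨h1, n, h2⟩
    · exact Or.inl h1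
    · exfalso
      set K := Cfsg.pPrimeCore p G with hK
      set A := E.map (P : Subgroup G).subtype with hA
      have hcA : Nat.card A = p ^ 2 := by
        rw [hA, card_map_of_injective (P : Subgroup G).subtype_injective, hc]
      have hEA : Cfsg.IsElementaryAbelian p A := by
        obtain ⟨h1, h2⟩ := elemAb_iff.1 hE
        refine elemAb_iff.2 ⟨?_, ?_⟩
        · rintro _ ⟨a, ha, rfl⟩ _ ⟨b, hb, rfl⟩
          exact congrArg Subtype.val (h1 ha b hb)
        · rintro _ ⟨a, ha, rfl⟩
          rw [← map_pow, h2 a ha, map_one]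
      have hAc : IsMulCommutative A :=
        ⟨⟨fun a b => Subtype.ext ((elemAb_iff.1 hEA).1 b.2 a a.2)⟩⟩
      have hKY : K ≤ Y := by
        refine CL.coprime_le_of_forall_centralizer_le A K Y
          (CL.PCyc.not_isCyclic_of_elemAb hp hEA ?_) (by rw [normalizer_eq_top]; exact le_top)
          ?_ fun a ha h1 => inf_le_right.trans (CL.SPE.centralizer_le hY
            (hPY (map_subtype_le E ha)) (orderOf_eq_prime ((elemAb_iff.1 hEA).2 a ha) h1))
        · rw [hcA, pow_two]; exact lt_mul_self hp.one_lt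
        · rw [hcA]; exact Nat.Coprime.pow_left _ (CL.coprime_card_pPrimeCore p G).symm
      set π := QuotientGroup.mk' K with hπ
      have hnt : Nontrivial (G ⧸ K) := by
        refine QuotientGroup.nontrivial_iff.2 fun e => CL.not_dvd_card_pPrimeCore p G ?_
        rw [← hK, e, card_top]; exact hdiv
      have hne := CL.IsPSolvable.pCore_ne_bot (CL.IsPSolvable.quotient hsol K)
        (CL.pPrimeCore_quotient_pPrimeCore p G)
      set L := (Cfsg.pCore p (G ⧸ K)).comap π with hL
      have h1 : ((P : Subgroup G) ⊓ L).map π = Cfsg.pCore p (G ⧸ K) := by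
        have := (sylIn_inf_normal P L).map π
        rw [hL, map_comap_eq_self_of_surjective (QuotientGroup.mk'_surjective K)] at this
        exact this.eq_of_isPGroup (CL.isPGroup_pCore p _)
      have h2 : L ≤ Y := by
        rw [hL, ← h1, CL.comap_map_mk']
        exact sup_le (inf_le_left.trans hPY) hKY
      refine CL.SPE.not_dvd_card_of_normal hY h2 (dvd_card_of_isPGroup_le
        (R := (P : Subgroup G) ⊓ L) P.isPGroup'.to_inf_left (fun e => hne ?_) inf_le_right)
      rw [← h1, e, Subgroup.map_bot]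
    · exact Or.inr ⟨h1, n + 1, h2⟩
  · rintro ⟨hO, hP⟩
    have huniq : ∀ x ∈ (P : Subgroup G), ∀ y ∈ (P : Subgroup G), orderOf x = p → orderOf y = p →
        y ∈ zpowers x := by
      intro x hx y hy hx' hy'
      have hcyc : IsCyclic P → y ∈ zpowers x := fun h =>
        CL.ES.mem_zpowers_of_isCyclic h hx hy (by rw [hx', ← hy', pow_orderOf_eq_one])
      rcases hP with h | ⟨rfl, n, ⟨e⟩⟩
      · exact hcyc h
      · cases n with
        | zero =>
          have : IsCyclic (QuaternionGroup (2 ^ 0)) := QuaternionGroup.quaternionGroup_one_isCyclic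
          exact hcyc (isCyclic_of_surjective e.symm e.symm.surjective)
        | succ n =>
          have h1 := (Nat.card_eq_one_iff_unique.1 (Cfsg.Agent.S0218.result n)).1
          have h2 := h1.elim ⟨e ⟨x, hx⟩, (e.orderOf_eq _).trans ((orderOf_mk _ _).trans hx')⟩
            ⟨e ⟨y, hy⟩, (e.orderOf_eq _).trans ((orderOf_mk _ _).trans hy')⟩
          have h3 : x = y := congrArg Subtype.val (e.injective (congrArg Subtype.val h2))
          rw [h3]; exact mem_zpowers y
    have hP1 : (P : Subgroup G) ≠ ⊥ := (sylIn_top P).ne_bot (by rwa [card_top])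
    obtain ⟨z, hz, hzp⟩ := CL.SPE.exists_mem_orderOf_eq_of_isPGroup P.isPGroup' hP1
    refine CL.Tr.not_isSylowChainConnected_of_isolated P hP1
      (M := normalizer ((zpowers z : Subgroup G) : Set G)) (fun e => ?_) ?_
    · have := normalizer_eq_top_iff.1 e
      have h1 := CL.le_pCore (CL.SPE.isPGroup_zpowers_of_orderOf hzp)
      rw [hO, le_bot_iff, zpowers_eq_bot] at h1
      exact CL.SPE.ne_one_of_orderOf_eq hzp h1
    · rintro x ⟨t, ht, ht1, hxt⟩
      obtain ⟨u, hu, hup⟩ := CL.SPE.exists_mem_orderOf_eq_of_isPGroup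
        (P.isPGroup'.to_le (zpowers_le.2 ht)) (fun e => ht1 (zpowers_eq_bot.1 e))
      have huP := zpowers_le.2 ht hu
      have hxu : x * u * x⁻¹ ∈ (P : Subgroup G) := by
        obtain ⟨k, rfl⟩ := mem_zpowers_iff.1 hu
        rw [← conj_zpow]; exact zpow_mem hxt k
      refine mem_normalizer_of_cj_le ?_
      calc x •ᶜ zpowers z ≤ x •ᶜ zpowers u := cj_mono x (zpowers_le.2 (huniq u huP z hz hup hzp))
        _ = zpowers (x * u * x⁻¹) := cj_zpowers x u
        _ ≤ zpowers z := zpowers_le.2 (huniq z hz _ hxu hzp (by rw [CL.SPE.orderOf_conj', hup]))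

end Cfsg.Agent.S3057
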