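import Cfsg.Statements.S3058
import Cfsg.Agent.SIG.SPE
import Cfsg.Agent.S3056
import Cfsg.Agent.SOLV.CoprimeGen
import Cfsg.Agent.TECH.PRed

set_option autoImplicit false
open Cfsg

namespace Cfsg.Agent.S3058

open Subgroup CL.MSS

/-- Let p be a prime and G a finite group whose Sylow p-subgroups are not chain-connected through nontrivial intersections (so G has a strongly p-embedded subgroup). If N and M are normal subgroups of G whose orders are both divisible by p, then the order of N ∩ M is divisible by p. Consequently, among the normal subgroups of G whose order is divisible by p there is a smallest one (the intersection of all of them). -/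
theorem result {G : Type*} [Group G] [Finite G]
    (p : ℕ) [Fact p.Prime] (hG : ¬ Cfsg.IsSylowChainConnected p G)
    (N M : Subgroup G) [N.Normal] [M.Normal] (hN : p ∣ Nat.card N) (hM : p ∣ Nat.card M) :
    p ∣ Nat.card ↥(N ⊓ M) := by
  obtain ⟨Y, hY⟩ := (Cfsg.Agent.S3056.result p).1 hG
  have hY := CL.SPE.isStronglyPEmbedded_iff_classical.2 hY
  by_contra hD
  obtain ⟨R, hR⟩ := exists_sylIn p Y
  have hR' := CL.SPE.sylIn_top_of_sylIn hY hR
  obtain ⟨x, hx, hxp⟩ := CL.SPE.exists_mem_orderOf_eq_of_isPGroup (hR.pgroup.to_le inf_le_left)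
    ((hR'.inf_normal_of_le le_normalizer_of_normal le_top).ne_bot hN)
  obtain ⟨y, hy, hyp⟩ := CL.SPE.exists_mem_orderOf_eq_of_isPGroup (hR.pgroup.to_le inf_le_left)
    ((hR'.inf_normal_of_le le_normalizer_of_normal le_top).ne_bot hM)
  have h0 : ⁅zpowers x, zpowers y⁆ = ⊥ := eq_bot_of_isPGroup_of_not_dvd (hR.pgroup.to_le
    ((commutator_mono (zpowers_le.2 hx.1) (zpowers_le.2 hy.1)).trans
      (commutator_le_left_of_normalizes le_normalizer)))
    ((commutator_mono (zpowers_le.2 hx.2) (zpowers_le.2 hy.2)).trans (commutator_le_inf _ _)) hD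
  have he : ∀ z : G, orderOf z = p → IsElementaryAbelian p (zpowers z) := fun z hz =>
    ⟨inferInstance, by rintro _ ⟨k, rfl⟩; rw [← zpow_natCast, ← zpow_mul, mul_comm, zpow_mul,
      zpow_natCast, ← hz, pow_orderOf_eq_one, one_zpow]⟩
  have hU := elemAb_sup (he x hxp) (he y hyp) (commutator_eq_bot_iff_le_centralizer.1 h0)
  have := hU.1
  have hUY : zpowers x ⊔ zpowers y ≤ Y := (sup_le (zpowers_le.2 hx.1) (zpowers_le.2 hy.1)).trans hR.le
  have h1 : N ⊓ M ≤ Y := by
    refine CL.coprime_le_of_forall_centralizer_le (zpowers x ⊔ zpowers y) _ _ (fun hc => hD ?_)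
      le_normalizer_of_normal (CL.coprime_card_of_isPGroup (elemAb_isPGroup hU)
        ((Nat.Prime.coprime_iff_not_dvd Fact.out).2 hD).symm).symm fun a ha ha1 => ?_
    · have h2 : Nat.card (zpowers x ⊔ zpowers y : Subgroup G) ∣ p := by
        rw [← hc.exponent_eq_card, Monoid.exponent_dvd_iff_forall_pow_eq_one]
        exact fun g => Subtype.ext (hU.2 g g.2)
      have h3 : zpowers x = zpowers x ⊔ zpowers y := eq_of_le_of_card_ge le_sup_left
        (by rw [Nat.card_zpowers, hxp]; exact Nat.le_of_dvd (Fact.out : p.Prime).pos h2)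
      exact CL.SPE.dvd_card_of_mem (mem_inf.2 ⟨zpowers_le.2 hx.2
        (h3.ge (mem_sup_right (mem_zpowers y))), hy.2⟩) hyp
    · exact inf_le_right.trans (CL.SPE.centralizer_le hY (hUY ha) (orderOf_eq_prime (hU.2 a ha) ha1))
  refine CL.SPE.not_dvd_card_of_normal hY (CL.SPE.le_of_normalizes hY (N := (N ⊓ M) ⊔ zpowers y)
    (sup_le h1 (le_sup_right.trans hUY)) (CL.SPE.dvd_card_of_mem (mem_sup_right (mem_zpowers y)) hyp)
    (le_normalizer_iff_commutator_le_right.2 ?_)) hN
  exact le_sup_of_le_left ((commutator_mono le_rfl (sup_le inf_le_right (zpowers_le.2 hy.2))).trans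
    (commutator_le_inf _ _))

end Cfsg.Agent.S3058
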