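import Cfsg.Statements.S3059
import Cfsg.Agent.TECH.MiscSyl

set_option autoImplicit false
set_option linter.unusedVariables false
open Cfsg

namespace Cfsg.Agent.S3059

open CL.Misc

/-- Let p be a prime and H a strongly p-embedded subgroup of the finite group G in the classical sense: H is proper, p divides the order of H, and H ∩ gHg⁻¹ has order prime to p for every g outside H. Then for every normal subgroup N of G of order divisible by p, G = H · O^p(N), where O^p(N) is the subgroup generated by the elements of N of order prime to p. -/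
theorem result {G : Type*} [Group G] [Finite G]
    (p : ℕ) [Fact p.Prime] (H : Subgroup G) (hH : H ≠ ⊤) (hpH : p ∣ Nat.card H)
    (hse : ∀ g : G, g ∉ H → ¬ p ∣ Nat.card ↥(H ⊓ H.map (MulAut.conj g).toMonoidHom))
    (N : Subgroup G) [N.Normal] (hN : p ∣ Nat.card N) :
    H ⊔ Subgroup.closure {g : G | g ∈ N ∧ (orderOf g).Coprime p} = ⊤ := by
  have hnorm : ∀ Q : Subgroup G, Q ≤ H → p ∣ Nat.card Q → Subgroup.normalizer (Q : Set G) ≤ H := by
    intro Q hQ hd g hg
    by_contra hgH
    apply hse g hgH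
    refine hd.trans (Subgroup.card_dvd_of_le (le_inf hQ ?_))
    rw [← (Subgroup.mem_normalizer_iff_map_conj_eq.1 hg)]
    exact Subgroup.map_mono hQ
  obtain ⟨T, hT⟩ := exists_sylIn (p := p) H
  have hT' : SylIn p T ⊤ := sylIn_of_normalizer le_top (by
    rw [top_inf_eq]
    exact hT.mono Subgroup.le_normalizer (hnorm T hT.le (hT.dvd_card hpH)))
  have hQ : SylIn p (T ⊓ N) N := hT'.inf_normal le_top (by rw [Subgroup.normalizer_eq_top])
  set K := Subgroup.closure {g : G | g ∈ N ∧ (orderOf g).Coprime p} with hK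
  have hKN : K ≤ N := (Subgroup.closure_le _).2 (fun g hg => hg.1)
  have hKn : K.Normal := by
    rw [← Subgroup.normalizer_eq_top_iff, eq_top_iff, hK, Subgroup.le_normalizer_closure_iff]
    rintro g - x ⟨hx1, hx2⟩
    apply Subgroup.subset_closure
    refine ⟨Subgroup.Normal.conj_mem inferInstance x hx1 g, ?_⟩
    have : orderOf (g * x * g⁻¹) = orderOf x := (MulAut.conj g).orderOf_eq x
    rwa [this]
  have hpq : IsPGroup p (N ⧸ K.subgroupOf N) := by
    intro y
    obtain ⟨x, rfl⟩ := QuotientGroup.mk_surjective y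
    obtain ⟨e, m, hm, hem⟩ := Nat.exists_eq_pow_mul_and_not_dvd (orderOf_pos (x : G)).ne' p
      (Fact.out : p.Prime).ne_one
    refine ⟨e, ?_⟩
    rw [← QuotientGroup.mk_pow, QuotientGroup.eq_one_iff, Subgroup.mem_subgroupOf]
    apply Subgroup.subset_closure
    refine ⟨(x ^ p ^ e).2, ?_⟩
    apply Nat.Coprime.coprime_dvd_left (n := p) (k := m)
    · apply orderOf_dvd_of_pow_eq_one
      rw [Subgroup.coe_pow, ← pow_mul, ← hem, pow_orderOf_eq_one]
    · exact ((Nat.Prime.coprime_iff_not_dvd Fact.out).2 hm).symm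
  obtain ⟨n, hn⟩ := hpq.exists_card_eq
  have hsup := hQ.sup_eq_of_relIndex hKN (n := n) hn
  have hNle : N ≤ H ⊔ K := by
    rw [← hsup]
    exact sup_le_sup_right (inf_le_left.trans hT.le) _
  rw [eq_top_iff]
  intro g _
  obtain ⟨k, hk, hkg⟩ := hQ.frattini (g := g) (by rw [Subgroup.normalizer_eq_top]; trivial)
  have h1 : k * g ∈ H ⊔ K := Subgroup.mem_sup_left (hnorm _ (inf_le_left.trans hT.le) (hQ.dvd_card hN) hkg)
  have := Subgroup.mul_mem _ (Subgroup.inv_mem _ (hNle hk)) h1
  simpa using this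

end Cfsg.Agent.S3059
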