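import Cfsg.Statements.S3060
import Cfsg.Agent.TECH.DStar
import Cfsg.Agent.PLOC.ZJ

set_option autoImplicit false
set_option linter.unusedVariables false
open Cfsg

namespace Cfsg.Agent.S3060

open scoped Pointwise


/-- The D*-Theorem. For a finite p-group S let D*(S) be the subgroup generated by the abelian subgroups A of S such that every x ∈ S with ⟨A, x⟩ of nilpotency class at most two centralizes A. Let p be an odd prime and H a finite p-stable group with Sylow p-subgroup S. Here H is p-stable in the following sense: the largest normal p-subgroup O_p(H) contains its centralizer in H, and for every normal p-subgroup P of H, every element acting quadratically on P has image in O_p(H/C_H(P)). Then D*(S) is a normal subgroup of H. -/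
theorem result {G : Type*} [Group G] [Finite G] {p : ℕ} [Fact p.Prime] (hp : p ≠ 2)
    (hc : Subgroup.centralizer (Cfsg.pCore p G : Set G) ≤ Cfsg.pCore p G)
    (hst : ∀ (P : Subgroup G) [P.Normal], IsPGroup p P → Cfsg.IsPStableOn p P) (S : Sylow p G) :
    (Cfsg.dStarOf (S : Subgroup G)).Normal := by

  set D := Cfsg.dStarOf (S : Subgroup G) with hDdef
  have hD : CL.DStar.DFam S D := CL.DStar.dFam_dStarOf S.isPGroup'
  have hn : (S : Subgroup G) ≤ Subgroup.normalizer (D : Set G) := CL.DStar.le_normalizer_dStarOf _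
  have hTS : Cfsg.pCore p G ≤ S := CL.pCore_le_sylow S
  have hDT : D ≤ Cfsg.pCore p G := CL.ZJ.le_pCore_of_qstable hc
    (CL.ZJ.qstable_of_isPStableOn (hst _ (CL.isPGroup_pCore p G))) (S.isPGroup'.to_le hD.1) hD.2.1
    (hTS.trans hn)
  set W := Subgroup.normalClosure (D : Set G) with hW
  have hWT : W ≤ Cfsg.pCore p G := Subgroup.normalClosure_le_normal hDT
  have hWle : ∀ K : Subgroup G, (∀ g : G, MulAut.conj g • D ≤ K) → W ≤ K := fun K hK =>
    CL.ZJ.normalClosure_le_of_conj_mem fun w hw g => hK g (CL.conj_mem_conj_smul hw)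
  have hTc : ∀ g : G, MulAut.conj g • Cfsg.pCore p G = Cfsg.pCore p G := fun g =>
    CL.conj_smul_eq_iff_mem_normalizer.2 (by rw [Subgroup.normalizer_eq_top]; trivial)
  have hWD : W ≤ Subgroup.centralizer (D : Set G) := by
    refine hWle _ fun g => ?_
    have h1 : MulAut.conj g • D ≤ Cfsg.pCore p G := hTc g ▸ CL.conj_smul_mono g hDT
    refine hD.le_centralizer (h1.trans hTS) (CL.ThA.comm_map hD.2.1 _) (h1.trans (hTS.trans hn))
      (hDT.trans ?_)
    rw [CL.normalizer_conj_smul, ← hTc g]
    exact CL.conj_smul_mono g (hTS.trans hn)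
  have hWc : IsMulCommutative W := by
    have h1 : W ≤ Subgroup.centralizer (W : Set G) :=
      Subgroup.normalClosure_le_normal (Subgroup.le_centralizer_iff.1 hWD)
    exact ⟨⟨fun a b => Subtype.ext (h1 b.2 a a.2)⟩⟩
  have hWp : IsPGroup p W := (CL.isPGroup_pCore p G).to_le hWT
  set C := Subgroup.centralizer (W : Set G) with hC
  set L := (Cfsg.pCore p (G ⧸ C)).comap (QuotientGroup.mk' C) with hL
  have hLS : ((S : Subgroup G) ⊓ L) ⊔ C = L := by
    obtain ⟨n, hn⟩ := (CL.isPGroup_pCore p (G ⧸ C)).exists_card_eq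
    exact (CL.Misc.sylIn_inf_normal S L).sup_eq_of_relIndex (CL.le_comap_mk' _ _)
      (by rw [hL, CL.relIndex_comap_mk', hn])
  have key : ∀ y : G, ⁅⁅W, Subgroup.zpowers y⁆, Subgroup.zpowers y⁆ = ⊥ →
      y ∈ Subgroup.centralizer (D : Set G) := by
    intro y hy
    have hyL : y ∈ ((S : Subgroup G) ⊓ L) ⊔ C := by
      rw [hLS]; exact hst W hWp y hy
    obtain ⟨s, hs, c, hc, e⟩ := Subgroup.mem_sup_of_normal_right.1 hyL
    have h1 : Subgroup.zpowers s ≤ Subgroup.zpowers y ⊔ C := by
      rw [Subgroup.zpowers_le, show s = y * c⁻¹ by rw [← e]; group]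
      exact mul_mem (Subgroup.mem_sup_left (Subgroup.mem_zpowers y))
        (Subgroup.mem_sup_right (inv_mem hc))
    have h2 : ⁅W, C⁆ = ⊥ := by
      rw [Subgroup.commutator_comm, Subgroup.commutator_eq_bot_iff_le_centralizer]
    have h3 : ⁅W, Subgroup.zpowers y⁆ ≤ W := Subgroup.commutator_le_left _ _
    have h4 : ⁅W, Subgroup.zpowers y ⊔ C⁆ = ⁅W, Subgroup.zpowers y⁆ :=
      CL.Comp.commutator_sup_of_centralizes h2
        ((Subgroup.centralizer_le h3).trans (Subgroup.centralizer_le_normalizer _))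
    have h5 : ⁅⁅W, Subgroup.zpowers y ⊔ C⁆, Subgroup.zpowers y ⊔ C⁆ = ⊥ := by
      rw [h4]
      exact CL.Comp.commutator_sup_eq_bot hy (CL.Comp.commutator_eq_bot_of_le h2 h3 le_rfl)
    have h6 := hD.mem_centralizer hs.1 (hn hs.1) (CL.Comp.commutator_eq_bot_of_le h5
      (Subgroup.commutator_mono Subgroup.le_normalClosure h1) h1)
    rw [← e]
    exact mul_mem h6 (Subgroup.centralizer_le (Subgroup.le_normalClosure (H := D)) hc)
  have hWF : CL.DStar.DFam S W := by
    refine ⟨hWT.trans hTS, hWc, fun x hx hq a ha => ?_⟩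
    have h1 : ⁅⁅W, Subgroup.zpowers x⁆, Subgroup.zpowers x⁆ = ⊥ :=
      CL.Comp.commutator_eq_bot_of_le hq (Subgroup.commutator_mono le_sup_left le_sup_right)
        le_sup_right
    have h2 : W ≤ Subgroup.centralizer ({x} : Set G) := by
      refine hWle _ fun g d hd => ?_
      have h3 := key (g⁻¹ * x * g) (by
        have h4 := congrArg (Subgroup.map (MulAut.conj g⁻¹).toMonoidHom) h1
        rw [Subgroup.map_commutator, Subgroup.map_commutator, Subgroup.map_bot,
          MonoidHom.map_zpowers, ← CL.conj_smul_eq_map,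
          CL.conj_smul_eq_iff_mem_normalizer.2 (by rw [Subgroup.normalizer_eq_top]; trivial)] at h4
        simpa using h4)
      have h5 := h3 _ (CL.mem_conj_smul_iff.1 hd)
      rw [Subgroup.mem_centralizer_singleton_iff]
      calc d * x = g * (g⁻¹ * d * g * (g⁻¹ * x * g)) * g⁻¹ := by group
        _ = g * (g⁻¹ * x * g * (g⁻¹ * d * g)) * g⁻¹ := by rw [h5]
        _ = x * d := by group
    exact Subgroup.mem_centralizer_singleton_iff.1 (h2 ha)
  have : D = W := le_antisymm Subgroup.le_normalClosure hWF.le_dStarOf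
  rw [this]
  infer_instance

end Cfsg.Agent.S3060
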