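import Cfsg.Statements.S3062
import Cfsg.Agent.TECH.DStar

set_option autoImplicit false
set_option linter.unusedVariables false
open Cfsg

namespace Cfsg.Agent.S3062

/-- Let S be a finite p-group, J(S) the subgroup generated by the abelian subgroups of S of largest order and Z(J(S)) its centre. Then Z(S) ≤ D*(S) ≤ Z(J(S)), and every maximal normal abelian subgroup of S contains D*(S). -/
theorem result {S : Type*} [Group S] [Finite S] {p : ℕ} [Fact p.Prime]
    (hS : IsPGroup p S) :
    Subgroup.center S ≤ Cfsg.dStar S ∧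
    Cfsg.dStar S ≤ Cfsg.thompsonSubgroupA S ⊓ Subgroup.centralizer (Cfsg.thompsonSubgroupA S : Set S) ∧
    ∀ A : Subgroup S, A.Normal → IsMulCommutative A →
      (∀ B : Subgroup S, B.Normal → IsMulCommutative B → A ≤ B → B = A) → Cfsg.dStar S ≤ A := by

  have hD : CL.DStar.DFam ⊤ (Cfsg.dStar S) :=
    CL.DStar.dFam_top_iff.2 (Cfsg.Agent.S3061.result hS)
  have hT : IsPGroup p (⊤ : Subgroup S) := hS.to_subgroup ⊤
  have hn : (⊤ : Subgroup S) ≤ Subgroup.normalizer (Cfsg.dStar S : Set S) := by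
    rw [Subgroup.normalizer_eq_top]
  refine ⟨le_sSup ⟨inferInstance, fun x _ a ha => (Subgroup.mem_center_iff.1 ha x).symm⟩,
    le_inf ?_ ?_, fun A hAn hA hmax => ?_⟩
  · obtain ⟨A, hA⟩ := CL.ThA.maxAbIn_nonempty (⊤ : Subgroup S)
    rw [← CL.ThA.thompsonSubgroupAOf_top]
    exact (hD.le_of_mem_maxAbIn hT hn hA).trans (CL.ThA.le_thompsonSubgroupAOf hA)
  · rw [Subgroup.le_centralizer_iff, ← CL.ThA.thompsonSubgroupAOf_top,
      CL.ThA.thompsonSubgroupAOf_le_iff]
    intro A hA
    have := hA.2.1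
    exact (Subgroup.le_centralizer A).trans
      (Subgroup.centralizer_le (hD.le_of_mem_maxAbIn hT hn hA))
  · have h1 := hD.le_centralizer le_top hA (le_top.trans hn)
      (by rw [Subgroup.normalizer_eq_top]; exact le_top)
    have h2 := hmax (A ⊔ Cfsg.dStar S) inferInstance (CL.ThA.comm_sup hA hD.2.1 h1) le_sup_left
    exact le_sup_right.trans h2.le

end Cfsg.Agent.S3062
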