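import Cfsg.Statements.S3063
import Cfsg.Agent.TECH.DStar

set_option autoImplicit false
set_option linter.unusedVariables false
open Cfsg

namespace Cfsg.Agent.S3063

/-- A weak replacement Theorem for metabelian p-groups: let S be a finite p-group whose derived subgroup is abelian and A an abelian subgroup of S of largest possible order. Then the normal closure of A in S contains an abelian subgroup B of the same order as A that is normal in S. -/
theorem result {S : Type*} [Group S] [Finite S] {p : ℕ} [Fact p.Prime]
    (hS : IsPGroup p S) (hmeta : IsMulCommutative ↥(commutator S))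
    (A : Subgroup S) (hA : A ∈ Cfsg.maxAbelianSubgroups S) :
    ∃ B ∈ Cfsg.maxAbelianSubgroups S, B.Normal ∧ B ≤ Subgroup.normalClosure (A : Set S) := by

  obtain ⟨B, hB, hBK, hBn⟩ := CL.DStar.exists_maxAbIn_normalized (P := ⊤)
    (K := Subgroup.normalClosure (A : Set S)) (V := commutator S) (X := Set.univ)
    (by rwa [CL.ThA.maxAbIn_top]) Subgroup.le_normalClosure le_top hmeta (fun x _ k hk =>
      ⟨Subgroup.commutator_mem_commutator (Subgroup.mem_top k) (Subgroup.mem_top x),
        Subgroup.commutator_le_left _ ⊤ (Subgroup.commutator_mem_commutator hk (Subgroup.mem_top x))⟩)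
  refine ⟨B, by rwa [CL.ThA.maxAbIn_top] at hB, ?_, hBK⟩
  rw [← Subgroup.normalizer_eq_top_iff, eq_top_iff, Subgroup.le_normalizer_iff_commutator_le_left,
    Subgroup.commutator_le]
  exact fun b hb x _ => hBn x trivial b hb

end Cfsg.Agent.S3063
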