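import Cfsg.Statements.S3064
import Cfsg.Agent.TECH.IsolZ
import Cfsg.Agent.CHAR.FrobKernel

set_option autoImplicit false
set_option linter.unusedVariables false
open Cfsg

namespace Cfsg.Agent.S3064


universe v

open CL.Misc CL.Isol in
theorem shult {p : ℕ} [Fact p.Prime] (G : Type v) [Group G] [Finite G] :
    ∀ x : G, IsPGroup p (Subgroup.zpowers x) → Cfsg.IsIsolated x →
      (∀ H : Subgroup G, (Nat.card H).Coprime p → (∀ h ∈ H, x * h * x⁻¹ ∈ H) →
        ∀ h ∈ H, x * h = h * x) → x ∈ Subgroup.center G := by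
  refine CL.card_induction (P := fun G _ _ => ∀ x : G, IsPGroup p (Subgroup.zpowers x) →
    Cfsg.IsIsolated x → (∀ H : Subgroup G, (Nat.card H).Coprime p →
      (∀ h ∈ H, x * h * x⁻¹ ∈ H) → ∀ h ∈ H, x * h = h * x) → x ∈ Subgroup.center G) ?_ G
  intro G _ _ ih x hxp hiso hb
  set M := Subgroup.centralizer ({x} : Set G) with hM
  have hprop : ∀ H : Subgroup G, H ≠ ⊤ → x ∈ H → H ≤ M := by
    intro H hH hxH
    have := ih H (CL.card_lt_of_ne_top hH) ⟨x, hxH⟩ (isPGroup_zpowers_subgroup hxp hxH)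
      (isolated_subgroup hiso H hxH) (by
        intro K hK hn k hk
        apply Subtype.ext
        refine hb (K.map H.subtype) ?_ ?_ k ⟨k, hk, rfl⟩
        · rwa [Subgroup.card_map_of_injective H.subtype_injective]
        · rintro _ ⟨y, hy, rfl⟩
          exact ⟨_, hn y hy, rfl⟩)
    intro h hh
    rw [hM, Subgroup.mem_centralizer_singleton_iff]
    exact congrArg Subtype.val (Subgroup.mem_center_iff.1 this ⟨h, hh⟩)
  have hA : ∀ g : G, g * x * g⁻¹ ∈ M → g ∈ M := by
    intro g hg
    exact mem_centralizer_of_conj_eq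
      (hiso g (Subgroup.mem_centralizer_singleton_iff.1 hg).symm)
  have hB : ∀ g : G, g ∉ M → ∀ y ∈ M, g * y * g⁻¹ ∈ M → y ∈ Subgroup.center G := by
    intro g hg y hy hgy
    by_contra hyc
    have hne : Subgroup.centralizer ({y} : Set G) ≠ ⊤ := fun ht =>
      hyc (mem_center_of_le_centralizer ht.ge)
    have h1 := hprop _ hne (Subgroup.mem_centralizer_singleton_iff.2
      (Subgroup.mem_centralizer_singleton_iff.1 hy).symm)
    have h2 : g⁻¹ * x * g⁻¹⁻¹ ∈ Subgroup.centralizer ({y} : Set G) := by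
      rw [Subgroup.mem_centralizer_singleton_iff]
      have h3 := Subgroup.mem_centralizer_singleton_iff.1 hgy
      calc g⁻¹ * x * g⁻¹⁻¹ * y = g⁻¹ * (x * (g * y * g⁻¹)) * g := by group
        _ = g⁻¹ * ((g * y * g⁻¹) * x) * g := by rw [h3]
        _ = y * (g⁻¹ * x * g⁻¹⁻¹) := by group
    exact hg (inv_mem_iff.1 (hA _ (h1 h2)))
  set Z := Subgroup.center G with hZ
  have hZM : Z ≤ M := Subgroup.center_le_centralizer _
  have hmem : ∀ g : G, (QuotientGroup.mk g : G ⧸ Z) ∈ M.map (QuotientGroup.mk' Z) ↔ g ∈ M := by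
    intro g
    have := CL.comap_map_mk' M Z
    rw [sup_eq_left.2 hZM] at this
    conv_rhs => rw [← this]
    rfl
  obtain ⟨K, hKn, -, hKc⟩ := CL.Char.frobenius_kernel (M.map (QuotientGroup.mk' Z)) (by
    intro g hg y hy hgy
    obtain ⟨g, rfl⟩ := QuotientGroup.mk_surjective g
    obtain ⟨y, rfl⟩ := QuotientGroup.mk_surjective y
    rw [QuotientGroup.eq_one_iff]
    refine hB g (fun h => hg ((hmem g).2 h)) y ((hmem y).1 hy) ((hmem _).1 ?_)
    simpa using hgy)
  obtain ⟨P, hP, hxP⟩ := exists_sylIn_ge hxp (le_top (a := Subgroup.zpowers x))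
  have hPM : P ≤ M := le_centralizer hiso hP.isPGroup (hxP (Subgroup.mem_zpowers x))
  have hidx : ¬ p ∣ Nat.card K := by
    rw [← hKc.index_eq_card, CL.index_map_mk', sup_eq_left.2 hZM]
    intro hd
    apply hP.not_dvd
    rw [Subgroup.relIndex_top_right]
    exact hd.trans (Subgroup.index_dvd_of_le hPM)
  obtain ⟨Zp, hZp⟩ := exists_sylIn (p := p) Z
  have hsyl : SylIn p Zp (K.comap (QuotientGroup.mk' Z)) :=
    hZp.of_not_dvd_relIndex (CL.le_comap_mk' Z K) (by rwa [CL.relIndex_comap_mk'])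
  have hn : (K.comap (QuotientGroup.mk' Z)).Normal := inferInstance
  have h1 := le_sup_pPrimeCore_of_central_sylIn hn.isSubnormal hsyl (by
    rw [Subgroup.le_centralizer_iff]
    exact hZp.le.trans (Subgroup.center_le_centralizer _))
  have h2 : Cfsg.pPrimeCore p G ≤ M := by
    intro k hk
    rw [hM, Subgroup.mem_centralizer_singleton_iff]
    exact (hb _ (CL.coprime_card_pPrimeCore p G)
      (fun h hh => (inferInstance : (Cfsg.pPrimeCore p G).Normal).conj_mem h hh x) k hk).symm
  have h3 := h1.trans (sup_le (hZp.le.trans hZM) h2)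
  have h4 : K ≤ M.map (QuotientGroup.mk' Z) := by
    intro k hk
    obtain ⟨k, rfl⟩ := QuotientGroup.mk_surjective k
    exact (hmem k).2 (h3 hk)
  have h5 := hKc.sup_eq_top
  rw [sup_eq_right.2 h4] at h5
  apply mem_center_of_le_centralizer
  intro g _
  exact (hmem g).1 (by rw [h5]; trivial)


/-- Let S be a Sylow p-subgroup of the finite group G and x an element of S such that (i) x is the only G-conjugate of x lying in S, and (ii) x centralizes every subgroup of order prime to p that it normalizes. Then x lies in the centre of G. -/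
theorem result {G : Type*} [Group G] [Finite G] {p : ℕ} [Fact p.Prime]
    (S : Sylow p G) (x : G) (hx : x ∈ S)
    (hU : ∀ g : G, g⁻¹ * x * g ∈ S → g⁻¹ * x * g = x)
    (hb : ∀ H : Subgroup G, (Nat.card H).Coprime p → (∀ h ∈ H, x * h * x⁻¹ ∈ H) → ∀ h ∈ H, x * h = h * x) :
    x ∈ Subgroup.center G := by

  have hiso : Cfsg.IsIsolated x := CL.Isol.isolated_of_sylow S hx (fun g hg => by
    have := hU g⁻¹ (by rwa [inv_inv])
    rwa [inv_inv] at this)
  exact shult G x (CL.Misc.isPGroup_zpowers_of_mem S.isPGroup' hx) hiso hb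

end Cfsg.Agent.S3064
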