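import Cfsg.Statements.S3067
import Cfsg.Agent.SOLV.CoprimeAut
import Cfsg.Agent.SOLV.Basic
import Cfsg.Agent.INV.ZStarCor

set_option autoImplicit false
open Cfsg

namespace Cfsg.Agent.S3067

open scoped Pointwise

theorem two_group {X : Type*} [Group X] {w : X} (hw : w ^ 2 = 1) :
    IsPGroup 2 (Subgroup.zpowers w) := by
  rintro ⟨_, k, rfl⟩
  refine ⟨1, Subtype.ext ?_⟩
  change (w ^ k) ^ 2 ^ 1 = 1
  rw [pow_one, ← zpow_natCast, ← zpow_mul, mul_comm, zpow_mul, zpow_natCast, hw, one_zpow]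

section
variable {G A : Type*} [Group G] [Finite G] [Group A] [Finite A] [MulDistribMulAction A G]

theorem odd_relIndex (hcop : (Nat.card A).Coprime (Nat.card G)) (hs : Group.IsSolvable A)
    (hodd : ¬ 2 ∣ (CL.actFix G (⊤ : Subgroup A)).index) (X : Subgroup G)
    (hX : ∀ a : A, ∀ x ∈ X, a • x ∈ X) : ¬ 2 ∣ (CL.actFix G (⊤ : Subgroup A)).relIndex X := by
  set H := CL.actFix G (⊤ : Subgroup A)
  obtain ⟨S⟩ : Nonempty (Sylow 2 H) := inferInstance
  have hS : ¬ 2 ∣ ((S : Subgroup H).map H.subtype).index := by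
    rw [Subgroup.index_map_subtype]
    exact fun h => ((Nat.Prime.dvd_mul Nat.prime_two).1 h).elim S.not_dvd_index hodd
  let S' : Sylow 2 G := (S.isPGroup'.map H.subtype).toSylow hS
  have hS' : (S' : Subgroup G) ≤ H := Subgroup.map_subtype_le _
  let _ : MulDistribMulAction A X :=
    { smul := fun a x => ⟨a • (x : G), hX a x x.2⟩
      one_smul := fun x => Subtype.ext (one_smul A (x : G))
      mul_smul := fun a b x => Subtype.ext (mul_smul a b (x : G))
      smul_one := fun a => Subtype.ext (smul_one a)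
      smul_mul := fun a x y => Subtype.ext (smul_mul' a (x : G) y) }
  obtain ⟨T, hT⟩ := CL.act_exists_invariant_sylow (A := A) (G := X)
    (hcop.coprime_dvd_right X.card_subgroup_dvd_card) (Or.inl hs) 2
  obtain ⟨P, hTP, hP⟩ := CL.act_exists_invariant_sylow_ge hcop (Or.inl hs) 2 _
    (T.isPGroup'.map X.subtype) (by
      rintro a _ ⟨u, hu, rfl⟩
      exact ⟨a • u, CL.sylow_smul_eq_iff_invariant.1 hT a u hu, rfl⟩)
  obtain ⟨c, hc, h⟩ := CL.act_invariant_sylow_conj hcop (Or.inl hs) 2 S' P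
    (CL.sylow_smul_eq_iff_invariant.2 fun a x hx => by
      rw [CL.mem_actFix_top.1 (hS' hx) a]; exact hx) hP
  have hPH : (P : Subgroup G) ≤ H := by
    rw [← h]
    rintro _ ⟨y, hy, rfl⟩
    have hc' : c ∈ H := CL.mem_actFix_top.2 hc
    exact H.mul_mem (H.mul_mem hc' (hS' hy)) (H.inv_mem hc')
  exact fun h2 => T.not_dvd_index (h2.trans (Subgroup.index_dvd_of_le
    fun x hx => hPH (hTP ⟨x, hx, rfl⟩)))

theorem exists_fix {X : Type*} [Group X] [Finite X] (K : Subgroup X) (hK : ¬ 2 ∣ K.index) {w : X}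
    (hw : w ^ 2 = 1) : ∃ x : X, x⁻¹ * w * x ∈ K := by
  have hP := two_group hw
  obtain ⟨q, hq⟩ := hP.nonempty_fixed_point_of_prime_not_dvd_card (X ⧸ K) hK
  obtain ⟨x, rfl⟩ := QuotientGroup.mk_surjective q
  have := hq ⟨w, Subgroup.mem_zpowers w⟩
  refine ⟨x, ?_⟩
  have h := QuotientGroup.eq.1 (show ((x : X ⧸ K)) = ((w * x : X) : X ⧸ K) from this.symm)
  rwa [← mul_assoc] at h

theorem midpoint (hcop : (Nat.card A).Coprime (Nat.card G)) (hs : Group.IsSolvable A)
    (hodd : ¬ 2 ∣ (CL.actFix G (⊤ : Subgroup A)).index) (X : Subgroup G) :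
    (∀ a : A, ∀ x ∈ X, a • x ∈ X) → ∀ w ∈ X, ∀ w' ∈ X, w ^ 2 = 1 → w' ^ 2 = 1 →
      w⁻¹ * w' ∈ CL.actFix G (⊤ : Subgroup A) →
      ∃ x : G, x⁻¹ * w * x ∈ CL.actFix G (⊤ : Subgroup A) ∧
        x⁻¹ * w' * x ∈ CL.actFix G (⊤ : Subgroup A) := by
  set H := CL.actFix G (⊤ : Subgroup A)
  induction X using CL.subgroup_induction with
  | _ X ih =>
  intro hX w hw w' hw' h2 h2' hd
  have hwi : w⁻¹ = w := inv_eq_of_mul_eq_one_right (by rw [← sq, h2])
  have hwi' : w'⁻¹ = w' := inv_eq_of_mul_eq_one_right (by rw [← sq, h2'])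
  set D := X ⊓ H ⊓ MulAut.conj w • H
  have hmem : ∀ d, d ∈ D ↔ d ∈ X ∧ d ∈ H ∧ w⁻¹ * d * w ∈ H := fun d => by
    simp only [D, Subgroup.mem_inf, CL.mem_conj_smul_iff, and_assoc]
  have hwD : w ∈ Subgroup.normalizer (D : Set G) := by
    refine Subgroup.mem_normalizer_fintype fun d hd => ?_
    obtain ⟨h1, h3, h4⟩ := (hmem d).1 hd
    refine (hmem _).2 ⟨X.mul_mem (X.mul_mem hw h1) (X.inv_mem hw), ?_, by simpa [mul_assoc] using h3⟩
    rw [hwi] at h4 ⊢
    exact h4
  have hdD : w⁻¹ * w' ∈ D := by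
    refine (hmem _).2 ⟨X.mul_mem (X.inv_mem hw) hw', hd, ?_⟩
    have : w⁻¹ * (w⁻¹ * w') * w = (w⁻¹ * w')⁻¹ := by
      rw [mul_inv_rev, hwi', inv_inv, hwi, ← mul_assoc, ← sq, h2, one_mul]
    rw [this]
    exact H.inv_mem hd
  by_cases hN : X ≤ Subgroup.normalizer (D : Set G)
  · obtain ⟨x, hx⟩ := exists_fix (H.subgroupOf X) (odd_relIndex hcop hs hodd X hX)
      (w := ⟨w, hw⟩) (Subtype.ext h2)
    refine ⟨x, hx, ?_⟩
    have h3 := ((hmem _).1 ((Subgroup.mem_normalizer_iff''.1 (hN x.2) _).1 hdD)).2.1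
    have := H.mul_mem (show (x : G)⁻¹ * w * x ∈ H from hx) h3
    simpa [mul_assoc] using this
  · refine ih (X ⊓ Subgroup.normalizer (D : Set G)) (lt_of_le_of_ne inf_le_left
      fun h => hN (h ▸ inf_le_right)) (fun a x hx => ⟨hX a x hx.1, ?_⟩) w ⟨hw, hwD⟩ w' ⟨hw', ?_⟩
      h2 h2' hd
    · refine Subgroup.mem_normalizer_fintype fun d hd => ?_
      have h1 := (Subgroup.mem_normalizer_iff.1 hx.2 d).1 hd
      have h3 := CL.mem_actFix_top.1 ((hmem _).1 h1).2.1 a
      rw [smul_mul', smul_mul', smul_inv', CL.mem_actFix_top.1 ((hmem _).1 hd).2.1 a] at h3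
      rw [h3]
      exact h1
    · have := mul_mem hwD (Subgroup.le_normalizer hdD)
      rwa [mul_inv_cancel_left] at this

theorem main (hcop : (Nat.card A).Coprime (Nat.card G)) (hs : Group.IsSolvable A) {τ : G}
    (hτ : τ ^ 2 = 1) (hC : Subgroup.centralizer {τ} ≤ CL.actFix G (⊤ : Subgroup A)) {τ' : G}
    (hc : IsConj τ τ') (hτ' : τ' ∈ CL.actFix G (⊤ : Subgroup A)) :
    τ⁻¹ * τ' ∈ (CL.actFix G (⊤ : Subgroup A)).normalCore := by
  classical
  set H := CL.actFix G (⊤ : Subgroup A)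
  have hτH : τ ∈ H := hC (Subgroup.mem_centralizer_singleton_iff.2 rfl)
  have huniq : ∀ g : G, g⁻¹ * τ * g ∈ H → g ∈ H := by
    intro g hg
    obtain ⟨c, hc, h⟩ := CL.act_conj_elem_trans (⊤ : Subgroup A) (⊤ : Subgroup G)
      (fun _ _ _ _ => trivial) (CL.coprime_top_top hcop) (CL.isSolvable_top_or_top (Or.inl hs))
      τ hτH g⁻¹ trivial (by rwa [inv_inv])
    have : g * c ∈ H := hC (Subgroup.mem_centralizer_singleton_iff.2 (by
      rw [inv_inv] at h
      calc g * c * τ = g * (c * τ * c⁻¹) * c := by group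
        _ = τ * (g * c) := by rw [h]; group))
    exact (H.mul_mem_cancel_right hc.2).1 this
  have hodd : ¬ 2 ∣ H.index := by
    have hP := two_group hτ
    have h1 := hP.card_modEq_card_fixedPoints (G ⧸ H)
    have h2 : MulAction.fixedPoints (Subgroup.zpowers τ) (G ⧸ H) = {((1 : G) : G ⧸ H)} := by
      ext q
      obtain ⟨g, rfl⟩ := QuotientGroup.mk_surjective q
      rw [Set.mem_singleton_iff, MulAction.mem_fixedPoints]
      constructor
      · intro h
        have h3 := QuotientGroup.eq.1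
          (show ((g : G ⧸ H)) = ((τ * g : G) : G ⧸ H) from (h ⟨τ, Subgroup.mem_zpowers τ⟩).symm)
        rw [← mul_assoc] at h3
        exact QuotientGroup.eq.2 (by simpa using huniq g h3)
      · rintro h ⟨y, hy⟩
        rw [h]
        exact QuotientGroup.eq.2 (by simpa using Subgroup.zpowers_le.2 hτH hy)
    rw [h2, Nat.card_unique (α := ({((1 : G) : G ⧸ H)} : Set (G ⧸ H)))] at h1
    intro h
    have := (Nat.modEq_zero_iff_dvd.2 h).symm.trans h1
    simp [Nat.ModEq] at this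
  haveI := Fintype.ofFinite G
  haveI := Fintype.ofFinite (G ⧸ H)
  set K : Finset G := Finset.univ.filter (IsConj τ)
  have hK : ∀ w, w ∈ K ↔ IsConj τ w := fun w => by simp [K]
  have hK2 : ∀ w ∈ K, w ^ 2 = 1 := fun w hw => by
    obtain ⟨c, rfl⟩ := isConj_iff.1 ((hK w).1 hw)
    rw [conj_pow, hτ]; group
  have hKc : ∀ w ∈ K, ∀ g : G, g⁻¹ * w * g ∈ K := fun w hw g =>
    (hK _).2 (((hK w).1 hw).trans (isConj_iff.2 ⟨g⁻¹, by rw [inv_inv]⟩))
  have huniq' : ∀ w ∈ K, ∀ x y : G, x⁻¹ * w * x ∈ H → y⁻¹ * w * y ∈ H → x⁻¹ * y ∈ H := by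
    intro w hw x y hx hy
    obtain ⟨c, rfl⟩ := isConj_iff.1 ((hK w).1 hw)
    have h1 := huniq (c⁻¹ * x) (by simpa [mul_assoc] using hx)
    have h2 := huniq (c⁻¹ * y) (by simpa [mul_assoc] using hy)
    simpa [mul_assoc] using H.mul_mem (H.inv_mem h1) h2
  set E : G → Finset G := fun x => K.filter fun w => x⁻¹ * w * x ∈ H
  have hE : ∀ x, (E x).card = (E 1).card := fun x => by
    refine Finset.card_bij (fun w _ => x⁻¹ * w * x) (fun w hw => ?_) (fun w _ w' _ h => by simpa using h)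
      fun w hw => ⟨x * w * x⁻¹, ?_, by group⟩
    · rw [Finset.mem_filter] at hw ⊢
      exact ⟨hKc w hw.1 x, by simpa using hw.2⟩
    · rw [Finset.mem_filter] at hw ⊢
      exact ⟨by simpa using hKc w hw.1 x⁻¹, by simpa [mul_assoc] using hw.2⟩
  set F : G ⧸ H → Finset G := fun q => K.filter fun w => (w : G ⧸ H) = q
  have hFE : ∀ w ∈ K, ∀ x : G, x⁻¹ * w * x ∈ H → F w ⊆ E x := by
    intro w hw x hx w' hw'
    rw [Finset.mem_filter] at hw' ⊢
    obtain ⟨y, hy, hy'⟩ := midpoint hcop hs hodd ⊤ (fun _ _ _ => trivial) w trivial w' trivial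
      (hK2 w hw) (hK2 w' hw'.1) (QuotientGroup.eq.1 hw'.2.symm)
    have h1 := huniq' w hw x y hx hy
    refine ⟨hw'.1, ?_⟩
    simpa [mul_assoc] using H.mul_mem (H.mul_mem h1 hy') (H.inv_mem h1)
  have hex : ∀ w ∈ K, ∃ x : G, x⁻¹ * w * x ∈ H := fun w hw => exists_fix H hodd (hK2 w hw)
  have hFle : ∀ q, (F q).card ≤ (E 1).card := fun q => by
    rcases (F q).eq_empty_or_nonempty with h | ⟨w, hw⟩
    · simp [h]
    · have hw' := Finset.mem_filter.1 hw
      obtain ⟨x, hx⟩ := hex w hw'.1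
      rw [← hE x, ← hw'.2]
      exact Finset.card_le_card (hFE w hw'.1 x hx)
  have hsum1 : K.card = ∑ q, (F q).card := Finset.card_eq_sum_card_fiberwise fun _ _ => by simp
  have hsum2 : K.card = ∑ _q : G ⧸ H, (E 1).card := by
    choose! β hβ using hex
    rw [Finset.card_eq_sum_card_fiberwise (f := fun w => (β w : G ⧸ H)) (t := Finset.univ)
      fun _ _ => by simp]
    refine Finset.sum_congr rfl fun q _ => ?_
    obtain ⟨x, rfl⟩ := QuotientGroup.mk_surjective q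
    rw [← hE x]
    congr 1
    refine Finset.filter_congr fun w hw => ⟨fun h => ?_, fun h => ?_⟩
    · have h1 := QuotientGroup.eq.1 h
      simpa [mul_assoc] using H.mul_mem (H.mul_mem (H.inv_mem h1) (hβ w hw)) h1
    · exact QuotientGroup.eq.2 (huniq' w hw _ _ (hβ w hw) h)
  have hFeq := (Finset.sum_eq_sum_iff_of_le fun q _ => hFle q).1 (hsum1.symm.trans hsum2)
  intro g
  have hτK : τ ∈ K := (hK τ).2 (IsConj.refl τ)
  have h1 := hKc τ hτK g⁻¹
  have h2 := Finset.eq_of_subset_of_card_le (hFE _ h1 g (by simpa [mul_assoc] using hτH))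
    (by rw [hE, hFeq _ (Finset.mem_univ _)])
  have h3 : g⁻¹⁻¹ * τ' * g⁻¹ ∈ E g :=
    Finset.mem_filter.2 ⟨hKc τ' ((hK τ').2 hc) g⁻¹, by simpa [mul_assoc] using hτ'⟩
  rw [← h2, Finset.mem_filter] at h3
  simpa [mul_assoc] using QuotientGroup.eq.1 h3.2.symm

end

/-- Let G be a finite non-abelian simple group, τ an involution of G, and α a nontrivial automorphism of G whose order is coprime to the order of G. Then α moves some element of the centralizer of τ: α does not fix C_G(τ) elementwise. -/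
theorem result {G : Type*} [Group G] [Finite G] [IsSimpleGroup G]
    (hG : ¬ IsMulCommutative G) (τ : G) (hτ : orderOf τ = 2) (α : MulAut G) (hα : α ≠ 1)
    (hcop : (orderOf α).Coprime (Nat.card G)) :
    ∃ c ∈ Subgroup.centralizer ({τ} : Set G), α c ≠ c := by
  by_contra h
  push Not at h
  have hC : Subgroup.centralizer {τ} ≤ CL.actFix G (⊤ : Subgroup (Subgroup.zpowers α)) :=
    fun c hc => CL.mem_actFix_top.2 fun a => (CL.mem_actFix_zpowers (a := α)).2 (h c hc) a.1 a.2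
  refine CL.BS.not_isolated_of_simple hG τ ⟨hτ, fun g hg => ?_⟩
  have h1 := main (A := Subgroup.zpowers α) (by rwa [Nat.card_zpowers]) inferInstance
    (by rw [← hτ, pow_orderOf_eq_one]) hC (isConj_iff.2 ⟨g, rfl⟩)
    (hC (Subgroup.mem_centralizer_singleton_iff.2 hg.symm.eq))
  rcases (CL.actFix G (⊤ : Subgroup (Subgroup.zpowers α))).normalCore_normal.eq_bot_or_eq_top with h2 | h2
  · rw [h2, Subgroup.mem_bot, inv_mul_eq_one] at h1
    exact h1.symm
  · refine absurd (MulEquiv.ext fun x => ?_) hα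
    exact CL.mem_actFix_top.1 (Subgroup.normalCore_le _ (h2 ▸ Subgroup.mem_top x))
      ⟨α, Subgroup.mem_zpowers α⟩

end Cfsg.Agent.S3067
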