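import Cfsg.Statements.S3068
import Cfsg.Agent.PLOC.JTr.Grp

set_option autoImplicit false
open Cfsg

namespace Cfsg.Agent.S3068

/-- Let p ≥ 7 be a prime, S a Sylow p-subgroup of the finite group G, J(S) the subgroup generated by the abelian subgroups of S of largest order and M = N_G(J(S)). Then G/O^p(G) ≅ M/O^p(M): the largest p-factor group of G is that of M (here O^p(X) is the subgroup generated by the elements of X of order prime to p). -/
theorem result {G : Type*} [Group G] [Finite G] {p : ℕ} [Fact p.Prime]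
    (hp : 7 ≤ p) (S : Sylow p G)
    [hn : (Cfsg.pResidual p G).Normal]
    [hm : (Cfsg.pResidual p ↥(Subgroup.normalizer (Cfsg.thompsonSubgroupAOf (S : Subgroup G) : Set G))).Normal] :
    Nonempty (G ⧸ Cfsg.pResidual p G ≃*
      ↥(Subgroup.normalizer (Cfsg.thompsonSubgroupAOf (S : Subgroup G) : Set G)) ⧸
        Cfsg.pResidual p ↥(Subgroup.normalizer (Cfsg.thompsonSubgroupAOf (S : Subgroup G) : Set G))) := by
  have hS := CL.MSS.sylIn_top S
  set M := Subgroup.normalizer (Cfsg.thompsonSubgroupAOf (S : Subgroup G) : Set G) with hM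
  have hSM : (S : Subgroup G) ≤ M := CL.ThA.le_normalizer_thompsonSubgroupAOf _
  have h1 : (S : Subgroup G) ⊓ ⁅(⊤ : Subgroup G), ⊤⁆ ≤ ⁅M, M⁆ :=
    (CL.CF.gTr_singleton_iff CL.JTr.isCharPFunctor_jaF hS).1 (CL.JTr.gTr_jaF hp)
  have h2 := (CL.Tr.tate_commutator_iff S hSM).1 (le_antisymm (le_inf inf_le_left h1)
    (inf_le_inf_left _ (Subgroup.commutator_mono le_top le_top)))
  have h3 : Function.Surjective ((QuotientGroup.mk' (Cfsg.pResidual p G)).comp M.subtype) := by
    rw [← MonoidHom.range_eq_top, MonoidHom.range_comp, Subgroup.range_subtype, eq_top_iff,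
      ← Subgroup.map_top_of_surjective _ (QuotientGroup.mk'_surjective (Cfsg.pResidual p G)),
      Subgroup.map_le_map_iff, QuotientGroup.ker_mk', ← CL.MSS.pResidual_sup_sylow S]
    exact sup_le le_sup_right (hSM.trans le_sup_left)
  refine ⟨((QuotientGroup.quotientMulEquivOfEq ?_).trans
    (QuotientGroup.quotientKerEquivOfSurjective _ h3)).symm⟩
  rw [← h2, ← MonoidHom.comap_ker, QuotientGroup.ker_mk']
  rfl

end Cfsg.Agent.S3068
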