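import Cfsg.Statements.S3070
import Cfsg.Agent.PLOC.JTr.Grp

set_option autoImplicit false
open Cfsg

namespace Cfsg.Agent.S3070

/-- Let p ≥ 5 be a prime, S a Sylow p-subgroup of the finite group G and J(S) the subgroup generated by the abelian subgroups of S of largest order. Then G has a normal p-complement if and only if N_G(J(S))/C_G(J(S)) is a p-group (every element of N_G(J(S)) of order prime to p centralizes J(S)). -/
theorem result {G : Type*} [Group G] [Finite G] {p : ℕ} [Fact p.Prime]
    (hp : 5 ≤ p) (S : Sylow p G) :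
    Cfsg.HasNormalPComplement p G ↔
      ∀ g ∈ Subgroup.normalizer (Cfsg.thompsonSubgroupAOf (S : Subgroup G) : Set G), (orderOf g).Coprime p →
        g ∈ Subgroup.centralizer (Cfsg.thompsonSubgroupAOf (S : Subgroup G) : Set G) := by
  have hS := CL.MSS.sylIn_top S
  refine ⟨fun h g hg hc => ?_, fun h => ?_⟩
  · have := CL.Tr.mem_centralizer_of_hasNPC_subgroup (N := ⊤) (CL.hasNPC_top_iff.2 h)
      (S.isPGroup'.to_le (CL.ThA.thompsonSubgroupAOf_le (S : Subgroup G))) le_top
      (Subgroup.mem_top g) hg hc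
    exact this
  · obtain ⟨A, hA⟩ := CL.ThA.maxAbIn_nonempty (S : Subgroup G)
    exact CL.JTr.gNpc_jaF hp S hS (CL.CF.hasNPC_normalizer_of_quiet hS
      (CL.ThA.le_normalizer_thompsonSubgroupAOf _)
      ((CL.ThA.inf_centralizer_thompsonA_le hA).trans (CL.ThA.le_thompsonSubgroupAOf hA)) h)

end Cfsg.Agent.S3070
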