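import Cfsg.Statements.S3071
import Cfsg.Agent.PLOC.FusionControl
import Cfsg.Agent.PLOC.QdFree

set_option autoImplicit false
open Cfsg

namespace Cfsg.Agent.S3071


/-- Let p be an odd prime and S a Sylow p-subgroup of the finite group G such that, for every subgroup P with Z(S) ≤ P ≤ S, the normalizer N_G(P) has no section isomorphic to SL₂(p). Let J(S) be the subgroup generated by the abelian subgroups of S of largest order. Then two elements of S are conjugate in G if and only if they are conjugate in N_G(Z(J(S))). -/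
theorem result {G : Type*} [Group G] [Finite G] {p : ℕ} [Fact p.Prime]
    (hp : p ≠ 2) (S : Sylow p G)
    (hfree : ∀ P : Subgroup G, (S : Subgroup G) ⊓ Subgroup.centralizer ((S : Subgroup G) : Set G) ≤ P → P ≤ S →
      ¬ ∃ (H K : Subgroup G) (hK : (K.subgroupOf H).Normal), H ≤ Subgroup.normalizer (P : Set G) ∧
        Nonempty ((H ⧸ K.subgroupOf H) ≃* Matrix.SpecialLinearGroup (Fin 2) (ZMod p))) :
    ∀ x ∈ S, ∀ y ∈ S, (∃ g : G, g * x * g⁻¹ = y) ↔
      ∃ n ∈ Subgroup.normalizer (Cfsg.centerThompsonAOf (S : Subgroup G) : Set G), n * x * n⁻¹ = y := by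
  have h := CL.FC.ctrl_zjA_of_local S fun Q h1 h2 T => by
    have hqd := CL.PSt.not_involves_qd_of_not_involves_sl2
      fun h => hfree Q h1 h2 ((CL.Sec.involves_subgroup_iff _).1 h)
    exact (CL.FC.zjA p).ctrl_of_sections False (fun Y _ _ hY hc T E hE _ =>
      CL.ZJ.centerThompsonAOf_normal hp T hE hc (CL.PSt.qstable_of_not_involves hp
        fun h => hqd (CL.Sec.involves_trans h hY))) T (CL.ZJ.isStronglyClosed_self _) False.elim
  intro x hx y hy
  constructor
  · rintro ⟨g, rfl⟩
    exact h.elem hx trivial hy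
  · rintro ⟨n, -, rfl⟩
    exact ⟨n, rfl⟩

end Cfsg.Agent.S3071
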