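import Cfsg.Statements.S3073
import Cfsg.Agent.TECH.CFNPC

set_option autoImplicit false
universe u
open Cfsg

namespace Cfsg.Agent.S3073

/-- For an odd prime p, every finite p-group S has a characteristic subgroup K with C_S(K) ≤ K such that, whenever S is (isomorphic to) a Sylow p-subgroup of a finite group G, G has a normal p-complement if and only if N_G(K)/C_G(K) is a p-group, i.e. every element of N_G(K) of order prime to p centralizes K (K transported into G along the isomorphism). -/
theorem result (p : ℕ) [Fact p.Prime] (hp : p ≠ 2)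
    (S : Type u) [Group S] [Finite S] (hS : IsPGroup p S) :
    ∃ K : Subgroup S, K.Characteristic ∧ Subgroup.centralizer (K : Set S) ≤ K ∧
      ∀ (G : Type u) [Group G] [Finite G] (P : Sylow p G) (e : ↥(P : Subgroup G) ≃* S),
        Cfsg.HasNormalPComplement p G ↔
          ∀ g ∈ Subgroup.normalizer (((K.comap (e : ↥(P : Subgroup G) →* S)).map (P : Subgroup G).subtype : Subgroup G) : Set G),
            (orderOf g).Coprime p →
              g ∈ Subgroup.centralizer (((K.comap (e : ↥(P : Subgroup G) →* S)).map (P : Subgroup G).subtype : Subgroup G) : Set G) := by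
  have hW := CL.CF.isKInf_lower.{u}
  refine ⟨Cfsg.kInfLower S, Subgroup.characteristic_iff_map_eq.2 fun φ =>
    (hW.isCharPFunctor p).2 S S hS φ, ?_, fun G _ _ P e => ?_⟩
  · have := hW.centralizer_le (P := (⊤ : Subgroup S)) (hS.to_subgroup ⊤)
    rwa [CL.CF.iF_top (hW.isCharPFunctor p) hS, top_inf_eq] at this
  · have h1 : (Cfsg.kInfLower S).comap (e : ↥(P : Subgroup G) →* S) =
        Cfsg.kInfLower ↥(P : Subgroup G) := by
      rw [← (hW.isCharPFunctor p).2 _ S P.isPGroup' e]
      exact Subgroup.comap_map_eq_self_of_injective e.injective _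
    rw [h1]
    exact ⟨fun h g hg hc => CL.mem_centralizer_of_hasNPC h
      (P.isPGroup'.to_le (CL.CF.iF_le _ _)) hg hc,
      fun h => hW.hasNPC_of_quiet hp (CL.MSS.sylIn_top P) h⟩

end Cfsg.Agent.S3073
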