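import Cfsg.Statements.S3074
import Cfsg.Agent.S3799
import Cfsg.Agent.SOLV.Basic

set_option autoImplicit false
set_option linter.unusedVariables false
open Cfsg

namespace Cfsg.Agent.S3074

open Matrix

theorem center_of_card_cube {P : Type*} [Group P] [Finite P] {p : ℕ} [Fact p.Prime]
    (h : Nat.card P = p ^ 3) (hnc : ¬ IsMulCommutative P) :
    Nat.card (Subgroup.center P) = p ∧ commutator P ≤ Subgroup.center P := by
  have hpp : p.Prime := Fact.out
  obtain ⟨k, hk0, hk⟩ := IsPGroup.card_center_eq_prime_pow h (by norm_num)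
  have hmul := (Subgroup.center P).card_mul_index
  have hk3 : k ≤ 3 := (Nat.pow_dvd_pow_iff_le_right hpp.one_lt).1
    (by rw [← hk, ← h]; exact Subgroup.card_subgroup_dvd_card _)
  have hidx : Nat.card (P ⧸ Subgroup.center P) = p ^ (3 - k) := by
    rw [hk, h, show p ^ 3 = p ^ k * p ^ (3 - k) by rw [← pow_add]; congr 1; omega] at hmul
    exact Nat.eq_of_mul_eq_mul_left (pow_pos hpp.pos k) hmul
  have hncyc : ¬ IsCyclic (P ⧸ Subgroup.center P) := by
    intro hc
    exact hnc (MonoidHom.isMulCommutative_of_isCyclic_of_ker_le_center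
      (QuotientGroup.mk' (Subgroup.center P)) (by rw [QuotientGroup.ker_mk']))
  have hk1 : k = 1 := by
    by_contra hne
    apply hncyc
    apply isCyclic_of_card_dvd_prime (p := p)
    rw [hidx]
    have : 3 - k ≤ 1 := by omega
    simpa using pow_dvd_pow p this
  subst hk1
  refine ⟨by rw [hk, pow_one], ?_⟩
  rw [← Subgroup.Normal.quotient_commutative_iff_commutator_le]
  exact IsPGroup.isMulCommutative_of_card_eq_prime_sq hidx

variable (p : ℕ)

/-- The unitriangular matrix with the given entries above the diagonal. -/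
def u (a b c : ZMod p) : SpecialLinearGroup (Fin 3) (ZMod p) :=
  ⟨!![1, a, c; 0, 1, b; 0, 0, 1], by simp [det_fin_three]⟩

theorem u_mul (a b c a' b' c' : ZMod p) :
    u p a b c * u p a' b' c' = u p (a + a') (b + b') (c + c' + a * b') := by
  apply Subtype.ext
  show (!![1, a, c; 0, 1, b; 0, 0, 1] : Matrix (Fin 3) (Fin 3) (ZMod p)) * !![1, a', c'; 0, 1, b'; 0, 0, 1] =
    !![1, a + a', c + c' + a * b'; 0, 1, b + b'; 0, 0, 1]
  ext i j
  fin_cases i <;> fin_cases j <;> simp [Matrix.mul_apply, Fin.sum_univ_three] <;> ring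

theorem u_zero : u p 0 0 0 = 1 := by
  apply Subtype.ext
  show (!![1, 0, 0; 0, 1, 0; 0, 0, 1] : Matrix (Fin 3) (Fin 3) (ZMod p)) = 1
  ext i j
  fin_cases i <;> fin_cases j <;> simp

theorem u_inj {a b c a' b' c' : ZMod p} (h : u p a b c = u p a' b' c') : a = a' ∧ b = b' ∧ c = c' := by
  have h' := congrArg Subtype.val h
  exact ⟨congrFun (congrFun h' 0) 1, congrFun (congrFun h' 1) 2, congrFun (congrFun h' 0) 2⟩

/-- The unitriangular group. -/
def U : Subgroup (SpecialLinearGroup (Fin 3) (ZMod p)) where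
  carrier := {M | ∃ a b c, M = u p a b c}
  one_mem' := ⟨0, 0, 0, (u_zero p).symm⟩
  mul_mem' := by
    rintro _ _ ⟨a, b, c, rfl⟩ ⟨a', b', c', rfl⟩
    exact ⟨_, _, _, u_mul p _ _ _ _ _ _⟩
  inv_mem' := by
    rintro _ ⟨a, b, c, rfl⟩
    refine ⟨-a, -b, a * b - c, inv_eq_of_mul_eq_one_right ?_⟩
    rw [u_mul, ← u_zero]
    congr 1 <;> ring

theorem U_le : U p ≤ qd p := by
  rintro _ ⟨a, b, c, rfl⟩
  exact Subgroup.subset_closure ⟨rfl, rfl, rfl⟩

theorem card_U [NeZero p] : Nat.card (U p) = p ^ 3 := by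
  have : Nat.card (ZMod p × ZMod p × ZMod p) = Nat.card (U p) := by
    refine Nat.card_congr (Equiv.ofBijective (fun x => ⟨u p x.1 x.2.1 x.2.2, _, _, _, rfl⟩) ⟨?_, ?_⟩)
    · rintro ⟨a, b, c⟩ ⟨a', b', c'⟩ h
      obtain ⟨h1, h2, h3⟩ := u_inj p (congrArg Subtype.val h)
      simp only at h1 h2 h3
      rw [h1, h2, h3]
    · rintro ⟨_, a, b, c, rfl⟩
      exact ⟨⟨a, b, c⟩, rfl⟩
  rw [← this, Nat.card_prod, Nat.card_prod, Nat.card_zmod]
  ring

theorem u_pow (a b c : ZMod p) (n : ℕ) :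
    u p a b c ^ n = u p (n * a) (n * b) (n * c + (n.choose 2) * (a * b)) := by
  induction n with
  | zero => simp [u_zero]
  | succ n ih =>
    rw [pow_succ, ih, u_mul, Nat.choose_succ_succ' n 1, Nat.choose_one_right]
    congr 1 <;> push_cast <;> ring

theorem pow_p [Fact p.Prime] (hp : p ≠ 2) (g : U p) : g ^ p = 1 := by
  obtain ⟨_, a, b, c, rfl⟩ := g
  apply Subtype.ext
  have h2 : ((p.choose 2 : ℕ) : ZMod p) = 0 := by
    rw [ZMod.natCast_eq_zero_iff]
    exact (Fact.out : p.Prime).dvd_choose_self (by norm_num)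
      (lt_of_le_of_ne (Fact.out : p.Prime).two_le hp.symm)
  simp [u_pow, h2, u_zero]

theorem not_comm [Fact p.Prime] : ¬ IsMulCommutative (U p) := by
  intro h
  have := congrArg Subtype.val (h.is_comm.comm ⟨u p 1 0 0, _, _, _, rfl⟩ ⟨u p 0 1 0, _, _, _, rfl⟩)
  simp only [Subgroup.coe_mul, u_mul] at this
  simpa using (u_inj p this).2.2


/-- Let p be an odd prime. A Sylow p-subgroup of Qd(p), the split extension of an elementary abelian group of order p² by SL₂(p) acting naturally, is extraspecial of order p³ and exponent p. -/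
theorem result (p : ℕ) [Fact p.Prime] (hp : p ≠ 2) (P : Sylow p ↥(Cfsg.qd p)) :
    Cfsg.IsExtraspecial p ↥P ∧ Nat.card P = p ^ 3 ∧ Monoid.exponent ↥P = p := by
  have hpp : p.Prime := Fact.out
  have hcardU : Nat.card ((U p).subgroupOf (qd p)) = p ^ 3 := by
    rw [CL.card_subgroupOf_of_le (U_le p), card_U]
  have hUp : IsPGroup p ((U p).subgroupOf (qd p)) := IsPGroup.of_card hcardU
  obtain ⟨Q, hQ⟩ := hUp.exists_le_sylow
  have hQle : Nat.card (Q : Subgroup (qd p)) ≤ p ^ 3 := by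
    obtain ⟨k, hk⟩ := Q.isPGroup'.exists_card_eq
    have h1 : p ^ k ∣ Nat.card (GL (Fin 3) (ZMod p)) := by
      rw [← hk]
      refine (Subgroup.card_subgroup_dvd_card _).trans ((Subgroup.card_subgroup_dvd_card _).trans ?_)
      exact Subgroup.card_dvd_of_injective _ Matrix.SpecialLinearGroup.toGL_injective
    rw [Matrix.card_GL_field, Fin.prod_univ_three, ZMod.card] at h1
    simp only [Fin.val_zero, Fin.val_one, Fin.val_two, pow_zero, pow_one] at h1
    have e1 : p ^ 3 - p = p * (p ^ 2 - 1) := by rw [Nat.mul_sub_one, ← pow_succ']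
    have e2 : p ^ 3 - p ^ 2 = p ^ 2 * (p ^ 1 - 1) := by rw [Nat.mul_sub_one, ← pow_add]
    have cop : ∀ n, 0 < n → p.Coprime (p ^ n - 1) := by
      intro n hn
      rw [Nat.Prime.coprime_iff_not_dvd hpp]
      intro h
      have h2 : p ∣ p ^ n := dvd_pow_self p hn.ne'
      have := (Nat.dvd_sub_iff_right (Nat.one_le_pow _ _ hpp.pos) h2).1 h
      exact hpp.not_dvd_one this
    rw [e1, e2, show (p ^ 3 - 1) * (p * (p ^ 2 - 1)) * (p ^ 2 * (p ^ 1 - 1)) =
      p ^ 3 * ((p ^ 3 - 1) * (p ^ 2 - 1) * (p ^ 1 - 1)) by ring] at h1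
    have h3 := Nat.Coprime.dvd_of_dvd_mul_right (Nat.Coprime.pow_left k
      (((cop 3 (by norm_num)).mul_right (cop 2 (by norm_num))).mul_right (cop 1 (by norm_num)))) h1
    rw [hk]
    exact Nat.le_of_dvd (pow_pos hpp.pos 3) h3
  have hQU : (U p).subgroupOf (qd p) = Q := Subgroup.eq_of_le_of_card_ge hQ (hcardU ▸ hQle)
  let e : P ≃* U p := ((Sylow.equiv P Q).trans (MulEquiv.subgroupCongr hQU.symm)).trans
    (Subgroup.subgroupOfEquivOfLe (U_le p))
  have hcard : Nat.card P = p ^ 3 := by rw [Nat.card_congr e.toEquiv, card_U]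
  have hexp : ∀ g : P, g ^ p = 1 := fun g => e.injective (by rw [map_pow, map_one, pow_p p hp])
  have hnc : ¬ IsMulCommutative P := by
    intro h
    apply not_comm p
    refine ⟨⟨fun a b => e.symm.injective ?_⟩⟩
    rw [map_mul, map_mul, h.is_comm.comm]
  obtain ⟨h1, h2⟩ := center_of_card_cube (p := p) hcard hnc
  refine ⟨Cfsg.Agent.S3799.extraspecial_of (IsPGroup.of_card hcard) h1 h2
    (fun g => by rw [hexp]; exact Subgroup.one_mem _) hnc, hcard, ?_⟩
  have h3 : Monoid.exponent P ∣ p := Monoid.exponent_dvd_of_forall_pow_eq_one hexp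
  refine ((Nat.dvd_prime hpp).1 h3).resolve_left (fun h => hnc ?_)
  have := Monoid.exp_eq_one_iff.1 h
  exact ⟨⟨fun a b => Subsingleton.elim _ _⟩⟩

end Cfsg.Agent.S3074
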