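import Cfsg.Statements.S3075
import Cfsg.Agent.TECH.SecC
import Cfsg.Agent.PLOC.Dickson
import Cfsg.Agent.INV.InvCalc

set_option autoImplicit false
open Cfsg

namespace Cfsg.Agent.S3075

open Subgroup CL.MSS

theorem le_centralizer_of_lt {G : Type*} [Group G] [Finite G] {p : ℕ} [hp : Fact p.Prime]
    {A E P : Subgroup G} (hA : Nat.card A = p ^ 2) (hE : E < A) (hP : IsPGroup p P)
    (hn : P ≤ normalizer (E : Set G)) : E ≤ centralizer (P : Set G) := by
  by_cases h1 : E = ⊥
  · rw [h1]; exact bot_le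
  have hEp : IsPGroup p E := (IsPGroup.of_card hA).to_le hE.le
  have h2 := inf_centralizer_ne_bot hP hEp hn h1
  have h3 : Nat.card E = p := by
    obtain ⟨k, hk, hk2⟩ := (Nat.dvd_prime_pow hp.out).1 (hA ▸ card_dvd_of_le hE.le)
    interval_cases k
    · exact absurd (card_eq_one.1 (by simpa using hk2)) h1
    · simpa using hk2
    · exact absurd (hk2.trans hA.symm) (CL.card_lt_of_lt hE).ne
  rw [← inf_eq_left]
  refine eq_of_le_of_card_ge inf_le_left ?_
  rcases (Nat.dvd_prime hp.out).1 (h3 ▸ card_dvd_of_le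
    (inf_le_left : E ⊓ centralizer (P : Set G) ≤ E)) with h | h
  · exact absurd (card_eq_one.1 h) h2
  · rw [h, h3]

/-- Let p be an odd prime and N a finite group with a normal elementary abelian subgroup A of order p² that is its own centralizer in N, such that N/A is isomorphic to SL₂(p) (over any field F with p elements). Then N splits over A: some subgroup U of N satisfies A ∩ U = 1 and AU = N. -/
theorem result {N : Type*} [Group N] [Finite N] {p : ℕ} [Fact p.Prime] (hp : p ≠ 2)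
    (A : Subgroup N) [A.Normal] (hAcomm : IsMulCommutative A) (hAcard : Nat.card A = p ^ 2) (hAexp : Monoid.exponent ↥A = p)
    (hAself : Subgroup.centralizer (A : Set N) = A)
    {F : Type*} [Field F] [Fintype F] (hF : Fintype.card F = p) (e : N ⧸ A ≃* Matrix.SpecialLinearGroup (Fin 2) F) :
    ∃ U : Subgroup N, A ⊓ U = ⊥ ∧ A ⊔ U = ⊤ := by
  have hp' : p.Prime := Fact.out
  have hodd := hp'.odd_of_ne_two hp
  have hchar : CharP F p := by
    obtain ⟨q, hq⟩ := CharP.exists F
    obtain ⟨m, hqp, hm⟩ := FiniteField.card F q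
    have h2 : q ∣ p := by
      rw [← hF, hm]
      exact dvd_pow_self q m.ne_zero
    rwa [← (Nat.prime_dvd_prime_iff_eq hqp hp').1 h2]
  let φ : N →* Matrix.SpecialLinearGroup (Fin 2) F := e.toMonoidHom.comp (QuotientGroup.mk' A)
  have hs : Function.Surjective φ := e.surjective.comp (QuotientGroup.mk'_surjective A)
  have hk : ∀ x, φ x = 1 ↔ x ∈ A := fun x => by simp [φ]
  have hAp : ∀ a ∈ A, a ^ p = 1 := fun a ha => by
    have := Monoid.pow_exponent_eq_one (⟨a, ha⟩ : A)
    rw [hAexp] at this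
    exact congrArg Subtype.val this
  have hcomm : ∀ a ∈ A, ∀ b ∈ A, a * b = b * a := fun a ha b hb =>
    congrArg Subtype.val (hAcomm.is_comm.comm ⟨a, ha⟩ ⟨b, hb⟩)
  obtain ⟨s, hs1⟩ := hs (-1)
  have hs2 : s ^ 2 ∈ A := by rw [← hk, map_pow, hs1]; simp
  set t := s ^ p with ht
  have htt : t * t = 1 := by
    rw [ht, ← pow_two, ← pow_mul, mul_comm, pow_mul, hAp _ hs2]
  have hφt : φ t = -1 := by rw [ht, map_pow, hs1, hodd.neg_one_pow]
  have htA : t ∉ A := by
    rw [← hk, hφt]
    intro h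
    have h1 : (-1 : F) = 1 := by simpa using congrArg (fun g => g 0 0) h
    have h2 : (2 : F) = 0 := by linear_combination -h1
    have h3 : p ∣ 2 := (CharP.cast_eq_zero_iff F p 2).1 (by exact_mod_cast h2)
    exact hp ((Nat.prime_dvd_prime_iff_eq hp' Nat.prime_two).1 h3)
  have hodd' : ∀ a ∈ A, Odd (orderOf a) := fun a ha =>
    hodd.of_dvd_nat (orderOf_dvd_of_pow_eq_one (hAp a ha))
  have hdec : ∀ g : N, ∃ a ∈ A, ∃ c ∈ centralizer ({t} : Set N), a * c = g := by
    intro g
    have h1 : g * t * g⁻¹ * t ∈ A := by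
      rw [← hk]
      simp [hφt]
    obtain ⟨k, hk'⟩ := CL.Inv.exists_pow_conj_of_odd (s := g * t * g⁻¹)
      (by rw [conj_mul, htt]; simp) htt (hodd' _ h1)
    refine ⟨_, A.pow_mem h1 k, ((g * t * g⁻¹ * t) ^ k)⁻¹ * g, ?_, by group⟩
    rw [mem_centralizer_singleton_iff]
    generalize (g * t * g⁻¹ * t) ^ k = w at hk'
    calc w⁻¹ * g * t = w⁻¹ * (g * t * g⁻¹) * g := by group
      _ = t * (w⁻¹ * g) := by rw [← hk']; group
  refine ⟨centralizer ({t} : Set N), ?_, ?_⟩
  · by_contra hne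
    let D : Subgroup N :=
      { carrier := {a | a ∈ A ∧ t * a * t⁻¹ = a⁻¹}
        one_mem' := ⟨A.one_mem, by simp⟩
        mul_mem' := fun {a b} ha hb => ⟨A.mul_mem ha.1 hb.1, by
          rw [← conj_mul, ha.2, hb.2, hcomm a ha.1 b hb.1, mul_inv_rev]⟩
        inv_mem' := fun {a} ha => ⟨A.inv_mem ha.1, by rw [← conj_inv, ha.2]⟩ }
    have hD : ∀ a, a ∈ D ↔ a ∈ A ∧ t * a * t⁻¹ = a⁻¹ := fun a => Iff.rfl
    have hsq : ∀ (X : Subgroup N), ∀ a ∈ A, a * a ∈ X → a ∈ X := by
      intro X a ha h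
      obtain ⟨k, hk⟩ := hodd
      have h1 : a = (a * a) ^ (k + 1) := by
        rw [← pow_two, ← pow_mul, show 2 * (k + 1) = p + 1 by omega, pow_succ, hAp a ha, one_mul]
      rw [h1]
      exact X.pow_mem h _
    have hC : A ⊓ centralizer ({t} : Set N) < A := by
      refine lt_of_le_of_ne inf_le_left fun h => htA ?_
      rw [← hAself]
      intro a ha
      rw [← h] at ha
      exact mem_centralizer_singleton_iff.1 ha.2
    have hDA : D < A := by
      refine lt_of_le_of_ne (fun a ha => ha.1) fun h => hne ?_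
      rw [eq_bot_iff]
      intro a ha
      have h1 : a ∈ D := h ▸ ha.1
      refine hsq ⊥ a ha.1 ?_
      have h2 := h1.2
      rw [← mem_centralizer_singleton_iff.1 ha.2, mul_inv_cancel_right] at h2
      rw [mem_bot]
      nth_rewrite 1 [h2]
      exact inv_mul_cancel a
    obtain ⟨x, hx⟩ := hs (CL.Dickson.u 1)
    obtain ⟨a, ha, c, hc, rfl⟩ := hdec x
    rw [map_mul, (hk a).2 ha, one_mul] at hx
    have hcp : c ^ p ^ 2 = 1 := by
      rw [pow_two, pow_mul]
      refine hAp _ ?_
      rw [← hk, map_pow, hx, CL.Dickson.u_pow, CharP.cast_eq_zero, zero_mul, CL.Dickson.u_zero]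
    have hct : c * t = t * c := mem_centralizer_singleton_iff.1 hc
    have h1 := le_centralizer_of_lt hAcard hC (isPGroup_zpowers hcp)
      (le_normalizer_inf le_normalizer_of_normal ((zpowers_le.2 hc).trans le_normalizer))
    have h2 := le_centralizer_of_lt hAcard hDA (isPGroup_zpowers hcp) (by
      rw [zpowers_le]
      refine mem_normalizer_of_cj_le (cj_le_iff_forall.2 fun d hd => ⟨?_, ?_⟩)
      · exact (inferInstance : A.Normal).conj_mem _ hd.1 c
      · calc t * (c * d * c⁻¹) * t⁻¹ = (t * c) * d * (t * c)⁻¹ := by group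
          _ = c * (t * d * t⁻¹) * c⁻¹ := by rw [← hct]; group
          _ = _ := by rw [hd.2]; group)
    have h3 : A ≤ centralizer ((zpowers c : Subgroup N) : Set N) := by
      intro b hb
      refine hsq _ b hb ?_
      have hb' : t * b * t⁻¹ ∈ A := (inferInstance : A.Normal).conj_mem _ hb t
      have ht2 : t * (t * b * t⁻¹) * t⁻¹ = b := by
        calc t * (t * b * t⁻¹) * t⁻¹ = (t * t) * b * (t * t)⁻¹ := by group
          _ = b := by rw [htt]; simp
      have e1 : b * b = (b * (t * b * t⁻¹)) * ((t * b * t⁻¹)⁻¹ * b) := by group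
      rw [e1]
      refine mul_mem (h1 (mem_inf.2 ⟨A.mul_mem hb hb', ?_⟩)) (h2 ⟨A.mul_mem (A.inv_mem hb') hb, ?_⟩)
      · rw [mem_centralizer_singleton_iff, eq_comm, ← mul_inv_eq_iff_eq_mul, ← conj_mul, ht2,
          hcomm _ hb' _ hb]
      · rw [← conj_mul, ← conj_inv, ht2, mul_inv_rev, inv_inv]
    have h4 : c ∈ A := by
      rw [← hAself]
      exact le_centralizer_symm h3 (mem_zpowers c)
    rw [← hk, hx, ← CL.Dickson.u_zero] at h4
    exact one_ne_zero (CL.Dickson.u_injective h4)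
  · rw [eq_top_iff]
    intro g _
    obtain ⟨a, ha, c, hc, rfl⟩ := hdec g
    exact mul_mem (mem_sup_left ha) (mem_sup_right hc)

end Cfsg.Agent.S3075
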