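import Cfsg.Statements.S3078
import Cfsg.Agent.PLOC.Replacement
import Cfsg.Agent.SOLV.Basic

set_option autoImplicit false
set_option linter.unusedVariables false
open Cfsg

namespace Cfsg.Agent.S3078

open Subgroup CL.MSS CL.ZJ
open scoped commutatorElement


/-- A replacement Theorem for abelian subgroups of p-groups, p odd. Let G be a finite p-group with p odd, A an abelian subgroup of G, and B a subgroup of nilpotency class at most 2 with [B, B] ≤ A, such that A normalizes B but B does not normalize A. Then there is an abelian subgroup A* of G of the same order as A with A ∩ B strictly contained in A* ∩ B, A* contained in N_G(A) and in the normal closure of A, the exponent of A* dividing the exponent of A, and with the subgroup generated by the elements of order dividing p in A of order at most that of the corresponding subgroup of A* (the rank of A is at most the rank of A*). -/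
theorem result {G : Type*} [Group G] [Finite G] {p : ℕ} [Fact p.Prime] (hp : p ≠ 2) (hG : IsPGroup p G) (A B : Subgroup G) (hA : IsMulCommutative A) (hB2 : ⁅⁅B, B⁆, B⁆ = ⊥) (hBA : ⁅B, B⁆ ≤ A) (hAB : A ≤ Subgroup.normalizer (B : Set G)) (hBnA : ¬ B ≤ Subgroup.normalizer (A : Set G)) : ∃ Astar : Subgroup G, IsMulCommutative Astar ∧ Nat.card Astar = Nat.card A ∧ A ⊓ B < Astar ⊓ B ∧ Astar ≤ Subgroup.normalizer (A : Set G) ∧ Astar ≤ Subgroup.normalClosure (A : Set G) ∧ Monoid.exponent Astar ∣ Monoid.exponent A ∧ Nat.card (Cfsg.omegaOne p A) ≤ Nat.card (Cfsg.omegaOne p Astar) := by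

  have hpp : p.Prime := Fact.out
  set S := A ⊔ B with hSdef
  have hSB : S ≤ normalizer (B : Set G) := sup_le hAB le_normalizer
  set N := S ⊓ normalizer (A : Set G) with hN
  have hNS : N ≤ S := inf_le_left
  have hNB : N ≤ normalizer (B : Set G) := hNS.trans hSB
  have hAN : A ≤ N := le_inf le_sup_left le_normalizer
  have hNA : N ≤ normalizer (A : Set G) := inf_le_right
  obtain ⟨x, hx, hxN, hx'⟩ := CL.PN.exists_mem_normalizer_not_mem (H := N) (K := N ⊔ B)
    (hG.to_subgroup _).isNilpotent le_sup_left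
    (fun h => hBnA (le_sup_right.trans (h.trans hNA)))
  obtain ⟨n, hn, b, hb, rfl⟩ := (mem_sup_of_normalizes_right hNB).1 hx
  have hbN : b ∈ normalizer (N : Set G) := by
    simpa using Subgroup.mul_mem _ (Subgroup.inv_mem _ (le_normalizer hn)) hxN
  have hbA : b ∉ normalizer (A : Set G) := fun h =>
    hx' (N.mul_mem hn ⟨mem_sup_right hb, h⟩)
  have hcomm := comm_repl hA hBA hAN hNA hNB hb hbN fun w _ hw =>
    eq_one_of_sq_of_isPGroup hp (hG.to_subgroup ⊤) (mem_top w) hw
  refine ⟨repl A b, hcomm, card_repl hBA hAN hNA hNB hb hbN hcomm,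
    inf_lt_repl_inf hBA hAB hb hbA, (repl_le_N hAN hbN).trans hNA,
    (repl_le_sup A b).trans (sup_le le_normalClosure
      (cj_le_of_mem_normalizer le_normalClosure (by rw [normalizer_eq_top]; trivial))), ?_, ?_⟩
  · refine Monoid.exponent_dvd_of_forall_pow_eq_one fun y => Subtype.ext ?_
    refine pow_eq_one_of_mem_repl hA hAN hNA hbN hcomm ?_
      (fun a ha => congrArg Subtype.val (Monoid.pow_exponent_eq_one (⟨a, ha⟩ : A))) y y.2
    obtain ⟨k, hk⟩ := (hG.to_subgroup A).exists_card_eq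
    exact Odd.of_dvd_nat (hk ▸ (hpp.odd_of_ne_two hp).pow) Group.exponent_dvd_nat_card
  · set D := A ⊓ b⁻¹ •ᶜ A with hD
    have hc : ∀ a ∈ Cfsg.omegaOne p A, b⁻¹ * a * b * a⁻¹ ∈ Cfsg.omegaOne p (repl A b) := by
      intro a ha'
      obtain ⟨ha, hap⟩ := (CL.Th.mem_omegaOne_iff hA).1 ha'
      refine CL.Th.mem_omegaOne_of (mem_sup_right (mem_commWith ha)) ?_
      have hx : b⁻¹ * a * b ∈ b⁻¹ •ᶜ A := by rw [mem_cj]; simpa [mul_assoc] using ha
      have hz : ⁅a⁻¹, b⁻¹ * a * b⁆ ∈ A ⊓ b⁻¹ •ᶜ A := by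
        rw [← commutatorElement_inv]
        exact Subgroup.inv_mem _ (commutator_sup_cj_le hA hAN hNA hbN
          (commutator_mem_commutator (mem_sup_right hx) (A.inv_mem ha)))
      have hz' := inf_cj_le_centralizer hA b hz
      refine CL.PG.mul_pow_eq_one_of_odd (hz' _ (mem_sup_right hx))
        (hz' _ (mem_sup_left (A.inv_mem ha))) (hpp.odd_of_ne_two hp) ?_ ?_
      · have := conj_pow (a := b⁻¹) (b := a) (i := p)
        rw [inv_inv] at this
        rw [this, hap]; simp
      · rw [inv_pow, hap, inv_one]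
    have key : ∀ u ∈ A, ∀ v ∈ A, (b⁻¹ * u * b * u⁻¹)⁻¹ * (b⁻¹ * v * b * v⁻¹) ∈ D →
        u⁻¹ * v ∈ D := by
      intro u hu v hv h
      have hw : u⁻¹ * v ∈ A := A.mul_mem (A.inv_mem hu) hv
      have h1 : b⁻¹ * (u⁻¹ * v) * b ∈ A := by
        have := A.mul_mem (A.mul_mem (A.inv_mem hu) h.1) hv
        rwa [show u⁻¹ * ((b⁻¹ * u * b * u⁻¹)⁻¹ * (b⁻¹ * v * b * v⁻¹)) * v
          = b⁻¹ * (u⁻¹ * v) * b by group] at this
      generalize u⁻¹ * v = w at hw h1
      have h2 : b⁻¹ * w * b * w⁻¹ ∈ b⁻¹ •ᶜ A :=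
        inf_le_cj hBA hb ⟨A.mul_mem h1 (A.inv_mem hw), commWith_le_B hAB hb (mem_commWith hw)⟩
      have h3 : b⁻¹ * w * b ∈ b⁻¹ •ᶜ A := by rw [mem_cj]; simpa [mul_assoc] using hw
      exact Subgroup.mem_inf.2 ⟨hw, inv_mem_iff.1 ((mul_mem_cancel_left h3).1 h2)⟩
    have hidx : D.relIndex (Cfsg.omegaOne p A) ≤ D.relIndex (Cfsg.omegaOne p (repl A b)) := by
      refine Nat.card_le_card_of_injective
        (fun q : Cfsg.omegaOne p A ⧸ D.subgroupOf (Cfsg.omegaOne p A) =>
          ((⟨b⁻¹ * (q.out : G) * b * (q.out : G)⁻¹, hc _ q.out.2⟩ : Cfsg.omegaOne p (repl A b)) :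
            Cfsg.omegaOne p (repl A b) ⧸ D.subgroupOf (Cfsg.omegaOne p (repl A b)))) fun q r e => ?_
      rw [← q.out_eq, ← r.out_eq]
      have e' := QuotientGroup.eq.1 e
      exact QuotientGroup.eq.2
        (key _ (CL.Th.omegaOne_le A q.out.2) _ (CL.Th.omegaOne_le A r.out.2) e')
    rw [← CL.card_inf_mul_relIndex D (Cfsg.omegaOne p A),
      ← CL.card_inf_mul_relIndex D (Cfsg.omegaOne p (repl A b))]
    refine Nat.mul_le_mul (card_le_of_le fun y hy => ⟨hy.1, ?_⟩) hidx
    exact CL.Th.mem_omegaOne_of (mem_sup_left hy.1) ((CL.Th.mem_omegaOne_iff hA).1 hy.2).2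

end Cfsg.Agent.S3078
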