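import Cfsg.Statements.S3154
import Cfsg.Agent.INV.STD.InvFix2
import Cfsg.Agent.CLAS.AutPSL
import Cfsg.Agent.FUS.GenES
import Cfsg.Agent.SOLV.Gaschutz

set_option autoImplicit false
open Cfsg

namespace Cfsg.Agent.S3154

open Subgroup Matrix CL.InvFix

section L

variable {F : Type*} [Field F]

abbrev LL (F : Type*) [Field F] := ProjectiveSpecialLinearGroup (Fin 3) F

abbrev pp (F : Type*) [Field F] : SpecialLinearGroup (Fin 3) F →* LL F := QuotientGroup.mk' _

def hA (F : Type*) [Field F] : Subgroup (H3 F) where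
  carrier := {x | x.b = 0}
  one_mem' := rfl
  mul_mem' := fun {x y} hx hy => by simp_all
  inv_mem' := fun {x} hx => by simp_all

def hB (F : Type*) [Field F] : Subgroup (H3 F) where
  carrier := {x | x.a = 0}
  one_mem' := rfl
  mul_mem' := fun {x y} hx hy => by simp_all
  inv_mem' := fun {x} hx => by simp_all

abbrev A0 (F : Type*) [Field F] : Subgroup (LL F) := (hA F).map H3.toPSL
abbrev B0 (F : Type*) [Field F] : Subgroup (LL F) := (hB F).map H3.toPSL

def blk : SpecialLinearGroup (Fin 2) F →* SpecialLinearGroup (Fin 3) F :=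
  MonoidHom.mk' (fun m => ⟨!![1, 0, 0; 0, m 0 0, m 0 1; 0, m 1 0, m 1 1], by
    have := m.det_coe
    rw [det_fin_two] at this
    simp [det_fin_three]; linear_combination this⟩) (fun x y => by
    ext i j
    change _ = ((!![1, 0, 0; 0, x 0 0, x 0 1; 0, x 1 0, x 1 1] : Matrix (Fin 3) (Fin 3) F) *
      !![1, 0, 0; 0, y 0 0, y 0 1; 0, y 1 0, y 1 1]) i j
    rw [mul_apply, Fin.sum_univ_three]
    fin_cases i <;> fin_cases j <;> simp [mul_apply, Fin.sum_univ_two])

theorem blk_val (m : SpecialLinearGroup (Fin 2) F) :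
    (blk m).1 = !![1, 0, 0; 0, m 0 0, m 0 1; 0, m 1 0, m 1 1] := rfl

theorem smul_of_eq {g h : SpecialLinearGroup (Fin 3) F} (e : pp F g = pp F h) : ∃ r : F, h.1 = r • g.1 := by
  obtain ⟨r, -, hr⟩ := Matrix.SpecialLinearGroup.mem_center_iff.1 (QuotientGroup.eq.1 e)
  refine ⟨r, ?_⟩
  have : h.1 = g.1 * (g⁻¹ * h).1 := by
    rw [← Matrix.SpecialLinearGroup.coe_mul, mul_inv_cancel_left]
  rw [this, ← hr, scalar_apply, ← smul_eq_mul_diagonal]

theorem eq_of_smul {g h : SpecialLinearGroup (Fin 3) F} {r : F} (e : h.1 = r • g.1) : pp F g = pp F h := by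
  refine QuotientGroup.eq.2 (mem_center_iff.2 fun k => Subtype.ext ?_)
  have : (g⁻¹ * h).1 = r • (1 : Matrix (Fin 3) (Fin 3) F) := by
    rw [Matrix.SpecialLinearGroup.coe_mul, e, Matrix.mul_smul, ← Matrix.SpecialLinearGroup.coe_mul, inv_mul_cancel]
    rfl
  rw [Matrix.SpecialLinearGroup.coe_mul k, Matrix.SpecialLinearGroup.coe_mul _ k, this]
  simp

theorem act (a c : F) (m : SpecialLinearGroup (Fin 2) F) :
    H3.toSL ⟨a, 0, c⟩ * blk m = blk m * H3.toSL ⟨a * m 0 0 + c * m 1 0, 0, a * m 0 1 + c * m 1 1⟩ := by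
  ext i j
  simp only [Matrix.SpecialLinearGroup.coe_mul, blk_val, H3.toSL_val]
  fin_cases i <;> fin_cases j <;> simp [mul_apply, Fin.sum_univ_three]

theorem conj_A {x : H3 F} (hx : x ∈ hA F) (h1 : x ≠ 1) :
    IsConj (H3.toPSL x) (H3.toPSL (⟨0, 0, 1⟩ : H3 F)) := by
  obtain ⟨a, b, c⟩ := x
  obtain rfl : b = 0 := hx
  have key : ∀ m : SpecialLinearGroup (Fin 2) F, m 1 0 = a → m 1 1 = c →
      IsConj (H3.toPSL (⟨a, 0, c⟩ : H3 F)) (H3.toPSL (⟨0, 0, 1⟩ : H3 F)) := fun m h0 h1 => by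
    have := act 0 1 m
    simp only [zero_mul, one_mul, zero_add, h0, h1] at this
    refine isConj_iff.2 ⟨pp F (blk m), ?_⟩
    rw [mul_inv_eq_iff_eq_mul]
    exact ((map_mul (pp F) _ _).symm.trans (congrArg (pp F) this.symm)).trans (map_mul (pp F) _ _)
  by_cases hc : c = 0
  · have ha : a ≠ 0 := fun ha => h1 (H3.ext ha rfl hc)
    exact key ⟨!![0, -a⁻¹; a, 0], by simp [det_fin_two, ha]⟩ rfl hc.symm
  · exact key ⟨!![c⁻¹, 0; a, c], by simp [det_fin_two, hc]⟩ rfl rfl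

abbrev C0 (F : Type*) [Field F] : Subgroup (LL F) := ((pp F).comp blk).range

theorem eq_one_of_blk {m : SpecialLinearGroup (Fin 2) F} {x : H3 F} (hx : x ∈ hA F)
    (e : pp F (blk m) = H3.toPSL x) : m = 1 := by
  obtain ⟨r, hr⟩ := smul_of_eq (h := H3.toSL x) e
  have hb : x.b = 0 := hx
  have h := fun i j => congrFun (congrFun hr i) j
  have h0 := h 0 0
  have h1 := h 1 1
  have h2 := h 1 2
  have h3 := h 2 1
  have h4 := h 2 2
  simp [H3.toSL_val, blk_val] at h0
  subst h0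
  simp [H3.toSL_val, blk_val, hb] at h1 h2 h3 h4
  ext i j
  fin_cases i <;> fin_cases j <;> simp [← h1, ← h2, ← h3, ← h4]

theorem C0_inf : C0 F ⊓ A0 F = ⊥ := by
  rw [eq_bot_iff]
  rintro _ ⟨⟨m, rfl⟩, x, hx, e⟩
  rw [eq_one_of_blk hx e.symm, map_one]
  exact one_mem _

theorem C0_inj : Function.Injective ((pp F).comp blk) :=
  (injective_iff_map_eq_one _).2 fun _ h => eq_one_of_blk (one_mem _) (h.trans (map_one _).symm)

theorem C0_le [Finite F] : C0 F ≤ normalizer (A0 F : Set (LL F)) := by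
  rintro _ ⟨m, rfl⟩
  rw [← inv_mem_iff]
  refine mem_normalizer_fintype ?_
  rintro _ ⟨⟨a, b, c⟩, hx, rfl⟩
  obtain rfl : b = 0 := hx
  refine ⟨⟨a * m 0 0 + c * m 1 0, 0, a * m 0 1 + c * m 1 1⟩, rfl, ?_⟩
  rw [inv_inv, mul_assoc, eq_inv_mul_iff_mul_eq]
  exact ((map_mul (pp F) _ _).symm.trans (congrArg (pp F) (act a c m).symm)).trans (map_mul (pp F) _ _)

theorem U_le [Finite F] : (H3.toPSL (F := F)).range ≤ normalizer (A0 F : Set (LL F)) := by
  rintro _ ⟨u, rfl⟩
  refine mem_normalizer_fintype ?_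
  rintro _ ⟨x, hx, rfl⟩
  refine ⟨u * x * u⁻¹, ?_, by simp⟩
  have : x.b = 0 := hx
  change (u * x * u⁻¹).b = 0
  simp [this]

theorem norm_le [Fintype F] (hF : Fintype.card F = 4) :
    normalizer (A0 F : Set (LL F)) ≤ A0 F ⊔ C0 F := by
  have : CharP F 2 := charP_of_card_eq_prime_pow (p := 2) (f := 2) (by simpa using hF)
  have two := CharTwo.two_eq_zero (R := F)
  intro n hn
  obtain ⟨g, rfl⟩ := QuotientGroup.mk'_surjective _ n
  obtain ⟨⟨a, b, c⟩, hx, e⟩ := (mem_normalizer_iff.1 hn _).1 (mem_map_of_mem H3.toPSL (show ⟨1, 0, 0⟩ ∈ hA F from rfl))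
  obtain rfl : b = 0 := hx
  rw [eq_mul_inv_iff_mul_eq] at e
  obtain ⟨r, hr⟩ := smul_of_eq (g := H3.toSL ⟨a, 0, c⟩ * g) (h := g * H3.toSL ⟨1, 0, 0⟩)
    (((map_mul (pp F) _ _).trans e).trans (map_mul (pp F) _ _).symm)
  have h := fun i j => congrFun (congrFun hr i) j
  have hd := g.det_coe
  rw [det_fin_three] at hd
  have h10 := h 1 0
  have h11 := h 1 1
  have h12 := h 1 2
  have h20 := h 2 0
  have h21 := h 2 1
  have h22 := h 2 2
  simp only [Matrix.SpecialLinearGroup.coe_mul, H3.toSL_val, Matrix.smul_apply, mul_apply,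
    Fin.sum_univ_three, smul_eq_mul] at h10 h11 h12 h20 h21 h22
  simp at h10 h11 h12 h20 h21 h22
  have hr1 : r = 1 := by
    by_contra hr1
    have k : ∀ {y : F}, y = r * y → y = 0 := fun {y} hy =>
      (mul_eq_zero.1 (show (r - 1) * y = 0 by linear_combination -hy)).resolve_left (sub_ne_zero.2 hr1)
    rw [k h10, zero_add] at h11
    rw [k h10, k h12, k h11] at hd
    simp at hd
  subst hr1
  have g10 : g 1 0 = 0 := by linear_combination h11
  have g20 : g 2 0 = 0 := by linear_combination h21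
  have hd' : g 0 0 * (g 1 1 * g 2 2 - g 1 2 * g 2 1) = 1 := by
    rw [g10, g20] at hd; linear_combination hd
  have l3 : g 0 0 ^ 3 = 1 := by
    simpa [hF] using FiniteField.pow_card_sub_one_eq_one (g 0 0) (left_ne_zero_of_mul_eq_one hd')
  let m : SpecialLinearGroup (Fin 2) F := ⟨!![g 0 0 ^ 2 * g 1 1, g 0 0 ^ 2 * g 1 2; g 0 0 ^ 2 * g 2 1, g 0 0 ^ 2 * g 2 2],
    by rw [det_fin_two_of]; linear_combination g 0 0 ^ 3 * hd' + l3⟩
  have : pp F (blk m * H3.toSL ⟨g 0 0 ^ 2 * g 0 1, 0, g 0 0 ^ 2 * g 0 2⟩) = pp F g := by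
    refine eq_of_smul (r := g 0 0) ?_
    ext i j
    simp only [Matrix.SpecialLinearGroup.coe_mul, H3.toSL_val, blk_val, Matrix.smul_apply, mul_apply,
      Fin.sum_univ_three, smul_eq_mul]
    fin_cases i <;> fin_cases j <;> simp [m, g10, g20] <;> rw [← mul_assoc, ← pow_succ', l3, one_mul]
  rw [← this, map_mul]
  exact mul_mem (mem_sup_right ⟨m, rfl⟩) (mem_sup_left ⟨_, rfl, rfl⟩)

theorem exists_swap [CharP F 2] : ∃ σ : LL F ≃* LL F, ∀ x : H3 F,
    σ (H3.toPSL x) = H3.toPSL ⟨x.b, x.a, x.c + x.a * x.b⟩ := by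
  have two := CharTwo.two_eq_zero (R := F)
  let w : SpecialLinearGroup (Fin 3) F := ⟨!![0, 0, 1; 0, 1, 0; 1, 0, 0], by
    simp [det_fin_three, CharTwo.neg_eq]⟩
  refine ⟨(CL.AutPSL.tau (Fin 3) F).trans (MulAut.conj (pp F w)), fun x => ?_⟩
  have h := CL.AutPSL.tau_mk (s := H3.toSL x) (s' := w⁻¹ * H3.toSL ⟨x.b, x.a, x.c + x.a * x.b⟩ * w) (by
    refine Units.ext ?_
    rw [CL.AutInd.coe_invT, ← map_inv, ← map_inv]
    change w⁻¹.1 * (H3.toSL _).1 * w.1 = ((H3.toSL x⁻¹).1)ᵀ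
    rw [show w⁻¹ = w from inv_eq_of_mul_eq_one_right (by
      ext i j
      rw [Matrix.SpecialLinearGroup.coe_mul]
      fin_cases i <;> fin_cases j <;> simp [w, mul_apply, Fin.sum_univ_three])]
    ext i j
    fin_cases i <;> fin_cases j <;>
      simp [w, H3.toSL_val, mul_apply, Fin.sum_univ_three, CharTwo.neg_eq, CharTwo.sub_eq_add, add_comm])
  change pp F w * CL.AutPSL.tau (Fin 3) F (QuotientGroup.mk (H3.toSL x)) * (pp F w)⁻¹ = _
  rw [h]
  change pp F w * pp F _ * (pp F w)⁻¹ = pp F _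
  rw [map_mul, map_mul, map_inv]
  group

theorem card_A0 [Fintype F] (hF : Fintype.card F = 4) : Nat.card (A0 F) = 16 := by
  rw [card_map_of_injective H3.toPSL_injective, Nat.card_congr (⟨fun x => (x.1.a, x.1.c), fun x => ⟨⟨x.1, 0, x.2⟩, rfl⟩,
    fun x => Subtype.ext (H3.ext rfl (Eq.symm x.2) rfl), fun _ => rfl⟩ : hA F ≃ F × F), Nat.card_prod,
    Nat.card_eq_fintype_card, hF]

theorem card_B0 [Fintype F] (hF : Fintype.card F = 4) : Nat.card (B0 F) = 16 := by
  rw [card_map_of_injective H3.toPSL_injective, Nat.card_congr (⟨fun x => (x.1.b, x.1.c), fun x => ⟨⟨0, x.1, x.2⟩, rfl⟩,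
    fun x => Subtype.ext (H3.ext (Eq.symm x.2) rfl rfl), fun _ => rfl⟩ : hB F ≃ F × F), Nat.card_prod,
    Nat.card_eq_fintype_card, hF]

theorem eq_A0_or [Fintype F] (hF : Fintype.card F = 4) {E : Subgroup (LL F)} (hE : E ≤ (H3.toPSL (F := F)).range)
    (h2 : ∀ x ∈ E, x ^ 2 = 1) (hc : Nat.card E = 16) : E = A0 F ∨ E = B0 F := by
  have : CharP F 2 := charP_of_card_eq_prime_pow (p := 2) (f := 2) (by simpa using hF)
  have k : ∀ x : H3 F, H3.toPSL x ∈ E → x.a * x.b = 0 := fun x hx => by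
    have := congrArg H3.c (H3.toPSL_injective ((map_pow _ _ _).trans ((h2 _ hx).trans (map_one _).symm)))
    simpa [pow_two, CharTwo.add_self_eq_zero] using this
  by_cases hA' : E ≤ A0 F
  · exact .inl (eq_of_le_of_card_ge hA' (by rw [hc, card_A0 hF]))
  refine .inr (eq_of_le_of_card_ge (fun y hy => ?_) (by rw [hc, card_B0 hF]))
  obtain ⟨x, hx, hxA⟩ := SetLike.not_le_iff_exists.1 hA'
  obtain ⟨x, rfl⟩ := hE hx
  obtain ⟨y, rfl⟩ := hE hy
  have xb : x.b ≠ 0 := fun h => hxA ⟨x, h, rfl⟩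
  have xa : x.a = 0 := (mul_eq_zero.1 (k x hx)).resolve_right xb
  refine ⟨y, ?_, rfl⟩
  by_contra ya
  have yb : y.b = 0 := (mul_eq_zero.1 (k y hy)).resolve_left ya
  have := k (x * y) (by rw [map_mul]; exact mul_mem hx hy)
  simp [xa, yb, xb] at this
  exact ya this

theorem AB_sup : A0 F ⊔ B0 F = (H3.toPSL (F := F)).range := by
  refine le_antisymm (sup_le (map_le_range _ _) (map_le_range _ _)) ?_
  rintro _ ⟨x, rfl⟩
  rw [show x = ⟨0, x.b, x.c⟩ * ⟨x.a, 0, 0⟩ by ext <;> simp, map_mul]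
  exact mul_mem (mem_sup_right ⟨_, rfl, rfl⟩) (mem_sup_left ⟨_, rfl, rfl⟩)

theorem odd_U [Fintype F] [CharP F 2] : ¬ 2 ∣ (H3.toPSL (F := F)).range.index := by
  refine fun h => H3.odd_index (F := F) (h.trans ?_)
  have h1 := H3.card_PSL_dvd (F := F)
  rw [← (H3.toPSL (F := F)).range.card_mul_index,
    ← Nat.card_congr (MonoidHom.ofInjective H3.toPSL_injective).toEquiv, H3.card] at h1
  exact Nat.dvd_of_mul_dvd_mul_left (pow_pos Nat.card_pos 3) h1

end L

theorem iso_quot {X L : Type*} [Group X] [Group L] (π : X →* L) (hπ : Function.Surjective π) (A : Subgroup L)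
    {C : Subgroup X} (hC : C ≤ (normalizer (A : Set L)).comap π) (h1 : C ⊓ A.comap π = ⊥)
    (h2 : (normalizer (A : Set L)).comap π ≤ A.comap π ⊔ C) :
    Nonempty (C ≃* normalizer (A : Set L) ⧸ A.subgroupOf (normalizer (A : Set L))) := by
  let f : C →* normalizer (A : Set L) := (π.comp C.subtype).codRestrict _ fun c => hC c.2
  refine ⟨MulEquiv.ofBijective ((QuotientGroup.mk' _).comp f) ⟨(injective_iff_map_eq_one _).2 fun c hc => ?_, ?_⟩⟩
  · exact Subtype.ext (mem_bot.1 (h1.le ⟨c.2, (QuotientGroup.eq_one_iff (f c)).1 hc⟩))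
  · intro q
    obtain ⟨⟨n, hn⟩, rfl⟩ := QuotientGroup.mk'_surjective _ q
    obtain ⟨n, rfl⟩ := hπ n
    have hN : C ≤ normalizer (A.comap π : Set X) := by rwa [← comap_normalizer_eq_of_surjective _ hπ]
    have : n ∈ ((C ⊔ A.comap π : Subgroup X) : Set X) := by rw [sup_comm]; exact h2 hn
    rw [coe_mul_of_left_le_normalizer_right _ _ hN] at this
    obtain ⟨c, hc, a, ha, rfl⟩ := this
    refine ⟨⟨c, hc⟩, QuotientGroup.eq.2 ?_⟩
    change (π c)⁻¹ * π (c * a) ∈ A
    simpa using ha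

section X

variable {X : Type*} [Group X] {F : Type*} [Field F] [Fintype F] {π : X →* LL F} {H K : Subgroup X}

theorem elem (hF : Fintype.card F = 4) (hπ : Function.Surjective π) (hk : π.ker = center X)
    (hZ : ∀ z ∈ center X, z ^ 2 = 1) : IsElementaryAbelian 2 ((A0 F).comap π) := by
  have : CharP F 2 := charP_of_card_eq_prime_pow (p := 2) (f := 2) (by simpa using hF)
  have sq : ∀ h ∈ (A0 F).comap π, h * h ∈ center X := by
    rintro h ⟨x, hx, e⟩
    rw [← hk, MonoidHom.mem_ker, map_mul, ← e, ← map_mul, ← map_one H3.toPSL]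
    congr 1
    have : x.b = 0 := hx
    ext <;> simp [this, CharTwo.add_self_eq_zero]
  obtain ⟨t, ht⟩ := hπ (H3.toPSL ⟨0, 0, 1⟩)
  have tc := sq t ⟨_, rfl, ht.symm⟩
  have k1 : ∀ h x, x ∈ hA F → π h = H3.toPSL x → x ≠ 1 → h * h = t * t := fun h x hx e x1 => by
    obtain ⟨n, hn⟩ := isConj_iff.1 (conj_A hx x1)
    obtain ⟨n, rfl⟩ := hπ n
    have hz : t⁻¹ * (n * h * n⁻¹) ∈ center X := by
      rw [← hk, MonoidHom.mem_ker]; simp [e, hn, ht]
    have h2 := hZ _ hz
    have h3 := mem_center_iff.1 hz t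
    have h4 := mem_center_iff.1 (sq h ⟨x, hx, e.symm⟩) n
    generalize hz' : t⁻¹ * (n * h * n⁻¹) = z at h2 h3
    have h5 : n * h * n⁻¹ = t * z := by rw [← hz']; group
    calc h * h = n * h * n⁻¹ * (n * h * n⁻¹) := by
          rw [show n * h * n⁻¹ * (n * h * n⁻¹) = n * (h * h) * n⁻¹ by group, h4]; group
      _ = t * t * z ^ 2 := by rw [h5, pow_two, mul_assoc, ← mul_assoc z, ← h3]; group
      _ = _ := by rw [h2, mul_one]
  obtain ⟨c, hc⟩ : ∃ c, c = t * t := ⟨_, rfl⟩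
  rw [← hc] at tc k1
  have cc : c * c = 1 := by rw [← pow_two]; exact hZ c tc
  have cm := mem_center_iff.1 tc
  have sw : ∀ x y : X, x * x = c → y * y = c → x * y * (x * y) = c → y * x = c * (x * y) := fun x y hx hy hxy => by
    have : c * (y * x) * c = x * c * y := by
      calc c * (y * x) * c = x * x * (y * x) * (y * y) := by rw [hx, hy]
        _ = x * (x * y * (x * y)) * y := by group
        _ = _ := by rw [hxy]
    rw [cm, ← mul_assoc, cc, one_mul, cm x, mul_assoc] at this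
    exact this
  have c1 : c = 1 := by
    obtain ⟨w, w0, w1⟩ : ∃ w : F, w ≠ 0 ∧ w ≠ 1 := by
      classical
      by_contra! h
      have : (Finset.univ : Finset F) ⊆ {0, 1} := fun w _ => by
        by_cases h0 : w = 0
        · simp [h0]
        · simp [h w h0]
      have := (Finset.card_le_card this).trans (Finset.card_le_two)
      rw [Finset.card_univ] at this
      omega
    have w2 : 1 + w ≠ 0 := fun h => w1 (by rw [← CharTwo.neg_eq w]; linear_combination -h)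
    obtain ⟨a, ha⟩ := hπ (H3.toPSL ⟨1, 0, 0⟩)
    obtain ⟨d, hd⟩ := hπ (H3.toPSL ⟨0, 0, w⟩)
    have ka : ∀ y u, π y = H3.toPSL ⟨0, 0, u⟩ → u ≠ 0 → y * a = c * (a * y) := fun y u hy hu =>
      sw a y (k1 a _ rfl ha fun h => one_ne_zero (congrArg H3.a h)) (k1 y _ rfl hy fun h => hu (congrArg H3.c h))
        (k1 _ (⟨1, 0, 0⟩ * ⟨0, 0, u⟩) (by change _ + _ = _; simp) (by rw [map_mul, map_mul, ha, hy])
          fun h => by simpa using congrArg H3.a h)
    have e1 := ka t 1 ht one_ne_zero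
    have e2 := ka d w hd w0
    have e3 := ka (t * d) (1 + w) (by rw [map_mul, ht, hd, ← map_mul]; congr 1; ext <;> simp) w2
    rw [mul_assoc, e2, ← mul_assoc, cm t, mul_assoc, ← mul_assoc t, e1, ← mul_assoc, ← mul_assoc, cc, one_mul,
      mul_assoc] at e3
    exact (mul_eq_right.1 e3.symm)
  have sq1 : ∀ h ∈ (A0 F).comap π, h * h = 1 := by
    rintro h ⟨x, hx, e⟩
    by_cases x1 : x = 1
    · rw [← pow_two]
      refine hZ h ?_
      rw [← hk, MonoidHom.mem_ker, ← e, x1, map_one]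
    · rw [k1 h x hx e.symm x1, c1]
  refine ⟨⟨⟨fun x y => Subtype.ext ?_⟩⟩, fun h hh => by rw [pow_two]; exact sq1 h hh⟩
  have i := fun h hh => inv_eq_of_mul_eq_one_right (sq1 h hh)
  change x.1 * y.1 = y.1 * x.1
  rw [← i _ (mul_mem x.2 y.2), _root_.mul_inv_rev, i _ x.2, i _ y.2]

theorem split [Finite X] (hF : Fintype.card F = 4) (hπ : Function.Surjective π)
    (hH : IsElementaryAbelian 2 ((A0 F).comap π)) (hK : IsElementaryAbelian 2 ((B0 F).comap π)) :
    ∃ C : Subgroup X, C ≤ normalizer ((A0 F).comap π : Set X) ∧ C ⊓ (A0 F).comap π = ⊥ ∧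
      (A0 F).comap π ⊔ C = normalizer ((A0 F).comap π : Set X) ∧
      Nonempty (↥C ≃* Matrix.ProjectiveSpecialLinearGroup (Fin 2) F) := by
  have : CharP F 2 := charP_of_card_eq_prime_pow (p := 2) (f := 2) (by simpa using hF)
  have hN := comap_normalizer_eq_of_surjective (A0 F) hπ
  have hU : (A0 F).comap π ⊔ (B0 F).comap π = (H3.toPSL (F := F)).range.comap π := by
    rw [comap_sup_eq π _ _ hπ, AB_sup]
  have hi : ((A0 F).comap π ⊔ (B0 F).comap π).index = (H3.toPSL (F := F)).range.index := by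
    rw [hU, index_comap_of_surjective _ hπ]
  have hUN : (A0 F).comap π ⊔ (B0 F).comap π ≤ normalizer ((A0 F).comap π : Set X) := by
    rw [hU, ← hN]; exact comap_mono U_le
  have key : ∀ C : Subgroup X, C ≤ normalizer ((A0 F).comap π : Set X) → C ⊓ (A0 F).comap π = ⊥ →
      (A0 F).comap π ⊔ C = normalizer ((A0 F).comap π : Set X) →
      Nonempty (↥C ≃* Matrix.ProjectiveSpecialLinearGroup (Fin 2) F) := fun C c1 c2 c3 => by
    obtain ⟨e1⟩ := iso_quot π hπ (A0 F) (hN ▸ c1) c2 (hN.trans c3.symm).le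
    obtain ⟨e2⟩ := iso_quot (MonoidHom.id _) Function.surjective_id (A0 F) (C := C0 F) C0_le C0_inf (norm_le hF)
    have h : center (Matrix.SpecialLinearGroup (Fin 2) F) = ⊥ :=
      card_eq_one.1 (by rw [CL.SL.card_center_SL, Nat.card_eq_fintype_card, hF]; simp)
    exact ⟨((e1.trans e2.symm).trans (MonoidHom.ofInjective C0_inj).symm).trans
      (QuotientGroup.quotientBot.symm.trans (QuotientGroup.quotientMulEquivOfEq h.symm))⟩
  generalize (A0 F).comap π = H at *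
  generalize (B0 F).comap π = K at *
  obtain ⟨Y, y1, y2⟩ := CL.Fus.exists_compl_of_elemAb hK (inf_le_right : H ⊓ K ≤ K)
  have YK : Y ≤ K := y2 ▸ le_sup_right
  have := hH.1
  have HP : IsPGroup 2 H := fun x => ⟨1, Subtype.ext (hH.2 x x.2)⟩
  obtain ⟨C, hC⟩ := CL.gaschutz_exists (H.subgroupOf (normalizer (H : Set X))) ((H ⊔ K).subgroupOf _)
    (comap_mono le_sup_left) (by
      obtain ⟨n, hn⟩ := (HP.of_equiv (subgroupOfEquivOfLe le_normalizer).symm).exists_card_eq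
      rw [hn]
      refine ((Nat.Prime.coprime_iff_not_dvd Nat.prime_two).2 fun h => odd_U (F := F) ?_).pow_left n
      rw [← hi]
      exact h.trans (relIndex_dvd_index_of_le hUN)) (Y.subgroupOf _)
    (eq_bot_iff.2 fun x hx => mem_bot.2 (Subtype.ext (mem_bot.1 (y1.le ⟨⟨hx.2, YK hx.1⟩, hx.1⟩))))
    (by
      rw [← subgroupOf_sup le_normalizer ((YK.trans le_sup_right).trans hUN)]
      congr 1
      refine le_antisymm (sup_le_sup_left YK _) (sup_le le_sup_left ?_)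
      rw [← y2]
      exact sup_le_sup_right inf_le_left _)
  have c1 : C.map (normalizer (H : Set X)).subtype ≤ normalizer (H : Set X) := map_subtype_le _
  have c2 : C.map (normalizer (H : Set X)).subtype ⊓ H = ⊥ := by
    rw [eq_bot_iff]
    rintro _ ⟨⟨x, hx, rfl⟩, h⟩
    rw [mem_bot.1 (hC.disjoint.le_bot ⟨h, hx⟩), map_one]
    exact one_mem _
  have c3 : H ⊔ C.map (normalizer (H : Set X)).subtype = normalizer (H : Set X) := by
    have := congrArg (map (normalizer (H : Set X)).subtype) hC.sup_eq_top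
    rwa [Subgroup.map_sup, subgroupOf_map_subtype, inf_of_le_left le_normalizer, ← MonoidHom.range_eq_map,
      range_subtype] at this
  exact ⟨_, c1, c2, c3, key _ c1 c2 c3⟩

omit [Fintype F] in
theorem inf_eq (hπ : Function.Surjective π)
    (hH : IsElementaryAbelian 2 ((A0 F).comap π)) (hK : IsElementaryAbelian 2 ((B0 F).comap π)) :
    (A0 F).comap π ⊓ (B0 F).comap π = (center ↥((A0 F).comap π ⊔ (B0 F).comap π)).map (Subgroup.subtype _) := by
  refine le_antisymm (fun x hx => ?_) ?_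
  · refine ⟨⟨x, mem_sup_left hx.1⟩, mem_center_iff.2 fun y => Subtype.ext ?_, rfl⟩
    have : (A0 F).comap π ⊔ (B0 F).comap π ≤ centralizer {x} := sup_le
      (fun y hy => mem_centralizer_singleton_iff.2 (congrArg Subtype.val (hH.1.1.1 ⟨y, hy⟩ ⟨x, hx.1⟩)))
      (fun y hy => mem_centralizer_singleton_iff.2 (congrArg Subtype.val (hK.1.1.1 ⟨y, hy⟩ ⟨x, hx.2⟩)))
    exact mem_centralizer_singleton_iff.1 (this y.2)
  · rintro _ ⟨⟨x, hx⟩, hc, rfl⟩
    have hx' := hx
    rw [comap_sup_eq π _ _ hπ, AB_sup] at hx'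
    obtain ⟨u, hu⟩ := hx'
    have k : ∀ v : H3 F, v ∈ hA F ∨ v ∈ hB F → v * u = u * v := fun v hv => by
      obtain ⟨y, hy⟩ := hπ (H3.toPSL v)
      have := congrArg (fun z => π z.1) (mem_center_iff.1 hc ⟨y, hv.elim
        (fun h => mem_sup_left ⟨v, h, hy.symm⟩) (fun h => mem_sup_right ⟨v, h, hy.symm⟩)⟩)
      simp only [coe_mul, map_mul, hy, ← hu] at this
      exact H3.toPSL_injective (by simpa only [map_mul] using this)
    have h1 := congrArg H3.c (k ⟨1, 0, 0⟩ (.inl rfl))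
    have h2 := congrArg H3.c (k ⟨0, 1, 0⟩ (.inr rfl))
    simp at h1 h2
    exact ⟨⟨u, h1, hu⟩, ⟨u, h2, hu⟩⟩

theorem main [Finite X] (hF : Fintype.card F = 4) (hπ : Function.Surjective π) (hk : π.ker = center X)
    (hZ : ∀ z ∈ center X, z ^ 2 = 1) (hH : H = (A0 F).comap π) (hK : K = (B0 F).comap π) :
    IsElementaryAbelian 2 H ∧ IsElementaryAbelian 2 K ∧ H ⊓ K = (center ↥(H ⊔ K)).map (H ⊔ K).subtype ∧
      (∃ C : Subgroup X, C ≤ normalizer (H : Set X) ∧ C ⊓ H = ⊥ ∧ H ⊔ C = normalizer (H : Set X) ∧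
        Nonempty (↥C ≃* Matrix.ProjectiveSpecialLinearGroup (Fin 2) F)) ∧
      (∃ C : Subgroup X, C ≤ normalizer (K : Set X) ∧ C ⊓ K = ⊥ ∧ K ⊔ C = normalizer (K : Set X) ∧
        Nonempty (↥C ≃* Matrix.ProjectiveSpecialLinearGroup (Fin 2) F)) := by
  have : CharP F 2 := charP_of_card_eq_prime_pow (p := 2) (f := 2) (by simpa using hF)
  obtain ⟨σ, hσ⟩ := exists_swap (F := F)
  have e1 : (A0 F).comap σ.toMonoidHom = B0 F := by
    refine (eq_of_le_of_card_ge ?_ ?_).symm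
    · rintro _ ⟨x, hx, rfl⟩
      exact ⟨_, hx, (hσ x).symm⟩
    · rw [card_B0 hF, ← card_A0 hF, comap_equiv_eq_map_symm', card_map_of_injective σ.symm.injective]
  have e2 : (B0 F).comap σ.toMonoidHom = A0 F := by
    refine (eq_of_le_of_card_ge ?_ ?_).symm
    · rintro _ ⟨x, hx, rfl⟩
      exact ⟨_, hx, (hσ x).symm⟩
    · rw [card_A0 hF, ← card_B0 hF, comap_equiv_eq_map_symm', card_map_of_injective σ.symm.injective]
  have hπ' : Function.Surjective (σ.toMonoidHom.comp π) := σ.surjective.comp hπ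
  have hk' : (σ.toMonoidHom.comp π).ker = center X := by
    rw [← hk]; ext x; simp [MonoidHom.mem_ker]
  have h1 := elem hF hπ hk hZ
  have h2 := elem hF hπ' hk' hZ
  have h3 := split hF hπ' h2 (by rwa [← comap_comap, e2])
  rw [← comap_comap, e1] at h2 h3
  subst hH hK
  exact ⟨h1, h2, inf_eq hπ h1 h2, split hF hπ h1 h2, h3⟩

end X

theorem result {X : Type*} [Group X] [Finite X] (hq : Cfsg.IsQuasisimple X) (hZ : Cfsg.IsElementaryAbelian 2 (Subgroup.center X))
    {F : Type*} [Field F] [Fintype F] (hF : Fintype.card F = 4) (hXL : Nonempty ((X ⧸ Subgroup.center X) ≃* Matrix.ProjectiveSpecialLinearGroup (Fin 3) F))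
    (T : Sylow 2 X) (H K : Subgroup X) (hHK : H ≠ K) (hHT : H ≤ T) (hKT : K ≤ T) (hZH : Subgroup.center X ≤ H) (hZK : Subgroup.center X ≤ K)
    (hH : Cfsg.IsElementaryAbelian 2 (H.map (QuotientGroup.mk' (Subgroup.center X))) ∧ Nat.card ↥(H.map (QuotientGroup.mk' (Subgroup.center X))) = 16)
    (hK : Cfsg.IsElementaryAbelian 2 (K.map (QuotientGroup.mk' (Subgroup.center X))) ∧ Nat.card ↥(K.map (QuotientGroup.mk' (Subgroup.center X))) = 16) :
    Cfsg.IsElementaryAbelian 2 H ∧ Cfsg.IsElementaryAbelian 2 K ∧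
      H ⊓ K = (Subgroup.center ↥(H ⊔ K)).map (H ⊔ K).subtype ∧
      (∃ C : Subgroup X, C ≤ Subgroup.normalizer (H : Set X) ∧ C ⊓ H = ⊥ ∧ H ⊔ C = Subgroup.normalizer (H : Set X) ∧
        Nonempty (↥C ≃* Matrix.ProjectiveSpecialLinearGroup (Fin 2) F)) ∧
      (∃ C : Subgroup X, C ≤ Subgroup.normalizer (K : Set X) ∧ C ⊓ K = ⊥ ∧ K ⊔ C = Subgroup.normalizer (K : Set X) ∧
        Nonempty (↥C ≃* Matrix.ProjectiveSpecialLinearGroup (Fin 2) F)) := by
  have : CharP F 2 := charP_of_card_eq_prime_pow (p := 2) (f := 2) (by simpa using hF)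
  obtain ⟨e⟩ := hXL
  obtain ⟨U, hU⟩ := (H3.isPGroup.of_surjective _ (H3.toPSL (F := F)).rangeRestrict_surjective).exists_le_sylow
  have hU' : (H3.toPSL (F := F)).range = U := by
    refine le_antisymm hU ?_
    obtain ⟨n, hn⟩ := (U.isPGroup'.index ((H3.toPSL (F := F)).range.subgroupOf U))
    rcases n with _ | n
    · exact subgroupOf_eq_top.1 (index_eq_one.1 hn)
    · exact (odd_U (F := F) (((dvd_pow_self 2 n.succ_ne_zero).trans hn.symm.dvd).trans
        (relIndex_dvd_index_of_le hU))).elim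
  let π₀ : X →* LL F := e.toMonoidHom.comp (QuotientGroup.mk' _)
  obtain ⟨U', hU1⟩ := (T.isPGroup'.map π₀).exists_le_sylow
  obtain ⟨g, hg⟩ := MulAction.exists_smul_eq (LL F) U' U
  let e' := e.trans (MulAut.conj g)
  let π : X →* LL F := e'.toMonoidHom.comp (QuotientGroup.mk' _)
  have hπ : Function.Surjective π := e'.surjective.comp (QuotientGroup.mk'_surjective _)
  have hk : π.ker = center X := by
    ext x
    rw [MonoidHom.mem_ker, ← QuotientGroup.eq_one_iff]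
    exact e'.map_eq_one_iff
  have key : ∀ H : Subgroup X, H ≤ T → center X ≤ H → IsElementaryAbelian 2 (H.map (QuotientGroup.mk' (center X))) ∧
      Nat.card ↥(H.map (QuotientGroup.mk' (center X))) = 16 → H = (A0 F).comap π ∨ H = (B0 F).comap π := by
    intro H h1 h2 h3
    have h4 : (H.map π).comap π = H := comap_map_eq_self (hk ▸ h2)
    refine (eq_A0_or hF (E := H.map π) ?_ ?_ ?_).imp (fun h => by rw [← h, h4]) (fun h => by rw [← h, h4])
    · rintro _ ⟨x, hx, rfl⟩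
      rw [hU', ← hg]
      exact smul_mem_pointwise_smul _ (MulAut.conj g) _ (hU1 ⟨x, h1 hx, rfl⟩)
    · rintro _ ⟨x, hx, rfl⟩
      change e' _ ^ 2 = 1
      rw [← map_pow, h3.1.2 _ ⟨x, hx, rfl⟩, map_one]
    · rw [← h3.2, ← Subgroup.map_map, card_map_of_injective e'.injective]
  rcases key H hHT hZH hH with h1 | h1 <;> rcases key K hKT hZK hK with h2 | h2
  · exact (hHK (h1.trans h2.symm)).elim
  · exact main hF hπ hk hZ.2 h1 h2
  · obtain ⟨a, b, c, d, e⟩ := main hF hπ hk hZ.2 h2 h1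
    rw [inf_comm, sup_comm] at c
    exact ⟨b, a, c, e, d⟩
  · exact (hHK (h1.trans h2.symm)).elim

end Cfsg.Agent.S3154
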