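import Cfsg.Statements.S3155
import Mathlib

set_option autoImplicit false
open Cfsg

namespace Cfsg.Agent.S3155

/-- Let B be the direct product of three cyclic groups of order 4. Then the automorphism of B inverting every element is not the square of any automorphism of B. -/
theorem result {B : Type*} [CommGroup B] [Finite B] (hB : Nonempty (B ≃* Multiplicative (ZMod 4 × ZMod 4 × ZMod 4)))
    (τ : B ≃* B) : τ.trans τ ≠ MulEquiv.inv B := by
  obtain ⟨e⟩ := hB
  intro h
  let σ := (e.symm.trans τ).trans e
  let T : (ZMod 4 × ZMod 4 × ZMod 4) →ₗ[ZMod 4] (ZMod 4 × ZMod 4 × ZMod 4) :=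
    (AddMonoidHom.toMultiplicative.symm σ.toMonoidHom).toZModLinearMap 4
  have hT : T ∘ₗ T = (-1 : ZMod 4) • LinearMap.id := by
    refine LinearMap.ext fun x => ?_
    have h1 := DFunLike.congr_fun h (e.symm (Multiplicative.ofAdd x))
    change Multiplicative.toAdd (e (τ (e.symm (e (τ (e.symm (Multiplicative.ofAdd x))))))) = _
    rw [e.symm_apply_apply]
    change τ (τ _) = (e.symm (Multiplicative.ofAdd x))⁻¹ at h1
    rw [h1, map_inv, e.apply_symm_apply]
    simp
  have : Nontrivial (ZMod 4) := ⟨⟨0, 1, by decide⟩⟩
  have h2 := congrArg LinearMap.det hT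
  rw [LinearMap.det_comp, LinearMap.det_smul, LinearMap.det_id, Module.finrank_prod,
    Module.finrank_prod, Module.finrank_self] at h2
  generalize LinearMap.det T = d at h2
  revert d
  decide

end Cfsg.Agent.S3155
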