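import Cfsg.Statements.S3162
import Cfsg.Agent.CLAS.U3Aut

set_option autoImplicit false
open Cfsg

namespace Cfsg.Agent.S3162

/-- Let S be a Sylow 2-subgroup of the special unitary group of dimension 3 with parameter q = 2^n (n ≥ 2; realised over the field with q² elements). Then the largest normal 2-subgroup of the automorphism group of S is elementary abelian of order 2^(2n²), and the automorphism group has order 2^(2n²) · 2n(q² − 1). -/
theorem result {S : Type*} [Group S] [Finite S] (n : ℕ) (hn : 2 ≤ n) {F : Type*} [Field F] [Fintype F] (hF : Fintype.card F = 4 ^ n)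
    (P : Sylow 2 ↥(Cfsg.SU 3 F (2 ^ n))) (hS : Nonempty (S ≃* ↥(P : Subgroup ↥(Cfsg.SU 3 F (2 ^ n))))) :
    Cfsg.IsElementaryAbelian 2 (Cfsg.pCore 2 (MulAut S)) ∧ Nat.card ↥(Cfsg.pCore 2 (MulAut S)) = 2 ^ (2 * n ^ 2) ∧
      Nat.card (MulAut S) = 2 ^ (2 * n ^ 2) * (2 * n * ((2 ^ n) ^ 2 - 1)) := by
  have hF' : Fintype.card F = (2 ^ n) ^ 2 := by rw [hF, ← pow_mul, mul_comm, pow_mul]; rfl
  have := CL.U3.charP_two (by omega) hF'
  have h2 : (2 : F) = 0 := CharTwo.two_eq_zero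
  obtain ⟨e₀⟩ := hS
  obtain ⟨e₁⟩ := CL.U3.nonempty_sylow_SU hF' 2 P
  let e := MulAut.congr (e₀.trans e₁)
  have hp : Cfsg.pCore 2 (MulAut S) = (CL.U3.S.abarHom.ker).comap e.toMonoidHom := by
    rw [← CL.U3.S.pCore_aut, ← CL.map_pCore_equiv e]
    exact (Subgroup.comap_map_eq_self_of_injective e.injective _).symm
  refine ⟨?_, ?_, by rw [Nat.card_congr e.toEquiv, CL.U3.S.card_aut]⟩
  · rw [hp]
    refine ⟨⟨⟨fun a b => Subtype.ext (e.injective ?_)⟩⟩, fun a ha => e.injective ?_⟩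
    · simp only [Subgroup.coe_mul, map_mul]
      exact CL.U3.S.ker_comm a.2 b.2
    · simpa using CL.U3.S.ker_sq h2 ha
  · rw [hp, Subgroup.comap_equiv_eq_map_symm', Subgroup.card_map_of_injective e.symm.injective,
      CL.U3.S.card_ker_abarHom 2 (k := 2 * n) (by ring)]
    ring

end Cfsg.Agent.S3162
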