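import Cfsg.Statements.S3171
import Cfsg.Agent.SYL.U5Facts

set_option autoImplicit false
open Cfsg

namespace Cfsg.Agent.S3171

/-- Let P be a Sylow 2-subgroup of the Mathieu group of degree 24 and S the quotient of P by its centre. Then the centre of every maximal subgroup of S has order at most 8; S has an elementary abelian subgroup of order 64; and S has only one abelian subgroup of order 64. -/
theorem result (P : Sylow 2 ↥Cfsg.M24) :
    (∀ M : Subgroup (↥(P : Subgroup ↥Cfsg.M24) ⧸ Subgroup.center ↥(P : Subgroup ↥Cfsg.M24)), IsCoatom M →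
        Nat.card ↥(Subgroup.center ↥M) ≤ 8) ∧
      (∃ A : Subgroup (↥(P : Subgroup ↥Cfsg.M24) ⧸ Subgroup.center ↥(P : Subgroup ↥Cfsg.M24)),
        Cfsg.IsElementaryAbelian 2 A ∧ Nat.card ↥A = 64) ∧
      ∀ A B : Subgroup (↥(P : Subgroup ↥Cfsg.M24) ⧸ Subgroup.center ↥(P : Subgroup ↥Cfsg.M24)),
        IsMulCommutative ↥A → Nat.card ↥A = 64 → IsMulCommutative ↥B → Nat.card ↥B = 64 → A = B := by
  obtain ⟨e₀⟩ := CL.Syl.T10.equiv_M24 P
  obtain ⟨e⟩ := CL.Syl.T10.quot_equiv e₀
  refine ⟨fun M hM => ?_, ⟨CL.Syl.M9.A.comap e.toMonoidHom, ⟨?_, fun a ha => e.injective ?_⟩, ?_⟩,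
    fun A B hA hA' hB hB' => (CL.Syl.M9.eq_comap e hA hA').trans (CL.Syl.M9.eq_comap e hB hB').symm⟩
  · have : Finite _ := Finite.of_equiv _ e.symm.toEquiv
    have hi := CL.PG.coatom_index (CL.Syl.M9.isPGroup.of_equiv e.symm) hM
    rw [← Subgroup.card_map_of_injective (f := e.toMonoidHom.comp M.subtype)
      (e.injective.comp M.subtype_injective)]
    refine CL.Syl.M9.card_le_of_small _ ?_
    rintro _ ⟨z, hz, rfl⟩ g k
    obtain ⟨g, rfl⟩ := e.surjective g
    obtain ⟨k, rfl⟩ := e.surjective k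
    have c : ∀ x ∈ M, Commute ((e.toMonoidHom.comp M.subtype) z) (e x) := fun x hx =>
      (Commute.map (show Commute z ⟨x, hx⟩ from (Subgroup.mem_center_iff.1 hz _).symm)
        (e.toMonoidHom.comp M.subtype) :)
    by_cases hg : g ∈ M
    · exact Or.inl (c g hg)
    by_cases hk : k ∈ M
    · exact Or.inr (Or.inl (c k hk))
    rw [← map_mul]
    exact Or.inr (Or.inr (c _ ((Subgroup.mul_mem_iff_of_index_two hi).2 (iff_of_false hg hk))))
  · have := CL.Syl.M9.comm_A
    exact Subgroup.comap_injective_isMulCommutative _ e.injective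
  · rw [map_pow, map_one, sq]; exact CL.Syl.M9.sq_A ha
  · rw [Subgroup.comap_equiv_eq_map_symm', Subgroup.card_map_of_injective e.symm.injective,
      CL.Syl.M9.card_A]

end Cfsg.Agent.S3171
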