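import Cfsg.Statements.S3174
import Cfsg.Agent.SOLV.RuT4

set_option autoImplicit false
open Cfsg

namespace Cfsg.Agent.S3174

/-- Let T be a finite 2-group of order at least 2^14 in which the fourth term of the upper central series has order 16. Let W be the centralizer in T of the third term Z₃(T), and suppose the Frattini subgroup of W has order at most 8 and lies in every subgroup of W of index at most 16. Then T has order exactly 2^14; the derived subgroup of W and the Frattini subgroup of W both equal Z₃(T), which is elementary abelian of order 8; the centre of W has order 8; W is normal in T with quotient dihedral of order 8; and W modulo its derived subgroup is elementary abelian of order 2^8. -/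
theorem result {T : Type*} [Group T] [Finite T]
    (hT : IsPGroup 2 T) (ha : 2 ^ 14 ≤ Nat.card T) (hb : Nat.card ↥(Subgroup.upperCentralSeries T 4) = 16)
    (W : Subgroup T) (hW : W = Subgroup.centralizer ((Subgroup.upperCentralSeries T 3 : Subgroup T) : Set T))
    (hc : Nat.card ↥(frattini ↥W) ≤ 8) (hd : ∀ U : Subgroup ↥W, U.index ≤ 16 → frattini ↥W ≤ U) :
    Nat.card T = 2 ^ 14 ∧
      (commutator ↥W).map W.subtype = Subgroup.upperCentralSeries T 3 ∧
      (frattini ↥W).map W.subtype = Subgroup.upperCentralSeries T 3 ∧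
      Nat.card ↥(Subgroup.center ↥W) = 8 ∧
      Nat.card ↥(Subgroup.upperCentralSeries T 3) = 8 ∧ (∀ z ∈ Subgroup.upperCentralSeries T 3, z ^ 2 = 1) ∧
      (∃ (_ : W.Normal), Nonempty (T ⧸ W ≃* DihedralGroup 4)) ∧
      Nat.card (↥W ⧸ commutator ↥W) = 2 ^ 8 ∧ (∀ x : ↥W ⧸ commutator ↥W, x ^ 2 = 1) := by
  have h := CL.RuT.Ru.mk' hT ha hb hW hc hd
  haveI := h.nW
  have hder : (commutator ↥W).map W.subtype = Subgroup.upperCentralSeries T 3 := by
    rw [Subgroup.map_subtype_commutator]; exact h.der
  have hsub : commutator ↥W = (Subgroup.upperCentralSeries T 3).subgroupOf W := by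
    rw [← hder, Subgroup.subgroupOf, Subgroup.comap_map_eq_self_of_injective W.subtype_injective]
  have hcen : Subgroup.center ↥W = (Subgroup.upperCentralSeries T 3).subgroupOf W := by
    ext x
    rw [Subgroup.mem_subgroupOf, Subgroup.mem_center_iff]
    refine ⟨fun k => h.cen.le (Subgroup.mem_inf.2 ⟨x.2, fun y hy => congrArg Subtype.val (k ⟨y, hy⟩)⟩),
      fun k y => Subtype.ext ((h.cen.ge k).2 y y.2)⟩
  refine ⟨h.main.1, hder, h.NZ, ?_, h.c3, fun z hz => (pow_two z).trans (h.elem hz), ⟨h.nW, h.dih⟩, ?_,
    fun x => ?_⟩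
  · rw [hcen, Nat.card_congr (Subgroup.subgroupOfEquivOfLe h.ZW).toEquiv, h.c3]
  · have := h.main.2.2.1
    rw [h.NZ] at this
    rw [← this, Subgroup.relIndex, ← hsub]
    rfl
  · obtain ⟨y, rfl⟩ := QuotientGroup.mk_surjective x
    rw [← QuotientGroup.mk_pow, QuotientGroup.eq_one_iff, hsub, Subgroup.mem_subgroupOf, pow_two]
    exact h.sq3 y y.2

end Cfsg.Agent.S3174
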