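import Cfsg.Statements.S3175
import Cfsg.Agent.SOLV.RuT4
import Cfsg.Agent.FUS.AbSSol
import Cfsg.Agent.S2007

set_option autoImplicit false
open Cfsg

namespace Cfsg.Agent.S3175

section
open Subgroup CL.RuT CL.SR1

theorem rel01 {T : Type*} [Group T] [Finite T] {W N : Subgroup T} (h : Ru W N) :
    (frattini T).relIndex (frattini T ⊔ W) ∣ 2 := by
  haveI : Fact (Nat.Prime 2) := ⟨Nat.prime_two⟩
  have hc : ∀ x y : T, x * y * x⁻¹ * y⁻¹ ∈ frattini T := fun x y =>
    CL.PG.commutatorElement_mem_frattini h.pg x y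
  have hs : ∀ x : T, x * x ∈ frattini T := fun x => pow_two x ▸ CL.PG.pow_mem_frattini h.pg x
  obtain ⟨-, v, -, -, -, hv, -, hgen⟩ := h.exV
  let E : Subgroup T :=
    { carrier := {x | x * v ∈ frattini T ∨ x ∈ frattini T}
      one_mem' := Or.inr (one_mem _)
      mul_mem' := by
        rintro x y (hx | hx) (hy | hy)
        · refine Or.inr ?_
          have := mul_mem (mul_mem hx (Normal.conj_mem inferInstance _ hy v⁻¹)) (hs v⁻¹)
          convert this using 1; group
        · refine Or.inl ?_
          have := mul_mem hx (Normal.conj_mem inferInstance _ hy v⁻¹)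
          convert this using 1; group
        · exact Or.inl (by rw [mul_assoc]; exact mul_mem hx hy)
        · exact Or.inr (mul_mem hx hy)
      inv_mem' := by
        rintro x (hx | hx)
        · refine Or.inl ?_
          have := mul_mem (hs x⁻¹) hx
          convert this using 1; group
        · exact Or.inr (inv_mem hx) }
  have hW : W ≤ E := hgen E (fun z hz => Or.inr (CL.PG.commutator_le_frattini h.pg
    (commutator_mono le_top le_top (h.der.ge hz)))) fun g => Or.inl (by
      have := mul_mem (hc g v) (hs v)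
      convert this using 1; group)
  rw [relIndex_sup_left, relIndex_dvd_two_iff]
  exact ⟨v, hv, fun b hb => hW hb⟩

theorem rel12 {T : Type*} [Group T] [Finite T] {W N : Subgroup T} (h : Ru W N) :
    (frattini T ⊔ W).relIndex (CC T) ∣ 2 := by
  haveI : Fact (Nat.Prime 2) := ⟨Nat.prime_two⟩
  obtain ⟨a, b, -, a1, a2, -, b1, b2, -, -⟩ := h.abt
  have hab : a * b ∉ CC T := fun hh => a1 ((mul_mem_cancel_right b1).1 hh)
  have h2 : a * b * (a * b) ∉ W := fun hh => b2 ((mul_mem_cancel_left a2).1 (h.sqW hab hh))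
  have h3 : a * b * (a * b) ∈ CC T ⊓ LL T :=
    mem_inf.2 ⟨(mul_iff h.rels.2.2 (mem_top _) (mem_top _)).2 Iff.rfl, h.sqL _⟩
  rw [← h.rels.2.1]
  exact relIndex_dvd_of_le_left _ (le_of_two h.rels.1 h3 h2 le_sup_right
    (mem_sup_left (pow_two (a * b) ▸ CL.PG.pow_mem_frattini h.pg (a * b))))

theorem triv {G : Type*} [Group G] [Finite G] {T : Subgroup G} {W N : Subgroup T} (h : Ru W N) :
    CL.Fus.PCTriv 2 (MulAut T) := by
  haveI : Fact (Nat.Prime 2) := ⟨Nat.prime_two⟩
  haveI : W.Characteristic := by rw [h.hW]; infer_instance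
  let K : ℕ → Subgroup T := fun n => match n with
    | 0 => frattini T
    | 1 => frattini T ⊔ W
    | 2 => CC T
    | _ + 3 => ⊤
  haveI : ∀ m, (K m).Characteristic := fun m => match m with
    | 0 => inferInstanceAs (frattini T).Characteristic
    | 1 => characteristic_iff_map_eq.2 fun φ => by
      change map _ (frattini T ⊔ W) = frattini T ⊔ W
      rw [Subgroup.map_sup, characteristic_iff_map_eq.1 inferInstance φ,
        characteristic_iff_map_eq.1 inferInstance φ]
    | 2 => inferInstanceAs (CC T).Characteristic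
    | _ + 3 => inferInstanceAs (⊤ : Subgroup T).Characteristic
  refine CL.Fus.pcTriv_of_chain h.pg K le_rfl (fun m => ?_) (N := 3) rfl
  match m with
  | 0 => exact rel01 h
  | 1 => exact rel12 h
  | 2 => exact h.rels.2.2.dvd
  | _ + 3 => exact (relIndex_top_left _).dvd.trans (one_dvd 2)

theorem weak {G : Type*} [Group G] [Finite G] {T : Subgroup G} {W N : Subgroup T} (h : Ru W N) :
    Cfsg.IsWeaklyClosed (W.map T.subtype) T := by
  refine ⟨map_subtype_le _, fun g hg => ?_⟩
  have hcard : Nat.card ((W.map T.subtype).map (MulAut.conj g).toMonoidHom) =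
      Nat.card (W.map T.subtype) := card_map_of_injective (MulAut.conj g).injective
  let W' : Subgroup T := ((W.map T.subtype).map (MulAut.conj g).toMonoidHom).subgroupOf T
  have hc' : Nat.card W' = Nat.card W := by
    rw [Nat.card_congr (subgroupOfEquivOfLe hg).toEquiv, hcard, card_map_of_injective T.subtype_injective]
  have hi : W'.index = 8 := by
    have h1 := W'.card_mul_index
    have h2 := W.card_mul_index
    rw [h.main.2.1, ← h1, hc'] at h2
    exact (Nat.eq_of_mul_eq_mul_left Nat.card_pos h2).symm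
  have hZ := h.ts (U := W' ⊓ W)
    (K := (((Z T 3).map T.subtype).map (MulAut.conj g).toMonoidHom).subgroupOf T) inf_le_right
    (by
      rw [inf_relIndex_right, ← hi, ← relIndex_top_right]
      exact relIndex_le_of_le_right le_top (by rw [relIndex_top_right, hi]; omega))
    (by
      rintro x ⟨⟨_, ⟨w, hw, rfl⟩, e⟩, -⟩
      exact ⟨_, ⟨_, h.sq3 w hw, rfl⟩, by rw [map_mul, map_mul, e]; rfl⟩)
  refine eq_of_le_of_card_ge (fun x hx => ⟨⟨x, hg hx⟩, ?_, rfl⟩) hcard.ge
  obtain ⟨_, ⟨w, hw, rfl⟩, rfl⟩ := hx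
  refine h.hW.ge fun z hz => ?_
  obtain ⟨_, ⟨y, hy, rfl⟩, e⟩ := hZ hz
  refine Subtype.ext ?_
  have e' : (z : G) = (MulAut.conj g).toMonoidHom (T.subtype y) := e.symm
  rw [coe_mul, coe_mul, e', ← map_mul, ← map_mul, ← map_mul, ← map_mul, mul_inv_eq_iff_eq_mul.1 (h.cW hw hy)]

end

/-- Let G be a finite group whose Sylow 2-subgroup T has order at least 2^14 and whose upper central series has fourth term of order 16; let W be the centralizer in T of the third term, and suppose the Frattini subgroup of W has order at most 8 and lies in every subgroup of W of index at most 16. Then the normalizer of T in G has a normal 2-complement, and W is weakly closed in T with respect to G. -/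
theorem result {G : Type*} [Group G] [Finite G]
    (T : Sylow 2 G) (ha : 2 ^ 14 ≤ Nat.card ↥(T : Subgroup G))
    (hb : Nat.card ↥(Subgroup.upperCentralSeries ↥(T : Subgroup G) 4) = 16)
    (W : Subgroup ↥(T : Subgroup G))
    (hW : W = Subgroup.centralizer ((Subgroup.upperCentralSeries ↥(T : Subgroup G) 3 : Subgroup ↥(T : Subgroup G)) : Set ↥(T : Subgroup G)))
    (hc : Nat.card ↥(frattini ↥W) ≤ 8)
    (hd : ∀ U : Subgroup ↥W, U.index ≤ 16 → frattini ↥W ≤ U) :
    Cfsg.HasNormalPComplement 2 ↥(Subgroup.normalizer ((T : Subgroup G) : Set G)) ∧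
      Cfsg.IsWeaklyClosed (W.map (T : Subgroup G).subtype) (T : Subgroup G) := by
  haveI : Fact (Nat.Prime 2) := ⟨Nat.prime_two⟩
  have h := CL.RuT.Ru.mk' T.isPGroup' ha hb hW hc hd
  refine ⟨S2007.result T _ le_rfl Subgroup.le_normalizer inf_le_left fun g hg ho => ?_, weak h⟩
  have h1 := (triv h).eq_one_two (α := (T : Subgroup G).normalizerMonoidHom ⟨g, hg⟩)
    (Nat.Coprime.coprime_dvd_left ((orderOf_map_dvd _ _).trans (Subgroup.orderOf_mk g hg).dvd) ho)
  intro x hx
  have := congrArg (fun f : MulAut (T : Subgroup G) => ((f ⟨x, hx⟩ : (T : Subgroup G)) : G)) h1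
  exact (mul_inv_eq_iff_eq_mul.1 this).symm

end Cfsg.Agent.S3175
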