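import Cfsg.Statements.S3178
import Cfsg.Agent.INV.FusInv2
import Cfsg.Agent.SOLV.PGroupCyclicMax

set_option autoImplicit false
open Cfsg

namespace Cfsg.Agent.S3178


/-- Groups with a modular Sylow 2-subgroup have a normal 2-complement. Let S, of order 2^(n+1) with n ≥ 3, be a Sylow 2-subgroup of a finite group G, and suppose S contains an element a of order 2^n and an involution b with b a b⁻¹ = a^(2^(n-1) + 1); so S is the non-abelian 2-group with a cyclic subgroup of index 2 that is neither dihedral, semidihedral nor generalized quaternion. Then G has a normal 2-complement. -/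
theorem result {G : Type*} [Group G] [Finite G]
    (S : Sylow 2 G) (n : ℕ) (hn : 3 ≤ n) (hS : Nat.card ↥(S : Subgroup G) = 2 ^ (n + 1))
    (a b : G) (ha : a ∈ (S : Subgroup G)) (hb : b ∈ (S : Subgroup G))
    (hao : orderOf a = 2 ^ n) (hbo : orderOf b = 2) (hrel : b * a * b⁻¹ = a ^ (2 ^ (n - 1) + 1)) :
    Cfsg.HasNormalPComplement 2 G := by
  obtain ⟨m, rfl⟩ : ∃ m, n = m + 3 := ⟨n - 3, by omega⟩
  obtain ⟨M, hM⟩ : ∃ M : ℤ, M = 2 ^ m := ⟨_, rfl⟩
  have hM0 : M ≠ 0 := by rw [hM]; positivity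
  have h1 : ∀ k : ℤ, a ^ k = 1 ↔ 8 * M ∣ k := fun k => by
    rw [← orderOf_dvd_iff_zpow_eq_one, hao, hM]; push_cast; rw [pow_add, mul_comm]; rfl
  have hrel' : b * a * b⁻¹ = a ^ (4 * M + 1) := by
    rw [hrel, ← zpow_natCast, hM]; congr 1; push_cast; ring
  have hc := CL.PCyc.conj_zpow_eq hrel'
  have bb : b * b = 1 := by rw [← sq, ← hbo, pow_orderOf_eq_one]
  have bi : b⁻¹ = b := inv_eq_of_mul_eq_one_right bb
  set z := a ^ (4 * M) with hz
  have z1 : z ≠ 1 := fun e => by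
    obtain ⟨c, hc⟩ := (h1 _).1 e
    have : M * (4 - 8 * c) = 0 := by linear_combination hc
    rcases mul_eq_zero.1 this with h | h <;> omega
  have zz : z * z = 1 := by rw [hz, ← zpow_add, h1]; exact ⟨1, by ring⟩
  have zj : ∀ j : ℤ, z ^ j = 1 ∨ z ^ j = z := fun j => by
    rcases Int.even_or_odd' j with ⟨k, rfl | rfl⟩
    · left; rw [zpow_mul, zpow_two, zz, one_zpow]
    · right; rw [zpow_add_one, zpow_mul, zpow_two, zz, one_zpow, one_mul]
  have hc' : ∀ i : ℤ, b * a ^ i = a ^ i * z ^ i * b := fun i => by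
    rw [← mul_inv_eq_iff_eq_mul, hc, hz, ← zpow_mul, ← zpow_add]; congr 1; ring
  have hnf : ∀ x ∈ (S : Subgroup G), ∃ i : ℤ, x = a ^ i ∨ x = a ^ i * b := by
    have hle : Subgroup.zpowers a ≤ S := Subgroup.zpowers_le.2 ha
    have hi : (Subgroup.zpowers a).relIndex S = 2 := by
      have := ((Subgroup.zpowers a).subgroupOf S).index_mul_card
      rw [Nat.card_congr (Subgroup.subgroupOfEquivOfLe hle).toEquiv, Nat.card_zpowers, hao, hS,
        pow_succ' 2 (m + 3)] at this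
      exact Nat.eq_of_mul_eq_mul_right (by positivity) this
    have hb' : b ∉ Subgroup.zpowers a := by
      rintro ⟨k, rfl⟩
      have := hc' 1
      simp only [zpow_one] at this
      rw [← zpow_add_one, add_comm, zpow_one_add, mul_left_inj, left_eq_mul] at this
      exact z1 this
    intro x hx
    by_cases h : x ∈ Subgroup.zpowers a
    · obtain ⟨i, rfl⟩ := h; exact ⟨i, Or.inl rfl⟩
    · have : (⟨x, hx⟩ * ⟨b, hb⟩ : S) ∈ (Subgroup.zpowers a).subgroupOf S := by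
        rw [Subgroup.mul_mem_iff_of_index_two hi]
        simp only [Subgroup.mem_subgroupOf, h, hb']
      obtain ⟨i, hi⟩ := this
      have hi' : a ^ i = x * b := hi
      exact ⟨i, Or.inr (by rw [hi', mul_assoc, bb, mul_one])⟩
  have ca : ∀ i j : ℤ, Commute (a ^ i) (a ^ j) := fun i j => (Commute.refl a).zpow_zpow i j
  have cb : ∀ k : ℤ, Commute b (a ^ (2 * k)) := fun k => by
    show _ = _
    rw [hc', zpow_mul z, zpow_two, zz, one_zpow, mul_one]
  have cz : ∀ x ∈ (S : Subgroup G), Commute x z := fun x hx => by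
    have : Commute b z := by rw [hz, show 4 * M = 2 * (2 * M) by ring]; exact cb _
    obtain ⟨i, rfl | rfl⟩ := hnf x hx
    · exact ca _ _
    · exact (ca _ _).mul_left this
  have hsq : ∀ i : ℤ, a ^ i * b * (a ^ i * b) = a ^ (i * (4 * M + 2)) := fun i => by
    calc a ^ i * b * (a ^ i * b) = a ^ i * (b * a ^ i * b⁻¹) := by rw [bi]; group
      _ = _ := by rw [hc, ← zpow_add]; congr 1; ring
  have hdvd : ∀ k : ℤ, a ^ k = 1 ∨ a ^ k = z → 4 * M ∣ k := by
    rintro k (h | h)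
    · exact (Dvd.intro 2 (by ring)).trans ((h1 k).1 h)
    · rw [hz, ← mul_inv_eq_one, ← zpow_sub, h1] at h
      obtain ⟨c, hc⟩ := h
      exact ⟨2 * c + 1, by linear_combination hc⟩
  have F3 : ∀ x ∈ (S : Subgroup G), x * x = 1 ∨ x * x = z →
      ∃ k : ℤ, x = a ^ (2 * k) ∨ x = a ^ (2 * k) * b := by
    intro x hx h
    obtain ⟨i, rfl | rfl⟩ := hnf x hx
    · rw [← zpow_add] at h
      obtain ⟨c, hc⟩ := hdvd _ h
      exact ⟨M * c, Or.inl (by congr 1; linarith)⟩
    · rw [hsq] at h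
      obtain ⟨c, hc⟩ := hdvd _ h
      exact ⟨M * (c - i), Or.inr (by congr 2; linarith)⟩
  have F3' : ∀ x ∈ (S : Subgroup G), ∀ y ∈ (S : Subgroup G), x * x = 1 ∨ x * x = z →
      y * y = 1 ∨ y * y = z → Commute x y := by
    intro x hx y hy h h'
    obtain ⟨k, rfl | rfl⟩ := F3 x hx h <;> obtain ⟨l, rfl | rfl⟩ := F3 y hy h'
    · exact ca _ _
    · exact (ca _ _).mul_right (cb _).symm
    · exact (ca _ _).mul_left (cb _)
    · exact ((ca _ _).mul_right (cb _).symm).mul_left ((cb _).mul_right (Commute.refl b))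
  have F4 : ∀ x ∈ (S : Subgroup G), x * x = 1 → x = 1 ∨ x = z ∨ ∃ j : ℤ, x = z ^ j * b := by
    intro x hx h
    obtain ⟨k, rfl | rfl⟩ := F3 x hx (Or.inl h)
    · rw [← zpow_add, h1] at h
      obtain ⟨c, hc⟩ := h
      have : a ^ (2 * k) = z ^ c := by rw [hz, ← zpow_mul]; congr 1; linarith
      rw [this]
      exact (zj c).imp_right Or.inl
    · rw [hsq, h1] at h
      obtain ⟨c, hc⟩ := h
      exact Or.inr (Or.inr ⟨c - k, by rw [hz, ← zpow_mul]; congr 2; linarith⟩)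
  have F2 : ∀ x ∈ (S : Subgroup G), ∀ w ∈ (S : Subgroup G), ∃ j : ℤ, x * w * x⁻¹ = w * z ^ j := by
    have pa : ∀ i : ℤ, ∀ w ∈ (S : Subgroup G), ∃ j : ℤ, a ^ i * w * (a ^ i)⁻¹ = w * z ^ j := by
      intro i w hw
      obtain ⟨k, rfl | rfl⟩ := hnf w hw
      · exact ⟨0, by group⟩
      · refine ⟨-i, ?_⟩
        rw [← zpow_neg, mul_assoc, mul_assoc, hc', mul_assoc (a ^ k), ((cz b hb).zpow_right _).eq]
        group
    intro x hx w hw
    obtain ⟨i, rfl | rfl⟩ := hnf x hx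
    · exact pa i w hw
    · obtain ⟨j, hj⟩ := pa i _ (mul_mem (mul_mem hb hw) (inv_mem hb))
      obtain ⟨l, hl⟩ : ∃ l : ℤ, b * w * b⁻¹ = w * z ^ l := by
        obtain ⟨k, rfl | rfl⟩ := hnf w hw
        · exact ⟨k, by rw [hc']; group⟩
        · exact ⟨k, by rw [← mul_assoc, hc', mul_assoc (a ^ k) b,
            ((cz b hb).zpow_right _).eq]; group⟩
      exact ⟨l + j, by rw [zpow_add, ← mul_assoc w, ← hl, ← hj]; group⟩
  refine CL.FusInv.hasNPC_of_quiet S fun E hE hC g hg ho => ?_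
  have hm : ∀ x ∈ E, g * x * g⁻¹ ∈ E := fun x hx => (Subgroup.mem_normalizer_iff.1 hg x).1 hx
  obtain ⟨c, hcE, hcz⟩ : ∃ c ∈ E, c * c = z := by
    refine ⟨a ^ (2 * M), hC ⟨fun x hx => ?_, zpow_mem ha _⟩, by rw [← zpow_add, hz]; congr 1; ring⟩
    obtain ⟨i, rfl | rfl⟩ := hnf x (hE hx)
    · exact ca _ _
    · exact (ca _ _).mul_left (cb _)
  let Q := Subgroup.closure ((fun x => x * x) '' (E : Set G))
  have hQ : Q ≤ Subgroup.zpowers a := by
    rw [Subgroup.closure_le]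
    rintro _ ⟨x, hx, rfl⟩
    obtain ⟨i, rfl | rfl⟩ := hnf x (hE hx)
    · exact ⟨i + i, zpow_add _ _ _⟩
    · exact ⟨_, (hsq i).symm⟩
  have : IsCyclic Q := Subgroup.isCyclic_of_le hQ
  have hgQ : g ∈ Subgroup.normalizer (Q : Set G) := by
    refine Subgroup.mem_normalizer_fintype fun x hx => ?_
    have : Q ≤ Q.comap (MulAut.conj g).toMonoidHom := by
      rw [Subgroup.closure_le]
      rintro _ ⟨x, hx, rfl⟩
      exact Subgroup.subset_closure ⟨_, hm x hx, by simp⟩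
    exact this hx
  have s1 : ∀ x ∈ E, x * x * g = g * (x * x) := fun x hx =>
    CL.FusInv.quiet_of_isCyclic (S.isPGroup'.to_le (hQ.trans (Subgroup.zpowers_le.2 ha))) g hgQ ho
      _ (Subgroup.subset_closure ⟨x, hx, rfl⟩)
  have s1' : ∀ x ∈ E, g * x * g⁻¹ * (g * x * g⁻¹) = x * x := fun x hx => by
    rw [conj_mul, ← s1 x hx, mul_inv_cancel_right]
  have gz : z * g = g * z := hcz ▸ s1 c hcE
  have tr : ∀ x ∈ E, x⁻¹ * (g * x * g⁻¹) * g = g * (x⁻¹ * (g * x * g⁻¹)) → x * g = g * x := by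
    intro x hx h
    obtain ⟨k, hk⟩ := S.isPGroup' ⟨_, hE (mul_mem (inv_mem hx) (hm x hx))⟩
    exact CL.FusInv.comm_of_triv ho (congrArg Subtype.val hk) rfl h
  have s2 : ∀ x ∈ E, x * x = 1 → x * g = g * x := by
    intro x hx h
    rcases F4 x (hE hx) h with rfl | rfl | ⟨j, hj⟩
    · simp
    · exact gz
    rcases F4 _ (hE (hm x hx)) ((s1' x hx).trans h) with e | e | ⟨l, hl⟩
    · rw [mul_inv_eq_one, mul_eq_left] at e
      simp [e]
    · rw [mul_inv_eq_iff_eq_mul, gz, mul_right_inj] at e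
      rw [e, gz]
    · apply tr x hx
      have : x⁻¹ * (g * x * g⁻¹) = z ^ (l - j) := by
        rw [hl, hj, ← ((cz b hb).zpow_right _).eq, ← ((cz b hb).zpow_right _).eq]; group
      rw [this]
      exact (Commute.zpow_left gz _).eq
  have s3 : ∀ x ∈ E, x * x = 1 ∨ x * x = z → x * g = g * x := by
    intro x hx h
    refine tr x hx (s2 _ (mul_mem (inv_mem hx) (hm x hx)) ?_)
    have k := F3' x (hE hx) _ (hE (hm x hx)) h (by rwa [s1' x hx])
    rw [← sq, k.inv_left.mul_pow, sq, sq, s1' x hx]; group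
  intro x hx
  refine tr x hx (s3 _ (mul_mem (inv_mem hx) (hm x hx)) ?_)
  set w := x⁻¹ * (g * x * g⁻¹) with hw
  obtain ⟨j, hj⟩ := F2 x⁻¹ (inv_mem (hE hx)) w (hE (mul_mem (inv_mem hx) (hm x hx)))
  have k : x * w * (x * w) = x * x := by rw [hw, mul_inv_cancel_left, s1' x hx]
  have k2 : w * w * z ^ j = 1 := by
    rw [mul_assoc, ← hj]
    calc w * (x⁻¹ * w * x⁻¹⁻¹) = w * (x⁻¹ * x⁻¹ * (x * w * (x * w)) * w⁻¹) := by group
      _ = 1 := by rw [k]; group
  rcases zj j with e | e <;> rw [e] at k2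
  · exact Or.inl (by rwa [mul_one] at k2)
  · exact Or.inr (by rw [← mul_left_inj z, k2, zz])

end Cfsg.Agent.S3178
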