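import Cfsg.Statements.S3179
import Mathlib
import Cfsg.Agent.CHEV.SzCount
import Cfsg.Agent.KSG.PSL2Basic
import Cfsg.Agent.S0280

set_option autoImplicit false
open Cfsg

namespace Cfsg.Agent.S3179

open Polynomial in
theorem no_nine (A : GL (Fin 5) (ZMod 2)) (h : A ^ 9 = 1) : A ^ 3 = 1 := by
  have : Fact (Nat.Prime 2) := ⟨Nat.prime_two⟩
  have hirr : Irreducible (cyclotomic 9 (ZMod 2)) := by
    refine ZMod.irreducible_of_dvd_cyclotomic_of_natDegree (p := 2) (n := 9) (by norm_num) dvd_rfl ?_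
    rw [natDegree_cyclotomic, ← orderOf_units, ZMod.coe_unitOfCoprime]
    rw [show Nat.totient 9 = 6 by decide]
    symm
    rw [orderOf_eq_iff (by norm_num)]
    decide
  have hfac : (X ^ 9 - 1 : (ZMod 2)[X]) = cyclotomic 9 (ZMod 2) * (X ^ 3 - 1) := by
    have := cyclotomic_prime_pow_mul_X_pow_sub_one (ZMod 2) 3 1
    simpa using this.symm
  have hdvd : minpoly (ZMod 2) (A : Matrix (Fin 5) (Fin 5) (ZMod 2)) ∣
      cyclotomic 9 (ZMod 2) * (X ^ 3 - 1) := by
    rw [← hfac]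
    apply minpoly.dvd
    have := congrArg (fun B : GL (Fin 5) (ZMod 2) => (B : Matrix (Fin 5) (Fin 5) (ZMod 2))) h
    simp only [Units.val_pow_eq_pow_val, Units.val_one] at this
    simp [this]
  have hcop : IsCoprime (minpoly (ZMod 2) (A : Matrix (Fin 5) (Fin 5) (ZMod 2)))
      (cyclotomic 9 (ZMod 2)) := by
    rw [isCoprime_comm, hirr.coprime_iff_not_dvd]
    intro hd
    have h1 := natDegree_le_of_dvd (hd.trans (Matrix.minpoly_dvd_charpoly _))
      (Matrix.charpoly_monic _).ne_zero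
    rw [natDegree_cyclotomic, Matrix.charpoly_natDegree_eq_dim, show Nat.totient 9 = 6 by decide] at h1
    simp at h1
  have h3 := hcop.dvd_of_dvd_mul_left hdvd
  have h4 := minpoly.aeval (ZMod 2) (A : Matrix (Fin 5) (Fin 5) (ZMod 2))
  obtain ⟨c, hc⟩ := h3
  have h5 := congrArg (aeval (A : Matrix (Fin 5) (Fin 5) (ZMod 2))) hc
  rw [map_mul, h4, zero_mul] at h5
  apply Units.ext
  simpa [sub_eq_zero] using h5

theorem card_GL5 : Nat.card (GL (Fin 5) (ZMod 2)) = 2 ^ 10 * 9765 := by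
  have : Fact (Nat.Prime 2) := ⟨Nat.prime_two⟩
  rw [Matrix.card_GL_field]
  simp [Fin.prod_univ_five]

theorem odd_dvd {a n : ℕ} (ha : Odd a) (h1 : a ∣ n) (h2 : n ∣ 2 ^ 10 * 9765) : a ∣ 9765 :=
  (Nat.Coprime.pow_right 10 (Nat.coprime_two_right.mpr ha)).dvd_of_dvd_mul_left (h1.trans h2)

/-- Let X be a section of the general linear group GL(5, 2), that is, a quotient of a subgroup of it. If X is isomorphic to PSL(2, 2^n) for some n ≥ 2, to a Suzuki group over the field with 2^(2m+1) elements for some m ≥ 1, or to PSU(3, 2^n) for some n ≥ 2, then X is isomorphic to PSL(2, 4). -/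
theorem result {H : Subgroup (GL (Fin 5) (ZMod 2))}
    {K : Subgroup ↥H} [K.Normal]
    (hX : (∃ (n : ℕ) (F : Type) (_ : Field F) (_ : Fintype F), 2 ≤ n ∧ Fintype.card F = 2 ^ n ∧
        Nonempty (↥H ⧸ K ≃* Matrix.ProjectiveSpecialLinearGroup (Fin 2) F)) ∨
      (∃ (m : ℕ) (F : Type) (_ : Field F) (_ : Fintype F), 1 ≤ m ∧ Fintype.card F = 2 ^ (2 * m + 1) ∧
        Nonempty (↥H ⧸ K ≃* ↥(Cfsg.Lie.Sz F (2 ^ (m + 1))))) ∨
      (∃ (n : ℕ) (F : Type) (_ : Field F) (_ : Fintype F), 2 ≤ n ∧ Fintype.card F = 4 ^ n ∧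
        Nonempty (↥H ⧸ K ≃* Cfsg.PSU 3 F (2 ^ n)))) :
    ∃ (F : Type) (_ : Field F) (_ : Fintype F), Fintype.card F = 4 ∧
      Nonempty (↥H ⧸ K ≃* Matrix.ProjectiveSpecialLinearGroup (Fin 2) F) := by
  have hc : Nat.card (↥H ⧸ K) ∣ 2 ^ 10 * 9765 := by
    rw [← card_GL5]
    exact (Subgroup.card_quotient_dvd_card K).trans (Subgroup.card_subgroup_dvd_card H)
  rcases hX with ⟨n, F, _, _, hn, hF, ⟨e⟩⟩ | ⟨m, F, _, _, hm, hF, ⟨e⟩⟩ | ⟨n, F, _, _, hn, hF, ⟨e⟩⟩
  · classical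
    have h2 : (2 : F) = 0 := CL.GL2.two_eq_zero_of_even (by rw [hF]; exact dvd_pow_self 2 (by omega))
    have hcard := CL.GL2.gcd_mul_card_PSL2 (F := F)
    rw [CL.GL2.gcd_even h2, one_mul, ← Nat.card_congr e.toEquiv, hF] at hcard
    have ho : Odd ((2 ^ n + 1) * (2 ^ n - 1)) :=
      (Even.add_one (Nat.even_pow.mpr ⟨even_two, by omega⟩)).mul
        (Nat.Even.sub_odd Nat.one_le_two_pow (Nat.even_pow.mpr ⟨even_two, by omega⟩) odd_one)
    have hd := odd_dvd ho (by rw [hcard, mul_assoc]; exact dvd_mul_left _ _) hc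
    have hn7 : n < 7 := by
      by_contra hn7
      have := Nat.pow_le_pow_right two_pos (not_lt.mp hn7)
      have h1 := Nat.le_of_dvd (by norm_num) hd
      have h3 : 127 ≤ 2 ^ n - 1 := by omega
      nlinarith
    interval_cases n
    · exact ⟨F, inferInstance, inferInstance, hF, ⟨e⟩⟩
    · exfalso
      obtain ⟨d, hd⟩ := CL.GL2.exists_noEig_SL (F := F)
      obtain ⟨g, -, hg⟩ := (CL.GL2.reg_of_noEig hd).exists_orderOf_pslMk (m := 9)
        (by rw [CL.GL2.gcd_even h2, CL.GL2.card_centSL_noEig hd, hF]; norm_num)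
      obtain ⟨x, hx⟩ := QuotientGroup.mk'_surjective K (e.symm (CL.GL2.pslMk F g))
      have h9 : 9 ∣ orderOf (x : GL (Fin 5) (ZMod 2)) := by
        rw [Subgroup.orderOf_coe, ← hg, ← MulEquiv.orderOf_eq e.symm, ← hx]
        exact orderOf_map_dvd _ _
      obtain ⟨k, hk⟩ := h9
      have hk0 : k ≠ 0 := by
        rintro rfl
        exact (orderOf_pos _).ne' hk
      have h3 := no_nine ((x : GL (Fin 5) (ZMod 2)) ^ k) (by
        rw [← pow_mul, mul_comm, ← hk, pow_orderOf_eq_one])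
      rw [← pow_mul] at h3
      have := Nat.le_of_dvd (by omega) (orderOf_dvd_of_pow_eq_one h3)
      omega
    all_goals norm_num at hd
  · exfalso
    have := CL.Sz.charP_two hF
    have hcard := (CL.Sz.lieModel hF).card_G
    rw [CL.Sz.natCard_eq hF, ← Nat.card_congr e.toEquiv] at hcard
    have he : Even (2 ^ (2 * m + 1)) := Nat.even_pow.mpr ⟨even_two, by omega⟩
    have ho : Odd (((2 ^ (2 * m + 1)) ^ 2 + 1) * (2 ^ (2 * m + 1) - 1)) :=
      (Even.add_one (he.pow_of_ne_zero two_ne_zero)).mul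
        (Nat.Even.sub_odd Nat.one_le_two_pow he odd_one)
    have hd := odd_dvd ho (by rw [hcard, mul_assoc]; exact dvd_mul_left _ _) hc
    rcases hm.eq_or_lt with rfl | hm
    · norm_num at hd
    · have := Nat.pow_le_pow_right two_pos (show 5 ≤ 2 * m + 1 by omega)
      have h1 := Nat.le_of_dvd (by norm_num) hd
      have h3 : 31 ≤ 2 ^ (2 * m + 1) - 1 := by omega
      have h4 : 32 ^ 2 ≤ (2 ^ (2 * m + 1)) ^ 2 := Nat.pow_le_pow_left (by omega) 2
      nlinarith
  · exfalso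
    have hcard := Cfsg.Agent.S0280.result (F := F) (q := 2 ^ n)
      (by rw [hF, ← pow_mul, mul_comm, pow_mul]; norm_num) 3 (by norm_num)
    rw [← Nat.card_congr e.toEquiv] at hcard
    simp only [Finset.prod_range_succ, Finset.prod_range_zero] at hcard
    norm_num at hcard
    have he : Even (2 ^ n) := Nat.even_pow.mpr ⟨even_two, by omega⟩
    have hq : 4 ≤ 2 ^ n := Nat.pow_le_pow_right two_pos hn
    set q := 2 ^ n with hq'
    have h1 : Nat.gcd 3 (q + 1) * Nat.card (↥H ⧸ K) = q ^ 3 * ((q ^ 2 - 1) * (q ^ 3 + 1)) := by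
      apply Nat.eq_of_mul_eq_mul_left (show 0 < q + 1 by omega)
      linear_combination hcard
    have ho : Odd ((q ^ 2 - 1) * (q ^ 3 + 1)) :=
      (Nat.Even.sub_odd (Nat.one_le_pow _ _ (by omega)) (he.pow_of_ne_zero two_ne_zero) odd_one).mul
        (Even.add_one (he.pow_of_ne_zero three_ne_zero))
    have hd : (q ^ 2 - 1) * (q ^ 3 + 1) ∣ 2 ^ 10 * (Nat.gcd 3 (q + 1) * 9765) := by
      have : (q ^ 2 - 1) * (q ^ 3 + 1) ∣ Nat.gcd 3 (q + 1) * Nat.card (↥H ⧸ K) := by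
        rw [h1]; exact dvd_mul_left _ _
      refine this.trans ?_
      rw [mul_left_comm]
      exact Nat.mul_dvd_mul_left _ hc
    have hd' := (Nat.Coprime.pow_right 10 (Nat.coprime_two_right.mpr ho)).dvd_of_dvd_mul_left hd
    have hn4 : n < 4 := by
      by_contra hn4
      have h16 : 16 ≤ q := Nat.pow_le_pow_right two_pos (not_lt.mp hn4)
      have h2 := Nat.le_of_dvd (by positivity) hd'
      have h3 : Nat.gcd 3 (q + 1) ≤ 3 := Nat.gcd_le_left _ (by norm_num)
      have h4 : 16 ^ 2 ≤ q ^ 2 := Nat.pow_le_pow_left h16 2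
      have h5 : 16 ^ 3 ≤ q ^ 3 := Nat.pow_le_pow_left h16 3
      have h6 : 255 ≤ q ^ 2 - 1 := by omega
      nlinarith
    interval_cases n <;> rw [hq'] at hd' <;> norm_num at hd'

end Cfsg.Agent.S3179
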