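import Cfsg.Statements.S3183
import Cfsg.Agent.TECH.SylIn

set_option autoImplicit false
open Cfsg

namespace Cfsg.Agent.S3183

open CL.MSS Subgroup

theorem map_center_eq {X : Type*} [Group X] (R : Subgroup X) :
    (Subgroup.center ↥R).map R.subtype = R ⊓ Subgroup.centralizer (R : Set X) := by
  ext x
  constructor
  · rintro ⟨y, hy, rfl⟩
    exact ⟨y.2, fun r hr => congrArg Subtype.val (mem_center_iff.mp hy ⟨r, hr⟩)⟩
  · rintro ⟨h1, h2⟩
    exact ⟨⟨x, h1⟩, mem_center_iff.mpr fun r => Subtype.ext (h2 r r.2), rfl⟩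

theorem sylIn_centralizer {G : Type*} [Group G] [Finite G]
    (hCI : ∀ S T : Sylow 2 G, S ≠ T → ∃ U : Sylow 2 G,
      (S : Subgroup G) ⊓ (T : Subgroup G) ≤ (Subgroup.center ↥(U : Subgroup G)).map (U : Subgroup G).subtype)
    (S : Sylow 2 G) (x : G) (hx : x ∈ (S : Subgroup G)) :
    SylIn 2 ((S : Subgroup G) ⊓ centralizer {x}) (centralizer {x}) := by
  set D := (S : Subgroup G) ⊓ centralizer {x} with hD
  refine ⟨inf_le_right, S.2.to_le inf_le_left, fun Q hQ h1 h2 => ?_⟩
  obtain ⟨T, hT⟩ := hQ.exists_le_sylow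
  by_cases hST : S = T
  · exact le_antisymm (le_inf (hST ▸ hT) h2) h1
  obtain ⟨U, hU⟩ := hCI S T hST
  rw [map_center_eq] at hU
  have hDU : (U : Subgroup G) ≤ centralizer (D : Set G) :=
    le_centralizer_iff.mp ((le_inf inf_le_left (h1.trans hT)).trans (hU.trans inf_le_right))
  have hxD : x ∈ D := ⟨hx, mem_centralizer_singleton_iff.mpr rfl⟩
  have h3 : (S : Subgroup G) ⊓ normalizer (D : Set G) ≤ D := by
    obtain ⟨u, hu, hle⟩ := (sylIn_sylow U (hDU.trans (centralizer_le_normalizer _))).exists_le_conj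
      (R := (S : Subgroup G) ⊓ normalizer (D : Set G)) (S.2.to_le inf_le_left) inf_le_right
    have h4 := hle.trans (cj_le_of_mem_normalizer hDU (normalizer_le_normalizer_centralizer D hu))
    intro y hy
    exact ⟨hy.1, mem_centralizer_singleton_iff.mpr (h4 hy x hxD).symm⟩
  have h4 : D = S := by
    by_contra hne
    exact (lt_inf_normalizer_of_lt S.2 (lt_of_le_of_ne inf_le_left hne)).not_ge h3
  rw [h4] at h1 ⊢
  exact S.is_maximal' hQ h1

theorem inf_le_center {G : Type*} [Group G] [Finite G]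
    (hCI : ∀ S T : Sylow 2 G, S ≠ T → ∃ U : Sylow 2 G,
      (S : Subgroup G) ⊓ (T : Subgroup G) ≤ (Subgroup.center ↥(U : Subgroup G)).map (U : Subgroup G).subtype)
    (S T : Sylow 2 G) (hST : S ≠ T) :
    (S : Subgroup G) ⊓ (T : Subgroup G) ≤ (S : Subgroup G) ⊓ centralizer ((S : Subgroup G) : Set G) := by
  intro x hx
  obtain ⟨U, hU⟩ := hCI S T hST
  rw [map_center_eq] at hU
  have h1 := (sylIn_centralizer hCI S x hx.1).card_le U.2
    (fun y hy => mem_centralizer_singleton_iff.mpr ((hU hx).2 y hy))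
  rw [(sylIn_top U).card_eq (sylIn_top S)] at h1
  have h2 := eq_of_le_of_card_ge (inf_le_left : (S : Subgroup G) ⊓ centralizer {x} ≤ S) h1
  refine ⟨hx.1, fun y hy => ?_⟩
  have : y ∈ (S : Subgroup G) ⊓ centralizer {x} := by rw [h2]; exact hy
  exact mem_centralizer_singleton_iff.mp this.2

/-- Let G be a finite group in which the intersection of any two distinct Sylow 2-subgroups is contained in the centre of some Sylow 2-subgroup, and let S be a Sylow 2-subgroup. Then for every x in S the centralizer of x in S is a Sylow 2-subgroup of the centralizer of x in G (no 2-subgroup centralizing x is larger), and for every other Sylow 2-subgroup T the intersection S ∩ T lies in both the centre of S and the centre of T. -/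
theorem result {G : Type*} [Group G] [Finite G]
    (hCI : ∀ S T : Sylow 2 G, S ≠ T → ∃ U : Sylow 2 G,
      (S : Subgroup G) ⊓ (T : Subgroup G) ≤ (Subgroup.center ↥(U : Subgroup G)).map (U : Subgroup G).subtype)
    (S : Sylow 2 G) :
    (∀ x ∈ (S : Subgroup G), ∀ P : Subgroup G, IsPGroup 2 ↥P → P ≤ Subgroup.centralizer ({x} : Set G) →
        Nat.card ↥P ≤ Nat.card ↥((S : Subgroup G) ⊓ Subgroup.centralizer ({x} : Set G))) ∧
    (∀ T : Sylow 2 G, T ≠ S →
        (S : Subgroup G) ⊓ (T : Subgroup G) ≤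
          (Subgroup.center ↥(S : Subgroup G)).map (S : Subgroup G).subtype ⊓
            (Subgroup.center ↥(T : Subgroup G)).map (T : Subgroup G).subtype) := by
  refine ⟨fun x hx P hP hPx => (sylIn_centralizer hCI S x hx).card_le hP hPx, fun T hT => ?_⟩
  rw [map_center_eq, map_center_eq]
  refine le_inf (inf_le_center hCI S T hT.symm) ?_
  rw [inf_comm]
  exact inf_le_center hCI T S hT

end Cfsg.Agent.S3183
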