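import Cfsg.Statements.S3190
import Cfsg.Agent.S0028
import Cfsg.Agent.TECH.Conj

set_option autoImplicit false
open Cfsg

namespace Cfsg.Agent.S3190

open CL.MSS Subgroup in
theorem map_center_eq {X : Type*} [Group X] (R : Subgroup X) :
    (Subgroup.center ↥R).map R.subtype = R ⊓ Subgroup.centralizer (R : Set X) := by
  ext x
  constructor
  · rintro ⟨y, hy, rfl⟩
    exact ⟨y.2, fun r hr => congrArg Subtype.val (mem_center_iff.mp hy ⟨r, hr⟩)⟩
  · rintro ⟨h1, h2⟩
    exact ⟨⟨x, h1⟩, mem_center_iff.mpr fun r => Subtype.ext (h2 r r.2), rfl⟩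

open CL.MSS Subgroup in

/-- Let p be an odd prime and, inside a finite group, let P be a p-subgroup normalized by a Klein four-group T. Let R be a subgroup of P, normal in P and normalized by T, such that P is the product of R with the centralizer of T in P. If T centralizes the centre of P, then T centralizes the centre of R. -/
theorem result {X : Type*} [Group X] [Finite X]
    {p : ℕ} (hp : p.Prime) (hodd : Odd p) (P T R : Subgroup X) (hP : IsPGroup p ↥P) (hT : IsKleinFour ↥T)
    (hTP : T ≤ Subgroup.normalizer (P : Set X)) (hRP : R ≤ P) (hRn : (R.subgroupOf P).Normal)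
    (hTR : T ≤ Subgroup.normalizer (R : Set X)) (hfac : R ⊔ (P ⊓ Subgroup.centralizer (T : Set X)) = P)
    (hZ : T ≤ Subgroup.centralizer (((Subgroup.center ↥P).map P.subtype : Subgroup X) : Set X)) :
    T ≤ Subgroup.centralizer (((Subgroup.center ↥R).map R.subtype : Subgroup X) : Set X) := by
  have : Fact p.Prime := ⟨hp⟩
  rw [map_center_eq] at hZ ⊢
  have hPR : P ≤ normalizer (R : Set X) := (normal_subgroupOf_iff_le_normalizer hRP).mp hRn
  apply Cfsg.Agent.S0028.result p (P ⊓ centralizer (T : Set X)) T _ (hP.to_le inf_le_left)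
  · rw [hT.card_four]
    exact (Nat.Coprime.pow_left 2 ((Nat.coprime_two_left).mpr hodd))
  · exact hP.to_le (inf_le_left.trans hRP)
  · exact inf_le_right
  · exact inf_le_left.trans (le_normalizer_inf hPR (le_normalizer_centralizer hPR))
  · exact le_normalizer_inf hTR (le_normalizer_centralizer hTR)
  · refine le_trans ?_ (le_centralizer_iff.mp hZ)
    rintro x ⟨⟨h1, h2⟩, h3⟩
    refine ⟨hRP h1, ?_⟩
    change x ∈ centralizer (P : Set X)
    rw [← hfac, ← zpowers_le, le_centralizer_iff]
    exact sup_le (le_centralizer_iff.mp (zpowers_le.mpr h2))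
      (le_centralizer_iff.mp (zpowers_le.mpr h3))

end Cfsg.Agent.S3190
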