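import Cfsg.Statements.S3195
import Cfsg.Agent.INV.SylowRel
import Cfsg.Agent.S0200

set_option autoImplicit false
open Cfsg

namespace Cfsg.Agent.S3195

section
variable {G : Type*} [Group G]

theorem commute_mul_iff {a b c : G} (h : Commute a b) : Commute a (b * c) ↔ Commute a c :=
  ⟨fun h' => by simpa using h.inv_right.mul_right h', h.mul_right⟩

theorem eq_one_of_odd {x : G} (hx : Odd (orderOf x)) (h : x = x⁻¹) : x = 1 := by
  have h2 : x ^ 2 = 1 := by rw [pow_two]; nth_rewrite 2 [h]; exact mul_inv_cancel x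
  rw [← orderOf_eq_one_iff]
  exact Nat.eq_one_of_dvd_coprimes (Nat.coprime_two_right.2 hx) dvd_rfl
    (orderOf_dvd_of_pow_eq_one h2)

theorem exists_conj {a x : G} (ha : a * a = 1) (hx : Odd (orderOf x))
    (hax : a * x * a⁻¹ = x⁻¹) : ∃ g : G, g * a * g⁻¹ = a * x ∧ ∀ b, Commute b x → Commute b g := by
  have h2 : (a * x) * (a * x) = 1 := by
    calc (a * x) * (a * x) = (a * x * a⁻¹) * (a * a) * x := by group
      _ = 1 := by rw [hax, ha]; group
  have e : a * (a * x) = x := by rw [← mul_assoc, ha, one_mul]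
  obtain ⟨k, hk⟩ := CL.TwoInv.exists_conj_of_odd ha h2 (by rwa [e])
  rw [e] at hk
  exact ⟨_, hk, fun b hb => hb.zpow_right k⟩

theorem commute_of_commute_mul {s b x : G} (hb : b * b = 1) (hx : Odd (orderOf x))
    (hbx : Commute b x) (h : Commute s (b * x)) : Commute s b := by
  obtain ⟨k, hk⟩ := hx
  have : (b * x) ^ orderOf x = b := by
    rw [hbx.mul_pow, pow_orderOf_eq_one, mul_one, hk, pow_succ, pow_mul, pow_two, hb, one_pow,
      one_mul]
  rw [← this]
  exact h.pow_right _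

end

/-- Let A be a Klein four-subgroup of a finite group G. If every G-conjugate of every involution of A commutes with some involution of A (its centralizer meets A nontrivially), then A meets the largest normal 2-subgroup O₂(G) nontrivially. -/
theorem result {G : Type*} [Group G] [Finite G]
    (A : Subgroup G) (hA : IsKleinFour ↥A)
    (h : ∀ a ∈ A, a ≠ 1 → ∀ g : G, A ⊓ Subgroup.centralizer ({g * a * g⁻¹} : Set G) ≠ ⊥) :
    A ⊓ Cfsg.pCore 2 G ≠ ⊥ := by
  intro hbot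
  have hsq := fun {a : G} (ha : a ∈ A) => CL.Four.mul_self_of_mem hA ha
  have hcm := fun {a b : G} (ha : a ∈ A) (hb : b ∈ A) => CL.Four.comm_of_mem hA ha hb
  -- two conjugates of `A`
  have h' : ∀ a ∈ A, a ≠ 1 → ∀ g k : G, ∃ b ∈ A, b ≠ 1 ∧ Commute (g * a * g⁻¹) (k * b * k⁻¹) :=
    fun a ha ha1 g k => by
      obtain ⟨⟨b, hb, hbc⟩, hb1⟩ := (Subgroup.ne_bot_iff_exists_ne_one).1 (h a ha ha1 (k⁻¹ * g))
      refine ⟨b, hb, fun e => hb1 (Subtype.ext e), ?_⟩
      have := Subgroup.mem_centralizer_singleton_iff.1 hbc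
      rw [Commute, SemiconjBy]
      calc g * a * g⁻¹ * (k * b * k⁻¹) = k * (k⁻¹ * g * a * (k⁻¹ * g)⁻¹ * b) * k⁻¹ := by group
        _ = _ := by rw [← this]; group
  have hnc : ∀ {a x : G}, x ≠ 1 → Odd (orderOf x) → a * x * a⁻¹ = x⁻¹ → ¬ Commute a x :=
    fun hx1 hx hax hc => hx1 (eq_one_of_odd hx (by rwa [hc.eq, mul_inv_cancel_right] at hax))
  -- every involution of `A` inverts an element of odd order centralized by another one
  have hinv : ∀ a ∈ A, a ≠ 1 → ∃ x : G, x ≠ 1 ∧ Odd (orderOf x) ∧ a * x * a⁻¹ = x⁻¹ ∧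
      ∃ b ∈ A, b ≠ 1 ∧ Commute b x := fun a ha ha1 => by
    obtain ⟨x, hx1, hx, hax⟩ := Cfsg.Agent.S0200.result a (CL.Four.orderOf_of_mem hA ha ha1)
      fun N hN hN2 haN => ha1 (by
        have : a ∈ A ⊓ pCore 2 G := ⟨ha, CL.SylowRel.le_pCore hN hN2 haN⟩
        rwa [hbot, Subgroup.mem_bot] at this)
    obtain ⟨g, hg, -⟩ := exists_conj (hsq ha) hx hax
    obtain ⟨b, hb, hb1, hc⟩ := h' a ha ha1 g 1
    rw [hg, one_mul, inv_one, mul_one] at hc
    exact ⟨x, hx1, hx, hax, b, hb, hb1,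
      (commute_mul_iff (hcm hb ha)).1 hc.symm⟩
  obtain ⟨a, ha, -, -, ha1, -⟩ := CL.Four.exists_pair hA
  obtain ⟨x, hx1, hx, hax, b, hb, hb1, hbx⟩ := hinv a ha ha1
  obtain ⟨y, hy1, hy, hby, e, he, he1, hey⟩ := hinv b hb hb1
  have hbe : b ≠ e := fun h => hnc hy1 hy hby (h ▸ hey)
  have hab : a ≠ b := fun h => hnc hx1 hx hax (h ▸ hbx)
  have hex : e * x * e⁻¹ = x⁻¹ := by
    rcases CL.Four.eq_or_of_mem hA ha hb he ha1 hb1 hab with h | h | h | h
    · exact absurd h he1
    · rw [h, hax]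
    · exact absurd h.symm hbe
    · rw [h]
      calc a * b * x * (a * b)⁻¹ = a * (b * x * b⁻¹) * a⁻¹ := by group
        _ = _ := by rw [hbx.eq, mul_inv_cancel_right, hax]
  -- `x` and `y` commute
  have hxy : Commute x y := by
    obtain ⟨g, hg, -⟩ := exists_conj (hsq hb) hy hby
    obtain ⟨k, hk, hk'⟩ := exists_conj (hsq he) hx hex
    obtain ⟨c, hc, hc1, hcc⟩ := h' b hb hb1 g k
    rw [hg] at hcc
    have hse : Commute (b * y) e := Commute.mul_left (hcm hb he) hey.symm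
    have hsb : ¬ Commute (b * y) b := fun h =>
      hnc hy1 hy hby ((commute_mul_iff (Commute.refl b)).1 h.symm)
    rcases CL.Four.eq_or_of_mem hA he hb hc he1 hb1 hbe.symm with h | h | h | h
    · exact absurd h hc1
    · rw [h, hk] at hcc
      have h1 : Commute (b * y) x := (commute_mul_iff hse).1 hcc
      exact (commute_mul_iff hbx.symm).1 h1.symm
    · rw [h, ← (hk' b hbx).eq, mul_inv_cancel_right] at hcc
      exact absurd hcc hsb
    · have e1 : k * c * k⁻¹ = e * (b * x) := by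
        calc k * c * k⁻¹ = (k * e * k⁻¹) * (k * b * k⁻¹) := by rw [h]; group
          _ = _ := by rw [hk, ← (hk' b hbx).eq, mul_inv_cancel_right, mul_assoc, hbx.eq]
      rw [e1] at hcc
      exact absurd (commute_of_commute_mul (hsq hb) hx hbx
        ((commute_mul_iff hse).1 hcc)) hsb
  have hfx : b * e * x * (b * e)⁻¹ = x⁻¹ := by
    calc b * e * x * (b * e)⁻¹ = b * (e * x * e⁻¹) * b⁻¹ := by group
      _ = _ := by rw [hex, hbx.inv_right.eq, mul_inv_cancel_right]
  have hfy : b * e * y * (b * e)⁻¹ = y⁻¹ := by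
    calc b * e * y * (b * e)⁻¹ = b * (e * y * e⁻¹) * b⁻¹ := by group
      _ = _ := by rw [hey.eq, mul_inv_cancel_right, hby]
  have hf : b * e * (x * y) * (b * e)⁻¹ = (x * y)⁻¹ := by
    calc b * e * (x * y) * (b * e)⁻¹ = (b * e * x * (b * e)⁻¹) * (b * e * y * (b * e)⁻¹) := by group
      _ = _ := by rw [hfx, hfy, mul_inv_rev, hxy.inv_inv.eq]
  have hodd : Odd (orderOf (x * y)) :=
    (hx.mul hy).of_dvd_nat hxy.orderOf_mul_dvd_mul_orderOf
  have hbe1 : b * e ≠ 1 := fun h => hbe (by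
    rw [eq_inv_of_mul_eq_one_left h, inv_eq_of_mul_eq_one_right (hsq he)])
  obtain ⟨g, hg, -⟩ := exists_conj (hsq (mul_mem hb he)) hodd hf
  obtain ⟨c, hc, hc1, hcc⟩ := h' _ (mul_mem hb he) hbe1 g 1
  rw [hg, one_mul, inv_one, mul_one] at hcc
  have hc2 : Commute c (x * y) :=
    (commute_mul_iff (hcm hc (mul_mem hb he))).1 hcc.symm
  rcases CL.Four.eq_or_of_mem hA hb he hc hb1 he1 hbe with h | h | h | h
  · exact hc1 h
  · rw [h] at hc2
    exact hnc hy1 hy hby ((commute_mul_iff hbx).1 hc2)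
  · rw [h, hxy.eq] at hc2
    exact hnc hx1 hx hex ((commute_mul_iff hey).1 hc2)
  · rw [h] at hc2
    have h1 : x * y = 1 := by
      by_contra h1
      exact hnc h1 hodd hf hc2
    rw [eq_inv_of_mul_eq_one_right h1] at hby hy1 hy
    exact hnc hy1 hy hby hbx.inv_right

end Cfsg.Agent.S3195
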