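import Cfsg.Statements.S3196
import Cfsg.Agent.INV.SylowRel

set_option autoImplicit false
open Cfsg

namespace Cfsg.Agent.S3196

section
variable {G : Type*} [Group G]

theorem commute_mul_iff {a b c : G} (h : Commute a b) : Commute a (b * c) ↔ Commute a c :=
  ⟨fun h' => by simpa using h.inv_right.mul_right h', h.mul_right⟩

theorem eq_zpowers {p : ℕ} (hp : p.Prime) {X : Subgroup G} (hX : Nat.card X = p) {x : G}
    (hx : x ∈ X) (hx1 : x ≠ 1) : Subgroup.zpowers x = X := by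
  have : Finite X := Nat.finite_of_card_ne_zero (hX ▸ hp.ne_zero)
  refine Subgroup.eq_of_le_of_card_ge ((Subgroup.zpowers_le).2 hx) ?_
  have h1 : orderOf x ∣ p := hX ▸ Subgroup.orderOf_dvd_natCard X hx
  rcases (Nat.dvd_prime hp).1 h1 with h | h
  · exact absurd (orderOf_eq_one_iff.1 h) hx1
  · rw [Nat.card_zpowers, h, hX]

theorem commute_of_mem_zpowers {g x y : G} (h : Commute g x) (hy : y ∈ Subgroup.zpowers x) :
    Commute g y := by
  obtain ⟨k, rfl⟩ := hy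
  exact h.zpow_right k

theorem exists_mul_of_mem_sup {x y z : G} (h : Commute x y)
    (hz : z ∈ Subgroup.zpowers x ⊔ Subgroup.zpowers y) :
    ∃ a ∈ Subgroup.zpowers x, ∃ b ∈ Subgroup.zpowers y, z = a * b := by
  rw [← SetLike.mem_coe, Subgroup.coe_mul_of_right_le_normalizer_left _ _
    ((Subgroup.zpowers_le).2 (CL.SylowAux.mem_normalizer_zpowers_of_commute h))] at hz
  obtain ⟨a, ha, b, hb, rfl⟩ := hz
  exact ⟨a, ha, b, hb, rfl⟩

theorem conj_pow_eq {x h z : G} (e : h * x * h⁻¹ = x * z) (hzh : Commute z h) (j : ℕ) :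
    h ^ j * x * (h ^ j)⁻¹ = x * z ^ j := by
  induction j with
  | zero => simp
  | succ j ih =>
    calc h ^ (j + 1) * x * (h ^ (j + 1))⁻¹ = h * (h ^ j * x * (h ^ j)⁻¹) * h⁻¹ := by
          rw [pow_succ']; group
      _ = (h * x * h⁻¹) * (h * z ^ j * h⁻¹) := by rw [ih]; group
      _ = x * z ^ (j + 1) := by
          rw [e, ← (hzh.pow_left j).eq, mul_inv_cancel_right, pow_succ', mul_assoc]

theorem conj_mem [Finite G] {x h z a c : G} (e : h * x * h⁻¹ = x * z) (hzx : Commute z x)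
    (hzh : Commute z h) (ha : a ∈ Subgroup.zpowers x) (hc : c ∈ Subgroup.zpowers h) :
    a⁻¹ * (c * a * c⁻¹) ∈ Subgroup.zpowers z := by
  obtain ⟨j, rfl⟩ := mem_powers_iff_mem_zpowers.2 hc
  obtain ⟨i, rfl⟩ := mem_powers_iff_mem_zpowers.2 ha
  dsimp only
  rw [← conj_pow, conj_pow_eq e hzh, (hzx.symm.pow_right j).mul_pow, inv_mul_cancel_left]
  exact pow_mem (pow_mem (Subgroup.mem_zpowers z) _) _

end

/-- Let p be a prime and K a set of subgroups of order p of a finite group G, closed under conjugation, such that at least two distinct members of K commute elementwise, and whenever two distinct members X, Y of K commute: every subgroup of order p of the group XY they generate belongs to K, and every member W of K has centralizer meeting XY nontrivially. Then some member V of K commutes elementwise with every member of K and lies in O_p(G); in particular G is not simple. -/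
theorem result {G : Type*} [Group G] [Finite G]
    {p : ℕ} (hp : p.Prime) (K : Set (Subgroup G)) (hK : ∀ X ∈ K, Nat.card ↥X = p)
    (hKc : ∀ X ∈ K, ∀ g : G, X.map (MulAut.conj g).toMonoidHom ∈ K)
    (hex : ∃ X ∈ K, ∃ Y ∈ K, X ≠ Y ∧ ∀ x ∈ X, ∀ y ∈ Y, x * y = y * x)
    (ha : ∀ X ∈ K, ∀ Y ∈ K, X ≠ Y → (∀ x ∈ X, ∀ y ∈ Y, x * y = y * x) →
      ∀ Z : Subgroup G, Z ≤ X ⊔ Y → Nat.card ↥Z = p → Z ∈ K)
    (hb : ∀ X ∈ K, ∀ Y ∈ K, X ≠ Y → (∀ x ∈ X, ∀ y ∈ Y, x * y = y * x) →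
      ∀ W ∈ K, (X ⊔ Y) ⊓ Subgroup.centralizer (W : Set G) ≠ ⊥) :
    (∃ V ∈ K, (∀ W ∈ K, ∀ v ∈ V, ∀ w ∈ W, v * w = w * v) ∧ V ≤ Cfsg.pCore p G) ∧ ¬ IsSimpleGroup G := by
  have : Fact p.Prime := ⟨hp⟩
  -- generators of members of `K`
  let S : G → Prop := fun g => g ≠ 1 ∧ Subgroup.zpowers g ∈ K
  have hSp : ∀ {g}, S g → g ^ p = 1 := fun {g} hg => by
    rw [← hK _ hg.2, Nat.card_zpowers, pow_orderOf_eq_one]
  have hSz : ∀ {g a}, S g → a ∈ Subgroup.zpowers g → a ≠ 1 →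
      Subgroup.zpowers a = Subgroup.zpowers g := fun hg ha ha1 => eq_zpowers hp (hK _ hg.2) ha ha1
  have hSc : ∀ {g a w}, S g → a ∈ Subgroup.zpowers g → a ≠ 1 → Commute w a → Commute w g :=
    fun hg ha ha1 h => commute_of_mem_zpowers h (hSz hg ha ha1 ▸ Subgroup.mem_zpowers _)
  have hSconj : ∀ {g}, S g → ∀ k, S (k * g * k⁻¹) := fun {g} hg k =>
    ⟨by simpa using hg.1, by
      have := hKc _ hg.2 k
      rwa [MonoidHom.map_zpowers] at this⟩
  have hcomm : ∀ {x y : G}, Commute x y →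
      ∀ a ∈ Subgroup.zpowers x, ∀ b ∈ Subgroup.zpowers y, a * b = b * a :=
    fun h a ha b hb => (commute_of_mem_zpowers (commute_of_mem_zpowers h.symm ha).symm hb).eq
  have hne : ∀ {x y w : G}, Commute w x → ¬ Commute w y →
      Subgroup.zpowers x ≠ Subgroup.zpowers y := fun h1 h2 e =>
    h2 (commute_of_mem_zpowers h1 (e ▸ Subgroup.mem_zpowers _))
  have hS3 : ∀ {x y a b : G}, S x → S y → Commute x y → Subgroup.zpowers x ≠ Subgroup.zpowers y →
      a ∈ Subgroup.zpowers x → b ∈ Subgroup.zpowers y → a * b ≠ 1 → S (a * b) :=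
    fun {x y a b} hx hy hxy hn ha' hb' h1 => by
      refine ⟨h1, ha _ hx.2 _ hy.2 hn (hcomm hxy) _ ((Subgroup.zpowers_le).2
        (mul_mem (Subgroup.mem_sup_left ha') (Subgroup.mem_sup_right hb'))) ?_⟩
      rw [Nat.card_zpowers]
      refine orderOf_eq_prime ?_ h1
      obtain ⟨i, rfl⟩ := ha'
      obtain ⟨j, rfl⟩ := hb'
      dsimp only
      rw [(hxy.zpow_zpow i j).mul_pow, ← zpow_natCast, ← zpow_natCast, ← zpow_mul, ← zpow_mul,
        mul_comm i, mul_comm j, zpow_mul, zpow_mul, zpow_natCast, zpow_natCast, hSp hx, hSp hy]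
      simp
  have hS4 : ∀ {x y w : G}, S x → S y → Commute x y → Subgroup.zpowers x ≠ Subgroup.zpowers y →
      S w → ∃ a ∈ Subgroup.zpowers x, ∃ b ∈ Subgroup.zpowers y, a * b ≠ 1 ∧ Commute w (a * b) :=
    fun {x y w} hx hy hxy hn hw => by
      obtain ⟨⟨z, hz, hzc⟩, hz1⟩ := (Subgroup.ne_bot_iff_exists_ne_one).1
        (hb _ hx.2 _ hy.2 hn (hcomm hxy) _ hw.2)
      obtain ⟨a, ha', b, hb', rfl⟩ := exists_mul_of_mem_sup hxy hz
      exact ⟨a, ha', b, hb', fun e => hz1 (Subtype.ext e), hzc w (Subgroup.mem_zpowers w)⟩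
  have hgen : ∀ X ∈ K, ∃ x, S x ∧ Subgroup.zpowers x = X := fun X hX => by
    obtain ⟨⟨x, hx⟩, hx1⟩ := (Subgroup.ne_bot_iff_exists_ne_one (H := X)).1 fun e => by
      have := hK X hX
      rw [e, Subgroup.card_bot] at this
      exact hp.one_lt.ne this
    have hx1' : x ≠ 1 := fun e => hx1 (Subtype.ext e)
    have e := eq_zpowers hp (hK X hX) hx hx1'
    exact ⟨x, ⟨hx1', e ▸ hX⟩, e⟩
  obtain ⟨X₀, hX₀, Y₀, hY₀, hne₀, hc₀⟩ := hex
  obtain ⟨x₀, hx₀, rfl⟩ := hgen X₀ hX₀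
  obtain ⟨y₀, hy₀, rfl⟩ := hgen Y₀ hY₀
  have hxy₀ : Commute x₀ y₀ := hc₀ _ (Subgroup.mem_zpowers _) _ (Subgroup.mem_zpowers _)
  have hrad : ∃ v, S v ∧ ∀ w, S w → Commute w v := by
    by_contra! hno
    obtain ⟨w, hw, hwx₀⟩ := hno x₀ hx₀
    obtain ⟨a, ha', b, hb', hab, hwx⟩ := hS4 hx₀ hy₀ hxy₀ hne₀ hw
    have hx := hS3 hx₀ hy₀ hxy₀ hne₀ ha' hb' hab
    have hxx₀ : Commute (a * b) x₀ :=
      Commute.mul_left (hcomm (Commute.refl x₀) a ha' _ (Subgroup.mem_zpowers _))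
        (hcomm hxy₀.symm b hb' _ (Subgroup.mem_zpowers _))
    generalize a * b = x at hab hwx hx hxx₀
    obtain ⟨w', hw', hw'x⟩ := hno x hx
    -- a point `y` of the line commuting with `w'`
    obtain ⟨c, hc, d, hd, hcd, hw'y⟩ := hS4 hx hx₀ hxx₀ (hne hwx hwx₀) hw'
    have hy := hS3 hx hx₀ hxx₀ (hne hwx hwx₀) hc hd hcd
    have hd1 : d ≠ 1 := fun e => hw'x (by
      rw [e, mul_one] at hw'y hcd
      exact hSc hx hc hcd hw'y)
    have hwy : ¬ Commute w (c * d) := fun h =>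
      hwx₀ (hSc hx₀ hd hd1 ((commute_mul_iff (commute_of_mem_zpowers hwx hc)).1 h))
    have hxy : Commute x (c * d) := (commute_of_mem_zpowers (Commute.refl x) hc).mul_right
      (commute_of_mem_zpowers hxx₀ hd)
    generalize c * d = y at hcd hw'y hy hwy hxy
    -- a point `u` of the line through `x` and `w` commuting with `w'`
    have hnxw : Subgroup.zpowers x ≠ Subgroup.zpowers w := hne hxy.symm fun h => hwy h.symm
    obtain ⟨e, he, f, hf, hef, hw'u⟩ := hS4 hx hw hwx.symm hnxw hw'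
    have hu := hS3 hx hw hwx.symm hnxw he hf hef
    have hf1 : f ≠ 1 := fun e' => hw'x (by
      rw [e', mul_one] at hw'u hef
      exact hSc hx he hef hw'u)
    have hyu : ¬ Commute y (e * f) := fun h =>
      hwy (hSc hw hf hf1 ((commute_mul_iff (commute_of_mem_zpowers hxy.symm he)).1 h)).symm
    have hxu : Commute x (e * f) := (commute_of_mem_zpowers (Commute.refl x) he).mul_right
      (commute_of_mem_zpowers hwx.symm hf)
    generalize e * f = u at hef hw'u hu hyu hxu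
    -- the point `x y` commutes with a point of the line through `u` and `w'`
    have hxy1 : x * y ≠ 1 := fun h => hwy (by
      rw [eq_inv_of_mul_eq_one_right h]; exact hwx.inv_right)
    have hpt := hS3 hx hy hxy (hne hwx hwy) (Subgroup.mem_zpowers _) (Subgroup.mem_zpowers _) hxy1
    obtain ⟨g, hg, h, hh, hgh, hcom⟩ := hS4 hu hw' hw'u.symm (hne hxu fun h => hw'x h.symm) hpt
    have hxg : Commute x g := commute_of_mem_zpowers hxu hg
    have hyh : Commute y h := commute_of_mem_zpowers hw'y.symm hh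
    have hgh' : Commute g h := hcomm hw'u.symm g hg h hh
    have hh1 : h ≠ 1 := fun e' => hyu (by
      rw [e', mul_one] at hcom hgh
      exact hSc hu hg hgh ((commute_mul_iff hxg.symm).1 hcom.symm).symm)
    have hz1 : x⁻¹ * (h * x * h⁻¹) ≠ 1 := fun e' => hw'x (hSc hw' hh hh1 (by
      rw [inv_mul_eq_one, eq_mul_inv_iff_mul_eq] at e'
      exact e')).symm
    have hz : x⁻¹ * (h * x * h⁻¹) = g⁻¹ * y * g * y⁻¹ := by
      have h1 : g * h * (x * y) * (g * h)⁻¹ = x * y := by rw [← hcom.eq, mul_inv_cancel_right]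
      calc x⁻¹ * (h * x * h⁻¹) = x⁻¹ * g⁻¹ * (g * h * (x * y) * (g * h)⁻¹) * g *
            (h * y⁻¹ * h⁻¹) := by group
        _ = x⁻¹ * g⁻¹ * (x * y) * g * y⁻¹ := by
            rw [h1, ← hyh.inv_left.eq, mul_inv_cancel_right]
        _ = g⁻¹ * y * g * y⁻¹ := by rw [hxg.inv_inv.eq]; group
    have hzx : Commute (x⁻¹ * (h * x * h⁻¹)) x := by
      rw [hz]
      exact ((hxg.symm.inv_left.mul_left hxy.symm).mul_left hxg.symm).mul_left hxy.symm.inv_left
    have hzh : Commute (x⁻¹ * (h * x * h⁻¹)) h := by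
      rw [hz]
      exact ((hgh'.inv_left.mul_left hyh).mul_left hgh').mul_left hyh.inv_left
    have hSh : S h := ⟨hh1, hSz hw' hh hh1 ▸ hw'.2⟩
    have hhx : ¬ Commute h x := fun e' => hz1 (by rw [e'.eq]; group)
    have hxx' : Commute x (h * x * h⁻¹) :=
      (commute_mul_iff (Commute.refl x).inv_right).1 hzx.symm
    have hnx : Subgroup.zpowers x ≠ Subgroup.zpowers (h * x * h⁻¹) := fun e' =>
      hhx (hSc hx (mul_mem (inv_mem (Subgroup.mem_zpowers x)) (e' ▸ Subgroup.mem_zpowers _)) hz1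
        hzh.symm)
    have hSzz := hS3 hx (hSconj hx h) hxx' hnx (inv_mem (Subgroup.mem_zpowers _))
      (Subgroup.mem_zpowers _) hz1
    have he' : h * x * h⁻¹ = x * (x⁻¹ * (h * x * h⁻¹)) := by group
    generalize x⁻¹ * (h * x * h⁻¹) = z at hz1 hzx hzh hSzz he'
    obtain ⟨v, hv, hvz⟩ := hno z hSzz
    obtain ⟨a₁, ha₁, b₁, hb₁, hab₁, hv₁⟩ := hS4 hx hSzz hzx.symm (hne hzh.symm hhx).symm hv
    obtain ⟨a₂, ha₂, b₂, hb₂, hab₂, hv₂⟩ := hS4 hSh hSzz hzh.symm
      (hne hzx.symm fun e' => hhx e'.symm).symm hv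
    have ha₁1 : a₁ ≠ 1 := fun e' => hvz (by
      rw [e', one_mul] at hv₁ hab₁
      exact hSc hSzz hb₁ hab₁ hv₁)
    have ha₂1 : a₂ ≠ 1 := fun e' => hvz (by
      rw [e', one_mul] at hv₂ hab₂
      exact hSc hSzz hb₂ hab₂ hv₂)
    have c11 : Commute b₂ a₁ := hcomm hzx b₂ hb₂ a₁ ha₁
    have c12 : Commute b₁ a₁ := hcomm hzx b₁ hb₁ a₁ ha₁
    have c13 : Commute b₁ a₂ := hcomm hzh b₁ hb₁ a₂ ha₂
    have c14 : Commute b₂ b₁ := hcomm (Commute.refl z) b₂ hb₂ b₁ hb₁
    have e1 : (a₁ * b₁)⁻¹ * (a₂ * b₂ * (a₁ * b₁) * (a₂ * b₂)⁻¹) = a₁⁻¹ * (a₂ * a₁ * a₂⁻¹) := by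
      calc (a₁ * b₁)⁻¹ * (a₂ * b₂ * (a₁ * b₁) * (a₂ * b₂)⁻¹)
          = (a₁ * b₁)⁻¹ * (a₂ * (b₂ * (a₁ * b₁) * b₂⁻¹) * a₂⁻¹) := by group
        _ = b₁⁻¹ * (a₁⁻¹ * a₂ * a₁) * (b₁ * a₂⁻¹) := by
            rw [(c11.mul_right c14).eq, mul_inv_cancel_right]; group
        _ = _ := by
            rw [((c12.inv_right.mul_right c13).mul_right c12).inv_left.eq]
            group
    refine hvz (hSc hSzz (conj_mem he' hzx hzh ha₁ ha₂) (fun e' => hhx ?_) ?_)
    · rw [inv_mul_eq_one, eq_mul_inv_iff_mul_eq] at e'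
      exact (hSc hSh ha₂ ha₂1 (hSc hx ha₁ ha₁1 (show Commute a₂ a₁ from e'.symm)).symm).symm
    · rw [← e1]
      exact hv₁.inv_right.mul_right ((hv₂.mul_right hv₁).mul_right hv₂.inv_right)
  obtain ⟨v, hv, hvc⟩ := hrad
  have hE : IsElementaryAbelian p (Subgroup.normalClosure ({v} : Set G)) :=
    CL.SylowRel.isElementaryAbelian_normalClosure
      (by rintro _ rfl _ rfl g; exact hvc _ (hSconj hv g)) (by rintro _ rfl; exact hSp hv)
  have hvN : v ∈ Subgroup.normalClosure ({v} : Set G) := Subgroup.subset_normalClosure rfl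
  refine ⟨⟨_, hv.2, fun W hW a ha' b hb' => ?_, (Subgroup.zpowers_le).2
    (CL.SylowRel.le_pCore inferInstance (CL.Rank.isPGroup_of_isElementaryAbelian hE) hvN)⟩,
    fun hs => ?_⟩
  · obtain ⟨w, hw, rfl⟩ := hgen W hW
    exact hcomm (hvc w hw).symm a ha' b hb'
  · rcases (inferInstance : (Subgroup.normalClosure ({v} : Set G)).Normal).eq_bot_or_eq_top with
      h | h
    · exact hv.1 (by rwa [h, Subgroup.mem_bot] at hvN)
    · have hc : ∀ a b : G, a * b = b * a := fun a b =>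
        (CL.Rank.isElementaryAbelian_iff.1 hE).1 a (h ▸ Subgroup.mem_top a) b
          (h ▸ Subgroup.mem_top b)
      have key : ∀ x : G, x ≠ 1 → Subgroup.zpowers x = ⊤ := fun x hx =>
        (show (Subgroup.zpowers x).Normal from
          ⟨fun n hn g => by rwa [hc g n, mul_inv_cancel_right]⟩).eq_bot_or_eq_top.resolve_left
          (by simpa using hx)
      exact hne₀ (by rw [key _ hx₀.1, key _ hy₀.1])

end Cfsg.Agent.S3196
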