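import Cfsg.Statements.S3202
import Cfsg.Agent.SOLV.PGroupCyclicSCN
import Cfsg.Agent.CHAR.BSQuat

set_option autoImplicit false
open Cfsg

namespace Cfsg.Agent.S3202

open Subgroup in
theorem exists_gen {S : Type*} [Group S] [Finite S] (hS : IsPGroup 2 S) (D : Subgroup S) [D.Normal]
    (h1 : ¬ IsMulCommutative (S ⧸ D)) (h2 : ∃! x : S ⧸ D, orderOf x = 2) :
    ∃ a b : S, (b : S ⧸ D) ∉ zpowers (a : S ⧸ D) ∧ orderOf (b : S ⧸ D) = 4 ∧
      orderOf ((b : S ⧸ D) * a) = 4 ∧ (b : S ⧸ D) * a * (b : S ⧸ D)⁻¹ = (a : S ⧸ D)⁻¹ ∧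
      (b : S ⧸ D) * b ∈ zpowers (a : S ⧸ D) ∧ zpowers a ⊔ zpowers b ⊔ D = ⊤ := by
  obtain ⟨z, -, hz⟩ := h2
  obtain h | ⟨-, n, ⟨e⟩⟩ := CL.PCyc.isCyclic_or_quaternion (hS.to_quotient D) fun x y hx hy _ => by
    rw [hz x hx, hz y hy]; exact mem_zpowers z
  · exact absurd IsCyclic.isMulCommutative h1
  obtain ⟨a, ha⟩ := QuotientGroup.mk_surjective (e.symm (QuaternionGroup.a 1))
  obtain ⟨b, hb⟩ := QuotientGroup.mk_surjective (e.symm (QuaternionGroup.xa 0))
  have h3 : ∀ i, e.symm (QuaternionGroup.a i) ∈ zpowers (a : S ⧸ D) := fun i => by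
    obtain ⟨k, hk⟩ := CL.BSQ.quat_mem_zpowers i
    exact ⟨k, by simp only [ha, ← map_zpow, hk]⟩
  refine ⟨a, b, fun ⟨k, hk⟩ => CL.BSQ.quat_xa_not_mem (m := 2 ^ (n + 1)) 0 ⟨k, e.symm.injective ?_⟩,
    ?_, ?_, ?_, ?_, eq_top_iff.2 fun x _ => ?_⟩
  · simpa only [ha, hb, map_zpow] using hk
  · rw [hb, MulEquiv.orderOf_eq, QuaternionGroup.orderOf_xa]
  · rw [ha, hb, ← map_mul, MulEquiv.orderOf_eq, QuaternionGroup.xa_mul_a, QuaternionGroup.orderOf_xa]
  · rw [mul_inv_eq_iff_eq_mul, eq_inv_mul_iff_mul_eq, ha, hb, ← map_mul, ← map_mul]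
    simp
  · rw [hb, ← map_mul]
    exact h3 _
  · rw [← CL.comap_map_mk', Subgroup.map_sup, MonoidHom.map_zpowers, MonoidHom.map_zpowers,
      mem_comap, ← e.symm_apply_apply (QuotientGroup.mk' D x)]
    rcases e (QuotientGroup.mk' D x) with i | i
    · exact mem_sup_left (h3 i)
    · rw [show QuaternionGroup.xa i = QuaternionGroup.xa 0 * QuaternionGroup.a i by simp, map_mul,
        ← hb]
      exact mul_mem (mem_sup_right (mem_zpowers _)) (mem_sup_left (h3 i))

/-- Let S be a finite 2-group of 2-rank exactly 2 and D a maximal subgroup of the centre of S such that S/D is a non-abelian group with exactly one involution (a generalized quaternion group). Then S has a nontrivial cyclic characteristic subgroup. -/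
theorem result {S : Type*} [Group S]
    [Finite S] (hS : IsPGroup 2 S) (hr2 : Cfsg.PRankLE 2 2 S) (hr1 : ¬ Cfsg.PRankLE 2 1 S)
    (D : Subgroup ↥(Subgroup.center S)) (hD : IsCoatom D)
    (hq : ∃ (_ : (D.map (Subgroup.center S).subtype).Normal),
      ¬ IsMulCommutative (S ⧸ D.map (Subgroup.center S).subtype) ∧
      ∃! x : S ⧸ D.map (Subgroup.center S).subtype, orderOf x = 2) :
    ∃ C : Subgroup S, C ≠ ⊥ ∧ IsCyclic ↥C ∧ C.Characteristic := by
  open Subgroup commutatorElement in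
  obtain ⟨_, h1, h2⟩ := hq
  have hZ := map_subtype_le D
  generalize D.map (center S).subtype = C at *
  obtain ⟨a, b, -, -, -, h3, h4, h5⟩ := exists_gen hS C h1 h2
  have key : ∀ x : S, (x : S ⧸ C) ∈ zpowers (a : S ⧸ C) → Commute a x := fun x ⟨k, hk⟩ => by
    have h6 : (a ^ k)⁻¹ * x ∈ C := QuotientGroup.eq.1 hk
    rw [← mul_inv_cancel_left (a ^ k) x]
    exact (Commute.self_zpow a k).mul_right (mem_center_iff.1 (hZ h6) a)
  have h6 : (zpowers ⁅a, b⁆).Normal := by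
    refine normalizer_eq_top_iff.1 (eq_top_iff.2 (h5.ge.trans (sup_le (sup_le
      (zpowers_le.2 (centralizer_le_normalizer _ ?_)) (zpowers_le.2 (mem_normalizer_fintype ?_)))
      (hZ.trans (center_le_normalizer _)))))
    · rw [CL.PCyc.centralizer_zpowers]
      refine mem_centralizer_singleton_iff.2 (key _ ?_)
      rw [show ((⁅a, b⁆ : S) : S ⧸ C) = a * (b * a * (b : S ⧸ C)⁻¹)⁻¹ by
        simp only [commutatorElement_def, QuotientGroup.mk_mul, QuotientGroup.mk_inv]; group, h3]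
      exact mul_mem (mem_zpowers _) (inv_mem (inv_mem (mem_zpowers _)))
    · rintro _ ⟨k, rfl⟩
      rw [← conj_zpow, show b * ⁅a, b⁆ * b⁻¹ = ⁅a, b⁆⁻¹ by
        rw [commutatorElement_inv, commutatorElement_def, commutatorElement_def,
          show b * (a * b * a⁻¹ * b⁻¹) * b⁻¹ = b * a * b⁻¹ * (b * b * a⁻¹ * (b * b)⁻¹) by group,
          ← (key (b * b) h4).inv_left.eq, mul_inv_cancel_right]]
      exact zpow_mem (inv_mem (mem_zpowers _)) k
  have h7 : ∀ x y : S, Commute (QuotientGroup.mk' (zpowers ⁅a, b⁆) x) (QuotientGroup.mk' _ y) ↔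
      ⁅x, y⁆ ∈ zpowers ⁅a, b⁆ := fun x y => by
    rw [← commutatorElement_eq_one_iff_commute, ← map_commutatorElement]
    exact QuotientGroup.eq_one_iff _
  have h8 : ∀ x y : S, (Commute (QuotientGroup.mk' (zpowers ⁅a, b⁆) a) (QuotientGroup.mk' _ y) ∧
      Commute (QuotientGroup.mk' (zpowers ⁅a, b⁆) b) (QuotientGroup.mk' _ y)) →
      Commute (QuotientGroup.mk' (zpowers ⁅a, b⁆) x) (QuotientGroup.mk' _ y) := fun x y h =>
    mem_centralizer_singleton_iff.1 ((h5.ge.trans (sup_le (sup_le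
      (zpowers_le.2 (mem_centralizer_singleton_iff.2 h.1))
      (zpowers_le.2 (mem_centralizer_singleton_iff.2 h.2))) fun c hc =>
        mem_centralizer_singleton_iff.2 ((show Commute y c from mem_center_iff.1 (hZ hc) y).map
          _).symm) : ⊤ ≤ (centralizer {QuotientGroup.mk' (zpowers ⁅a, b⁆) y}).comap
            (QuotientGroup.mk' _)) (mem_top x))
  have h9 := (h7 a b).2 (mem_zpowers _)
  refine ⟨commutator S, fun e => h1 ?_, isCyclic_of_le (H' := zpowers ⁅a, b⁆)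
    (commutator_le.2 fun x _ y _ => (h7 x y).1 (h8 x y ⟨(h8 y a ⟨.refl _, h9.symm⟩).symm,
      (h8 y b ⟨h9, .refl _⟩).symm⟩)), inferInstance⟩
  exact Normal.quotient_commutative_iff_commutator_le.2 (e.le.trans bot_le)

end Cfsg.Agent.S3202
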