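import Cfsg.Statements.S3201
import Cfsg.Agent.S3202
import Cfsg.Agent.PLOC.PFrattini
import Cfsg.Agent.INV.SylowAux

set_option autoImplicit false
open Cfsg

namespace Cfsg.Agent.S3201

/-- Let S be a finite 2-group whose centre Z(S) has n ≥ 2 distinct maximal subgroups C₁, …, Cₙ with trivial intersection such that each quotient S/Cᵢ is a non-abelian group with exactly one involution (a generalized quaternion group). Then S is the internal direct product of an elementary abelian subgroup and a non-abelian subgroup with exactly one involution. -/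
theorem result {S : Type*} [Group S] [Finite S]
    (hS : IsPGroup 2 S) (n : ℕ) (hn : 2 ≤ n) (C : Fin n → Subgroup ↥(Subgroup.center S))
    (hCmax : ∀ i, IsCoatom (C i)) (hCinj : Function.Injective C) (hCint : ⨅ i, C i = ⊥)
    (hCq : ∀ i, ∃ (_ : ((C i).map (Subgroup.center S).subtype).Normal),
      ¬ IsMulCommutative (S ⧸ (C i).map (Subgroup.center S).subtype) ∧
      ∃! x : S ⧸ (C i).map (Subgroup.center S).subtype, orderOf x = 2) :
    ∃ E Q : Subgroup S, Cfsg.IsInternalDirectProduct E Q ⊤ ∧ Cfsg.IsElementaryAbelian 2 E ∧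
      ¬ IsMulCommutative ↥Q ∧ ∃! x : ↥Q, orderOf x = 2 := by
  open Subgroup in
  have hi : ∀ i, (C i).index = 2 := fun i => CL.PG.coatom_index (hS.to_subgroup _) (hCmax i)
  have hmul : ∀ u v, ∀ (hu : u ∈ center S) (hv : v ∈ center S),
      (∀ i, u ∈ (C i).map (center S).subtype ↔ v ∈ (C i).map (center S).subtype) → u * v = 1 :=
    fun u v hu hv h => congrArg Subtype.val (show (⟨u, hu⟩ * ⟨v, hv⟩ : center S) = 1 from
      hCint.le (mem_iInf.2 fun i => (mul_mem_iff_of_index_two (hi i)).2
        (((mem_map_iff_mem (center S).subtype_injective (x := ⟨u, hu⟩)).symm.trans (h i)).trans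
          (mem_map_iff_mem (center S).subtype_injective (x := ⟨v, hv⟩)))))
  have hsq : ∀ u ∈ center S, u * u = 1 := fun u hu => hmul u u hu hu fun _ => Iff.rfl
  have hZ : ∀ i w, w * w ∈ (C i).map (center S).subtype → w ∈ center S := fun i w hw => by
    obtain ⟨_, -, z, -, hz⟩ := hCq i
    obtain ⟨u, -, hu⟩ := SetLike.exists_of_lt (hCmax i).lt_top
    by_cases h1 : w ∈ (C i).map (center S).subtype
    · exact map_subtype_le _ h1
    have h2 : ∀ v : S, v ∉ (C i).map (center S).subtype → v * v ∈ (C i).map (center S).subtype →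
        (v : S ⧸ (C i).map (center S).subtype) = z := fun v h2 h3 => hz _ (orderOf_eq_prime
          ((pow_two _).trans ((QuotientGroup.eq_one_iff _).2 h3))
            (mt (QuotientGroup.eq_one_iff _).1 h2))
    have h3 := map_subtype_le _ (QuotientGroup.eq.1 ((h2 u (mt (mem_map_iff_mem
      (center S).subtype_injective).1 hu) (hsq u u.2 ▸ one_mem _)).trans (h2 w h1 hw).symm))
    exact ((center S).mul_mem_cancel_left (inv_mem u.2)).1 h3
  have heq : ∀ v w : S, v * v ∈ center S → w * w ∈ center S → v ∉ center S → w ∉ center S →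
      v * v = w * w := fun v w hv hw h1 h2 => by
    rw [← inv_eq_of_mul_eq_one_right (hsq _ hw), eq_inv_iff_mul_eq_one]
    exact hmul _ _ hv hw fun i => iff_of_false (fun e => h1 (hZ i v e)) fun e => h2 (hZ i w e)
  let i : Fin n := ⟨0, by omega⟩
  obtain ⟨_, h1, h2⟩ := hCq i
  replace hZ := hZ i
  have hE := map_subtype_le (C i)
  generalize (C i).map (center S).subtype = E at *
  obtain ⟨a, b, h3, h4, h5, h6, h7, h8⟩ := S3202.exists_gen hS E h1 h2
  have four : ∀ x : S, orderOf (x : S ⧸ E) = 4 → x * x ∈ center S ∧ x ∉ center S := fun x hx =>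
    ⟨hZ _ ((QuotientGroup.eq_one_iff _).1 (by
      have := pow_orderOf_eq_one (x : S ⧸ E)
      rw [hx] at this
      simpa only [pow_succ, pow_zero, one_mul, QuotientGroup.mk_mul, mul_assoc] using this)),
    fun h => by
      have := orderOf_dvd_of_pow_eq_one (x := (x : S ⧸ E)) (n := 2)
        (by rw [pow_two, ← QuotientGroup.mk_mul, hsq x h]; rfl)
      rw [hx] at this
      omega⟩
  have h9 : b * a * b⁻¹ = a⁻¹ := by
    have := heq b (b * a) (four b h4).1 (four _ h5).1 (four b h4).2 (four _ h5).2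
    rw [mul_assoc b a, mul_left_cancel_iff] at this
    rw [← inv_mul_cancel_left a (b * a), ← this, mul_inv_cancel_right]
  have h10 : 4 ∣ orderOf a := by
    obtain ⟨k, hk⟩ := IsPGroup.iff_orderOf.1 hS a
    by_contra h10
    have h11 : a ∈ center S := hZ a (by
      rw [← pow_two, show a ^ 2 = 1 from orderOf_dvd_iff_pow_eq_one.1 (hk ▸ pow_dvd_pow 2
        (not_lt.1 fun h12 => h10 (hk ▸ pow_dvd_pow 2 h12)) : orderOf a ∣ 2 ^ 1)]
      exact one_mem _)
    exact (four b h4).2 (mem_center_iff.2 fun g => mem_centralizer_singleton_iff.1 ((h8.ge.trans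
      (sup_le (sup_le (zpowers_le.2 (center_le_centralizer _ h11)) (zpowers_le.2
        (mem_centralizer_singleton_iff.2 rfl))) (hE.trans (center_le_centralizer _))) :
          ⊤ ≤ centralizer {b}) (mem_top g)))
  have h11 := orderOf_pow_orderOf_div (orderOf_pos a).ne' h10
  have h12 := npow_mem_zpowers a (orderOf a / 4)
  generalize a ^ (orderOf a / 4) = y at h11 h12
  have h13 : orderOf (y * y) = 2 := by rw [← pow_two, orderOf_pow_of_dvd two_ne_zero, h11]; omega
  have h14 := heq y b (hZ _ (by rw [← pow_two, ← h13, pow_orderOf_eq_one]; exact one_mem _))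
    (four b h4).1 (fun e => by rw [hsq y e, orderOf_one] at h13; omega) (four b h4).2
  have h15 : b * b ∈ zpowers a := h14 ▸ mul_mem h12 h12
  have h16 : E ⊓ (zpowers a ⊔ zpowers b) = ⊥ := eq_bot_iff.2 fun x hx => by
    obtain ⟨j, t, rfl⟩ := CL.PCyc.exists_eq_zpow_mul_pow (mem_normalizer_fintype (by
      rintro _ ⟨k, rfl⟩
      rw [← conj_zpow, h9]
      exact zpow_mem (inv_mem (mem_zpowers a)) k)) hx.2
    have h17 := mul_mem (zpow_mem_zpowers a j) (pow_mem h15 (t / 2))
    rw [← pow_two, ← pow_mul] at h17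
    rcases Nat.mod_two_eq_zero_or_one t with e | e
    · rw [show 2 * (t / 2) = t by omega] at h17
      by_contra h18
      refine (four b h4).2 (hZ b ?_)
      rw [← CL.SylowAux.eq_of_isCyclic_subgroup inferInstance h17 h15 (orderOf_eq_prime
        ((pow_two _).trans (hsq _ (hE hx.1))) h18) (h14 ▸ h13)]
      exact hx.1
    · have h18 := (QuotientGroup.eq_one_iff _).2 hx.1
      rw [show t = 2 * (t / 2) + 1 by omega, pow_succ, ← mul_assoc, QuotientGroup.mk_mul] at h18
      rw [← inv_eq_of_mul_eq_one_right h18, ← QuotientGroup.mk'_apply E a,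
        ← MonoidHom.map_zpowers] at h3
      exact absurd (inv_mem (mem_map_of_mem (QuotientGroup.mk' E) h17)) h3
  let e := MulEquiv.ofBijective ((QuotientGroup.mk' E).comp (zpowers a ⊔ zpowers b).subtype)
    ⟨(injective_iff_map_eq_one _).2 fun x hx => Subtype.ext (h16.le
      ⟨(QuotientGroup.eq_one_iff _).1 hx, x.2⟩), fun g => by
        obtain ⟨x, hx, e⟩ := ((CL.map_mk'_le_map_mk'_iff _ _ E).2 h8.ge) (mem_map_of_mem _
          (mem_top g.out))
        exact ⟨⟨x, hx⟩, e.trans g.out_eq⟩⟩
  refine ⟨E, _, ⟨le_top, le_top, fun x hx y _ => (mem_center_iff.1 (hE hx) y).symm, h16,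
    by rw [sup_comm, h8]⟩, ⟨le_centralizer_iff_isMulCommutative.1 (hE.trans
      (center_le_centralizer _)), fun x hx => (pow_two x).trans (hsq x (hE hx))⟩,
    fun h => h1 ⟨⟨fun x y => ?_⟩⟩, ?_⟩
  · obtain ⟨x, rfl⟩ := e.surjective x
    obtain ⟨y, rfl⟩ := e.surjective y
    rw [← map_mul, ← map_mul, h.is_comm.comm]
  · obtain ⟨z, h17, h18⟩ := h2
    exact ⟨e.symm z, (e.symm.orderOf_eq z).trans h17, fun x hx =>
      e.eq_symm_apply.2 (h18 _ ((e.orderOf_eq x).trans hx))⟩

end Cfsg.Agent.S3201
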