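import Cfsg.Statements.S3210
import Cfsg.Agent.INV.SL2Pair

set_option autoImplicit false
open Cfsg

namespace Cfsg.Agent.S3210


/-- Let G be a finite group with subgroups L₁ ≅ SL₂(q₁) and L₂ ≅ SL₂(q₂), q₁ and q₂ odd prime powers, which commute elementwise and meet in ⟨j⟩ for an involution j, and suppose L₁L₂ has index 2 in C_G(j). Then every element n of C_G(j) outside L₁L₂ either normalizes both L₁ and L₂, or conjugates L₁ onto L₂; in the second case q₁ = q₂ and there is an element n′ of C_G(j) outside L₁L₂ conjugating L₁ onto L₂ with n′² ∈ ⟨j⟩. -/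
theorem result {G : Type*} [Group G] [Finite G]
    {F₁ : Type*} [Field F₁] [Fintype F₁] {F₂ : Type*} [Field F₂] [Fintype F₂]
    (hF₁ : Odd (Fintype.card F₁)) (hF₂ : Odd (Fintype.card F₂)) (L₁ L₂ : Subgroup G)
    (e₁ : ↥L₁ ≃* Matrix.SpecialLinearGroup (Fin 2) F₁) (e₂ : ↥L₂ ≃* Matrix.SpecialLinearGroup (Fin 2) F₂)
    (hc : ∀ x ∈ L₁, ∀ y ∈ L₂, x * y = y * x) (j : G) (hj : orderOf j = 2) (hm : L₁ ⊓ L₂ = Subgroup.zpowers j)
    (hle : L₁ ⊔ L₂ ≤ Subgroup.centralizer ({j} : Set G)) (hi : (L₁ ⊔ L₂).relIndex (Subgroup.centralizer ({j} : Set G)) = 2) (n : G) (hn : n ∈ Subgroup.centralizer ({j} : Set G)) (hn' : n ∉ L₁ ⊔ L₂) :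
    (L₁.map (MulAut.conj n).toMonoidHom = L₁ ∧ L₂.map (MulAut.conj n).toMonoidHom = L₂) ∨
      (L₁.map (MulAut.conj n).toMonoidHom = L₂ ∧ Fintype.card F₁ = Fintype.card F₂ ∧
        ∃ n' ∈ Subgroup.centralizer ({j} : Set G), n' ∉ L₁ ⊔ L₂ ∧ L₁.map (MulAut.conj n').toMonoidHom = L₂ ∧ n' ^ 2 ∈ Subgroup.zpowers j) := by
  have hjm : j ∈ L₁ ⊓ L₂ := hm ▸ Subgroup.mem_zpowers j
  have h : CL.SL2Odd.Pair L₁ L₂ j :=
    ⟨CL.SL2Odd.likeIn_of_equiv hF₁ e₁ hj hjm.1, CL.SL2Odd.likeIn_of_equiv hF₂ e₂ hj hjm.2, hc,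
      fun x h1 h2 => (CL.SL2Odd.mem_zpowers_iff_of_two hj).1 (hm ▸ ⟨h1, h2⟩)⟩
  set C := Subgroup.centralizer ({j} : Set G) with hC
  have hnormal : ((L₁ ⊔ L₂).subgroupOf C).Normal := Subgroup.normal_of_index_eq_two hi
  have hconj : ∀ g ∈ C, ∀ x ∈ L₁ ⊔ L₂, g * x * g⁻¹ ∈ L₁ ⊔ L₂ := fun g hg x hx =>
    hnormal.conj_mem ⟨x, hle hx⟩ hx ⟨g, hg⟩
  have hφ : (L₁ ⊔ L₂).map (MulAut.conj n).toMonoidHom = L₁ ⊔ L₂ := by
    apply le_antisymm
    · rintro _ ⟨x, hx, rfl⟩; exact hconj n hn x hx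
    · intro x hx
      refine ⟨n⁻¹ * x * n⁻¹⁻¹, hconj _ (inv_mem hn) x hx, ?_⟩
      simp [mul_assoc]
  rcases h.map_eq (MulAut.conj n) hφ with e | ⟨e, e'⟩
  · exact Or.inl e
  refine Or.inr ⟨e, ?_, ?_⟩
  · have c1 : Nat.card (L₁.map (MulAut.conj n).toMonoidHom) = Nat.card L₁ :=
      Subgroup.card_map_of_injective (MulAut.conj n).injective
    rw [e, Nat.card_congr e₁.toEquiv, Nat.card_congr e₂.toEquiv, CL.GL2.card_SL2,
      CL.GL2.card_SL2] at c1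
    exact (CL.SL2Odd.card_eq_of_card_SL c1 Fintype.one_lt_card Fintype.one_lt_card).symm
  · have hn2 : n * n ∈ L₁ ⊔ L₂ := by
      have := Subgroup.mul_self_mem_of_index_two hi ⟨n, hn⟩
      exact this
    obtain ⟨a, ha, b, hb, eab⟩ := (CL.SL2Odd.mem_sup_of_comm hc).1 hn2
    have ha' : n * a * n⁻¹ ∈ L₂ := e ▸ ⟨a, ha, rfl⟩
    have hb' : n * b * n⁻¹ ∈ L₁ := e' ▸ ⟨b, hb, rfl⟩
    have h1 : (n * a * n⁻¹) * (n * b * n⁻¹) = a * b := by
      calc (n * a * n⁻¹) * (n * b * n⁻¹) = n * (a * b) * n⁻¹ := by group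
        _ = a * b := by rw [eab]; group
    have h2 : b⁻¹ * (n * a * n⁻¹) = a * (n * b * n⁻¹)⁻¹ := by
      calc b⁻¹ * (n * a * n⁻¹) = b⁻¹ * ((n * a * n⁻¹) * (n * b * n⁻¹)) * (n * b * n⁻¹)⁻¹ := by group
        _ = b⁻¹ * (b * a) * (n * b * n⁻¹)⁻¹ := by rw [h1, hc a ha b hb]
        _ = _ := by group
    have hz : b⁻¹ * (n * a * n⁻¹) ∈ L₁ ⊓ L₂ :=
      ⟨by rw [SetLike.mem_coe, h2]; exact L₁.mul_mem ha (L₁.inv_mem hb'),
        L₂.mul_mem (L₂.inv_mem hb) ha'⟩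
    refine ⟨a⁻¹ * n, mul_mem (inv_mem (hle (Subgroup.mem_sup_left ha))) hn, ?_, ?_, ?_⟩
    · intro hh
      apply hn'
      have := mul_mem (Subgroup.mem_sup_left ha : a ∈ L₁ ⊔ L₂) hh
      simpa using this
    · apply le_antisymm
      · rintro _ ⟨x, hx, rfl⟩
        have hx' : n * x * n⁻¹ ∈ L₂ := e ▸ ⟨x, hx, rfl⟩
        have : (MulAut.conj (a⁻¹ * n)).toMonoidHom x = n * x * n⁻¹ := by
          calc (MulAut.conj (a⁻¹ * n)).toMonoidHom x = a⁻¹ * (n * x * n⁻¹) * a := by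
                simp [mul_assoc]
            _ = n * x * n⁻¹ := by rw [hc _ (inv_mem ha) _ hx']; group
        rw [this]; exact hx'
      · intro y hy
        have hy' := hy
        rw [← e] at hy'
        obtain ⟨x, hx, exy⟩ := hy'
        refine ⟨x, hx, ?_⟩
        have exy' : n * x * n⁻¹ = y := exy
        calc (MulAut.conj (a⁻¹ * n)).toMonoidHom x = a⁻¹ * (n * x * n⁻¹) * a := by
              simp [mul_assoc]
          _ = y := by rw [exy', hc _ (inv_mem ha) _ hy]; group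
    · rw [← hm]
      have : (a⁻¹ * n) ^ 2 = (b⁻¹ * (n * a * n⁻¹))⁻¹ := by
        calc (a⁻¹ * n) ^ 2 = a⁻¹ * (n * a * n⁻¹)⁻¹ * (n * n) := by rw [pow_two]; group
          _ = (n * a * n⁻¹)⁻¹ * a⁻¹ * (a * b) := by
            rw [hc _ (inv_mem ha) _ (inv_mem ha'), eab]
          _ = _ := by group
      rw [this]; exact inv_mem hz

end Cfsg.Agent.S3210
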