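import Cfsg.Statements.S3211
import Cfsg.Agent.INV.R2.SLike
import Cfsg.Agent.INV.Bender.Cons

set_option autoImplicit false
open Cfsg

namespace Cfsg.Agent.S3211

open Subgroup CL CL.R2 CL.TwoInv

theorem isolated {G : Type*} [Group G] [Finite G] {L₁ L₂ : Subgroup G} {j n : G} (h : Pair L₁ L₂ j)
    (hY : ∀ u : G, u * j = j * u → u * u = 1 → u ∈ L₁ ⊔ L₂)
    (hn : ∀ x, x ∈ L₁ ↔ n * x * n⁻¹ ∈ L₂) (hnj : n * j = j * n) : IsIsolatedInvolution j := by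
  refine ⟨h.s₁.two, fun g hg => by_contra fun hne => ?_⟩
  have cY : ∀ y ∈ L₁ ⊔ L₂, y * j = j * y := fun y hy => by
    obtain ⟨a, ha, b, hb, rfl⟩ := h.mem_sup.1 hy
    exact (show Commute a j from h.comm₁ ha).mul_left (h.comm₂ hb)
  have c1 : ∀ g : G, g * j * g⁻¹ * (g * j * g⁻¹) = 1 := fun g => by rw [conj_mul, h.jj]; simp
  have c2 : ∀ g : G, g * j * g⁻¹ ≠ 1 := fun g e => h.j_ne (conj_eq_one_iff.1 e)
  have u1 : Commute (g⁻¹ * j * g⁻¹⁻¹) j := by simpa [mul_assoc] using hg.conj g⁻¹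
  obtain ⟨y, hy, e⟩ := h.conj_invol (hY _ u1 (c1 _)) (c1 _) (c2 _)
    (fun e => hne (by nth_rewrite 1 [← e]; group)) (hY _ hg.symm (c1 g)) (c1 g) (c2 g) hne
  obtain ⟨a, ha, b, hb, a2, b2, t⟩ := h.invol (hY _ hg.symm (c1 g)) (c1 g) (c2 g) hne
  have m1 : y * g⁻¹ * j * (y * g⁻¹)⁻¹ = a * b := by rw [t, ← e]; group
  have m2 : y * g⁻¹ * (a * b) * (y * g⁻¹)⁻¹ = j := by
    rw [t, show y * g⁻¹ * (g * j * g⁻¹) * (y * g⁻¹)⁻¹ = y * j * y⁻¹ by group, cY y hy,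
      mul_inv_cancel_right]
  generalize y * g⁻¹ = m at m1 m2
  obtain ⟨s, o, ho, hN⟩ := Nat.exists_eq_two_pow_mul_odd (Nat.card_pos (α := G)).ne'
  have ex : ∃ k, ∀ x ∈ L₁, x * a = a * x → x ^ (o * 2 ^ (k + 1) * 2) = 1 := ⟨s, fun x _ _ => by
    rw [show o * 2 ^ (s + 1) * 2 = 2 ^ s * o * 4 by ring, ← hN, pow_mul, pow_card_eq_one', one_pow]⟩
  classical
  have k1 := Nat.find_spec ex
  obtain ⟨x, hx, xa, x1⟩ : ∃ x ∈ L₁, x * a = a * x ∧ x ^ (o * 2 ^ (Nat.find ex + 1)) ≠ 1 := by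
    rcases hk : Nat.find ex with _ | k
    · refine ⟨a, ha, rfl, ?_⟩
      obtain ⟨r, rfl⟩ := ho
      rw [mul_comm, zero_add, pow_one, pow_mul, sq, a2, pow_succ, pow_mul, sq, h.jj, one_pow, one_mul]
      exact h.j_ne
    · have := Nat.find_min ex (m := k) (by omega)
      push Not at this
      rwa [pow_succ, ← mul_assoc]
  generalize Nat.find ex = k at k1 x1
  have k2 : ∀ x ∈ L₁, x * a = a * x → x ^ (o * 2 ^ (k + 1)) = 1 ∨ x ^ (o * 2 ^ (k + 1)) = j :=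
    fun x hx e => h.s₁.inv _ (pow_mem hx _) (by rw [← sq, ← pow_mul, k1 x hx e])
  have k3 : ∀ x ∈ L₂, x * b = b * x → x ^ (o * 2 ^ (k + 1)) = 1 ∨ x ^ (o * 2 ^ (k + 1)) = j :=
    fun x hx e => by
      obtain ⟨c, hc, rfl⟩ := h.s₂.conj _ ((hn a).1 ha) b hb
        (by rw [conj_mul, a2, hnj, mul_inv_cancel_right]) b2
      have e1 := k1 ((c * n)⁻¹ * x * (c * n)) ((hn _).2 (by
        simpa [mul_assoc] using mul_mem (mul_mem (inv_mem hc) hx) hc))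
        (by simpa [mul_assoc] using (Commute.conj e (c * n)⁻¹).eq)
      refine h.s₂.inv _ (pow_mem hx _) ?_
      rw [← inv_inv (c * n), inv_inv (c * n)⁻¹, conj_pow, conj_eq_one_iff] at e1
      rw [← sq, ← pow_mul, e1]
  obtain ⟨w, hw, w1⟩ := h.s₁.weyl a ha a2
  obtain ⟨v, hv, v1⟩ := h.s₂.weyl b hb b2
  have key : ∀ w ∈ L₁, w * a * w⁻¹ = a⁻¹ → m * (w * v) * m⁻¹ ∈ L₁ ⊔ L₂ := fun w hw e => by
    have e1 : w * v * (a * b) * (w * v)⁻¹ = a * b := by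
      rw [h.conj_mul ha hb hw hv, e, v1 b hb rfl, h.s₁.inv_eq a2, h.s₂.inv_eq b2, h.comm₂ hb,
        mul_assoc, ← mul_assoc j, h.jj, one_mul]
    refine hY _ ?_ ?_
    · rw [← m2]
      exact Commute.conj (mul_inv_eq_iff_eq_mul.1 e1) m
    · rw [conj_mul, h.mul_mul hv hw, h.s₁.anti a ha a2 w hw e, h.s₂.anti b hb b2 v hv (v1 b hb rfl),
        h.jj, mul_one, mul_inv_cancel]
  have y1 : m * x * m⁻¹ ∈ L₁ ⊔ L₂ := by
    have := mul_mem (key (x * w) (mul_mem hx hw) (by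
      rw [mul_assoc x, mul_inv_rev, ← mul_assoc, mul_assoc x, w1 a ha rfl,
        (Commute.inv_right xa).eq, mul_inv_cancel_right])) (inv_mem (key w hw (w1 a ha rfl)))
    simpa [mul_assoc] using this
  obtain ⟨l, hl, l', hl', e2⟩ := h.mem_sup.1 y1
  have e3 : (l * l') ^ (o * 2 ^ (k + 1)) = a * b := by
    rw [e2, conj_pow, (k2 x hx xa).resolve_left x1, m1]
  have t1 : a * b ≠ 1 := t ▸ c2 g
  have t2 : a * b ≠ j := t ▸ hne
  rw [(show Commute l l' from h.comm l hl l' hl').mul_pow] at e3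
  rcases h.cent ha hb a2 b2 hl hl' (by rw [e2, ← m1]; exact Commute.conj (h.comm₁ hx) m) with e | e
  · rcases k2 l hl e.1 with e4 | e4 <;> rcases k3 l' hl' e.2 with e5 | e5 <;> rw [e4, e5] at e3
    exacts [t1 (by rw [← e3, one_mul]), t2 (by rw [← e3, one_mul]), t2 (by rw [← e3, mul_one]),
      t1 (by rw [← e3, h.jj])]
  · rw [pow_succ', mul_left_comm, pow_mul, pow_mul l', sq, sq, h.s₁.anti a ha a2 l hl e.1,
      h.s₂.anti b hb b2 l' hl' e.2, ← (Commute.refl j).mul_pow, h.jj, one_pow] at e3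
    exact t1 e3.symm

/-- Let G be a finite group with subgroups L₁ ≅ SL₂(q₁) and L₂ ≅ SL₂(q₂), q₁ and q₂ odd prime powers, which commute elementwise and meet in ⟨j⟩ for an involution j, and suppose L₁L₂ has index 2 in C_G(j). If some n ∈ C_G(j) with n² = j interchanges L₁ and L₂ under conjugation (so that C_G(j) = L₁L₂⟨n⟩), then G = C_G(j)O(G). -/
theorem result {G : Type*} [Group G] [Finite G]
    {F₁ : Type*} [Field F₁] [Fintype F₁] {F₂ : Type*} [Field F₂] [Fintype F₂]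
    (hF₁ : Odd (Fintype.card F₁)) (hF₂ : Odd (Fintype.card F₂)) (L₁ L₂ : Subgroup G)
    (e₁ : ↥L₁ ≃* Matrix.SpecialLinearGroup (Fin 2) F₁) (e₂ : ↥L₂ ≃* Matrix.SpecialLinearGroup (Fin 2) F₂)
    (hc : ∀ x ∈ L₁, ∀ y ∈ L₂, x * y = y * x) (j : G) (hj : orderOf j = 2) (hm : L₁ ⊓ L₂ = Subgroup.zpowers j)
    (hle : L₁ ⊔ L₂ ≤ Subgroup.centralizer ({j} : Set G)) (hi : (L₁ ⊔ L₂).relIndex (Subgroup.centralizer ({j} : Set G)) = 2) (n : G) (hn : n ∈ Subgroup.centralizer ({j} : Set G))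
    (hn2 : n ^ 2 = j) (hswap : L₁.map (MulAut.conj n).toMonoidHom = L₂) :
    Subgroup.centralizer ({j} : Set G) ⊔ Cfsg.oddCore G = ⊤ := by
  have h := pair_of_equiv hF₁ hF₂ e₁ e₂ hc hj hm
  have hnj : n * j = j * n := mem_centralizer_singleton_iff.1 hn
  have h1 : ∀ x, x ∈ L₁ ↔ n * x * n⁻¹ ∈ L₂ := fun x => hswap ▸ MSS.conj_mem_cj_iff.symm
  have h2 : ∀ x ∈ L₂, n * x * n⁻¹ ∈ L₁ := fun x hx => (h1 _).2 (by
    rwa [show n * (n * x * n⁻¹) * n⁻¹ = n ^ 2 * x * (n ^ 2)⁻¹ by rw [sq]; group, hn2, ← h.comm₂ hx,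
      mul_inv_cancel_right])
  have h3 : n ∉ L₁ ⊔ L₂ := fun e => by
    obtain ⟨a, ha, a2⟩ := h.s₁.ex
    obtain ⟨l, hl, l', hl', rfl⟩ := h.mem_sup.1 e
    have e1 := h.conj_mul ha (one_mem _) hl hl'
    rw [mul_one, mul_one, mul_inv_cancel, mul_one] at e1
    have e2 : l * a * l⁻¹ * (l * a * l⁻¹) = j := by
      rw [conj_mul, a2, h.comm₁ hl, mul_inv_cancel_right]
    rcases h.inf _ (mul_mem (mul_mem hl ha) (inv_mem hl)) (e1 ▸ (h1 a).1 ha) with e3 | e3 <;>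
      rw [e3] at e2
    exacts [h.j_ne (by rw [← e2, one_mul]), h.j_ne (by rw [← e2, h.jj])]
  rw [sup_comm]
  refine Bender.sup_centralizer_of_isolated (isolated h (fun u hu u2 => by_contra fun e => ?_) h1 hnj)
  have := (Subgroup.mul_mem_iff_of_index_two hi (a := ⟨u, mem_centralizer_singleton_iff.2 hu⟩)
    (b := ⟨n, hn⟩⁻¹)).2 (iff_of_false e fun e' => h3 (inv_mem_iff.1 e'))
  obtain ⟨l, hl, l', hl', e1⟩ := h.mem_sup.1 this
  obtain rfl : u = l * l' * n := eq_mul_of_mul_inv_eq e1.symm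
  have e2 : l * (n * l' * n⁻¹) * (l' * (n * l * n⁻¹) * j) = 1 * 1 := by
    rw [← mul_assoc, ← h.mul_mul hl' (h2 l' hl'), h.comm _ (h2 l' hl') _ ((h1 l).1 hl), one_mul,
      ← u2, ← hn2, sq]
    group
  have e3 : l' * (n * (l * (n * l' * n⁻¹)) * n⁻¹) * l'⁻¹ = l' * (n * l * n⁻¹) := by
    rw [show n * (l * (n * l' * n⁻¹)) * n⁻¹ = n * l * n⁻¹ * (n ^ 2 * l' * (n ^ 2)⁻¹) by
      rw [sq]; group, hn2, ← h.comm₂ hl', mul_inv_cancel_right, ← mul_assoc, mul_inv_cancel_right]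
  rcases h.mul_eq (one_mem _) (one_mem _) (mul_mem hl (h2 l' hl'))
    (mul_mem (mul_mem hl' ((h1 l).1 hl)) h.s₂.mem) e2.symm with e4 | e4 <;> rw [← e3, e4.1] at e4
  · exact h.j_ne (by simpa using e4.2)
  · rw [one_mul, hnj, mul_inv_cancel_right, h.comm₂ hl', mul_inv_cancel_right, h.jj] at e4
    exact h.j_ne e4.2.symm

end Cfsg.Agent.S3211
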