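import Cfsg.Statements.S3213
import Cfsg.Agent.CLAS.SL2Lift
import Cfsg.Agent.KSG.GL2Group
import Cfsg.Agent.FGS.SemiReg

set_option autoImplicit false
open Cfsg

namespace Cfsg.Agent.S3213

open Subgroup Module

theorem finrank_le_map {F V : Type*} [Field F] [AddCommGroup V] [Module F V] [FiniteDimensional F V]
    (N : V →ₗ[F] V) (W : Submodule F V) :
    finrank F W ≤ finrank F (W.map N) + finrank F (LinearMap.ker N) := by
  have h := LinearMap.finrank_range_add_finrank_ker (N.domRestrict W)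
  rw [LinearMap.range_domRestrict, LinearMap.ker_domRestrict] at h
  have h2 : finrank F ((LinearMap.ker N).comap W.subtype) ≤ finrank F (LinearMap.ker N) := by
    rw [← Submodule.finrank_map_subtype_eq, Submodule.map_comap_subtype]
    exact Submodule.finrank_mono inf_le_right
  omega

theorem key {F V G : Type*} [Field F] [Fintype F] (hF : Fintype.card F = 3) [AddCommGroup V]
    [Module F V] [FiniteDimensional F V] (hV : finrank F V = 4) [Group G] [Finite G]
    (hG : Nat.card G = 120) (ρ : G →* Module.End F V) (hρ : Function.Injective ρ) {z : G}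
    (hz1 : z ≠ 1) (hzc : ∀ g, g * z = z * g) (hz : ∀ H : Subgroup G, 2 ∣ Nat.card H → z ∈ H)
    {x : G} (hx : orderOf x = 3) :
    (ρ x - 1) ^ 3 = 0 ∧ ρ x - 1 ≠ 0 ∧ finrank F (LinearMap.ker (ρ x - 1)) = 2 := by
  have f5 : Fact (Nat.Prime 5) := ⟨by norm_num⟩
  have : Finite V := Module.finite_of_finite F
  have h3 : (3 : F) = 0 := by
    have := FiniteField.cast_card_eq_zero F
    rwa [hF] at this
  have hN : (ρ x - 1) ^ 3 = 0 := by
    have h1 : ρ x ^ 3 = 1 := by rw [← map_pow, ← hx, pow_orderOf_eq_one, map_one]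
    have h2 : (3 : Module.End F V) = 0 := by
      have : (3 : Module.End F V) = (3 : F) • 1 := by
        rw [show (3 : F) = 1 + 1 + 1 by norm_num, add_smul, add_smul, one_smul]; norm_num
      rw [this, h3, zero_smul]
    have : (ρ x - 1) ^ 3 = ρ x ^ 3 - 1 - 3 * (ρ x * ρ x - ρ x) := by noncomm_ring
    rw [this, h1, h2]; simp
  let fix : G → Submodule F V := fun g => LinearMap.ker (ρ g - 1)
  have mfix : ∀ g v, v ∈ fix g ↔ ρ g v = v := fun g v => by
    simp [fix, sub_eq_zero]
  have ftop : ∀ g, fix g = ⊤ → g = 1 := fun g h => hρ (by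
    rw [map_one]
    exact LinearMap.ext fun v => (mfix g v).1 (h ▸ trivial))
  have hcard : ∀ W : Submodule F V, (W : Set V).ncard = 3 ^ finrank F W := fun W => by
    rw [← Nat.card_coe_set_eq, ← hF, ← Nat.card_eq_fintype_card]
    exact Module.natCard_eq_pow_finrank
  let : MulAction G V := MulAction.compHom V ρ
  have hmod : ∀ y : G, orderOf y = 5 → ∀ W : Submodule F V, (∀ v ∈ W, ρ y v ∈ W) →
      3 ^ finrank F W ≡ 3 ^ finrank F ↥(W ⊓ fix y) [MOD 5] := by
    intro y hy W hW
    have h1 := CL.SR.ncard_modEq_of_isPGroup (p := 5) (P := zpowers y)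
      (IsPGroup.of_card (n := 1) (by rw [Nat.card_zpowers, hy, pow_one])) (W : Set V)
      (CL.SR.zpowers_smul_mem hW)
    have h2 : {v | v ∈ (W : Set V) ∧ ∀ g ∈ zpowers y, g • v = v} = ↑(W ⊓ fix y) := by
      ext v
      refine ⟨fun h => ⟨h.1, (mfix y v).2 (h.2 y (mem_zpowers y))⟩, fun h => ⟨h.1, fun g hg => ?_⟩⟩
      exact (zpowers_le (H := MulAction.stabilizer G v)).2 ((mfix y v).1 h.2) hg
    rwa [h2, hcard, hcard] at h1
  have hle : ∀ W : Submodule F V, finrank F W ≤ 4 := fun W => hV ▸ W.finrank_le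
  have hcase : ∀ W : Submodule F V, 3 ^ finrank F W ≡ 1 [MOD 5] → W = ⊥ ∨ W = ⊤ := by
    intro W h
    have h1 := hle W
    have h2 : finrank F W = 0 ∨ finrank F W = 4 := by
      generalize finrank F W = k at *
      interval_cases k <;> simp_all [Nat.ModEq]
    exact h2.imp Submodule.finrank_eq_zero.mp fun h => Submodule.eq_top_of_finrank_eq (h.trans hV.symm)
  have hy0 : ∀ y : G, orderOf y = 5 → fix y = ⊥ := by
    intro y hy
    have h1 := hmod y hy ⊤ fun _ _ => trivial
    rw [finrank_top, hV, top_inf_eq] at h1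
    refine (hcase _ (h1.symm.trans (by decide))).resolve_right fun h => ?_
    rw [ftop y h, orderOf_one] at hy
    omega
  obtain ⟨y, hy⟩ := exists_prime_orderOf_dvd_card' (G := G) 5 (by rw [hG]; norm_num)
  have hirr : ∀ W : Submodule F V, (∀ v ∈ W, ρ y v ∈ W) → W = ⊥ ∨ W = ⊤ := by
    intro W hW
    have h1 := hmod y hy W hW
    rw [hy0 y hy, inf_bot_eq, finrank_bot, pow_zero] at h1
    exact hcase W h1
  have hz0 : fix z = ⊥ := by
    refine (hirr _ fun v hv => ?_).resolve_right fun h => hz1 (ftop z h)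
    rw [mfix] at hv ⊢
    rw [← Module.End.mul_apply, ← map_mul, ← hzc, map_mul, Module.End.mul_apply, hv]
  have hx1 : x ≠ 1 := by
    rintro rfl
    rw [orderOf_one] at hx
    omega
  have hN0 : ρ x - 1 ≠ 0 := fun h => hx1 (ftop x (by simp [fix, h]))
  refine ⟨hN, hN0, ?_⟩
  change finrank F (fix x) = 2
  have h2 : 2 ≤ finrank F (fix x) := by
    have a1 := finrank_le_map (ρ x - 1) ⊤
    have a2 := finrank_le_map (ρ x - 1) ((⊤ : Submodule F V).map (ρ x - 1))
    have a3 := finrank_le_map (ρ x - 1) (((⊤ : Submodule F V).map (ρ x - 1)).map (ρ x - 1))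
    have a4 : (((⊤ : Submodule F V).map (ρ x - 1)).map (ρ x - 1)).map (ρ x - 1) = ⊥ := by
      rw [eq_bot_iff]
      rintro _ ⟨_, ⟨_, ⟨v, -, rfl⟩, rfl⟩, rfl⟩
      have := LinearMap.congr_fun hN v
      rwa [pow_three] at this
    rw [a4, finrank_bot] at a3
    rw [finrank_top, hV] at a1
    change 2 ≤ finrank F (LinearMap.ker (ρ x - 1))
    omega
  by_contra hne
  have h3 : 3 ≤ finrank F (fix x) := by omega
  have hconj : ∀ v, v ∈ fix (y⁻¹ * x * y) ↔ ρ y v ∈ fix x := by
    intro v
    rw [mfix, mfix, map_mul, map_mul, Module.End.mul_apply, Module.End.mul_apply]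
    constructor
    · intro h
      have := congrArg (ρ y) h
      rwa [← Module.End.mul_apply, ← map_mul, mul_inv_cancel, map_one] at this
    · intro h
      rw [h, ← Module.End.mul_apply, ← map_mul, inv_mul_cancel, map_one]; rfl
  have h4 : 3 ≤ finrank F (fix (y⁻¹ * x * y)) := by
    refine h3.trans ?_
    refine LinearMap.finrank_le_finrank_of_injective
      (f := (ρ y⁻¹).restrict (p := fix x) (q := fix (y⁻¹ * x * y)) fun v hv => ?_) ?_
    · rwa [hconj, ← Module.End.mul_apply, ← map_mul, mul_inv_cancel, map_one]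
    · intro v w h
      have := congrArg (fun u : fix (y⁻¹ * x * y) => ρ y u) h
      simp only [LinearMap.coe_restrict_apply] at this
      rw [← Module.End.mul_apply, ← Module.End.mul_apply, ← map_mul, mul_inv_cancel, map_one] at this
      exact Subtype.ext this
  have h5 : fix x ⊓ fix (y⁻¹ * x * y) ≠ ⊥ := by
    intro h
    have := Submodule.finrank_sup_add_finrank_inf_eq (fix x) (fix (y⁻¹ * x * y))
    rw [h, finrank_bot] at this
    have := hle (fix x ⊔ fix (y⁻¹ * x * y))
    omega
  obtain ⟨v, hv, hv0⟩ := Submodule.exists_mem_ne_zero_of_ne_bot h5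
  set H := MulAction.stabilizer G v with hH
  have hxH : zpowers x ≤ H := zpowers_le.2 ((mfix _ _).1 hv.1)
  have hH2 : ¬ 2 ∣ Nat.card H := fun h => hv0 (by
    have : v ∈ fix z := (mfix _ _).2 (hz H h)
    rwa [hz0] at this)
  have hH5 : ¬ 5 ∣ Nat.card H := fun h => hv0 (by
    obtain ⟨w, hw⟩ := exists_prime_orderOf_dvd_card' 5 h
    have : v ∈ fix w := (mfix _ _).2 w.2
    rwa [hy0 w (by rw [orderOf_coe, hw])] at this)
  have hH3 : Nat.card H ≤ 3 := by
    have h1 : Nat.card H ∣ 2 ^ 3 * 5 * 3 := (show 2 ^ 3 * 5 * 3 = Nat.card G by rw [hG]; rfl) ▸ H.card_subgroup_dvd_card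
    refine Nat.le_of_dvd (by norm_num) (Nat.Coprime.dvd_of_dvd_mul_left ?_ h1)
    exact Nat.Coprime.mul_right (Nat.Coprime.pow_right _
      ((Nat.prime_two.coprime_iff_not_dvd.2 hH2).symm)) ((f5.out.coprime_iff_not_dvd.2 hH5).symm)
  have hHe : zpowers x = H := eq_of_le_of_card_ge hxH (by rw [Nat.card_zpowers, hx]; exact hH3)
  have h6 : y⁻¹ * x * y ∈ zpowers x := hHe ▸ (mfix _ _).1 hv.2
  rcases hirr (fix x) fun w hw => (hconj w).1 ((mfix _ _).2
    ((zpowers_le (H := MulAction.stabilizer G w)).2 ((mfix x w).1 hw) h6)) with h | h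
  · rw [h, finrank_bot] at h3; omega
  · exact hx1 (ftop x h)

/-- Let F be the field with 3 elements and K the field with 5 elements. For every injective homomorphism φ from SL₂(K) into the symplectic group Sp₄(F) (4 × 4 matrices g with g J gᵀ = J for the standard alternating matrix J) and every element x of order 3 of SL₂(K), the vectors of F⁴ fixed by φ(x) form a 2-dimensional subspace that is totally isotropic for the alternating form defined by J. -/
theorem result {F : Type*} [Field F] [Fintype F] (hF : Fintype.card F = 3)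
    {K : Type*} [Field K] [Fintype K] (hK : Fintype.card K = 5)
    (φ : Matrix.SpecialLinearGroup (Fin 2) K →* ↥(Matrix.symplecticGroup (Fin 2) F)) (hφ : Function.Injective φ)
    (x : Matrix.SpecialLinearGroup (Fin 2) K) (hx : orderOf x = 3) :
    Module.finrank F ↥(LinearMap.ker (Matrix.toLin' ((φ x : Matrix (Fin 2 ⊕ Fin 2) (Fin 2 ⊕ Fin 2) F)) - LinearMap.id)) = 2 ∧
      ∀ v w : Fin 2 ⊕ Fin 2 → F, (φ x : Matrix (Fin 2 ⊕ Fin 2) (Fin 2 ⊕ Fin 2) F).mulVec v = v →
        (φ x : Matrix (Fin 2 ⊕ Fin 2) (Fin 2 ⊕ Fin 2) F).mulVec w = w →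
          dotProduct v ((Matrix.J (Fin 2) F).mulVec w) = 0 := by
  classical
  have h2 : (2 : K) ≠ 0 := by
    intro h
    have h5 : (5 : K) = 0 := by
      have := FiniteField.cast_card_eq_zero K
      rwa [hK] at this
    exact one_ne_zero (α := K) (by linear_combination h5 - 2 * h)
  let ρ : Matrix.SpecialLinearGroup (Fin 2) K →* Module.End F (Fin 2 ⊕ Fin 2 → F) :=
    (Matrix.toLinAlgEquiv' : Matrix _ _ F ≃ₐ[F] _).toMonoidHom.comp ((Submonoid.subtype _).comp φ)
  have hρ : Function.Injective ρ :=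
    Matrix.toLinAlgEquiv'.injective.comp (Subtype.val_injective.comp hφ)
  obtain ⟨hN, hN0, hk⟩ := key hF (by simp) (by rw [CL.GL2.card_SL2, hK]; rfl) ρ hρ
    (CL.Dk.neg_one_ne_one_SL2 h2) (fun g => by simp) (fun H h => CL.Dk.neg_one_mem_of_even h2 h) hx
  refine ⟨hk, fun v w hv hw => ?_⟩
  set A := (φ x : Matrix (Fin 2 ⊕ Fin 2) (Fin 2 ⊕ Fin 2) F) with hA
  have hρx : ∀ u, ρ x u = A.mulVec u := fun u => rfl
  set N := ρ x - 1 with hNd
  have hNu : ∀ u, N u = A.mulVec u - u := fun u => rfl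
  let B : LinearMap.BilinForm F (Fin 2 ⊕ Fin 2 → F) := Matrix.toBilin' (Matrix.J (Fin 2) F)
  have hB : ∀ a b, B a b = dotProduct a ((Matrix.J (Fin 2) F).mulVec b) := fun a b =>
    Matrix.toBilin'_apply' _ _ _
  have hinv : ∀ a b, B (A.mulVec a) (A.mulVec b) = B a b := by
    intro a b
    rw [hB, hB, Matrix.mulVec_mulVec, ← Matrix.vecMul_transpose, ← Matrix.dotProduct_mulVec,
      Matrix.mulVec_mulVec, ← Matrix.mul_assoc, SymplecticGroup.mem_iff'.mp (φ x).2]
  have hanti : ∀ a b, B a b = - B b a := by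
    intro a b
    rw [hB, hB, Matrix.dotProduct_mulVec, ← Matrix.mulVec_transpose, Matrix.J_transpose,
      Matrix.neg_mulVec, neg_dotProduct, dotProduct_comm]
  have halt : ∀ a, B a a = 0 := by
    intro a
    have h3 : (3 : F) = 0 := by
      have := FiniteField.cast_card_eq_zero F
      rwa [hF] at this
    linear_combination B a a * h3 - hanti a a
  obtain ⟨u, hu0, hu, a, ha⟩ : ∃ u, u ≠ 0 ∧ N u = 0 ∧ ∃ a, u = N a := by
    obtain ⟨a, ha⟩ : ∃ a, N a ≠ 0 := by
      by_contra h
      push Not at h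
      exact hN0 (LinearMap.ext h)
    by_cases h : N (N a) = 0
    · exact ⟨N a, ha, h, a, rfl⟩
    · refine ⟨N (N a), h, ?_, N a, rfl⟩
      have := LinearMap.congr_fun hN a
      rwa [pow_three] at this
  have hperp : ∀ b, A.mulVec b = b → B u b = 0 := by
    intro b hb
    rw [ha, hNu, LinearMap.map_sub₂, ← hinv a b, hb, sub_self]
  rw [← hB]
  by_cases hvu : v ∈ Submodule.span F {u}
  · obtain ⟨c, rfl⟩ := Submodule.mem_span_singleton.mp hvu
    rw [LinearMap.map_smul₂, hperp w hw, smul_zero]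
  · have h1 : Submodule.span F {u} < LinearMap.ker N ⊓ LinearMap.ker (B v) := by
      refine lt_of_le_of_ne ((Submodule.span_singleton_le_iff_mem _ _).2 ⟨hu, ?_⟩) fun h => hvu ?_
      · change B v u = 0
        rw [hanti, hperp v hv, neg_zero]
      · rw [h]
        exact ⟨by change N v = 0; rw [hNu, hv, sub_self], halt v⟩
    have h3 := Submodule.finrank_lt_finrank_of_lt h1
    rw [finrank_span_singleton hu0] at h3
    have h4 : LinearMap.ker N ⊓ LinearMap.ker (B v) = LinearMap.ker N :=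
      Submodule.eq_of_le_of_finrank_le inf_le_left (by omega)
    have h5 : w ∈ LinearMap.ker N := by change N w = 0; rw [hNu, hw, sub_self]
    exact (h4.ge h5).2

end Cfsg.Agent.S3213
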