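import Cfsg.Statements.S3215
import Cfsg.Agent.FGS.TwoFrob
import Cfsg.Agent.PLOC.NPC
import Cfsg.Agent.INV.SylowAux

set_option autoImplicit false
open Cfsg

namespace Cfsg.Agent.S3215

open Subgroup CL in
theorem aux {H : Type*} [Group H] [Finite H] [Group.IsSolvable H] (hO : oddCore H = ⊥)
    (hI : ∀ t : H, orderOf t = 2 → HasNormalPComplement 2 (centralizer ({t} : Set H)))
    {x y : H} (hx : (orderOf x).Coprime 2) (hy : 2 ∣ orderOf y) (h : Commute x y) : x = 1 := by
  have ht := orderOf_pow_orderOf_div (orderOf_pos y).ne' hy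
  replace h := h.pow_right (orderOf y / 2)
  generalize y ^ (orderOf y / 2) = t at ht h
  obtain ⟨P, N, _, hN⟩ := hI t ht
  have h1 : (⟨x, mem_centralizer_singleton_iff.2 h⟩ : centralizer {t}) ∈ N :=
    mem_of_coprime_index (by
      obtain ⟨k, hk⟩ := P.isPGroup'.exists_card_eq
      rw [orderOf_mk, hN.symm.index_eq_card, hk]; exact hx.pow_right k)
  have hY := isPGroup_pCore 2 H
  have h2 : (pCore 2 H).subgroupOf (centralizer {t}) ⊓ N = ⊥ :=
    inf_eq_bot_of_isPGroup_of_coprime hY.comap_subtype (by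
      rw [← hN.index_eq_card]; exact (Nat.prime_two.coprime_iff_not_dvd.2 P.not_dvd_index).symm)
  have h3 := thompson_p_times_q (zpowers t) (zpowers x) (pCore 2 H)
    (SylowAux.isPGroup_zpowers_of_orderOf (n := 1) ht) (Nat.card_zpowers x ▸ hx) hY
    (by
      rw [zpowers_eq_closure x, centralizer_closure]
      exact zpowers_le.2 (mem_centralizer_singleton_iff.2 h.symm))
    le_normalizer_of_normal le_normalizer_of_normal fun y hy => by
      rw [zpowers_eq_closure t, centralizer_closure] at hy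
      rw [zpowers_eq_closure x, centralizer_closure]
      exact mem_centralizer_singleton_iff.2 (congrArg Subtype.val (commute_of_normal_of_disjoint _ _
        inferInstance inferInstance (disjoint_iff.2 h2) ⟨y, hy.2⟩ _ hy.1 h1))
  exact SylowAux.eq_one_of_mem_of_coprime hY (centralizer_pCore_le_of_isSolvable hO
    (le_centralizer_iff.1 h3 (mem_zpowers x))) hx

/-- Let H be a finite solvable group with no nontrivial normal subgroup of odd order in which the centralizer of every involution has a normal 2-complement. Let X be a Hall 2'-subgroup of H (odd order, index a power of 2) and Y = O₂(H). Then no non-identity element of X commutes with a non-identity element of Y (so for X ≠ 1 the group XY is a Frobenius group with kernel Y), every Sylow subgroup of X is cyclic, XY is normal in H, and H/XY is a cyclic 2-group. -/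
theorem result {H : Type*} [Group H] [Finite H] (hsol : Group.IsSolvable H)
    (hO : Cfsg.oddCore H = ⊥)
    (hI : ∀ t : H, orderOf t = 2 → Cfsg.HasNormalPComplement 2 ↥(Subgroup.centralizer ({t} : Set H)))
    (X : Subgroup H) (hXodd : Odd (Nat.card X)) (hXidx : ∃ k : ℕ, X.index = 2 ^ k) :
    (∀ x ∈ X, x ≠ 1 → ∀ y ∈ Cfsg.pCore 2 H, y ≠ 1 → x * y ≠ y * x) ∧
      (∀ (p : ℕ) [Fact p.Prime] (P : Sylow p ↥X), IsCyclic ↥(P : Subgroup ↥X)) ∧
      (X ⊔ Cfsg.pCore 2 H).Normal ∧
      ∀ hN : (X ⊔ Cfsg.pCore 2 H).Normal, IsCyclic (H ⧸ (X ⊔ Cfsg.pCore 2 H)) ∧ IsPGroup 2 (H ⧸ (X ⊔ Cfsg.pCore 2 H)) := by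
  open Subgroup CL in
  have hX : (Nat.card X).Coprime 2 := Nat.coprime_two_right.2 hXodd
  have hY := isPGroup_pCore 2 H
  have ev : ∀ {K : Type _} [Group K] {Q : Subgroup K}, IsPGroup 2 Q → ∀ y ∈ Q, y ≠ 1 →
      2 ∣ orderOf y := fun hQ y hy h1 => by
    obtain ⟨k, hk⟩ := IsPGroup.iff_orderOf.1 hQ ⟨y, hy⟩
    rw [orderOf_mk] at hk
    exact hk ▸ dvd_pow_self 2 fun e => h1 (by rwa [e, pow_zero, orderOf_eq_one_iff] at hk)
  have h1 : ∀ x ∈ X, x ≠ 1 → ∀ y ∈ pCore 2 H, y ≠ 1 → x * y ≠ y * x := fun x hx h1 y hy h2 e =>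
    h1 (aux hO hI (hX.coprime_dvd_left (X.orderOf_dvd_natCard hx)) (ev hY y hy h2) e)
  have hZ : IsZGroup X := by
    by_cases e : pCore 2 H = ⊥
    · have := centralizer_pCore_le_of_isSolvable hO
      rw [e, coe_bot, centralizer_eq_top_iff_subset.2 (by simp)] at this
      rw [eq_bot_iff.2 (le_top.trans this : X ≤ ⊥)]
      infer_instance
    · exact Frob.isZGroup_of_odd (Nat.prime_two.coprime_iff_not_dvd.1 hX.symm) e
        le_normalizer_of_normal fun x hx h2 => eq_bot_iff.2 fun y hy => by_contra fun h3 =>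
          h1 x hx h2 y hy.1 h3 (mem_centralizer_singleton_iff.1 hy.2).symm
  set f := QuotientGroup.mk' (pCore 2 H)
  have hf : Function.Surjective f := QuotientGroup.mk'_surjective _
  set F := fittingSubgroup (H ⧸ pCore 2 H)
  have := fittingSubgroup_normal (H ⧸ pCore 2 H)
  have hF : (Nat.card F).Coprime 2 := coprime_of_le_pPrimeCore
    ((fittingSubgroup_le_pCore_sup 2).trans (by rw [pCore_quotient_pCore, bot_sup_eq]))
  obtain ⟨k, hk⟩ := hXidx
  have h2 : F ≤ X.map f := normal_le_of_coprime_index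
    ((hF.pow_right k).coprime_dvd_right (hk ▸ index_map_dvd X hf))
  have : IsZGroup (X.map f) := .of_surjective (f.subgroupMap_surjective X)
  have : IsZGroup F := .of_injective (inclusion_injective h2)
  have := isNilpotent_fittingSubgroup (H ⧸ pCore 2 H)
  have h3 := (commutator_le_centralizer_of_cyclic_normal F).trans
    (centralizer_fittingSubgroup_le (H ⧸ pCore 2 H))
  refine ⟨h1, fun p _ P => inferInstance, ?_, fun hN => ?_⟩
  · rw [← comap_map_mk']
    exact (Normal.of_commutator_le _ (h3.trans h2)).comap f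
  have h4 : IsPGroup 2 (H ⧸ (X ⊔ pCore 2 H)) := by
    obtain ⟨j, -, hj⟩ := (Nat.dvd_prime_pow Nat.prime_two).1
      (hk ▸ index_dvd_of_le (le_sup_left : X ≤ X ⊔ pCore 2 H))
    exact .of_card hj
  refine ⟨?_, h4⟩
  obtain ⟨T⟩ : Nonempty (Sylow 2 (H ⧸ pCore 2 H)) := inferInstance
  have h5 : IsCyclic T := by
    cases subsingleton_or_nontrivial (H ⧸ pCore 2 H)
    · infer_instance
    have : IsMulCommutative T := le_centralizer_iff_isMulCommutative.1
      (commutator_eq_bot_iff_le_centralizer.1 (eq_bot_iff.2 ((le_inf (commutator_le_self _)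
        ((commutator_mono le_top le_top).trans h3)).trans
          (inf_eq_bot_of_isPGroup_of_coprime T.isPGroup' hF).le)))
    refine Frob.isCyclic_of_comm (fittingSubgroup_ne_bot _) le_normalizer_of_normal
      fun t ht h5 => eq_bot_iff.2 fun x hx => ?_
    obtain ⟨x, h6, rfl⟩ := h2 hx.1
    have h7 := hX.coprime_dvd_left (X.orderOf_dvd_natCard h6)
    have h8 : t ∈ centralizer (((zpowers x).map f : Subgroup _) : Set (H ⧸ pCore 2 H)) := by
      rw [MonoidHom.map_zpowers, zpowers_eq_closure, centralizer_closure]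
      exact mem_centralizer_singleton_iff.2 (mem_centralizer_singleton_iff.1 hx.2).symm
    rw [centralizer_map_mk'_of_coprime _ _ (coprime_card_of_isPGroup hY (Nat.card_zpowers x ▸ h7))
      (Or.inl inferInstance)] at h8
    obtain ⟨t, h8, rfl⟩ := h8
    rw [aux hO hI h7 ((ev T.isPGroup' _ ht h5).trans (orderOf_map_dvd _ t)) (h8 x (mem_zpowers x))]
    exact map_one f
  let φ := QuotientGroup.lift (pCore 2 H) (QuotientGroup.mk' (X ⊔ pCore 2 H))
    (le_sup_right.trans (QuotientGroup.ker_mk' _).ge)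
  have hφ : Function.Surjective φ :=
    QuotientGroup.lift_surjective_of_surjective _ _ (QuotientGroup.mk'_surjective _) _
  have h6 := (T.mapSurjective hφ).is_maximal' (h4.to_subgroup ⊤) le_top
  refine isCyclic_of_surjective (φ.comp (T : Subgroup (H ⧸ pCore 2 H)).subtype) fun g => ?_
  obtain ⟨t, ht, e⟩ := h6.le (mem_top g)
  exact ⟨⟨t, ht⟩, e⟩

end Cfsg.Agent.S3215
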