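import Cfsg.Statements.S3244
import Cfsg.Agent.INV.MaxLocal
import Cfsg.Agent.INV.CharTwoEarly

set_option autoImplicit false
open Cfsg

namespace Cfsg.Agent.S3244

/-- Say that a finite group G is of characteristic 2 type in the early sense when a Sylow 2-subgroup S of G has a self-centralizing normal subgroup of rank at least 3, S normalizes no nontrivial subgroup of odd order, and every 2-local subgroup of G is 2-constrained. If G is a non-abelian simple group of characteristic 2 type in this sense, then for some maximal 2-local subgroup M of G the centre of O₂(M) is not cyclic. -/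
theorem result {G : Type*} [Group G] [Finite G] [IsSimpleGroup G]
    (hG : ¬ IsMulCommutative G) (S : Sylow 2 G) (A : Subgroup G) (hA : Cfsg.IsSCN (S : Subgroup G) A) (hA3 : ¬ Cfsg.PRankLE 2 2 ↥A)
    (hinv : ∀ X : Subgroup G, Odd (Nat.card ↥X) → (S : Subgroup G) ≤ Subgroup.normalizer (X : Set G) → X = ⊥)
    (hcon : ∀ T : Subgroup G, IsPGroup 2 ↥T → T ≠ ⊥ → Cfsg.IsPConstrained 2 ↥(Subgroup.normalizer (T : Set G))) :
    ∃ M : Subgroup G, Cfsg.IsMaximalTwoLocal M ∧ ¬ IsCyclic ↥(Subgroup.center ↥(Cfsg.pCore 2 ↥M)) := by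
  by_contra! hcyc
  obtain ⟨hAS, hSA, hCA⟩ := hA
  have hAc : ∀ x ∈ A, ∀ y ∈ A, x * y = y * x := fun x hx y hy =>
    (hCA.ge hy).2 x hx
  let E : Subgroup G :=
    { carrier := {x | x ∈ A ∧ x * x = 1}
      one_mem' := ⟨A.one_mem, one_mul 1⟩
      mul_mem' := fun {x y} hx hy => ⟨A.mul_mem hx.1 hy.1, by
        calc x * y * (x * y) = x * (y * x) * y := by group
          _ = (x * x) * (y * y) := by rw [← hAc x hx.1 y hy.1]; group
          _ = 1 := by rw [hx.2, hy.2, one_mul]⟩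
      inv_mem' := fun {x} hx => ⟨A.inv_mem hx.1, by rw [← mul_inv_rev, hx.2, inv_one]⟩ }
  have hES : E ≤ S := fun x hx => hAS hx.1
  have hSE : (S : Subgroup G) ≤ Subgroup.normalizer (E : Set G) := fun g hg =>
    CL.Tr.mem_normalizer_of_conj_mem fun x hx =>
      ⟨CL.Tr.conj_mem_of_mem_normalizer (hSA hg) hx.1, by
        calc g * x * g⁻¹ * (g * x * g⁻¹) = g * (x * x) * g⁻¹ := by group
          _ = 1 := by rw [hx.2]; simp⟩
  have hE4 : 4 < Nat.card E := by
    obtain ⟨B, hBA, hB, hB4⟩ := CL.Rank.not_prankLE_subgroup_iff.1 hA3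
    exact lt_of_lt_of_le hB4 (Subgroup.card_le_of_le fun x hx =>
      ⟨hBA hx, CL.Rank.isElementaryAbelian_two_iff.1 hB x hx⟩)
  have hzp : ∀ t : G, orderOf t = 2 → IsPGroup 2 (Subgroup.zpowers t) ∧ Subgroup.zpowers t ≠ ⊥ :=
    fun t ht => ⟨CL.SylowAux.isPGroup_zpowers_two (CL.Inv.mul_self_of_orderOf_two ht), by
      rw [Ne, Subgroup.zpowers_eq_bot]; exact CL.Inv.ne_one_of_orderOf_two ht⟩
  have hθ : ∀ s : G, orderOf s = 2 → CL.PComp.opOf 2 (Subgroup.centralizer {s}) = ⊥ :=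
    fun s hs => CL.CTE.opOf_centralizer_eq_bot S hES hSE (fun x hx => hx.2) hE4 hinv
      (fun t ht => CL.CTE.normalizer_zpowers_eq (CL.Inv.mul_self_of_orderOf_two ht) ▸
        hcon _ (hzp t ht).1 (hzp t ht).2) hs
  have hcentral : ∀ Q : Subgroup G, IsPGroup 2 Q → Q ≠ ⊥ →
      ∃ z ∈ Q, orderOf z = 2 ∧ z ∈ Subgroup.centralizer (Q : Set G) := by
    intro Q hQ hQ1
    obtain ⟨z, hz, hz2⟩ := CL.SylowAux.exists_mem_orderOf_eq_two_of_even
      (CL.StrongEmb.even_card_of_isPGroup hQ.to_inf_left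
        (CL.inf_centralizer_ne_bot_of_isPGroup hQ hQ Subgroup.le_normalizer hQ1))
    exact ⟨z, hz.1, hz2, hz.2⟩
  have key : ∀ M : Subgroup G, IsMaximalTwoLocal M → ∃ t : G, orderOf t = 2 ∧
      M = Subgroup.centralizer {t} ∧ ∀ T : Subgroup G, pCoreOf 2 M ≤ T → ∀ z : G, orderOf z = 2 →
        z ∈ Subgroup.centralizer (T : Set G) → z = t := by
    intro M hM
    have huniq : ∀ x ∈ pCoreOf 2 M, ∀ y ∈ pCoreOf 2 M, orderOf x = 2 → orderOf y = 2 →
        x ∈ Subgroup.centralizer (pCoreOf 2 M : Set G) →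
        y ∈ Subgroup.centralizer (pCoreOf 2 M : Set G) → x = y := by
      rintro _ ⟨x, hx, rfl⟩ _ ⟨y, hy, rfl⟩ hx2 hy2 hxc hyc
      have h1 := CL.SylowAux.eq_of_isCyclic_subgroup (hcyc M hM) (x := ⟨x, hx⟩) (y := ⟨y, hy⟩)
        (Subgroup.mem_center_iff.2 fun g => Subtype.ext (Subtype.ext (hxc _ ⟨g, g.2, rfl⟩)))
        (Subgroup.mem_center_iff.2 fun g => Subtype.ext (Subtype.ext (hyc _ ⟨g, g.2, rfl⟩)))
        (by rw [← Subgroup.orderOf_coe, ← Subgroup.orderOf_coe]; exact hx2)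
        (by rw [← Subgroup.orderOf_coe, ← Subgroup.orderOf_coe]; exact hy2)
      rw [Subtype.ext_iff] at h1
      exact congrArg Subtype.val h1
    obtain ⟨t, htQ, ht2, htc⟩ := hcentral _ (CL.PComp.pCoreOf_isPGroup 2 M)
      (CL.MaxLoc.pCoreOf_ne_bot hM.1)
    have hMt : M = Subgroup.centralizer {t} := by
      rw [← CL.CTE.normalizer_zpowers_eq (CL.Inv.mul_self_of_orderOf_two ht2)]
      refine (CL.MaxLoc.normalizer_eq_of_le hM (hzp t ht2).1 (hzp t ht2).2 ?_).symm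
      rw [CL.CTE.normalizer_zpowers_eq (CL.Inv.mul_self_of_orderOf_two ht2)]
      intro g hg
      have hg' := CL.PComp.le_normalizer_pCoreOf 2 M hg
      exact CL.Inv.mem_centralizer_singleton.2 (mul_inv_eq_iff_eq_mul.1 (huniq _
        (CL.Tr.conj_mem_of_mem_normalizer hg' htQ) _ htQ (by rw [CL.Inv.orderOf_conj', ht2]) ht2
        (CL.Tr.conj_mem_of_mem_normalizer (CL.Tr.normalizer_le_normalizer_centralizer' _ hg') htc)
        htc))
    refine ⟨t, ht2, hMt, fun T hT z hz hzc => ?_⟩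
    have hzM : z ∈ M := by
      rw [hMt, CL.Inv.mem_centralizer_singleton]; exact (hzc t (hT htQ)).symm
    have hO : pPrimeCore 2 M = ⊥ := by
      rw [← CL.PComp.opOf_subgroupOf, hMt, hθ t ht2, Subgroup.bot_subgroupOf]
    have hc : IsPConstrained 2 M := by
      obtain ⟨U, hU, hU1, rfl⟩ := hM.1
      exact hcon U hU hU1
    have hzQ : z ∈ pCoreOf 2 M := (CL.PComp.mem_pCoreOf (⟨z, hzM⟩ : M)).2
      ((CL.PC.isPConstrained_iff_of_eq_bot hO).1 hc fun y hy =>
        Subtype.ext (hzc y (hT ((CL.PComp.mem_pCoreOf y).2 hy))))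
    exact huniq z hzQ t htQ hz ht2 (Subgroup.centralizer_le hT hzc) htc
  have hE1 : E ≠ ⊥ := by intro h; rw [h] at hE4; simp at hE4
  have hS1 : (S : Subgroup G) ≠ ⊥ := fun h => hE1 (le_bot_iff.1 (h ▸ hES))
  have hT1 : ∀ T : Sylow 2 G, (T : Subgroup G) ≠ ⊥ := by
    intro T h
    obtain ⟨g, rfl⟩ := MulAction.exists_smul_eq G S T
    rw [CL.Tr.coe_smul_sylow_eq_map,
      Subgroup.map_eq_bot_iff_of_injective _ (MulAut.conj g).injective] at h
    exact hS1 h
  obtain ⟨C, hC, hSC⟩ := CL.MaxLoc.exists_ge S.isPGroup' hS1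
  have hse : IsStronglyEmbedded C := by
    refine CL.MaxLoc.isStronglyEmbedded ?_ ?_ hC (CL.MaxLoc.ne_top_of_simple hG hC.1)
    · intro M hM
      obtain ⟨t, ht, hMt, h⟩ := key M hM
      obtain ⟨T, hT⟩ := (CL.PComp.pCoreOf_isPGroup 2 M).exists_le_sylow
      obtain ⟨z, -, hz2, hzc⟩ := hcentral T T.isPGroup' (hT1 T)
      obtain rfl := h T hT z hz2 hzc
      exact ⟨T, fun g hg => hMt ▸ CL.Inv.mem_centralizer_singleton.2 (hzc g hg)⟩
    · intro T M M' hM hM' hT hT'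
      have hQ : ∀ M : Subgroup G, (T : Subgroup G) ≤ M → pCoreOf 2 M ≤ T := fun M hT =>
        le_sup_right.trans (T.is_maximal' (T.isPGroup'.to_sup_of_normal_right'
          (CL.PComp.pCoreOf_isPGroup 2 M) (hT.trans (CL.PComp.le_normalizer_pCoreOf 2 M)))
          le_sup_left).le
      obtain ⟨t, ht, hMt, h⟩ := key M hM
      obtain ⟨t', ht', hMt', h'⟩ := key M' hM'
      obtain ⟨z, -, hz2, hzc⟩ := hcentral T T.isPGroup' (hT1 T)
      rw [hMt, hMt', ← h T (hQ M hT) z hz2 hzc, ← h' T (hQ M' hT') z hz2 hzc]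
  obtain ⟨t, ht, hCt, -⟩ := key C hC
  obtain ⟨e, heE, he⟩ : ∃ e ∈ E, e ∉ Subgroup.zpowers t := by
    by_contra! h
    have h1 := Subgroup.card_le_of_le (show E ≤ Subgroup.zpowers t from h)
    rw [Nat.card_zpowers, ht] at h1
    omega
  obtain ⟨h, hh, h2⟩ := CL.StrongEmb.exists_conj_of_involutions hse (s := t) (t := e)
    (hCt ▸ CL.Inv.mem_centralizer_singleton.2 (Commute.refl t))
    (hSC (Subgroup.le_normalizer (hES heE))) ht
    (CL.Inv.orderOf_eq_two_of heE.2 (fun h => he (h ▸ Subgroup.one_mem _)))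
  rw [hCt, CL.Inv.mem_centralizer_singleton] at hh
  rw [hh.eq, mul_inv_cancel_right] at h2
  exact he (h2 ▸ Subgroup.mem_zpowers t)

end Cfsg.Agent.S3244
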