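import Cfsg.Statements.S3246
import Cfsg.Agent.S0505
import Cfsg.Agent.PLOC.PConstrained
import Cfsg.Agent.TECH.ParChar
import Cfsg.Agent.SOLV.CoprimeGen
import Cfsg.Agent.INV.Four

set_option autoImplicit false
open Cfsg

namespace Cfsg.Agent.S3246

/-- Let G be a finite group whose Sylow 2-subgroup S has a self-centralizing normal subgroup of rank at least 3. Suppose that either every maximal 2-local subgroup of G is 2-constrained with no nontrivial normal subgroup of odd order, or the centralizer of every involution of G is 2-constrained with no nontrivial normal subgroup of odd order. Then S normalizes no nontrivial subgroup of G of odd order and every 2-local subgroup of G is 2-constrained. -/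
theorem result {G : Type*} [Group G] [Finite G]
    (S : Sylow 2 G) (A : Subgroup G) (hA : Cfsg.IsSCN (S : Subgroup G) A) (hA3 : ¬ Cfsg.PRankLE 2 2 ↥A)
    (h : (∀ M : Subgroup G, Cfsg.IsMaximalTwoLocal M → Cfsg.IsPConstrained 2 ↥M ∧ Cfsg.oddCore ↥M = ⊥) ∨
      (∀ t : G, orderOf t = 2 → Cfsg.IsPConstrained 2 ↥(Subgroup.centralizer ({t} : Set G)) ∧
        Cfsg.oddCore ↥(Subgroup.centralizer ({t} : Set G)) = ⊥)) :
    (∀ X : Subgroup G, Odd (Nat.card ↥X) → (S : Subgroup G) ≤ Subgroup.normalizer (X : Set G) → X = ⊥) ∧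
      (∀ T : Subgroup G, IsPGroup 2 ↥T → T ≠ ⊥ → Cfsg.IsPConstrained 2 ↥(Subgroup.normalizer (T : Set G))) := by
  have key : ∀ T : Subgroup G, IsPGroup 2 T → T ≠ ⊥ →
      IsPGroup 2 (CL.Comp.fstarOf (Subgroup.normalizer (T : Set G))) := by
    rcases h with h | h
    · intro T hT h1
      obtain ⟨M, hM, hmax⟩ := Finite.exists_le_maximal (p := Cfsg.IsTwoLocal)
        (a := Subgroup.normalizer (T : Set G)) ⟨T, hT, h1, rfl⟩
      have h2 := CL.MSS.charPIn_iff_isPGroup_fstarOf.1 (CL.PC.charPIn_iff.2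
        (h M ⟨hmax.1, fun N hN hMN => le_antisymm (hmax.2 hN hMN) hMN⟩))
      have := CL.Comp.isPGroup_fstarOf_inf_normalizer h2 (Subgroup.le_normalizer.trans hM) hT
      rwa [inf_eq_right.2 hM] at this
    · exact Cfsg.Agent.S0505.aux fun t ht =>
        CL.MSS.charPIn_iff_isPGroup_fstarOf.1 (CL.PC.charPIn_iff.2 (h t ht))
  refine ⟨fun X hX hSX => ?_, fun T hT h1 =>
    CL.PC.isPConstrained_of_charPIn (CL.MSS.charPIn_iff_isPGroup_fstarOf.2 (key T hT h1))⟩
  by_contra hX1
  have hX2 : (Nat.card X).Coprime 2 := Nat.coprime_two_right.2 hX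
  obtain ⟨hAS, hSA, hAc⟩ := hA
  haveI : IsMulCommutative A := ⟨⟨fun a b => Subtype.ext
    (((hAc.ge b.2).2 a a.2))⟩⟩
  haveI := CL.normal_subgroupOf_of_le_normalizer hSA
  obtain ⟨E, -, hEn, hE, hE4⟩ := CL.PCyc.exists_normal_elemAb_le S.isPGroup'
    (A.subgroupOf S) (fun hc => hA3 fun B _ hB => by
      haveI : IsCyclic A := isCyclic_of_surjective _ (Subgroup.subgroupOfEquivOfLe hAS).surjective
      refine le_trans ?_ (show 2 ≤ 2 ^ 2 by norm_num)
      rw [← IsCyclic.exponent_eq_card]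
      exact Nat.le_of_dvd two_pos (Monoid.exponent_dvd_of_forall_pow_eq_one
        fun b => Subtype.ext (hB b b.2)))
  haveI := hE.1
  set U := E.map (S : Subgroup G).subtype
  have hU4 : Nat.card U = 2 ^ 2 := by rw [Subgroup.card_map_of_injective (Subgroup.subtype_injective _), hE4]
  have hU : Cfsg.IsElementaryAbelian 2 U := ⟨inferInstance, by
    rintro _ ⟨e, he, rfl⟩; exact congrArg Subtype.val (hE.2 e he)⟩
  obtain ⟨u, hu, hu1, hY⟩ := CL.coprime_exists_centralizer_ne_bot U X
    (CL.PCyc.not_isCyclic_of_elemAb Nat.prime_two hU (by rw [hU4]; norm_num))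
    ((Subgroup.map_subtype_le _).trans hSX) (by rw [hU4]; exact hX2.symm.pow_left 2) hX1
  have hu2 : IsPGroup 2 (Subgroup.zpowers u) :=
    S.isPGroup'.to_le ((Subgroup.zpowers_le.2 hu).trans (Subgroup.map_subtype_le _))
  have hH := CL.MSS.charPIn_iff_isPGroup_fstarOf.2 ((CL.Comp.isPGroup_fstarOf_normalizer_iff hu2).1
    (key _ hu2 (by simpa using hu1)))
  rw [CL.PCyc.centralizer_zpowers] at hH
  set H := Subgroup.centralizer ({u} : Set G)
  set Q := Cfsg.pCoreOf 2 H
  set S0 := (S : Subgroup G) ⊓ H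
  have hQ : IsPGroup 2 Q := CL.PComp.pCoreOf_isPGroup 2 H
  have hHQ : H ≤ Subgroup.normalizer (Q : Set G) := CL.PComp.le_normalizer_pCoreOf 2 H
  have hQH : Q ≤ H := CL.PComp.pCoreOf_le 2 H
  have hcop : (Nat.card ↥(X ⊓ H)).Coprime (Nat.card Q) :=
    CL.coprime_card_of_isPGroup hQ (hX2.coprime_dvd_left (Subgroup.card_dvd_of_le inf_le_left))
  -- index bound
  have hi : Nat.card S ≤ Nat.card S0 * 2 := by
    rw [← CL.card_inf_mul_relIndex H S, inf_comm]
    refine Nat.mul_le_mul_left _ (Nat.le_of_dvd two_pos ?_)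
    refine (Subgroup.index_dvd_of_le (H := Subgroup.centralizer (E : Set S)) ?_).trans
      (CL.Four.index_centralizer_dvd_two S.isPGroup' E hE4)
    obtain ⟨e, he, rfl⟩ := hu
    exact fun x hx => Subgroup.mem_centralizer_singleton_iff.2 (congrArg Subtype.val (hx e he).symm)
  have hi2 : (S0 ⊓ Q).relIndex Q ≤ 2 := by
    have h1 := CL.card_sup_mul_card_inf_of_le_normalizer (inf_le_right.trans hHQ : S0 ≤ _)
    have h2 : Nat.card ↥(S0 ⊔ Q) ≤ Nat.card S := (CL.MSS.sylIn_top S).card_le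
      (IsPGroup.to_sup_of_normal_right' (S.isPGroup'.to_le inf_le_left) hQ
        (inf_le_right.trans hHQ)) le_top
    have h3 := CL.card_mul_relIndex_of_le (inf_le_right : S0 ⊓ Q ≤ Q)
    have h4 : 0 < Nat.card S0 * Nat.card ↥(S0 ⊓ Q) := Nat.mul_pos Nat.card_pos Nat.card_pos
    refine Nat.le_of_mul_le_mul_left ?_ h4
    calc _ = Nat.card S0 * Nat.card Q := by rw [← h3, mul_assoc]
      _ ≤ (Nat.card S0 * 2) * Nat.card ↥(S0 ⊓ Q) := by
        rw [← h1]; exact Nat.mul_le_mul_right _ (h2.trans hi)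
      _ = _ := by ring
  have hc : S0 ⊓ Q ≤ Subgroup.centralizer ((X ⊓ H : Subgroup G) : Set G) := by
    rw [← Subgroup.commutator_eq_bot_iff_le_centralizer, eq_bot_iff,
      ← disjoint_iff.1 (Subgroup.disjoint_of_coprime_natCard hcop)]
    refine le_inf (Subgroup.le_normalizer_iff_commutator_le_right.1 ?_) ?_
    · exact inf_le_left.trans (CL.le_normalizer_inf (inf_le_left.trans hSX)
        (inf_le_right.trans Subgroup.le_normalizer))
    · exact (Subgroup.commutator_mono inf_le_right le_rfl).trans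
        (Subgroup.le_normalizer_iff_commutator_le_left.1 (inf_le_right.trans hHQ))
  have hc2 : Q ≤ Subgroup.centralizer ((X ⊓ H : Subgroup G) : Set G) := by
    have h0 : (S0 ⊓ Q).relIndex Q ≠ 0 := Subgroup.index_ne_zero_of_finite
    rcases (by omega : (S0 ⊓ Q).relIndex Q = 1 ∨ (S0 ⊓ Q).relIndex Q = 2) with h1 | h1
    · exact (Subgroup.relIndex_eq_one.1 h1).trans hc
    refine CL.coprime_le_centralizer_of_trivial_on_factors _ Q (S0 ⊓ Q)
      ((Subgroup.le_centralizer_iff.1 hc).trans (Subgroup.centralizer_le_normalizer _))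
      (hcop.coprime_dvd_right (Subgroup.card_dvd_of_le inf_le_right)) hc ?_
    rw [Subgroup.commutator_le]
    intro q hq y hy
    have hy' : y * q⁻¹ * y⁻¹ ∈ Q := (Subgroup.mem_normalizer_iff.1 (hHQ hy.2) _).1 (Q.inv_mem hq)
    have h2 := (Subgroup.mul_mem_iff_of_index_two h1 (a := ⟨q, hq⟩) (b := ⟨_, hy'⟩)).2 (by
      have h3 := Subgroup.mem_normalizer_iff.1 (((Subgroup.le_centralizer_iff.1 hc).trans
        (Subgroup.centralizer_le_normalizer _)) hy) q⁻¹
      exact (inv_mem_iff.symm.trans h3 :))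
    rw [commutatorElement_def, mul_assoc, mul_assoc, ← mul_assoc y]
    exact h2
  refine hY (eq_bot_iff.2 ?_)
  rw [← disjoint_iff.1 (Subgroup.disjoint_of_coprime_natCard hcop)]
  exact le_inf le_rfl ((le_inf inf_le_right (Subgroup.le_centralizer_iff.1 hc2)).trans hH)

end Cfsg.Agent.S3246
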