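import Cfsg.Statements.S3247
import Cfsg.Agent.PLOC.PConstrained

set_option autoImplicit false
open Cfsg

namespace Cfsg.Agent.S3247

open Subgroup CL.MSS CL.PC

theorem aux {G : Type*} [Group G] [Finite G] {p : ℕ} [Fact p.Prime] {T : Subgroup G} [T.Normal]
    (hT : IsPGroup p T) (h : IsPConstrained p (centralizer (T : Set G))) : IsPConstrained p G := by
  set f := QuotientGroup.mk' (pPrimeCore p G) with hf
  have hs : Function.Surjective f := QuotientGroup.mk'_surjective _
  have h1 := (isPConstrained_map_iff' f _ coprime_ker_mk'_pPrimeCore).2 h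
  rw [← centralizer_map_of_isPGroup hs coprime_ker_mk'_pPrimeCore hT] at h1
  have : (T.map f).Normal := Normal.map inferInstance _ hs
  set C := centralizer ((T.map f : Subgroup _) : Set (G ⧸ pPrimeCore p G)) with hC
  have h2 : pPrimeCore p C = ⊥ := CL.pPrimeCore_eq_bot_of_isSubnormal
    (Normal.isSubnormal inferInstance) (CL.pPrimeCore_quotient_pPrimeCore p G)
  have h3 := (isPConstrained_iff_of_eq_bot h2).1 h1
  refine isPConstrained_iff.2 fun x hx => ?_
  have h4 : x ∈ C := centralizer_le (CL.le_pCore (hT.map f)) hx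
  have h5 := CL.map_pCore_of_normal (p := p) C
  have h6 : (⟨x, h4⟩ : C) ∈ pCore p C := h3 (mem_centralizer_iff.2 fun y hy => Subtype.ext
    (mem_centralizer_iff.1 hx _ (h5.le (mem_map_of_mem _ hy)).1))
  exact (h5.le (mem_map_of_mem _ h6)).1

/-- Let G be a finite group and p a prime; here a p-local subgroup means the normalizer of a nontrivial p-subgroup, other than G itself. If every p-local subgroup of G that is maximal among p-local subgroups is p-constrained, or if the centralizer of every element of order p of G is p-constrained, then every p-local subgroup of G is p-constrained. -/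
theorem result {G : Type*} [Group G] [Finite G] (p : ℕ) [hp : Fact p.Prime]
    (h : (∀ M : Subgroup G, (∃ T : Subgroup G, IsPGroup p ↥T ∧ T ≠ ⊥ ∧ M = Subgroup.normalizer (T : Set G)) → M ≠ ⊤ →
        (∀ M' : Subgroup G, (∃ T' : Subgroup G, IsPGroup p ↥T' ∧ T' ≠ ⊥ ∧ M' = Subgroup.normalizer (T' : Set G)) → M' ≠ ⊤ → M ≤ M' → M = M') →
        Cfsg.IsPConstrained p ↥M) ∨
      (∀ x : G, orderOf x = p → Cfsg.IsPConstrained p ↥(Subgroup.centralizer ({x} : Set G))))
    (T : Subgroup G) (hT : IsPGroup p ↥T) (hT1 : T ≠ ⊥) (hTG : Subgroup.normalizer (T : Set G) ≠ ⊤) :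
    Cfsg.IsPConstrained p ↥(Subgroup.normalizer (T : Set G)) := by
  rcases h with h | h
  · obtain ⟨M, h1, h2⟩ := Finite.exists_le_maximal
      (p := fun M : Subgroup G => (∃ T : Subgroup G, IsPGroup p ↥T ∧ T ≠ ⊥ ∧
        M = Subgroup.normalizer (T : Set G)) ∧ M ≠ ⊤) (a := normalizer (T : Set G))
      ⟨⟨T, hT, hT1, rfl⟩, hTG⟩
    have h3 := isPConstrained_inf_normalizer (h M h2.1.1 h2.1.2 fun M' k1 k2 k3 =>
      le_antisymm k3 (h2.2 ⟨k1, k2⟩ k3)) hT (le_normalizer.trans h1)
    rwa [inf_of_le_right h1] at h3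
  · obtain ⟨y, hy, hy1⟩ := (bot_or_exists_ne_one _).resolve_left
      (inf_centralizer_ne_bot hT hT le_normalizer hT1)
    obtain ⟨k, hk⟩ := isPGroup_iff_forall_mem.1 hT y hy.1
    obtain ⟨x, hx, hxp⟩ : ∃ x ∈ zpowers y, orderOf x = p := by
      obtain ⟨i, -, hi⟩ := (Nat.dvd_prime_pow hp.out).1 (orderOf_dvd_of_pow_eq_one hk)
      have h1 : p ∣ Nat.card (zpowers y) := by
        rw [Nat.card_zpowers, hi]
        refine dvd_pow_self p ?_
        rintro rfl
        exact hy1 (orderOf_eq_one_iff.1 hi)
      obtain ⟨x, hx⟩ := exists_prime_orderOf_dvd_card' p h1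
      exact ⟨x, x.2, by rw [← hx, orderOf_coe]⟩
    have hx' := zpowers_le.2 hy hx
    have h1 : T ≤ centralizer {x} := fun t ht =>
      mem_centralizer_singleton_iff.2 (mem_centralizer_iff.1 hx'.2 t ht)
    have h2 := isPConstrained_inf_centralizer (h x hxp) hT h1
    have h4 : centralizer (T : Set G) ≤ centralizer {x} :=
      centralizer_le (Set.singleton_subset_iff.2 hx'.1)
    rw [inf_of_le_right h4] at h2
    have : (T.subgroupOf (normalizer (T : Set G))).Normal := normal_in_normalizer
    refine aux (T := T.subgroupOf (normalizer (T : Set G))) (isPGroup_subgroupOf hT _) ?_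
    have h3 : centralizer ((T.subgroupOf (normalizer (T : Set G)) : Subgroup _) :
        Set (normalizer (T : Set G))) = (centralizer (T : Set G)).subgroupOf _ := by
      ext g
      simp only [mem_centralizer_iff, mem_subgroupOf]
      exact ⟨fun h t ht => congrArg Subtype.val (h ⟨t, le_normalizer ht⟩ ht),
        fun h t ht => Subtype.ext (h t ht)⟩
    rw [h3, isPConstrained_subgroupOf_iff (centralizer_le_normalizer _)]
    exact h2

end Cfsg.Agent.S3247
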