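import Cfsg.Statements.S3260
import Mathlib
import Cfsg.Agent.SIG.QFixH

set_option autoImplicit false
open Cfsg

namespace Cfsg.Agent.S3260

/-- Let p ≥ 5 be a prime, G a finite p-constrained group with Sylow p-subgroup S, and A a group of automorphisms of G of order coprime to |G| whose fixed-point subgroup has no section isomorphic to PSL₂(p). Then G = O_{p'}(G) · N_G(Z(J(S))), where J(S) is the subgroup generated by the abelian subgroups of S of largest order. -/
theorem result {G : Type*} [Group G] [Finite G] (p : ℕ) [hp : Fact p.Prime] (hp5 : 5 ≤ p)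
    (hG : Cfsg.IsPConstrained p G) (S : Sylow p G) (A : Subgroup (MulAut G)) (hA : (Nat.card ↥A).Coprime (Nat.card G))
    (C : Subgroup G) (hC : ∀ g : G, g ∈ C ↔ ∀ a ∈ A, a g = g)
    {F : Type*} [Field F] [Fintype F] (hF : Fintype.card F = p)
    (hfix : ¬ Cfsg.Involves (Matrix.ProjectiveSpecialLinearGroup (Fin 2) F) ↥C) :
    Cfsg.pPrimeCore p G ⊔ Subgroup.normalizer (Cfsg.centerThompsonAOf (S : Subgroup G) : Set G) = ⊤ := by
  open Subgroup CL CL.QFix SemidirectProduct in
  by_cases hd : p ∣ Nat.card G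
  swap
  · rw [eq_top_iff]
    refine le_sup_of_le_left (le_pPrimeCore ?_)
    rw [card_top]
    exact ((Nat.Prime.coprime_iff_not_dvd hp.out).2 hd).symm
  let Γ := G ⋊[A.subtype] A
  have : Finite Γ := Finite.of_equiv _ (SemidirectProduct.equivProd (φ := A.subtype)).symm
  let G' : Subgroup Γ := (inl : G →* Γ).range
  have hn : G'.Normal := by
    show (inl : G →* Γ).range.Normal
    rw [range_inl_eq_ker_rightHom]; infer_instance
  have c1 : Nat.card G' = Nat.card G := (Nat.card_congr (MonoidHom.ofInjective inl_injective).toEquiv).symm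
  have c2 : Nat.card (inr : A →* Γ).range = Nat.card A :=
    (Nat.card_congr (MonoidHom.ofInjective inr_injective).toEquiv).symm
  have hi : G'.index.Coprime p := by
    show (inl : G →* Γ).range.index.Coprime p
    rw [range_inl_eq_ker_rightHom, index_ker, MonoidHom.range_eq_top.2 rightHom_surjective, card_top]
    exact hA.coprime_dvd_right hd
  obtain ⟨T, hT⟩ := (S.isPGroup'.map (inl : G →* Γ)).exists_le_sylow
  have hST : (T : Subgroup Γ) = (S : Subgroup G).map inl := by
    have h1 := S.is_maximal' (T.isPGroup'.comap_of_injective inl inl_injective)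
      (map_le_iff_le_comap.1 hT)
    rw [← h1, map_comap_eq_self (le_of_isPGroup hi T.isPGroup')]
  have key := zj_normal hp5 (G := G') (R := (inr : A →* Γ).range) (by rwa [c1, c2]) hF hi
    (fun h => hfix (Sec.involves_trans (Sec.involves_mono h (L := C.map inl) ?_)
      (Sec.involves_map _ _)))
    ((PC.isPConstrained_iff_of_mulEquiv (MonoidHom.ofInjective inl_injective)).1 hG) T
  swap
  · rintro _ ⟨⟨g, rfl⟩, h2⟩
    refine ⟨g, (hC g).2 fun a ha => inl_injective (φ := A.subtype) ?_, rfl⟩
    have := h2 _ ⟨⟨a, ha⟩, rfl⟩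
    rw [show a g = A.subtype ⟨a, ha⟩ g from rfl, inl_aut, this, mul_assoc, ← map_mul, mul_inv_cancel,
      map_one, mul_one]
  rw [hST, ← PC.map_centerThompsonAOf_of_inf_ker (by
    rw [(MonoidHom.ker_eq_bot_iff _).2 inl_injective, inf_bot_eq]), map_map] at key
  set f := (QuotientGroup.mk' (pPrimeCore p Γ)).comp inl
  have hk : (Nat.card f.rangeRestrict.ker).Coprime p := by
    rw [MonoidHom.ker_rangeRestrict, ← MonoidHom.comap_ker, QuotientGroup.ker_mk']
    exact (coprime_card_pPrimeCore p Γ).coprime_dvd_left (card_comap_dvd_of_injective _ _ inl_injective)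
  have := PC.ker_sup_normalizer_eq_top f.rangeRestrict_surjective hk
    (S.isPGroup'.to_le (ThA.centerThompsonAOf_le _)) ⟨by
      rintro _ ⟨w, hw, rfl⟩ ⟨_, g, rfl⟩
      obtain ⟨w', hw', e⟩ := key.conj_mem _ ⟨w, hw, rfl⟩ (f g)
      exact ⟨w', hw', Subtype.ext e⟩⟩
  rw [eq_top_iff, ← this]
  exact sup_le_sup_right (le_pPrimeCore hk) _

end Cfsg.Agent.S3260
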