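import Cfsg.Statements.S3264
import Cfsg.Agent.FGS.EngelGen

set_option autoImplicit false
open Cfsg

namespace Cfsg.Agent.S3264

/-- Let G be a non-abelian finite simple group and X a conjugacy class of involutions of G. Form the graph on X in which two distinct involutions are joined when their product has odd order. Then this graph is connected. (By the Baer–Suzuki Theorem the graph has at least one edge; connectedness is the stronger statement.) -/
theorem result {G : Type*} [Group G] [Finite G] [IsSimpleGroup G]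
    (hG : ¬ IsMulCommutative G) (t : G) (ht : orderOf t = 2) :
    (SimpleGraph.fromRel fun x y : {x : G // IsConj t x} => Odd (orderOf (x.1 * y.1))).Connected := by
  have h2 : t * t = 1 := by rw [← pow_two, ← ht, pow_orderOf_eq_one]
  have hi : t⁻¹ = t := inv_eq_of_mul_eq_one_right h2
  have t1 : t ≠ 1 := fun e => by rw [e, orderOf_one] at ht; exact absurd ht (by decide)
  set Γ := SimpleGraph.fromRel fun x y : {x : G // IsConj t x} => Odd (orderOf (x.1 * y.1)) with hΓ
  let cj : G → {x : G // IsConj t x} → {x : G // IsConj t x} := fun g x =>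
    ⟨g * x.1 * g⁻¹, x.2.trans (isConj_iff.2 ⟨g, rfl⟩)⟩
  have od : ∀ g x y : G, orderOf (g * x * g⁻¹ * (g * y * g⁻¹)) = orderOf (x * y) := fun g x y => by
    rw [← (MulAut.conj g).orderOf_eq (x * y), map_mul]; rfl
  let φ : G → Γ →g Γ := fun g => ⟨cj g, fun {x y} h => by
    rw [hΓ, SimpleGraph.fromRel_adj] at h ⊢
    refine ⟨fun e => h.1 (Subtype.ext ((MulAut.conj g).injective (congrArg Subtype.val e))), ?_⟩
    simpa only [cj, od] using h.2⟩
  let t0 : {x : G // IsConj t x} := ⟨t, IsConj.refl t⟩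
  have mul : ∀ a b, cj (a * b) t0 = cj a (cj b t0) := fun a b => Subtype.ext (by simp [cj, mul_assoc])
  have one : cj 1 t0 = t0 := Subtype.ext (by simp [cj])
  let L : Subgroup G :=
    { carrier := {g | Γ.Reachable t0 (cj g t0)}
      one_mem' := by change Γ.Reachable t0 (cj 1 t0); rw [one]
      mul_mem' := fun {a b} ha hb => by
        change Γ.Reachable t0 (cj (a * b) t0)
        rw [mul]; exact ha.trans (hb.map (φ a))
      inv_mem' := fun {a} ha => by
        have : Γ.Reachable (cj a⁻¹ t0) (cj a⁻¹ (cj a t0)) := ha.map (φ a⁻¹)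
        rw [← mul, inv_mul_cancel, one] at this
        exact this.symm }
  have gen : CL.GZ.Gen (Subgroup.zpowers t) ⊤ := ⟨le_top, fun K h1 h3 => by
    by_contra h4
    obtain ⟨W, h5, h6, h7⟩ := h3.exists_lt_normal h4
    have : W.Normal := Subgroup.normalizer_eq_top_iff.1 (eq_top_iff.2 h6)
    rcases this.eq_bot_or_eq_top with e | e
    · exact t1 (Subgroup.mem_bot.1 (e ▸ h7.le (h1 (Subgroup.mem_zpowers t))))
    · exact h5.ne e⟩
  have top : ⊤ ≤ L := by
    rw [← CL.GZ.closure_periodic _ G rfl t gen, Subgroup.closure_le]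
    rintro w (rfl | ⟨k, hk, hw⟩)
    · change Γ.Reachable t0 (cj w t0)
      rw [show cj w t0 = t0 from Subtype.ext (by simp [cj, t0])]
    have h1 : t * w * t⁻¹ = w⁻¹ := by
      obtain ⟨k, rfl⟩ : ∃ j, k = j + 1 := ⟨k - 1, by omega⟩
      rw [← hw.eq, Function.iterate_succ_apply', CL.GZ.cm]
      simp only [mul_inv_rev, hi, mul_assoc, h2, mul_one, inv_inv]
    have h3 : ∀ n, (CL.GZ.cm t)^[n] w = w ^ 2 ^ n := fun n => by
      induction n with
      | zero => simp
      | succ n ih =>
        rw [Function.iterate_succ_apply', ih, CL.GZ.cm, ← conj_pow, h1, inv_pow, inv_inv, ← pow_add,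
          pow_succ, mul_two]
    have h4 := hw.eq
    rw [h3, ← Nat.sub_add_cancel (Nat.one_le_two_pow (n := k)), pow_succ] at h4
    have h5 : Odd (orderOf w) := Odd.of_dvd_nat (n := 2 ^ k - 1) (Nat.Even.sub_odd Nat.one_le_two_pow
      (Nat.even_pow.2 ⟨even_two, hk.ne'⟩) odd_one) (orderOf_dvd_of_pow_eq_one (mul_eq_right.1 h4))
    change Γ.Reachable t0 (cj w t0)
    by_cases e : t0 = cj w t0
    · rw [← e]
    refine SimpleGraph.Adj.reachable ?_
    rw [hΓ, SimpleGraph.fromRel_adj]
    refine ⟨e, Or.inl ?_⟩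
    have h6 : t * (w * t * w⁻¹) = (w ^ 2)⁻¹ := by
      rw [show t * (w * t * w⁻¹) = t * w * t⁻¹ * w⁻¹ by rw [hi]; group, h1]; group
    change Odd (orderOf (t * (w * t * w⁻¹)))
    rw [h6, orderOf_inv]
    exact h5.of_dvd_nat (orderOf_pow_dvd 2)
  have all : ∀ x, Γ.Reachable t0 x := fun x => by
    obtain ⟨g, hg⟩ := isConj_iff.1 x.2
    have : Γ.Reachable t0 (cj g t0) := top (Subgroup.mem_top g)
    rwa [show cj g t0 = x from Subtype.ext hg] at this
  have : Nonempty {x : G // IsConj t x} := ⟨t0⟩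
  exact ⟨fun x y => (all x).symm.trans (all y)⟩

end Cfsg.Agent.S3264
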