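import Cfsg.Statements.S3266
import Cfsg.Agent.KSG.SL2Prod

set_option autoImplicit false
open Cfsg CL.GL2 CL.Char

namespace Cfsg.Agent.S3266

open Matrix Finset
open scoped MatrixGroups

theorem orderOf_eq_of_isConj {G : Type*} [Group G] {a b : G} (h : IsConj a b) : orderOf a = orderOf b := by
  obtain ⟨c, rfl⟩ := isConj_iff.1 h
  exact ((MulAut.conj c).orderOf_eq a).symm

theorem graph_diam_two {V : Type*} (r : V → V → Prop) (h : ∀ x y, ∃ z, r x z ∧ r y z) {a b : V}
    (hab : a ≠ b) (h1 : ¬ r a b) (h2 : ¬ r b a) :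
    (SimpleGraph.fromRel r).Connected ∧ (SimpleGraph.fromRel r).diam = 2 := by
  have : Nontrivial V := ⟨a, b, hab⟩
  have hle : (SimpleGraph.fromRel r).ediam ≤ 2 := SimpleGraph.ediam_le_of_edist_le fun x y => by
    obtain ⟨z, hx, hy⟩ := h x y
    have e1 : (SimpleGraph.fromRel r).edist x z ≤ 1 := SimpleGraph.edist_le_one_iff_adj_or_eq.2
      (or_iff_not_imp_right.2 fun e => (SimpleGraph.fromRel_adj _ _ _).2 ⟨e, Or.inl hx⟩)
    have e2 : (SimpleGraph.fromRel r).edist z y ≤ 1 := SimpleGraph.edist_le_one_iff_adj_or_eq.2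
      (or_iff_not_imp_right.2 fun e => (SimpleGraph.fromRel_adj _ _ _).2 ⟨e, Or.inr hy⟩)
    exact SimpleGraph.edist_triangle.trans ((add_le_add e1 e2).trans_eq one_add_one_eq_two)
  have hne : (SimpleGraph.fromRel r).ediam ≠ ⊤ := ne_top_of_le_ne_top (by decide) hle
  refine ⟨SimpleGraph.connected_of_ediam_ne_top hne, ?_⟩
  have h0 := SimpleGraph.diam_ne_zero_of_ediam_ne_top hne
  have h3 : (SimpleGraph.fromRel r).diam ≠ 1 := fun e => by
    have := SimpleGraph.diam_eq_one.1 e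
    have : (SimpleGraph.fromRel r).Adj a b := by rw [this]; exact hab
    exact ((SimpleGraph.fromRel_adj _ _ _).1 this).2.elim h1 h2
  have h4 : (SimpleGraph.fromRel r).diam ≤ 2 := ENat.toNat_le_of_le_coe hle
  omega

variable {F : Type*} [Field F] [Fintype F] [DecidableEq F]

theorem noEig_iff_not_isSquare (h2 : (2 : F) ≠ 0) {g : SL(2, F)} :
    NoEig (g : Matrix (Fin 2) (Fin 2) F) ↔ ¬ IsSquare ((g : Matrix (Fin 2) (Fin 2) F).trace ^ 2 - 4) := by
  rw [noEig_iff]
  simp only [cp_def, g.2]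
  constructor
  · rintro h ⟨r, hr⟩
    exact h (((g : Matrix (Fin 2) (Fin 2) F).trace + r) / 2) (by field_simp; linear_combination -hr)
  · intro h c hc
    exact h ⟨2 * c - (g : Matrix (Fin 2) (Fin 2) F).trace, by linear_combination (-4) * hc⟩

theorem odd_orderOf (h2 : (2 : F) ≠ 0) {g : SL(2, F)}
    (h : IsSquare (4 - (g : Matrix (Fin 2) (Fin 2) F).trace ^ 2) → ¬ Reg g) : Odd (orderOf (pslMk F g)) := by
  by_cases hr : Reg g
  · have h1 := Reg.gcd_mul_orderOf_dvd (self_mem_centSL g)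
    rw [gcd_odd h2] at h1
    have hs := fun e => h e hr
    have h0 : (g : Matrix (Fin 2) (Fin 2) F).trace ^ 2 - 4 ≠ 0 := sub_ne_zero.2 hr
    rw [← Nat.not_even_iff_odd]
    rintro ⟨k, hk⟩
    have hm := FiniteField.isSquare_neg_one_iff (F := F)
    rcases hr.cases with ⟨hn, e⟩ | ⟨hn, e⟩ <;> rw [e, hk] at h1 <;> rw [noEig_iff_not_isSquare h2] at hn
    · have h4 : 4 ∣ Fintype.card F + 1 := (Dvd.intro k (by ring)).trans h1
      have e1 := quadraticChar_neg_one_iff_not_isSquare.2 (hm.not.2 (by omega))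
      have e2 := quadraticChar_neg_one_iff_not_isSquare.2 hn
      refine hs ((quadraticChar_one_iff_isSquare (sub_ne_zero.2 (Ne.symm hr))).1 ?_)
      rw [← neg_sub, ← neg_one_mul, map_mul, e1, e2]
      rfl
    · have h4 : 4 ∣ Fintype.card F - 1 := (Dvd.intro k (by ring)).trans h1
      refine hs ?_
      rw [← neg_sub, ← neg_one_mul]
      exact (hm.2 (by omega)).mul (not_not.1 hn)
  · obtain ⟨p, hp⟩ := CharP.exists F
    have := Fact.mk (CharP.char_is_prime F p)
    exact Odd.of_dvd_nat (this.out.odd_of_ne_two (by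
      rintro rfl; exact h2 (CharP.cast_eq_zero F 2))) (orderOf_pslMk_dvd_char p hr)

theorem exists_traces {X Y : SL(2, F)} (hX : (X : Matrix (Fin 2) (Fin 2) F).trace = 0)
    (hY : (Y : Matrix (Fin 2) (Fin 2) F).trace = 0) (hr : Reg (X * Y)) {s s' c : F}
    (hc : c ^ 2 = 4 - ((X * Y : SL(2, F)) : Matrix (Fin 2) (Fin 2) F).trace ^ 2 - s ^ 2 - s' ^ 2 -
      ((X * Y : SL(2, F)) : Matrix (Fin 2) (Fin 2) F).trace * s * s') :
    ∃ Z : SL(2, F), (Z : Matrix (Fin 2) (Fin 2) F).trace = 0 ∧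
      ((X * Z : SL(2, F)) : Matrix (Fin 2) (Fin 2) F).trace = s ∧
      ((Y * Z : SL(2, F)) : Matrix (Fin 2) (Fin 2) F).trace = s' := by
  have h1 := X.2
  have h2 := Y.2
  have h0 : 4 - ((X * Y : SL(2, F)) : Matrix (Fin 2) (Fin 2) F).trace ^ 2 ≠ 0 := sub_ne_zero.2 (Ne.symm hr)
  generalize hr : ((X * Y : SL(2, F)) : Matrix (Fin 2) (Fin 2) F).trace = r at hc h0
  rw [Matrix.SpecialLinearGroup.coe_mul] at hr
  simp only [trace_fin_two, det_fin_two, mul_00, mul_11] at hX hY h1 h2 hr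
  have eX := eq_neg_of_add_eq_zero_right hX
  have eY := eq_neg_of_add_eq_zero_right hY
  rw [eX] at h1 hr
  rw [eY] at h2 hr
  have key : ∀ α β γ : F, α ^ 2 + β ^ 2 - r * α * β + γ ^ 2 * (4 - r ^ 2) = 1 →
      ∃ Z : SL(2, F), (Z : Matrix (Fin 2) (Fin 2) F).trace = 0 ∧
      ((X * Z : SL(2, F)) : Matrix (Fin 2) (Fin 2) F).trace = -2 * α + r * β ∧
      ((Y * Z : SL(2, F)) : Matrix (Fin 2) (Fin 2) F).trace = r * α - 2 * β := by
    intro α β γ h
    refine ⟨mkSL (α • (X : Matrix (Fin 2) (Fin 2) F) + β • (Y : Matrix (Fin 2) (Fin 2) F) +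
      γ • ((X : Matrix (Fin 2) (Fin 2) F) * Y - (Y : Matrix (Fin 2) (Fin 2) F) * X)) ?_, ?_, ?_, ?_⟩
    all_goals simp only [Matrix.SpecialLinearGroup.coe_mul, coe_mkSL, det_fin_two, trace_fin_two,
      Matrix.add_apply, Matrix.smul_apply, Matrix.sub_apply, mul_00, mul_01, mul_10, mul_11, smul_eq_mul, eX, eY]
    · subst hr
      linear_combination h + (α ^ 2 + 4 * γ ^ 2) * h1 +
        (β ^ 2 + 4 * γ ^ 2 * (-X 0 0 ^ 2 - X 0 1 * X 1 0)) * h2
    · ring
    · subst hr
      linear_combination (-2 * α) * h1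
    · subst hr
      linear_combination (-2 * β) * h2
  obtain ⟨Z, e1, e2, e3⟩ := key ((-2 * s - r * s') / (4 - r ^ 2)) ((-2 * s' - r * s) / (4 - r ^ 2))
    (c / (4 - r ^ 2)) (by field_simp; linear_combination (4 - r ^ 2) * hc)
  exact ⟨Z, e1, by rw [e2]; field_simp; ring, by rw [e3]; field_simp; ring⟩

theorem sum_quadraticChar_quad (h2 : (2 : F) ≠ 0) {r : F} (hr : r ^ 2 ≠ 4) :
    ∑ c : F, quadraticChar F (c ^ 2 + r * c + 1) = -1 := by
  have hc := ringChar_ne_two_of_odd (odd_of_two_ne_zero h2)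
  have h4 : (4 : F) ≠ 0 := by
    rw [show (4 : F) = 2 * 2 by norm_num]; exact mul_ne_zero h2 h2
  have h1 : Nat.card {p : F × F // p.2 ^ 2 = p.1 ^ 2 + r * p.1 + 1} = Fintype.card F - 1 := by
    rw [← card_mul_eq (c := 4 - r ^ 2) (sub_ne_zero.2 hr.symm)]
    exact Nat.card_congr ⟨fun p => ⟨(2 * p.1.2 - 2 * p.1.1 - r, 2 * p.1.2 + 2 * p.1.1 + r), by
      linear_combination 4 * p.2⟩, fun p => ⟨((p.1.2 - p.1.1 - 2 * r) / 4, (p.1.1 + p.1.2) / 4), by
        field_simp; linear_combination 4 * p.2⟩, fun p => by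
          ext <;> field_simp <;> ring, fun p => by ext <;> field_simp <;> ring⟩
  rw [Nat.card_eq_fintype_card, Fintype.card_subtype, card_filter, Fintype.sum_prod_type] at h1
  have h3 : ∑ c : F, (quadraticChar F (c ^ 2 + r * c + 1) + 1) = ((Fintype.card F - 1 : ℕ) : ℤ) := by
    rw [← h1]
    push_cast
    refine Finset.sum_congr rfl fun c _ => ?_
    rw [← quadraticChar_card_sqrts hc, Set.toFinset_setOf, card_filter]
    push_cast
    rfl
  rw [sum_add_distrib, sum_const, card_univ, Nat.cast_sub Fintype.card_pos] at h3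
  simp only [nsmul_eq_mul, mul_one, Nat.cast_one] at h3
  linarith

theorem exists_pair (h2 : (2 : F) ≠ 0) (h4 : 4 ≤ Fintype.card F) {r : F} (hr : ¬ IsSquare (r ^ 2 - 4)) :
    ∃ b d : F, b ≠ 0 ∧ d ≠ 0 ∧
      IsSquare (-((b ^ 2 * d) ^ 2 + r * (b ^ 2 * d) + 1) * (d ^ 2 + r * d + 1)) ∨ IsSquare (-1 : F) := by
  by_contra hc
  push Not at hc
  have hch := ringChar_ne_two_of_odd (odd_of_two_ne_zero h2)
  have hm := quadraticChar_neg_one_iff_not_isSquare.2 (hc 0 0).2
  have h0 : ∀ c : F, c ^ 2 + r * c + 1 ≠ 0 := fun c e => hr ⟨2 * c + r, by linear_combination (-4) * e⟩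
  have key : ∀ b d : F, b ≠ 0 → d ≠ 0 → quadraticChar F ((b ^ 2 * d) ^ 2 + r * (b ^ 2 * d) + 1) =
      quadraticChar F (d ^ 2 + r * d + 1) := fun b d hb hd => by
    have := quadraticChar_neg_one_iff_not_isSquare.2 ((hc b d).1 hb hd)
    rw [neg_mul, ← neg_one_mul, map_mul, map_mul, hm] at this
    rcases quadraticChar_dichotomy (h0 (b ^ 2 * d)) with e | e <;>
      rcases quadraticChar_dichotomy (h0 d) with e' | e' <;> rw [e, e'] at this ⊢ <;> omega
  have hsq : ∀ c : F, c ≠ 0 → 2 * quadraticChar F (c ^ 2 + r * c + 1) =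
      quadraticChar F (1 ^ 2 + r * 1 + 1) + quadraticChar F ((-1) ^ 2 + r * (-1) + 1) + quadraticChar F c *
        (quadraticChar F (1 ^ 2 + r * 1 + 1) - quadraticChar F ((-1) ^ 2 + r * (-1) + 1)) := by
    intro c hc0
    rcases quadraticChar_dichotomy hc0 with e | e
    · obtain ⟨b, rfl⟩ := (quadraticChar_one_iff_isSquare hc0).1 e
      have := key b 1 (left_ne_zero_of_mul hc0) one_ne_zero
      rw [mul_one, sq b] at this
      rw [e, this]; ring
    · obtain ⟨b, hb⟩ := (quadraticChar_one_iff_isSquare (neg_ne_zero.2 hc0)).1 (by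
        rw [← neg_one_mul, map_mul, hm, e]; rfl)
      have := key b (-1) (left_ne_zero_of_mul (hb ▸ neg_ne_zero.2 hc0)) (neg_ne_zero.2 one_ne_zero)
      rw [mul_neg_one, sq b, ← hb, neg_neg] at this
      rw [e, this]; ring
  have h1 := sum_quadraticChar_quad h2 (r := r) (fun e => hr (by rw [e, sub_self]; exact IsSquare.zero))
  have h3 := quadraticChar_sum_zero hch
  rw [← add_sum_erase _ _ (mem_univ 0)] at h1 h3
  have h5 := Finset.sum_congr rfl fun c (hc : c ∈ univ.erase (0 : F)) => hsq c (ne_of_mem_erase hc)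
  rw [← mul_sum, sum_add_distrib, ← sum_mul, sum_const, card_erase_of_mem (mem_univ _), card_univ] at h5
  simp only [MulChar.map_zero, zero_add] at h3
  simp only [ne_eq, OfNat.ofNat_ne_zero, not_false_eq_true, zero_pow, mul_zero, zero_add, map_one] at h1
  rw [h3, zero_mul, add_zero, nsmul_eq_mul, Nat.cast_sub Fintype.card_pos] at h5
  rcases quadraticChar_dichotomy (h0 1) with e | e <;> rcases quadraticChar_dichotomy (h0 (-1)) with e' | e' <;>
    rw [e, e'] at h5 <;> omega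

/-- Let F be a finite field with at least 4 elements and let X be a conjugacy class of involutions of PSL(2, F). The graph on X joining two distinct involutions whose product has odd order is connected and has diameter exactly 2. -/
theorem result {F : Type*} [Field F] [Fintype F] (hF : 4 ≤ Fintype.card F)
    (t : Matrix.ProjectiveSpecialLinearGroup (Fin 2) F) (ht : orderOf t = 2) :
    (SimpleGraph.fromRel fun x y : {x : Matrix.ProjectiveSpecialLinearGroup (Fin 2) F // IsConj t x} =>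
        Odd (orderOf (x.1 * y.1))).Connected ∧
      (SimpleGraph.fromRel fun x y : {x : Matrix.ProjectiveSpecialLinearGroup (Fin 2) F // IsConj t x} =>
        Odd (orderOf (x.1 * y.1))).diam = 2 := by
  classical
  obtain ⟨t, rfl⟩ := pslMk_surjective t
  have hs : ¬ IsScal (t : Matrix (Fin 2) (Fin 2) F) := fun h => by
    rw [pslMk_eq_one_iff.2 h, orderOf_one] at ht; omega
  have hone : ∀ x, IsConj (pslMk F t) x → Odd (orderOf (x * x)) := fun x hx => by
    rw [← sq, orderOf_dvd_iff_pow_eq_one.1 ((orderOf_eq_of_isConj hx).symm.trans ht).dvd, orderOf_one]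
    exact odd_one
  by_cases h2 : (2 : F) = 0
  · have : CharP F 2 := ringChar.of_eq (CharP.ringChar_of_prime_eq_zero Nat.prime_two (by exact_mod_cast h2))
    have hreg : ∀ g : SL(2, F), Reg g ↔ (g : Matrix (Fin 2) (Fin 2) F).trace ≠ 0 := fun g => by
      rw [Reg, show (4 : F) = 0 by linear_combination 2 * h2, pow_ne_zero_iff two_ne_zero]
    have hodd : ∀ g : SL(2, F), (g : Matrix (Fin 2) (Fin 2) F).trace ≠ 0 → Odd (orderOf (pslMk F g)) := by
      intro g hg
      have h1 := Reg.gcd_mul_orderOf_dvd (self_mem_centSL g)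
      rw [gcd_even h2, one_mul] at h1
      have := two_dvd_card_of_two_eq_zero h2
      rcases ((hreg g).2 hg).cases with ⟨-, e⟩ | ⟨-, e⟩ <;> rw [e] at h1 <;>
        exact Odd.of_dvd_nat (Nat.odd_iff.2 (by omega)) h1
    have ht0 : (t : Matrix (Fin 2) (Fin 2) F).trace = 0 := by
      by_contra h
      have := hodd t h
      rw [ht] at this
      exact absurd this (by decide)
    have hmem : ∀ g : SL(2, F), (g : Matrix (Fin 2) (Fin 2) F).trace = 0 →
        ¬ IsScal (g : Matrix (Fin 2) (Fin 2) F) → IsConj (pslMk F t) (pslMk F g) := fun g h1 h3 =>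
      (pslMk F).map_isConj (isConj_SL_of_trace_even h2 hs h3 (h1.trans ht0.symm))
    have hu : ∀ s : F, ((upSL 1 s : SL(2, F)) : Matrix (Fin 2) (Fin 2) F).trace = 0 := fun s => by
      simp [coe_upSL_one, trace_fin_two, one_add_one_eq_two, h2]
    obtain ⟨s, hs0, hs1⟩ : ∃ s : F, s ≠ 0 ∧ s ≠ 1 := by
      by_contra hc
      push Not at hc
      have := card_le_card (show univ ⊆ ({0, 1} : Finset F) from fun x _ => by
        by_cases h : x = 0 <;> simp [h, hc x])
      have := this.trans card_le_two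
      rw [card_univ] at this
      omega
    have hs2 : 1 + s ≠ 0 := fun e => hs1 (by linear_combination e - h2)
    have ho : ∀ s : F, s ≠ 0 → ¬ Odd (orderOf (pslMk F (upSL 1 s))) := fun s h => by
      rw [orderOf_pslMk_eq_char 2 (not_reg_upSL_one _) (not_isScal_upSL_one h)]; decide
    refine graph_diam_two _ ?_ (a := ⟨_, hmem _ (hu 1) (not_isScal_upSL_one one_ne_zero)⟩)
      (b := ⟨_, hmem _ (hu s) (not_isScal_upSL_one hs0)⟩) (fun e => hs1 (upSL_inj.1
        (pslMk_injective_even h2 (congrArg Subtype.val e))).2.symm) ?_ ?_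
    · have hbc : ∀ g : SL(2, F), IsConj (pslMk F t) (pslMk F g) →
          g 1 1 = g 0 0 ∧ (g 0 1 = 0 → g 1 0 ≠ 0) := fun g hg => by
        have h1 : (g : Matrix (Fin 2) (Fin 2) F).trace = 0 := by
          rcases trace_of_isConj_pslMk hg with e | e <;> rw [e, ht0]
          exact neg_zero
        rw [trace_fin_two] at h1
        have h3 : g 1 1 = g 0 0 := by linear_combination h1 - g 0 0 * h2
        refine ⟨h3, fun e1 e2 => ?_⟩
        rw [pslMk_eq_one_iff.2 ⟨e1, e2, h3.symm⟩, isConj_one_left] at hg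
        exact hs (pslMk_eq_one_iff.1 hg)
      rintro ⟨x, hx⟩ ⟨y, hy⟩
      obtain ⟨x, rfl⟩ := pslMk_surjective x
      obtain ⟨y, rfl⟩ := pslMk_surjective y
      have key : ∀ u v : F, x 0 1 * v ^ 2 + x 1 0 * u ^ 2 ≠ 0 → y 0 1 * v ^ 2 + y 1 0 * u ^ 2 ≠ 0 →
          ∃ z : {x // IsConj (pslMk F t) x}, Odd (orderOf (pslMk F x * z.1)) ∧ Odd (orderOf (pslMk F y * z.1)) := by
        intro u v h3 h4
        let z : SL(2, F) := mkSL !![1 + u * v, u ^ 2; v ^ 2, 1 + u * v] (by
          rw [det_fin_two_of]; linear_combination u * v * h2)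
        have hz : ∀ g : SL(2, F), IsConj (pslMk F t) (pslMk F g) →
            ((g * z : SL(2, F)) : Matrix (Fin 2) (Fin 2) F).trace = g 0 1 * v ^ 2 + g 1 0 * u ^ 2 := fun g hg => by
          simp only [Matrix.SpecialLinearGroup.coe_mul, trace_fin_two, mul_00, mul_11, z, coe_mkSL, (hbc g hg).1]
          simp
          linear_combination g 0 0 * (1 + u * v) * h2
        refine ⟨⟨pslMk F z, hmem z (by simp [z, coe_mkSL, trace_fin_two]; linear_combination (1 + u * v) * h2)
          fun h => h3 ?_⟩, ?_, ?_⟩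
        · rw [show v ^ 2 = 0 from h.2.1, show u ^ 2 = 0 from h.1]; simp
        · rw [← map_mul]; exact hodd _ (by rwa [hz x hx])
        · rw [← map_mul]; exact hodd _ (by rwa [hz y hy])
      have b1 := (hbc x hx).2
      have b2 := (hbc y hy).2
      by_cases c1 : x 0 1 = 0 <;> by_cases c2 : y 0 1 = 0
      · exact key 1 0 (by simpa using b1 c1) (by simpa using b2 c2)
      · by_cases c3 : y 1 0 = 0
        · exact key 1 1 (by simpa [c1] using b1 c1) (by simpa [c3] using c2)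
        · exact key 1 0 (by simpa using b1 c1) (by simpa using c3)
      · by_cases c3 : x 1 0 = 0
        · exact key 1 1 (by simpa [c3] using c1) (by simpa [c2] using b2 c2)
        · exact key 1 0 (by simpa using c3) (by simpa using b2 c2)
      · exact key 0 1 (by simpa using c1) (by simpa using c2)
    · simp only [← map_mul, upSL_one_mul]
      exact ho _ hs2
    · simp only [← map_mul, upSL_one_mul]
      exact ho _ (add_comm 1 s ▸ hs2)
  have ht0 := (orderOf_pslMk_eq_two_iff h2).1 ht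
  have hr := reg_of_trace_eq_zero h2 ht0
  have hmem : ∀ g : SL(2, F), IsConj (pslMk F t) (pslMk F g) ↔ (g : Matrix (Fin 2) (Fin 2) F).trace = 0 :=
    fun g => ⟨fun h => (orderOf_pslMk_eq_two_iff h2).1 ((orderOf_eq_of_isConj h).symm.trans ht),
      fun h => pslMk_isConj_of_trace hr (Or.inl (h.trans ht0.symm))⟩
  obtain ⟨w, hw, hw'⟩ := hr.exists_weyl
  have ht' := Subgroup.le_normalizer (self_mem_centSL t)
  have o1 := (orderOf_pslMk_eq_two_iff h2).2 (hr.trace_eq_zero (mul_mem ht' hw)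
    fun h => hw' ((Subgroup.mul_mem_cancel_left _ (self_mem_centSL t)).1 h))
  have o2 := (orderOf_pslMk_eq_two_iff h2).2 (hr.trace_eq_zero (mul_mem hw ht')
    fun h => hw' ((Subgroup.mul_mem_cancel_right _ (self_mem_centSL t)).1 h))
  rw [map_mul] at o1 o2
  refine graph_diam_two _ ?_ (a := ⟨_, IsConj.refl _⟩) (b := ⟨_, (hmem w).2 (hr.trace_eq_zero hw hw')⟩)
    (fun e => ?_) (by simp only [o1]; decide) (by simp only [o2]; decide)
  swap
  · have := hone _ (IsConj.refl _)
    rw [← show pslMk F t = pslMk F w from congrArg Subtype.val e] at o1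
    rw [o1] at this
    exact absurd this (by decide)
  rintro ⟨x, hx⟩ ⟨y, hy⟩
  obtain ⟨x, rfl⟩ := pslMk_surjective x
  obtain ⟨y, rfl⟩ := pslMk_surjective y
  by_cases hxy : IsSquare (4 - ((x * y : SL(2, F)) : Matrix (Fin 2) (Fin 2) F).trace ^ 2) → ¬ Reg (x * y)
  · exact ⟨⟨_, hy⟩, map_mul (pslMk F) x y ▸ odd_orderOf h2 hxy, hone _ hy⟩
  push Not at hxy
  have key : ∀ s s' c : F, (IsSquare (4 - s ^ 2) → s ^ 2 = 4) → (IsSquare (4 - s' ^ 2) → s' ^ 2 = 4) →
      c ^ 2 = 4 - ((x * y : SL(2, F)) : Matrix (Fin 2) (Fin 2) F).trace ^ 2 - s ^ 2 - s' ^ 2 -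
      ((x * y : SL(2, F)) : Matrix (Fin 2) (Fin 2) F).trace * s * s' →
      ∃ z : {x // IsConj (pslMk F t) x}, Odd (orderOf (pslMk F x * z.1)) ∧ Odd (orderOf (pslMk F y * z.1)) := by
    intro s s' c h3 h4 hc
    obtain ⟨z, e1, e2, e3⟩ := exists_traces ((hmem x).1 hx) ((hmem y).1 hy) hxy.2 hc
    subst e2 e3
    exact ⟨⟨_, (hmem z).2 e1⟩, map_mul (pslMk F) x z ▸ odd_orderOf h2 fun h h' => h' (h3 h),
      map_mul (pslMk F) y z ▸ odd_orderOf h2 fun h h' => h' (h4 h)⟩
  have hr0 : ((x * y : SL(2, F)) : Matrix (Fin 2) (Fin 2) F).trace ^ 2 ≠ 4 := hxy.2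
  have hr1 := hxy.1
  generalize ((x * y : SL(2, F)) : Matrix (Fin 2) (Fin 2) F).trace = r at key hr0 hr1
  by_cases hm : IsSquare (-1 : F)
  · obtain ⟨i, hi⟩ := hm
    exact key 2 2 (i * (r + 2)) (fun _ => by norm_num) (fun _ => by norm_num)
      (by linear_combination (-(r + 2) ^ 2) * hi)
  have hneg : ∀ a : F, IsSquare a → IsSquare (-a) → a = 0 := by
    rintro a ⟨u, hu⟩ ⟨v, hv⟩
    by_contra h
    have hu0 : u ≠ 0 := by rintro rfl; exact h (by simpa using hu)
    exact hm ⟨v / u, by field_simp; linear_combination hu + hv⟩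
  obtain ⟨b, d, ⟨hb, hd, c, hc⟩ | h⟩ := exists_pair h2 hF (r := r) fun h =>
    hr0 (sub_eq_zero.1 (hneg _ h (by rwa [neg_sub])))
  swap
  · exact absurd h hm
  have hsq : ∀ a : F, a ≠ 0 → IsSquare (4 - (a + a⁻¹) ^ 2) → (a + a⁻¹) ^ 2 = 4 := fun a ha h =>
    (sub_eq_zero.1 (hneg _ h ⟨a - a⁻¹, by field_simp; ring⟩)).symm
  exact key _ _ (c / (b * d)) (hsq (b * d) (mul_ne_zero hb hd)) (hsq b hb) (by
    field_simp; linear_combination -hc)

end Cfsg.Agent.S3266
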