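import Cfsg.Statements.S3282
import Cfsg.Agent.INV.BSWMain

set_option autoImplicit false
open Cfsg

namespace Cfsg.Agent.S3282

theorem zp {G : Type*} [Group G] [Finite G] {s b : G} (hs : orderOf s = 2)
    (hb : b ∈ Subgroup.zpowers s) : b = 1 ∨ b = s := by
  classical
  obtain ⟨n, hn, rfl⟩ := Finset.mem_image.1 (mem_zpowers_iff_mem_range_orderOf.1 hb)
  rw [hs, Finset.mem_range] at hn
  interval_cases n <;> simp

/-- The abstract form of the Brauer–Suzuki–Wall Theorem. Let G be a finite group with an involution t and an abelian subgroup K of H = C_G(t) containing t, such that H = K⟨s⟩ for an involution s ∉ K with C_K(s) = ⟨t⟩ and s inverting every element of K, K ∩ K^g = 1 for every g outside H, and all involutions of G conjugate. Then G has a subgroup Q, of order q say, with |G| = q(q+1)(q−1)/2, C_G(x) = Q for every non-identity x ∈ Q, N_G(Q) = QD for an abelian subgroup D of order (q−1)/2 meeting Q trivially, and for every nontrivial subgroup X of D,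 N_G(X) = N_G(D) = D⟨u⟩ for some involution u ∉ D inverting D. -/
theorem result {G : Type*} [Group G] [Finite G] (t : G) (ht : orderOf t = 2)
    (K : Subgroup G) (hKab : IsMulCommutative ↥K) (hKH : K ≤ Subgroup.centralizer ({t} : Set G)) (htK : t ∈ K)
    (s : G) (hs : orderOf s = 2) (hsH : s ∈ Subgroup.centralizer ({t} : Set G)) (hsK : s ∉ K)
    (hH : K ⊔ Subgroup.zpowers s = Subgroup.centralizer ({t} : Set G)) (hCK : K ⊓ Subgroup.centralizer ({s} : Set G) = Subgroup.zpowers t)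
    (hinv : ∀ x ∈ K, s * x * s⁻¹ = x⁻¹)
    (hTI : ∀ g : G, g ∉ Subgroup.centralizer ({t} : Set G) → K ⊓ K.map (MulAut.conj g).toMonoidHom = ⊥)
    (hconj : ∀ x y : G, orderOf x = 2 → orderOf y = 2 → IsConj x y) :
    ∃ Q D : Subgroup G, 2 * Nat.card G = Nat.card ↥Q * (Nat.card ↥Q + 1) * (Nat.card ↥Q - 1) ∧
      (∀ x ∈ Q, x ≠ 1 → Subgroup.centralizer ({x} : Set G) = Q) ∧
      IsMulCommutative ↥D ∧ 2 * Nat.card ↥D + 1 = Nat.card ↥Q ∧ Q ⊓ D = ⊥ ∧
      Subgroup.normalizer (Q : Set G) = Q ⊔ D ∧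
      ∀ X : Subgroup G, X ≤ D → X ≠ ⊥ →
        Subgroup.normalizer (X : Set G) = Subgroup.normalizer (D : Set G) ∧
        ∃ u : G, orderOf u = 2 ∧ u ∉ D ∧ (∀ d ∈ D, u * d * u⁻¹ = d⁻¹) ∧
          Subgroup.normalizer (D : Set G) = D ⊔ Subgroup.zpowers u := by
  classical
  haveI := Fintype.ofFinite G
  have hss := CL.Inv.mul_self_of_orderOf_two hs
  have hnorm : s ∈ Subgroup.normalizer (K : Set G) := by
    rw [Subgroup.mem_normalizer_iff]
    refine fun x => ⟨fun hx => hinv x hx ▸ K.inv_mem hx, fun hx => ?_⟩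
    have := hinv _ hx
    rw [CL.Inv.inv_eq_of_orderOf_two hs, show s * (s * x * s) * s = (s * s) * x * (s * s) by group,
      hss, one_mul, mul_one] at this
    rw [CL.Inv.inv_eq_of_orderOf_two hs, ← K.inv_mem_iff, ← this] at hx
    exact hx
  have h : CL.BSW.Hyp t K s := by
    refine ⟨ht, fun a ha b hb => congrArg Subtype.val (hKab.is_comm.comm ⟨a, ha⟩ ⟨b, hb⟩), htK, hs,
      hsK, fun g hg => ?_, hinv, fun x hx hxx => ?_, fun g x hx hx1 hg => ?_,
      fun x hx => hconj t x ht hx⟩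
    · have hg' : g ∈ ((K ⊔ Subgroup.zpowers s : Subgroup G) : Set G) :=
        hH ▸ CL.Inv.mem_centralizer_singleton.2 hg
      rw [Subgroup.coe_mul_of_right_le_normalizer_left _ _ (Subgroup.zpowers_le.2 hnorm)] at hg'
      obtain ⟨a, ha, b, hb, rfl⟩ := hg'
      rcases zp hs hb with rfl | rfl
      · left; simpa using ha
      · right; simpa [mul_assoc, hss] using ha
    · have : x ∈ K ⊓ Subgroup.centralizer ({s} : Set G) := ⟨hx, CL.Inv.mem_centralizer_singleton.2 (by
        have := hinv x hx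
        rw [inv_eq_of_mul_eq_one_right hxx, mul_inv_eq_iff_eq_mul] at this
        exact this.symm)⟩
      rw [hCK] at this
      exact zp ht this
    · by_contra hc
      have := hTI g fun e => hc (CL.Inv.mem_centralizer_singleton.1 e)
      have h2 : g * x * g⁻¹ ∈ K ⊓ K.map (MulAut.conj g).toMonoidHom := ⟨hg, x, hx, rfl⟩
      rw [this, Subgroup.mem_bot] at h2
      exact hx1 (by simpa using h2)
  obtain ⟨Q, D, u, hC⟩ := h.exists_concl
  refine ⟨Q, D, hC.card, hC.sc, ⟨⟨fun a b => Subtype.ext (hC.comm _ a.2 _ b.2)⟩⟩, hC.cardD, hC.inf,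
    hC.norm, fun X hX hX1 => ?_⟩
  have hD1 : D ≠ ⊥ := fun e => hX1 (le_bot_iff.1 (e ▸ hX))
  have e := fun Y hY hY1 => CL.BSW.normalizer_eq_sup_zpowers (X := Y)
    (CL.Inv.mul_self_of_orderOf_two hC.hu) hC.comm hC.inv hC.ti hY hY1
  exact ⟨(e X hX hX1).trans (e D le_rfl hD1).symm, u, hC.hu, hC.uD, hC.inv, e D le_rfl hD1⟩

end Cfsg.Agent.S3282
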