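import Cfsg.Statements.S3283
import Cfsg.Agent.SPOR.LE.N36

set_option autoImplicit false
open Cfsg

namespace Cfsg.Agent.S3283

/-- Let G be a finite group with an involution z whose centralizer M has Q = O₂(M) extraspecial of order 2⁹ with C_M(Q) ≤ Q, and M/Q isomorphic to S₃ × A₆ or to S₃ × S₆. Then G is not simple. -/
theorem result {G : Type*} [Group G] [Finite G] (z : G) (hz : orderOf z = 2)
    (hQ : Cfsg.IsExtraspecial 2 ↥(Cfsg.pCore 2 ↥(Subgroup.centralizer ({z} : Set G)))) (hQ9 : Nat.card ↥(Cfsg.pCore 2 ↥(Subgroup.centralizer ({z} : Set G))) = 2 ^ 9)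
    (hCQ : Subgroup.centralizer ((Cfsg.pCore 2 ↥(Subgroup.centralizer ({z} : Set G))) : Set ↥(Subgroup.centralizer ({z} : Set G))) ≤ Cfsg.pCore 2 ↥(Subgroup.centralizer ({z} : Set G)))
    (hMQ : Nonempty (↥(Subgroup.centralizer ({z} : Set G)) ⧸ Cfsg.pCore 2 ↥(Subgroup.centralizer ({z} : Set G)) ≃* (Equiv.Perm (Fin 3) × ↥(alternatingGroup (Fin 6)))) ∨
      Nonempty (↥(Subgroup.centralizer ({z} : Set G)) ⧸ Cfsg.pCore 2 ↥(Subgroup.centralizer ({z} : Set G)) ≃* (Equiv.Perm (Fin 3) × Equiv.Perm (Fin 6)))) :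
    ¬ IsSimpleGroup G := by
  intro hs
  have hG : ¬ IsMulCommutative G := fun hc => by
    obtain ⟨w, hw⟩ := CL.LX.exists_es_of_isExtraspecial hQ
    obtain ⟨a, -, b, -, e⟩ := hw.nonab
    exact e (Subtype.ext (hc.is_comm.comm _ _))
  have h : CL.LX.LX (CL.LX.O2C z) z := CL.LX.lx_O2C hz (CL.LE.isExtraspecial_map hQ) fun c hc => by
    have h1 : c ∈ CL.LE.Cz z :=
      CL.LE.mem_Cz.2 (hc z (CL.LX.mem_O2C_self (CL.LX.sq_of_orderOf hz))).symm
    exact ⟨⟨c, h1⟩, hCQ fun y hy => Subtype.ext (hc y ⟨y, hy, rfl⟩), rfl⟩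
  rcases hMQ with ⟨⟨e⟩⟩ | ⟨⟨e⟩⟩
  · refine CL.LE.not_simple_36' hG h hQ9
      (((MonoidHom.id _).prodMap (alternatingGroup (Fin 6)).subtype).comp e.toMonoidHom)
      ((Function.Injective.prodMap Function.injective_id Subtype.val_injective).comp e.injective)
      ⟨e.symm (CL.LE.S36.om, 1), by simp⟩ fun s hs => ⟨e.symm (1, ⟨s, hs⟩), by simp⟩
  · exact CL.LE.not_simple_36' hG h hQ9 e.toMonoidHom e.injective (e.surjective _)
      fun s _ => e.surjective _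

end Cfsg.Agent.S3283
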