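import Cfsg.Statements.S3301
import Cfsg.Agent.SPOR.LXTransfer

set_option autoImplicit false
open Cfsg

namespace Cfsg.Agent.S3301

/-- Let G be a finite group with no nontrivial 2-group quotient (O^2(G) = G), z an involution of G with H = C_G(z), and suppose E = O_2(H) is extraspecial with C_G(E) ≤ E. Then the Sylow 2-subgroups of H/[H, H] are elementary abelian: every element of 2-power order of the abelianization of H has order at most 2. -/
theorem result {G : Type*} [Group G] [Finite G] (hres : Cfsg.pResidual 2 G = ⊤) (z : G) (hz : orderOf z = 2)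
    (E : Subgroup G) (hE : E = (Cfsg.pCore 2 ↥(Subgroup.centralizer ({z} : Set G))).map (Subgroup.centralizer ({z} : Set G)).subtype)
    (hext : Cfsg.IsExtraspecial 2 ↥E) (hcent : Subgroup.centralizer (E : Set G) ≤ E) :
    ∀ q : Abelianization ↥(Subgroup.centralizer ({z} : Set G)), (∃ k : ℕ, orderOf q = 2 ^ k) → q ^ 2 = 1 := by
  subst hE
  have h1 : ∀ j : ℕ, ∀ a : Abelianization ↥(Subgroup.centralizer ({z} : Set G)),
      ∃ b, a ^ 2 = b ^ 2 ^ (j + 1) := fun j => by
    induction j with
    | zero => exact fun a => ⟨a, rfl⟩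
    | succ j ih =>
      intro a
      obtain ⟨b, hb⟩ := ih a
      obtain ⟨x, rfl⟩ := QuotientGroup.mk_surjective b
      obtain ⟨_, ⟨c, rfl⟩, d, hd, e⟩ := Subgroup.mem_sup.1
        (CL.LXT.sq_eq_one (CL.LX.lx_O2C hz hext hcent) hres Abelianization.of x)
      refine ⟨c, hb.trans ?_⟩
      change Abelianization.of x ^ _ = _
      rw [← e, mul_pow, pow_succ', pow_mul d, show d ^ 2 = 1 from hd, one_pow, mul_one,
        powMonoidHom_apply, ← pow_mul, pow_succ' 2 (j + 1), pow_succ']
  rintro q ⟨k, hk⟩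
  obtain ⟨j, m, hm, h2⟩ := Nat.exists_eq_two_pow_mul_odd
    (Nat.card_pos (α := Abelianization ↥(Subgroup.centralizer ({z} : Set G)))).ne'
  obtain ⟨b, hb⟩ := h1 j q
  refine orderOf_eq_one_iff.1 (Nat.eq_one_of_dvd_coprimes
    (Nat.Coprime.pow_left k (Nat.coprime_two_left.2 hm)) (hk ▸ orderOf_pow_dvd 2)
      (orderOf_dvd_of_pow_eq_one ?_))
  rw [hb, ← pow_mul, pow_succ, mul_right_comm, ← h2, pow_mul, pow_card_eq_one', one_pow]

end Cfsg.Agent.S3301
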