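import Cfsg.Statements.S3303
import Cfsg.Agent.INV.Rk1Solv
import Cfsg.Agent.S3305

set_option autoImplicit false
open Cfsg

namespace Cfsg.Agent.S3303

/-- Let G be a finite solvable group in which the intersection of any two distinct Sylow 2-subgroups is cyclic. Then G/O(G) has a normal Sylow 2-subgroup, where O(G) is the largest normal subgroup of odd order. -/
theorem result {G : Type*} [Group G] [Finite G] (hs : Group.IsSolvable G)
    (hC : ∀ S T : Sylow 2 G, S ≠ T → IsCyclic ↥((S : Subgroup G) ⊓ (T : Subgroup G))) :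
    ∃ P : Sylow 2 (G ⧸ Cfsg.oddCore G), (P : Subgroup (G ⧸ Cfsg.oddCore G)).Normal := by
  obtain ⟨P⟩ : Nonempty (Sylow 2 (G ⧸ oddCore G)) := inferInstance
  obtain h | ⟨T, hT⟩ := CL.Rk1.exists_normal_or_ne P
  · exact ⟨P, h⟩
  have h1 := S3305.result hC _ P T hT
  have h2 : IsCyclic (pCore 2 (G ⧸ oddCore G)) := Subgroup.isCyclic_of_le (le_inf
    ((CL.isPGroup_pCore 2 _).le_sylow_of_normal P) ((CL.isPGroup_pCore 2 _).le_sylow_of_normal T))
  obtain h | ⟨e, he, h3⟩ := CL.Rk1.struct (CL.pPrimeCore_quotient_pPrimeCore 2 G) fun A _ hA => by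
    have := IsCyclic.exponent_eq_card (α := A) ▸
      Monoid.exponent_dvd_of_forall_pow_eq_one fun a : A => Subtype.ext (hA a a.2)
    exact Nat.le_of_dvd two_pos this
  · refine ⟨P, ?_⟩
    rw [(CL.MSS.sylIn_top P).eq_of_isPGroup (h.to_subgroup ⊤)]
    infer_instance
  · rw [← h3] at h2
    have := (MonoidHom.ofInjective he.inj).isCyclic.2 h2
    have := IsCyclic.isMulCommutative (α := QuaternionGroup 2)
    exact absurd (this.is_comm.comm (QuaternionGroup.a 1) (QuaternionGroup.xa 0)) (by decide)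

end Cfsg.Agent.S3303
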