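import Cfsg.Statements.S3304
import Cfsg.Agent.INV.Rk1Solv

set_option autoImplicit false
open Cfsg

namespace Cfsg.Agent.S3304

theorem aux {Q : Type*} [Group Q] [Finite Q] {e : QuaternionGroup 2 →* Q} (he : CL.Rk1.QD e)
    (hn : ¬ ∃ P : Sylow 2 Q, (P : Subgroup Q).Normal) :
    Nonempty (Q ≃* GL (Fin 2) (ZMod 3)) ∨ (Nat.card Q = 48 ∧ Nat.card (Subgroup.center Q) = 2 ∧
      Nonempty (Q ⧸ Subgroup.center Q ≃* Equiv.Perm (Fin 4)) ∧
      ∀ P : Sylow 2 Q, Nonempty ((P : Subgroup Q) ≃* QuaternionGroup 4)) := by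
  have h8 : Nat.card e.range = 2 ^ 3 := by
    rw [← Nat.card_congr (MonoidHom.ofInjective he.inj).toEquiv, Nat.card_eq_fintype_card,
      QuaternionGroup.card]
    rfl
  have h2 := IsPGroup.of_card h8
  have h3 := e.range.card_mul_index
  have h48 : Nat.card Q = 48 := by
    have h4 : e.range.index ∣ 6 := Nat.dvd_of_mul_dvd_mul_left (k := 8) (by norm_num)
      (by have := he.card_dvd; rwa [← h3, h8] at this)
    have h5 : ¬ e.range.index.Coprime 2 := fun h =>
      hn ⟨h2.toSylow ((Nat.Prime.coprime_iff_not_dvd Nat.prime_two).1 h.symm), he.norm⟩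
    have h6 : e.range.index ≠ 2 := fun h => by
      have h7 : IsPGroup 2 (⊤ : Subgroup Q) :=
        (IsPGroup.of_card (n := 4) (by rw [← h3, h8, h]; rfl)).to_subgroup ⊤
      exact hn ⟨h7.toSylow (by simp), (inferInstance : (⊤ : Subgroup Q).Normal)⟩
    rw [← h3, h8]
    have := Nat.le_of_dvd (by norm_num) h4
    generalize e.range.index = k at *
    interval_cases k <;> first | rfl | omega | exact absurd (by decide) h5
  by_cases ht : ∃ t : Q, t * t = 1 ∧ t ∉ e.range
  · obtain ⟨t, h4, h5⟩ := ht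
    exact Or.inl (he.equiv_gl h48 h4 h5)
  push Not at ht
  obtain ⟨f⟩ := S3742.result
  refine Or.inr ⟨h48, he.center_eq ▸ he.card_ker, ⟨(QuotientGroup.quotientMulEquivOfEq
    he.center_eq).trans ((QuotientGroup.quotientKerEquivOfSurjective _ (he.surj h48)).trans f)⟩,
    fun P => ?_⟩
  have h4 : PRankLE 2 1 Q := CL.Rk1.rank_one_of (z := e (QuaternionGroup.a 2)) fun x hx => by
    obtain ⟨y, rfl⟩ := ht x hx
    have : ∀ y : QuaternionGroup 2, y * y = 1 → y = 1 ∨ y = QuaternionGroup.a 2 := by decide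
    exact (this y (he.inj (by rw [map_mul, hx, map_one]))).imp (fun h => by rw [h, map_one])
      (congrArg e)
  obtain h | ⟨n, ⟨g⟩⟩ := CL.Rk1.cyc_or_quat P.isPGroup' (CL.Rank.prankLE_subgroup h4 _)
  · have := he.norm
    have := (MonoidHom.ofInjective he.inj).isCyclic.2
      (Subgroup.isCyclic_of_le (h2.le_sylow_of_normal P))
    have := IsCyclic.isMulCommutative (α := QuaternionGroup 2)
    exact absurd (this.is_comm.comm (QuaternionGroup.a 1) (QuaternionGroup.xa 0)) (by decide)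
  have h5 := Nat.card_congr g.toEquiv
  rw [P.card_eq_multiplicity, h48, Nat.card_eq_fintype_card, QuaternionGroup.card,
    show Nat.factorization 48 2 = 4 by decide +kernel,
    show 4 * 2 ^ (n + 1) = 2 ^ (n + 3) by ring] at h5
  obtain rfl : n = 1 := by have := Nat.pow_right_injective le_rfl h5; omega
  exact ⟨g⟩

/-- Let G be a finite solvable group in which the intersection of any two distinct Sylow 2-subgroups has 2-rank at most 1 (contains no Klein four-group). Write Q = G/O(G), O(G) the largest normal subgroup of odd order. Then Q has a normal Sylow 2-subgroup; or Q is isomorphic to GL(2,3); or Q has order 48, centre of order 2 with central quotient isomorphic to the symmetric group of degree 4, and generalized quaternion Sylow 2-subgroups of order 16 (the binary octahedral group). The last two are the two representation groups of the symmetric group of degree 4. -/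
theorem result {G : Type*} [Group G] [Finite G] (hs : Group.IsSolvable G)
    (hI : ∀ S T : Sylow 2 G, S ≠ T → Cfsg.PRankLE 2 1 ↥((S : Subgroup G) ⊓ (T : Subgroup G))) :
    (∃ P : Sylow 2 (G ⧸ Cfsg.oddCore G), (P : Subgroup (G ⧸ Cfsg.oddCore G)).Normal) ∨
    Nonempty ((G ⧸ Cfsg.oddCore G) ≃* GL (Fin 2) (ZMod 3)) ∨
    (Nat.card (G ⧸ Cfsg.oddCore G) = 48 ∧ Nat.card ↥(Subgroup.center (G ⧸ Cfsg.oddCore G)) = 2 ∧
      Nonempty ((G ⧸ Cfsg.oddCore G) ⧸ Subgroup.center (G ⧸ Cfsg.oddCore G) ≃* Equiv.Perm (Fin 4)) ∧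
      ∀ P : Sylow 2 (G ⧸ Cfsg.oddCore G), Nonempty (↥(P : Subgroup (G ⧸ Cfsg.oddCore G)) ≃* QuaternionGroup 4)) := by
  obtain ⟨P⟩ : Nonempty (Sylow 2 (G ⧸ oddCore G)) := inferInstance
  refine or_iff_not_imp_left.2 fun hn => ?_
  obtain h | ⟨T, hT⟩ := CL.Rk1.exists_normal_or_ne P
  · exact absurd ⟨P, h⟩ hn
  obtain ⟨S', T', h1, h2⟩ := CL.Rk1.exists_sylow_inf_map (QuotientGroup.mk'_surjective _) hT
  have hP := (CL.isPGroup_pCore 2 (G ⧸ oddCore G)).le_sylow_of_normal
  obtain h | ⟨e, he, h3⟩ := CL.Rk1.struct (CL.pPrimeCore_quotient_pPrimeCore 2 G)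
    (CL.Rank.prankLE_mono ((le_inf (hP P) (hP T)).trans h2)
      ((CL.Rank.prankLE_congr (CL.Rk1.equivCore S'.isPGroup'.to_inf_left)).1 (hI S' T' h1)))
  · refine absurd ⟨P, ?_⟩ hn
    rw [(CL.MSS.sylIn_top P).eq_of_isPGroup (h.to_subgroup ⊤)]
    infer_instance
  exact aux he hn

end Cfsg.Agent.S3304
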