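import Cfsg.Statements.S3315
import Cfsg.Agent.CLAS.U3Aut

set_option autoImplicit false
open Cfsg

namespace Cfsg.Agent.S3315

/-- Let S be a Sylow 2-subgroup of SU₃(2ⁿ), n ≥ 2 (realised over the field with 4ⁿ elements). If a finite 2-group R contains a subgroup S' of index 2 isomorphic to S, then the centre of S' is contained in the centre of R. -/
theorem result {R : Type*} [Group R] [Finite R]
    (hR : IsPGroup 2 R) (n : ℕ) (hn : 2 ≤ n) {F : Type*} [Field F] [Fintype F] (hF : Fintype.card F = 4 ^ n)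
    (P : Sylow 2 ↥(Cfsg.SU 3 F (2 ^ n))) (S' : Subgroup R) (hS : Nonempty (↥S' ≃* ↥(P : Subgroup ↥(Cfsg.SU 3 F (2 ^ n)))))
    (hidx : S'.index = 2) :
    (Subgroup.center ↥S').map S'.subtype ≤ Subgroup.center R := by
  have hF' : Fintype.card F = (2 ^ n) ^ 2 := by rw [hF, ← pow_mul, mul_comm, pow_mul]; rfl
  have := CL.U3.charP_two (by omega) hF'
  have h2 : (2 : F) = 0 := CharTwo.two_eq_zero
  obtain ⟨e₀⟩ := hS
  obtain ⟨e₁⟩ := CL.U3.nonempty_sylow_SU hF' 2 P
  let e := e₀.trans e₁
  have hN : S'.Normal := Subgroup.normal_of_index_eq_two hidx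
  rintro _ ⟨x, hx, rfl⟩
  refine Subgroup.mem_center_iff.2 fun r => ?_
  let α := MulAut.congr e (MulAut.conjNormal (H := S') r)
  have hα : ∀ a, CL.U3.S.abar α (CL.U3.S.abar α a) = a := fun a => by
    have : α * α = MulAut.conj (e ⟨r * r, Subgroup.mul_self_mem_of_index_two hidx r⟩) := by
      rw [← map_mul, ← map_mul]
      refine MulEquiv.ext fun y => ?_
      obtain ⟨y, rfl⟩ := e.surjective y
      simp only [MulAut.congr_apply, MulEquiv.trans_apply, MulEquiv.symm_apply_apply,
        MulAut.conj_apply, ← map_inv, ← map_mul]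
      congr 1
    rw [← CL.U3.S.abar_mul, this, CL.U3.S.abar_conj]
  obtain ⟨c, φ, h⟩ := CL.U3.S.exists_abar_eq h2 α
  have h1 : (c : F) * φ c = 1 := by simpa [h] using hα 1
  have h3 : ∀ a, φ (φ a) = a := fun a => by
    have := hα a
    rwa [h, h, map_mul, ← mul_assoc, h1, one_mul] at this
  have hx' : (e x).a = 0 := CL.U3.S.mem_center_iff.1 ((CL.Sp.mem_center_of_mulEquiv e).2 hx)
  have key : (c : F) ^ 2 ^ n * c * φ (e x).b = (e x).b := by
    by_cases hφ : φ = 1
    · have : (c : F) = 1 := frobenius_inj F 2 (by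
        rw [frobenius_def, frobenius_def, pow_two, one_pow]; simpa [hφ] using h1)
      simp [hφ, this]
    · have hσ := CL.U3.eq_conj_of_involutive hF' h3 hφ
      rw [hσ, CL.SqField.conj_apply] at h1 ⊢
      rw [CL.U3.S.fixed_b_of_a h2 hx', mul_comm _ (c : F), h1, one_mul]
  have h6 : α (e x) = e x := CL.U3.S.ext (by rw [CL.U3.S.map_a_eq_zero α hx', hx'])
    (by rw [CL.U3.S.map_b_of_abar h hx', key])
  have h7 : MulAut.conjNormal (H := S') r x = x := e.injective (by simpa [α] using h6)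
  have := congrArg Subtype.val h7
  rw [MulAut.conjNormal_apply, mul_inv_eq_iff_eq_mul] at this
  exact this

end Cfsg.Agent.S3315
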