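import Mathlib
import Cfsg.Statements.S3333
import Cfsg.Agent.PERM.D8Main

set_option autoImplicit false
open Cfsg

namespace Cfsg.Agent.S3333

/-- Let G be a finite group with a Sylow 3-subgroup S of order 9 that is its own centralizer, with N_G(S)/S dihedral of order 8, and such that C_G(x) ≤ N_G(S) for every non-identity x in S. Then S is normal in G or G is isomorphic to the symmetric group of degree 6. -/
theorem result {G : Type*} [Group G] [Finite G]
    (P : Sylow 3 G) (S : Subgroup G) (hSP : S = P) (hcard : Nat.card S = 9)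
    (hC : Subgroup.centralizer (S : Set G) = S)
    (eN : Subgroup.normalizer (S : Set G) ⧸ S.subgroupOf (Subgroup.normalizer (S : Set G)) ≃* DihedralGroup 4)
    (hcent : ∀ x ∈ S, x ≠ 1 → Subgroup.centralizer ({x} : Set G) ≤ Subgroup.normalizer (S : Set G)) :
    S.Normal ∨ Nonempty (G ≃* Equiv.Perm (Fin 6)) := by
  have := Subgroup.normal_in_normalizer (H := S)
  obtain ⟨D, hD⟩ := Subgroup.exists_right_complement'_of_coprime
    (N := S.subgroupOf (Subgroup.normalizer (S : Set G))) (by
      rw [Nat.card_congr (Subgroup.subgroupOfEquivOfLe Subgroup.le_normalizer).toEquiv, hcard,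
        Subgroup.index, Nat.card_congr eN.toEquiv, DihedralGroup.nat_card]
      norm_num)
  let e := eN.symm.trans hD.symm.QuotientMulEquiv
  refine CL.Odd.d8_main hcard hC
    ((Subgroup.subtype _).comp (D.subtype.comp e.toMonoidHom)) (fun d => (e d).1.2)
    (fun d hd => ?_) (fun n hn => ?_) hcent
  · exact e.map_eq_one_iff.mp (Subtype.ext
      ((Subgroup.disjoint_def.mp hD.disjoint) (show (e d).1 ∈ S.subgroupOf _ from hd) (e d).2))
  · obtain ⟨⟨s, d⟩, h, -⟩ := hD.existsUnique ⟨n, hn⟩
    refine ⟨e.symm d, ?_⟩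
    have h' : (s : G) * d = n := congrArg Subtype.val h
    show n * ((e (e.symm d)).1 : G)⁻¹ ∈ S
    rw [e.apply_symm_apply, ← h', mul_inv_cancel_right]
    exact s.2

end Cfsg.Agent.S3333
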