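import Cfsg.Statements.S3335
import Cfsg.Agent.SPOR.SymmCoxeter

set_option autoImplicit false
open Cfsg

namespace Cfsg.Agent.S3335

section
open Equiv

theorem comm_of_sq {G : Type*} [Group G] {a b : G} (ha : a * a = 1) (hb : b * b = 1)
    (h : (a * b) ^ 2 = 1) : Commute a b := by
  have ha' : a⁻¹ = a := inv_eq_of_mul_eq_one_right ha
  have hb' : b⁻¹ = b := inv_eq_of_mul_eq_one_right hb
  have : (a * b)⁻¹ = a * b := inv_eq_of_mul_eq_one_right (by rw [← h, pow_two])
  rw [mul_inv_rev, ha', hb'] at this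
  exact this.symm

theorem braid_of_cube {G : Type*} [Group G] {a b : G} (ha : a * a = 1) (hb : b * b = 1)
    (h : (a * b) ^ 3 = 1) : a * b * a = b * a * b := by
  have ha' : a⁻¹ = a := inv_eq_of_mul_eq_one_right ha
  have hb' : b⁻¹ = b := inv_eq_of_mul_eq_one_right hb
  have : (a * b * a)⁻¹ = b * a * b := inv_eq_of_mul_eq_one_right (by
    rw [← h, pow_succ, pow_two]; simp only [mul_assoc])
  rw [← this]; simp only [mul_inv_rev, ha', hb', mul_assoc]

theorem cube_of_braid {G : Type*} [Group G] {a b : G} (ha : a * a = 1) (hb : b * b = 1)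
    (h : a * b * a = b * a * b) : (a * b) ^ 3 = 1 := by
  have : (a * b) ^ 3 = (a * b * a) * (b * a * b) := by
    rw [pow_succ, pow_two]; simp only [mul_assoc]
  rw [this, ← h]
  calc a * b * a * (a * b * a) = a * b * (a * a) * b * a := by simp only [mul_assoc]
    _ = a * (b * b) * a := by rw [ha]; simp only [mul_assoc, mul_one]
    _ = 1 := by rw [hb, mul_one, ha]

theorem inv_mul_inv_pow {G : Type*} [Group G] {a b : G} {m : ℕ} (h : (a * b) ^ m = 1) :
    (a⁻¹ * b⁻¹) ^ m = 1 := by
  have h1 : (b * a) ^ m = 1 := by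
    have : b * a = b * (a * b) * b⁻¹ := by group
    rw [this, conj_pow, h]; group
  rw [← mul_inv_rev, inv_pow, h1, inv_one]

/-- The relators. -/
def rels (k : ℕ) : Set (FreeGroup (Fin k)) :=
  ({g : FreeGroup (Fin k) | ∃ i : Fin k, i.val = 0 ∧ g = FreeGroup.of i ^ 3} ∪
       {g | ∃ i : Fin k, 1 ≤ i.val ∧ g = FreeGroup.of i ^ 2} ∪
       {g | ∃ i j : Fin k, j.val = i.val + 1 ∧ g = (FreeGroup.of i * FreeGroup.of j) ^ 3} ∪
       {g | ∃ i j : Fin k, i.val + 1 < j.val ∧ g = (FreeGroup.of i * FreeGroup.of j) ^ 2})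

structure Rel {k : ℕ} {G : Type*} [Group G] (x : Fin k → G) : Prop where
  r0 : ∀ i : Fin k, i.val = 0 → x i ^ 3 = 1
  r1 : ∀ i : Fin k, 1 ≤ i.val → x i ^ 2 = 1
  r2 : ∀ i j : Fin k, j.val = i.val + 1 → (x i * x j) ^ 3 = 1
  r3 : ∀ i j : Fin k, i.val + 1 < j.val → (x i * x j) ^ 2 = 1

theorem Rel.lift {k : ℕ} {G : Type*} [Group G] {x : Fin k → G} (h : Rel x) :
    ∀ r ∈ rels k, FreeGroup.lift x r = 1 := by
  rintro r (((⟨i, hi, rfl⟩ | ⟨i, hi, rfl⟩) | ⟨i, j, hij, rfl⟩) | ⟨i, j, hij, rfl⟩)
  · simpa using h.r0 i hi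
  · simpa using h.r1 i hi
  · simpa using h.r2 i j hij
  · simpa using h.r3 i j hij

theorem rel_of (k : ℕ) : Rel (fun i : Fin k => (PresentedGroup.of i : PresentedGroup (rels k))) := by
  have key : ∀ r ∈ rels k, PresentedGroup.mk (rels k) r = 1 := fun r hr =>
    PresentedGroup.one_of_mem hr
  refine ⟨fun i hi => ?_, fun i hi => ?_, fun i j hij => ?_, fun i j hij => ?_⟩
  · have := key _ (Or.inl (Or.inl (Or.inl ⟨i, hi, rfl⟩)))
    rw [map_pow] at this; exact this
  · have := key _ (Or.inl (Or.inl (Or.inr ⟨i, hi, rfl⟩)))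
    rw [map_pow] at this; exact this
  · have := key _ (Or.inl (Or.inr ⟨i, j, hij, rfl⟩))
    rw [map_pow, map_mul] at this; exact this
  · have := key _ (Or.inr ⟨i, j, hij, rfl⟩)
    rw [map_pow, map_mul] at this; exact this

theorem Rel.inv {k : ℕ} {G : Type*} [Group G] {x : Fin k → G} (h : Rel x) :
    Rel (fun i => (x i)⁻¹) :=
  ⟨fun i hi => by rw [inv_pow, h.r0 i hi, inv_one], fun i hi => by rw [inv_pow, h.r1 i hi, inv_one],
    fun i j hij => inv_mul_inv_pow (h.r2 i j hij), fun i j hij => inv_mul_inv_pow (h.r3 i j hij)⟩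

/-- adjacent transpositions -/
def sw (k : ℕ) (i : Fin (k + 1)) : Perm (Fin (k + 2)) := swap i.castSucc i.succ

theorem sw_sq (k : ℕ) (i : Fin (k + 1)) : sw k i * sw k i = 1 := swap_mul_self _ _

theorem sw_comm (k : ℕ) (i j : Fin (k + 1)) (h : i.val + 1 < j.val) : Commute (sw k i) (sw k j) := by
  apply Perm.Disjoint.commute
  unfold sw
  apply Perm.disjoint_swap_swap
  simp only [List.nodup_cons, List.mem_cons, List.not_mem_nil, Fin.ext_iff, Fin.val_castSucc,
    Fin.val_succ, List.nodup_nil, not_false_eq_true, and_true, or_false]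
  omega

theorem sw_braid (k : ℕ) (i j : Fin (k + 1)) (h : j.val = i.val + 1) :
    sw k i * sw k j * sw k i = sw k j * sw k i * sw k j := by
  have e : j.castSucc = i.succ := Fin.ext (by simp [h])
  unfold sw
  rw [e]
  apply CL.swap_braid <;> simp only [ne_eq, Fin.ext_iff, Fin.val_castSucc, Fin.val_succ] <;> omega

theorem rel_sw (k : ℕ) : Rel (fun i : Fin k => sw k 0 * sw k i.succ) := by
  have h00 := sw_sq k 0
  have key : ∀ i j : Fin k, 1 ≤ i.val →
      sw k 0 * sw k i.succ * (sw k 0 * sw k j.succ) = sw k i.succ * sw k j.succ := by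
    intro i j hi
    have hc := sw_comm k 0 i.succ (by simp; omega)
    rw [hc.eq, mul_assoc, ← mul_assoc (sw k 0), h00, one_mul]
  refine ⟨fun i hi => ?_, fun i hi => ?_, fun i j hij => ?_, fun i j hij => ?_⟩
  · exact cube_of_braid h00 (sw_sq _ _) (sw_braid k 0 i.succ (by simp [hi]))
  · rw [pow_two, key i i hi, sw_sq]
  · have hj : Commute (sw k 0) (sw k j.succ) := sw_comm k 0 j.succ (by simp; omega)
    have : sw k 0 * sw k i.succ * (sw k 0 * sw k j.succ) =
        sw k 0 * (sw k i.succ * sw k j.succ) * (sw k 0)⁻¹ := by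
      rw [inv_eq_of_mul_eq_one_right h00, hj.eq]; simp only [mul_assoc]
    rw [this, conj_pow, cube_of_braid (sw_sq _ _) (sw_sq _ _) (sw_braid k i.succ j.succ (by simp [hij]))]
    group
  · have hj : Commute (sw k 0) (sw k j.succ) := sw_comm k 0 j.succ (by simp; omega)
    have : sw k 0 * sw k i.succ * (sw k 0 * sw k j.succ) =
        sw k 0 * (sw k i.succ * sw k j.succ) * (sw k 0)⁻¹ := by
      rw [inv_eq_of_mul_eq_one_right h00, hj.eq]; simp only [mul_assoc]
    have hc := sw_comm k i.succ j.succ (by simp; omega)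
    rw [this, conj_pow, hc.mul_pow, pow_two, pow_two, sw_sq, sw_sq]
    group

theorem main (k : ℕ) : Nonempty (PresentedGroup (rels k) ≃* alternatingGroup (Fin (k + 2))) := by
  classical
  set P := PresentedGroup (rels k)
  let x : Fin k → P := fun i => PresentedGroup.of i
  have hx : Rel x := rel_of k
  let σ0 : P →* P := PresentedGroup.toGroup hx.inv.lift
  have hσ0 : ∀ i, σ0 (x i) = (x i)⁻¹ := fun i => PresentedGroup.toGroup.of _
  have hσσ : σ0.comp σ0 = MonoidHom.id P := by
    apply PresentedGroup.ext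
    intro i
    show σ0 (σ0 (x i)) = x i
    rw [hσ0, map_inv, hσ0, inv_inv]
  let σ : MulAut P := MonoidHom.toMulEquiv σ0 σ0 hσσ hσσ
  have hσ : ∀ i, σ (x i) = (x i)⁻¹ := hσ0
  have hσ2 : σ * σ = 1 := by
    ext g
    exact DFunLike.congr_fun hσσ g
  let y : Fin (k + 1) → P := Fin.cases 1 x
  have hy0 : y 0 = 1 := rfl
  have hys : ∀ i : Fin k, y i.succ = x i := fun i => rfl
  have hσy : ∀ j, σ (y j) = (y j)⁻¹ := by
    intro j
    refine Fin.cases ?_ (fun i => ?_) j
    · rw [hy0]; simp
    · rw [hys]; exact hσ i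
  let Hol := SemidirectProduct P (MulAut P) (MonoidHom.id _)
  let g : Fin (k + 1) → Hol := fun j => SemidirectProduct.inr σ * SemidirectProduct.inl (y j)
  have hg : ∀ i j, g i * g j = SemidirectProduct.inl ((y i)⁻¹ * y j) := by
    intro i j
    have e1 : (SemidirectProduct.inr σ * SemidirectProduct.inr σ : Hol) = 1 := by
      rw [← map_mul, hσ2, map_one]
    have e2 : (SemidirectProduct.inl (y i)⁻¹ : Hol) =
        SemidirectProduct.inr σ * SemidirectProduct.inl (y i) * SemidirectProduct.inr σ := by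
      rw [← hσy, ← inv_eq_of_mul_eq_one_right e1]
      have := SemidirectProduct.inl_aut (φ := MonoidHom.id (MulAut P)) σ (y i)
      rw [map_inv] at this
      rw [inv_eq_of_mul_eq_one_right e1] at this ⊢
      exact this
    rw [map_mul, e2]
    simp only [g, mul_assoc]
  have hgg : ∀ i, g i * g i = 1 := fun i => by rw [hg]; simp
  have hinv : ∀ j : Fin k, 1 ≤ j.val → (x j)⁻¹ = x j := fun j hj =>
    inv_eq_of_mul_eq_one_right (by rw [← pow_two]; exact hx.r1 j hj)
  obtain ⟨ψ, hψ⟩ := CL.exists_perm_hom_of_braid (k + 1) g hgg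
    (by
      intro i j hij
      apply comm_of_sq (hgg i) (hgg j)
      rw [hg, ← map_pow]
      obtain ⟨j, rfl⟩ : ∃ j' : Fin k, j = j'.succ := Fin.exists_succ_eq.2 (by
        rintro rfl; simp at hij) |>.imp fun _ h => h.symm
      simp only [Fin.val_succ] at hij
      revert hij
      refine Fin.cases ?_ (fun i => ?_) i
      · intro hij
        rw [hy0, hys, inv_one, one_mul, hx.r1 j (by simp at hij; omega), map_one]
      · intro hij
        simp only [Fin.val_succ] at hij
        rw [hys, hys, ← hinv j (by omega), inv_mul_inv_pow (hx.r3 i j (by omega)), map_one])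
    (by
      intro i j hij
      apply braid_of_cube (hgg i) (hgg j)
      rw [hg, ← map_pow]
      obtain ⟨j, rfl⟩ : ∃ j' : Fin k, j = j'.succ := Fin.exists_succ_eq.2 (by
        rintro rfl; simp at hij) |>.imp fun _ h => h.symm
      simp only [Fin.val_succ] at hij
      revert hij
      refine Fin.cases ?_ (fun i => ?_) i
      · intro hij
        rw [hy0, hys, inv_one, one_mul, hx.r0 j (by simpa using hij), map_one]
      · intro hij
        simp only [Fin.val_succ] at hij
        rw [hys, hys, ← hinv j (by omega), inv_mul_inv_pow (hx.r2 i j (by omega)), map_one])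
  let f : P →* Perm (Fin (k + 2)) := PresentedGroup.toGroup (rel_sw k).lift
  have hf : ∀ i, f (x i) = sw k 0 * sw k i.succ := fun i => PresentedGroup.toGroup.of _
  have hcomp : ψ.comp f = SemidirectProduct.inl := by
    apply PresentedGroup.ext
    intro i
    show ψ (f (x i)) = SemidirectProduct.inl (x i)
    rw [hf, map_mul]
    unfold sw
    rw [hψ, hψ, hg, hy0, hys, inv_one, one_mul]
  have hinj : Function.Injective f := by
    have : Function.Injective (ψ.comp f) := by rw [hcomp]; exact SemidirectProduct.inl_injective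
    exact Function.Injective.of_comp (f := ψ) this
  have hsign : ∀ j, Perm.sign (sw k j) = -1 := fun j =>
    Perm.sign_swap (by simp [Fin.ext_iff])
  have hle : f.range ≤ alternatingGroup (Fin (k + 2)) := by
    have : (Perm.sign.comp f) = 1 := by
      apply PresentedGroup.ext
      intro i
      show Perm.sign (f (x i)) = 1
      rw [hf, map_mul, hsign, hsign]; simp
    rintro _ ⟨p, rfl⟩
    exact DFunLike.congr_fun this p
  have hmem : ∀ j, sw k 0 * sw k j ∈ f.range := by
    intro j
    refine Fin.cases ?_ (fun i => ?_) j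
    · rw [sw_sq]; exact one_mem _
    · exact ⟨x i, hf i⟩
  have hall : ∀ π : Perm (Fin (k + 2)), π ∈ f.range ∨ sw k 0 * π ∈ f.range := by
    intro π
    have hπ : π ∈ Submonoid.closure (Set.range fun i : Fin (k + 1) => swap i.castSucc i.succ) := by
      rw [Perm.mclosure_swap_castSucc_succ]; trivial
    induction hπ using Submonoid.closure_induction_left with
    | one => exact Or.inl (one_mem _)
    | mul_left a ha b _ ih =>
      obtain ⟨j, rfl⟩ := ha
      change sw k j * b ∈ _ ∨ sw k 0 * (sw k j * b) ∈ _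
      rcases ih with h | h
      · right; rw [← mul_assoc]; exact mul_mem (hmem j) h
      · left
        have : sw k j * b = (sw k 0 * sw k j)⁻¹ * (sw k 0 * b) := by
          rw [mul_inv_rev, inv_eq_of_mul_eq_one_right (sw_sq k j)]; group
        rw [this]; exact mul_mem (inv_mem (hmem j)) h
  have heq : f.range = alternatingGroup (Fin (k + 2)) := by
    refine le_antisymm hle fun π hπ => ?_
    rcases hall π with h | h
    · exact h
    · have h1 := hle h
      rw [Perm.mem_alternatingGroup, map_mul, hsign, Perm.mem_alternatingGroup.1 hπ] at h1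
      exact absurd h1 (by decide)
  exact ⟨(MonoidHom.ofInjective hinj).trans (MulEquiv.subgroupCongr heq)⟩

end


/-- A presentation of the alternating group of degree n ≥ 3 on generators x_1, …, x_{n−2} (indexed here by 0, …, n−3): the first generator cubes to 1, every other generator squares to 1, the product of two consecutive generators has order dividing 3, and the product of two generators at distance at least 2 has order dividing 2. The group so presented is isomorphic to the alternating group of degree n. -/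
theorem result (n : ℕ) (hn : 3 ≤ n) :
    Nonempty (PresentedGroup
      ({g : FreeGroup (Fin (n - 2)) | ∃ i : Fin (n - 2), i.val = 0 ∧ g = FreeGroup.of i ^ 3} ∪
       {g | ∃ i : Fin (n - 2), 1 ≤ i.val ∧ g = FreeGroup.of i ^ 2} ∪
       {g | ∃ i j : Fin (n - 2), j.val = i.val + 1 ∧ g = (FreeGroup.of i * FreeGroup.of j) ^ 3} ∪
       {g | ∃ i j : Fin (n - 2), i.val + 1 < j.val ∧ g = (FreeGroup.of i * FreeGroup.of j) ^ 2})
      ≃* alternatingGroup (Fin n)) := by
  obtain ⟨k, rfl⟩ : ∃ k, n = k + 2 := ⟨n - 2, by omega⟩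
  exact main k

end Cfsg.Agent.S3335
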