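import Mathlib
import Cfsg.Statements.S3341
import Cfsg.Agent.PERM.OddNine
import Cfsg.Agent.S0497

set_option autoImplicit false
open Cfsg

namespace Cfsg.Agent.S3341

/-- Let G be a finite simple group whose Sylow 3-subgroup S is elementary abelian of order 9, such that G has more than one conjugacy class of elements of order 3 and C_G(s) = S for every non-identity s in S. Then G is isomorphic to the alternating group of degree 6. -/
theorem result {G : Type*} [Group G] [Finite G] [IsSimpleGroup G]
    (P : Sylow 3 G) (S : Subgroup G) (hSP : S = P) (hcomm : IsMulCommutative S) (hexp : ∀ a ∈ S, a ^ 3 = 1)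
    (hcard : Nat.card S = 9)
    (hclasses : ∃ a b : G, orderOf a = 3 ∧ orderOf b = 3 ∧ ∀ g : G, g * a * g⁻¹ ≠ b)
    (hcent : ∀ s ∈ S, s ≠ 1 → Subgroup.centralizer ({s} : Set G) = S) :
    Nonempty (G ≃* alternatingGroup (Fin 6)) := by
  have : Fact (Nat.Prime 3) := ⟨Nat.prime_three⟩
  subst hSP
  have hc : ∀ a ∈ (P : Subgroup G), ∀ b ∈ (P : Subgroup G), a * b = b * a := fun a ha b hb =>
    congrArg Subtype.val (hcomm.is_comm.comm ⟨a, ha⟩ ⟨b, hb⟩)
  have hbot : (P : Subgroup G) ≠ ⊥ := fun h => by rw [h] at hcard; simp at hcard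
  have htop : (P : Subgroup G) ≠ ⊤ := fun h => by
    obtain ⟨a, -, ha, -⟩ := hclasses
    have hn : (Subgroup.zpowers a).Normal := ⟨fun x hx g => by
      rw [hc g (h ▸ Subgroup.mem_top _) x (h ▸ Subgroup.mem_top _)]; simpa using hx⟩
    have h3 : Nat.card (Subgroup.zpowers a) = 3 := by rw [Nat.card_zpowers, ha]
    rcases hn.eq_bot_or_eq_top with h' | h'
    · rw [h'] at h3; simp at h3
    · rw [h', ← h, hcard] at h3; omega
  rcases CL.Odd.nine_cases hc hexp hcard (fun s hs h1 => (hcent s hs h1).le) with h | h | h | h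
  · have hP : Subgroup.normalizer ((P : Subgroup G) : Set G) ≤
        Subgroup.centralizer ((P : Subgroup G) : Set G) := fun x hx y hy => hc y hy x (h hx)
    have hk := MonoidHom.ker_transferSylow_isComplement' P hP
    rcases (MonoidHom.normal_ker (MonoidHom.transferSylow P hP)).eq_bot_or_eq_top with h' | h'
    · rw [h'] at hk; exact (htop (Subgroup.isComplement'_bot_left.mp hk)).elim
    · rw [h'] at hk; exact (hbot (Subgroup.isComplement'_top_left.mp hk)).elim
  · rcases (Subgroup.normalizer_eq_top_iff.mp h).eq_bot_or_eq_top with h' | h'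
    exacts [(hbot h').elim, (htop h').elim]
  · exact Cfsg.Agent.S0497.result h.1
  · obtain ⟨a, b, ha, hb, hab⟩ := hclasses
    have key : ∀ x : G, orderOf x = 3 → ∃ s ∈ (P : Subgroup G), s ≠ 1 ∧ IsConj x s := by
      intro x hx
      have hp : IsPGroup 3 (Subgroup.zpowers x) :=
        IsPGroup.of_card (n := 1) (by rw [Nat.card_zpowers, hx]; rfl)
      obtain ⟨Q, hQ⟩ := hp.exists_le_sylow
      obtain ⟨g, rfl⟩ := MulAction.exists_smul_eq G P Q
      refine ⟨g⁻¹ * x * g, ?_, ?_, isConj_iff.mpr ⟨g⁻¹, by simp⟩⟩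
      · have := hQ (Subgroup.mem_zpowers x)
        rw [Sylow.coe_subgroup_smul, Subgroup.mem_pointwise_smul_iff_inv_smul_mem] at this
        simpa using this
      · intro e
        have : x = 1 := by
          calc x = g * (g⁻¹ * x * g) * g⁻¹ := by group
            _ = 1 := by rw [e]; simp
        rw [this, orderOf_one] at hx; omega
    obtain ⟨s, hs, hs1, hsa⟩ := key a ha
    obtain ⟨t, ht, ht1, htb⟩ := key b hb
    obtain ⟨g, hg⟩ := isConj_iff.mp ((hsa.trans (h s hs t ht hs1 ht1)).trans htb.symm)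
    exact (hab g hg).elim

end Cfsg.Agent.S3341
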