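import Cfsg.Statements.S3349

set_option autoImplicit false
open Cfsg

namespace Cfsg.Agent.S3349

/-- Let Q be a finite extraspecial p-group and α an automorphism of Q fixing every element of some maximal abelian subgroup of Q. Then the order of α is a power of p. -/
theorem result {Q : Type*} [Group Q] [Finite Q]
    (p : ℕ) [Fact p.Prime] (hQ : Cfsg.IsExtraspecial p Q) (α : MulAut Q)
    (A : Subgroup Q) (hA : IsMulCommutative A) (hmax : ∀ B : Subgroup Q, A ≤ B → IsMulCommutative B → B = A)
    (hfix : ∀ a ∈ A, α a = a) :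
    ∃ k : ℕ, orderOf α = p ^ k := by
  obtain ⟨⟨hp, -, hcomm⟩, -⟩ := hQ
  have hAc : ∀ a ∈ A, ∀ b ∈ A, a * b = b * a := fun a ha b hb =>
    congrArg Subtype.val (hA.is_comm.comm (⟨a, ha⟩ : A) ⟨b, hb⟩)
  -- `A` is self-centralising
  have hself : ∀ x : Q, (∀ a ∈ A, a * x = x * a) → x ∈ A := by
    intro x hx
    let B : Subgroup Q := Subgroup.closure (insert x (A : Set Q))
    have hB : IsMulCommutative B := by
      apply Subgroup.isMulCommutative_closure
      rintro a (rfl | ha) b (rfl | hb)
      · rfl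
      · exact (hx b hb).symm
      · exact hx a ha
      · exact hAc a ha b hb
    have hle : A ≤ B := fun a ha => Subgroup.subset_closure (Set.mem_insert_of_mem _ ha)
    rw [← hmax B hle hB]
    exact Subgroup.subset_closure (Set.mem_insert _ _)
  have hZ : Subgroup.center Q ≤ A := fun z hz =>
    hself z fun a _ => Subgroup.mem_center_iff.mp hz a
  have hAn : ∀ a ∈ A, ∀ q : Q, q * a * q⁻¹ ∈ A := by
    intro a ha q
    have h1 : q * a * q⁻¹ * a⁻¹ ∈ A := by
      apply hZ
      rw [← hcomm]
      exact Subgroup.commutator_mem_commutator (Subgroup.mem_top q) (Subgroup.mem_top a)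
    simpa using A.mul_mem h1 ha
  have hstep : ∀ q : Q, q⁻¹ * α q ∈ A := by
    intro q
    apply hself
    intro a ha
    have h1 := hfix _ (hAn a ha q)
    rw [map_mul, map_mul, map_inv, hfix a ha] at h1
    calc a * (q⁻¹ * α q) = q⁻¹ * (q * a * q⁻¹) * α q := by group
      _ = q⁻¹ * (α q * a * (α q)⁻¹) * α q := by rw [h1]
      _ = q⁻¹ * α q * a := by group
  have hpow : ∀ (n : ℕ) (q : Q), (α ^ n) q = q * (q⁻¹ * α q) ^ n := by
    intro n q
    induction n with
    | zero => simp
    | succ n ih =>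
      rw [pow_succ', MulAut.mul_apply, ih, map_mul, hfix _ (A.pow_mem (hstep q) n), pow_succ',
        ← mul_assoc, mul_inv_cancel_left]
  obtain ⟨k, hk⟩ := IsPGroup.iff_card.mp hp
  have h1 : α ^ (p ^ k) = 1 := by
    ext q
    rw [hpow, ← hk, pow_card_eq_one']
    simp
  obtain ⟨j, -, hj⟩ := (Nat.dvd_prime_pow (Fact.out : p.Prime)).mp (orderOf_dvd_of_pow_eq_one h1)
  exact ⟨j, hj⟩

end Cfsg.Agent.S3349
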