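import Cfsg.Statements.S3376
import Mathlib
import Cfsg.Agent.PERM.TC
import Cfsg.Agent.PLOC.PNormal

set_option autoImplicit false
open Cfsg

namespace Cfsg.Agent.S3376

open Subgroup
open scoped IsMulCommutative

def wrRels : List (List ℕ) :=
  [[0, 0, 0], [2, 2, 2], [4, 4], [4, 2, 4, 2], [4, 0, 4, 1], [0, 2, 0, 3, 1, 2, 1, 3]]

def wrRules : List CL.TC.Rule :=
  [(0, [], 4, []), (1, [5], 5, []), (1, [5, 1, 5], 0, []), (1, [5, 3, 5], 3, []), (1, [4, 2, 4], 2,
   []), (0, [], 2, []), (1, [5, 0, 5], 1, []), (0, [], 0, []), (0, [], 1, []), (1, [0, 0], 0, []),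
   (0, [], 3, []), (1, [2, 2], 2, []), (1, [2, 0, 3, 1, 2, 1, 3], 0, []), (1, [3, 3], 3, []), (1,
   [2, 0, 3, 0, 2, 1, 3], 1, []), (1, [0, 2, 0, 3, 1, 2, 1], 3, []), (1, [0, 2, 1, 3, 1, 2, 0], 3,
   []), (1, [3, 0, 2, 1, 3, 1, 2], 0, []), (1, [3, 0, 2, 0, 3, 1, 2], 1, [])]

def wrSteps : List (ℕ × ℕ) :=
  [(0, 7), (0, 8), (2, 9), (0, 5), (0, 10), (4, 11), (0, 0), (5, 1), (1, 5), (1, 10), (7, 11), (1,
   0), (8, 2), (8, 1), (2, 5), (2, 10), (10, 11), (2, 0), (11, 2), (11, 6), (11, 1), (3, 7), (3,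
   8), (13, 9), (3, 0), (14, 3), (14, 1), (4, 7), (4, 8), (16, 9), (4, 0), (17, 3), (17, 1), (17,
   4), (6, 7), (6, 8), (19, 9), (6, 0), (20, 3), (20, 1), (7, 7), (7, 8), (22, 9), (7, 0), (23,
   3), (23, 1), (23, 4), (9, 7), (9, 8), (25, 9), (9, 0), (26, 3), (26, 1), (10, 7), (10, 8), (28,
   9), (10, 0), (29, 3), (29, 1), (29, 4), (12, 5), (12, 10), (31, 11), (12, 0), (32, 2), (32, 1),
   (13, 5), (13, 10), (34, 11), (13, 0), (35, 2), (35, 6), (35, 1), (15, 5), (15, 10), (37, 11),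
   (15, 0), (38, 2), (38, 1), (16, 5), (16, 10), (40, 11), (16, 0), (41, 2), (41, 6), (41, 1),
   (18, 5), (18, 10), (43, 17), (43, 11), (18, 0), (44, 2), (44, 1), (19, 5), (19, 10), (46, 17),
   (46, 11), (19, 0), (47, 2), (47, 6), (47, 1), (21, 5), (48, 12), (21, 10), (49, 11), (21, 0),
   (50, 2), (50, 1), (22, 5), (51, 12), (22, 10), (52, 11), (22, 0), (53, 2), (53, 6), (53, 1),
   (24, 5), (24, 10), (55, 17), (55, 18), (55, 11), (24, 0), (56, 2), (56, 1), (25, 5), (25, 10),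
   (58, 17), (58, 18), (58, 11), (25, 0), (59, 2), (59, 6), (59, 1), (27, 5), (60, 12), (60, 14),
   (27, 10), (61, 11), (27, 0), (62, 2), (62, 1), (28, 5), (63, 12), (63, 14), (28, 10), (64, 11),
   (28, 0), (65, 2), (65, 6), (65, 1), (30, 7), (30, 8), (67, 9), (30, 0), (68, 3), (68, 1), (31,
   0), (69, 3), (69, 1), (69, 4), (33, 7), (33, 8), (71, 9), (33, 0), (72, 3), (72, 1), (34, 0),
   (73, 3), (73, 1), (73, 4), (36, 0), (74, 3), (74, 1), (37, 7), (75, 15), (37, 8), (76, 9), (76,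
   16), (37, 0), (77, 3), (77, 1), (77, 4), (39, 0), (78, 3), (78, 1), (40, 7), (79, 15), (40, 8),
   (80, 9), (80, 16), (40, 0), (81, 3), (81, 1), (81, 4), (42, 7), (42, 8), (83, 9), (42, 0), (84,
   3), (84, 1), (43, 0), (85, 2), (85, 3), (85, 1), (85, 4), (45, 7), (45, 8), (87, 9), (45, 0),
   (88, 3), (88, 1), (46, 0), (89, 2), (89, 3), (89, 1), (89, 4), (48, 0), (90, 2), (90, 3), (90,
   1), (49, 7), (91, 15), (49, 8), (92, 9), (92, 16), (49, 0), (93, 3), (93, 1), (93, 4), (51, 0),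
   (94, 2), (94, 3), (94, 1), (52, 7), (95, 15), (52, 8), (96, 9), (96, 16), (52, 0), (97, 3),
   (97, 1), (97, 4), (54, 7), (54, 8), (99, 9), (54, 0), (100, 3), (100, 1), (55, 0), (101, 2),
   (101, 6), (101, 3), (101, 1), (101, 4), (57, 7), (57, 8), (103, 9), (57, 0), (104, 3), (104,
   1), (58, 0), (105, 2), (105, 6), (105, 3), (105, 1), (105, 4), (60, 0), (106, 2), (106, 6),
   (106, 3), (106, 1), (61, 7), (107, 15), (61, 8), (108, 9), (108, 16), (61, 0), (109, 3), (109,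
   1), (109, 4), (63, 0), (110, 2), (110, 6), (110, 3), (110, 1), (64, 7), (111, 15), (64, 8),
   (112, 9), (112, 16), (64, 0), (113, 3), (113, 1), (113, 4), (66, 5), (114, 13), (66, 0), (115,
   2), (115, 1), (67, 5), (116, 13), (67, 0), (117, 2), (117, 6), (117, 1), (70, 5), (118, 13),
   (70, 0), (119, 2), (119, 1), (71, 5), (120, 13), (71, 0), (121, 2), (121, 6), (121, 1), (75,
   0), (122, 2), (122, 1), (122, 4), (76, 0), (123, 2), (123, 6), (123, 1), (123, 4), (79, 0),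
   (124, 2), (124, 1), (124, 4), (80, 0), (125, 2), (125, 6), (125, 1), (125, 4), (82, 5), (126,
   12), (126, 13), (82, 0), (127, 2), (127, 1), (83, 5), (128, 12), (128, 13), (83, 0), (129, 2),
   (129, 6), (129, 1), (86, 5), (130, 12), (130, 13), (86, 0), (131, 2), (131, 1), (87, 5), (132,
   12), (132, 13), (87, 0), (133, 2), (133, 6), (133, 1), (91, 0), (134, 2), (134, 1), (134, 4),
   (92, 0), (135, 2), (135, 6), (135, 1), (135, 4), (95, 0), (136, 2), (136, 1), (136, 4), (96,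
   0), (137, 2), (137, 6), (137, 1), (137, 4), (98, 5), (138, 12), (138, 14), (138, 13), (98, 0),
   (139, 2), (139, 1), (99, 5), (140, 12), (140, 14), (140, 13), (99, 0), (141, 2), (141, 6),
   (141, 1), (102, 5), (142, 12), (142, 14), (142, 13), (102, 0), (143, 2), (143, 1), (103, 5),
   (144, 12), (144, 14), (144, 13), (103, 0), (145, 2), (145, 6), (145, 1), (107, 0), (146, 2),
   (146, 1), (146, 4), (108, 0), (147, 2), (147, 6), (147, 1), (147, 4), (111, 0), (148, 2), (148,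
   1), (148, 4), (112, 0), (149, 2), (149, 6), (149, 1), (149, 4), (114, 0), (150, 3), (150, 1),
   (150, 4), (116, 0), (151, 3), (151, 1), (151, 4), (118, 0), (152, 3), (152, 1), (152, 4), (120,
   0), (153, 3), (153, 1), (153, 4), (126, 0), (154, 2), (154, 3), (154, 1), (154, 4), (128, 0),
   (155, 2), (155, 3), (155, 1), (155, 4), (130, 0), (156, 2), (156, 3), (156, 1), (156, 4), (132,
   0), (157, 2), (157, 3), (157, 1), (157, 4), (138, 0), (158, 2), (158, 6), (158, 3), (158, 1),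
   (158, 4), (140, 0), (159, 2), (159, 6), (159, 3), (159, 1), (159, 4), (142, 0), (160, 2), (160,
   6), (160, 3), (160, 1), (160, 4), (144, 0), (161, 2), (161, 6), (161, 3), (161, 1), (161, 4)]

theorem wrCheck : CL.TC.check 3 wrRels [] wrRules wrSteps 162 = true := by
  decide +kernel


def c9 : Equiv.Perm (Fin 9) := Equiv.swap (0 : Fin 9) 1 * Equiv.swap 1 2 * Equiv.swap 3 4 *
  Equiv.swap 4 5 * Equiv.swap 6 7 * Equiv.swap 7 8

def px : centralizer ({c9} : Set (Equiv.Perm (Fin 9))) :=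
  ⟨Equiv.swap 0 1 * Equiv.swap 1 2, mem_centralizer_singleton_iff.mpr (by decide)⟩
def py : centralizer ({c9} : Set (Equiv.Perm (Fin 9))) :=
  ⟨Equiv.swap 0 3 * Equiv.swap 3 6 * Equiv.swap 1 4 * Equiv.swap 4 7 * Equiv.swap 2 5 *
    Equiv.swap 5 8, mem_centralizer_singleton_iff.mpr (by decide)⟩
def pw : centralizer ({c9} : Set (Equiv.Perm (Fin 9))) :=
  ⟨Equiv.swap 3 6 * Equiv.swap 4 7 * Equiv.swap 5 8, mem_centralizer_singleton_iff.mpr (by decide)⟩

theorem card_c9 : Nat.card (centralizer ({c9} : Set (Equiv.Perm (Fin 9)))) = 162 := by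
  have : c9.cycleType = {3, 3, 3} := by decide +kernel
  rw [Equiv.Perm.nat_card_centralizer, this]
  decide

theorem rel9 : ∀ r ∈ wrRels, CL.TC.wp [px, py, pw] r = 1 := by decide +kernel

theorem ne9 : px * (py * px * py⁻¹) * (py * (py * px * py⁻¹) * py⁻¹) ≠ 1 := by decide +kernel

theorem three_mul_le {G : Type*} [Group G] [Finite G] {A B J : Subgroup G} (h : A < B) (hB : B ≤ J)
    {k : ℕ} (hJ : Nat.card J = 3 ^ k) : 3 * Nat.card A ≤ Nat.card B := by
  obtain ⟨m, hm⟩ := card_dvd_of_le h.le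
  have h1 : m ∣ 3 ^ k := (Dvd.intro_left _ hm.symm).trans (hJ ▸ card_dvd_of_le hB)
  obtain ⟨i, -, rfl⟩ := (Nat.dvd_prime_pow Nat.prime_three).mp h1
  rcases i with _ | i
  · exact absurd (eq_of_le_of_card_ge h.le (by simp [hm])) h.ne
  · rw [hm, pow_succ, mul_comm 3]
    exact Nat.mul_le_mul_left _ (Nat.le_mul_of_pos_left _ (by positivity))

/-- Let G be a group of order 162 = 3⁴·2 with Sylow 3-subgroup S and Sylow 2-subgroup T, having an elementary abelian normal subgroup J of order 27, such that Z = Z(S) has order 3, Z centralizes T, and C_S(T) ≠ S. Then G is isomorphic to the centralizer in Sym(9) of a product of three disjoint 3-cycles. -/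
theorem result {G : Type*} [Group G] [Finite G] (hG : Nat.card G = 162)
    (S : Sylow 3 G) (T : Sylow 2 G) (J : Subgroup G) [hJn : J.Normal] (hJcomm : IsMulCommutative J)
    (hJexp : ∀ a ∈ J, a ^ 3 = 1) (hJcard : Nat.card J = 27)
    (Z : Subgroup G) (hZ : Z = (S : Subgroup G) ⊓ Subgroup.centralizer ((S : Subgroup G) : Set G)) (hZcard : Nat.card Z = 3)
    (hZT : Z ≤ Subgroup.centralizer ((T : Subgroup G) : Set G))
    (hST : (S : Subgroup G) ⊓ Subgroup.centralizer ((T : Subgroup G) : Set G) ≠ S) :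
    Nonempty (G ≃* Subgroup.centralizer ({Equiv.swap (0 : Fin 9) 1 * Equiv.swap 1 2 * Equiv.swap 3 4 * Equiv.swap 4 5 * Equiv.swap 6 7 * Equiv.swap 7 8} : Set (Equiv.Perm (Fin 9)))) := by
  haveI : Fact (Nat.Prime 3) := ⟨Nat.prime_three⟩
  have hf : ∀ p, (162 : ℕ).factorization p = (Finsupp.single 3 4 + Finsupp.single 2 1 : ℕ →₀ ℕ) p := by
    intro p
    rw [show 162 = 3 ^ 4 * 2 by norm_num, Nat.factorization_mul (by norm_num) (by norm_num),
      Nat.Prime.factorization_pow Nat.prime_three, Nat.Prime.factorization Nat.prime_two]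
  have hS : Nat.card S = 3 ^ 4 := by rw [S.card_eq_multiplicity, hG, hf]; simp
  have hT : Nat.card T = 2 := by rw [T.card_eq_multiplicity, hG, hf]; simp
  have hSi : (S : Subgroup G).index = 2 := by
    have := (S : Subgroup G).card_mul_index
    rw [hS, hG] at this
    omega
  haveI hSn := normal_of_index_eq_two hSi
  have hJS : J ≤ S := by
    obtain ⟨R, hR⟩ := (IsPGroup.of_card (p := 3) (n := 3) hJcard).exists_le_sylow
    haveI := Sylow.unique_of_normal S hSn
    rwa [Subsingleton.elim R S] at hR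
  obtain ⟨⟨t, htT⟩, ht1, ht⟩ := (Nat.card_eq_two_iff' (1 : (T : Subgroup G))).mp hT
  have ht1 : t ≠ 1 := fun h => ht1 (Subtype.ext h)
  have hT' : ∀ x ∈ (T : Subgroup G), x = 1 ∨ x = t := fun x hx => by
    by_cases h : x = 1
    · exact Or.inl h
    · exact Or.inr (congrArg Subtype.val (ht ⟨x, hx⟩ fun h' => h (congrArg Subtype.val h')))
  have htt : t * t = 1 := (hT' _ (mul_mem htT htT)).resolve_right (by simpa using ht1)
  have hti : t⁻¹ = t := inv_eq_of_mul_eq_one_right htt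
  have hodd : ∀ x ∈ (S : Subgroup G), x * x = 1 → x = 1 := fun x hx h => by
    have h1 : orderOf x ∣ 3 ^ 4 := hS ▸ orderOf_dvd_natCard _ hx
    have h2 : orderOf x ∣ 2 := orderOf_dvd_of_pow_eq_one (by rw [pow_two, h])
    exact orderOf_eq_one_iff.mp (Nat.eq_one_of_dvd_coprimes (by norm_num) h1 h2)
  have htS : t ∉ (S : Subgroup G) := fun h => ht1 (hodd t h htt)
  have hc : ∀ a ∈ J, ∀ b ∈ J, a * b = b * a := fun a ha b hb =>
    congrArg Subtype.val (mul_comm (⟨a, ha⟩ : J) ⟨b, hb⟩)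
  have hgen : ∀ s ∈ (S : Subgroup G), s ∉ J → ∀ K : Subgroup G, J ≤ K → s ∈ K →
      (S : Subgroup G) ≤ K := fun s hs hsJ K h1 h2 => by
    have h3 := three_mul_le (A := J) (B := K ⊓ S) (lt_of_le_of_ne (le_inf h1 hJS)
      (fun h => hsJ (h ▸ ⟨h2, hs⟩))) inf_le_right hS
    exact inf_eq_right.mp (eq_of_le_of_card_ge inf_le_right (by omega))
  have hZm : ∀ s ∈ (S : Subgroup G), s ∉ J → ∀ x ∈ (S : Subgroup G), x ∈ J → s * x = x * s → x ∈ Z :=
    fun s hs hsJ x hx hxJ h => hZ ▸ ⟨hx, fun y hy => (mem_centralizer_singleton_iff.mp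
      (hgen s hs hsJ (centralizer {x}) (fun j hj => mem_centralizer_singleton_iff.mpr (hc j hj x hxJ))
        (mem_centralizer_singleton_iff.mpr h) hy))⟩
  have hZt : ∀ x ∈ Z, t * x * t⁻¹ = x := fun x hx => by
    rw [mem_centralizer_iff.mp (hZT hx) t htT, mul_inv_cancel_right]
  have hZN : ∀ N : Subgroup G, N ≤ S → (∀ s ∈ (S : Subgroup G), ∀ n ∈ N, s * n * s⁻¹ ∈ N) → N ≠ ⊥ →
      Z ≤ N := by
    intro N hN hn h0
    haveI : (N.subgroupOf S).Normal := ⟨fun n h g => hn g g.2 n h⟩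
    obtain ⟨z, hz, hzc, hzo⟩ := CL.PN.exists_mem_center_orderOf_eq S.isPGroup' (N.subgroupOf S)
      (fun h => h0 ((subgroupOf_eq_bot.mp h).eq_bot_of_le hN))
    have h1 : zpowers (z : G) ≤ Z := zpowers_le.mpr (hZ ▸ ⟨z.2, fun y hy =>
      congrArg Subtype.val (mem_center_iff.mp hzc ⟨y, hy⟩)⟩)
    rw [← eq_of_le_of_card_ge h1 (by rw [hZcard, Nat.card_zpowers, Subgroup.orderOf_coe, hzo])]
    exact zpowers_le.mpr hz
  have hinv : ∀ x : G, t * (x⁻¹ * (t * x * t⁻¹)) * t⁻¹ = (x⁻¹ * (t * x * t⁻¹))⁻¹ := fun x => by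
    calc t * (x⁻¹ * (t * x * t⁻¹)) * t⁻¹ = t * x⁻¹ * t * x * (t * t)⁻¹ := by group
      _ = _ := by rw [htt, hti]; simp [mul_assoc, hti]
  obtain ⟨s, hs, hsJ, hts⟩ : ∃ s ∈ (S : Subgroup G), s ∉ J ∧ t * s * t⁻¹ = s⁻¹ := by
    by_contra h
    push Not at h
    have h1 : ∀ x ∈ (S : Subgroup G), x⁻¹ * (t * x * t⁻¹) ∈ J := fun x hx => by
      by_contra h2
      exact h _ (mul_mem (inv_mem hx) (hSn.conj_mem x hx t)) h2 (hinv x)
    obtain ⟨s, hs, hsJ⟩ := SetLike.exists_of_lt (lt_of_le_of_ne hJS (fun h => by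
      rw [h, hS] at hJcard; omega))
    obtain ⟨c, hc'⟩ : ∃ c, c = s⁻¹ * (t * s * t⁻¹) := ⟨_, rfl⟩
    have hcJ : c ∈ J := hc' ▸ h1 s hs
    have h2 : t * (s * c ^ 2) * t⁻¹ = s * c ^ 2 := by
      have h3 : t * c * t⁻¹ = c⁻¹ := hc' ▸ hinv s
      have h4 : c ^ 2 = c⁻¹ := eq_inv_of_mul_eq_one_left (by rw [← pow_succ, hJexp c hcJ])
      calc t * (s * c ^ 2) * t⁻¹ = s * (s⁻¹ * (t * s * t⁻¹)) * (t * c * t⁻¹) ^ 2 := by
            rw [conj_pow]; group
        _ = _ := by rw [← hc', h3, h4]; simp [pow_two, mul_assoc]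
    have hs0 : s * c ^ 2 ∈ (S : Subgroup G) := mul_mem hs (hJS (pow_mem hcJ 2))
    have hs0J : s * c ^ 2 ∉ J := fun h => hsJ ((mul_mem_cancel_right (pow_mem hcJ 2)).mp h)
    generalize s * c ^ 2 = s0 at h2 hs0 hs0J
    let N : Subgroup G :=
      { carrier := {j | j ∈ J ∧ t * j * t⁻¹ = j⁻¹}
        one_mem' := ⟨one_mem _, by simp⟩
        mul_mem' := fun {a b} ha hb => ⟨mul_mem ha.1 hb.1, by
          rw [hc a ha.1 b hb.1, mul_inv_rev, ← ha.2, ← hb.2, conj_mul, hc a ha.1 b hb.1]⟩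
        inv_mem' := fun {a} ha => ⟨inv_mem ha.1, by rw [← conj_inv, ha.2]⟩ }
    have hN : N = ⊥ := by
      by_contra h0
      have h3 : (S : Subgroup G) ≤ normalizer (N : Set G) := hgen s0 hs0 hs0J _
        (fun j hj => mem_normalizer_fintype fun n hn => by
          rwa [hc j hj n hn.1, mul_inv_cancel_right])
        (mem_normalizer_fintype fun n hn => ⟨hJn.conj_mem n hn.1 s0, by
          calc t * (s0 * n * s0⁻¹) * t⁻¹ = (t * s0 * t⁻¹) * (t * n * t⁻¹) * (t * s0 * t⁻¹)⁻¹ := by group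
            _ = _ := by rw [h2, hn.2]; group⟩)
      have h4 := hZN N (fun j hj => hJS hj.1) (fun x hx n hn => (mem_normalizer_iff.mp (h3 hx) n).mp hn) h0
      have h5 : Z = ⊥ := eq_bot_iff.mpr fun z hz => hodd z (hJS (h4 hz).1)
        (by nth_rewrite 1 [← hZt z hz, (h4 hz).2]; simp)
      rw [h5, card_bot] at hZcard
      omega
    refine hST (inf_eq_left.mpr (hgen s0 hs0 hs0J _ (fun j hj y hy => ?_) (fun y hy => ?_)))
    · rcases hT' y hy with rfl | rfl
      · simp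
      · have : j⁻¹ * (y * j * y⁻¹) ∈ N := ⟨h1 j (hJS hj), hinv j⟩
        rw [hN, mem_bot, inv_mul_eq_one, eq_mul_inv_iff_mul_eq] at this
        exact this.symm
    · rcases hT' y hy with rfl | rfl
      · simp
      · exact mul_inv_eq_iff_eq_mul.mp h2
  have hs3 : s ^ 3 = 1 := by
    have h1 : s ^ 3 ∈ J := by
      have h2 : J.relIndex S = 3 := by
        have := (J.subgroupOf S).card_mul_index
        rw [Nat.card_congr (subgroupOfEquivOfLe hJS).toEquiv, hJcard, hS] at this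
        unfold relIndex; omega
      exact h2 ▸ pow_relIndex_mem J hs
    have h2 := hZt _ (hZm s hs hsJ _ (hJS h1) h1 (Commute.self_pow s 3))
    rw [← conj_pow, hts, inv_pow] at h2
    exact hodd _ (hJS h1) (by nth_rewrite 1 [← h2]; simp)
  let φ : J →* J := (MulAut.conjNormal s : MulAut J)
  have hφ : ∀ j : J, (φ j : G) = s * j * s⁻¹ := fun _ => rfl
  have hφ3 : ∀ j, φ (φ (φ j)) = j := fun j => Subtype.ext (by
    rw [hφ, hφ, hφ]
    calc s * (s * (s * j * s⁻¹) * s⁻¹) * s⁻¹ = s ^ 3 * j * (s ^ 3)⁻¹ := by rw [pow_three]; group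
      _ = j := by rw [hs3]; simp)
  have h3 : ∀ j : J, j ^ 3 = 1 := fun j => Subtype.ext (hJexp j j.2)
  let D : J →* J := φ / MonoidHom.id J
  have hD : ∀ j, D j = φ j / j := fun _ => rfl
  have hDD : ∀ j, D (D j) = j * φ j * φ (φ j) := fun j => by
    rw [hD, hD, map_div, ← div_one (j * φ j * φ (φ j)), ← h3 (φ j), div_div_div_eq,
      div_eq_div_iff_mul_eq_mul, pow_succ, pow_two]
    simp only [mul_assoc, mul_comm, mul_left_comm]
  have hD3 : ∀ j, D (D (D j)) = 1 := fun j => by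
    rw [hD, hDD, map_mul, map_mul, hφ3, div_eq_one]
    simp only [mul_assoc, mul_comm, mul_left_comm]
  have hker : ∀ j : J, D j = 1 → (j : G) ∈ Z := fun j hj => hZm s hs hsJ j (hJS j.2) j.2 (by
    rw [hD, div_eq_one] at hj
    exact mul_inv_eq_iff_eq_mul.mp (congrArg Subtype.val hj))
  have hkc : Nat.card D.ker ≤ 3 := hZcard ▸ Nat.card_le_card_of_injective
    (fun j : D.ker => (⟨j.1.1, hker _ j.2⟩ : Z)) fun a b h =>
      Subtype.ext (Subtype.ext (congrArg (fun x : Z => (x : G)) h))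
  obtain ⟨u, hu⟩ : ∃ u, D (D u) ≠ 1 := by
    by_contra h
    push Not at h
    have h1 := card_le_of_le (show D.range ≤ D.ker by rintro _ ⟨j, rfl⟩; exact h j)
    have h2 := D.ker.card_mul_index
    rw [index_ker, hJcard] at h2
    nlinarith
  let τ : J →* J := (MulAut.conjNormal t : MulAut J)
  have hτ : ∀ j : J, (τ j : G) = t * j * t⁻¹ := fun _ => rfl
  have hτφ : ∀ j, φ (τ (φ j)) = τ j := fun j => Subtype.ext (by
    rw [hφ, hτ, hφ, hτ]
    calc s * (t * (s * j * s⁻¹) * t⁻¹) * s⁻¹ = s * (t * s * t⁻¹) * (t * j * t⁻¹) * (s * (t * s * t⁻¹))⁻¹ := by group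
      _ = _ := by rw [hts]; simp)
  have hττ : ∀ j, τ (τ j) = j := fun j => Subtype.ext (by
    rw [hτ, hτ]
    calc t * (t * j * t⁻¹) * t⁻¹ = (t * t) * j * (t * t)⁻¹ := by group
      _ = j := by rw [htt]; simp)
  have hτN : D (D (τ u)) = D (D u) := by
    have h1 : τ (D (D u)) = D (D u) := Subtype.ext (hZt _ (hker _ (hD3 u)))
    have e1 : τ (φ u) = φ (φ (τ u)) := by rw [← hτφ u, hφ3]
    have e2 : τ (φ (φ u)) = φ (τ u) := by rw [← hτφ u, ← hτφ (φ u), hφ3]
    rw [← h1, hDD, hDD, map_mul, map_mul, e1, e2, mul_right_comm]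
  obtain ⟨v, hv, hvt⟩ : ∃ v : J, D (D v) ≠ 1 ∧ τ v = v := ⟨u * τ u, fun h => hu (by
    rw [map_mul, map_mul, hτN] at h
    exact Subtype.ext (hodd _ (hJS (D (D u)).2) (congrArg Subtype.val h))),
      by rw [map_mul, hττ, mul_comm]⟩
  have hK : closure {g | g ∈ [((v : G), px), (s, py), (t, pw)].map Prod.fst} = ⊤ := by
    set K := closure {g | g ∈ [((v : G), px), (s, py), (t, pw)].map Prod.fst}
    have hvK : (v : G) ∈ K := subset_closure (by simp)
    have hsK : s ∈ K := subset_closure (by simp)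
    have htK : t ∈ K := subset_closure (by simp)
    let W := K.subgroupOf J
    have hW : W.map D ≤ W := by
      rintro _ ⟨j, hj, rfl⟩
      exact div_mem (mul_mem (mul_mem hsK hj) (inv_mem hsK)) hj
    have h27 : Nat.card (⊤ : Subgroup J) = 3 ^ 3 := by rw [card_top, hJcard]; rfl
    have a0 : (⊥ : Subgroup J) < (W.map D).map D :=
      bot_lt_iff_ne_bot.mpr (ne_bot_iff_exists_ne_one.mpr ⟨⟨_, _, ⟨v, hvK, rfl⟩, rfl⟩,
        fun h => hv (congrArg Subtype.val h)⟩)
    have a1 : (W.map D).map D < W.map D := lt_of_le_of_ne (map_mono hW) fun h => by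
      obtain ⟨_, ⟨y, -, rfl⟩, hy⟩ : D v ∈ (W.map D).map D := by
        rw [h]; exact ⟨v, hvK, rfl⟩
      exact hv (by rw [← hy, hD3])
    have a2 : W.map D < W := lt_of_le_of_ne hW fun h => by
      obtain ⟨y, -, hy⟩ : v ∈ W.map D := h.symm ▸ hvK
      exact hv (by rw [← hy, hD3])
    have b0 := three_mul_le a0 le_top h27
    have b1 := three_mul_le a1 le_top h27
    have b2 := three_mul_le a2 le_top h27
    rw [card_bot] at b0
    have h1 : W = ⊤ := eq_top_of_le_card W (by omega)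
    have h2 := hgen s hs hsJ K (subgroupOf_eq_top.mp h1) hsK
    rw [eq_top_iff]
    intro g _
    by_cases hg : g ∈ (S : Subgroup G)
    · exact h2 hg
    · exact (mul_mem_cancel_right htK).mp (h2 ((mul_mem_iff_of_index_two hSi).mpr
        (iff_of_false hg htS)))
  obtain ⟨f, hf⟩ := CL.TC.exists_hom [((v : G), px), (s, py), (t, pw)] (rels := wrRels) (by
    have e1 : (v : G) * (v * v) = 1 := by rw [← hJexp v v.2, pow_three]
    have e2 : s * (s * s) = 1 := by rw [← hs3, pow_three]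
    have e3 : t * (s * (t * s)) = 1 := by
      rw [hti] at hts; rw [← mul_assoc, ← mul_assoc, hts, inv_mul_cancel]
    have e4 : t * (v * (t * (v : G)⁻¹)) = 1 := by
      have := congrArg Subtype.val hvt
      rw [hτ, hti] at this
      rw [← mul_assoc, ← mul_assoc, this, mul_inv_cancel]
    have e5 : (v : G) * (s * (v * (s⁻¹ * ((v : G)⁻¹ * (s * ((v : G)⁻¹ * s⁻¹)))))) = 1 := by
      have := hc v v.2 _ (φ v).2
      rw [hφ] at this
      calc _ = (v * (s * v * s⁻¹)) * ((s * v * s⁻¹) * v)⁻¹ := by group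
        _ = 1 := by rw [this, mul_inv_cancel]
    simp [wrRels, CL.TC.wp, CL.TC.ev, e1, e2, e3, e4, e5, htt]) rel9 hK hG.ge wrCheck
  have f1 : f v = px := hf ((v : G), px) (by simp)
  have f2 : f s = py := hf (s, py) (by simp)
  have hinj : Function.Injective f := by
    rw [← MonoidHom.ker_eq_bot_iff]
    have h1 : f.ker ⊓ S = ⊥ := by
      by_contra h0
      have h1 := hZN _ inf_le_right (fun x hx n hn => ⟨(MonoidHom.normal_ker f).conj_mem n hn.1 x,
        hSn.conj_mem n hn.2 x⟩) h0 (hker _ (hD3 v))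
      have h2 := MonoidHom.mem_ker.mp h1.1
      rw [hDD, coe_mul, coe_mul] at h2
      simp only [hφ, map_mul, map_inv, f1, f2] at h2
      exact ne9 h2
    rw [eq_bot_iff]
    intro g hg
    by_contra hg1
    have hgS : g ∉ (S : Subgroup G) := fun h => hg1 (h1 ▸ ⟨hg, h⟩)
    have h2 : t * g ∈ (S : Subgroup G) := (mul_mem_iff_of_index_two hSi).mpr (iff_of_false htS hgS)
    have h4 : f t = f (t * g) := by rw [map_mul, MonoidHom.mem_ker.mp hg, mul_one]
    have h5 : orderOf (f (t * g)) ∣ 3 ^ 4 :=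
      (orderOf_map_dvd f _).trans (hS ▸ orderOf_dvd_natCard _ h2)
    have h6 : orderOf (f t) ∣ 2 := orderOf_dvd_of_pow_eq_one (by rw [← map_pow, pow_two, htt, map_one])
    have h7 : f t = 1 := orderOf_eq_one_iff.mp (Nat.eq_one_of_dvd_coprimes (by norm_num) (h4 ▸ h5) h6)
    have h8 : s * s ∈ f.ker ⊓ S := ⟨by
      have := congrArg f hts
      rw [map_mul, map_mul, h7, map_inv, h7, map_inv] at this
      refine MonoidHom.mem_ker.mpr ?_
      rw [map_mul]
      nth_rewrite 1 [show f s = (f s)⁻¹ by simpa using this]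
      simp, mul_mem hs hs⟩
    rw [h1, mem_bot] at h8
    exact hsJ (hodd s hs h8 ▸ one_mem _)
  exact ⟨MulEquiv.ofBijective f (hinj.bijective_of_nat_card_le (by rw [card_c9, hG]))⟩

end Cfsg.Agent.S3376
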