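import Cfsg.Statements.S3389
import Mathlib

set_option autoImplicit false
open Cfsg

namespace Cfsg.Agent.S3389

open MulAction in
theorem half_le {A Ω : Type*} [Group A] [Fintype A] [Fintype Ω] [DecidableEq Ω] [DecidableEq A]
    [MulAction A Ω] (β : Ω) (h : stabilizer A β ≠ ⊥) [DecidablePred (· ∈ orbit A β)] :
    Fintype.card A ≤ 2 * (Finset.univ.filter (fun x : Ω × A =>
      x.1 ∈ orbit A β ∧ x.2 ≠ 1 ∧ x.2 • x.1 = x.1)).card := by
  classical
  have h1 : (Finset.univ.filter (fun x : Ω × A => x.1 ∈ orbit A β ∧ x.2 ≠ 1 ∧ x.2 • x.1 = x.1)).card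
      = ∑ γ ∈ Finset.univ.filter (· ∈ orbit A β),
        (Finset.univ.filter (fun a : A => a ≠ 1 ∧ a • γ = γ)).card := by
    rw [Finset.card_eq_sum_card_fiberwise (f := Prod.fst) (t := Finset.univ.filter (· ∈ orbit A β))]
    · refine Finset.sum_congr rfl fun γ hγ => ?_
      simp only [Finset.mem_filter, Finset.mem_univ, true_and] at hγ
      apply Finset.card_bij (fun x _ => x.2)
      · rintro ⟨a, b⟩ hx
        simp only [Finset.mem_filter, Finset.mem_univ, true_and] at hx ⊢
        obtain ⟨⟨_, h2, h3⟩, rfl⟩ := hx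
        exact ⟨h2, h3⟩
      · rintro ⟨a, b⟩ hx ⟨c, d⟩ hy hbd
        simp only [Finset.mem_filter, Finset.mem_univ, true_and] at hx hy hbd
        rw [hx.2, hy.2, hbd]
      · intro b hb
        simp only [Finset.mem_filter, Finset.mem_univ, true_and] at hb
        exact ⟨(γ, b), by simp [hγ, hb.1, hb.2], rfl⟩
    · rintro ⟨a, b⟩ hx
      simp only [Finset.coe_filter, Finset.mem_univ, true_and, Set.mem_ofPred_eq] at hx ⊢
      exact hx.1
  have h2 : ∀ γ ∈ Finset.univ.filter (· ∈ orbit A β),
      Nat.card (stabilizer A β) ≤ 2 * (Finset.univ.filter (fun a : A => a ≠ 1 ∧ a • γ = γ)).card := by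
    intro γ hγ
    simp only [Finset.mem_filter, Finset.mem_univ, true_and] at hγ
    have h3 : Nat.card (stabilizer A γ) = Nat.card (stabilizer A β) :=
      Nat.card_congr (stabilizerEquivStabilizerOfOrbitRel hγ).toEquiv
    have h4 : Nat.card (stabilizer A γ) =
        (Finset.univ.filter (fun a : A => a ≠ 1 ∧ a • γ = γ)).card + 1 := by
      rw [← Finset.card_insert_of_notMem (a := (1 : A)) (by simp), ← Nat.card_eq_finsetCard]
      apply Nat.card_congr
      apply Equiv.subtypeEquivRight
      intro a
      by_cases ha : a = 1 <;> simp [ha]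
    have h5 : 1 < Nat.card (stabilizer A β) := by
      have := (Subgroup.nontrivial_iff_ne_bot _).2 h
      exact Finite.one_lt_card
    omega
  have h6 := Finset.sum_le_sum h2
  rw [← Finset.mul_sum, ← h1, Finset.sum_const, smul_eq_mul] at h6
  refine le_trans (le_of_eq ?_) h6
  rw [← Nat.card_eq_fintype_card, ← (stabilizer A β).index_mul_card, index_stabilizer]
  congr 1
  rw [← Set.ncard_coe_finset]
  congr 1
  ext; simp

/-- Let G be a finite group acting faithfully and transitively on a finite set Ω with fixity k ≥ 1: every non-identity element fixes at most k points and some non-identity element fixes exactly k points. Then |Z(G)| divides k; if k = 2 then |G| is even; and for every prime p > k dividing |G| and every point α, either p does not divide |G_α| or G_α contains a Sylow p-subgroup of G. -/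
theorem result {G : Type*} [Group G] [Finite G] {Ω : Type*} [Fintype Ω] [MulAction G Ω] [FaithfulSMul G Ω]
    (htr : MulAction.IsPretransitive G Ω) (k : ℕ) (hk : 1 ≤ k)
    (hfix : ∀ g : G, g ≠ 1 → Nat.card (MulAction.fixedBy Ω g) ≤ k) (hex : ∃ g : G, g ≠ 1 ∧ Nat.card (MulAction.fixedBy Ω g) = k) :
    Nat.card (Subgroup.center G) ∣ k ∧ (k = 2 → 2 ∣ Nat.card G) ∧
      ∀ (p : ℕ), p.Prime → k < p → p ∣ Nat.card G → ∀ α : Ω,
        ¬ p ∣ Nat.card (MulAction.stabilizer G α) ∨ ¬ p ∣ (MulAction.stabilizer G α).index := by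
  classical
  obtain ⟨g, hg1, hgk⟩ := hex
  refine ⟨?_, ?_, ?_⟩
  · let S : SubMulAction (Subgroup.center G) Ω :=
      { carrier := MulAction.fixedBy Ω g
        smul_mem' := by
          intro z x hx
          rw [MulAction.mem_fixedBy] at hx ⊢
          change g • ((z : G) • x) = (z : G) • x
          rw [smul_smul, Subgroup.mem_center_iff.1 z.2 g, mul_smul, hx] }
    have hfree : ∀ b : S, MulAction.stabilizer (Subgroup.center G) b = ⊥ := by
      intro b
      rw [eq_bot_iff]
      intro z hz
      have hz' : (z : G) • (b : Ω) = b := congrArg Subtype.val hz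
      rw [Subgroup.mem_bot]
      apply Subtype.ext
      apply FaithfulSMul.eq_of_smul_eq_smul (α := Ω)
      intro ω
      obtain ⟨x, rfl⟩ := htr.exists_smul_eq (b : Ω) ω
      rw [smul_smul, ← Subgroup.mem_center_iff.1 z.2 x, mul_smul, hz']
      simp
    have := Nat.card_congr (MulAction.selfEquivOrbitsQuotientProd hfree)
    rw [Nat.card_prod] at this
    rw [← hgk]
    exact ⟨_, by rw [mul_comm]; exact this⟩
  · rintro rfl
    by_contra hodd
    obtain ⟨α, β, hαβ, hs⟩ := Set.ncard_eq_two.1 (show (MulAction.fixedBy Ω g).ncard = 2 from hgk)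
    have hα : g • α = α := by
      have : α ∈ MulAction.fixedBy Ω g := by rw [hs]; simp
      exact this
    have hβ : g • β = β := by
      have : β ∈ MulAction.fixedBy Ω g := by rw [hs]; simp
      exact this
    obtain ⟨x, hx⟩ := htr.exists_smul_eq β α
    set β' := x • α with hβ'
    let A := MulAction.stabilizer G α
    have hne : ∀ a : A, a • β ≠ β' := by
      intro a ha
      have ha' : (a : G) • β = β' := ha
      have haα : (a : G)⁻¹ • α = α := A.inv_mem a.2
      set y := (a : G)⁻¹ * x
      have h1 : y • β = α := by rw [mul_smul, hx, haα]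
      have h2 : y • α = β := by rw [mul_smul, ← hβ', ← ha', inv_smul_smul]
      have h3 : ∀ n : ℕ, y ^ (2 * n) • α = α := by
        intro n
        induction n with
        | zero => simp
        | succ n ih => rw [mul_add, pow_add, mul_smul, mul_one, pow_two, mul_smul, h2, h1, ih]
      have h4 : Odd (Nat.card G) := by
        rw [← Nat.not_even_iff_odd, even_iff_two_dvd]; exact hodd
      obtain ⟨n, hn⟩ := h4
      have h5 : y ^ (2 * n + 1) = 1 := by rw [← hn]; exact pow_card_eq_one'
      have h6 : y ^ (2 * n + 1) • α = β := by rw [pow_succ', mul_smul, h3, h2]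
      rw [h5, one_smul] at h6
      exact hαβ h6
    have : Fintype A := Fintype.ofFinite A
    have hs1 : MulAction.stabilizer A β ≠ ⊥ := by
      intro h
      have : (⟨g, hα⟩ : A) ∈ MulAction.stabilizer A β := hβ
      rw [h, Subgroup.mem_bot] at this
      exact hg1 (congrArg Subtype.val this)
    have hs2 : MulAction.stabilizer A β' ≠ ⊥ := by
      intro h
      have h1 : x * g * x⁻¹ ∈ A := by
        change (x * g * x⁻¹) • α = α
        rw [← hx, smul_smul, inv_mul_cancel_right, mul_smul, hβ]
      have : (⟨_, h1⟩ : A) ∈ MulAction.stabilizer A β' := by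
        change (x * g * x⁻¹) • β' = β'
        rw [hβ', smul_smul, inv_mul_cancel_right, mul_smul, hα]
      rw [h, Subgroup.mem_bot] at this
      have h2 : x * g * x⁻¹ = 1 := congrArg Subtype.val this
      apply hg1
      simpa using h2
    have c1 := half_le β hs1
    have c2 := half_le β' hs2
    have hβ'α : β' ≠ α := by
      intro h
      rw [hβ'] at h
      exact hαβ (MulAction.injective x (h.trans hx.symm))
    have horb : ∀ γ δ : Ω, γ ≠ α → δ ∈ MulAction.orbit A γ → δ ≠ α := by
      rintro γ _ hγ ⟨a, rfl⟩ h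
      apply hγ
      have h' : (a : G) • γ = α := h
      have haα : (a : G) • α = α := a.2
      exact MulAction.injective (a : G) (h'.trans haα.symm)
    set T1 := Finset.univ.filter (fun x : Ω × A =>
      x.1 ∈ MulAction.orbit A β ∧ x.2 ≠ 1 ∧ x.2 • x.1 = x.1)
    set T2 := Finset.univ.filter (fun x : Ω × A =>
      x.1 ∈ MulAction.orbit A β' ∧ x.2 ≠ 1 ∧ x.2 • x.1 = x.1)
    have hdisj : Disjoint T1 T2 := by
      rw [Finset.disjoint_left]
      rintro ⟨γ, a⟩ h1 h2
      simp only [T1, T2, Finset.mem_filter, Finset.mem_univ, true_and] at h1 h2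
      obtain ⟨b, hb⟩ := h1.1
      obtain ⟨c, hc⟩ := h2.1
      apply hne (c⁻¹ * b)
      simp only at hb hc
      rw [mul_smul, hb, ← hc, inv_smul_smul]
    have hle : (T1 ∪ T2).card ≤ (Finset.univ.erase (1 : A)).card := by
      have hmem : ∀ x ∈ T1 ∪ T2, x.1 ≠ α ∧ x.2 ≠ 1 ∧ x.2 • x.1 = x.1 := by
        rintro ⟨γ, a⟩ h
        simp only [T1, T2, Finset.mem_union, Finset.mem_filter, Finset.mem_univ, true_and] at h
        rcases h with h | h
        · exact ⟨horb β γ hαβ.symm h.1, h.2⟩
        · exact ⟨horb β' γ hβ'α h.1, h.2⟩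
      apply Finset.card_le_card_of_injOn Prod.snd
      · intro x hx
        simp [(hmem x hx).2.1]
      · rintro ⟨γ, a⟩ h1 ⟨δ, b⟩ h2 hab
        simp only at hab
        subst hab
        obtain ⟨h3, h4, h5⟩ := hmem _ h1
        obtain ⟨h6, -, h7⟩ := hmem _ h2
        by_contra hγδ
        have hγδ' : γ ≠ δ := fun h => hγδ (by rw [h])
        have h8 := hfix a (fun h => h4 (Subtype.ext h))
        have h9 : ({α, γ, δ} : Set Ω) ⊆ MulAction.fixedBy Ω (a : G) := by
          rintro z (rfl | rfl | rfl)
          · exact a.2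
          · exact h5
          · exact h7
        have h10 := Set.ncard_le_ncard h9
        have h11 : ({α, γ, δ} : Set Ω).ncard = 3 :=
          Set.ncard_eq_three.2 ⟨α, γ, δ, h3.symm, h6.symm, hγδ', rfl⟩
        have h12 : (MulAction.fixedBy Ω (a : G)).ncard ≤ 2 := h8
        omega
    rw [Finset.card_union_of_disjoint hdisj, Finset.card_erase_of_mem (Finset.mem_univ _),
      Finset.card_univ] at hle
    have : 0 < Fintype.card A := Fintype.card_pos
    omega
  · intro p hp hkp _ α
    by_contra hcon
    push Not at hcon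
    obtain ⟨h1, h2⟩ := hcon
    have := Fact.mk hp
    obtain ⟨x, hx⟩ := exists_prime_orderOf_dvd_card' p h1
    have hx' : orderOf (x : G) = p := by rw [Subgroup.orderOf_coe, hx]
    have hP : IsPGroup p (Subgroup.zpowers (x : G)) :=
      IsPGroup.of_card (n := 1) (by rw [Nat.card_zpowers, hx', pow_one])
    have hmod := hP.card_modEq_card_fixedPoints Ω
    have hfp : MulAction.fixedPoints (Subgroup.zpowers (x : G)) Ω = MulAction.fixedBy Ω (x : G) := by
      ext ω
      constructor
      · intro h
        exact h ⟨x, Subgroup.mem_zpowers _⟩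
      · rintro h ⟨y, hy⟩
        exact (Subgroup.zpowers_le.2 (show (x : G) ∈ MulAction.stabilizer G ω from h)) hy
    rw [hfp, ← MulAction.index_stabilizer_of_transitive G α] at hmod
    have h3 : p ∣ Nat.card (MulAction.fixedBy Ω (x : G)) := (hmod.dvd_iff dvd_rfl).1 h2
    have h4 := hfix x (by intro h; rw [h, orderOf_one] at hx'; exact hp.one_lt.ne hx')
    have : Nonempty (MulAction.fixedBy Ω (x : G)) := ⟨⟨α, x.2⟩⟩
    have h5 : 0 < Nat.card (MulAction.fixedBy Ω (x : G)) := Nat.card_pos
    have := Nat.le_of_dvd h5 h3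
    omega

end Cfsg.Agent.S3389
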