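import Cfsg.Statements.S3391
import Mathlib
import Cfsg.Agent.CHEV.SzSub
import Cfsg.Agent.S2410

set_option autoImplicit false
open Cfsg

namespace Cfsg.Agent.S3391

theorem sq_fix {G Ω : Type*} [Group G] [Finite Ω] [MulAction G Ω] {t b : G} {α : Ω}
    (ht : Nat.card (MulAction.fixedBy Ω t) ≤ 2) (h0 : t • α = α) (h1 : t • b • α = b • α)
    (h2 : t • b • b • α = b • b • α) : (b * b) • α = α := by
  classical
  by_contra hne
  rw [mul_smul] at hne
  have hne1 : b • α ≠ α := fun h => hne (by rw [h, h])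
  have h3 : ({α, b • α, b • b • α} : Set Ω) ⊆ MulAction.fixedBy Ω t := by
    rintro x (rfl | rfl | rfl) <;> assumption
  have h4 := Set.ncard_le_ncard h3
  rw [Set.ncard_insert_of_notMem (by simp [hne1.symm, Ne.symm hne]),
    Set.ncard_pair (fun h => hne1 (smul_left_cancel b h).symm)] at h4
  rw [Nat.card_coe_set_eq] at ht
  omega

theorem card_mul_fix {G Ω : Type*} [Group G] [MulAction G Ω] (htr : MulAction.IsPretransitive G Ω)
    {g : G} {α : Ω} {N : Subgroup G} (hN : ∀ k, k⁻¹ * g * k ∈ MulAction.stabilizer G α ↔ k ∈ N)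
    (hS : MulAction.stabilizer G α ≤ N) :
    Nat.card (MulAction.stabilizer G α) * Nat.card (MulAction.fixedBy Ω g) = Nat.card N := by
  rw [← CL.Sz.card_mul_relIndex_of_le hS]
  congr 1
  have h1 : (MulAction.stabilizer G α).subgroupOf N = MulAction.stabilizer N α := rfl
  rw [Subgroup.relIndex, h1, MulAction.index_stabilizer, Nat.card_coe_set_eq]
  congr 1
  ext β
  obtain ⟨k, rfl⟩ := htr.exists_smul_eq α β
  rw [MulAction.mem_fixedBy]
  constructor
  · intro h
    exact ⟨⟨k, (hN k).mp (by rw [MulAction.mem_stabilizer_iff, mul_smul, mul_smul, h, inv_smul_smul])⟩,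
      rfl⟩
  · rintro ⟨⟨n, hn⟩, h⟩
    have h2 := (hN n).mpr hn
    rw [MulAction.mem_stabilizer_iff, mul_smul, mul_smul, inv_smul_eq_iff] at h2
    rw [← h]; exact h2

/-- Let q = 2^{2m+1} ≥ 8 and let G be isomorphic to the Suzuki group Sz(q). If G acts faithfully and transitively on a finite set Ω with fixity 2 (every non-identity element fixes at most two points, and some fixes exactly two), then either |Ω| = q² + 1 and the action is 2-transitive, or |Ω| = q²(q² + 1) and the point stabilizers have order q − 1. -/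
theorem result {G : Type*} [Group G] [Finite G] (F : Type) [Field F] [Fintype F] (m : ℕ) (hm : 1 ≤ m) (hF : Fintype.card F = 2 ^ (2 * m + 1))
    (e : G ≃* ↥(Cfsg.Lie.Sz F (2 ^ (m + 1)))) {Ω : Type*} [Fintype Ω] [MulAction G Ω] [FaithfulSMul G Ω] (htr : MulAction.IsPretransitive G Ω)
    (hfix : ∀ g : G, g ≠ 1 → Nat.card (MulAction.fixedBy Ω g) ≤ 2) (hex : ∃ g : G, g ≠ 1 ∧ Nat.card (MulAction.fixedBy Ω g) = 2) :
    (Fintype.card Ω = Fintype.card F ^ 2 + 1 ∧ MulAction.IsMultiplyPretransitive G Ω 2) ∨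
    (Fintype.card Ω = Fintype.card F ^ 2 * (Fintype.card F ^ 2 + 1) ∧ ∀ α : Ω, Nat.card (MulAction.stabilizer G α) = Fintype.card F - 1) := by
  have := CL.Sz.charP_two hF
  have hq := CL.Sz.natCard_eq hF
  set M0 := (CL.Sz.lieModel hF).ofEquiv e
  obtain ⟨t, ht0, ht1⟩ := CL.Sz.exists_ne_zero_one hm hF
  obtain ⟨g, hg1, hg⟩ := hex
  obtain ⟨⟨α, hα⟩⟩ : Nonempty (MulAction.fixedBy Ω g) := (Nat.card_pos_iff.mp (by omega)).1
  set S := MulAction.stabilizer G α with hS
  rw [← Nat.card_eq_fintype_card, ← Nat.card_eq_fintype_card]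
  rcases Nat.even_or_odd (Nat.card S) with hL | hL
  · left
    obtain ⟨⟨t₀, ht₀⟩, ht⟩ := exists_prime_orderOf_dvd_card' 2 hL.two_dvd
    rw [← Subgroup.orderOf_coe] at ht
    simp only at ht
    have h1 : t₀ ≠ 1 := by rintro rfl; simp at ht
    have h2 : t₀ * t₀ = 1 := by rw [← pow_two, ← ht, pow_orderOf_eq_one]
    obtain ⟨-, k, hk⟩ := M0.mem_conjSet_U_iff.mpr ⟨h1, by
      rw [show (4 : ℕ) = 2 * 2 from rfl, pow_mul, pow_two t₀, h2, one_pow]⟩
    rw [← M0.mem_conj_U] at hk
    set M := M0.conj k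
    have hZ := M.mem_Z_of_sq hk h2
    have hZS : M.Z ≤ S := by
      rintro _ ⟨y, rfl⟩
      obtain ⟨x, rfl⟩ := Finite.surjective_of_injective M.θ_mul_self_injective y
      have hc := M.Z_comm_U hZ (M.u_mem_U x 0)
      have h3 : t₀ • α = α := ht₀
      simp only
      rw [← M.u_sq x 0]
      refine sq_fix (hfix t₀ h1) h3 ?_ ?_
      · rw [smul_smul, hc, mul_smul, h3]
      · rw [smul_smul, hc, mul_smul, smul_smul t₀, hc, mul_smul, h3]
    have hB : ∀ b ∈ M.B, b * b ∈ S := by
      have h3 : ∀ b ∈ M.B, t₀ • b • α = b • α := by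
        intro b hb
        have : (b⁻¹ * t₀ * b⁻¹⁻¹) • α = α := hZS (M.conj_mem_Z (M.B.inv_mem hb) hZ)
        rwa [inv_inv, mul_smul, mul_smul, inv_smul_eq_iff] at this
      intro b hb
      exact sq_fix (hfix t₀ h1) ht₀ (h3 b hb) (by
        simpa [mul_smul] using h3 _ (M.B.mul_mem hb hb))
    have hH : M.H ≤ S := by
      rintro _ ⟨l, rfl⟩
      obtain ⟨a, rfl⟩ := CL.Sz.Model.exists_sq_eq l
      rw [map_mul]; exact hB _ (M.h_mem_B a)
    have hU : M.U ≤ S := by
      set l := Units.mk0 t ht0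
      have h3 := hB _ (M.B.mul_mem (M.u_mem_B 1 0) (M.h_mem_B l))
      have e : M.u 1 0 * M.h l * (M.u 1 0 * M.h l) =
        M.u 1 0 * (M.h l * M.u 1 0 * (M.h l)⁻¹) * (M.h l * M.h l) := by group
      rw [e, S.mul_mem_cancel_right (S.mul_mem (hH (M.h_mem_H l)) (hH (M.h_mem_H l))), M.h_conj_u,
        M.u_mul] at h3
      refine S2410.U_le M hH ?_ h3
      intro h
      apply ht1
      apply CL.Sz.Model.θ_eq_one (θ := CL.Sz.theta F m)
      simp only [l, Units.val_mk0] at h
      grind
    have hSB : S = M.B := by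
      by_cases h : S ≤ M.B
      · refine le_antisymm h fun b hb => ?_
        obtain ⟨x, y, l, rfl⟩ := M.mem_B.mp hb
        exact S.mul_mem (hU (M.u_mem_U _ _)) (hH (M.h_mem_H _))
      · exfalso
        have h3 := M.eq_top_of_U_le hU h
        refine h1 (FaithfulSMul.eq_of_smul_eq_smul (α := Ω) fun β => ?_)
        obtain ⟨k, rfl⟩ := htr.exists_smul_eq α β
        have h4 : ∀ x : G, x • α = α := fun x => show x ∈ S from h3 ▸ Subgroup.mem_top x
        rw [smul_smul, smul_smul, h4, h4]
    obtain ⟨f, -, hf⟩ := M.exists_equiv_of_stabilizer α (htr.exists_smul_eq α)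
      (fun g => by rw [← hSB]; rfl)
    exact ⟨by rw [← M.card_Ω, Nat.card_congr f], M.two_transitive_of_equiv f hf⟩
  · right
    have hgS : g ∈ S := hα
    have hle := M0.le_centralizer_of_odd hm hF hL hgS
    have hcS : Nat.card S = Nat.card F - 1 := by
      rcases M0.trichotomy hg1 with hU | ⟨-, k, hk⟩ | hf
      · exfalso
        refine hg1 (CL.Sz.Model.eq_one_of_pow_coprime (a := Nat.card S) (b := 2 ^ 2)
          ((Nat.coprime_two_right.mpr hL).pow_right 2) ?_ (M0.pow_four_of_mem_conjSet_U hU))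
        exact congrArg Subtype.val (pow_card_eq_one' (G := S) (x := ⟨g, hgS⟩))
      · rw [← M0.mem_conj_H] at hk
        set M := M0.conj k
        rw [M.centralizer_of_mem_H hk hg1] at hle
        have := card_mul_fix htr (N := M.N) (g := g) (α := α) (fun n =>
          ⟨fun h => (M.conj_mem_H_iff hk hg1 n).mp (hle h), fun h => ?_⟩) (hle.trans M.H_le_N)
        · rw [hg, M.card_N, ← hS] at this
          omega
        · rcases M.N.inv_mem h with h | h
          · rw [M.H_comm h hk, inv_mul_cancel_right]; exact hgS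
          · have := M.conj_eq_inv_of_mul_w_mem_H hk h
            rw [inv_inv] at this
            rw [this]; exact S.inv_mem hgS
      · exfalso
        have := card_mul_fix htr (N := Subgroup.normalizer (Subgroup.centralizer {g} : Set G))
          (g := g) (α := α) (fun n => ⟨fun h => (hf.conj_mem_centralizer_iff
            (Subgroup.mem_centralizer_singleton_iff.mpr rfl) hg1 n).mp (hle h), fun h => ?_⟩)
          (hle.trans Subgroup.le_normalizer)
        · rw [hg, (hf.card_centralizer hm hF).2, ← hS] at this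
          obtain ⟨a, ha⟩ := hL
          omega
        · have := hf.isCyclic_centralizer
          obtain ⟨a, ha⟩ := MonoidHom.map_cyclic
            (((Subgroup.centralizer {g}).normalizerMonoidHom ⟨n, h⟩⁻¹).toMonoidHom)
          have h3 : n⁻¹ * g * n⁻¹⁻¹ = g ^ a :=
            congrArg Subtype.val (ha ⟨g, Subgroup.mem_centralizer_singleton_iff.mpr rfl⟩)
          rw [inv_inv] at h3
          rw [h3]; exact S.zpow_mem hgS a
    have hall : ∀ β : Ω, Nat.card (MulAction.stabilizer G β) = Nat.card F - 1 := by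
      intro β
      rw [← hcS]
      exact Nat.card_congr (MulAction.stabilizerEquivStabilizerOfOrbitRel
        (htr.exists_smul_eq α β)).toEquiv
    refine ⟨?_, hall⟩
    have h1 := S.card_mul_index
    rw [hS, MulAction.index_stabilizer_of_transitive, hall, M0.card_G, mul_comm] at h1
    have := CL.Sz.Model.one_lt_card (F := F)
    exact Nat.eq_of_mul_eq_mul_right (by omega) h1

end Cfsg.Agent.S3391
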