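import Cfsg.Statements.S3399
import Cfsg.Agent.PERM.Pron.Main

set_option autoImplicit false
open Cfsg

namespace Cfsg.Agent.S3399

/-- Let G be a transitive permutation group of finite degree n and K a nontrivial subgroup of G that is pronormal in G (K and gKg⁻¹ are conjugate inside ⟨K, gKg⁻¹⟩ for every g ∈ G). If K fixes exactly f points, then f ≤ (n − 1)/2, that is, 2f + 1 ≤ n. -/
theorem result (n : ℕ) (G : Subgroup (Equiv.Perm (Fin n)))
    (htrans : ∀ a b : Fin n, ∃ g ∈ G, g a = b)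
    (K : Subgroup (Equiv.Perm (Fin n))) (hKG : K ≤ G) (hK : K ≠ ⊥)
    (hpro : ∀ g ∈ G, ∃ w ∈ K ⊔ K.map (MulAut.conj g).toMonoidHom,
      K.map (MulAut.conj w).toMonoidHom = K.map (MulAut.conj g).toMonoidHom) :
    2 * Nat.card {a : Fin n // ∀ k ∈ K, k a = a} + 1 ≤ n := by
  have hP : CL.Pron.Pn K G := by
    refine ⟨hKG, fun g hg M hKM hc => ?_⟩
    obtain ⟨w, hw, e⟩ := hpro g hg
    refine ⟨w, (sup_le hKM ?_ : _ ≤ M) hw, ?_⟩
    · rintro _ ⟨k, hk, rfl⟩
      exact hc k hk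
    · rw [Subgroup.mem_normalizer_iff]
      intro k
      constructor
      · intro hk
        have : g * k * g⁻¹ ∈ K.map (MulAut.conj w).toMonoidHom := e ▸ ⟨k, hk, rfl⟩
        obtain ⟨l, hl, el⟩ := this
        have el' : w * l * w⁻¹ = g * k * g⁻¹ := el
        have : w⁻¹ * g * k * (w⁻¹ * g)⁻¹ = l := by
          calc w⁻¹ * g * k * (w⁻¹ * g)⁻¹ = w⁻¹ * (g * k * g⁻¹) * w := by group
            _ = l := by rw [← el']; group
        rw [this]
        exact hl
      · intro hk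
        have : w * (w⁻¹ * g * k * (w⁻¹ * g)⁻¹) * w⁻¹ ∈ K.map (MulAut.conj g).toMonoidHom :=
          e ▸ ⟨_, hk, rfl⟩
        obtain ⟨l, hl, el⟩ := this
        have el' : g * l * g⁻¹ = w * (w⁻¹ * g * k * (w⁻¹ * g)⁻¹) * w⁻¹ := el
        have : k = l := by
          calc k = g⁻¹ * (w * (w⁻¹ * g * k * (w⁻¹ * g)⁻¹) * w⁻¹) * g := by group
            _ = l := by rw [← el']; group
        rw [this]
        exact hl
  have h := CL.Pron.ih_all (n + 1) (Equiv.Perm (Fin n)) K (Fin n) G Set.univ hP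
    (fun a _ => Set.eq_univ_of_forall fun b => htrans a b) (by simp [Set.ncard_univ])
    (fun h => hK (eq_bot_iff.2 fun k hk => Equiv.ext fun a => h (Set.mem_univ a) k hk))
  unfold CL.Pron.df at h
  rw [Set.univ_inter, Set.ncard_univ, Nat.card_eq_fintype_card, Fintype.card_fin,
    ← Nat.card_coe_set_eq] at h
  have e : Nat.card {a : Fin n // ∀ k ∈ K, k a = a} = Nat.card (CL.Pron.Fx K (Fin n)) := rfl
  omega

end Cfsg.Agent.S3399
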