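import Cfsg.Statements.S3421
import Cfsg.Agent.INV.EltP
import Cfsg.Agent.PERM.ZassFeit
import Cfsg.Agent.CLAS.DicksonSub
import Cfsg.Agent.FUS.PSL2Dih
import Cfsg.Agent.INV.SylowRecog

set_option autoImplicit false
open Cfsg

namespace Cfsg.Agent.S3421

open CL.EltP CL.Zass Subgroup MulAction

theorem ep_psl {F : Type*} [Field F] [Finite F] (p : ℕ) [hp : Fact p.Prime] [CharP F p] :
    EP p (Matrix.ProjectiveSpecialLinearGroup (Fin 2) F) := fun g hg => by
  have := Fintype.ofFinite F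
  obtain ⟨n, -, hn⟩ := FiniteField.card F p
  have hq : p ∣ Nat.card F := by
    rw [Nat.card_eq_fintype_card, hn]; exact dvd_pow_self p n.ne_zero
  have h0 : 0 < Nat.card F := Nat.card_pos
  rw [← orderOf_injective _ CL.PGL2.psl2pgl_injective] at hg ⊢
  rcases CL.Dk.orderOf_dvd_pslIn p (g := CL.PGL2.psl2pgl F g) ⟨g, rfl⟩ with h | h | h
  · exact Nat.dvd_antisymm h hg
  · have h1 := Nat.dvd_sub hq ((hg.mul_left _).trans h)
    rw [Nat.sub_sub_self h0, Nat.dvd_one] at h1
    exact absurd h1 hp.out.ne_one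
  · have h1 := (Nat.dvd_add_right hq).1 ((hg.mul_left _).trans h)
    exact absurd (Nat.dvd_one.1 h1) hp.out.ne_one

theorem no_regular {G : Type*} [Group G] [Finite G] {p q : ℕ} [hp : Fact p.Prime] (h : EP p G)
    (P : Sylow p G) (hP : Nat.card P = q) (hq : Odd q) (h3 : 3 < q)
    (hG : 2 * Nat.card G = q * (q ^ 2 - 1))
    (h4 : ∀ k, q + 1 = 2 ^ (k + 3) → ∃ g : G, orderOf g = 4)
    (N : Subgroup G) [N.Normal] (hN : Nat.card N = q + 1) : False := by
  obtain ⟨t, ht⟩ := exists_prime_orderOf_dvd_card' (G := N) 2 (hN ▸ hq.add_one.two_dvd)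
  have ht1 : (t : G) ≠ 1 := fun e => by
    rw [show t = 1 from Subtype.ext e, orderOf_one] at ht; omega
  obtain ⟨a, ha⟩ := P.isPGroup'.exists_card_eq
  let f : P → {y : N // y ≠ 1} := fun u => ⟨⟨u * t * u⁻¹, ‹N.Normal›.conj_mem _ t.2 _⟩,
    fun e => ht1 (by simpa [mul_inv_eq_one] using congrArg Subtype.val e)⟩
  have hf : Function.Injective f := fun u v huv => by
    have h1 : (u : G) * t * (u : G)⁻¹ = v * t * (v : G)⁻¹ :=
      congrArg (fun y : {y : N // y ≠ 1} => (y.1 : G)) huv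
    by_contra hne
    have h2 := h.mem_sylow P ((v : G)⁻¹ * u) (mul_mem (inv_mem v.2) u.2)
      (fun e => hne (Subtype.ext (inv_mul_eq_one.1 e).symm)) t (by
        calc _ = (v : G)⁻¹ * (v * t * (v : G)⁻¹) * u := by group
          _ = _ := by rw [← h1]; group)
    have h5 := orderOf_dvd_natCard (⟨t, h2⟩ : (P : Subgroup G))
    rw [orderOf_mk, orderOf_coe, ht, hP] at h5
    exact Nat.not_even_iff_odd.2 hq (even_iff_two_dvd.2 h5)
  have hc : Nat.card {y : N // y ≠ 1} = Nat.card P := by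
    have := Finite.card_option (α := {y : N // y ≠ 1})
    classical
    rw [Nat.card_congr (Equiv.optionSubtypeNe 1), hN] at this
    omega
  have hs := ((Nat.bijective_iff_injective_and_card f).2 ⟨hf, hc.symm⟩).2
  have h2 : ∀ y ∈ N, y ^ 2 = 1 := fun y hy => by
    by_cases h1 : y = 1
    · simp [h1]
    obtain ⟨u, hu⟩ := hs ⟨⟨y, hy⟩, fun e => h1 (congrArg Subtype.val e)⟩
    rw [← show (u : G) * t * (u : G)⁻¹ = y from congrArg (fun y : {y : N // y ≠ 1} => (y.1 : G)) hu,
      conj_pow, ← ht, ← orderOf_coe, pow_orderOf_eq_one]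
    simp
  obtain ⟨k, hk⟩ := (IsPGroup.iff_card (p := 2) (G := N)).1 fun y =>
    ⟨1, Subtype.ext (by simpa using h2 y y.2)⟩
  rw [hN] at hk
  obtain ⟨k, rfl⟩ : ∃ j, k = j + 3 := ⟨k - 3, by
    have : 2 ^ 2 < 2 ^ k := by omega
    have := (Nat.pow_lt_pow_iff_right one_lt_two).1 this
    omega⟩
  obtain ⟨g, hg⟩ := h4 k hk
  obtain ⟨u, hu⟩ : ∃ u, q = 2 * (2 * u + 1) + 1 := ⟨2 * 2 ^ k - 1, by
    have : 0 < 2 ^ k := by positivity
    rw [pow_add] at hk; omega⟩
  have hi : N.index = q * (2 * u + 1) := by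
    have h5 := N.index_mul_card
    have h6 : q ^ 2 - 1 = 2 * (2 * u + 1) * (q + 1) := Nat.sub_eq_of_eq_add (by rw [hu]; ring)
    rw [← h5, hN, h6] at hG
    exact Nat.eq_of_mul_eq_mul_right (show 0 < 2 * (q + 1) by omega) (by linear_combination hG)
  have h5 := orderOf_dvd_of_pow_eq_one (pow_mul g _ _ ▸ h2 _ (N.pow_index_mem g))
  rw [hg, hi] at h5
  exact Nat.not_even_iff_odd.2 (hq.mul (odd_two_mul_add_one u)) (even_iff_two_dvd.2
    (Nat.dvd_of_mul_dvd_mul_right two_pos h5))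


/-- Let F be a finite field with more than 3 elements. A finite group G is isomorphic to PSL(2, F) if and only if G has the same set of element orders and the same order as PSL(2, F). -/
theorem result {G : Type*} [Group G] [Finite G] {F : Type*} [Field F] [Fintype F] (hF : 3 < Fintype.card F) :
    Nonempty (G ≃* Matrix.ProjectiveSpecialLinearGroup (Fin 2) F) ↔
      (Set.range (orderOf : G → ℕ) = Set.range (orderOf : Matrix.ProjectiveSpecialLinearGroup (Fin 2) F → ℕ) ∧
        Nat.card G = Nat.card (Matrix.ProjectiveSpecialLinearGroup (Fin 2) F)) := by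
  refine ⟨fun ⟨e⟩ => ⟨?_, Nat.card_congr e.toEquiv⟩, fun ⟨h1, h2⟩ => ?_⟩
  · ext n
    exact ⟨fun ⟨g, hg⟩ => ⟨e g, (e.orderOf_eq g).trans hg⟩,
      fun ⟨g, hg⟩ => ⟨e.symm g, (e.symm.orderOf_eq g).trans hg⟩⟩
  obtain ⟨p, _⟩ := CharP.exists F
  obtain ⟨n, hp, hn⟩ := FiniteField.card F p
  have := Fact.mk hp
  have h : EP p G := fun g hg => by
    obtain ⟨g', hg'⟩ := h1.le ⟨g, rfl⟩
    rw [← hg'] at hg ⊢
    exact ep_psl p g' hg
  have hG := CL.SL.gcd_mul_card_PSL_two (F := F)
  rw [← h2, Nat.card_eq_fintype_card (α := F)] at hG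
  have hc : ∀ P : Sylow p G, Nat.card P = Fintype.card F := fun P => by
    have h3 : ¬ p ∣ Fintype.card F ^ 2 - 1 := fun h4 => by
      have h5 := Nat.dvd_sub (show p ∣ Fintype.card F ^ 2 from
        Dvd.dvd.pow (hn ▸ dvd_pow_self p n.ne_zero) two_ne_zero) h4
      rw [Nat.sub_sub_self (Nat.one_le_pow _ _ (by omega)), Nat.dvd_one] at h5
      exact hp.ne_one h5
    have h4 : ¬ p ∣ Nat.gcd 2 (Fintype.card F - 1) := fun h5 => h3 ((h5.trans
      (Nat.gcd_dvd_right _ _)).trans (by simpa using Nat.sub_dvd_pow_sub_pow (Fintype.card F) 1 2))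
    have h6 : Fintype.card F ^ 2 - 1 ≠ 0 := fun e => h3 (e ▸ dvd_zero p)
    have h5 := congrArg (fun m => m.factorization p) hG
    simp only [Nat.factorization_mul (Nat.gcd_ne_zero_left two_ne_zero) Nat.card_pos.ne',
      Nat.factorization_mul (Fintype.card_ne_zero (α := F)) h6,
      Finsupp.add_apply, Nat.factorization_eq_zero_of_not_dvd h3,
      Nat.factorization_eq_zero_of_not_dvd h4, zero_add, add_zero] at h5
    rw [P.card_eq_multiplicity, h5, hn, hp.factorization_pow]; simp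
  obtain ⟨P⟩ : Nonempty (Sylow p G) := inferInstance
  have hs := h.card_sylow P (hc P) (by omega) (Nat.gcd_pos_of_pos_left _ two_pos)
    (Nat.gcd_le_left _ two_pos) hG
  have hZ := CL.Small.z2_sylow h.sylow_TI h.mem_sylow (fun R => by rw [hs, hc R])
    ((hn ▸ dvd_pow_self p n.ne_zero : p ∣ Fintype.card F).trans
      (hc P ▸ card_subgroup_dvd_card (P : Subgroup G)))
  rcases Nat.even_or_odd (Fintype.card F) with he | ho
  · rw [CL.PGL2.gcd_two_of_even he (by omega), one_mul] at hG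
    exact CL.Small.psl_of_z2_even hZ hs he hG
  rw [CL.PGL2.gcd_two_of_odd ho] at hG
  obtain ⟨b, hb⟩ := hZ.exists_ne P
  have hd : 2 * Nat.card (St G P b) = Fintype.card F - 1 := by
    have h3 := CL.Small.card_eq_of_z2 hZ hb.symm
    rw [hs] at h3
    rw [h3, show Fintype.card F ^ 2 - 1 = (Fintype.card F + 1) * (Fintype.card F - 1) by
      rw [← Nat.sq_sub_sq], Nat.add_sub_cancel] at hG
    exact Nat.eq_of_mul_eq_mul_left (show 0 < Fintype.card F * (Fintype.card F + 1) by positivity)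
      (by linear_combination hG)
  have hZ' : IsZassenhausGroup G (Sylow p G) := by
    refine ⟨hZ.faithful, hZ.two_trans, fun g a b c h1 h2 h3 => hZ.sharp g h1 h3 h2, ?_,
      fun N hN ht => ?_⟩
    · obtain ⟨⟨g, hg⟩, hg1⟩ := ne_bot_iff_exists_ne_one.1
        ((St G P b).one_lt_card_iff_ne_bot.1 (by omega))
      exact ⟨g, fun e => hg1 (Subtype.ext e), P, b, hb.symm, hg.1, hg.2⟩
    · refine ⟨P, fun e => no_regular h P (hc P) ho hF hG (fun k hk => ?_) N ?_⟩
      · obtain ⟨T⟩ : Nonempty (Sylow 2 (Matrix.ProjectiveSpecialLinearGroup (Fin 2) F)) :=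
          inferInstance
        obtain ⟨m, -, h3, ⟨e⟩⟩ := CL.Fus.sylow_psl2_dihedral ho T
        obtain ⟨u, hu⟩ : ∃ u, Fintype.card F = 2 * (2 * u + 1) + 1 := ⟨2 * 2 ^ k - 1, by
          have : 0 < 2 ^ k := by positivity
          rw [pow_add] at hk; omega⟩
        rw [CL.SylRec.card_sylow_of_card T (k := k + 3) (ho.mul (odd_two_mul_add_one u))
          (Nat.eq_of_mul_eq_mul_left two_pos (by
            rw [← h2, hG, ← hk, show Fintype.card F ^ 2 - 1 = 2 * (2 * u + 1) * (Fintype.card F + 1)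
              from Nat.sub_eq_of_eq_add (by rw [hu]; ring)]; ring))] at h3
        obtain rfl : m = 4 * 2 ^ k := by rw [pow_add] at h3; omega
        have h4 : orderOf (((e.symm (.r 1) : T) : Matrix.ProjectiveSpecialLinearGroup (Fin 2) F)
            ^ 2 ^ k) = 4 := by
          rw [orderOf_pow' _ (by positivity), orderOf_coe, MulEquiv.orderOf_eq,
            DihedralGroup.orderOf_r_one, Nat.gcd_eq_right (Dvd.intro_left _ rfl),
            Nat.mul_div_cancel _ (by positivity)]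
        exact h1.ge ⟨_, h4⟩
      · rw [← hs, ← (stabilizer N P).index_mul_card, e, card_bot, mul_one, ← e,
          index_stabilizer_of_transitive]
  obtain ⟨K, hK⟩ := hZ.exists_ker P
  rcases sharp_or_psl_of_comm hZ' hb.symm hK (hK.comm_of_card_le hZ hb.symm (by omega)) with
    h3 | ⟨-, K, _, _, h3, -, e⟩
  · omega
  · exact CL.Small.psl_transfer (by omega) e

end Cfsg.Agent.S3421
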