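import Cfsg.Statements.S3495
import Mathlib

set_option autoImplicit false
open Cfsg

namespace Cfsg.Agent.S3495

/-- Let a finite group G act faithfully and primitively on a finite set Ω with non-trivial point stabilizers, each acting primitively on every one of its orbits (an extremely primitive group), and suppose G has an elementary abelian normal p-subgroup N acting regularly on Ω (affine type). Then every non-trivial subgroup M of a point stabilizer G_α that is normal in G_α has the same orbits on Ω as G_α, and normalizes no subgroup of N other than 1 and N. -/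
theorem result {G : Type*} [Group G] [Finite G] {Ω : Type*} [Fintype Ω] [MulAction G Ω] [FaithfulSMul G Ω] (hprim : MulAction.IsPreprimitive G Ω) (hH : ∀ α : Ω, MulAction.stabilizer G α ≠ ⊥) (hep : ∀ (α : Ω) (ω : Ω), MulAction.IsPreprimitive (MulAction.stabilizer G α) (MulAction.orbit (MulAction.stabilizer G α) ω))
    (N : Subgroup G) [N.Normal] (hNc : IsMulCommutative N) (p : ℕ) (hp : p.Prime) (hNp : ∀ n ∈ N, n ^ p = 1)
    (hNtr : MulAction.IsPretransitive N Ω) (hNreg : ∀ ω : Ω, MulAction.stabilizer N ω = ⊥) (α : Ω) (M : Subgroup G) (hM : M ≠ ⊥) (hMle : M ≤ MulAction.stabilizer G α)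
    (hMn : MulAction.stabilizer G α ≤ Subgroup.normalizer (M : Set G)) :
    (∀ ω : Ω, MulAction.orbit M ω = MulAction.orbit (MulAction.stabilizer G α) ω) ∧
    (∀ L : Subgroup G, L ≤ N → M ≤ Subgroup.normalizer (L : Set G) → L = ⊥ ∨ L = N) := by
  classical
  have hnt : Nontrivial Ω := by
    by_contra h
    rw [not_nontrivial_iff_subsingleton] at h
    apply hM
    rw [eq_bot_iff]
    intro m _
    rw [Subgroup.mem_bot]
    exact FaithfulSMul.eq_of_smul_eq_smul (α := Ω) (fun a => Subsingleton.elim _ _)
  have hco := MulAction.IsPreprimitive.isCoatom_stabilizer_of_isPreprimitive G α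
  have hreg : ∀ n ∈ N, n • α = α → n = 1 := by
    intro n hn h
    have : (⟨n, hn⟩ : N) ∈ MulAction.stabilizer N α := h
    rw [hNreg, Subgroup.mem_bot] at this
    exact congrArg Subtype.val this
  have hreg2 : ∀ n ∈ N, ∀ n' ∈ N, n • α = n' • α → n = n' := by
    intro n hn n' hn' h
    have := hreg (n'⁻¹ * n) (N.mul_mem (N.inv_mem hn') hn) (by rw [mul_smul, h, inv_smul_smul])
    rw [inv_mul_eq_one] at this
    exact this.symm
  have hnorm : Subgroup.normalizer (M : Set G) = MulAction.stabilizer G α := by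
    rcases hMn.eq_or_lt with h | h
    · exact h.symm
    · exfalso
      have htop := hco.2 _ h
      have hMnormal : M.Normal := Subgroup.normalizer_eq_top_iff.1 htop
      apply hM
      rw [eq_bot_iff]
      intro m hm
      rw [Subgroup.mem_bot]
      apply FaithfulSMul.eq_of_smul_eq_smul (α := Ω)
      intro ω
      obtain ⟨x, rfl⟩ := MulAction.exists_smul_eq G α ω
      have : (x⁻¹ * m * x⁻¹⁻¹) • α = α := hMle (hMnormal.conj_mem m hm x⁻¹)
      rw [inv_inv, mul_smul, mul_smul, inv_smul_eq_iff] at this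
      rw [this, one_smul]
  have hfix : ∀ ω : Ω, (∀ m ∈ M, m • ω = ω) → ω = α := by
    intro ω hω
    obtain ⟨⟨n, hn⟩, rfl⟩ := hNtr.exists_smul_eq α ω
    have hc : ∀ m ∈ M, m * n * m⁻¹ = n := by
      intro m hm
      apply hreg2 _ (‹N.Normal›.conj_mem n hn m) _ hn
      have h1 : m⁻¹ • α = α := hMle (M.inv_mem hm)
      rw [mul_smul, mul_smul, h1]
      exact hω m hm
    have : n ∈ Subgroup.normalizer (M : Set G) := by
      apply Subgroup.centralizer_le_normalizer
      intro m hm
      have := hc m hm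
      rw [mul_inv_eq_iff_eq_mul] at this
      exact this
    rw [hnorm] at this
    exact this
  have h1 : ∀ ω : Ω, MulAction.orbit M ω = MulAction.orbit (MulAction.stabilizer G α) ω := by
    intro ω
    apply Set.Subset.antisymm
    · rintro _ ⟨m, rfl⟩
      exact ⟨⟨m, hMle m.2⟩, rfl⟩
    · by_cases hω : ω = α
      · rintro _ ⟨h, rfl⟩
        subst hω
        have : (h : G) • ω = ω := h.2
        exact ⟨1, by simp only [one_smul]; exact this.symm⟩
      · have := hep α ω
        have hn : (M.subgroupOf (MulAction.stabilizer G α)).Normal :=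
          (Subgroup.normal_subgroupOf_iff_le_normalizer hMle).2 hMn
        have htr := MulAction.IsQuasiPreprimitive.isPretransitive_of_normal
          (G := MulAction.stabilizer G α) (X := MulAction.orbit (MulAction.stabilizer G α) ω)
          (N := M.subgroupOf (MulAction.stabilizer G α)) (by
            intro h
            apply hω
            apply hfix
            intro m hm
            have : (⟨ω, MulAction.mem_orbit_self ω⟩ : MulAction.orbit (MulAction.stabilizer G α) ω) ∈
              MulAction.fixedPoints (M.subgroupOf (MulAction.stabilizer G α)) _ := by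
              rw [h]; trivial
            exact congrArg Subtype.val (this ⟨⟨m, hMle hm⟩, hm⟩))
        intro x hx
        obtain ⟨m, hm⟩ := htr.exists_smul_eq ⟨ω, MulAction.mem_orbit_self ω⟩ ⟨x, hx⟩
        exact ⟨⟨m.1.1, m.2⟩, congrArg Subtype.val hm⟩
  refine ⟨h1, fun L hLN hML => ?_⟩
  have hHL : ∀ h ∈ MulAction.stabilizer G α, ∀ l ∈ L, h * l * h⁻¹ ∈ L := by
    intro h hh l hl
    have h2 : h • l • α ∈ MulAction.orbit (MulAction.stabilizer G α) (l • α) := ⟨⟨h, hh⟩, rfl⟩
    rw [← h1] at h2
    obtain ⟨⟨m, hm⟩, hm'⟩ := h2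
    have h3 : m * l * m⁻¹ ∈ L := (Subgroup.mem_normalizer_iff.1 (hML hm) l).1 hl
    have h4 : h * l * h⁻¹ = m * l * m⁻¹ := by
      apply hreg2 _ (‹N.Normal›.conj_mem l (hLN hl) h) _ (hLN h3)
      have e1 : m⁻¹ • α = α := hMle (M.inv_mem hm)
      have e2 : h⁻¹ • α = α := (MulAction.stabilizer G α).inv_mem hh
      rw [mul_smul, mul_smul, mul_smul, mul_smul, e1, e2]
      exact hm'.symm
    rwa [h4]
  have hLn : L.Normal := by
    constructor
    intro l hl g
    obtain ⟨⟨n, hn⟩, hnα⟩ := hNtr.exists_smul_eq α (g • α)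
    have hnα' : n • α = g • α := hnα
    have h2 : n⁻¹ * g ∈ MulAction.stabilizer G α := by
      rw [MulAction.mem_stabilizer_iff, mul_smul, ← hnα', inv_smul_smul]
    have h3 := hHL _ h2 l hl
    have h4 : n * (n⁻¹ * g * l * (n⁻¹ * g)⁻¹) = (n⁻¹ * g * l * (n⁻¹ * g)⁻¹) * n :=
      congrArg Subtype.val (hNc.is_comm.comm (⟨n, hn⟩ : N) ⟨_, hLN h3⟩)
    have h5 : g * l * g⁻¹ = n⁻¹ * g * l * (n⁻¹ * g)⁻¹ := by
      rw [← mul_inv_eq_iff_eq_mul] at h4
      rw [← h4]; group
    rwa [h5]
  by_cases hL : L ≤ MulAction.stabilizer G α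
  · left
    rw [eq_bot_iff]
    intro l hl
    exact hreg l (hLN hl) (hL hl)
  · right
    have htop : L ⊔ MulAction.stabilizer G α = ⊤ :=
      hco.2 _ (lt_of_le_of_ne le_sup_right (fun h => hL (h ▸ le_sup_left)))
    refine le_antisymm hLN fun n hn => ?_
    have : n ∈ L ⊔ MulAction.stabilizer G α := by rw [htop]; trivial
    obtain ⟨l, hl, h, hh, rfl⟩ := Subgroup.mem_sup_of_normal_left.1 this
    have h2 : h ∈ N := (N.mul_mem_cancel_left (hLN hl)).1 hn
    rw [hreg h h2 hh, mul_one]
    exact hl

end Cfsg.Agent.S3495
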