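import Cfsg.Statements.S3498
import Mathlib

set_option autoImplicit false
open Cfsg

namespace Cfsg.Agent.S3498

theorem comm_of_pgroup {T : Type*} [Group T] [Finite T] [IsSimpleGroup T] {p : ℕ} [Fact p.Prime]
    (h : IsPGroup p T) : IsMulCommutative T := by
  have h1 := h.center_nontrivial
  have h2 : Subgroup.center T = ⊤ :=
    (IsSimpleGroup.eq_bot_or_eq_top_of_normal _ inferInstance).resolve_left
      ((Subgroup.nontrivial_iff_ne_bot _).1 h1)
  refine ⟨⟨fun a b => ?_⟩⟩
  have : b ∈ Subgroup.center T := by rw [h2]; trivial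
  exact Subgroup.mem_center_iff.1 this a

/-- A maximal subgroup of a finite almost simple group does not have prime order. Here G is almost simple in the sense that it has a non-abelian simple normal subgroup T with trivial centralizer. -/
theorem result {G : Type*} [Group G] [Finite G] (T : Subgroup G) [T.Normal] (hT : IsSimpleGroup T) (hTc : ¬ IsMulCommutative T)
    (hC : Subgroup.centralizer (T : Set G) = ⊥) (H : Subgroup G) (hmax : IsCoatom H) : ¬ (Nat.card H).Prime := by
  classical
  intro hp
  set p := Nat.card H with hpdef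
  have := Fact.mk hp
  have hHp : IsPGroup p H := IsPGroup.of_card (n := 1) (by rw [pow_one])
  have hcyc : IsCyclic H := isCyclic_of_prime_card (p := p) rfl
  have hHc : IsMulCommutative H := inferInstance
  obtain ⟨P, hP⟩ := hHp.exists_le_sylow
  have hPH : (P : Subgroup G) = H := by
    by_contra hne
    have htop : (P : Subgroup G) = ⊤ := hmax.2 _ (lt_of_le_of_ne hP (Ne.symm hne))
    exact hTc (comm_of_pgroup (P.2.to_le (htop ▸ le_top)))
  -- a normal subgroup of `G` meets `T` trivially or contains it
  have key : ∀ K : Subgroup G, K.Normal → (K ⊓ T = ⊥ ∨ T ≤ K) := by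
    intro K hK
    rcases IsSimpleGroup.eq_bot_or_eq_top_of_normal (K.subgroupOf T) inferInstance with h | h
    · left; rwa [Subgroup.subgroupOf_eq_bot, disjoint_iff] at h
    · right; rwa [Subgroup.subgroupOf_eq_top] at h
  have key2 : ∀ K : Subgroup G, K.Normal → K ⊓ T = ⊥ → K = ⊥ := by
    intro K hK h
    rw [eq_bot_iff, ← hC]
    intro k hk t ht
    exact (Subgroup.commute_of_normal_of_disjoint K T hK inferInstance (disjoint_iff.2 h) k t hk ht).symm
  have hH0 : H ≠ ⊥ := by
    rintro rfl
    rw [hpdef] at hp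
    simp at hp
    exact Nat.not_prime_one hp
  have hHn : ¬ H.Normal := by
    intro hn
    rcases key H hn with h | h
    · exact hH0 (key2 H hn h)
    · exact hTc (comm_of_pgroup (hHp.to_le h))
  have hnorm : Subgroup.normalizer (H : Set G) = H := by
    by_contra hne
    exact hHn (Subgroup.normalizer_eq_top_iff.1
      (hmax.2 _ (lt_of_le_of_ne Subgroup.le_normalizer (Ne.symm hne))))
  have hPc : Subgroup.normalizer (P : Set G) ≤ Subgroup.centralizer (P : Set G) := by
    have e : (P : Set G) = (H : Set G) := by rw [← hPH]; rfl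
    rw [e, hnorm]
    exact Subgroup.le_centralizer H
  have hK := MonoidHom.ker_transferSylow_isComplement' P hPc
  set K := (MonoidHom.transferSylow P hPc).ker
  have hTK : T ≤ K := by
    rcases key K inferInstance with h | h
    · exfalso
      have h1 := key2 K inferInstance h
      have h2 := hK.sup_eq_top
      rw [h1, bot_sup_eq, hPH] at h2
      exact hmax.1 h2
    · exact h
  have hpT : ¬ p ∣ Nat.card T := fun h =>
    MonoidHom.not_dvd_card_ker_transferSylow P hPc (h.trans (Subgroup.card_dvd_of_le hTK))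
  obtain ⟨q, hq, hqT⟩ := Nat.exists_prime_and_dvd (Finite.one_lt_card (α := T)).ne'
  have := Fact.mk hq
  -- `H` acts on the Sylow `q`-subgroups of `T`
  let act : MulAction G (Sylow q T) := MulAction.compHom _ (MulAut.conjNormal : G →* MulAut T)
  have hcard : ¬ p ∣ Nat.card (Sylow q T) := by
    intro h
    obtain ⟨Q⟩ : Nonempty (Sylow q T) := inferInstance
    exact hpT ((h.trans Q.card_dvd_index).trans (Subgroup.index_dvd_card _))
  obtain ⟨Q, hQ⟩ := hHp.nonempty_fixed_point_of_prime_not_dvd_card (Sylow q T) hcard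
  have hle : H ≤ MulAction.stabilizer G Q := fun h hh => hQ ⟨h, hh⟩
  have hQ0 : (Q : Subgroup T) ≠ ⊥ := Q.ne_bot_of_dvd_card hqT
  obtain ⟨⟨x, hxQ⟩, hx1⟩ := (Subgroup.ne_bot_iff_exists_ne_one).1 hQ0
  have hT : ∀ t : T, (t : G) ∈ MulAction.stabilizer G Q ↔ t ∈ Subgroup.normalizer (Q : Set T) := by
    intro t
    rw [← Sylow.smul_eq_iff_mem_normalizer]
    change (MulAut.conjNormal (t : G) : MulAut T) • Q = Q ↔ MulAut.conj t • Q = Q
    rw [MulAut.conjNormal_val]
  have hx : (x : G) ∈ MulAction.stabilizer G Q := by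
    rw [hT]
    exact Subgroup.le_normalizer hxQ
  have hxH : (x : G) ∉ H := by
    intro h
    have h1 : (x : G) ∈ K ⊓ (P : Subgroup G) := ⟨hTK x.2, hPH ▸ h⟩
    rw [hK.disjoint.eq_bot, Subgroup.mem_bot] at h1
    exact hx1 (Subtype.ext (Subtype.ext h1))
  have htop : MulAction.stabilizer G Q = ⊤ :=
    hmax.2 _ (lt_of_le_of_ne hle (fun h => hxH (h ▸ hx)))
  have hQn : (Q : Subgroup T).Normal := by
    rw [← Subgroup.normalizer_eq_top_iff, eq_top_iff]
    intro t _
    have : (t : G) ∈ MulAction.stabilizer G Q := by rw [htop]; trivial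
    rw [hT] at this
    exact this
  have hQtop := (IsSimpleGroup.eq_bot_or_eq_top_of_normal _ hQn).resolve_left hQ0
  have hq2 : IsPGroup q T := by
    have := Q.2
    rw [hQtop] at this
    exact this.of_equiv Subgroup.topEquiv
  exact hTc (comm_of_pgroup hq2)

end Cfsg.Agent.S3498
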