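import Cfsg.Statements.S3504
import Mathlib

set_option autoImplicit false
open Cfsg

namespace Cfsg.Agent.S3504

theorem cyc {n : ℕ} (g : Equiv.Perm (Fin n)) (hg : (orderOf g).Prime) (hf : ∀ i, g i ≠ i) :
    orderOf g ∣ n ∧ g.cycleType = Multiset.replicate (n / orderOf g) (orderOf g) := by
  obtain ⟨k, hk⟩ := Equiv.Perm.cycleType_prime_order hg
  have h1 := g.sum_cycleType
  have h2 : g.support = Finset.univ := by
    ext i; simp [hf i]
  rw [h2, hk, Multiset.sum_replicate, Finset.card_univ, Fintype.card_fin, smul_eq_mul] at h1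
  refine ⟨⟨k + 1, by rw [mul_comm]; exact h1.symm⟩, ?_⟩
  rw [hk]
  congr 1
  exact (Nat.div_eq_of_eq_mul_left hg.pos h1.symm).symm

theorem ex {n p : ℕ} (hn : 0 < n) (hp : p.Prime) (hpn : p ∣ n) :
    ∃ g : Equiv.Perm (Fin n), orderOf g = p ∧ ∀ i, g i ≠ i := by
  obtain ⟨k, rfl⟩ := hpn
  have hk : 0 < k := Nat.pos_of_mul_pos_left hn
  obtain ⟨g, hg⟩ := (Equiv.Perm.exists_with_cycleType_iff (Fin (p * k))
    (m := Multiset.replicate k p)).2 ⟨by simp [mul_comm], by
      intro a ha; rw [Multiset.eq_of_mem_replicate ha]; exact hp.two_le⟩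
  refine ⟨g, ?_, ?_⟩
  · rw [← Equiv.Perm.lcm_cycleType, hg]
    apply Nat.dvd_antisymm
    · rw [Multiset.lcm_dvd]
      intro b hb; rw [Multiset.eq_of_mem_replicate hb]
    · exact Multiset.dvd_lcm (Multiset.mem_replicate.2 ⟨hk.ne', rfl⟩)
  · have h1 := g.sum_cycleType
    rw [hg, Multiset.sum_replicate, smul_eq_mul] at h1
    have h2 : g.support = Finset.univ := by
      apply Finset.eq_univ_of_card
      rw [← h1, Fintype.card_fin, mul_comm]
    intro i
    rw [← Equiv.Perm.mem_support, h2]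
    exact Finset.mem_univ i

/-- For n ≥ 5, the fixed-point-free permutations of prime order in the symmetric group of degree n form a single conjugacy class if and only if n is a prime power. -/
theorem result (n : ℕ) (hn : 5 ≤ n) :
    Nat.card {c : ConjClasses (Equiv.Perm (Fin n)) // ∃ g : Equiv.Perm (Fin n), ConjClasses.mk g = c ∧ (orderOf g).Prime ∧ ∀ i : Fin n, g i ≠ i} = 1 ↔ IsPrimePow n := by
  rw [isPrimePow_iff_unique_prime_dvd, Nat.card_eq_one_iff_exists]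
  constructor
  · rintro ⟨⟨c, g, hgc, hg, hf⟩, hc⟩
    refine ⟨orderOf g, ⟨hg, (cyc g hg hf).1⟩, ?_⟩
    rintro q ⟨hq, hqn⟩
    obtain ⟨g', hg', hf'⟩ := ex (by omega) hq hqn
    have := congrArg Subtype.val (hc ⟨ConjClasses.mk g', g', rfl, hg' ▸ hq, hf'⟩)
    simp only at this
    rw [← hgc, ConjClasses.mk_eq_mk_iff_isConj, Equiv.Perm.isConj_iff_cycleType_eq] at this
    rw [← hg', ← Equiv.Perm.lcm_cycleType, this, Equiv.Perm.lcm_cycleType]
  · rintro ⟨p, ⟨hp, hpn⟩, hu⟩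
    obtain ⟨g, hg, hf⟩ := ex (by omega) hp hpn
    refine ⟨⟨ConjClasses.mk g, g, rfl, hg ▸ hp, hf⟩, ?_⟩
    rintro ⟨c, g', rfl, hg', hf'⟩
    apply Subtype.ext
    simp only
    rw [ConjClasses.mk_eq_mk_iff_isConj, Equiv.Perm.isConj_iff_cycleType_eq,
      (cyc g' hg' hf').2, (cyc g (hg ▸ hp) hf).2, hu _ ⟨hg', (cyc g' hg' hf').1⟩, hg]

end Cfsg.Agent.S3504
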