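import Cfsg.Statements.S3508
import Mathlib

set_option autoImplicit false
open Cfsg

namespace Cfsg.Agent.S3508

open Polynomial in
theorem geom_eq (p k : ℕ) [Fact p.Prime] :
    ((X - 1) ^ (p ^ k - 1) : (ZMod p)[X]) = ∑ i ∈ Finset.range (p ^ k), X ^ i := by
  have h1 : (X - 1 : (ZMod p)[X]) ≠ 0 := by
    have := X_sub_C_ne_zero (1 : ZMod p)
    simpa using this
  apply mul_right_cancel₀ h1
  rw [geom_sum_mul, ← pow_succ, Nat.sub_add_cancel (Nat.one_le_pow _ _ (Fact.out : p.Prime).pos),
    sub_pow_char_pow, one_pow]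

open Polynomial in
theorem sum_pow_eq_zero {p : ℕ} [Fact p.Prime] {V : Type*} [AddCommGroup V] [Module (ZMod p) V]
    [Module.Finite (ZMod p) V] (A : Module.End (ZMod p) V) (r k : ℕ) (hA : A ^ p ^ r = 1)
    (hk : Module.finrank (ZMod p) V < p ^ k) : ∑ i ∈ Finset.range (p ^ k), A ^ i = 0 := by
  have h1 : ∀ k : ℕ, (A - 1) ^ (p ^ k - 1) = ∑ i ∈ Finset.range (p ^ k), A ^ i := by
    intro k
    have := congrArg (aeval A) (geom_eq p k)
    simpa [map_sum] using this
  have h2 : IsNilpotent (A - 1) := by
    refine ⟨p ^ r - 1 + 1, ?_⟩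
    rw [pow_succ, h1, geom_sum_mul, hA, sub_self]
  have h3 := LinearMap.aeval_self_charpoly (A - 1)
  rw [h2.charpoly_eq_X_pow_finrank, map_pow, aeval_X] at h3
  rw [← h1]
  obtain ⟨j, hj⟩ := Nat.exists_eq_add_of_le (show Module.finrank (ZMod p) V ≤ p ^ k - 1 by omega)
  rw [hj, pow_add, h3, zero_mul]

theorem prod_pow_eq_one {p : ℕ} [Fact p.Prime] {N : Type*} [CommGroup N] [Finite N]
    (hNp : ∀ x : N, x ^ p = 1) {m : ℕ} (hc : Nat.card N = p ^ m) (φ : MulAut N) (r k : ℕ)
    (hφ : φ ^ p ^ r = 1) (hk : m < p ^ k) (x : N) :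
    ∏ i ∈ Finset.range (p ^ k), (φ ^ i) x = 1 := by
  have hx : ∀ x : Additive N, p • x = 0 := by
    intro x
    change Additive.ofMul (x.toMul ^ p) = 0
    rw [hNp]; rfl
  obtain ⟨_⟩ : Nonempty (Module (ZMod p) (Additive N)) := ⟨AddCommGroup.zmodModule hx⟩
  have : Module.Finite (ZMod p) (Additive N) := Module.Finite.of_finite
  have hfr : Module.finrank (ZMod p) (Additive N) = m := by
    have h := Module.natCard_eq_pow_finrank (K := ZMod p) (V := Additive N)
    rw [Nat.card_zmod, Nat.card_congr Additive.toMul, hc] at h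
    exact (Nat.pow_right_injective (Fact.out : p.Prime).two_le h).symm
  let A : Module.End (ZMod p) (Additive N) :=
    (MonoidHom.toAdditive φ.toMonoidHom).toZModLinearMap p
  have hA : ∀ (i : ℕ) (x : N), (A ^ i : Module.End (ZMod p) (Additive N)) (Additive.ofMul x) =
      Additive.ofMul ((φ ^ i) x) := by
    intro i
    induction i with
    | zero => intro x; simp
    | succ i ih =>
      intro x
      rw [pow_succ', Module.End.mul_apply, ih, pow_succ']
      rfl
  have hA1 : A ^ p ^ r = 1 := by
    ext1 x
    have := hA (p ^ r) x.toMul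
    rw [hφ] at this
    simpa using this
  have hsum := sum_pow_eq_zero A r k hA1 (hfr ▸ hk)
  have := congrArg (fun B : Module.End (ZMod p) (Additive N) => B (Additive.ofMul x)) hsum
  simp only [LinearMap.sum_apply, hA, LinearMap.zero_apply] at this
  rw [← ofMul_prod] at this
  exact this

/-- Let a finite group G act faithfully on a set Ω with p ^ m points (p prime) and have an elementary abelian normal p-subgroup N acting regularly on Ω (so G is a group of affine transformations of an m-dimensional space over the field with p elements). If G contains an element of order p ^ r with r ≥ 1, then p ^ (r − 1) ≤ m. In particular an element of order p ^ m forces m ≤ 2, and m ≤ 1 when p is odd. -/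
theorem result {G : Type*} [Group G] [Finite G] {Ω : Type*} [Fintype Ω] [MulAction G Ω] [FaithfulSMul G Ω] (p m : ℕ) (hp : p.Prime) (hcard : Fintype.card Ω = p ^ m)
    (N : Subgroup G) [N.Normal] (hNc : IsMulCommutative N) (hNp : ∀ n ∈ N, n ^ p = 1)
    (hNtr : MulAction.IsPretransitive N Ω) (hNreg : ∀ ω : Ω, MulAction.stabilizer N ω = ⊥)
    (g : G) (r : ℕ) (hr : 1 ≤ r) (hg : orderOf g = p ^ r) :
    p ^ (r - 1) ≤ m ∧ (r = m → m ≤ 2 ∧ (2 < p → m ≤ 1)) := by
  classical
  have := Fact.mk hp
  have hmain : p ^ (r - 1) ≤ m := by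
    by_contra hlt
    push Not at hlt
    have hne : Nonempty Ω := by
      rw [← Fintype.card_pos_iff, hcard]; exact pow_pos hp.pos m
    obtain ⟨α⟩ := hne
    have hcN : Nat.card N = p ^ m := by
      rw [← (MulAction.stabilizer N α).index_mul_card, MulAction.index_stabilizer_of_transitive,
        hNreg, Subgroup.card_bot, mul_one, Nat.card_eq_fintype_card, hcard]
    let _ : CommGroup N := { (inferInstance : Group N) with mul_comm := hNc.is_comm.comm }
    have hsum := prod_pow_eq_one (N := N) (fun x => Subtype.ext (hNp _ x.2)) hcN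
      (MulAut.conjNormal g) r (r - 1) (by rw [← map_pow, ← hg, pow_orderOf_eq_one, map_one]) hlt
    have hgq : g ^ p ^ (r - 1) = 1 := by
      apply FaithfulSMul.eq_of_smul_eq_smul (α := Ω)
      intro ω
      obtain ⟨b, hb⟩ := hNtr.exists_smul_eq ω (g • ω)
      have hb' : (b : G) • ω = g • ω := hb
      have key : ∀ n : ℕ, g ^ n • ω =
          ((∏ i ∈ Finset.range n, ((MulAut.conjNormal g : MulAut N) ^ i) b : N) : G) • ω := by
        intro n
        induction n with
        | zero => simp
        | succ n ih =>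
          rw [Finset.prod_range_succ, mul_comm, Subgroup.coe_mul,
            mul_smul, ← ih, ← map_pow, MulAut.conjNormal_apply, smul_smul, inv_mul_cancel_right,
            mul_smul, hb', smul_smul, pow_succ]
      rw [key, hsum]
      simp
    have := orderOf_dvd_of_pow_eq_one hgq
    rw [hg, Nat.pow_dvd_pow_iff_le_right hp.one_lt] at this
    omega
  refine ⟨hmain, ?_⟩
  rintro rfl
  have h2 : ∀ q k : ℕ, 2 ≤ q → 2 ≤ k → k + 1 < q ^ k := by
    intro q k hq hk
    induction k, hk using Nat.le_induction with
    | base => nlinarith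
    | succ k hk ih => rw [pow_succ]; nlinarith
  have h3 : ∀ q k : ℕ, 3 ≤ q → 1 ≤ k → k + 1 < q ^ k := by
    intro q k hq hk
    induction k, hk using Nat.le_induction with
    | base => simp; omega
    | succ k hk ih => rw [pow_succ]; nlinarith
  constructor
  · by_contra h
    have := h2 p (r - 1) hp.two_le (by omega)
    omega
  · intro hp2
    by_contra h
    have := h3 p (r - 1) hp2 (by omega)
    omega

end Cfsg.Agent.S3508
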