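import Cfsg.Statements.S3511
import Mathlib

set_option autoImplicit false
open Cfsg

namespace Cfsg.Agent.S3511

/-- Let a finite group G act faithfully on a set Ω. If every element of G of square-free order has a regular cycle (an orbit of the cyclic group it generates with trivial stabilizer), then every element of G has a regular cycle. -/
theorem result {G : Type*} [Group G] [Finite G] {Ω : Type*} [MulAction G Ω] [FaithfulSMul G Ω]
    (h : ∀ g : G, Squarefree (orderOf g) → ∃ ω : Ω, MulAction.stabilizer (Subgroup.zpowers g) ω = ⊥) (g : G) :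
    ∃ ω : Ω, MulAction.stabilizer (Subgroup.zpowers g) ω = ⊥ := by
  classical
  have h0 : orderOf g ≠ 0 := (orderOf_pos g).ne'
  -- the radical of the order
  set n := orderOf g with hn
  set r := ∏ p ∈ n.primeFactors, p with hr
  have hrn : r ∣ n := Nat.prod_primeFactors_dvd n
  obtain ⟨k, hk⟩ := hrn
  have hk0 : k ≠ 0 := by rintro rfl; simp at hk; exact h0 (by simpa using hk)
  have hord : orderOf (g ^ k) = r := by
    rw [orderOf_pow, ← hn, hk, Nat.gcd_eq_right (Dvd.intro_left r rfl),
      Nat.mul_div_cancel _ (Nat.pos_of_ne_zero hk0)]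
  have hsq : Squarefree r := by
    rw [hr]
    apply Finset.squarefree_prod_of_pairwise_isCoprime
    · intro p hp q hq hpq
      simp only [Finset.mem_coe, Nat.mem_primeFactors] at hp hq
      exact Nat.coprime_iff_isRelPrime.1 ((Nat.coprime_primes hp.1 hq.1).2 hpq)
    · intro p hp
      exact (Nat.prime_of_mem_primeFactors hp).prime.squarefree
  obtain ⟨ω, hω⟩ := h (g ^ k) (hord ▸ hsq)
  refine ⟨ω, ?_⟩
  rw [eq_bot_iff]
  rintro ⟨x, hx⟩ hxω
  rw [Subgroup.mem_bot]
  by_contra hne
  have hx1 : x ≠ 1 := fun h => hne (Subtype.ext h)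
  have hxω' : x • ω = ω := hxω
  -- an element of prime order
  obtain ⟨p, hp, hpd⟩ := Nat.exists_prime_and_dvd (n := orderOf x) (by simpa using hx1)
  obtain ⟨m, hm⟩ := hpd
  have hx0 : orderOf x ≠ 0 := (orderOf_pos x).ne'
  have hm0 : m ≠ 0 := by rintro rfl; simp at hm; exact hx0 (by simpa using hm)
  have hy : orderOf (x ^ m) = p := by
    rw [orderOf_pow, hm, Nat.gcd_eq_right (Dvd.intro_left p rfl),
      Nat.mul_div_cancel _ (Nat.pos_of_ne_zero hm0)]
  have hyω : (x ^ m) • ω = ω :=
    (MulAction.stabilizer G ω).pow_mem (show x ∈ MulAction.stabilizer G ω from hxω') m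
  have hyg : x ^ m ∈ Subgroup.zpowers g := Subgroup.pow_mem _ hx m
  obtain ⟨j, hj⟩ := (mem_powers_iff_mem_zpowers.2 hyg : x ^ m ∈ Submonoid.powers g)
  simp only at hj
  have hpn : p ∣ n := by
    rw [← hy, ← hj]; exact orderOf_pow_dvd j
  have hpr : p ∣ r := Finset.dvd_prod_of_mem _ (Nat.mem_primeFactors.2 ⟨hp, hpn, h0⟩)
  have hjp : n ∣ j * p := by
    rw [hn, orderOf_dvd_iff_pow_eq_one, pow_mul, hj, ← hy, pow_orderOf_eq_one]
  have hkj : k ∣ j := by
    obtain ⟨s, hs⟩ := hpr
    have : s * k * p ∣ j * p := by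
      rw [hk, hs] at hjp
      convert hjp using 1; ring
    exact Dvd.dvd.trans (Dvd.intro_left s rfl) (Nat.dvd_of_mul_dvd_mul_right hp.pos this)
  obtain ⟨t, ht⟩ := hkj
  have hmem : x ^ m ∈ Subgroup.zpowers (g ^ k) := by
    rw [← hj, ht, pow_mul]; exact Subgroup.npow_mem_zpowers _ t
  have : (⟨x ^ m, hmem⟩ : Subgroup.zpowers (g ^ k)) ∈
    MulAction.stabilizer (Subgroup.zpowers (g ^ k)) ω := hyω
  rw [hω, Subgroup.mem_bot] at this
  have h1 : x ^ m = 1 := congrArg Subtype.val this
  rw [h1, orderOf_one] at hy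
  exact hp.one_lt.ne hy

end Cfsg.Agent.S3511
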