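import Cfsg.Statements.S3514
import Mathlib

set_option autoImplicit false
open Cfsg

namespace Cfsg.Agent.S3514

theorem card_orb {G V : Type*} [Group G] [MulAction G V] (H : Subgroup G) (v : V) :
    Nat.card {u : V | ∃ h ∈ H, h • v = u} = (MulAction.stabilizer G v).relIndex H := by
  have : (MulAction.stabilizer G v).subgroupOf H = MulAction.stabilizer H v := by
    ext; rfl
  rw [Subgroup.relIndex, this, MulAction.index_stabilizer]
  have : {u : V | ∃ h ∈ H, h • v = u} = MulAction.orbit H v := by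
    ext u
    constructor
    · rintro ⟨h, hh, rfl⟩; exact ⟨⟨h, hh⟩, rfl⟩
    · rintro ⟨⟨h, hh⟩, rfl⟩; exact ⟨h, hh, rfl⟩
  rw [this]; rfl

theorem relIndex_dvd_index {G : Type*} [Group G] [Finite G] (S K : Subgroup G) [K.Normal] :
    S.relIndex K ∣ S.index := by
  have h1 : K.relIndex (S ⊔ K) = K.relIndex S := Subgroup.relIndex_sup_right S K
  have h2 : S.relIndex (S ⊔ K) ∣ S.index := Subgroup.relIndex_dvd_index_of_le le_sup_left
  have h3 : S.relIndex (S ⊔ K) = S.relIndex K := by
    have e1 := Subgroup.relIndex_mul_relIndex (S ⊓ K) S (S ⊔ K) inf_le_left le_sup_left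
    have e2 := Subgroup.relIndex_mul_relIndex (S ⊓ K) K (S ⊔ K) inf_le_right le_sup_right
    rw [Subgroup.inf_relIndex_left] at e1
    rw [Subgroup.inf_relIndex_right, h1, ← e1, mul_comm] at e2
    exact (Nat.eq_of_mul_eq_mul_left (Nat.pos_of_ne_zero Subgroup.index_ne_zero_of_finite) e2).symm
  rwa [h3] at h2

/-- Let p be a prime, V a finite vector space over the field with p elements, and H a group of linear transformations of V all of whose orbits on V have size coprime to p. (i) Every normal subgroup K of H has all its orbits on V of size coprime to p. (ii) If N is a group of linear transformations of V of order coprime to p that is normalized by H, then the group generated by N and H has all its orbits on V of size coprime to p. -/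
theorem result (p : ℕ) [Fact p.Prime] {V : Type*} [AddCommGroup V] [Module (ZMod p) V] [Finite V]
    (H : Subgroup (V ≃ₗ[ZMod p] V)) (hH : ∀ v : V, ¬ p ∣ Nat.card {u : V | ∃ h ∈ H, h v = u}) :
    (∀ K : Subgroup (V ≃ₗ[ZMod p] V), K ≤ H → H ≤ Subgroup.normalizer (K : Set (V ≃ₗ[ZMod p] V)) →
        ∀ v : V, ¬ p ∣ Nat.card {u : V | ∃ k ∈ K, k v = u}) ∧
    (∀ N : Subgroup (V ≃ₗ[ZMod p] V), ¬ p ∣ Nat.card N → H ≤ Subgroup.normalizer (N : Set (V ≃ₗ[ZMod p] V)) →
        ∀ v : V, ¬ p ∣ Nat.card {u : V | ∃ x ∈ N ⊔ H, x v = u}) := by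
  have hfin : Finite (V ≃ₗ[ZMod p] V) :=
    Finite.of_injective (fun f => (f : V → V)) DFunLike.coe_injective
  have hp : p.Prime := Fact.out
  have e : ∀ (K : Subgroup (V ≃ₗ[ZMod p] V)) (v : V), Nat.card {u : V | ∃ k ∈ K, k v = u} =
      (MulAction.stabilizer (V ≃ₗ[ZMod p] V) v).relIndex K := fun K v => card_orb K v
  refine ⟨fun K hKH hn v h => hH v ?_, fun N hN hn v h => ?_⟩
  · rw [e] at h ⊢
    have hnorm : (K.subgroupOf H).Normal := (Subgroup.normal_subgroupOf_iff_le_normalizer hKH).2 hn
    have := relIndex_dvd_index ((MulAction.stabilizer (V ≃ₗ[ZMod p] V) v).subgroupOf H)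
      (K.subgroupOf H)
    rw [Subgroup.relIndex_subgroupOf hKH] at this
    exact h.trans this
  · have hv := hH v
    rw [e] at h hv
    set S := MulAction.stabilizer (V ≃ₗ[ZMod p] V) v
    have hnorm : (N.subgroupOf (N ⊔ H)).Normal :=
      (Subgroup.normal_subgroupOf_iff_le_normalizer le_sup_left).2
        (sup_le Subgroup.le_normalizer hn)
    have h1 : H.relIndex (N ⊔ H) ∣ Nat.card N := by
      have e0 : (N.subgroupOf (N ⊔ H)) ⊔ (H.subgroupOf (N ⊔ H)) = ⊤ := by
        rw [← Subgroup.subgroupOf_sup le_sup_left le_sup_right, Subgroup.subgroupOf_self]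
      have e1 := Subgroup.relIndex_sup_left (H.subgroupOf (N ⊔ H)) (N.subgroupOf (N ⊔ H))
      rw [e0, Subgroup.relIndex_top_right, Subgroup.relIndex_subgroupOf le_sup_right] at e1
      have e2 := Subgroup.relIndex_mul_relIndex (N ⊓ H) H (N ⊔ H) inf_le_right le_sup_right
      have e3 := Subgroup.relIndex_mul_relIndex (N ⊓ H) N (N ⊔ H) inf_le_left le_sup_left
      rw [Subgroup.inf_relIndex_right] at e2
      rw [Subgroup.inf_relIndex_left, ← e2, show N.relIndex (N ⊔ H) = N.relIndex H from e1,
        mul_comm] at e3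
      have e4 := Nat.eq_of_mul_eq_mul_left (Nat.pos_of_ne_zero Subgroup.index_ne_zero_of_finite) e3
      rw [← e4]
      exact Subgroup.relIndex_dvd_card _ _
    have h2 := Subgroup.relIndex_mul_relIndex (S ⊓ H) H (N ⊔ H) inf_le_right le_sup_right
    rw [Subgroup.inf_relIndex_right] at h2
    have h3 : S.relIndex (N ⊔ H) ∣ (S ⊓ H).relIndex (N ⊔ H) :=
      Subgroup.relIndex_dvd_of_le_left _ inf_le_left
    rw [← h2] at h3
    rcases hp.dvd_mul.1 (h.trans h3) with h4 | h4
    · exact hv h4
    · exact hN (h4.trans h1)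

end Cfsg.Agent.S3514
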