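import Cfsg.Statements.S3515
import Mathlib

set_option autoImplicit false
open Cfsg

namespace Cfsg.Agent.S3515

theorem h4 : ∀ v : Fin 2 → ZMod 2, v ≠ ![1, 1] →
    v = 0 ∨ v = Pi.single 0 1 ∨ v = Pi.single 1 1 := by decide

/-- Every primitive affine permutation group of degree p² is 3-closed. Let p be a prime and G a group of permutations of the plane V = F_p² consisting of affine maps x ↦ Ax + b, containing all translations, and acting primitively on V. Then any permutation σ of V that agrees on every triple of points with some element of G (σ preserves every G-orbit on ordered triples) already lies in G. -/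
theorem result (p : ℕ) [Fact p.Prime] (G : Subgroup (Equiv.Perm (Fin 2 → ZMod p)))
    (haff : (G : Set (Equiv.Perm (Fin 2 → ZMod p))) ⊆ {τ : Equiv.Perm (Fin 2 → ZMod p) | ∃ (A : (Fin 2 → ZMod p) ≃ₗ[ZMod p] (Fin 2 → ZMod p)) (b : Fin 2 → ZMod p), ∀ x, τ x = A x + b})
    (htrans : ∀ b : Fin 2 → ZMod p, ∃ g ∈ G, ∀ x, g x = x + b) (hprim : MulAction.IsPreprimitive G (Fin 2 → ZMod p))
    (σ : Equiv.Perm (Fin 2 → ZMod p)) (hσ : (∀ t : Fin 3 → (Fin 2 → ZMod p), ∃ g ∈ G, ∀ i, σ (t i) = g (t i))) : σ ∈ G := by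
  classical
  obtain ⟨g, hg, hgσ⟩ := hσ ![0, Pi.single 0 1, Pi.single 1 1]
  have h0 := hgσ 0
  have h1 := hgσ 1
  have h2 := hgσ 2
  simp only [Matrix.cons_val_zero, Matrix.cons_val_one, Matrix.cons_val] at h0 h1 h2
  -- the set where `σ` and `g` agree is closed under lines
  have hline : ∀ (u v : Fin 2 → ZMod p) (c : ZMod p), σ u = g u → σ v = g v →
      σ (u + c • (v - u)) = g (u + c • (v - u)) := by
    intro u v c hu hv
    obtain ⟨k, hk, hkσ⟩ := hσ ![u, v, u + c • (v - u)]
    have k0 := hkσ 0
    have k1 := hkσ 1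
    have k2 := hkσ 2
    simp only [Matrix.cons_val_zero, Matrix.cons_val_one, Matrix.cons_val] at k0 k1 k2
    obtain ⟨A, b, hA⟩ := haff hg
    obtain ⟨B, d, hB⟩ := haff hk
    have e1 : g (u + c • (v - u)) = g u + c • (g v - g u) := by
      simp only [hA, map_add, map_smul, map_sub]; module
    have e2 : k (u + c • (v - u)) = k u + c • (k v - k u) := by
      simp only [hB, map_add, map_smul, map_sub]; module
    rw [k2, e1, e2, ← k0, ← k1, hu, hv]
  have hx : ∀ a : ZMod p, σ (Pi.single 0 a) = g (Pi.single 0 a) := by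
    intro a
    have := hline _ _ a h0 h1
    rwa [zero_add, sub_zero, ← Pi.single_smul, smul_eq_mul, mul_one] at this
  have hy : ∀ a : ZMod p, σ (Pi.single 1 a) = g (Pi.single 1 a) := by
    intro a
    have := hline _ _ a h0 h2
    rwa [zero_add, sub_zero, ← Pi.single_smul, smul_eq_mul, mul_one] at this
  suffices h : σ = g by rw [h]; exact hg
  by_cases hp2 : p = 2
  · subst hp2
    have hall : ∀ v : Fin 2 → ZMod 2, v ≠ ![1, 1] → σ v = g v := by
      intro v hv
      have := h4 v hv
      rcases this with rfl | rfl | rfl <;> assumption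
    ext1 v
    by_cases hv : v = ![1, 1]
    · obtain ⟨w, hw⟩ := g.surjective (σ v)
      by_cases hw' : w = ![1, 1]
      · rw [← hw, hw', hv]
      · rw [← hall w hw'] at hw
        exact absurd (σ.injective hw ▸ hv) hw'
    · exact hall v hv
  · have h2ne : (2 : ZMod p) ≠ 0 := by
      intro h
      have : ((2 : ℕ) : ZMod p) = 0 := by exact_mod_cast h
      rw [ZMod.natCast_eq_zero_iff] at this
      exact hp2 ((Nat.prime_dvd_prime_iff_eq Fact.out Nat.prime_two).1 this)
    ext1 v
    have := hline _ _ (2 : ZMod p)⁻¹ (hx (2 * v 0)) (hy (2 * v 1))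
    have e : (Pi.single 0 (2 * v 0) + (2 : ZMod p)⁻¹ • (Pi.single 1 (2 * v 1) - Pi.single 0 (2 * v 0)) :
        Fin 2 → ZMod p) = v := by
      ext i
      fin_cases i
      · simp; field_simp; ring
      · simp; field_simp
    rwa [e] at this

end Cfsg.Agent.S3515
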