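import Cfsg.Statements.S3516

set_option autoImplicit false
open Cfsg

namespace Cfsg.Agent.S3516

theorem exists_det_one {K V : Type*} [Field K] [AddCommGroup V] [Module K V] [FiniteDimensional K V]
    (h : 3 ≤ Module.finrank K V) (A : V ≃ₗ[K] V) (u v : V) :
    ∃ B : V ≃ₗ[K] V, LinearMap.det (B : V →ₗ[K] V) = 1 ∧ B u = A u ∧ B v = A v := by
  classical
  have hlt : Submodule.span K (({u, v} : Finset V) : Set V) < ⊤ := by
    apply Submodule.lt_top_of_finrank_lt_finrank
    have h1 := finrank_span_finset_le_card (R := K) ({u, v} : Finset V)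
    have h2 : ({u, v} : Finset V).card ≤ 2 := Finset.card_le_two
    rw [Set.finrank] at h1
    omega
  obtain ⟨f, hf0, hf⟩ := Submodule.exists_le_ker_of_lt_top _ hlt
  have hu : f u = 0 := hf (Submodule.subset_span (by simp))
  have hv : f v = 0 := hf (Submodule.subset_span (by simp))
  obtain ⟨w, hw⟩ : ∃ w, f w ≠ 0 := by
    by_contra h
    push Not at h
    exact hf0 (LinearMap.ext h)
  set c := LinearMap.det (A : V →ₗ[K] V) with hc
  have hc0 : c ≠ 0 := (LinearEquiv.isUnit_det' A).ne_zero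
  have h1 : 1 + f (((c⁻¹ - 1) * (f w)⁻¹) • w) = c⁻¹ := by
    rw [map_smul, smul_eq_mul, mul_assoc, inv_mul_cancel₀ hw]; ring
  have h2 : IsUnit (1 + f (((c⁻¹ - 1) * (f w)⁻¹) • w)) := by
    rw [h1]; exact (inv_ne_zero hc0).isUnit
  refine ⟨(LinearEquiv.dilatransvection h2).trans A, ?_, ?_, ?_⟩
  · rw [LinearEquiv.coe_trans, LinearMap.det_comp, LinearEquiv.dilatransvection.coe_toLinearMap,
      LinearMap.transvection.det, h1, ← hc, mul_inv_cancel₀ hc0]
  · simp [LinearEquiv.dilatransvection.apply, hu]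
  · simp [LinearEquiv.dilatransvection.apply, hv]


/-- Let p be an odd prime, d ≥ 3, and G a group of affine permutations x ↦ Ax + b of V = F_p^d containing all translations and all maps x ↦ Ax with A of determinant 1. Then the 3-closure of G is the full affine group: a permutation σ of V agrees on every triple of points with some element of G if and only if σ is an affine map. -/
theorem result (p : ℕ) [Fact p.Prime] (hp : p ≠ 2) (d : ℕ) (hd : 3 ≤ d) (G : Subgroup (Equiv.Perm (Fin d → ZMod p)))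
    (haff : (G : Set (Equiv.Perm (Fin d → ZMod p))) ⊆ {τ : Equiv.Perm (Fin d → ZMod p) | ∃ (A : (Fin d → ZMod p) ≃ₗ[ZMod p] (Fin d → ZMod p)) (b : Fin d → ZMod p), ∀ x, τ x = A x + b})
    (htrans : ∀ b : Fin d → ZMod p, ∃ g ∈ G, ∀ x, g x = x + b)
    (hsl : ∀ A : (Fin d → ZMod p) ≃ₗ[ZMod p] (Fin d → ZMod p), LinearMap.det (A : (Fin d → ZMod p) →ₗ[ZMod p] (Fin d → ZMod p)) = 1 → ∃ g ∈ G, ∀ x, g x = A x)
    (σ : Equiv.Perm (Fin d → ZMod p)) :
    (∀ t : Fin 3 → (Fin d → ZMod p), ∃ g ∈ G, ∀ i, σ (t i) = g (t i)) ↔ σ ∈ {τ : Equiv.Perm (Fin d → ZMod p) | ∃ (A : (Fin d → ZMod p) ≃ₗ[ZMod p] (Fin d → ZMod p)) (b : Fin d → ZMod p), ∀ x, τ x = A x + b} := by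
  constructor
  · intro h
    have hline : ∀ (x y : Fin d → ZMod p) (c : ZMod p),
        σ ((1 - c) • x + c • y) = (1 - c) • σ x + c • σ y := by
      intro x y c
      obtain ⟨g, hg, hgt⟩ := h ![x, y, (1 - c) • x + c • y]
      obtain ⟨A, b, hA⟩ := haff hg
      have h0 := hgt 0
      have h1 := hgt 1
      have h2 := hgt 2
      simp only [Matrix.cons_val_zero, Matrix.cons_val_one, Matrix.cons_val] at h0 h1 h2
      rw [h0, h1, h2, hA, hA, hA, map_add, map_smul, map_smul]
      module
    have hsmul : ∀ (c : ZMod p) (y : Fin d → ZMod p), σ (c • y) - σ 0 = c • (σ y - σ 0) := by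
      intro c y
      have := hline 0 y c
      rw [smul_zero, zero_add] at this
      rw [this]
      module
    have h2 : (2 : ZMod p) ≠ 0 := by
      intro h
      have : ((2 : ℕ) : ZMod p) = 0 := by exact_mod_cast h
      rw [ZMod.natCast_eq_zero_iff] at this
      exact hp ((Nat.prime_dvd_prime_iff_eq Fact.out Nat.prime_two).mp this)
    have hadd : ∀ x y : Fin d → ZMod p, σ (x + y) - σ 0 = (σ x - σ 0) + (σ y - σ 0) := by
      intro x y
      have h3 := hline x y 2⁻¹
      have h4 := hsmul 2 ((1 - (2 : ZMod p)⁻¹) • x + (2 : ZMod p)⁻¹ • y)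
      have h5 : (1 - (2 : ZMod p)⁻¹) = 2⁻¹ := by field_simp; ring
      rw [h3, h5, smul_add, smul_smul, smul_smul, mul_inv_cancel₀ h2, one_smul, one_smul] at h4
      rw [h4, smul_sub, smul_add, smul_smul, smul_smul, mul_inv_cancel₀ h2, one_smul, one_smul,
        two_smul]
      abel
    let L : (Fin d → ZMod p) →ₗ[ZMod p] (Fin d → ZMod p) :=
      { toFun := fun x => σ x - σ 0
        map_add' := hadd
        map_smul' := hsmul }
    have hL : Function.Bijective L := by
      constructor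
      · intro x y hxy
        exact σ.injective (sub_left_injective hxy)
      · intro y
        exact ⟨σ.symm (y + σ 0), by simp [L]⟩
    exact ⟨LinearEquiv.ofBijective L hL, σ 0, fun x => by simp [L]⟩
  · rintro ⟨A, b, hA⟩ t
    obtain ⟨B, hB, h1, h2⟩ := exists_det_one (by simpa using hd) A (t 1 - t 0) (t 2 - t 0)
    obtain ⟨g, hg, hgB⟩ := hsl B hB
    obtain ⟨k, hk, hkb⟩ := htrans (σ (t 0) - B (t 0))
    refine ⟨k * g, G.mul_mem hk hg, fun i => ?_⟩
    rw [Equiv.Perm.mul_apply, hkb, hgB]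
    rw [map_sub, map_sub] at h1 h2
    fin_cases i
    · simp
    · simp only [hA, Fin.mk_one]
      linear_combination (exp := 1) (-1 : Fin d → ZMod p) * h1
    · simp only [hA, Fin.reduceFinMk]
      linear_combination (exp := 1) (-1 : Fin d → ZMod p) * h2

end Cfsg.Agent.S3516
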