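import Cfsg.Statements.S3517

set_option autoImplicit false
open Cfsg

namespace Cfsg.Agent.S3517

theorem exists_equiv_of_linearIndependent {K V ι : Type*} [Field K] [AddCommGroup V] [Module K V]
    [FiniteDimensional K V] {u w : ι → V} (hu : LinearIndependent K u)
    (hw : LinearIndependent K w) : ∃ A : V ≃ₗ[K] V, ∀ i, A (u i) = w i := by
  obtain ⟨g, hg⟩ := Submodule.exists_linearEquiv_restrict_eq
    ((Module.Basis.span hu).equiv (Module.Basis.span hw) (Equiv.refl ι))
  refine ⟨g, fun i => ?_⟩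
  have := hg (Module.Basis.span hu i)
  rw [Module.Basis.equiv_apply] at this
  simpa using this.symm

theorem li_pair {V : Type*} [AddCommGroup V] [Module (ZMod 2) V] {x y : V} (hx : x ≠ 0)
    (hy : y ≠ 0) (hxy : x ≠ y) : LinearIndependent (ZMod 2) ![x, y] := by
  rw [LinearIndependent.pair_iff' hx]
  intro a
  have : a = 0 ∨ a = 1 := by revert a; decide
  rcases this with rfl | rfl
  · simpa using hy.symm
  · simpa using hxy

theorem exists_single {K V : Type*} [Field K] [AddCommGroup V] [Module K V]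
    [FiniteDimensional K V] {x y : V} (h : x = 0 ↔ y = 0) : ∃ A : V ≃ₗ[K] V, A x = y := by
  by_cases hx : x = 0
  · exact ⟨LinearEquiv.refl K V, by rw [hx, h.mp hx]; simp⟩
  · have hy : y ≠ 0 := fun hy => hx (h.mpr hy)
    obtain ⟨A, hA⟩ := exists_equiv_of_linearIndependent (K := K) (u := fun _ : Unit => x)
      (w := fun _ => y) (linearIndependent_unique_iff.mpr hx) (linearIndependent_unique_iff.mpr hy)
    exact ⟨A, hA ()⟩

theorem exists_pair {V : Type*} [AddCommGroup V] [Module (ZMod 2) V] [FiniteDimensional (ZMod 2) V]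
    {x y x' y' : V} (hx : x = 0 ↔ x' = 0) (hy : y = 0 ↔ y' = 0) (hxy : x = y ↔ x' = y') :
    ∃ A : V ≃ₗ[ZMod 2] V, A x = x' ∧ A y = y' := by
  by_cases hx0 : x = 0
  · obtain ⟨A, hA⟩ := exists_single (K := ZMod 2) hy
    exact ⟨A, by rw [hx0, hx.mp hx0]; simp, hA⟩
  by_cases hy0 : y = 0
  · obtain ⟨A, hA⟩ := exists_single (K := ZMod 2) hx
    exact ⟨A, hA, by rw [hy0, hy.mp hy0]; simp⟩
  by_cases hxy0 : x = y
  · obtain ⟨A, hA⟩ := exists_single (K := ZMod 2) hx
    exact ⟨A, hA, by rw [← hxy0, ← hxy.mp hxy0, hA]⟩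
  obtain ⟨A, hA⟩ := exists_equiv_of_linearIndependent (li_pair hx0 hy0 hxy0)
    (li_pair (fun h => hx0 (hx.mpr h)) (fun h => hy0 (hy.mpr h)) (fun h => hxy0 (hxy.mpr h)))
  exact ⟨A, hA 0, hA 1⟩


/-- For d ≥ 3, the 3-closure of the affine group AGL_d(2) acting on F_2^d is the full symmetric group: every permutation of F_2^d agrees on every ordered triple of points with some affine map (AGL_d(2) is 3-transitive). -/
theorem result (d : ℕ) (hd : 3 ≤ d) (σ : Equiv.Perm (Fin d → ZMod 2)) (t : Fin 3 → (Fin d → ZMod 2)) :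
    ∃ (A : (Fin d → ZMod 2) ≃ₗ[ZMod 2] (Fin d → ZMod 2)) (b : Fin d → ZMod 2), ∀ i, σ (t i) = A (t i) + b := by
  obtain ⟨A, h1, h2⟩ := exists_pair (x := t 1 - t 0) (y := t 2 - t 0) (x' := σ (t 1) - σ (t 0))
    (y' := σ (t 2) - σ (t 0)) (by simp [sub_eq_zero]) (by simp [sub_eq_zero]) (by simp)
  refine ⟨A, σ (t 0) - A (t 0), fun i => ?_⟩
  rw [map_sub] at h1 h2
  fin_cases i
  · simp
  · simp only [Fin.mk_one]
    linear_combination (exp := 1) (-1 : Fin d → ZMod 2) * h1
  · simp only [Fin.reduceFinMk]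
    linear_combination (exp := 1) (-1 : Fin d → ZMod 2) * h2

end Cfsg.Agent.S3517
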