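import Cfsg.Statements.S3518
import Cfsg.Agent.PERM.PrimeDeg

set_option autoImplicit false
open Cfsg

namespace Cfsg.Agent.S3518

open MulAction

theorem exists_affine {p : ℕ} [Fact p.Prime] (x y x' y' : ZMod p) (h : x = y ↔ x' = y') :
    ∃ g ∈ Cfsg.affineGroup (ZMod p), g x = x' ∧ g y = y' := by
  have key : ∀ (a : (ZMod p)ˣ) (b : ZMod p), ∃ g ∈ Cfsg.affineGroup (ZMod p),
      ∀ z, g z = a * z + b := fun a b =>
    ⟨(Units.mulLeft a).trans (Equiv.addRight b), ⟨a, b, fun _ => rfl⟩, fun _ => rfl⟩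
  by_cases hxy : x = y
  · obtain ⟨g, hg, h1⟩ := key 1 (x' - x)
    refine ⟨g, hg, by simp [h1], ?_⟩
    rw [← hxy, ← h.mp hxy]; simp [h1]
  · have hxy' : x' - y' ≠ 0 := sub_ne_zero.mpr fun h' => hxy (h.mpr h')
    have hxy2 : x - y ≠ 0 := sub_ne_zero.mpr hxy
    obtain ⟨g, hg, h1⟩ := key (Units.mk0 ((x' - y') / (x - y)) (div_ne_zero hxy' hxy2))
      (x' - (x' - y') / (x - y) * x)
    refine ⟨g, hg, by simp [h1], ?_⟩
    rw [h1, Units.val_mk0]
    field_simp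
    ring

theorem affine_ext {p : ℕ} [Fact p.Prime] {g h : Equiv.Perm (ZMod p)}
    (hg : g ∈ Cfsg.affineGroup (ZMod p)) (hh : h ∈ Cfsg.affineGroup (ZMod p))
    (h0 : g 0 = h 0) (h1 : g 1 = h 1) : g = h := by
  obtain ⟨a, b, hg⟩ := hg
  obtain ⟨c, d, hh⟩ := hh
  rw [hg, hh] at h0 h1
  simp only [mul_zero, zero_add, mul_one] at h0 h1
  subst h0
  ext x
  rw [hg, hh, add_right_cancel h1]

/-- The 2-closure of a permutation group. -/
def closure2 {Ω : Type*} (G : Subgroup (Equiv.Perm Ω)) : Subgroup (Equiv.Perm Ω) where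
  carrier := {σ | ∀ x y, ∃ g ∈ G, σ x = g x ∧ σ y = g y}
  one_mem' := fun x y => ⟨1, G.one_mem, rfl, rfl⟩
  mul_mem' := by
    intro σ τ hσ hτ x y
    obtain ⟨g, hg, h1, h2⟩ := hτ x y
    obtain ⟨k, hk, h3, h4⟩ := hσ (τ x) (τ y)
    exact ⟨k * g, G.mul_mem hk hg, by simp [h3, ← h1], by simp [h4, ← h2]⟩
  inv_mem' := by
    intro σ hσ x y
    obtain ⟨g, hg, h1, h2⟩ := hσ (σ⁻¹ x) (σ⁻¹ y)
    refine ⟨g⁻¹, G.inv_mem hg, ?_, ?_⟩
    · rw [Equiv.Perm.eq_inv_iff_eq, ← h1]; simp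
    · rw [Equiv.Perm.eq_inv_iff_eq, ← h2]; simp


/-- Closures of subgroups of the one-dimensional affine group. Let p be a prime and G a group of permutations of F_p lying in the affine group AGL₁(p) = {x ↦ ax + b, a ≠ 0} and containing all translations. (1) If G is a proper subgroup of AGL₁(p), then G is 2-closed: a permutation of F_p agreeing on every ordered pair of points with some element of G lies in G. (2) Every permutation of F_p agrees on every ordered pair with some element of AGL₁(p) (the 2-closure of AGL₁(p) is the symmetric group). (3) AGL₁(p) is 3-closed: a permutation agreeing on every ordered triple with some affine map is affine. -/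
theorem result (p : ℕ) [Fact p.Prime] (G : Subgroup (Equiv.Perm (ZMod p))) (hG : G ≤ Cfsg.affineGroup (ZMod p))
    (htrans : ∀ b : ZMod p, ∃ g ∈ G, ∀ x, g x = x + b) :
    (G ≠ Cfsg.affineGroup (ZMod p) → ∀ σ : Equiv.Perm (ZMod p), (∀ t : Fin 2 → ZMod p, ∃ g ∈ G, ∀ i, σ (t i) = g (t i)) → σ ∈ G) ∧
    (∀ σ : Equiv.Perm (ZMod p), (∀ t : Fin 2 → ZMod p, ∃ g ∈ Cfsg.affineGroup (ZMod p), ∀ i, σ (t i) = g (t i))) ∧
    (∀ σ : Equiv.Perm (ZMod p), (∀ t : Fin 3 → ZMod p, ∃ g ∈ Cfsg.affineGroup (ZMod p), ∀ i, σ (t i) = g (t i)) → σ ∈ Cfsg.affineGroup (ZMod p)) := by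
  refine ⟨fun hne σ hσ => ?_, fun σ t => ?_, fun σ hσ => ?_⟩
  · have hσ' : σ ∈ closure2 G := fun x y => by
      obtain ⟨g, hg, h⟩ := hσ ![x, y]
      exact ⟨g, hg, h 0, h 1⟩
    obtain ⟨τ, hτ, hτ1⟩ := htrans 1
    let C : CL.PermMod.Coord (closure2 G) (ZMod p) p :=
      ⟨⟨τ, fun x y => ⟨τ, hτ, rfl, rfl⟩⟩, Equiv.refl _, fun a => hτ1 a⟩
    by_cases hC : C.Affine
    · obtain ⟨a, b, hab⟩ := hC ⟨σ, hσ'⟩
      have hab' : ∀ x, σ x = a * x + b := hab
      have ha : a ≠ 0 := by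
        rintro rfl
        have : σ 0 = σ 1 := by simp [hab']
        exact zero_ne_one (σ.injective this)
      obtain ⟨g, hg, h0, h1⟩ := hσ' 0 1
      rw [affine_ext ⟨Units.mk0 a ha, b, hab'⟩ (hG hg) h0 h1]
      exact hg
    · exfalso
      apply hne
      refine le_antisymm hG fun k hk => ?_
      obtain ⟨s, h0, h1⟩ := is_two_pretransitive_iff.mp (C.two_transitive hC)
        (zero_ne_one : (0 : ZMod p) ≠ 1) (k.injective.ne zero_ne_one)
      obtain ⟨g, hg, h2, h3⟩ := s.2 0 1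
      rw [affine_ext hk (hG hg) (h0.symm.trans h2) (h1.symm.trans h3)]
      exact hg
  · obtain ⟨g, hg, h0, h1⟩ := exists_affine (t 0) (t 1) (σ (t 0)) (σ (t 1)) σ.injective.eq_iff.symm
    refine ⟨g, hg, fun i => ?_⟩
    fin_cases i
    · exact h0.symm
    · exact h1.symm
  · obtain ⟨g, hg, h⟩ := hσ ![0, 1, 0]
    have : σ = g := by
      ext x
      obtain ⟨k, hk, h'⟩ := hσ ![0, 1, x]
      rw [affine_ext hg hk ((h 0).symm.trans (h' 0)) ((h 1).symm.trans (h' 1))]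
      exact h' 2
    rw [this]; exact hg

end Cfsg.Agent.S3518
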