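import Cfsg.Statements.S3524

set_option autoImplicit false
open Cfsg

namespace Cfsg.Agent.S3524


/-- A permutation group with a base is closed at one level above the base size. Let G be a group of permutations of a set Ω and suppose some k points α₁, …, α_k are fixed simultaneously only by the identity of G (a base of size k). Then G is (k+1)-closed: a permutation of Ω that agrees on every (k+1)-tuple of points with some element of G belongs to G. -/
theorem result {Ω : Type*} (G : Subgroup (Equiv.Perm Ω)) (k : ℕ) (α : Fin k → Ω)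
    (hbase : ∀ g ∈ G, (∀ i, g (α i) = α i) → g = 1) (σ : Equiv.Perm Ω)
    (hσ : ∀ t : Fin (k + 1) → Ω, ∃ g ∈ G, ∀ i, σ (t i) = g (t i)) : σ ∈ G := by
  obtain ⟨g₀, hg₀, h₀⟩ : ∃ g ∈ G, ∀ i, σ (α i) = g (α i) := by
    by_cases hΩ : Nonempty Ω
    · obtain ⟨x⟩ := hΩ
      obtain ⟨g, hg, h⟩ := hσ (Fin.cons x α)
      exact ⟨g, hg, fun i => by simpa using h i.succ⟩
    · exact ⟨1, G.one_mem, fun i => (hΩ ⟨α i⟩).elim⟩
  have : σ = g₀ := by
    ext x
    obtain ⟨g, hg, h⟩ := hσ (Fin.cons x α)
    have h1 : g₀⁻¹ * g = 1 := by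
      apply hbase _ (G.mul_mem (G.inv_mem hg₀) hg)
      intro i
      have := h i.succ
      simp only [Fin.cons_succ] at this
      rw [Equiv.Perm.mul_apply, ← this, h₀ i]
      simp
    have h2 : g = g₀ := (inv_mul_eq_one.mp h1).symm
    have := h 0
    simp only [Fin.cons_zero] at this
    rw [this, h2]
  rw [this]; exact hg₀

end Cfsg.Agent.S3524
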