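import Cfsg.Statements.S3532
import Mathlib
import Cfsg.Agent.PERM.SpecSL2

set_option autoImplicit false
open Cfsg

namespace Cfsg.Agent.S3532

/-- Let q ≥ 4 be a prime power and L = PSL(2,q). There is a finite solvable group with the same set of element orders as L × L (so L × L is not determined by its spectrum). -/
theorem result {F : Type*} [Field F] [Fintype F] (hF : 4 ≤ Fintype.card F) :
    ∃ (H : Type) (_ : Group H) (_ : Finite H), Group.IsSolvable H ∧
      Set.range (orderOf : H → ℕ) = Set.range (orderOf : Matrix.ProjectiveSpecialLinearGroup (Fin 2) F × Matrix.ProjectiveSpecialLinearGroup (Fin 2) F → ℕ) := by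
  classical
  obtain ⟨m, hm, -⟩ := CL.GL2.exists_noEig_det_one (F := F)
  have : Fact (CL.GL2.NoEig m) := ⟨hm⟩
  set p := ringChar F with hp
  set a := (Fintype.card F - 1) / Nat.gcd (Fintype.card F - 1) 2 with ha
  set b := (Fintype.card F + 1) / Nat.gcd (Fintype.card F + 1) 2 with hb
  obtain ⟨H1, _, _, hs1, hH1⟩ := CL.Spec.exists_frobenius_field F (a := a)
    (Nat.div_dvd_of_dvd (Nat.gcd_dvd_left _ _))
  open CL.GL2 in
  obtain ⟨H2, _, _, hs2, hH2⟩ := CL.Spec.exists_frobenius_field (CL.GL2.QK m) (a := b) (by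
    rw [CL.GL2.card_quad]
    have : Fintype.card F ^ 2 - 1 = (Fintype.card F + 1) * (Fintype.card F - 1) := by
      rw [← Nat.sq_sub_sq]
    rw [this]
    exact (Nat.div_dvd_of_dvd (Nat.gcd_dvd_left _ _)).mul_right _)
  rw [← Algebra.ringChar_eq F, ← hp] at hH2
  refine ⟨H1 × H2, inferInstance, inferInstance, inferInstance, ?_⟩
  rw [CL.Spec.range_orderOf_prod, CL.Spec.range_orderOf_prod, hH1, hH2, CL.Spec.spec_PSL2]
  ext n
  simp only [Set.mem_ofPred_eq, ← hp, ← ha, ← hb]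
  constructor
  · rintro ⟨x, hx, y, hy, rfl⟩
    exact ⟨x, by tauto, y, by tauto, rfl⟩
  · rintro ⟨x, hx | hx | hx, y, hy | hy | hy, rfl⟩
    · exact ⟨x, Or.inl hx, y, Or.inl hy, rfl⟩
    · exact ⟨y, Or.inr hy, x, Or.inl hx, Nat.lcm_comm _ _⟩
    · exact ⟨x, Or.inl hx, y, Or.inr hy, rfl⟩
    · exact ⟨x, Or.inr hx, y, Or.inl hy, rfl⟩
    · exact ⟨Nat.lcm x y, Or.inr (Nat.lcm_dvd hx hy), 1, Or.inl (one_dvd _), (Nat.lcm_one_right _).symm⟩
    · exact ⟨x, Or.inr hx, y, Or.inr hy, rfl⟩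
    · exact ⟨y, Or.inl hy, x, Or.inr hx, Nat.lcm_comm _ _⟩
    · exact ⟨y, Or.inr hy, x, Or.inr hx, Nat.lcm_comm _ _⟩
    · exact ⟨1, Or.inl (one_dvd _), Nat.lcm x y, Or.inr (Nat.lcm_dvd hx hy), (Nat.lcm_one_left _).symm⟩

end Cfsg.Agent.S3532
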