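import Cfsg.Statements.S3547
import Cfsg.Agent.PERM.Derange

set_option autoImplicit false
open Cfsg

namespace Cfsg.Agent.S3547

open MulAction

/-- Let G act faithfully and transitively on a finite set Ω, let D be the subgroup generated by the derangements, and let r_G and r_D be the numbers of orbits of G and of D on ordered pairs of points (the permutation ranks). Then r_D − 1 = (r_G − 1)·[G : D]. -/
theorem result {G Ω : Type*} [Group G] [Finite G] [MulAction G Ω] [FaithfulSMul G Ω] [Finite Ω]
    (htrans : MulAction.IsPretransitive G Ω) :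
    Nat.card (MulAction.orbitRel.Quotient ↥(Subgroup.closure {g : G | ∀ ω : Ω, g • ω ≠ ω}) (Ω × Ω)) - 1 =
      (Nat.card (MulAction.orbitRel.Quotient G (Ω × Ω)) - 1) * (Subgroup.closure {g : G | ∀ ω : Ω, g • ω ≠ ω}).index := by
  classical
  set D := Subgroup.closure {g : G | ∀ ω : Ω, g • ω ≠ ω} with hDdef
  rcases isEmpty_or_nonempty Ω with hΩ | hΩ
  · have h1 : IsEmpty (orbitRel.Quotient D (Ω × Ω)) := ⟨fun q => Quotient.inductionOn' q (fun x => isEmptyElim x)⟩
    have h2 : IsEmpty (orbitRel.Quotient G (Ω × Ω)) := ⟨fun q => Quotient.inductionOn' q (fun x => isEmptyElim x)⟩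
    simp
  have := Fintype.ofFinite G
  have hD := CL.Perm.derang_aux D (fun g hg => Subgroup.subset_closure hg)
  have h1 := CL.Perm.burnside_sum G (Ω × Ω)
  rw [← Finset.sum_filter_add_sum_filter_not _ (· ∈ D), CL.Perm.burnside_sum_subgroup] at h1
  have h2 : ∑ g ∈ Finset.univ.filter (fun g => ¬ g ∈ D), Nat.card (fixedBy (Ω × Ω) g) =
      (Finset.univ.filter (fun g => ¬ g ∈ D)).card := by
    rw [Finset.card_eq_sum_ones]
    apply Finset.sum_congr rfl
    intro g hg
    rw [CL.Perm.card_fixedBy_prod, hD.2 g (by simpa using hg)]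
  have h3 : (Finset.univ.filter (· ∈ D)).card + (Finset.univ.filter (fun g => ¬ g ∈ D)).card =
      Nat.card G := by
    rw [Finset.card_filter_add_card_filter_not, Finset.card_univ, Nat.card_eq_fintype_card]
  have h4 : (Finset.univ.filter (· ∈ D)).card = Nat.card D := by
    rw [Nat.card_eq_fintype_card, Fintype.card_subtype]
  have hr : 0 < Nat.card (orbitRel.Quotient G (Ω × Ω)) := by
    have : Nonempty (orbitRel.Quotient G (Ω × Ω)) := (nonempty_quotient_iff _).mpr inferInstance
    exact Nat.card_pos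
  have hDpos : 0 < Nat.card D := Nat.card_pos
  have h5 := D.card_mul_index
  rw [h2] at h1
  rw [h4] at h3
  obtain ⟨r, hr'⟩ : ∃ r, Nat.card (orbitRel.Quotient G (Ω × Ω)) = r + 1 := ⟨_, (Nat.succ_pred_eq_of_pos hr).symm⟩
  rw [hr'] at h1 ⊢
  simp only [add_tsub_cancel_right]
  have h6 : Nat.card (orbitRel.Quotient D (Ω × Ω)) * Nat.card D = (r * D.index + 1) * Nat.card D := by
    have : (r * D.index + 1) * Nat.card D = r * Nat.card G + Nat.card D := by rw [← h5]; ring
    rw [this]
    have : (r + 1) * Nat.card G = r * Nat.card G + Nat.card G := by ring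
    omega
  rw [Nat.eq_of_mul_eq_mul_right hDpos h6]
  simp

end Cfsg.Agent.S3547
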