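import Cfsg.Statements.S3548
import Cfsg.Agent.PERM.Derange

set_option autoImplicit false
open Cfsg

namespace Cfsg.Agent.S3548

open MulAction

/-- Let G act faithfully and transitively on a finite set with n ≥ 2 points and let D be the subgroup generated by the derangements. Then the index of D in G divides n − 1, and if it equals n − 1 then n is a prime power. -/
theorem result {G Ω : Type*} [Group G] [Finite G] [MulAction G Ω] [FaithfulSMul G Ω] [Finite Ω]
    (htrans : MulAction.IsPretransitive G Ω) (hΩ : 2 ≤ Nat.card Ω) :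
    (Subgroup.closure {g : G | ∀ ω : Ω, g • ω ≠ ω}).index ∣ Nat.card Ω - 1 ∧
    ((Subgroup.closure {g : G | ∀ ω : Ω, g • ω ≠ ω}).index = Nat.card Ω - 1 → IsPrimePow (Nat.card Ω)) := by
  classical
  set D := Subgroup.closure {g : G | ∀ ω : Ω, g • ω ≠ ω} with hDdef
  have hD : ∀ g : G, (∀ ω : Ω, g • ω ≠ ω) → g ∈ D := fun g hg => Subgroup.subset_closure hg
  have hne : Nonempty Ω := by
    by_contra h
    rw [not_nonempty_iff] at h
    simp at hΩ
  obtain ⟨a⟩ := hne
  have : Nonempty Ω := ⟨a⟩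
  have hcompl : ({a}ᶜ : Set Ω).ncard = Nat.card Ω - 1 := by
    rw [Set.ncard_compl, Set.ncard_singleton]
  have hinv : ∀ g : G, g • a = a → ∀ x ∈ ({a}ᶜ : Set Ω), g • x ∈ ({a}ᶜ : Set Ω) := by
    intro g hg x hx h
    rw [Set.mem_singleton_iff, ← hg] at h
    exact hx (smul_left_cancel g h)
  refine ⟨?_, fun hidx => ?_⟩
  · rw [← hcompl]
    exact CL.Perm.index_dvd_ncard_of_derang_le D hD a _ (by simp) hinv
  have hDt := (CL.Perm.derang_aux D hD).1
  have hDn : D.Normal := CL.Perm.derang_normal G Ω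
  have key : ∀ b : Ω, a ≠ b → orbit (stabilizer G a) b = {a}ᶜ ∧
      D ⊓ stabilizer G a ≤ stabilizer G b := by
    intro b hab
    have h1 := CL.Perm.ncard_suborbit_eq_of_derang_le D hD hab
    have hsub : orbit (stabilizer G a) b ⊆ {a}ᶜ := by
      rintro _ ⟨g, rfl⟩
      exact hinv g g.2 b (fun h => hab h.symm)
    have h2 := Set.ncard_le_ncard hsub
    rw [hcompl, h1, hidx] at h2
    have h3 : (stabilizer G b).relIndex (D ⊓ stabilizer G a) ≠ 0 :=
      Subgroup.index_ne_zero_of_finite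
    have h4 : (stabilizer G b).relIndex (D ⊓ stabilizer G a) = 1 := by
      by_contra h
      have : 2 * (Nat.card Ω - 1) ≤ (stabilizer G b).relIndex (D ⊓ stabilizer G a) *
          (Nat.card Ω - 1) := Nat.mul_le_mul_right _ (by omega)
      omega
    refine ⟨Set.eq_of_subset_of_ncard_le hsub ?_, Subgroup.relIndex_eq_one.mp h4⟩
    rw [hcompl, h1, h4, hidx, one_mul]
  have hDa : ∀ d ∈ D, d • a = a → d = 1 := by
    intro d hd hda
    apply FaithfulSMul.eq_of_smul_eq_smul (α := Ω)
    intro b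
    rw [one_smul]
    by_cases hab : a = b
    · rw [← hab, hda]
    · exact (key b hab).2 ⟨hd, hda⟩
  have hcard : Nat.card D = Nat.card Ω := by
    have h1 := index_stabilizer_of_transitive D a
    have h2 : stabilizer D a = ⊥ := by
      rw [eq_bot_iff]
      intro d hd
      rw [Subgroup.mem_bot]
      exact Subtype.ext (hDa d d.2 hd)
    rw [h2, Subgroup.index_bot] at h1
    exact h1
  have hconj : ∀ d e : D, d ≠ 1 → e ≠ 1 → orderOf d = orderOf e := by
    intro d e hd he
    have hda : a ≠ (d : G) • a := fun h => hd (Subtype.ext (hDa d d.2 h.symm))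
    have hea : (e : G) • a ∈ ({a}ᶜ : Set Ω) := fun h => he (Subtype.ext (hDa e e.2 h))
    rw [← (key _ hda).1] at hea
    obtain ⟨g, hg⟩ := hea
    have hg' : (g : G) • (d : G) • a = (e : G) • a := hg
    have hga : (g : G)⁻¹ • a = a := by
      rw [inv_smul_eq_iff]; exact g.2.symm
    have := hDa ((e : G)⁻¹ * (g * d * (g : G)⁻¹)) (D.mul_mem (D.inv_mem e.2) (hDn.conj_mem _ d.2 _))
      (by rw [mul_smul, mul_smul, mul_smul, hga, hg', inv_smul_smul])
    rw [inv_mul_eq_one] at this
    rw [← Subgroup.orderOf_coe, ← Subgroup.orderOf_coe, this]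
    exact (MulAut.conj (g : G)).orderOf_eq d |>.symm
  obtain ⟨p, hp, hpd⟩ := Nat.exists_prime_and_dvd (show Nat.card D ≠ 1 by omega)
  have := Fact.mk hp
  obtain ⟨x, hx⟩ := exists_prime_orderOf_dvd_card' p hpd
  have hx1 : x ≠ 1 := by
    rintro rfl
    rw [orderOf_one] at hx
    exact hp.one_lt.ne hx
  have hpg : IsPGroup p D := by
    intro d
    by_cases hd : d = 1
    · exact ⟨0, by simp [hd]⟩
    · exact ⟨1, by rw [pow_one, ← hx, ← hconj d x hd hx1, pow_orderOf_eq_one]⟩
  obtain ⟨k, hk⟩ := IsPGroup.iff_card.mp hpg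
  rw [← hcard, hk]
  refine ⟨p, k, hp.prime, ?_, rfl⟩
  rcases Nat.eq_zero_or_pos k with h | h
  · rw [h, pow_zero] at hk; omega
  · exact h

end Cfsg.Agent.S3548
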