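import Cfsg.Statements.S3550
import Cfsg.Agent.PERM.DI.Main

set_option autoImplicit false
open Cfsg

namespace Cfsg.Agent.S3550
open scoped commutatorElement

/-- Let G act faithfully and primitively on a finite set with n ≥ 2 points and suppose G has no non-trivial abelian normal subgroup (G is not of affine type). Let D be the subgroup generated by the derangements. Then the index of D in G is at most √n − 1. -/
theorem result {G Ω : Type*} [Group G] [Finite G] [MulAction G Ω] [FaithfulSMul G Ω] [Finite Ω]
    (hprim : MulAction.IsPreprimitive G Ω) (hΩ : 2 ≤ Nat.card Ω) (hna : ∀ N : Subgroup G, N.Normal → IsMulCommutative ↥N → N = ⊥) :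
    ((Subgroup.closure {g : G | ∀ ω : Ω, g • ω ≠ ω}).index : ℝ) ≤ Real.sqrt (Nat.card Ω) - 1 := by
  have : Nontrivial Ω := Finite.one_lt_card_iff_nontrivial.1 hΩ
  by_cases h4 : 4 ≤ Nat.card Ω
  · rcases CL.DI.main hprim.toIsPretransitive h4 with ⟨⟨R, a, b, c⟩, -⟩ | h
    · exact absurd (hna R a b) c
    · exact h
  · exfalso
    classical
    have := Fintype.ofFinite Ω
    have hs : Group.IsSolvable (Equiv.Perm Ω) := by
      have e := Fintype.equivFinOfCardEq (α := Ω) rfl
      have : Group.IsSolvable (Equiv.Perm (Fin (Fintype.card Ω))) := by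
        rw [Nat.card_eq_fintype_card] at h4 hΩ
        generalize Fintype.card Ω = n at *
        have : n = 2 ∨ n = 3 := by omega
        rcases this with rfl | rfl
        · exact Group.isSolvable_of_comm (by decide)
        · have : Group.IsSolvable (alternatingGroup (Fin 3)) := Group.isSolvable_of_comm (by decide)
          exact Group.isSolvable_of_ker_le_range (alternatingGroup (Fin 3)).subtype Equiv.Perm.sign
            (by rw [Subgroup.range_subtype]; exact le_rfl)
      exact Group.isSolvable_of_isSolvable_injective (f := e.permCongrHom.toMonoidHom) e.permCongrHom.injective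
    have hG : Group.IsSolvable G :=
      Group.isSolvable_of_isSolvable_injective (f := MulAction.toPermHom G Ω) MulAction.toPerm_injective
    obtain ⟨n, hn⟩ := hG.solvable
    have k : ∀ m, derivedSeries G m = ⊥ → (⊤ : Subgroup G) = ⊥ := by
      intro m
      induction m with
      | zero => exact id
      | succ m ih =>
        intro e
        refine ih (hna _ (derivedSeries_normal G m) ⟨⟨fun x y => Subtype.ext ?_⟩⟩)
        have : ⁅x.1, y.1⁆ ∈ derivedSeries G (m + 1) := Subgroup.commutator_mem_commutator x.2 y.2
        rw [e, Subgroup.mem_bot] at this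
        exact commutatorElement_eq_one_iff_mul_comm.1 this
    obtain ⟨a, b, ab⟩ := exists_pair_ne Ω
    obtain ⟨g, e⟩ := hprim.toIsPretransitive.exists_smul_eq a b
    have : g = 1 := Subgroup.mem_bot.1 (k n hn ▸ Subgroup.mem_top g)
    exact ab (by rw [← e, this, one_smul])

end Cfsg.Agent.S3550
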