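import Cfsg.Statements.S3560

set_option autoImplicit false
open Cfsg

namespace Cfsg.Agent.S3560

open MulAction Equiv

theorem transfer {K X : Type*} [Group K] [Finite X] (G : Subgroup (Perm X)) (ψ : K →* Perm X)
    (hle : ∀ k, ψ k ∈ G) (ht : ∀ x y, ∃ k, ψ k x = y) (hr : ∀ k x, ψ k x = x → k = 1) (x₀ : X)
    (hp : IsPreprimitive G X) (h2 : ¬ IsMultiplyPretransitive G X 2) :
    ∃ (n : ℕ) (G R : Subgroup (Equiv.Perm (Fin n))), R ≤ G ∧ Nonempty (↥R ≃* K) ∧
      MulAction.IsPretransitive ↥R (Fin n) ∧ (∀ a : Fin n, MulAction.stabilizer ↥R a = ⊥) ∧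
      MulAction.IsPreprimitive ↥G (Fin n) ∧ ¬ MulAction.IsMultiplyPretransitive ↥G (Fin n) 2 := by
  let u := Finite.equivFin X
  let Φ := u.permCongrHom.toMonoidHom
  have hΦ : ∀ σ x, Φ σ (u x) = u (σ x) := fun σ x => by simp [Φ]
  refine ⟨_, G.map Φ, (Φ.comp ψ).range, ?_, ⟨(MonoidHom.ofInjective ?_).symm⟩, ⟨fun x y => ?_⟩,
    fun a => eq_bot_iff.mpr ?_, ?_, fun h => h2 ?_⟩
  · rintro _ ⟨k, rfl⟩
    exact ⟨ψ k, hle k, rfl⟩
  · rw [injective_iff_map_eq_one]
    intro k hk
    refine hr k x₀ (u.injective ?_)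
    rw [← hΦ]
    exact congrArg (fun σ : Perm _ => σ (u x₀)) hk
  · obtain ⟨k, hk⟩ := ht (u.symm x) (u.symm y)
    refine ⟨⟨_, k, rfl⟩, ?_⟩
    simpa [hk] using hΦ (ψ k) (u.symm x)
  · rintro ⟨_, k, rfl⟩ hk
    obtain ⟨a, rfl⟩ := u.surjective a
    obtain rfl := hr k a (u.injective ((hΦ _ _).symm.trans hk))
    exact Subtype.ext (map_one _)
  · let f : X →ₑ[Φ.subgroupMap G] Fin (Nat.card X) := ⟨u, fun g x => (hΦ g x).symm⟩
    exact IsPreprimitive.of_surjective (f := f) u.surjective
  · rw [is_two_pretransitive_iff] at h ⊢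
    intro a b c d hab hcd
    obtain ⟨⟨_, g, hg, rfl⟩, h3, h4⟩ := h (u.injective.ne hab) (u.injective.ne hcd)
    exact ⟨⟨g, hg⟩, u.injective ((hΦ _ _).symm.trans h3), u.injective ((hΦ _ _).symm.trans h4)⟩

/-- The isometry group of the Hamming space. -/
def ham (ι C : Type*) [Fintype ι] [DecidableEq C] : Subgroup (Perm (ι → C)) where
  carrier := {σ | ∀ x y, hammingDist (σ x) (σ y) = hammingDist x y}
  one_mem' := fun _ _ => rfl
  mul_mem' := fun hσ hτ x y => (hσ _ _).trans (hτ x y)
  inv_mem' := fun {σ} hσ x y => by rw [← hσ]; simp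

variable {ι C : Type*} [Fintype ι] [DecidableEq ι] [DecidableEq C]

omit [DecidableEq ι] in
theorem pi_mem (τ : ι → Perm C) : Equiv.piCongrRight τ ∈ ham ι C := fun x y => by
  simp [hammingDist]

omit [DecidableEq ι] in
theorem arrow_mem (τ : Perm ι) : Equiv.arrowCongr τ (Equiv.refl C) ∈ ham ι C := fun x y => by
  simp only [hammingDist]
  exact Finset.card_equiv τ.symm (by simp)

theorem isPreprimitive_ham [Finite C] (hC : 3 ≤ Nat.card C) : IsPreprimitive (ham ι C) (ι → C) := by
  have := Fintype.ofFinite C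
  have h2 : ∀ a b c d : C, a ≠ b → c ≠ d → ∃ τ : Perm C, τ a = c ∧ τ b = d := fun a b c d hab hcd =>
    is_two_pretransitive_iff.mp (Perm.isMultiplyPretransitive C 2) hab hcd
  have : IsPretransitive (ham ι C) (ι → C) := ⟨fun x y =>
    ⟨⟨_, pi_mem fun i => swap (x i) (y i)⟩, funext fun i => swap_apply_left (x i) (y i)⟩⟩
  refine ⟨fun {B} hB => B.subsingleton_or_nontrivial.imp id fun ⟨x, hx, y, hy, hxy⟩ => ?_⟩
  have key : ∀ g ∈ ham ι C, ∀ u ∈ B, ∀ v ∈ B, g u ∈ B → g v ∈ B := by
    intro g hg u hu v hv h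
    rw [← hB.smul_eq_of_mem (g := ⟨g, hg⟩) hu h]
    exact ⟨v, hv, rfl⟩
  obtain ⟨i, hi⟩ := Function.ne_iff.mp hxy
  obtain ⟨c, hcx, hcy⟩ : ∃ c, c ≠ x i ∧ c ≠ y i := by
    by_contra h
    push Not at h
    have := Finset.card_le_card (show (Finset.univ : Finset C) ⊆ {x i, y i} from fun c _ => by
      simpa using (em (c = x i)).imp_right (h c))
    rw [Finset.card_univ, ← Nat.card_eq_fintype_card] at this
    have := Finset.card_le_two (a := x i) (b := y i)
    omega
  have hy' : Function.update y i c ∈ B := by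
    have h3 := key _ (pi_mem (Function.update 1 i (swap (y i) c))) x hx y hy (by
      convert hx
      ext j
      by_cases hj : j = i
      · subst hj; simp [swap_apply_of_ne_of_ne hi hcx.symm]
      · simp [hj])
    convert h3
    ext j
    by_cases hj : j = i
    · subst hj; simp
    · simp [hj]
  have hadj : ∀ z ∈ B, ∀ j d, Function.update z j d ∈ B := by
    intro z hz j d
    by_cases hd : d = z j
    · simpa [hd] using hz
    obtain ⟨τ, h3, h4⟩ := h2 (y i) c (z j) d hcy.symm (Ne.symm hd)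
    have h5 := key _ ((ham ι C).mul_mem
      (pi_mem (Function.update (fun k => swap (y (swap i j k)) (z k)) j τ)) (arrow_mem (swap i j)))
      y hy _ hy' (by
        convert hz
        ext k
        by_cases hk : k = j
        · subst hk; simp [h3]
        · simp [hk])
    convert h5
    ext k
    by_cases hk : k = j
    · subst hk; simp [h4]
    · have : swap i j k ≠ i := fun h => hk (by simpa using congrArg (swap i j) h)
      simp [hk, this]
  have hall : ∀ (s : Finset ι) (z : ι → C), s.piecewise z x ∈ B := by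
    intro s z
    induction s using Finset.induction_on with
    | empty => simpa using hx
    | insert j s _ ih => rw [Finset.piecewise_insert]; exact hadj _ ih _ _
  exact Set.eq_univ_of_forall fun z => by simpa using hall Finset.univ z

theorem not_two_ham [Nontrivial C] [Nontrivial ι] :
    ¬ IsMultiplyPretransitive (ham ι C) (ι → C) 2 := by
  rw [is_two_pretransitive_iff]
  intro h
  obtain ⟨c, d, hcd⟩ := exists_pair_ne C
  obtain ⟨i, j, hij⟩ := exists_pair_ne ι
  obtain ⟨g, h1, h2⟩ := h (a := fun _ => c) (b := fun _ => d) (c := fun _ => c)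
    (d := Function.update (fun _ => c) i d) (fun h => hcd (congrFun h i))
    (fun h => hcd (by simpa using congrFun h i))
  have h3 := g.2 (fun _ => c) (fun _ => d)
  change hammingDist (g • _) (g • _) = _ at h3
  rw [h1, h2, hammingDist, hammingDist] at h3
  have h4 := Finset.eq_of_subset_of_card_le (fun k _ => by simp [hcd]) h3.ge
  simpa [hcd, hij.symm] using Finset.ext_iff.mp h4 j


/-- Let K be a finite group isomorphic to a direct product of r ≥ 2 groups all of the same order m ≥ 3. Then K is not a B-group: there is a primitive but not doubly transitive permutation group (on some finite set) containing a regular subgroup isomorphic to K. -/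
theorem result {K : Type*} [Group K] [Finite K] {ι : Type*} [Fintype ι] (F : ι → Type*) [∀ i, Group (F i)]
    (hr : 2 ≤ Fintype.card ι) (m : ℕ) (hm : 3 ≤ m) (hcard : ∀ i, Nat.card (F i) = m) (e : K ≃* (∀ i, F i)) :
    ∃ (n : ℕ) (G R : Subgroup (Equiv.Perm (Fin n))), R ≤ G ∧ Nonempty (↥R ≃* K) ∧
      MulAction.IsPretransitive ↥R (Fin n) ∧ (∀ a : Fin n, MulAction.stabilizer ↥R a = ⊥) ∧
      MulAction.IsPreprimitive ↥G (Fin n) ∧ ¬ MulAction.IsMultiplyPretransitive ↥G (Fin n) 2 := by
  classical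
  have : Nontrivial ι := Fintype.one_lt_card_iff_nontrivial.mp hr
  have : Nontrivial (Fin m) := Fin.nontrivial_iff_two_le.mpr (by omega)
  have hfin : ∀ i, Finite (F i) := fun i => Nat.finite_of_card_ne_zero (by rw [hcard]; omega)
  let b : ∀ i, F i ≃ Fin m := fun i => Finite.equivFinOfCardEq (hcard i)
  let ψ : K →* Perm (ι → Fin m) := MonoidHom.mk'
    (fun k => Equiv.piCongrRight fun i => (b i).permCongr (Equiv.mulLeft (e k i)))
    (fun k l => by ext x i; simp)
  refine transfer (ham ι (Fin m)) ψ (fun k => pi_mem _) (fun x y => ?_) (fun k x h => ?_)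
    (fun _ => ⟨0, by omega⟩) (isPreprimitive_ham (by simpa using hm)) not_two_ham
  · refine ⟨e.symm fun i => (b i).symm (y i) * ((b i).symm (x i))⁻¹, ?_⟩
    ext i
    simp [ψ]
  · apply e.injective
    ext i
    simpa [ψ, ← Equiv.eq_symm_apply] using congrFun h i

end Cfsg.Agent.S3560
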