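import Cfsg.Statements.S3571
import Cfsg.Agent.KSG.PrimeGap
import Cfsg.Agent.KSG.HallSym4
import Cfsg.Agent.KSG.AltAut
import Cfsg.Agent.FGS.PrimeCyc
import Cfsg.Agent.PERM.MultiTrans

set_option autoImplicit false
open Cfsg

namespace Cfsg.Agent.S3571

theorem pow_le_choose_mul (r : ℕ) : ∀ m, r ≤ m → m ^ r ≤ m.choose r * r ^ r := by
  induction r with
  | zero => simp
  | succ r ih =>
    rintro (_ | m) hm
    · omega
    rcases Nat.eq_zero_or_pos r with rfl | hr
    · simp
    have h1 : (m + 1) ^ r ≤ m.choose r * (r + 1) ^ r := by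
      refine Nat.le_of_mul_le_mul_right ?_ (Nat.pow_pos (n := r) hr)
      calc (m + 1) ^ r * r ^ r = ((m + 1) * r) ^ r := (mul_pow _ _ _).symm
        _ ≤ (m * (r + 1)) ^ r := Nat.pow_le_pow_left (by nlinarith) r
        _ ≤ m.choose r * r ^ r * (r + 1) ^ r := by
          rw [mul_pow]; exact Nat.mul_le_mul_right _ (ih m (by omega))
        _ = _ := by ring
    calc (m + 1) ^ (r + 1) = (m + 1) * (m + 1) ^ r := by ring
      _ ≤ (m + 1) * m.choose r * (r + 1) ^ r := by rw [mul_assoc]; exact Nat.mul_le_mul_left _ h1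
      _ = _ := by rw [Nat.add_one_mul_choose_eq]; ring

theorem pow_lt_choose {r m : ℕ} (hr : r.Prime) (hm : r ^ 2 ≤ m) :
    m ^ ((Finset.range (r + 1)).filter Nat.Prime).card < m.choose r := by
  have h1 := Nat.pow_sub_le_descFactorial m r
  rw [Nat.descFactorial_eq_factorial_mul_choose] at h1
  by_cases h : r < 11
  · have key : ∀ c, r.factorial * m ^ c < r.factorial * m.choose r → m ^ c < m.choose r :=
      fun c => Nat.lt_of_mul_lt_mul_left
    interval_cases r <;> simp (decide := true) only at hr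
    · refine key 1 ?_
      rw [← Nat.descFactorial_eq_factorial_mul_choose]
      obtain ⟨t, rfl⟩ := Nat.exists_eq_add_of_le' hm
      simp [Nat.descFactorial, Nat.factorial]
    · refine key 2 ?_
      rw [← Nat.descFactorial_eq_factorial_mul_choose]
      obtain ⟨t, rfl⟩ := Nat.exists_eq_add_of_le' hm
      simp [Nat.descFactorial, Nat.factorial]
      nlinarith
    · refine key 3 (lt_of_lt_of_le ?_ h1)
      obtain ⟨t, rfl⟩ := Nat.exists_eq_add_of_le' hm
      simp only [Nat.factorial, show t + 5 ^ 2 + 1 - 5 = t + 21 by omega]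
      ring_nf
      omega
    · refine key 4 (lt_of_lt_of_le ?_ h1)
      obtain ⟨t, rfl⟩ := Nat.exists_eq_add_of_le' hm
      simp only [Nat.factorial, show t + 7 ^ 2 + 1 - 7 = t + 43 by omega]
      ring_nf
      omega
  obtain ⟨j, rfl⟩ := hr.odd_of_ne_two (by omega)
  have h2 : ((Finset.range (2 * j + 1 + 1)).filter Nat.Prime).card ≤ j := by
    refine (Finset.card_le_card (t := insert 2 (((Finset.Icc 1 j).erase 4).image (2 * · + 1)))
      fun p hp => ?_).trans ((Finset.card_insert_le _ _).trans ((Nat.succ_le_succ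
        Finset.card_image_le).trans (by rw [Finset.card_erase_of_mem (by simp; omega)]; simp; omega)))
    obtain ⟨h3, h4⟩ := Finset.mem_filter.1 hp
    refine Finset.mem_insert.2 (or_iff_not_imp_left.2 fun h5 => ?_)
    obtain ⟨i, rfl⟩ := h4.odd_of_ne_two h5
    refine Finset.mem_image.2 ⟨i, ?_, rfl⟩
    have := h4.two_le
    have : i ≠ 4 := by rintro rfl; exact absurd h4 (by decide)
    simp at h3 ⊢
    omega
  have h3 := pow_le_choose_mul (2 * j + 1) m (by nlinarith)
  have hm0 : 0 < m := by nlinarith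
  refine (Nat.pow_le_pow_right hm0 h2).trans_lt (Nat.lt_of_mul_lt_mul_right (a := (2 * j + 1) ^ (2 * j + 1))
    (lt_of_lt_of_le ?_ h3))
  calc m ^ j * (2 * j + 1) ^ (2 * j + 1) = m ^ j * (((2 * j + 1) ^ 2) ^ j * (2 * j + 1)) := by
        rw [← pow_mul, ← pow_succ]
    _ < m ^ j * (m ^ j * m) := Nat.mul_lt_mul_of_pos_left (Nat.mul_lt_mul_of_le_of_lt
        (Nat.pow_le_pow_left hm j) (by nlinarith) (by positivity)) (by positivity)
    _ = _ := by ring

theorem mod_lt_mod {m k r : ℕ} (h5 : 5 ≤ m) (hk : 1 ≤ k) (hkm : 2 * k ≤ m) (hr : r.Prime)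
    (hd : r ∣ m.choose k) (hmax : ∀ s, s.Prime → s ∣ m.choose k → s ≤ r) :
    m % r < k % r ∧ (r = 2 → 4 ∣ m) := by
  have hA : k < r ∨ m < r ^ 2 := by
    by_contra h
    push Not at h
    have h0 := (Nat.choose_pos (show k ≤ m by omega)).ne'
    have h1 : m.choose r ≤ m.choose k := by
      obtain ⟨h, -⟩ := h
      clear hd hmax hk h0
      induction k, h using Nat.le_induction with
      | base => rfl
      | succ k _ ih => exact (ih (by omega)).trans (Nat.choose_le_succ_of_lt_half_left (by omega))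
    refine ((pow_lt_choose hr h.2).trans_le h1).not_ge ?_
    conv_lhs => rw [← Nat.prod_factorization_pow_eq_self h0]
    refine (Finset.prod_le_pow_card _ _ m fun p _ => Nat.pow_factorization_choose_le (by omega)).trans
      (Nat.pow_le_pow_right (by omega) (Finset.card_le_card fun p hp => ?_))
    have := Nat.mem_primeFactors.1 hp
    simpa [Nat.lt_succ_iff, this.1] using hmax p this.1 this.2.1
  refine ⟨?_, ?_⟩
  · rcases hA with h | h
    · have h1 := hd.mul_left k.factorial
      rw [← Nat.descFactorial_eq_factorial_mul_choose, Nat.descFactorial_eq_prod_range,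
        hr.prime.dvd_finsetProd_iff] at h1
      obtain ⟨i, hi, c, hc⟩ := h1
      have := Finset.mem_range.1 hi
      rw [show m = i + r * c by omega, Nat.add_mul_mod_self_left, Nat.mod_eq_of_lt h,
        Nat.mod_eq_of_lt (by omega)]
      exact this
    · obtain ⟨a, rfl⟩ := Nat.exists_eq_add_of_le' (show k ≤ m by omega)
      have h1 := (CL.KSG.prime_dvd_choose_iff hr h).1 hd
      rw [Nat.add_div hr.pos] at h1
      have h2 : r ≤ a % r + k % r := by by_contra h3; simp [h3] at h1
      have := Nat.add_mod_add_of_le_add_mod h2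
      have := Nat.mod_lt a hr.pos
      omega
  · rintro rfl
    obtain rfl : k = 1 := by omega
    rw [Nat.choose_one_right] at hmax
    have := Nat.eq_prime_pow_of_unique_prime_dvd (n := m) (p := 2) (by omega)
      fun {s} hs hd => le_antisymm (hmax s hs hd) hs.two_le
    generalize m.primeFactorsList.length = a at this
    subst this
    refine pow_dvd_pow 2 (show 2 ≤ a from ?_)
    by_contra h
    interval_cases a <;> omega

open Equiv Equiv.Perm Subgroup MulAction CL.HallSym
open scoped Pointwise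

theorem exists_type {m s j : ℕ} (hs : s.Prime) (hj : 0 < j) (h : j * s ≤ m) (h2 : s = 2 → Even j) :
    ∃ g ∈ alternatingGroup (Fin m), orderOf g = s ∧ g.cycleType = Multiset.replicate j s := by
  obtain ⟨g, hg⟩ := (exists_with_cycleType_iff (Fin m) (m := Multiset.replicate j s)).2
    ⟨by simpa using h, fun a ha => (Multiset.eq_of_mem_replicate ha).symm ▸ hs.two_le⟩
  refine ⟨g, ?_, ?_, hg⟩
  · rw [mem_alternatingGroup, sign_of_cycleType, hg]
    refine Even.neg_one_pow ?_
    rcases hs.eq_two_or_odd' with rfl | h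
    · simpa [Nat.even_add, Nat.even_mul] using h2 rfl
    · simp [Nat.even_add, Nat.even_mul, Nat.not_even_iff_odd.2 h]
  · obtain ⟨j, rfl⟩ := Nat.exists_eq_add_of_lt hj
    rw [← lcm_cycleType, hg]
    refine Nat.dvd_antisymm (Multiset.lcm_dvd.2 fun a ha => (Multiset.eq_of_mem_replicate ha).dvd)
      (Multiset.dvd_lcm (by simp))

theorem main {m r : ℕ} (h5 : 5 ≤ m) {G H : Subgroup (Perm (Fin m))}
    (hA : alternatingGroup (Fin m) ≤ G) (hHG : H ≤ G) (hr : r.Prime) (hrd : r ∣ H.relIndex G)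
    (hmax : ∀ s, s.Prime → s ∣ H.relIndex G → s ≤ r)
    (E : ∀ g ∈ G, orderOf g = r → ∃ x : Perm (Fin m), x * g * x⁻¹ ∈ H)
    (hΔ : ∀ Δ : Finset (Fin m), (∀ g ∈ H, ∀ x ∈ Δ, g x ∈ Δ) → 1 ≤ Δ.card → 2 * Δ.card ≤ m →
      2 * r ≤ m → m % r < Δ.card % r ∧ (r = 2 → 4 ∣ m)) : alternatingGroup (Fin m) ≤ H := by
  have := Fact.mk hr
  have h2r : 2 * r ≤ m := by
    obtain ⟨g, hg⟩ := exists_prime_orderOf_dvd_card' (G := G) r (hrd.trans (relIndex_dvd_card _ _))
    obtain ⟨x, hx⟩ := E g g.2 (by rw [orderOf_coe, hg])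
    have h1 := orderOf_dvd_natCard (⟨_, hx⟩ : H)
    rw [orderOf_mk, ← MulAut.conj_apply, MulEquiv.orderOf_eq, orderOf_coe, hg] at h1
    have h2 := (Nat.mul_dvd_mul h1 hrd).trans (c := m.factorial) (by
      rw [← relIndex_bot_left, relIndex_mul_relIndex ⊥ H G bot_le hHG, relIndex_bot_left]
      simpa using card_dvd G)
    by_contra h
    have h3 := hr.two_le
    rw [← pow_two, hr.pow_dvd_factorial_iff (b := 2) (Nat.log_lt_of_lt_pow (by omega)
      (by nlinarith))] at h2
    simp only [Nat.Ico_succ_singleton, Finset.sum_singleton, pow_one,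
      Nat.le_div_iff_mul_le hr.pos] at h2
    omega
  have cyc : ∀ s, s.Prime → s ≠ 2 → r ≤ s → s ≤ m → ∃ c ∈ H, c.cycleType = {s} := by
    intro s hs hs2 hrs hsm
    obtain ⟨g, hg, ho, ht⟩ := exists_type hs one_pos (by omega : 1 * s ≤ m) (by omega)
    obtain ⟨x, hx⟩ : ∃ x : Perm (Fin m), x * g * x⁻¹ ∈ H := by
      rcases hrs.eq_or_lt with rfl | h
      · exact E g (hA hg) ho
      have := Fact.mk hs
      obtain ⟨x, -, hx⟩ := exists_conj_mem (p := s) (Q := zpowers g)
        (IsPGroup.of_card (n := 1) (by rw [Nat.card_zpowers, ho, pow_one]))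
        (zpowers_le.2 (hA hg)) fun hd => (hmax s hs hd).not_gt h
      exact ⟨x, hx g (mem_zpowers g)⟩
    exact ⟨_, hx, by rw [cycleType_conj, ht]; rfl⟩
  have htr : IsPretransitive H (Fin m) := by
    by_contra hn
    obtain ⟨Δ, h1, h2, h3⟩ : ∃ Δ : Finset (Fin m), (∀ g ∈ H, ∀ x ∈ Δ, g x ∈ Δ) ∧ 1 ≤ Δ.card ∧
        2 * Δ.card ≤ m := by
      classical
      obtain ⟨a, b, hab⟩ : ∃ a b, ∀ g ∈ H, g a ≠ b := by
        by_contra! h
        exact hn ⟨fun a b => (h a b).elim fun g hg => ⟨⟨g, hg.1⟩, hg.2⟩⟩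
      set O := Finset.univ.filter fun x => ∃ g ∈ H, g a = x with hO
      have h1 : ∀ g ∈ H, ∀ x ∈ O, g x ∈ O := by
        simp only [hO, Finset.mem_filter, Finset.mem_univ, true_and]
        rintro g hg _ ⟨k, hk, rfl⟩
        exact ⟨g * k, mul_mem hg hk, rfl⟩
      by_cases h : 2 * O.card ≤ m
      · exact ⟨O, h1, Finset.card_pos.2 ⟨a, by simpa [hO] using ⟨1, one_mem H, rfl⟩⟩, h⟩
      · exact ⟨Oᶜ, inv_compl h1, Finset.card_pos.2 ⟨b, by simpa [hO] using hab⟩,
          by rw [Finset.card_compl, Fintype.card_fin]; omega⟩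
    obtain ⟨h4, h6⟩ := hΔ Δ h1 h2 h3 h2r
    obtain ⟨g, hg, ho, ht⟩ := exists_type hr (Nat.div_pos (by omega) hr.pos) (Nat.div_mul_le_self m r)
      (by rintro rfl; obtain ⟨c, rfl⟩ := h6 rfl; exact ⟨c, by omega⟩)
    obtain ⟨x, hx⟩ := E g (hA hg) ho
    rw [← cycleType_conj (τ := x)] at ht
    rw [← (MulAut.conj x).orderOf_eq, MulAut.conj_apply] at ho
    generalize x * g * x⁻¹ = k at hx ht ho
    have h7 := CL.Perm.ncard_modEq_ncard_inter_fixedPoints (p := r) (P := zpowers k)
      (IsPGroup.of_card (n := 1) (by rw [Nat.card_zpowers, ho, pow_one])) (Δ : Set (Fin m))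
      (Set.toFinite _) fun g hg => h1 g (zpowers_le.2 hx hg)
    have h8 : ((Δ : Set (Fin m)) ∩ fixedPoints (zpowers k) (Fin m)).ncard ≤ m % r := by
      refine (Set.ncard_le_ncard (t := (k.supportᶜ : Finset (Fin m))) fun z hz => ?_).trans ?_
      · simpa using hz.2 ⟨k, mem_zpowers k⟩
      · rw [Set.ncard_coe_finset, Finset.card_compl, ← sum_cycleType, ht, Nat.mod_def]
        simp [mul_comm]
    rw [Set.ncard_coe_finset, Nat.ModEq] at h7
    exact (h4.trans_eq h7).not_ge ((Nat.mod_le _ _).trans h8)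
  have prim : ∀ s, s.Prime → s ≤ m → m < 2 * s → IsPreprimitive H (Fin m) := by
    intro s hs h1 h2
    obtain ⟨c, hc, ht⟩ := cyc s hs (by omega) (by omega) h1
    have h3 : c.support.card = s := by rw [← sum_cycleType, ht]; rfl
    exact CL.FGS.PCycle.isPreprimitive_of_cycle (h3 ▸ hs) (card_cycleType_eq_one.1 (by rw [ht]; rfl))
      hc (by simpa [h3])
  by_cases h7 : m ≤ 7
  · obtain ⟨c, hc, ht⟩ := cyc 3 Nat.prime_three (by omega) (by omega) (by omega)
    exact alternatingGroup_le_of_isPreprimitive_of_isThreeCycle_mem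
      (prim 5 Nat.prime_five h5 (by omega)) ht hc
  obtain ⟨s, hs, h1, h2⟩ : ∃ s : ℕ, s.Prime ∧ s + 3 ≤ m ∧ m < 2 * s := by
    by_cases h9 : m ≤ 9
    · exact ⟨5, Nat.prime_five, by omega, by omega⟩
    by_cases h10 : m = 10
    · exact ⟨7, by decide, by omega, by omega⟩
    obtain ⟨s, hs, h1, h2⟩ := CL.KSG.exists_prime_two_thirds (n := m - 1) (by omega)
    exact ⟨s, hs, by omega, by omega⟩
  obtain ⟨c, hc, ht⟩ := cyc s hs (by omega) (by omega) (by omega)
  exact CL.Perm.alternatingGroup_le_of_prime_cycle H (prim s hs (by omega) h2) hs (by simpa)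
    (card_cycleType_eq_one.1 (by rw [ht]; rfl)) (by rw [← sum_cycleType, ht]; rfl) hc

theorem main' {K Ω : Type*} [Group K] [MulAction K Ω] [FaithfulSMul K Ω] [IsPretransitive K Ω]
    {m r : ℕ} (h5 : 5 ≤ m) (φ : K →* Perm (Fin m)) (hφ : Function.Injective φ)
    (hA : alternatingGroup (Fin m) ≤ φ.range) (ω : Ω) (hr : r.Prime) (hrd : r ∣ Nat.card Ω)
    (hmax : ∀ s, s.Prime → s ∣ Nat.card Ω → s ≤ r) (E : ∀ g : K, orderOf g = r → ∃ z : Ω, g • z = z)
    (hΔ : ∀ k (L : Subgroup K), stabilizer K ω ≤ L → L.index = m.choose k → 1 ≤ k → 2 * k ≤ m →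
      2 * r ≤ m → m % r < k % r ∧ (r = 2 → 4 ∣ m)) : False := by
  have h1 : ((stabilizer K ω).map φ).relIndex φ.range = Nat.card Ω := by
    rw [MonoidHom.range_eq_map, relIndex_map_map_of_injective _ _ hφ, relIndex_top_right,
      index_stabilizer_of_transitive]
  have h2 := main h5 hA (map_le_range φ _) hr (h1 ▸ hrd) (h1 ▸ hmax) ?_ ?_
  · obtain ⟨c, hc, ho, -⟩ := exists_type (m := m) Nat.prime_three one_pos (by omega) (by omega)
    obtain ⟨g, rfl⟩ := hA hc
    have : g = 1 := eq_of_smul_eq_smul fun z : Ω => by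
      obtain ⟨x, rfl⟩ := exists_smul_eq K ω z
      obtain ⟨k, hk, e⟩ := h2 (Normal.conj_mem' inferInstance _ hc (φ x))
      rw [← map_inv, ← map_mul, ← map_mul] at e
      rw [one_smul, ← inv_smul_eq_iff, smul_smul, smul_smul, ← hφ e]
      exact hk
    simp [this] at ho
  · rintro _ ⟨g, rfl⟩ hg
    obtain ⟨z, hz⟩ := E g (by rwa [orderOf_injective φ hφ] at hg)
    obtain ⟨x, rfl⟩ := exists_smul_eq K ω z
    exact ⟨φ x⁻¹, x⁻¹ * g * x, by simpa [mul_smul, inv_smul_eq_iff] using hz, by simp⟩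
  · intro Δ h3 h4 h6
    refine hΔ _ ((stabilizer (Perm (Fin m)) Δᶜ).comap φ)
      (fun g hg => smul_eq_of_inv (inv_compl h3 _ ⟨g, hg, rfl⟩)) ?_ h4 h6
    have h7 : Δᶜ.card = m - Δ.card := by rw [Finset.card_compl, Fintype.card_fin]
    rw [index_comap, relIndex_stabilizer hA (by omega), h7, Fintype.card_fin,
      Nat.choose_symm (by omega)]

/-- Let G be an almost simple group whose socle is an alternating group of degree m ≥ 5 (G has a normal subgroup T isomorphic to that alternating group with trivial centralizer), acting faithfully and primitively on a finite set Ω with at least two points, and let r be the largest prime divisor of the number of points. Then G contains an element of order r fixing no point. -/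
theorem result {G Ω : Type*} [Group G] [Finite G] [MulAction G Ω] [FaithfulSMul G Ω] [Finite Ω]
    (T : Subgroup G) (hT : T.Normal) (hTc : Subgroup.centralizer (T : Set G) = ⊥) (m : ℕ) (hm : 5 ≤ m)
    (eT : ↥T ≃* ↥(alternatingGroup (Fin m))) (hprim : MulAction.IsPreprimitive G Ω) (hΩ : 2 ≤ Nat.card Ω)
    (r : ℕ) (hr : r.Prime) (hrd : r ∣ Nat.card Ω) (hmax : ∀ s : ℕ, s.Prime → s ∣ Nat.card Ω → s ≤ r) :
    ∃ g : G, orderOf g = r ∧ ∀ ω : Ω, g • ω ≠ ω := by
  by_contra! E
  have := Finite.one_lt_card_iff_nontrivial.1 hΩ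
  obtain ⟨ω⟩ : Nonempty Ω := inferInstance
  by_cases h6 : m = 6
  · subst h6
    have : Nontrivial (alternatingGroup (Fin 6)) := alternatingGroup.nontrivial_of_three_le_card (by simp)
    have := CL.Perm.isPretransitive_of_normal_of_ne_bot hprim T
      ((nontrivial_iff_ne_bot T).1 eT.symm.injective.nontrivial)
    refine main' hm ((alternatingGroup (Fin 6)).subtype.comp eT.toMonoidHom)
      (Subtype.val_injective.comp eT.injective) (fun g hg => ⟨eT.symm ⟨g, hg⟩, by simp⟩) ω hr hrd hmax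
      (fun g hg => E g (by rwa [orderOf_coe])) fun k L h1 h2 h3 h4 h5 => ?_
    have h6 := index_dvd_of_le h1
    rw [index_stabilizer_of_transitive, h2] at h6
    obtain rfl : k = 1 := by
      by_contra h
      have h7 : k = 2 ∨ k = 3 := by omega
      have := hmax 5 Nat.prime_five (Dvd.dvd.trans (by rcases h7 with rfl | rfl <;> decide) h6)
      omega
    have := hmax 3 Nat.prime_three (Dvd.dvd.trans (by decide) h6)
    obtain rfl : r = 3 := by omega
    decide
  choose σ hσ using fun g : G => CL.KSG.exists_perm_of_mulAut (α := Fin m) (by simp; omega)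
    (by simpa) (MulAut.congr eT (MulAut.conjNormal g))
  have hu : ∀ g τ, (∀ a, (MulAut.congr eT (MulAut.conjNormal g) a).1 = τ * a.1 * τ⁻¹) → σ g = τ :=
    fun g τ h => (inv_mul_eq_one.1 (CL.KSG.eq_one_of_commute_alt (by simp; omega) fun a ha => by
      have := (hσ g ⟨a, ha⟩).symm.trans (h _)
      calc τ⁻¹ * σ g * a = τ⁻¹ * (σ g * a * (σ g)⁻¹) * σ g := by group
        _ = _ := by rw [this]; group)).symm
  let φ : G →* Perm (Fin m) := MonoidHom.mk' σ fun a b => hu _ _ fun c => by
    rw [map_mul, map_mul, MulAut.mul_apply, hσ, hσ]; group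
  refine main' hm φ ((injective_iff_map_eq_one φ).2 fun g hg => ?_) (fun g hg => ?_) ω hr hrd hmax E
    fun k L h1 h2 h3 h4 _ => ?_
  · refine mem_bot.1 (hTc ▸ fun t ht => ?_)
    have := hσ g (eT ⟨t, ht⟩)
    rw [show σ g = 1 from hg, one_mul, inv_one, mul_one] at this
    have := congrArg Subtype.val (eT.injective (Subtype.ext this))
    simp at this
    exact (mul_inv_eq_iff_eq_mul.1 this).symm
  · refine ⟨eT.symm ⟨g, hg⟩, hu _ _ fun a => ?_⟩
    have : MulAut.conjNormal (eT.symm ⟨g, hg⟩ : G) (eT.symm a) =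
        eT.symm ⟨g, hg⟩ * eT.symm a * (eT.symm ⟨g, hg⟩)⁻¹ := rfl
    simp [this]
  · have h7 : stabilizer G ω = L := by
      by_contra h
      rw [(IsPreprimitive.isCoatom_stabilizer_of_isPreprimitive G ω).2 L (h1.lt_of_ne h),
        index_top] at h2
      have := Nat.choose_eq_one_iff.1 h2.symm
      omega
    rw [← h7, index_stabilizer_of_transitive] at h2
    exact mod_lt_mod hm h3 h4 hr (h2 ▸ hrd) (h2 ▸ hmax)

end Cfsg.Agent.S3571
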