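import Cfsg.Statements.S3573

set_option autoImplicit false
open Cfsg

namespace Cfsg.Agent.S3573

open Equiv Equiv.Perm Finset

theorem card_support_of_mem {α : Type*} [Fintype α] [DecidableEq α] {σ : Perm α} {r : ℕ}
    (hr : r.Prime) (hσ : orderOf σ = r) {c : Perm α} (hc : c ∈ σ.cycleFactorsFinset) :
    #c.support = r := by
  obtain ⟨m, hm⟩ := cycleType_prime_order (σ := σ) (hσ ▸ hr)
  have : #c.support ∈ σ.cycleType := by
    rw [cycleType_def]
    exact Multiset.mem_map.mpr ⟨c, hc, rfl⟩
  rw [hm, hσ] at this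
  exact Multiset.eq_of_mem_replicate this

theorem exists_invariant {α : Type*} [Fintype α] [DecidableEq α] {σ : Perm α} {r : ℕ}
    (hr : r.Prime) (hσ : orderOf σ = r) (k : ℕ) (hk : k ≤ Fintype.card α)
    (hkr : k % r ≤ Fintype.card α % r) : ∃ s : Finset α, #s = k ∧ s.image σ = s := by
  have hcard : ∀ T ⊆ σ.cycleFactorsFinset, #(T.biUnion support) = #T * r := by
    intro T hT
    rw [card_biUnion, sum_const_nat (fun c hc => card_support_of_mem hr hσ (hT hc))]
    intro c hc d hd hcd
    exact (cycleFactorsFinset_pairwise_disjoint σ (hT hc) (hT hd) hcd).disjoint_support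
  have hsupp : #σ.support = #σ.cycleFactorsFinset * r := by
    rw [← sum_cycleType, cycleType_def]
    exact sum_const_nat (fun c hc => card_support_of_mem hr hσ hc)
  have hcompl : #σ.supportᶜ = Fintype.card α - #σ.cycleFactorsFinset * r := by
    rw [card_compl, hsupp]
  have hle : #σ.cycleFactorsFinset * r ≤ Fintype.card α := by
    rw [← hsupp]; exact card_le_univ _
  have hmod : Fintype.card α % r ≤ #σ.supportᶜ := by
    have : Fintype.card α = #σ.supportᶜ + #σ.cycleFactorsFinset * r := by omega
    rw [this, Nat.add_mul_mod_self_right]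
    exact Nat.mod_le _ _
  obtain ⟨j, hj1, hj2, hj3⟩ : ∃ j ≤ #σ.cycleFactorsFinset, j * r ≤ k ∧ k - j * r ≤ #σ.supportᶜ := by
    by_cases h : k / r ≤ #σ.cycleFactorsFinset
    · refine ⟨k / r, h, Nat.div_mul_le_self _ _, ?_⟩
      have := Nat.mod_add_div' k r
      omega
    · refine ⟨_, le_rfl, ?_, by omega⟩
      exact le_trans (Nat.mul_le_mul_right _ (by omega)) (Nat.div_mul_le_self k r)
  obtain ⟨T, hT, hTc⟩ := exists_subset_card_eq hj1
  obtain ⟨s₂, hs₂, hs₂c⟩ := exists_subset_card_eq hj3
  have hdisj : _root_.Disjoint (T.biUnion support) s₂ := by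
    rw [Finset.disjoint_left]
    intro x hx hx2
    obtain ⟨c, hc, hxc⟩ := mem_biUnion.mp hx
    exact mem_compl.mp (hs₂ hx2) (mem_cycleFactorsFinset_support_le (hT hc) hxc)
  refine ⟨T.biUnion support ∪ s₂, ?_, ?_⟩
  · rw [card_union_of_disjoint hdisj, hcard T hT, hTc, hs₂c]
    omega
  · apply eq_of_subset_of_card_le
    · intro y hy
      obtain ⟨x, hx, rfl⟩ := mem_image.mp hy
      rcases mem_union.mp hx with hx | hx
      · obtain ⟨c, hc, hxc⟩ := mem_biUnion.mp hx
        apply mem_union_left
        refine mem_biUnion.mpr ⟨c, hc, ?_⟩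
        rw [← (mem_cycleFactorsFinset_iff.mp (hT hc)).2 x hxc]
        exact apply_mem_support.mpr hxc
      · apply mem_union_right
        have := mem_compl.mp (hs₂ hx)
        rw [notMem_support] at this
        rwa [this]
    · rw [card_image_of_injective _ σ.injective]

theorem mod_le_of_invariant {α : Type*} [Fintype α] [DecidableEq α] {σ : Perm α} {r : ℕ}
    (hr : r.Prime) (hσ : σ ^ r = 1) (s : Finset α) (hs : s.image σ = s) :
    #s % r ≤ #σ.supportᶜ := by
  have := Fact.mk hr
  have hmem : ∀ x, σ x ∈ s ↔ x ∈ s := by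
    intro x
    constructor
    · intro h
      rw [← hs] at h
      obtain ⟨y, hy, hxy⟩ := mem_image.mp h
      rwa [← σ.injective hxy]
    · intro h
      rw [← hs]
      exact mem_image_of_mem _ h
  have h1 : (σ.subtypePerm hmem) ^ r ^ 1 = 1 := by
    rw [pow_one, subtypePerm_pow]
    ext x
    simp [hσ]
  have h2 := card_compl_support_modEq h1
  rw [Fintype.card_coe] at h2
  rw [← h2]
  refine (Nat.mod_le _ _).trans ?_
  apply card_le_card_of_injOn Subtype.val
  · intro x hx
    simp only [coe_compl, Set.mem_compl_iff, mem_coe, mem_support, not_not] at hx ⊢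
    exact congrArg Subtype.val hx
  · exact Subtype.val_injective.injOn

theorem choose_dvd_fact (n k : ℕ) (h : k ≤ n) : n.choose k ∣ n.factorial := by
  rw [← Nat.choose_mul_factorial_mul_factorial h, mul_assoc]
  exact Dvd.intro _ rfl

theorem main (n k r : ℕ) (hr : r.Prime) (hk : k ≤ n) (hrn : r ≤ n) :
    (∀ σ : Perm (Fin n), orderOf σ = r → ∃ s : Finset (Fin n), s.card = k ∧ s.image σ = s) ↔
      k % r ≤ n % r := by
  constructor
  · intro h
    obtain ⟨σ, hσ⟩ := (exists_with_cycleType_iff (Fin n) (m := Multiset.replicate (n / r) r)).mpr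
      ⟨by simpa using Nat.div_mul_le_self n r, fun a ha => by
        rw [Multiset.eq_of_mem_replicate ha]; exact hr.two_le⟩
    have hpos : 0 < n / r := Nat.div_pos hrn hr.pos
    have ho : orderOf σ = r := by
      rw [← lcm_cycleType, hσ]
      obtain ⟨m, hm⟩ : ∃ m, n / r = m + 1 := ⟨n / r - 1, by omega⟩
      rw [hm]
      apply Nat.dvd_antisymm
      · exact Multiset.lcm_dvd.mpr fun b hb => by rw [Multiset.eq_of_mem_replicate hb]
      · exact Multiset.dvd_lcm (by simp)
    obtain ⟨s, hs, hs'⟩ := h σ ho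
    have := mod_le_of_invariant hr (ho ▸ pow_orderOf_eq_one σ) s hs'
    rw [hs, card_compl, ← sum_cycleType, hσ] at this
    simp only [Fintype.card_fin, Multiset.sum_replicate, smul_eq_mul] at this
    have h2 := Nat.mod_add_div' n r
    omega
  · intro h σ hσ
    exact exists_invariant hr hσ k (by simpa using hk) (by simpa using h)


/-- Let 1 ≤ k with 2k < n and consider the symmetric group of degree n acting on the k-subsets of an n-set. Let r be a prime dividing the number C(n,k) of k-subsets. If r is odd, then every permutation of order r fixes some k-subset if and only if r ≤ k and the remainder of k modulo r is at most the remainder of n modulo r. If r = 2, then every involution fixes some k-subset if and only if k is even or n is odd. -/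
theorem result (n k : ℕ) (hk : 1 ≤ k) (hkn : 2 * k < n) (r : ℕ) (hr : r.Prime) (hrd : r ∣ Nat.choose n k) :
    (r ≠ 2 → ((∀ σ : Equiv.Perm (Fin n), orderOf σ = r → ∃ s : Finset (Fin n), s.card = k ∧ s.image σ = s) ↔
      (r ≤ k ∧ k % r ≤ n % r))) ∧
    (r = 2 → ((∀ σ : Equiv.Perm (Fin n), orderOf σ = 2 → ∃ s : Finset (Fin n), s.card = k ∧ s.image σ = s) ↔
      (Even k ∨ Odd n))) := by
  have hrn : r ≤ n := by
    have h1 : r ∣ n.factorial := hrd.trans (choose_dvd_fact n k (by omega))
    exact (hr.dvd_factorial).mp h1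
  have hm := main n k r hr (by omega) hrn
  refine ⟨fun _ => ?_, ?_⟩
  · rw [hm]
    refine ⟨fun h => ⟨?_, h⟩, fun h => h.2⟩
    by_contra hlt
    push Not at hlt
    have := Fact.mk hr
    have h1 := Choose.choose_modEq_choose_mod_mul_choose_div_nat (n := n) (k := k) (p := r)
    rw [Nat.div_eq_of_lt hlt, Nat.choose_zero_right, mul_one] at h1
    have h2 : r ∣ (n % r).choose (k % r) := (h1.dvd_iff dvd_rfl).mp hrd
    have h3 : r ∣ (n % r).factorial := h2.trans (choose_dvd_fact _ _ h)
    have := (hr.dvd_factorial).mp h3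
    have := Nat.mod_lt n hr.pos
    omega
  · rintro rfl
    rw [hm, Nat.even_iff, Nat.odd_iff]
    omega

end Cfsg.Agent.S3573
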