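import Cfsg.Statements.S3575
import Mathlib

set_option autoImplicit false
open Cfsg

namespace Cfsg.Agent.S3575

open Equiv Equiv.Perm Finset in
theorem exists_perm (X : Type*) [Fintype X] [DecidableEq X] (r : ℕ) (hr : r.Prime) (k : ℕ)
    (h : k * r ≤ Fintype.card X) : ∃ σ : Perm X, σ ^ r = 1 ∧ σ.support.card = k * r := by
  haveI := Fact.mk hr
  obtain ⟨g, hg⟩ := (Equiv.Perm.exists_with_cycleType_iff X (m := Multiset.replicate k r)).2
    ⟨by simpa using h, fun a ha => by rw [Multiset.eq_of_mem_replicate ha]; exact hr.two_le⟩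
  refine ⟨g, pow_prime_eq_one_iff.2 fun c hc => ?_, ?_⟩
  · rw [hg] at hc; exact Multiset.eq_of_mem_replicate hc
  · rw [← sum_cycleType, hg]; simp

open Equiv Equiv.Perm Finset in
theorem supp_card {X : Type*} [Fintype X] [DecidableEq X] {r : ℕ} (hr : r.Prime) {σ : Perm X}
    (h : σ ^ r = 1) : σ.support.card = σ.cycleType.card * r := by
  haveI := Fact.mk hr
  rw [← sum_cycleType]
  conv_lhs => rw [cycleType_of_pow_prime_eq_one h]
  simp

open Equiv Equiv.Perm Finset in
theorem conj_of {X : Type*} [Fintype X] [DecidableEq X] {r : ℕ} (hr : r.Prime) {σ τ : Perm X}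
    (h : σ ^ r = 1) (h' : τ ^ r = 1) (hc : σ.support.card = τ.support.card) : IsConj σ τ := by
  haveI := Fact.mk hr
  rw [isConj_iff_cycleType_eq, cycleType_of_pow_prime_eq_one h, cycleType_of_pow_prime_eq_one h']
  rw [supp_card hr h, supp_card hr h'] at hc
  rw [Nat.eq_of_mul_eq_mul_right hr.pos hc]

open Equiv Equiv.Perm Finset in
theorem dvd_inv {X : Type*} [Fintype X] [DecidableEq X] {r : ℕ} (hr : r.Prime) {σ : Perm X}
    (h : σ ^ r = 1) (p : X → Prop) [DecidablePred p] (hp : ∀ x, p (σ x) ↔ p x) :
    r ∣ (univ.filter fun x => p x ∧ σ x ≠ x).card := by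
  have h1 : (σ.subtypePerm hp) ^ r = 1 := by
    rw [subtypePerm_pow]; ext x; simp [h]
  have h2 := supp_card hr h1
  have h3 : (σ.subtypePerm hp).support.card = (univ.filter fun x => p x ∧ σ x ≠ x).card := by
    refine Finset.card_bij (fun x _ => x.1) ?_ ?_ ?_
    · intro x hx
      simp only [mem_support, ne_eq, Subtype.ext_iff, subtypePerm_apply] at hx
      simp [x.2, hx]
    · intro x _ y _ hxy; exact Subtype.ext hxy
    · intro x hx
      simp only [mem_filter, mem_univ, true_and] at hx
      exact ⟨⟨x, hx.1⟩, by simpa [mem_support, Subtype.ext_iff] using hx.2, rfl⟩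
  rw [← h3, h2]; exact Dvd.intro_left _ rfl

open Equiv Equiv.Perm Finset in
theorem fwd {X : Type*} [Fintype X] [DecidableEq X] {a b r : ℕ} (ha : 1 ≤ a) (hr : r.Prime) {σ : Perm X}
    (h : σ ^ r = 1) (f : X → Fin b) (hf : ∀ j, Nat.card {x // f x = j} = a) (π : Perm (Fin b))
    (hπ : ∀ x, f (σ x) = π (f x)) (k : ℕ) (hk : σ.support.card = k * r) :
    ∃ m, m * r ≤ b ∧ a * m ≤ k ∧ k ≤ a * m + (b - m * r) * (a / r) := by
  have hfib : ∀ j, (univ.filter fun x => f x = j).card = a := by
    intro j; rw [← hf j, Nat.card_eq_fintype_card, Fintype.card_subtype]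
  have hpow : ∀ (i : ℕ) x, f ((σ ^ i) x) = (π ^ i) (f x) := by
    intro i; induction i with
    | zero => simp
    | succ i ih => intro x; rw [pow_succ', pow_succ', Perm.mul_apply, Perm.mul_apply, hπ, ih]
  have hπr : π ^ r = 1 := by
    ext j
    obtain ⟨x, hx⟩ := Finset.card_pos.1 (show 0 < (univ.filter fun x => f x = j).card by rw [hfib]; omega)
    simp only [mem_filter, mem_univ, true_and] at hx
    rw [← hx, ← hpow, h]; simp
  have hm := supp_card hr hπr
  set m := π.cycleType.card
  have hmb : m * r ≤ b := by rw [← hm]; simpa using card_le_univ π.support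
  have hsum : σ.support.card = ∑ j, (univ.filter fun x => f x = j ∧ σ x ≠ x).card := by
    rw [card_eq_sum_card_fiberwise (f := f) (t := univ) (fun _ _ => mem_coe.2 (mem_univ _))]
    refine sum_congr rfl fun j _ => ?_
    congr 1; ext x; simp [mem_support, and_comm]
  have h1 : ∀ j ∈ π.support, (univ.filter fun x => f x = j ∧ σ x ≠ x).card = a := by
    intro j hj
    rw [← hfib j]; congr 1; ext x
    simp only [mem_filter, mem_univ, true_and, and_iff_left_iff_imp]
    intro hx hs
    apply mem_support.1 hj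
    rw [← hx, ← hπ, hs]
  have h2 : ∀ j ∈ π.supportᶜ, (univ.filter fun x => f x = j ∧ σ x ≠ x).card ≤ (a / r) * r := by
    intro j hj
    have hj' : π j = j := by simpa using hj
    obtain ⟨c, hc⟩ := dvd_inv hr h (fun x => f x = j) (fun x => by
      rw [hπ]; constructor
      · intro e; exact π.injective (e.trans hj'.symm)
      · intro e; rw [e, hj'])
    have hle : (univ.filter fun x => f x = j ∧ σ x ≠ x).card ≤ a := by
      rw [← hfib j]; exact card_le_card fun x hx => by simp at hx ⊢; exact hx.1
    rw [hc] at hle ⊢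
    rw [mul_comm]
    exact Nat.mul_le_mul_right _ ((Nat.le_div_iff_mul_le hr.pos).2 (by rwa [mul_comm]))
  rw [← sum_add_sum_compl π.support, sum_congr rfl h1, sum_const, smul_eq_mul, hm, hk] at hsum
  have h3 := sum_le_sum h2
  rw [sum_const, smul_eq_mul, card_compl, hm, Fintype.card_fin] at h3
  refine ⟨m, hmb, ?_, ?_⟩
  · apply Nat.le_of_mul_le_mul_right _ hr.pos
    nlinarith [Nat.zero_le (∑ j ∈ π.supportᶜ, (univ.filter fun x => f x = j ∧ σ x ≠ x).card)]
  · apply Nat.le_of_mul_le_mul_right _ hr.pos
    nlinarith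

open Finset in
theorem exists_split {ι : Type*} [DecidableEq ι] (T : Finset ι) (A : ℕ) : ∀ N, N ≤ T.card * A →
    ∃ c : ι → ℕ, (∀ j, c j ≤ A) ∧ (∀ j, j ∉ T → c j = 0) ∧ ∑ j ∈ T, c j = N := by
  induction T using Finset.induction_on with
  | empty => intro N hN; exact ⟨fun _ => 0, fun _ => Nat.zero_le _, fun _ _ => rfl, by simp at hN ⊢; omega⟩
  | insert i T hi ih =>
    intro N hN
    rw [card_insert_of_notMem hi] at hN
    obtain ⟨c, h1, h2, h3⟩ := ih (N - min N A) (by
      rcases le_total N A with h | h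
      · simp [h]
      · simp only [min_eq_right h]; rw [add_mul] at hN; omega)
    refine ⟨Function.update c i (min N A), fun j => ?_, fun j hj => ?_, ?_⟩
    · by_cases e : j = i
      · subst e; simp
      · simp [e, h1]
    · simp only [mem_insert, not_or] at hj
      simp [hj.1, h2 j hj.2]
    · rw [sum_insert hi, Function.update_self, sum_congr rfl (g := c) fun j hj =>
        Function.update_of_ne (by rintro rfl; exact hi hj) _ _, h3]
      have := min_le_left N A
      omega

open Equiv Equiv.Perm Finset in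
theorem bwd {X : Type*} [Fintype X] [DecidableEq X] {a b r : ℕ} (hX : Fintype.card X = a * b)
    (hr : r.Prime) {σ : Perm X} (h : σ ^ r = 1) (k : ℕ) (hk : σ.support.card = k * r)
    (m : ℕ) (hm1 : m * r ≤ b) (hm2 : a * m ≤ k) (hm3 : k ≤ a * m + (b - m * r) * (a / r)) :
    ∃ f : X → Fin b, (∀ j, Nat.card {x // f x = j} = a) ∧ ∃ π : Perm (Fin b), ∀ x, f (σ x) = π (f x) := by
  obtain ⟨π, hπ1, hπ2⟩ := exists_perm (Fin b) r hr m (by simpa using hm1)
  obtain ⟨c, hc1, hc2, hc3⟩ := exists_split π.supportᶜ (a / r) (k - a * m) (by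
    rw [card_compl, hπ2, Fintype.card_fin]; omega)
  have hρ : ∀ j, ∃ ρ : Perm (Fin a), ρ ^ r = 1 ∧ ρ.support.card = c j * r := fun j =>
    exists_perm (Fin a) r hr (c j) (by
      rw [Fintype.card_fin]; exact (Nat.mul_le_mul_right _ (hc1 j)).trans (Nat.div_mul_le_self _ _))
  choose ρ hρ1 hρ2 using hρ
  have hρ0 : ∀ j ∈ π.support, ρ j = 1 := by
    intro j hj
    rw [← support_eq_empty_iff, ← card_eq_zero, hρ2, hc2 j (by simpa using hj), zero_mul]
  have hρπ : ∀ j, ρ (π j) = ρ j := by
    intro j
    by_cases hj : j ∈ π.support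
    · rw [hρ0 j hj, hρ0 _ (apply_mem_support.2 hj)]
    · rw [notMem_support.1 hj]
  have hρπi : ∀ (i : ℕ) j, ρ ((π ^ i) j) = ρ j := by
    intro i; induction i with
    | zero => simp
    | succ i ih => intro j; rw [pow_succ', Perm.mul_apply, hρπ, ih]
  let τ : Perm (Fin b × Fin a) := Equiv.prodShear π ρ
  have hτ : ∀ j x, τ (j, x) = (π j, ρ j x) := fun j x => rfl
  have hτi : ∀ (i : ℕ) j x, (τ ^ i) (j, x) = ((π ^ i) j, (ρ j ^ i) x) := by
    intro i; induction i with
    | zero => simp
    | succ i ih => intro j x; rw [pow_succ', Perm.mul_apply, ih, hτ, hρπi, pow_succ', pow_succ']; rfl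
  have hτr : τ ^ r = 1 := by
    ext1 ⟨j, x⟩; rw [hτi, hπ1, hρ1]; rfl
  have hτs : τ.support.card = k * r := by
    rw [card_eq_sum_card_fiberwise (f := Prod.fst) (t := univ) (fun _ _ => mem_coe.2 (mem_univ _)),
      ← sum_add_sum_compl π.support]
    have h1 : ∀ j ∈ π.support, (τ.support.filter fun x => x.1 = j).card = a := by
      intro j hj
      symm
      conv_lhs => rw [← Fintype.card_fin a, ← card_univ]
      refine Finset.card_bij (fun x _ => (j, x)) ?_ ?_ ?_
      · intro x _
        simp only [mem_filter, mem_support, hτ, ne_eq, Prod.mk.injEq, not_and, and_true]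
        intro e; exact absurd e (mem_support.1 hj)
      · intro x _ y _ e; exact (Prod.mk.inj e).2
      · rintro ⟨j', x⟩ hx
        simp only [mem_filter] at hx
        exact ⟨x, mem_univ _, by rw [← hx.2]⟩
    have h2 : ∀ j ∈ π.supportᶜ, (τ.support.filter fun x => x.1 = j).card = c j * r := by
      intro j hj
      have hj' : π j = j := by simpa using hj
      rw [← hρ2]; symm
      refine Finset.card_bij (fun x _ => (j, x)) ?_ ?_ ?_
      · intro x hx
        simp only [mem_filter, mem_support, hτ, ne_eq, Prod.mk.injEq, not_and, and_true]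
        intro _; exact mem_support.1 hx
      · intro x _ y _ e; exact (Prod.mk.inj e).2
      · rintro ⟨j', x⟩ hx
        simp only [mem_filter, mem_support, hτ, ne_eq, Prod.mk.injEq, not_and] at hx
        obtain ⟨hx1, rfl⟩ := hx
        exact ⟨x, mem_support.2 (hx1 hj'), rfl⟩
    rw [sum_congr rfl h1, sum_congr rfl h2, ← sum_mul, hc3, sum_const, smul_eq_mul, hπ2]
    obtain ⟨d, rfl⟩ := Nat.exists_eq_add_of_le hm2
    rw [Nat.add_sub_cancel_left]; ring
  let e : (Fin b × Fin a) ≃ X := Fintype.equivOfCardEq (by simp [hX, mul_comm])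
  let τ' : Perm X := e.permCongr τ
  have hτ'r : τ' ^ r = 1 := by
    have : τ' = (e.permCongrHom) τ := rfl
    rw [this, ← map_pow, hτr, map_one]
  have hτ's : τ'.support.card = τ.support.card := by
    symm
    refine Finset.card_bij (fun x _ => e x) ?_ ?_ ?_
    · intro x hx
      simp only [mem_support, τ', permCongr_apply, symm_apply_apply, ne_eq, EmbeddingLike.apply_eq_iff_eq]
      exact mem_support.1 hx
    · intro x _ y _ h; exact e.injective h
    · intro y hy
      refine ⟨e.symm y, ?_, by simp⟩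
      simp only [mem_support, τ', permCongr_apply, ne_eq] at hy ⊢
      intro h'; apply hy; rw [h']; simp
  obtain ⟨g, hg⟩ := isConj_iff.1 (conj_of hr h hτ'r (by rw [hk, hτ's, hτs]))
  refine ⟨fun x => (e.symm (g x)).1, fun j => ?_, π, fun x => ?_⟩
  · have : {x // (e.symm (g x)).1 = j} ≃ Fin a :=
      { toFun := fun x => (e.symm (g x.1)).2
        invFun := fun y => ⟨g.symm (e (j, y)), by simp⟩
        left_inv := fun x => by
          obtain ⟨x, rfl⟩ := x
          simp
        right_inv := fun y => by simp }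
    rw [Nat.card_congr this]; simp
  · have : g (σ x) = τ' (g x) := by rw [← hg]; simp
    simp only [this, τ', permCongr_apply, symm_apply_apply]
    rfl

theorem arith (a b r : ℕ) (ha : 2 ≤ a) (hb : 2 ≤ b) (hr : 2 ≤ r) (hab : r ≤ a * b) :
    (∀ k, 1 ≤ k → k * r ≤ a * b → ∃ m, m * r ≤ b ∧ a * m ≤ k ∧ k ≤ a * m + (b - m * r) * (a / r)) ↔
      (r ≤ a ∧ (a % r = 0 ∨ (b % r = 0 ∧ a % r = 1) ∨
        (a % r ≠ 0 ∧ b % r ≠ 0 ∧ (b % r) * (a % r) < r ∧ (b < r ∨ (b % r + r) * (a % r) ≤ (b % r) * a + r)))) := by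
  have key : (∀ k, 1 ≤ k → k * r ≤ a * b → ∃ m, m * r ≤ b ∧ a * m ≤ k ∧ k ≤ a * m + (b - m * r) * (a / r)) ↔
      ((b % r) * (a % r) < r ∧ (b / r = 0 ∨ a % r ≤ (b % r) * (a / r) + 1)) := by
    have e1 := Nat.div_add_mod a r
    have e2 := Nat.div_add_mod b r
    have l1 := Nat.mod_lt a (show 0 < r by omega)
    have l2 := Nat.mod_lt b (show 0 < r by omega)
    generalize a / r = a1 at *
    generalize a % r = a0 at *
    generalize b / r = b1 at *
    generalize b % r = b0 at *
    have hm : ∀ m, m * r ≤ b → m ≤ b1 := by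
      intro m hm; by_contra hc; push Not at hc; nlinarith
    have hend : ∀ m, m ≤ b1 → a * m + (b - m * r) * a1 = a0 * m + b * a1 := by
      intro m hm
      obtain ⟨d, rfl⟩ := Nat.exists_eq_add_of_le hm
      have : b - m * r = r * d + b0 := by rw [← e2]; apply Nat.sub_eq_of_eq_add; ring
      rw [this, ← e1, ← e2]; ring
    constructor
    · intro H
      have hA : b0 * a0 < r := by
        by_contra hc; push Not at hc
        obtain ⟨m, h1, -, h3⟩ := H (a0 * b1 + b * a1 + 1) (by omega) (by rw [← e1, ← e2]; nlinarith)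
        have := hm m h1
        rw [hend m this] at h3
        nlinarith
      refine ⟨hA, ?_⟩
      by_contra hc; push Not at hc
      obtain ⟨c1, c2⟩ := hc
      obtain ⟨d, rfl⟩ := Nat.exists_eq_succ_of_ne_zero c1
      obtain ⟨m, h1, h2, h3⟩ := H (a0 * d + b * a1 + 1) (by omega) (by
        rw [← e1, ← e2]; simp only [Nat.succ_eq_add_one]; nlinarith)
      have h4 := hm m h1
      rw [hend m h4] at h3
      have h5 : m = d + 1 := by
        by_contra h6
        have : m ≤ d := by omega
        nlinarith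
      subst h5
      rw [← e1, ← e2] at h2
      simp only [Nat.succ_eq_add_one] at h2
      nlinarith
    · rintro ⟨hA, hB⟩ k hk1 hk2
      have hk3 : k ≤ a0 * b1 + b * a1 := by
        by_contra hc; push Not at hc
        rw [← e1, ← e2] at hk2; rw [← e2] at hc
        nlinarith
      have : ∀ n, n ≤ b1 → k ≤ a0 * n + b * a1 → ∃ m, m * r ≤ b ∧ a * m ≤ k ∧ k ≤ a * m + (b - m * r) * a1 := by
        intro n; induction n with
        | zero => intro _ h; exact ⟨0, by simp, by simp, by simpa using h⟩
        | succ n ih =>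
          intro hn h
          by_cases h' : k ≤ a0 * n + b * a1
          · exact ih (by omega) h'
          · refine ⟨n + 1, by rw [← e2]; nlinarith, ?_, by rw [hend _ hn]; exact h⟩
            push Not at h'
            obtain ⟨d, rfl⟩ := Nat.exists_eq_add_of_le hn
            have hB' := hB.resolve_left (by omega)
            rw [← e1]; rw [← e2] at h'
            nlinarith [Nat.zero_le (r * d * a1)]
      exact this b1 le_rfl hk3
  rw [key]
  have e1 := Nat.div_add_mod a r
  have e2 := Nat.div_add_mod b r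
  have l1 := Nat.mod_lt a (show 0 < r by omega)
  have l2 := Nat.mod_lt b (show 0 < r by omega)
  generalize a / r = a1 at *
  generalize a % r = a0 at *
  generalize b / r = b1 at *
  generalize b % r = b0 at *
  have hb1 : b1 = 0 ↔ b < r := by
    constructor
    · rintro rfl; omega
    · intro h; by_contra hc
      have : 1 ≤ b1 := by omega
      nlinarith
  have hc : a0 ≤ b0 * a1 + 1 ↔ (b0 + r) * a0 ≤ b0 * a + r := by
    rw [← e1]; constructor
    · intro h; nlinarith
    · intro h; apply Nat.le_of_mul_le_mul_left _ (show 0 < r by omega); nlinarith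
  constructor
  · rintro ⟨hA, hB⟩
    refine ⟨?_, ?_⟩
    · by_contra h; push Not at h
      have : a1 = 0 := by
        by_contra hc
        have : 1 ≤ a1 := by omega
        nlinarith
      subst this
      have : a0 = a := by omega
      subst this
      have := hB.resolve_right (by omega)
      subst this
      have : b0 = b := by omega
      subst this
      nlinarith
    · by_cases h0 : a0 = 0
      · exact Or.inl h0
      by_cases h1 : b0 = 0
      · subst h1
        refine Or.inr (Or.inl ⟨rfl, ?_⟩)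
        rcases hB with hB | hB
        · subst hB; omega
        · omega
      · exact Or.inr (Or.inr ⟨h0, h1, hA, hB.imp hb1.1 hc.1⟩)
  · rintro ⟨-, h | ⟨h1, h2⟩ | ⟨-, -, h1, h2⟩⟩
    · subst h; exact ⟨by omega, Or.inr (by omega)⟩
    · subst h1 h2; exact ⟨by omega, Or.inr (by omega)⟩
    · exact ⟨h1, h2.imp hb1.2 hc.2⟩

/-- Let a, b ≥ 2 and consider the symmetric group of degree a·b acting on the partitions of an (a·b)-set into b parts of size a (encoded as maps onto a b-element set all of whose fibres have a elements; a permutation fixes such a partition when it permutes the fibres). Let r be a prime dividing the number (ab)!/((a!)^b·b!) of such partitions, and let ℓ and k be the remainders of a and b modulo r. Then every permutation of order r fixes some such partition if and only if r ≤ a and one of the following holds: ℓ = 0; or k = 0 and ℓ = 1; or ℓ and k are non-zero, k·ℓ < r, and either b < r or (k + r)·ℓ ≤ k·a + r. -/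
theorem result (a b : ℕ) (ha : 2 ≤ a) (hb : 2 ≤ b) (r : ℕ) (hr : r.Prime)
    (hrd : r ∣ (a * b).factorial / (a.factorial ^ b * b.factorial)) :
    (∀ σ : Equiv.Perm (Fin (a * b)), orderOf σ = r →
        ∃ f : Fin (a * b) → Fin b, (∀ j : Fin b, Nat.card {x : Fin (a * b) // f x = j} = a) ∧
          ∃ π : Equiv.Perm (Fin b), ∀ x : Fin (a * b), f (σ x) = π (f x)) ↔
      (r ≤ a ∧ (a % r = 0 ∨ (b % r = 0 ∧ a % r = 1) ∨
        (a % r ≠ 0 ∧ b % r ≠ 0 ∧ (b % r) * (a % r) < r ∧ (b < r ∨ (b % r + r) * (a % r) ≤ (b % r) * a + r)))) := by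
  have hab : r ≤ a * b := by
    have h2 : (a.factorial ^ b * b.factorial) ∣ (a * b).factorial := by
      rw [mul_comm a b, ← Nat.uniformBell_mul_eq b (n := a) (by omega), mul_assoc]
      exact Dvd.intro_left _ rfl
    exact (hr.dvd_factorial).1 (hrd.trans (Nat.div_dvd_of_dvd h2))
  rw [← arith a b r ha hb hr.two_le hab]
  constructor
  · intro H k hk1 hk2
    obtain ⟨σ, h1, h2⟩ := exists_perm (Fin (a * b)) r hr k (by simpa using hk2)
    haveI := Fact.mk hr
    have h3 : orderOf σ = r := orderOf_eq_prime h1 (by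
      rintro rfl
      have := hr.pos
      simp at h2; omega)
    obtain ⟨f, hf, π, hπ⟩ := H σ h3
    exact fwd (by omega) hr h1 f hf π hπ k h2
  · intro H σ hσ
    have h1 : σ ^ r = 1 := hσ ▸ pow_orderOf_eq_one σ
    have h2 := supp_card hr h1
    obtain ⟨m, h3, h4, h5⟩ := H σ.cycleType.card (by
      rw [Nat.succ_le_iff, Equiv.Perm.card_cycleType_pos]
      rintro rfl
      simp at hσ; exact hr.ne_one hσ.symm) (by
      rw [← h2]; simpa using Finset.card_le_univ σ.support)
    exact bwd (by simp) hr h1 _ h2 m h3 h4 h5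

end Cfsg.Agent.S3575
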