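import Cfsg.Statements.S3580
import Cfsg.Agent.FGS.SylRat2

set_option autoImplicit false
open Cfsg

namespace Cfsg.Agent.S3580

/-- Let G act faithfully and transitively on a finite set Ω, let p be an odd prime dividing the order of G and P a Sylow p-subgroup of G. Then the number of orbits of P on Ω is at most (p/(2p − 1))·(number of points). -/
theorem result {G Ω : Type*} [Group G] [Finite G] [MulAction G Ω] [FaithfulSMul G Ω] [Finite Ω]
    (htrans : MulAction.IsPretransitive G Ω) (p : ℕ) [Fact p.Prime] (hp2 : p ≠ 2) (hpG : p ∣ Nat.card G)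
    (P : Sylow p G) :
    (2 * p - 1) * Nat.card (MulAction.orbitRel.Quotient ↥(P : Subgroup G) Ω) ≤ p * Nat.card Ω := by
  classical
  have := Fintype.ofFinite Ω
  have h1 := CL.SylRat.mul_card_orbits_le (Ω := Ω) P.isPGroup'
  have h2 := CL.SylRat.card_fixed_le (Ω := Ω) (CL.SylRat.gen_gen (p := p) (⊤ : Subgroup G))
    (P := P) (CL.SylRat.le_gen_iff.2 le_top) Finset.univ (fun _ _ _ _ => Finset.mem_univ _)
    fun a _ h => by
      refine P.ne_bot_of_dvd_card hpG (eq_bot_iff.2 fun x hx => ?_)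
      refine Subgroup.mem_bot.2 (eq_of_smul_eq_smul (α := Ω) fun b => ?_)
      obtain ⟨g, rfl⟩ := htrans.exists_smul_eq a b
      have h3 := (CL.SylRat.smul_le_cj_iff g).2
        ((CL.SylRat.le_gen_iff.2 (le_top : ((g⁻¹ • P : Sylow p G) : Subgroup G) ≤ ⊤)).trans h)
      rw [smul_inv_smul, ← CL.SylRat.stabilizer_smul'] at h3
      rw [one_smul]
      exact h3 hx
  rw [Finset.card_univ] at h2
  rw [Nat.card_eq_fintype_card (α := Ω)]
  obtain ⟨k, rfl⟩ : ∃ k, p = k + 1 := ⟨p - 1, by have := (Fact.out : p.Prime).pos; omega⟩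
  rw [show 2 * (k + 1) - 1 = 2 * k + 1 by omega] at h2 ⊢
  rw [Nat.add_sub_cancel] at h1 h2
  refine Nat.le_of_mul_le_mul_left ?_ k.succ_pos
  have h3 := Nat.mul_le_mul_left (2 * k + 1) h1
  have h4 := Nat.mul_le_mul_left k h2
  nlinarith

end Cfsg.Agent.S3580
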