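import Cfsg.Statements.S3592
import Cfsg.Agent.SPOR.Ord11c
-- import your own Cfsg.Agent.* helpers here

set_option autoImplicit false
open Cfsg

namespace Cfsg.Agent.S3592

/-- Let M be the Mathieu group M₁₁ (order 7920). If a finite group G has the same order as M and the same set of values of the function 'number of elements of order n' (taken over the element orders n that occur), then G is isomorphic to M. -/
theorem result {G : Type*} [Group G] [Finite G]
    (hcard : Nat.card G = Nat.card ↥Cfsg.Spor.M11)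
    (hnse : {c : ℕ | 0 < c ∧ ∃ n : ℕ, c = Nat.card {g : G // orderOf g = n}} =
      {c : ℕ | 0 < c ∧ ∃ n : ℕ, c = Nat.card {g : ↥Cfsg.Spor.M11 // orderOf g = n}}) :
    Nonempty (G ≃* ↥Cfsg.Spor.M11) := by
  have : Fact (Nat.Prime 11) := ⟨by norm_num⟩
  have : Fact (Nat.Prime 5) := ⟨by norm_num⟩
  have hM : Nat.card Spor.M11 = 7920 := by rw [CL.M12.M11_eq]; exact CL.M12.card_G11
  have := CL.Ord.isSimpleGroup_M11
  obtain ⟨T⟩ := CL.Ord.exists_T11 hM
  rw [hM] at hcard
  obtain ⟨P⟩ : Nonempty (Sylow 11 G) := inferInstance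
  have hP := CL.Small.card_sylow_eq_of_factor P (a := 1) (m := 720) hcard (by norm_num)
  have h1 := CL.Small.card_orderOf_eq_prime P hP
  have h2 := CL.Small.card_sylow_mul_card_normalizer P
  obtain ⟨-, n, hn⟩ := hnse.le (show Nat.card {g : G // orderOf g = 11} ∈ _ from
    ⟨by rw [h1]; exact Nat.mul_pos Nat.card_pos (by norm_num), 11, rfl⟩)
  have h3 : Nat.card (Sylow 11 G) = 144 := by
    obtain ⟨x, hx⟩ := exists_prime_orderOf_dvd_card' (G := Spor.M11) 11 (by rw [hM]; norm_num)
    obtain ⟨t, ht⟩ := exists_prime_orderOf_dvd_card' (G := Spor.M11) 2 (by rw [hM]; norm_num)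
    have key : ∀ q m d, 7920 = d * m → q ∣ n → (∀ y : Spor.M11, orderOf y = q →
        Nat.card (Subgroup.centralizer ({y} : Set Spor.M11)) = m) →
        d ∣ Nat.card (Sylow 11 G) * (11 - 1) := fun q m d h4 h5 h6 => by
      rw [← h1, hn]
      refine CL.Ord.dvd_card_orderOf (hM.trans h4) fun y hy => ?_
      obtain ⟨k, hk⟩ := CL.Ord.exists_pow_orderOf_eq (hy ▸ h5 : q ∣ orderOf y)
      exact h6 _ hk ▸ CL.Ord.card_centralizer_dvd_of_commute_pow y k
    have h4 := (by decide +kernel : ∀ n ∈ Nat.divisors 720, n % 11 = 1 →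
      n = 1 ∨ n = 12 ∨ n = 45 ∨ n = 144) _ (Nat.mem_divisors.2 ⟨CL.Small.card_sylow_dvd_of_factor
        (p := 11) (a := 1) hcard (by norm_num), by norm_num⟩) CL.Small.card_sylow_mod
    by_cases a2 : 2 ∣ n
    · have := key 2 48 165 rfl a2 fun y hy => (T.invol hM hy).1
      omega
    by_cases a3 : 3 ∣ n
    · have := key 3 18 440 rfl a3 fun y hy => (T.three hM hy ht hx).1
      omega
    by_cases a5 : 5 ∣ n
    · have := key 5 5 1584 rfl a5 T.C5
      omega
    by_cases a11 : 11 ∣ n
    · have := key 11 11 720 rfl a11 T.C11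
      omega
    obtain ⟨⟨g, hg⟩⟩ := (Nat.card_ne_zero.1
      (show Nat.card {g : Spor.M11 // orderOf g = n} ≠ 0 by omega)).1
    obtain rfl : n = 1 := (by decide +kernel : ∀ n ∈ Nat.divisors 7920, ¬ 2 ∣ n → ¬ 3 ∣ n →
      ¬ 5 ∣ n → ¬ 11 ∣ n → n = 1) n (Nat.mem_divisors.2 ⟨hg ▸ hM ▸ orderOf_dvd_natCard g,
        by norm_num⟩) a2 a3 a5 a11
    simp only [orderOf_eq_one_iff, Nat.card_unique] at hn
    omega
  obtain ⟨c, hc⟩ : 11 ∣ Nat.card (Subgroup.centralizer ((P : Subgroup G) : Set G)) := by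
    have := isCyclic_of_prime_card (p := 11) hP
    exact hP.symm.dvd.trans (Subgroup.card_dvd_of_le (Subgroup.le_centralizer _))
  have := CL.Ord.simple_of_not_22 hcard fun g hg => CL.D1.no_order_pq P hP Nat.prime_two
    (by norm_num) hc (fun h => by
      have := Subgroup.card_dvd_of_le (CL.Small.centralizer_le_normalizer' (P : Subgroup G))
      rw [h3] at h2
      have := (hc ▸ h.mul_left 11).trans this
      omega) g (by simp [hg]) (by simp [hg])
  exact CL.Ord.iso_M11 hcard

end Cfsg.Agent.S3592
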