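import Cfsg.Statements.S3593
import Cfsg.Agent.SPOR.Ord12d
import Cfsg.Agent.SPOR.OrdNse
-- import your own Cfsg.Agent.* helpers here

set_option autoImplicit false
open Cfsg

namespace Cfsg.Agent.S3593

/-- Let M be the Mathieu group M₁₂ (order 95040). If a finite group G has the same order as M and the same set of values of the function 'number of elements of order n' (taken over the element orders n that occur), then G is isomorphic to M. -/
theorem result {G : Type*} [Group G] [Finite G]
    (hcard : Nat.card G = Nat.card ↥Cfsg.Spor.M12)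
    (hnse : {c : ℕ | 0 < c ∧ ∃ n : ℕ, c = Nat.card {g : G // orderOf g = n}} =
      {c : ℕ | 0 < c ∧ ∃ n : ℕ, c = Nat.card {g : ↥Cfsg.Spor.M12 // orderOf g = n}}) :
    Nonempty (G ≃* ↥Cfsg.Spor.M12) := by
  have : Fact (Nat.Prime 11) := ⟨by norm_num⟩
  obtain ⟨_, hM⟩ := CL.Ord.simple_M12
  obtain ⟨T⟩ := CL.Ord.exists_B11 hM
  obtain ⟨P⟩ : Nonempty (Sylow 11 G) := inferInstance
  have hG := hcard.trans hM
  have hP := CL.Small.card_sylow_eq_of_factor P (a := 1) (m := 8640) hG (by norm_num)
  have := CL.Ord.simple_of_normalizer P hP (e := 5) (r := 2) (by norm_num)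
    (CL.Ord.card_normalizer_of_nse hcard (by norm_num) P hP T.C11 T.N11 hnse.le) (by norm_num)
    (by norm_num) (by norm_num) (by norm_num [hG]) (hG ▸ CL.Ord.pow_mod_ne_one (K := 17)
      [2, 3, 5, 11] (by simp; norm_num) (by norm_num) (by norm_num) (by norm_num) (by decide +kernel))
  exact CL.Ord.iso_M12 hG

end Cfsg.Agent.S3593
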