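import Cfsg.Statements.S3598
import Mathlib
import Cfsg.Agent.KSG.SL2Borel
import Cfsg.Agent.KSG.SL2Table
import Cfsg.Agent.KSG.PSL2Basic
import Cfsg.Agent.BLK.Princ2
import Cfsg.Agent.INV.BlockAux
import Cfsg.Agent.INV.Def1Loc
import Cfsg.Agent.INV.SmallTI
import Cfsg.Agent.INV.SmallPSL

set_option autoImplicit false
open Cfsg

namespace Cfsg.Agent.S3598

open Matrix MatrixGroups Subgroup CL.GL2 CL.Char

theorem card_eq_of_deg {G H : Type*} [Group G] [Finite G] [Group H] [Finite H]
    (h : ∀ d : ℕ, Nat.card {χ : IrrCharacter G // (χ : G → ℂ) 1 = (d : ℂ)} =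
      Nat.card {χ : IrrCharacter H // (χ : H → ℂ) 1 = (d : ℂ)}) : Nat.card G = Nat.card H := by
  classical
  set D := Finset.range (Nat.card G + Nat.card H + 1) with hD
  rw [← sum_charDegree_sq G, ← sum_charDegree_sq H,
    sum_irr_degree D (fun χ hχ => by
      have := Nat.le_of_dvd Nat.card_pos hχ.charDegree_dvd_card
      simp only [hD, Finset.mem_range]; omega) (fun d => d ^ 2),
    sum_irr_degree D (fun χ hχ => by
      have := Nat.le_of_dvd Nat.card_pos hχ.charDegree_dvd_card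
      simp only [hD, Finset.mem_range]; omega) (fun d => d ^ 2)]
  exact Finset.sum_congr rfl fun d _ => by rw [h d]

theorem exists_of_deg {G H : Type*} [Group G] [Finite G] [Group H] [Finite H]
    (h : ∀ d : ℕ, Nat.card {χ : IrrCharacter G // (χ : G → ℂ) 1 = (d : ℂ)} =
      Nat.card {χ : IrrCharacter H // (χ : H → ℂ) 1 = (d : ℂ)}) (χ : IrrCharacter G) :
    ∃ ψ : IrrCharacter H, (ψ : H → ℂ) 1 = charDegree (χ : G → ℂ) := by
  have h1 : 0 < Nat.card {ψ : IrrCharacter G // (ψ : G → ℂ) 1 = (charDegree (χ : G → ℂ) : ℂ)} := by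
    haveI : Nonempty {ψ : IrrCharacter G // (ψ : G → ℂ) 1 = (charDegree (χ : G → ℂ) : ℂ)} :=
      ⟨⟨χ, χ.2.apply_one_eq_charDegree⟩⟩
    exact Nat.card_pos
  rw [h] at h1
  obtain ⟨⟨ψ, hψ⟩⟩ := (Nat.card_pos_iff.1 h1).1
  exact ⟨ψ, hψ⟩

theorem psl_deg {F : Type*} [Field F] [Fintype F] [DecidableEq F]
    (h4 : Odd (Fintype.card F) → Even ((Fintype.card F - 1) / 2))
    (ψ : IrrCharacter PSL(2, F)) (n : ℕ) (hn : (ψ : PSL(2, F) → ℂ) 1 = n) :
    n = 1 ∨ n = Fintype.card F ∨ n = Fintype.card F + 1 ∨ n + 1 = Fintype.card F ∨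
      (Odd (Fintype.card F) ∧ 2 * n = Fintype.card F + 1) := by
  obtain ⟨d, hd⟩ := exists_noEig_SL (F := F)
  haveI : Fact (NoEig (d : Matrix (Fin 2) (Fin 2) F)) := ⟨hd⟩
  obtain ⟨ν, -, hν⟩ := irr_SL_table (d : Matrix (Fin 2) (Fin 2) F)
  have hχ := isIrr_PSL_iff.1 ψ.2
  have h1 : (fun g => (ψ : PSL(2, F) → ℂ) (pslMk F g)) 1 = n := by simpa using hn
  rcases hν hχ h1 with h | h | h | h | h | ⟨ho, h, η, h2, h1', hh⟩
  · exact Or.inl h.1
  · exact Or.inr (Or.inl h.1)
  · exact Or.inr (Or.inr (Or.inl h.1))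
  · exact Or.inr (Or.inr (Or.inr (Or.inl h.1)))
  · exact Or.inr (Or.inr (Or.inr (Or.inr ⟨h.1, h.2.1⟩)))
  · exfalso
    have e1 := hh.two_mul_scal (g := 1) (by simpa using isScal_one)
    have e2 := hh.two_mul_scal (g := -1) (by simpa using isScal_neg_iff.2 isScal_one)
    have e3 := dsL_neg η (1 : SL(2, F))
    rw [mul_one, torChar_sq_neg_one ho h2 h1', (h4 ho).neg_one_pow, dsL_one] at e3
    rw [dsL_one] at e1
    simp only [pslMk_neg] at e2
    rw [e2, e3] at e1
    have h5 : (2 : ℂ) * ((Fintype.card F : ℂ) - 1) = 0 := by linear_combination -e1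
    have h6 : (Fintype.card F : ℂ) = 1 := by
      rcases mul_eq_zero.1 h5 with h | h
      · norm_num at h
      · exact sub_eq_zero.1 h
    have h7 : Fintype.card F = 1 := by exact_mod_cast h6
    have := Fintype.one_lt_card (α := F)
    omega

theorem psl_linear {F : Type*} [Field F] [Fintype F] [DecidableEq F] (hq : 4 ≤ Fintype.card F) :
    Nat.card {χ : IrrCharacter PSL(2, F) // (χ : PSL(2, F) → ℂ) 1 = ((1 : ℕ) : ℂ)} = 1 := by
  rw [Nat.card_eq_one_iff_exists]
  refine ⟨⟨irrOne _, by simp [irrOne_apply]⟩, fun ⟨χ, hχ⟩ => Subtype.ext ?_⟩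
  have h1 := eq_one_of_degree hq (isIrr_PSL_iff.1 χ.2) (by simpa using hχ)
  apply eq_irrOne_iff.2
  funext g
  obtain ⟨x, rfl⟩ := pslMk_surjective g
  exact congrFun h1 x

theorem hperf_of {G : Type*} [Group G] [Finite G] (hc : commutator G = ⊤) (N : Subgroup G)
    (hN : N.Normal) (q k : ℕ) (hq : q.Prime) (h : N.index = q ^ k) : N = ⊤ := by
  haveI := Fact.mk hq
  have hP : IsPGroup q (G ⧸ N) := IsPGroup.of_card h
  haveI := hP.isNilpotent
  by_contra hne
  haveI : Nontrivial (G ⧸ N) := by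
    rw [QuotientGroup.nontrivial_iff]; exact hne
  have h1 : commutator (G ⧸ N) = ⊤ := by
    have := Subgroup.map_commutator (⊤ : Subgroup G) ⊤ (QuotientGroup.mk' N)
    rw [← commutator_def, hc, Subgroup.map_top_of_surjective _ (QuotientGroup.mk'_surjective N),
      ← commutator_def] at this
    exact this.symm
  exact (IsSolvable.commutator_lt_top_of_nontrivial (G ⧸ N)).ne h1

/-- the key vanishing argument -/
theorem no_mixed {G : Type*} [Group G] [Finite G] {p : ℕ} (hp : p.Prime)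
    (hlin : ∀ χ : IrrCharacter G, charDegree (χ : G → ℂ) = 1 → (χ : G → ℂ) = fun _ => 1)
    {y : G} (hy : p ∣ orderOf y) {s r : ℕ} (hs : s.Prime) (hsy : s ∣ orderOf y) (hr : r.Prime)
    (hd : ∀ χ : IrrCharacter G, charDegree (χ : G → ℂ) = 1 ∨ r ∣ charDegree (χ : G → ℂ) ∨
      ¬ p * charDegree (χ : G → ℂ) ∣ Nat.card G ∨ ¬ s * charDegree (χ : G → ℂ) ∣ Nat.card G) :
    False := by
  obtain ⟨M, hM⟩ := CL.BS.exists_isPModular p hp
  obtain ⟨χ, -, h1, h2, h3⟩ := CL.Blk.exists_principal_not_dvd hM hr hy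
  rcases hd χ with h | h | h | h
  · exact h1 (hlin χ h)
  · exact h2 h
  · exact h3 (CL.D1.eq_zero_of_not_dvd hp h hy)
  · exact h3 (CL.D1.eq_zero_of_not_dvd hs h hsy)

theorem sylow_count {G : Type*} [Group G] [Finite G] {p c : ℕ} [hp : Fact p.Prime] (hc : c = 1 ∨ c = 2)
    (hG : c * Nat.card G = p ^ 2 * (p ^ 2 + 1) * (p ^ 2 - 1))
    (hP : ∀ P : Sylow p G, Nat.card P = p ^ 2)
    (hC : ∀ R : Sylow p G, ∀ x ∈ (R : Subgroup G), x ≠ 1 → centralizer ({x} : Set G) = R)
    (P : Sylow p G) : Nat.card (Sylow p G) = Nat.card P + 1 := by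
  classical
  set q := p ^ 2 with hq
  have hq4 : 4 ≤ q := by have := hp.out.two_le; nlinarith
  have hTI := CL.Small.TI_of_centralizer hC
  have h1 := CL.Small.card_sylow_modEq_of_TI P fun R hR => hTI P R hR
  have h2 : Nat.card (Sylow p G) ∣ (P : Subgroup G).index := Sylow.card_dvd_index P
  have h3 : Nat.card P * (P : Subgroup G).index = Nat.card G := Subgroup.card_mul_index _
  rw [hP P] at h1 h3 ⊢
  obtain ⟨a, ha⟩ : ∃ a, q = a + 1 := ⟨q - 1, by omega⟩
  have h4 : c * (P : Subgroup G).index = (q + 1) * a := by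
    apply Nat.eq_of_mul_eq_mul_left (show 0 < q by omega)
    rw [← h3, show q - 1 = a by omega] at hG
    linarith
  set n := Nat.card (Sylow p G) with hn
  have hn1 : n ≠ 1 := by
    intro h
    haveI : Subsingleton (Sylow p G) := (Nat.card_eq_one_iff_unique.1 h).1
    haveI hPn : (P : Subgroup G).Normal := Sylow.normal_of_subsingleton P
    have hnt : Nontrivial P := by
      rw [← Finite.one_lt_card_iff_nontrivial, hP P]; omega
    obtain ⟨⟨x, hx⟩, hx1⟩ := exists_ne (1 : P)
    have hx1' : x ≠ 1 := fun h => hx1 (Subtype.ext h)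
    have h5 : (MulAction.orbit (ConjAct G) x).ncard = (P : Subgroup G).index := by
      rw [← hC P x hx hx1', ← MulAction.index_stabilizer, Subgroup.centralizer_eq_comap_stabilizer]
      exact (Subgroup.index_comap_of_surjective _ (ConjAct.toConjAct (G := G)).surjective).symm
    have h6 : (MulAction.orbit (ConjAct G) x).ncard ≤ q := by
      rw [← hP P]
      have : (MulAction.orbit (ConjAct G) x) ⊆ ((P : Subgroup G) : Set G) := by
        rintro _ ⟨g, rfl⟩
        exact hPn.conj_mem x hx (ConjAct.ofConjAct g)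
      exact Set.ncard_le_ncard this
    rw [h5] at h6
    rcases hc with rfl | rfl <;> nlinarith
  obtain ⟨m, hm⟩ := h2
  have hn0 : 0 < n := Nat.card_pos
  obtain ⟨k, hk⟩ : ∃ k, n = 1 + q * k := by
    have := (Nat.modEq_iff_dvd' (show 1 ≤ n by omega)).1 h1.symm
    obtain ⟨k, hk⟩ := this
    exact ⟨k, by omega⟩
  have hk0 : 1 ≤ k := by
    rcases Nat.eq_zero_or_pos k with rfl | h
    · simp at hk; exact absurd hk hn1
    · exact h
  rw [hm, hk] at h4
  -- (1 + q k) (c m) = (q+1) a
  have h7 : q ∣ c * m + 1 := by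
    have : c * m + 1 + q * (k * c * m) = q * q := by
      have : (q + 1) * a + 1 = q * q := by rw [ha]; ring
      nlinarith
    exact (Nat.dvd_add_left (dvd_mul_right q _)).1 (this ▸ dvd_mul_right q q)
  have h8 : a ≤ c * m := by
    have := Nat.le_of_dvd (Nat.succ_pos _) h7
    omega
  have ha0 : 0 < a := by omega
  have h9 : (1 + q * k) * a ≤ (q + 1) * a := by
    calc (1 + q * k) * a ≤ (1 + q * k) * (c * m) := Nat.mul_le_mul_left _ h8
      _ = (q + 1) * a := by rw [← h4]; ring
  have h10 := Nat.le_of_mul_le_mul_right h9 ha0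
  have h11 : q * 1 ≤ q * k := Nat.mul_le_mul_left _ hk0
  omega

/-- Let p be a prime and F a field with p² elements. If a finite group G has, for every d, the same number of irreducible complex characters of degree d as PSL(2,F) (the same first column of the character table, with multiplicities), then G is isomorphic to PSL(2,F). -/
theorem result {F : Type*} [Field F] [Fintype F] (p : ℕ) (hp : p.Prime)
    (hF : Fintype.card F = p ^ 2) {G : Type*} [Group G] [Finite G]
    (h : ∀ d : ℕ, Nat.card {χ : Cfsg.IrrCharacter G // (χ : G → ℂ) 1 = (d : ℂ)} =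
      Nat.card {χ : Cfsg.IrrCharacter (Matrix.ProjectiveSpecialLinearGroup (Fin 2) F) // (χ : Matrix.ProjectiveSpecialLinearGroup (Fin 2) F → ℂ) 1 = (d : ℂ)}) :
    Nonempty (G ≃* Matrix.ProjectiveSpecialLinearGroup (Fin 2) F) := by
  classical
  haveI := Fact.mk hp
  set q := Fintype.card F with hqd
  have hq4 : 4 ≤ q := by have := hp.two_le; nlinarith
  have hcard := card_eq_of_deg h
  have hG := gcd_mul_card_PSL2 (F := F)
  rw [← hcard, ← hqd] at hG
  have hodd4 : Odd q → Even ((q - 1) / 2) := by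
    intro ho
    rw [hF] at ho ⊢
    obtain ⟨k, hk⟩ := (Nat.odd_pow_iff two_ne_zero).1 ho
    subst hk
    have : ((2 * k + 1) ^ 2 - 1) / 2 = 2 * (k * k + k) := by
      have : (2 * k + 1) ^ 2 - 1 = 2 * (2 * (k * k + k)) := by
        rw [Nat.sub_eq_iff_eq_add (Nat.one_le_pow _ _ (by omega))]; ring
      rw [this]; simp
    rw [this]; exact even_two_mul _
  have hdeg : ∀ χ : IrrCharacter G, charDegree (χ : G → ℂ) = 1 ∨ charDegree (χ : G → ℂ) = q ∨
      charDegree (χ : G → ℂ) = q + 1 ∨ charDegree (χ : G → ℂ) + 1 = q ∨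
      (Odd q ∧ 2 * charDegree (χ : G → ℂ) = q + 1) := by
    intro χ
    obtain ⟨ψ, hψ⟩ := exists_of_deg h χ
    exact psl_deg hodd4 ψ _ hψ
  have hl := h 1
  rw [psl_linear hq4] at hl
  have hlin : ∀ χ : IrrCharacter G, charDegree (χ : G → ℂ) = 1 → (χ : G → ℂ) = fun _ => 1 := by
    intro χ hχ
    have := (Nat.card_eq_one_iff_unique.1 hl).1.elim ⟨χ, by rw [χ.2.apply_one_eq_charDegree, hχ]⟩
      ⟨irrOne G, by simp [irrOne_apply]⟩
    exact eq_irrOne_iff.1 (congrArg Subtype.val this)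
  have hcomm : commutator G = ⊤ := by
    rw [← Subgroup.index_eq_one, ← card_linear]
    simpa using hl
  obtain ⟨a, ha⟩ : ∃ a, q = a + 1 := ⟨q - 1, by omega⟩
  have hqa : q - 1 = a := by omega
  have hpq : p ∣ q := by rw [hF]; exact dvd_pow_self p two_ne_zero
  have hpa : ¬ p ∣ a := fun h => hp.one_lt.ne' (Nat.dvd_one.1 ((Nat.dvd_add_right h).1 (ha ▸ hpq)))
  have hpb : ¬ p ∣ q + 1 := fun h => hp.one_lt.ne' (Nat.dvd_one.1 ((Nat.dvd_add_right hpq).1 h))
  rw [hqa] at hG
  set c := Nat.gcd 2 a with hc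
  have hq0 : 0 < q := by omega
  have hGd : Nat.card G ∣ q * (q + 1) * a := ⟨c, by rw [← hG]; ring⟩
  have hSt : ¬ p * q ∣ Nat.card G := by
    intro h1
    have h2 := h1.trans hGd
    rw [mul_comm p q, mul_assoc, Nat.mul_dvd_mul_iff_left hq0] at h2
    rcases (Nat.Prime.dvd_mul hp).1 h2 with h | h
    · exact hpb h
    · exact hpa h
  have hc12 : c = 1 ∨ c = 2 := (Nat.dvd_prime Nat.prime_two).1 (Nat.gcd_dvd_left 2 a)
  have hpc : ¬ p ∣ c := fun h => hpa (h.trans (Nat.gcd_dvd_right 2 a))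
  have hqG : q ∣ Nat.card G := by
    have : Nat.Coprime q c := by
      rw [hF]; exact Nat.Coprime.pow_left _ ((Nat.Prime.coprime_iff_not_dvd hp).2 hpc)
    apply this.dvd_of_dvd_mul_left
    rw [hG, mul_assoc]; exact dvd_mul_right _ _
  have hP : ∀ P : Sylow p G, Nat.card P = p ^ 2 := by
    intro P
    rw [Sylow.card_eq_multiplicity]
    congr 1
    have h0 : Nat.card G ≠ 0 := Nat.card_pos.ne'
    apply le_antisymm
    · by_contra hlt
      apply hSt
      rw [hF, ← pow_succ']
      exact (hp.pow_dvd_iff_le_factorization h0).2 (by omega)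
    · rw [← hp.pow_dvd_iff_le_factorization h0, ← hF]; exact hqG
  have hsq : ∀ s : ℕ, s.Prime → s ≠ p → ¬ s ∣ q := fun s hs hsp h =>
    hsp ((Nat.prime_dvd_prime_iff_eq hs hp).1 (hs.dvd_of_dvd_pow (hF ▸ h)))
  have hmix : ∀ g : G, p ∣ orderOf g → ∀ s, s.Prime → s ∣ orderOf g → s = p := by
    intro y hy s hs hsy
    by_contra hsp
    have hsG : s ∣ q * (q + 1) * a := (hsy.trans (orderOf_dvd_natCard y)).trans hGd
    by_cases hsa : s ∣ a
    · -- use a prime divisor of (q+1)/c
      have hcb : c ∣ q + 1 := by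
        have : q + 1 = a + 2 := by omega
        rw [this]; exact dvd_add (Nat.gcd_dvd_right 2 a) (Nat.gcd_dvd_left 2 a)
      obtain ⟨b, hb⟩ := hcb
      have hb1 : b ≠ 1 := by rintro rfl; rcases hc12 with h | h <;> omega
      have hGe : Nat.card G = q * b * a := by
        apply Nat.eq_of_mul_eq_mul_left (show 0 < c by omega)
        rw [hG, hb]; ring
      have hsb : ¬ s ∣ b := by
        intro hsb
        have h2 : s ∣ 2 := by
          have : s ∣ a + 2 := by
            rw [show a + 2 = c * b by omega]; exact dvd_mul_of_dvd_right hsb _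
          exact (Nat.dvd_add_right hsa).1 this
        have hs2 : s = 2 := (Nat.prime_dvd_prime_iff_eq hs Nat.prime_two).1 h2
        subst hs2
        have hc2 : c = 2 := by rw [hc]; exact Nat.gcd_eq_left hsa
        obtain ⟨u, hu⟩ := hsa
        obtain ⟨v, hv⟩ := hodd4 ⟨u, by omega⟩
        obtain ⟨w, hw⟩ := hsb
        rw [hc2] at hb
        omega
      obtain ⟨r, hr, hrb⟩ := Nat.exists_prime_and_dvd hb1
      refine no_mixed hp hlin hy hs hsy hr fun χ => ?_
      rcases hdeg χ with h | h | h | h | ⟨ho, h⟩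
      · exact Or.inl h
      · rw [h]; exact Or.inr (Or.inr (Or.inl hSt))
      · rw [h, hb]; exact Or.inr (Or.inl (dvd_mul_of_dvd_right hrb _))
      · refine Or.inr (Or.inr (Or.inr ?_))
        rw [show charDegree (χ : G → ℂ) = a by omega, hGe,
          Nat.mul_dvd_mul_iff_right (show 0 < a by omega)]
        intro h1
        rcases (Nat.Prime.dvd_mul hs).1 h1 with h | h
        · exact hsq s hs hsp h
        · exact hsb h
      · have hc2 : c = 2 := by
          rw [hc]; apply Nat.gcd_eq_left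
          obtain ⟨u, hu⟩ := ho
          exact ⟨u, by omega⟩
        refine Or.inr (Or.inl ?_)
        rw [show charDegree (χ : G → ℂ) = b by rw [hc2] at hb; omega]
        exact hrb
    · obtain ⟨r, hr, hra⟩ := Nat.exists_prime_and_dvd (show a ≠ 1 by omega)
      have hk : ¬ s ∣ q * a := fun h1 => by
        rcases (Nat.Prime.dvd_mul hs).1 h1 with h | h
        · exact hsq s hs hsp h
        · exact hsa h
      refine no_mixed hp hlin hy hs hsy hr fun χ => ?_
      rcases hdeg χ with h | h | h | h | ⟨ho, h⟩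
      · exact Or.inl h
      · rw [h]; exact Or.inr (Or.inr (Or.inl hSt))
      · refine Or.inr (Or.inr (Or.inr fun h1 => hk ?_))
        have h2 := h1.trans hGd
        rw [h, show q * (q + 1) * a = (q * a) * (q + 1) by ring,
          Nat.mul_dvd_mul_iff_right (Nat.succ_pos q)] at h2
        exact h2
      · refine Or.inr (Or.inl ?_)
        rw [show charDegree (χ : G → ℂ) = a by omega]
        exact hra
      · refine Or.inr (Or.inr (Or.inr fun h1 => hk ?_))
        have hc2 : c = 2 := by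
          rw [hc]; apply Nat.gcd_eq_left
          obtain ⟨u, hu⟩ := ho
          exact ⟨u, by omega⟩
        have h2 := Nat.mul_dvd_mul_left c h1
        rw [hG, hc2, show 2 * (s * charDegree (χ : G → ℂ)) = s * (2 * charDegree (χ : G → ℂ)) by ring,
          h, show q * (q + 1) * a = (q * a) * (q + 1) by ring,
          Nat.mul_dvd_mul_iff_right (Nat.succ_pos q)] at h2
        exact h2
  have hC := CL.Small.centralizer_eq_of_card_sq hP hmix
  have hn := sylow_count hc12 (by rw [← hF, hqa]; exact hG) hP hC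
  have hZ := CL.Small.z2_sylow (fun P R hR => CL.Small.TI_of_centralizer hC P R hR)
    (fun P x hx hx1 g hg => by
      rw [← hC P x hx hx1]; exact Subgroup.mem_centralizer_singleton_iff.2 hg) hn (hpq.trans hqG)
  have hΩ : Nat.card (Sylow p G) = q + 1 := by
    obtain ⟨P⟩ : Nonempty (Sylow p G) := inferInstance
    rw [hn P, hP P, hF]
  have hsq1 : q ^ 2 - 1 = (q + 1) * a := by
    rw [Nat.sub_eq_iff_eq_add (Nat.one_le_pow _ _ hq0), ha]; ring
  rcases hc12 with hc1 | hc2
  · refine CL.Small.psl_of_z2_even hZ hΩ ?_ ?_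
    · by_contra hne
      obtain ⟨u, hu⟩ := Nat.not_even_iff_odd.1 hne
      have : c = 2 := by rw [hc]; exact Nat.gcd_eq_left ⟨u, by omega⟩
      omega
    · rw [← hqd, hsq1, ← mul_assoc, ← hG, hc1, one_mul]
  · refine CL.Small.psl_of_z2 hZ hΩ ?_ (hperf_of hcomm)
    rw [← hqd, hsq1, ← mul_assoc, ← hG, hc2]

end Cfsg.Agent.S3598
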