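import Cfsg.Statements.S3619
import Mathlib

set_option autoImplicit false
open Cfsg

namespace Cfsg.Agent.S3619

open MulAction SubMulAction Pointwise

/-- Let G act faithfully on a finite set in such a way that every non-trivial normal subgroup of G is transitive (G is quasiprimitive). Let Γ be a subset with more than one point and not the whole set, such that the pointwise stabilizer of the complement of Γ acts transitively on Γ (a Jordan set). If that pointwise stabilizer acts primitively on Γ, then G is k-fold transitive where k is one more than the number of points outside Γ (the Jordan set is a trivial one). -/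
theorem result {G Ω : Type*} [Group G] [Finite G] [MulAction G Ω] [FaithfulSMul G Ω] [Finite Ω]
    (hqp : ∀ N : Subgroup G, N.Normal → N ≠ ⊥ → MulAction.IsPretransitive ↥N Ω)
    (Γ : Set Ω) (hΓ1 : 1 < Γ.ncard) (hΓ2 : Γ.ncard < Nat.card Ω)
    (hJ : MulAction.IsPretransitive ↥(fixingSubgroup G Γᶜ) ↥(SubMulAction.ofFixingSubgroup G Γᶜ))
    (hJp : MulAction.IsPreprimitive ↥(fixingSubgroup G Γᶜ) ↥(SubMulAction.ofFixingSubgroup G Γᶜ)) :
    MulAction.IsMultiplyPretransitive G Ω (Nat.card Ω - Γ.ncard + 1) := by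
  obtain ⟨a, b, ha, hb, hab⟩ := (Set.one_lt_ncard_iff (Set.toFinite Γ)).1 hΓ1
  have hmem : ∀ x, x ∈ Γ → x ∈ ofFixingSubgroup G Γᶜ := fun x hx => by
    rw [mem_ofFixingSubgroup_iff]; simpa using hx
  obtain ⟨j0, hj0⟩ := hJ.exists_smul_eq (⟨a, hmem a ha⟩ : ofFixingSubgroup G Γᶜ) ⟨b, hmem b hb⟩
  have hj0' : (j0 : G) • a = b := congrArg Subtype.val hj0
  have hj1 : (j0 : G) ≠ 1 := fun e => hab (by rw [← hj0', e, one_smul])
  have htr : IsPretransitive G Ω := by
    have := hqp ⊤ inferInstance (fun e => hj1 (by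
      have : (j0 : G) ∈ (⊤ : Subgroup G) := trivial
      rwa [e] at this))
    exact ⟨fun x y => by
      obtain ⟨g, hg⟩ := this.exists_smul_eq x y
      exact ⟨g, hg⟩⟩
  have hprim : IsPreprimitive G Ω := by
    refine ⟨fun {B} hB => ?_⟩
    by_contra hnt
    simp only [IsTrivialBlock, not_or] at hnt
    obtain ⟨hB1, hB2⟩ := hnt
    have hK : (stabilizer G B).normalCore = ⊥ := by
      by_contra hK
      have := hqp _ inferInstance hK
      obtain ⟨x, hx, -⟩ := Set.not_subsingleton_iff.1 hB1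
      apply hB2
      refine Set.eq_univ_of_forall fun y => ?_
      obtain ⟨g, rfl⟩ := this.exists_smul_eq x y
      have h1 : (g : G) • B = B := Subgroup.normalCore_le _ g.2
      have h2 : (g : G) • x ∈ (g : G) • B := Set.smul_mem_smul_set hx
      rwa [h1] at h2
    apply hj1
    rw [← Subgroup.mem_bot, ← hK]
    intro g
    have hC := hB.translate g⁻¹
    have hC1 : ¬ (g⁻¹ • B).Subsingleton := fun h => hB1 (by
      have := h.image (fun x => g • x)
      simpa [← Set.image_smul, Set.image_image] using this)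
    suffices h : (j0 : G) • g⁻¹ • B = g⁻¹ • B by
      rw [mem_stabilizer_iff, mul_smul, mul_smul, h, smul_inv_smul]
    generalize g⁻¹ • B = C at hC hC1
    by_cases hCΓ : C ⊆ Γ
    · have h1 : IsBlock (fixingSubgroup G Γᶜ)
          ((ofFixingSubgroup_equivariantMap G Γᶜ) ⁻¹' C) := hC.preimage _
      rcases hJp.isTrivialBlock_of_isBlock h1 with h2 | h2
      · exfalso
        apply hC1
        intro x hx y hy
        exact congrArg Subtype.val (@h2 ⟨x, hmem x (hCΓ hx)⟩ hx ⟨y, hmem y (hCΓ hy)⟩ hy)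
      · have h3 : ∀ x ∈ Γ, x ∈ C := fun x hx =>
          (show (⟨x, hmem x hx⟩ : ofFixingSubgroup G Γᶜ) ∈
            (ofFixingSubgroup_equivariantMap G Γᶜ) ⁻¹' C from h2 ▸ Set.mem_univ _)
        exact isBlock_iff_smul_eq_of_mem.1 hC (h3 a ha) (hj0' ▸ h3 b hb)
    · obtain ⟨x, hx, hxΓ⟩ := Set.not_subset.1 hCΓ
      have h1 : (j0 : G) • x = x := j0.2 ⟨x, hxΓ⟩
      exact isBlock_iff_smul_eq_of_mem.1 hC hx (h1.symm ▸ hx)
  have hc := Set.ncard_add_ncard_compl Γ
  obtain ⟨n, hn⟩ : ∃ n, Γᶜ.ncard = n + 1 := ⟨Γᶜ.ncard - 1, by omega⟩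
  have := hprim.isMultiplyPreprimitive hn (by omega) hJp
  rw [show Nat.card Ω - Γ.ncard + 1 = n + 2 by omega]
  infer_instance

end Cfsg.Agent.S3619
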