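import Cfsg.Statements.S3620
import Cfsg.Agent.PERM.Marggraf
import Cfsg.Agent.S0711

set_option autoImplicit false
open Cfsg

namespace Cfsg.Agent.S3620

open MulAction CL.Marg
open scoped Pointwise

theorem ncard_preimage {G Ω X : Type*} [Group G] [MulAction G Ω] [MulAction G X] [Finite Ω]
    [Finite X] [IsPretransitive G X] (π : Ω → X) (hπ : ∀ (g : G) a, π (g • a) = g • π a) (x₀ : X)
    (S : Set X) : (π ⁻¹' S).ncard = (π ⁻¹' {x₀}).ncard * S.ncard := by
  classical
  have fib : ∀ x : X, (π ⁻¹' {x}).ncard = (π ⁻¹' {x₀}).ncard := by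
    intro x
    obtain ⟨g, rfl⟩ := exists_smul_eq G x₀ x
    rw [← Set.ncard_smul_set g (π ⁻¹' {x₀})]
    congr 1
    ext a
    rw [Set.mem_smul_set_iff_inv_smul_mem, Set.mem_preimage, Set.mem_preimage, hπ,
      Set.mem_singleton_iff, Set.mem_singleton_iff, inv_smul_eq_iff]
  induction S, S.toFinite using Set.Finite.induction_on with
  | empty => simp
  | insert hx _ ih =>
    rw [Set.ncard_insert_of_notMem hx, Set.insert_eq, Set.preimage_union,
      Set.ncard_union_eq (Disjoint.preimage π (Set.disjoint_singleton_left.2 hx)), fib, ih]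
    ring

theorem prim {G Ω : Type*} [Group G] [Finite G] [MulAction G Ω] [FaithfulSMul G Ω] [Finite Ω]
    (hqp : ∀ N : Subgroup G, N.Normal → N ≠ ⊥ → IsPretransitive N Ω) {Γ : Set Ω}
    (h1 : 1 < Γ.ncard) (h2 : Γ.ncard < Γᶜ.ncard) (hJ : Jor G Γ) : IsPreprimitive G Ω := by
  classical
  obtain ⟨a, ha, a', ha', haa⟩ := (Set.one_lt_ncard (Set.toFinite Γ)).1 h1
  obtain ⟨k, hk, hka⟩ := hJ a ha a' ha'
  have hk1 : k ≠ 1 := by
    rintro rfl
    exact haa (by rw [← hka, one_smul])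
  have htr : IsPretransitive G Ω := ⟨fun x y => by
    obtain ⟨g, hg⟩ := (hqp ⊤ inferInstance (fun h => hk1 (by
      rw [← Subgroup.mem_bot, ← h]; trivial))).exists_smul_eq x y
    exact ⟨g, hg⟩⟩
  have : Nontrivial Ω := ⟨a, a', haa⟩
  by_contra hP
  have hst : stabilizer G a ≠ ⊤ := fun h => haa (by
    rw [← hka]; exact (show k ∈ stabilizer G a from h ▸ Subgroup.mem_top k).symm)
  obtain ⟨M, hM, hle⟩ := (eq_top_or_exists_le_coatom (stabilizer G a)).resolve_left hst
  have hlt : stabilizer G a < M := lt_of_le_of_ne hle fun h =>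
    hP ((isCoatom_stabilizer_iff_preprimitive G a).1 (h ▸ hM))
  obtain ⟨m, hm, hma⟩ := SetLike.exists_of_lt hlt
  choose σ hσ using fun x : Ω => exists_smul_eq G a x
  let π : Ω → G ⧸ M := fun x => (σ x : G ⧸ M)
  have hπ : ∀ (g : G) x, π (g • x) = g • π x := by
    intro g x
    change ((σ (g • x) : G) : G ⧸ M) = ((g * σ x : G) : G ⧸ M)
    rw [QuotientGroup.eq]
    apply hle
    rw [mem_stabilizer_iff, mul_smul, mul_smul, hσ, inv_smul_eq_iff, hσ]
  have hπa : π a = ((1 : G) : G ⧸ M) := by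
    change ((σ a : G) : G ⧸ M) = _
    rw [QuotientGroup.eq, mul_one]
    exact M.inv_mem (hle (hσ a))
  have hsurj : Function.Surjective π := fun x => by
    obtain ⟨g, rfl⟩ := exists_smul_eq G (π a) x
    exact ⟨g • a, hπ g a⟩
  have : Nontrivial (G ⧸ M) := by
    obtain ⟨g, -, hg⟩ := SetLike.exists_of_lt hM.1.lt_top
    exact ⟨(1 : G), g, fun h => hg (by simpa using QuotientGroup.eq.1 h)⟩
  have hX : IsPreprimitive G (G ⧸ M) :=
    (isCoatom_stabilizer_iff_preprimitive G ((1 : G) : G ⧸ M)).1 (by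
      rwa [stabilizer_quotient])
  have hf : ∀ g : G, (∀ x : G ⧸ M, g • x = x) → g = 1 := by
    intro g hg
    by_contra hg1
    have := hqp (toPermHom G (G ⧸ M)).ker inferInstance fun h => hg1 (by
      rw [← Subgroup.mem_bot, ← h]
      exact Equiv.ext hg)
    obtain ⟨x, hx⟩ := exists_ne (π a)
    obtain ⟨b, rfl⟩ := hsurj x
    obtain ⟨u, hu⟩ := this.exists_smul_eq a b
    refine hx ?_
    rw [← hu]
    exact (hπ u a).trans (DFunLike.congr_fun u.2 (π a))
  have fixo : ∀ u : G, (∀ z ∉ Γ, u • z = z) → ∀ z ∉ Γ, u • π z = π z := fun u hu z hz => by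
    rw [← hπ, hu z hz]
  have nconst : ¬ ∀ x ∈ Γ, π x = π a := by
    intro h
    refine hk1 (hf k fun x => ?_)
    obtain ⟨b, rfl⟩ := hsurj x
    by_cases hb : b ∈ Γ
    · rw [h b hb, ← hπ, hka, h a' ha']
    · exact fixo k hk b hb
  have sep : ∀ x ∈ Γ, ∀ y, π y = π x → y ∈ Γ := by
    intro x hx y hy
    by_contra hyΓ
    have : ∀ x' ∈ Γ, π x' = π x := fun x' hx' => by
      obtain ⟨u, u1, rfl⟩ := hJ x hx x' hx'
      rw [hπ, ← hy, fixo u u1 y hyΓ]
    exact nconst fun x' hx' => (this x' hx').trans (this a ha).symm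
  have hpre : π ⁻¹' (π '' Γ) = Γ :=
    Set.Subset.antisymm (fun y ⟨x, hx, e⟩ => sep x hx y e.symm) (Set.subset_preimage_image _ _)
  have fixo' : ∀ u : G, (∀ z ∉ Γ, u • z = z) → ∀ z ∉ π '' Γ, u • z = z := fun u hu z hz => by
    obtain ⟨b, rfl⟩ := hsurj z
    exact fixo u hu b fun hb => hz ⟨b, hb, rfl⟩
  have hJ' : Jor G (π '' Γ) := by
    rintro _ ⟨x, hx, rfl⟩ _ ⟨y, hy, rfl⟩
    obtain ⟨u, u1, u2⟩ := hJ x hx y hy
    exact ⟨u, fixo' u u1, by rw [← hπ, u2]⟩
  have h1' : 1 < (π '' Γ).ncard := by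
    push Not at nconst
    obtain ⟨x, hx, hxa⟩ := nconst
    exact (Set.one_lt_ncard (Set.toFinite _)).2 ⟨_, ⟨x, hx, rfl⟩, _, ⟨a, ha, rfl⟩, hxa⟩
  have h2' : (π '' Γ).ncard < (π '' Γ)ᶜ.ncard := by
    have e1 := ncard_preimage π hπ (π a) (π '' Γ)
    have e2 := ncard_preimage π hπ (π a) (π '' Γ)ᶜ
    rw [Set.preimage_compl, hpre] at e2
    rw [hpre] at e1
    rw [e1, e2] at h2
    exact lt_of_mul_lt_mul_left h2 (Nat.zero_le _)
  have ht := high_trans hX hJ' h1' h2'
  have hn := Set.ncard_add_ncard_compl (π '' Γ)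
  obtain ⟨Y, hY, hYc⟩ := Set.exists_subset_card_eq
    (show (π '' Γ).ncard - 1 ≤ (π '' Γ)ᶜ.ncard by omega)
  have haY : π a ∉ Y := fun h => hY h ⟨a, ha, rfl⟩
  obtain ⟨h, hh⟩ := exists_smul_set (G := G) (S := π '' Γ) (T := insert (π a) Y)
    (isMultiplyPretransitive_of_le (m := (π '' Γ).ncard) (n := (π '' Γ)ᶜ.ncard + 1) (by omega)
      (by omega)) rfl (by rw [Set.ncard_insert_of_notMem haY]; omega)
  have hma' : π (m • a) = π a := by
    rw [hπ, hπa]
    change ((m * 1 : G) : G ⧸ M) = _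
    rw [QuotientGroup.eq]
    simpa using hm
  obtain ⟨x, x1, x2⟩ := hJ a ha (m • a) (sep a ha _ hma')
  obtain ⟨b, hb⟩ : Y.Nonempty := by rw [← Set.ncard_pos]; omega
  have jS : ∀ p ∈ insert (π a) Y, ∀ q ∈ insert (π a) Y,
      ∃ g : G, (∀ z ∉ insert (π a) Y, g • z = z) ∧ g • p = q := hh ▸ hJ'.smul h
  obtain ⟨y, y1, y2⟩ := jS (π a) (Set.mem_insert _ _) b (Set.mem_insert_of_mem _ hb)
  have xS : ∀ p ∈ insert (π a) Y, x • p = p := by
    rintro p (rfl | hp)
    · rw [← hπ, x2, hma']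
    · exact fixo' x x1 p (hY hp)
  have hxy : (y * x)⁻¹ * (x * y) = 1 := hf _ fun p => by
    rw [mul_smul, inv_smul_eq_iff, mul_smul, mul_smul]
    by_cases hp : p ∈ insert (π a) Y
    · rw [xS p hp, xS]
      by_contra h'
      exact h' (by rw [show y • p = p from MulAction.injective y (y1 _ h')]; exact hp)
    · rw [y1 p hp, y1]
      intro h'
      exact hp (by rw [← MulAction.injective x (xS _ h')]; exact h')
  rw [inv_mul_eq_one] at hxy
  have h3 : x • y • a = y • a := x1 _ fun h' => hY hb ⟨_, h', by rw [hπ, y2]⟩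
  rw [← mul_smul, ← hxy, mul_smul, x2] at h3
  exact hma (MulAction.injective y h3)

/-- Let G act faithfully on a finite set in such a way that every non-trivial normal subgroup of G is transitive (G is quasiprimitive). Let Γ be a subset with more than one point and fewer than half of the points, such that the pointwise stabilizer of the complement of Γ acts transitively on Γ. Then G induces every even permutation of the set (G is the alternating or the symmetric group). -/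
theorem result {G Ω : Type*} [Group G] [Finite G] [MulAction G Ω] [FaithfulSMul G Ω] [Fintype Ω] [DecidableEq Ω]
    (hqp : ∀ N : Subgroup G, N.Normal → N ≠ ⊥ → MulAction.IsPretransitive ↥N Ω)
    (Γ : Set Ω) (hΓ1 : 1 < Γ.ncard) (hΓ2 : 2 * Γ.ncard < Fintype.card Ω)
    (hJ : MulAction.IsPretransitive ↥(fixingSubgroup G Γᶜ) ↥(SubMulAction.ofFixingSubgroup G Γᶜ)) :
    ∀ σ : Equiv.Perm Ω, Equiv.Perm.sign σ = 1 → ∃ x : G, (MulAction.toPerm x : Equiv.Perm Ω) = σ := by
  have hn := Set.ncard_add_ncard_compl Γ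
  rw [Nat.card_eq_fintype_card] at hn
  have hJ' : Jor G Γ := fun x hx y hy => by
    obtain ⟨g, hg⟩ := hJ.exists_smul_eq ⟨x, not_not.2 hx⟩ ⟨y, not_not.2 hy⟩
    exact ⟨g, (mem_fixingSubgroup_iff G).1 g.2, congrArg Subtype.val hg⟩
  have ht := high_trans (prim hqp hΓ1 (by omega) hJ') hJ' hΓ1 (by omega)
  obtain ⟨a, ha, a', ha', haa⟩ := (Set.one_lt_ncard (Set.toFinite Γ)).1 hΓ1
  obtain ⟨k, hk, hka⟩ := hJ' a ha a' ha'
  have h' : IsMultiplyPretransitive (toPermHom G Ω).range Ω (Γᶜ.ncard + 1) := ⟨fun x y => by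
    obtain ⟨g, hg⟩ := ht.exists_smul_eq x y
    exact ⟨⟨_, g, rfl⟩, hg⟩⟩
  have hs : (toPermHom G Ω k).support.card ≤ Γ.ncard := by
    rw [← Set.ncard_coe_finset]
    refine Set.ncard_le_ncard (fun z hz => ?_) (Set.toFinite _)
    by_contra hz'
    exact Equiv.Perm.mem_support.1 hz (hk z hz')
  have := (Cfsg.Agent.S0711.result _ (by omega) (by omega) h' (toPermHom G Ω k) ⟨k, rfl⟩
    (fun e => haa ((DFunLike.congr_fun e a).symm.trans hka)) (by omega)).2
  intro σ hσ
  exact this (Equiv.Perm.mem_alternatingGroup.2 hσ)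

end Cfsg.Agent.S3620
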