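import Cfsg.Statements.S3621
import Cfsg.Agent.PERM.TC3.Lin

set_option autoImplicit false
open Cfsg

namespace Cfsg.Agent.S3621

/-- Let G be a solvable group of permutations of a finite set. Then every group H of permutations of the set with the property that for each h in H and each three points a, b, c there is an element of G agreeing with h at a, b and c (that is, every subgroup of the 3-closure of G) is solvable. -/
theorem result {Ω : Type*} [Finite Ω] (G : Subgroup (Equiv.Perm Ω)) (hG : Group.IsSolvable ↥G)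
    (H : Subgroup (Equiv.Perm Ω))
    (hH : ∀ h ∈ H, ∀ a b c : Ω, ∃ g ∈ G, g a = h a ∧ g b = h b ∧ g c = h c) :
    Group.IsSolvable ↥H := by
  let e := Finite.equivFin Ω
  let Φ : Equiv.Perm Ω ≃* Equiv.Perm (Fin (Nat.card Ω)) := e.permCongrHom
  have k : ∀ (g : Equiv.Perm Ω) x, Φ g x = e (g (e.symm x)) := fun _ _ => rfl
  have s1 : Group.IsSolvable (G.map Φ.toMonoidHom) :=
    Group.isSolvable_of_surjective (Φ.toMonoidHom.subgroupMap_surjective G)
  have s2 : Group.IsSolvable (H.map Φ.toMonoidHom) := by
    refine CL.TC3.ih_all _ _ (Nat.lt_succ_self _) _ _ s1 ?_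
    rintro _ ⟨h, hh, rfl⟩ a b c
    obtain ⟨g, hg, e1, e2, e3⟩ := hH h hh (e.symm a) (e.symm b) (e.symm c)
    exact ⟨Φ g, ⟨g, hg, rfl⟩, (k g a).trans (e1 ▸ (k h a).symm), (k g b).trans (e2 ▸ (k h b).symm),
      (k g c).trans (e3 ▸ (k h c).symm)⟩
  exact Group.isSolvable_of_isSolvable_injective (f := (H.equivMapOfInjective Φ.toMonoidHom Φ.injective).toMonoidHom)
    (H.equivMapOfInjective _ Φ.injective).injective

end Cfsg.Agent.S3621
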