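import Cfsg.Statements.S3627
import Mathlib
import Cfsg.Agent.PERM.J1
import Cfsg.Agent.PERM.SpecMod

set_option autoImplicit false
open Cfsg

namespace Cfsg.Agent.S3627

open CL.Spec Finset in
theorem sum_gen {C A : Type*} [Group C] [Fintype C] [AddCommMonoid A] (u : C)
    (hu : orderOf u = Fintype.card C) (F : C → A) :
    ∑ i ∈ range (orderOf u), F (u ^ i) = ∑ y, F y := by
  classical
  have hinj : Set.InjOn (fun i => u ^ i) (range (orderOf u) : Set ℕ) := by
    rw [coe_range]; exact pow_injOn_Iio_orderOf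
  rw [← sum_image (f := F) hinj]
  congr 1
  apply eq_univ_of_card
  rw [card_image_of_injOn hinj, card_range, hu]

open CL.Spec Finset in
theorem unbdd_cyc (m p : ℕ) (hm : 1 < m) (hp : p.Prime) :
    Unbdd {k | k ∣ m ∨ ∃ d, d ∣ m ∧ d ≠ m ∧ k = d * p} := by
  classical
  have := Fact.mk hp
  have : NeZero m := ⟨by omega⟩
  let C := Multiplicative (ZMod m)
  have hC : Nat.card C = m := by simp [C]
  have hC' : Fintype.card C = m := by simp [C]
  let W := kill C (FunMod C C (ZMod p)) (· = m)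
  have hmem : ∀ c : C, (FunMod.mk (Pi.single 1 1 - Pi.single c 1) : FunMod C C (ZMod p)) ∈ W.sub := by
    intro c u hu
    refine FunMod.ext' fun x => ?_
    rw [FunMod.ev_nsum, map_zero]
    refine (sum_gen u (hu.trans hC'.symm) (fun y => FunMod.ev (y⁻¹ • x)
      (FunMod.mk (Pi.single 1 1 - Pi.single c 1) : FunMod C C (ZMod p)))).trans ?_
    simp only [FunMod.ev_mk]
    refine (Fintype.sum_equiv ((Equiv.inv C).trans (Equiv.mulRight x)) _
      (Pi.single 1 1 - Pi.single c 1 : C → ZMod p) (fun y => rfl)).trans ?_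
    simp
  have hne : ∀ g c : C, c ∉ Subgroup.zpowers g →
      nsum g (FunMod.mk (Pi.single 1 1 - Pi.single c 1) : FunMod C C (ZMod p)) ≠ 0 := by
    intro g c hc h
    have h1 := congrArg (FunMod.ev (1 : C)) h
    rw [FunMod.ev_nsum, map_zero, sum_eq_single 0] at h1
    · have : c ≠ 1 := fun e => hc (e ▸ one_mem _)
      simp [this.symm] at h1
    · intro i hi h0
      have h2 : (g ^ i)⁻¹ ≠ 1 := fun e =>
        pow_ne_one_of_lt_orderOf h0 (mem_range.1 hi) (inv_eq_one.1 e)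
      have h3 : (g ^ i)⁻¹ ≠ c := fun e => hc (e ▸ inv_mem (Subgroup.npow_mem_zpowers g i))
      simp only [FunMod.ev_mk, smul_eq_mul, mul_one, Pi.sub_apply, Pi.single_eq_of_ne h2,
        Pi.single_eq_of_ne h3, sub_zero]
    · intro h; exact absurd (mem_range.2 (orderOf_pos g)) h
  have hex : ∀ g : C, orderOf g ≠ m → ∃ c, c ∉ Subgroup.zpowers g := fun g hg => by
    by_contra! h
    exact hg (by rw [← Nat.card_zpowers, (Subgroup.eq_top_iff' _).2 h, Subgroup.card_top, hC])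
  obtain ⟨c, hc⟩ := hex 1 (by rw [orderOf_one]; omega)
  have : Nontrivial W.Mod := W.nontrivial_of_mem (hmem c) fun h => hne 1 c hc (by rw [h, nsum_zero])
  have hU := unbdd_aff W.Mod C
  rw [Aff.range_orderOf hp (W.nsmul_eq_zero p (FunMod.nsmul_eq_zero p fun a => by simp)),
    range_orderOf_cyclic, hC] at hU
  refine (congrArg Unbdd (Set.ext fun k => or_congr_right ⟨?_, ?_⟩)).mpr hU
  · rintro ⟨d, hd, hdm, rfl⟩
    obtain ⟨g, hg⟩ : d ∈ Set.range (orderOf : C → ℕ) := by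
      rw [range_orderOf_cyclic]; exact hd.trans hC.symm.dvd
    obtain ⟨c, hc⟩ := hex g (fun h => hdm (hg.symm.trans h))
    exact ⟨g, _, W.nsum_ne_zero (hmem c) (hne g c hc), by rw [hg]⟩
  · rintro ⟨g, v, hv, e⟩
    exact ⟨_, (orderOf_dvd_natCard g).trans hC.dvd, fun h => hv (nsum_kill g h v), e⟩

def sJ : List ℕ := [1, 2, 3, 5, 6, 7, 10, 11, 15, 19]
def lc (A B : List ℕ) : List ℕ := (A.flatMap fun a => B.map fun b => Nat.lcm a b).eraseDups

theorem prod_list {G H : Type*} [Group G] [Group H] {A B : List ℕ}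
    (hA : Set.range (orderOf : G → ℕ) = {n | n ∈ A}) (hB : Set.range (orderOf : H → ℕ) = {n | n ∈ B}) :
    Set.range (orderOf : G × H → ℕ) = {n | n ∈ lc A B} := by
  rw [CL.Spec.range_orderOf_prod, hA, hB]
  ext n
  simp [lc, eq_comm]

def L2 : List ℕ := [1, 2, 3, 5, 6, 7, 10, 11, 15, 19, 14, 22, 30, 38, 21, 33, 57, 35, 55, 95, 42, 66, 114, 70, 77, 105, 133, 110, 190, 165, 209, 285]
def L3 : List ℕ := [1, 2, 3, 5, 6, 7, 10, 11, 15, 19, 14, 22, 30, 38, 21, 33, 57, 35, 55, 95, 42, 66, 114, 70, 77, 105, 133, 110, 190, 165, 209, 285, 154, 210, 266, 330, 418, 570, 231, 399, 627, 385, 665, 1045, 462, 798, 1254, 770, 1330, 1155, 1463, 1995, 2090, 3135]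
def L4 : List ℕ := [1, 2, 3, 5, 6, 7, 10, 11, 15, 19, 14, 22, 30, 38, 21, 33, 57, 35, 55, 95, 42, 66, 114, 70, 77, 105, 133, 110, 190, 165, 209, 285, 154, 210, 266, 330, 418, 570, 231, 399, 627, 385, 665, 1045, 462, 798, 1254, 770, 1330, 1155, 1463, 1995, 2090, 3135, 2310, 2926, 3990, 6270, 4389, 7315, 8778, 14630, 21945]
theorem e2 : lc sJ sJ = L2 := by decide +kernel
theorem e3 : lc sJ L2 = L3 := by decide +kernel
theorem e4 : lc sJ L3 = L4 := by decide +kernel

theorem chk1 : ∀ k ∈ L4,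
    k ∣ 2310 ∨ (k / 19 ∣ 2310 ∧ k / 19 ≠ 2310 ∧ k = k / 19 * 19) := by decide +kernel

theorem chk2 : ∀ d ∈ List.range 2311, d ∣ 2310 → d ∈ L4 ∧ (d ≠ 2310 → d * 19 ∈ L4) := by
  decide +kernel

/-- Let J be the first Janko group. Then there are finite groups of arbitrarily large order with exactly the same set of element orders as J × J × J × J. -/
theorem result (N : ℕ) : ∃ (H : Type) (_ : Group H) (_ : Fintype H), N < Fintype.card H ∧
      Set.range (orderOf : H → ℕ) = Set.range (orderOf : ↥Cfsg.Spor.J1 × ↥Cfsg.Spor.J1 × ↥Cfsg.Spor.J1 × ↥Cfsg.Spor.J1 → ℕ) := by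
  have h1 : Set.range (orderOf : Cfsg.Spor.J1 → ℕ) = {n | n ∈ sJ} := by
    rw [CL.J1.spec_J1]; ext n; simp [sJ]
  have h2 := (prod_list h1 h1).trans (congrArg (fun L => {n | n ∈ L}) e2)
  have h3 := (prod_list h1 h2).trans (congrArg (fun L => {n | n ∈ L}) e3)
  have h4 := (prod_list h1 h3).trans (congrArg (fun L => {n | n ∈ L}) e4)
  rw [h4]
  have e : {n | n ∈ L4} = {k | k ∣ 2310 ∨ ∃ d, d ∣ 2310 ∧ d ≠ 2310 ∧ k = d * 19} := by
    ext k
    constructor
    · intro hk
      exact (chk1 k hk).imp_right fun h => ⟨_, h⟩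
    · rintro (h | ⟨d, hd, hne, rfl⟩)
      · exact (chk2 k (List.mem_range.2 (Nat.lt_succ_of_le (Nat.le_of_dvd (by norm_num) h))) h).1
      · exact (chk2 d (List.mem_range.2 (Nat.lt_succ_of_le (Nat.le_of_dvd (by norm_num) hd))) hd).2
          hne
  rw [e]
  exact unbdd_cyc 2310 19 (by norm_num) (by norm_num) N

end Cfsg.Agent.S3627
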