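import Cfsg.Statements.S3639
import Mathlib
import Cfsg.Agent.CHEV.SzCount
import Cfsg.Agent.CHEV.SzAction

set_option autoImplicit false
open Cfsg

namespace Cfsg.Agent.S3639

open CL.Sz Matrix in
theorem fpf {F : Type*} [Field F] [CharP F 2] [Finite F] {θ : F →+* F} {G : Type*} [Group G]
    (M : Model θ G) {g : G} (h1 : g ≠ 1) (h4 : g ^ 4 ≠ 1) {v : Fin 4 → F} (hv : M.ρ g *ᵥ v = v) :
    v = 0 := by
  rcases M.trichotomy h1 with h | ⟨-, k, hk⟩ | h
  · exact absurd (M.pow_four_of_mem_conjSet_U h) h4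
  · obtain ⟨l, hl⟩ := M.mem_H.mp hk
    have hl1 : (l : F) ≠ 1 := by
      intro h
      rw [show l = 1 from Units.ext h, map_one] at hl
      exact h1 (inv_conj_eq_one_iff.mp hl)
    have hl2 : θ l * l ≠ 1 := by
      intro h
      apply hl1
      apply M.sq_mul_θ_eq_one
      have := congrArg θ h
      rwa [map_mul, M.tits, map_one] at this
    have h2 : hMat θ l *ᵥ (M.ρ k⁻¹ *ᵥ v) = M.ρ k⁻¹ *ᵥ v := by
      rw [← M.ρ_h, ← hl, mulVec_mulVec, ← map_mul, mul_inv_cancel_right, map_mul, ← mulVec_mulVec, hv]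
    have h3 : M.ρ k⁻¹ *ᵥ v = 0 := by
      generalize M.ρ k⁻¹ *ᵥ v = u at h2
      have e0 := congrFun h2 0
      have e1 := congrFun h2 1
      have e2 := congrFun h2 2
      have e3 := congrFun h2 3
      simp only [hMat, mulVec, dotProduct, Fin.sum_univ_four, of_apply, cons_val', cons_val_zero,
        cons_val_one, cons_val_fin_one, cons_val, zero_mul, add_zero, zero_add] at e0 e1 e2 e3
      have key : ∀ a b : F, a ≠ 1 → a * b = b → b = 0 := fun a b ha h =>
        by_contra fun hb => ha (mul_right_cancel₀ hb (by rw [h, one_mul]))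
      ext i
      fin_cases i
      · exact key _ _ hl2 e0
      · exact key _ _ hl1 e1
      · exact key _ _ (by simpa using hl1) e2
      · exact key _ _ (by rwa [Ne, inv_eq_one]) e3
    rw [← one_mulVec v, ← map_one M.ρ, ← mul_inv_cancel k, map_mul, ← mulVec_mulVec, h3, mulVec_zero]
  · rcases M.eq_bot_or_top_of_orderOf_dvd h1 h.orderOf_dvd
      (LinearMap.ker (Matrix.toLin' (M.ρ g - 1))) (by
        intro u hu
        simp only [LinearMap.mem_ker, toLin'_apply, sub_mulVec, one_mulVec, sub_eq_zero] at hu ⊢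
        rw [hu, hu]) with h2 | h2
    · rw [← Submodule.mem_bot F, ← h2]
      simp [sub_mulVec, hv]
    · exfalso
      apply h1
      apply M.inj
      rw [LinearMap.ker_eq_top, ← map_zero Matrix.toLin'] at h2
      rw [map_one, ← sub_eq_zero]
      exact Matrix.toLin'.injective h2

open CL.Sz in
/-- The action on a sum of copies of the natural module. -/
def act {F : Type*} [Field F] {θ : F →+* F} {G : Type*} [Group G] (M : Model θ G) (n : ℕ) :
    G →* MulAut (Multiplicative (Matrix (Fin 4) (Fin n) F)) where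
  toFun g :=
    { toFun := fun v => Multiplicative.ofAdd (M.ρ g * v.toAdd)
      invFun := fun v => Multiplicative.ofAdd (M.ρ g⁻¹ * v.toAdd)
      left_inv := fun v => by simp [← Matrix.mul_assoc, ← map_mul]
      right_inv := fun v => by simp [← Matrix.mul_assoc, ← map_mul]
      map_mul' := fun a b => by simp [Matrix.mul_add] }
  map_one' := by ext v : 1; simp
  map_mul' a b := by ext v : 1; simp [Matrix.mul_assoc]

open CL.Sz in
theorem key {F : Type*} [Field F] [CharP F 2] [Finite F] {θ : F →+* F} {G : Type*} [Group G]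
    (M : Model θ G) (n : ℕ) {r s : ℕ} (hr : r.Prime) (hs : s.Prime) (hs2 : s ≠ 2) (hrs : r ≠ s)
    (y : Multiplicative (Matrix (Fin 4) (Fin n) F) ⋊[act M n] G) (hy : orderOf y = r * s) :
    s ∣ orderOf y.right ∧ (r = 2 → 2 ∣ orderOf y.right) := by
  have hV : ∀ z : Multiplicative (Matrix (Fin 4) (Fin n) F) ⋊[act M n] G, z.right = 1 → z ^ 2 = 1 := by
    rintro ⟨v, g⟩ (rfl : g = 1)
    rw [pow_two]
    ext : 1
    · simp only [SemidirectProduct.mul_left, map_one, MulAut.one_apply, SemidirectProduct.one_left]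
      apply Multiplicative.toAdd.injective
      ext i j
      simp [CharTwo.add_self_eq_zero]
    · simp
  have hpow : ∀ k : ℕ, (y ^ k).right = y.right ^ k := fun k =>
    map_pow SemidirectProduct.rightHom y k
  have h1 : r * s ∣ orderOf y.right * 2 := by
    rw [← hy, orderOf_dvd_iff_pow_eq_one, pow_mul]
    exact hV _ (by rw [hpow, pow_orderOf_eq_one])
  have h2 : s ∣ orderOf y.right :=
    (hs.dvd_mul.mp ((Dvd.intro_left r rfl).trans h1)).resolve_right fun h =>
      hs2 ((Nat.prime_dvd_prime_iff_eq hs Nat.prime_two).mp h)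
  refine ⟨h2, ?_⟩
  rintro rfl
  by_contra h3
  have h4 : orderOf y.right ∣ 2 * s := by
    rw [← hy, orderOf_dvd_iff_pow_eq_one, ← hpow, pow_orderOf_eq_one]; rfl
  have h5 : orderOf y.right = s := Nat.dvd_antisymm
    (Nat.Coprime.dvd_of_dvd_mul_left
      (Nat.Coprime.symm ((Nat.Prime.coprime_iff_not_dvd Nat.prime_two).mpr h3)) h4) h2
  have h6 : (y ^ s).right = 1 := by rw [hpow, ← h5, pow_orderOf_eq_one]
  have h7 : y * y ^ s = y ^ s * y := by rw [← pow_succ, ← pow_succ']
  have h8 := congrArg SemidirectProduct.left h7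
  simp only [SemidirectProduct.mul_left, h6, map_one, MulAut.one_apply] at h8
  rw [mul_comm (y ^ s).left, mul_right_inj] at h8
  have h9 : M.ρ y.right * (y ^ s).left.toAdd = (y ^ s).left.toAdd := congrArg Multiplicative.toAdd h8
  have hg1 : y.right ≠ 1 := by
    intro h; rw [h, orderOf_one] at h5; exact hs.one_lt.ne h5
  have hg4 : y.right ^ 4 ≠ 1 := by
    intro h
    have := orderOf_dvd_of_pow_eq_one h
    rw [h5] at this
    exact hs2 ((Nat.prime_dvd_prime_iff_eq hs Nat.prime_two).mp (hs.dvd_of_dvd_pow (n := 2) this))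
  have h10 : y ^ s = 1 := by
    ext : 1
    · apply Multiplicative.toAdd.injective
      ext i j
      have := fpf M hg1 hg4 (v := fun i => (y ^ s).left.toAdd i j) (by
        ext i
        exact congrFun (congrFun h9 i) j)
      exact congrFun this i
    · exact h6
  have := orderOf_dvd_of_pow_eq_one h10
  rw [hy] at this
  have := Nat.le_of_dvd hs.pos this
  have := hs.pos
  omega

/-- Let S be the Suzuki group over the field with q = 2^(2m+1) ≥ 8 elements. Then there are finite groups of arbitrarily large order with the same prime graph as S. -/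
theorem result {F : Type*} [Field F] [Fintype F] {m : ℕ} (hm : 1 ≤ m) (hF : Fintype.card F = 2 ^ (2 * m + 1)) (N : ℕ) :
    ∃ (H : Type) (_ : Group H) (_ : Fintype H), N < Fintype.card H ∧ ((∀ r : ℕ, r.Prime → (r ∣ Nat.card ↥(Cfsg.Lie.Sz F (2 ^ (m + 1))) ↔ r ∣ Nat.card H)) ∧
      (∀ r s : ℕ, r.Prime → s.Prime → r ≠ s → ((∃ x : ↥(Cfsg.Lie.Sz F (2 ^ (m + 1))), orderOf x = r * s) ↔ (∃ y : H, orderOf y = r * s)))) := by
  classical
  have := CL.Sz.charP_two hF
  set M := CL.Sz.lieModel hF
  have := M.finite_G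
  let H := Multiplicative (Matrix (Fin 4) (Fin N) F) ⋊[act M N] ↥(Cfsg.Lie.Sz F (2 ^ (m + 1)))
  have : Finite H := Finite.of_equiv _ SemidirectProduct.equivProd.symm
  have hq := CL.Sz.natCard_eq hF
  have hcard : Nat.card H = (2 ^ (2 * m + 1)) ^ (4 * N) * Nat.card ↥(Cfsg.Lie.Sz F (2 ^ (m + 1))) := by
    rw [SemidirectProduct.card, ← hq]
    congr 1
    change Nat.card (Fin 4 → Fin N → F) = _
    simp [← pow_mul, mul_comm]
  let e : Shrink.{0} H ≃* H := Shrink.mulEquiv
  have : Finite (Shrink.{0} H) := Finite.of_equiv _ e.symm.toEquiv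
  have hc : Nat.card (Shrink.{0} H) = Nat.card H := Nat.card_congr e.toEquiv
  refine ⟨Shrink.{0} H, inferInstance, Fintype.ofFinite _, ?_, ?_, ?_⟩
  · rw [Fintype.card_eq_nat_card, hc, hcard]
    have h1 : 0 < Nat.card ↥(Cfsg.Lie.Sz F (2 ^ (m + 1))) := Nat.card_pos
    have h2 : N < (2 ^ (2 * m + 1)) ^ (4 * N) := by
      rw [← pow_mul]
      exact lt_of_lt_of_le Nat.lt_two_pow_self (Nat.pow_le_pow_right (by norm_num) (by nlinarith))
    nlinarith
  · intro r hr
    rw [hc, hcard]
    refine ⟨fun h => h.mul_left _, fun h => ?_⟩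
    rcases hr.dvd_mul.mp h with h | h
    · have : r = 2 := (Nat.prime_dvd_prime_iff_eq hr Nat.prime_two).mp
        (hr.dvd_of_dvd_pow (hr.dvd_of_dvd_pow h))
      rw [this, M.card_G]
      exact ((CL.Sz.Model.two_dvd_card.trans (dvd_pow_self _ two_ne_zero)).mul_right _).mul_right _
    · exact h
  · intro r s hr hs hrs
    constructor
    · rintro ⟨x, hx⟩
      refine ⟨e.symm (SemidirectProduct.inr x), ?_⟩
      rw [e.symm.orderOf_eq, orderOf_injective _ SemidirectProduct.inr_injective, hx]
    · rintro ⟨y, hy⟩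
      rw [← e.orderOf_eq] at hy
      refine ⟨(e y).right, Nat.dvd_antisymm ?_ ?_⟩
      · rw [← hy]; exact orderOf_map_dvd SemidirectProduct.rightHom (e y)
      · refine Nat.Coprime.mul_dvd_of_dvd_of_dvd ((Nat.coprime_primes hr hs).mpr hrs) ?_ ?_
        · by_cases h : r = 2
          · exact h ▸ (key M N hr hs (fun h' => hrs (h.trans h'.symm)) hrs _ hy).2 h
          · exact (key M N hs hr h hrs.symm _ (hy.trans (mul_comm _ _))).1
        · by_cases h : s = 2
          · exact h ▸ (key M N hs hr (fun h' => hrs (h'.trans h.symm)) hrs.symm _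
              (hy.trans (mul_comm _ _))).2 h
          · exact (key M N hr hs h hrs _ hy).1

end Cfsg.Agent.S3639
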