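import Cfsg.Statements.S3662
import Cfsg.Agent.CHEV.Rep2
import Cfsg.Agent.SPOR.F4
import Cfsg.Agent.PERM.SpecUnb
import Cfsg.Agent.PERM.SpecMod
import Cfsg.Agent.S1059

set_option autoImplicit false
open Cfsg

namespace Cfsg.Agent.S3662

/-- The prime graph of a finite group has the prime divisors of its order as vertices, two distinct primes p, q being joined when the group has an element of order pq; two groups have the same prime graph when they have the same prime divisors and the same joined pairs. Let F be the field with 4 elements and L the Chevalley group of type G₂ over F. There are finite groups of arbitrarily large order with the same prime graph as L. -/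
theorem result {F : Type*} [Field F] [Fintype F] (hF : Fintype.card F = 4) (N : ℕ) :
    ∃ (H : Type) (_ : Group H) (_ : Finite H), N < Nat.card H ∧
      ((∀ p : ℕ, p.Prime → (p ∣ Nat.card ↥(Cfsg.Lie.chevG2.group F) ↔ p ∣ Nat.card H)) ∧
      (∀ p q : ℕ, p.Prime → q.Prime → p ≠ q → ((∃ g : ↥(Cfsg.Lie.chevG2.group F), orderOf g = p * q) ↔ (∃ g : H, orderOf g = p * q)))) := by
  open CL.Rep2 CL.Chev CL.Spec Cfsg.Lie in
  obtain ⟨ω, hω⟩ := CL.F4.exists_root hF
  have h2 := CL.F4.two_eq_zero_of_card hF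
  have : CharP F 2 := (CharP.charP_iff_prime_eq_zero Nat.prime_two).2 (by exact_mod_cast h2)
  have hω' : ω ^ 2 = ω + 1 := by linear_combination hω - (ω + 1) * h2
  obtain ⟨ρ, hi, hρ⟩ := exists_rep_g2 (F := F) ⟨ω, by rintro rfl; simp at hω, by
    rintro rfl; exact one_ne_zero (by linear_combination hω - h2 : (1 : F) = 0)⟩
  have hcard : Nat.card (chevG2.group F) = 2 ^ 12 * 3 ^ 3 * 5 ^ 2 * 7 * 13 := by
    rw [Cfsg.Agent.S1059.result hF]; norm_num
  have : Finite (chevG2.group F) := Nat.finite_of_card_ne_zero (by rw [hcard]; norm_num)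
  have hw : ∀ w : List (ℕ × Pol), (∀ a ∈ w, a.1 < chevG2.nroots) → ∃ g, ρ g = evW 6 g2Tab ω 0 w :=
    fun w hw => ⟨_, Ok.map_word hρ ω 0 hw⟩
  have key : ∀ (p : ℕ) (w : List (ℕ × Pol)), p.Prime → Odd p → (Nat.card (chevG2.group F)).factorization p = 1 →
      (∀ a ∈ w, a.1 < chevG2.nroots) → (wsum0 red4 6 g2Tab [wpow w p, []] && (List.range (p + 1)).all fun r =>
        !(decide (r.Prime ∧ r ∣ p)) || wne1 red4 6 g2Tab (wpow w (p / r))) = true →
      wsum0 red4 6 g2Tab ((List.range p).map (wpow w)) = true →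
      ∀ (g : chevG2.group F) (v : MatMod ρ), orderOf g = p → g • v = v → v = 0 := by
    intro p w hp ho hf h1 h2 h3 g v hg hv
    have := Fact.mk hp
    obtain ⟨y, hy⟩ := hw w h1
    have hyo := orderOf_eq hi ω 0 (evV_red4 hω' 0) g2_ok.col hy hp.pos h2
    let P : Sylow p (chevG2.group F) := Sylow.ofCard (Subgroup.zpowers g) (by rw [Nat.card_zpowers, hg, hf, pow_one])
    let Q : Sylow p (chevG2.group F) := Sylow.ofCard (Subgroup.zpowers y) (by rw [Nat.card_zpowers, hyo, hf, pow_one])
    obtain ⟨c, hc⟩ := MulAction.exists_smul_eq (chevG2.group F) Q P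
    have h4 : c * y * c⁻¹ ∈ Subgroup.zpowers g := by
      have : c * y * c⁻¹ ∈ ((c • Q : Sylow p _) : Subgroup _) :=
        Subgroup.smul_mem_pointwise_smul y (MulAut.conj c) _ (Subgroup.mem_zpowers y)
      rwa [hc] at this
    have h5 : (c * y * c⁻¹) • v = v := Subgroup.zpowers_le_of_mem (H := MulAction.stabilizer _ v) hv h4
    have h6 : y • c⁻¹ • v = c⁻¹ • v := by rw [eq_inv_smul_iff, smul_smul, smul_smul, h5]
    rw [MatMod.smul_def, hy] at h6
    have h7 : c⁻¹ • v = 0 := fpf ω 0 (evV_red4 hω' 0) g2_ok.col ho h3 h6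
    rwa [smul_eq_zero_iff_eq] at h7
  refine unbddPG_of_module (V := MatMod ρ) Nat.prime_two (MatMod.nsmul_eq_zero ρ 2 (by exact_mod_cast h2))
    (by rw [hcard]; norm_num) (fun g v hp h2 hv hg => ?_) N
  have hd := orderOf_dvd_natCard g
  rw [hcard] at hd
  have hd' : orderOf g = 3 ∨ orderOf g = 5 ∨ orderOf g = 7 ∨ orderOf g = 13 := by
    generalize orderOf g = p at hp h2 hd
    simp only [hp.dvd_mul] at hd
    rcases hd with (((h | h) | h) | h) | h
    · exact absurd ((Nat.prime_dvd_prime_iff_eq hp Nat.prime_two).1 (hp.dvd_of_dvd_pow h)) h2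
    · exact .inl ((Nat.prime_dvd_prime_iff_eq hp (by norm_num)).1 (hp.dvd_of_dvd_pow h))
    · exact .inr (.inl ((Nat.prime_dvd_prime_iff_eq hp (by norm_num)).1 (hp.dvd_of_dvd_pow h)))
    · exact .inr (.inr (.inl ((Nat.prime_dvd_prime_iff_eq hp (by norm_num)).1 h)))
    · exact .inr (.inr (.inr ((Nat.prime_dvd_prime_iff_eq hp (by norm_num)).1 h)))
  rcases hd' with h | h | h | h
  · obtain ⟨y, hy⟩ := hw [(0, [(0, 0)]), (2, [(0, 0)]), (11, [(0, 0)])] (by decide)
    exact ⟨y, by rw [h]; exact orderOf_eq hi ω 0 (evV_red4 hω' 0) g2_ok.col hy (by norm_num) (by decide +kernel)⟩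
  · obtain ⟨y, hy⟩ := hw [(0, [(0, 0)]), (2, [(0, 0)]), (11, [(1, 0)])] (by decide)
    exact ⟨y, by rw [h]; exact orderOf_eq hi ω 0 (evV_red4 hω' 0) g2_ok.col hy (by norm_num) (by decide +kernel)⟩
  · refine absurd (key 7 [(0, [(0, 0)]), (4, [(0, 0)]), (9, [(0, 0)])] (by norm_num) (by decide) ?_ (by decide)
      (by decide +kernel) (by decide +kernel) g v h hg) hv
    rw [hcard]; decide +kernel
  · refine absurd (key 13 [(0, [(0, 0)]), (2, [(0, 0)]), (4, [(1, 0)]), (9, [(1, 0)])] (by norm_num) (by decide) ?_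
      (by decide) (by decide +kernel) (by decide +kernel) g v h hg) hv
    rw [hcard]; decide +kernel

end Cfsg.Agent.S3662
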