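import Cfsg.Statements.S3670
import Mathlib
import Cfsg.Agent.FGS.U33Deg
import Cfsg.Agent.SOLV.Hol
import Cfsg.Agent.INV.Gold.KFactsU3
import Cfsg.Agent.CLAS.UniGen

set_option autoImplicit false
open Cfsg

namespace Cfsg.Agent.S3670

open Subgroup CL CL.Char

theorem graph_of {G : Type*} [Group G] [Finite G] (hG : Nat.card G = 6048)
    (h6 : ∃ χ : IrrCharacter G, 6 ∣ charDegree χ.1) (h14 : ∃ χ : IrrCharacter G, 14 ∣ charDegree χ.1)
    (h21 : ∃ χ : IrrCharacter G, 21 ∣ charDegree χ.1) :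
    degreePrimes G = {p | p = 2 ∨ p = 3 ∨ p = 7} ∧
      ∀ p q, (degreeGraph G).Adj p q ↔ p ≠ q ∧ (p = 2 ∨ p = 3 ∨ p = 7) ∧ (q = 2 ∨ q = 3 ∨ q = 7) := by
  have key : ∀ p : ℕ, p.Prime → ∀ d ∈ charDegrees G, p ∣ d → p = 2 ∨ p = 3 ∨ p = 7 := by
    rintro p hp d ⟨χ, rfl⟩ hd
    have h := hd.trans χ.2.charDegree_dvd_card
    rw [hG, show 6048 = 2 ^ 5 * (3 ^ 3 * 7) by norm_num] at h
    rcases (Nat.Prime.dvd_mul hp).mp h with h | h
    · exact Or.inl ((Nat.prime_dvd_prime_iff_eq hp Nat.prime_two).mp (hp.dvd_of_dvd_pow h))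
    rcases (Nat.Prime.dvd_mul hp).mp h with h | h
    · exact Or.inr (Or.inl ((Nat.prime_dvd_prime_iff_eq hp Nat.prime_three).mp (hp.dvd_of_dvd_pow h)))
    · exact Or.inr (Or.inr ((Nat.prime_dvd_prime_iff_eq hp (by norm_num)).mp h))
  obtain ⟨a, ha⟩ := h6
  obtain ⟨b, hb⟩ := h14
  obtain ⟨c, hc⟩ := h21
  refine ⟨Set.ext fun p => ⟨fun ⟨hp, d, hd, h⟩ => key p hp d hd h, ?_⟩, fun p q => ⟨?_, ?_⟩⟩
  · rintro (rfl | rfl | rfl)
    · exact ⟨by norm_num, _, ⟨a, rfl⟩, Dvd.dvd.trans (by norm_num) ha⟩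
    · exact ⟨by norm_num, _, ⟨a, rfl⟩, Dvd.dvd.trans (by norm_num) ha⟩
    · exact ⟨by norm_num, _, ⟨b, rfl⟩, Dvd.dvd.trans (by norm_num) hb⟩
  · rintro ⟨h, hp, hq, d, hd, hpq⟩
    exact ⟨h, key p hp d hd (Dvd.dvd.trans (Dvd.intro _ rfl) hpq),
      key q hq d hd (Dvd.dvd.trans (Dvd.intro_left _ rfl) hpq)⟩
  · rintro ⟨h, rfl | rfl | rfl, rfl | rfl | rfl⟩ <;> first
      | exact absurd rfl h
      | exact ⟨h, by norm_num, by norm_num, _, ⟨a, rfl⟩, ha⟩
      | exact ⟨h, by norm_num, by norm_num, _, ⟨b, rfl⟩, hb⟩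
      | exact ⟨h, by norm_num, by norm_num, _, ⟨c, rfl⟩, hc⟩

theorem psu {F : Type*} [Field F] [Fintype F] (hF : Fintype.card F = 9) :
    Finite (PSU 3 F 3) ∧ Nat.card (PSU 3 F 3) = 6048 ∧
    (∃ χ : IrrCharacter (PSU 3 F 3), 6 ∣ charDegree χ.1) ∧ (∃ χ : IrrCharacter (PSU 3 F 3), 14 ∣ charDegree χ.1) ∧
      ∃ χ : IrrCharacter (PSU 3 F 3), 21 ∣ charDegree χ.1 := by
  classical
  have hF' : Fintype.card F = 3 ^ 2 := hF
  have hG : Nat.card (PSU 3 F 3) = 6048 := by
    have := CL.Uni.card_PSU hF' (n := 3) (by norm_num)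
    have h2 : CL.Uni.guOrder 3 3 = 24192 := by decide +kernel
    rw [h2, show Nat.gcd 3 (3 + 1) = 1 by norm_num] at this
    omega
  have hfin : Finite (PSU 3 F 3) := Nat.finite_of_card_ne_zero (by rw [hG]; norm_num)
  have hs : IsSimpleGroup (PSU 3 F 3) := CL.Uni.isSimpleGroup_PSU hF' (by norm_num) (by norm_num)
  have : Fact (Nat.Prime 3) := ⟨Nat.prime_three⟩
  have hch : CharP F 3 := by
    obtain ⟨p, hp⟩ := CharP.exists F
    obtain ⟨n, hpp, hn⟩ := FiniteField.card F p
    have : p ∣ 3 ^ 2 := by rw [← hF', hn]; exact dvd_pow_self _ n.ne_zero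
    rwa [(Nat.prime_dvd_prime_iff_eq hpp Nat.prime_three).mp (hpp.dvd_of_dvd_pow this)] at hp
  obtain ⟨P⟩ := (inferInstance : Nonempty (Sylow 3 (PSU 3 F 3)))
  obtain ⟨B⟩ := CL.U3.nonempty_bMod_PSU hF' (MulEquiv.refl _) 3 P
  have hP : Nat.card (P : Subgroup (PSU 3 F 3)) = 27 := by
    rw [← B.range, ← Nat.card_congr (MonoidHom.ofInjective B.inj).toEquiv, CL.U3.S.card_S]; norm_num
  obtain ⟨c, hc⟩ := IsCyclic.exists_ofOrder_eq_natCard (α := Fˣ)
  rw [Nat.card_units, Nat.card_eq_fintype_card, hF] at hc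
  have hc8 : c ^ 8 = 1 := by rw [← pow_orderOf_eq_one c, hc]
  have hck : ∀ k, ¬ 8 ∣ k → (c : F) ^ k ≠ 1 := fun k hk h => hk (by
    have : c ^ k = 1 := Units.ext (by simpa using h)
    have := orderOf_dvd_of_pow_eq_one this
    rwa [hc] at this)
  have exP : ∀ y ∈ (P : Subgroup (PSU 3 F 3)), ∃ x, B.φ x = y := fun y hy => by rwa [← B.range] at hy
  have mP : ∀ x, B.φ x ∈ (P : Subgroup (PSU 3 F 3)) := fun x => B.range.le ⟨x, rfl⟩
  have hn : ∀ d, B.τ d ∈ normalizer ((P : Subgroup (PSU 3 F 3)) : Set (PSU 3 F 3)) := fun d =>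
    Subgroup.mem_normalizer_fintype fun y hy => by
      obtain ⟨x, rfl⟩ := exP y hy
      rw [B.conj]; exact mP _
  have u5 : ∀ d : Fˣ, d ^ 3 * (d ^ 3 * d⁻¹) = d ^ 5 := fun d => by group
  have ht8 : B.τ c ^ 2 ^ 3 = 1 := by rw [← map_pow, show 2 ^ 3 = 8 by norm_num, hc8, map_one]
  have ho : orderOf (B.τ c) = 8 := by
    have : Fact (Nat.Prime 2) := ⟨Nat.prime_two⟩
    refine orderOf_eq_prime_pow (p := 2) (n := 2) (fun h => ?_) ht8
    obtain ⟨x, hx⟩ := CL.U3.S.exists_a hF' 1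
    have h1 := B.conj (c ^ 2 ^ 2) x
    rw [map_pow, h, one_mul, inv_one, mul_one, u5] at h1
    have h2 := congrArg CL.U3.S.a (B.inj h1)
    rw [CL.U3.S.tor_a, hx, mul_one, ← pow_mul] at h2
    exact hck 20 (by norm_num) (by simpa using h2.symm)
  have hB : Nat.card (normalizer ((P : Subgroup (PSU 3 F 3)) : Set (PSU 3 F 3))) = 216 := by
    have h1 : 27 ∣ Nat.card (normalizer ((P : Subgroup (PSU 3 F 3)) : Set (PSU 3 F 3))) :=
      hP ▸ card_dvd_of_le le_normalizer
    have h2 : 8 ∣ Nat.card (normalizer ((P : Subgroup (PSU 3 F 3)) : Set (PSU 3 F 3))) :=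
      ho ▸ Subgroup.orderOf_dvd_natCard _ (hn c)
    have h3 : 216 ∣ _ := Nat.Coprime.mul_dvd_of_dvd_of_dvd (by norm_num) h1 h2
    have h4 := (normalizer ((P : Subgroup (PSU 3 F 3)) : Set (PSU 3 F 3))).card_mul_index
    have hne : normalizer ((P : Subgroup (PSU 3 F 3)) : Set (PSU 3 F 3)) ≠ ⊤ := fun h => by
      rcases (normalizer_eq_top_iff.mp h).eq_bot_or_eq_top with h5 | h5
      · rw [h5, card_bot] at hP; omega
      · rw [h5, card_top, hG] at hP; omega
    have h5 := (Dvd.intro_left _ rfl).trans (CL.Small.two_mul_card_dvd_factorial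
      (CL.Small.not_comm_of_not_prime (by rw [hG]; norm_num)) _ hne)
    obtain ⟨k, hk⟩ := h3
    rw [hk, hG] at h4
    rw [hG] at h5
    have h6 : (normalizer ((P : Subgroup (PSU 3 F 3)) : Set (PSU 3 F 3))).index ∣ 28 :=
      ⟨k, by rw [mul_assoc] at h4; rw [mul_comm]; omega⟩
    have h7 := Nat.le_of_dvd (by norm_num) h6
    have h8 := P.card_eq_index_normalizer
    have h9 := card_sylow_modEq_one 3 (PSU 3 F 3)
    rw [h8] at h9
    generalize (normalizer ((P : Subgroup (PSU 3 F 3)) : Set (PSU 3 F 3))).index = n at *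
    unfold Nat.ModEq at h9
    interval_cases n <;> simp_all [Nat.factorial] <;> omega
  refine ⟨hfin, hG, CL.U33D.exists_dvd hG hP hB B.ti (hn c) ht8 fun y hy h => ?_⟩
  obtain ⟨x, rfl⟩ := exP y hy
  rw [B.conj, u5] at h
  have h1 := B.inj h
  have ha := congrArg CL.U3.S.a h1
  have hb := congrArg CL.U3.S.b h1
  rw [CL.U3.S.tor_a] at ha
  rw [CL.U3.S.tor_b] at hb
  have ha0 : x.a = 0 := by
    by_contra h0
    exact hck 5 (by norm_num) (by simpa using (mul_eq_right₀ h0).mp ha)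
  have hb0 : x.b = 0 := by
    by_contra h0
    refine hck 20 (by norm_num) ?_
    have := (mul_eq_right₀ h0).mp hb
    rw [← this]; push_cast; ring
  rw [show x = 1 from CL.U3.S.ext ha0 hb0, map_one]

abbrev R := GaloisField 2 3 × ZMod 9 × ZMod 2

noncomputable instance act : MulDistribMulAction Rˣ (Multiplicative R) where
  smul a x := Multiplicative.ofAdd ((a : R) * x.toAdd)
  one_smul x := by
    change Multiplicative.ofAdd (((1 : Rˣ) : R) * x.toAdd) = x
    simp
  mul_smul a b x := by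
    change Multiplicative.ofAdd (((a * b : Rˣ) : R) * x.toAdd) =
      Multiplicative.ofAdd ((a : R) * ((b : R) * x.toAdd))
    simp [mul_assoc]
  smul_one a := by
    change Multiplicative.ofAdd ((a : R) * 0) = 1
    simp
  smul_mul a x y := by
    change Multiplicative.ofAdd ((a : R) * (x.toAdd + y.toAdd)) =
      Multiplicative.ofAdd ((a : R) * x.toAdd) * Multiplicative.ofAdd ((a : R) * y.toAdd)
    rw [mul_add, ofAdd_add]

theorem card_R : Nat.card (Multiplicative R) = 144 := by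
  rw [Nat.card_congr Multiplicative.toAdd, Nat.card_prod, Nat.card_prod, GaloisField.card 2 3 (by norm_num),
    Nat.card_zmod, Nat.card_zmod]
  norm_num

theorem card_U : Nat.card Rˣ = 42 := by
  rw [Nat.card_congr MulEquiv.prodUnits.toEquiv, Nat.card_prod, Nat.card_congr (MulEquiv.prodUnits (M := ZMod 9)).toEquiv,
    Nat.card_prod, Nat.card_units, GaloisField.card 2 3 (by norm_num), Nat.card_eq_fintype_card,
    Nat.card_eq_fintype_card, ZMod.card_units_eq_totient, ZMod.card_units_eq_totient]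
  decide

theorem hol : ∃ χ : IrrCharacter (Hol Rˣ (Multiplicative R)), charDegree χ.1 = 42 := by
  classical
  have := Fintype.ofFinite (Hol Rˣ (Multiplicative R))
  have := Fintype.ofFinite (GaloisField 2 3)
  let N : Subgroup (Hol Rˣ (Multiplicative R)) := (⊤ : Subgroup (Multiplicative R)).map Hol.inl
  let ψ₁ := AddChar.FiniteField.primitiveChar_to_Complex (GaloisField 2 3)
  have h₁ : ψ₁.IsPrimitive := AddChar.FiniteField.primitiveChar_to_Complex_isPrimitive _
  let ψ₂ : AddChar (ZMod 9) ℂ := ZMod.stdAddChar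
  have h₂ : ψ₂.IsPrimitive := ZMod.isPrimitive_stdAddChar 9
  let θ : N → ℂ := fun n => ψ₁ n.1.left.toAdd.1 * ψ₂ n.1.left.toAdd.2.1
  have hθ1 : θ 1 = 1 := by simp [θ]
  have hθ : IsIrrCharacter N θ := isIrrCharacter_of_map_mul hθ1 (by
    rintro ⟨_, a, -, rfl⟩ ⟨_, b, -, rfl⟩
    change ψ₁ (Hol.inl a * Hol.inl b : Hol Rˣ (Multiplicative R)).left.toAdd.1 *
      ψ₂ (Hol.inl a * Hol.inl b : Hol Rˣ (Multiplicative R)).left.toAdd.2.1 = _
    rw [← map_mul]
    simp only [θ, SemidirectProduct.left_inl, toAdd_mul, Prod.fst_add, Prod.snd_add, AddChar.map_add_eq_mul]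
    ring)
  have hI : inertia N θ = N := by
    refine le_antisymm (fun g hg => ?_) (le_inertia hθ.isClassFunction)
    obtain ⟨x, u, rfl⟩ := Hol.exists_eq_inl_mul_inr g
    have key : ∀ y : R, ψ₁ ((u : R) * y).1 * ψ₂ ((u : R) * y).2.1 = ψ₁ y.1 * ψ₂ y.2.1 := fun y => by
      have h := mem_inertia.mp hg ⟨Hol.inl (Multiplicative.ofAdd y), mem_map_of_mem _ (mem_top _)⟩
      have e : (Hol.inl x * Hol.inr u : Hol Rˣ (Multiplicative R)) * Hol.inl (Multiplicative.ofAdd y) *
          (Hol.inl x * Hol.inr u)⁻¹ = Hol.inl (u • Multiplicative.ofAdd y) := by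
        rw [← Hol.conj_inl]
        calc _ = Hol.inl x * ((Hol.inr u : Hol Rˣ (Multiplicative R)) * Hol.inl (Multiplicative.ofAdd y) *
            (Hol.inr u)⁻¹) * (Hol.inl x)⁻¹ := by group
          _ = _ := by rw [Hol.conj_inl, ← map_inv, ← map_mul, ← map_mul, mul_inv_cancel_comm]
      simp only [θ, e, SemidirectProduct.left_inl] at h
      exact h
    have e1 : (u : R).1 = 1 := by
      by_contra h
      refine h₁ (sub_ne_zero.mpr h) (DFunLike.ext _ _ fun a => ?_)
      have := key (a, 0, 0)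
      simp only [Prod.fst_mul, Prod.snd_mul, mul_zero, AddChar.map_zero_eq_one, mul_one] at this
      rw [AddChar.mulShift_apply, sub_mul, one_mul, AddChar.map_sub_eq_div, this, AddChar.one_apply,
        div_self (AddChar.val_isUnit _ _).ne_zero]
    have e2 : (u : R).2.1 = 1 := by
      by_contra h
      refine h₂ (sub_ne_zero.mpr h) (DFunLike.ext _ _ fun a => ?_)
      have := key (0, a, 0)
      simp only [Prod.fst_mul, Prod.snd_mul, mul_zero, AddChar.map_zero_eq_one, one_mul] at this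
      rw [AddChar.mulShift_apply, sub_mul, one_mul, AddChar.map_sub_eq_div, this, AddChar.one_apply,
        div_self (AddChar.val_isUnit _ _).ne_zero]
    have e3 : (u : R).2.2 = 1 := by
      have h := congrArg (fun r : R => r.2.2) u.mul_inv
      simp only [Prod.snd_mul, Prod.snd_one] at h
      generalize (u : R).2.2 = a at h ⊢
      generalize ((u⁻¹ : Rˣ) : R).2.2 = b at h
      revert a b; decide
    have hu : u = 1 := Units.ext (Prod.ext e1 (Prod.ext e2 e3))
    rw [hu, map_one, mul_one]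
    exact mem_map_of_mem _ (mem_top _)
  refine ⟨⟨indFun N θ, (ind_irr_iff_inertia_eq hθ).mpr hI⟩, ?_⟩
  have hidx : N.index = 42 := by
    have := N.card_mul_index
    rw [Hol.card_map_inl, card_top, Hol.card_eq, card_R, card_U] at this
    omega
  rw [CL.Char.charDegree_indFun N hθ.isCharacter, hidx, charDegree, hθ1]
  simp

/-- The character degree graph of a finite group has as vertices the primes dividing some irreducible complex character degree, two distinct primes being joined when their product divides some irreducible character degree; two groups have the same character degree graph when they have the same vertices and the same joined pairs. Let F be the field with 9 elements and L = PSU(3,3) realised over F (order 6048). There is a finite solvable group of order 6048 with the same character degree graph as L; so L is not determined by its order together with its character degree graph. -/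
theorem result {F : Type*} [Field F] [Fintype F] (hF : Fintype.card F = 9) :
    ∃ (H : Type) (_ : Group H) (_ : Fintype H), Group.IsSolvable H ∧ Nat.card H = 6048 ∧ Cfsg.degreePrimes H = Cfsg.degreePrimes (Cfsg.PSU 3 F 3) ∧ Cfsg.degreeGraph H = Cfsg.degreeGraph (Cfsg.PSU 3 F 3) := by
  obtain ⟨hfin, hG, h6, h14, h21⟩ := psu hF
  obtain ⟨χ, hχ⟩ := hol
  have hH : Nat.card (Hol Rˣ (Multiplicative R)) = 6048 := by rw [Hol.card_eq, card_R, card_U]
  obtain ⟨a1, a2⟩ := graph_of hG h6 h14 h21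
  obtain ⟨b1, b2⟩ := graph_of hH ⟨χ, by rw [hχ]; norm_num⟩ ⟨χ, by rw [hχ]; norm_num⟩ ⟨χ, by rw [hχ]; norm_num⟩
  refine ⟨Hol Rˣ (Multiplicative R), inferInstance, Fintype.ofFinite _, Hol.isSolvable, hH, b1.trans a1.symm, ?_⟩
  ext p q
  rw [a2, b2]

end Cfsg.Agent.S3670
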