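import Cfsg.Statements.S3678
import Mathlib
import Cfsg.Agent.PERM.SpecSL2

set_option autoImplicit false
open Cfsg

namespace Cfsg.Agent.S3678

theorem not_dvd_pow {p q r k : ℕ} (hp : p.Prime) (hq : q.Prime) (hpq : p ≠ q) (hr : r.Prime) :
    ¬ p * q ∣ r ^ k := by
  intro h
  have h1 := (Nat.prime_dvd_prime_iff_eq hp hr).1 (hp.dvd_of_dvd_pow ((Dvd.intro _ rfl).trans h))
  have h2 := (Nat.prime_dvd_prime_iff_eq hq hr).1 (hq.dvd_of_dvd_pow ((Dvd.intro_left _ rfl).trans h))
  exact hpq (h1.trans h2.symm)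

/-- The prime graph of a finite group has the prime divisors of its order as vertices, two distinct primes p, q being joined when the group has an element of order pq; two groups have the same prime graph when they have the same prime divisors and the same joined pairs. Let F be the field with 7 elements. There are finite groups of arbitrarily large order with the same prime graph as PSL(2,F) (the graph on {2, 3, 7} with no edges, which is also the prime graph of PSL(2,8)). -/
theorem result {F : Type*} [Field F] [Fintype F] (hF : Fintype.card F = 7) (N : ℕ) :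
    ∃ (H : Type) (_ : Group H) (_ : Finite H), N < Nat.card H ∧
      ((∀ p : ℕ, p.Prime → (p ∣ Nat.card (Matrix.ProjectiveSpecialLinearGroup (Fin 2) F) ↔ p ∣ Nat.card H)) ∧
      (∀ p q : ℕ, p.Prime → q.Prime → p ≠ q → ((∃ g : (Matrix.ProjectiveSpecialLinearGroup (Fin 2) F), orderOf g = p * q) ↔ (∃ g : H, orderOf g = p * q)))) := by
  classical
  let K := GaloisField 2 3
  let _ : Fintype K := Fintype.ofFinite K
  have hK : Fintype.card K = 8 := by
    rw [← Nat.card_eq_fintype_card, GaloisField.card 2 3 (by norm_num)]; norm_num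
  have h7 : ringChar F = 7 := by
    have hp : (ringChar F).Prime := CharP.char_is_prime F _
    have h1 : ringChar F ∣ 7 := by
      rw [← ringChar.spec, ← hF]; exact FiniteField.cast_card_eq_zero F
    exact (Nat.prime_dvd_prime_iff_eq hp (by norm_num)).1 h1
  have s1 := CL.Spec.spec_PSL2 (F := F)
  have s2 := CL.Spec.spec_PSL2 (F := K)
  rw [h7, hF] at s1
  rw [ringChar.eq K 2, hK] at s2
  norm_num at s1 s2
  have t1 : ∀ n, (∃ g : Matrix.ProjectiveSpecialLinearGroup (Fin 2) F, orderOf g = n) ↔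
      n ∣ 7 ^ 1 ∨ n ∣ 3 ^ 1 ∨ n ∣ 2 ^ 2 := fun n => Set.ext_iff.1 s1 n
  have t2 : ∀ n, (∃ g : Matrix.ProjectiveSpecialLinearGroup (Fin 2) K, orderOf g = n) ↔
      n ∣ 2 ^ 1 ∨ n ∣ 7 ^ 1 ∨ n ∣ 3 ^ 2 := fun n => Set.ext_iff.1 s2 n
  refine (CL.Spec.unbddPG_PSL2_char_two (F := K)).of_samePG ⟨?_, ?_⟩ N
  · intro p hp
    rw [CL.Spec.prime_dvd_card_iff hp, CL.Spec.prime_dvd_card_iff hp, t1, t2]
    simp only [hp.prime.dvd_pow_iff_dvd two_ne_zero, pow_one]
    tauto
  · intro p q hp hq hpq
    rw [t1, t2]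
    have a1 := not_dvd_pow (k := 1) hp hq hpq (by norm_num : Nat.Prime 7)
    have a2 := not_dvd_pow (k := 1) hp hq hpq Nat.prime_three
    have a3 := not_dvd_pow (k := 2) hp hq hpq Nat.prime_three
    have a4 := not_dvd_pow (k := 1) hp hq hpq Nat.prime_two
    have a5 := not_dvd_pow (k := 2) hp hq hpq Nat.prime_two
    tauto

end Cfsg.Agent.S3678
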