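import Cfsg.Statements.S3684
import Cfsg.Agent.S0206

set_option autoImplicit false
open Cfsg

namespace Cfsg.Agent.S3684

open MulAction

theorem normal_le_stabilizer_eq_bot {G Ω : Type*} [Group G] [MulAction G Ω] [FaithfulSMul G Ω]
    [IsPretransitive G Ω] (a : Ω) (K : Subgroup G) (hK : K.Normal) (h : K ≤ stabilizer G a) :
    K = ⊥ := by
  rw [eq_bot_iff]
  intro x hx
  rw [Subgroup.mem_bot]
  apply FaithfulSMul.eq_of_smul_eq_smul (α := Ω)
  intro y
  obtain ⟨g, rfl⟩ := exists_smul_eq G a y
  have := mem_stabilizer_iff.mp (h (hK.conj_mem x hx g⁻¹))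
  rw [inv_inv, mul_smul, mul_smul, inv_smul_eq_iff] at this
  rw [this, one_smul]

theorem exists_gen_of_card_two {G : Type*} [Group G] (H : Subgroup G) (h : Nat.card H = 2) :
    ∃ s : G, orderOf s = 2 ∧ H = Subgroup.zpowers s := by
  have : Finite H := Nat.finite_of_card_ne_zero (by omega)
  have := Fact.mk Nat.prime_two
  obtain ⟨s, hs⟩ := exists_prime_orderOf_dvd_card' (G := H) 2 (by rw [h])
  have hs' : orderOf (s : G) = 2 := by rw [Subgroup.orderOf_coe]; exact hs
  refine ⟨s, hs', ?_⟩
  symm
  apply Subgroup.eq_of_le_of_card_ge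
  · rw [Subgroup.zpowers_le]; exact s.2
  · rw [Nat.card_zpowers, hs', h]


/-- Let a finite group G act faithfully and primitively on a set Ω, and suppose the stabilizer of a point a has an orbit of length 2. Then the stabilizer of a has order 2 and G is isomorphic to the dihedral group of order 2p for some prime p. -/
theorem result {G Ω : Type*} [Group G] [Finite G] [MulAction G Ω] [FaithfulSMul G Ω] [Finite Ω]
    (hprim : MulAction.IsPreprimitive G Ω) (a b : Ω) (h2 : Nat.card (MulAction.orbit (MulAction.stabilizer G a) b) = 2) :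
    Nat.card (MulAction.stabilizer G a) = 2 ∧ ∃ p : ℕ, p.Prime ∧ Nonempty (G ≃* DihedralGroup p) := by
  have hidx : (stabilizer G b).relIndex (stabilizer G a) = 2 := by
    have := MulAction.index_stabilizer (stabilizer G a) b
    rw [← Nat.card_coe_set_eq, h2] at this
    rw [Subgroup.relIndex, ← this]
    congr 1
  have hab : a ≠ b := by
    rintro rfl
    rw [Subgroup.relIndex_self] at hidx
    omega
  have : Nontrivial Ω := ⟨⟨a, b, hab⟩⟩
  have hca := IsPreprimitive.isCoatom_stabilizer_of_isPreprimitive G a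
  have hcb := IsPreprimitive.isCoatom_stabilizer_of_isPreprimitive G b
  have hne : stabilizer G a ≠ stabilizer G b := by
    intro h
    rw [h, Subgroup.relIndex_self] at hidx
    omega
  have hsup : stabilizer G a ⊔ stabilizer G b = ⊤ := hca.codisjoint_of_ne hcb hne |>.eq_top
  have hia := index_stabilizer_of_transitive G a
  have hib := index_stabilizer_of_transitive G b
  have hΩ : 0 < Nat.card Ω := Nat.card_pos
  have hidx' : (stabilizer G a).relIndex (stabilizer G b) = 2 := by
    have h1 := Subgroup.relIndex_mul_index (inf_le_left : stabilizer G a ⊓ stabilizer G b ≤ _)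
    have h3 := Subgroup.relIndex_mul_index (inf_le_right : stabilizer G a ⊓ stabilizer G b ≤ _)
    rw [Subgroup.inf_relIndex_left, hidx, hia] at h1
    rw [Subgroup.inf_relIndex_right, hib, ← h1] at h3
    exact Nat.eq_of_mul_eq_mul_right hΩ h3
  set K := stabilizer G a ⊓ stabilizer G b with hK
  have hKa : stabilizer G a ≤ Subgroup.normalizer (K : Set G) := by
    rw [← Subgroup.normal_subgroupOf_iff_le_normalizer inf_le_left]
    apply Subgroup.normal_of_index_eq_two
    change K.relIndex _ = 2
    rw [hK, Subgroup.inf_relIndex_left, hidx]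
  have hKb : stabilizer G b ≤ Subgroup.normalizer (K : Set G) := by
    rw [← Subgroup.normal_subgroupOf_iff_le_normalizer inf_le_right]
    apply Subgroup.normal_of_index_eq_two
    change K.relIndex _ = 2
    rw [hK, Subgroup.inf_relIndex_right, hidx']
  have hKn : K.Normal := by
    rw [← Subgroup.normalizer_eq_top_iff, eq_top_iff, ← hsup]
    exact sup_le hKa hKb
  have hKbot : K = ⊥ := normal_le_stabilizer_eq_bot a K hKn inf_le_left
  have hcarda : Nat.card (stabilizer G a) = 2 := by
    rw [← hidx, ← Subgroup.inf_relIndex_left, ← hK, hKbot, Subgroup.relIndex_bot_left]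
  have hcardb : Nat.card (stabilizer G b) = 2 := by
    rw [← hidx', ← Subgroup.inf_relIndex_right, ← hK, hKbot, Subgroup.relIndex_bot_left]
  refine ⟨hcarda, ?_⟩
  obtain ⟨s, hs, hsa⟩ := exists_gen_of_card_two _ hcarda
  obtain ⟨t, ht, htb⟩ := exists_gen_of_card_two _ hcardb
  have hst : s ≠ t := by
    rintro rfl
    exact hne (hsa.trans htb.symm)
  have hcl : Subgroup.closure ({s, t} : Set G) = ⊤ := by
    rw [eq_top_iff, ← hsup, hsa, htb]
    apply sup_le <;> rw [Subgroup.zpowers_le] <;> apply Subgroup.subset_closure <;> simp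
  obtain ⟨e⟩ := Cfsg.Agent.S0206.result s t hs ht hst
  have e' : G ≃* DihedralGroup (orderOf (s * t)) :=
    (Subgroup.topEquiv.symm.trans (MulEquiv.subgroupCongr hcl.symm)).trans e
  refine ⟨orderOf (s * t), ?_, ⟨e'⟩⟩
  have hss : s * s = 1 := by have := pow_orderOf_eq_one s; rwa [hs, pow_two] at this
  have htt : t * t = 1 := by have := pow_orderOf_eq_one t; rwa [ht, pow_two] at this
  have hsi : s⁻¹ = s := inv_eq_of_mul_eq_one_right hss
  have hti : t⁻¹ = t := inv_eq_of_mul_eq_one_right htt
  set n := orderOf (s * t) with hn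
  have hcG : Nat.card G = 2 * n := by
    rw [Nat.card_congr e'.toEquiv, DihedralGroup.nat_card]
  have hnΩ : Nat.card Ω = n := by
    have := Subgroup.card_mul_index (stabilizer G a)
    rw [hcarda, hia, hcG] at this
    omega
  have hn1 : n ≠ 1 := by
    intro h
    rw [hn, orderOf_eq_one_iff, mul_eq_one_iff_eq_inv, hti] at h
    exact hst h
  have hn0 : n ≠ 0 := by omega
  obtain ⟨p, hp, d, hd⟩ := Nat.exists_prime_and_dvd hn1
  have hd0 : d ≠ 0 := by rintro rfl; simp at hd; exact hn0 hd
  set x := (s * t) ^ d with hx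
  have hxo : orderOf x = p := by
    rw [hx, orderOf_pow_of_dvd hd0 (by rw [← hn, hd]; exact Dvd.intro_left p rfl), ← hn, hd,
      Nat.mul_div_cancel _ (Nat.pos_of_ne_zero hd0)]
  have hconj : ∀ u : G, u * (s * t) * u⁻¹ = (s * t)⁻¹ →
      u ∈ Subgroup.normalizer ((Subgroup.zpowers x : Subgroup G) : Set G) := by
    intro u hu
    apply Subgroup.mem_normalizer_fintype
    rintro _ ⟨k, rfl⟩
    have : u * x ^ k * u⁻¹ = x ^ (-k) := by
      rw [← conj_zpow, hx, ← conj_pow, hu, inv_pow, inv_zpow']
    change u * x ^ k * u⁻¹ ∈ Subgroup.zpowers x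
    rw [this]
    exact ⟨-k, rfl⟩
  have hN : (Subgroup.zpowers x).Normal := by
    rw [← Subgroup.normalizer_eq_top_iff, eq_top_iff, ← hcl, Subgroup.closure_le]
    rintro u (rfl | rfl)
    · apply hconj
      rw [← mul_assoc, hss, one_mul, mul_inv_rev, hti]
    · apply hconj
      rw [mul_inv_rev, hti, hsi, mul_assoc, mul_assoc, htt, mul_one]
  have htr : IsPretransitive (Subgroup.zpowers x) Ω := by
    apply IsQuasiPreprimitive.isPretransitive_of_normal
    intro h
    have : Subgroup.zpowers x ≤ stabilizer G a := by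
      intro y hy
      have : a ∈ fixedPoints (Subgroup.zpowers x) Ω := h ▸ Set.mem_univ a
      exact this ⟨y, hy⟩
    have := normal_le_stabilizer_eq_bot a _ hN this
    rw [Subgroup.zpowers_eq_bot] at this
    rw [this, orderOf_one] at hxo
    exact hp.one_lt.ne hxo
  have hdiv : n ∣ p := by
    rw [← hnΩ, ← index_stabilizer_of_transitive (Subgroup.zpowers x) a, ← hxo, ← Nat.card_zpowers]
    exact Subgroup.index_dvd_card _
  rcases (Nat.dvd_prime hp).mp hdiv with h | h
  · exact absurd h hn1
  · rw [h]; exact hp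

end Cfsg.Agent.S3684
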