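import Cfsg.Statements.S3685
import Cfsg.Agent.PERM.Sims2

set_option autoImplicit false
open Cfsg

namespace Cfsg.Agent.S3685

open CL.TW CL.Sims

/-- Let a finite group G act faithfully and primitively on a set Ω, and suppose the stabilizer of a point a has an orbit of length 3. Then the stabilizer of a is isomorphic to one of: the cyclic group of order 3, the symmetric group of degree 3, the dihedral group of order 12, the symmetric group of degree 4, or the direct product of the symmetric group of degree 4 with a group of order 2. -/
theorem result {G Ω : Type*} [Group G] [Finite G] [MulAction G Ω] [FaithfulSMul G Ω] [Finite Ω]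
    (hprim : MulAction.IsPreprimitive G Ω) (a b : Ω) (h3 : Nat.card (MulAction.orbit (MulAction.stabilizer G a) b) = 3) :
    Nonempty (MulAction.stabilizer G a ≃* Multiplicative (ZMod 3)) ∨ Nonempty (MulAction.stabilizer G a ≃* Equiv.Perm (Fin 3)) ∨
      Nonempty (MulAction.stabilizer G a ≃* DihedralGroup 6) ∨ Nonempty (MulAction.stabilizer G a ≃* Equiv.Perm (Fin 4)) ∨
      Nonempty (MulAction.stabilizer G a ≃* Equiv.Perm (Fin 4) × Multiplicative (ZMod 2)) := by
  obtain ⟨h, hd⟩ := pair_stabilizer_of_card hprim h3 (by omega)
  rcases exists_sys_of_pair h hd with h1 | ⟨τ, n, x, h1⟩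
  · exact Or.inl ⟨mulEquivOfPrimeCardEq h1 (by simp)⟩
  · exact Or.inr h1.structure_thm

end Cfsg.Agent.S3685
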