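import Cfsg.Statements.S3693
import Cfsg.Agent.PERM.TW

set_option autoImplicit false
open Cfsg

namespace Cfsg.Agent.S3693

open Subgroup CL CL.TW CL.MSS CL.Comp MulAction CL.Perm

/-- Let a finite group G act faithfully and primitively on a set Ω, let a and b be points such that the orbit Δ of b under the stabilizer H of a has length d ≥ 2, and consider the permutation group induced on Δ by the elements of H fixing b. If that induced group has trivial Fitting subgroup (no non-trivial nilpotent normal subgroup), then the two-point stabilizer of a and b has trivial Fitting subgroup and the order of H divides d! · ((d - 1)!)^d. -/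
theorem result {G Ω : Type*} [Group G] [Finite G] [MulAction G Ω] [FaithfulSMul G Ω] [Finite Ω]
    (hprim : MulAction.IsPreprimitive G Ω) (a b : Ω) (d : ℕ) (hd : Nat.card (MulAction.orbit (MulAction.stabilizer G a) b) = d) (h2 : 2 ≤ d)
    (hF : Cfsg.fittingSubgroup ↥(((MulAction.stabilizer G b).subgroupOf (MulAction.stabilizer G a)).map (MulAction.toPermHom (MulAction.stabilizer G a) (MulAction.orbit (MulAction.stabilizer G a) b))) = ⊥) :
    Cfsg.fittingSubgroup ↥(MulAction.stabilizer G a ⊓ MulAction.stabilizer G b) = ⊥ ∧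
      Nat.card (MulAction.stabilizer G a) ∣ Nat.factorial d * (Nat.factorial (d - 1)) ^ d := by
  obtain ⟨h, rfl⟩ := pair_stabilizer_of_card hprim hd h2
  have key : ∀ p : ℕ, p.Prime → pCoreOf p (stabilizer G a ⊓ stabilizer G b) = ⊥ := by
    intro p hp
    have := Fact.mk hp
    have h1 : pCoreOf p (stabilizer G a ⊓ stabilizer G b) ≤ K (stabilizer G a) (stabilizer G b) := by
      have h2 := oP_map_le (p := p) (toPermHom (stabilizer G a) (orbit (stabilizer G a) b))
        ((stabilizer G b).subgroupOf (stabilizer G a))
      replace h2 := h2.trans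
        (oP_eq_bot_iff.mpr (eq_bot_iff.mpr ((pCore_le_fittingSubgroup p).trans hF.le))).le
      rw [le_bot_iff, Subgroup.map_eq_bot_iff, ← inf_subgroupOf_left,
        ← oP_subgroupOf_of_le inf_le_left] at h2
      rw [K_stabilizer]
      intro x hx
      have hx' : x ∈ stabilizer G a := (oP_le _ hx).1
      refine ⟨hx', fun g hg => ?_⟩
      have h3 := h2 (show (⟨x, hx'⟩ : stabilizer G a) ∈ _ from hx)
      exact congrArg (fun σ : Equiv.Perm (orbit (stabilizer G a) b) =>
        (σ ⟨_, mem_orbit b (⟨g, hg⟩ : stabilizer G a)⟩).1) h3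
    have h3 : pCoreOf p (stabilizer G a ⊓ stabilizer G b) =
        pCoreOf p (K (stabilizer G a) (stabilizer G b)) :=
      le_antisymm (oP_le_oP_of_le (le_inf K_le_left K_le_right) h1)
        (oP_le_oP_of_normal (le_inf K_le_left K_le_right) (inf_le_left.trans K_normal))
    refine h.eq_bot_of_inf_le (oP_isPGroup (p := p) _) ((oP_le _).trans inf_le_left)
      ((oP_le _).trans inf_le_right) (h3 ▸ le_normalizer_oP K_normal) ?_
    refine le_trans ?_ (oP_inf_le inf_le_right)
    exact le_inf inf_le_right (le_inf inf_le_left (inf_le_right.trans (oP_le _)))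
  refine ⟨?_, h.card_dvd_of_P_eq_bot ?_⟩
  · rw [fittingSubgroup_eq_iSup_pCore, iSup_eq_bot]
    exact fun p => oP_eq_bot_iff.mp (key p p.2)
  · by_contra hP
    push Not at hP
    obtain ⟨p, hp, h1, -⟩ := h.thompson_wielandt hP.1 hP.2
    exact hP.1 (eq_bot_iff.mpr (key p hp ▸ le_oP h1
      (P_le_left.trans (le_inf K_le_left K_le_right)) (inf_le_left.trans P_normal)))

end Cfsg.Agent.S3693
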