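import Cfsg.Statements.S3687
import Cfsg.Agent.PERM.AltSub2
import Cfsg.Agent.S3693

set_option autoImplicit false
open Cfsg

namespace Cfsg.Agent.S3687

open Subgroup CL CL.TW CL.MSS CL.Comp MulAction CL.Perm CL.AltSub

theorem sd_orbit {G Ω : Type*} [Group G] [MulAction G Ω] (a b : Ω) :
    Sd (stabilizer G a) (K (stabilizer G a) (stabilizer G b))
      (toPermHom (stabilizer G a) (orbit (stabilizer G a) b)) := by
  refine ⟨K_le_left, fun m => ?_⟩
  rw [K_stabilizer, mem_orbitKer]
  constructor
  · intro h
    exact ⟨m.2, fun g hg => congrArg (fun σ : Equiv.Perm (orbit (stabilizer G a) b) =>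
      (σ ⟨_, mem_orbit b (⟨g, hg⟩ : stabilizer G a)⟩).1) h⟩
  · intro h
    ext ⟨_, g, rfl⟩
    exact h.2 g g.2

theorem pt_orbit {G Ω : Type*} [Group G] [MulAction G Ω] (a b : Ω) (m : stabilizer G a) :
    (m : G) ∈ stabilizer G b ↔ toPermHom (stabilizer G a) (orbit (stabilizer G a) b) m
      ⟨b, mem_orbit_self b⟩ = ⟨b, mem_orbit_self b⟩ :=
  ⟨fun h => Subtype.ext h, fun h => congrArg Subtype.val h⟩

/-- Let a finite group G act faithfully and primitively on a set Ω, let a and b be points such that the orbit Δ of b under the stabilizer H of a has d ≥ 6 elements, and suppose that the permutation group induced by H on Δ contains the alternating group of Δ (the image of H in the symmetric group of Δ has index at most 2) while H does not act faithfully on Δ. Then either H induces exactly the alternating group of Δ and H is isomorphic to the direct product of the alternating groups of degrees d and d - 1; or H induces the full symmetric group of Δ and H is isomorphic to one of: the direct product of the symmetric groups of degrees d and d - 1, the direct product of the symmetric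 group of degree d with the alternating group of degree d - 1, or the subgroup of the direct product of the symmetric groups of degrees d and d - 1 consisting of the pairs of permutations with equal signs. -/
theorem result {G Ω : Type*} [Group G] [Finite G] [MulAction G Ω] [FaithfulSMul G Ω] [Finite Ω]
    (hprim : MulAction.IsPreprimitive G Ω) (a b : Ω) (d : ℕ) (hd : Nat.card (MulAction.orbit (MulAction.stabilizer G a) b) = d) (h6 : 6 ≤ d)
    (halt : (MulAction.toPermHom (MulAction.stabilizer G a) (MulAction.orbit (MulAction.stabilizer G a) b)).range.index ≤ 2)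
    (hunf : ¬ Function.Injective (MulAction.toPermHom (MulAction.stabilizer G a) (MulAction.orbit (MulAction.stabilizer G a) b))) :
    ((MulAction.toPermHom (MulAction.stabilizer G a) (MulAction.orbit (MulAction.stabilizer G a) b)).range.index = 2 ∧
      Nonempty (MulAction.stabilizer G a ≃* alternatingGroup (Fin d) × alternatingGroup (Fin (d - 1)))) ∨
    ((MulAction.toPermHom (MulAction.stabilizer G a) (MulAction.orbit (MulAction.stabilizer G a) b)).range = ⊤ ∧
      (Nonempty (MulAction.stabilizer G a ≃* Equiv.Perm (Fin d) × Equiv.Perm (Fin (d - 1))) ∨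
       Nonempty (MulAction.stabilizer G a ≃* Equiv.Perm (Fin d) × alternatingGroup (Fin (d - 1))) ∨
       Nonempty (MulAction.stabilizer G a ≃* ((Equiv.Perm.sign.comp (MonoidHom.fst (Equiv.Perm (Fin d)) (Equiv.Perm (Fin (d - 1))))) *
         (Equiv.Perm.sign.comp (MonoidHom.snd (Equiv.Perm (Fin d)) (Equiv.Perm (Fin (d - 1)))))).ker))) := by
  classical
  have := Fintype.ofFinite (orbit (stabilizer G a) b)
  have := Fintype.ofFinite (orbit (stabilizer G b) a)
  obtain ⟨h, hd'⟩ := pair_stabilizer_of_card hprim hd (by omega)
  have halt' := Equiv.Perm.alternatingGroup_le_of_index_le_two halt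
  have hx : ∀ m : stabilizer G a, (m : G) ∈ stabilizer G a ⊓ stabilizer G b ↔ _ := fun m =>
    ⟨fun e => (pt_orbit a b m).1 e.2, fun e => ⟨m.2, (pt_orbit a b m).2 e⟩⟩
  have hF := (Cfsg.Agent.S3693.result hprim a b d hd (by omega) (by
    set R := ((stabilizer G b).subgroupOf (stabilizer G a)).map
      (toPermHom (stabilizer G a) (orbit (stabilizer G a) b)) with hR
    have hRle : R ≤ stabilizer _ (⟨b, mem_orbit_self b⟩ : orbit (stabilizer G a) b) := by
      rintro _ ⟨m, hm, rfl⟩; exact (pt_orbit a b m).1 hm
    let f := (res _).comp (inclusion hRle)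
    have hf : Function.Injective f := by
      rw [injective_iff_map_eq_one]
      intro x hx
      exact Subtype.ext (res_eq_one hx)
    have h5 : 5 ≤ Nat.card {y // y ≠ (⟨b, mem_orbit_self b⟩ : orbit (stabilizer G a) b)} := by
      rw [card_compl_pt, hd]; omega
    by_contra hne
    have h1 := alt_le h5 (N := (fittingSubgroup R).map f) (by
      rintro s hs _ ⟨n, hn, rfl⟩
      obtain ⟨m, rfl⟩ := alt_sg inf_le_left hx halt' hs
      let r : R := ⟨_, inclusion inf_le_left m, m.2.2, rfl⟩
      exact ⟨r * n * r⁻¹, (inferInstance : (fittingSubgroup R).Normal).conj_mem n hn r, by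
        rw [map_mul, map_mul, map_inv]; rfl⟩)
      (fun e => hne ((map_eq_bot_iff_of_injective _ hf).1 e))
    have h2 := isNilpotent_fittingSubgroup R
    have h3 : Group.IsSolvable ((fittingSubgroup R).map f) :=
      Group.isSolvable_of_surjective (f.subgroupMap_surjective _)
    exact (quasi_alt h5).not_le_of_isSolvable h3 h1)).1
  refine Hyp.final (x₂ := ⟨a, mem_orbit_self a⟩) ⟨h, sd_orbit a b, sd_orbit b a, pt_orbit a b,
    pt_orbit b a, hd, ?_, h6, halt', fun e => hunf ?_, ?_⟩
  · rw [Nat.card_coe_set_eq, ncard_suborbit, ← hd']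
    have h1 := (((stabilizer G b ⊓ stabilizer G a).subgroupOf (stabilizer G b)).card_mul_index.trans
      h.card_eq.symm).trans
      ((stabilizer G b ⊓ stabilizer G a).subgroupOf (stabilizer G a)).card_mul_index.symm
    rw [Nat.card_congr (subgroupOfEquivOfLe inf_le_left).toEquiv,
      Nat.card_congr (subgroupOfEquivOfLe inf_le_right).toEquiv] at h1
    rw [← inf_relIndex_right (stabilizer G b) (stabilizer G a),
      ← inf_relIndex_left (stabilizer G b) (stabilizer G a)]
    exact Nat.eq_of_mul_eq_mul_left Nat.card_pos h1
  · rw [injective_iff_map_eq_one]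
    intro m hm
    have := ((sd_orbit a b).ker m).1 hm
    rw [e, mem_bot] at this
    exact Subtype.ext this
  · rw [fittingOf_def, hF, Subgroup.map_bot]

end Cfsg.Agent.S3687
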