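import Cfsg.Statements.S3696
import Cfsg.Agent.PERM.Derange

set_option autoImplicit false
open Cfsg

namespace Cfsg.Agent.S3696

open MulAction

theorem amgm (l : List ℕ) : l.prod * l.length ^ l.length ≤ l.sum ^ l.length := by
  rcases Nat.eq_zero_or_pos l.length with h0 | h0
  · rw [List.length_eq_zero_iff] at h0
    subst h0
    simp
  have h := Real.geom_mean_le_arith_mean (Finset.univ : Finset (Fin l.length)) (fun _ => 1)
    (fun i => (l.get i : ℝ)) (fun _ _ => zero_le_one) (by simpa using h0)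
    (fun _ _ => Nat.cast_nonneg _)
  simp only [Real.rpow_one, Finset.sum_const, Finset.card_univ, Fintype.card_fin, nsmul_eq_mul,
    mul_one, one_mul] at h
  have hp : ∏ i : Fin l.length, (l.get i : ℝ) = (l.prod : ℕ) := by
    rw [← Nat.cast_prod]; simp
  have hs : ∑ i : Fin l.length, (l.get i : ℝ) = (l.sum : ℕ) := by
    rw [← Nat.cast_sum]; simp
  rw [hp, hs] at h
  have h1 := pow_le_pow_left₀ (Real.rpow_nonneg (Nat.cast_nonneg _) _) h l.length
  rw [Real.rpow_inv_natCast_pow (Nat.cast_nonneg _) h0.ne', div_pow,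
    le_div_iff₀ (by positivity)] at h1
  exact_mod_cast h1

theorem pow_add_le (p : ℕ) (hp : 2 ≤ p) (c r : ℕ) : p ^ (c + 1) + r * p ≤ p ^ (c + 1 + r) := by
  induction r with
  | zero => simp
  | succ r ih =>
    have h1 : p ≤ p ^ (c + 1 + r) := Nat.le_self_pow (by omega) p
    have h2 : p ^ (c + 1 + r) * 2 ≤ p ^ (c + 1 + r) * p := Nat.mul_le_mul_left _ hp
    rw [← add_assoc, pow_succ p (c + 1 + r), add_mul, one_mul]
    omega

theorem card_inf_mul {G : Type*} [Group G] (H K : Subgroup G) :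
    Nat.card (K ⊓ H : Subgroup G) * H.relIndex K = Nat.card K := by
  rw [← Subgroup.inf_relIndex_left, ← Subgroup.relIndex_bot_left, ← Subgroup.relIndex_bot_left,
    Subgroup.relIndex_mul_relIndex _ _ _ bot_le inf_le_left]

theorem aux {G Ω : Type*} [CommGroup G] [Finite G] [MulAction G Ω] [FaithfulSMul G Ω] [Finite Ω]
    (p : ℕ) (hp : p.Prime) (hG : IsPGroup p G) (E : Subgroup G) (hE : ∀ x, x ∈ E ↔ x ^ p = 1)
    (n : ℕ) : ∀ (S : Set Ω), S.ncard = n → ∀ (B : Subgroup G),
      (∀ b ∈ B, ∀ x, x ∉ S → b • x = x) → ∀ k, Nat.card (B ⊓ E : Subgroup G) = p ^ k →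
      ∃ l : List ℕ, l.length = k ∧ Nat.card B ≤ l.prod ∧ l.sum ≤ n := by
  have := Fact.mk hp
  induction n using Nat.strong_induction_on with
  | _ n ih =>
  intro S hS B hB k hk
  by_cases hbot : B = ⊥
  · subst hbot
    rw [bot_inf_eq, Subgroup.card_bot] at hk
    have : k = 0 := by
      rcases Nat.eq_zero_or_pos k with h | h
      · exact h
      · have := Nat.one_lt_pow h.ne' hp.one_lt
        omega
    exact ⟨[], by simp [this], by simp, by simp⟩
  obtain ⟨e, heB, he1, hep⟩ : ∃ e ∈ B, e ≠ 1 ∧ e ^ p = 1 := by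
    obtain ⟨m, hm⟩ := IsPGroup.iff_card.mp (hG.to_subgroup B)
    have hm0 : m ≠ 0 := by
      rintro rfl
      exact hbot (Subgroup.eq_bot_of_card_eq B (by simpa using hm))
    obtain ⟨x, hx⟩ := exists_prime_orderOf_dvd_card' (G := B) p (hm ▸ dvd_pow_self p hm0)
    rw [← Subgroup.orderOf_coe] at hx
    refine ⟨x, x.2, ?_, hx ▸ pow_orderOf_eq_one (x : G)⟩
    intro h
    rw [h, orderOf_one] at hx
    exact hp.one_lt.ne hx
  obtain ⟨x, hx⟩ : ∃ x : Ω, e • x ≠ x := by
    by_contra h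
    push Not at h
    exact he1 (FaithfulSMul.eq_of_smul_eq_smul (α := Ω) (fun x => by rw [h, one_smul]))
  have hxS : x ∈ S := by
    by_contra h
    exact hx (hB e heB x h)
  have hOS : orbit B x ⊆ S := by
    rintro _ ⟨b, rfl⟩
    by_contra h
    have h1 := hB (b : G)⁻¹ (B.inv_mem b.2) _ h
    have h2 : (b : G)⁻¹ • (b : G) • x = (b : G) • x := h1
    rw [inv_smul_smul] at h2
    apply h
    change (b : G) • x ∈ S
    rw [← h2]; exact hxS
  have hO := CL.Perm.ncard_suborbit B x
  obtain ⟨a, ha⟩ : ∃ a, (stabilizer G x).relIndex B = p ^ a :=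
    (hG.to_subgroup B).index _
  obtain ⟨r, hr⟩ : ∃ a, (stabilizer G x).relIndex (B ⊓ E) = p ^ a :=
    (hG.to_subgroup _).index _
  have hr0 : r ≠ 0 := by
    rintro rfl
    rw [pow_zero, Subgroup.relIndex_eq_one] at hr
    exact hx (hr ⟨heB, (hE e).mpr hep⟩)
  have hra : r ≤ a := by
    have := Subgroup.relIndex_le_of_le_right (H := stabilizer G x) (inf_le_left : B ⊓ E ≤ B)
      (by rw [ha]; exact pow_ne_zero _ hp.ne_zero)
    rw [hr, ha] at this
    exact (Nat.pow_le_pow_iff_right hp.one_lt).mp this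
  obtain ⟨k', hk'⟩ := IsPGroup.iff_card.mp (hG.to_subgroup ((B ⊓ stabilizer G x) ⊓ E))
  have hkk : k = k' + r := by
    have := card_inf_mul (stabilizer G x) (B ⊓ E)
    rw [inf_right_comm, hk', hr, hk, ← pow_add] at this
    exact (Nat.pow_right_injective hp.two_le this).symm
  have hdiff : (S \ orbit B x).ncard + p ^ a = n := by
    rw [← ha, ← hO, Set.ncard_sdiff_add_ncard_of_subset hOS, hS]
  have hpa : 0 < p ^ a := pow_pos hp.pos a
  obtain ⟨l, hl1, hl2, hl3⟩ := ih _ (by omega) (S \ orbit B x) rfl (B ⊓ stabilizer G x) (by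
    intro b hb y hy
    by_cases hyS : y ∈ S
    · have : y ∈ orbit B x := by
        by_contra h
        exact hy ⟨hyS, h⟩
      obtain ⟨c, rfl⟩ := this
      change b • (c : G) • x = (c : G) • x
      rw [← mul_smul, mul_comm, mul_smul, mem_stabilizer_iff.mp hb.2]
    · exact hB b hb.1 y hyS) k' hk'
  obtain ⟨r', rfl⟩ : ∃ r', r = r' + 1 := ⟨r - 1, by omega⟩
  obtain ⟨c, rfl⟩ : ∃ c, a = c + 1 + r' := ⟨a - (r' + 1), by omega⟩
  refine ⟨p ^ (c + 1) :: (List.replicate r' p ++ l), by simp [hl1, hkk]; omega, ?_, ?_⟩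
  · rw [← card_inf_mul (stabilizer G x) B, ha]
    simp only [List.prod_cons, List.prod_append, List.prod_replicate]
    rw [← mul_assoc, ← pow_add, mul_comm]
    exact Nat.mul_le_mul_left _ hl2
  · simp only [List.sum_cons, List.sum_append, List.sum_replicate, smul_eq_mul]
    have := pow_add_le p hp.two_le c r'
    omega


/-- Let p be a prime, Ω a finite set with n ≥ p elements, and A an abelian p-subgroup of the symmetric group on Ω whose elements of order dividing p number p^k (so k is the rank of A). Then |A| · k^k ≤ n^k, that is, |A| ≤ (n/k)^k. -/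
theorem result {Ω : Type*} [Fintype Ω] [DecidableEq Ω]
    (p : ℕ) (hp : p.Prime) (hn : p ≤ Fintype.card Ω) (A : Subgroup (Equiv.Perm Ω)) (hA : IsPGroup p A) (hab : IsMulCommutative A)
    (k : ℕ) (hk : Nat.card {x : A // x ^ p = 1} = p ^ k) :
    Nat.card A * k ^ k ≤ Fintype.card Ω ^ k := by
  letI : CommGroup A := { (inferInstance : Group A) with mul_comm := hab.is_comm.comm }
  obtain ⟨l, h1, h2, h3⟩ := aux (G := A) (Ω := Ω) p hp hA (powMonoidHom p).ker (fun x => Iff.rfl)
    _ Set.univ rfl ⊤ (fun _ _ x hx => (hx (Set.mem_univ x)).elim) k (by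
      rw [top_inf_eq, ← hk]; rfl)
  rw [Subgroup.card_top] at h2
  rw [Set.ncard_univ, Nat.card_eq_fintype_card] at h3
  have := amgm l
  rw [h1] at this
  calc _ ≤ l.prod * k ^ k := Nat.mul_le_mul_right _ h2
    _ ≤ _ := this
    _ ≤ _ := Nat.pow_le_pow_left h3 k

end Cfsg.Agent.S3696
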