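import Cfsg.Statements.S3703
import Mathlib
import Cfsg.Agent.SOLV.Frobenius
import Cfsg.Agent.SOLV.OddOrderCor
import Cfsg.Agent.SOLV.CoprimeSylow
import Cfsg.Agent.PLOC.PFrattini

set_option autoImplicit false
open Cfsg

namespace Cfsg.Agent.S3703

open Subgroup
open scoped Pointwise commutatorElement

theorem fix_of_norm {L W : Type*} [Group L] [Finite L] [CommGroup W] [Finite W] (ρ : L →* Monoid.End W)
    (A : Subgroup L) (h : L) (hA : h ∈ normalizer (A : Set L)) (n : ℕ) (hn : 0 < n)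
    (hf : ∀ i, 0 < i → i < n → ∀ f ∈ A, Commute f (h ^ i) → f = 1)
    (hcop : (Nat.card W).Coprime (Nat.card A))
    (h1 : ∀ f ∈ A, ∀ w, ∏ i ∈ Finset.range n, ρ ((f * h * f⁻¹) ^ i) w = 1) :
    ∀ a ∈ A, ∀ w, ρ a w = w := by
  classical
  haveI := Fintype.ofFinite A
  intro a ha w
  have h2 : ∀ r, ρ a (∏ f : A, ρ f r) = ∏ f : A, ρ f r := fun r => by
    rw [map_prod]
    refine Fintype.prod_equiv (Equiv.mulLeft (⟨a, ha⟩ : A)) _ _ fun f => ?_
    change _ = ρ (a * f) r
    rw [map_mul]; rfl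
  have h3 : ∀ i, 0 < i → i < n → ∏ f : A, ρ ((f * h * (f : L)⁻¹) ^ i) w = ∏ f : A, ρ f (ρ (h ^ i) w) := by
    intro i hi hin
    let φ : A → A := fun f => f * ⟨h ^ i * (f : L)⁻¹ * (h ^ i)⁻¹,
      (mem_normalizer_iff.mp (pow_mem hA i) _).mp (inv_mem f.2)⟩
    have hφ : Function.Injective φ := fun f g hfg => by
      have h4 : (f : L) * (h ^ i * (f : L)⁻¹ * (h ^ i)⁻¹) = g * (h ^ i * (g : L)⁻¹ * (h ^ i)⁻¹) :=
        congrArg Subtype.val hfg
      have h5 := hf i hi hin _ (mul_mem (inv_mem g.2) f.2) (by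
        calc (g : L)⁻¹ * f * h ^ i = (g : L)⁻¹ * (f * (h ^ i * (f : L)⁻¹ * (h ^ i)⁻¹)) * (h ^ i * f) := by
              group
          _ = _ := by rw [h4]; group)
      exact Subtype.ext (inv_mul_eq_one.mp h5).symm
    refine Fintype.prod_bijective φ (Finite.injective_iff_bijective.mp hφ) _ _ fun f => ?_
    change _ = (ρ (f * (h ^ i * (f : L)⁻¹ * (h ^ i)⁻¹)) * ρ (h ^ i)) w
    rw [← map_mul, conj_pow]
    congr 2
    group
  obtain ⟨m, rfl⟩ := Nat.exists_eq_succ_of_ne_zero hn.ne'
  have h4 : (∏ i ∈ Finset.range m, ∏ f : A, ρ f (ρ (h ^ (i + 1)) w)) * w ^ Nat.card A = 1 := by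
    rw [← Finset.prod_congr rfl fun i hi => h3 (i + 1) (by omega) (by simpa using hi),
      ← Finset.prod_eq_one (s := Finset.univ) fun (f : A) _ => h1 f f.2 w,
      Finset.prod_comm (s := Finset.univ), Finset.prod_range_succ']
    simp
  have h5 := congrArg (ρ a) h4
  rw [map_mul, map_prod, Finset.prod_congr rfl fun i _ => h2 _, map_one, ← h4, mul_right_inj,
    map_pow] at h5
  exact hcop.pow_left_bijective.1 h5

theorem commutator_le_of_pow {G : Type*} [Group G] [Finite G] (A P : Subgroup G) (h : G)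
    (hAP : A ≤ normalizer (P : Set G)) (hP : h ∈ normalizer (P : Set G))
    (hA : h ∈ normalizer (A : Set G)) (n : ℕ) (hn : 0 < n)
    (hf : ∀ i, 0 < i → i < n → ∀ f ∈ A, Commute f (h ^ i) → f = 1)
    (hcop : (Nat.card A).Coprime (Nat.card P))
    (h1 : ∀ f ∈ A, ∀ q ∈ P, (q * (f * h * f⁻¹)) ^ n = 1) : ⁅P, A⁆ ≤ ⁅P, P⁆ := by
  let ρ : normalizer (P : Set G) →* Monoid.End (Abelianization P) :=
    { toFun := fun g => Abelianization.map (P.normalizerMonoidHom g).toMonoidHom
      map_one' := by rw [map_one]; exact Abelianization.map_id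
      map_mul' := fun a b => by
        rw [map_mul]
        exact (Abelianization.map_comp (P.normalizerMonoidHom b).toMonoidHom
          (P.normalizerMonoidHom a).toMonoidHom).symm }
  have key := fix_of_norm ρ (A.subgroupOf _) ⟨h, hP⟩ (mem_normalizer_iff.mpr fun x =>
    mem_normalizer_iff.mp hA x) n hn (fun i h2 h3 f hf' hc => Subtype.ext
      (hf i h2 h3 f hf' (congrArg Subtype.val hc))) (by
      rw [Nat.card_congr (subgroupOfEquivOfLe hAP).toEquiv]
      exact (hcop.coprime_dvd_right (card_quotient_dvd_card (commutator P))).symm) (by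
      intro f hf' w
      obtain ⟨q, rfl⟩ := QuotientGroup.mk_surjective w
      set y := f * ⟨h, hP⟩ * f⁻¹ with hy
      have h2 : ∀ m, ∃ t : P, (t : G) = (q * y) ^ m * ((y : G) ^ m)⁻¹ ∧
          ∏ i ∈ Finset.range m, ρ (y ^ i) (Abelianization.of q) = Abelianization.of t := fun m => by
        induction m with
        | zero => exact ⟨1, by simp, by simp⟩
        | succ m ih =>
          obtain ⟨t, h3, h4⟩ := ih
          refine ⟨t * P.normalizerMonoidHom (y ^ m) q, ?_, by
            rw [Finset.prod_range_succ, h4, map_mul]; rfl⟩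
          change (t : G) * (y ^ m * q * ((y : G) ^ m)⁻¹) = _
          rw [h3, pow_succ, pow_succ]; group
      obtain ⟨t, h3, h4⟩ := h2 n
      have h5 : (y : G) ^ n = 1 := (congrArg (· ^ n) (one_mul _).symm).trans (h1 f hf' 1 (one_mem _))
      have h6 : ((q : G) * y) ^ n = 1 := h1 f hf' q q.2
      rw [h5, h6, inv_one, mul_one] at h3
      exact h4.trans (by rw [show t = 1 from Subtype.ext h3, map_one]))
  rw [commutator_comm, commutator_le]
  intro a ha q hq
  have h2 : (P.normalizerMonoidHom ⟨a, hAP ha⟩ ⟨q, hq⟩) / ⟨q, hq⟩ ∈ commutator P :=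
    QuotientGroup.eq_iff_div_mem.mp (key ⟨a, hAP ha⟩ ha (Abelianization.of ⟨q, hq⟩))
  rw [← map_subtype_commutator]
  exact ⟨_, h2, by rw [div_eq_mul_inv]; rfl⟩

/-- Let N be a normal subgroup of the finite group G such that G/N is a Frobenius group with kernel F and cyclic complement H, where the order of F is coprime to that of N and F is not contained in the image of C_G(N) in G/N. Then G has an element of order p·#H for some prime p dividing the order of N. (A standard tool in recognising groups by their element orders.) -/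
theorem result {G : Type*} [Group G] [Finite G] (N : Subgroup G) [N.Normal]
    (Fb Hb : Subgroup (G ⧸ N)) [Fb.Normal] (hHb : Cfsg.IsFrobeniusComplement Hb) (hker : Cfsg.frobeniusKernel Hb = (Fb : Set (G ⧸ N)))
    (hcyc : IsCyclic Hb) (hcop : (Nat.card Fb).Coprime (Nat.card N))
    (hnot : ¬ Fb ≤ (Subgroup.centralizer (N : Set G)).map (QuotientGroup.mk' N)) :
    ∃ p : ℕ, p.Prime ∧ p ∣ Nat.card N ∧ ∃ g : G, orderOf g = p * Nat.card Hb := by
  by_contra hcon
  push Not at hcon
  apply hnot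
  set π := QuotientGroup.mk' N with hπ
  have hn : 0 < Nat.card Hb := Nat.card_pos
  have hpow : ∀ g : G, orderOf (π g) = Nat.card Hb → g ^ Nat.card Hb = 1 := fun g hg => by
    by_contra h1
    obtain ⟨p, hp, hd⟩ := Nat.exists_prime_and_dvd (mt orderOf_eq_one_iff.mp h1)
    have h2 : g ^ Nat.card Hb ∈ N := (QuotientGroup.eq_one_iff _).mp
      (show π _ = 1 by rw [map_pow, ← hg, pow_orderOf_eq_one])
    have h3 : Nat.card Hb ∣ orderOf g := hg ▸ orderOf_map_dvd π g
    refine hcon p hp (hd.trans (orderOf_dvd_natCard N h2)) _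
      (orderOf_pow_orderOf_div (orderOf_pos g).ne' ?_)
    rw [orderOf_pow_of_dvd hn.ne' h3] at hd
    exact (Nat.dvd_div_iff_mul_dvd h3).mp hd |> (mul_comm p _ ▸ ·)
  obtain ⟨K', hK1, -, hK2, -, hK3⟩ := CL.Frob.exists_kernel hHb
  obtain rfl : K' = Fb := SetLike.coe_injective (hK1.trans hker)
  obtain ⟨⟨x, hxH⟩, hx⟩ := IsCyclic.exists_ofOrder_eq_natCard (α := Hb)
  rw [orderOf_mk] at hx
  set F := K'.comap π with hF
  have hNF : N ≤ F := fun v hv => by
    rw [mem_comap, show π v = 1 from (QuotientGroup.eq_one_iff v).mpr hv]; exact one_mem _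
  have hi : (N.subgroupOf F).index = Nat.card K' := by
    rw [← map_comap_eq_self_of_surjective (QuotientGroup.mk'_surjective N) K',
      CL.card_map_mk'_eq_relIndex]; rfl
  have hc : (Nat.card (N.subgroupOf F)).Coprime (N.subgroupOf F).index := by
    rw [hi, Nat.card_congr (subgroupOfEquivOfLe hNF).toEquiv]; exact hcop.symm
  obtain ⟨K, hK⟩ := exists_right_complement'_of_coprime hc
  set A := K.map F.subtype with hA
  have hAc : (Nat.card A).Coprime (Nat.card N) := by
    rwa [card_subtype, ← hK.symm.index_eq_card, hi]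
  have hAN : ∀ f ∈ A, π f = 1 → f = 1 := by
    rintro _ ⟨f, hf, rfl⟩ h1
    exact congrArg Subtype.val (disjoint_def.mp hK.disjoint ((QuotientGroup.eq_one_iff (f : G)).mp h1) hf)
  obtain ⟨g, rfl⟩ := QuotientGroup.mk'_surjective N x
  obtain ⟨g₁, hg₁, hg₁A⟩ : ∃ g₁, π g₁ = π g ∧ g₁ ∈ normalizer (A : Set G) := by
    let e : MulAut F := MulAut.conjNormal g
    obtain ⟨m, hm, h1⟩ := CL.schurZassenhaus_conj' _ hc (K.map e.toMonoidHom) K (by
      refine isComplement'_of_coprime ?_ ?_ <;>
        rw [← Nat.card_congr (K.equivMapOfInjective e.toMonoidHom e.injective).toEquiv]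
      · exact hK.card_mul
      · rwa [← hK.symm.index_eq_card]) hK
    refine ⟨m * g, by rw [map_mul, show π m = 1 from (QuotientGroup.eq_one_iff _).mpr hm, one_mul],
      mem_normalizer_fintype ?_⟩
    rintro _ ⟨k, hk, rfl⟩
    refine ⟨MulAut.conj m • e k, h1 ▸ smul_mem_pointwise_smul _ _ _ ⟨k, hk, rfl⟩, ?_⟩
    change (m : G) * (g * k * g⁻¹) * (m : G)⁻¹ = m * g * k * (m * g)⁻¹
    group
  have hsolv := CL.isSolvable_or_of_coprime _ _ hAc
  have hAC : A ≤ centralizer (N : Set G) := by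
    rw [le_centralizer_iff, ← subgroupOf_eq_top, ← index_eq_one]
    by_contra h1
    obtain ⟨p, hp, hd⟩ := Nat.exists_prime_and_dvd h1
    haveI := Fact.mk hp
    obtain ⟨P, hP⟩ := CL.coprime_exists_invariant_sylow A N le_normalizer_of_normal hAc hsolv p
    obtain ⟨Q, hQ⟩ := CL.exists_sylow_map_subtype_eq_conj N P (g := g₁)
      (le_normalizer_of_normal (mem_top _))
    obtain ⟨c, hc1, hc2⟩ := CL.coprime_invariant_sylow_conj A N le_normalizer_of_normal hAc hsolv p
      Q P (by
        rw [hQ]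
        intro a ha
        rw [← CL.conj_smul_eq_iff_mem_normalizer, CL.conj_smul_conj_smul,
          show a * g₁ = g₁ * (g₁⁻¹ * a * g₁) by group, ← CL.conj_smul_conj_smul,
          CL.conj_smul_eq_iff_mem_normalizer.mpr (hP ((mem_normalizer_iff''.mp hg₁A a).mp ha))]) hP
    set P' := (P : Subgroup N).map N.subtype with hP'
    have hPN : P' ≤ N := map_subtype_le _
    have h2 : (c : G) * g₁ ∈ normalizer (P' : Set G) := by
      rw [← CL.conj_smul_eq_iff_mem_normalizer, ← CL.conj_smul_conj_smul, ← hQ, hc2]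
    have h3 : π (c * g₁) = π g := by
      rw [map_mul, show π c = 1 from (QuotientGroup.eq_one_iff _).mpr hc1.1, one_mul, hg₁]
    have h4 := commutator_le_of_pow A P' (c * g₁) hP h2
      (mul_mem (centralizer_le_normalizer _ hc1.2) hg₁A) _ hn (fun i h4 h5 f hf h6 => hAN f hf (by
        have h7 := hK3 _ (pow_mem hxH i) (pow_ne_one_of_lt_orderOf h4.ne' (hx ▸ h5))
        refine mem_bot.mp (h7.le ⟨map_subtype_le K hf, mem_centralizer_singleton_iff.mpr ?_⟩)
        have := (h6.map π).eq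
        rwa [map_pow, h3] at this)) (hAc.coprime_dvd_right (card_dvd_of_le hPN))
      (fun f hf q hq => hpow _ (by
        rw [map_mul, show π q = 1 from (QuotientGroup.eq_one_iff _).mpr (hPN hq), one_mul, map_mul,
          map_mul, map_inv, h3, ← hx]
        exact (MulAut.conj (π f)).orderOf_eq (π g)))
    have h5 := CL.coprime_le_centralizer_of_commutator_le_frattini A P' hP
      ((hAc.coprime_dvd_right (card_dvd_of_le hPN)).coprime_dvd_right (card_subgroup_dvd_card _))
      (h4.trans (CL.PG.commutator_le_frattini_map (P.isPGroup'.map _)))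
    exact P.not_dvd_index (hd.trans (index_dvd_of_le (map_le_iff_le_comap.mp h5)))
  intro y hy
  obtain ⟨y, rfl⟩ := QuotientGroup.mk'_surjective N y
  obtain ⟨⟨v, k⟩, h1⟩ := hK.2 ⟨y, hy⟩
  refine ⟨k.1.1, hAC ⟨k, k.2, rfl⟩, ?_⟩
  rw [← show v.1.1 * k.1.1 = y from congrArg Subtype.val h1, map_mul,
    show π v.1.1 = 1 from (QuotientGroup.eq_one_iff _).mpr v.2, one_mul]

end Cfsg.Agent.S3703
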