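import Cfsg.Statements.S3704
import Cfsg.Agent.PERM.PermAlg
import Cfsg.Agent.CHAR.PermChar

set_option autoImplicit false
open Cfsg

namespace Cfsg.Agent.S3704

/-- Let G be a finite group acting faithfully and 2-transitively on a finite set Ω of size n, and let H be a subgroup of index n in G which is not transitive on Ω and fixes no point of Ω. Then H has exactly two orbits on Ω. -/
theorem result {G Ω : Type*} [Group G] [Finite G] [MulAction G Ω] [FaithfulSMul G Ω] [Finite Ω] (h2 : MulAction.IsMultiplyPretransitive G Ω 2) (H : Subgroup G) (hidx : H.index = Nat.card Ω) (hnt : ¬ MulAction.IsPretransitive H Ω) (hfix : ∀ a : Ω, ∃ h : H, h • a ≠ a) : Nat.card (MulAction.orbitRel.Quotient H Ω) = 2 := by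
  classical
  have := Fintype.ofFinite G
  have := Fintype.ofFinite Ω
  have hne : Nonempty Ω := by
    by_contra h
    rw [not_nonempty_iff] at h
    exact hnt ⟨fun x => h.elim x⟩
  have hnt' : Nontrivial Ω := by
    by_contra h
    rw [not_nontrivial_iff_subsingleton] at h
    exact hnt ⟨fun x y => ⟨1, Subsingleton.elim _ _⟩⟩
  have : MulAction.IsPretransitive G Ω := MulAction.isPretransitive_of_is_two_pretransitive
  have hχ := (CL.Char.isIrr_perm_sub_one_iff (G := G) Ω).2 h2
  have hψ := CL.Char.isCharacter_perm_sub_one (G := G) (G ⧸ H)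
  obtain ⟨e, he⟩ := hψ.exists_nat_inner hχ.isCharacter
  have h1 := hψ.sub_smul_irr hχ he le_rfl
  have hn : 2 ≤ Nat.card Ω := Finite.one_lt_card
  have h3 := CL.Char.degree_le_of_sub h1 (m := Nat.card Ω - 1) (n := e * (Nat.card Ω - 1))
    (by
      rw [MulAction.fixedBy_one_eq_univ, Nat.card_univ, ← Subgroup.index_eq_card, hidx,
        Nat.cast_sub (by omega : 1 ≤ Nat.card Ω), Nat.cast_one])
    (by
      rw [Nat.cast_mul, Nat.cast_sub (by omega : 1 ≤ Nat.card Ω)]
      simp)
  have he1 : e ≤ 1 := by
    by_contra h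
    have : 2 * (Nat.card Ω - 1) ≤ e * (Nat.card Ω - 1) := Nat.mul_le_mul_right _ (by omega)
    omega
  have h4 : (Nat.card (MulAction.orbitRel.Quotient H Ω) : ℂ) = e + 1 := by
    have e1 := CL.Char.classInner_indFun_right H
      (CL.Char.isCharacter_perm G Ω).isClassFunction (fun _ => 1)
    rw [funext (CL.Char.indFun_one_eq_card_fixedBy H),
      (CL.Char.isCharacter_perm G Ω).inner_comm (CL.Char.isCharacter_perm G (G ⧸ H))] at e1
    have e2 := CL.PermAlg.inner_pc_one (G := G) (Ω := Ω)
    rw [(CL.Char.isCharacter_perm G Ω).inner_comm CL.Char.isCharacter_one] at e2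
    have e3 := CL.PermAlg.inner_pc_one (G := G) (Ω := G ⧸ H)
    have e4 : ∀ φ : G → ℂ, (fun g => φ g - 1) = φ - fun _ => 1 := fun _ => rfl
    rw [e4, e4, CL.Char.classInner_sub_left, CL.Char.classInner_sub_right, CL.Char.classInner_sub_right,
      e1, e2, e3, CL.Char.isIrrCharacter_one.inner_self] at he
    rw [← he, ← CL.Char.classInner_perm_one]
    simp only [sub_self, sub_zero, sub_add_cancel]
    rfl
  have h5 : Nat.card (MulAction.orbitRel.Quotient H Ω) = e + 1 := by exact_mod_cast h4
  have h6 : Nat.card (MulAction.orbitRel.Quotient H Ω) ≠ 1 := fun h =>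
    hnt (MulAction.pretransitive_iff_subsingleton_quotient H Ω |>.2
      (Nat.card_eq_one_iff_unique.1 h).1)
  omega

end Cfsg.Agent.S3704
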