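import Mathlib
import Cfsg.Statements.S3716
import Cfsg.Agent.PERM.D8Main

set_option autoImplicit false
open Cfsg

namespace Cfsg.Agent.S3716

theorem iter24 : ∀ u w : CL.Odd.V2, (∀ x, CL.Odd.lin2 u w x = 0 → x = 0) →
    ∀ x, (CL.Odd.lin2 u w)^[24] x = x := by decide +kernel

/-- Let G be a finite group with an elementary abelian Sylow 3-subgroup M of order 9 which is self-centralizing (C_G(M) = M), let N = N_G(M), and suppose C_G(g) ≤ N for every nonidentity g ∈ M. If the Sylow 2-subgroups of N are dihedral of order 8, then G is not simple. -/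
theorem result {G : Type*} [Group G] [Finite G] (M : Sylow 3 G) (hM9 : Nat.card ↥(M : Subgroup G) = 9)
    (hMel : ∀ m ∈ (M : Subgroup G), m ^ 3 = 1)
    (hCM : Subgroup.centralizer ((M : Subgroup G) : Set G) = (M : Subgroup G))
    (N : Subgroup G) (hN : N = Subgroup.normalizer ((M : Subgroup G) : Set G))
    (hCg : ∀ g ∈ (M : Subgroup G), g ≠ 1 → Subgroup.centralizer ({g} : Set G) ≤ N)
    (hS : ∀ S : Sylow 2 ↥N, Nonempty (↥(S : Subgroup ↥N) ≃* DihedralGroup 4)) :
    ¬ IsSimpleGroup G := by
  intro hG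
  subst hN
  set S := (M : Subgroup G)
  have hc : ∀ a ∈ S, ∀ b ∈ S, a * b = b * a := fun a ha b hb => (hCM.ge hb) a ha
  have := Subgroup.normal_in_normalizer (H := S)
  obtain ⟨a, ha, b, hb, hinj, hL⟩ := CL.Odd.exists_co2 hc hMel hM9
  have h24 : ∀ n ∈ Subgroup.normalizer (S : Set G), n ^ 24 ∈ S := fun n hn => hCM.le fun s hs => by
    obtain ⟨u, w, h⟩ := hL n hn
    obtain ⟨x, rfl⟩ := CL.Odd.co2_surj hM9 ha hb hinj hs
    have hk : ∀ (k : ℕ) (x : CL.Odd.V2), n ^ k * CL.Odd.co2 a b x * (n ^ k)⁻¹ =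
        CL.Odd.co2 a b ((CL.Odd.lin2 u w)^[k] x) := by
      intro k
      induction k with
      | zero => simp
      | succ k ih => intro x; rw [Function.iterate_succ_apply', ← h, ← ih, pow_succ']; group
    have := hk 24 x
    rw [iter24 u w (fun x e => hinj (by
      have := h x
      rw [e, show CL.Odd.co2 a b 0 = 1 by simp [CL.Odd.co2]] at this
      rw [show CL.Odd.co2 a b 0 = 1 by simp [CL.Odd.co2]]
      simpa using this)), mul_inv_eq_iff_eq_mul] at this
    exact this.symm
  set S' := S.subgroupOf (Subgroup.normalizer (S : Set G))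
  have hi : ¬ 3 ∣ S'.index := fun h => M.not_dvd_index (h.trans
    (Subgroup.relIndex_dvd_index_of_le Subgroup.le_normalizer))
  have h2 : IsPGroup 2 (_ ⧸ S') := fun q => ⟨3, orderOf_dvd_iff_pow_eq_one.mp (by
    obtain ⟨n, rfl⟩ := QuotientGroup.mk_surjective q
    have h1 : orderOf (n : _ ⧸ S') ∣ 3 * 8 := orderOf_dvd_of_pow_eq_one (by
      rw [← QuotientGroup.mk_pow, QuotientGroup.eq_one_iff]; exact h24 n n.2)
    exact ((Nat.Prime.coprime_iff_not_dvd Nat.prime_three).mpr fun h =>
      hi (h.trans (orderOf_dvd_natCard _))).symm.dvd_of_dvd_mul_left h1)⟩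
  obtain ⟨P⟩ : Nonempty (Sylow 2 (Subgroup.normalizer (S : Set G))) := inferInstance
  obtain ⟨e⟩ := hS P
  have hS' : Nat.card S' = 9 := by
    rw [Nat.card_congr (Subgroup.subgroupOfEquivOfLe Subgroup.le_normalizer).toEquiv, hM9]
  have hP : Nat.card P = 8 := by rw [Nat.card_congr e.toEquiv, DihedralGroup.nat_card]
  have hD : S'.IsComplement' P := Subgroup.isComplement'_of_coprime (by
    obtain ⟨k, hk⟩ := IsPGroup.iff_card.mp h2
    have h1 := S'.card_mul_index
    rw [P.card_eq_multiplicity, ← h1, Subgroup.index, hk, hS', Nat.factorization_mul (by norm_num)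
      (by positivity), Nat.prime_two.factorization_pow, Finsupp.add_apply, Finsupp.single_eq_same,
      Nat.factorization_eq_zero_of_not_dvd (by norm_num), zero_add]) (by rw [hS', hP]; norm_num)
  let φ : DihedralGroup 4 →* G :=
    (Subgroup.normalizer (S : Set G)).subtype.comp (P.1.subtype.comp e.symm.toMonoidHom)
  rcases CL.Odd.d8_main hM9 hCM φ
    (fun d => (e.symm d).1.2) (fun d hd => e.symm.map_eq_one_iff.mp (Subtype.ext
      ((Subgroup.disjoint_def.mp hD.disjoint) (show (e.symm d).1 ∈ S' from hd) (e.symm d).2)))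
    (fun n hn => by
      obtain ⟨⟨s, d⟩, h, -⟩ := hD.existsUnique ⟨n, hn⟩
      refine ⟨e d, ?_⟩
      have h' : (s : G) * d = n := congrArg Subtype.val h
      show n * ((e.symm (e d)).1 : G)⁻¹ ∈ S
      rw [e.symm_apply_apply, ← h', mul_inv_cancel_right]
      exact s.2) hCg with h | ⟨⟨f⟩⟩
  · rcases h.eq_bot_or_eq_top with h | h
    · rw [h] at hM9; simp at hM9
    · have h1 := Subgroup.card_dvd_of_le (show P.1.map (Subgroup.subtype _) ≤ S from
        le_top.trans h.ge)
      rw [Subgroup.card_map_of_injective (Subgroup.subtype_injective _), hP, hM9] at h1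
      omega
  · have := f.symm.isSimpleGroup
    rcases (alternatingGroup.normal (α := Fin 6)).eq_bot_or_eq_top with h | h
    · have := alternatingGroup.index_eq_two (α := Fin 6)
      rw [h, Subgroup.index_bot, Nat.card_perm] at this
      simp [Nat.factorial] at this
    · have := alternatingGroup.index_eq_two (α := Fin 6)
      rw [h, Subgroup.index_top] at this
      omega

end Cfsg.Agent.S3716
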