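import Cfsg.Statements.S3732
import Cfsg.Agent.PERM.Plane4

set_option autoImplicit false
open Cfsg

namespace Cfsg.Agent.S3732

open CL.SymDes in
/-- the symmetric design of a projective plane -/
noncomputable def des (P L : Type*) [Membership P L] [Fintype P] [Fintype L]
    [Configuration.ProjectivePlane P L] : Des P L where
  I p l := p ∈ l
  k := (Configuration.ProjectivePlane.order P L + 1 : ℕ)
  l := 1
  hk l := (sum_ind_card _).trans (congrArg _ (Configuration.ProjectivePlane.pointCount_eq P l))
  hr p := (sum_ind_card _).trans (congrArg _ (Configuration.ProjectivePlane.lineCount_eq L p))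
  hl {x y} h := by
    obtain ⟨l, hl, hu⟩ := Configuration.HasLines.existsUnique_line P L x y h
    rw [← sum_ind_eq' l]
    exact Finset.sum_congr rfl fun C _ => congrArg ind (propext ⟨hu C, by rintro rfl; exact hl⟩)
  card := (Configuration.ProjectivePlane.card_points_eq_card_lines P L).symm
  lt := by have := Configuration.ProjectivePlane.one_lt_order P L; omega


/-- The Ostrom–Wagner Theorem. Let Π be a finite projective plane (points P, lines L) whose collineation group is 2-transitive on points: for any two ordered pairs of distinct points there is a permutation of the points, together with a compatible permutation of the lines preserving incidence, carrying the first pair to the second. Then Π is Desarguesian: there is a finite field F and a bijection from P onto the points of the projective plane over F (the 1-dimensional subspaces of F³) under which the lines of Π correspond exactly to the 2-dimensional subspaces of F³. -/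
theorem result
    {P L : Type*} [Membership P L] [Fintype P] [Fintype L] [Configuration.ProjectivePlane P L]
    (h2t : ∀ p₁ p₂ q₁ q₂ : P, p₁ ≠ p₂ → q₁ ≠ q₂ →
      ∃ (σ : Equiv.Perm P) (τ : Equiv.Perm L), (∀ (p : P) (l : L), σ p ∈ τ l ↔ p ∈ l) ∧ σ p₁ = q₁ ∧ σ p₂ = q₂) :
    ∃ (F : Type) (_ : Field F) (_ : Fintype F) (φ : P ≃ Projectivization F (Fin 3 → F)),
      (∀ l : L, ∃ W : Submodule F (Fin 3 → F), Module.finrank F W = 2 ∧
          ∀ p : P, p ∈ l ↔ (φ p).submodule ≤ W) ∧
      (∀ W : Submodule F (Fin 3 → F), Module.finrank F W = 2 →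
          ∃ l : L, ∀ p : P, p ∈ l ↔ (φ p).submodule ≤ W) := by
  let π := (des P L).pl rfl (by
    have := Configuration.ProjectivePlane.one_lt_order P L
    simp only [des]
    omega)
  obtain ⟨x0, -⟩ := Configuration.ProjectivePlane.exists_config (P := P) (L := L)
  obtain ⟨F, _, _, e, he⟩ := π.ostrom_wagner (fun h h' =>
    let ⟨σ, τ, h1, h2⟩ := h2t _ _ _ _ h h'
    ⟨⟨(σ, τ), h1⟩, h2⟩) x0
  have h1 : ∀ x y : Projectivization F (Fin 3 → F), x ≠ y →
      Module.finrank F (x.submodule ⊔ y.submodule : Submodule F _) = 2 := fun x y h => by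
    have h2 := Submodule.finrank_sup_add_finrank_inf_eq x.submodule y.submodule
    have h3 : Module.finrank F (x.submodule ⊓ y.submodule : Submodule F _) < 1 := by
      rw [← x.finrank_submodule]
      refine Submodule.finrank_lt_finrank_of_lt (inf_lt_left.2 fun hle => h ?_)
      exact Projectivization.submodule_injective (Submodule.eq_of_le_of_finrank_eq hle
        (by rw [x.finrank_submodule, y.finrank_submodule]))
    rw [x.finrank_submodule, y.finrank_submodule] at h2
    omega
  refine ⟨F, inferInstance, inferInstance, e, fun l => ?_, fun W hW => ?_⟩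
  · obtain ⟨x, hx, -⟩ := π.exists_pt l x0 x0
    obtain ⟨y, hy, hyx, -⟩ := π.exists_pt l x x
    exact ⟨_, h1 _ _ (e.injective.ne hyx), he hyx hy hx⟩
  · let b := Module.finBasisOfFinrankEq F W hW
    have h0 : ∀ i, (b i : Fin 3 → F) ≠ 0 := fun i h => b.ne_zero i (Subtype.ext h)
    have h2 : Projectivization.mk F _ (h0 0) ≠ Projectivization.mk F _ (h0 1) := fun h => by
      obtain ⟨a, ha⟩ := (Projectivization.mk_eq_mk_iff' _ _ _ _ _).1 h
      have := congrArg (b.repr · 0) (show a • b 1 = b 0 from Subtype.ext ha)
      simp at this
    have h3 := e.symm.injective.ne h2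
    obtain ⟨l, h4, h5⟩ := π.exists_join h3
    refine ⟨l, fun p => (he h3 h4 h5 p).trans ?_⟩
    rw [e.apply_symm_apply, e.apply_symm_apply, Submodule.eq_of_le_of_finrank_eq (S₂ := W)
      (by simp [Submodule.span_le]) ((h1 _ _ h2).trans hW.symm)]

end Cfsg.Agent.S3732
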