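import Cfsg.Statements.S3734
import Cfsg.Agent.SOLV.CoprimeGen
import Cfsg.Agent.TECH.SecC

set_option autoImplicit false
open Cfsg

namespace Cfsg.Agent.S3734

open Subgroup CL
open scoped commutatorElement

/-- Let A and G be subgroups of a finite group with A abelian, A normalizing G and the orders of A and G coprime. Then G is generated by the fixed-point subgroups C_G(B) of those subgroups B of A for which A/B is cyclic (that is, A = ⟨B, a⟩ for some a), and [G, A] is generated by the commutator subgroups [C_G(B), A] over the same subgroups B. -/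
theorem result {X : Type*} [Group X] [Finite X] (A G : Subgroup X) (hAab : IsMulCommutative A) (hAG : A ≤ Subgroup.normalizer (G : Set X)) (hcop : (Nat.card A).Coprime (Nat.card G)) : (⨆ B ∈ {B : Subgroup X | B ≤ A ∧ ∃ a ∈ A, B ⊔ Subgroup.zpowers a = A}, G ⊓ Subgroup.centralizer (B : Set X)) = G ∧ (⨆ B ∈ {B : Subgroup X | B ≤ A ∧ ∃ a ∈ A, B ⊔ Subgroup.zpowers a = A}, ⁅G ⊓ Subgroup.centralizer (B : Set X), A⁆) = ⁅G, A⁆ := by
  have h1 : (⨆ B ∈ {B : Subgroup X | B ≤ A ∧ ∃ a ∈ A, B ⊔ Subgroup.zpowers a = A},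
      G ⊓ Subgroup.centralizer (B : Set X)) = G :=
    le_antisymm (iSup₂_le fun B _ => inf_le_left)
      (coprime_le_of_forall_cyclic_quotient A G _ hAG hcop fun B a h =>
        le_iSup₂_of_le (f := fun B (_ : B ∈ {B : Subgroup X | B ≤ A ∧ ∃ a ∈ A, B ⊔ zpowers a = A}) =>
          G ⊓ centralizer (B : Set X)) B
          ⟨h ▸ le_sup_left, a, h ▸ mem_sup_right (mem_zpowers a), h⟩ le_rfl)
  refine ⟨h1, le_antisymm (iSup₂_le fun B _ => commutator_mono inf_le_left le_rfl) ?_⟩
  set H := ⨆ B ∈ {B : Subgroup X | B ≤ A ∧ ∃ a ∈ A, B ⊔ Subgroup.zpowers a = A},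
    ⁅G ⊓ Subgroup.centralizer (B : Set X), A⁆
  set C := G ⊓ centralizer (A : Set X)
  have hAB : ∀ B ≤ A, A ≤ normalizer ((G ⊓ centralizer (B : Set X) : Subgroup X) : Set X) :=
    fun B hB => le_normalizer_inf hAG
      ((le_centralizer_iff.1 (hB.trans (le_centralizer A))).trans le_normalizer)
  have hAH : A ≤ normalizer (H : Set X) := le_normalizer_iSup fun B => le_normalizer_iSup fun hB =>
    le_normalizer_commutator (hAB B hB.1) le_normalizer
  have hCH : C ≤ normalizer (H : Set X) := le_normalizer_iSup fun B => le_normalizer_iSup fun hB =>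
    le_normalizer_commutator ((inf_le_inf_left _ (MSS.centralizer_anti hB.1)).trans le_normalizer)
      (inf_le_right.trans (centralizer_le_normalizer _))
  have h2 : G ≤ H ⊔ C := by
    rw [← h1]
    refine iSup₂_le fun B hB => ?_
    rw [← coprime_commutator_sup_centralizer A _ (hAB B hB.1)
      (hcop.coprime_dvd_right (card_dvd_of_le inf_le_left))
      (Or.inl (isSolvable_of_isMulCommutative A))]
    exact sup_le_sup (le_iSup₂_of_le (f := fun B
      (_ : B ∈ {B : Subgroup X | B ≤ A ∧ ∃ a ∈ A, B ⊔ zpowers a = A}) =>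
        ⁅G ⊓ centralizer (B : Set X), A⁆) B hB le_rfl) (inf_le_inf_right _ inf_le_left)
  refine (commutator_mono h2 le_rfl).trans (MSS.sup_commutator_le_of_normalizes le_normalizer hCH
    (le_normalizer_iff_commutator_le_left.1 hAH) ?_)
  rw [commutator_eq_bot_iff_le_centralizer.2 inf_le_right]
  exact bot_le

end Cfsg.Agent.S3734
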