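import Cfsg.Statements.S3803
import Cfsg.Agent.TECH.Crit4
import Cfsg.Agent.TECH.Conj
import Cfsg.Agent.SOLV.CoprimeSylow
import Cfsg.Agent.FGS.SubgroupCount
import Cfsg.Agent.SOLV.MaxClass

set_option autoImplicit false
open Cfsg

namespace Cfsg.Agent.S3803

open Subgroup CL.MSS
open scoped commutatorElement

theorem exists_between {G : Type*} [Group G] [Finite G] {p : ℕ} [hp : Fact p.Prime]
    {H K : Subgroup G} (hK : IsPGroup p K) (h : H ≤ K) {m : ℕ} (h1 : Nat.card H ≤ p ^ m)
    (h2 : p ^ m ≤ Nat.card K) : ∃ M : Subgroup G, H ≤ M ∧ M ≤ K ∧ Nat.card M = p ^ m := by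
  obtain ⟨a, ha⟩ := IsPGroup.iff_card.mp (hK.to_le h)
  obtain ⟨b, hb⟩ := IsPGroup.iff_card.mp hK
  rw [ha, Nat.pow_le_pow_iff_right hp.out.one_lt] at h1
  rw [hb, Nat.pow_le_pow_iff_right hp.out.one_lt] at h2
  obtain ⟨M, hM, hle⟩ := Sylow.exists_subgroup_card_pow_prime_le (G := K) p
    (hb ▸ pow_dvd_pow p h2) (H.subgroupOf K)
    (by rw [← ha]; exact Nat.card_congr (subgroupOfEquivOfLe h).toEquiv) h1
  refine ⟨M.map K.subtype, fun x hx => ⟨⟨x, h hx⟩, hle hx, rfl⟩, map_subtype_le _, ?_⟩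
  rw [card_map_of_injective K.subtype_injective, hM]

theorem le_centralizer_of_maximal {G : Type*} [Group G] [Finite G] {E A : Subgroup G}
    (hE : IsPGroup 2 E) (hA : Odd (Nat.card A)) (hn : A ≤ normalizer (E : Set G))
    (h : ∀ M ≤ E, Nat.card M * 2 = Nat.card E → A ≤ normalizer (M : Set G)) :
    E ≤ centralizer (A : Set G) := by
  apply CL.coprime_le_centralizer_of_commutator_le_frattini A E hn
  · obtain ⟨k, hk⟩ := IsPGroup.iff_card.mp (hE.to_subgroup (frattini E))
    rw [hk]
    exact (Nat.coprime_two_right.mpr hA).pow_right k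
  rw [commutator_le]
  intro e he a ha
  have h1 : a * e⁻¹ * a⁻¹ ∈ E := conj_mem_of_normalizes hn ha (inv_mem he)
  refine ⟨⟨e, he⟩ * ⟨_, h1⟩, ?_, by simp [commutatorElement_def, mul_assoc]⟩
  rw [SetLike.mem_coe, CL.PG.mem_frattini_iff]
  intro M hM
  have hi := CL.PG.coatom_index hE hM
  have h2 := h (M.map E.subtype) (map_subtype_le _)
    (by rw [card_map_of_injective E.subtype_injective, ← hi, card_mul_index]) ha
  rw [mul_mem_iff_of_index_two hi, ← mem_map_iff_mem E.subtype_injective,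
    ← mem_map_iff_mem E.subtype_injective, ← inv_mem_iff]
  exact mem_normalizer_iff.mp h2 _

theorem le_centralizer_of_isCyclic {G : Type*} [Group G] [Finite G] {E A : Subgroup G}
    (hE : IsPGroup 2 E) [IsCyclic E] (hA : Odd (Nat.card A)) (hn : A ≤ normalizer (E : Set G)) :
    E ≤ centralizer (A : Set G) :=
  le_centralizer_of_maximal hE hA hn fun M hM _ a ha => mem_normalizer_iff_cj.mpr
    (CL.Cnt.eq_of_cyclic_of_card_eq (cj_le_of_mem_normalizer hM (hn ha)) hM (card_cj _ _))

/-- Let P be a 2-subgroup and A a subgroup of odd order of a finite group, with A normalizing P. Let D ≤ P with 1 < |D| < |P|. If every subgroup of P of order |D|, and also every subgroup of P of order 4 in case |D| = 2, is normalized by A, then A centralizes P. -/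
theorem result {X : Type*} [Group X] [Finite X] (P A D : Subgroup X) (hP : IsPGroup 2 P) (hA : Odd (Nat.card A))
    (hAP : A ≤ Subgroup.normalizer (P : Set X)) (hDP : D ≤ P) (hD1 : 1 < Nat.card D) (hD2 : Nat.card D < Nat.card P)
    (hinv : ∀ E : Subgroup X, E ≤ P → (Nat.card E = Nat.card D ∨ (Nat.card D = 2 ∧ Nat.card E = 4)) → A ≤ Subgroup.normalizer (E : Set X)) :
    A ≤ Subgroup.centralizer (P : Set X) := by
  obtain ⟨k, hk⟩ := IsPGroup.iff_card.mp (hP.to_le hDP)
  obtain ⟨n, hn⟩ := IsPGroup.iff_card.mp hP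
  rw [hk] at hinv hD1 hD2
  have hkn : 2 ^ (k + 1) ≤ Nat.card P := by
    rw [hn] at hD2 ⊢
    exact Nat.pow_le_pow_right two_pos ((Nat.pow_lt_pow_iff_right one_lt_two).mp hD2)
  have key : ∀ y ∈ P, y ^ 4 = 1 → y ∈ centralizer (A : Set X) := by
    intro y hy hy4
    have hyP := zpowers_le.mpr hy
    obtain ⟨j, hj, hj2⟩ := (Nat.dvd_prime_pow Nat.prime_two).mp
      (show orderOf y ∣ 2 ^ 2 from orderOf_dvd_of_pow_eq_one hy4)
    by_cases hjk : j ≤ k
    · obtain ⟨E, h1, h2, h3⟩ := exists_between hP hyP (m := k)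
        (by rw [Nat.card_zpowers, hj2]; exact Nat.pow_le_pow_right two_pos hjk) hD2.le
      by_cases hc : IsCyclic E
      · exact le_centralizer_of_isCyclic (hP.to_le h2) hA (hinv E h2 (Or.inl h3))
          (h1 (mem_zpowers y))
      obtain ⟨F, h4, h5, h6⟩ := exists_between hP h2 (m := k + 1)
        (by rw [h3]; exact Nat.pow_le_pow_right two_pos (Nat.le_succ k)) hkn
      refine le_centralizer_of_maximal (hP.to_le h5) hA (fun a ha => ?_)
        (fun M hM e => hinv M (hM.trans h5) (Or.inl ?_)) (h4 (h1 (mem_zpowers y)))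
      · apply mem_normalizer_fintype
        intro z hz
        have h7 : zpowers z < F := lt_of_le_of_ne (zpowers_le.mpr hz) fun e => hc (by
          rw [← e] at h4
          exact isCyclic_of_le h4)
        have h8 := CL.PCyc.mul_card_le_of_lt (hP.to_le h5) h7
        obtain ⟨M, h9, h10, h11⟩ := exists_between (hP.to_le h5) h7.le (m := k)
          (by rw [h6, pow_succ] at h8; omega)
          (by rw [h6]; exact Nat.pow_le_pow_right two_pos (Nat.le_succ k))
        exact h10 (conj_mem_of_normalizes (hinv M (h10.trans h5) (Or.inl h11)) ha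
          (h9 (mem_zpowers z)))
      · rw [h6, pow_succ] at e
        omega
    · have hk0 : k ≠ 0 := by rintro rfl; simp at hD1
      obtain ⟨rfl, rfl⟩ : k = 1 ∧ j = 2 := by omega
      exact le_centralizer_of_isCyclic (hP.to_le hyP) hA
        (hinv _ hyP (Or.inr ⟨rfl, by rw [Nat.card_zpowers, hj2]; rfl⟩)) (mem_zpowers y)
  intro a ha
  apply CL.PG.mem_centralizer_of_commute_small hP (hAP ha)
  · exact Nat.Coprime.coprime_dvd_left (orderOf_dvd_natCard A ha) (Nat.coprime_two_right.mpr hA)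
  · intro y hy hs
    exact key y hy (CL.PG.small_two_iff.mp hs) a ha

end Cfsg.Agent.S3803
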