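import Mathlib
import Cfsg.Statements.S3816
import Cfsg.Agent.SOLV.Hol
import Cfsg.Agent.FGS.FlavFix

set_option autoImplicit false
open Cfsg

namespace Cfsg.Agent.S3816

set_option linter.style.haveILetI false

open CL CL.Flav Subgroup
open scoped commutatorElement


/-- Let p be an odd prime, H a finite solvable group of order prime to p, and x an automorphism of H of order p (so P = ⟨x⟩ has prime order p > 2 and acts coprimely on H). For h ∈ H let [h, P] be the subgroup generated by the commutators h⁻¹·xⁱ(h), and let [H, P] be the subgroup generated by all of these. Then the fixed points of x in [H, P] are generated by the fixed points of x in the subgroups [h, P], h ∈ H. -/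
theorem result {H : Type*} [Group H] [Finite H]
    [Group.IsSolvable H] {p : ℕ} [Fact p.Prime] (hp : p ≠ 2) (hcop : (Nat.card H).Coprime p)
    (x : MulAut H) (hx : orderOf x = p) :
    Subgroup.closure {c : H | ∃ h : H, ∃ i : ℕ, c = h⁻¹ * (x ^ i) h} ⊓ (x : H →* H).eqLocus (MonoidHom.id H) =
      ⨆ h : H, Subgroup.closure {c : H | ∃ i : ℕ, c = h⁻¹ * (x ^ i) h} ⊓ (x : H →* H).eqLocus (MonoidHom.id H) := by
  have hpp : p.Prime := Fact.out
  haveI : Finite (MulAut H) := Finite.of_injective _ DFunLike.coe_injective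
  apply le_antisymm
  swap
  · refine iSup_le fun h => inf_le_inf_right _ (closure_mono ?_)
    rintro c ⟨i, rfl⟩
    exact ⟨h, i, rfl⟩
  let G := Hol (MulAut H) H
  have hm := Flav.main hpp hp _ G ((⊤ : Subgroup H).map Hol.inl) ((zpowers x).map Hol.inr) rfl
    (Hol.map_inr_le_normalizer_top _) (by rw [Hol.card_map_inr, Nat.card_zpowers, hx])
    (by rw [Hol.card_map_inl, card_top]; exact hcop) (Hol.isSolvable_map_inl inferInstance)
  rintro c ⟨hc, hcx⟩
  have h1 : Hol.inl c ∈ DD ((zpowers x).map Hol.inr) ((⊤ : Subgroup H).map (Hol.inl : H →* G)) := by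
    refine hm ⟨?_, Hol.inl_mem_centralizer_iff.2 (mem_actFix_zpowers.2 hcx)⟩
    rw [Hol.commutator_map_inl_map_inr]
    refine mem_map_of_mem _ ((closure_le _).2 ?_ hc)
    rintro _ ⟨h, i, rfl⟩
    exact inv_mul_smul_mem_actComm (mem_top h) (pow_mem (mem_zpowers x) i)
  refine Hol.inl_mem_map.1 (DD_le ?_ h1)
  rintro _ ⟨h, -, rfl⟩
  have h2 : cm ((zpowers x).map Hol.inr) (Hol.inl h : G) ≤
      (closure {c : H | ∃ i : ℕ, c = h⁻¹⁻¹ * (x ^ i) h⁻¹}).map Hol.inl := by
    rw [cm_le]
    rintro _ ⟨a, ha, rfl⟩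
    obtain ⟨i, rfl⟩ := mem_powers_iff_mem_zpowers.2 ha
    rw [Hol.commutatorElement_inl_inr, Hol.inl_mem_map]
    exact subset_closure ⟨i, by simp⟩
  rintro g ⟨hg, hgc⟩
  obtain ⟨d, hd, rfl⟩ := h2 hg
  refine mem_map_of_mem _ (mem_iSup_of_mem h⁻¹ ⟨hd, ?_⟩)
  exact mem_actFix_zpowers.1 (Hol.inl_mem_centralizer_iff.1 hgc)

end Cfsg.Agent.S3816
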