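import Cfsg.Statements.S3818
import Cfsg.Agent.FGS.HalfFix

set_option autoImplicit false
open Cfsg

namespace Cfsg.Agent.S3818


/-- Let G be a finite solvable group and P a subgroup of G of prime order p > 3 whose conjugates generate G. Let V be a faithful irreducible representation of G over a field of positive characteristic, finite-dimensional. Then the subspace of V fixed by P has dimension less than half the dimension of V. -/
theorem result {G : Type*} [Group G] [Finite G] [Group.IsSolvable G]
    {p : ℕ} [Fact p.Prime] (hp : 3 < p) (P : Subgroup G) (hP : Nat.card P = p) (hgen : Subgroup.normalClosure (P : Set G) = ⊤)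
    {k : Type*} [Field k] (ℓ : ℕ) [Fact ℓ.Prime] [CharP k ℓ]
    {V : Type*} [AddCommGroup V] [Module k V] [FiniteDimensional k V]
    (ρ : Representation k G V) [ρ.IsIrreducible] (hfaith : Function.Injective ρ) :
    2 * Module.finrank k ↥(⨅ g : ↥P, LinearMap.ker (ρ (g : G) - LinearMap.id)) < Module.finrank k V := by
  have hpp : p.Prime := Fact.out
  have : IsCyclic P := isCyclic_of_prime_card hP
  obtain ⟨x, hx⟩ := IsCyclic.exists_generator (α := P)
  have hPx : P = Subgroup.zpowers (x : G) := by
    refine le_antisymm (fun g hg => ?_) (Subgroup.zpowers_le_of_mem x.2)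
    obtain ⟨i, hi⟩ := hx ⟨g, hg⟩
    exact ⟨i, congrArg Subtype.val hi⟩
  have : Nontrivial G := by
    have : Nontrivial P := Finite.one_lt_card_iff_nontrivial.1 (by omega)
    exact P.subtype_injective.nontrivial
  refine lt_of_le_of_lt (Nat.mul_le_mul_left 2 (Submodule.finrank_mono (iInf_le _ x)))
    (CL.HH.two_mul_finrank_fixed_lt ℓ ρ hfaith hpp hp ?_ ?_)
  · exact congrArg Subtype.val (show x ^ p = 1 from hP ▸ pow_card_eq_one')
  · refine top_unique (hgen ▸ Subgroup.normalClosure_le_normal ?_)
    exact hPx.le.trans (Subgroup.zpowers_le_of_mem (Subgroup.subset_normalClosure rfl))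

end Cfsg.Agent.S3818
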