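import Mathlib
import Cfsg.Statements.S3819
import Cfsg.Agent.FGS.TwoGen
import Cfsg.Agent.SOLV.Coprime

set_option autoImplicit false
open Cfsg

namespace Cfsg.Agent.S3819

open Subgroup CL in

/-- Let G be a finite group with Sylow p-subgroup P and H = O_{p'}(G), and suppose G = PH and the commutator subgroup [H, P] is solvable. Let q be a prime and z an element of q-power order of C_H(P). Then (O_{q'}(C_H(z)) ∩ O_{q'}(C_H(P))) · [O_{q'}(C_H(z)), P] ≤ O_{q'}(H). -/
theorem result {G : Type*} [Group G] [Finite G] {p : ℕ} [Fact p.Prime]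
    (P : Sylow p G) (hPH : Cfsg.pPrimeCore p G ⊔ (P : Subgroup G) = ⊤)
    (hsol : Group.IsSolvable ↥⁅Cfsg.pPrimeCore p G, (P : Subgroup G)⁆)
    {q : ℕ} [Fact q.Prime] (z : G) (hzH : z ∈ Cfsg.pPrimeCore p G) (hzP : z ∈ Subgroup.centralizer ((P : Subgroup G) : Set G))
    (hz : ∃ k : ℕ, orderOf z = q ^ k) :
    ((Cfsg.pPrimeCore q ↥(Cfsg.pPrimeCore p G ⊓ Subgroup.centralizer ({z} : Set G))).map
        (Cfsg.pPrimeCore p G ⊓ Subgroup.centralizer ({z} : Set G)).subtype ⊓
      (Cfsg.pPrimeCore q ↥(Cfsg.pPrimeCore p G ⊓ Subgroup.centralizer ((P : Subgroup G) : Set G))).map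
        (Cfsg.pPrimeCore p G ⊓ Subgroup.centralizer ((P : Subgroup G) : Set G)).subtype) ⊔
    ⁅(Cfsg.pPrimeCore q ↥(Cfsg.pPrimeCore p G ⊓ Subgroup.centralizer ({z} : Set G))).map
        (Cfsg.pPrimeCore p G ⊓ Subgroup.centralizer ({z} : Set G)).subtype, (P : Subgroup G)⁆ ≤
    (Cfsg.pPrimeCore q ↥(Cfsg.pPrimeCore p G)).map (Cfsg.pPrimeCore p G).subtype := by
  set H := Cfsg.pPrimeCore p G with hH
  set C := H ⊓ centralizer ((P : Subgroup G) : Set G) with hC
  set Y := (Cfsg.pPrimeCore q C).map C.subtype with hY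
  set E := H ⊓ centralizer ({z} : Set G) with hE
  set D := (Cfsg.pPrimeCore q E).map E.subtype with hD
  set K := ⁅H, (P : Subgroup G)⁆ with hK
  have hKn : K.Normal := by
    rw [← normalizer_eq_top_iff, eq_top_iff, ← hPH]
    exact sup_le (normalizer_commutator_ge_left _ _) (normalizer_commutator_ge_right _ _)
  have hKH : K ≤ H := commutator_le_left _ _
  have hYC : Y ≤ C := map_subtype_le _
  have hcop : (Nat.card (P : Subgroup G)).Coprime (Nat.card H) :=
    coprime_card_of_isPGroup_of_coprime P.isPGroup' (coprime_card_pPrimeCore p G)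
  have hHKC : K ⊔ C = H := coprime_commutator_sup_centralizer _ _ le_normalizer_of_normal hcop
    (Or.inl (by have := P.isPGroup'.isNilpotent; infer_instance))
  have hCY : C ≤ normalizer (Y : Set G) := TwoGen.le_normalizer_map_pPrimeCore C
  set L := K ⊔ Y with hL
  have hLH : L ≤ H := sup_le hKH (hYC.trans inf_le_left)
  have hHL : H ≤ normalizer (L : Set G) := by
    rw [← hHKC]
    refine sup_le (le_sup_left.trans le_normalizer) fun c hc => ?_
    exact normalizer_inf_normalizer_le_normalizer_sup K Y ⟨le_normalizer_of_normal (mem_top c), hCY hc⟩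
  have hzC : z ∈ C := ⟨hzH, hzP⟩
  have hzq : IsPGroup q (zpowers z) := by
    obtain ⟨k, hk⟩ := hz
    exact IsPGroup.of_card (by rw [Nat.card_zpowers, hk])
  have hzC' : zpowers z ≤ C := zpowers_le.2 hzC
  have h1 : Cfsg.IsPSolvable q ↥(zpowers z ⊔ Y) := by
    have h2 : Cfsg.IsPSolvable q ↥((zpowers z).subgroupOf C ⊔ Cfsg.pPrimeCore q C) :=
      IsPSolvable.sup_of_normal (IsPSolvable.subgroupOf (isPSolvable_of_isPGroup hzq) C)
        (isPSolvable_of_coprime (coprime_card_pPrimeCore q C))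
    have h3 := IsPSolvable.map h2 C.subtype
    rwa [Subgroup.map_sup, map_subgroupOf_eq_of_le hzC'] at h3
  have h2 : Cfsg.IsPSolvable q ↥((zpowers z ⊔ Y) ⊔ K) :=
    IsPSolvable.sup_of_normal h1 (isPSolvable_of_isSolvable q K)
  set M := (zpowers z ⊔ Y) ⊔ K with hM
  have hLM : L ≤ M := sup_le le_sup_right (le_sup_right.trans le_sup_left)
  have hcz : centralizer (zpowers z : Set G) = centralizer ({z} : Set G) := by
    rw [zpowers_eq_closure, centralizer_closure]
  have hzE : centralizer ({z} : Set G) ≤ normalizer (E : Set G) := fun c hc =>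
    inf_normalizer_le_normalizer_inf ⟨le_normalizer_of_normal (mem_top c), le_normalizer hc⟩
  have hzD : centralizer ({z} : Set G) ≤ normalizer (D : Set G) :=
    hzE.trans (normalizer_le_normalizer_map_pPrimeCore E)
  have h3 : D ⊓ M ≤ (Cfsg.pPrimeCore q M).map M.subtype :=
    TwoGen.inf_le_pPrimeCore hzq (le_sup_left.trans le_sup_left) (IsPSolvable.isPConstrained h2)
      (by rw [hcz]; exact (map_subtype_le _).trans inf_le_right) (by rw [hcz]; exact hzD)
      (TwoGen.coprime_map_pPrimeCore E)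
  have h4 : (Cfsg.pPrimeCore q M).map M.subtype ⊓ L ≤ (Cfsg.pPrimeCore q L).map L.subtype :=
    le_map_pPrimeCore inf_le_right (fun c hc => inf_normalizer_le_normalizer_inf
      ⟨TwoGen.le_normalizer_map_pPrimeCore M (hLM hc), le_normalizer hc⟩)
      ((TwoGen.coprime_map_pPrimeCore M).coprime_dvd_left (card_dvd_of_le inf_le_left))
  have h5 : D ⊓ L ≤ (Cfsg.pPrimeCore q H).map H.subtype :=
    (le_inf ((inf_le_inf_left D hLM).trans h3) inf_le_right).trans
      (h4.trans (map_pPrimeCore_le_map_pPrimeCore hLH hHL))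
  refine le_trans (sup_le (inf_le_inf_left D le_sup_right) (le_inf ?_ ?_)) h5
  · refine le_normalizer_iff_commutator_le_left.1 (le_trans (fun x hx => ?_) hzD)
    rw [mem_centralizer_iff]
    rintro _ rfl
    exact (hzP x hx).symm
  · exact (commutator_mono ((map_subtype_le _).trans inf_le_left) le_rfl).trans le_sup_left

end Cfsg.Agent.S3819
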