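import Cfsg.Statements.S3821
import Cfsg.Agent.FGS.Pronormal

set_option autoImplicit false
open Cfsg

namespace Cfsg.Agent.S3821

open CL.Pron CL.MSS


/-- Let A be a normal subgroup of the finite group G and H a subgroup of A. Then H is pronormal in G (H and gHg⁻¹ conjugate inside ⟨H, gHg⁻¹⟩ for every g ∈ G) if and only if H is pronormal in A and G = A · N_G(H). -/
theorem result {G : Type*} [Group G] [Finite G] (A H : Subgroup G) [A.Normal] (hHA : H ≤ A) :
    Cfsg.IsPronormal H ↔ (Cfsg.IsPronormal (H.subgroupOf A) ∧ A ⊔ Subgroup.normalizer (H : Set G) = ⊤) := by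
  rw [isPronormal_subgroupOf_iff hHA]
  constructor
  · intro h
    refine ⟨pronIn_of_isPronormal h A, eq_top_iff.2 fun g _ => ?_⟩
    obtain ⟨a, ha, n, hn, rfl⟩ := (pronIn_of_isPronormal h ⊤).exists_mul hHA (g := g) trivial
      (Subgroup.le_normalizer_of_normal (Subgroup.mem_top g))
    exact Subgroup.mul_mem_sup ha hn
  · rintro ⟨h1, h2⟩ g
    have hg : g ∈ A ⊔ Subgroup.normalizer (H : Set G) := h2 ▸ Subgroup.mem_top g
    obtain ⟨a, ha, n, hn, rfl⟩ :=
      (mem_sup_of_normalizes_left Subgroup.le_normalizer_of_normal).1 hg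
    have := h1 a ha
    rwa [cj_mul, cj_eq_of_mem_normalizer hn]

end Cfsg.Agent.S3821
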