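import Cfsg.Statements.S3822
import Cfsg.Agent.FGS.HalfFix
import Cfsg.Agent.SOLV.Frattini
import Cfsg.Agent.SOLV.Fitting
import Cfsg.Agent.S0055

set_option autoImplicit false
open Cfsg

namespace Cfsg.Agent.S3822

open Subgroup CL CL.HH
open scoped commutatorElement

theorem irr_bound {G k V : Type*} [Group G] [Finite G] [Group.IsSolvable G] [Field k] (ℓ : ℕ)
    [Fact ℓ.Prime] [CharP k ℓ] [AddCommGroup V] [Module k V] [FiniteDimensional k V]
    (ρ : Representation k G V) [ρ.IsIrreducible] (hρ : ρ.ker ≠ ⊤) {x : G} {p : ℕ} (hp : p.Prime)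
    (h3 : 3 < p) (hx : x ^ p = 1) (hgen : normalClosure {x} = ⊤) :
    2 * Module.finrank k (LinearMap.ker (ρ x - 1)) < Module.finrank k V := by
  have := nontrivial_of_isIrreducible ρ
  let ρ' : Representation k (G ⧸ ρ.ker) V := QuotientGroup.lift ρ.ker ρ fun _ h => h
  have h1 : ∀ g : G, ρ' g = ρ g := fun _ => rfl
  have : ρ'.IsIrreducible := isIrreducible_of_forall ρ' fun U hU =>
    eq_bot_or_top_of_isIrreducible ρ U fun g v hv => h1 g ▸ hU g v hv
  have : Nontrivial (G ⧸ ρ.ker) := QuotientGroup.nontrivial_iff.2 hρ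
  have h2 : Function.Injective ρ' := (injective_iff_map_eq_one ρ').2 fun g hg => by
    obtain ⟨g, rfl⟩ := QuotientGroup.mk_surjective g
    exact (QuotientGroup.eq_one_iff g).2 hg
  rw [← h1]
  refine two_mul_finrank_fixed_lt ℓ ρ' h2 hp h3
    (by rw [← QuotientGroup.mk_pow, hx, QuotientGroup.mk_one]) ?_
  have := map_normalClosure {x} (QuotientGroup.mk' ρ.ker) (QuotientGroup.mk'_surjective _)
  rwa [hgen, map_top_of_surjective _ (QuotientGroup.mk'_surjective _),
    Set.image_singleton, eq_comm] at this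

theorem lemY {G : Type*} [Group G] [Finite G] {p q r : ℕ} (hp : p.Prime) (h3 : 3 < p)
    [hq : Fact q.Prime] [hr : Fact r.Prime] (hrq : r ≠ q) {A E R : Subgroup G} [hEn : E.Normal]
    (hA : Group.IsSolvable A) {x a : G} (hx : x ^ p = 1) (ha : a ∈ A)
    (hgen : A = closure {x, a * x * a⁻¹}) (hE : IsElementaryAbelian q E) (htop : A ⊔ E = ⊤)
    (hne : E ≠ ⊥) (hirr : ∀ U ≤ E, A ≤ normalizer (U : Set G) → U = ⊥ ∨ U = E)
    (hR : IsPGroup r R) (hRA : R ≤ A) (hAR : A ≤ normalizer (R : Set G))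
    (hC : E ⊓ centralizer (R : Set G) = ⊥) :
    ∃ w ∈ E, closure {x, w * a * x * (w * a)⁻¹} = ⊤ := by
  have hAE : A ≤ normalizer (E : Set G) := le_normalizer_of_normal.trans' le_top
  let ρ := Abelem.rep hE hAE
  have : ρ.IsIrreducible := Abelem.isIrreducible_rep_iff.2 ⟨hne, hirr⟩
  have hxA : x ∈ A := hgen ▸ subset_closure (by simp)
  have hyA : a * x * a⁻¹ ∈ A := mul_mem (mul_mem ha hxA) (inv_mem ha)
  have hker : ρ.ker ≠ ⊤ := fun e => hne (eq_bot_iff.2 (hC ▸ le_inf le_rfl fun u hu s hs =>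
    ((Abelem.mem_ker_rep (⟨s, hRA hs⟩ : A)).1 (show _ ∈ ρ.ker from e ▸ trivial) u hu).symm))
  have hnc : ∀ N : Subgroup A, N.Normal → (⟨x, hxA⟩ : A) ∈ N → N = ⊤ := by
    intro N hN h
    have : A ≤ N.map A.subtype := hgen.le.trans ((closure_le _).2 (by
      rintro _ (rfl | rfl)
      · exact ⟨_, h, rfl⟩
      · exact ⟨_, hN.conj_mem _ h ⟨a, ha⟩, rfl⟩))
    exact top_unique fun g _ => (mem_map_iff_mem A.subtype_injective).1 (this g.2)
  have h1 := irr_bound q ρ hker (x := ⟨x, hxA⟩) hp h3 (Subtype.ext hx)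
    (hnc _ inferInstance (subset_normalClosure rfl))
  have h2 := irr_bound q ρ hker (x := ⟨_, hyA⟩) hp h3
    (Subtype.ext (by simp [hx])) (hnc _ inferInstance (by
      have := (normalClosure_normal (s := {(⟨_, hyA⟩ : A)})).conj_mem' _
        (subset_normalClosure rfl) ⟨a, ha⟩
      convert this using 1
      exact Subtype.ext (by simp [mul_assoc])))
  obtain ⟨v, hv⟩ : ∃ v, v ∉ LinearMap.ker (ρ ⟨x, hxA⟩ - 1) ⊔ LinearMap.ker (ρ ⟨_, hyA⟩ - 1) := by
    by_contra! h
    have := Submodule.finrank_add_le_finrank_add_finrank (LinearMap.ker (ρ ⟨x, hxA⟩ - 1))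
      (LinearMap.ker (ρ ⟨_, hyA⟩ - 1))
    rw [show LinearMap.ker (ρ ⟨x, hxA⟩ - 1) ⊔ LinearMap.ker (ρ ⟨_, hyA⟩ - 1) = ⊤ from
      eq_top_iff.2 fun v _ => h v, finrank_top] at this
    omega
  refine ⟨v.val, v.mem, ?_⟩
  set B := closure {x, v.val * a * x * (v.val * a)⁻¹}
  have hxB : x ∈ B := subset_closure (by simp)
  have hyB : v.val * a * x * (v.val * a)⁻¹ ∈ B := subset_closure (by simp)
  have hBE : B ⊔ E = ⊤ := by
    refine top_unique (htop ▸ sup_le (hgen.le.trans ((closure_le _).2 ?_)) le_sup_right)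
    rintro _ (rfl | rfl)
    · exact mem_sup_left hxB
    · have : a * x * a⁻¹ = v.val⁻¹ * (v.val * a * x * (v.val * a)⁻¹) * v.val := by group
      rw [SetLike.mem_coe, this]
      exact mul_mem (mul_mem (mem_sup_right (inv_mem v.mem)) (mem_sup_left hyB))
        (mem_sup_right v.mem)
  have hdec : ∀ g : G, ∃ e ∈ E, ∃ b ∈ B, e * b = g := fun g =>
    mem_sup_of_normal_left.1 (by rw [sup_comm, hBE]; trivial)
  have hn : (E ⊓ B).Normal := ⟨fun u hu g => ⟨hEn.conj_mem _ hu.1 g, by
    obtain ⟨e, he, b, hb, rfl⟩ := hdec g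
    have := Abelem.comm_of_mem hE he (hEn.conj_mem _ hu.1 b)
    rw [show e * b * u * (e * b)⁻¹ = e * (b * u * b⁻¹) * e⁻¹ by group, this, mul_inv_cancel_right]
    exact B.mul_mem (B.mul_mem hb hu.2) (B.inv_mem hb)⟩⟩
  rcases hirr (E ⊓ B) inf_le_left (le_normalizer_of_normal.trans' le_top) with h0 | h0
  swap
  · exact top_unique (hBE ▸ sup_le le_rfl (inf_eq_left.1 h0))
  exfalso
  have hc : E.IsComplement' B := isComplement'_of_disjoint_and_mul_eq_univ (disjoint_iff.2 h0)
    (by rw [← normal_mul, sup_comm, hBE]; rfl)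
  obtain ⟨j, hj⟩ := hR.nonempty_fixed_point_of_prime_not_dvd_card (G ⧸ B) (by
    rw [← index, hc.index_eq_card, Abelem.card_eq_pow_finrank (hE := hE)]
    exact fun h => hrq ((Nat.prime_dvd_prime_iff_eq hr.out hq.out).1 (hr.out.dvd_of_dvd_pow h)))
  obtain ⟨g, rfl⟩ := QuotientGroup.mk_surjective j
  obtain ⟨e, he, b, hb, rfl⟩ := hdec g
  have hRB : ∀ s ∈ R, e⁻¹ * s * e ∈ B := fun s hs => by
    have h4 : ((s * (e * b) : G) : G ⧸ B) = (e * b : G) := hj ⟨s, hs⟩
    have h5 := QuotientGroup.eq.1 h4.symm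
    rw [show e⁻¹ * s * e = b * ((e * b)⁻¹ * (s * (e * b))) * b⁻¹ by group]
    exact mul_mem (mul_mem hb h5) (inv_mem hb)
  have hEB : ∀ u ∈ E, e⁻¹ * u * e ∈ B → u = 1 := fun u hu h => by
    have : e⁻¹ * u * e ∈ E ⊓ B := ⟨hEn.conj_mem' _ hu e, h⟩
    rw [h0, mem_bot] at this
    calc u = e * (e⁻¹ * u * e) * e⁻¹ := by group
      _ = 1 := by rw [this]; group
  have hAE' : ∀ u ∈ E, u ∈ A → u = 1 := fun u hu huA => by
    rw [← mem_bot, ← hC]
    refine ⟨hu, fun s hs => commutatorElement_eq_one_iff_mul_comm.1 (hEB _ ?_ (hRB _ ?_))⟩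
    · rw [commutatorElement_def]
      exact mul_mem (hEn.conj_mem _ hu s) (inv_mem hu)
    · rw [commutatorElement_def, mul_assoc, mul_assoc, ← mul_assoc u]
      exact mul_mem hs ((mem_normalizer_iff.1 (hAR huA) _).1 (inv_mem hs))
  have hBA : ∀ c ∈ B, e * c * e⁻¹ ∈ A := fun c hcB => by
    obtain ⟨u, hu, d, hd, h⟩ := mem_sup_of_normal_left.1
      (show e * c * e⁻¹ ∈ E ⊔ A by rw [sup_comm, htop]; trivial)
    have : u = 1 := by
      rw [← mem_bot, ← hC]
      refine ⟨hu, fun s hs => commutatorElement_eq_one_iff_mul_comm.1 (hEB _ ?_ ?_)⟩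
      · rw [commutatorElement_def]
        exact mul_mem (hEn.conj_mem _ hu s) (inv_mem hu)
      · have h4 := hRB _ ((mem_normalizer_iff.1 (hAR (inv_mem hd)) _).1 (inv_mem hs))
        have h5 : e⁻¹ * ⁅s, u⁆ * e =
            e⁻¹ * s * e * (c * (e⁻¹ * (d⁻¹ * s⁻¹ * d⁻¹⁻¹) * e) * c⁻¹) := by
          rw [eq_mul_inv_of_mul_eq h, commutatorElement_def]; group
        rw [h5]
        exact mul_mem (hRB s hs) (mul_mem (mul_mem hcB h4) (inv_mem hcB))
    rwa [← h, this, one_mul]
  have key : ∀ u (hu : u ∈ E) (z : A), u * z * u⁻¹ ∈ A →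
      (⟨u, hu⟩ : Abelem.V hE) ∈ LinearMap.ker (ρ z - 1) := fun u hu z h => by
    rw [LinearMap.mem_ker, LinearMap.sub_apply, sub_eq_zero]
    refine (Abelem.rep_apply_eq_self_iff z _).2 (commutatorElement_eq_one_iff_mul_comm.1
      (hAE' _ ?_ ?_)).symm
    · rw [commutatorElement_def, mul_assoc, mul_assoc, ← mul_assoc (z : G)]
      exact mul_mem hu (hEn.conj_mem _ (inv_mem hu) z)
    · exact mul_mem h (inv_mem z.2)
  have h4 := key e he ⟨x, hxA⟩ (hBA x hxB)
  have h5 := key (e * v.val) (mul_mem he v.mem) ⟨_, hyA⟩ (by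
    have := hBA _ hyB
    convert this using 1
    group)
  refine hv ?_
  have := add_mem (Submodule.mem_sup_left (neg_mem h4)) (Submodule.mem_sup_right h5)
  convert this using 1
  exact Abelem.V.ext (by simp)

theorem lemX {G : Type*} [Group G] [Finite G] {p q r : ℕ} (hp : p.Prime) (h3 : 3 < p)
    [hq : Fact q.Prime] [hr : Fact r.Prime] (hrq : r ≠ q) {A Q R : Subgroup G} [Q.Normal]
    (hA : Group.IsSolvable A) {x a : G} (hx : x ^ p = 1) (ha : a ∈ A)
    (hgen : A = closure {x, a * x * a⁻¹}) (hQ : IsPGroup q Q) (htop : A ⊔ Q = ⊤)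
    (hR : IsPGroup r R) (hRA : R ≤ A) (hAR : A ≤ normalizer (R : Set G))
    (hmin : MinAct Q R A ⊥) :
    ∃ w ∈ Q, closure {x, w * a * x * (w * a)⁻¹} = ⊤ := by
  set M := (frattini Q).map Q.subtype
  let π := QuotientGroup.mk' M
  have hπ : Function.Surjective π := QuotientGroup.mk'_surjective M
  have hE := (isSec_frattini hQ).elemAb
  have : (Q.map π).Normal := Normal.map ‹_› π hπ
  have hcop : (Nat.card R).Coprime (Nat.card Q) := IsPGroup.coprime_card_of_ne r q hrq _ _ hR hQ
  have h1 : ⁅Q, R⁆ = Q := (hmin.structure hQ (hRA.trans hmin.1) hAR hcop).1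
  have hC : Q.map π ⊓ centralizer (R.map π : Set (G ⧸ M)) = ⊥ := by
    have := hE.1
    have h2 := (S0055.result (R.map π) (Q.map π) (le_normalizer_of_normal.trans' le_top)
      (IsPGroup.coprime_card_of_ne r q hrq _ _ (hR.map π) (hQ.map π))).1
    rwa [← map_commutator, h1, inf_right_comm, inf_idem] at h2
  have hMQ : M ≤ Q := map_subtype_le _
  obtain ⟨_, ⟨w, hw, rfl⟩, h⟩ := lemY hp h3 hrq (A := A.map π) (E := Q.map π) (R := R.map π)
    (Group.isSolvable_of_surjective (π.subgroupMap_surjective A)) (x := π x) (a := π a)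
    (by rw [← map_pow, hx, map_one]) ⟨a, ha, rfl⟩
    (by rw [hgen, MonoidHom.map_closure, Set.image_pair]; simp) hE
    (by rw [← Subgroup.map_sup, htop, map_top_of_surjective _ hπ])
    (fun e => by
      rw [Subgroup.map_eq_bot_iff, QuotientGroup.ker_mk'] at e
      have h2 : frattini Q = ⊤ := top_unique fun u _ =>
        (mem_map_iff_mem Q.subtype_injective).1 (e u.2)
      have h4 : (⊥ : Subgroup Q) = ⊤ := frattini_nongenerating (by rw [h2, sup_top_eq])
      refine hmin.2.1 (h1.le.trans fun u hu => ?_)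
      exact congrArg Subtype.val (mem_bot.1 (show (⟨u, hu⟩ : Q) ∈ ⊥ from h4 ▸ trivial)))
    (fun U hU hAU => by
      have h2 : U.comap π ≤ Q := by
        have := comap_mono (f := π) hU
        rwa [comap_map_eq, QuotientGroup.ker_mk', sup_eq_left.2 hMQ] at this
      rcases h2.eq_or_lt with e | e
      · exact Or.inr ((map_comap_eq_self_of_surjective hπ U).symm.trans (congrArg (map π) e))
      · left
        have h4 := hmin.2.2 _ e (fun g hg => le_normalizer_comap π (hAU ⟨g, hg, rfl⟩))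
        rw [eq_bot_iff, ← hC]
        refine le_inf hU ?_
        rw [← commutator_eq_bot_iff_le_centralizer, ← map_comap_eq_self_of_surjective hπ U,
          ← map_commutator, le_bot_iff.1 h4, Subgroup.map_bot])
    (hR.map π) (map_mono hRA) (fun _ ⟨g, hg, e⟩ => e ▸ le_normalizer_map π ⟨g, hAR hg, rfl⟩) hC
  refine ⟨w, hw, frattini_nongenerating (top_unique ?_)⟩
  have h2 : (closure {x, w * a * x * (w * a)⁻¹}).map π = ⊤ := by
    rw [MonoidHom.map_closure, Set.image_pair, ← h]; rfl
  have h4 := congrArg (comap π) h2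
  rw [comap_map_eq, QuotientGroup.ker_mk', comap_top] at h4
  exact h4 ▸ sup_le_sup_left (map_frattini_le_of_normal Q) _

theorem lemW {G : Type*} [Group G] [Finite G] {p q r : ℕ} (hp : p.Prime) (h3 : 3 < p)
    [hq : Fact q.Prime] [hr : Fact r.Prime] (hrq : r ≠ q) {A Q R : Subgroup G}
    (hA : Group.IsSolvable A) {x a : G} (hx : x ^ p = 1) (ha : a ∈ A)
    (hgen : A = closure {x, a * x * a⁻¹}) (hQ : IsPGroup q Q)
    (hR : IsPGroup r R) (hRA : R ≤ A) (hAR : A ≤ normalizer (R : Set G))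
    (hmin : MinAct Q R A ⊥) :
    ∃ w ∈ Q, closure {x, w * a * x * (w * a)⁻¹} = A ⊔ Q := by
  set H := A ⊔ Q
  have hAH : A ≤ H := le_sup_left
  have hQH : Q ≤ H := le_sup_right
  have hxA : x ∈ A := hgen ▸ subset_closure (by simp)
  have : (Q.subgroupOf H).Normal :=
    (normal_subgroupOf_iff_le_normalizer hQH).2 (sup_le hmin.1 le_normalizer)
  have hinj := map_injective H.subtype_injective
  obtain ⟨w, hw, h⟩ := lemX hp h3 hrq (A := A.subgroupOf H) (Q := Q.subgroupOf H)
    (R := R.subgroupOf H) (Group.isSolvable_of_surjective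
      (f := (subgroupOfEquivOfLe hAH).symm.toMonoidHom) (MulEquiv.surjective _))
    (x := ⟨x, hAH hxA⟩) (a := ⟨a, hAH ha⟩) (Subtype.ext hx) ha
    (hinj (by rw [map_subgroupOf_eq_of_le hAH, MonoidHom.map_closure, Set.image_pair]; exact hgen))
    hQ.comap_subtype (by rw [← subgroupOf_sup hAH hQH, subgroupOf_self]) hR.comap_subtype
    (comap_mono hRA) (fun g hg => le_normalizer_comap H.subtype (hAR hg))
    ⟨le_normalizer_of_normal.trans' le_top, fun e => hmin.2.1 (by
      have := map_mono (f := H.subtype) e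
      rwa [map_commutator, map_subgroupOf_eq_of_le hQH, map_subgroupOf_eq_of_le (hRA.trans hAH),
        Subgroup.map_bot] at this), fun U hU hAU => by
      have h1 := hmin.2.2 (U.map H.subtype) (by
        rw [← map_subgroupOf_eq_of_le hQH]
        exact (map_lt_map_iff_of_injective H.subtype_injective).2 hU)
        fun g hg => le_normalizer_map H.subtype ⟨⟨g, hAH hg⟩, hAU hg, rfl⟩
      rw [← map_le_map_iff_of_injective H.subtype_injective, map_commutator,
        map_subgroupOf_eq_of_le (hRA.trans hAH), Subgroup.map_bot]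
      exact h1⟩
  refine ⟨w, hw, ?_⟩
  have := congrArg (map H.subtype) h
  rwa [MonoidHom.map_closure, Set.image_pair, ← MonoidHom.range_eq_map, range_subtype] at this


/-- Let G be a finite group and P a subgroup of prime order p > 3. Consider the solvable subgroups A of G of the form A = ⟨P, aPa⁻¹⟩ for some a ∈ A, and let A be maximal under inclusion among them. Then for every nilpotent subgroup V of G normalized by A, the subgroup F(A)V generated by the Fitting subgroup of A and V is nilpotent. -/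
theorem result {G : Type*} [Group G] [Finite G]
    {p : ℕ} [Fact p.Prime] (hp : 3 < p) (P : Subgroup G) (hP : Nat.card P = p) (A : Subgroup G)
    (hA : Group.IsSolvable ↥A ∧ ∃ a ∈ A, A = P ⊔ P.map (MulAut.conj a).toMonoidHom)
    (hmax : ∀ B : Subgroup G, A ≤ B → Group.IsSolvable ↥B → (∃ b ∈ B, B = P ⊔ P.map (MulAut.conj b).toMonoidHom) → B = A)
    (V : Subgroup G) (hV : Group.IsNilpotent ↥V) (hAV : A ≤ Subgroup.normalizer (V : Set G)) :
    Group.IsNilpotent ↥((Cfsg.fittingSubgroup ↥A).map A.subtype ⊔ V) := by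
  have hpp : p.Prime := Fact.out
  have : IsCyclic P := isCyclic_of_prime_card hP
  obtain ⟨x, hx⟩ := IsCyclic.exists_generator (α := P)
  have hPx : P = zpowers (x : G) := by
    refine le_antisymm (fun g hg => ?_) (zpowers_le_of_mem x.2)
    obtain ⟨i, hi⟩ := hx ⟨g, hg⟩
    exact ⟨i, congrArg Subtype.val hi⟩
  have hxp : (x : G) ^ p = 1 := congrArg Subtype.val (show x ^ p = 1 from hP ▸ pow_card_eq_one')
  have hcl : ∀ b : G, P ⊔ P.map (MulAut.conj b).toMonoidHom = closure {(x : G), b * x * b⁻¹} := by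
    intro b
    rw [Set.insert_eq, Subgroup.closure_union, ← zpowers_eq_closure, ← zpowers_eq_closure, ← hPx]
    congr 1
    exact (congrArg (map _) hPx).trans (MonoidHom.map_zpowers _ _)
  obtain ⟨hAs, a, ha, hAa⟩ := hA
  rw [hcl] at hAa
  let R : ℕ → Subgroup G := fun r => (pCore r A).map A.subtype
  let Q : ℕ → Subgroup G := fun q => (pCore q V).map V.subtype
  have hAR : ∀ r, A ≤ normalizer (R r : Set G) := fun r =>
    le_normalizer.trans (normalizer_le_normalizer_map_pCore A)
  have hAQ : ∀ q, A ≤ normalizer (Q q : Set G) := fun q =>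
    hAV.trans (normalizer_le_normalizer_map_pCore V)
  have hR : ∀ r : Nat.Primes, IsPGroup r (R r) := fun r =>
    have := factPrime r
    (isPGroup_pCore r A).map _
  have hQ : ∀ r : Nat.Primes, IsPGroup r (Q r) := fun r =>
    have := factPrime r
    (isPGroup_pCore r V).map _
  have key : ∀ r q : Nat.Primes, r ≠ q → Q q ≤ centralizer (R r : Set G) := by
    intro r q hrq
    have := factPrime r
    have := factPrime q
    have hrq' : (r : ℕ) ≠ q := fun e => hrq (Subtype.ext e)
    by_contra hne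
    rw [← commutator_eq_bot_iff_le_centralizer, ← le_bot_iff] at hne
    obtain ⟨Q0, h0, hmin⟩ := exists_minAct (hAQ q) hne
    have hQ0 := (hQ q).to_le h0
    obtain ⟨w, hw, h⟩ := lemW hpp hp hrq' hAs hxp ha hAa hQ0 (hR r) (map_subtype_le _) (hAR r) hmin
    have h1 := hmax (A ⊔ Q0) le_sup_left (by
      have := hQ0.isNilpotent
      exact isSolvable_sup_of_le_normalizer hmin.1 hAs inferInstance)
      ⟨w * a, mul_mem (mem_sup_right hw) (mem_sup_left ha), by rw [hcl, h]⟩
    refine hmin.2.1 (le_bot_iff.2 (commutator_eq_bot_iff_le_centralizer.2 ?_))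
    exact le_centralizer_of_coprime_of_le_nilpotent (isNilpotent_fittingOf A)
      (le_fittingOf (sup_eq_left.1 h1) hmin.1 hQ0.isNilpotent)
      (map_mono (pCore_le_fittingSubgroup r))
      (IsPGroup.coprime_card_of_ne q r hrq'.symm _ _ hQ0 (hR r))
  have hF : (fittingSubgroup A).map A.subtype = ⨆ r : Nat.Primes, R r := by
    rw [fittingSubgroup_eq_iSup_pCore, Subgroup.map_iSup]
  have hVQ : V = ⨆ q : Nat.Primes, Q q := by
    rw [← Subgroup.map_iSup, iSup_pCore_eq_top_of_isNilpotent, ← MonoidHom.range_eq_map,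
      range_subtype]
  set K := (fittingSubgroup A).map A.subtype ⊔ V
  have hN : ∀ r : Nat.Primes, R r ⊔ Q r ≤ fittingOf K := by
    intro r
    have := factPrime r
    refine le_fittingOf (sup_le_sup (hF ▸ le_iSup (fun r : Nat.Primes => R r) r) (map_subtype_le _))
      (sup_le ((map_subtype_le _).trans ((le_inf (hAR r) (hAQ r)).trans
        (normalizer_inf_normalizer_le_normalizer_sup _ _))) (hVQ.le.trans (iSup_le fun q => ?_)))
      ((hR r).to_sup_of_normal_right' (hQ r) ((map_subtype_le _).trans (hAQ r))).isNilpotent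
    by_cases e : r = q
    · subst e
      exact le_sup_right.trans le_normalizer
    · refine (le_inf ((key r q e).trans (centralizer_le_normalizer _)) ?_).trans
        (normalizer_inf_normalizer_le_normalizer_sup _ _)
      exact (map_subtype_le _).trans (le_normalizer.trans (normalizer_le_normalizer_map_pCore V))
  have hK : fittingOf K = K := le_antisymm (fittingOf_le K) (sup_le
    (hF.le.trans (iSup_le fun r => le_sup_left.trans (hN r)))
    (hVQ.le.trans (iSup_le fun r => le_sup_right.trans (hN r))))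
  exact hK ▸ isNilpotent_fittingOf K

end Cfsg.Agent.S3822
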