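import Cfsg.Statements.S3825
import Mathlib
import Cfsg.Agent.SOLV.Basic

set_option autoImplicit false
open Cfsg

namespace Cfsg.Agent.S3825

open Subgroup in
open scoped commutatorElement in

/-- Let U be a subgroup of a finite group H and w an involution of H normalizing U and commuting with exactly two elements of U, the identity and y. If V is a non-cyclic elementary abelian 2-subgroup of U containing y which is normal in U and invariant under w, then V is a Sylow 2-subgroup of U, V has order 4, and U/V is abelian. -/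
theorem result {H : Type*} [Group H] [Finite H] (U : Subgroup H) (w : H) (hw : orderOf w = 2)
    (hwU : w ∈ Subgroup.normalizer (U : Set H)) (y : H) (hy : y ≠ 1) (hyU : y ∈ U)
    (hfix : ∀ u ∈ U, w * u * w⁻¹ = u ↔ (u = 1 ∨ u = y))
    (V : Subgroup H) (hVU : V ≤ U) (hVn : (V.subgroupOf U).Normal) (hVw : ∀ v ∈ V, w * v * w⁻¹ ∈ V)
    (hVe : Cfsg.IsElementaryAbelian 2 V) (hVc : ¬ IsCyclic ↥V) (hyV : y ∈ V) :
    ¬ 2 ∣ V.relIndex U ∧ Nat.card ↥V = 4 ∧ ⁅U, U⁆ ≤ V := by
  have hw2 : w * w = 1 := by rw [← sq, ← hw, pow_orderOf_eq_one]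
  have hwi : w⁻¹ = w := inv_eq_of_mul_eq_one_right hw2
  have hsq : ∀ v ∈ V, v * v = 1 := fun v hv => by
    rw [← sq]; exact hVe.2 v hv
  have hinv : ∀ v ∈ V, v⁻¹ = v := fun v hv => inv_eq_of_mul_eq_one_right (hsq v hv)
  have hcomm : ∀ a ∈ V, ∀ b ∈ V, a * b = b * a := fun a ha b hb => by
    rw [← hinv _ (V.mul_mem ha hb), mul_inv_rev, hinv a ha, hinv b hb]
  have step : ∀ u ∈ U, u⁻¹ * (w * u * w⁻¹) ∈ V →
      u⁻¹ * (w * u * w⁻¹) = 1 ∨ u⁻¹ * (w * u * w⁻¹) = y := by
    intro u _ hv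
    refine (hfix _ (hVU hv)).1 ?_
    rw [← hinv _ hv]
    calc w * (u⁻¹ * (w * u * w⁻¹))⁻¹ * w⁻¹ = (w * w) * u⁻¹ * (w * w)⁻¹ * (w * u * w⁻¹) := by group
      _ = u⁻¹ * (w * u * w⁻¹) := by rw [hw2]; group
      _ = _ := (hinv _ hv).symm
  obtain ⟨v0, hv0, hv0'⟩ : ∃ v0 ∈ V, v0 ∉ zpowers y := by
    by_contra h
    push Not at h
    have : V = zpowers y := le_antisymm h (zpowers_le.2 hyV)
    exact hVc (this ▸ inferInstance)
  have hv01 : v0 ≠ 1 := fun e => hv0' (e ▸ one_mem _)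
  have hv0y : v0 ≠ y := fun e => hv0' (e ▸ mem_zpowers _)
  have h0 : v0⁻¹ * (w * v0 * w⁻¹) = y := by
    rcases step v0 (hVU hv0) (V.mul_mem (V.inv_mem hv0) (hVw _ hv0)) with h | h
    · rcases (hfix v0 (hVU hv0)).1 (by rw [inv_mul_eq_one] at h; exact h.symm) with h | h
      · exact absurd h hv01
      · exact absurd h hv0y
    · exact h
  have key : ∀ u ∈ U, u⁻¹ * (w * u * w⁻¹) ∈ V → u = 1 ∨ u = y ∨ u = v0 ∨ u = y * v0 := by
    intro u hu hv
    rcases step u hu hv with h | h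
    · rcases (hfix u hu).1 (by rw [inv_mul_eq_one] at h; exact h.symm) with h | h
      · exact Or.inl h
      · exact Or.inr (Or.inl h)
    · have : w * (u * v0⁻¹) * w⁻¹ = u * v0⁻¹ := by
        calc w * (u * v0⁻¹) * w⁻¹
            = u * (u⁻¹ * (w * u * w⁻¹)) * (v0⁻¹ * (w * v0 * w⁻¹))⁻¹ * v0⁻¹ := by group
          _ = _ := by rw [h, h0]; group
      rcases (hfix _ (U.mul_mem hu (U.inv_mem (hVU hv0)))).1 this with h | h
      · exact Or.inr (Or.inr (Or.inl (mul_inv_eq_one.1 h)))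
      · exact Or.inr (Or.inr (Or.inr (by rw [← h]; group)))
  have hV4 : Nat.card V = 4 := by
    have : (V : Set H) = {1, y, v0, y * v0} := by
      ext u
      constructor
      · intro hu
        exact key u (hVU hu) (V.mul_mem (V.inv_mem hu) (hVw _ hu))
      · rintro (rfl | rfl | rfl | rfl)
        exacts [V.one_mem, hyV, hv0, V.mul_mem hyV hv0]
    rw [← SetLike.coe_sort_coe, this, Nat.card_coe_set_eq, Set.ncard_eq_four]
    refine ⟨1, y, v0, y * v0, hy.symm, hv01.symm, ?_, hv0y.symm, ?_, ?_, rfl⟩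
    · intro e
      apply hv0y
      rw [eq_comm, mul_eq_one_iff_eq_inv, hinv _ hv0] at e
      exact e.symm
    · intro e; exact hv01 (by simpa using e)
    · intro e; exact hy (by simpa using e)
  let φ₀ : U →* U := (U.normalizerMonoidHom ⟨w, hwU⟩).toMonoidHom
  have hφ₀ : ∀ u : U, (φ₀ u : H) = w * u * w⁻¹ := fun u => rfl
  let φ : (U ⧸ V.subgroupOf U) →* (U ⧸ V.subgroupOf U) :=
    QuotientGroup.map _ _ φ₀ (fun u hu => hVw _ hu)
  have hfpf : MonoidHom.FixedPointFree φ := by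
    intro g hg
    obtain ⟨u, rfl⟩ := QuotientGroup.mk_surjective g
    have h1 : ((u : H))⁻¹ * (w * u * w⁻¹) ∈ V := by
      have := QuotientGroup.eq.1 (hg.symm : (u : U ⧸ V.subgroupOf U) = φ₀ u)
      exact this
    rw [QuotientGroup.eq_one_iff, mem_subgroupOf]
    rcases key u u.2 h1 with h | h | h | h <;> rw [h]
    exacts [V.one_mem, hyV, hv0, V.mul_mem hyV hv0]
  have hinvol : Function.Involutive φ := by
    intro g
    obtain ⟨u, rfl⟩ := QuotientGroup.mk_surjective g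
    change ((φ₀ (φ₀ u) : U) : U ⧸ V.subgroupOf U) = u
    congr 1
    ext
    rw [hφ₀, hφ₀]
    calc w * (w * u * w⁻¹) * w⁻¹ = (w * w) * u * (w * w)⁻¹ := by group
      _ = u := by rw [hw2]; group
  refine ⟨?_, hV4, ?_⟩
  · have := hfpf.odd_card_of_involutive hinvol
    rw [← even_iff_two_dvd, Nat.not_even_iff_odd]
    exact this
  · rw [Subgroup.commutator_le]
    intro a ha b hb
    have := hfpf.commute_all_of_involutive hinvol ((⟨a, ha⟩ : U) : U ⧸ V.subgroupOf U)
      ((⟨b, hb⟩ : U) : U ⧸ V.subgroupOf U)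
    rw [← commutatorElement_eq_one_iff_commute] at this
    have h2 : ((⁅(⟨a, ha⟩ : U), (⟨b, hb⟩ : U)⁆ : U) : U ⧸ V.subgroupOf U) = 1 := this
    rw [QuotientGroup.eq_one_iff, mem_subgroupOf] at h2
    exact h2

end Cfsg.Agent.S3825
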