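import Cfsg.Statements.S3835
import Cfsg.Agent.FGS.PermSylAb
import Cfsg.Agent.PLOC.Qd

set_option autoImplicit false
open Cfsg

namespace Cfsg.Agent.S3835

section

open CL.Qd

variable {p : ℕ} [hp : Fact p.Prime]

@[reducible] noncomputable def act : MulAction (Cfsg.qd p) (Fin 2 → ZMod p) where
  smul g v := tra g + lin g • v
  one_smul v := by
    change tra (1 : Cfsg.qd p) + lin (1 : Cfsg.qd p) • v = v
    rw [← mk3_one, tra_mk3, lin_mk3, one_smul, zero_add]
  mul_smul g h v := by
    obtain ⟨A, a, rfl⟩ := exists_mk3 g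
    obtain ⟨B, b, rfl⟩ := exists_mk3 h
    change tra (mk3 A a * mk3 B b) + lin (mk3 A a * mk3 B b) • v =
      tra (mk3 A a) + lin (mk3 A a) • (tra (mk3 B b) + lin (mk3 B b) • v)
    rw [mk3_mul]
    simp only [tra_mk3, lin_mk3, smul_add, mul_smul, add_assoc]

noncomputable def rho : Cfsg.qd p →* Equiv.Perm (Fin 2 → ZMod p) :=
  letI := act (p := p)
  MulAction.toPermHom (Cfsg.qd p) (Fin 2 → ZMod p)

theorem rho_apply (g : Cfsg.qd p) (v : Fin 2 → ZMod p) : rho g v = tra g + lin g • v := rfl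

theorem rho_inj : Function.Injective (rho (p := p)) := by
  rw [injective_iff_map_eq_one]
  intro g hg
  obtain ⟨A, a, rfl⟩ := exists_mk3 g
  have h : ∀ v, a + A • v = v := fun v => by
    have := DFunLike.congr_fun hg v
    rwa [rho_apply, tra_mk3, lin_mk3] at this
  have ha : a = 0 := by simpa using h 0
  subst ha
  have hA : A = 1 := by
    ext i j
    have := congrFun (h (Pi.single j 1)) i
    rw [zero_add] at this
    change (A.1.mulVec (Pi.single j 1)) i = _ at this
    rw [Matrix.mulVec_single_one] at this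
    simpa [Matrix.one_apply, Pi.single_apply] using this
  rw [hA, mk3_one]

theorem hom_triv (hp2 : p ≠ 2) (f : Cfsg.qd p →* ℤˣ) (g : Cfsg.qd p) : f g = 1 := by
  have key : ∀ x : Cfsg.qd p, x ^ p = 1 → f x = 1 := by
    intro x hx
    have h1 : f x ^ p = 1 := by rw [← map_pow, hx, map_one]
    rcases Int.units_eq_one_or (f x) with h | h
    · exact h
    · rw [h, (hp.out.odd_of_ne_two hp2).neg_one_pow] at h1
      exact absurd h1 (by decide)
  obtain ⟨A, a, rfl⟩ := exists_mk3 g
  have h1 : mk3 A a = trans (Multiplicative.ofAdd a) * emb A := by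
    rw [trans_apply, emb_apply, mk3_mul]; simp
  have h2 : (f.comp emb).ker = ⊤ := by
    have hu : CL.Dickson.u 1 ∈ (f.comp emb).ker :=
      key _ (by rw [← map_pow, CL.Sec.u_one_pow, map_one])
    exact CL.Sec.sl2_eq_top_of_normal _ hu
  have h3 : f (emb A) = 1 := by
    have : A ∈ (f.comp emb).ker := h2 ▸ Subgroup.mem_top A
    exact this
  rw [h1, map_mul, h3, key _ (by rw [← map_pow, mult_pow_p, map_one]), one_mul]

theorem not_comm (S : Sylow p (Cfsg.qd p)) : ¬ IsMulCommutative (S : Subgroup (Cfsg.qd p)) := by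
  intro hS
  have hu : (emb (p := p) (CL.Dickson.u (1 : ZMod p)) : Cfsg.qd p) ^ p = 1 := by
    rw [← map_pow, CL.Sec.u_one_pow, map_one]
  have key : ∀ (x : Cfsg.qd p), x ^ p = 1 → ∀ y ∈ (proj (p := p)).ker, y * x = x * y := by
    intro x hx y hy
    have hz : IsPGroup p (Subgroup.zpowers x) := by
      rintro ⟨_, k, rfl⟩
      refine ⟨1, Subtype.ext ?_⟩
      change (x ^ k) ^ p ^ 1 = 1
      rw [pow_one, ← zpow_natCast, ← zpow_mul, mul_comm, zpow_mul, zpow_natCast, hx, one_zpow]
    have hQ := IsPGroup.to_sup_of_normal_left (isPGroup_ker (p := p)) hz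
    have hc := CL.Sec.isMulCommutative_of_sylow hS hQ
    exact setLike_mul_comm (s := (proj (p := p)).ker ⊔ Subgroup.zpowers x) (Subgroup.mem_sup_left hy)
      (Subgroup.mem_sup_right (Subgroup.mem_zpowers _))
  have h3 := key _ hu (mk3 1 ![0, 1]) (mk3_mem_ker.2 rfl)
  rw [emb_apply, mk3_mul, mk3_mul, mk3_inj] at h3
  have h4 := congrFun h3.2 0
  change _ = (0 + ((CL.Dickson.u (1 : ZMod p)).1.mulVec ![0, 1])) 0 at h4
  simp [CL.Dickson.u, Matrix.mulVec, dotProduct, Fin.sum_univ_two] at h4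
end

/-- Let p be an odd prime and n a natural number. The alternating group of degree n has a subgroup isomorphic to Qd(p) (the natural semidirect product of an elementary abelian group of order p² by SL₂(p)) if and only if n ≥ p²; and if n < p² then Qd(p) is not even involved in it. -/
theorem result {p : ℕ} [Fact p.Prime] (hp : p ≠ 2) (n : ℕ) : ((∃ H : Subgroup (alternatingGroup (Fin n)), Nonempty (↥H ≃* ↥(Cfsg.qd p))) ↔ p ^ 2 ≤ n) ∧ (n < p ^ 2 → ¬ Cfsg.Involves ↥(Cfsg.qd p) ↥(alternatingGroup (Fin n))) := by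
  have h2 : n < p ^ 2 → ¬ Cfsg.Involves ↥(Cfsg.qd p) ↥(alternatingGroup (Fin n)) := by
    intro hn hI
    obtain ⟨T⟩ : Nonempty (Sylow p (alternatingGroup (Fin n))) := inferInstance
    obtain ⟨S⟩ : Nonempty (Sylow p (Cfsg.qd p)) := inferInstance
    exact not_comm S (CL.Sec.abelian_sylow_of_involves hI
      (CL.FGS.PermAb.isMulCommutative_of_card_lt_sq (by simpa using hn) _ T.isPGroup') S)
  refine ⟨⟨?_, fun hn => ?_⟩, h2⟩
  · rintro ⟨H, ⟨e⟩⟩
    by_contra hn
    exact h2 (not_le.1 hn) (CL.Sec.involves_of_subgroup (CL.Sec.involves_of_equiv e))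
  · obtain ⟨ι⟩ : Nonempty ((Fin 2 → ZMod p) ↪ Fin n) :=
      Function.Embedding.nonempty_of_card_le (by simpa using hn)
    let f : Cfsg.qd p →* Equiv.Perm (Fin n) := (Equiv.Perm.viaEmbeddingHom ι).comp rho
    have hf : Function.Injective f := (Equiv.Perm.viaEmbeddingHom_injective ι).comp rho_inj
    let f' : Cfsg.qd p →* alternatingGroup (Fin n) :=
      f.codRestrict _ fun g => Equiv.Perm.mem_alternatingGroup.2 (hom_triv hp (Equiv.Perm.sign.comp f) g)
    have hf' : Function.Injective f' := fun a b h => hf (congrArg Subtype.val h)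
    exact ⟨f'.range, ⟨(MonoidHom.ofInjective hf').symm⟩⟩

end Cfsg.Agent.S3835
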