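import Cfsg.Statements.S3836
import Cfsg.Agent.PLOC.PStable

set_option autoImplicit false
open Cfsg

namespace Cfsg.Agent.S3836


/-- Let G be a finite group that is p-stable in the normalizer form: for every p-subgroup Q and every x ∈ N_G(Q) with [Q, x, x] = 1, the image of x in N_G(Q)/C_G(Q) lies in O_p(N_G(Q)/C_G(Q)). Then every subgroup of G is p-stable in the same sense. -/
theorem result {G : Type*} [Group G] [Finite G] {p : ℕ} [Fact p.Prime] (hst : Cfsg.IsNormalizerPStable p G) (H : Subgroup G) : Cfsg.IsNormalizerPStable p ↥H := by
  exact hst.subgroup H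

end Cfsg.Agent.S3836
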