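import Cfsg.Statements.S3838
import Mathlib
import Cfsg.Agent.PLOC.Tate
import Cfsg.Agent.PLOC.FrobeniusNPC
import Cfsg.Agent.SOLV.Frattini

set_option autoImplicit false
open Cfsg

namespace Cfsg.Agent.S3838

open Subgroup CL CL.Tr in
open scoped commutatorElement in

/-- Let G be a finite group with Sylow p-subgroup P such that N_G(P) has a normal p-complement. Then N_G(Q) has a normal p-complement for every subgroup Q with [P, P] ≤ Q ≤ Φ(P). -/
theorem result {G : Type*} [Group G] [Finite G] {p : ℕ} [Fact p.Prime] (P : Sylow p G) (hN : Cfsg.HasNormalPComplement p ↥(Subgroup.normalizer ((P : Subgroup G) : Set G))) (Q : Subgroup G) (h1 : (commutator ↥(P : Subgroup G)).map (P : Subgroup G).subtype ≤ Q) (h2 : Q ≤ (frattini ↥(P : Subgroup G)).map (P : Subgroup G).subtype) : Cfsg.HasNormalPComplement p ↥(Subgroup.normalizer (Q : Set G)) := by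
  have hQP : Q ≤ P := h2.trans (map_subtype_le _)
  have hc : ∀ a ∈ (P : Subgroup G), ∀ b ∈ (P : Subgroup G), ⁅a, b⁆ ∈ Q := fun a ha b hb =>
    h1 ⟨⁅(⟨a, ha⟩ : (P : Subgroup G)), ⟨b, hb⟩⁆,
      commutator_mem_commutator (mem_top _) (mem_top _), rfl⟩
  set H := normalizer (Q : Set G) with hH
  have hPH : (P : Subgroup G) ≤ H := fun a ha => mem_normalizer_of_conj_mem fun x hx => by
    have := Q.mul_mem (hc a ha x (hQP hx)) hx
    simpa [commutatorElement_def] using this
  set P' := P.subtype hPH with hP'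
  set Q' := Q.subgroupOf H with hQ'
  have hQn : Q'.Normal := normal_in_normalizer
  have hq : Cfsg.HasNormalPComplement p (H ⧸ Q') := by
    set T := P'.mapSurjective (QuotientGroup.mk'_surjective Q') with hT
    refine hasNPC_of_normalizer_le_centralizer T ?_
    intro x hx
    obtain ⟨x, rfl⟩ := QuotientGroup.mk_surjective x
    have hxP : (x : G) ∈ normalizer ((P : Subgroup G) : Set G) := by
      refine mem_normalizer_of_conj_mem fun a ha => ?_
      have h3 := conj_mem_of_mem_normalizer (H := (T : Subgroup (H ⧸ Q'))) hx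
        (x := ((⟨a, hPH ha⟩ : H) : H ⧸ Q')) ⟨⟨a, hPH ha⟩, ha, rfl⟩
      obtain ⟨b, hb, e⟩ := h3
      have h4 : (b : G)⁻¹ * (x * a * (x : G)⁻¹) ∈ Q :=
        (QuotientGroup.eq (s := Q') (a := b) (b := x * (⟨a, hPH ha⟩ : H) * x⁻¹)).1 (by
          simpa using e)
      simpa using (P : Subgroup G).mul_mem hb (hQP h4)
    obtain ⟨z, hz, -, hz'⟩ := exists_sylowIn_conj_eq (E := (P : Subgroup G)) le_rfl P.isPGroup'
      (not_dvd_relIndex_sylow P le_normalizer) (fun g hg hco =>
        mem_centralizer_of_hasNPC_subgroup hN P.isPGroup' le_normalizer hg hg hco) hxP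
    rintro _ ⟨a, ha, rfl⟩
    change ((a * x : H) : H ⧸ Q') = ((x * a : H) : H ⧸ Q')
    rw [eq_comm, QuotientGroup.eq_iff_div_mem, mem_subgroupOf]
    have := hc z hz a ha
    rw [commutatorElement_def, hz' a ha] at this
    simpa [div_eq_mul_inv, mul_assoc] using this
  refine hasNPC_of_inf_pResidual_le_frattini P' ?_
  intro x hx
  have h5 : x ∈ Q' := by
    have h6 := (hasNPC_iff_sylow_inf_pResidual
      (P'.mapSurjective (QuotientGroup.mk'_surjective Q'))).1 hq
    have h7 : QuotientGroup.mk' Q' x ∈ (⊥ : Subgroup (H ⧸ Q')) := by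
      rw [← h6]
      exact ⟨mem_map_of_mem _ hx.1, map_pResidual_le _ (mem_map_of_mem _ hx.2)⟩
    exact (QuotientGroup.eq_one_iff x).1 h7
  obtain ⟨y, hy, e⟩ := h2 h5
  have e1 := map_frattini_equiv (subgroupOfEquivOfLe hPH).symm
  refine ⟨(subgroupOfEquivOfLe hPH).symm y, ?_, Subtype.ext e⟩
  change _ ∈ frattini ((P : Subgroup G).subgroupOf H)
  rw [← e1]
  exact mem_map_of_mem _ hy

end Cfsg.Agent.S3838
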