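import Cfsg.Statements.S3841
import Cfsg.Agent.INV.SEMod.Main

set_option autoImplicit false
open Cfsg

namespace Cfsg.Agent.S3841

/-- Let G be a finite group with a strongly embedded subgroup (a proper subgroup of even order meeting each of its conjugates by outside elements in a group of odd order), S a Sylow 2-subgroup of G, and V a finite-dimensional vector space over the field with two elements on which G acts linearly and faithfully through ρ. If S has order 2ᵏ then dim V ≥ 2k; and if Z(S) is elementary abelian of order 2ⁿ then for every nonidentity s ∈ S the image of ρ(s) − 1 has dimension at least n. -/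
theorem result {G : Type*} [Group G] [Finite G] (H : Subgroup G) (hH : Cfsg.IsStronglyEmbedded H) (S : Sylow 2 G) {V : Type*} [AddCommGroup V] [Module (ZMod 2) V] [Module.Finite (ZMod 2) V] (ρ : Representation (ZMod 2) G V) (hρ : Function.Injective ρ) : (∀ k : ℕ, Nat.card ↥(S : Subgroup G) = 2 ^ k → 2 * k ≤ Module.finrank (ZMod 2) V) ∧ ∀ n : ℕ, (∀ z ∈ (S : Subgroup G) ⊓ Subgroup.centralizer ((S : Subgroup G) : Set G), z ^ 2 = 1) → Nat.card ↥((S : Subgroup G) ⊓ Subgroup.centralizer ((S : Subgroup G) : Set G)) = 2 ^ n → ∀ s ∈ (S : Subgroup G), s ≠ 1 → n ≤ Module.finrank (ZMod 2) ↥(LinearMap.range (ρ s - 1)) := by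
  by_cases h2 : CL.PS.Rank2 G
  · obtain ⟨h3, h4⟩ := CL.SEMod.bounds_of_rank2 hH h2 S hρ
    exact ⟨h3, fun n h5 h6 => h4 n _ inf_le_left h5 h6⟩
  refine ⟨fun k => CL.SEMod.le_of_not_rank2 hH h2 S hρ, fun n h5 h6 s _ h1 => ?_⟩
  have h7 : 0 < Module.finrank (ZMod 2) (LinearMap.range (ρ s - 1)) := by
    rw [Module.finrank_pos_iff, Submodule.nontrivial_iff_ne_bot, Ne, LinearMap.range_eq_bot, sub_eq_zero,
      ← map_one ρ]
    exact fun e => h1 (hρ e)
  by_contra h8
  exact h2 (CL.Bender.rank2_of_pRank ⟨S ⊓ Subgroup.centralizer ((S : Subgroup G) : Set G),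
    ⟨⟨fun a b => Subtype.ext (b.2.2 a a.2.1)⟩⟩, h5,
    h6 ▸ Nat.pow_le_pow_right two_pos (by omega)⟩)

end Cfsg.Agent.S3841
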