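import Cfsg.Statements.S3857
import Cfsg.Agent.FGS.TwoFrob

set_option autoImplicit false
open Cfsg

namespace Cfsg.Agent.S3857

/-- A finite solvable group whose prime graph (prime divisors of the order, two distinct primes joined when there is an element of order their product) is disconnected is a Frobenius group or a 2-Frobenius group (it has normal subgroups H < K with K a Frobenius group with kernel H and G/H a Frobenius group with kernel K/H). -/
theorem result {G : Type*} [Group G] [Finite G] (hsol : Group.IsSolvable G)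
    (hdisc : (∃ A : Set ℕ, (∃ a ∈ A, a.Prime ∧ a ∣ Nat.card G) ∧ (∃ b ∉ A, b.Prime ∧ b ∣ Nat.card G) ∧
      ∀ a ∈ A, ∀ b ∉ A, a.Prime → b.Prime → a ∣ Nat.card G → b ∣ Nat.card G → ¬ ∃ g : G, orderOf g = a * b)) :
    (∃ C : Subgroup G, Cfsg.IsFrobeniusComplement C) ∨
    (∃ (H K : Subgroup G) (_ : H.Normal), K.Normal ∧ H < K ∧
      (∃ C : Subgroup ↥K, Cfsg.IsFrobeniusComplement C ∧ Cfsg.frobeniusKernel C = (H.subgroupOf K : Set ↥K)) ∧
      (∃ C : Subgroup (G ⧸ H), Cfsg.IsFrobeniusComplement C ∧ Cfsg.frobeniusKernel C = (K.map (QuotientGroup.mk' H) : Set (G ⧸ H)))) := by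
  obtain ⟨A, ⟨a, ha, ha1, ha2⟩, ⟨b, hb, hb1, hb2⟩, h⟩ := hdisc
  have h1 : ∀ a ∈ A, ∀ b ∉ A, a.Prime → b.Prime → ¬ ∃ g : G, orderOf g = a * b :=
    fun a ha b hb h1 h2 ⟨g, hg⟩ => h a ha b hb h1 h2
      ((dvd_mul_right a b).trans (hg ▸ orderOf_dvd_natCard g))
      ((dvd_mul_left b a).trans (hg ▸ orderOf_dvd_natCard g)) ⟨g, hg⟩
  have : Nontrivial G := Finite.one_lt_card_iff_nontrivial.1
    (ha1.one_lt.trans_le (Nat.le_of_dvd Nat.card_pos ha2))
  have key : (∃ C : Subgroup G, IsFrobeniusComplement C) ∨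
      ∃ (H K : Subgroup G) (_ : H.Normal), K.Normal ∧ CL.TF.TwoF H K := by
    rcases (CL.isPiSeparable_of_isSolvable A G).piCore_ne_bot with h2 | h2
    · exact CL.TF.frob_or_twoF h1 h2 fun e => hb (e b hb1 hb2)
    · exact CL.TF.frob_or_twoF (fun a ha b hb h3 h4 => mul_comm b a ▸ h1 b (not_not.1 hb) a ha h4 h3)
        h2 fun e => e a ha1 ha2 ha
  refine key.imp_right fun ⟨H, K, _, _, h⟩ => ⟨H, K, inferInstance, inferInstance, h.lt, ?_, ?_⟩
  · exact ((CL.TF.fk_iff h.lt.le).1 h.fk).frob (fun e => h.ne (by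
      rw [← Subgroup.map_subgroupOf_eq_of_le h.lt.le, e, Subgroup.map_bot]))
      fun e => h.lt.not_ge (Subgroup.subgroupOf_eq_top.1 e)
  · have : (K.map (QuotientGroup.mk' H)).Normal := Subgroup.Normal.map inferInstance _
      (QuotientGroup.mk'_surjective H)
    exact h.fk'.frob h.map_ne h.map_ne_top

end Cfsg.Agent.S3857
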