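import Cfsg.Statements.S3856
import Cfsg.Agent.FGS.GK.Main
import Cfsg.Agent.S3857

set_option autoImplicit false
open Cfsg

namespace Cfsg.Agent.S3856


/-- Structure of finite groups with disconnected prime graph. The prime graph of a finite group G has the prime divisors of |G| as vertices, two distinct primes p, q being joined when G has an element of order pq. If G has even order and its prime graph is disconnected then, writing π₁ for the set of primes joined to 2 by a path: either G is a Frobenius group; or G is a 2-Frobenius group (there are normal subgroups H < K of G with K a Frobenius group with kernel H and G/H a Frobenius group with kernel K/H); or G has normal subgroups N ≤ M such that every prime divisor of |N| and of |G/M| lies in π₁ and M/N is a non-abelian simple group. -/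
theorem result {G : Type*} [Group G] [Finite G] (heven : Even (Nat.card G))
    (hdisc : (∃ A : Set ℕ, (∃ a ∈ A, a.Prime ∧ a ∣ Nat.card G) ∧ (∃ b ∉ A, b.Prime ∧ b ∣ Nat.card G) ∧
      ∀ a ∈ A, ∀ b ∉ A, a.Prime → b.Prime → a ∣ Nat.card G → b ∣ Nat.card G → ¬ ∃ g : G, orderOf g = a * b)) :
    (∃ C : Subgroup G, Cfsg.IsFrobeniusComplement C) ∨
    (∃ (H K : Subgroup G) (_ : H.Normal), K.Normal ∧ H < K ∧
      (∃ C : Subgroup ↥K, Cfsg.IsFrobeniusComplement C ∧ Cfsg.frobeniusKernel C = (H.subgroupOf K : Set ↥K)) ∧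
      (∃ C : Subgroup (G ⧸ H), Cfsg.IsFrobeniusComplement C ∧ Cfsg.frobeniusKernel C = (K.map (QuotientGroup.mk' H) : Set (G ⧸ H)))) ∨
    (∃ (N M : Subgroup G) (_ : N.Normal) (_ : M.Normal), N ≤ M ∧
      (∀ p : ℕ, p.Prime → p ∣ Nat.card ↥N → Relation.ReflTransGen (fun a b : ℕ => a.Prime ∧ b.Prime ∧ a ≠ b ∧ a ∣ Nat.card G ∧ b ∣ Nat.card G ∧ ∃ g : G, orderOf g = a * b) 2 p) ∧
      (∀ p : ℕ, p.Prime → p ∣ Nat.card (G ⧸ M) → Relation.ReflTransGen (fun a b : ℕ => a.Prime ∧ b.Prime ∧ a ≠ b ∧ a ∣ Nat.card G ∧ b ∣ Nat.card G ∧ ∃ g : G, orderOf g = a * b) 2 p) ∧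
      IsSimpleGroup (↥M ⧸ N.subgroupOf M) ∧ ¬ IsMulCommutative (↥M ⧸ N.subgroupOf M)) := by
  let r : ℕ → ℕ → Prop := fun a b => a.Prime ∧ b.Prime ∧ a ≠ b ∧ a ∣ Nat.card G ∧ b ∣ Nat.card G ∧
    ∃ g : G, orderOf g = a * b
  let Δ : Set ℕ := {p | ¬ Relation.ReflTransGen r 2 p}
  have hs : CL.GK.Sep Δ G := fun a ha b hb h1 h2 ⟨g, hg⟩ => ha ((not_not.1 hb).tail
    ⟨h2, h1, fun e => hb (e ▸ ha), (dvd_mul_left b a).trans (hg ▸ orderOf_dvd_natCard g),
      (dvd_mul_right a b).trans (hg ▸ orderOf_dvd_natCard g), g, hg.trans (mul_comm a b)⟩)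
  have h2 : 2 ∉ Δ := fun h => h Relation.ReflTransGen.refl
  have hp : ∃ p ∈ Δ, p.Prime ∧ p ∣ Nat.card G := by
    obtain ⟨A, ⟨a, ha, ha1, ha2⟩, ⟨b, hb, hb1, hb2⟩, h⟩ := hdisc
    have key : ∀ q, Relation.ReflTransGen r 2 q → (2 ∈ A ↔ q ∈ A) := fun q hq => by
      induction hq with
      | refl => rfl
      | tail _ h1 ih =>
        obtain ⟨h3, h4, -, h5, h6, g, hg⟩ := h1
        exact ih.trans ⟨fun h7 => by_contra fun h8 => h _ h7 _ h8 h3 h4 h5 h6 ⟨g, hg⟩,
          fun h7 => by_contra fun h8 => h _ h7 _ h8 h4 h3 h6 h5 ⟨g, hg.trans (mul_comm _ _)⟩⟩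
    by_cases h3 : 2 ∈ A
    · exact ⟨b, fun e => hb ((key b e).1 h3), hb1, hb2⟩
    · exact ⟨a, fun e => h3 ((key a e).2 ha), ha1, ha2⟩
  obtain ⟨p, hp1, hp2, hp3⟩ := hp
  obtain h | h | ⟨N, M, _, _, h3, h4, h5, h6, h7⟩ := hs.main h2 hp2 hp1 hp3 (even_iff_two_dvd.1 heven)
  · exact Or.inl h
  · exact (Cfsg.Agent.S3857.result h hdisc).imp_right Or.inl
  · exact Or.inr (Or.inr ⟨N, M, inferInstance, inferInstance, h3, fun q hq hd => not_not.1 (h4 q hq hd),
      fun q hq hd => not_not.1 (h5 q hq hd), h6, h7⟩)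

end Cfsg.Agent.S3856
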