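import Cfsg.Statements.S3859
import Mathlib
import Cfsg.Agent.SOLV.Fitting
import Cfsg.Agent.SOLV.Subnormal

set_option autoImplicit false
open Cfsg

namespace Cfsg.Agent.S3859

theorem normalizer_ne_top {G : Type*} [Group G] [Finite G] (T : Subgroup G) [T.Normal]
    (hT : IsSimpleGroup T) (hna : ¬ IsMulCommutative T) {r : ℕ} [Fact r.Prime] (R : Sylow r G)
    (hR0 : (R : Subgroup G) ⊓ T ≠ ⊥) :
    Subgroup.normalizer (((R : Subgroup G) ⊓ T : Subgroup G) : Set G) ≠ ⊤ := by
  intro h
  have := Subgroup.normalizer_eq_top_iff.1 h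
  rcases hT.eq_bot_or_eq_top_of_normal (((R : Subgroup G) ⊓ T).subgroupOf T) inferInstance with e | e
  · rw [Subgroup.subgroupOf_eq_bot] at e
    exact hR0 (e.eq_bot_of_le inf_le_right)
  · rw [Subgroup.subgroupOf_eq_top] at e
    have := (R.isPGroup'.to_le (e.trans inf_le_left)).isNilpotent
    exact hna ⟨⟨IsSimpleGroup.comm_iff_isSolvable.2 inferInstance⟩⟩

/-- Let G be a finite group with a normal non-abelian simple subgroup T whose centralizer is trivial (G almost simple with socle T), r a prime and R a Sylow r-subgroup of G meeting T nontrivially. If R lies in exactly one maximal subgroup of G, then G/T is an r-group. -/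
theorem result {G : Type*} [Group G] [Finite G] (T : Subgroup G) [T.Normal] (hT : IsSimpleGroup T) (hna : ¬ IsMulCommutative T)
    (hC : Subgroup.centralizer (T : Set G) = ⊥) {r : ℕ} [Fact r.Prime] (R : Sylow r G) (hR0 : (R : Subgroup G) ⊓ T ≠ ⊥)
    (huniq : ∃! M : Subgroup G, IsCoatom M ∧ (R : Subgroup G) ≤ M) : IsPGroup r (G ⧸ T) := by
  obtain ⟨M, ⟨hM, -⟩, hu⟩ := huniq
  have key : ∀ X : Subgroup G, X ≠ ⊤ → (R : Subgroup G) ≤ X → X ≤ M := fun X hX hRX => by
    obtain ⟨L, hL, hXL⟩ := (eq_top_or_exists_le_coatom X).resolve_left hX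
    exact hu L ⟨hL, hRX.trans hXL⟩ ▸ hXL
  by_cases h : T ⊔ R = ⊤
  · have h1 : (R : Subgroup G).map (QuotientGroup.mk' T) = ⊤ := by
      rw [← CL.map_comap_mk' T ((R : Subgroup G).map _), CL.comap_map_mk', sup_comm, h,
        Subgroup.map_top_of_surjective _ (QuotientGroup.mk'_surjective T)]
    have := R.isPGroup'.map (QuotientGroup.mk' T)
    rw [h1] at this
    exact this.of_equiv Subgroup.topEquiv
  exfalso
  obtain ⟨Q, hQ⟩ := CL.exists_sylow_eq_subgroupOf_of_isSubnormal
    (Subgroup.Normal.isSubnormal (H := T) inferInstance) R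
  have h1 := Sylow.normalizer_sup_eq_top Q
  rw [hQ, Subgroup.subgroupOf_map_subtype] at h1
  exact hM.1 (top_le_iff.1 (h1.ge.trans (sup_le (key _ (normalizer_ne_top T hT hna R hR0)
    (CL.le_normalizer_inf Subgroup.le_normalizer Subgroup.le_normalizer_of_normal))
    (le_sup_left.trans (key _ h le_sup_right)))))

end Cfsg.Agent.S3859
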