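import Cfsg.Statements.S3858
import Mathlib
import Cfsg.Agent.S3859
import Cfsg.Agent.SOLV.ProductsHall

set_option autoImplicit false
open Cfsg

namespace Cfsg.Agent.S3858

open Subgroup CL Pointwise in
theorem exists_mem_conj {G : Type*} [Group G] [Finite G] {r : ℕ} [Fact r.Prime] (R : Sylow r G)
    (M : Subgroup G) (hR : (R : Subgroup G) ≤ M) (g : G) (h : MulAut.conj g • (R : Subgroup G) ≤ M) :
    ∃ m ∈ M, m * g ∈ normalizer ((R : Subgroup G) : Set G) := by
  obtain ⟨m, hm⟩ := exists_conj_le_of_not_dvd_index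
    ((R.isPGroup'.map (MulAut.conj g).toMonoidHom).comap_subtype (K := M))
    (H := (R : Subgroup G).subgroupOf M)
    fun h => R.not_dvd_index (h.trans (relIndex_dvd_index_of_le hR))
  have h2 := map_mono (f := M.subtype) hm
  rw [map_conj_smul, map_subgroupOf_eq_of_le hR] at h2
  erw [map_subgroupOf_eq_of_le h] at h2
  refine ⟨m, m.2, conj_smul_eq_iff_mem_normalizer.1 (conj_smul_eq_of_le ?_)⟩
  rw [← conj_smul_conj_smul]
  exact h2

open Subgroup CL Pointwise in
theorem isCoatom_conj {G : Type*} [Group G] {M : Subgroup G} (hM : IsCoatom M) (g : G) :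
    IsCoatom (MulAut.conj g • M) :=
  (OrderIso.isCoatom_iff (MulAut.conj g).mapSubgroup M).2 hM

open Pointwise in

/-- Let G be a finite group with a normal non-abelian simple subgroup T whose centralizer is trivial (G almost simple with socle T), r a prime and R a Sylow r-subgroup of G meeting T nontrivially. Then R lies in exactly one maximal subgroup of G if and only if G has exactly one conjugacy class of maximal subgroups whose index is prime to r. -/
theorem result {G : Type*} [Group G] [Finite G] (T : Subgroup G) [T.Normal] (hT : IsSimpleGroup T) (hna : ¬ IsMulCommutative T)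
    (hC : Subgroup.centralizer (T : Set G) = ⊥) {r : ℕ} [Fact r.Prime] (R : Sylow r G) (hR0 : (R : Subgroup G) ⊓ T ≠ ⊥) :
    (∃! M : Subgroup G, IsCoatom M ∧ (R : Subgroup G) ≤ M) ↔
      ((∃ M : Subgroup G, IsCoatom M ∧ ¬ r ∣ M.index) ∧
        ∀ M₁ M₂ : Subgroup G, IsCoatom M₁ → ¬ r ∣ M₁.index → IsCoatom M₂ → ¬ r ∣ M₂.index → ∃ g : G, M₂ = M₁.map (MulAut.conj g).toMonoidHom) := by
  have hidx : ∀ M : Subgroup G, (R : Subgroup G) ≤ M → ¬ r ∣ M.index := fun M hM h =>
    R.not_dvd_index (h.trans (Subgroup.index_dvd_of_le hM))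
  have hconj : ∀ M : Subgroup G, ¬ r ∣ M.index → ∃ g : G, (R : Subgroup G) ≤ MulAut.conj g • M :=
    fun M hM => by
      obtain ⟨g, hg⟩ := CL.exists_conj_le_of_not_dvd_index R.isPGroup' hM
      have h1 := CL.conj_smul_mono g⁻¹ hg
      rw [CL.conj_smul_conj_smul, inv_mul_cancel, CL.conj_one_smul] at h1
      exact ⟨_, h1⟩
  constructor
  · rintro ⟨M, ⟨hM, hRM⟩, hu⟩
    refine ⟨⟨M, hM, hidx M hRM⟩, fun M₁ M₂ h1 h1' h2 h2' => ?_⟩
    obtain ⟨g, hg⟩ := hconj M₁ h1'
    obtain ⟨k, hk⟩ := hconj M₂ h2'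
    have e := (hu _ ⟨isCoatom_conj h1 g, hg⟩).trans (hu _ ⟨isCoatom_conj h2 k, hk⟩).symm
    refine ⟨k⁻¹ * g, ?_⟩
    change M₂ = MulAut.conj (k⁻¹ * g) • M₁
    rw [← CL.conj_smul_conj_smul, e, CL.conj_smul_conj_smul, inv_mul_cancel, CL.conj_one_smul]
  · rintro ⟨-, h⟩
    have hN : Subgroup.normalizer ((R : Subgroup G) : Set G) ≠ ⊤ := fun e =>
      S3859.normalizer_ne_top T hT hna R hR0 (top_le_iff.1 (e.ge.trans
        (CL.le_normalizer_inf le_rfl Subgroup.le_normalizer_of_normal)))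
    obtain ⟨M, hM, hNM⟩ := (eq_top_or_exists_le_coatom _).resolve_left hN
    have hRM := Subgroup.le_normalizer.trans hNM
    refine ⟨M, ⟨hM, hRM⟩, fun L hL => ?_⟩
    obtain ⟨g, hg⟩ := h M L hM (hidx M hRM) hL.1 (hidx L hL.2)
    change L = MulAut.conj g • M at hg
    have h1 := CL.conj_smul_mono g⁻¹ (hL.2.trans hg.le)
    rw [CL.conj_smul_conj_smul, inv_mul_cancel, CL.conj_one_smul] at h1
    obtain ⟨m, hm, hmg⟩ := exists_mem_conj R M hRM g⁻¹ h1
    rw [hg]
    exact CL.conj_smul_of_mem (inv_mem_iff.1 ((mul_mem_cancel_left hm).1 (hNM hmg)))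

end Cfsg.Agent.S3858
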