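import Cfsg.Statements.S3862
import Mathlib
import Cfsg.Agent.PLOC.FrobeniusNPC

set_option autoImplicit false
open Cfsg

namespace Cfsg.Agent.S3862

open Subgroup CL CL.Tr in

/-- If every 2-element of the finite group G that is conjugate to its inverse lies in the centre of G, then G has a normal 2-complement. -/
theorem result {G : Type*} [Group G] [Finite G] (h : ∀ x : G, (∃ j : ℕ, orderOf x = 2 ^ j) → IsConj x x⁻¹ → x ∈ Subgroup.center G) : Cfsg.HasNormalPComplement 2 G := by
  rw [hasNPC_iff_forall_isPGroup]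
  intro Q hQ g hg hco
  have step : ∀ y ∈ Q, g * y ^ 2 * g⁻¹ = y ^ 2 → g * y * g⁻¹ = y := by
    intro y hy h2
    set w := g * y * g⁻¹ with hw
    have hwQ : w ∈ Q := conj_mem_of_mem_normalizer hg hy
    have hw2 : w * w = y * y := by
      rw [← sq y, ← h2, hw, sq]; group
    set x := y⁻¹ * w with hx
    have hxQ : x ∈ Q := Q.mul_mem (Q.inv_mem hy) hwQ
    obtain ⟨j, hj⟩ := (IsPGroup.iff_orderOf.1 hQ) ⟨x, hxQ⟩
    have hj' : orderOf x = 2 ^ j := by rw [← hj, Subgroup.orderOf_mk]
    have hreal : IsConj x x⁻¹ := by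
      rw [isConj_iff]
      refine ⟨w, ?_⟩
      calc w * x * w⁻¹ = w⁻¹ * (w * w) * y⁻¹ := by rw [hx]; group
        _ = x⁻¹ := by rw [hw2, hx]; group
    have hc := h x ⟨j, hj'⟩ hreal
    have hpow : ∀ n : ℕ, g ^ n * y * (g ^ n)⁻¹ = y * x ^ n := by
      intro n
      induction n with
      | zero => simp
      | succ n ih =>
        have hcn : g * x ^ n = x ^ n * g := mem_center_iff.1 (Subgroup.pow_mem _ hc n) g
        calc g ^ (n + 1) * y * (g ^ (n + 1))⁻¹ = g * (g ^ n * y * (g ^ n)⁻¹) * g⁻¹ := by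
              rw [pow_succ']; group
          _ = (g * y * g⁻¹) * (g * x ^ n) * g⁻¹ := by rw [ih]; group
          _ = y * x ^ (n + 1) := by
              have e : g * y * g⁻¹ = y * x := by rw [hx, ← hw]; group
              rw [hcn, e, pow_succ']; group
    have h1 := hpow (orderOf g)
    rw [pow_orderOf_eq_one] at h1
    have h3 : x ^ orderOf g = 1 := by simpa using h1
    have h4 : orderOf x = 1 := Nat.eq_one_of_dvd_coprimes (hco.pow_right j)
      (orderOf_dvd_of_pow_eq_one h3) (hj' ▸ dvd_rfl)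
    rw [orderOf_eq_one_iff, hx, inv_mul_eq_one] at h4
    exact h4.symm
  have key : ∀ k : ℕ, ∀ y ∈ Q, y ^ 2 ^ k = 1 → g * y * g⁻¹ = y := by
    intro k
    induction k with
    | zero => intro y _ hy; simp at hy; simp [hy]
    | succ k ih =>
      intro y hy h1
      exact step y hy (ih _ (Q.pow_mem hy 2) (by rw [← pow_mul, ← pow_succ']; exact h1))
  intro y hy
  obtain ⟨k, hk⟩ := hQ ⟨y, hy⟩
  have := key k y hy (by simpa using congrArg Subtype.val hk)
  rw [mul_inv_eq_iff_eq_mul] at this
  exact this.symm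

end Cfsg.Agent.S3862
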