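import Cfsg.Statements.S3864
import Cfsg.Agent.INV.DihFusion
import Cfsg.Agent.TECH.SylIn

set_option autoImplicit false
open Cfsg

namespace Cfsg.Agent.S3864

open Subgroup CL.Z2 CL.FusInv CL.Dih

theorem cnt {G : Type*} [Group G] :
    Nat.card {C : ConjClasses G // ∃ g : G, ConjClasses.mk g = C ∧ orderOf g = 2} =
      Nat.card {C : ConjClasses G // ∃ g : G, orderOf g = 2 ∧ ConjClasses.mk g = C} := by
  simp only [and_comm]

theorem reps {G : Type*} [Group G] [Finite G] {P : Sylow 2 G} {m : ℕ}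
    (c : Coord (P : Subgroup G) m) (j : ZMod (2 ^ m)) {t : G} (ht : orderOf t = 2) :
    IsConj (c.r (hh m)) t ∨ IsConj (c.s j) t ∨ IsConj (c.s (j + 1)) t := by
  obtain ⟨a, ha, ho, h⟩ := exists_isConj_mem P (k := 1) (t := t) (by simpa using ht)
  rcases (c.mem_iff a).1 ha with ⟨i, rfl⟩ | ⟨i, rfl⟩
  · rw [pow_one, c.orderOf_r_eq_two_iff] at ho
    exact Or.inl (ho ▸ h)
  · right
    have := c.two_h
    rcases c.par (i - j) with h1 | h1
    · exact Or.inl ((c.isConj_s (by linear_combination -h1)).trans h)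
    · exact Or.inr ((c.isConj_s (by linear_combination -h1)).trans h)

theorem quiet_case {G : Type*} [Group G] [Finite G] {P : Sylow 2 G} {m : ℕ} (hm : 2 ≤ m)
    (c : Coord (P : Subgroup G) m) (j : ZMod (2 ^ m)) (h : Quiet (c.sub 2 j)) :
    (∃ N : Subgroup G, N.Normal ∧ N.index = 2) ∧ ¬ IsConj (c.r (hh m)) (c.s j) ∧
      ¬ IsConj (c.s (j + 1)) (c.s j) := by
  obtain ⟨K, hK, hi, hs⟩ := (c.isSub_sub 2 j).exists_normal h
  have h1 : c.s j ∉ K := fun hj => by
    have := (hs.2.2 j).1 ⟨hj, c.s_mem j⟩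
    apply c.h_ne
    linear_combination -this
  exact ⟨⟨K, hK, hi⟩, not_isConj_of_normal ((hs.2.1 _).2 (hh_hh hm)).1 h1,
    not_isConj_of_normal hs.s_mem.1 h1⟩

theorem mixed {G : Type*} [Group G] [Finite G] {P : Sylow 2 G} {m : ℕ} (hm : 2 ≤ m)
    (c : Coord (P : Subgroup G) m) (j : ZMod (2 ^ m)) (h : Quiet (c.sub 2 j))
    (h' : ¬ Quiet (c.sub 2 (j + 1))) :
    Nat.card {C : ConjClasses G // ∃ g : G, ConjClasses.mk g = C ∧ orderOf g = 2} = 2 ∧
      (∃ N : Subgroup G, N.Normal ∧ N.index = 2) ∧ ∀ N : Subgroup G, N.Normal → N.index ≠ 4 := by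
  obtain ⟨h1, h2, -⟩ := quiet_case hm c j h
  have h3 : IsConj (c.r (hh m)) (c.s (j + 1)) :=
    (c.isSub_sub 2 (j + 1)).isConj h' (c.isSub_sub 2 (j + 1)).s_mem (c.s_ne_one _)
  refine ⟨cnt.trans (CL.ClassCount.card_eq_two _ _ _ ((c.orderOf_r_eq_two_iff _).2 rfl)
    (c.orderOf_s j) h2 fun t ht => ?_), h1, fun N hN hi => ?_⟩
  · rcases reps c j ht with h | h | h
    · exact Or.inl h
    · exact Or.inr h
    · exact Or.inl (h3.trans h)
  · have hc : Nat.card (G ⧸ N) = 2 ^ 2 := hi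
    have hab := IsPGroup.isMulCommutative_of_card_eq_prime_sq hc
    have hcomm : ∀ t, c.r (2 * t) ∈ N := fun t => by
      have e : c.r (2 * t) = c.r t * c.s 0 * (c.r t)⁻¹ * (c.s 0)⁻¹ := by
        rw [c.r_conj_s, c.s_inv, c.s_mul_s]; simp
      rw [← QuotientGroup.eq_one_iff, e, QuotientGroup.mk_mul, QuotientGroup.mk_mul,
        QuotientGroup.mk_mul, hab.is_comm.comm (c.r t : G ⧸ N), QuotientGroup.mk_inv,
        QuotientGroup.mk_inv]
      group
    have hz : c.r (hh m) ∈ N := by rw [← two_qq hm]; exact hcomm _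
    obtain ⟨g, hg⟩ := isConj_iff.1 h3
    have hs : c.s (j + 1) ∈ N := hg ▸ hN.conj_mem _ hz g
    have hle : c.sub (hh m) (j + 1) ≤ N := by
      have hY := c.isSub_sub (hh m) (j + 1)
      refine c.le_of_forall hY.1 (fun i hi => ?_) fun i hi => ?_
      · obtain ⟨t, rfl⟩ := (hh_mul_eq_zero_iff c.hn i).1 ((hY.2.1 i).1 hi)
        exact hcomm t
      · obtain ⟨t, ht⟩ := (hh_mul_eq_zero_iff c.hn _).1 ((hY.2.2 i).1 hi)
        have := mul_mem (hcomm t) hs
        rwa [c.r_mul_s, ← ht, sub_add_cancel] at this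
    have h4 : N.relIndex P ∣ 2 := by
      exact (relIndex_dvd_of_le_left _ hle).trans (Coord.relIndex_eq_two_of_card (c := c)
        (c.isSub_sub (hh m) (j + 1)).1 (c.isSub_sub (hh m) (j + 1)).card_hh).dvd
    have h5 : (P : Subgroup G).map (QuotientGroup.mk' N) = ⊤ := by
      have := (CL.MSS.sylIn_top P).map (QuotientGroup.mk' N)
      rw [map_top_of_surjective _ (QuotientGroup.mk'_surjective N)] at this
      exact this.eq_of_isPGroup ((IsPGroup.of_card hc).to_subgroup ⊤)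
    rw [← CL.card_map_mk'_eq_relIndex, h5, card_top, hc] at h4
    omega

/-- Let G be a finite group whose Sylow 2-subgroups are dihedral of order 2 ^ n with n ≥ 3, and count the conjugacy classes of involutions of G. Then exactly one of the following holds: there is one class of involutions and no normal subgroup of index 2; there are two classes of involutions, a normal subgroup of index 2 and none of index 4; there are three classes of involutions and G has a normal 2-complement. -/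
theorem result {G : Type*} [Group G] [Finite G] (P : Sylow 2 G) (n : ℕ) (hn : 3 ≤ n) (hdih : Nonempty (↥(P : Subgroup G) ≃* DihedralGroup (2 ^ (n - 1)))) : (Nat.card {C : ConjClasses G // ∃ g : G, ConjClasses.mk g = C ∧ orderOf g = 2} = 1 ∧ ∀ N : Subgroup G, N.Normal → N.index ≠ 2) ∨ (Nat.card {C : ConjClasses G // ∃ g : G, ConjClasses.mk g = C ∧ orderOf g = 2} = 2 ∧ (∃ N : Subgroup G, N.Normal ∧ N.index = 2) ∧ ∀ N : Subgroup G, N.Normal → N.index ≠ 4) ∨ (Nat.card {C : ConjClasses G // ∃ g : G, ConjClasses.mk g = C ∧ orderOf g = 2} = 3 ∧ Cfsg.HasNormalPComplement 2 G) := by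
  obtain ⟨e⟩ := hdih
  have hm : 2 ≤ n - 1 := by omega
  let c := ofEquiv (by omega : 1 ≤ n - 1) e
  have hall : ∀ T j, c.IsSub T 2 j → (Quiet T ↔ Quiet (c.sub 2 0)) ∨ (Quiet T ↔ Quiet (c.sub 2 1)) := by
    intro T j hT
    rcases c.par j with h | h
    · exact Or.inl (hT.quiet_iff (c.isSub_sub 2 0) (by rw [h, mul_zero]))
    · exact Or.inr (hT.quiet_iff (c.isSub_sub 2 1) (by rw [h, mul_one]))
  have h11 : Quiet (c.sub 2 (1 + 1)) ↔ Quiet (c.sub 2 0) :=
    (c.isSub_sub 2 (1 + 1)).quiet_iff (c.isSub_sub 2 0) (by linear_combination c.two_h)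
  by_cases h0 : Quiet (c.sub 2 0) <;> by_cases h1 : Quiet (c.sub 2 1)
  · right; right
    obtain ⟨-, a1, a2⟩ := quiet_case hm c 0 h0
    obtain ⟨-, a3, -⟩ := quiet_case hm c 1 h1
    refine ⟨cnt.trans (CL.ClassCount.card_eq_three _ _ _ _ ((c.orderOf_r_eq_two_iff _).2 rfl)
      (c.orderOf_s 0) (c.orderOf_s (0 + 1)) a1 (by rwa [zero_add]) (fun h => a2 h.symm)
      fun t ht => reps c 0 ht), c.hasNPC fun T j hT => ?_⟩
    rcases hall T j hT with h | h
    · exact h.2 h0
    · exact h.2 h1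
  · exact Or.inr (Or.inl (mixed hm c 0 h0 (by rwa [zero_add])))
  · exact Or.inr (Or.inl (mixed hm c 1 h1 (by rwa [h11])))
  · left
    have hl : c.Loud := fun T j hT hq => by
      rcases hall T j hT with h | h
      · exact h0 (h.1 hq)
      · exact h1 (h.1 hq)
    exact ⟨cnt.trans (CL.ClassCount.card_eq_one _ _ ((c.orderOf_r_eq_two_iff _).2 rfl)
      fun t ht => Coord.Loud.isConj_of_orderOf c hl ht), fun N _ => Coord.Loud.no_index_two c hl N⟩

end Cfsg.Agent.S3864
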