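import Cfsg.Statements.S3867
import Cfsg.Agent.FGS.SylowNum

set_option autoImplicit false
open Cfsg

namespace Cfsg.Agent.S3867

open CL CL.SN CL.MSS


/-- Let M and N be nontrivial normal subgroups of the finite group G with M ⊓ N trivial, and let p be a prime. Writing n(X) for the number of Sylow p-subgroups of a group X, one has n(G) · n(G/MN) = n(G/M) · n(G/N). -/
theorem result {G : Type*} [Group G] [Finite G] (p : ℕ) [Fact p.Prime] (M N : Subgroup G) [M.Normal] [N.Normal] (hM : M ≠ ⊥) (hN : N ≠ ⊥) (hMN : M ⊓ N = ⊥) : Nat.card (Sylow p G) * Nat.card (Sylow p (G ⧸ (M ⊔ N))) = Nat.card (Sylow p (G ⧸ M)) * Nat.card (Sylow p (G ⧸ N)) := by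
  let P : Sylow p G := default
  set X := Subgroup.normalizer ((P : Subgroup G) : Set G) with hX
  have hp : IsPGroup p ↥(M ⊓ ((P : Subgroup G) ⊔ N)) := by
    have h1 : IsPGroup p (((P : Subgroup G) ⊔ N).map (QuotientGroup.mk' N)) := by
      rw [Subgroup.map_sup, (map_mk'_eq_bot_iff N N).2 le_rfl, sup_bot_eq]
      exact P.isPGroup'.map _
    rw [isPGroup_iff_forall_mem] at h1 ⊢
    rintro x ⟨hxM, hx⟩
    obtain ⟨k, hk⟩ := h1 _ (Subgroup.mem_map_of_mem _ hx)
    refine ⟨k, ?_⟩
    rw [← map_pow, QuotientGroup.mk'_apply, QuotientGroup.eq_one_iff] at hk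
    have : x ^ p ^ k ∈ M ⊓ N := ⟨M.pow_mem hxM _, hk⟩
    rwa [hMN] at this
  have hle : M ⊓ ((P : Subgroup G) ⊔ N) ≤ P :=
    (sylIn_top P).le_of_normalized hp le_top (MSS.le_normalizer_inf Subgroup.le_normalizer_of_normal
      (le_sup_left.trans Subgroup.le_normalizer))
  have key : (X ⊔ N) ⊓ M = X ⊓ M := by
    refine le_antisymm ?_ (inf_le_inf_right M le_sup_left)
    rintro m ⟨hm, hmM⟩
    refine ⟨mem_normalizer_of_cj_le ?_, hmM⟩
    rintro _ ⟨y, hy, rfl⟩
    have h1 : X ⊔ N ≤ Subgroup.normalizer (((P : Subgroup G) ⊔ N : Subgroup G) : Set G) :=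
      sup_le (MSS.le_normalizer_sup le_rfl Subgroup.le_normalizer_of_normal)
        (le_sup_right.trans Subgroup.le_normalizer)
    have h2 : m * y * m⁻¹ * y⁻¹ ∈ M ⊓ ((P : Subgroup G) ⊔ N) := by
      refine ⟨?_, Subgroup.mul_mem _ (conj_mem_of_normalizes h1 hm (Subgroup.mem_sup_left hy))
        (Subgroup.mem_sup_left (P.1.inv_mem hy))⟩
      have := M.mul_mem hmM (Subgroup.Normal.conj_mem inferInstance _ (M.inv_mem hmM) y)
      simpa [mul_assoc] using this
    have := P.1.mul_mem (hle h2) hy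
    simpa using this
  rw [card_sylow_eq_index P, card_sylow_quotient P, card_sylow_quotient P, card_sylow_quotient P,
    ← hX, index_eq_index_sup_mul X M, index_eq_index_sup_mul (X ⊔ N) M,
    ← Subgroup.inf_relIndex_right (X ⊔ N), key, Subgroup.inf_relIndex_right, sup_comm M N,
    ← sup_assoc]
  ring

end Cfsg.Agent.S3867
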