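import Cfsg.Statements.S3881
import Cfsg.Agent.FGS.Metacyclic

set_option autoImplicit false
open Cfsg

namespace Cfsg.Agent.S3881

/-- Let p be an odd prime and G a finite metacyclic p-group (G has a cyclic normal subgroup with cyclic quotient). Suppose G is non-abelian with |G'| = p^n. Then for 1 ≤ i ≤ n the number of elements of G whose conjugacy class has exactly p^i elements is |Z(G)| · (p^(2i) − p^(2i−2)). -/
theorem result {G : Type*} [Group G] [Finite G] {p : ℕ} [Fact p.Prime] (hp : p ≠ 2) (hG : IsPGroup p G) (hmc : Cfsg.IsMetacyclic G) (n : ℕ) (hn : n ≠ 0) (hGn : Nat.card ↥(commutator G) = p ^ n) (i : ℕ) (hi : 1 ≤ i) (hin : i ≤ n) :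
    Nat.card {g : G // (Subgroup.centralizer ({g} : Set G)).index = p ^ i} =
      Nat.card ↥(Subgroup.center G) * (p ^ (2 * i) - p ^ (2 * i - 2)) := by
  have h : CL.MC.OMC p G := ⟨hp, hG, hmc⟩
  have hp1 : 1 < p := (Fact.out : p.Prime).one_lt
  set A := powerClosure p (n - i) (⊤ : Subgroup G)
  set B := powerClosure p (n - i + 1) (⊤ : Subgroup G)
  have hBA : B ≤ A := CL.Reg.powerClosure_anti _ (by omega)
  have e : {g : G | (Subgroup.centralizer ({g} : Set G)).index = p ^ i} = (A : Set G) \ B := by
    ext g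
    simp only [Set.mem_ofPred_eq, Set.mem_diff, SetLike.mem_coe]
    rw [h.mem_powerClosure_iff_index hGn (by omega), h.mem_powerClosure_iff_index hGn (by omega)]
    obtain ⟨k, hk⟩ := hG.index (Subgroup.centralizer ({g} : Set G))
    rw [hk, Nat.pow_le_pow_iff_right hp1, Nat.pow_le_pow_iff_right hp1, Nat.pow_right_inj hp1]
    omega
  have e1 : Nat.card {g : G // (Subgroup.centralizer ({g} : Set G)).index = p ^ i} =
      {g : G | (Subgroup.centralizer ({g} : Set G)).index = p ^ i}.ncard :=
    (Nat.card_coe_set_eq _)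
  rw [e1, e, Set.ncard_diff hBA, ← Nat.card_coe_set_eq, ← Nat.card_coe_set_eq]
  have hA := A.card_mul_index
  have hB := B.card_mul_index
  have hZ := (Subgroup.center G).card_mul_index
  rw [h.index_powerClosure hGn (by omega)] at hA hB
  rw [h.index_center, hGn, ← pow_mul] at hZ
  have hA' : Nat.card A = Nat.card (Subgroup.center G) * p ^ (2 * i) := by
    apply Nat.eq_of_mul_eq_mul_right (pow_pos (by omega : 0 < p) (2 * (n - i)))
    rw [hA, ← hZ, mul_assoc, ← pow_add]
    congr 2; omega
  have hB' : Nat.card B = Nat.card (Subgroup.center G) * p ^ (2 * i - 2) := by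
    apply Nat.eq_of_mul_eq_mul_right (pow_pos (by omega : 0 < p) (2 * (n - i + 1)))
    rw [hB, ← hZ, mul_assoc, ← pow_add]
    congr 2; omega
  rw [Nat.mul_sub]
  exact congrArg₂ _ hA' hB'

end Cfsg.Agent.S3881
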