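import Cfsg.Statements.S3883
import Cfsg.Agent.FGS.Metacyclic

set_option autoImplicit false
open Cfsg

namespace Cfsg.Agent.S3883

/-- Let p be an odd prime and G a finite metacyclic p-group (G has a cyclic normal subgroup with cyclic quotient). Suppose G is non-abelian. Then an element g of G lies outside the Frattini subgroup if and only if its centralizer C_G(g) is abelian. -/
theorem result {G : Type*} [Group G] [Finite G] {p : ℕ} [Fact p.Prime] (hp : p ≠ 2) (hG : IsPGroup p G) (hmc : Cfsg.IsMetacyclic G) (hna : ¬ IsMulCommutative G) (g : G) :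
    g ∉ frattini G ↔ IsMulCommutative ↥(Subgroup.centralizer ({g} : Set G)) := by
  have h : CL.MC.OMC p G := ⟨hp, hG, hmc⟩
  have hp1 : 1 < p := (Fact.out : p.Prime).one_lt
  obtain ⟨n, hn⟩ := CL.PG.card_eq_pow hG (commutator G)
  have hn0 : n ≠ 0 := by
    rintro rfl
    rw [pow_zero, Subgroup.card_eq_one, commutator_eq_bot_iff] at hn
    exact hna hn
  rw [h.frattini_eq, h.mem_powerClosure_iff_index hn (by omega), h.comm_iff_card_le]
  set C := Subgroup.centralizer ({g} : Set G)
  obtain ⟨k, hk⟩ := hG.index C
  have e1 := C.card_mul_index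
  have e2 := (commutator G).card_mul_index
  rw [hk] at e1
  rw [hn] at e2
  rw [hk, Nat.pow_le_pow_iff_right hp1]
  have hpos : 0 < (commutator G).index := Nat.pos_of_ne_zero Subgroup.index_ne_zero_of_finite
  constructor
  · intro hh
    apply Nat.le_of_mul_le_mul_right _ (pow_pos (by omega : 0 < p) k)
    rw [e1, ← e2, mul_comm]
    exact Nat.mul_le_mul_left _ (Nat.pow_le_pow_right (by omega) (by omega))
  · intro hh
    have : (commutator G).index * p ^ n ≤ (commutator G).index * p ^ k := by
      rw [mul_comm, e2, ← e1]
      exact Nat.mul_le_mul_right _ hh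
    have h2 := Nat.le_of_mul_le_mul_left this hpos
    rw [Nat.pow_le_pow_iff_right hp1] at h2
    omega

end Cfsg.Agent.S3883
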