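import Cfsg.Statements.S3886
import Cfsg.Agent.FGS.Metacyclic

set_option autoImplicit false
open Cfsg

namespace Cfsg.Agent.S3886

/-- Let p be an odd prime and G a finite metacyclic p-group (G has a cyclic normal subgroup with cyclic quotient). Then the largest value of |R| · |Z(R)| over subgroups R of G is |G : G'|², and the subgroups attaining it (the centrally large subgroups) are exactly the non-abelian subgroups together with the maximal abelian subgroups of G. -/
theorem result {G : Type*} [Group G] [Finite G] {p : ℕ} [Fact p.Prime] (hp : p ≠ 2) (hG : IsPGroup p G) (hmc : Cfsg.IsMetacyclic G) : Cfsg.maxCentralProduct G = (commutator G).index ^ 2 ∧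
    ∀ R : Subgroup G, Cfsg.IsCentrallyLarge R ↔ (¬ IsMulCommutative ↥R ∨ Maximal (fun K : Subgroup G => IsMulCommutative ↥K) R) := by
  have h : CL.MC.OMC p G := ⟨hp, hG, hmc⟩
  set a := (commutator G).index
  have h1 : ∀ R : Subgroup G, ¬ IsMulCommutative R →
      Nat.card R * Nat.card (Subgroup.center R) = a ^ 2 := by
    intro R hR
    have e1 := (h.card_subgroup R).1 hR
    have e2 := (h.subgroup R).index_center
    rw [← Subgroup.card_map_of_injective R.subtype_injective, Subgroup.map_subtype_commutator] at e2
    have e3 := (Subgroup.center R).card_mul_index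
    rw [e2] at e3
    have hpos : 0 < Nat.card (⁅R, R⁆ : Subgroup G) ^ 2 := pow_pos Nat.card_pos 2
    apply Nat.eq_of_mul_eq_mul_right hpos
    rw [mul_assoc, e3, ← mul_pow, ← e1, sq]
  have h2 : ∀ R : Subgroup G, IsMulCommutative R →
      Nat.card R * Nat.card (Subgroup.center R) = Nat.card R ^ 2 := by
    intro R hR
    have : Subgroup.center R = ⊤ := by
      rw [← commutator_eq_bot_iff_center_eq_top, commutator_eq_bot_iff]; exact hR
    rw [this, Subgroup.card_top, sq]
  have h3 : ∀ R : Subgroup G, Nat.card R * Nat.card (Subgroup.center R) ≤ a ^ 2 := by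
    intro R
    by_cases hR : IsMulCommutative R
    · rw [h2 R hR]
      exact Nat.pow_le_pow_left ((h.comm_iff_card_le R).mp hR) 2
    · exact (h1 R hR).le
  have h4 : maxCentralProduct G = a ^ 2 := by
    obtain ⟨M, -, hM⟩ := Finite.exists_le_maximal (p := fun K : Subgroup G => IsMulCommutative K)
      (a := ⊥) inferInstance
    apply IsGreatest.csSup_eq
    refine ⟨⟨M, ?_⟩, ?_⟩
    · rw [h2 M hM.1, (h.maximal_comm_iff M).mp hM]
    · rintro _ ⟨R, rfl⟩
      exact h3 R
  refine ⟨h4, fun R => ?_⟩
  unfold IsCentrallyLarge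
  rw [h4]
  by_cases hR : IsMulCommutative R
  · rw [h2 R hR, h.maximal_comm_iff, Nat.pow_left_inj two_ne_zero]
    simp [hR, a]
  · simp [hR, h1 R hR]

end Cfsg.Agent.S3886
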