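import Cfsg.Statements.S3887
import Cfsg.Agent.FGS.Metacyclic

set_option autoImplicit false
open Cfsg

namespace Cfsg.Agent.S3887

/-- Let p be an odd prime and G a finite metacyclic p-group (G has a cyclic normal subgroup with cyclic quotient). Then a subgroup R of G maximizes |R| · |C_G(R)| over all subgroups of G if and only if R contains the center of G. -/
theorem result {G : Type*} [Group G] [Finite G] {p : ℕ} [Fact p.Prime] (hp : p ≠ 2) (hG : IsPGroup p G) (hmc : Cfsg.IsMetacyclic G) (R : Subgroup G) : Cfsg.IsCentralizerLarge R ↔ Subgroup.center G ≤ R := by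
  have h : CL.MC.OMC p G := ⟨hp, hG, hmc⟩
  have := h.cyc
  have hc : ∀ S : Subgroup G, Subgroup.centralizer ((S ⊔ Subgroup.center G : Subgroup G) : Set G) =
      Subgroup.centralizer (S : Set G) := by
    intro S
    apply le_antisymm (Subgroup.centralizer_le (le_sup_left : S ≤ S ⊔ Subgroup.center G))
    rw [Subgroup.le_centralizer_iff]
    exact sup_le (Subgroup.le_centralizer_iff.mp le_rfl) (Subgroup.center_le_centralizer _)
  have h1 : ∀ S : Subgroup G, Nat.card ↥(S ⊔ Subgroup.center G) *
      Nat.card (Subgroup.centralizer (S : Set G)) = Nat.card G * Nat.card (Subgroup.center G) := by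
    intro S
    rw [← hc, CL.MC.card_mul_card_centralizer h.wreg _ le_sup_right]
  have h4 : maxCentralizerProduct G = Nat.card G * Nat.card (Subgroup.center G) := by
    apply IsGreatest.csSup_eq
    refine ⟨⟨⊤, CL.MC.card_mul_card_centralizer h.wreg _ le_top⟩, ?_⟩
    rintro _ ⟨S, rfl⟩
    rw [← h1 S]
    exact Nat.mul_le_mul_right _ (Subgroup.card_le_of_le le_sup_left)
  unfold IsCentralizerLarge
  rw [h4]
  constructor
  · intro hR
    rw [← h1 R] at hR
    have := Subgroup.eq_of_le_of_card_ge (le_sup_left : R ≤ R ⊔ Subgroup.center G)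
      (Nat.eq_of_mul_eq_mul_right Nat.card_pos hR).ge
    rw [this]; exact le_sup_right
  · exact CL.MC.card_mul_card_centralizer h.wreg R

end Cfsg.Agent.S3887
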