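import Cfsg.Statements.S3888
import Cfsg.Agent.FGS.Rank2Odd
import Cfsg.Agent.ODD.BG4.Aut
import Cfsg.Agent.ODD.BG4.Metacyclic

set_option autoImplicit false
open Cfsg

namespace Cfsg.Agent.S3888

section
open Subgroup CL CL.R2 CL.Reg
open scoped commutatorElement

variable {G : Type*} [Group G] [Finite G] {p : ℕ} [hp : Fact p.Prime]

theorem zpowers_eq_of_pow_ne {C : Subgroup G} {m : ℕ} (hC : Nat.card C = p ^ (m + 1)) {z : G}
    (hz : z ∈ C) (h : z ^ p ^ m ≠ 1) : zpowers z = C := by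
  refine Subgroup.eq_of_le_of_card_ge (zpowers_le.2 hz) ?_
  have h1 : orderOf z ∣ p ^ (m + 1) := hC ▸ C.orderOf_dvd_natCard hz
  obtain ⟨k, hk, e⟩ := (Nat.dvd_prime_pow hp.out).1 h1
  rw [Nat.card_zpowers, hC, e]
  refine Nat.pow_le_pow_right hp.out.pos ?_
  by_contra hlt
  exact h (orderOf_dvd_iff_pow_eq_one.1 (e ▸ pow_dvd_pow p (by omega)))

omit [Finite G] hp in
theorem conj_pow_eq {x y w : G} (hw : w ∈ center G) (h : x⁻¹ * y * x = y * w) (k : ℕ) :
    (x ^ k)⁻¹ * y * x ^ k = y * w ^ k := by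
  induction k with
  | zero => simp
  | succ k ih =>
    have hc : x⁻¹ * w ^ k * x = w ^ k := by
      rw [mul_assoc, ← mem_center_iff.1 (pow_mem hw k) x]; group
    calc (x ^ (k + 1))⁻¹ * y * x ^ (k + 1) = x⁻¹ * ((x ^ k)⁻¹ * y * x ^ k) * x := by
          rw [pow_succ]; group
      _ = (x⁻¹ * y * x) * (x⁻¹ * w ^ k * x) := by rw [ih]; group
      _ = _ := by rw [h, hc, pow_succ']; group

omit [Finite G] hp in
theorem conj_conj_pow {x y z w : G} {Z : Subgroup G} (hZ : Z ≤ center G) (hw : w ∈ Z)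
    (h : x⁻¹ * y * x = y * w) (h2 : x⁻¹ * z * x = y * z) (k : ℕ) :
    ∃ ζ ∈ Z, (x ^ k)⁻¹ * z * x ^ k = ζ * y ^ k * z := by
  induction k with
  | zero => exact ⟨1, one_mem _, by simp⟩
  | succ k ih =>
    obtain ⟨ζ, hζ, ih⟩ := ih
    refine ⟨ζ * w ^ k, mul_mem hζ (pow_mem hw k), ?_⟩
    have hc : x⁻¹ * ζ * x = ζ := by
      rw [mul_assoc, ← mem_center_iff.1 (hZ hζ) x]; group
    have hy : x⁻¹ * y ^ k * x = w ^ k * y ^ k := by
      have : x⁻¹ * y ^ k * x = (x⁻¹ * y * x) ^ k := by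
        simpa using (conj_pow (a := x⁻¹) (b := y) (i := k)).symm
      rw [this, h, mem_center_iff.1 (hZ hw) y]
      exact Commute.mul_pow (mem_center_iff.1 (hZ hw) y).symm k
    calc (x ^ (k + 1))⁻¹ * z * x ^ (k + 1) = x⁻¹ * ((x ^ k)⁻¹ * z * x ^ k) * x := by
          rw [pow_succ]; group
      _ = (x⁻¹ * ζ * x) * (x⁻¹ * y ^ k * x) * (x⁻¹ * z * x) := by rw [ih]; group
      _ = _ := by rw [hc, hy, h2, pow_succ]; group

theorem types (hp2 : p ≠ 2) (n : ℕ) (hn : Nat.card G = p ^ n) (hrk : Cfsg.PRankLE p 2 G)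
    (E : Subgroup G) [hEn : E.Normal] (hE : Nat.card E = p ^ 3) (hEp : ∀ x ∈ E, x ^ p = 1) :
    (3 ≤ n ∧ ∃ x y z : G, Subgroup.closure ({x, y, z} : Set G) = ⊤ ∧ x ^ p = 1 ∧ y ^ p = 1 ∧ z ^ p ^ (n - 2) = 1 ∧
        x * z = z * x ∧ y * z = z * y ∧ x⁻¹ * y * x = y * z ^ p ^ (n - 3)) ∨
    (4 ≤ n ∧ ∃ (s : ℕ) (x y z : G), (s = 1 ∨ ¬ IsSquare (s : ZMod p)) ∧ Subgroup.closure ({x, y, z} : Set G) = ⊤ ∧
        x ^ p = 1 ∧ y ^ p = 1 ∧ z ^ p ^ (n - 2) = 1 ∧ y * z = z * y ∧ x⁻¹ * y * x = y * z ^ (s * p ^ (n - 3)) ∧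
        x⁻¹ * z * x = y * z) := by
  have hG : IsPGroup p G := IsPGroup.of_card hn
  have hp1 := hp.out.one_lt
  have hp0 := hp.out.pos
  have hna : ¬ IsMulCommutative E := fun hc => by
    have := hrk E hc hEp
    rw [hE, Nat.pow_le_pow_iff_right hp1] at this
    omega
  obtain ⟨hES, hZe, hZ⟩ := BG.p3group_extraspecial hE hna
  set Z := ⁅E, E⁆ with hZdef
  set C := centralizer (E : Set G) with hC
  have hZc : Z ≤ center G := PG.le_center_of_card_le hG Z hZ.le
  have hZE : Z ≤ E := hZe.le.trans inf_le_left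
  have hZC : Z ≤ C := hZe.le.trans inf_le_right
  have hZlt : Z < E := lt_of_le_of_ne hZE fun e => by
    rw [e, hE] at hZ
    exact absurd (Nat.pow_right_injective hp1 (hZ.trans (pow_one p).symm)) (by norm_num)
  obtain ⟨R, hRn, hZR, hRE, hR', hRZ⟩ := PN.exists_normal_between hG Z E hZlt
  have hR : Nat.card R = p ^ 2 := by rw [hR', hZ, pow_two]
  have hRc : IsMulCommutative R := IsPGroup.isMulCommutative_of_card_eq_prime_sq hR
  set D := centralizer (R : Set G) with hD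
  have hRD : R ≤ D := le_centralizer R
  have hCD : C ≤ D := centralizer_le hRE
  have hDR : ∀ x ∈ D, x ^ p = 1 → x ∈ R := by
    intro x hx hxp
    have hc := PG.isMulCommutative_sup_zpowers hRc hx
    have h1 := hrk _ hc fun a ha => PG.pow_eq_one_of_mem_sup hc (fun r hr => hEp r (hRE hr))
      (fun r hr => PG.pow_eq_one_of_mem_zpowers hxp hr) ha
    have h2 : R = R ⊔ zpowers x := Subgroup.eq_of_le_of_card_ge le_sup_left (hR ▸ h1)
    rw [h2]; exact mem_sup_right (mem_zpowers x)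
  have hCZ : ∀ x ∈ C, x ^ p = 1 → x ∈ Z := fun x hx hxp =>
    hZe.ge ⟨hRE (hDR x (hCD hx) hxp), hx⟩
  have hCcyc : IsCyclic C := BG.isCyclic_of_card_Ohm1_le (hG.to_subgroup C)
    (BG.odd_card_of_isPGroup hp2 (hG.to_subgroup C))
    ((Subgroup.card_le_of_le (Th.omegaOne_le_iff.2 hCZ)).trans hZ.le)
  have hEx : ∀ x ∈ E, x ∉ R → R ⊔ zpowers x = E := fun x hx hxR =>
    PG.sup_zpowers_eq_of_card hp.out hRE (by rw [hE, hR]; ring) hx hxR
  have hRy : ∀ y ∈ R, y ∉ Z → Z ⊔ zpowers y = R := fun y hy hyZ =>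
    PG.sup_zpowers_eq_of_card hp.out hZR hR' hy hyZ
  have hZltR : Z < R := lt_of_le_of_ne hZR fun e => by
    rw [← e] at hR'
    nlinarith
  have hRltE : R < E := lt_of_le_of_ne hRE fun e => hna (e ▸ hRc)
  have hCx : ∀ x ∈ E, x ∉ R → ∀ d ∈ D, d * x = x * d → d ∈ C := by
    intro x hx hxR d hd hdx
    rw [hC, ← hEx x hx hxR, PG.centralizer_sup_zpowers]
    exact ⟨hd, mem_centralizer_singleton_iff.2 hdx⟩
  have hw : ∀ x ∈ E, x ∉ R → ∀ y ∈ R, y ∉ Z → ∃ w ∈ Z, w ≠ 1 ∧ x⁻¹ * y * x = y * w := by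
    intro x hx hxR y hy hyZ
    refine ⟨⁅y⁻¹, x⁻¹⁆, commutator_mem_commutator (inv_mem (hRE hy)) (inv_mem hx), ?_,
      by rw [commutatorElement_def]; group⟩
    intro h1
    rw [commutatorElement_eq_one_iff_commute, Commute.inv_inv_iff] at h1
    exact hyZ (hZe.ge ⟨hRE hy, hCx x hx hxR y (hRD hy) h1⟩)
  have hZgen : ∀ c ∈ C, c ^ p = 1 → c ≠ 1 → ∀ w ∈ Z, ∃ s : ℕ, w = c ^ s := by
    intro c hc hcp hc1 w hw
    have h1 : zpowers c = Z :=
      zpowers_eq_of_pow_ne (m := 0) (by simpa using hZ) (hCZ c hc hcp) (by simpa using hc1)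
    rw [← h1, ← mem_powers_iff_mem_zpowers] at hw
    obtain ⟨s, hs⟩ := hw
    exact ⟨s, hs.symm⟩
  have hEC : Nat.card (E ⊔ C : Subgroup G) = p ^ 2 * Nat.card C := by
    have := PN.card_sup_mul_card_inf (H := E) (K := C) le_normalizer_of_normal
    rw [← hZe, hZ, hE, show p ^ 3 * Nat.card C = p ^ 2 * Nat.card C * p by ring] at this
    exact Nat.eq_of_mul_eq_mul_right hp0 this
  obtain ⟨m', hm'⟩ := PG.card_eq_pow hG C
  obtain ⟨m, rfl⟩ : ∃ m, m' = m + 1 := by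
    refine ⟨m' - 1, ?_⟩
    have := Subgroup.card_le_of_le hZC
    rw [hZ, hm'] at this
    have : 1 ≤ m' := (Nat.pow_le_pow_iff_right hp1).1 (by simpa using this)
    omega
  obtain ⟨c, hc⟩ := MC.exists_eq_zpowers C
  have hcC : c ∈ C := hc ▸ mem_zpowers c
  have hco : orderOf c = p ^ (m + 1) := by rw [← Nat.card_zpowers, ← hc, hm']
  have hc1 : c ^ p ^ m ≠ 1 := fun h => by
    have := (MC.pow_eq_one_iff_of_orderOf hco).1 h
    omega
  have hCp : ∀ z ∈ C, z ^ p ^ (m + 1) = 1 := fun z hz =>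
    orderOf_dvd_iff_pow_eq_one.1 (hm' ▸ C.orderOf_dvd_natCard hz)
  have hgen : ∀ x ∈ E, x ∉ R → ∀ y ∈ R, y ∉ Z → ∀ T : Subgroup G, x ∈ T → y ∈ T → C ≤ T →
      E ≤ T := by
    intro x hx hxR y hy hyZ T h1 h2 h3
    rw [← hEx x hx hxR, ← hRy y hy hyZ]
    exact sup_le (sup_le (hZC.trans h3) (zpowers_le.2 h2)) (zpowers_le.2 h1)
  obtain ⟨x, hx, hxR⟩ := SetLike.exists_of_lt hRltE
  set K := MaxCl.cs E Z with hK
  have hKEC : E ⊔ C = K := by
    have h1 : E ≤ K := MaxCl.le_cs_iff.2 le_rfl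
    have h2 : C ≤ K := MaxCl.le_cs_iff.2 (by
      rw [commutator_eq_bot_iff_le_centralizer.2 le_rfl]; exact bot_le)
    have := (BG.critical_extraspecial (hG.to_subgroup K) h1 hES
      (by rw [commutator_comm]; exact MaxCl.le_cs_iff.1 le_rfl)).1
    rwa [inf_eq_right.2 h2] at this
  by_cases htop : K = ⊤
  · left
    have hnm : n = m + 3 := by
      rw [hKEC, htop, card_top, hn, hm', ← pow_add] at hEC
      have := Nat.pow_right_injective hp1 hEC
      omega
    subst hnm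
    obtain ⟨y, hy, hyZ⟩ := SetLike.exists_of_lt hZltR
    obtain ⟨w, hwZ, hw1, hw⟩ := hw x hx hxR y hy hyZ
    obtain ⟨s, hs⟩ := hZgen (c ^ p ^ m) (pow_mem hcC _) (by rw [← pow_mul, ← pow_succ, hCp c hcC])
      hc1 w hwZ
    have hs' : w = (c ^ s) ^ p ^ m := by rw [hs, ← pow_mul, ← pow_mul, mul_comm]
    have hz : c ^ s ∈ C := pow_mem hcC s
    refine ⟨by omega, x, y, c ^ s, ?_, hEp x hx, hEp y (hRE hy), hCp _ hz, hz x hx,
      hz y (hRE hy), by rw [hw, hs']; rfl⟩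
    have h3 : C ≤ closure ({x, y, c ^ s} : Set G) := by
      rw [← zpowers_eq_of_pow_ne hm' hz (hs' ▸ hw1)]
      exact zpowers_le.2 (subset_closure (by simp))
    rw [eq_top_iff, ← htop, ← hKEC]
    exact sup_le (hgen x hx hxR y hy hyZ _ (subset_closure (by simp)) (subset_closure (by simp)) h3)
      h3
  right
  have index_eq : ∀ H : Subgroup G, H.index ≤ p → H ≠ ⊤ → H.index = p := by
    intro H h1 h2
    obtain ⟨k, hk⟩ := IsPGroup.index hG H
    have hk0 : k ≠ 0 := by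
      rintro rfl
      exact h2 (index_eq_one.1 (hk.trans (pow_zero p)))
    rw [hk] at h1 ⊢
    have : k ≤ 1 := (Nat.pow_le_pow_iff_right hp1).1 (by simpa using h1)
    rw [show k = 1 by omega, pow_one]
  have hKi : K.index = p := by
    refine index_eq K ?_ htop
    haveI : (E.map (QuotientGroup.mk' Z)).Normal := hEn.map _ (QuotientGroup.mk'_surjective Z)
    have h1 := PG.index_centralizer_le (hG.to_quotient Z) (E.map (QuotientGroup.mk' Z)) (by
      have := PN.card_eq_mul_card_map_mk' Z E hZE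
      rw [hE, hZ, pow_succ'] at this
      exact (Nat.eq_of_mul_eq_mul_left hp0 this).ge)
    rwa [← index_comap_of_surjective _ (QuotientGroup.mk'_surjective Z),
      ← MaxCl.cs_eq_comap] at h1
  have hnm : n = m + 4 := by
    have := K.card_mul_index
    rw [hKi, ← hKEC, hEC, hn, hm', ← pow_add, ← pow_succ] at this
    have := Nat.pow_right_injective hp1 this
    omega
  subst hnm
  have hxD : x ∉ D := fun hh => hxR (hDR x hh (hEp x hx))
  have hDi : D.index = p := index_eq D (PG.index_centralizer_le hG R hR.le)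
    fun e => hxD (e ▸ mem_top x)
  have hDc : Nat.card D = p ^ (m + 3) := by
    have := D.card_mul_index
    rw [hDi, hn, show m + 4 = m + 3 + 1 from rfl, pow_succ] at this
    exact Nat.eq_of_mul_eq_mul_right hp0 this
  have hconj : ∀ d ∈ D, ∀ e ∈ E, e⁻¹ * d * e * d⁻¹ ∈ R := by
    intro d hd e he
    have h1 : e⁻¹ * d * e * d⁻¹ ∈ E := by
      rw [mul_assoc, mul_assoc, ← mul_assoc d]
      exact mul_mem (inv_mem he) (hEn.conj_mem e he d)
    have h2 : e⁻¹ * d * e * d⁻¹ ∈ D :=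
      mul_mem ((inferInstance : D.Normal).conj_mem' d hd e) (inv_mem hd)
    exact hDR _ h2 (hEp _ h1)
  have hpowC : ∀ d ∈ D, d ^ p ∈ C := by
    intro d hd
    refine hCx x hx hxR _ (pow_mem hd p) ?_
    have hr := hconj d hd x hx
    have hcm : Commute (x⁻¹ * d * x * d⁻¹) d := hd _ hr
    have h1 : x⁻¹ * d ^ p * x = d ^ p := by
      have : x⁻¹ * d ^ p * x = (x⁻¹ * d * x * d⁻¹ * d) ^ p := by
        simpa using (conj_pow (a := x⁻¹) (b := d) (i := p)).symm
      rw [this, hcm.mul_pow, hEp _ (hRE hr), one_mul]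
    calc d ^ p * x = x * (x⁻¹ * d ^ p * x) := by group
      _ = x * d ^ p := by rw [h1]
  have hPC : PC p D := fun d hd => by
    rw [mem_center_iff]
    intro g
    exact Subtype.ext (g.2 _ (hDR d d.2 (by simpa using congrArg Subtype.val hd))).symm
  have hidx := hPC.index_le hp2 (hG.to_subgroup D)
  have hoz : Nat.card (oz p D) ≤ p ^ 2 := by
    rw [← hR, ← card_map_of_injective D.subtype_injective]
    refine Subgroup.card_le_of_le ?_
    rintro _ ⟨d, hd, rfl⟩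
    exact hDR d d.2 (by simpa using congrArg Subtype.val hd.2)
  have hex : ∃ z ∈ D, (z ^ p) ^ p ^ m ≠ 1 := by
    by_contra hno
    push Not at hno
    have h1 : powerClosure p 1 D ≤ zpowers (c ^ p) := by
      rw [powerClosure_le_iff]
      intro d hd
      rw [pow_one]
      have h2 := hpowC d hd
      rw [hc, ← mem_powers_iff_mem_zpowers] at h2
      obtain ⟨j, hj⟩ := h2
      have h3 := hno d hd
      simp only at hj
      rw [← hj, ← pow_mul, ← orderOf_dvd_iff_pow_eq_one, hco, pow_succ'] at h3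
      obtain ⟨i, rfl⟩ := Nat.dvd_of_mul_dvd_mul_right (pow_pos hp0 m) h3
      rw [← hj, pow_mul]
      exact pow_mem (mem_zpowers _) _
    have h2 := Subgroup.card_le_of_le h1
    have h3 : orderOf (c ^ p) = p ^ m := by
      rw [orderOf_pow' c hp.out.ne_zero, hco, Nat.gcd_eq_right (dvd_pow_self p (by omega)),
        pow_succ, Nat.mul_div_cancel _ hp0]
    have h4 : (powerClosure p 1 (⊤ : Subgroup D)).map D.subtype = powerClosure p 1 D := by
      rw [map_powerClosure, ← MonoidHom.range_eq_map, range_subtype]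
    rw [Nat.card_zpowers, h3, ← h4, card_map_of_injective D.subtype_injective] at h2
    have h5 := (powerClosure p 1 (⊤ : Subgroup D)).card_mul_index
    have h6 := Nat.mul_le_mul h2 (hidx.trans hoz)
    rw [h5, hDc, ← pow_add, Nat.pow_le_pow_iff_right hp1] at h6
    omega
  obtain ⟨z, hzD, hz⟩ := hex
  have hzC : zpowers (z ^ p) = C := zpowers_eq_of_pow_ne hm' (hpowC z hzD) hz
  have hzK : z ∉ K := by
    intro hzK
    rw [← hKEC] at hzK
    have : z ∈ ((E ⊔ C : Subgroup G) : Set G) := hzK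
    rw [normal_mul] at this
    obtain ⟨e, he, d, hd, rfl⟩ := this
    apply hz
    have hcm : Commute e d := hd e he
    show ((e * d) ^ p) ^ p ^ m = 1
    rw [hcm.mul_pow, hEp e he, one_mul, ← pow_mul, ← pow_succ', hCp d hd]
  have hKc := PG.isCoatom_of_index_eq_prime hp.out hKi
  have hKz : K ⊔ zpowers z = ⊤ :=
    hKc.2 _ (lt_of_le_not_ge le_sup_left fun hh => hzK (hh (mem_sup_right (mem_zpowers z))))
  have hyZ : ∀ x ∈ E, x ∉ R → x⁻¹ * z * x * z⁻¹ ∉ Z := by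
    intro x hx hxR hy
    apply hzK
    have h1 : E ≤ MaxCl.cm z Z := by
      refine (hEx x hx hxR).ge.trans (sup_le (fun r hr => MaxCl.mem_cm'.2
        (hRZ (commutator_mem_commutator hr (mem_top z)))) ?_)
      rw [← zpowers_inv, zpowers_le, MaxCl.mem_cm']
      simpa [commutatorElement_def] using hy
    exact MaxCl.mem_cs.2 fun e he => MaxCl.mem_cm.1 (h1 he)
  have hz1 : z ^ p ^ (m + 1) ≠ 1 := by rwa [pow_succ', pow_mul]
  have hz2 : z ^ p ^ (m + 2) = 1 := by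
    rw [pow_succ' p (m + 1), pow_mul]; exact hCp _ (hpowC z hzD)
  have hzz : z ^ p ^ (m + 1) ∈ C := by rw [pow_succ', pow_mul]; exact pow_mem (hpowC z hzD) _
  have hzzp : (z ^ p ^ (m + 1)) ^ p = 1 := by rw [← pow_mul, ← pow_succ, hz2]
  have fin : ∀ x ∈ E, x ∉ R → ∀ s : ℕ, (s = 1 ∨ ¬ IsSquare (s : ZMod p)) →
      x⁻¹ * (x⁻¹ * z * x * z⁻¹) * x = (x⁻¹ * z * x * z⁻¹) * (z ^ p ^ (m + 1)) ^ s →
      (4 ≤ m + 4 ∧ ∃ (s : ℕ) (x y z : G), (s = 1 ∨ ¬ IsSquare (s : ZMod p)) ∧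
        Subgroup.closure ({x, y, z} : Set G) = ⊤ ∧
        x ^ p = 1 ∧ y ^ p = 1 ∧ z ^ p ^ (m + 4 - 2) = 1 ∧ y * z = z * y ∧
        x⁻¹ * y * x = y * z ^ (s * p ^ (m + 4 - 3)) ∧ x⁻¹ * z * x = y * z) := by
    intro x hx hxR s hs h
    have hy := hconj z hzD x hx
    refine ⟨by omega, s, x, _, z, hs, ?_, hEp x hx, hEp _ (hRE hy), hz2, hzD _ hy, ?_, by group⟩
    · have h3 : zpowers z ≤ closure ({x, x⁻¹ * z * x * z⁻¹, z} : Set G) :=
        zpowers_le.2 (subset_closure (by simp))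
      have h4 : C ≤ closure ({x, x⁻¹ * z * x * z⁻¹, z} : Set G) := by
        rw [← hzC]
        exact (zpowers_le.2 (pow_mem (mem_zpowers z) p)).trans h3
      rw [eq_top_iff, ← hKz, ← hKEC]
      exact sup_le (sup_le (hgen x hx hxR _ hy (hyZ x hx hxR) _ (subset_closure (by simp))
        (subset_closure (by simp)) h4) h4) h3
    · rw [h, ← pow_mul, mul_comm (p ^ (m + 1)) s]; rfl
  obtain ⟨w, hwZ, hw1, hw⟩ := hw x hx hxR _ (hconj z hzD x hx) (hyZ x hx hxR)
  obtain ⟨s, hs⟩ := hZgen _ hzz hzzp hz1 w hwZ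
  by_cases hsq : IsSquare (s : ZMod p)
  swap
  · exact fin x hx hxR s (Or.inr hsq) (by rw [hw, hs])
  obtain ⟨t, ht⟩ := hsq
  have hs0 : (s : ZMod p) ≠ 0 := by
    intro h0
    obtain ⟨j, rfl⟩ := (ZMod.natCast_eq_zero_iff _ _).1 h0
    exact hw1 (by rw [hs, pow_mul, hzzp, one_pow])
  have ht0 : t ≠ 0 := by rintro rfl; exact hs0 (by simpa using ht)
  set k := (t⁻¹).val with hk
  have hkt : (k : ZMod p) = t⁻¹ := ZMod.natCast_zmod_val _
  have hmod : s * (k * k) ≡ 1 [MOD p] := by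
    rw [← ZMod.natCast_eq_natCast_iff]
    push_cast
    rw [hkt, ht]; field_simp
  have hkp : ¬ p ∣ k := fun h => by
    have := (ZMod.natCast_eq_zero_iff k p).2 h
    rw [hkt] at this
    exact inv_ne_zero ht0 this
  have hxk : x ^ k ∉ R := by
    intro hh
    apply hxR
    have hx1 : x ≠ 1 := fun e => hxR (e ▸ one_mem _)
    have hox : orderOf x = p := orderOf_eq_prime (hEp x hx) hx1
    obtain ⟨j, hj⟩ := exists_pow_eq_self_of_coprime (x := x) (n := k)
      (by rw [hox]; exact ((Nat.Prime.coprime_iff_not_dvd hp.out).2 hkp).symm)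
    rw [← hj]; exact pow_mem hh j
  refine fin (x ^ k) (pow_mem hx k) hxk 1 (Or.inl rfl) ?_
  set y := x⁻¹ * z * x * z⁻¹ with hy
  obtain ⟨ζ, hζ, e⟩ := conj_conj_pow hZc hwZ hw (z := z) (by rw [hy]; group) k
  have e1 : (x ^ k)⁻¹ * z * x ^ k * z⁻¹ = ζ * y ^ k := by rw [e]; group
  have e2 := conj_pow_eq (hZc hwZ) hw k
  have e3 : (x ^ k)⁻¹ * y ^ k * x ^ k = y ^ k * (w ^ k) ^ k := by
    have : (x ^ k)⁻¹ * y ^ k * x ^ k = ((x ^ k)⁻¹ * y * x ^ k) ^ k := by
      simpa using (conj_pow (a := (x ^ k)⁻¹) (b := y) (i := k)).symm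
    rw [this, e2]
    exact Commute.mul_pow (mem_center_iff.1 (hZc (pow_mem hwZ k)) y) k
  have e4 : (w ^ k) ^ k = (z ^ p ^ (m + 1)) ^ 1 := by
    rw [hs, ← pow_mul, ← pow_mul, pow_eq_pow_iff_modEq, orderOf_eq_prime hzzp hz1]
    exact hmod
  have e5 : (x ^ k)⁻¹ * ζ = ζ * (x ^ k)⁻¹ := mem_center_iff.1 (hZc hζ) _
  rw [e1, ← e4, ← mul_assoc, e5, mul_assoc ζ, mul_assoc ζ, e3, mul_assoc]

end

open CL


/-- The classification of the p-groups of rank at most two for odd p. Let p be an odd prime and G a group of order p^n with no elementary abelian subgroup of order p³. Then one of the following holds: G is metacyclic; n ≥ 3 and G is generated by elements x, y, z with x^p = y^p = z^(p^(n−2)) = 1, z commuting with x and y, and x⁻¹yx = y z^(p^(n−3)); n ≥ 4 and G is generated by elements x, y, z with x^p = y^p = z^(p^(n−2)) = 1, yz = zy, x⁻¹yx = y z^(s p^(n−3)) and x⁻¹zx = yz, where s = 1 or s is a quadratic non-residue modulo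 p; or p = 3 and G has maximal class (nilpotency class n − 1). -/
theorem result {G : Type*} [Group G] [Finite G] {p : ℕ} [Fact p.Prime] (hp : p ≠ 2) (n : ℕ) (hG : Nat.card G = p ^ n)
    (hrk : Cfsg.PRankLE p 2 G) :
    Cfsg.IsMetacyclic G ∨
    (3 ≤ n ∧ ∃ x y z : G, Subgroup.closure ({x, y, z} : Set G) = ⊤ ∧ x ^ p = 1 ∧ y ^ p = 1 ∧ z ^ p ^ (n - 2) = 1 ∧
        x * z = z * x ∧ y * z = z * y ∧ x⁻¹ * y * x = y * z ^ p ^ (n - 3)) ∨
    (4 ≤ n ∧ ∃ (s : ℕ) (x y z : G), (s = 1 ∨ ¬ IsSquare (s : ZMod p)) ∧ Subgroup.closure ({x, y, z} : Set G) = ⊤ ∧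
        x ^ p = 1 ∧ y ^ p = 1 ∧ z ^ p ^ (n - 2) = 1 ∧ y * z = z * y ∧ x⁻¹ * y * x = y * z ^ (s * p ^ (n - 3)) ∧
        x⁻¹ * z * x = y * z) ∨
    (p = 3 ∧ 2 ≤ n ∧ (⊤ : Subgroup G).lowerCentralSeries (n - 2) ≠ ⊥) := by
  have hG' : IsPGroup p G := IsPGroup.of_card hG
  have hp1 : 1 < p := (Fact.out : p.Prime).one_lt
  by_cases hne : R2.NE p G
  · by_cases h3 : p = 3
    · rcases hne.cases hp hG' with h | ⟨m, h4, h⟩
      · exact Or.inl h
      · have : m = n := Nat.pow_right_injective hp1 (h.card.symm.trans hG)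
        subst this
        refine Or.inr (Or.inr (Or.inr ⟨h3, by omega, ?_⟩))
        have := h.ne_bot
        rwa [MaxCl.P_eq_lcs (by omega), show m - 1 - 1 = m - 2 by omega] at this
    · left
      have h3' : 3 < p := by
        have := (Fact.out : p.Prime).two_le
        omega
      haveI := Th.omegaOne_normal (p := p) (⊤ : Subgroup G)
      refine BG.Sec4.p2_Ohm1_metacyclic' h3' G hG' (hne _ inferInstance fun x hx => ?_)
      rw [BG.Sec4.omegaOne_top_eq] at hx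
      exact PG.pow_eq_one_of_rank_two h3' hG' (fun E hE => hrk E hE.1 hE.2) hx
  · unfold R2.NE at hne
    push Not at hne
    obtain ⟨N, hN, hNp, hNc⟩ := hne
    obtain ⟨k, hk⟩ := PG.card_eq_pow hG' N
    have h3 : p ^ 3 ≤ Nat.card N := by
      rw [hk] at hNc ⊢
      rw [Nat.pow_lt_pow_iff_right hp1] at hNc
      exact Nat.pow_le_pow_right (by omega) hNc
    obtain ⟨E, hEn, hEN, hE⟩ := PN.exists_normal_le_card_eq hG' N 3 h3
    rcases types hp n hG hrk E hE (fun x hx => hNp x (hEN hx)) with h | h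
    · exact Or.inr (Or.inl h)
    · exact Or.inr (Or.inr (Or.inl h))

end Cfsg.Agent.S3888
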