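import Cfsg.Statements.S3895
import Cfsg.Agent.FGS.PiClass2

set_option autoImplicit false
open Cfsg

namespace Cfsg.Agent.S3895

open CL CL.PiCl Subgroup

/-- Let G be a finite group with Sylow 2-subgroup P, and write k₂(G) for the number of conjugacy classes of G consisting of 2-elements (elements of 2-power order, the identity included). Then k₂(G) > |P|/2 if and only if G has a normal 2-complement and P has more than |P|/2 conjugacy classes. -/
theorem result {G : Type*} [Group G] [Finite G] (P : Sylow 2 G) :
    Nat.card ↥(P : Subgroup G) < 2 * Nat.card {c : ConjClasses G // ∀ x ∈ c.carrier, ∃ k : ℕ, orderOf x = 2 ^ k} ↔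
      Cfsg.HasNormalPComplement 2 G ∧ Nat.card ↥(P : Subgroup G) < 2 * Nat.card (ConjClasses ↥(P : Subgroup G)) := by
  constructor
  · intro h
    exact ⟨hasNPC_two_of_lt P h, h.trans_le (Nat.mul_le_mul_left _ (kq_le_card_conjClasses P))⟩
  · rintro ⟨h1, h2⟩
    exact h2.trans_le (Nat.mul_le_mul_left _ (card_conjClasses_le_kq h1 P))

end Cfsg.Agent.S3895
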