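import Cfsg.Statements.S3897
import Cfsg.Agent.FGS.PiClass2

set_option autoImplicit false
open Cfsg

namespace Cfsg.Agent.S3897

open CL CL.PiCl Subgroup

/-- Let p be an odd prime and G a finite group with Sylow p-subgroup P, and write k_p(G) for the number of conjugacy classes of G consisting of p-elements (elements of p-power order, the identity included). Then k_p(G) > (p + 1)|P|/(2p) if and only if G has a normal p-complement and P is abelian. -/
theorem result {G : Type*} [Group G] [Finite G] {p : ℕ} [Fact p.Prime] (hp : p ≠ 2) (P : Sylow p G) :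
    (p + 1) * Nat.card ↥(P : Subgroup G) < 2 * p * Nat.card {c : ConjClasses G // ∀ x ∈ c.carrier, ∃ k : ℕ, orderOf x = p ^ k} ↔
      Cfsg.HasNormalPComplement p G ∧ IsMulCommutative ↥(P : Subgroup G) := by
  constructor
  · intro h
    have h1 := normalizer_le_centralizer_of_lt P h
    exact ⟨hasNPC_of_normalizer_le_centralizer P h1, comm_of_le_centralizer (le_normalizer.trans h1)⟩
  · rintro ⟨h1, h2⟩
    have h3 := card_conjClasses_le_kq h1 P
    rw [card_conjClasses_of_comm _ h2] at h3
    have h4 := (Fact.out : p.Prime).one_lt
    calc (p + 1) * Nat.card (P : Subgroup G) < 2 * p * Nat.card (P : Subgroup G) :=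
          Nat.mul_lt_mul_of_pos_right (by omega) Nat.card_pos
      _ ≤ _ := Nat.mul_le_mul_left _ h3

end Cfsg.Agent.S3897
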