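import Cfsg.Statements.S3898
import Cfsg.Agent.FGS.PiClass2

set_option autoImplicit false
open Cfsg

namespace Cfsg.Agent.S3898

open CL CL.PiCl Subgroup

/-- Let π be a finite set of primes containing 2 and G a finite group. Write k_π(G) for the number of conjugacy classes of G consisting of π-elements (elements all of whose order's prime divisors lie in π) and |G|_π for the π-part of the order of G. If k_π(G) > |G|_π/2, then G has a normal π-complement (a normal subgroup of order prime to π whose index is a π-number) and an abelian Hall subgroup for the set of odd primes in π. -/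
theorem result {G : Type*} [Group G] [Finite G] (π : Finset ℕ) (hπ : ∀ r ∈ π, r.Prime) (h2 : 2 ∈ π)
    (hk : π.prod (fun r => r ^ (Nat.card G).factorization r) < 2 * Nat.card {c : ConjClasses G // ∀ x ∈ c.carrier, ∀ r : ℕ, r.Prime → r ∣ orderOf x → r ∈ π}) :
    (∃ N : Subgroup G, N.Normal ∧ (∀ r : ℕ, r.Prime → r ∣ Nat.card ↥N → r ∉ π) ∧ ∀ r : ℕ, r.Prime → r ∣ N.index → r ∈ π) ∧ ∃ H : Subgroup G, Cfsg.IsPiHall ((↑π : Set ℕ) \ {2}) H ∧ IsMulCommutative ↥H := by
  have hk' : 1 * π.prod (fun r => r ^ (Nat.card G).factorization r) <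
      2 * kq G (fun x => IsPiNum π (orderOf x)) := by rw [one_mul]; exact hk
  have hnpc : HasNormalPComplement 2 G := by
    have h1 := lt_kq_of_subset (σ := {2}) hπ (Finset.singleton_subset_iff.2 h2) hk'
    let P : Sylow 2 G := default
    rw [Finset.prod_singleton, Finset.coe_singleton, kq_singleton Nat.prime_two,
      ← Sylow.card_eq_multiplicity P, one_mul] at h1
    exact hasNPC_two_of_lt P h1
  have key : ∀ q ∈ (π : Set ℕ) \ {2}, q.Prime ∧ HasNormalPComplement q G ∧
      ∃ P : Sylow q G, IsMulCommutative (P : Subgroup G) := by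
    intro q hq
    have hq' := hπ q hq.1
    have := Fact.mk hq'
    have h1 := lt_kq_of_subset (σ := {q}) hπ (Finset.singleton_subset_iff.2 hq.1) hk'
    rw [Finset.prod_singleton, Finset.coe_singleton, kq_singleton hq', one_mul] at h1
    have h3 := lt_kq_of_subset (σ := {2, q}) hπ
      (Finset.insert_subset h2 (Finset.singleton_subset_iff.2 hq.1)) hk'
    rw [Finset.prod_pair (Ne.symm hq.2), Finset.coe_pair, one_mul] at h3
    obtain ⟨P, hP⟩ := exists_normalizer_le_centralizer hq.2 hnpc h1 h3
    exact ⟨hq', hasNPC_of_normalizer_le_centralizer P hP, P,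
      comm_of_le_centralizer (le_normalizer.trans hP)⟩
  obtain ⟨N, h1, h3, h4, -⟩ := exists_normal_of_forall_hasNPC (G := G) (π : Set ℕ) fun q hq => by
    by_cases h : q = 2
    · subst h
      exact ⟨Nat.prime_two, hnpc⟩
    · exact ⟨(key q ⟨hq, h⟩).1, (key q ⟨hq, h⟩).2.1⟩
  exact ⟨⟨N, h1, h3, h4⟩, exists_hall_comm _ key⟩

end Cfsg.Agent.S3898
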