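import Cfsg.Statements.S3899
import Cfsg.Agent.FGS.PiClass2

set_option autoImplicit false
open Cfsg

namespace Cfsg.Agent.S3899

open CL CL.PiCl Subgroup

/-- Let π be a finite non-empty set of odd primes with smallest member p and G a finite group. Write k_π(G) for the number of conjugacy classes of G consisting of π-elements (elements all of whose order's prime divisors lie in π) and |G|_π for the π-part of the order of G. If k_π(G) > (p + 1)|G|_π/(2p), then G has a normal π-complement (a normal subgroup of order prime to π whose index is a π-number) and an abelian Hall π-subgroup. -/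
theorem result {G : Type*} [Group G] [Finite G] (π : Finset ℕ) (hπ : ∀ r ∈ π, r.Prime) (h2 : 2 ∉ π) (p : ℕ) (hp : p ∈ π)
    (hmin : ∀ r ∈ π, p ≤ r) (hk : (p + 1) * π.prod (fun r => r ^ (Nat.card G).factorization r) < 2 * p * Nat.card {c : ConjClasses G // ∀ x ∈ c.carrier, ∀ r : ℕ, r.Prime → r ∣ orderOf x → r ∈ π}) :
    (∃ N : Subgroup G, N.Normal ∧ (∀ r : ℕ, r.Prime → r ∣ Nat.card ↥N → r ∉ π) ∧ ∀ r : ℕ, r.Prime → r ∣ N.index → r ∈ π) ∧ ∃ H : Subgroup G, Cfsg.IsPiHall (↑π : Set ℕ) H ∧ IsMulCommutative ↥H := by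
  have key : ∀ q ∈ (π : Set ℕ), q.Prime ∧ HasNormalPComplement q G ∧
      ∃ P : Sylow q G, IsMulCommutative (P : Subgroup G) := by
    intro q hq
    have hq' := hπ q hq
    have := Fact.mk hq'
    have h1 := lt_kq_of_subset (σ := {q}) hπ (Finset.singleton_subset_iff.2 hq) hk
    let P : Sylow q G := default
    rw [Finset.prod_singleton, Finset.coe_singleton, kq_singleton hq',
      ← Sylow.card_eq_multiplicity P] at h1
    have h3 := normalizer_le_centralizer_of_lt P (by
      have h4 := hmin q hq
      have h5 := (hπ p hp).pos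
      refine Nat.lt_of_mul_lt_mul_left (a := p) ?_
      have h6 := Nat.mul_lt_mul_of_pos_left h1 hq'.pos
      have h7 := Nat.mul_le_mul_right (Nat.card P) h4
      nlinarith)
    exact ⟨hq', hasNPC_of_normalizer_le_centralizer P h3, P,
      comm_of_le_centralizer (le_normalizer.trans h3)⟩
  obtain ⟨N, h1, h3, h4, -⟩ := exists_normal_of_forall_hasNPC (π : Set ℕ)
    fun q hq => ⟨(key q hq).1, (key q hq).2.1⟩
  exact ⟨⟨N, h1, h3, h4⟩, exists_hall_comm _ key⟩

end Cfsg.Agent.S3899
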