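import Cfsg.Statements.S3901
import Cfsg.Agent.SOLV.FrobeniusNil
import Cfsg.Agent.SOLV.HallConverse
import Cfsg.Agent.SOLV.Glauberman
import Cfsg.Agent.SOLV.CoprimeSylow
import Cfsg.Agent.FGS.NilpBasic
import Cfsg.Agent.CHAR.Burnside
import Cfsg.Agent.S0071
import Cfsg.Agent.S0205

set_option autoImplicit false
open Cfsg
open Subgroup

namespace Cfsg.Agent.S3901

theorem not_pp {p q n : ℕ} (hp : p.Prime) (hq : q.Prime) (hpq : p ≠ q) (h1 : p ∣ n) (h2 : q ∣ n) :
    ¬ IsPrimePow n := by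
  intro h
  obtain ⟨r, k, hr, -, rfl⟩ := (isPrimePow_nat_iff _).1 h
  exact hpq (((Nat.prime_dvd_prime_iff_eq hp hr).1 (hp.dvd_of_dvd_pow h1)).trans
    ((Nat.prime_dvd_prime_iff_eq hq hr).1 (hq.dvd_of_dvd_pow h2)).symm)

theorem pow_of_pp {p n : ℕ} (hp : p.Prime) (h1 : p ∣ n) (h : IsPrimePow n) : ∃ k, n = p ^ k := by
  obtain ⟨r, k, hr, -, rfl⟩ := (isPrimePow_nat_iff _).1 h
  exact ⟨k, by rw [(Nat.prime_dvd_prime_iff_eq hp hr).1 (hp.dvd_of_dvd_pow h1)]⟩

/-- commuting elements: if `x` and `x z` have prime power order, `z ≠ 1` an `s`-element, `x` is an `s`-element -/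
theorem pow_of_comm {Y : Type*} [Group Y] [Finite Y] {s : ℕ} (hs : s.Prime) {x z : Y}
    (hc : Commute x z) (hz : z ≠ 1) (hzs : ∃ j, z ^ s ^ j = 1) (hx : IsPrimePow (orderOf x))
    (hxz : IsPrimePow (orderOf (x * z))) : ∃ k, orderOf x = s ^ k := by
  obtain ⟨j, hj⟩ := hzs
  obtain ⟨i, -, hi⟩ := (Nat.dvd_prime_pow hs).1 (orderOf_dvd_of_pow_eq_one hj)
  have hi0 : i ≠ 0 := by
    rintro rfl
    exact hz (orderOf_eq_one_iff.1 (by simpa using hi))
  obtain ⟨p, k, hp, hk, hpk⟩ := (isPrimePow_nat_iff _).1 hx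
  by_cases hps : p = s
  · exact ⟨k, by rw [← hpk, hps]⟩
  exfalso
  have hcop : (orderOf x).Coprime (orderOf z) := by
    rw [← hpk, hi]
    exact Nat.Coprime.pow _ _ ((Nat.coprime_primes hp hs).2 hps)
  have h3 := hc.orderOf_mul_eq_mul_orderOf_of_coprime hcop
  refine not_pp hp hs hps ?_ ?_ hxz
  · rw [h3, ← hpk]
    exact Dvd.dvd.mul_right (dvd_pow_self _ hk.ne') _
  · rw [h3, hi]
    exact Dvd.dvd.mul_left (dvd_pow_self _ hi0) _

theorem two_of_nil {Y : Type*} [Group Y] [Finite Y] (F : Subgroup Y) [hFn : F.Normal]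
    (hF : Group.IsNilpotent F) (h : ∀ x, x ∉ F → IsPrimePow (orderOf x))
    (hns : ¬ Group.IsSolvable Y) : IsPGroup 2 F := by
  by_contra hF2
  have h2 : Fact (Nat.Prime 2) := ⟨Nat.prime_two⟩
  obtain ⟨s, hs, hsF, hs2⟩ : ∃ s : ℕ, s.Prime ∧ s ∣ Nat.card F ∧ s ≠ 2 := by
    by_contra hc
    push Not at hc
    exact hF2 (IsPGroup.iff_card.2 ⟨_, Nat.eq_prime_pow_of_unique_prime_dvd Nat.card_pos.ne'
      (fun {d} hd hdv => hc d hd hdv)⟩)
  have hs' : Fact s.Prime := ⟨hs⟩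
  set W : Subgroup Y := (pCore s F).map F.subtype with hW
  have hWe : W = pCore s Y ⊓ F := CL.map_pCore_of_normal F
  have hWn : W.Normal := by rw [hWe]; infer_instance
  have hW0 : W ≠ ⊥ := by
    obtain ⟨a, ha⟩ := exists_prime_orderOf_dvd_card' s hsF
    have h1 : zpowers a ≤ pCore s F :=
      CL.le_pCore_of_isNilpotent (IsPGroup.of_card (n := 1) (by rw [Nat.card_zpowers, ha, pow_one]))
    intro h0
    have : (a : Y) ∈ W := ⟨a, h1 (mem_zpowers a), rfl⟩
    rw [h0, mem_bot] at this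
    have h3 : a = 1 := Subtype.ext this
    rw [h3, orderOf_one] at ha
    exact hs.one_lt.ne ha
  have hWF : W ≤ F := map_subtype_le _
  set Z : Subgroup Y := W ⊓ centralizer (F : Set Y) with hZ
  have hZ0 : Z ≠ ⊥ := CL.inf_centralizer_ne_bot_of_isNilpotent hF hWF le_normalizer_of_normal hW0
  have hZn : Z.Normal := by rw [hZ]; infer_instance
  have hZs : ∀ z ∈ Z, ∃ j, z ^ s ^ j = 1 := by
    intro z hz
    have hz1 : z ∈ pCore s Y := by
      have := hz.1
      rw [hWe] at this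
      exact this.1
    obtain ⟨j, hj⟩ := CL.isPGroup_pCore s Y ⟨z, hz1⟩
    exact ⟨j, congrArg Subtype.val hj⟩
  have hZF : ∀ z ∈ Z, z ∈ F := fun z hz => hWF hz.1
  have hZc : ∀ z ∈ Z, ∀ f ∈ F, f * z = z * f := fun z hz f hf => hz.2 f hf
  set K : Subgroup Y := centralizer (Z : Set Y) with hK
  have hKn : K.Normal := by rw [hK]; infer_instance
  have hFK : F ≤ K := fun f hf z hz => (hZc z hz f hf).symm
  have key : ∀ x, x ∉ F → ∀ z ∈ Z, z ≠ 1 → Commute x z → ∃ k, orderOf x = s ^ k := by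
    intro x hx z hz hz1 hc
    refine pow_of_comm hs hc hz1 (hZs z hz) (h x hx) (h _ fun h' => hx ?_)
    simpa using F.mul_mem h' (F.inv_mem (hZF z hz))
  obtain ⟨⟨z₀, hz₀⟩, hz₀1⟩ := (ne_bot_iff_exists_ne_one).1 hZ0
  have hz₀1' : z₀ ≠ 1 := fun h' => hz₀1 (Subtype.ext h')
  have hKs : Group.IsSolvable K := by
    refine CL.isSolvable_of_map_of_inf_ker K (QuotientGroup.mk' F) ?_ ?_
    · refine CL.isSolvable_of_isPGroup (p := s) ?_
      rintro ⟨_, x, hx, rfl⟩
      by_cases hxF : x ∈ F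
      · exact ⟨0, Subtype.ext (by simpa using hxF)⟩
      · obtain ⟨k, hk⟩ := key x hxF z₀ hz₀ hz₀1' (hx z₀ hz₀).symm
        refine ⟨k, Subtype.ext ?_⟩
        show (QuotientGroup.mk' F x) ^ s ^ k = 1
        rw [← map_pow, ← hk, pow_orderOf_eq_one, map_one]
    · rw [QuotientGroup.ker_mk']
      have : Group.IsSolvable F := inferInstance
      exact CL.isSolvable_of_le inf_le_right this
  apply hns
  refine CL.isSolvable_of_normal_of_quotient K hKs ?_
  by_cases hodd : Odd (Nat.card (Y ⧸ K))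
  · exact Cfsg.Agent.S0205.result hodd
  refine CL.isSolvable_of_isPGroup (p := 2) ?_
  by_contra hQ
  obtain ⟨p, hp, hpQ, hp2⟩ : ∃ p : ℕ, p.Prime ∧ p ∣ Nat.card (Y ⧸ K) ∧ p ≠ 2 := by
    by_contra hc
    push Not at hc
    exact hQ (IsPGroup.iff_card.2 ⟨_, Nat.eq_prime_pow_of_unique_prime_dvd Nat.card_pos.ne'
      (fun {d} hd hdv => hc d hd hdv)⟩)
  have hp' : Fact p.Prime := ⟨hp⟩
  obtain ⟨xb, hxb⟩ := exists_prime_orderOf_dvd_card' (G := Y ⧸ K) 2
    (even_iff_two_dvd.1 (Nat.not_odd_iff_even.1 hodd))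
  obtain ⟨yb, hyb⟩ := exists_prime_orderOf_dvd_card' p hpQ
  obtain ⟨x, rfl⟩ := QuotientGroup.mk'_surjective K xb
  obtain ⟨y, rfl⟩ := QuotientGroup.mk'_surjective K yb
  have hxK : x ∉ K := by
    intro h'
    have : QuotientGroup.mk' K x = 1 := (QuotientGroup.eq_one_iff x).2 h'
    rw [this, orderOf_one] at hxb
    exact absurd hxb (by norm_num)
  have hx2 : x * x ∈ K := by
    apply (QuotientGroup.eq_one_iff _).1
    have := pow_orderOf_eq_one (QuotientGroup.mk' K x)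
    rw [hxb, pow_two, ← map_mul] at this
    exact this
  have hxF : x ∉ F := fun h' => hxK (hFK h')
  have hxo : 2 ∣ orderOf x := hxb ▸ orderOf_map_dvd _ x
  have hinv : ∀ z ∈ Z, x * z * x⁻¹ = z⁻¹ := by
    intro z hz
    have hz' : x * z * x⁻¹ ∈ Z := hZn.conj_mem z hz x
    by_contra hne
    have h1 : z * (x * z * x⁻¹) ≠ 1 := fun h' => hne (eq_inv_of_mul_eq_one_right h')
    have h3 : z * (x * x) = x * x * z := hx2 z hz
    have h4 : z * (x * z * x⁻¹) = x * z * x⁻¹ * z := (hZc z hz _ (hZF _ hz')).symm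
    have hc : Commute x (z * (x * z * x⁻¹)) := by
      show x * (z * (x * z * x⁻¹)) = z * (x * z * x⁻¹) * x
      calc x * (z * (x * z * x⁻¹)) = x * (x * z * x⁻¹ * z) := by rw [h4]
        _ = (x * x * z) * x⁻¹ * z := by group
        _ = z * (x * x) * x⁻¹ * z := by rw [h3]
        _ = z * (x * z * x⁻¹) * x := by group
    obtain ⟨k, hk⟩ := key x hxF _ (Z.mul_mem hz hz') h1 hc
    rw [hk] at hxo
    exact hs2 ((Nat.prime_dvd_prime_iff_eq Nat.prime_two hs).1 (Nat.prime_two.dvd_of_dvd_pow hxo)).symm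
  have hcomm : Commute (QuotientGroup.mk' K x) (QuotientGroup.mk' K y) := by
    have hmem : (y * x)⁻¹ * (x * y) ∈ K := by
      intro z hz
      have h1 := hinv _ (hZn.conj_mem z hz y)
      have h3 := hinv z hz
      have h4 : x * y * z * (x * y)⁻¹ = y * x * z * (y * x)⁻¹ := by
        calc x * y * z * (x * y)⁻¹ = x * (y * z * y⁻¹) * x⁻¹ := by group
          _ = y * z⁻¹ * y⁻¹ := by rw [h1]; group
          _ = y * (x * z * x⁻¹) * y⁻¹ := by rw [h3]
          _ = _ := by group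
      calc z * ((y * x)⁻¹ * (x * y)) = (y * x)⁻¹ * (y * x * z * (y * x)⁻¹) * (x * y) := by group
        _ = (y * x)⁻¹ * (x * y * z * (x * y)⁻¹) * (x * y) := by rw [h4]
        _ = _ := by group
    have := QuotientGroup.eq.2 hmem
    show QuotientGroup.mk' K x * QuotientGroup.mk' K y = QuotientGroup.mk' K y * QuotientGroup.mk' K x
    rw [← map_mul, ← map_mul]
    exact this.symm
  have hord : orderOf (QuotientGroup.mk' K (x * y)) = 2 * p := by
    rw [map_mul, hcomm.orderOf_mul_eq_mul_orderOf_of_coprime, hxb, hyb]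
    rw [hxb, hyb]
    exact (Nat.coprime_primes Nat.prime_two hp).2 hp2.symm
  have hxyF : x * y ∉ F := by
    intro h'
    have : QuotientGroup.mk' K (x * y) = 1 := (QuotientGroup.eq_one_iff _).2 (hFK h')
    rw [this, orderOf_one] at hord
    omega
  have hd : 2 * p ∣ orderOf (x * y) := hord ▸ orderOf_map_dvd _ _
  exact not_pp Nat.prime_two hp hp2.symm (Dvd.dvd.trans (Dvd.intro _ rfl) hd)
    (Dvd.dvd.trans (Dvd.intro_left _ rfl) hd) (h _ hxyF)


/-- Let N be a non-trivial normal subgroup of the finite group G such that every element of G outside N has prime power order. If N is not solvable, then G/N is solvable. -/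
theorem result {G : Type*} [Group G] [Finite G] (N : Subgroup G) [N.Normal] (hN : N ≠ ⊥) (hns : ¬ Group.IsSolvable ↥N)
    (h : ∀ x : G, x ∉ N → IsPrimePow (orderOf x)) : Group.IsSolvable (G ⧸ N) := by
  by_contra hX
  have h2 : Fact (Nat.Prime 2) := ⟨Nat.prime_two⟩
  obtain ⟨P⟩ : Nonempty (Sylow 2 (G ⧸ N)) := inferInstance
  obtain ⟨Q, hQP, g, hgQ, hgo, hgc⟩ : ∃ Q : Subgroup (G ⧸ N), Q ≤ P ∧ ∃ g ∈ normalizer (Q : Set (G ⧸ N)),
      (orderOf g).Coprime 2 ∧ g ∉ centralizer (Q : Set (G ⧸ N)) := by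
    by_contra hc
    push Not at hc
    obtain ⟨M, hMn, hM⟩ := (Cfsg.Agent.S0071.result P).2 hc
    apply hX
    refine CL.isSolvable_of_normal_of_quotient M (Cfsg.Agent.S0205.result ?_) ?_
    · rw [← hM.index_eq_card]
      exact Nat.not_even_iff_odd.1 fun h' => P.not_dvd_index (even_iff_two_dvd.1 h')
    · obtain ⟨k, hk⟩ := IsPGroup.iff_card.1 P.isPGroup'
      exact CL.isSolvable_of_isPGroup (p := 2) (IsPGroup.of_card (n := k)
        (by rw [← index_eq_card, hM.symm.index_eq_card, hk]))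
  have hQ2 : IsPGroup 2 Q := P.isPGroup'.to_le hQP
  have hg1 : g ≠ 1 := by
    rintro rfl
    exact hgc (one_mem _)
  obtain ⟨⟨a₀, ha₀⟩, ha₀1⟩ := (ne_bot_iff_exists_ne_one (H := Q)).1 (by
    rintro rfl
    exact hgc (by intro y hy; rw [mem_bot.1 hy]; simp))
  have ha₀1' : a₀ ≠ 1 := fun h' => ha₀1 (Subtype.ext h')
  set s := (orderOf g).minFac with hsdef
  have hs : s.Prime := Nat.minFac_prime (by rwa [Ne, orderOf_eq_one_iff])
  have hsg : s ∣ orderOf g := Nat.minFac_dvd _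
  have hs2 : s ≠ 2 := by
    intro h'
    have := Nat.eq_one_of_dvd_coprimes hgo (h' ▸ hsg) dvd_rfl
    exact absurd this (by norm_num)
  set bb := g ^ (orderOf g / s) with hbb
  have hbbo : orderOf bb = s := orderOf_pow_orderOf_div (orderOf_pos g).ne' hsg
  have hbbQ : bb ∈ normalizer (Q : Set (G ⧸ N)) := pow_mem hgQ _
  obtain ⟨r, hr, hrN, hr2, hrs⟩ : ∃ r : ℕ, r.Prime ∧ r ∣ Nat.card N ∧ r ≠ 2 ∧ r ≠ s := by
    by_contra hc
    push Not at hc
    exact hns (CL.Char.isSolvable_of_primes_subset_pair Nat.prime_two hs fun r hr hd => by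
      by_cases h' : r = 2
      · exact Or.inl h'
      · exact Or.inr (hc r hr hd h'))
  have hr' : Fact r.Prime := ⟨hr⟩
  obtain ⟨R₀⟩ : Nonempty (Sylow r N) := inferInstance
  set R : Subgroup G := (R₀ : Subgroup N).map N.subtype with hR
  have hRp : IsPGroup r R := R₀.isPGroup'.map _
  have hRN : R ≤ N := map_subtype_le _
  have hR0 : R ≠ ⊥ := by
    intro h0
    have h1 : (R₀ : Subgroup N) = ⊥ := (map_eq_bot_iff_of_injective _ N.subtype_injective).1 h0
    have := R₀.not_dvd_index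
    rw [h1, index_bot] at this
    exact this hrN
  have hH : normalizer (R : Set G) ⊔ N = ⊤ := Sylow.normalizer_sup_eq_top R₀
  obtain ⟨Y, ⟨hYH, hYN⟩, hmin⟩ := (wellFounded_lt (α := Subgroup G)).has_min
    {Y | Y ≤ normalizer (R : Set G) ∧ Y ⊔ N = ⊤} ⟨_, le_rfl, hH⟩
  have hsurj : ∀ c : G ⧸ N, ∃ y ∈ Y, QuotientGroup.mk' N y = c := by
    intro c
    obtain ⟨x, rfl⟩ := QuotientGroup.mk'_surjective N c
    have hx : x ∈ Y ⊔ N := hYN ▸ mem_top x
    obtain ⟨y, hy, n, hn, rfl⟩ := (CL.mem_sup_of_le_normalizer le_normalizer_of_normal).1 hx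
    exact ⟨y, hy, by rw [map_mul, show QuotientGroup.mk' N n = 1 from (QuotientGroup.eq_one_iff n).2 hn, mul_one]⟩
  have hFΦ : N.subgroupOf Y ≤ frattini Y := by
    rw [frattini, Order.radical]
    refine le_iInf₂ fun M hM => ?_
    by_contra hle
    have h1 : M ⊔ N.subgroupOf Y = ⊤ := hM.2 _ (lt_of_le_of_ne le_sup_left fun h' => hle (h' ▸ le_sup_right))
    have h3 : M.map Y.subtype < Y := by
      refine lt_of_le_of_ne (map_subtype_le _) fun h' => hM.1 ?_
      apply map_injective Y.subtype_injective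
      rw [h', ← MonoidHom.range_eq_map, range_subtype]
    refine hmin _ ⟨h3.le.trans hYH, ?_⟩ h3
    have h4 : Y ≤ M.map Y.subtype ⊔ N := by
      have := congrArg (fun K => K.map Y.subtype) h1
      simp only [Subgroup.map_sup, subgroupOf_map_subtype] at this
      rw [← MonoidHom.range_eq_map, range_subtype] at this
      exact this.ge.trans (sup_le_sup_left inf_le_left _)
    exact top_le_iff.1 (hYN.ge.trans (sup_le h4 le_sup_right))
  have hFnil : Group.IsNilpotent (N.subgroupOf Y) := by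
    have := frattini_nilpotent (G := Y)
    exact Group.nilpotent_of_mulEquiv (subgroupOfEquivOfLe hFΦ)
  have hYns : ¬ Group.IsSolvable Y := fun h' =>
    hX (Group.isSolvable_of_surjective (f := (QuotientGroup.mk' N).comp Y.subtype) fun c => by
      obtain ⟨y, hy, rfl⟩ := hsurj c
      exact ⟨⟨y, hy⟩, rfl⟩)
  have hF2 : IsPGroup 2 (N.subgroupOf Y) := two_of_nil _ hFnil
    (fun x hx => by rw [← orderOf_coe]; exact h x hx) hYns
  have hF2' : ∀ y ∈ Y, y ∈ N → ∃ j, y ^ 2 ^ j = 1 := fun y hy hyN => by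
    obtain ⟨j, hj⟩ := hF2 ⟨⟨y, hy⟩, hyN⟩
    exact ⟨j, congrArg (fun t : N.subgroupOf Y => ((t : Y) : G)) hj⟩
  set A : Subgroup G := Q.comap (QuotientGroup.mk' N) ⊓ Y with hA
  have hA2 : IsPGroup 2 A := by
    rintro ⟨a, ha, haY⟩
    obtain ⟨k, hk⟩ := hQ2 ⟨_, ha⟩
    have h1 : a ^ 2 ^ k ∈ N := by
      apply (QuotientGroup.eq_one_iff _).1
      have := congrArg Subtype.val hk
      simpa using this
    obtain ⟨j, hj⟩ := hF2' _ (pow_mem haY _) h1
    exact ⟨k + j, Subtype.ext (by show a ^ 2 ^ (k + j) = 1; rw [pow_add, pow_mul, hj])⟩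
  obtain ⟨b, hbY, hb⟩ := hsurj bb
  have hbb1 : bb ≠ 1 := by
    intro h'
    rw [h', orderOf_one] at hbbo
    exact hs.one_lt.ne hbbo
  have hbN : b ∉ N := fun h' => hbb1 (hb ▸ (QuotientGroup.eq_one_iff b).2 h')
  have hbo : orderOf b = s := by
    have h1 : s ∣ orderOf b := hbbo ▸ hb ▸ orderOf_map_dvd _ b
    obtain ⟨k, hk⟩ := pow_of_pp hs h1 (h b hbN)
    have h3 : b ^ s ∈ N := by
      apply (QuotientGroup.eq_one_iff _).1
      show QuotientGroup.mk' N (b ^ s) = 1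
      rw [map_pow, hb, ← hbbo, pow_orderOf_eq_one]
    obtain ⟨j, hj⟩ := hF2' _ (pow_mem hbY _) h3
    have h4 : orderOf b ∣ s * 2 ^ j := orderOf_dvd_of_pow_eq_one (by rw [pow_mul, hj])
    have h5 : (orderOf b).Coprime (2 ^ j) := by
      rw [hk]
      exact Nat.Coprime.pow _ _ ((Nat.coprime_primes hs Nat.prime_two).2 hs2)
    exact Nat.dvd_antisymm (h5.dvd_of_dvd_mul_right h4) h1
  have hAR : A ≤ normalizer (R : Set G) := inf_le_right.trans hYH
  obtain ⟨i, hi⟩ := IsPGroup.iff_card.1 hA2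
  obtain ⟨j, hj⟩ := IsPGroup.iff_card.1 hRp
  have hcard : (Nat.card ↥(A ⊔ R)).Coprime s := by
    refine Nat.Coprime.coprime_dvd_left (CL.card_sup_dvd_mul_of_le_normalizer hAR) ?_
    rw [hi, hj]
    exact Nat.Coprime.mul_left (Nat.Coprime.pow_left _ ((Nat.coprime_primes Nat.prime_two hs).2 hs2.symm))
      (Nat.Coprime.pow_left _ ((Nat.coprime_primes hr hs).2 hrs))
  have hbA : zpowers b ≤ normalizer (A : Set G) := by
    refine CL.le_normalizer_inf ?_ ((zpowers_le.2 hbY).trans le_normalizer)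
    refine zpowers_le.2 ?_
    intro x
    show QuotientGroup.mk' N x ∈ Q ↔ QuotientGroup.mk' N (b * x * b⁻¹) ∈ Q
    rw [map_mul, map_mul, map_inv, hb]
    exact hbbQ _
  have hnil : Group.IsNilpotent ↥(A ⊔ R) := by
    refine CL.Frob.isNilpotent_of_prime (R := zpowers b)
      (CL.le_normalizer_sup hbA ((zpowers_le.2 hbY).trans hYH)) (by rwa [Nat.card_zpowers, hbo]) ?_
    rw [eq_bot_iff]
    rintro c ⟨hc, hcb⟩
    have hcomm : Commute c b := (hcb b (mem_zpowers b)).symm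
    have hco : (orderOf c).Coprime s := Nat.Coprime.coprime_dvd_left (orderOf_dvd_natCard _ hc) hcard
    have hcbN : c * b ∉ N := by
      intro h'
      obtain ⟨a, ha, w, hw, rfl⟩ := (CL.mem_sup_of_le_normalizer hAR).1 hc
      have h1 : QuotientGroup.mk' N a * bb = 1 := by
        have : QuotientGroup.mk' N (a * w * b) = 1 := (QuotientGroup.eq_one_iff _).2 h'
        rwa [map_mul, map_mul, hb, show QuotientGroup.mk' N w = 1 from
          (QuotientGroup.eq_one_iff w).2 (hRN hw), mul_one] at this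
      have h3 : bb ∈ Q := by
        rw [eq_inv_of_mul_eq_one_right h1]
        exact Q.inv_mem ha.1
      obtain ⟨k, hk⟩ := hQ2 ⟨bb, h3⟩
      have h4 : s ∣ 2 ^ k := hbbo ▸ orderOf_dvd_of_pow_eq_one (congrArg Subtype.val hk)
      exact hs2 ((Nat.prime_dvd_prime_iff_eq hs Nat.prime_two).1 (hs.dvd_of_dvd_pow h4))
    have h3 : orderOf (c * b) = orderOf c * s := by
      rw [hcomm.orderOf_mul_eq_mul_orderOf_of_coprime (hbo ▸ hco), hbo]
    obtain ⟨k, hk⟩ := pow_of_pp hs (h3 ▸ Dvd.intro_left _ rfl) (h _ hcbN)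
    have h4 : orderOf c ∣ s ^ k := hk ▸ h3 ▸ Dvd.intro _ rfl
    rw [mem_bot, ← orderOf_eq_one_iff]
    exact Nat.eq_one_of_dvd_coprimes (Nat.Coprime.pow_right k hco) dvd_rfl h4
  obtain ⟨a, haY, ha⟩ := hsurj a₀
  have haA : a ∈ A := ⟨by show QuotientGroup.mk' N a ∈ Q; rwa [ha], haY⟩
  have haN : a ∉ N := fun h' => ha₀1' (ha ▸ (QuotientGroup.eq_one_iff a).2 h')
  obtain ⟨⟨w, hw⟩, hw1⟩ := (ne_bot_iff_exists_ne_one (H := R)).1 hR0
  have hw1' : w ≠ 1 := fun h' => hw1 (Subtype.ext h')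
  have hao : orderOf a ∣ 2 ^ i := hi ▸ orderOf_dvd_natCard _ haA
  have hwo : orderOf w ∣ r ^ j := hj ▸ orderOf_dvd_natCard _ hw
  have hcomm : Commute a w := CL.FGS.commute_of_mem_nilpotent_of_coprime _ hnil (mem_sup_left haA)
    (mem_sup_right hw) (Nat.Coprime.coprime_dvd_left hao (Nat.Coprime.coprime_dvd_right hwo
      (Nat.Coprime.pow _ _ ((Nat.coprime_primes Nat.prime_two hr).2 hr2.symm))))
  obtain ⟨k, hk⟩ := pow_of_comm hr hcomm hw1' ⟨j, orderOf_dvd_iff_pow_eq_one.1 hwo⟩ (h a haN)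
    (h _ fun h' => haN (by simpa using N.mul_mem h' (N.inv_mem (hRN hw))))
  have h5 : orderOf a = 1 := Nat.eq_one_of_dvd_coprimes
    (Nat.Coprime.pow i k ((Nat.coprime_primes Nat.prime_two hr).2 hr2.symm)) hao (hk ▸ dvd_rfl)
  exact haN (by rw [orderOf_eq_one_iff.1 h5]; exact one_mem _)

end Cfsg.Agent.S3901
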