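import Cfsg.Statements.S3903
import Mathlib
import Cfsg.Agent.S0556

set_option autoImplicit false
open Cfsg

namespace Cfsg.Agent.S3903

open Subgroup

/-- the centralizer of an element outside `N` is a `p`-group -/
lemma cent_pgroup {G : Type*} [Group G] [Finite G] (N : Subgroup G) [N.Normal]
    (h : ∀ x : G, x ∉ N → IsPrimePow (orderOf x)) {p : ℕ} [hp : Fact p.Prime] {y : G} (hy : y ∉ N)
    (hpy : p ∣ orderOf y) : IsPGroup p (centralizer ({y} : Set G)) := by
  classical
  obtain ⟨r, k, hr, hk, hyo⟩ := h y hy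
  have hr' : r.Prime := hr.nat_prime
  have hpr : p = r := by
    rw [← hyo] at hpy
    exact (Nat.prime_dvd_prime_iff_eq hp.out hr').1 (hp.out.dvd_of_dvd_pow hpy)
  subst hpr
  rw [IsPGroup.iff_card]
  by_contra hcon
  have hne : Nat.card (centralizer ({y} : Set G)) ≠ 0 := Nat.card_pos.ne'
  have : ∃ q : ℕ, q.Prime ∧ q ∣ Nat.card (centralizer ({y} : Set G)) ∧ q ≠ p := by
    by_contra hc
    push Not at hc
    exact hcon ⟨_, Nat.eq_prime_pow_of_unique_prime_dvd hne (fun {d} hd hdd => hc d hd hdd)⟩
  obtain ⟨q, hq, hqd, hqp⟩ := this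
  haveI := Fact.mk hq
  obtain ⟨z, hz⟩ := exists_prime_orderOf_dvd_card' q hqd
  have hzo : orderOf (z : G) = q := by rw [Subgroup.orderOf_coe]; exact hz
  have hcomm : Commute y (z : G) := by
    have := z.2
    rw [mem_centralizer_iff] at this
    exact this y (Set.mem_singleton y)
  have hcop : (orderOf y).Coprime (orderOf (z : G)) := by
    rw [← hyo, hzo]
    exact Nat.Coprime.pow_left _ ((Nat.coprime_primes hp.out hq).2 hqp.symm)
  have hord : orderOf (y * z) = p ^ k * q := by
    rw [hcomm.orderOf_mul_eq_mul_orderOf_of_coprime hcop, ← hyo, hzo]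
  have hyz : y * z ∈ N := by
    by_contra hn
    obtain ⟨s, l, hs, hl, hso⟩ := h _ hn
    have hs' : s.Prime := hs.nat_prime
    rw [hord] at hso
    have h1 : p ∣ s ^ l := by
      rw [hso]; exact Dvd.dvd.mul_right (dvd_pow_self p hk.ne') q
    have h2 : q ∣ s ^ l := by rw [hso]; exact Dvd.intro_left _ rfl
    have e1 := (Nat.prime_dvd_prime_iff_eq hp.out hs').1 (hp.out.dvd_of_dvd_pow h1)
    have e2 := (Nat.prime_dvd_prime_iff_eq hq hs').1 (hq.dvd_of_dvd_pow h2)
    exact hqp (e2.trans e1.symm)
  have hyq : y ^ q ∈ N := by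
    have := N.pow_mem hyz q
    rw [hcomm.mul_pow, ← hzo, pow_orderOf_eq_one, mul_one, hzo] at this
    exact this
  apply hy
  have hc : (q).Coprime (orderOf y) := by rw [← hzo]; exact hcop.symm
  obtain ⟨m, hm⟩ := exists_pow_eq_self_of_coprime hc
  rw [← hm]
  exact N.pow_mem hyq m

/-- Let N be a proper normal subgroup of the finite group G such that every element x of G outside N has prime power order and has centralizer C_G(x) a maximal subgroup of G. Then N is solvable. -/
theorem result {G : Type*} [Group G] [Finite G] (N : Subgroup G) [N.Normal] (hN : N ≠ ⊤)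
    (h : ∀ x : G, x ∉ N → IsPrimePow (orderOf x) ∧ IsCoatom (Subgroup.centralizer ({x} : Set G))) : Group.IsSolvable ↥N := by
  classical
  obtain ⟨x, hx⟩ : ∃ x, x ∉ N := by
    by_contra hc
    push Not at hc
    exact hN (eq_top_iff.2 fun x _ => hc x)
  obtain ⟨p, k, hp, hk, hxo⟩ := (h x hx).1
  haveI hp' : Fact p.Prime := ⟨hp.nat_prime⟩
  have hpx : p ∣ orderOf x := by rw [← hxo]; exact dvd_pow_self p hk.ne'
  have h1 : ∀ x : G, x ∉ N → IsPrimePow (orderOf x) := fun x hx => (h x hx).1
  by_cases hG : IsPGroup p G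
  · have := (hG.to_subgroup N).isNilpotent
    infer_instance
  -- centralizers of `p`-singular elements outside `N` are Sylow subgroups
  have hsyl : ∀ y : G, y ∉ N → p ∣ orderOf y →
      ∃ Q : Sylow p G, (Q : Subgroup G) = centralizer ({y} : Set G) := by
    intro y hy hpy
    obtain ⟨Q, hQ⟩ := (cent_pgroup N h1 hy hpy).exists_le_sylow
    refine ⟨Q, ?_⟩
    rcases (h y hy).2.le_iff.1 hQ with h2 | h2
    · exfalso
      apply hG
      have := Q.isPGroup'
      rw [h2] at this
      exact this.of_equiv topEquiv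
    · exact h2
  obtain ⟨P, hP⟩ := hsyl x hx hpx
  by_cases hNP : N ≤ (P : Subgroup G)
  · have := (P.isPGroup'.to_le hNP).isNilpotent
    infer_instance
  have hcoat : IsCoatom (P : Subgroup G) := by rw [hP]; exact (h x hx).2
  have hsup : (P : Subgroup G) ⊔ N = ⊤ := by
    apply hcoat.2
    exact lt_of_le_of_ne le_sup_left (fun he => hNP (he ▸ le_sup_right))
  have hidx : N.index = N.relIndex (P : Subgroup G) := by
    rw [← relIndex_sup_right, hsup, relIndex_top_right]
  -- every element outside `N` is `p`-singular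
  have hpall : ∀ y : G, y ∉ N → p ∣ orderOf y := by
    intro y hy
    have hq : IsPGroup p (G ⧸ N) := by
      obtain ⟨n, hn⟩ := IsPGroup.iff_card.1 P.isPGroup'
      rw [IsPGroup.iff_card]
      have : Nat.card (G ⧸ N) ∣ p ^ n := by
        rw [← hn, ← index_eq_card, hidx]
        exact relIndex_dvd_card _ _
      obtain ⟨j, -, hj⟩ := (Nat.dvd_prime_pow hp'.out).1 this
      exact ⟨j, hj⟩
    obtain ⟨j, hj⟩ := IsPGroup.iff_orderOf.1 hq (QuotientGroup.mk' N y)
    have hj0 : j ≠ 0 := by
      rintro rfl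
      rw [pow_zero, orderOf_eq_one_iff] at hj
      exact hy ((QuotientGroup.eq_one_iff y).1 hj)
    have := orderOf_map_dvd (QuotientGroup.mk' N) y
    rw [hj] at this
    exact (dvd_pow_self p hj0).trans this
  -- counting
  let S : Set G := {z | z ∈ (P : Subgroup G) ∧ z ∉ N ∧ ∀ w ∈ (P : Subgroup G), w * z = z * w}
  let T : Set G := {z | z ∈ (P : Subgroup G) ∧ z ∉ N}
  have hST : S ⊆ T := fun z hz => ⟨hz.1, hz.2.1⟩
  have hsurj : ((N : Set G)ᶜ) ⊆
      (fun a : (G ⧸ (P : Subgroup G)) × S => a.1.out * (a.2 : G) * (a.1.out)⁻¹) '' Set.univ := by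
    intro y hy
    obtain ⟨Q, hQ⟩ := hsyl y hy (hpall y hy)
    obtain ⟨g, hg⟩ := MulAction.exists_smul_eq G P Q
    have hmem : ∀ w : G, w ∈ (P : Subgroup G) ↔ g * w * g⁻¹ ∈ centralizer ({y} : Set G) := by
      intro w
      rw [← hQ, ← hg, Sylow.coe_subgroup_smul, mem_pointwise_smul_iff_inv_smul_mem]
      simp [mul_assoc]
    have hz : g⁻¹ * y * g ∈ S := by
      refine ⟨?_, ?_, ?_⟩
      · rw [hmem, mem_centralizer_iff]
        rintro _ rfl
        simp [mul_assoc]
      · intro hc
        apply hy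
        have := (inferInstance : N.Normal).conj_mem _ hc g
        simpa [mul_assoc] using this
      · intro w hw
        have := (hmem w).1 hw
        rw [mem_centralizer_iff] at this
        have h3 := this y rfl
        calc w * (g⁻¹ * y * g) = g⁻¹ * ((g * w * g⁻¹) * y) * g := by group
          _ = g⁻¹ * (y * (g * w * g⁻¹)) * g := by rw [h3]
          _ = _ := by group
    refine ⟨((g : G ⧸ (P : Subgroup G)), ⟨_, hz⟩), Set.mem_univ _, ?_⟩
    obtain ⟨w, hw⟩ := QuotientGroup.mk_out_eq_mul (P : Subgroup G) g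
    simp only [hw]
    have h3 := hz.2.2 w w.2
    calc g * w * (g⁻¹ * y * g) * (g * w)⁻¹ = g * (w * (g⁻¹ * y * g)) * (g * w)⁻¹ := by group
      _ = g * ((g⁻¹ * y * g) * w) * (g * w)⁻¹ := by rw [h3]
      _ = y := by group
  have hc1 : ((N : Set G)ᶜ).ncard ≤ (P : Subgroup G).index * S.ncard := by
    refine (Set.ncard_le_ncard hsurj (Set.toFinite _)).trans ?_
    refine (Set.ncard_image_le (Set.toFinite _)).trans ?_
    rw [Set.ncard_univ, Nat.card_prod, index_eq_card, Nat.card_coe_set_eq]
  have hc2 : ((N : Set G)ᶜ).ncard + Nat.card N = Nat.card G := by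
    rw [add_comm]
    have := Set.ncard_add_ncard_compl (N : Set G)
    rw [← this]
    rfl
  have hc3 : T.ncard + Nat.card ↥(N ⊓ (P : Subgroup G)) = Nat.card (P : Subgroup G) := by
    have e1 : ((P : Subgroup G) : Set G) = T ∪ ((N ⊓ (P : Subgroup G) : Subgroup G) : Set G) := by
      ext z
      simp only [T, Set.mem_union, Set.mem_setOf_eq, SetLike.mem_coe, mem_inf]
      tauto
    have e2 : Disjoint T ((N ⊓ (P : Subgroup G) : Subgroup G) : Set G) := by
      rw [Set.disjoint_left]
      intro z hz hz'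
      exact hz.2 (mem_inf.1 hz').1
    have e3 := Set.ncard_union_eq e2
    rw [← e1] at e3
    exact e3.symm
  have hc4 : Nat.card G = (P : Subgroup G).index * Nat.card (P : Subgroup G) :=
    (index_mul_card _).symm
  have hc5 : Nat.card N = (P : Subgroup G).index * Nat.card ↥(N ⊓ (P : Subgroup G)) := by
    have a1 : N.relIndex (P : Subgroup G) * Nat.card ↥(N ⊓ (P : Subgroup G)) =
        Nat.card (P : Subgroup G) := by
      rw [relIndex, ← index_mul_card (N.subgroupOf (P : Subgroup G))]
      congr 1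
      rw [← inf_subgroupOf_right]
      exact (Nat.card_congr (subgroupOfEquivOfLe inf_le_right).toEquiv).symm
    have a2 := index_mul_card N
    rw [hc4, ← a1, ← hidx] at a2
    have a3 : 0 < N.index := Nat.pos_of_ne_zero index_ne_zero_of_finite
    apply Nat.eq_of_mul_eq_mul_left a3
    rw [a2]; ring
  have hm : 0 < (P : Subgroup G).index := Nat.pos_of_ne_zero index_ne_zero_of_finite
  have hle : T.ncard ≤ S.ncard := by
    apply Nat.le_of_mul_le_mul_left _ hm
    have : (P : Subgroup G).index * T.ncard + Nat.card N = Nat.card G := by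
      rw [hc5, hc4, ← hc3]; ring
    omega
  have hEq : S = T := Set.eq_of_subset_of_ncard_le hST hle (Set.toFinite _)
  have hxP : x ∈ (P : Subgroup G) := by
    rw [hP, mem_centralizer_iff]; rintro _ rfl; rfl
  have hcomm : ∀ z ∈ (P : Subgroup G), ∀ w ∈ (P : Subgroup G), w * z = z * w := by
    intro z hz w hw
    by_cases hzN : z ∈ N
    · have hzx : z * x ∈ T := ⟨mul_mem hz hxP, fun hc => hx (by
        have := N.mul_mem (N.inv_mem hzN) hc
        simpa using this)⟩
      rw [← hEq] at hzx
      have hxT : x ∈ T := ⟨hxP, hx⟩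
      rw [← hEq] at hxT
      have b1 := hzx.2.2 w hw
      have b2 := hxT.2.2 w hw
      have : w * z * x = z * w * x := by
        calc w * z * x = w * (z * x) := by group
          _ = z * x * w := b1
          _ = z * (x * w) := by group
          _ = z * (w * x) := by rw [b2]
          _ = _ := by group
      exact mul_right_cancel this
    · have hzT : z ∈ T := ⟨hz, hzN⟩
      rw [← hEq] at hzT
      exact hzT.2.2 w hw
  haveI : IsMulCommutative ↥(P : Subgroup G) :=
    ⟨⟨fun a b => Subtype.ext (hcomm b b.2 a a.2)⟩⟩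
  have hds := Cfsg.Agent.S0556.result (P : Subgroup G) hcoat
  haveI : Group.IsSolvable G := ⟨⟨3, hds⟩⟩
  infer_instance

end Cfsg.Agent.S3903
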