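import Mathlib
import Cfsg.Statements.S3904
import Cfsg.Agent.SOLV.CoprimeSylow
import Cfsg.Agent.SOLV.Primitive
import Cfsg.Agent.SOLV.Frattini
import Cfsg.Agent.FGS.MaxCen

set_option autoImplicit false
open Cfsg

namespace Cfsg.Agent.S3904

set_option linter.style.haveILetI false

open Subgroup in
theorem index_prime_of_coatom {G : Type*} [Group G] [Finite G] {M : Subgroup G} [M.Normal]
    (hM : IsCoatom M) : M.index.Prime := by
  have h1 : M.index ≠ 1 := fun e => hM.1 (index_eq_one.1 e)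
  obtain ⟨r, hr, hd⟩ := Nat.exists_prime_and_dvd h1
  haveI := Fact.mk hr
  obtain ⟨g, hg⟩ := exists_prime_orderOf_dvd_card' (G := G ⧸ M) r hd
  have h2 : M ≤ (zpowers g).comap (QuotientGroup.mk' M) := by
    intro x hx
    rw [mem_comap, QuotientGroup.mk'_apply, (QuotientGroup.eq_one_iff x).2 hx]
    exact one_mem _
  rcases hM.le_iff.1 h2 with h3 | h3
  · have h4 : zpowers g = ⊤ := by
      rw [← map_comap_eq_self_of_surjective (QuotientGroup.mk'_surjective M) (zpowers g), h3,
        map_top_of_surjective _ (QuotientGroup.mk'_surjective M)]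
    have : M.index = r := by
      rw [index_eq_card, ← card_top, ← h4, Nat.card_zpowers, hg]
    rw [this]; exact hr
  · exfalso
    obtain ⟨x, rfl⟩ := QuotientGroup.mk_surjective g
    have h4 : x ∈ M := h3 ▸ (show x ∈ (zpowers (x : G ⧸ M)).comap (QuotientGroup.mk' M) from
      mem_zpowers _)
    rw [(QuotientGroup.eq_one_iff x).2 h4, orderOf_one] at hg
    exact hr.one_lt.ne hg

open Subgroup in
theorem proper_comm {X : Type*} [Group X] [Finite X] {p q : ℕ} [hp : Fact p.Prime] (hq : q.Prime)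
    (hpq : p ≠ q) (V : Subgroup X) [V.Normal] [IsMulCommutative V] (hV : V.index = q)
    (h : ∀ y : X, y ≠ 1 → (orderOf y).Coprime p → ∃ M : Subgroup X, IsCoatom M ∧ y ∈ M ∧ M ⊓ V = ⊥)
    (H : Subgroup X) (hH : H ≠ ⊤) : IsMulCommutative H := by
  by_cases hHV : H ≤ V
  · exact CL.isMulCommutative_of_le inferInstance hHV
  obtain ⟨g, hgH, hgV⟩ := SetLike.not_le_iff_exists.1 hHV
  obtain ⟨k, hk⟩ := CL.exists_pow_orderOf_coprime (p := p) g
  have h1 : g ^ p ^ k ≠ 1 := by
    intro e
    apply hgV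
    have h2 : (g : X ⧸ V) ^ q = 1 := by rw [← hV, index_eq_card]; exact pow_card_eq_one'
    have h3 : (g : X ⧸ V) ^ p ^ k = 1 := by rw [← QuotientGroup.mk_pow, e]; rfl
    have h4 := Nat.dvd_gcd (orderOf_dvd_of_pow_eq_one h2) (orderOf_dvd_of_pow_eq_one h3)
    rw [(((Nat.coprime_primes hq hp.out).2 hpq.symm).pow_right k).gcd_eq_one, Nat.dvd_one,
      orderOf_eq_one_iff, QuotientGroup.eq_one_iff] at h4
    exact h4
  obtain ⟨M, hM, hyM, hMV⟩ := h _ h1 hk
  have h5 : Nat.card M ∣ q := by
    rw [← hV]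
    have := relIndex_dvd_index_of_normal V M
    rwa [← inf_relIndex_right, inf_comm, hMV, relIndex_bot_left] at this
  have h6 : zpowers (g ^ p ^ k) = M := by
    apply eq_of_le_of_card_ge (zpowers_le.2 hyM)
    have h7 : Nat.card (zpowers (g ^ p ^ k)) ∣ q := (card_dvd_of_le (zpowers_le.2 hyM)).trans h5
    rcases (Nat.dvd_prime hq).1 h7 with h8 | h8
    · rw [Nat.card_zpowers, orderOf_eq_one_iff] at h8
      exact absurd h8 h1
    · rw [h8]; exact Nat.le_of_dvd hq.pos h5
  have h9 : M ≤ H := h6 ▸ zpowers_le.2 (pow_mem hgH _)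
  rcases hM.le_iff.1 h9 with h10 | h10
  · exact absurd h10 hH
  · rw [h10, ← h6]; infer_instance

open Subgroup CL.CS in
open scoped commutatorElement in
theorem nilp_case {G : Type*} [Group G] [Finite G] (hna : ¬ IsMulCommutative G)
    (h : ∀ x : G, x ∉ Subgroup.center G → IsCoatom (Subgroup.centralizer ({x} : Set G)))
    (hnil : Group.IsNilpotent G) :
    ∃ p : ℕ, p.Prime ∧ Cfsg.IsElementaryAbelian p (⊤ : Subgroup (G ⧸ Subgroup.center G)) := by
  have hn : ∀ x : G, x ∉ center G → (centralizer ({x} : Set G)).Normal :=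
    fun x hx => CL.isNilpotent_iff_coatom_normal.1 hnil _ (h x hx)
  have hcomm : ∀ a b : G, ⁅a, b⁆ ∈ center G := by
    intro a b
    rw [mem_center_iff]
    intro x
    by_cases hx : x ∈ center G
    · exact (mem_center_iff.1 hx _).symm
    · haveI := hn x hx
      exact (mem_cen.1 (CL.commutator_le_of_isCoatom_of_normal (h x hx)
        (commutator_mem_commutator (mem_top a) (mem_top b)))).eq.symm
  have hc : ∀ a b : G ⧸ center G, Commute a b := by
    intro a b
    obtain ⟨a, rfl⟩ := QuotientGroup.mk_surjective a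
    obtain ⟨b, rfl⟩ := QuotientGroup.mk_surjective b
    rw [← commutatorElement_eq_one_iff_commute, ← QuotientGroup.mk'_apply,
      ← QuotientGroup.mk'_apply, ← map_commutatorElement, QuotientGroup.mk'_apply,
      QuotientGroup.eq_one_iff]
    exact hcomm a b
  have hprime : ∀ a : G ⧸ center G, a ≠ 1 → (orderOf a).Prime := by
    intro a ha
    obtain ⟨x, rfl⟩ := QuotientGroup.mk_surjective a
    have hx : x ∉ center G := fun e => ha ((QuotientGroup.eq_one_iff x).2 e)
    haveI := hn x hx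
    have hr := index_prime_of_coatom (h x hx)
    haveI := Fact.mk hr
    rw [orderOf_eq_prime (p := (centralizer ({x} : Set G)).index) _ ha]
    · exact hr
    rw [← QuotientGroup.mk_pow, QuotientGroup.eq_one_iff, mem_center_iff]
    intro g
    have h1 : Commute x (g ^ (centralizer ({x} : Set G)).index) :=
      (mem_cen.1 (pow_index_mem _ g)).symm
    rw [← commutatorElement_eq_one_iff_commute,
      CL.PG.commutator_pow_right (mem_center_iff.1 (hcomm x g) g),
      ← CL.PG.commutator_pow_left (mem_center_iff.1 (hcomm x g) x),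
      commutatorElement_eq_one_iff_commute] at h1
    exact h1.eq.symm
  obtain ⟨x, hx⟩ : ∃ x : G, x ∉ center G := by
    by_contra hcon
    push Not at hcon
    exact hna ⟨⟨fun a b => (mem_center_iff.1 (hcon b) a)⟩⟩
  have hx1 : (x : G ⧸ center G) ≠ 1 := fun e => hx ((QuotientGroup.eq_one_iff x).1 e)
  refine ⟨_, hprime _ hx1, ⟨⟨fun a b => Subtype.ext (hc a b).eq⟩⟩, fun a _ => ?_⟩
  by_cases ha : a = 1
  · rw [ha, one_pow]
  by_cases he : orderOf a = orderOf (x : G ⧸ center G)
  · rw [← he, pow_orderOf_eq_one]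
  exfalso
  have hco := (Nat.coprime_primes (hprime a ha) (hprime _ hx1)).2 he
  have h2 := (hc a x).orderOf_mul_eq_mul_orderOf_of_coprime hco
  have h3 : a * x ≠ 1 := by
    intro e
    rw [e, orderOf_one] at h2
    exact (hprime a ha).one_lt.ne' (Nat.eq_one_of_mul_eq_one_right h2.symm)
  have h4 := hprime _ h3
  rw [h2] at h4
  exact Nat.not_prime_mul (hprime a ha).one_lt.ne' (hprime _ hx1).one_lt.ne' h4

open Subgroup CL.CS in
theorem non_nilp_case {G : Type*} [Group G] [Finite G]
    (h : ∀ x : G, x ∉ Subgroup.center G → IsCoatom (Subgroup.centralizer ({x} : Set G)))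
    (hnil : ¬ Group.IsNilpotent G) :
    (¬ IsMulCommutative (G ⧸ Subgroup.center G) ∧ (∀ H : Subgroup (G ⧸ Subgroup.center G), H ≠ ⊤ → IsMulCommutative ↥H) ∧
      ∃ p q a : ℕ, p.Prime ∧ q.Prime ∧ p ≠ q ∧ Nat.card (G ⧸ Subgroup.center G) = p ^ a * q ∧
        ∀ P : Subgroup (G ⧸ Subgroup.center G), Nat.card ↥P = p ^ a → P.Normal) := by
  haveI := isSolvable_of_cen_coatom h
  obtain ⟨p, hp, hO⟩ : ∃ p : ℕ, p.Prime ∧ ¬ Cfsg.pCore p G ≤ center G := by
    by_contra hcon
    push Not at hcon
    have h1 : Cfsg.fittingSubgroup G ≤ center G := by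
      rw [CL.fittingSubgroup_eq_iSup_pCore]
      exact iSup_le fun p => hcon p p.2
    have h2 : centralizer (Cfsg.fittingSubgroup G : Set G) = ⊤ :=
      centralizer_eq_top_iff_subset.2 h1
    apply hnil
    rw [← CL.fittingSubgroup_eq_top_iff, eq_top_iff, ← h2]
    exact CL.centralizer_fittingSubgroup_le G
  haveI := Fact.mk hp
  set O := Cfsg.pCore p G with hOdef
  have hOp : IsPGroup p O := CL.isPGroup_pCore p G
  have hOo : ∀ x ∈ O, ∃ k, orderOf x = p ^ k := by
    intro x hx
    obtain ⟨k, hk⟩ := IsPGroup.iff_orderOf.1 hOp ⟨x, hx⟩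
    exact ⟨k, by rw [← hk, Subgroup.orderOf_mk]⟩
  have hco : ∀ x ∈ O, ∀ y : G, (orderOf y).Coprime p → (orderOf x).Coprime (orderOf y) := by
    intro x hx y hy
    obtain ⟨k, hk⟩ := hOo x hx
    rw [hk]; exact hy.symm.pow_left k
  have hA : ∀ {x y : G}, x ∉ center G → y ∉ center G → Commute x y →
      (orderOf x).Coprime (orderOf y) → centralizer {x} = centralizer ({y} : Set G) :=
    fun hx hy hc hc' => le_antisymm (cen_le_cen_of_coatom h hx hc hc')
      (cen_le_cen_of_coatom h hy hc.symm hc'.symm)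
  obtain ⟨x, hxO, hxZ⟩ := SetLike.not_le_iff_exists.1 hO
  have hsup : ∀ t : G, t ∉ center G → ¬ O ≤ centralizer {t} → O ⊔ centralizer {t} = ⊤ := by
    intro t ht hle
    rcases (h t ht).le_iff.1 (le_sup_right : _ ≤ O ⊔ centralizer {t}) with h1 | h1
    · exact h1
    · exact absurd (h1 ▸ le_sup_left) hle
  have claim1 : ∀ y : G, y ∉ center G → (orderOf y).Coprime p → ¬ O ≤ centralizer {y} := by
    intro y hy hyo hle
    have h1 := hA hxZ hy (mem_cen.1 (hle hxO)) (hco x hxO y hyo)
    obtain ⟨t, -, ht⟩ := SetLike.exists_of_lt (h y hy).lt_top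
    have htZ : t ∉ center G := fun e => ht (center_le_cen y e)
    have h2 := hsup t htZ fun e => ht (h1 ▸ mem_cen_comm.1 (e hxO))
    obtain ⟨o, ho, c, hc, e⟩ := mem_sup_of_normal_left.1 (h2 ▸ mem_top y : y ∈ O ⊔ centralizer {t})
    have h3 : c = y * (y⁻¹ * o⁻¹ * y) := by rw [← e]; group
    have ho' : y⁻¹ * o⁻¹ * y ∈ O := by
      simpa using (inferInstance : O.Normal).conj_mem _ (inv_mem ho) y⁻¹
    have h4 := CL.FGS.mem_zpowers_mul_of_commute_of_coprime (mem_cen.1 (hle ho')).symm
      (hco _ ho' y hyo).symm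
    rw [← h3] at h4
    exact ht (mem_cen_comm.1 (zpowers_le.2 hc h4))
  have claim2 : ∀ y : G, y ∉ center G → (orderOf y).Coprime p → ∀ u ∈ O, Commute u y →
      u ∈ center G := by
    intro y hy hyo u hu hc
    by_contra huZ
    have h1 := hA huZ hy hc (hco u hu y hyo)
    obtain ⟨k, hk⟩ := hOo u hu
    have h2 := CL.thompson_p_times_q (p := p) (zpowers u) (zpowers y) O
      (IsPGroup.of_card (by rw [Nat.card_zpowers, hk])) (by rwa [Nat.card_zpowers]) hOp
      (by rw [cen_zpowers]; exact zpowers_le.2 (mem_cen.2 hc))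
      le_normalizer_of_normal le_normalizer_of_normal (by
        rw [cen_zpowers, cen_zpowers, h1]; exact inf_le_right)
    rw [cen_zpowers] at h2
    exact claim1 y hy hyo h2
  have hnp : ¬ IsPGroup p (G ⧸ center G) :=
    fun e => hnil (Group.of_quotient_center_nilpotent e.isNilpotent)
  have claim3 : ∀ u ∈ O, u ∉ center G → O ≤ centralizer {u} := by
    intro u hu huZ
    by_contra hle
    have h1 := hsup u huZ hle
    apply hnp
    have h2 : IsPGroup p ((centralizer ({u} : Set G)).map (QuotientGroup.mk' (center G))) := by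
      rintro ⟨_, g, hg, rfl⟩
      obtain ⟨k, hk⟩ := CL.exists_pow_orderOf_coprime (p := p) g
      refine ⟨k, Subtype.ext ?_⟩
      show (QuotientGroup.mk' (center G)) g ^ p ^ k = 1
      rw [← map_pow, QuotientGroup.mk'_apply, QuotientGroup.eq_one_iff]
      by_contra hz
      exact huZ (claim2 _ hz hk u hu (mem_cen.1 (pow_mem hg _)).symm)
    haveI : (O.map (QuotientGroup.mk' (center G))).Normal :=
      Normal.map inferInstance _ (QuotientGroup.mk'_surjective _)
    have h3 := IsPGroup.to_sup_of_normal_left (hOp.map (QuotientGroup.mk' (center G))) h2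
    rw [← Subgroup.map_sup, h1, map_top_of_surjective _ (QuotientGroup.mk'_surjective _)] at h3
    exact h3.of_equiv topEquiv
  haveI hOc : IsMulCommutative O := ⟨⟨fun a b => Subtype.ext (by
    by_cases ha : (a : G) ∈ center G
    · exact (mem_center_iff.1 ha b).symm
    · exact (mem_cen.1 (claim3 a a.2 ha b.2)).eq.symm)⟩⟩
  obtain ⟨y, hyo, hy⟩ : ∃ y : G, (orderOf y).Coprime p ∧ y ∉ center G := by
    by_contra hcon
    push Not at hcon
    exact hnp (isPGroup_quotient_center_of_regular_central hcon)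
  have claim4 : centralizer {x} = O ⊔ center G := by
    refine le_antisymm ?_ (sup_le (claim3 x hxO hxZ) (center_le_cen x))
    intro g hg
    have h2 := hsup y hy (claim1 y hy hyo)
    obtain ⟨o, ho, m, hm, rfl⟩ :=
      mem_sup_of_normal_left.1 (h2 ▸ mem_top g : g ∈ O ⊔ centralizer {y})
    have hmx : m ∈ centralizer ({x} : Set G) :=
      (mul_mem_cancel_left (claim3 x hxO hxZ ho)).1 hg
    refine mul_mem (mem_sup_left ho) (mem_sup_right ?_)
    obtain ⟨a, b, ha, hb, ⟨k, hk⟩, hbo, rfl⟩ := CL.exists_p_part_mul_p'_part (p := p) m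
    refine mul_mem ?_ ?_
    · by_contra haZ
      obtain ⟨j, -, hj⟩ := (Nat.dvd_prime_pow hp).1 (orderOf_dvd_of_pow_eq_one hk)
      have h3 := hA haZ hy (mem_cen.1 (zpowers_le.2 hm ha)) (by rw [hj]; exact hyo.symm.pow_left j)
      have h4 : x ∈ centralizer ({y} : Set G) := h3 ▸ mem_cen_comm.1 (zpowers_le.2 hmx ha)
      exact hxZ (claim2 y hy hyo x hxO (mem_cen.1 h4))
    · by_contra hbZ
      exact hxZ (claim2 b hbZ hbo x hxO (mem_cen.1 (zpowers_le.2 hmx hb)).symm)
  have hco' : IsCoatom (O ⊔ center G) := claim4 ▸ h x hxZ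
  have hq := index_prime_of_coatom hco'
  set q := (O ⊔ center G).index with hqdef
  set V := O.map (QuotientGroup.mk' (center G)) with hV
  haveI : V.Normal := Normal.map inferInstance _ (QuotientGroup.mk'_surjective _)
  have hVp : IsPGroup p V := hOp.map _
  have hVi : V.index = q := by
    rw [hV, index_map, QuotientGroup.ker_mk', MonoidHom.range_eq_top.2
      (QuotientGroup.mk'_surjective _), index_top, mul_one]
  obtain ⟨a, ha⟩ := IsPGroup.iff_card.1 hVp
  have hcard : Nat.card (G ⧸ center G) = p ^ a * q := by rw [← ha, ← hVi, card_mul_index]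
  have hpq : p ≠ q := by
    intro e
    exact hnp (IsPGroup.of_card (n := a + 1) (by rw [hcard, ← e, pow_succ]))
  refine ⟨fun e => hnil (Group.of_quotient_center_nilpotent
    (CL.isNilpotent_of_isMulCommutative _)), proper_comm hq hpq V hVi ?_, p, q, a, hp, hq, hpq,
    hcard, ?_⟩
  · intro z hz hzo
    obtain ⟨w, hwo, rfl⟩ := exists_lift_coprime (QuotientGroup.mk'_surjective (center G)) hp hzo
    have hw : w ∉ center G := fun e => hz ((QuotientGroup.eq_one_iff w).2 e)
    refine ⟨_, CL.Prim.isCoatom_map_mk' (h w hw) (center_le_cen w), ⟨w, self_mem_cen w, rfl⟩, ?_⟩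
    rw [eq_bot_iff]
    rintro _ ⟨⟨c, hc, rfl⟩, u, hu, e⟩
    obtain ⟨z, hz, rfl⟩ := (QuotientGroup.mk'_eq_mk' _).1 e
    have h1 : u ∈ centralizer ({w} : Set G) := (mul_mem_cancel_right (center_le_cen w hz)).1 hc
    rw [mem_bot, QuotientGroup.mk'_apply, QuotientGroup.eq_one_iff]
    exact mul_mem (claim2 w hw hwo u hu (mem_cen.1 h1)) hz
  · intro P hP
    have h1 : IsPGroup p ↥(P ⊔ V) := IsPGroup.to_sup_of_normal_right (IsPGroup.of_card hP) hVp
    obtain ⟨b, hb⟩ := IsPGroup.iff_card.1 h1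
    have h2 : p ^ b ∣ p ^ a := by
      have h3 : p ^ b ∣ p ^ a * q := hb ▸ hcard ▸ card_subgroup_dvd_card _
      exact (((Nat.coprime_primes hp hq).2 hpq).pow_left b).dvd_of_dvd_mul_right h3
    have h4 : P = P ⊔ V := eq_of_le_of_card_ge le_sup_left (by
      rw [hb, hP]; exact Nat.le_of_dvd (pow_pos hp.pos a) h2)
    have h5 : V = P ⊔ V := eq_of_le_of_card_ge le_sup_right (by
      rw [hb, ha]; exact Nat.le_of_dvd (pow_pos hp.pos a) h2)
    rw [h4, ← h5]
    infer_instance


/-- Let G be a non-abelian finite group in which the centralizer of every non-central element is a maximal subgroup. Then G/Z(G) is either an elementary abelian p-group for some prime p, or a minimal non-abelian group (non-abelian with all proper subgroups abelian) of order p^a · q for distinct primes p, q with a normal Sylow p-subgroup. -/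
theorem result {G : Type*} [Group G] [Finite G] (hna : ¬ IsMulCommutative G)
    (h : ∀ x : G, x ∉ Subgroup.center G → IsCoatom (Subgroup.centralizer ({x} : Set G))) :
    (∃ p : ℕ, p.Prime ∧ Cfsg.IsElementaryAbelian p (⊤ : Subgroup (G ⧸ Subgroup.center G))) ∨
    (¬ IsMulCommutative (G ⧸ Subgroup.center G) ∧ (∀ H : Subgroup (G ⧸ Subgroup.center G), H ≠ ⊤ → IsMulCommutative ↥H) ∧
      ∃ p q a : ℕ, p.Prime ∧ q.Prime ∧ p ≠ q ∧ Nat.card (G ⧸ Subgroup.center G) = p ^ a * q ∧
        ∀ P : Subgroup (G ⧸ Subgroup.center G), Nat.card ↥P = p ^ a → P.Normal) := by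
  by_cases hnil : Group.IsNilpotent G
  · exact Or.inl (nilp_case hna h hnil)
  · exact Or.inr (non_nilp_case h hnil)

end Cfsg.Agent.S3904
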