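import Mathlib
import Cfsg.Statements.S3905
import Cfsg.Agent.SOLV.Frattini
import Cfsg.Agent.FGS.PiClass2
import Cfsg.Agent.SOLV.Frobenius
import Cfsg.Agent.SOLV.Schmidt
import Cfsg.Agent.FGS.ThreeSizes
import Cfsg.Agent.FGS.FrobCS
import Cfsg.Agent.FGS.MaxCen

set_option autoImplicit false
open Cfsg

namespace Cfsg.Agent.S3905

set_option linter.style.haveILetI false

open Subgroup CL CL.MSS in
theorem npc {X : Type*} [Group X] [Finite X] (G Y : Subgroup X) [G.Normal] (hY : IsCoatom Y)
    (hnil : Group.IsNilpotent (Y ⊓ G : Subgroup X)) (p : ℕ) [Fact p.Prime] (hp2 : p ≠ 2)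
    (hpM : p ∣ Nat.card (Y ⊓ G : Subgroup X))
    (hO : ∀ U : Subgroup X, U.Normal → IsPGroup p U → U ≤ G → U = ⊥) :
    HasNormalPComplement p G := by
  have hN : ∀ U : Subgroup X, U ≠ ⊥ → IsPGroup p U → U ≤ G → Y ≤ normalizer (U : Set X) →
      normalizer (U : Set X) = Y := fun U hU hUp hUG h =>
    ((hY.le_iff.1 h).resolve_left fun h' => hU (hO U (normalizer_eq_top_iff.1 h') hUp hUG))
  have hYM : Y ≤ normalizer ((Y ⊓ G : Subgroup X) : Set X) :=
    MSS.le_normalizer_inf le_normalizer (by rw [normalizer_eq_top]; exact le_top)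
  obtain ⟨P, hP⟩ := exists_sylIn p (Y ⊓ G)
  have hYP : Y ≤ normalizer (P : Set X) :=
    hP.map_toSylow ▸ hYM.trans (normalizer_le_normalizer_sylow_of_isNilpotent hnil hP.toSylow)
  have hP1 := hP.ne_bot hpM
  have hPG : SylIn p P G := hP.of_normalizer_le (hP.le.trans inf_le_right) (by
    rw [hN P hP1 hP.pgroup (hP.le.trans inf_le_right) hYP, inf_comm])
  refine (Cfsg.Agent.S0117.result hp2 hPG.toSylow).2 ?_
  have h1 : centerThompsonOf p P ≠ ⊥ :=
    inf_centralizer_ne_bot (hP.pgroup.to_le (CL.Th.thompsonSubgroupOf_le P))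
      (hP.pgroup.to_le (CL.Th.thompsonSubgroupOf_le P)) le_normalizer
      (CL.Th.thompsonSubgroupOf_ne_bot_of_isPGroup hP.pgroup hP1)
  have h2 : centerThompsonOf p P ≤ P := inf_le_left.trans (CL.Th.thompsonSubgroupOf_le P)
  have h3 := hN _ h1 (hP.pgroup.to_le h2) (h2.trans (hP.le.trans inf_le_right)) (hYP.trans
    ((CL.Th.normalizer_le_normalizer_thompsonSubgroupOf P).trans
      (CL.Th.normalizer_thompson_le_normalizer_centerThompsonOf P)))
  have h4 := map_le_normalizer_map G.subtype
    (le_refl (normalizer (centerThompsonOf p (hPG.toSylow : Subgroup G) : Set G)))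
  rw [CL.Th.map_centerThompsonOf _ G.subtype_injective, hPG.map_toSylow, h3] at h4
  exact hasNPC_of_equiv (hasNPC_of_le hasNPC_of_isNilpotent (le_inf h4 (map_subtype_le _)))
    (equivMapOfInjective _ _ G.subtype_injective).symm

open Subgroup CL.CS in
open scoped commutatorElement in
theorem nilp_case {G : Type*} [Group G] [Finite G]
    (hc : ∀ x : G, x ∉ center G → ∀ K : Subgroup G, K.Characteristic →
      K ≤ centralizer {x} ∨ K ⊔ centralizer {x} = ⊤)
    (hnil : Group.IsNilpotent G) :
    ∃ p : ℕ, p.Prime ∧ Cfsg.IsElementaryAbelian p (⊤ : Subgroup (G ⧸ Subgroup.center G)) := by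
  have hcomm : ∀ a b : G, ⁅a, b⁆ ∈ center G := by
    intro a b
    rw [mem_center_iff]
    intro x
    by_cases hx : x ∈ center G
    · exact (mem_center_iff.1 hx _).symm
    · rcases hc x hx (_root_.commutator G) inferInstance with h1 | h1
      · exact (mem_cen.1 (h1 (commutator_mem_commutator (mem_top a) (mem_top b)))).eq.symm
      · exact absurd (cen_eq_top_iff.1 (CL.eq_top_of_sup_eq_top_of_le_frattini
          (CL.commutator_le_frattini_of_isNilpotent G) h1)) hx
  have hcc : ∀ a b : G ⧸ center G, Commute a b := by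
    intro a b
    obtain ⟨a, rfl⟩ := QuotientGroup.mk_surjective a
    obtain ⟨b, rfl⟩ := QuotientGroup.mk_surjective b
    rw [← commutatorElement_eq_one_iff_commute, ← QuotientGroup.mk'_apply,
      ← QuotientGroup.mk'_apply, ← map_commutatorElement, QuotientGroup.mk'_apply,
      QuotientGroup.eq_one_iff]
    exact hcomm a b
  have hpow : ∀ (x g : G) (k : ℕ), Commute (x ^ k) g ↔ Commute x (g ^ k) := by
    intro x g k
    rw [← commutatorElement_eq_one_iff_commute, ← commutatorElement_eq_one_iff_commute,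
      CL.PG.commutator_pow_right (mem_center_iff.1 (hcomm x g) g),
      CL.PG.commutator_pow_left (mem_center_iff.1 (hcomm x g) x)]
  have hprime : ∀ a : G ⧸ center G, a ≠ 1 → (orderOf a).Prime := by
    intro a ha
    obtain ⟨x, rfl⟩ := QuotientGroup.mk_surjective a
    have hx : x ∉ center G := fun e => ha ((QuotientGroup.eq_one_iff x).2 e)
    obtain ⟨r, hr, t, ht⟩ := Nat.exists_prime_and_dvd (mt orderOf_eq_one_iff.1 ha)
    haveI := Fact.mk hr
    let K : Subgroup G :=
      { carrier := {u | ∃ g : G, (u : G ⧸ center G) = (g : G ⧸ center G) ^ r}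
        one_mem' := ⟨1, by simp⟩
        mul_mem' := by
          rintro u v ⟨g, hg⟩ ⟨h, hh⟩
          exact ⟨g * h, by rw [QuotientGroup.mk_mul, hg, hh, QuotientGroup.mk_mul, (hcc _ _).mul_pow]⟩
        inv_mem' := by
          rintro u ⟨g, hg⟩
          exact ⟨g⁻¹, by rw [QuotientGroup.mk_inv, hg, QuotientGroup.mk_inv, inv_pow]⟩ }
    have hK : K.Characteristic := by
      rw [characteristic_iff_le_comap]
      rintro φ u ⟨g, hg⟩
      refine ⟨φ g, ?_⟩
      rw [← QuotientGroup.mk_pow, QuotientGroup.eq] at hg ⊢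
      have := characteristic_iff_le_comap.1 (inferInstance : (center G).Characteristic) φ hg
      simpa using this
    rcases hc x hx K hK with h1 | h1
    · rw [orderOf_eq_prime (p := r) _ ha]
      · exact hr
      rw [← QuotientGroup.mk_pow, QuotientGroup.eq_one_iff, mem_center_iff]
      intro g
      exact ((hpow x g r).2 (mem_cen'.1 (h1 ⟨g, QuotientGroup.mk_pow _ _ _⟩))).eq.symm
    · exfalso
      have h2 : (x : G ⧸ center G) ^ t = 1 := by
        rw [← QuotientGroup.mk_pow, QuotientGroup.eq_one_iff, mem_center_iff]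
        intro g
        obtain ⟨k, ⟨u, hu⟩, c, hc', rfl⟩ := mem_sup_of_normal_left.1 (h1 ▸ mem_top g)
        refine (Commute.mul_right ?_ ((mem_cen'.1 hc').pow_left t)).eq.symm
        rw [← QuotientGroup.mk_pow, QuotientGroup.eq] at hu
        have e : k = u ^ r * (k⁻¹ * u ^ r)⁻¹ := by
          rw [mem_center_iff.1 (inv_mem hu)]
          conv_lhs => rw [show k = (k⁻¹ * u ^ r)⁻¹ * (k⁻¹ * u ^ r * k) by group,
            ← mem_center_iff.1 hu k]
          group
        rw [e]
        refine Commute.mul_right ?_ (mem_center_iff.1 (inv_mem hu) _)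
        rw [← hpow, ← pow_mul, mul_comm, ← ht]
        have h3 : x ^ orderOf (x : G ⧸ center G) ∈ center G := by
          rw [← QuotientGroup.eq_one_iff, QuotientGroup.mk_pow, pow_orderOf_eq_one]
        exact (mem_center_iff.1 h3 u).symm
      have h3 := Nat.le_of_dvd (Nat.pos_of_ne_zero fun e => by
        rw [e, mul_zero] at ht; exact (orderOf_pos _).ne' ht) (orderOf_dvd_of_pow_eq_one h2)
      have h4 := hr.one_lt
      have h5 := orderOf_pos (x : G ⧸ center G)
      rw [ht] at h3 h5
      nlinarith [Nat.pos_of_mul_pos_left h5]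
  by_cases hz : ∀ x : G, x ∈ center G
  · refine ⟨2, Nat.prime_two, ⟨⟨fun a b => Subtype.ext (hcc a b).eq⟩⟩, fun a _ => ?_⟩
    obtain ⟨a, rfl⟩ := QuotientGroup.mk_surjective a
    rw [(QuotientGroup.eq_one_iff a).2 (hz a), one_pow]
  push Not at hz
  obtain ⟨x, hx⟩ := hz
  have hx1 : (x : G ⧸ center G) ≠ 1 := fun e => hx ((QuotientGroup.eq_one_iff x).1 e)
  refine ⟨_, hprime _ hx1, ⟨⟨fun a b => Subtype.ext (hcc a b).eq⟩⟩, fun a _ => ?_⟩
  by_cases ha : a = 1
  · rw [ha, one_pow]
  by_cases he : orderOf a = orderOf (x : G ⧸ center G)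
  · rw [← he, pow_orderOf_eq_one]
  exfalso
  have hco := (Nat.coprime_primes (hprime a ha) (hprime _ hx1)).2 he
  have h2 := (hcc a x).orderOf_mul_eq_mul_orderOf_of_coprime hco
  have h3 : a * x ≠ 1 := by
    intro e
    rw [e, orderOf_one] at h2
    exact (hprime a ha).one_lt.ne' (Nat.eq_one_of_mul_eq_one_right h2.symm)
  have h4 := hprime _ h3
  rw [h2] at h4
  exact Nat.not_prime_mul (hprime a ha).one_lt.ne' (hprime _ hx1).one_lt.ne' h4

open Subgroup CL.CS in
open scoped commutatorElement in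
theorem non_nilp_case {G : Type*} [Group G] [Finite G]
    (hc : ∀ x : G, x ∉ center G → ∀ K : Subgroup G, K.Characteristic →
      K ≤ centralizer {x} ∨ K ⊔ centralizer {x} = ⊤)
    (hle : ∀ {x y : G}, x ∉ center G → Commute x y → (orderOf x).Coprime (orderOf y) →
      centralizer {x} ≤ centralizer ({y} : Set G))
    (hnil : ¬ Group.IsNilpotent G) {p : ℕ} (hp : p.Prime) (hO : ¬ Cfsg.pCore p G ≤ center G) :
    ∃ (Q K : Subgroup (G ⧸ Subgroup.center G)) (p : ℕ), p.Prime ∧ Cfsg.IsFrobeniusComplement Q ∧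
      (Nat.card ↥Q).Prime ∧ K.Normal ∧ (K : Set (G ⧸ Subgroup.center G)) = Cfsg.frobeniusKernel Q ∧
      Cfsg.IsElementaryAbelian p K := by
  haveI := Fact.mk hp
  set O := Cfsg.pCore p G with hOdef
  have hOp : IsPGroup p O := CL.isPGroup_pCore p G
  have hco : ∀ x ∈ O, ∀ y : G, (orderOf y).Coprime p → (orderOf x).Coprime (orderOf y) := by
    intro x hx y hy
    obtain ⟨k, hk⟩ := pow_eq_one_of_mem_isPGroup hOp hx
    exact coprime_orderOf_of_pow hk hy
  have hA : ∀ {x y : G}, x ∉ center G → y ∉ center G → Commute x y →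
      (orderOf x).Coprime (orderOf y) → centralizer {x} = centralizer ({y} : Set G) :=
    fun hx hy hc hc' => le_antisymm (hle hx hc hc') (hle hy hc.symm hc'.symm)
  obtain ⟨x, hxO, hxZ⟩ := SetLike.not_le_iff_exists.1 hO
  have hsup : ∀ t : G, t ∉ center G → ¬ O ≤ centralizer {t} → O ⊔ centralizer {t} = ⊤ :=
    fun t ht h1 => (hc t ht O inferInstance).resolve_left h1
  have claim1 : ∀ y : G, y ∉ center G → (orderOf y).Coprime p → ¬ O ≤ centralizer {y} := by
    intro y hy hyo hle
    have h1 := hA hxZ hy (mem_cen.1 (hle hxO)) (hco x hxO y hyo)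
    obtain ⟨t, -, ht⟩ := SetLike.exists_of_lt (lt_top_iff_ne_top.2 (mt cen_eq_top_iff.1 hy))
    have htZ : t ∉ center G := fun e => ht (center_le_cen y e)
    have h2 := hsup t htZ fun e => ht (h1 ▸ mem_cen_comm.1 (e hxO))
    obtain ⟨o, ho, c, hc, e⟩ := mem_sup_of_normal_left.1 (h2 ▸ mem_top y : y ∈ O ⊔ centralizer {t})
    have h3 : c = y * (y⁻¹ * o⁻¹ * y) := by rw [← e]; group
    have ho' : y⁻¹ * o⁻¹ * y ∈ O := by
      simpa using (inferInstance : O.Normal).conj_mem _ (inv_mem ho) y⁻¹
    have h4 := CL.FGS.mem_zpowers_mul_of_commute_of_coprime (mem_cen.1 (hle ho')).symm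
      (hco _ ho' y hyo).symm
    rw [← h3] at h4
    exact ht (mem_cen_comm.1 (zpowers_le.2 hc h4))
  have claim2' : ∀ y : G, y ∉ center G → (orderOf y).Coprime p → ∀ (u : G) (k : ℕ),
      u ^ p ^ k = 1 → Commute u y → u ∈ center G := by
    intro y hy hyo u k hk hc
    by_contra huZ
    have h1 := hA huZ hy hc (coprime_orderOf_of_pow hk hyo)
    obtain ⟨j, -, hj⟩ := (Nat.dvd_prime_pow hp).1 (orderOf_dvd_of_pow_eq_one hk)
    have h2 := CL.thompson_p_times_q (p := p) (zpowers u) (zpowers y) O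
      (IsPGroup.of_card (by rw [Nat.card_zpowers, hj])) (by rwa [Nat.card_zpowers]) hOp
      (by rw [cen_zpowers]; exact zpowers_le.2 (mem_cen.2 hc))
      le_normalizer_of_normal le_normalizer_of_normal (by
        rw [cen_zpowers, cen_zpowers, h1]; exact inf_le_right)
    rw [cen_zpowers] at h2
    exact claim1 y hy hyo h2
  have claim2 : ∀ y : G, y ∉ center G → (orderOf y).Coprime p → ∀ u ∈ O, Commute u y →
      u ∈ center G := by
    intro y hy hyo u hu hc
    obtain ⟨k, hk⟩ := pow_eq_one_of_mem_isPGroup hOp hu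
    exact claim2' y hy hyo u k hk hc
  have hnp : ¬ IsPGroup p (G ⧸ center G) :=
    fun e => hnil (Group.of_quotient_center_nilpotent e.isNilpotent)
  have claim3 : ∀ u ∈ O, u ∉ center G → O ≤ centralizer {u} := by
    intro u hu huZ
    by_contra hle
    have h1 := hsup u huZ hle
    apply hnp
    have h2 : IsPGroup p ((centralizer ({u} : Set G)).map (QuotientGroup.mk' (center G))) := by
      rintro ⟨_, g, hg, rfl⟩
      obtain ⟨k, hk⟩ := CL.exists_pow_orderOf_coprime (p := p) g
      refine ⟨k, Subtype.ext ?_⟩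
      show (QuotientGroup.mk' (center G)) g ^ p ^ k = 1
      rw [← map_pow, QuotientGroup.mk'_apply, QuotientGroup.eq_one_iff]
      by_contra hz
      exact huZ (claim2 _ hz hk u hu (mem_cen.1 (pow_mem hg _)).symm)
    haveI : (O.map (QuotientGroup.mk' (center G))).Normal :=
      Normal.map inferInstance _ (QuotientGroup.mk'_surjective _)
    have h3 := IsPGroup.to_sup_of_normal_left (hOp.map (QuotientGroup.mk' (center G))) h2
    rw [← Subgroup.map_sup, h1, map_top_of_surjective _ (QuotientGroup.mk'_surjective _)] at h3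
    exact h3.of_equiv topEquiv
  haveI hOc : IsMulCommutative O := ⟨⟨fun a b => Subtype.ext (by
    by_cases ha : (a : G) ∈ center G
    · exact (mem_center_iff.1 ha b).symm
    · exact (mem_cen.1 (claim3 a a.2 ha b.2)).eq.symm)⟩⟩
  obtain ⟨y, r, j, hr, hyr, hyo, hy⟩ : ∃ (y : G) (r j : ℕ), r.Prime ∧ y ^ r ^ j = 1 ∧
      (orderOf y).Coprime p ∧ y ∉ center G := by
    by_contra hcon
    push Not at hcon
    refine hnp (isPGroup_quotient_center_of_regular_central fun y hy => ?_)
    exact mem_of_forall_primePow_mem fun z hz r j hr hj => hcon z r j hr hj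
      (Nat.Coprime.coprime_dvd_left (orderOf_dvd_of_mem_zpowers hz) hy)
  haveI := Fact.mk hr
  have hOy := hsup y hy (claim1 y hy hyo)
  have hreg : ∀ m ∈ centralizer ({y} : Set G), m ∉ center G →
      ∃ b, (orderOf b).Coprime p ∧ b ∉ center G ∧ ∃ a ∈ center G, m = a * b := by
    intro m hm hmZ
    obtain ⟨a, b, ha, hb, ⟨k, hk⟩, hbo, e⟩ := CL.exists_p_part_mul_p'_part (p := p) m
    have haZ := claim2' y hy hyo a k hk (mem_cen.1 (zpowers_le.2 hm ha))
    exact ⟨b, hbo, fun hbZ => hmZ (e ▸ mul_mem haZ hbZ), a, haZ, e⟩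
  have hinf : ∀ m ∈ centralizer ({y} : Set G), m ∈ O ⊔ center G → m ∈ center G := by
    intro m hm hm'
    obtain ⟨o, ho, z, hz, rfl⟩ := mem_sup_of_normal_left.1 hm'
    exact mul_mem (claim2 y hy hyo o ho
      (mem_cen.1 ((mul_mem_cancel_right (center_le_cen y hz)).1 hm))) hz
  have claim4 : centralizer {x} = O ⊔ center G := by
    refine le_antisymm ?_ (sup_le (claim3 x hxO hxZ) (center_le_cen x))
    intro g hg
    obtain ⟨o, ho, m, hm, rfl⟩ :=
      mem_sup_of_normal_left.1 (hOy ▸ mem_top g : g ∈ O ⊔ centralizer {y})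
    have hmx : m ∈ centralizer ({x} : Set G) :=
      (mul_mem_cancel_left (claim3 x hxO hxZ ho)).1 hg
    refine mul_mem (mem_sup_left ho) (mem_sup_right ?_)
    by_contra hmZ
    obtain ⟨b, hbo, hbZ, a, ha, rfl⟩ := hreg m hm hmZ
    exact hxZ (claim2 b hbZ hbo x hxO
      (mem_cen'.1 ((mul_mem_cancel_left (center_le_cen x ha)).1 hmx)))
  have hchar : ∀ L : Subgroup G, L.Characteristic → O ⊔ center G ≤ L →
      L ≤ O ⊔ center G ∨ L = ⊤ := by
    intro L hL h1
    rcases hc x hxZ L hL with h2 | h2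
    · exact Or.inl (claim4 ▸ h2)
    · exact Or.inr (by rwa [claim4, sup_eq_left.2 h1] at h2)
  have hAnil : Group.IsNilpotent (centralizer ({y} : Set G)) := by
    refine isNilpotent_of_regular_central (p := r) fun w hw => ?_
    rw [← Subgroup.orderOf_coe] at hw
    have h1 := hle hy (mem_cen'.1 w.2) (coprime_orderOf_of_pow hyr hw)
    rw [mem_center_iff]
    exact fun g => Subtype.ext (mem_cen.1 (h1 g.2)).eq
  have hG' : _root_.commutator G ≤ O ⊔ center G := by
    rcases hchar (_root_.commutator G ⊔ (O ⊔ center G)) inferInstance le_sup_right with h1 | h1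
    · exact le_sup_left.trans h1
    exfalso
    set A := centralizer ({y} : Set G) with hAdef
    let f := (QuotientGroup.mk' (O ⊔ center G)).comp A.subtype
    have hf : Function.Surjective f := by
      intro g
      obtain ⟨g, rfl⟩ := QuotientGroup.mk'_surjective _ g
      obtain ⟨o, ho, m, hm, rfl⟩ := mem_sup_of_normal_left.1 (hOy ▸ mem_top g : g ∈ O ⊔ A)
      refine ⟨⟨m, hm⟩, ?_⟩
      have : QuotientGroup.mk' (O ⊔ center G) o = 1 := (QuotientGroup.eq_one_iff o).2 (mem_sup_left ho)
      rw [map_mul, this, one_mul]; rfl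
    haveI : Group.IsNilpotent (G ⧸ (O ⊔ center G)) := Group.nilpotent_of_surjective f hf
    haveI : Nontrivial (G ⧸ (O ⊔ center G)) := QuotientGroup.nontrivial_iff.2 fun e =>
      hy (hinf y (self_mem_cen y) (e ▸ mem_top y))
    refine (Group.IsSolvable.commutator_lt_top_of_nontrivial (G ⧸ (O ⊔ center G))).ne ?_
    have h2 := congrArg (Subgroup.map (QuotientGroup.mk' (O ⊔ center G))) h1
    rw [Subgroup.map_sup, (Subgroup.map_eq_bot_iff (O ⊔ center G)).2 (QuotientGroup.ker_mk' _).ge,
      sup_bot_eq, _root_.commutator_def, Subgroup.map_commutator,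
      map_top_of_surjective _ (QuotientGroup.mk'_surjective _)] at h2
    exact h2
  set π := QuotientGroup.mk' (center G) with hπ
  have hπ1 : ∀ g, π g = 1 ↔ g ∈ center G := fun g => QuotientGroup.eq_one_iff g
  set K := O.map π with hK
  set Q := (centralizer ({y} : Set G)).map π with hQ
  haveI : K.Normal := Normal.map inferInstance _ (QuotientGroup.mk'_surjective _)
  have hK0 : K ≠ ⊥ := fun e => hxZ ((hπ1 x).1 (mem_bot.1 (e ▸ mem_map_of_mem π hxO)))
  have hQ0 : Q ≠ ⊥ := fun e => hy ((hπ1 y).1 (mem_bot.1 (e ▸ mem_map_of_mem π (self_mem_cen y))))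
  have hfpf : ∀ h ∈ Q, h ≠ 1 → K ⊓ centralizer {h} = ⊥ := by
    rintro _ ⟨m, hm, rfl⟩ h1
    obtain ⟨b, hbo, hbZ, a, ha, rfl⟩ := hreg m hm fun e => h1 ((hπ1 m).2 e)
    rw [eq_bot_iff]
    rintro _ ⟨⟨v, hv, rfl⟩, h2⟩
    rw [map_mul, (hπ1 a).2 ha, one_mul] at h2
    exact mem_bot.2 ((hπ1 v).2 (claim2 b hbZ hbo v hv (commute_of_commutator_mem_center
      (commutator_mem_of_commute_mk (mem_cen.1 h2)) (hco v hv b hbo))))
  have hcompl : K.IsComplement' Q := by
    refine isComplement'_of_disjoint_and_mul_eq_univ (disjoint_iff.2 (eq_bot_iff.2 ?_)) ?_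
    · rintro _ ⟨⟨v, hv, rfl⟩, m, hm, e⟩
      obtain ⟨z, hz, rfl⟩ := (QuotientGroup.mk'_eq_mk' _).1 e
      exact mem_bot.2 ((hπ1 _).2 (claim2 y hy hyo _ hv
        (mem_cen.1 (mul_mem hm (center_le_cen y hz)))))
    · rw [← normal_mul, ← Subgroup.map_sup, hOy,
        map_top_of_surjective _ (QuotientGroup.mk'_surjective _), coe_top]
  obtain ⟨h1, h2⟩ := frobeniusKernel_eq_of_fpf hcompl hK0 hQ0 hfpf
  refine ⟨Q, K, p, hp, h1, ?_, inferInstance, h2.symm, inferInstance, ?_⟩
  · haveI : IsMulCommutative Q := ⟨⟨by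
      rintro ⟨_, a, ha, rfl⟩ ⟨_, b, hb, rfl⟩
      refine Subtype.ext ?_
      show π a * π b = π b * π a
      rw [← commutatorElement_eq_one_iff_mul_comm, ← map_commutatorElement, hπ1]
      refine hinf _ ?_ (hG' (commutator_mem_commutator (mem_top a) (mem_top b)))
      rw [commutatorElement_def]
      exact mul_mem (mul_mem (mul_mem ha hb) (inv_mem ha)) (inv_mem hb)⟩⟩
    haveI := CL.Frob.isCyclic_of_comm hK0 le_normalizer_of_normal hfpf
    obtain ⟨s, hs, hd⟩ := Nat.exists_prime_and_dvd (mt card_eq_one.1 hQ0)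
    haveI := Fact.mk hs
    obtain ⟨⟨_, u, hu, rfl⟩, hus⟩ := exists_prime_orderOf_dvd_card' s hd
    rw [← Subgroup.orderOf_coe] at hus
    have hcc : ∀ a b : G, Commute (a : G ⧸ (O ⊔ center G)) b := fun a b => by
      rw [← commutatorElement_eq_one_iff_commute, ← QuotientGroup.mk'_apply,
        ← QuotientGroup.mk'_apply, ← map_commutatorElement, QuotientGroup.mk'_apply,
        QuotientGroup.eq_one_iff]
      exact hG' (commutator_mem_commutator (mem_top a) (mem_top b))
    let L : Subgroup G :=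
      { carrier := {w | w ^ s ∈ O ⊔ center G}
        one_mem' := by simp
        mul_mem' := fun {a b} ha hb => by
          have ha' := (QuotientGroup.eq_one_iff (N := O ⊔ center G) (a ^ s)).2 ha
          have hb' := (QuotientGroup.eq_one_iff (N := O ⊔ center G) (b ^ s)).2 hb
          rw [QuotientGroup.mk_pow] at ha' hb'
          show (a * b) ^ s ∈ O ⊔ center G
          rw [← QuotientGroup.eq_one_iff, QuotientGroup.mk_pow, QuotientGroup.mk_mul,
            (hcc a b).mul_pow, ha', hb', one_mul]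
        inv_mem' := fun {a} ha => by
          show a⁻¹ ^ s ∈ O ⊔ center G
          rw [inv_pow]; exact inv_mem ha }
    have hL : L.Characteristic := by
      rw [characteristic_iff_le_comap]
      intro φ w hw
      have := characteristic_iff_le_comap.1
        (inferInstance : (O ⊔ center G).Characteristic) φ hw
      show φ w ^ s ∈ O ⊔ center G
      simpa using this
    have hus' : u ^ s ∈ center G := by
      rw [← hπ1, map_pow]; exact orderOf_dvd_iff_pow_eq_one.1 hus.dvd
    rcases hchar L hL (fun w hw => pow_mem hw s) with h3 | h3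
    · exfalso
      have h4 := (hπ1 u).2 (hinf u hu (h3 (mem_sup_right hus' : u ^ s ∈ O ⊔ center G)))
      simp only [h4, orderOf_one] at hus
      exact hs.one_lt.ne hus
    · obtain ⟨⟨_, g, hg, rfl⟩, hgen⟩ := IsCyclic.exists_ofOrder_eq_natCard (α := Q)
      have h4 : g ^ s ∈ center G := hinf _ (pow_mem hg s) (h3 ▸ mem_top g : g ∈ L)
      have h5 : Nat.card Q ∣ s := by
        rw [← hgen, orderOf_dvd_iff_pow_eq_one]
        exact Subtype.ext (by
          show π g ^ s = 1
          rw [← map_pow, hπ1]; exact h4)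
      rw [Nat.dvd_antisymm h5 hd]; exact hs
  · let L : Subgroup G :=
      { carrier := {w | ∃ v ∈ O, w = v ^ p}
        one_mem' := ⟨1, one_mem _, by simp⟩
        mul_mem' := by
          rintro _ _ ⟨a, ha, rfl⟩ ⟨b, hb, rfl⟩
          exact ⟨a * b, mul_mem ha hb, (Commute.mul_pow (setLike_mul_comm ha hb) p).symm⟩
        inv_mem' := by
          rintro _ ⟨a, ha, rfl⟩
          exact ⟨a⁻¹, inv_mem ha, (inv_pow a p).symm⟩ }
    have hL : L.Characteristic := by
      rw [characteristic_iff_le_comap]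
      rintro φ _ ⟨v, hv, rfl⟩
      exact ⟨φ v, characteristic_iff_le_comap.1 (inferInstance : O.Characteristic) φ hv,
        map_pow _ _ _⟩
    rcases hc y hy L hL with h3 | h3
    · rintro _ ⟨v, hv, rfl⟩
      rw [← map_pow, hπ1]
      exact claim2 y hy hyo _ (pow_mem hv p) (mem_cen.1 (h3 ⟨v, hv, rfl⟩))
    · exfalso
      have h4 : ∀ k : ℕ, ∀ u ∈ O, ∃ v ∈ O, π u = π v ^ p ^ k := by
        intro k
        induction k with
        | zero => exact fun u hu => ⟨u, hu, by simp⟩
        | succ k ih =>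
          intro u hu
          obtain ⟨v, hv, e⟩ := ih u hu
          obtain ⟨_, ⟨w, hw, rfl⟩, m, hm, e'⟩ := mem_sup_of_normal_left.1 (h3 ▸ mem_top v : v ∈ L ⊔ _)
          have h5 : m ∈ O := (mul_mem_cancel_left (pow_mem hw p)).1 (e' ▸ hv)
          refine ⟨w, hw, ?_⟩
          rw [e, ← e', map_mul, (hπ1 m).2 (claim2 y hy hyo m h5 (mem_cen.1 hm)), mul_one, map_pow,
            ← pow_mul, pow_succ']
      obtain ⟨k, hk⟩ := IsPGroup.iff_card.1 hOp
      obtain ⟨v, hv, e⟩ := h4 k x hxO
      rw [← map_pow, ← hk, orderOf_dvd_iff_pow_eq_one.1 (O.orderOf_dvd_natCard hv), map_one] at e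
      exact hxZ ((hπ1 x).1 e)

open Subgroup CL.CS in
theorem main {G : Type*} [Group G] [Finite G] (N : Subgroup G) [N.Normal]
    (h : ∀ x : G, x ∈ N → x ∉ Subgroup.centralizer (N : Set G) → IsCoatom (Subgroup.centralizer ({x} : Set G))) :
    (∃ p : ℕ, p.Prime ∧ Cfsg.IsElementaryAbelian p (⊤ : Subgroup (↥N ⧸ Subgroup.center ↥N))) ∨
    (∃ (Q K : Subgroup (↥N ⧸ Subgroup.center ↥N)) (p : ℕ), p.Prime ∧ Cfsg.IsFrobeniusComplement Q ∧ (Nat.card ↥Q).Prime ∧
      K.Normal ∧ (K : Set (↥N ⧸ Subgroup.center ↥N)) = Cfsg.frobeniusKernel Q ∧ Cfsg.IsElementaryAbelian p K) := by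
  have hZ : ∀ x : N, x ∈ center N ↔ (x : G) ∈ centralizer (N : Set G) := fun x => by
    rw [mem_center_iff, mem_centralizer_iff]
    exact ⟨fun h1 g hg => congrArg Subtype.val (h1 ⟨g, hg⟩), fun h1 g => Subtype.ext (h1 g g.2)⟩
  have hc : ∀ x : N, x ∉ center N → ∀ K : Subgroup N, K.Characteristic →
      K ≤ centralizer {x} ∨ K ⊔ centralizer {x} = ⊤ := by
    intro x hx K hK
    rw [cen_subgroup]
    haveI : (K.map N.subtype).Normal := ConjAct.normal_of_characteristic_of_normal
    rcases (h x x.2 (mt (hZ x).2 hx)).le_iff.1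
      (le_sup_right : _ ≤ K.map N.subtype ⊔ centralizer {(x : G)}) with h1 | h1
    · right
      rw [eq_top_iff]
      intro g _
      obtain ⟨_, ⟨k, hk, rfl⟩, m, hm, e⟩ := mem_sup_of_normal_left.1 (h1 ▸ mem_top (g : G))
      have h2 : k⁻¹ * g ∈ (centralizer {(x : G)}).subgroupOf N := by
        rw [mem_subgroupOf, coe_mul, ← e]; simpa using hm
      simpa using mul_mem (mem_sup_left hk) (mem_sup_right h2 : k⁻¹ * g ∈ K ⊔ _)
    · exact Or.inl fun k hk => (le_sup_left.trans h1.le) (mem_map_of_mem _ hk)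
  have hleG : ∀ {x y : G}, x ∈ N → y ∈ N → x ∉ centralizer (N : Set G) → Commute x y →
      (orderOf x).Coprime (orderOf y) → centralizer {x} ≤ centralizer ({y} : Set G) := by
    intro x y hx hy hxZ hxy hco
    have h1 := cen_mul_of_coprime hxy hco
    have h2 : x * y ∉ centralizer (N : Set G) := fun e =>
      hxZ (le_cen_iff.1 ((le_cen_iff.2 e).trans (h1.le.trans inf_le_left)))
    rcases (h _ (mul_mem hx hy) h2).le_iff.1 (h1.le.trans inf_le_left) with h4 | h4
    · exact absurd h4 (h x hx hxZ).1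
    · rw [h4, h1]; exact inf_le_right
  have hle : ∀ {x y : N}, x ∉ center N → Commute x y → (orderOf x).Coprime (orderOf y) →
      centralizer {x} ≤ centralizer ({y} : Set N) := by
    intro x y hx hxy hco
    rw [cen_subgroup, cen_subgroup]
    exact subgroupOf_mono _ (hleG x.2 y.2 (mt (hZ x).2 hx) (congrArg Subtype.val hxy.eq)
      (by rwa [Subgroup.orderOf_coe, Subgroup.orderOf_coe]))
  by_cases hnil : Group.IsNilpotent N
  · exact Or.inl (nilp_case hc hnil)
  right
  obtain ⟨p, hp, hO⟩ : ∃ p : ℕ, p.Prime ∧ ¬ Cfsg.pCore p N ≤ center N := by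
    by_contra hcon
    push Not at hcon
    set D := (center N).map N.subtype with hD
    haveI : D.Normal := ConjAct.normal_of_characteristic_of_normal
    let f : N →* G ⧸ D := (QuotientGroup.mk' D).comp N.subtype
    have hker : f.ker = center N := by
      ext x
      rw [MonoidHom.mem_ker]
      exact (QuotientGroup.eq_one_iff (x : G)).trans (mem_map_iff_mem N.subtype_injective)
    have hrange : f.range = N.map (QuotientGroup.mk' D) := by
      rw [MonoidHom.range_comp, range_subtype]
    have hodd : ∀ p : ℕ, p.Prime → p ≠ 2 → HasNormalPComplement p N := by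
      intro p hp hp2
      haveI := Fact.mk hp
      obtain ⟨P⟩ : Nonempty (Sylow p N) := inferInstance
      by_cases hP : (P : Subgroup N) ≤ center N
      · exact CL.hasNPC_of_sylow_le_center P hP
      obtain ⟨x, hxP, hx⟩ := SetLike.not_le_iff_exists.1 hP
      obtain ⟨k, hk⟩ := pow_eq_one_of_mem_isPGroup P.isPGroup' hxP
      have hk' : (x : G) ^ p ^ k = 1 := congrArg Subtype.val hk
      have hxZ := mt (hZ x).2 hx
      have hDM : D ≤ centralizer {(x : G)} := by
        rintro _ ⟨z, hz, rfl⟩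
        exact mem_cen.2 (congrArg Subtype.val (mem_center_iff.1 hz x).symm)
      have hDN : D ≤ N := map_subtype_le _
      haveI : (N.map (QuotientGroup.mk' D)).Normal :=
        Normal.map inferInstance _ (QuotientGroup.mk'_surjective _)
      have hinf : (centralizer {(x : G)}).map (QuotientGroup.mk' D) ⊓ N.map (QuotientGroup.mk' D) =
          (centralizer {(x : G)} ⊓ N).map (QuotientGroup.mk' D) := by
        refine le_antisymm ?_ (le_inf (Subgroup.map_mono inf_le_left) (Subgroup.map_mono inf_le_right))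
        rintro _ ⟨⟨a, ha, rfl⟩, hb⟩
        exact ⟨a, ⟨ha, mem_of_mk_mem_map hDN hb⟩, rfl⟩
      have hnil' : Group.IsNilpotent ↥(centralizer {(x : G)} ⊓ N) := by
        refine isNilpotent_of_regular_central (p := p) fun w hw => ?_
        rw [← Subgroup.orderOf_coe] at hw
        have h1 := hleG x.2 w.2.2 hxZ (mem_cen'.1 w.2.1) (coprime_orderOf_of_pow hk' hw)
        rw [mem_center_iff]
        exact fun g => Subtype.ext (mem_cen.1 (h1 g.2.1)).eq
      have h1 := npc (N.map (QuotientGroup.mk' D)) _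
        (CL.Prim.isCoatom_map_mk' (h x x.2 hxZ) hDM) (by rw [hinf]; exact CL.isNilpotent_map _ _)
        p hp2 ?_ ?_
      · refine CL.hasNPC_of_quotient_central (center N) le_rfl (CL.hasNPC_of_equiv h1 ?_)
        exact ((QuotientGroup.quotientMulEquivOfEq hker.symm).trans
          ((QuotientGroup.quotientKerEquivRange f).trans (MulEquiv.subgroupCongr hrange))).symm
      · rw [hinf]
        have h2 : f x ≠ 1 := fun e => hx (hker ▸ MonoidHom.mem_ker.2 e)
        obtain ⟨j, -, hj⟩ := (Nat.dvd_prime_pow hp).1 (orderOf_dvd_of_pow_eq_one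
          (show f x ^ p ^ k = 1 by rw [← map_pow, hk, map_one]))
        have h3 : j ≠ 0 := by
          rintro rfl
          exact h2 (orderOf_eq_one_iff.1 hj)
        exact ((dvd_pow_self p h3).trans hj.symm.dvd).trans (Subgroup.orderOf_dvd_natCard _
          (mem_map_of_mem _ (⟨self_mem_cen _, x.2⟩ : (x : G) ∈ _ ⊓ N)))
      · intro U hU hUp hUN
        haveI : (U.comap f).Normal := hU.comap f
        have h2 : Group.IsNilpotent (U.comap f) := by
          refine isNilpotent_of_regular_central (p := p) fun w hw => ?_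
          obtain ⟨j, hj⟩ := pow_eq_one_of_mem_isPGroup hUp w.2
          have h3 : f w = 1 := by
            rw [← orderOf_eq_one_iff]
            rw [← Subgroup.orderOf_coe] at hw
            exact Nat.eq_one_of_dvd_coprimes (hw.pow_right j) (orderOf_map_dvd f _)
              (orderOf_dvd_of_pow_eq_one hj)
          have h4 : (w : N) ∈ center N := hker ▸ MonoidHom.mem_ker.2 h3
          rw [mem_center_iff]
          exact fun g => Subtype.ext (mem_center_iff.1 h4 g)
        have h3 : U.comap f ≤ center N := by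
          refine (CL.le_fittingSubgroup h2).trans ?_
          rw [CL.fittingSubgroup_eq_iSup_pCore]
          exact iSup_le fun p => hcon p p.2
        rw [eq_bot_iff]
        intro u hu
        obtain ⟨w, rfl⟩ : u ∈ f.range := hrange ▸ hUN hu
        exact MonoidHom.mem_ker.1 (hker ▸ h3 hu)
    apply hnil
    refine CL.isNilpotent_of_forall_hasNPC fun p hp => ?_
    by_cases hp2 : p = 2
    swap
    · exact hodd p hp hp2
    subst hp2
    obtain ⟨K, hK, h1, h2, h3⟩ := CL.PiCl.exists_normal_of_forall_hasNPC (G := N)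
      {q | q.Prime ∧ q ≠ 2} fun q hq => ⟨hq.1, hodd q hq.1 hq.2⟩
    obtain ⟨S⟩ : Nonempty (Sylow 2 N) := inferInstance
    refine CL.hasNPC_of_sylow_le_center S (le_trans (fun s hs => h3 s fun q hq => ?_)
      ((CL.le_pCore ?_).trans (hcon 2 Nat.prime_two)))
    · obtain ⟨j, hj⟩ := pow_eq_one_of_mem_isPGroup S.isPGroup' hs
      exact CL.mem_pResidual_of_coprime (coprime_of_pow_of_ne hq.1 Nat.prime_two hq.2.symm hj)
    · refine IsPGroup.of_card (Nat.eq_prime_pow_of_unique_prime_dvd Nat.card_pos.ne' ?_)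
      intro r hr hd
      by_contra hne
      exact h1 r hr hd ⟨hr, hne⟩
  exact non_nilp_case hc hle hnil hp hO

/-- Let N be a normal subgroup of the finite group G such that for every element x of N outside the center of N the centralizer C_G(x) is a maximal subgroup of G. Then N/Z(N) is either an elementary abelian p-group for some prime p, or a Frobenius group whose kernel is an elementary abelian normal subgroup and whose complement has prime order. -/
theorem result {G : Type*} [Group G] [Finite G] (N : Subgroup G) [N.Normal]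
    (h : ∀ x : G, x ∈ N → x ∉ Subgroup.centralizer (N : Set G) → IsCoatom (Subgroup.centralizer ({x} : Set G))) :
    (∃ p : ℕ, p.Prime ∧ Cfsg.IsElementaryAbelian p (⊤ : Subgroup (↥N ⧸ Subgroup.center ↥N))) ∨
    (∃ (Q K : Subgroup (↥N ⧸ Subgroup.center ↥N)) (p : ℕ), p.Prime ∧ Cfsg.IsFrobeniusComplement Q ∧ (Nat.card ↥Q).Prime ∧
      K.Normal ∧ (K : Set (↥N ⧸ Subgroup.center ↥N)) = Cfsg.frobeniusKernel Q ∧ Cfsg.IsElementaryAbelian p K) := by
  exact main N h

end Cfsg.Agent.S3905
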