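import Cfsg.Statements.S3908
import Cfsg.Agent.FGS.EqOrdConj

set_option autoImplicit false
open Cfsg

namespace Cfsg.Agent.S3908

/-- Let G be a finite group in which any two abelian subgroups of the same order are conjugate. Then a Sylow 2-subgroup of G is cyclic, elementary abelian or generalized quaternion, and for an odd prime p a Sylow p-subgroup of G is cyclic or has exponent dividing p. -/
theorem result {G : Type*} [Group G] [Finite G] (hB : ∀ A B : Subgroup G, IsMulCommutative ↥A → IsMulCommutative ↥B → Nat.card ↥A = Nat.card ↥B → ∃ g : G, B = A.map (MulAut.conj g).toMonoidHom) :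
    (∀ P : Sylow 2 G, IsCyclic ↥(P : Subgroup G) ∨ Cfsg.IsElementaryAbelian 2 (P : Subgroup G) ∨ ∃ k : ℕ, Nonempty (↥(P : Subgroup G) ≃* QuaternionGroup (2 ^ k))) ∧
    ∀ (p : ℕ) [Fact p.Prime], p ≠ 2 → ∀ P : Sylow p G, IsCyclic ↥(P : Subgroup G) ∨ ∀ x ∈ (P : Subgroup G), x ^ p = 1 := by
  refine ⟨fun P => ?_, fun p _ hp2 P => ?_⟩
  · rcases CL.FGS.EqOrd.cyclic_or_quat_or_exp P.isPGroup'
      (fun A B hA hB' h1 h2 => hB A B hA hB' (h1.trans h2.symm)) with h | ⟨-, n, h⟩ | h
    · exact Or.inl h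
    · exact Or.inr (Or.inr ⟨_, h⟩)
    · exact Or.inr (Or.inl ⟨⟨⟨fun a b => Commute.of_orderOf_dvd_two
        (fun g => orderOf_dvd_of_pow_eq_one (Subtype.ext (h g g.2))) a b⟩⟩, h⟩)
  · rcases CL.FGS.EqOrd.cyclic_or_quat_or_exp P.isPGroup'
      (fun A B hA hB' h1 h2 => hB A B hA hB' (h1.trans h2.symm)) with h | ⟨h, -⟩ | h
    · exact Or.inl h
    · exact absurd h hp2
    · exact Or.inr h
end Cfsg.Agent.S3908
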