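import Cfsg.Statements.S3909

set_option autoImplicit false
open Cfsg

namespace Cfsg.Agent.S3909

/-- Let G be a finite group in which any two abelian subgroups of the same order are conjugate. Let M be a normal subgroup of G. If M contains an element of the same order as a ∈ G, then a ∈ M; and if M is elementary abelian of order p^t with p prime and t ≥ 2, then M is the unique Sylow p-subgroup of G. -/
theorem result {G : Type*} [Group G] [Finite G] (hB : ∀ A B : Subgroup G, IsMulCommutative ↥A → IsMulCommutative ↥B → Nat.card ↥A = Nat.card ↥B → ∃ g : G, B = A.map (MulAut.conj g).toMonoidHom) (M : Subgroup G) [M.Normal] :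
    (∀ a : G, (∃ m ∈ M, orderOf m = orderOf a) → a ∈ M) ∧
    ∀ (p t : ℕ) [Fact p.Prime], 2 ≤ t → Nat.card ↥M = p ^ t → Cfsg.IsElementaryAbelian p M → ∀ P : Sylow p G, (P : Subgroup G) = M := by
  have h1 : ∀ a : G, (∃ m ∈ M, orderOf m = orderOf a) → a ∈ M := by
    rintro a ⟨m, hm, hma⟩
    obtain ⟨g, hg⟩ := hB (Subgroup.zpowers m) (Subgroup.zpowers a) inferInstance inferInstance
      (by rw [Nat.card_zpowers, Nat.card_zpowers, hma])
    have : a ∈ (Subgroup.zpowers m).map (MulAut.conj g).toMonoidHom := by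
      rw [← hg]; exact Subgroup.mem_zpowers a
    obtain ⟨b, hb, rfl⟩ := this
    exact Subgroup.Normal.conj_mem inferInstance b ((Subgroup.zpowers_le).2 hm hb) g
  refine ⟨h1, ?_⟩
  intro p t hp ht hM hE P
  have hp' : p.Prime := hp.out
  have hMp : IsPGroup p M := IsPGroup.of_card hM
  refine le_antisymm ?_ (hMp.le_sylow_of_normal P)
  intro y hy
  obtain ⟨k, hk⟩ := (IsPGroup.iff_orderOf.1 P.isPGroup') ⟨y, hy⟩
  have hk' : orderOf y = p ^ k := by simpa using hk
  obtain ⟨E, hEM, hEc⟩ : ∃ E ≤ M, Nat.card E = p ^ 2 := by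
    obtain ⟨E, hE⟩ := Sylow.exists_subgroup_card_pow_prime (G := M) p (n := 2)
      (hM ▸ pow_dvd_pow p ht)
    exact ⟨E.map M.subtype, Subgroup.map_subtype_le E, by
      rw [Subgroup.card_map_of_injective M.subtype_injective, hE]⟩
  rcases Nat.lt_or_ge k 2 with hk2 | hk2
  · apply h1
    interval_cases k
    · exact ⟨1, M.one_mem, by simp [hk']⟩
    · obtain ⟨m, hm⟩ := exists_prime_orderOf_dvd_card' (G := M) p
        (hM ▸ dvd_pow_self p (by omega))
      exact ⟨m, m.2, by simpa [hk'] using hm⟩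
  · exfalso
    have hord : orderOf (y ^ (p ^ (k - 2))) = p ^ 2 := by
      rw [orderOf_pow_of_dvd (pow_ne_zero _ hp'.ne_zero) (hk' ▸ pow_dvd_pow p (by omega)), hk',
        Nat.pow_div (by omega) hp'.pos]
      congr 1; omega
    have hEab : IsMulCommutative E := by
      have := hE.1
      exact ⟨⟨fun a b => Subtype.ext (by
        have := mul_comm' (⟨a, hEM a.2⟩ : M) ⟨b, hEM b.2⟩
        exact Subtype.mk.inj this)⟩⟩
    obtain ⟨g, hg⟩ := hB E (Subgroup.zpowers (y ^ (p ^ (k - 2)))) hEab inferInstance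
      (by rw [Nat.card_zpowers, hord, hEc])
    have : y ^ (p ^ (k - 2)) ∈ E.map (MulAut.conj g).toMonoidHom := by
      rw [← hg]; exact Subgroup.mem_zpowers _
    obtain ⟨b, hb, hb2⟩ := this
    have hbp : b ^ p = 1 := hE.2 b (hEM hb)
    have : (y ^ (p ^ (k - 2))) ^ p = 1 := by
      rw [← hb2, ← map_pow, hbp, map_one]
    have h5 := orderOf_dvd_of_pow_eq_one this
    rw [hord] at h5
    have := Nat.le_of_dvd hp'.pos h5
    nlinarith [hp'.two_le]

end Cfsg.Agent.S3909
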