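import Cfsg.Statements.S3910
import Cfsg.Agent.FGS.CyclicCrit

set_option autoImplicit false
open Cfsg

namespace Cfsg.Agent.S3910

universe u

theorem aux (n : ℕ) : ∀ (G : Type u) [Group G] [Finite G], Nat.card G = n → Group.IsNilpotent G →
    (∀ x y : G, orderOf x = orderOf y →
      ∃ g : G, Subgroup.zpowers y = (Subgroup.zpowers x).map (MulAut.conj g).toMonoidHom) →
    IsCyclic G := by
  induction n using Nat.strong_induction_on with
  | _ n ih =>
  intro G _ _ hn hnil hB
  -- elements of the same prime order generate each other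
  have hprime : ∀ p : ℕ, p.Prime → ∀ x y : G, orderOf x = p → orderOf y = p →
      y ∈ Subgroup.zpowers x := by
    intro p hp x y hx hy
    obtain ⟨z, hzc, hz⟩ := CL.FGS.exists_center_orderOf_eq_prime (G := G) hp
      (hx ▸ orderOf_dvd_natCard x)
    have key : ∀ w : G, orderOf w = p → Subgroup.zpowers w = Subgroup.zpowers z := by
      intro w hw
      obtain ⟨g, hg⟩ := hB z w (hz.trans hw.symm)
      rw [hg, MonoidHom.map_zpowers]
      congr 1
      simp [(Subgroup.mem_center_iff.1 hzc g)]
    rw [key x hx, ← key y hy]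
    exact Subgroup.mem_zpowers y
  have hcyc : ∀ A : Subgroup G, IsMulCommutative A → IsCyclic A := by
    intro A hA
    exact CL.FGS.isCyclic_subgroup_of_forall_mem_zpowers_of_prime A
      (fun p hp x _ y _ hx hy => hprime p hp x y hx hy)
  by_cases hs : Subsingleton G
  · infer_instance
  have hnt : Nontrivial G := not_subsingleton_iff_nontrivial.1 hs
  set Z := Subgroup.center G with hZ
  have hZne : Z ≠ ⊥ := Group.IsNilpotent.center_ne_bot G
  have hlt : Nat.card (G ⧸ Z) < n := by
    rw [← hn, ← Subgroup.index_eq_card, ← Z.card_mul_index]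
    have h1 := (Subgroup.one_lt_card_iff_ne_bot Z).2 hZne
    have h2 : 0 < Z.index := Nat.pos_of_ne_zero Subgroup.index_ne_zero_of_finite
    nlinarith
  have hq : IsCyclic (G ⧸ Z) := by
    apply ih _ hlt (G ⧸ Z) rfl inferInstance
    intro x y hxy
    -- preimages
    have hab : ∀ w : G ⧸ Z,
        IsMulCommutative ((Subgroup.zpowers w).comap (QuotientGroup.mk' Z)) := by
      intro w
      let f : ((Subgroup.zpowers w).comap (QuotientGroup.mk' Z)) →* Subgroup.zpowers w :=
        ((QuotientGroup.mk' Z).comp (Subgroup.subtype _)).codRestrict _ (fun a => a.2)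
      apply f.isMulCommutative_of_isCyclic_of_ker_le_center
      intro a ha
      have : (a : G) ∈ Z := by
        have h1 : ((f a : Subgroup.zpowers w) : G ⧸ Z) = 1 := by rw [ha]; rfl
        exact (QuotientGroup.eq_one_iff _).1 h1
      rw [Subgroup.mem_center_iff]
      intro b
      exact Subtype.ext (Subgroup.mem_center_iff.1 this b)
    have hcard : ∀ w : G ⧸ Z, Nat.card ((Subgroup.zpowers w).comap (QuotientGroup.mk' Z)) =
        Nat.card Z * orderOf w := by
      intro w
      rw [← Nat.card_zpowers]
      exact QuotientGroup.card_preimage_mk Z (Subgroup.zpowers w : Set (G ⧸ Z))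
    obtain ⟨a, ha⟩ := (Subgroup.isCyclic_iff_exists_zpowers_eq_top _).1 (hcyc _ (hab x))
    obtain ⟨b, hb⟩ := (Subgroup.isCyclic_iff_exists_zpowers_eq_top _).1 (hcyc _ (hab y))
    obtain ⟨g, hg⟩ := hB a b (by rw [← Nat.card_zpowers, ← Nat.card_zpowers, ha, hb, hcard, hcard, hxy])
    refine ⟨QuotientGroup.mk g, ?_⟩
    have hx : Subgroup.zpowers x = (Subgroup.zpowers a).map (QuotientGroup.mk' Z) := by
      rw [ha, Subgroup.map_comap_eq_self_of_surjective (QuotientGroup.mk'_surjective Z)]
    have hy : Subgroup.zpowers y = (Subgroup.zpowers b).map (QuotientGroup.mk' Z) := by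
      rw [hb, Subgroup.map_comap_eq_self_of_surjective (QuotientGroup.mk'_surjective Z)]
    rw [hx, hy, hg, Subgroup.map_map, Subgroup.map_map]
    congr 1
  have hcomm : IsMulCommutative G := isMulCommutative_of_isCyclic_quotient_center_self G
  have := hcyc ⊤ inferInstance
  exact isCyclic_of_surjective (Subgroup.topEquiv (G := G)) Subgroup.topEquiv.surjective


/-- A finite nilpotent group in which any two abelian subgroups of the same order are conjugate is cyclic. -/
theorem result {G : Type*} [Group G] [Finite G] (hB : ∀ A B : Subgroup G, IsMulCommutative ↥A → IsMulCommutative ↥B → Nat.card ↥A = Nat.card ↥B → ∃ g : G, B = A.map (MulAut.conj g).toMonoidHom) (hnil : Group.IsNilpotent G) : IsCyclic G := by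
  apply aux (Nat.card G) G rfl hnil
  intro x y hxy
  obtain ⟨g, hg⟩ := hB (Subgroup.zpowers x) (Subgroup.zpowers y) inferInstance inferInstance
    (by rw [Nat.card_zpowers, Nat.card_zpowers, hxy])
  exact ⟨g, hg⟩

end Cfsg.Agent.S3910
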