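import Cfsg.Statements.S3915
import Cfsg.Agent.FGS.NilpMax
import Cfsg.Agent.SOLV.OddOrderCor
import Cfsg.Agent.SIG.Component

set_option autoImplicit false
open Cfsg

namespace Cfsg.Agent.S3915

open Subgroup CL CL.MSS

theorem exists_two_elt {G : Type*} [Group G] [Finite G] {K : Subgroup G} (hK : IsComponent K) :
    ∃ x ∈ K, x ∉ centralizer (K : Set G) ∧ ∃ a, orderOf x = 2 ^ a := by
  by_contra hcon
  push Not at hcon
  let S : Sylow 2 K := default
  have h1 : (S : Subgroup K) ≤ center K := fun x hx => by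
    obtain ⟨a, ha⟩ := IsPGroup.iff_orderOf.1 S.isPGroup' ⟨x, hx⟩
    rw [orderOf_mk, ← orderOf_coe] at ha
    by_contra h
    exact hcon x x.2 (fun h' => h (mem_center_iff.2 fun g => Subtype.ext (h' g g.2))) a ha
  have h2 := hasNPC_of_sylow_le_center S h1
  exact hK.not_isSolvable (CL.NilpMax.isSolvable_of_sup (isSolvable_of_isPGroup S.isPGroup')
    (isSolvable_of_not_two_dvd _ (hasNPC_iff_not_dvd_card_pResidual.1 h2))
    (by rw [sup_comm]; exact pResidual_sup_sylow S))


/-- Let G be a finite group in which, for every prime p, any two cyclic p-subgroups of the same order are conjugate. If the layer E(G), the subgroup generated by the components of G, is non-trivial, then E(G)/Z(E(G)) is a non-abelian simple group. -/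
theorem result {G : Type*} [Group G] [Finite G] (hP : ∀ (p : ℕ), p.Prime → ∀ A B : Subgroup G, IsCyclic ↥A → IsCyclic ↥B → IsPGroup p ↥A → Nat.card ↥A = Nat.card ↥B → ∃ g : G, B = A.map (MulAut.conj g).toMonoidHom) (hE : Cfsg.layer G ≠ ⊥) :
    IsSimpleGroup (↥(Cfsg.layer G) ⧸ Subgroup.center ↥(Cfsg.layer G)) ∧ ¬ IsMulCommutative (↥(Cfsg.layer G) ⧸ Subgroup.center ↥(Cfsg.layer G)) := by
  have key : ∀ K L : Subgroup G, IsComponent K → IsComponent L → K ≠ L → ∀ x ∈ K, ∀ y ∈ L,
      x ∉ centralizer (K : Set G) → y ∉ centralizer (L : Set G) → ∀ a b : ℕ, orderOf x = 2 ^ a →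
      orderOf y = 2 ^ b → ¬ b ≤ a := by
    intro K L hK hL hne x hx y hy hxK hyL a b ha hb hab
    have hxL := hK.le_centralizer_of_ne hL hne hx
    have hyK := hL.le_centralizer_of_ne hK hne.symm hy
    have hxy : Commute x y := hyK x hx
    have h1 : orderOf (x * y) ∣ orderOf x :=
      hxy.orderOf_mul_dvd_lcm.trans (Nat.lcm_dvd dvd_rfl (ha ▸ hb ▸ pow_dvd_pow 2 hab))
    have h2 := orderOf_pow_orderOf_div (orderOf_pos x).ne' h1
    obtain ⟨g, hg⟩ := hP 2 Nat.prime_two (zpowers (x ^ (orderOf x / orderOf (x * y))))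
      (zpowers (x * y)) inferInstance inferInstance
      ((isPGroup_zpowers (k := a) (ha ▸ pow_orderOf_eq_one x)).to_le
        (zpowers_le.2 (npow_mem_zpowers _ _))) (by rw [Nat.card_zpowers, Nat.card_zpowers, h2])
    have h3 : x * y ∈ K.map (MulAut.conj g).toMonoidHom :=
      map_mono (zpowers_le.2 (pow_mem hx _)) (hg ▸ mem_zpowers (x * y))
    have h4 := hK.conj g
    by_cases h5 : K.map (MulAut.conj g).toMonoidHom = K
    · rw [h5] at h3
      exact hyL ((mul_mem_cancel_left hxL).1 (hK.le_centralizer_of_ne hL hne h3))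
    · exact hxK ((mul_mem_cancel_right hyK).1 (h4.le_centralizer_of_ne hK h5 h3))
  obtain ⟨K, hK⟩ : ∃ K : Subgroup G, IsComponent K := by
    by_contra h
    push Not at h
    exact hE (CL.Comp.layer_eq_bot_iff.2 h)
  have h1 : layer G = K := by
    refine le_antisymm (CL.Comp.layer_le_iff.2 fun L hL => le_of_eq ?_) hK.le_layer
    by_contra hne
    obtain ⟨x, hx, hxK, a, ha⟩ := exists_two_elt hK
    obtain ⟨y, hy, hyL, b, hb⟩ := exists_two_elt hL
    rcases le_total a b with h | h
    · exact key L K hL hK hne y hy x hx hyL hxK b a hb ha h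
    · exact key K L hK hL (Ne.symm hne) x hx y hy hxK hyL a b ha hb h
  rw [h1]
  exact ⟨hK.2.2, hK.2.not_isMulCommutative_quotient_center⟩

end Cfsg.Agent.S3915
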