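import Cfsg.Statements.S3917
import Cfsg.Agent.FGS.CyclicCrit

set_option autoImplicit false
open Cfsg

namespace Cfsg.Agent.S3917

/-- Say that a group has self-centralizing non-cyclic subgroups when every non-cyclic subgroup H satisfies C_G(H) ≤ H. A finite abelian group with self-centralizing non-cyclic subgroups is cyclic or elementary abelian of order p² for a prime p. -/
theorem result {G : Type*} [CommGroup G] [Finite G] (hX : (∀ H : Subgroup G, ¬ IsCyclic ↥H → Subgroup.centralizer (H : Set G) ≤ H)) :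
    IsCyclic G ∨ ∃ p : ℕ, p.Prime ∧ Nat.card G = p ^ 2 ∧ Monoid.exponent G = p := by
  by_cases hc : IsCyclic G
  · exact Or.inl hc
  right
  obtain ⟨p, hp, x, y, hx, hy, hyx⟩ := CL.FGS.exists_prime_pair_of_not_isCyclic hc
  have : Fact p.Prime := ⟨hp⟩
  have htop : ∀ H : Subgroup G, ¬ IsCyclic H → H = ⊤ := by
    intro H hH
    rw [eq_top_iff]
    refine le_trans ?_ (hX H hH)
    intro g _
    rw [Subgroup.mem_centralizer_iff]
    intro h _
    exact mul_comm _ _
  have hnc : ∀ H : Subgroup G, (∀ g ∈ H, g ^ p = 1) → p < Nat.card H → ¬ IsCyclic H := by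
    intro H hH hlt hcyc
    obtain ⟨g, hg⟩ := IsCyclic.exists_ofOrder_eq_natCard (α := H)
    have : orderOf g ∣ p := orderOf_dvd_of_pow_eq_one (Subtype.ext (hH g g.2))
    have := Nat.le_of_dvd hp.pos this
    omega
  have hxp : x ^ p = 1 := by rw [← hx, pow_orderOf_eq_one]
  have hyp : y ^ p = 1 := by rw [← hy, pow_orderOf_eq_one]
  have hK : (powMonoidHom p : G →* G).ker = ⊤ := by
    apply htop
    apply hnc _ (fun g hg => hg)
    have hlt : Subgroup.zpowers x < (powMonoidHom p : G →* G).ker := by
      refine lt_of_le_of_ne ((Subgroup.zpowers_le).2 hxp) ?_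
      intro h
      exact hyx (h ▸ hyp)
    by_contra hge
    push Not at hge
    exact hlt.ne (Subgroup.eq_of_le_of_card_ge hlt.le (by rwa [Nat.card_zpowers, hx]))
  have hall : ∀ g : G, g ^ p = 1 := fun g => by
    have : g ∈ (powMonoidHom p : G →* G).ker := by rw [hK]; trivial
    exact this
  have hexp : Monoid.exponent G = p :=
    Nat.dvd_antisymm (Monoid.exponent_dvd_of_forall_pow_eq_one hall)
      (hx ▸ Monoid.order_dvd_exponent x)
  refine ⟨p, hp, ?_, hexp⟩
  have hP : IsPGroup p G := fun g => ⟨1, by simpa using hall g⟩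
  obtain ⟨n, hn⟩ := hP.exists_card_eq
  have hn2 : 2 ≤ n := by
    by_contra hlt
    apply hc
    apply isCyclic_of_card_dvd_prime (p := p)
    rw [hn]
    have : n ≤ 1 := by omega
    simpa using pow_dvd_pow p this
  obtain ⟨H, hH⟩ := Sylow.exists_subgroup_card_pow_prime (G := G) p (n := 2)
    (hn ▸ pow_dvd_pow p hn2)
  have := htop H (hnc H (fun g _ => hall g) (by rw [hH]; nlinarith [hp.two_le]))
  rw [← hH, this]
  simp

end Cfsg.Agent.S3917
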