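import Cfsg.Statements.S3918
import Cfsg.Agent.FGS.CyclicCrit
import Cfsg.Agent.FGS.ClassCount
import Cfsg.Agent.S0636

set_option autoImplicit false
open Cfsg

namespace Cfsg.Agent.S3918

/-- Say that a group has self-centralizing non-cyclic subgroups when every non-cyclic subgroup H satisfies C_G(H) ≤ H. For an odd prime p, a finite non-abelian p-group has self-centralizing non-cyclic subgroups if and only if it has order p³. -/
theorem result {G : Type*} [Group G] [Finite G] {p : ℕ} [Fact p.Prime] (hp : p ≠ 2) (hG : IsPGroup p G) (hna : ¬ IsMulCommutative G) :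
    (∀ H : Subgroup G, ¬ IsCyclic ↥H → Subgroup.centralizer (H : Set G) ≤ H) ↔ Nat.card G = p ^ 3 := by
  have hpp : p.Prime := Fact.out
  obtain ⟨n, hn⟩ := hG.exists_card_eq
  have hnc : ∀ H : Subgroup G, (∀ g ∈ H, g ^ p = 1) → p < Nat.card H → ¬ IsCyclic H := by
    intro H hH hlt hcyc
    obtain ⟨g, hg⟩ := IsCyclic.exists_ofOrder_eq_natCard (α := H)
    have : orderOf g ∣ p := orderOf_dvd_of_pow_eq_one (Subtype.ext (hH g g.2))
    have := Nat.le_of_dvd hpp.pos this
    omega
  have hn3 : 3 ≤ n := by
    by_contra hlt
    apply hna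
    rcases Nat.lt_or_ge n 2 with h2 | h2
    · have : IsCyclic G := isCyclic_of_card_dvd_prime (p := p) (by
        rw [hn]; simpa using pow_dvd_pow p (show n ≤ 1 by omega))
      infer_instance
    · exact IsPGroup.isMulCommutative_of_card_eq_prime_sq (p := p) (by rw [hn]; congr 1; omega)
  constructor
  · intro hX
    have hGc : ¬ IsCyclic (⊤ : Subgroup G) := by
      intro hc
      have : IsCyclic G :=
        isCyclic_of_surjective (Subgroup.topEquiv (G := G)) Subgroup.topEquiv.surjective
      exact hna inferInstance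
    obtain ⟨E, -, hEn, hE, hEc⟩ := S0636.result hp hG ⊤ hGc
    have := hG.isNilpotent
    obtain ⟨z, hzE, hz1, hzc⟩ := CL.FGS.exists_mem_center_of_normal_ne_bot E (by
      intro h; rw [h, Subgroup.card_bot] at hEc; nlinarith [hpp.two_le])
    have hzo : orderOf z = p := orderOf_eq_prime (hE.2 z hzE) hz1
    obtain ⟨y, hyE, hyz⟩ : ∃ y ∈ E, y ∉ Subgroup.zpowers z := by
      by_contra hcon
      push Not at hcon
      have := Subgroup.card_le_of_le (show E ≤ Subgroup.zpowers z from hcon)
      rw [Nat.card_zpowers, hzo, hEc] at this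
      nlinarith [hpp.two_le]
    have hHE : Subgroup.closure {z, y} ≤ E := by
      rw [Subgroup.closure_le]
      rintro _ (rfl | rfl) <;> assumption
    have hH : ¬ IsCyclic (Subgroup.closure ({z, y} : Set G)) := by
      apply hnc _ (fun g hg => hE.2 g (hHE hg))
      by_contra hge
      push Not at hge
      have h1 : Subgroup.zpowers z ≤ Subgroup.closure ({z, y} : Set G) :=
        Subgroup.zpowers_le.2 (Subgroup.subset_closure (by simp))
      have := Subgroup.eq_of_le_of_card_ge h1 (by rwa [Nat.card_zpowers, hzo])
      exact hyz (this ▸ Subgroup.subset_closure (by simp))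
    have hC : Subgroup.centralizer {y} ≤ E := by
      refine le_trans ?_ ((hX _ hH).trans hHE)
      intro c hc
      rw [Subgroup.centralizer_closure, Subgroup.mem_centralizer_iff]
      rintro _ (rfl | rfl)
      · exact (Subgroup.mem_center_iff.1 hzc c).symm
      · exact (Subgroup.mem_centralizer_singleton_iff.1 hc).symm
    have hidx : (Subgroup.centralizer {y}).index < p ^ 2 := by
      rw [← CL.ncard_isConj_eq_index, ← hEc]
      refine Set.ncard_lt_ncard (t := (E : Set G)) ⟨?_, ?_⟩ (Set.toFinite _)
      · rintro x hx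
        obtain ⟨c, rfl⟩ := isConj_iff.1 hx
        exact hEn.conj_mem y hyE c
      · intro h
        have := h E.one_mem
        apply hyz
        rw [isConj_one_left.1 this]
        exact Subgroup.one_mem _
    obtain ⟨k, hk⟩ := hG.index (Subgroup.centralizer {y})
    have hk2 : k < 2 := by rwa [hk, Nat.pow_lt_pow_iff_right hpp.one_lt] at hidx
    have h1 := (Subgroup.centralizer ({y} : Set G)).card_mul_index
    have h2 := Subgroup.card_le_of_le hC
    rw [hEc] at h2
    have h3 : p ^ n ≤ p ^ 3 := by
      rw [← hn, ← h1, hk]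
      calc _ ≤ p ^ 2 * p ^ 1 := Nat.mul_le_mul h2 (Nat.pow_le_pow_right hpp.pos (by omega))
        _ = p ^ 3 := by ring
    rw [Nat.pow_le_pow_iff_right hpp.one_lt] at h3
    rw [hn]; congr 1; omega
  · intro hc H hH
    obtain ⟨k, hk3, hk⟩ := (Nat.dvd_prime_pow hpp).1 (hc ▸ H.card_subgroup_dvd_card)
    have hk2 : 2 ≤ k := by
      by_contra hlt
      exact hH (isCyclic_of_card_dvd_prime (p := p) (by
        rw [hk]; simpa using pow_dvd_pow p (show k ≤ 1 by omega)))
    rcases Nat.lt_or_ge k 3 with h3 | h3
    · obtain rfl : k = 2 := by omega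
      have hab := IsPGroup.isMulCommutative_of_card_eq_prime_sq (p := p) hk
      have hle := H.le_centralizer
      obtain ⟨l, hl3, hl⟩ := (Nat.dvd_prime_pow hpp).1
        (hc ▸ (Subgroup.centralizer (H : Set G)).card_subgroup_dvd_card)
      rcases Nat.lt_or_ge l 3 with h4 | h4
      · refine (Subgroup.eq_of_le_of_card_ge hle ?_).ge
        rw [hk, hl]; exact Nat.pow_le_pow_right hpp.pos (by omega)
      · exfalso
        have htop : Subgroup.centralizer (H : Set G) = ⊤ :=
          Subgroup.eq_top_of_card_eq _ (by rw [hl, hc]; congr 1; omega)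
        have hHZ : H ≤ Subgroup.center G := Subgroup.centralizer_eq_top_iff_subset.1 htop
        have hidx : H.index = p := by
          have := H.card_mul_index
          rw [hk, hc, pow_succ p 2] at this
          exact Nat.eq_of_mul_eq_mul_left (pow_pos hpp.pos 2) this
        have : IsCyclic (G ⧸ Subgroup.center G) :=
          isCyclic_of_card_dvd_prime (p := p) (hidx ▸ Subgroup.index_dvd_of_le hHZ)
        exact hna (isMulCommutative_of_isCyclic_quotient_center_self G)
    · have : H = ⊤ := Subgroup.eq_top_of_card_eq _ (by rw [hk, hc]; congr 1; omega)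
      rw [this]; exact le_top

end Cfsg.Agent.S3918
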