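import Cfsg.Statements.S3919
import Cfsg.Agent.SOLV.MaxClass

set_option autoImplicit false
open Cfsg

namespace Cfsg.Agent.S3919

/-- Say that a group has self-centralizing non-cyclic subgroups when every non-cyclic subgroup H satisfies C_G(H) ≤ H. A finite non-abelian 2-group G of order 2^n has self-centralizing non-cyclic subgroups if and only if G has nilpotency class n − 1 (that is, G is dihedral, semidihedral or generalized quaternion). -/
theorem result {G : Type*} [Group G] [Finite G] (hna : ¬ IsMulCommutative G) (n : ℕ) (hG : Nat.card G = 2 ^ n) :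
    (∀ H : Subgroup G, ¬ IsCyclic ↥H → Subgroup.centralizer (H : Set G) ≤ H) ↔ (⊤ : Subgroup G).lowerCentralSeries (n - 2) ≠ ⊥ := by
  have hP : IsPGroup 2 G := IsPGroup.of_card hG
  have := hP.isNilpotent
  have h3 : 3 ≤ n := by
    by_contra h
    apply hna
    rcases (by omega : n = 0 ∨ n = 1 ∨ n = 2) with rfl | rfl | rfl
    · have := isCyclic_of_card_dvd_prime (α := G) (p := 2) (by simp [hG])
      infer_instance
    · have := isCyclic_of_card_dvd_prime (α := G) (p := 2) (by simp [hG])
      infer_instance
    · exact IsPGroup.isMulCommutative_of_card_eq_prime_sq hG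
  obtain ⟨m, rfl⟩ : ∃ m, n = m + 3 := ⟨n - 3, by omega⟩
  constructor
  · intro h
    rw [CL.PCyc.lowerCentralSeries_ne_bot_iff]
    rcases CL.PCyc.isCyclic_or_normal_elemAb_or_isDQS hP with h1 | ⟨E, -, hE, hc⟩ |
      ⟨-, k, a, b, h1⟩
    · exact absurd (inferInstance : IsMulCommutative G) hna
    · rw [CL.PCyc.nilpotencyClass_of_selfCentralizing hG hc
        (h E (CL.PCyc.not_isCyclic_of_elemAb Nat.prime_two hE (by omega)))]
      omega
    · have := Nat.pow_right_injective le_rfl (hG.symm.trans h1.card_eq)
      rw [h1.nilpotencyClass_eq]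
      omega
  · intro h H hH
    obtain ⟨a, b, h1⟩ := CL.PCyc.exists_isDQS_of_lowerCentralSeries hG h
    exact h1.centralizer_le_of_not_isCyclic hH

end Cfsg.Agent.S3919
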