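import Cfsg.Statements.S3920

set_option autoImplicit false
open Cfsg

namespace Cfsg.Agent.S3920

open DihedralGroup


/-- Say that a group has self-centralizing non-cyclic subgroups when every non-cyclic subgroup H satisfies C_G(H) ≤ H. For n ≥ 3, the dihedral group of order 2n has self-centralizing non-cyclic subgroups if and only if n is odd or a power of 2. -/
theorem result (n : ℕ) (hn : 3 ≤ n) : (∀ H : Subgroup (DihedralGroup n), ¬ IsCyclic ↥H → Subgroup.centralizer (H : Set (DihedralGroup n)) ≤ H) ↔ (Odd n ∨ ∃ k : ℕ, n = 2 ^ k) := by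
  have hn0 : NeZero n := ⟨by omega⟩
  constructor
  · intro h
    by_contra hcon
    push Not at hcon
    obtain ⟨hodd, hpow⟩ := hcon
    obtain ⟨k, m, hm, hkm⟩ := Nat.exists_eq_two_pow_mul_odd (n := n) (by omega)
    have hm1 : m ≠ 1 := by rintro rfl; exact hpow k (by simpa using hkm)
    obtain ⟨j, rfl⟩ : ∃ j, k = j + 1 := by
      cases k with
      | zero => exact absurd (by simpa [hkm] using hm) hodd
      | succ j => exact ⟨j, rfl⟩
    have hd : 2 ^ (j + 1) ∣ n := ⟨m, hkm⟩
    let φ : ZMod n →+* ZMod (2 ^ (j + 1)) := ZMod.castHom hd _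
    let H : Subgroup (DihedralGroup n) :=
      { carrier := {g | ∃ i, φ i = 0 ∧ (g = r i ∨ g = sr i)}
        one_mem' := ⟨0, map_zero φ, Or.inl rfl⟩
        mul_mem' := by
          rintro a b ⟨i, hi, rfl | rfl⟩ ⟨l, hl, rfl | rfl⟩
          · exact ⟨i + l, by simp [hi, hl], Or.inl rfl⟩
          · exact ⟨l - i, by simp [hi, hl], Or.inr rfl⟩
          · exact ⟨i + l, by simp [hi, hl], Or.inr rfl⟩
          · exact ⟨l - i, by simp [hi, hl], Or.inl rfl⟩
        inv_mem' := by
          rintro a ⟨i, hi, rfl | rfl⟩
          · exact ⟨-i, by simp [hi], Or.inl rfl⟩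
          · exact ⟨i, hi, Or.inr rfl⟩ }
    have hnc : ¬ IsCyclic H := by
      intro hc
      have h1 : r ((2 ^ (j + 1) : ℕ) : ZMod n) ∈ H :=
        ⟨_, by rw [map_natCast, ZMod.natCast_self], Or.inl rfl⟩
      have h2 : sr (0 : ZMod n) ∈ H := ⟨0, map_zero φ, Or.inr rfl⟩
      have h3 := setLike_mul_comm (s := H) h1 h2
      simp only [r_mul_sr, sr_mul_r, sr.injEq, zero_sub, zero_add] at h3
      have h4 : ((2 ^ (j + 1) * 2 : ℕ) : ZMod n) = 0 := by
        rw [Nat.cast_mul]; push_cast at h3 ⊢; linear_combination -h3
      rw [ZMod.natCast_eq_zero_iff, hkm] at h4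
      have h5 : m ∣ 2 := Nat.dvd_of_mul_dvd_mul_left (by positivity) h4
      have := (Nat.dvd_prime Nat.prime_two).1 h5
      rcases this with h6 | h6
      · exact hm1 h6
      · rw [h6] at hm; exact absurd hm (by decide)
    have hz : r ((2 ^ j * m : ℕ) : ZMod n) ∈ Subgroup.centralizer (H : Set (DihedralGroup n)) := by
      have h2 : ((2 ^ j * m : ℕ) : ZMod n) + ((2 ^ j * m : ℕ) : ZMod n) = 0 := by
        rw [← Nat.cast_add, ZMod.natCast_eq_zero_iff]
        exact ⟨1, by rw [hkm]; ring⟩
      rw [Subgroup.mem_centralizer_iff]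
      rintro g -
      cases g with
      | r i => simp [add_comm]
      | sr i =>
        simp only [r_mul_sr, sr_mul_r, sr.injEq]
        linear_combination h2
    obtain ⟨i, hi, h1 | h1⟩ := h H hnc hz
    · simp only [r.injEq] at h1
      rw [← h1, map_natCast, ZMod.natCast_eq_zero_iff, pow_succ] at hi
      have h5 : 2 ∣ m := Nat.dvd_of_mul_dvd_mul_left (by positivity) hi
      exact (Nat.not_even_iff_odd.2 hm) (even_iff_two_dvd.2 h5)
    · cases h1
  · intro hcase H hH
    obtain ⟨j, hj⟩ : ∃ j, sr j ∈ H := by
      by_contra hcon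
      push Not at hcon
      apply hH
      apply Subgroup.isCyclic_of_le (H' := Subgroup.zpowers (r 1))
      intro g hg
      cases g with
      | r i => exact ⟨i.val, by simp⟩
      | sr i => exact absurd hg (hcon i)
    obtain ⟨i, hi0, hi⟩ : ∃ i, i ≠ 0 ∧ r i ∈ H := by
      by_contra hcon
      push Not at hcon
      apply hH
      apply Subgroup.isCyclic_of_le (H' := Subgroup.zpowers (sr j))
      intro g hg
      cases g with
      | r i =>
        have : i = 0 := by by_contra h0; exact hcon i h0 hg
        rw [this]; exact Subgroup.one_mem _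
      | sr i =>
        have h1 := H.mul_mem hj hg
        rw [sr_mul_sr] at h1
        have : i - j = 0 := by by_contra h0; exact hcon _ h0 h1
        rw [sub_eq_zero.1 this]; exact Subgroup.mem_zpowers _
    have key : ∀ m : ZMod n, -m = m → r m ∈ H := by
      intro m hm
      rcases (ZMod.neg_eq_self_iff m).1 hm with h0 | h0
      · rw [h0]; exact H.one_mem
      rcases hcase with hodd | ⟨k, hk⟩
      · exact absurd (h0 ▸ hodd) (by simp)
      have hx1 : (r i : DihedralGroup n) ≠ 1 := by
        rw [one_def]; intro h; exact hi0 (r.inj h)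
      have hxn : (r i : DihedralGroup n) ^ (2 ^ k) = 1 := by
        rw [← hk, r_pow, ZMod.natCast_self, mul_zero, r_zero]
      have h2 : 2 ∣ orderOf (r i : DihedralGroup n) := by
        obtain ⟨s, -, hs⟩ := (Nat.dvd_prime_pow Nat.prime_two).1 (orderOf_dvd_of_pow_eq_one hxn)
        cases s with
        | zero => exact absurd (orderOf_eq_one_iff.1 (by simpa using hs)) hx1
        | succ s => rw [hs]; exact dvd_pow_self 2 (by omega)
      have h3 := orderOf_pow_orderOf_div (orderOf_pos (r i : DihedralGroup n)).ne' h2
      have h4 := H.pow_mem hi (orderOf (r i : DihedralGroup n) / 2)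
      rw [r_pow] at h3 h4
      set t : ZMod n := i * ((orderOf (r i : DihedralGroup n) / 2 : ℕ) : ZMod n)
      have ht0 : t ≠ 0 := by
        intro h
        rw [h, r_zero, orderOf_one] at h3
        omega
      have ht : -t = t := by
        have := pow_orderOf_eq_one (r t : DihedralGroup n)
        rw [h3, r_pow, one_def, r.injEq] at this
        push_cast at this
        linear_combination -this
      have h5 := ((ZMod.neg_eq_self_iff t).1 ht).resolve_left ht0
      have : m = t := ZMod.val_injective n (by omega)
      rw [this]; exact h4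
    intro c hc
    have h1 := Subgroup.mem_centralizer_iff.1 hc _ hj
    cases c with
    | r m =>
      simp only [r_mul_sr, sr_mul_r, sr.injEq] at h1
      exact key m (by linear_combination -h1)
    | sr m =>
      simp only [sr_mul_sr, r.injEq] at h1
      have := H.mul_mem hj (key (m - j) (by linear_combination -h1))
      simpa using this

end Cfsg.Agent.S3920
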