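import Mathlib
import Cfsg.Statements.S3927
import Cfsg.Agent.FGS.EngelGen

set_option autoImplicit false
open Cfsg

namespace Cfsg.Agent.S3927

/-- Let G be a finite group and α an automorphism of G with [G, α] = G, that is, the elements g·α(g)⁻¹ generate G. Then for every k ≥ 1 the iterated commutators [g, α, …, α] with k entries α — the values of the k-th iterate of the map c ↦ c·α(c)⁻¹ — also generate G. -/
theorem result {G : Type*} [Group G] [Finite G] (α : MulAut G) (hG : Subgroup.closure (Set.range (fun c : G => c * (α c)⁻¹)) = ⊤) (k : ℕ) (hk : 1 ≤ k) :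
    Subgroup.closure (Set.range ((fun c : G => c * (α c)⁻¹)^[k])) = ⊤ := by
  refine CL.GZ.eq_top_of_periodic α hG (fun g hg => ?_) ?_
  · have hc : ∀ (n : ℕ) (c : G), α ((fun c : G => c * (α c)⁻¹)^[n] c) =
        (fun c : G => c * (α c)⁻¹)^[n] (α c) := fun n c => by
      induction n with
      | zero => rfl
      | succ n ih => rw [Function.iterate_succ_apply', Function.iterate_succ_apply', ← ih]; simp
    have : Subgroup.closure (Set.range ((fun c : G => c * (α c)⁻¹)^[k])) ≤
        (Subgroup.closure (Set.range ((fun c : G => c * (α c)⁻¹)^[k]))).comap α.toMonoidHom := by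
      rw [Subgroup.closure_le]
      rintro _ ⟨c, rfl⟩
      exact Subgroup.subset_closure ⟨α c, (hc k c).symm⟩
    exact this hg
  · rintro c ⟨n, hn, hc⟩
    refine Subgroup.subset_closure ⟨(fun c : G => c * (α c)⁻¹)^[n * k - k] c, ?_⟩
    rw [← Function.iterate_add_apply, Nat.add_sub_cancel' (Nat.le_mul_of_pos_left k hn)]
    exact (hc.mul_const k).eq

end Cfsg.Agent.S3927
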