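import Mathlib
import Cfsg.Statements.S3928
import Cfsg.Agent.FGS.OddInv
import Cfsg.Agent.FGS.EngelGen

set_option autoImplicit false
open Cfsg

namespace Cfsg.Agent.S3928

/-- There is a function f such that for every non-trivial finite group G and every automorphism α of G of order 2 with [G, α] = G (the elements g·α(g)⁻¹ generate G), the order of G is at most f(m), where m is the number of elements of odd order inverted by α. -/
theorem result : ∃ f : ℕ → ℕ, ∀ (G : Type) [Group G] [Finite G] [Nontrivial G] (α : MulAut G), orderOf α = 2 →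
    Subgroup.closure (Set.range (fun c : G => c * (α c)⁻¹)) = ⊤ →
      Nat.card G ≤ f (Nat.card {g : G // Odd (orderOf g) ∧ α g = g⁻¹}) := by
  choose f hf using CL.OddInv.exists_bound'
  refine ⟨f, fun G _ _ _ α hα hG => ?_⟩
  have h2 : α * α = 1 := by rw [← pow_two, ← hα, pow_orderOf_eq_one]
  have hαα : ∀ c, α (α c) = c := fun c => by rw [← MulAut.mul_apply, h2, MulAut.one_apply]
  have hsq : CL.GZ.xe α * CL.GZ.xe α = 1 := by
    rw [CL.GZ.xe, ← map_mul, ← map_one SemidirectProduct.inr]
    exact congrArg _ (Subtype.ext h2)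
  have hinj := SemidirectProduct.inl_injective (φ := (Subgroup.zpowers α).subtype)
  refine (Nat.card_le_card_of_injective _ hinj).trans (hf _ _ (CL.GZ.xe α) ⟨hsq, ?_, ?_⟩)
  · rw [eq_top_iff, ← CL.GZ.closure_periodic _ _ rfl _ (CL.GZ.gen_xe α hG)]
    refine Subgroup.closure_mono (Set.insert_subset_insert ?_)
    rintro w ⟨k, hk, hw⟩
    have hi : (CL.GZ.xe α)⁻¹ = CL.GZ.xe α := inv_eq_of_mul_eq_one_right hsq
    have h1 : CL.GZ.xe α * w * (CL.GZ.xe α)⁻¹ = w⁻¹ := by
      obtain ⟨k, rfl⟩ : ∃ j, k = j + 1 := ⟨k - 1, by omega⟩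
      rw [← hw.eq, Function.iterate_succ_apply', CL.GZ.cm]
      simp only [mul_inv_rev, hi, mul_assoc, hsq, mul_one, inv_inv]
    have h3 : ∀ n, (CL.GZ.cm (CL.GZ.xe α))^[n] w = w ^ 2 ^ n := fun n => by
      induction n with
      | zero => simp
      | succ n ih =>
        rw [Function.iterate_succ_apply', ih, CL.GZ.cm, ← conj_pow, h1, inv_pow, inv_inv, ← pow_add,
          pow_succ, mul_two]
    refine ⟨Odd.of_dvd_nat (n := 2 ^ k - 1) (Nat.Even.sub_odd Nat.one_le_two_pow
      (Nat.even_pow.2 ⟨even_two, hk.ne'⟩) odd_one) (orderOf_dvd_of_pow_eq_one ?_), h1⟩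
    have h4 := hw.eq
    rw [h3, ← Nat.sub_add_cancel (Nat.one_le_two_pow (n := k)), pow_succ] at h4
    exact mul_eq_right.1 h4
  · have : CL.OddInv.J (CL.GZ.xe α) ⊆
        (SemidirectProduct.inl (φ := (Subgroup.zpowers α).subtype)) ''
          {g : G | Odd (orderOf g) ∧ α g = g⁻¹} := fun w hw => by
      have h1 : w.right = 1 := by
        rw [← orderOf_eq_one_iff]
        refine Nat.eq_one_of_dvd_coprimes (Nat.coprime_two_left.2 hw.1) ?_
          (orderOf_map_dvd SemidirectProduct.rightHom w)
        rw [← hα, ← Nat.card_zpowers α]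
        exact orderOf_dvd_natCard w.right
      have h3 : w = SemidirectProduct.inl w.left := by
        conv_lhs => rw [← SemidirectProduct.inl_left_mul_inr_right w, h1, map_one, mul_one]
      refine ⟨w.left, ⟨?_, hinj ?_⟩, h3.symm⟩
      · have e := orderOf_injective (SemidirectProduct.inl (φ := (Subgroup.zpowers α).subtype)) hinj w.left
        rw [← h3] at e
        exact e ▸ hw.1
      · rw [← CL.GZ.xe_conj, map_inv, ← h3, hw.2]
    exact (Set.ncard_le_ncard this (Set.toFinite _)).trans (Set.ncard_image_le (Set.toFinite _))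

end Cfsg.Agent.S3928
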