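import Cfsg.Statements.S3933
import Cfsg.Agent.FGS.SylowNum
import Cfsg.Agent.CHAR.Burnside
import Cfsg.Agent.SOLV.Products
import Cfsg.Agent.PLOC.HallTransfer
set_option autoImplicit false
open Cfsg

namespace Cfsg.Agent.S3933

open CL Subgroup

/-- all Sylow numbers are prime powers. -/
def PP (G : Type*) [Group G] : Prop :=
  ∀ (r : ℕ) [Fact r.Prime], Nat.card (Sylow r G) = 1 ∨ IsPrimePow (Nat.card (Sylow r G))

theorem of_dvd {a b : ℕ} (h : a ∣ b) (hb : b = 1 ∨ IsPrimePow b) : a = 1 ∨ IsPrimePow a := by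
  rcases hb with rfl | hb
  · exact Or.inl (Nat.dvd_one.1 h)
  · by_cases e : a = 1
    · exact Or.inl e
    · exact Or.inr (hb.dvd h e)

theorem eq_top {G : Type*} [Group G] [Finite G] [IsSimpleGroup G] {p : ℕ} [hp : Fact p.Prime]
    (hd : p ∣ Nat.card G) {L : Subgroup G} (h1 : ¬ p ∣ L.index)
    (h2 : L.index.Coprime (Nat.card (Sylow p G))) : L = ⊤ := by
  obtain ⟨P, hP⟩ := Tr.exists_sylow_le_of_not_dvd_index h1
  rw [SN.card_sylow_eq_index P] at h2
  have hf := IsFact.of_coprime_index h2.symm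
  have hle : (P : Subgroup G) ≤ L.normalCore := fun x hx g => by
    obtain ⟨a, ha, b, hb, e⟩ := hf g⁻¹
    have e' : g = b⁻¹ * a⁻¹ := by rw [← mul_inv_rev, ← e, inv_inv]
    have : a⁻¹ * x * a⁻¹⁻¹ ∈ (P : Subgroup G) := (mem_normalizer_iff.1 (inv_mem ha) x).1 hx
    have := mul_mem (mul_mem (inv_mem hb) (hP this)) hb
    rw [e']
    convert this using 1
    group
  rcases (normalCore_normal L).eq_bot_or_eq_top with h | h
  · exact absurd (le_bot_iff.1 (h ▸ hle)) (P.ne_bot_of_dvd_card hd)
  · exact top_le_iff.1 (h ▸ normalCore_le L)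

theorem simple_case {G : Type*} [Group G] [Finite G] [IsSimpleGroup G] (h : PP G) :
    Group.IsSolvable G := by
  by_contra hs
  have key : ∀ p : ℕ, p.Prime → p ∣ Nat.card G → ∃ r k : ℕ, r.Prime ∧ r ≠ p ∧ 0 < k ∧
      Nat.card (Sylow p G) = r ^ k := fun p hp hd => by
    haveI : Fact p.Prime := ⟨hp⟩
    rcases h p with e | ⟨r, k, hr, hk, e⟩
    · obtain ⟨P⟩ : Nonempty (Sylow p G) := inferInstance
      rcases ((SN.card_sylow_eq_one_iff_normal P).1 e).eq_bot_or_eq_top with a | a
      · exact absurd a (P.ne_bot_of_dvd_card hd)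
      · have : IsPGroup p G := (a ▸ P.isPGroup').of_equiv topEquiv
        haveI := this.isNilpotent
        exact hs.elim inferInstance
    · refine ⟨r, k, hr.nat_prime, fun e' => ?_, hk, e.symm⟩
      exact not_dvd_card_sylow p G (by rw [← e, e']; exact dvd_pow_self _ hk.ne')
  choose! f k hf hne hk e using key
  have dv : ∀ p : ℕ, p.Prime → p ∣ Nat.card G → f p ∣ Nat.card G := fun p hp hd => by
    haveI : Fact p.Prime := ⟨hp⟩
    exact ((dvd_pow_self _ (hk p hp hd).ne').trans (e p hp hd).symm.dvd).trans SN.card_sylow_dvd_card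
  have main : ∀ q p : ℕ, q.Prime → q ∣ Nat.card G → p.Prime → p ∣ Nat.card G →
      p = f q ∨ f p = f q := fun q p hq hqd hp hpd => by
    haveI : Fact p.Prime := ⟨hp⟩
    haveI : Fact q.Prime := ⟨hq⟩
    by_contra! hh
    obtain ⟨Q⟩ : Nonempty (Sylow q G) := inferInstance
    have e1 := (SN.card_sylow_eq_index Q).symm.trans (e q hq hqd)
    have := eq_top hpd (L := normalizer ((Q : Subgroup G) : Set G)) (by
      rw [e1]
      exact fun a => hh.1 ((Nat.prime_dvd_prime_iff_eq hp (hf q hq hqd)).1 (hp.dvd_of_dvd_pow a)))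
      (by
        rw [e1, e p hp hpd]
        exact Nat.Coprime.pow _ _ ((Nat.coprime_primes (hf q hq hqd) (hf p hp hpd)).2 hh.2.symm))
    rw [this, index_top] at e1
    exact (Nat.one_lt_pow (hk q hq hqd).ne' (hf q hq hqd).one_lt).ne e1
  obtain ⟨q, hq, hqd⟩ := Nat.exists_prime_and_dvd (Finite.one_lt_card (α := G)).ne'
  have hr := hf q hq hqd
  have hrd := dv q hq hqd
  refine hs (Char.isSolvable_of_primes_subset_pair hr (hf _ hr hrd) fun p hp hpd => ?_)
  rcases main q p hq hqd hp hpd with a | a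
  · exact Or.inl a
  rcases main (f q) p hr hrd hp hpd with b | b
  · exact Or.inr b
  · exact absurd (b.symm.trans a) (hne _ hr hrd)

universe u in
theorem aux (n : ℕ) : ∀ (G : Type u) [Group G] [Finite G], Nat.card G = n → PP G →
    Group.IsSolvable G := by
  induction n using Nat.strong_induction_on with
  | _ n ih =>
  intro G _ _ hn h
  rcases subsingleton_or_nontrivial G with hG | hG
  · infer_instance
  by_cases hs : IsSimpleGroup G
  · exact simple_case h
  obtain ⟨K, hK, h1, h2⟩ : ∃ K : Subgroup G, K.Normal ∧ K ≠ ⊥ ∧ K ≠ ⊤ := by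
    by_contra! hh
    exact hs ⟨fun K hK => by
      by_cases e : K = ⊥
      · exact Or.inl e
      · exact Or.inr (hh K hK e)⟩
  have a1 : Group.IsSolvable K := ih _ (by
    rw [← hn, ← K.card_mul_index]
    exact lt_mul_of_one_lt_right Nat.card_pos (one_lt_index_of_ne_top h2)) K rfl fun r _ => by
      obtain ⟨P⟩ : Nonempty (Sylow r G) := inferInstance
      refine of_dvd ?_ (h r)
      rw [SN.card_sylow_eq_mul_mul P K]
      exact (dvd_mul_left _ _).mul_right _
  have a2 : Group.IsSolvable (G ⧸ K) := ih _ (by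
    rw [← hn, ← K.card_mul_index, ← K.index_eq_card]
    exact lt_mul_of_one_lt_left (Nat.pos_of_ne_zero K.index_ne_zero_of_finite)
      ((K.one_lt_card_iff_ne_bot).2 h1)) (G ⧸ K) rfl fun r _ => by
      obtain ⟨P⟩ : Nonempty (Sylow r G) := inferInstance
      refine of_dvd ?_ (h r)
      rw [SN.card_sylow_eq_mul_mul P K]
      exact (dvd_mul_right _ _).mul_right _
  exact Group.isSolvable_of_ker_le_range K.subtype (QuotientGroup.mk' K) (by simp)

/-- If for every prime r the number of Sylow r-subgroups of the finite group G is a prime power or 1, then G is solvable. -/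
theorem result {G : Type*} [Group G] [Finite G] (h : ∀ (r : ℕ) [Fact r.Prime], Nat.card (Sylow r G) = 1 ∨ IsPrimePow (Nat.card (Sylow r G))) :
    Group.IsSolvable G := by
  exact aux _ G rfl h

end Cfsg.Agent.S3933
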