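import Cfsg.Statements.S3941
import Cfsg.Agent.FGS.NilpBasic

set_option autoImplicit false
open Cfsg

namespace Cfsg.Agent.S3941

/-- Let n ≥ 5 and p an odd prime with p ≤ n, and suppose that every proper subgroup of the alternating group of degree n whose order is divisible by p has a normal Sylow p-subgroup. Then n = p. -/
theorem result (n p : ℕ) (hn : 5 ≤ n) [Fact p.Prime] (hp : p ≠ 2) (hpn : p ≤ n)
    (h : ∀ H : Subgroup ↥(alternatingGroup (Fin n)), H ≠ ⊤ → p ∣ Nat.card ↥H → Cfsg.IsPClosed p ↥H) : n = p := by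
  classical
  have hpp : p.Prime := Fact.out
  by_contra hne
  obtain ⟨m, rfl⟩ : ∃ m, n = m + 1 := ⟨n - 1, by omega⟩
  let s : Finset (Fin (m + 1)) := Finset.univ.erase 0
  have hs : Nat.card s = m := by
    rw [Nat.card_eq_fintype_card, Fintype.card_coe, Finset.card_erase_of_mem (Finset.mem_univ _)]
    simp
  have hnt : Nontrivial s := Finite.one_lt_card_iff_nontrivial.1 (by omega)
  have hcA : 2 * Nat.card (alternatingGroup s) = m.factorial := by
    rw [two_mul_nat_card_alternatingGroup, Nat.card_perm, hs]
  have hcB : 2 * Nat.card (alternatingGroup (Fin (m + 1))) = (m + 1).factorial := by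
    have : Nontrivial (Fin (m + 1)) := Fin.nontrivial_iff_two_le.2 (by omega)
    rw [two_mul_nat_card_alternatingGroup, Nat.card_perm]; simp
  let e := MonoidHom.ofInjective (alternatingGroup.ofSubtype_injective (s := s))
  have hcH : Nat.card (alternatingGroup.ofSubtype s).range = Nat.card (alternatingGroup s) :=
    (Nat.card_congr e.toEquiv).symm
  have hpd : p ∣ Nat.card (alternatingGroup s) := by
    have h1 : p ∣ 2 * Nat.card (alternatingGroup s) := by
      rw [hcA]; exact Nat.dvd_factorial hpp.pos (by omega)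
    rcases (Nat.Prime.dvd_mul hpp).1 h1 with h2 | h2
    · exact absurd ((Nat.prime_dvd_prime_iff_eq hpp Nat.prime_two).1 h2) hp
    · exact h2
  have hcl := h (alternatingGroup.ofSubtype s).range (by
    intro htop
    rw [htop, Subgroup.card_top] at hcH
    rw [hcH, hcA, Nat.factorial_succ] at hcB
    have := Nat.factorial_pos m
    nlinarith) (hcH ▸ hpd)
  obtain ⟨Q⟩ : Nonempty (Sylow p (alternatingGroup.ofSubtype s).range) := inferInstance
  let P : Sylow p (alternatingGroup s) := Q.mapSurjective (f := e.symm.toMonoidHom) e.symm.surjective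
  have hPn : (P : Subgroup (alternatingGroup s)).Normal := (hcl Q).map _ e.symm.surjective
  have htop : (P : Subgroup (alternatingGroup s)) = ⊤ := by
    by_cases h3 : p = 3
    · subst h3
      rw [eq_top_iff, ← alternatingGroup.closure_isThreeCycles_eq_top, Subgroup.closure_le]
      intro g hg
      apply CL.FGS.mem_sylow_of_normal_of_pow_eq_one P hPn (k := 1)
      apply Subtype.ext
      have := Equiv.Perm.IsThreeCycle.orderOf hg
      rw [pow_one, Subgroup.coe_pow, ← this, pow_orderOf_eq_one]; rfl
    · have h5 : 5 ≤ p := hpp.five_le_of_ne_two_of_ne_three hp h3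
      have := alternatingGroup.isSimpleGroup (α := s) (by omega)
      exact (hPn.eq_bot_or_eq_top).resolve_left (P.ne_bot_of_dvd_card hpd)
  obtain ⟨k, hk⟩ := P.isPGroup'.exists_card_eq
  rw [htop, Subgroup.card_top] at hk
  have h4 : 2 * 2 ∣ 2 * p ^ k := by
    rw [← hk, hcA]; exact Nat.dvd_factorial (by norm_num) (by omega)
  have h5 : 2 ∣ p := Nat.prime_two.dvd_of_dvd_pow (Nat.dvd_of_mul_dvd_mul_left (by norm_num) h4)
  exact hp ((Nat.prime_dvd_prime_iff_eq Nat.prime_two hpp).1 h5).symm

end Cfsg.Agent.S3941
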