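import Cfsg.Statements.S3947
import Cfsg.Agent.FGS.GenZipper

set_option autoImplicit false
open Cfsg

namespace Cfsg.Agent.S3947

/-- Let G be a finite group and A a proper subgroup of G whose normal closure is G. Let Y be the join of all proper subgroups H of G that contain A and are generated by their own conjugates of A (the normal closure of A in H is H). Then either Y = G, or A is contained in exactly one maximal subgroup of G. -/
theorem result {G : Type*} [Group G] [Finite G] (A : Subgroup G) (hA : Subgroup.normalClosure (A : Set G) = ⊤) (hAG : A ≠ ⊤) :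
    sSup {H : Subgroup G | A ≤ H ∧ H ≠ ⊤ ∧ Subgroup.normalClosure ((A.subgroupOf H : Subgroup ↥H) : Set ↥H) = ⊤} = ⊤ ∨
      ∃! M : Subgroup G, IsCoatom M ∧ A ≤ M := by
  refine or_iff_not_imp_left.2 fun hY => ?_
  obtain ⟨M, hM, hAM⟩ := (eq_top_or_exists_le_coatom A).resolve_left hAG
  refine ⟨M, ⟨hM, hAM⟩, fun N hN => CL.GZ.gen_zipper (A := A) ?_ hY ?_ hN.1 hM hN.2 hAM⟩
  · refine ⟨le_top, fun K hAK hK => ?_⟩
    rcases (CL.SnIn.top_iff.1 hK).lt_normal with h | ⟨L, hL, h1, h2⟩
    · exact h
    · exact absurd (hA ▸ Subgroup.normalClosure_le_normal (hAK.trans h1)) h2.not_ge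
  · intro H hH hg
    refine le_sSup ⟨hg.1, hH, ?_⟩
    have h1 := hg.2 ((Subgroup.normalClosure ((A.subgroupOf H : Subgroup H) : Set H)).map H.subtype)
      (fun a ha => ⟨⟨a, hg.1 ha⟩, Subgroup.subset_normalClosure ha, rfl⟩)
      (CL.SnIn.iff_subgroupOf.2 ⟨Subgroup.map_subtype_le _, by
        rw [Subgroup.subgroupOf, Subgroup.comap_map_eq_self_of_injective H.subtype_injective]
        exact Subgroup.Normal.isSubnormal inferInstance⟩)
    apply Subgroup.map_injective H.subtype_injective
    rw [h1, ← MonoidHom.range_eq_map, Subgroup.range_subtype]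
end Cfsg.Agent.S3947
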