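import Mathlib
import Cfsg.Statements.S3972
import Cfsg.Agent.FGS.BGroupP

set_option autoImplicit false
open Cfsg

namespace Cfsg.Agent.S3972

/-- Let `p` be a prime, `m ≥ 2`, and `G` a transitive but not doubly transitive permutation group on `p ^ m` points containing a permutation of order `p ^ m` (necessarily a full cycle). Then `G` is imprimitive, and the normal closure in `G` of the `p ^ (m - 1)`-th power of that permutation is an intransitive normal subgroup. -/
theorem result {Ω : Type*} [Fintype Ω] [DecidableEq Ω] (p m : ℕ) (hp : p.Prime) (hm : 2 ≤ m) (hΩ : Fintype.card Ω = p ^ m) (G : Subgroup (Equiv.Perm Ω)) (htr : MulAction.IsPretransitive G Ω) (h2 : ¬ MulAction.IsMultiplyPretransitive G Ω 2) (g : G) (hg : orderOf g = p ^ m) : ¬ MulAction.IsPreprimitive G Ω ∧ ¬ MulAction.IsPretransitive (Subgroup.normalClosure ({g ^ (p ^ (m - 1))} : Set G)) Ω := by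
  haveI := Fact.mk hp
  have hz : orderOf (g ^ p ^ (m - 1)) = p := CL.BG.orderOf_pow_pred (by omega) hg
  obtain ⟨ω, hω⟩ : ∃ ω : Ω, g ^ p ^ (m - 1) • ω ≠ ω := by
    by_contra hc
    push Not at hc
    have : g ^ p ^ (m - 1) = 1 := Subtype.ext (Equiv.ext hc)
    rw [this, orderOf_one] at hz
    exact hp.one_lt.ne hz
  have hN : ¬ MulAction.IsPretransitive (Subgroup.normalClosure ({g ^ (p ^ (m - 1))} : Set G)) Ω := by
    intro hN
    apply h2
    have key : ∀ {x y : Ω}, x ≠ ω → y ≠ ω → ∃ h : G, h • ω = ω ∧ h • x = y := fun hx hy =>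
      CL.BG.two_trans_of_cyclic hm hg (by rw [Nat.card_eq_fintype_card, hΩ]) hω (fun x => by
        obtain ⟨n, hn⟩ := hN.exists_smul_eq ω x
        exact ⟨n, n.2, hn⟩) hx hy
    rw [MulAction.is_two_pretransitive_iff]
    intro a b c d hab hcd
    obtain ⟨u, hu⟩ := htr.exists_smul_eq a ω
    obtain ⟨v, hv⟩ := htr.exists_smul_eq c ω
    obtain ⟨h, h1, h3⟩ := key (x := u • b) (y := v • d)
      (fun e => hab (smul_left_cancel u (hu.trans e.symm)))
      (fun e => hcd (smul_left_cancel v (hv.trans e.symm)))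
    refine ⟨v⁻¹ * h * u, ?_, ?_⟩
    · rw [mul_smul, mul_smul, hu, h1, inv_smul_eq_iff, hv]
    · rw [mul_smul, mul_smul, h3, inv_smul_smul]
  refine ⟨fun hprim => hN ?_, hN⟩
  refine MulAction.IsQuasiPreprimitive.isPretransitive_of_normal ?_
  intro e
  have h1 : ω ∈ MulAction.fixedPoints (Subgroup.normalClosure ({g ^ (p ^ (m - 1))} : Set G)) Ω := by
    rw [e]; exact Set.mem_univ _
  exact hω (h1 ⟨_, Subgroup.subset_normalClosure (Set.mem_singleton _)⟩)

end Cfsg.Agent.S3972
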