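import Cfsg.Statements.S3982
import Mathlib
import Cfsg.Agent.PLOC.Fusion
import Cfsg.Agent.SOLV.CoprimeSylow
import Cfsg.Agent.SOLV.Core

set_option autoImplicit false
open Cfsg

namespace Cfsg.Agent.S3982

open Subgroup CL CL.Tr in
open scoped Pointwise in

/-- Let p be an odd prime and G a finite group of even order divisible by p in which the centralizer of every non-identity p-element has odd order. If some nontrivial p-subgroup of G has a normalizer of even order, then the normalizer of every Sylow p-subgroup of G has even order. -/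
theorem result {G : Type*} [Group G] [Finite G] (p : ℕ) [Fact p.Prime] (hp2 : p ≠ 2) (hpG : p ∣ Nat.card G) (h2G : 2 ∣ Nat.card G) (hC : ∀ g : G, g ≠ 1 → (∃ k : ℕ, orderOf g = p ^ k) → Odd (Nat.card ↥(Subgroup.centralizer ({g} : Set G)))) (Q : Subgroup G) (hQ : IsPGroup p ↥Q) (hQ1 : Q ≠ ⊥) (hev : Even (Nat.card ↥(Subgroup.normalizer (Q : Set G)))) (P : Sylow p G) : Even (Nat.card ↥(Subgroup.normalizer ((P : Subgroup G) : Set G))) := by
  obtain ⟨y0, hy0⟩ := exists_prime_orderOf_dvd_card' 2 (even_iff_two_dvd.1 hev)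
  obtain ⟨y, hyQ⟩ := y0
  have hy : orderOf y = 2 := by rwa [Subgroup.orderOf_mk] at hy0
  have hy2 : y * y = 1 := by rw [← sq, ← hy, pow_orderOf_eq_one]
  have hfpf : ∀ g : G, (∃ k : ℕ, g ^ p ^ k = 1) → y * g = g * y → g = 1 := by
    rintro g ⟨k, hk⟩ hc
    by_contra hg
    obtain ⟨j, -, hj⟩ := (Nat.dvd_prime_pow Fact.out).1 (orderOf_dvd_of_pow_eq_one hk)
    have h1 := hC g hg ⟨j, hj⟩
    have h2 : y ∈ centralizer ({g} : Set G) := mem_centralizer_singleton_iff.2 hc
    have := Subgroup.orderOf_dvd_natCard _ h2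
    rw [hy] at this
    exact Odd.not_two_dvd_nat h1 this
  obtain ⟨R, ⟨hR, hQR, hyR⟩, hmax⟩ := Set.Finite.exists_maximal (s := {R : Subgroup G |
    IsPGroup p R ∧ Q ≤ R ∧ y ∈ normalizer (R : Set G)}) (Set.toFinite _) ⟨Q, hQ, le_rfl, hyQ⟩
  have hpel : ∀ a ∈ R, ∃ k : ℕ, a ^ p ^ k = 1 := fun a ha => by
    obtain ⟨k, hk⟩ := hR ⟨a, ha⟩
    exact ⟨k, by simpa using congrArg Subtype.val hk⟩
  -- `y` inverts `R`
  have hinv : ∀ a ∈ R, y * a * y⁻¹ = a⁻¹ := by
    let φ : R →* R := (R.normalizerMonoidHom ⟨y, hyR⟩).toMonoidHom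
    have hφ : ∀ u : R, (φ u : G) = y * u * y⁻¹ := fun u => rfl
    have h1 : MonoidHom.FixedPointFree φ := fun g hg => Subtype.ext
      (hfpf g (hpel g g.2) (by
        have := congrArg Subtype.val hg
        rw [hφ, mul_inv_eq_iff_eq_mul] at this
        exact this))
    have h2 : Function.Involutive φ := fun u => Subtype.ext (by
      rw [hφ, hφ]
      calc y * (y * u * y⁻¹) * y⁻¹ = (y * y) * u * (y * y)⁻¹ := by group
        _ = u := by rw [hy2]; group)
    intro a ha
    have := congrFun (h1.coe_eq_inv_of_involutive h2) ⟨a, ha⟩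
    exact congrArg Subtype.val this
  set C := centralizer (R : Set G) with hCdef
  have hRC : R ≤ C := fun a ha b hb => by
    have h1 := hinv _ (R.mul_mem ha hb)
    have : y * (a * b) * y⁻¹ = (y * a * y⁻¹) * (y * b * y⁻¹) := by group
    rw [this, hinv a ha, hinv b hb, ← mul_inv_rev, inv_inj] at h1
    exact h1
  obtain ⟨r, hrR, hr1⟩ := (Subgroup.bot_or_exists_ne_one R).resolve_left
    fun e => hQ1 (le_bot_iff.1 (e ▸ hQR))
  have hCodd : Odd (Nat.card C) := by
    obtain ⟨k, hk⟩ := hpel r hrR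
    obtain ⟨j, -, hj⟩ := (Nat.dvd_prime_pow Fact.out).1 (orderOf_dvd_of_pow_eq_one hk)
    exact (hC r hr1 ⟨j, hj⟩).of_dvd_nat (card_dvd_of_le
      (centralizer_le (Set.singleton_subset_iff.2 hrR)))
  have hcop : (Nat.card (zpowers y)).Coprime (Nat.card C) := by
    rw [Nat.card_zpowers, hy]; exact Nat.coprime_two_left.2 hCodd
  have hyC : zpowers y ≤ normalizer (C : Set G) := le_normalizer_centralizer (zpowers_le.2 hyR)
  have hsol : Group.IsSolvable (zpowers y) := inferInstance
  obtain ⟨S, hS⟩ := hR.exists_le_sylow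
  have hRS : R = S := by
    by_contra hne
    obtain ⟨x, hx, hxR⟩ := SetLike.exists_of_lt
      (lt_inf_normalizer_of_lt S.isPGroup' (lt_of_le_of_ne hS hne))
    have hxC : x ∈ C := by
      have hcm : y * x * y⁻¹ * x⁻¹ ∈ C := fun a ha => by
        have h1 := hinv _ (inv_conj_mem_of_mem_normalizer hx.2 ha)
        have h2 := hinv a⁻¹ (R.inv_mem ha)
        have hyi : y⁻¹ = y := inv_eq_of_mul_eq_one_right hy2
        calc a * (y * x * y⁻¹ * x⁻¹) = (y * a⁻¹ * y⁻¹) * (y * x * y⁻¹ * x⁻¹) := by rw [h2, inv_inv]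
          _ = y * x * (x⁻¹ * a * x)⁻¹ * y⁻¹ * x⁻¹ := by group
          _ = y * x * (y * (x⁻¹ * a * x) * y⁻¹) * y⁻¹ * x⁻¹ := by rw [h1]
          _ = y * x * y * x⁻¹ * a * x * (y * y)⁻¹ * x⁻¹ := by group
          _ = _ := by rw [hy2, hyi]; group
      obtain ⟨s, hs, hxs⟩ := coprime_fixed_point_quotient (zpowers y) C hyC hcop (Or.inl hsol) x
        (normalizer_le_normalizer_centralizer R hx.2) (by
          classical
          intro a ha
          rw [mem_zpowers_iff_mem_range_orderOf, hy] at ha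
          obtain ⟨i, hi, rfl⟩ := Finset.mem_image.1 ha
          have : i = 0 ∨ i = 1 := by simp at hi; omega
          rcases this with rfl | rfl
          · simp
          · simpa using hcm)
      obtain ⟨a, b, ha, hb, hap, hbp, hab⟩ := exists_p_part_mul_p'_part (p := p) (x * s)
      have ha1 : a = 1 := hfpf a hap ((zpowers_le.2 hxs) ha y (mem_zpowers y))
      rw [ha1, one_mul] at hab
      have hN : (C.subgroupOf (normalizer (R : Set G))).Normal :=
        CL.normal_subgroupOf_of_le_normalizer (normalizer_le_normalizer_centralizer R)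
      have hsN : s ∈ normalizer (R : Set G) := centralizer_le_normalizer _ hs
      set xN : normalizer (R : Set G) := ⟨x, hx.2⟩
      set f := QuotientGroup.mk' (C.subgroupOf (normalizer (R : Set G))) with hf
      have e : f (xN * ⟨s, hsN⟩) = f xN := by
        have : f ⟨s, hsN⟩ = 1 := (QuotientGroup.eq_one_iff _).2 hs
        rw [map_mul, this, mul_one]
      have d1 : orderOf (f xN) ∣ orderOf b := by
        rw [← e, ← hab]
        exact (orderOf_map_dvd f _).trans (by rw [← Subgroup.orderOf_coe]; rfl)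
      obtain ⟨k, hk⟩ := S.isPGroup' ⟨x, hx.1⟩
      have d2 : orderOf (f xN) ∣ p ^ k := by
        refine orderOf_dvd_of_pow_eq_one ?_
        rw [← map_pow]
        have : xN ^ p ^ k = 1 := Subtype.ext (by simpa using congrArg Subtype.val hk)
        rw [this, map_one]
      have := orderOf_eq_one_iff.1 (Nat.eq_one_of_dvd_coprimes (hbp.pow_right k) d1 d2)
      exact (QuotientGroup.eq_one_iff (N := C.subgroupOf _) xN).1 this
    obtain ⟨T, hT1, hT2⟩ := coprime_exists_invariant_sylow_ge (zpowers y) C hyC hcop (Or.inl hsol)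
      p R hRC hR (zpowers_le.2 hyR)
    have hTR : (T : Subgroup C).map C.subtype ≤ R :=
      hmax ⟨T.isPGroup'.map _, hQR.trans hT1, hT2 (mem_zpowers y)⟩ hT1
    have h1 := eq_map_sylow_of_le T (V := S ⊓ C) inf_le_right S.isPGroup'.to_inf_left
      (le_inf (hTR.trans hS) (map_subtype_le _))
    exact hxR (hTR (h1 ▸ (⟨hx.1, hxC⟩ : x ∈ (S : Subgroup G) ⊓ C)))
  obtain ⟨g, rfl⟩ := MulAction.exists_smul_eq G S P
  have : ((g • S : Sylow p G) : Subgroup G) = MulAut.conj g • (S : Subgroup G) := rfl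
  rw [this, normalizer_conj_smul, card_conj_smul, ← hRS, even_iff_two_dvd, ← hy]
  exact Subgroup.orderOf_dvd_natCard _ hyR

end Cfsg.Agent.S3982
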