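import Cfsg.Statements.S3983
import Cfsg.Agent.FGS.SylowTI

set_option autoImplicit false
open scoped Pointwise
open Cfsg

namespace Cfsg.Agent.S3983

/-- Let P be a Sylow p-subgroup of the finite group G that meets each conjugate g P g⁻¹ with g outside N_G(P) trivially, and let U be a subgroup of G of order divisible by p. Then a Sylow p-subgroup Q of U has the same property inside U: Q meets each conjugate u Q u⁻¹ with u ∈ U outside N_U(Q) trivially. -/
theorem result {G : Type*} [Group G] [Finite G] (p : ℕ) [Fact p.Prime] (P : Sylow p G) (hTI : ∀ g : G, g ∉ Subgroup.normalizer ((P : Subgroup G) : Set G) → (P : Subgroup G) ⊓ (MulAut.conj g • (P : Subgroup G)) = ⊥) (U : Subgroup G) (hU : p ∣ Nat.card ↥U) (Q : Sylow p ↥U) : ∀ u : ↥U, u ∉ Subgroup.normalizer ((Q : Subgroup ↥U) : Set ↥U) → (Q : Subgroup ↥U) ⊓ (MulAut.conj u • (Q : Subgroup ↥U)) = ⊥ := by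
  rw [CL.sylow_ti_iff_pairwise] at hTI ⊢
  intro Q₁ Q₂ hne
  obtain ⟨P₁, h₁⟩ := Q₁.exists_comap_subtype_eq
  obtain ⟨P₂, h₂⟩ := Q₂.exists_comap_subtype_eq
  have hne' : P₁ ≠ P₂ := by
    rintro rfl
    exact hne (Sylow.ext (h₁.symm.trans h₂))
  rw [← h₁, ← h₂, ← Subgroup.comap_inf, hTI _ _ hne', MonoidHom.comap_bot, Subgroup.ker_subtype]

end Cfsg.Agent.S3983
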