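import Cfsg.Statements.S3984
import Cfsg.Agent.FGS.SylowTI

set_option autoImplicit false
open scoped Pointwise
open Cfsg

namespace Cfsg.Agent.S3984

/-- Let P be a Sylow p-subgroup of the finite group G that meets each conjugate g P g⁻¹ with g outside N_G(P) trivially, and let N be a normal subgroup of G of order prime to p. Then every Sylow p-subgroup Q of G ⧸ N meets each conjugate x Q x⁻¹ with x outside its normalizer trivially. -/
theorem result {G : Type*} [Group G] [Finite G] (p : ℕ) [Fact p.Prime] (P : Sylow p G) (hTI : ∀ g : G, g ∉ Subgroup.normalizer ((P : Subgroup G) : Set G) → (P : Subgroup G) ⊓ (MulAut.conj g • (P : Subgroup G)) = ⊥) (N : Subgroup G) [N.Normal] (hN : (Nat.card ↥N).Coprime p) (Q : Sylow p (G ⧸ N)) : ∀ x : G ⧸ N, x ∉ Subgroup.normalizer ((Q : Subgroup (G ⧸ N)) : Set (G ⧸ N)) → (Q : Subgroup (G ⧸ N)) ⊓ (MulAut.conj x • (Q : Subgroup (G ⧸ N))) = ⊥ := by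
  rw [CL.sylow_ti_iff_pairwise] at hTI ⊢
  intro Q₁ Q₂ hne
  have hs := QuotientGroup.mk'_surjective N
  obtain ⟨P₁, rfl⟩ := Sylow.mapSurjective_surjective hs p Q₁
  obtain ⟨P₂, rfl⟩ := Sylow.mapSurjective_surjective hs p Q₂
  rw [eq_bot_iff]
  rintro x ⟨hx₁, hx₂⟩
  by_contra hx
  obtain ⟨y, hy, rfl⟩ := hx₂
  have hy1 : y ≠ 1 := by
    rintro rfl
    exact hx (by simp)
  have hP : (P₁ : Subgroup G) ≤ ((P₁ : Subgroup G).map (QuotientGroup.mk' N)).comap (QuotientGroup.mk' N) :=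
    Subgroup.le_comap_map _ _
  have hR : IsPGroup p (Subgroup.zpowers y) := P₂.2.to_le (Subgroup.zpowers_le_of_mem hy)
  obtain ⟨h, hh, hle⟩ := CL.exists_mem_smul_sylow_of_le P₁ hP hR (Subgroup.zpowers_le_of_mem hx₁)
  have h1 : h • P₁ = P₂ := CL.sylow_eq_of_pairwise_ti hTI hy1 (hle (Subgroup.mem_zpowers y)) hy
  apply hne
  subst h1
  apply Sylow.ext
  simp only [Sylow.coe_mapSurjective, Sylow.coe_subgroup_smul]
  rw [Subgroup.mem_comap] at hh
  ext z
  constructor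
  · rintro ⟨w, hw, rfl⟩
    have : (QuotientGroup.mk' N h)⁻¹ * QuotientGroup.mk' N w * QuotientGroup.mk' N h ∈
        (P₁ : Subgroup G).map (QuotientGroup.mk' N) :=
      mul_mem (mul_mem (inv_mem hh) ⟨w, hw, rfl⟩) hh
    obtain ⟨v, hv, hv'⟩ := this
    refine ⟨h * v * h⁻¹, Subgroup.smul_mem_pointwise_smul _ (MulAut.conj h) _ hv, ?_⟩
    rw [map_mul, map_mul, hv', map_inv]
    group
  · rintro ⟨w, hw, rfl⟩
    obtain ⟨v, hv, rfl⟩ := (Subgroup.mem_smul_pointwise_iff_exists _ _ _).mp hw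
    have : (MulAut.conj h • v : G) = h * v * h⁻¹ := rfl
    rw [this, map_mul, map_mul, map_inv]
    exact mul_mem (mul_mem hh ⟨v, hv, rfl⟩) (inv_mem hh)

end Cfsg.Agent.S3984
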