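import Cfsg.Statements.S3985
import Mathlib
import Cfsg.Agent.FGS.SylowTI

set_option autoImplicit false
open scoped Pointwise
open Cfsg

namespace Cfsg.Agent.S3985

theorem mem_of_pow_mem_coprime {G : Type*} [Group G] (H : Subgroup G) (c : G) {a b : ℕ}
    (hab : a.Coprime b) (ha : c ^ a ∈ H) (hb : c ^ b ∈ H) : c ∈ H := by
  have h := Nat.gcd_eq_gcd_ab a b
  rw [hab.gcd_eq_one] at h
  have : c = (c ^ a) ^ (Nat.gcdA a b) * (c ^ b) ^ (Nat.gcdB a b) := by
    rw [← zpow_natCast, ← zpow_natCast, ← zpow_mul, ← zpow_mul, ← zpow_add, ← h]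
    simp
  rw [this]
  exact mul_mem (zpow_mem ha _) (zpow_mem hb _)

theorem conj_pow_gen {G : Type*} [Group G] (c g : G) (k : ℤ) (h : c * g * c⁻¹ = g ^ k) (n : ℕ) :
    c ^ n * g * (c ^ n)⁻¹ = g ^ (k ^ n) := by
  induction n with
  | zero => simp
  | succ n ih =>
    have : c ^ (n + 1) * g * (c ^ (n + 1))⁻¹ = c ^ n * (c * g * c⁻¹) * (c ^ n)⁻¹ := by
      rw [pow_succ]; group
    rw [this, h, ← conj_zpow, ih, ← zpow_mul, pow_succ]

/-- Let P be a cyclic Sylow p-subgroup of the finite group G. Then P meets each conjugate g P g⁻¹ with g outside N_G(P) trivially if and only if P is weakly self-centralizing: C_G(x) = C_G(P) for every non-identity x ∈ P. -/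
theorem result {G : Type*} [Group G] [Finite G] (p : ℕ) [Fact p.Prime] (P : Sylow p G) (hcyc : IsCyclic ↥(P : Subgroup G)) : (∀ g : G, g ∉ Subgroup.normalizer ((P : Subgroup G) : Set G) → (P : Subgroup G) ⊓ (MulAut.conj g • (P : Subgroup G)) = ⊥) ↔ ∀ x : G, x ∈ (P : Subgroup G) → x ≠ 1 → Subgroup.centralizer ({x} : Set G) = Subgroup.centralizer ((P : Subgroup G) : Set G) := by
  have hp : p.Prime := Fact.out
  have hPC : (P : Subgroup G) ≤ Subgroup.centralizer ((P : Subgroup G) : Set G) :=
    Subgroup.le_centralizer_iff_isMulCommutative.mpr inferInstance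
  constructor
  · intro hTI x hx hx1
    apply le_antisymm
    swap
    · exact Subgroup.centralizer_le (Set.singleton_subset_iff.mpr hx)
    intro c hc
    have hcx : c * x * c⁻¹ = x := by
      rw [Subgroup.mem_centralizer_singleton_iff] at hc
      rw [hc]; group
    have hcN : c ∈ Subgroup.normalizer ((P : Subgroup G) : Set G) := by
      by_contra hcN
      have h1 : x ∈ (P : Subgroup G) ⊓ (MulAut.conj c • (P : Subgroup G)) := by
        refine ⟨hx, ?_⟩
        rw [← hcx]
        exact Subgroup.smul_mem_pointwise_smul _ (MulAut.conj c) _ hx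
      rw [hTI c hcN, Subgroup.mem_bot] at h1
      exact hx1 h1
    obtain ⟨g, hg⟩ := (Subgroup.isCyclic_iff_exists_zpowers_eq_top _).mp hcyc
    have hgP : g ∈ (P : Subgroup G) := hg ▸ Subgroup.mem_zpowers g
    have h2 : c * g * c⁻¹ ∈ Subgroup.zpowers g := by
      rw [hg]; exact (hcN g).mp hgP
    obtain ⟨k, hk⟩ := Subgroup.mem_zpowers_iff.mp h2
    obtain ⟨m, hm⟩ := Subgroup.mem_zpowers_iff.mp (hg.symm ▸ hx : x ∈ Subgroup.zpowers g)
    have h3 : x ^ (k - 1) = 1 := by
      rw [zpow_sub_one, mul_inv_eq_one]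
      conv_rhs => rw [← hcx]
      rw [← hm, ← conj_zpow, ← hk, ← zpow_mul, ← zpow_mul, mul_comm]
    have h4 : p ∣ orderOf x := by
      have := P.2.dvd_orderOf (g := ⟨x, hx⟩) (by simpa using hx1)
      rwa [Subgroup.orderOf_mk] at this
    have h5 : (p : ℤ) ∣ k - 1 :=
      (Int.natCast_dvd_natCast.mpr h4).trans (orderOf_dvd_iff_zpow_eq_one.mpr h3)
    obtain ⟨e, he⟩ := P.2 ⟨g, hgP⟩
    have he' : g ^ p ^ e = 1 := by simpa using congrArg Subtype.val he
    have h6 := dvd_sub_pow_of_dvd_sub h5 e
    have h7 : c ^ p ^ e ∈ Subgroup.centralizer ((P : Subgroup G) : Set G) := by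
      rw [← hg, Subgroup.zpowers_eq_closure, Subgroup.centralizer_closure,
        Subgroup.mem_centralizer_singleton_iff, ← mul_inv_eq_iff_eq_mul, conj_pow_gen c g k hk.symm]
      obtain ⟨t, ht⟩ := h6
      have : k ^ p ^ e = 1 + (p ^ e : ℕ) * (p * t) := by
        push_cast
        rw [one_pow] at ht
        linear_combination ht
      rw [this, zpow_add, zpow_mul, zpow_natCast, he']
      simp
    have h8 : c ^ (Subgroup.centralizer ((P : Subgroup G) : Set G)).relIndex
        (Subgroup.normalizer ((P : Subgroup G) : Set G)) ∈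
        Subgroup.centralizer ((P : Subgroup G) : Set G) :=
      Subgroup.pow_index_mem ((Subgroup.centralizer ((P : Subgroup G) : Set G)).subgroupOf
        (Subgroup.normalizer ((P : Subgroup G) : Set G))) ⟨c, hcN⟩
    refine mem_of_pow_mem_coprime _ c ?_ h7 h8
    apply Nat.Coprime.pow_left
    rw [hp.coprime_iff_not_dvd]
    intro hd
    exact P.not_dvd_index (hd.trans ((Subgroup.relIndex_dvd_of_le_left _ hPC).trans
      (Subgroup.relIndex_dvd_index_of_le Subgroup.le_normalizer)))
  · intro h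
    rw [CL.sylow_ti_iff_pairwise]
    intro P₁ P₂ hne
    obtain ⟨a, rfl⟩ := MulAction.exists_smul_eq G P P₁
    obtain ⟨b, rfl⟩ := MulAction.exists_smul_eq G P P₂
    -- transport of the hypothesis to conjugates
    have key : ∀ (a x : G), x ∈ ((a • P : Sylow p G) : Subgroup G) → x ≠ 1 → ∀ c : G, c * x = x * c →
        ∀ y ∈ ((a • P : Sylow p G) : Subgroup G), c * y = y * c := by
      intro a x hx hx1 c hc y hy
      rw [Sylow.coe_subgroup_smul, Subgroup.mem_pointwise_smul_iff_inv_smul_mem] at hx hy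
      have hx' : (MulAut.conj a)⁻¹ • x ≠ 1 := by
        intro h0
        rw [inv_smul_eq_iff, smul_one] at h0
        exact hx1 h0
      have h1 : (MulAut.conj a)⁻¹ • c ∈ Subgroup.centralizer {(MulAut.conj a)⁻¹ • x} := by
        rw [Subgroup.mem_centralizer_singleton_iff, ← smul_mul', ← smul_mul', hc]
      rw [h _ hx hx', Subgroup.mem_centralizer_iff] at h1
      have h2 := h1 _ hy
      rw [← smul_mul', ← smul_mul', smul_left_cancel_iff] at h2
      exact h2.symm
    have comm : ∀ (a x y : G), x ∈ ((a • P : Sylow p G) : Subgroup G) →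
        y ∈ ((a • P : Sylow p G) : Subgroup G) → x * y = y * x := by
      intro a x y hx hy
      rw [Sylow.coe_subgroup_smul, Subgroup.mem_pointwise_smul_iff_inv_smul_mem] at hx hy
      have h2 := hPC hx _ hy
      rw [← smul_mul', ← smul_mul', smul_left_cancel_iff] at h2
      exact h2.symm
    rw [eq_bot_iff]
    rintro x ⟨hx₁, hx₂⟩
    by_contra hx1
    apply hne
    have h1 : ((b • P : Sylow p G) : Subgroup G) ≤
        Subgroup.normalizer (((a • P : Sylow p G) : Subgroup G) : Set G) := by
      intro c hc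
      apply Subgroup.centralizer_le_normalizer
      intro y hy
      exact (key a x hx₁ hx1 c (comm b c x hc hx₂) y hy).symm
    have h2 : ((b • P : Sylow p G) : Subgroup G) ≤ ((a • P : Sylow p G) : Subgroup G) := by
      have h3 := (b • P).2.inf_normalizer_sylow (a • P)
      rw [← left_eq_inf, ← h3, left_eq_inf]
      exact h1
    exact Sylow.ext ((b • P).is_maximal' (a • P).2 h2)

end Cfsg.Agent.S3985
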