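import Cfsg.Statements.S3987
import Mathlib
import Cfsg.Agent.FGS.DirectSylow
import Cfsg.Agent.FGS.CoprimeIndex

set_option autoImplicit false
open Cfsg

namespace Cfsg.Agent.S3987

open Subgroup in

/-- Let p be a prime and G a finite group. Then some Sylow p-subgroup of G is a direct factor of G (normal with a normal complement) if and only if for every element x of p-power order and every element y whose order is a power of a prime other than p, the conjugacy class of x y has as many elements as the product of the sizes of the classes of x and of y. -/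
theorem result {G : Type*} [Group G] [Finite G] (p : ℕ) [Fact p.Prime] : (∃ (P : Sylow p G) (K : Subgroup G), (P : Subgroup G).Normal ∧ K.Normal ∧ (P : Subgroup G) ⊓ K = ⊥ ∧ (P : Subgroup G) ⊔ K = ⊤) ↔ ∀ x y : G, (∃ a : ℕ, orderOf x = p ^ a) → (∃ q b : ℕ, q.Prime ∧ q ≠ p ∧ orderOf y = q ^ b) → (Subgroup.centralizer ({x * y} : Set G)).index = (Subgroup.centralizer ({x} : Set G)).index * (Subgroup.centralizer ({y} : Set G)).index := by
  constructor
  · intro h x y hx hy
    have hc := (CL.DirectSylow.direct_iff_commute p).1 h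
    obtain ⟨P, K, hP, hK, hi, hs⟩ := h
    obtain ⟨q, b, hq, hqp, hy'⟩ := hy
    obtain ⟨a, hx'⟩ := hx
    have hcop : (orderOf x).Coprime (orderOf y) := by
      rw [hx', hy']
      exact Nat.Coprime.pow _ _ ((Nat.coprime_primes Fact.out hq).2 hqp.symm)
    rw [CL.CS.cen_mul_of_coprime (hc x y ⟨a, hx'⟩ ⟨q, b, hq, hqp, hy'⟩) hcop]
    refine CL.index_inf_of_coprime_index _ _ ?_
    have h1 : (P : Subgroup G) ≤ centralizer {y} := fun z hz => by
      rw [mem_centralizer_singleton_iff]
      obtain ⟨k, hk⟩ := IsPGroup.iff_orderOf.1 P.isPGroup' ⟨z, hz⟩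
      exact hc z y ⟨k, by rwa [Subgroup.orderOf_mk] at hk⟩ ⟨q, b, hq, hqp, hy'⟩
    have h2 : (centralizer ({y} : Set G)).index.Coprime p :=
      ((Nat.Prime.coprime_iff_not_dvd Fact.out).2 fun h =>
        P.not_dvd_index (h.trans (index_dvd_of_le h1))).symm
    have h3 : CL.IsPiNum {p} (centralizer ({x} : Set G)).index := by
      intro r hr hd
      by_contra hne
      have := Fact.mk hr
      obtain ⟨R⟩ : Nonempty (Sylow r G) := inferInstance
      have h4 : (R : Subgroup G) ≤ centralizer {x} := fun z hz => by
        rw [mem_centralizer_singleton_iff]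
        obtain ⟨k, hk⟩ := IsPGroup.iff_orderOf.1 R.isPGroup' ⟨z, hz⟩
        exact (hc x z ⟨a, hx'⟩ ⟨r, k, hr, hne, by rwa [Subgroup.orderOf_mk] at hk⟩).symm
      exact R.not_dvd_index (hd.trans (index_dvd_of_le h4))
    exact h3.coprime ((CL.isPiNum_compl_singleton_iff Fact.out).2 h2)
  · intro h
    refine (CL.DirectSylow.direct_iff_commute p).2 fun x y hx hy => ?_
    have h1 := h x y hx hy
    have hle : centralizer ({x} : Set G) ⊓ centralizer {y} ≤ centralizer {x * y} := fun z hz => by
      have a1 := mem_centralizer_singleton_iff.1 hz.1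
      have a2 := mem_centralizer_singleton_iff.1 hz.2
      rw [mem_centralizer_singleton_iff, ← mul_assoc, a1, mul_assoc, a2, mul_assoc]
    have h2 : centralizer ({x} : Set G) ⊓ centralizer {y} = centralizer {x * y} := by
      refine le_antisymm hle (relIndex_eq_one.1 ?_)
      have a1 := relIndex_mul_index hle
      have a2 : (centralizer ({x} : Set G) ⊓ centralizer {y}).index ≤ _ := index_inf_le
      have a3 := CL.CS.index_cen_pos (x * y)
      have a4 : (centralizer ({x} : Set G) ⊓ centralizer {y}).relIndex (centralizer {x * y}) ≠ 0 :=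
        FiniteIndex.index_ne_zero
      rw [← h1, ← a1] at a2
      have := (Nat.mul_le_mul_right_iff a3).1 (a2.trans (one_mul _).ge)
      omega
    have h3 : x * y ∈ centralizer ({x} : Set G) ⊓ centralizer {y} :=
      h2 ▸ mem_centralizer_singleton_iff.2 rfl
    have h4 := mem_centralizer_singleton_iff.1 h3.1
    rw [mul_assoc] at h4
    exact (mul_left_cancel h4).symm

end Cfsg.Agent.S3987
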