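import Cfsg.Statements.S3989
import Cfsg.Agent.FGS.ClassProd

set_option autoImplicit false
open Cfsg

namespace Cfsg.Agent.S3989

/-- Let p be a prime and G a finite group such that for every element x of p-power order and every element y whose order is a power of a prime other than p, the conjugacy class of x y is the set of all products of a conjugate of x with a conjugate of y. Then G is p-solvable. -/
theorem result {G : Type*} [Group G] [Finite G] (p : ℕ) [Fact p.Prime] (h : ∀ x y : G, (∃ a : ℕ, orderOf x = p ^ a) → (∃ q b : ℕ, q.Prime ∧ q ≠ p ∧ orderOf y = q ^ b) → ∀ z : G, IsConj (x * y) z ↔ ∃ a b : G, z = a * x * a⁻¹ * (b * y * b⁻¹)) : Cfsg.IsPSolvable p G := by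
  refine CL.isPSolvable_of_forall_quotient fun N _ hN => ?_
  haveI : Nontrivial (G ⧸ N) := QuotientGroup.nontrivial_iff.2 hN
  obtain ⟨M, hM⟩ := CL.exists_isMinNormal (G ⧸ N)
  haveI := hM.normal
  by_cases hc : HasNormalPComplement p M
  · rcases hM.isPGroup_or_coprime (CL.FGS.CycSyl.isPSolvable_of_hasNPC hc) with h1 | h1
    · exact Or.inl fun e => hM.ne_bot (le_bot_iff.1 (e ▸ le_sSup ⟨hM.normal, h1⟩))
    · exact Or.inr fun e => hM.ne_bot (le_bot_iff.1 (e ▸ le_sSup ⟨hM.normal, h1⟩))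
  exfalso
  obtain ⟨x, y, a, q, b, hx, hy, hxa, hq, hqp, hyb, hxy⟩ := CL.FGS.ClP.exists_pair hc
  have hf := QuotientGroup.mk'_surjective N
  obtain ⟨x', ex, hx'⟩ := CL.FGS.ClP.exists_lift hf (Fact.out : p.Prime) (x := (x : G ⧸ N))
    (by rw [Subgroup.orderOf_coe, hxa])
  obtain ⟨y', ey, b', hy'⟩ := CL.FGS.ClP.exists_lift hf hq (x := (y : G ⧸ N))
    (by rw [Subgroup.orderOf_coe, hyb])
  have h1 : IsConj (y : G ⧸ N) (x * y) := M.subtype.map_isConj hxy
  have h2 : Subgroup.normalClosure ({(x : G ⧸ N)} : Set (G ⧸ N)) = M := by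
    refine (hM.eq_bot_or_eq _ inferInstance
      (Subgroup.normalClosure_le_normal (Set.singleton_subset_iff.2 x.2))).resolve_left fun e => hx ?_
    exact Subtype.ext ((Subgroup.eq_bot_iff_forall _).1 e _
      (Subgroup.subset_normalClosure (Set.mem_singleton _)))
  refine hy (Subtype.ext (CL.FGS.ClP.eq_one (x := (x : G ⧸ N)) (h2.ge y.2) fun c d => h1.trans ?_))
  obtain ⟨c, rfl⟩ := hf c
  obtain ⟨d, rfl⟩ := hf d
  have := (QuotientGroup.mk' N).map_isConj
    ((h x' y' hx' ⟨q, b', hq, hqp, hy'⟩ _).2 ⟨c, d, rfl⟩)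
  simpa only [map_mul, map_inv, ex, ey] using this

end Cfsg.Agent.S3989
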