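import Cfsg.Statements.S3996
import Cfsg.Agent.FGS.Nse
import Cfsg.Agent.FGS.ClassCount
import Cfsg.Agent.S4037
import Cfsg.Agent.INV.GW.GenD2
import Cfsg.Agent.PLOC.NPC
import Cfsg.Agent.SOLV.OddOrderCor
import Cfsg.Agent.SOLV.PGroupCyclicSCN
import Cfsg.Agent.CHAR.Burnside

set_option autoImplicit false
open Cfsg

namespace Cfsg.Agent.S3996

open Finset Subgroup CL.Nse

/-- A nonsolvable group with Sylow `2`-subgroups of order four and exponent two has one class of
involutions, whose size is not a prime power. -/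
theorem klein {H : Type*} [Group H] [Finite H] (hH : ¬ Group.IsSolvable H) (h4 : s H 4 = 0)
    (h8 : ¬ 8 ∣ Nat.card H) : s H 2 ∣ Nat.card H ∧ ∀ p k : ℕ, p.Prime → s H 2 ≠ p ^ k := by
  classical
  obtain ⟨T⟩ : Nonempty (Sylow 2 H) := inferInstance
  have hsq : ∀ x ∈ (T : Subgroup H), x ≠ 1 → orderOf x = 2 := fun x hx h1 => by
    obtain ⟨k, hk⟩ := (IsPGroup.iff_orderOf.1 T.isPGroup') ⟨x, hx⟩
    rw [orderOf_mk] at hk
    match k with
    | 0 => exact absurd (orderOf_eq_one_iff.1 hk) h1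
    | 1 => simpa using hk
    | k + 2 => exact absurd (s_eq_zero_of_dvd (hk ▸ Dvd.intro_left (2 ^ k) (by ring)) h4)
                (s_orderOf_ne_zero x)
  have hT : Nat.card T ≤ 4 := by
    obtain ⟨k, hk⟩ := T.isPGroup'.exists_card_eq
    have : ¬ 3 ≤ k := fun h => h8 ((pow_dvd_pow 2 h).trans (hk ▸ card_subgroup_dvd_card _))
    rw [hk]; exact Nat.pow_le_pow_right two_pos (by omega : k ≤ 2)
  have hN : ¬ normalizer (T : Set H) ≤ centralizer (T : Set H) := fun h =>
    hH (CL.GW.isSolvable_of_hasNPC (CL.hasNPC_of_normalizer_le_centralizer T h))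
  obtain ⟨n, hn, hnc⟩ := SetLike.not_le_iff_exists.1 hN
  have hTC : (T : Subgroup H) ≤ centralizer (T : Set H) := fun a ha b hb => by
    have h2 : ∀ x ∈ (T : Subgroup H), x⁻¹ = x := fun x hx => by
      by_cases h1 : x = 1
      · simp [h1]
      · refine inv_eq_of_mul_eq_one_right ?_
        rw [← sq, ← hsq x hx h1, pow_orderOf_eq_one]
    rw [← h2 _ (mul_mem hb ha), mul_inv_rev, h2 a ha, h2 b hb]
  obtain ⟨j, hj⟩ : ∃ j, n ^ (2 * j + 1) ∈ centralizer (T : Set H) := by
    have hno : ((centralizer (T : Set H)).subgroupOf (normalizer (T : Set H))).Normal :=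
      normal_subgroupOf_centralizer_normalizer _
    have h1 := pow_index_mem (H := (centralizer (T : Set H)).subgroupOf (normalizer (T : Set H))) ⟨n, hn⟩
    have h2 : ¬ 2 ∣ ((centralizer (T : Set H)).subgroupOf (normalizer (T : Set H))).index := fun h =>
      T.not_dvd_index (h.trans ((relIndex_dvd_index_of_le (centralizer_le_normalizer _)).trans
        (index_dvd_of_le hTC)))
    obtain ⟨j, hj⟩ := Nat.not_even_iff_odd.1 (mt Even.two_dvd h2)
    exact ⟨j, hj ▸ h1⟩
  obtain ⟨u, hu, hun⟩ : ∃ u ∈ (T : Subgroup H), n * u * n⁻¹ ≠ u := by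
    by_contra! h
    exact hnc fun u hu => (mul_inv_eq_iff_eq_mul.1 (h u hu)).symm
  have hu1 : u ≠ 1 := by rintro rfl; simp at hun
  have hmem : ∀ x ∈ (T : Subgroup H), n * x * n⁻¹ ∈ (T : Subgroup H) := fun x hx =>
    (mem_normalizer_iff.1 hn x).1 hx
  have hun2 : n * (n * u * n⁻¹) * n⁻¹ ≠ u := fun h => by
    have h1 : Commute u (n ^ 2) := by
      rw [Commute, SemiconjBy]; nth_rewrite 1 [← h]; rw [sq]; group
    have h2 : Commute u (n ^ (2 * j + 1)) := hj u hu
    rw [pow_succ, pow_mul] at h2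
    have h3 : Commute u n := by
      simpa using ((h1.pow_right j).inv_right.mul_right h2)
    exact hun (by rw [← h3.eq]; group)
  have hall : ∀ x ∈ (T : Subgroup H), x ≠ 1 → IsConj u x := fun x hx hx1 => by
    by_contra hc
    have h1 : ({1, x, u, n * u * n⁻¹, n * (n * u * n⁻¹) * n⁻¹} : Set H) ⊆ (T : Subgroup H) := by
      simp only [Set.insert_subset_iff, Set.singleton_subset_iff, SetLike.mem_coe]
      exact ⟨one_mem _, hx, hu, hmem _ hu, hmem _ (hmem _ hu)⟩
    have h2 := Set.ncard_le_ncard h1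
    have c1 : IsConj u (n * u * n⁻¹) := isConj_iff.2 ⟨n, rfl⟩
    have c2 : IsConj u (n * (n * u * n⁻¹) * n⁻¹) := c1.trans (isConj_iff.2 ⟨n, rfl⟩)
    have n1 : ∀ y, IsConj u y → 1 ≠ y := by rintro y hy rfl; exact hu1 (isConj_one_right.1 hy.symm)
    have n2 : ∀ y, IsConj u y → x ≠ y := by rintro y hy rfl; exact hc hy
    rw [Set.ncard_insert_of_notMem (by
        simp only [Set.mem_insert_iff, Set.mem_singleton_iff, not_or]
        exact ⟨hx1.symm, hu1.symm, n1 _ c1, n1 _ c2⟩),
      Set.ncard_insert_of_notMem (by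
        simp only [Set.mem_insert_iff, Set.mem_singleton_iff, not_or]
        exact ⟨n2 _ (IsConj.refl u), n2 _ c1, n2 _ c2⟩),
      Set.ncard_insert_of_notMem (by
        simp only [Set.mem_insert_iff, Set.mem_singleton_iff, not_or]
        exact ⟨hun.symm, hun2.symm⟩),
      Set.ncard_pair (fun h => hun (by simpa using h.symm)), ← Nat.card_coe_set_eq] at h2
    have : Nat.card ((T : Subgroup H) : Set H) = Nat.card T := rfl
    omega
  have hcl : {g : H | orderOf g = 2} = (ConjClasses.mk u).carrier := by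
    ext x
    rw [ConjClasses.mem_carrier_iff_mk_eq, ConjClasses.mk_eq_mk_iff_isConj]
    constructor
    · intro hx
      have h1 : IsPGroup 2 (zpowers x) := IsPGroup.of_card (n := 1) (by rw [Nat.card_zpowers]; exact hx)
      obtain ⟨Q, hQ⟩ := h1.exists_le_sylow
      obtain ⟨g, rfl⟩ := MulAction.exists_smul_eq H Q T
      have h2 : g * x * g⁻¹ ∈ ((g • Q : Sylow 2 H) : Subgroup H) :=
        smul_mem_pointwise_smul _ (MulAut.conj g) _ (hQ (mem_zpowers x))
      refine (isConj_iff.2 ⟨g, rfl⟩).trans (hall _ h2 fun h => ?_).symm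
      rw [conj_eq_one_iff] at h
      simp [h] at hx
    · intro hx
      obtain ⟨c, rfl⟩ := isConj_iff.1 hx.symm
      exact ((MulAut.conj c).orderOf_eq u).trans (hsq u hu hu1)
  rw [s_eq_ncard, hcl]
  refine ⟨?_, fun p k hp h => hH ?_⟩
  · have : (ConjClasses.mk u).carrier = conjugatesOf u := by
      ext x; rw [ConjClasses.mem_carrier_iff_mk_eq, ConjClasses.mk_eq_mk_iff_isConj]
      exact isConj_comm
    rw [this, CL.ncard_conjugatesOf_eq_index]
    exact index_dvd_card _
  · have h1 := Cfsg.Agent.S4037.result u hp k h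
    have h2 : (T : Subgroup H) ≤ normalClosure {u} := fun x hx => by
      by_cases hx1 : x = 1
      · exact hx1 ▸ one_mem _
      · obtain ⟨c, rfl⟩ := isConj_iff.1 (hall x hx hx1)
        exact (normalClosure_normal (s := {u})).conj_mem _ (subset_normalClosure rfl) c
    have h3 : Group.IsSolvable (H ⧸ normalClosure {u}) :=
      CL.isSolvable_of_not_two_dvd _ fun h => T.not_dvd_index (h.trans (index_dvd_of_le h2))
    exact Group.isSolvable_of_ker_le_range (normalClosure {u}).subtype (QuotientGroup.mk' (normalClosure {u}))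
      (by rw [QuotientGroup.ker_mk', range_subtype])

theorem main {G : Type*} [Group G] [Finite G] (hG : ¬ Group.IsSolvable G) {a b : ℕ}
    (hv : ∀ m, s G m = 0 ∨ s G m = 1 ∨ s G m = a ∨ s G m = b) : False := by
  have hv' : ∀ m, 3 ≤ m → s G m = 0 ∨ s G m = a ∨ s G m = b := fun m hm => by
    have := two_dvd (G := G) hm
    rcases hv m with h | h | h <;> omega
  have h2 : 2 ∣ Nat.card G := by_contra fun h => hG (CL.isSolvable_of_not_two_dvd G h)
  obtain ⟨p, hp, hpG, hp2⟩ : ∃ p : ℕ, p.Prime ∧ p ∣ Nat.card G ∧ p ≠ 2 := by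
    by_contra! h
    exact hG (CL.Char.isSolvable_of_primes_subset_pair Nat.prime_two Nat.prime_two
      fun r hr hd => .inl (h r hr hd))
  have odd2 : ∀ {r : ℕ}, r.Prime → r ≠ 2 → ¬ r ∣ 2 := fun hr h2 h =>
    h2 ((Nat.prime_dvd_prime_iff_eq hr Nat.prime_two).1 h)
  have ge3 : ∀ {r : ℕ}, r.Prime → r ≠ 2 → 3 ≤ r := fun hr h2 => by have := hr.two_le; omega
  -- two odd primes with the same count `n`, the other value being divisible by one of them
  have two : ∀ {p q : ℕ}, p.Prime → q.Prime → p ≠ 2 → p ≠ q → p ∣ Nat.card G → s G p = s G q →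
      s G (p * q) ≠ s G p ∧ ¬ p ∣ s G (p * q) := fun {p q} hp hq hp2 hpq hpG e => by
    have f1 := frob_one hp hpG
    have f2 := frob_prime hp hpG (m := q) fun h => hpq ((Nat.prime_dvd_prime_iff_eq hp hq).1 h)
    rw [← e] at f2
    refine ⟨fun h => ?_, fun h => ?_⟩
    · rw [h, ← two_mul] at f2
      exact hp.not_dvd_one ((Nat.dvd_add_left (((Nat.Prime.dvd_mul hp).1 f2).resolve_left
        (odd2 hp hp2))).1 f1)
    · exact hp.not_dvd_one ((Nat.dvd_add_left ((Nat.dvd_add_left h).1 f2)).1 f1)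
  have f2 := frob_one Nat.prime_two h2
  by_cases hs2 : s G 2 = 1
  swap
  · obtain ⟨q, hq, hqG, hq2, hqp⟩ : ∃ q : ℕ, q.Prime ∧ q ∣ Nat.card G ∧ q ≠ 2 ∧ q ≠ p := by
      by_contra! h
      exact hG (CL.Char.isSolvable_of_primes_subset_pair Nat.prime_two hp
        fun r hr hd => or_iff_not_imp_left.2 (h r hr hd))
    have key : ∀ m m', 3 ≤ m → 3 ≤ m' → s G m ≠ 0 → s G m' ≠ 0 → s G m = s G m' := fun m m' h1 h2 => by
      have := two_dvd (G := G) h1
      have := two_dvd (G := G) h2
      have := hv' m h1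
      have := hv' m' h2
      have := hv 2
      omega
    have h3 := ge3 hp hp2
    have h4 := ge3 hq hq2
    have h5 := two hp hq hp2 hqp.symm hpG
      (key p q h3 h4 (ne_zero_of_prime hp hpG) (ne_zero_of_prime hq hqG))
    exact h5.1 (key _ _ (by nlinarith) h3 (fun h => h5.2 (h ▸ dvd_zero p)) (ne_zero_of_prime hp hpG))
  -- a unique involution
  obtain ⟨z, hz⟩ := exists_of_ne_zero (G := G) (m := 2) (by omega)
  have huniq : ∀ y : G, orderOf y = 2 → y = z := fun y hy =>
    (Set.ncard_le_one (s := {g : G | orderOf g = 2})).1 (by rw [← s_eq_ncard, hs2]) y hy z hz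
  obtain ⟨T⟩ : Nonempty (Sylow 2 G) := inferInstance
  obtain ⟨j, ⟨e⟩⟩ : ∃ j, Nonempty (T ≃* QuaternionGroup (2 ^ (j + 1))) := by
    rcases CL.PCyc.isCyclic_or_quaternion T.isPGroup' (fun x y hx hy _ => by
      have : y = x := Subtype.ext ((huniq y (by simpa using hy)).trans (huniq x (by simpa using hx)).symm)
      exact this ▸ mem_zpowers _) with hc | ⟨-, h⟩
    · exact absurd (CL.GW.isSolvable_of_hasNPC (CL.hasNPC_of_normalizer_le_centralizer T
        (hc.normalizer_le_centralizer ((Nat.minFac_eq_two_iff _).2 h2)))) hG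
    · exact h
  have ho : orderOf ((e.symm (QuaternionGroup.a 1) : T) : G) = 2 ^ (j + 2) := by
    rw [orderOf_coe, MulEquiv.orderOf_eq, QuaternionGroup.orderOf_a_one, ← pow_succ']
  have hs4 : s G 4 ≠ 0 := fun h => s_orderOf_ne_zero _
    (s_eq_zero_of_dvd (by rw [ho]; exact Dvd.intro_left (2 ^ j) (by ring)) h)
  have f4 : 4 ∣ 2 + s G 4 := by
    have := frob_pow (G := G) (e := 2) Nat.prime_two (dvd_card_of_ne_zero hs4) Nat.prime_two.not_dvd_one
    simpa [sum_range_succ, s_one, hs2] using this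
  wlog hab : s G 4 = a generalizing a b
  · exact this (a := b) (b := a) (fun m => by have := hv m; omega) (fun m hm => by have := hv' m hm; omega)
      (by have := hv' 4 (by omega); omega)
  have four : ∀ m, 4 ∣ m.totient → s G m = 0 ∨ s G m = b := fun m hm => by
    have h1 := hm.trans (totient_dvd (G := G) m)
    have := hv m
    omega
  have hs8 : s G 8 = 0 := by
    by_contra h8
    have h8b := (four 8 (by decide)).resolve_left h8
    have c : ∀ k, Nat.Coprime p (2 ^ k) := fun k =>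
      ((Nat.coprime_primes hp Nat.prime_two).2 hp2).pow_right k
    have t : ∀ k, 4 ∣ (p * 2 ^ (k + 2)).totient := fun k => by
      rw [Nat.totient_mul (c _), Nat.totient_prime_pow_succ Nat.prime_two]
      exact Nat.mul_dvd_mul (a := 2) (c := 2) (Nat.totient_even (ge3 hp hp2)).two_dvd
        ⟨2 ^ k, by ring⟩
    have g1 := frob_one hp hpG
    have g4 := frob_prime hp hpG (m := 2 ^ 2) ((Nat.Prime.coprime_iff_not_dvd hp).1 (c 2))
    have g8 := frob_prime hp hpG (m := 2 ^ 3) ((Nat.Prime.coprime_iff_not_dvd hp).1 (c 3))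
    have hb : p ∣ b := by
      rw [show s G (2 ^ 3) = b from h8b] at g8
      rcases four _ (t 1) with h | h <;> rw [show 2 ^ 3 = 2 ^ (1 + 2) from rfl, h] at g8
      · simpa using g8
      · exact ((Nat.Prime.dvd_mul hp).1 (two_mul b ▸ g8)).resolve_left (odd2 hp hp2)
    have ha : p ∣ a := by
      rw [show s G (2 ^ 2) = a from hab] at g4
      rcases four _ (t 0) with h | h <;> rw [show 2 ^ 2 = 2 ^ (0 + 2) from rfl, h] at g4
      · simpa using g4
      · exact (Nat.dvd_add_left hb).1 g4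
    refine hp.not_dvd_one ((Nat.dvd_add_left ?_).1 g1)
    rcases hv' p (ge3 hp hp2) with h | h | h <;> rw [h]
    exacts [dvd_zero p, ha, hb]
  have hT : Nat.card T = 8 := by
    obtain rfl : j = 0 := by
      by_contra hj
      exact s_orderOf_ne_zero _ (s_eq_zero_of_dvd
        (by rw [ho]; exact (pow_dvd_pow 2 (by omega) : 2 ^ 3 ∣ 2 ^ (j + 2))) hs8)
    rw [Nat.card_congr e.toEquiv, Nat.card_eq_fintype_card, QuaternionGroup.card]; rfl
  have hZ : (zpowers z).Normal := ⟨by
    rintro _ ⟨k, rfl⟩ g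
    have := huniq (g * z * g⁻¹) (((MulAut.conj g).orderOf_eq z).trans hz)
    exact ⟨k, by show z ^ k = _; rw [← conj_zpow, this]⟩⟩
  have hZc : Nat.card (zpowers z) = 2 := by rw [Nat.card_zpowers, hz]
  have hq : ∀ (g : G) (k : ℕ), orderOf (g : G ⧸ zpowers z) = 2 ^ (k + 1) → orderOf g = 2 ^ (k + 2) :=
    fun g k hg => by
      have h1 : g ^ 2 ^ (k + 1) ∈ zpowers z := by
        rw [← QuotientGroup.eq_one_iff, QuotientGroup.mk_pow, ← hg, pow_orderOf_eq_one]
      have h3 : g ^ 2 ^ (k + 2) = 1 := by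
        have := pow_card_eq_one' (x := (⟨_, h1⟩ : zpowers z))
        rw [hZc] at this
        rw [pow_succ, pow_mul]
        exact congrArg Subtype.val this
      refine orderOf_eq_prime_pow (fun h4 => ?_) h3
      have h5 : g ^ 2 ^ k ∉ zpowers z := fun h => by
        rw [← QuotientGroup.eq_one_iff, QuotientGroup.mk_pow, ← orderOf_dvd_iff_pow_eq_one, hg,
          Nat.pow_dvd_pow_iff_le_right one_lt_two] at h
        omega
      refine h5 (huniq (g ^ 2 ^ k) (orderOf_eq_prime (by rw [← pow_mul, ← pow_succ, h4]) fun h => ?_) ▸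
        mem_zpowers _)
      exact h5 (h ▸ one_mem _)
  have hc : Nat.card G = Nat.card (G ⧸ zpowers z) * 2 := by
    rw [card_eq_card_quotient_mul_card_subgroup (zpowers z), hZc]
  obtain ⟨k1, k2⟩ := klein (H := G ⧸ zpowers z) (fun h => hG (Group.isSolvable_of_ker_le_range
    (zpowers z).subtype (QuotientGroup.mk' (zpowers z)) (by rw [QuotientGroup.ker_mk', range_subtype]))) (by
      rw [s_eq_zero_iff] at hs8 ⊢
      rintro ⟨x, hx⟩
      obtain ⟨g, rfl⟩ := QuotientGroup.mk_surjective x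
      exact hs8 ⟨g, hq g 1 hx⟩) fun h => T.not_dvd_index (by
      have := (T : Subgroup G).card_mul_index
      rw [hT] at this
      omega)
  have ha : a = 2 * s (G ⧸ zpowers z) 2 := by
    rw [← hab]
    refine Eq.trans ?_ ((QuotientGroup.card_preimage_mk (zpowers z) {x | orderOf x = 2}).trans
      (by rw [hZc]; rfl))
    refine Nat.card_congr (Equiv.subtypeEquivRight fun g => ⟨fun hg => ?_, hq g 0⟩)
    have h1 : orderOf (g ^ 2) = 2 := by rw [orderOf_pow' _ two_ne_zero, hg]; rfl
    refine orderOf_eq_prime ?_ fun h => ?_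
    · rw [← QuotientGroup.mk_pow, QuotientGroup.eq_one_iff, huniq _ h1]; exact mem_zpowers z
    · have := orderOf_dvd_of_mem_zpowers ((QuotientGroup.eq_one_iff g).1 h)
      rw [hg, hz] at this
      omega
  have h0 : s (G ⧸ zpowers z) 2 ≠ 0 := by omega
  have hr : ∀ r : ℕ, r.Prime → r ∣ s (G ⧸ zpowers z) 2 →
      r ≠ 2 ∧ r ∣ Nat.card G ∧ r ∣ a ∧ s G r = b := fun r hr hd => by
    have h1 : r ≠ 2 := by rintro rfl; omega
    have h3 : r ∣ Nat.card G := hc ▸ (hd.trans k1).mul_right 2
    have h4 : r ∣ a := ha ▸ hd.mul_left 2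
    refine ⟨h1, h3, h4, ?_⟩
    rcases hv' r (ge3 hr h1) with h | h | h
    · exact absurd h (ne_zero_of_prime hr h3)
    · exact absurd ((Nat.dvd_add_left (h ▸ h4)).1 (frob_one hr h3)) hr.not_dvd_one
    · exact h
  by_cases h1 : s (G ⧸ zpowers z) 2 = 1
  · exact k2 2 0 Nat.prime_two h1
  obtain ⟨r, hr1, hr2⟩ := Nat.exists_prime_and_dvd h1
  refine k2 r _ hr1 (Nat.eq_prime_pow_of_unique_prime_dvd h0 fun {q} hq1 hq2 => by_contra fun hqr => ?_)
  obtain ⟨a1, a2, a3, a4⟩ := hr r hr1 hr2
  obtain ⟨b1, -, -, b4⟩ := hr q hq1 hq2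
  have h5 := two hr1 hq1 a1 (Ne.symm hqr) a2 (a4.trans b4.symm)
  rcases hv' (r * q) (by have := ge3 hr1 a1; have := ge3 hq1 b1; nlinarith) with h | h | h
  · exact h5.2 (h ▸ dvd_zero r)
  · exact h5.2 (h ▸ a3)
  · exact h5.1 (h.trans a4.symm)


/-- A finite group in which the numbers of elements of each order that occurs (the numbers #{g : o(g) = m}, m ranging over the element orders) take exactly three different values is solvable. -/
theorem result {G : Type*} [Group G] [Finite G] (h : (((fun m : ℕ => Nat.card {g : G // orderOf g = m}) '' Set.range (orderOf : G → ℕ))).ncard = 3) : Group.IsSolvable G := by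
  by_contra hG
  obtain ⟨a, b, hv⟩ := CL.Nse.exists_values h
  exact main hG hv

end Cfsg.Agent.S3996
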