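import Cfsg.Statements.S4009
import Cfsg.Agent.FGS.IterComm

set_option autoImplicit false
open Cfsg

namespace Cfsg.Agent.S4009

/-- Let P be a finite p-group of order p^n whose derived length is exactly k + 1 (the k-th derived subgroup is nontrivial and the (k+1)-st is trivial). Then n ≥ 2^k + 2k − 2. -/
theorem result {P : Type*} [Group P] [Finite P] (p : ℕ) [Fact p.Prime] (n k : ℕ) (hcard : Nat.card P = p ^ n) (hk : derivedSeries P k ≠ ⊥) (hk' : derivedSeries P (k + 1) = ⊥) : 2 ^ k + 2 * k ≤ n + 2 := by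
  classical
  have hp : p.Prime := Fact.out
  have hP : IsPGroup p P := IsPGroup.of_card hcard
  have hstep : ∀ i m m', derivedSeries P i ≤ (⊤ : Subgroup P).lowerCentralSeries m → m' ≤ 2 * m + 1 →
      derivedSeries P (i + 1) ≤ (⊤ : Subgroup P).lowerCentralSeries m' := fun i m m' h hm =>
    (Subgroup.commutator_mono h h).trans ((CL.HP.lcs_commutator_le ⊤ m m).trans
      (Subgroup.lowerCentralSeries_antitone _ (by omega)))
  have h1 : ∀ i, derivedSeries P i ≤ (⊤ : Subgroup P).lowerCentralSeries (2 ^ i - 1) := by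
    intro i
    induction i with
    | zero => exact le_rfl
    | succ i ih => exact hstep i _ _ ih (by have := Nat.one_le_two_pow (n := i); omega)
  have hne : ∀ i < k, derivedSeries P (i + 1) ≠ ⊥ := fun i hi h =>
    hk (le_bot_iff.mp (h ▸ derivedSeries_antitone P (by omega)))
  have h2 : ∀ i < k, p ^ (2 ^ i + 1) ≤ (derivedSeries P (i + 1)).relIndex (derivedSeries P i) := by
    intro i hi
    have := CL.IC.pow_le_relIndex_commutator hP _ (h1 i) (hne i hi)
    rwa [show 2 ^ i - 1 + 2 = 2 ^ i + 1 by have := Nat.one_le_two_pow (n := i); omega] at this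
  obtain ⟨i0, hi0⟩ : ∃ i0, ∀ i < k, i ≠ i0 → i ≠ i0 + 1 →
      p ^ (2 ^ i + 2) ≤ (derivedSeries P (i + 1)).relIndex (derivedSeries P i) := by
    by_cases h : ∃ i, (derivedSeries P (i + 1)).relIndex (derivedSeries P i) < p ^ (2 ^ i + 2)
    · refine ⟨Nat.find h, fun i hi e1 e2 => ?_⟩
      rcases lt_or_ge i (Nat.find h) with h3 | h3
      · exact not_lt.mp (Nat.find_min h h3)
      have h4 := CL.IC.le_pow_of_lt hP _ _ (Nat.find_spec h)
      generalize Nat.find h = j at *
      have h5 : ∀ t, derivedSeries P (j + 2 + t) ≤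
          (⊤ : Subgroup P).lowerCentralSeries (2 ^ (j + 2 + t)) := by
        intro t
        induction t with
        | zero =>
          have h6 := Nat.one_le_two_pow (n := j)
          refine (CL.IC.commutator_commutator_le hP _ (h1 j) (by
            rwa [show 2 ^ j - 1 + 2 = 2 ^ j + 1 by omega])).trans ?_
          refine (Subgroup.commutator_mono (Subgroup.commutator_mono (h1 (j + 1)) le_rfl)
            (h1 (j + 1))).trans ((CL.HP.lcs_commutator_le ⊤ (2 ^ (j + 1) - 1 + 1) _).trans
              (Subgroup.lowerCentralSeries_antitone _ (by rw [Nat.add_zero, pow_succ 2 (j + 1)]; omega)))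
        | succ t ih => exact hstep _ _ _ ih (by rw [← add_assoc]; omega)
      obtain ⟨t, rfl⟩ : ∃ t, i = j + 2 + t := ⟨i - (j + 2), by omega⟩
      exact CL.IC.pow_le_relIndex_commutator hP _ (h5 t) (hne _ hi)
    · push Not at h
      exact ⟨0, fun i _ _ _ => h i⟩
  have h3 : ∀ j ≤ k, ∃ e, p ^ e ≤ (derivedSeries P j).index ∧
      e + 1 + (if i0 < j then 1 else 0) + (if i0 + 1 < j then 1 else 0) = 2 ^ j + 2 * j := by
    intro j
    induction j with
    | zero => intro _; exact ⟨0, by simp, by simp⟩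
    | succ j ih =>
      intro hj
      obtain ⟨e, he1, he2⟩ := ih (by omega)
      rw [← Subgroup.relIndex_mul_index (derivedSeries_antitone P (Nat.le_succ j))]
      by_cases h : j = i0 ∨ j = i0 + 1
      · refine ⟨2 ^ j + 1 + e, ?_, ?_⟩
        · rw [pow_add]; exact Nat.mul_le_mul (h2 j hj) he1
        · split_ifs at he2 ⊢ <;> omega
      · refine ⟨2 ^ j + 2 + e, ?_, ?_⟩
        · rw [pow_add]; exact Nat.mul_le_mul (hi0 j hj (fun h' => h (Or.inl h'))
            fun h' => h (Or.inr h')) he1
        · split_ifs at he2 ⊢ <;> omega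
  obtain ⟨e, he1, he2⟩ := h3 k le_rfl
  have h4 := (derivedSeries P k).card_mul_index
  have h5 := (Subgroup.one_lt_card_iff_ne_bot _).mpr hk
  have h6 : p ^ e < p ^ n := by
    have : 0 < p ^ e := pow_pos hp.pos _
    rw [← hcard, ← h4]; nlinarith
  rw [Nat.pow_lt_pow_iff_right hp.one_lt] at h6
  split_ifs at he2 <;> omega

end Cfsg.Agent.S4009
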