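import Cfsg.Statements.S4013
import Mathlib
import Cfsg.Agent.FGS.ClassSize

set_option autoImplicit false
open Cfsg

namespace Cfsg.Agent.S4013

/-- Let G be a finite p-group (p prime) and N < M normal subgroups of G such that for some g ∈ M ∖ N the conjugacy class of g is exactly M ∖ N. Then p = 2 and N has index 2 in M. -/
theorem result {G : Type*} [Group G] [Finite G] (p : ℕ) [Fact p.Prime] (hG : IsPGroup p G) (N M : Subgroup G) [N.Normal] [M.Normal] (hNM : N < M) (g : G) (hgM : g ∈ M) (hgN : g ∉ N) (hcl : {h : G | IsConj g h} = (M : Set G) \ (N : Set G)) : p = 2 ∧ N.relIndex M = 2 := by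
  have hp : p.Prime := Fact.out
  have h1 : {h : G | IsConj g h}.ncard = (Subgroup.centralizer ({g} : Set G)).index := by
    rw [← CL.ncard_carrier_eq_index]
    congr 1
  rw [hcl, Set.ncard_sdiff (SetLike.coe_subset_coe.2 hNM.le), ← Nat.card_coe_set_eq,
    ← Nat.card_coe_set_eq] at h1
  simp only [SetLike.coe_sort_coe] at h1
  rw [← CL.card_mul_relIndex_of_le hNM.le, ← Nat.mul_sub_one] at h1
  obtain ⟨i, hi⟩ := hG.index (Subgroup.centralizer ({g} : Set G))
  obtain ⟨j, hj⟩ := (hG.to_subgroup M).index (N.subgroupOf M)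
  change N.relIndex M = _ at hj
  have hj0 : j ≠ 0 := by
    rintro rfl
    exact hNM.not_ge (Subgroup.relIndex_eq_one.1 hj)
  obtain ⟨k, -, hk⟩ := (Nat.dvd_prime_pow hp).1 (hi ▸ Dvd.intro_left _ h1)
  have h2 : N.relIndex M = p ^ k + 1 := by
    have : 0 < p ^ j := Nat.pow_pos hp.pos
    omega
  have hk0 : k = 0 := by
    by_contra hk0
    have h3 : p ∣ p ^ k + 1 := h2 ▸ hj ▸ dvd_pow_self p hj0
    exact hp.one_lt.ne' (Nat.dvd_one.1 ((Nat.dvd_add_right (dvd_pow_self p hk0)).1 h3))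
  rw [hk0] at h2
  refine ⟨(Nat.prime_dvd_prime_iff_eq hp Nat.prime_two).1 ?_, h2⟩
  have := dvd_pow_self p hj0
  rwa [← hj, h2] at this

end Cfsg.Agent.S4013
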