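import Cfsg.Statements.S4022
import Cfsg.Agent.FGS.EqAb1

set_option autoImplicit false
open Cfsg

namespace Cfsg.Agent.S4022


/-- Let G be a finite solvable group in which, for every prime p, any two p-subgroups of the same order are conjugate, and suppose the Sylow p-subgroups of G are cyclic for all primes p with at most one exception. Then any two subgroups of G of the same order are conjugate. -/
theorem result {G : Type*} [Group G] [Finite G]
    [Group.IsSolvable G] (hD : ∀ p : ℕ, p.Prime → ∀ H K : Subgroup G, IsPGroup p H → IsPGroup p K → Nat.card H = Nat.card K →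
      ∃ g : G, K = H.map (MulAut.conj g).toMonoidHom)
    (r : ℕ) (hcyc : ∀ p : ℕ, p.Prime → p ≠ r → ∀ P : Sylow p G, IsCyclic P) :
    ∀ H K : Subgroup G, Nat.card H = Nat.card K → ∃ g : G, K = H.map (MulAut.conj g).toMonoidHom := by
  intro H K h
  obtain ⟨g, hg⟩ := CL.EqAb.conj_of_almost_cyclic r G inferInstance
    (fun p hp A B h1 h2 h3 => (hD p hp A B h1 h2 h3).imp fun _ e => e.symm)
    (fun p hp hpr Q hQ => by
      obtain ⟨P, hP⟩ := hQ.exists_le_sylow
      have := hcyc p hp hpr P
      exact Subgroup.isCyclic_of_le hP) H K h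
  exact ⟨g, hg.symm⟩

end Cfsg.Agent.S4022
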