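import Cfsg.Statements.S4023
import Cfsg.Agent.FGS.EqOrdConj

set_option autoImplicit false
open Cfsg

namespace Cfsg.Agent.S4023

/-- Let p be a prime and G a finite group in which any two p-subgroups of the same order are conjugate, with Sylow p-subgroup P. Then P is cyclic, or elementary abelian, or p = 2 and P is a quaternion group of order 8, or p is odd and P is non-abelian of order p³ and exponent p. -/
theorem result {G : Type*} [Group G] [Finite G]
    {p : ℕ} [Fact p.Prime] (hC : ∀ H K : Subgroup G, IsPGroup p H → IsPGroup p K → Nat.card H = Nat.card K →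
      ∃ g : G, K = H.map (MulAut.conj g).toMonoidHom) (P : Sylow p G) :
    IsCyclic P ∨ Cfsg.IsElementaryAbelian p (P : Subgroup G) ∨
      (p = 2 ∧ Nonempty ((P : Subgroup G) ≃* QuaternionGroup 2)) ∨
      (p ≠ 2 ∧ ¬ IsMulCommutative P ∧ Nat.card P = p ^ 3 ∧ Monoid.exponent P = p) := by
  have hp : p.Prime := Fact.out
  have hC' : ∀ (H K : Subgroup G) (k : ℕ), Nat.card H = p ^ k → Nat.card K = p ^ k →
      ∃ g : G, K = H.map (MulAut.conj g).toMonoidHom := fun H K k h1 h2 =>
    hC H K (IsPGroup.of_card h1) (IsPGroup.of_card h2) (h1.trans h2.symm)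
  rcases CL.FGS.EqOrd.cyclic_or_quat_or_exp P.isPGroup'
      (fun A B _ _ h1 h2 => hC' A B 2 h1 h2) with h | ⟨rfl, n, ⟨e⟩⟩ | h
  · exact Or.inl h
  · refine Or.inr (Or.inr (Or.inl ⟨rfl, ?_⟩))
    rcases n with _ | n
    · exact ⟨e⟩
    exfalso
    set m := 2 ^ (n + 1 + 1) with hm
    have : NeZero m := ⟨by positivity⟩
    let f : QuaternionGroup m →* G := (P : Subgroup G).subtype.comp e.symm.toMonoidHom
    have hf : Function.Injective f := (P : Subgroup G).subtype_injective.comp e.symm.injective
    have hd : 2 ^ 3 ∣ orderOf (QuaternionGroup.a 1 : QuaternionGroup m) := by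
      rw [QuaternionGroup.orderOf_a_one, hm]
      exact ⟨2 ^ n, by ring⟩
    set c := (QuaternionGroup.a 1 : QuaternionGroup m) ^
      (orderOf (QuaternionGroup.a 1 : QuaternionGroup m) / 2 ^ 3) with hc
    have hco : orderOf c = 2 ^ 3 := orderOf_pow_orderOf_div (orderOf_pos _).ne' hd
    obtain ⟨K, hKc, hK⟩ := Sylow.exists_subgroup_card_pow_succ (G := QuaternionGroup m) (p := 2)
      (n := 2) (by rw [Nat.card_eq_fintype_card, QuaternionGroup.card, hm]; exact ⟨2 ^ (n + 1), by ring⟩)
      (H := Subgroup.zpowers (QuaternionGroup.xa 0))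
      (by rw [Nat.card_zpowers, QuaternionGroup.orderOf_xa]; norm_num)
    obtain ⟨g, hg⟩ := hC' (Subgroup.zpowers (f c)) (K.map f) 3
      (by rw [Nat.card_zpowers, orderOf_injective f hf, hco])
      (by rw [Subgroup.card_map_of_injective hf, hKc])
    obtain ⟨k, hk, hkc⟩ : MulAut.conj g (f c) ∈ K.map f :=
      hg ▸ Subgroup.mem_map_of_mem _ (Subgroup.mem_zpowers _)
    have hko : orderOf k = 2 ^ 3 := by
      rw [← orderOf_injective f hf, hkc, MulEquiv.orderOf_eq, orderOf_injective f hf, hco]
    have hKk : Subgroup.zpowers k = K :=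
      Subgroup.eq_of_le_of_card_ge (Subgroup.zpowers_le.2 hk) (by rw [Nat.card_zpowers, hko, hKc])
    have hx : QuaternionGroup.xa 0 ∈ Subgroup.zpowers k := hKk ▸ hK (Subgroup.mem_zpowers _)
    have hcomm := setLike_mul_comm (s := Subgroup.zpowers k) hx (Subgroup.mem_zpowers k)
    rcases k with i | i
    · simp only [QuaternionGroup.xa_mul_a, QuaternionGroup.a_mul_xa, zero_add, zero_sub,
        QuaternionGroup.xa.injEq] at hcomm
      have : (QuaternionGroup.a i : QuaternionGroup m) ^ 2 = 1 := by
        rw [pow_two, QuaternionGroup.a_mul_a, QuaternionGroup.one_def]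
        congr 1
        linear_combination hcomm
      have := orderOf_dvd_of_pow_eq_one this
      rw [hko] at this
      norm_num at this
    · rw [QuaternionGroup.orderOf_xa] at hko
      norm_num at hko
  · by_cases hab : IsMulCommutative P
    · exact Or.inr (Or.inl ⟨hab, h⟩)
    have hexp : ∀ x : P, x ^ p = 1 := fun x => Subtype.ext (h x x.2)
    refine Or.inr (Or.inr (Or.inr ⟨?_, hab, ?_, ?_⟩))
    · rintro rfl
      exact hab ⟨⟨fun a b => Commute.of_orderOf_dvd_two
        (fun g => orderOf_dvd_of_pow_eq_one (hexp g)) a b⟩⟩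
    · obtain ⟨B, hB, hBc⟩ := CL.FGS.EqOrd.exists_noncomm_cube (G := P) P.isPGroup' hexp hab
      obtain ⟨k, hk⟩ := IsPGroup.iff_card.1 P.isPGroup'
      have h3 : 3 ≤ k := by
        have := Subgroup.card_subgroup_dvd_card B
        rw [hBc, hk] at this
        exact (Nat.pow_dvd_pow_iff_le_right hp.one_lt).1 this
      by_contra hne
      have h4 : 4 ≤ k := by
        by_contra hlt
        exact hne (by rw [hk, show k = 3 by omega])
      obtain ⟨A, hA, hAc⟩ := CL.FGS.EqOrd.exists_comm_cube (G := P) P.isPGroup'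
        (by rw [hk]; exact Nat.pow_le_pow_right hp.pos h4)
      obtain ⟨g, hg⟩ := hC' (A.map (P : Subgroup G).subtype) (B.map (P : Subgroup G).subtype) 3
        (by rw [Subgroup.card_map_of_injective (P : Subgroup G).subtype_injective, hAc])
        (by rw [Subgroup.card_map_of_injective (P : Subgroup G).subtype_injective, hBc])
      have : IsMulCommutative (B.map (P : Subgroup G).subtype) := hg ▸ inferInstance
      refine hB ⟨⟨fun a b => Subtype.ext (Subtype.ext ?_)⟩⟩
      exact setLike_mul_comm (s := B.map (P : Subgroup G).subtype)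
        (Subgroup.mem_map_of_mem _ a.2) (Subgroup.mem_map_of_mem _ b.2)
    · rcases (Nat.dvd_prime hp).1 (Monoid.exponent_dvd_of_forall_pow_eq_one hexp) with h1 | h1
      · exfalso
        have := Monoid.exp_eq_one_iff.1 h1
        exact hab inferInstance
      · exact h1
end Cfsg.Agent.S4023
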