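import Cfsg.Statements.S4024
import Cfsg.Agent.FGS.EqOrdConj
import Cfsg.Agent.PLOC.PConstrained
import Cfsg.Agent.ODD.PLength1

set_option autoImplicit false
open Cfsg

namespace Cfsg.Agent.S4024

/-- Let p be an odd prime and G a finite group in which any two p-subgroups of the same order are conjugate, with Sylow p-subgroup P. If H is a normal p-solvable subgroup of G whose order is divisible by p, then P is abelian, and either P ≤ H or P is cyclic. -/
theorem result {G : Type*} [Group G] [Finite G]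
    {p : ℕ} [Fact p.Prime] (hp : p ≠ 2) (hC : ∀ H K : Subgroup G, IsPGroup p H → IsPGroup p K → Nat.card H = Nat.card K →
      ∃ g : G, K = H.map (MulAut.conj g).toMonoidHom) (P : Sylow p G)
    (H : Subgroup G) [H.Normal] (hsolv : Cfsg.IsPSolvable p H) (hdiv : p ∣ Nat.card H) :
    IsMulCommutative P ∧ ((P : Subgroup G) ≤ H ∨ IsCyclic P) := by
  have hpp : p.Prime := Fact.out
  have hC' : ∀ (H K : Subgroup G) (k : ℕ), Nat.card H = p ^ k → Nat.card K = p ^ k →
      ∃ g : G, K = H.map (MulAut.conj g).toMonoidHom := fun H K k h1 h2 =>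
    hC H K (IsPGroup.of_card h1) (IsPGroup.of_card h2) (h1.trans h2.symm)
  rcases CL.FGS.EqOrd.cyclic_or_quat_or_exp P.isPGroup'
      (fun A B _ _ h1 h2 => hC' A B 2 h1 h2) with h | ⟨h, -⟩ | h
  · exact ⟨inferInstance, Or.inr h⟩
  · exact absurd h hp
  have hconj : ∀ x y : G, orderOf x = p → orderOf y = p → ∃ g : G, ∃ i : ℤ, y = g * x ^ i * g⁻¹ := by
    intro x y hx hy
    obtain ⟨g, hg⟩ := hC' (Subgroup.zpowers x) (Subgroup.zpowers y) 1
      (by rw [Nat.card_zpowers, hx, pow_one]) (by rw [Nat.card_zpowers, hy, pow_one])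
    obtain ⟨_, ⟨i, rfl⟩, hi⟩ : y ∈ (Subgroup.zpowers x).map (MulAut.conj g).toMonoidHom :=
      hg ▸ Subgroup.mem_zpowers y
    exact ⟨g, i, hi.symm⟩
  have := CL.BG.pPrimePCore_characteristic' (G := H) (p := p)
  have := CL.pPrimeCore_characteristic p H
  set K := (Cfsg.pPrimePCore p H).map H.subtype with hK
  set K0 := (Cfsg.pPrimeCore p H).map H.subtype with hK0
  have hKn : K.Normal := inferInstance
  have hK0n : K0.Normal := inferInstance
  have hKd : p ∣ Nat.card (Cfsg.pPrimePCore p H) := by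
    by_contra hnd
    obtain ⟨S⟩ : Nonempty (Sylow p (Cfsg.pPrimePCore p H)) := inferInstance
    have hS : (S : Subgroup (Cfsg.pPrimePCore p H)) = ⊥ := by
      obtain ⟨k, hk⟩ := IsPGroup.iff_card.1 S.isPGroup'
      rcases k with _ | k
      · exact Subgroup.card_eq_one.1 (by simpa using hk)
      · exact absurd ((dvd_pow_self p k.succ_ne_zero).trans
          (hk ▸ Subgroup.card_subgroup_dvd_card _)) hnd
    have h1 := CL.PC.isPConstrained_of_isPSolvable hsolv S
    rw [hS, Subgroup.map_bot] at h1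
    have h2 : Cfsg.pPrimePCore p H = ⊤ := by
      refine top_le_iff.1 (le_trans ?_ h1)
      intro x _
      simp [Subgroup.mem_centralizer_iff]
    rw [h2, Subgroup.card_top] at hnd
    exact hnd hdiv
  obtain ⟨u, hu⟩ := exists_prime_orderOf_dvd_card' p hKd
  have huK : ((u : H) : G) ∈ K := Subgroup.mem_map_of_mem _ u.2
  have huo : orderOf ((u : H) : G) = p := by
    rw [Subgroup.orderOf_coe, Subgroup.orderOf_coe, hu]
  have hPK : (P : Subgroup G) ≤ K := by
    intro x hx
    by_cases hx1 : x = 1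
    · exact hx1 ▸ K.one_mem
    obtain ⟨g, i, rfl⟩ := hconj _ x huo (orderOf_eq_prime (h x hx) hx1)
    exact hKn.conj_mem _ (K.zpow_mem huK i) g
  refine ⟨?_, Or.inl (hPK.trans (Subgroup.map_subtype_le _))⟩
  let f := QuotientGroup.mk' K0
  have hKp : IsPGroup p (K.map f) := by
    rintro ⟨_, ⟨_, ⟨w, hw, rfl⟩, rfl⟩⟩
    obtain ⟨k, hk⟩ := CL.BG.exists_pow_mem_pPrimeCore_of_mem_pPrimePCore hw
    refine ⟨k, Subtype.ext ?_⟩
    change f (H.subtype w) ^ p ^ k = 1
    rw [← map_pow, ← map_pow]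
    exact (QuotientGroup.eq_one_iff _).2 (Subgroup.mem_map_of_mem _ hk)
  have : (K.map f).Normal := hKn.map f (QuotientGroup.mk'_surjective _)
  have hKP : K.map f ≤ (P : Subgroup G).map f :=
    CL.le_sylow_of_normal hKp (P.mapSurjective (QuotientGroup.mk'_surjective K0))
  rcases subsingleton_or_nontrivial P with hs | hs
  · infer_instance
  have := P.isPGroup'.center_nontrivial
  obtain ⟨⟨z, hzZ⟩, hz1⟩ := exists_ne (1 : Subgroup.center P)
  have hzo : orderOf (z : G) = p := orderOf_eq_prime (h z z.2)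
    (fun e => hz1 (Subtype.ext (Subtype.ext e)))
  refine ⟨⟨fun x y => ?_⟩⟩
  by_cases hx1 : x = 1
  · simp [hx1]
  obtain ⟨g, i, hg⟩ := hconj z x hzo (orderOf_eq_prime (h x x.2) fun e => hx1 (Subtype.ext e))
  obtain ⟨w, hw, hfw⟩ := hKP (Subgroup.mem_map_of_mem f (hKn.conj_mem _ (hPK y.2) g⁻¹))
  have hc : Commute w ((z : G) ^ i) := Commute.zpow_right
    (congrArg Subtype.val (Subgroup.mem_center_iff.1 hzZ ⟨w, hw⟩)) i
  have hc2 : f (x : G) * f y = f y * f x := by
    have h1 := (hc.map f).eq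
    rw [hfw] at h1
    rw [hg]
    simp only [map_mul, map_inv, inv_inv] at h1 ⊢
    calc f g * f ((z : G) ^ i) * (f g)⁻¹ * f y
        = f g * (f ((z : G) ^ i) * ((f g)⁻¹ * f y * f g)) * (f g)⁻¹ := by group
      _ = _ := by rw [← h1]; group
  have hm : ((x * y * (y * x)⁻¹ : P) : G) ∈ (P : Subgroup G) ⊓ K0 := by
    refine ⟨(x * y * (y * x)⁻¹).2, (QuotientGroup.eq_one_iff _).1 ?_⟩
    change f _ = 1
    simp only [Subgroup.coe_mul, Subgroup.coe_inv, map_mul, map_inv, hc2, mul_inv_cancel]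
  rw [CL.inf_eq_bot_of_isPGroup_of_coprime P.isPGroup' (CL.coprime_card_map_pPrimeCore _)] at hm
  exact mul_inv_eq_one.1 (Subtype.ext hm)
end Cfsg.Agent.S4024
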