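import Cfsg.Statements.S4028
import Mathlib
import Cfsg.Agent.SOLV.ProductsHall
import Cfsg.Agent.INV.SmallBasic

set_option autoImplicit false
open Cfsg

namespace Cfsg.Agent.S4028

open Subgroup Pointwise in

/-- Let G be a finite group with Sylow 2-subgroup P. Then N_G(⟨x⟩) = C_G(x) holds for every 2-element x of G if and only if N_P(⟨y⟩) = C_P(y) holds for every y ∈ P (computed inside P). -/
theorem result {G : Type*} [Group G] [Finite G] (P : Sylow 2 G) :
    (∀ x : G, (∀ r : ℕ, r.Prime → r ∣ orderOf x → r = 2) →
      Subgroup.normalizer ((Subgroup.zpowers x : Subgroup G) : Set G) ≤ Subgroup.centralizer {x}) ↔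
    (∀ y : ↥(P : Subgroup G), Subgroup.normalizer ((Subgroup.zpowers y : Subgroup ↥(P : Subgroup G)) : Set ↥(P : Subgroup G)) ≤
        Subgroup.centralizer {y}) := by
  constructor
  · intro h y n hn
    have h1 := h y (fun r hr hd => by
      obtain ⟨k, hk⟩ := P.isPGroup' y
      rw [orderOf_coe] at hd
      exact (Nat.prime_dvd_prime_iff_eq hr Nat.prime_two).1
        (hr.dvd_of_dvd_pow (hd.trans (orderOf_dvd_of_pow_eq_one hk))))
      (show (n : G) ∈ normalizer (zpowers (y : G) : Set G) by
        have := le_normalizer_map (P : Subgroup G).subtype (mem_map_of_mem _ hn)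
        rwa [MonoidHom.map_zpowers] at this)
    exact mem_centralizer_singleton_iff.2 (Subtype.ext (mem_centralizer_singleton_iff.1 h1))
  · intro h x hx
    obtain ⟨k, hk⟩ := (CL.isPiNum_singleton_iff Nat.prime_two (orderOf_pos x).ne').1 hx
    have hxp : IsPGroup 2 (zpowers x) := IsPGroup.of_card (by rw [Nat.card_zpowers, hk])
    have e : centralizer ({x} : Set G) = centralizer (zpowers x : Set G) := by
      rw [zpowers_eq_closure, centralizer_closure]
    rw [e, ← relIndex_eq_one]
    have h1 := CL.Small.relIndex_centralizer_dvd_card_mulAut (zpowers x)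
    rw [IsCyclic.card_mulAut, Nat.card_zpowers, hk] at h1
    refine Nat.eq_one_of_dvd_coprimes (a := 2 ^ k) (Nat.Coprime.pow_left k
      (Nat.prime_two.coprime_iff_not_dvd.2 ?_)) (h1.trans ?_) dvd_rfl
    · obtain ⟨S, hS⟩ := (hxp.comap_subtype (K := normalizer (zpowers x : Set G))).exists_le_sylow
      refine fun hd => S.not_dvd_index (hd.trans (index_dvd_of_le fun s hs => ?_))
      obtain ⟨g, hg⟩ := CL.exists_conj_le_of_not_dvd_index (S.isPGroup'.map (Subgroup.subtype _))
        P.not_dvd_index
      have hxP : g * x * g⁻¹ ∈ (P : Subgroup G) := hg (CL.conj_mem_conj_smul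
        ⟨⟨x, le_normalizer (mem_zpowers x)⟩, hS (mem_zpowers x), rfl⟩)
      have hsP : g * s * g⁻¹ ∈ (P : Subgroup G) := hg (CL.conj_mem_conj_smul ⟨s, hs, rfl⟩)
      have h2 := h ⟨_, hxP⟩ (show (⟨_, hsP⟩ : (P : Subgroup G)) ∈ _ by
        have h3 : zpowers (⟨_, hxP⟩ : (P : Subgroup G)) =
            (MulAut.conj g • zpowers x).subgroupOf P := by
          apply map_injective (P : Subgroup G).subtype_injective
          rw [MonoidHom.map_zpowers, map_subgroupOf_eq_of_le]
          · exact (MonoidHom.map_zpowers (MulAut.conj g).toMonoidHom x).symm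
          · exact (MonoidHom.map_zpowers (MulAut.conj g).toMonoidHom x).le.trans (zpowers_le.2 hxP)
        rw [h3]
        refine le_normalizer_comap _ ?_
        rw [CL.normalizer_conj_smul]
        exact CL.conj_mem_conj_smul s.2)
      rw [mem_subgroupOf, ← e, mem_centralizer_singleton_iff]
      have h4 := congrArg Subtype.val (mem_centralizer_singleton_iff.1 h2)
      exact (MulAut.conj g).injective (by rw [map_mul, map_mul]; exact h4)
    · rcases k with _ | k
      · simp
      · rw [Nat.totient_prime_pow_succ Nat.prime_two]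
        simp [pow_succ]

end Cfsg.Agent.S4028
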