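import Cfsg.Statements.S4029
import Cfsg.Agent.FGS.FiberCount
import Cfsg.Agent.FGS.ClassCount
import Cfsg.Agent.PLOC.PFrattini

set_option autoImplicit false
open Cfsg

namespace Cfsg.Agent.S4029

open Subgroup

theorem index_le {P : Type*} [Group P] [Finite P] (hP : IsPGroup 2 P)
    (h : ∀ x y : P, y * x * y⁻¹ = x⁻¹ → x ^ 2 = 1) :
    (frattini P).index ≤ (ConjClasses.mk '' {y : P | y ^ 2 = 1}).ncard := by
  classical
  have := Fintype.ofFinite P
  have h1 : {z : P × P | z.2 * z.1 * z.2⁻¹ = z.1⁻¹}.ncard =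
      Nat.card P * (ConjClasses.mk '' {y : P | y ^ 2 = 1}).ncard := by
    apply CL.Cnt.ncard_eq_mul_of_fiber (Set.toFinite _) (fun z => ConjClasses.mk z.1)
      (Set.toFinite _)
    · intro z hz
      exact ⟨z.1, h _ _ hz, rfl⟩
    · rintro _ ⟨x, hx, rfl⟩
      rw [← (centralizer ({x} : Set P)).card_mul_index, ← CL.ncard_isConj_eq_index]
      apply CL.Cnt.ncard_eq_mul_of_fiber (Set.toFinite _) Prod.fst (Set.toFinite _)
      · intro z hz
        exact (ConjClasses.mk_eq_mk_iff_isConj.mp hz.2).symm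
      · intro w hw
        obtain ⟨g, rfl⟩ := isConj_iff.mp hw
        have hx2 : x⁻¹ = x := by
          rw [inv_eq_iff_mul_eq_one, ← sq]; exact hx
        rw [← SetLike.coe_sort_coe, Nat.card_coe_set_eq,
          ← Set.ncard_image_of_injective (centralizer ({x} : Set P) : Set P)
          (f := fun c : P => (g * x * g⁻¹, g * c * g⁻¹))
          (fun a b hab => by simpa using congrArg Prod.snd hab)]
        congr 1
        ext ⟨u, v⟩
        constructor
        · rintro ⟨⟨h1, -⟩, h2⟩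
          obtain rfl : u = g * x * g⁻¹ := h2
          refine ⟨g⁻¹ * v * g, ?_, by simp [mul_assoc]⟩
          rw [SetLike.mem_coe, CL.mem_centralizer_singleton_iff_conj]
          have h3 : v * (g * x * g⁻¹) * v⁻¹ = (g * x * g⁻¹)⁻¹ := h1
          calc _ = g⁻¹ * (v * (g * x * g⁻¹) * v⁻¹) * g := by group
            _ = x⁻¹ := by rw [h3]; group
            _ = x := hx2
        · rintro ⟨c, hc, h2⟩
          rw [SetLike.mem_coe, CL.mem_centralizer_singleton_iff_conj] at hc
          obtain ⟨rfl, rfl⟩ := Prod.mk.inj h2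
          refine ⟨⟨?_, (ConjClasses.mk_eq_mk_iff_isConj.mpr hw).symm⟩, rfl⟩
          show g * c * g⁻¹ * (g * x * g⁻¹) * (g * c * g⁻¹)⁻¹ = (g * x * g⁻¹)⁻¹
          calc _ = g * (c * x * c⁻¹) * g⁻¹ := by group
            _ = g * x⁻¹ * g⁻¹ := by rw [hc, hx2]
            _ = _ := by group
  have h2 : {z : P × P | z.2 * z.1 * z.2⁻¹ = z.1⁻¹}.ncard =
      {z : P × P | z.1 ^ 2 = z.2 ^ 2}.ncard := by
    rw [← Set.ncard_image_of_injective {z : P × P | z.1 ^ 2 = z.2 ^ 2}
      (f := fun z : P × P => (z.1 * z.2⁻¹, z.2)) (fun a b hab => by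
        obtain ⟨e1, e2⟩ := Prod.mk.inj hab
        rw [e2] at e1
        exact Prod.ext (mul_right_cancel e1) e2)]
    congr 1
    ext ⟨u, v⟩
    constructor
    · intro h1
      have h3 : v * u * v⁻¹ = u⁻¹ := h1
      refine ⟨(u * v, v), ?_, by simp⟩
      show (u * v) ^ 2 = v ^ 2
      calc _ = u * (v * u * v⁻¹) * v ^ 2 := by rw [sq, sq]; group
        _ = _ := by rw [h3]; group
    · rintro ⟨⟨a, b⟩, h1, h2⟩
      obtain ⟨rfl, rfl⟩ := Prod.mk.inj h2
      have h3 : a ^ 2 = b ^ 2 := h1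
      show b * (a * b⁻¹) * b⁻¹ = (a * b⁻¹)⁻¹
      calc _ = b * a⁻¹ * a ^ 2 * (b ^ 2)⁻¹ := by rw [sq, sq]; group
        _ = _ := by rw [h3]; group
  let F : Finset P := (frattini P : Set P).toFinset
  have hF : ∀ g : P, g ^ 2 ∈ F := fun g => by
    simpa [F] using CL.PG.pow_mem_frattini hP g
  have h3 : {z : P × P | z.1 ^ 2 = z.2 ^ 2}.ncard = ∑ s ∈ F, {g : P | g ^ 2 = s}.ncard ^ 2 := by
    rw [CL.Cnt.ncard_eq_sum_fiber (Set.toFinite _) (fun z : P × P => z.1 ^ 2) F
      (fun z _ => hF z.1)]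
    apply Finset.sum_congr rfl
    intro s _
    rw [sq {g : P | g ^ 2 = s}.ncard, ← Set.ncard_prod]
    congr 1
    ext ⟨a, b⟩
    simp only [Set.mem_ofPred_eq, Set.mem_prod]
    exact ⟨fun h => ⟨h.2, h.1 ▸ h.2⟩, fun h => ⟨h.1.trans h.2.symm, h.1⟩⟩
  have h4 : Nat.card P = ∑ s ∈ F, {g : P | g ^ 2 = s}.ncard := by
    rw [← Set.ncard_univ, CL.Cnt.ncard_eq_sum_fiber (Set.toFinite _) (fun z : P => z ^ 2) F
      (fun z _ => hF z)]
    simp
  have h5 := sq_sum_le_card_mul_sum_sq (s := F) (f := fun s => {g : P | g ^ 2 = s}.ncard)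
  have h6 : F.card = Nat.card (frattini P) := by
    rw [← SetLike.coe_sort_coe, Nat.card_coe_set_eq, Set.ncard_eq_toFinset_card']
  rw [← h4, ← h3, ← h2, h1, h6, sq, mul_left_comm] at h5
  have h7 := Nat.le_of_mul_le_mul_left h5 Nat.card_pos
  rw [← (frattini P).card_mul_index] at h7
  exact Nat.le_of_mul_le_mul_left h7 Nat.card_pos

/-- Let P be a finite 2-group in which N_P(⟨y⟩) = C_P(y) for every y ∈ P. If s is the number of conjugacy classes of involutions of P, then #(P/Φ(P)) ≤ s + 1; in particular the subgroup generated by the involutions of P has order at least #(P/Φ(P)). -/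
theorem result {P : Type*} [Group P] [Finite P] (hP : IsPGroup 2 P)
    (hirr : ∀ y : P, Subgroup.normalizer ((Subgroup.zpowers y : Subgroup P) : Set P) ≤ Subgroup.centralizer {y}) :
    Nat.card (P ⧸ frattini P) ≤ Nat.card {c : ConjClasses P // ∃ y : P, ConjClasses.mk y = c ∧ orderOf y = 2} + 1 ∧
    Nat.card (P ⧸ frattini P) ≤ Nat.card (Subgroup.closure {y : P | orderOf y = 2}) := by
  have h1 := index_le hP fun x y h => by
    have h2 : y ∈ normalizer ((zpowers x : Subgroup P) : Set P) := by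
      apply mem_normalizer_fintype
      rintro _ ⟨k, rfl⟩
      show y * x ^ k * y⁻¹ ∈ zpowers x
      rw [← conj_zpow, h]
      exact zpow_mem (inv_mem (mem_zpowers x)) k
    have h3 := CL.mem_centralizer_singleton_iff_conj.mp (hirr x h2)
    rw [h3] at h
    rw [sq]
    exact mul_eq_one_iff_eq_inv.mpr h
  have h2 : ∀ y : P, y ^ 2 = 1 → y = 1 ∨ orderOf y = 2 := fun y hy => by
    by_cases h : y = 1
    · exact Or.inl h
    · exact Or.inr (orderOf_eq_prime hy h)
  refine ⟨h1.trans ?_, h1.trans ?_⟩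
  · refine le_trans (Set.ncard_le_ncard ?_ (Set.toFinite _)) ((Set.ncard_insert_le (ConjClasses.mk 1)
      {c : ConjClasses P | ∃ y : P, ConjClasses.mk y = c ∧ orderOf y = 2}).trans (le_of_eq rfl))
    rintro _ ⟨y, hy, rfl⟩
    rcases h2 y hy with rfl | h
    · exact Set.mem_insert _ _
    · exact Set.mem_insert_of_mem _ ⟨y, rfl, h⟩
  · refine (Set.ncard_image_le (Set.toFinite _)).trans ?_
    rw [← SetLike.coe_sort_coe, Nat.card_coe_set_eq]
    refine Set.ncard_le_ncard (fun y hy => ?_) (Set.toFinite _)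
    rcases h2 y hy with rfl | h
    · exact one_mem _
    · exact subset_closure h

end Cfsg.Agent.S4029
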