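import Cfsg.Statements.S4032
import Cfsg.Agent.SOLV.Coprime
import Cfsg.Agent.SOLV.Basic

set_option autoImplicit false
open Cfsg

namespace Cfsg.Agent.S4032

open CL Subgroup

/-- Let π be a set of primes and G a finite group in which N_G(⟨x⟩) = C_G(x) for every π-element x. If N is a normal subgroup of G whose order is divisible by no prime of π, then G/N has the same property: N_{G/N}(⟨y⟩) = C_{G/N}(y) for every π-element y of G/N. -/
theorem result {G : Type*} [Group G] [Finite G] (π : Set ℕ)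
    (hirr : ∀ x : G, (∀ r : ℕ, r.Prime → r ∣ orderOf x → r ∈ π) →
      Subgroup.normalizer ((Subgroup.zpowers x : Subgroup G) : Set G) ≤ Subgroup.centralizer {x})
    (N : Subgroup G) [N.Normal] (hN : ∀ r : ℕ, r.Prime → r ∣ Nat.card N → r ∉ π) :
    ∀ y : G ⧸ N, (∀ r : ℕ, r.Prime → r ∣ orderOf y → r ∈ π) →
      Subgroup.normalizer ((Subgroup.zpowers y : Subgroup (G ⧸ N)) : Set (G ⧸ N)) ≤ Subgroup.centralizer {y} := by
  intro y hy
  obtain ⟨x₀, rfl⟩ := QuotientGroup.mk'_surjective N y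
  have hcop : (Nat.card N).Coprime (orderOf (QuotientGroup.mk' N x₀)) :=
    (IsPiNum.coprime (π := π) hy hN).symm
  obtain ⟨u, hu⟩ := exists_pow_eq_self_of_coprime hcop
  have hx : QuotientGroup.mk' N ((x₀ ^ Nat.card N) ^ u) = QuotientGroup.mk' N x₀ := by
    rw [map_pow, map_pow, hu]
  have hord : orderOf ((x₀ ^ Nat.card N) ^ u) ∣ orderOf (QuotientGroup.mk' N x₀) := by
    rw [orderOf_dvd_iff_pow_eq_one]
    have h1 : x₀ ^ orderOf (QuotientGroup.mk' N x₀) ∈ N := by
      rw [← QuotientGroup.eq_one_iff, ← QuotientGroup.mk'_apply, map_pow, pow_orderOf_eq_one]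
    have h2 : (x₀ ^ orderOf (QuotientGroup.mk' N x₀)) ^ Nat.card N = 1 :=
      congrArg Subtype.val (pow_card_eq_one' (x := (⟨_, h1⟩ : N)))
    rw [← pow_mul, ← pow_mul, mul_comm u, ← mul_assoc, mul_comm (Nat.card N), pow_mul, pow_mul, h2,
      one_pow]
  generalize (x₀ ^ Nat.card N) ^ u = x at hx hord
  have h1 := normalizer_map_mk'_of_coprime N (zpowers x)
    (by rw [Nat.card_zpowers]; exact (hcop.coprime_dvd_right hord).symm)
    (Or.inl inferInstance)
  rw [MonoidHom.map_zpowers, hx] at h1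
  rw [h1]
  rintro _ ⟨g, hg, rfl⟩
  have h2 := hirr x (fun r hr h => hy r hr (h.trans hord)) hg
  rw [mem_centralizer_singleton_iff] at h2 ⊢
  rw [← hx, ← map_mul, h2, map_mul]

end Cfsg.Agent.S4032
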