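import Mathlib
import Cfsg.Statements.S4033
import Cfsg.Agent.FGS.RegTwo

set_option autoImplicit false
open Cfsg

namespace Cfsg.Agent.S4033

set_option linter.style.haveILetI false

open CL.CS Subgroup

theorem struct {G : Type*} [Group G] [Finite G] {p q : ℕ} [hp : Fact p.Prime] [hq : Fact q.Prime]
    (hqp : q ≠ p) (h : ∀ s : ℕ, s.Prime → s ∣ (center G).index → s = p ∨ s = q)
    (P : Sylow p G) (Q : Sylow q G) : ∃ A : Subgroup G,
        A ≤ Subgroup.center G ∧ Nat.card ↥((P : Subgroup G) ⊔ (Q : Subgroup G)) = Nat.card P * Nat.card Q ∧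
        ((P : Subgroup G) ⊔ (Q : Subgroup G)).Normal ∧
        ((P : Subgroup G) ⊔ (Q : Subgroup G)) ⊓ A = ⊥ ∧ ((P : Subgroup G) ⊔ (Q : Subgroup G)) ⊔ A = ⊤ := by
  set π : Set ℕ := {p, q} with hπ
  obtain ⟨A, hA⟩ := CL.exists_isPiHallOf πᶜ (center G)
    (Group.isSolvable_of_comm fun a b => Subtype.ext (mem_center_iff.1 b.2 a))
  have hAZ := CL.IsPiHallOf.le hA
  haveI hAn : A.Normal := ⟨fun n hn g => by
    rw [mem_center_iff.1 (hAZ hn) g]; simpa using hn⟩
  have hAH : Cfsg.IsPiHall πᶜ A := by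
    refine CL.IsPiHallOf.isPiHall hA ?_
    rw [compl_compl]
    intro s hs hd
    exact h s hs hd
  obtain ⟨hA1, hA2⟩ := CL.isPiHall_iff.1 hAH
  obtain ⟨K, hK⟩ := Subgroup.exists_right_complement'_of_coprime (N := A) (hA1.coprime hA2)
  have hKn : K.Normal := by
    rw [← normalizer_eq_top_iff, eq_top_iff, ← hK.sup_eq_top, sup_le_iff]
    exact ⟨hAZ.trans (center_le_normalizer _), le_normalizer⟩
  have hKi : K.index = Nat.card A := hK.index_eq_card
  have hKc : Nat.card K = A.index := hK.symm.index_eq_card.symm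
  have hle : ∀ (r : ℕ) [Fact r.Prime], r ∈ π → ∀ R : Sylow r G, (R : Subgroup G) ≤ K := by
    intro r hr hrπ R
    obtain ⟨R', hR'⟩ := exists_sylow_le_of_not_dvd_index (p := r) (H := K) (by
      rw [hKi]; exact fun hd => hA1 r hr.out hd hrπ)
    obtain ⟨g, rfl⟩ := MulAction.exists_smul_eq G R' R
    intro x hx
    obtain ⟨y, hy, rfl⟩ := hx
    exact hKn.conj_mem _ (hR' hy) g
  have hPK := hle p (by simp [hπ]) P
  have hQK := hle q (by simp [hπ]) Q
  have hcop : (Nat.card P).Coprime (Nat.card Q) := IsPGroup.coprime_card_of_ne p q hqp.symm _ _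
    P.isPGroup' Q.isPGroup'
  have hKd : Nat.card K ∣ Nat.card P * Nat.card Q := by
    rw [← Nat.factorization_prime_le_iff_dvd Nat.card_pos.ne'
      (mul_pos Nat.card_pos Nat.card_pos).ne']
    intro s hs
    by_cases hsd : s ∣ Nat.card K
    · have hsπ : s ∈ π := by
        have := hA2 s hs (hKc ▸ hsd)
        rwa [compl_compl] at this
      have hKG : (Nat.card K).factorization s ≤ (Nat.card G).factorization s :=
        (Nat.factorization_le_iff_dvd Nat.card_pos.ne' Nat.card_pos.ne').2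
          (card_subgroup_dvd_card K) s
      rw [Nat.factorization_mul Nat.card_pos.ne' Nat.card_pos.ne', Finsupp.add_apply,
        P.card_eq_multiplicity, Q.card_eq_multiplicity]
      rcases hsπ with rfl | rfl
      · rw [hs.factorization_pow, Finsupp.single_eq_same]; omega
      · rw [hs.factorization_pow (k := (Nat.card G).factorization s), Finsupp.single_eq_same]; omega
    · rw [Nat.factorization_eq_zero_of_not_dvd hsd]; exact Nat.zero_le _
  have hd2 : Nat.card P * Nat.card Q ∣ Nat.card ↥((P : Subgroup G) ⊔ (Q : Subgroup G)) :=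
    hcop.mul_dvd_of_dvd_of_dvd (card_dvd_of_le le_sup_left) (card_dvd_of_le le_sup_right)
  have hE : (P : Subgroup G) ⊔ (Q : Subgroup G) = K :=
    eq_of_le_of_card_ge (sup_le hPK hQK) (Nat.le_of_dvd Nat.card_pos (hKd.trans hd2))
  refine ⟨A, hAZ, ?_, hE ▸ hKn, ?_, ?_⟩
  · exact Nat.dvd_antisymm (hE ▸ hKd) hd2
  · rw [hE]; exact hK.symm.disjoint.eq_bot
  · rw [hE]; exact hK.symm.sup_eq_top


/-- Let G be a finite group and p a prime, and suppose the conjugacy classes of p-regular elements of G (elements of order prime to p) have exactly two distinct sizes. Then either G has an abelian p-complement (an abelian subgroup of order prime to p and p-power index), or there are a prime q ≠ p, a Sylow p-subgroup P, a Sylow q-subgroup Q and a central subgroup A such that PQ is a normal subgroup of order #P·#Q and G is the internal direct product PQ × A. -/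
theorem result {G : Type*} [Group G] [Finite G] {p : ℕ} (hp : p.Prime)
    (h2 : Set.ncard (Set.range fun x : {x : G // (orderOf x).Coprime p} => (ConjClasses.mk (x : G)).carrier.ncard) = 2) :
    (∃ H : Subgroup G, IsMulCommutative H ∧ ¬ p ∣ Nat.card H ∧ ∃ k : ℕ, H.index = p ^ k) ∨
    (∃ (q : ℕ) (_ : Fact q.Prime) (P : Sylow p G) (Q : Sylow q G) (A : Subgroup G), q ≠ p ∧
        A ≤ Subgroup.center G ∧ Nat.card ↥((P : Subgroup G) ⊔ (Q : Subgroup G)) = Nat.card P * Nat.card Q ∧
        ((P : Subgroup G) ⊔ (Q : Subgroup G)).Normal ∧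
        ((P : Subgroup G) ⊔ (Q : Subgroup G)) ⊓ A = ⊥ ∧ ((P : Subgroup G) ⊔ (Q : Subgroup G)) ⊔ A = ⊤) := by
  haveI : Fact p.Prime := ⟨hp⟩
  have hidx : ∀ x : G, (ConjClasses.mk x).carrier.ncard = 𝐂[x].index := fun x =>
    card_carrier_eq_index x
  obtain ⟨m, H⟩ : ∃ m, ∀ x : G, (orderOf x).Coprime p → x ∉ center G → 𝐂[x].index = m := by
    obtain ⟨a, b, hab, he⟩ := Set.ncard_eq_two.1 h2
    have hall : ∀ x : G, (orderOf x).Coprime p → 𝐂[x].index = a ∨ 𝐂[x].index = b := by
      intro x hx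
      have : (ConjClasses.mk x).carrier.ncard ∈ ({a, b} : Set ℕ) := he ▸ ⟨⟨x, hx⟩, rfl⟩
      rwa [hidx] at this
    rcases hall 1 (by simp) with h1 | h1
    · rw [index_cen_one] at h1
      exact ⟨b, fun x hx hxZ => (hall x hx).resolve_left fun e =>
        hxZ (index_cen_eq_one_iff.1 (e.trans h1.symm))⟩
    · rw [index_cen_one] at h1
      exact ⟨a, fun x hx hxZ => (hall x hx).resolve_right fun e =>
        hxZ (index_cen_eq_one_iff.1 (e.trans h1.symm))⟩
  rcases reg_two H with h | ⟨q, hq, hqp, h⟩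
  · exact Or.inl ((regular_pow_iff_abelian_complement hp).1 h)
  · haveI : Fact q.Prime := ⟨hq⟩
    obtain ⟨P⟩ : Nonempty (Sylow p G) := inferInstance
    obtain ⟨Q⟩ : Nonempty (Sylow q G) := inferInstance
    obtain ⟨A, hA⟩ := struct hqp h P Q
    exact Or.inr ⟨q, inferInstance, P, Q, A, hqp, hA⟩

end Cfsg.Agent.S4033
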