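import Mathlib
import Cfsg.Statements.S4035
import Cfsg.Agent.FGS.ClassCount
import Cfsg.Agent.FGS.ClassSizeReg

set_option autoImplicit false
open Cfsg

namespace Cfsg.Agent.S4035

/-- Let G be a finite group and p a prime such that p divides the size of no conjugacy class of p-regular elements (elements of order prime to p). Then G is the internal direct product of a Sylow p-subgroup P and a normal subgroup H of order prime to p: P is normal, P ⊓ H = 1 and PH = G. -/
theorem result {G : Type*} [Group G] [Finite G] {p : ℕ} [Fact p.Prime]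
    (h : ∀ x : G, (orderOf x).Coprime p → ¬ p ∣ (ConjClasses.mk x).carrier.ncard) (P : Sylow p G) :
    (P : Subgroup G).Normal ∧ ∃ H : Subgroup G, H.Normal ∧ ¬ p ∣ Nat.card H ∧
      (P : Subgroup G) ⊓ H = ⊥ ∧ (P : Subgroup G) ⊔ H = ⊤ := by
  simp only [CL.ncard_carrier_eq_index] at h
  refine ⟨CL.CS.sylow_normal_of_regular h P, ?_⟩
  obtain ⟨N, hN, hc⟩ := (CL.hasNPC_iff_exists_complement P).mp (CL.CS.hasNPC_of_regular h)
  have hd : (P : Subgroup G) ⊓ N = ⊥ := by rw [inf_comm]; exact hc.disjoint.eq_bot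
  refine ⟨N, hN, ?_, hd, by rw [sup_comm]; exact hc.sup_eq_top⟩
  exact (Nat.Prime.coprime_iff_not_dvd Fact.out).mp (CL.coprime_card_of_inf_sylow_eq_bot P N hd).symm

end Cfsg.Agent.S4035
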