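import Cfsg.Statements.S4036
import Mathlib
import Cfsg.Agent.FGS.SemiReg

set_option autoImplicit false
open Cfsg

namespace Cfsg.Agent.S4036

/-- Let P be a finite abelian p-group and K a group of automorphisms of P (a subgroup of Aut P) whose order is divisible by p. If all non-identity elements of K have the same fixed-point subgroup on P, then K has no non-trivial normal subgroup of order prime to p. -/
theorem result {P : Type*} [CommGroup P] [Finite P] {p : ℕ}
    [Fact p.Prime] (hP : IsPGroup p P) (K : Subgroup (MulAut P)) (hK : p ∣ Nat.card K)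
    (hfix : ∀ x y : MulAut P, x ∈ K → y ∈ K → x ≠ 1 → y ≠ 1 → ∀ v : P, x v = v ↔ y v = v) :
    ∀ N : Subgroup ↥K, N.Normal → ¬ p ∣ Nat.card N → N = ⊥ := by
  classical
  intro N hN hpN
  by_contra hne
  have : Fintype N := Fintype.ofFinite N
  let T : P →* P :=
    { toFun := fun v => ∏ n : N, ((n : K) : MulAut P) v
      map_one' := by simp
      map_mul' := fun a b => by simp [Finset.prod_mul_distrib] }
  have hT : ∀ v, T v = ∏ n : N, ((n : K) : MulAut P) v := fun _ => rfl
  obtain ⟨⟨n₀, hn₀⟩, hn₁⟩ := Subgroup.ne_bot_iff_exists_ne_one.1 hne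
  have hn₂ : (n₀ : MulAut P) ≠ 1 := fun e => hn₁ (Subtype.ext (Subtype.ext e))
  have h1 := CL.SR.card_dvd_ncard_of_free K ((T.ker : Set P) \ {1})
    (fun k hk v hv => by
      refine ⟨?_, fun e => hv.2 ((map_eq_one_iff k k.injective).1 e)⟩
      have h2 : T (k v) = k (T v) := by
        rw [hT, hT, map_prod]
        refine (Fintype.prod_equiv (MulAut.conjNormal (⟨k, hk⟩ : K)).toEquiv _ _ fun n => ?_).symm
        simp
      change T (k v) = 1
      rw [h2, hv.1, map_one])
    (fun k hk v hv e => by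
      by_contra hk1
      refine hv.2 ?_
      have h2 : T v = v ^ Nat.card N := by
        rw [hT, Finset.prod_congr rfl (g := fun _ => v), Finset.prod_const, Finset.card_univ,
          Nat.card_eq_fintype_card]
        intro n _
        by_cases hn : ((n : K) : MulAut P) = 1
        · rw [hn]; rfl
        · exact (hfix k _ hk (n : K).2 hk1 hn v).1 e
      rw [hv.1] at h2
      obtain ⟨j, hj⟩ := hP v
      exact orderOf_eq_one_iff.1 (Nat.eq_one_of_dvd_coprimes
        (Nat.Coprime.pow_left j ((Fact.out : p.Prime).coprime_iff_not_dvd.2 hpN))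
        (orderOf_dvd_of_pow_eq_one hj) (orderOf_dvd_of_pow_eq_one h2.symm)))
  rw [Set.ncard_sdiff_singleton_of_mem (one_mem T.ker), ← Nat.card_coe_set_eq] at h1
  obtain ⟨v, hv⟩ : ∃ v, (n₀ : MulAut P) v ≠ v := by
    by_contra hc
    exact hn₂ (MulEquiv.ext fun v => not_not.1 fun h => hc ⟨v, h⟩)
  have h2 : T.ker ≠ ⊥ := fun e => hv (by
    rw [← mul_inv_eq_one, ← Subgroup.mem_bot, ← e, MonoidHom.mem_ker, map_mul, map_inv,
      mul_inv_eq_one, hT, hT]
    exact Fintype.prod_equiv (Equiv.mulRight (⟨n₀, hn₀⟩ : N)) _ _ fun n => rfl)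
  obtain ⟨j, hj⟩ := IsPGroup.iff_card.1 (hP.to_subgroup T.ker)
  have hj0 : j ≠ 0 := by
    rintro rfl
    exact h2 (Subgroup.card_eq_one.1 hj)
  have h3 : p ∣ Nat.card T.ker := hj ▸ dvd_pow_self p hj0
  exact (Fact.out : p.Prime).one_lt.ne' (Nat.dvd_one.1
    ((Nat.dvd_sub_iff_right Nat.card_pos h3).1 (hK.trans h1)))

end Cfsg.Agent.S4036
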