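import Cfsg.Statements.S4043
import Cfsg.Agent.PLOC.NPC
import Cfsg.Agent.SOLV.Core
import Cfsg.Agent.PLOC.PNormal
import Cfsg.Agent.SOLV.CoprimeSylow

set_option autoImplicit false
open Cfsg

namespace Cfsg.Agent.S4043


open Pointwise

section
variable {G : Type*} [Group G] [Finite G] {p : ℕ} [Fact p.Prime]

theorem data (A : Subgroup G) (hAp : Cfsg.HasNormalPComplement p A) :
    ∃ K P : Subgroup G, K ≤ A ∧ A ≤ Subgroup.normalizer (K : Set G) ∧ (Nat.card K).Coprime p ∧
      IsPGroup p P ∧ K ⊔ P = A := by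
  obtain ⟨P, K, hK, hKP⟩ := hAp
  refine ⟨K.map A.subtype, (P : Subgroup A).map A.subtype, Subgroup.map_subtype_le _,
    CL.le_normalizer_map_subtype A K, ?_, P.isPGroup'.map _, ?_⟩
  · rw [Subgroup.card_map_of_injective A.subtype_injective]
    exact CL.coprime_card_of_inf_sylow_eq_bot P K (by rw [inf_comm]; exact disjoint_iff.1 hKP.disjoint)
  · rw [← Subgroup.map_sup, hKP.sup_eq_top, ← MonoidHom.range_eq_map, Subgroup.range_subtype]

theorem le_conj (N : Subgroup G) [N.Normal] (hN : IsPGroup p N) {A K P : Subgroup G}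
    (hA : A ⊔ N = ⊤) (hAK : A ≤ Subgroup.normalizer (K : Set G)) (hP : IsPGroup p P)
    (hKP : K ⊔ P = A) {L : Subgroup G} (hL : (Nat.card L).Coprime p) :
    ∃ n ∈ N, L ≤ MulAut.conj n • K := by
  have hn : (N ⊔ K).Normal := by
    rw [← Subgroup.normalizer_eq_top_iff, eq_top_iff, ← hA]
    exact sup_le (CL.le_normalizer_sup (Subgroup.normalizer_eq_top N ▸ le_top) hAK)
      (le_sup_left.trans Subgroup.le_normalizer)
  have hq : IsPGroup p (G ⧸ (N ⊔ K)) := CL.isPGroup_quotient_of_sup_eq_top _ hP (by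
    rw [sup_assoc, hKP, sup_comm, hA])
  obtain ⟨k, hk⟩ := IsPGroup.iff_card.1 hq
  have hle : L ≤ N ⊔ K := CL.le_of_coprime_index (by
    rw [Subgroup.index, hk]; exact hL.pow_right k)
  exact CL.coprime_le_conj_of_le_sup L N K (Subgroup.normalizer_eq_top N ▸ le_top) hle
    (CL.coprime_card_of_isPGroup_of_coprime hN hL).symm (Or.inr (CL.isSolvable_of_isPGroup hN))

end


/-- Let G be a finite group that is the semidirect product of a normal p-subgroup N by a subgroup A, and also of N by a subgroup A₁, where p is a prime and A and A₁ both have normal p-complements. If C_N(A) = C_N(A₁) = 1, then A₁ is conjugate to A by an element of N. -/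
theorem result {G : Type*} [Group G] [Finite G] {p : ℕ}
    [Fact p.Prime] (N : Subgroup G) [N.Normal] (hN : IsPGroup p N) (A A₁ : Subgroup G)
    (hA : A.IsComplement' N) (hA₁ : A₁.IsComplement' N)
    (hAp : Cfsg.HasNormalPComplement p A) (hA₁p : Cfsg.HasNormalPComplement p A₁)
    (hC : ∀ n : G, n ∈ N → (∀ a : G, a ∈ A → a * n * a⁻¹ = n) → n = 1)
    (hC₁ : ∀ n : G, n ∈ N → (∀ a : G, a ∈ A₁ → a * n * a⁻¹ = n) → n = 1) :
    ∃ n : G, n ∈ N ∧ A₁ = A.map (MulAut.conj n).toMonoidHom := by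
  obtain ⟨K, P, hKA, hAK, hKc, hP, hKP⟩ := data A hAp
  obtain ⟨K₁, P₁, hKA₁, hAK₁, hKc₁, hP₁, hKP₁⟩ := data A₁ hA₁p
  obtain ⟨n, hn, h1⟩ := le_conj N hN hA.sup_eq_top hAK hP hKP hKc₁
  obtain ⟨m, -, h2⟩ := le_conj N hN hA₁.sup_eq_top hAK₁ hP₁ hKP₁ hKc
  have hKe : K₁ = MulAut.conj n • K := by
    refine Subgroup.eq_of_le_of_card_ge h1 ?_
    rw [CL.card_conj_smul, ← CL.card_conj_smul m K₁]
    exact Subgroup.card_le_of_le h2
  have hPA : P ≤ A := hKP ▸ le_sup_right
  have hCb : N ⊓ Subgroup.centralizer (K : Set G) = ⊥ := by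
    by_contra hne
    have hPN : P ≤ Subgroup.normalizer ((N ⊓ Subgroup.centralizer (K : Set G) : Subgroup G) : Set G) :=
      CL.le_normalizer_inf (Subgroup.normalizer_eq_top N ▸ le_top)
        (CL.le_normalizer_centralizer (hPA.trans hAK))
    have hnil : Group.IsNilpotent (P ⊔ N : Subgroup G) := (hP.to_sup_of_normal_right hN).isNilpotent
    have := CL.PN.inf_centralizer_ne_bot hnil (inf_le_left.trans le_sup_right) le_sup_left hPN hne
    obtain ⟨⟨c, ⟨hcN, hcK⟩, hcP⟩, hc1⟩ := Subgroup.ne_bot_iff_exists_ne_one.1 this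
    refine hc1 (Subtype.ext (hC c hcN fun a ha => ?_))
    have : A ≤ Subgroup.centralizer {c} := by
      rw [← hKP]
      exact sup_le (fun x hx => Subgroup.mem_centralizer_singleton_iff.2 (hcK x hx))
        (fun x hx => Subgroup.mem_centralizer_singleton_iff.2 (hcP x hx))
    rw [Subgroup.mem_centralizer_singleton_iff.1 (this ha)]; group
  have hNK : Subgroup.normalizer (K : Set G) ≤ A := by
    intro g hg
    obtain ⟨a, ha, y, hy, rfl⟩ := (CL.mem_sup_of_le_normalizer
      (Subgroup.normalizer_eq_top N ▸ le_top)).1 (hA.sup_eq_top ▸ Subgroup.mem_top g : g ∈ A ⊔ N)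
    have hyK : y ∈ Subgroup.normalizer (K : Set G) := (Subgroup.mul_mem_cancel_left _ (hAK ha)).1 hg
    have hyC : y ∈ Subgroup.centralizer (K : Set G) := by
      rw [Subgroup.mem_centralizer_iff]
      intro k hk
      have e1 : y * k * y⁻¹ * k⁻¹ ∈ K :=
        K.mul_mem (((Subgroup.mem_normalizer_iff.1 hyK) k).1 hk) (K.inv_mem hk)
      have e2 : y * k * y⁻¹ * k⁻¹ ∈ N := by
        have : y * k * y⁻¹ * k⁻¹ = y * (k * y⁻¹ * k⁻¹) := by group
        rw [this]
        exact N.mul_mem hy (Subgroup.Normal.conj_mem inferInstance _ (N.inv_mem hy) k)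
      have e3 : y * k * y⁻¹ * k⁻¹ = 1 := Subgroup.disjoint_def.1 hA.disjoint (hKA e1) e2
      calc k * y = (y * k * y⁻¹ * k⁻¹) * (k * y) := by rw [e3, one_mul]
        _ = y * k := by group
    have : y = 1 := Subgroup.mem_bot.1 (hCb ▸ ⟨hy, hyC⟩)
    rw [this, mul_one]; exact ha
  refine ⟨n, hn, ?_⟩
  rw [← CL.conj_smul_eq_map]
  refine Subgroup.eq_of_le_of_card_ge ?_ ?_
  · rw [hKe, CL.normalizer_conj_smul] at hAK₁
    exact hAK₁.trans (CL.conj_smul_mono n hNK)
  · rw [CL.card_conj_smul, ← hA.index_eq_card, ← hA₁.index_eq_card]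

end Cfsg.Agent.S4043
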