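import Cfsg.Statements.S4056
import Cfsg.Agent.S0013

set_option autoImplicit false
open Cfsg

namespace Cfsg.Agent.S4056

/-- In a finite 2-group of nilpotency class at most 2 and exponent dividing 4, the Frattini subgroup lies in the centre and is elementary abelian. -/
theorem result {P : Type*} [Group P] [Finite P] (hP : IsPGroup 2 P)
    (hcl : Group.nilpotencyClass P ≤ 2) (hexp : Monoid.exponent P ∣ 4) :
    frattini P ≤ Subgroup.center P ∧ Cfsg.IsElementaryAbelian 2 (frattini P) := by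
  haveI : Fact (Nat.Prime 2) := ⟨Nat.prime_two⟩
  haveI : Group.IsNilpotent P := hP.isNilpotent
  have h4 : ∀ x : P, x ^ 4 = 1 := fun x => Monoid.exponent_dvd_iff_forall_pow_eq_one.mp hexp x
  have htop : Subgroup.upperCentralSeries P 2 = ⊤ :=
    Subgroup.upperCentralSeries_eq_top_iff_nilpotencyClass_le.mpr hcl
  have hc : ∀ x y : P, x * y * x⁻¹ * y⁻¹ ∈ Subgroup.center P := by
    intro x y
    have hx : x ∈ Subgroup.upperCentralSeries P 2 := htop ▸ Subgroup.mem_top x
    have := (Subgroup.mem_upperCentralSeries_succ_iff.mp hx) y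
    rwa [Subgroup.upperCentralSeries_one] at this
  -- the commutator has order dividing two
  have hc2 : ∀ x y : P, (x * y * x⁻¹ * y⁻¹) ^ 2 = 1 := by
    intro x y
    set c := x * y * x⁻¹ * y⁻¹ with hcdef
    have hz : ∀ g : P, g * c = c * g := fun g => Subgroup.mem_center_iff.mp (hc x y) g
    have hxy : x * y = c * (y * x) := by rw [hcdef]; group
    have hcx : Commute c x := (hz x).symm
    have hcy : Commute c y := (hz y).symm
    -- (y * x) ^ 4 = c ^ 6 * y ^ 4 * x ^ 4
    have e1 : (y * x) ^ 2 = c * (y ^ 2 * x ^ 2) := by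
      calc (y * x) ^ 2 = y * (x * y) * x := by rw [pow_two]; group
        _ = y * (c * (y * x)) * x := by rw [hxy]
        _ = (y * c) * (y * x) * x := by group
        _ = (c * y) * (y * x) * x := by rw [hz y]
        _ = c * (y ^ 2 * x ^ 2) := by simp only [pow_two]; group
    have e2 : x * y ^ 2 = c ^ 2 * (y ^ 2 * x) := by
      calc x * y ^ 2 = (x * y) * y := by rw [pow_two]; group
        _ = c * (y * x) * y := by rw [hxy]
        _ = c * y * (x * y) := by group
        _ = c * y * (c * (y * x)) := by rw [hxy]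
        _ = c * (y * c) * (y * x) := by group
        _ = c * (c * y) * (y * x) := by rw [hz y]
        _ = c ^ 2 * (y ^ 2 * x) := by simp only [pow_two]; group
    have e3 : x ^ 2 * y ^ 2 = c ^ 4 * (y ^ 2 * x ^ 2) := by
      have hz2 : ∀ g : P, g * c ^ 2 = c ^ 2 * g := fun g => ((Commute.pow_right (hz g) 2)).eq
      calc x ^ 2 * y ^ 2 = x * (x * y ^ 2) := by rw [pow_two x]; group
        _ = x * (c ^ 2 * (y ^ 2 * x)) := by rw [e2]
        _ = (x * c ^ 2) * (y ^ 2 * x) := by group
        _ = (c ^ 2 * x) * (y ^ 2 * x) := by rw [hz2 x]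
        _ = c ^ 2 * (x * y ^ 2) * x := by group
        _ = c ^ 2 * (c ^ 2 * (y ^ 2 * x)) * x := by rw [e2]
        _ = c ^ 4 * (y ^ 2 * x ^ 2) := by rw [pow_two x]; group
    have e4 : (y * x) ^ 4 = c ^ 2 := by
      have hc4 : c ^ 4 = 1 := h4 c
      calc (y * x) ^ 4 = (y * x) ^ 2 * (y * x) ^ 2 := by group
        _ = c * (y ^ 2 * x ^ 2) * (c * (y ^ 2 * x ^ 2)) := by rw [e1]
        _ = c * ((y ^ 2 * x ^ 2) * c) * (y ^ 2 * x ^ 2) := by group
        _ = c * (c * (y ^ 2 * x ^ 2)) * (y ^ 2 * x ^ 2) := by rw [hz]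
        _ = c ^ 2 * (y ^ 2 * (x ^ 2 * y ^ 2) * x ^ 2) := by rw [pow_two c]; group
        _ = c ^ 2 * (y ^ 2 * (c ^ 4 * (y ^ 2 * x ^ 2)) * x ^ 2) := by rw [e3]
        _ = c ^ 2 * (y ^ 4 * x ^ 4) := by rw [hc4]; group
        _ = c ^ 2 := by rw [h4 y, h4 x]; group
    rw [← e4]; exact h4 _
  have hsq : ∀ x : P, x ^ 2 ∈ Subgroup.center P := by
    intro y
    rw [Subgroup.mem_center_iff]
    intro x
    set c := x * y * x⁻¹ * y⁻¹ with hcdef
    have hz : ∀ g : P, g * c = c * g := fun g => Subgroup.mem_center_iff.mp (hc x y) g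
    have hxy : x * y = c * (y * x) := by rw [hcdef]; group
    calc x * y ^ 2 = (x * y) * y := by rw [pow_two]; group
      _ = c * (y * x) * y := by rw [hxy]
      _ = c * y * (x * y) := by group
      _ = c * y * (c * (y * x)) := by rw [hxy]
      _ = c * (y * c) * (y * x) := by group
      _ = c * (c * y) * (y * x) := by rw [hz y]
      _ = c ^ 2 * (y ^ 2 * x) := by simp only [pow_two]; group
      _ = y ^ 2 * x := by rw [hc2 x y, one_mul]
  let N : Subgroup P :=
    { carrier := {z | z ∈ Subgroup.center P ∧ z ^ 2 = 1}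
      mul_mem' := by
        rintro a b ⟨ha, ha2⟩ ⟨hb, hb2⟩
        refine ⟨Subgroup.mul_mem _ ha hb, ?_⟩
        have : Commute a b := (Subgroup.mem_center_iff.mp hb a)
        rw [this.mul_pow, ha2, hb2, one_mul]
      one_mem' := ⟨Subgroup.one_mem _, one_pow 2⟩
      inv_mem' := by
        rintro a ⟨ha, ha2⟩
        exact ⟨Subgroup.inv_mem _ ha, by rw [inv_pow, ha2, inv_one]⟩ }
  haveI hN : N.Normal := ⟨by
    rintro a ⟨ha, ha2⟩ g
    have : g * a * g⁻¹ = a := by rw [Subgroup.mem_center_iff.mp ha g]; group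
    rw [this]; exact ⟨ha, ha2⟩⟩
  have hle : frattini P ≤ N := by
    refine Cfsg.Agent.S0013.result 2 hP N ?_ ?_
    · rw [commutator_def, Subgroup.commutator_le]
      intro x _ y _
      exact ⟨hc x y, hc2 x y⟩
    · intro x
      exact ⟨hsq x, by rw [← pow_mul]; exact h4 x⟩
  refine ⟨fun x hx => (hle hx).1, ⟨⟨fun a b => ?_⟩⟩, fun a ha => (hle ha).2⟩
  exact Subtype.ext (Subgroup.mem_center_iff.mp (hle b.2).1 a)

end Cfsg.Agent.S4056
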