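import Cfsg.Statements.S4065
import Cfsg.Agent.KSG.PSL2Basic

set_option autoImplicit false
open Cfsg CL.GL2 CL.Char

namespace Cfsg.Agent.S4065

/-- Let F be a finite field with 2ⁿ elements, n ≥ 2. In PSL₂(F) the centralizer of every element meets each of its conjugates by elements outside its normalizer trivially. -/
theorem result (n : ℕ) (hn : 2 ≤ n)
    (x : Matrix.ProjectiveSpecialLinearGroup (Fin 2) (GaloisField 2 n)) :
    Cfsg.IsTISubset (Subgroup.centralizer ({x} : Set (Matrix.ProjectiveSpecialLinearGroup (Fin 2) (GaloisField 2 n))) :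
      Set (Matrix.ProjectiveSpecialLinearGroup (Fin 2) (GaloisField 2 n))) := by
  classical
  have := Fintype.ofFinite (GaloisField 2 n)
  have h2 : (2 : GaloisField 2 n) = 0 := CharP.cast_eq_zero (GaloisField 2 n) 2
  intro h hh y hy hc
  by_contra hy1
  apply hh
  have key : ∀ z ∈ Subgroup.centralizer ({x} : Set (Matrix.ProjectiveSpecialLinearGroup (Fin 2)
      (GaloisField 2 n))), z ≠ 1 → x ≠ 1 → Subgroup.centralizer {z} = Subgroup.centralizer {x} := by
    intro z hz hz1 hx1
    obtain ⟨x, rfl⟩ := pslMk_surjective x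
    obtain ⟨z, rfl⟩ := pslMk_surjective z
    have hz' : z ∈ pcent x := hz
    rw [pcent_eq_centSL_even h2] at hz'
    rw [← map_pcent, ← map_pcent, pcent_eq_centSL_even h2, pcent_eq_centSL_even h2,
      centSL_eq_of_mem (mt pslMk_eq_one_iff.2 hx1) (mt pslMk_eq_one_iff.2 hz1) (mem_centSL.1 hz')]
  by_cases hx1 : x = 1
  · subst hx1
    rw [Subgroup.mem_normalizer_iff]
    simp [Subgroup.mem_centralizer_singleton_iff]
  have e1 := key y hy hy1 hx1
  have e2 := key _ hc (by simpa [mul_inv_eq_iff_eq_mul] using hy1) hx1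
  rw [Subgroup.mem_normalizer_iff]
  intro z
  conv_lhs => rw [← e1]
  rw [← e2]
  simp only [SetLike.mem_coe, Subgroup.mem_centralizer_singleton_iff]
  constructor
  · intro e
    calc _ = h * (z * y) * h⁻¹ := by group
      _ = _ := by rw [e]; group
  · intro e
    calc _ = h⁻¹ * (h * z * h⁻¹ * (h * y * h⁻¹)) * h := by group
      _ = _ := by rw [e]; group

end Cfsg.Agent.S4065
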