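import Mathlib
import Cfsg.Statements.S4066
import Cfsg.Agent.SOLV.Core

set_option autoImplicit false
open Cfsg
open scoped Pointwise

namespace Cfsg.Agent.S4066

/-- Let G be a finite group in which the centralizer of every element meets each of its conjugates by elements outside its normalizer trivially. Then any two distinct Sylow p-subgroups of G, for any prime p, intersect trivially. -/
theorem result {G : Type*} [Group G] [Finite G] (hTI : ∀ x : G, Cfsg.IsTISubset (Subgroup.centralizer ({x} : Set G) : Set G))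
    {p : ℕ} [Fact p.Prime] (P Q : Sylow p G) (hPQ : P ≠ Q) : (P : Subgroup G) ⊓ (Q : Subgroup G) = ⊥ := by
  by_contra hne
  obtain ⟨⟨d, hdP, hdQ⟩, hd1⟩ := Subgroup.ne_bot_iff_exists_ne_one.mp hne
  have hd1' : d ≠ 1 := fun h => hd1 (Subtype.ext h)
  haveI : Nontrivial (P : Subgroup G) := ⟨⟨⟨d, hdP⟩, 1, fun h => hd1' (congrArg Subtype.val h)⟩⟩
  obtain ⟨⟨⟨z, hzP⟩, hzc⟩, hz1⟩ := Subgroup.ne_bot_iff_exists_ne_one.mp P.isPGroup'.bot_lt_center.ne'
  have hz1' : z ≠ 1 := fun h => hz1 (Subtype.ext (Subtype.ext h))
  have hPz : (P : Subgroup G) ≤ Subgroup.centralizer ({z} : Set G) := by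
    intro y hy
    rw [Subgroup.mem_centralizer_singleton_iff]
    exact congrArg Subtype.val (Subgroup.mem_center_iff.mp hzc ⟨y, hy⟩)
  obtain ⟨g, hg⟩ := MulAction.exists_smul_eq G P Q
  have hQ : (Q : Subgroup G) = MulAut.conj g • (P : Subgroup G) := by rw [← hg]; rfl
  have hgN : g ∈ Subgroup.normalizer (Subgroup.centralizer ({z} : Set G) : Set G) := by
    by_contra hgN
    have h1 : g⁻¹ * d * g ∈ (P : Subgroup G) := by
      rw [← CL.mem_conj_smul_iff, ← hQ]; exact hdQ
    have := hTI z g hgN _ (hPz h1) (by simpa [mul_assoc] using hPz hdP)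
    apply hd1'
    calc d = g * (g⁻¹ * d * g) * g⁻¹ := by group
      _ = 1 := by rw [this]; group
  have hQz : (Q : Subgroup G) ≤ Subgroup.centralizer ({z} : Set G) := by
    rw [hQ]; exact CL.conj_smul_le_of_mem_normalizer hPz hgN
  have hle : (P : Subgroup G) ≤ (Q : Subgroup G) := by
    intro x hx
    set C := Subgroup.centralizer ({x} : Set G) with hC
    have hzC : z ∈ C := by
      rw [hC, Subgroup.mem_centralizer_singleton_iff]
      exact (Subgroup.mem_centralizer_singleton_iff.mp (hPz hx)).symm
    have hQN : (Q : Subgroup G) ≤ Subgroup.normalizer (C : Set G) := by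
      intro q hq
      by_contra hqN
      have h1 : q * z * q⁻¹ = z := by
        rw [Subgroup.mem_centralizer_singleton_iff.mp (hQz hq)]; group
      exact hz1' (hTI x q hqN z hzC (by rw [h1]; exact hzC))
    have hxO : Subgroup.zpowers x ≤ (pCore p C).map C.subtype := by
      refine CL.le_map_pCore ?_ ?_ ?_
      · rw [Subgroup.zpowers_le, hC, Subgroup.mem_centralizer_singleton_iff]
      · refine le_trans ?_ (Subgroup.centralizer_le_normalizer _)
        rw [Subgroup.le_centralizer_iff, Subgroup.zpowers_le]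
        intro c hc
        exact Subgroup.mem_centralizer_singleton_iff.mp hc
      · exact P.isPGroup'.to_le (Subgroup.zpowers_le.mpr hx)
    have h2 : IsPGroup p ↥((Q : Subgroup G) ⊔ (pCore p C).map C.subtype) :=
      IsPGroup.to_sup_of_normal_right' Q.isPGroup' (CL.isPGroup_map_pCore _)
        (hQN.trans (CL.normalizer_le_normalizer_map_pCore C))
    have h3 := Q.is_maximal' h2 le_sup_left
    rw [← h3]
    exact Subgroup.mem_sup_right (hxO (Subgroup.mem_zpowers x))
  exact hPQ (Sylow.ext (P.is_maximal' Q.isPGroup' hle).symm)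

end Cfsg.Agent.S4066
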