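import Cfsg.Statements.S4067
import Mathlib
import Cfsg.Agent.FGS.PiNil1
import Cfsg.Agent.SOLV.Basic

set_option autoImplicit false
open Cfsg

namespace Cfsg.Agent.S4067

open Subgroup
open scoped commutatorElement

section
variable {G : Type*} [Group G]

omit [Group G] in
theorem orbit_sum {A : Type*} [Group A] [MulAction A G] [Fintype G] (c : ℕ) (w : G → ℕ)
    (h : ∀ x, c ≤ w x * (MulAction.orbit A x).ncard) :
    c * Nat.card (MulAction.orbitRel.Quotient A G) ≤ ∑ x, w x := by
  classical
  have := Fintype.ofFinite (MulAction.orbitRel.Quotient A G)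
  rw [← Finset.sum_fiberwise (s := Finset.univ)
    (g := fun x => (Quotient.mk'' x : MulAction.orbitRel.Quotient A G)), Nat.card_eq_fintype_card,
    mul_comm, ← Finset.card_univ, ← smul_eq_mul, ← Finset.sum_const]
  refine Finset.sum_le_sum fun q _ => ?_
  induction q using Quotient.inductionOn' with
  | h a =>
    obtain ⟨b, hb, hm⟩ := Finset.exists_min_image (Finset.univ.filter fun x =>
      (Quotient.mk'' x : MulAction.orbitRel.Quotient A G) = Quotient.mk'' a) w ⟨a, by simp⟩
    refine (h b).trans (le_trans ?_ (Finset.card_nsmul_le_sum _ _ _ hm))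
    rw [smul_eq_mul, mul_comm, ← Set.ncard_coe_finset]
    refine Nat.mul_le_mul_right _ (Set.ncard_le_ncard fun x hx => ?_)
    simp only [Finset.coe_filter, Finset.mem_univ, true_and, Set.mem_ofPred_eq,
      Finset.mem_filter] at hb ⊢
    exact (Quotient.sound' (MulAction.orbitRel_apply.2 hx)).trans hb

theorem exists_aut [Finite G] {p : ℕ} (hp : p.Prime) {z a y w : G} (hz : orderOf z = p)
    (hzc : z ∈ center G) (ha : a ∉ center G) (i : G → ℕ) (hi : ∀ x, x⁻¹ * a * x = a * z ^ i x)
    (hw : w ∈ zpowers z) (hy : ∀ x, x⁻¹ * y * x = y * w ^ i x) (hya : Commute y a)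
    (hyp : y ^ p * w ^ p.choose 2 = 1) (hyD : y ∉ zpowers z) :
    ∃ α : MulAut G, ∃ x, x⁻¹ * α x ∉ zpowers z := by
  have hwc : w ∈ center G := zpowers_le.2 hzc hw
  have cw : ∀ x, Commute x w := fun x => mem_center_iff.1 hwc x
  have cz : ∀ x, Commute x z := fun x => mem_center_iff.1 hzc x
  have hwp : w ^ p = 1 := by
    obtain ⟨k, rfl⟩ := hw
    rw [← zpow_natCast, ← zpow_mul, mul_comm, zpow_mul, zpow_natCast, ← hz, pow_orderOf_eq_one,
      one_zpow]
  set c : ℕ → G := fun k => y ^ k * w ^ k.choose 2 with hc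
  have cadd : ∀ k l, c (k + l) = c k * w ^ (l * k) * c l := by
    intro k l
    have e : (k + l).choose 2 = k.choose 2 + l * k + l.choose 2 := by
      induction l with
      | zero => simp
      | succ l ih =>
        rw [← add_assoc, Nat.choose_succ_succ' (k + l), Nat.choose_succ_succ' l, ih]
        simp only [Nat.choose_one_right]; ring
    simp only [hc, e, pow_add, mul_assoc]
    congr 1
    rw [← mul_assoc, ((cw (y ^ l)).pow_right _).eq, mul_assoc, ← mul_assoc (y ^ l),
      ((cw (y ^ l)).pow_right _).eq, mul_assoc]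
  have cper : ∀ k m, c (k + p * m) = c k := by
    intro k m
    induction m with
    | zero => simp
    | succ m ih =>
      rw [Nat.mul_succ, ← add_assoc, cadd, ih, pow_mul, hwp, one_pow, mul_one]
      simp only [hc]; rw [hyp, mul_one]
  have cmod : ∀ k l, z ^ k = z ^ l → c k = c l := by
    intro k l h
    rw [pow_eq_pow_iff_modEq, hz] at h
    rw [← Nat.mod_add_div k p, ← Nat.mod_add_div l p, cper, cper, h]
  have cconj : ∀ k x, x⁻¹ * c k * x = c k * w ^ (i x * k) := by
    intro k x
    have : x⁻¹ * y ^ k * x = (y * w ^ i x) ^ k := by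
      rw [← hy]; simpa using (conj_pow (a := x⁻¹) (b := y) (i := k)).symm
    simp only [hc]
    rw [← mul_assoc, mul_assoc _ _ x, ← ((cw x).pow_right _).eq, ← mul_assoc, this,
      ((cw y).pow_right _).mul_pow, ← pow_mul, mul_assoc, mul_assoc, ← pow_add, ← pow_add, add_comm]
  let f : G →* G := MonoidHom.mk' (fun x => x * c (i x)) fun x x' => by
    have e : z ^ i (x * x') = z ^ (i x + i x') := by
      apply mul_left_cancel (a := a)
      rw [← hi, mul_inv_rev, show x'⁻¹ * x⁻¹ * a * (x * x') = x'⁻¹ * (x⁻¹ * a * x) * x' by group,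
        hi, ← mul_assoc, mul_assoc _ _ x', ← ((cz x').pow_right _).eq, ← mul_assoc, hi,
        mul_assoc, ← pow_add, add_comm]
    rw [cmod _ _ e, cadd, ← cconj]; group
  have hf : Function.Injective f := (injective_iff_map_eq_one f).2 fun x hx => by
    have hx' : x = (c (i x))⁻¹ := eq_inv_of_mul_eq_one_left hx
    have c1 : Commute x a := by
      rw [hx']
      exact ((hya.pow_left _).mul_left ((cw a).symm.pow_left _)).inv_left
    have : z ^ i x = z ^ 0 := by
      apply mul_left_cancel (a := a)
      rw [← hi, mul_assoc, ← c1.eq]; simp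
    rw [hx', cmod _ _ this]; simp [hc]
  refine ⟨MulEquiv.ofBijective f (Finite.injective_iff_bijective.1 hf), ?_⟩
  obtain ⟨x, hx⟩ := not_forall.1 (mt mem_center_iff.2 ha)
  refine ⟨x, fun h => hyD ?_⟩
  have h1 : y ^ i x ∈ zpowers z := by
    have h' : c (i x) ∈ zpowers z := by simpa [f] using h
    simpa [hc] using mul_mem h' (inv_mem (pow_mem hw ((i x).choose 2)))
  have h2 : y ^ p ∈ zpowers z := by
    rw [eq_inv_of_mul_eq_one_left hyp]; exact inv_mem (pow_mem hw _)
  have h3 : (i x).Coprime p := ((hp.coprime_iff_not_dvd).2 fun h => hx <| by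
    have := hi x
    rw [← hz, orderOf_dvd_iff_pow_eq_one] at h
    rw [h, mul_one, mul_assoc, inv_mul_eq_iff_eq_mul] at this
    exact this.symm).symm
  have := Nat.gcd_eq_gcd_ab (i x) p
  rw [h3.gcd_eq_one] at this
  have e : y = (y ^ i x) ^ (i x).gcdA p * (y ^ p) ^ (i x).gcdB p := by
    rw [← zpow_natCast, ← zpow_natCast, ← zpow_mul, ← zpow_mul, ← zpow_add, ← this]; simp
  rw [e]; exact mul_mem (zpow_mem h1 _) (zpow_mem h2 _)

theorem mul_pow_of {x y w : G} (hw : w ∈ center G) (h : y * x = x * y * w) (k : ℕ) :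
    (x * y) ^ k = x ^ k * y ^ k * w ^ k.choose 2 := by
  have cw : ∀ x, Commute x w := fun x => mem_center_iff.1 hw x
  have h1 : ∀ k, y ^ k * x = x * y ^ k * w ^ k := by
    intro k
    induction k with
    | zero => simp
    | succ k ih =>
      rw [pow_succ', mul_assoc, ih, ← mul_assoc, ← mul_assoc, h, pow_succ' w, mul_assoc (x * y),
        ← (cw _).eq]
      simp only [mul_assoc]
  induction k with
  | zero => simp
  | succ k ih =>
    rw [pow_succ, ih, Nat.choose_succ_succ' k, Nat.choose_one_right, mul_assoc _ (w ^ _),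
      ← ((cw _).pow_right _).eq, pow_add w, ← mul_assoc, ← mul_assoc, ← mul_assoc,
      mul_assoc (x ^ k), h1, mul_assoc (x ^ k), mul_assoc _ (w ^ k), ← ((cw y).pow_right _).eq,
      pow_succ, pow_succ]
    simp only [mul_assoc]

theorem exists_good [Finite G] {p : ℕ} (hp : p.Prime) {z : G} (hz : orderOf z = p)
    (hzc : z ∈ center G) (hD : commutator G = zpowers z)
    (hZ : p ^ 2 * Nat.card (center G) ≤ Nat.card G) :
    ∃ y, y ∉ zpowers z ∧ (y ∈ center G ∧ y ^ p = 1 ∨ y ∉ center G ∧ y ^ p * z ^ p.choose 2 = 1) := by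
  have hcm : ∀ x y : G, ∃ w ∈ zpowers z, y * x = x * y * w := fun x y =>
    ⟨⁅y⁻¹, x⁻¹⁆, hD ▸ commutator_mem_commutator (mem_top _) (mem_top _), by
      rw [commutatorElement_def]; group⟩
  have hDc : zpowers z ≤ center G := zpowers_le.2 hzc
  have hDp : ∀ w ∈ zpowers z, w ^ p = 1 := by
    rintro _ ⟨k, rfl⟩
    rw [← zpow_natCast, ← zpow_mul, mul_comm, zpow_mul, zpow_natCast, ← hz, pow_orderOf_eq_one,
      one_zpow]
  have hcD : Nat.card (zpowers z) = p := by rw [Nat.card_zpowers, hz]
  have hpc : ∀ x : G, x ^ p ∈ center G := fun x => mem_center_iff.2 fun y => by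
    obtain ⟨w, hw, e⟩ := hcm y x
    have h1 : y⁻¹ * x ^ p * y = (x * w) ^ p := by
      rw [show x * w = y⁻¹ * x * y by rw [mul_assoc, e]; group]
      simpa using (conj_pow (a := y⁻¹) (b := x) (i := p)).symm
    rw [(show Commute x w from mem_center_iff.1 (hDc hw) x).mul_pow, hDp w hw, mul_one] at h1
    conv_lhs => rw [← h1]
    group
  have h0 := Nat.card_pos (α := center G)
  by_contra! hn
  rcases hp.eq_two_or_odd' with rfl | ho
  · have := Fact.mk hp
    have hN : (zpowers z).Normal := hD ▸ inferInstance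
    have hmem : ∀ w ∈ zpowers z, w = 1 ∨ w = z := fun w hw => by
      obtain ⟨k, rfl⟩ := (mem_powers_iff_mem_zpowers.2 hw : w ∈ Submonoid.powers z)
      simp only
      rw [← pow_mod_orderOf, hz]
      rcases Nat.mod_two_eq_zero_or_one k with h | h <;> simp [h]
    have hz2 : z * z = 1 := by rw [← sq, ← hz, pow_orderOf_eq_one]
    let θ : G →* G ⧸ zpowers z := MonoidHom.mk' (fun x => (x ^ 2 : G)) fun x y => by
      obtain ⟨w, hw, e⟩ := hcm x y
      rw [mul_pow_of (hDc hw) e, QuotientGroup.mk_mul_of_mem _ (pow_mem hw _), QuotientGroup.mk_mul]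
    have hK : ∀ x, x ∈ θ.ker ↔ x ^ 2 ∈ zpowers z := fun x => QuotientGroup.eq_one_iff _
    have hr : θ.range ≤ (center G).map (QuotientGroup.mk' _) := by
      rintro _ ⟨x, rfl⟩; exact ⟨_, hpc x, rfl⟩
    have c1 : Nat.card ((center G).map (QuotientGroup.mk' (zpowers z))) * 2 =
        Nat.card (center G) := by
      rw [← hcD, ← relIndex_ker, QuotientGroup.ker_mk', relIndex, mul_comm,
        ← Nat.card_congr (subgroupOfEquivOfLe hDc).toEquiv, card_mul_index]
    have c2 : Nat.card θ.ker * Nat.card θ.range = Nat.card G := by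
      rw [← index_ker, card_mul_index]
    have c3 := card_le_of_le hr
    have c4 : 2 * Nat.card G ≤ Nat.card θ.ker * Nat.card (center G) := by nlinarith
    have hnc : ∀ x ∈ θ.ker, x ∉ center G → x ^ 2 = 1 := fun x hx hc =>
      (hmem _ ((hK x).1 hx)).resolve_right fun e =>
        (hn x fun h => hc (hDc h)).2 hc (by rw [e]; simpa using hz2)
    have hcc : ∀ x ∈ center G, x ^ 2 = 1 → x ∈ zpowers z := fun x hc e =>
      by_contra fun h => (hn x h).1 hc e
    by_cases ht : ∃ t ∈ center G, t ^ 2 = z
    · obtain ⟨t, ht, e⟩ := ht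
      have : ¬ θ.ker ≤ zpowers t := fun h => by
        have a1 := card_le_of_le h
        have a2 : orderOf t ≤ 4 := orderOf_le_of_pow_eq_one (by norm_num)
          (by rw [show 4 = 2 * 2 by rfl, pow_mul, e, sq, hz2])
        rw [Nat.card_zpowers] at a1
        nlinarith
      obtain ⟨x, hx, hxt⟩ := SetLike.not_le_iff_exists.1 this
      have hzt : zpowers z ≤ zpowers t := zpowers_le.2 (e ▸ pow_mem (mem_zpowers t) 2)
      have ct : Commute x t := mem_center_iff.1 ht x
      by_cases hxc : x ∈ center G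
      · rcases hmem _ ((hK x).1 hx) with h | h
        · exact hxt (hzt (hcc x hxc h))
        · have := hcc (x * t⁻¹) (mul_mem hxc (inv_mem ht))
            (by rw [ct.inv_right.mul_pow, inv_pow, e, h, mul_inv_cancel])
          exact hxt (by simpa using mul_mem (hzt this) (mem_zpowers t))
      · have hc' : x * t ∉ center G := fun h => hxc (by simpa using mul_mem h (inv_mem ht))
        refine (hn _ fun h => hc' (hDc h)).2 hc' ?_
        rw [ct.mul_pow, hnc x hx hxc, e]; simpa using hz2
    · have hsq : ∀ x ∈ θ.ker, x ^ 2 = 1 := fun x hx => by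
        by_cases hc : x ∈ center G
        · exact (hmem _ ((hK x).1 hx)).resolve_right fun e => ht ⟨x, hc, e⟩
        · exact hnc x hx hc
      have c5 : Nat.card (θ.ker ⊓ center G : Subgroup G) ≤ 2 :=
        hcD ▸ card_le_of_le fun x hx => hcc x hx.2 (hsq x hx.1)
      have c6 := CL.card_sup_mul_card_inf θ.ker (center G)
      have c7 : θ.ker ⊔ center G = ⊤ := eq_top_of_le_card _ (by nlinarith)
      have hK2 : ∀ x ∈ θ.ker, x ∈ center G := fun x hx => mem_center_iff.2 fun y => by
        have hy : y ∈ ((θ.ker ⊔ center G : Subgroup G) : Set G) := c7 ▸ mem_top y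
        rw [mul_normal] at hy
        obtain ⟨k, hk, t, ht, rfl⟩ := hy
        have e : ∀ u ∈ θ.ker, u⁻¹ = u := fun u hu =>
          inv_eq_of_mul_eq_one_right (by rw [← sq]; exact hsq u hu)
        have e2 : k * x = x * k := by rw [← e _ (mul_mem hk hx), mul_inv_rev, e k hk, e x hx]
        simp only
        rw [mul_assoc, ← mem_center_iff.1 ht x, ← mul_assoc, e2, mul_assoc]
      rw [sup_eq_right.2 hK2] at c7
      rw [c7, card_top] at hZ
      have := Nat.card_pos (α := G)
      omega
  · have hC : ∀ w ∈ zpowers z, w ^ p.choose 2 = 1 := fun w hw => by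
      obtain ⟨k, hk⟩ := hp.dvd_choose_self two_ne_zero (lt_of_le_of_ne hp.two_le fun e => by
        rw [← e] at ho; exact absurd ho (by decide))
      rw [hk, pow_mul, hDp w hw, one_pow]
    let π : G →* G := MonoidHom.mk' (fun x => x ^ p) fun x y => by
      obtain ⟨w, hw, e⟩ := hcm x y
      rw [mul_pow_of (hDc hw) e, hC w hw, mul_one]
    have c2 : Nat.card π.ker * Nat.card π.range = Nat.card G := by
      rw [← index_ker, card_mul_index]
    have c3 : Nat.card π.range ≤ Nat.card (center G) := card_le_of_le (by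
      rintro _ ⟨x, rfl⟩; exact hpc x)
    have : ¬ π.ker ≤ zpowers z := fun h => by
      have a1 := card_le_of_le h
      have := hp.two_le
      rw [hcD] at a1
      have a2 := Nat.mul_le_mul a1 c3
      nlinarith
    obtain ⟨x, hx, hxt⟩ := SetLike.not_le_iff_exists.1 this
    by_cases hxc : x ∈ center G
    · exact (hn x hxt).1 hxc hx
    · exact (hn x hxt).2 hxc (by rw [hC z (mem_zpowers z), mul_one]; exact hx)

end

theorem result {G : Type*} [Group G] [Finite G] (hna : ¬ IsMulCommutative G) :
    Nat.card (MulAction.orbitRel.Quotient (MulAut G) G) ≤ Nat.card G / (Nat.card G).minFac := by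
  classical
  have hcard : Nat.card G ≠ 1 := fun h => hna (by
    have := (Nat.card_eq_one_iff_unique.1 h).1
    exact ⟨⟨fun a b => Subsingleton.elim _ _⟩⟩)
  set p := (Nat.card G).minFac with hpdef
  have hp : p.Prime := Nat.minFac_prime hcard
  have hmin : ∀ r, r.Prime → r ∣ Nat.card G → p ≤ r := fun r hr h => Nat.minFac_le_of_dvd hr.two_le h
  have hle : ∀ m, m ∣ Nat.card G → m ≠ 1 → p ≤ m := fun m hm h1 =>
    CL.PiNil.le_of_dvd hmin hm (fun e => Nat.card_pos.ne' (Nat.eq_zero_of_zero_dvd (e ▸ hm))) h1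
  rw [Nat.le_div_iff_mul_le hp.pos]
  by_cases hk : Nat.card G < p * Nat.card (ConjClasses G)
  swap
  · have : Nat.card (MulAction.orbitRel.Quotient (MulAut G) G) ≤ Nat.card (ConjClasses G) := by
      refine Nat.card_le_card_of_surjective (Quotient.map' id fun a b h => ?_) fun q => ?_
      · obtain ⟨g, hg⟩ := isConj_iff.1 h
        exact MulAction.orbitRel_apply.2 ⟨(MulAut.conj g)⁻¹, by simp [← hg, mul_assoc]⟩
      · induction q using Quotient.inductionOn' with
        | h a => exact ⟨Quotient.mk'' a, rfl⟩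
    nlinarith
  have hD1 : commutator G ≠ ⊥ := fun h => hna ⟨⟨fun a b => by
    have := commutator_mem_commutator (mem_top a) (mem_top b)
    rw [← _root_.commutator_def, h] at this
    exact commutatorElement_eq_one_iff_mul_comm.1 this⟩⟩
  have hDp : Nat.card (commutator G) = p := le_antisymm
    (CL.PiNil.card_commutator_le hp.two_le hmin hk)
    (hle _ (card_subgroup_dvd_card _) fun h => hD1 (card_eq_one.1 h))
  have := Fact.mk hp
  obtain ⟨z, hz⟩ := exists_prime_orderOf_dvd_card' (G := commutator G) p (hDp ▸ dvd_rfl)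
  rw [← orderOf_coe] at hz
  have hD : commutator G = zpowers z.1 :=
    (eq_of_le_of_card_ge (zpowers_le.2 z.2) (by rw [hDp, Nat.card_zpowers, hz])).symm
  generalize z.1 = z at hz hD
  have hcl : ∀ x : G, (MulAction.orbit (ConjAct G) x).ncard = (centralizer {x}).index := fun x => by
    rw [← MulAction.index_stabilizer, centralizer_eq_comap_stabilizer]
    exact (index_comap_of_surjective _ (f := (ConjAct.toConjAct (G := G)).toMonoidHom)
      (ConjAct.toConjAct (G := G)).surjective).symm
  have hsub : ∀ x : G, ∀ u ∈ MulAction.orbit (ConjAct G) x, x⁻¹ * u ∈ commutator G := by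
    rintro x _ ⟨g, rfl⟩
    have := commutator_mem_commutator (mem_top x⁻¹) (mem_top (ConjAct.ofConjAct g))
    simpa [commutatorElement_def, ConjAct.smul_def, mul_assoc, _root_.commutator_def] using this
  have hge : ∀ x : G, x ∉ center G → p ≤ (MulAction.orbit (ConjAct G) x).ncard := fun x hx => by
    rw [hcl]
    refine hle _ (index_dvd_card _) fun h => hx (mem_center_iff.2 fun g => ?_)
    exact (mem_centralizer_singleton_iff.1 (index_eq_one.1 h ▸ mem_top g))
  have hzc : z ∈ center G := by_contra fun h => by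
    have h1 : MulAction.orbit (ConjAct G) z ⊂ (commutator G : Set G) := by
      refine ⟨fun u hu => ?_, fun h' => ?_⟩
      · have := mul_mem (show z ∈ commutator G from hD ▸ mem_zpowers z) (hsub z u hu)
        rwa [mul_inv_cancel_left] at this
      · obtain ⟨g, hg⟩ := h' (one_mem _)
        have : z = 1 := by simpa [ConjAct.smul_def] using hg
        exact h (this ▸ one_mem _)
    have := Set.ncard_lt_ncard h1
    have e : (commutator G : Set G).ncard = p := hDp
    have := hge z h
    omega
  obtain ⟨a₀, ha₀⟩ : ∃ a : G, a ∉ center G := by_contra fun h => hna ⟨⟨fun a b =>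
    mem_center_iff.1 (not_not.1 fun h' => h ⟨b, h'⟩) a⟩⟩
  have hZ : p ^ 2 * Nat.card (center G) ≤ Nat.card G := by
    have h1 := hge a₀ ha₀
    rw [hcl] at h1
    have h2 : center G ≤ centralizer {a₀} := center_le_centralizer _
    have h3 := hle ((center G).relIndex (centralizer {a₀}))
      ((relIndex_dvd_card _ _).trans (card_subgroup_dvd_card _)) fun h =>
        ha₀ (relIndex_eq_one.1 h (mem_centralizer_singleton_iff.2 rfl))
    rw [← card_mul_index (center G), ← relIndex_mul_index h2, sq, mul_comm]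
    exact Nat.mul_le_mul_left _ (Nat.mul_le_mul h3 h1)
  have hi : ∀ a x : G, ∃ k : ℕ, x⁻¹ * a * x = a * z ^ k := fun a x => by
    obtain ⟨k, hk⟩ := mem_powers_iff_mem_zpowers.2 (hD ▸ hsub a _ ⟨ConjAct.toConjAct x⁻¹, rfl⟩)
    exact ⟨k, by simp only at hk; rw [hk]; simp [ConjAct.smul_def]⟩
  choose i hi using hi
  obtain ⟨α, x₀, hx₀⟩ : ∃ α : MulAut G, ∃ x, x⁻¹ * α x ∉ zpowers z := by
    obtain ⟨y, hy, ⟨h1, h2⟩ | ⟨h1, h2⟩⟩ := exists_good hp hz hzc hD hZ
    · exact exists_aut hp hz hzc ha₀ _ (hi a₀) (one_mem _) (fun x => by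
        rw [mul_assoc, ← mem_center_iff.1 h1 x]; simp) (mem_center_iff.1 h1 a₀).symm (by simpa using h2) hy
    · exact exists_aut hp hz hzc h1 _ (hi y) (mem_zpowers z) (hi y) rfl h2 hy
  rw [← hD] at hx₀
  set F := (QuotientGroup.mk' (commutator G)).eqLocus
    ((QuotientGroup.mk' (commutator G)).comp α.toMonoidHom)
  have hF : ∀ x, x ∈ F ↔ x⁻¹ * α x ∈ commutator G := fun x => QuotientGroup.eq
  have hFc : p * Nat.card F ≤ Nat.card G := by
    rw [← card_mul_index F, mul_comm]
    exact Nat.mul_le_mul_left _ (hle _ (index_dvd_card _) fun h =>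
      hx₀ ((hF _).1 (index_eq_one.1 h ▸ mem_top _)))
  have := Fintype.ofFinite G
  have horb : ∀ x : G, ∀ β : MulAut G, MulAction.orbit (ConjAct G) (β x) ⊆
      MulAction.orbit (MulAut G) x := by
    rintro x β _ ⟨g, rfl⟩
    exact ⟨MulAut.conj (ConjAct.ofConjAct g) * β, rfl⟩
  obtain ⟨r, hr⟩ : ∃ r, p = r + 1 := ⟨p - 1, by have := hp.pos; omega⟩
  have hr1 : 1 ≤ r := by have := hp.two_le; omega
  have key := orbit_sum (A := MulAut G) (2 * p)
    (fun x : G => 1 + (if x ∈ center G then 2 * r else 0) + if x ∈ F then 1 else 0) fun x => by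
      have o1 := Set.ncard_le_ncard (horb x 1)
      by_cases h1 : x ∈ center G <;> by_cases h2 : x ∈ F <;> simp only [h1, h2, if_true, if_false]
      · have := (Set.ncard_pos).2 (MulAction.nonempty_orbit (M := MulAut G) x)
        nlinarith
      · have : 1 < (MulAction.orbit (MulAut G) x).ncard :=
          (Set.one_lt_ncard_iff).2 ⟨x, α x, MulAction.mem_orbit_self x, ⟨α, rfl⟩, fun e =>
            h2 ((hF x).2 (by rw [← e, inv_mul_cancel]; exact one_mem _))⟩
        nlinarith
      · have := hge x h1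
        simp only [MulAut.one_apply] at o1
        omega
      · have a1 := hge x h1
        have a2 := hge (α x) fun h => h1 (mem_center_iff.2 fun g => α.injective (by
          rw [map_mul, map_mul]; exact mem_center_iff.1 h _))
        have a3 := Set.ncard_le_ncard (Set.union_subset (horb x 1) (horb x α))
        rw [Set.ncard_union_eq (Set.disjoint_left.2 fun u h h' => h2 ((hF x).2 (by
          simpa using mul_mem (hsub _ u h) (inv_mem (hsub _ u h')))))] at a3
        simp only [MulAut.one_apply] at a3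
        omega
  simp only [Finset.sum_add_distrib, Finset.sum_ite, Finset.sum_const, smul_eq_mul, mul_one,
    mul_zero, add_zero, Finset.card_univ, ← Fintype.card_subtype, ← Nat.card_eq_fintype_card] at key
  rw [hr] at key hZ hFc ⊢
  generalize Nat.card (MulAction.orbitRel.Quotient (MulAut G) G) = o at key ⊢
  generalize Nat.card G = n at *
  generalize Nat.card (center G) = c at *
  generalize Nat.card F = f at *
  have : (r + 1) ^ 2 * (c * (2 * r) + f) ≤ (r + 1) ^ 2 * n := by
    have : 2 * r * n + (r + 1) * n ≤ (r + 1) ^ 2 * n := by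
      rw [← add_mul]; exact Nat.mul_le_mul_right _ (by nlinarith)
    nlinarith
  have := Nat.le_of_mul_le_mul_left this (by positivity)
  nlinarith

end Cfsg.Agent.S4067
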