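import Mathlib
import Cfsg.Statements.S4068
import Cfsg.Agent.TECH.SylIn
import Cfsg.Agent.CHAR.Burnside
import Cfsg.Agent.S1230
import Cfsg.Agent.S0252
import Cfsg.Agent.KSG.SL2SylNorm
import Cfsg.Agent.CLAS.SLBasic

set_option autoImplicit false
open Cfsg

namespace Cfsg.Agent.S4068

open CL.MSS Subgroup

theorem solv_of_miss {H : Type*} [Group H] [Finite H] {p q r s : ℕ} (hp : p.Prime) (hq : q.Prime)
    (hr : r.Prime) (hs : s = p ∨ s = q ∨ s = r)
    (h : ∀ t : ℕ, t.Prime → t ∣ Nat.card H → t = p ∨ t = q ∨ t = r) (hn : ¬ s ∣ Nat.card H) :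
    Group.IsSolvable H := by
  rcases hs with rfl | rfl | rfl
  · exact CL.Char.isSolvable_of_primes_subset_pair hq hr fun t ht hd => by
      rcases h t ht hd with rfl | h1 | h1
      exacts [absurd hd hn, Or.inl h1, Or.inr h1]
  · exact CL.Char.isSolvable_of_primes_subset_pair hp hr fun t ht hd => by
      rcases h t ht hd with h1 | rfl | h1
      exacts [Or.inl h1, absurd hd hn, Or.inr h1]
  · exact CL.Char.isSolvable_of_primes_subset_pair hp hq fun t ht hd => by
      rcases h t ht hd with h1 | h1 | rfl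
      exacts [Or.inl h1, Or.inr h1, absurd hd hn]

theorem count_le {G : Type*} [Group G] [Finite G] {s : ℕ} [Fact s.Prime] (hs : s ∣ Nat.card G)
    (hodd : Odd (Nat.card G))
    (haut : ∀ g h : G, orderOf g = orderOf h → ∃ φ : MulAut G, φ g = h)
    (hN : ∀ S : Sylow s G, ¬ normalizer ((S : Subgroup G) : Set G) ≤
      centralizer ((S : Subgroup G) : Set G)) :
    3 * Nat.card {g : G // orderOf g = s} + 3 ≤ Nat.card G := by
  classical
  obtain ⟨S⟩ : Nonempty (Sylow s G) := inferInstance
  obtain ⟨z, hzS, hz, hzc⟩ := CL.GL2.exists_central_prime S.isPGroup' (S.ne_bot_of_dvd_card hs)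
  have key : ∀ x : {g : G // orderOf g = s}, ∃ T : Sylow s G,
      x.1 ∈ centralizer ((T : Subgroup G) : Set G) := by
    rintro ⟨x, hx⟩
    obtain ⟨φ, rfl⟩ := haut z x (hz.trans hx.symm)
    refine ⟨S.mapSurjective (f := φ.toMonoidHom) φ.surjective, ?_⟩
    rintro _ ⟨y, hy, rfl⟩
    show φ y * φ z = φ z * φ y
    rw [← map_mul, hzc y hy, map_mul]
  choose T hT using key
  set c := Nat.card (centralizer ((S : Subgroup G) : Set G)) with hc
  have hcT : ∀ T : Sylow s G, Nat.card (centralizer ((T : Subgroup G) : Set G)) = c := by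
    intro T
    obtain ⟨g, rfl⟩ := MulAction.exists_smul_eq G S T
    rw [sylow_coe_smul, ← cj_centralizer, card_cj]
  have h1 : Nat.card {g : G // orderOf g = s} ≤
      Nat.card (Σ T : Sylow s G, {y : centralizer ((T : Subgroup G) : Set G) // y ≠ 1}) := by
    refine Nat.card_le_card_of_injective (fun x => ⟨T x, ⟨x.1, hT x⟩, fun e => ?_⟩) ?_
    · have h2 : x.1 = 1 := congrArg Subtype.val e
      have h3 := x.2
      rw [h2, orderOf_one] at h3
      exact (Fact.out : s.Prime).one_lt.ne h3
    · intro x y e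
      exact Subtype.ext (congrArg (fun w : (Σ T : Sylow s G,
        {y : centralizer ((T : Subgroup G) : Set G) // y ≠ 1}) => (w.2.1 : G)) e)
  have := Fintype.ofFinite (Sylow s G)
  have h2 : Nat.card (Σ T : Sylow s G, {y : centralizer ((T : Subgroup G) : Set G) // y ≠ 1}) =
      Nat.card (Sylow s G) * (c - 1) := by
    rw [Nat.card_sigma, Finset.sum_congr rfl (g := fun _ => c - 1), Finset.sum_const,
      Finset.card_univ, smul_eq_mul, Nat.card_eq_fintype_card]
    intro T _
    rw [← hcT T]
    have := Fintype.ofFinite (centralizer ((T : Subgroup G) : Set G))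
    rw [Nat.card_eq_fintype_card, Nat.card_eq_fintype_card, Fintype.card_subtype_compl,
      Fintype.card_subtype_eq]
  rw [h2, S.card_eq_index_normalizer] at h1
  set N := normalizer ((S : Subgroup G) : Set G) with hNdef
  have hle : centralizer ((S : Subgroup G) : Set G) ≤ N := centralizer_le_normalizer _
  obtain ⟨m, hm⟩ := card_dvd_of_le hle
  have h3 : m ≠ 1 := by
    rintro rfl
    exact hN S (eq_of_le_of_card_ge hle (by rw [hm, mul_one])).ge
  have h4 : Odd m := hodd.of_dvd_nat ((Dvd.intro_left _ hm.symm).trans (card_subgroup_dvd_card N))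
  have h5 : 3 ≤ m := by
    obtain ⟨k, rfl⟩ := h4
    omega
  have h6 := N.card_mul_index
  have h7 : 0 < N.index := Nat.pos_of_ne_zero index_ne_zero_of_finite
  have h8 : 0 < c := Nat.card_pos
  rw [hm, ← hc] at h6
  obtain ⟨c', hc'⟩ : ∃ c', c = c' + 1 := ⟨c - 1, by omega⟩
  rw [hc'] at h1 h6
  rw [Nat.add_sub_cancel] at h1
  change _ ≤ N.index * c' at h1
  nlinarith [Nat.mul_le_mul_left ((c' + 1) * N.index) h5]

/-- A finite non-solvable group on which its automorphism group has exactly four orbits is isomorphic to the alternating group of degree 5. -/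
theorem result {G : Type*} [Group G] [Finite G] (hns : ¬ Group.IsSolvable G)
    (h4 : Nat.card (MulAction.orbitRel.Quotient (MulAut G) G) = 4) : Nonempty (G ≃* alternatingGroup (Fin 5)) := by
  classical
  -- three primes
  obtain ⟨p, q, r, hp, hq, hr, hpq, hpr, hqr, hpd, hqd, hrd⟩ : ∃ p q r : ℕ, p.Prime ∧ q.Prime ∧
      r.Prime ∧ p ≠ q ∧ p ≠ r ∧ q ≠ r ∧ p ∣ Nat.card G ∧ q ∣ Nat.card G ∧ r ∣ Nat.card G := by
    by_contra hcon
    apply hns
    by_cases h1 : ∃ p : ℕ, p.Prime ∧ p ∣ Nat.card G
    · obtain ⟨p, hp, hpd⟩ := h1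
      by_cases h2 : ∃ q : ℕ, q.Prime ∧ q ∣ Nat.card G ∧ p ≠ q
      · obtain ⟨q, hq, hqd, hpq⟩ := h2
        refine CL.Char.isSolvable_of_primes_subset_pair hp hq fun r hr hrd => ?_
        by_contra h3
        push Not at h3
        exact hcon ⟨p, q, r, hp, hq, hr, hpq, h3.1.symm, h3.2.symm, hpd, hqd, hrd⟩
      · refine CL.Char.isSolvable_of_primes_subset_pair hp hp fun r hr hrd => Or.inl ?_
        by_contra h3
        exact h2 ⟨r, hr, hrd, Ne.symm h3⟩
    · exact CL.Char.isSolvable_of_primes_subset_pair Nat.prime_two Nat.prime_two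
        fun r hr hrd => absurd ⟨r, hr, hrd⟩ h1
  obtain ⟨x, hx⟩ := @exists_prime_orderOf_dvd_card' G _ _ p ⟨hp⟩ hpd
  obtain ⟨y, hy⟩ := @exists_prime_orderOf_dvd_card' G _ _ q ⟨hq⟩ hqd
  obtain ⟨z, hz⟩ := @exists_prime_orderOf_dvd_card' G _ _ r ⟨hr⟩ hrd
  let v : Fin 4 → G := ![1, x, y, z]
  have hv : ∀ i j, orderOf (v i) = orderOf (v j) → i = j := by
    have := hp.one_lt
    have := hq.one_lt
    have := hr.one_lt
    intro i j
    fin_cases i <;> fin_cases j <;> simp [v, hx, hy, hz] <;> omega
  have hord : ∀ (φ : MulAut G) (g : G), orderOf (φ g) = orderOf g := fun φ g => φ.orderOf_eq g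
  have horb : ∀ g : G, ∃ (i : Fin 4) (φ : MulAut G), φ (v i) = g := by
    let f : Fin 4 → MulAction.orbitRel.Quotient (MulAut G) G := fun i => Quotient.mk'' (v i)
    have hf : Function.Injective f := by
      intro i j e
      obtain ⟨φ, hφ⟩ := (Quotient.exact' e : v i ∈ MulAction.orbit (MulAut G) (v j))
      exact hv i j (by rw [← hφ]; exact hord φ _)
    have hs : Function.Surjective f :=
      (Function.Injective.bijective_of_nat_card_le hf (by rw [h4, Nat.card_fin])).2
    intro g
    obtain ⟨i, e⟩ := hs (Quotient.mk'' g)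
    obtain ⟨φ, hφ⟩ := (Quotient.exact' e.symm : g ∈ MulAction.orbit (MulAut G) (v i))
    exact ⟨i, φ, hφ⟩
  have haut : ∀ g h : G, orderOf g = orderOf h → ∃ φ : MulAut G, φ g = h := by
    intro g h e
    obtain ⟨i, φ, rfl⟩ := horb g
    obtain ⟨j, ψ, rfl⟩ := horb h
    rw [hord, hord] at e
    obtain rfl := hv i j e
    exact ⟨ψ * φ⁻¹, by simp⟩
  have hcases : ∀ g : G, g = 1 ∨ orderOf g = p ∨ orderOf g = q ∨ orderOf g = r := by
    intro g
    obtain ⟨i, φ, rfl⟩ := horb g
    rw [hord]
    fin_cases i <;> simp [v, hx, hy, hz]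
  have hprime : ∀ g : G, g ≠ 1 → (orderOf g).Prime := by
    intro g hg
    rcases hcases g with h | h | h | h
    · exact absurd h hg
    all_goals rwa [h]
  have hpr3 : ∀ t : ℕ, t.Prime → t ∣ Nat.card G → t = p ∨ t = q ∨ t = r := by
    intro t ht hd
    obtain ⟨g, hg⟩ := @exists_prime_orderOf_dvd_card' G _ _ t ⟨ht⟩ hd
    rcases hcases g with h | h
    · rw [h, orderOf_one] at hg
      exact absurd hg ht.one_lt.ne
    · rwa [hg] at h
  have hHall : ∀ N : Subgroup G, N.Normal → (Nat.card N).Coprime N.index → N = ⊥ ∨ N = ⊤ := by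
    intro N hN hc
    by_contra hcon
    push Not at hcon
    have h1 : Nat.card N ≠ 1 := fun e => hcon.1 (card_eq_one.mp e)
    have h2 : N.index ≠ 1 := fun e => hcon.2 (index_eq_one.mp e)
    obtain ⟨s, hs, hsd⟩ := Nat.exists_prime_and_dvd h1
    obtain ⟨t, ht, htd⟩ := Nat.exists_prime_and_dvd h2
    have h3 : Group.IsSolvable N := solv_of_miss hp hq hr (hpr3 t ht (htd.trans N.index_dvd_card))
      (fun u hu hd => hpr3 u hu (hd.trans (card_subgroup_dvd_card N)))
      (fun hd => ht.one_lt.ne' (Nat.eq_one_of_dvd_coprimes hc hd htd))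
    have h5 : Group.IsSolvable (G ⧸ N) := solv_of_miss hp hq hr
      (hpr3 s hs (hsd.trans (card_subgroup_dvd_card N)))
      (fun u hu hd => hpr3 u hu (hd.trans (card_quotient_dvd_card N)))
      (fun hd => hs.one_lt.ne' (Nat.eq_one_of_dvd_coprimes hc hsd hd))
    exact hns (Group.isSolvable_of_ker_le_range N.subtype (QuotientGroup.mk' N)
      (by rw [QuotientGroup.ker_mk', range_subtype]))
  have hSyl : ∀ (s : ℕ) [Fact s.Prime] (S : Sylow s G), (S : Subgroup G) ≠ ⊤ := by
    intro s _ S e
    have h1 : IsPGroup s G := (e ▸ S.isPGroup' : IsPGroup s (⊤ : Subgroup G)).of_equiv topEquiv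
    have := h1.isNilpotent
    exact hns inferInstance
  have hBurn : ∀ (s : ℕ) [Fact s.Prime], s ∣ Nat.card G → ∀ S : Sylow s G,
      ¬ normalizer ((S : Subgroup G) : Set G) ≤ centralizer ((S : Subgroup G) : Set G) := by
    intro s _ hs S hle
    have hc := MonoidHom.ker_transferSylow_isComplement' S hle
    have h1 := hc.index_eq_card
    have h2 := hc.symm.index_eq_card
    rcases hHall _ inferInstance (by
      rw [← h1, h2]; exact S.card_coprime_index.symm) with h | h
    · exact hSyl s S (isComplement'_bot_left.mp (h ▸ hc))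
    · exact S.ne_bot_of_dvd_card hs (isComplement'_top_left.mp (h ▸ hc))
  rcases Nat.even_or_odd (Nat.card G) with hev | hodd
  · have h2d : 2 ∣ Nat.card G := hev.two_dvd
    obtain ⟨T⟩ : Nonempty (Sylow 2 G) := inferInstance
    have hnc : ¬ IsCyclic (T : Subgroup G) := fun h =>
      hBurn 2 h2d T (h.normalizer_le_centralizer ((Nat.minFac_eq_two_iff _).mpr h2d))
    obtain ⟨F, _, _, hF, ⟨e⟩⟩ := Cfsg.Agent.S1230.result T hnc (fun h => by
      rcases hHall _ h T.card_coprime_index with h1 | h1
      · exact T.ne_bot_of_dvd_card h2d h1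
      · exact hSyl 2 T h1) (fun t ht => by
      have h1 : ∀ c ∈ centralizer ({t} : Set G), c ^ 2 = 1 := by
        intro c hc
        by_cases hc1 : c = 1
        · rw [hc1, one_pow]
        by_cases hc2 : orderOf c = 2
        · rw [← hc2, pow_orderOf_eq_one]
        exfalso
        have hcop : (orderOf c).Coprime (orderOf t) := by
          rw [ht]
          exact (Nat.coprime_primes (hprime c hc1) Nat.prime_two).mpr hc2
        have h3 := (show Commute c t from mem_centralizer_singleton_iff.mp hc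
          ).orderOf_mul_eq_mul_orderOf_of_coprime hcop
        have h5 : c * t ≠ 1 := by
          intro e
          rw [e, orderOf_one, ht] at h3
          omega
        have h6 := hprime _ h5
        rw [h3, ht] at h6
        exact Nat.not_prime_mul (hprime c hc1).one_lt.ne' (by norm_num) h6
      refine ⟨⟨⟨fun a b => Subtype.ext ?_⟩⟩, h1⟩
      have ha : (a : G)⁻¹ = a := inv_eq_of_mul_eq_one_right (by rw [← pow_two, h1 _ a.2])
      have hb : (b : G)⁻¹ = b := inv_eq_of_mul_eq_one_right (by rw [← pow_two, h1 _ b.2])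
      have hab : ((a : G) * b)⁻¹ = a * b :=
        inv_eq_of_mul_eq_one_right (by rw [← pow_two, h1 _ (mul_mem a.2 b.2)])
      show (a : G) * b = b * a
      rw [← hab, mul_inv_rev, ha, hb])
    obtain ⟨f, hf⟩ := IsPGroup.iff_card.mp T.isPGroup'
    rw [hf] at hF
    have hf2 : 2 ≤ f := by
      by_contra h
      apply hnc
      obtain rfl | rfl : f = 0 ∨ f = 1 := by omega
      · exact isCyclic_of_card_dvd_prime (p := 2) (by rw [hf]; norm_num)
      · exact isCyclic_of_card_dvd_prime (p := 2) (by rw [hf]; norm_num)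
    have hZ : center (Matrix.SpecialLinearGroup (Fin 2) F) = ⊥ := by
      rw [← card_eq_one, CL.SL.card_center_SL, Fintype.card_fin, Nat.card_eq_fintype_card, hF]
      apply Nat.Coprime.gcd_eq_one
      rw [Nat.coprime_two_left]
      exact Nat.Even.sub_odd Nat.one_le_two_pow ((Nat.even_pow' (by omega)).2 even_two) odd_one
    let e2 : Matrix.SpecialLinearGroup (Fin 2) F ≃* G :=
      (((QuotientGroup.quotientMulEquivOfEq hZ).trans QuotientGroup.quotientBot).symm).trans e.symm
    have h3 : Fact (Nat.Prime 3) := ⟨by norm_num⟩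
    have h3F : ¬ 3 ∣ Fintype.card F := by
      rw [hF]
      intro h
      have := (Nat.prime_three.dvd_of_dvd_pow h)
      omega
    have h3d : 3 ∣ Nat.card (Matrix.SpecialLinearGroup (Fin 2) F) := by
      rw [CL.GL2.card_SL2']
      have : Fintype.card F % 3 = 1 ∨ Fintype.card F % 3 = 2 := by omega
      rcases this with h | h
      · exact Dvd.dvd.mul_left (by omega) _
      · exact Dvd.dvd.mul_right (Dvd.dvd.mul_left (by omega) _) _
    obtain ⟨S⟩ : Nonempty (Sylow 3 (Matrix.SpecialLinearGroup (Fin 2) F)) := inferInstance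
    obtain ⟨w, hwS, hreg, hw3, hSw⟩ := CL.GL2.exists_reg_of_isPGroup (by norm_num) h3F S.isPGroup'
      (S.ne_bot_of_dvd_card h3d)
    have hcyc := hreg.isCyclic
    obtain ⟨c, hc⟩ := IsCyclic.exists_ofOrder_eq_natCard
      (α := CL.GL2.centSL (w : Matrix (Fin 2) (Fin 2) F))
    have h3c : 3 ∣ Nat.card (CL.GL2.centSL (w : Matrix (Fin 2) (Fin 2) F)) :=
      hw3 ▸ orderOf_dvd_natCard _ (hSw hwS)
    have hc3 : Nat.card (CL.GL2.centSL (w : Matrix (Fin 2) (Fin 2) F)) = 3 := by
      have h5 : orderOf (e2 c) = Nat.card (CL.GL2.centSL (w : Matrix (Fin 2) (Fin 2) F)) := by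
        rw [e2.orderOf_eq, orderOf_coe, hc]
      have h6 := hprime (e2 c) (fun e => by
        rw [e, orderOf_one] at h5
        rw [← h5] at h3c
        omega)
      rw [h5] at h6
      exact ((Nat.prime_dvd_prime_iff_eq Nat.prime_three h6).mp h3c).symm
    have h4' : 4 ≤ Fintype.card F := by
      rw [hF]
      exact Nat.pow_le_pow_right (n := 2) (by norm_num) hf2
    have hF4 : Fintype.card F = 4 := by
      rcases hreg.cases with h | h
      · have := h.2; omega
      · have := h.2; omega
    obtain ⟨e3⟩ := Cfsg.Agent.S0252.result hF4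
    exact ⟨e.trans e3⟩
  · exfalso
    have := Fact.mk hp
    have := Fact.mk hq
    have := Fact.mk hr
    have c1 := count_le hpd hodd haut (hBurn p hpd)
    have c2 := count_le hqd hodd haut (hBurn q hqd)
    have c3 := count_le hrd hodd haut (hBurn r hrd)
    have h1 : (Set.univ : Set G) ⊆ {1} ∪ ({g : G | orderOf g = p} ∪ ({g : G | orderOf g = q} ∪
        {g : G | orderOf g = r})) := fun g _ => hcases g
    have h2 := Set.ncard_le_ncard h1 (Set.toFinite _)
    have h3 := Set.ncard_union_le ({1} : Set G) ({g : G | orderOf g = p} ∪ ({g : G | orderOf g = q} ∪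
        {g : G | orderOf g = r}))
    have h5 := Set.ncard_union_le {g : G | orderOf g = p} ({g : G | orderOf g = q} ∪
        {g : G | orderOf g = r})
    have h6 := Set.ncard_union_le {g : G | orderOf g = q} {g : G | orderOf g = r}
    rw [Set.ncard_univ] at h2
    rw [Set.ncard_singleton] at h3
    change 3 * {g : G | orderOf g = p}.ncard + 3 ≤ _ at c1
    change 3 * {g : G | orderOf g = q}.ncard + 3 ≤ _ at c2
    change 3 * {g : G | orderOf g = r}.ncard + 3 ≤ _ at c3
    omega

end Cfsg.Agent.S4068
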