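import Cfsg.Statements.S4070
import Mathlib
import Cfsg.Agent.FGS.StabDL5

set_option autoImplicit false
open Cfsg

namespace Cfsg.Agent.S4070


/-- Let G be a finite solvable group acting faithfully by additive automorphisms on a finite vector space V over the field with p elements, completely reducibly (every G-invariant subspace has a G-invariant complement). Then some vector v ∈ V has stabilizer C_G(v) of derived length at most 9; and if both #G and p are odd, some vector has abelian stabilizer. -/
theorem result {G V : Type*} [Group G] [Finite G] [Group.IsSolvable G]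
    {p : ℕ} [Fact p.Prime] [AddCommGroup V] [Module (ZMod p) V] [Finite V] [DistribMulAction G V] [FaithfulSMul G V]
    (hcr : ∀ W : Submodule (ZMod p) V, (∀ (g : G) (w : V), w ∈ W → g • w ∈ W) →
      ∃ W' : Submodule (ZMod p) V, (∀ (g : G) (w : V), w ∈ W' → g • w ∈ W') ∧ IsCompl W W') :
    (∃ v : V, derivedSeries ↥(MulAction.stabilizer G v) 9 = ⊥) ∧
    (Odd (Nat.card G) → p ≠ 2 → ∃ v : V, IsMulCommutative ↥(MulAction.stabilizer G v)) := by
  have h : CL.SolvLin.CR G V := fun U hU => by
    obtain ⟨W, h1, h2⟩ := hcr (AddSubgroup.toZModSubmodule p U) hU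
    exact ⟨W.toAddSubgroup, h1,
      (AddSubgroup.toZModSubmodule p).injective (by simpa using h2.inf_eq_bot),
      (AddSubgroup.toZModSubmodule p).injective (by simpa using h2.sup_eq_top)⟩
  refine ⟨(CL.SolvLin.exists_good_nine h).imp fun _ hv => hv.derivedSeries_eq_bot, fun hG hp => ?_⟩
  have hV : Odd (Nat.card V) := by
    rw [Module.natCard_eq_pow_finrank (K := ZMod p), Nat.card_zmod]
    exact ((Fact.out : p.Prime).odd_of_ne_two hp).pow
  refine (CL.SolvLin.exists_good_one hG hV h).imp fun v hv => ⟨⟨fun a b => ?_⟩⟩
  exact commutatorElement_eq_one_iff_mul_comm.1 (Subgroup.mem_bot.1 (hv.derivedSeries_eq_bot ▸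
    Subgroup.commutator_mem_commutator (Subgroup.mem_top a) (Subgroup.mem_top b)))

end Cfsg.Agent.S4070
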