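import Cfsg.Statements.S4072
import Cfsg.Agent.PLOC.FrobeniusNPC
import Cfsg.Agent.SOLV.CoprimeSylow
import Cfsg.Agent.SOLV.HallConverse
import Cfsg.Agent.S0055

set_option autoImplicit false
open Cfsg

namespace Cfsg.Agent.S4072


section
variable {G : Type*} [Group G] [Finite G]

theorem fpf (hS : ∀ H : Subgroup G, ¬ IsMulCommutative H → Subgroup.normalizer (H : Set G) = H)
    (Q : Subgroup G) [IsMulCommutative Q] {g : G} (hg : g ∈ Subgroup.normalizer (Q : Set G))
    (hc : (orderOf g).Coprime (Nat.card Q)) (hgC : g ∉ Subgroup.centralizer (Q : Set G))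
    {c : G} (hcQ : c ∈ Q) (hcg : Commute c g) : c = 1 := by
  set X := Subgroup.zpowers g with hX
  have hXN : X ≤ Subgroup.normalizer (Q : Set G) := Subgroup.zpowers_le.2 hg
  have hcop : (Nat.card X).Coprime (Nat.card Q) := by rw [hX, Nat.card_zpowers]; exact hc
  have hsol : Group.IsSolvable X ∨ Group.IsSolvable Q := Or.inr (CL.isSolvable_of_isMulCommutative Q)
  have hle : ⁅Q, X⁆ ≤ Q := Subgroup.le_normalizer_iff_commutator_le_left.1 hXN
  have hna : ¬ IsMulCommutative (⁅Q, X⁆ ⊔ X : Subgroup G) := by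
    intro h
    apply hgC
    have h1 : ⁅Q, X⁆ ≤ Subgroup.centralizer (X : Set G) := by
      intro a ha
      rw [Subgroup.mem_centralizer_iff]
      intro b hb
      exact setLike_mul_comm (s := ⁅Q, X⁆ ⊔ X) (Subgroup.mem_sup_right hb) (Subgroup.mem_sup_left ha)
    have h2 := CL.coprime_le_centralizer_of_commutator_le X Q hXN hcop hsol h1
    exact Subgroup.le_centralizer_iff.1 h2 (Subgroup.mem_zpowers g)
  have hcX : c ∈ Subgroup.centralizer (X : Set G) := by
    rw [Subgroup.mem_centralizer_iff]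
    rintro _ ⟨n, rfl⟩
    exact (hcg.zpow_right n).symm.eq
  have hcH : c ∈ (⁅Q, X⁆ ⊔ X : Subgroup G) := by
    rw [← hS _ hna]
    apply Subgroup.centralizer_le_normalizer
    have : (⁅Q, X⁆ ⊔ X : Subgroup G) ≤ Subgroup.centralizer {c} := by
      refine sup_le (fun a ha => ?_) (fun a ha => ?_)
      · rw [Subgroup.mem_centralizer_singleton_iff]
        exact setLike_mul_comm (s := Q) (hle ha) hcQ
      · rw [Subgroup.mem_centralizer_singleton_iff]
        exact Subgroup.mem_centralizer_iff.1 hcX a ha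
    rw [Subgroup.mem_centralizer_iff]
    intro a ha
    exact Subgroup.mem_centralizer_singleton_iff.1 (this ha)
  have hD := CL.sup_inf_assoc_of_le_of_le_normalizer (H := ⁅Q, X⁆) (K := X) (L := Q) hle
    (Or.inr (CL.le_normalizer_commutator hXN Subgroup.le_normalizer))
  rw [disjoint_iff.1 (Subgroup.disjoint_of_coprime_natCard hcop), sup_bot_eq] at hD
  have hc2 : c ∈ ⁅Q, X⁆ := hD ▸ ⟨hcH, hcQ⟩
  have := (Cfsg.Agent.S0055.result X Q hXN hcop).1
  exact Subgroup.mem_bot.1 (this ▸ ⟨⟨hcQ, hcX⟩, hc2⟩)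

theorem comm_of_normal (hS : ∀ H : Subgroup G, ¬ IsMulCommutative H → Subgroup.normalizer (H : Set G) = H)
    (N : Subgroup G) [N.Normal] (hN : N ≠ ⊤) : IsMulCommutative N := by
  by_contra h
  exact hN ((hS N h).symm.trans (Subgroup.normalizer_eq_top N))

end


/-- A finite group in which every non-abelian subgroup is self-normalizing is solvable or simple. -/
theorem result {G : Type*} [Group G] [Finite G] (hS : ∀ H : Subgroup G, ¬ IsMulCommutative H → Subgroup.normalizer (H : Set G) = H) :
    Group.IsSolvable G ∨ IsSimpleGroup G := by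
  by_contra hn
  push Not at hn
  obtain ⟨hsol, hsim⟩ := hn
  have hnt : Nontrivial G := by
    by_contra h
    rw [not_nontrivial_iff_subsingleton] at h
    exact hsol inferInstance
  have key : ∀ (K : Subgroup G) [K.Normal] (p : ℕ) [Fact p.Prime], K ≠ ⊤ → ¬ IsPGroup p (G ⧸ K) := by
    intro K _ p _ hK hp
    have := comm_of_normal hS K hK
    exact hsol (CL.isSolvable_of_normal_of_quotient K (CL.isSolvable_of_isMulCommutative K)
      (CL.isSolvable_of_isPGroup hp))
  by_cases hZ : Subgroup.center G = ⊥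
  · obtain ⟨N, hNn, hN1, hNt⟩ : ∃ N : Subgroup G, N.Normal ∧ N ≠ ⊥ ∧ N ≠ ⊤ := by
      by_contra h
      push Not at h
      exact hsim ⟨fun N hN => (em (N = ⊥)).imp_right (h N hN)⟩
    have hNc := comm_of_normal hS N hNt
    set C := Subgroup.centralizer (N : Set G) with hC
    have hCt : C ≠ ⊤ := fun h =>
      hN1 (le_bot_iff.1 (hZ ▸ (Subgroup.centralizer_eq_top_iff_subset.1 h : N ≤ Subgroup.center G)))
    have hNC : N ≤ C := N.le_centralizer
    obtain ⟨p, hp, hpd⟩ := Nat.exists_prime_and_dvd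
      (fun h => hCt (Subgroup.index_eq_one.1 h) : C.index ≠ 1)
    have := Fact.mk hp
    have hnpc : Cfsg.HasNormalPComplement p (G ⧸ C) := by
      refine CL.Tr.hasNPC_iff_forall_isPGroup.2 fun Q hQ g hg hgc => ?_
      by_cases hQ1 : Q = ⊥
      · rw [hQ1]; simp [Subgroup.mem_centralizer_iff]
      have hna : ¬ IsMulCommutative (Q.comap (QuotientGroup.mk' C)) := by
        intro h
        apply hQ1
        rw [eq_bot_iff]
        intro y hy
        obtain ⟨x, rfl⟩ := QuotientGroup.mk'_surjective C y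
        rw [Subgroup.mem_bot, QuotientGroup.mk'_apply, QuotientGroup.eq_one_iff, hC,
          Subgroup.mem_centralizer_iff]
        intro n hn
        exact setLike_mul_comm (s := Q.comap (QuotientGroup.mk' C))
          (CL.le_comap_mk' C Q (hNC hn)) hy
      have h1 := hS _ hna
      obtain ⟨x, rfl⟩ := QuotientGroup.mk'_surjective C g
      have hx : x ∈ Q.comap (QuotientGroup.mk' C) := by
        rw [← h1]
        exact Subgroup.le_normalizer_comap _ hg
      have hx' : QuotientGroup.mk' C x ∈ Q := hx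
      obtain ⟨k, hk⟩ := IsPGroup.iff_orderOf.1 hQ ⟨_, hx'⟩
      rw [Subgroup.orderOf_mk] at hk
      have h2 : orderOf (QuotientGroup.mk' C x) = 1 :=
        Nat.eq_one_of_dvd_coprimes (hgc.pow_right k) dvd_rfl (dvd_of_eq hk)
      rw [orderOf_eq_one_iff.1 h2]
      exact Subgroup.one_mem _
    obtain ⟨K, hKn, hKc, k, hk⟩ := CL.hasNPC_iff_exists_normal_index.1 hnpc
    refine key (K.comap (QuotientGroup.mk' C)) p ?_
      (IsPGroup.of_card (n := k) (by rw [← Subgroup.index, CL.index_comap_mk', hk]))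
    intro h
    have hKt : K = ⊤ := by rw [← CL.map_comap_mk' C K, h, Subgroup.map_top_of_surjective _
      (QuotientGroup.mk'_surjective C)]
    rw [hKt, Subgroup.card_top] at hKc
    exact hp.one_lt.ne' (Nat.eq_one_of_dvd_coprimes hKc hpd dvd_rfl)
  · obtain ⟨p, hp, hpd⟩ := Nat.exists_prime_and_dvd
      (fun h => hZ (Subgroup.card_eq_one.1 h) : Nat.card (Subgroup.center G) ≠ 1)
    have := Fact.mk hp
    obtain ⟨z, hz⟩ := exists_prime_orderOf_dvd_card' (G := Subgroup.center G) p hpd
    have hz' : orderOf (z : G) = p := by rw [Subgroup.orderOf_coe, hz]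
    have hZp : IsPGroup p (Subgroup.zpowers (z : G)) :=
      IsPGroup.of_card (n := 1) (by rw [Nat.card_zpowers, hz', pow_one])
    have hZn : (Subgroup.zpowers (z : G)).Normal :=
      CL.normal_of_le_center (Subgroup.zpowers_le.2 z.2)
    have hnpc : Cfsg.HasNormalPComplement p G := by
      refine CL.Tr.hasNPC_iff_forall_isPGroup.2 fun Q hQ g hg hgc => ?_
      by_contra hgC
      have hQ' : IsPGroup p (Q ⊔ Subgroup.zpowers (z : G) : Subgroup G) := hQ.to_sup_of_normal_right hZp
      have hg' : g ∈ Subgroup.normalizer ((Q ⊔ Subgroup.zpowers (z : G) : Subgroup G) : Set G) :=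
        CL.le_normalizer_sup (A := Subgroup.zpowers g) (Subgroup.zpowers_le.2 hg)
          (Subgroup.normalizer_eq_top (Subgroup.zpowers (z : G)) ▸ le_top) (Subgroup.mem_zpowers g)
      obtain ⟨k, hk⟩ := IsPGroup.iff_card.1 hQ'
      by_cases hc : IsMulCommutative (Q ⊔ Subgroup.zpowers (z : G) : Subgroup G)
      · have := fpf hS _ hg' (by rw [hk]; exact hgc.pow_right k)
          (fun h => hgC (Subgroup.centralizer_le (le_sup_left : Q ≤ _) h))
          (Subgroup.mem_sup_right (Subgroup.mem_zpowers (z : G)))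
          (Subgroup.mem_center_iff.1 z.2 g).symm
        rw [this, orderOf_one] at hz'
        exact hp.one_lt.ne hz'
      · rw [hS _ hc] at hg'
        have h1 := Subgroup.orderOf_dvd_natCard _ hg'
        rw [hk] at h1
        have h2 : orderOf g = 1 := Nat.eq_one_of_dvd_coprimes (hgc.pow_right k) dvd_rfl h1
        rw [orderOf_eq_one_iff.1 h2] at hgC
        exact hgC (Subgroup.one_mem _)
    obtain ⟨K, hKn, hKc, hKp⟩ := CL.hasNPC_iff_exists_normal.1 hnpc
    refine key K p ?_ hKp
    rintro rfl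
    rw [Subgroup.card_top] at hKc
    exact hp.one_lt.ne' (Nat.eq_one_of_dvd_coprimes hKc
      (hpd.trans (Subgroup.card_subgroup_dvd_card _)) dvd_rfl)

end Cfsg.Agent.S4072
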