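import Cfsg.Statements.S4071
import Cfsg.Agent.S4072
import Cfsg.Agent.PLOC.Fusion

set_option autoImplicit false
open Cfsg

namespace Cfsg.Agent.S4071

/-- Let G be a finite solvable non-nilpotent group. Every non-abelian subgroup of G is self-normalizing if and only if G is a semidirect product ⟨x⟩ ⋉ A in which ⟨x⟩ is a p-group for some prime p, A is a normal abelian subgroup of order prime to p, x^p is central in G, and x acts fixed-point-freely on A (no non-identity element of A commutes with x). -/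
theorem result {G : Type*} [Group G] [Finite G]
    [Group.IsSolvable G] (hnn : ¬ Group.IsNilpotent G) :
    (∀ H : Subgroup G, ¬ IsMulCommutative H → Subgroup.normalizer (H : Set G) = H) ↔
    ∃ (x : G) (A : Subgroup G) (p : ℕ), p.Prime ∧ A.Normal ∧ IsMulCommutative A ∧ (∃ k : ℕ, orderOf x = p ^ k) ∧
      ¬ p ∣ Nat.card A ∧ (Subgroup.zpowers x).IsComplement' A ∧ x ^ p ∈ Subgroup.center G ∧
      ∀ a : G, a ∈ A → a ≠ 1 → x * a * x⁻¹ ≠ a := by
  constructor
  · intro hS
    have hnt : Nontrivial G := by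
      by_contra h
      rw [not_nontrivial_iff_subsingleton] at h
      exact hnn inferInstance
    obtain ⟨M, hMn, hp⟩ := CL.exists_normal_index_prime G
    set p := M.index with hpdef
    have := Fact.mk hp
    have hMt : M ≠ ⊤ := fun h => hp.one_lt.ne' (by rw [hpdef, h, Subgroup.index_top])
    have hMc := Cfsg.Agent.S4072.comm_of_normal hS M hMt
    have hnpc : Cfsg.HasNormalPComplement p G := by
      have := CL.isNilpotent_of_isMulCommutative M
      exact CL.hasNPC_of_normal_hasNPC M (IsPGroup.of_card (n := 1) (by rw [pow_one]; rfl))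
        CL.hasNPC_of_isNilpotent
    obtain ⟨P, A, hAn, hAP⟩ := hnpc
    have hAc : (Nat.card A).Coprime p :=
      CL.coprime_card_of_inf_sylow_eq_bot P A (by rw [inf_comm]; exact disjoint_iff.1 hAP.disjoint)
    have hAM : A ≤ M := CL.le_of_coprime_index hAc
    have hAcomm : IsMulCommutative A :=
      ⟨⟨fun a b => Subtype.ext (setLike_mul_comm (s := M) (hAM a.2) (hAM b.2))⟩⟩
    obtain ⟨x, hxP, hxM⟩ : ∃ x ∈ (P : Subgroup G), x ∉ M := by
      by_contra h
      push Not at h
      exact hMt (top_le_iff.1 (hAP.sup_eq_top ▸ sup_le hAM h))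
    have hMx : M ⊔ Subgroup.zpowers x = ⊤ :=
      (CL.Tr.isCoatom_of_index_prime hp).2 _ (lt_of_le_of_ne le_sup_left fun e =>
        hxM (e ▸ Subgroup.mem_sup_right (Subgroup.mem_zpowers x)))
    have hcen : ∀ y ∈ M, Commute y x → y ∈ Subgroup.center G := by
      intro y hy hyx
      have : (⊤ : Subgroup G) ≤ Subgroup.centralizer {y} := by
        rw [← hMx]
        refine sup_le (fun a ha => ?_) (Subgroup.zpowers_le.2 ?_)
        · rw [Subgroup.mem_centralizer_singleton_iff]
          exact setLike_mul_comm (s := M) ha hy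
        · rw [Subgroup.mem_centralizer_singleton_iff]; exact hyx.symm.eq
      rw [Subgroup.mem_center_iff]
      intro g
      exact Subgroup.mem_centralizer_singleton_iff.1 (this (Subgroup.mem_top g))
    obtain ⟨k, hk⟩ := IsPGroup.iff_orderOf.1 P.isPGroup' ⟨x, hxP⟩
    rw [Subgroup.orderOf_mk] at hk
    have hxC : x ∉ Subgroup.centralizer (A : Set G) := by
      intro hxC
      apply hnn
      have hAZ : A ≤ Subgroup.center G := fun a ha =>
        hcen a (hAM ha) (Subgroup.mem_centralizer_iff.1 hxC a ha)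
      have hPn : (P : Subgroup G).Normal := by
        rw [← Subgroup.normalizer_eq_top_iff, eq_top_iff, ← hAP.sup_eq_top]
        exact sup_le (hAZ.trans (Subgroup.center_le_normalizer _)) Subgroup.le_normalizer
      have h1 := CL.isNilpotent_sup_of_normal (CL.isNilpotent_of_isMulCommutative A)
        P.isPGroup'.isNilpotent
      rw [hAP.sup_eq_top] at h1
      exact Group.nilpotent_of_mulEquiv Subgroup.topEquiv
    have hxp : IsPGroup p (Subgroup.zpowers x) :=
      IsPGroup.of_card (n := k) (by rw [Nat.card_zpowers, hk])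
    have htop : Subgroup.zpowers x ⊔ A = ⊤ := by
      have hna : ¬ IsMulCommutative (Subgroup.zpowers x ⊔ A : Subgroup G) := by
        intro h
        apply hxC
        rw [Subgroup.mem_centralizer_iff]
        intro a ha
        exact setLike_mul_comm (s := Subgroup.zpowers x ⊔ A) (Subgroup.mem_sup_right ha)
          (Subgroup.mem_sup_left (Subgroup.mem_zpowers x))
      have h1 := hS _ hna
      have hq : IsPGroup p (G ⧸ A) := CL.isPGroup_quotient_of_sup_eq_top A P.isPGroup' hAP.sup_eq_top
      have := hq.isNilpotent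
      by_contra hne
      have h2 : (Subgroup.zpowers x).map (QuotientGroup.mk' A) ≠ ⊤ := by
        intro e
        apply hne
        rw [← CL.comap_map_mk', e, Subgroup.comap_top]
      have h3 := Group.normalizerCondition_of_isNilpotent _ (lt_top_iff_ne_top.2 h2)
      apply h3.not_ge
      intro y hy
      obtain ⟨g, rfl⟩ := QuotientGroup.mk'_surjective A y
      have h4 := Subgroup.le_normalizer_comap (QuotientGroup.mk' A) (show g ∈ Subgroup.comap _ _ from hy)
      rw [CL.comap_map_mk', h1, ← CL.comap_map_mk'] at h4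
      exact h4
    refine ⟨x, A, p, hp, hAn, hAcomm, ⟨k, hk⟩, (Nat.Prime.coprime_iff_not_dvd hp).1 hAc.symm, ?_, ?_, ?_⟩
    · refine Subgroup.isComplement'_of_disjoint_and_mul_eq_univ
        (disjoint_iff.2 (CL.inf_eq_bot_of_isPGroup_of_coprime hxp hAc)) ?_
      rw [← Subgroup.mul_normal, htop, Subgroup.coe_top]
    · exact hcen _ (M.pow_index_mem x) ((Commute.refl x).pow_left p)
    · intro a ha ha1 hax
      exact ha1 (Cfsg.Agent.S4072.fpf hS A (Subgroup.normalizer_eq_top A ▸ Subgroup.mem_top x)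
        (by rw [hk]; exact (hAc.symm.pow_left k)) hxC ha
        (by rw [Commute, SemiconjBy]; exact (mul_inv_eq_iff_eq_mul.1 hax).symm))
  · rintro ⟨x, A, p, hp, hAn, hAc, ⟨k, hk⟩, hpA, hcomp, hxp, hfpf⟩ H hH
    have htop := hcomp.sup_eq_top
    have hdec : ∀ h : G, A ⊔ Subgroup.zpowers h = ⊤ → ∀ g : G, ∃ a ∈ A, ∃ n : ℤ, a * h ^ n = g := by
      intro h hh g
      obtain ⟨a, ha, _, ⟨n, rfl⟩, e⟩ := (CL.mem_sup_of_le_normalizer'
        (Subgroup.normalizer_eq_top A ▸ le_top)).1 (hh ▸ Subgroup.mem_top g : g ∈ A ⊔ Subgroup.zpowers h)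
      exact ⟨a, ha, n, e⟩
    obtain ⟨h, hhH, hh⟩ : ∃ h ∈ H, A ⊔ Subgroup.zpowers h = ⊤ := by
      by_contra hne
      push Not at hne
      apply hH
      have key : ∀ h ∈ H, ∃ a ∈ A, ∃ z ∈ Subgroup.center G, a * z = h := by
        intro h hh
        obtain ⟨a, ha, n, rfl⟩ := hdec x (by rw [sup_comm]; exact htop) h
        by_cases hn : (p : ℤ) ∣ n
        · obtain ⟨m, rfl⟩ := hn
          refine ⟨a, ha, _, ?_, rfl⟩
          rw [zpow_mul, zpow_natCast]
          exact Subgroup.zpow_mem _ hxp m
        · exfalso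
          apply hne _ hh
          rw [eq_top_iff, ← htop]
          refine sup_le (Subgroup.zpowers_le.2 ?_) le_sup_left
          have h1 : x ^ n ∈ A ⊔ Subgroup.zpowers (a * x ^ n) := by
            have : x ^ n = a⁻¹ * (a * x ^ n) := by group
            rw [this]
            exact Subgroup.mul_mem _ (Subgroup.mem_sup_left (A.inv_mem ha))
              (by rw [← this]; exact Subgroup.mem_sup_right (Subgroup.mem_zpowers _))
          have h2 : x ∈ Subgroup.zpowers (x ^ n) := by
            rw [mem_zpowers_zpow_iff, hk]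
            have : IsCoprime (p : ℤ) n := (Int.prime_iff_natAbs_prime.2 (by simpa using hp)).irreducible
              |>.coprime_iff_not_dvd.2 hn
            push_cast
            exact Int.isCoprime_iff_gcd_eq_one.1 (this.symm.pow_right)
          exact (Subgroup.zpowers_le.2 h1) h2
      refine ⟨⟨fun u v => Subtype.ext ?_⟩⟩
      obtain ⟨a, ha, z, hz, e⟩ := key u u.2
      obtain ⟨b, hb, w, hw, e'⟩ := key v v.2
      change (u : G) * v = v * u
      rw [← e, ← e']
      have c1 : Commute a b := setLike_mul_comm (s := A) ha hb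
      have c2 : ∀ g, Commute g z := fun g => Subgroup.mem_center_iff.1 hz g
      have c3 : ∀ g, Commute g w := fun g => Subgroup.mem_center_iff.1 hw g
      exact ((c1.mul_right (c3 a)).mul_left ((c2 b).symm.mul_right (c3 z))).eq
    have hfp : ∀ a ∈ A, h * a * h⁻¹ = a → a = 1 := by
      intro a ha e
      by_contra h1
      apply hfpf a ha h1
      obtain ⟨b, hb, n, rfl⟩ := hdec h hh x
      have c1 : Commute b a := setLike_mul_comm (s := A) hb ha
      have c2 : Commute h a := mul_inv_eq_iff_eq_mul.1 e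
      rw [(c1.mul_left (c2.zpow_left n)).eq]; group
    refine le_antisymm (fun g hg => ?_) Subgroup.le_normalizer
    obtain ⟨a, ha, n, rfl⟩ := hdec h hh g
    have haN : a ∈ Subgroup.normalizer (H : Set G) :=
      (Subgroup.mul_mem_cancel_right _ (Subgroup.le_normalizer (H.zpow_mem hhH n))).1 hg
    refine H.mul_mem ?_ (H.zpow_mem hhH n)
    have hinj : ∀ b ∈ A, ∀ c ∈ A, b * h * b⁻¹ * h⁻¹ = c * h * c⁻¹ * h⁻¹ → b = c := by
      intro b hb c hc e
      have e1 : b * h * b⁻¹ = c * h * c⁻¹ := mul_right_cancel e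
      have := hfp (c⁻¹ * b) (A.mul_mem (A.inv_mem hc) hb) (by
        calc h * (c⁻¹ * b) * h⁻¹ = c⁻¹ * (c * h * c⁻¹) * b * h⁻¹ := by group
          _ = c⁻¹ * (b * h * b⁻¹) * b * h⁻¹ := by rw [e1]
          _ = c⁻¹ * b := by group)
      exact (inv_mul_eq_one.1 this).symm
    have hmA : ∀ b ∈ A, b * h * b⁻¹ * h⁻¹ ∈ A := fun b hb => by
      have : b * h * b⁻¹ * h⁻¹ = b * (h * b⁻¹ * h⁻¹) := by group
      rw [this]
      exact A.mul_mem hb (hAn.conj_mem _ (A.inv_mem hb) h)
    let f : (H ⊓ A : Subgroup G) → (H ⊓ A : Subgroup G) := fun b =>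
      ⟨b * h * b⁻¹ * h⁻¹, H.mul_mem (H.mul_mem (H.mul_mem b.2.1 hhH) (H.inv_mem b.2.1)) (H.inv_mem hhH),
        hmA b b.2.2⟩
    have hf : Function.Injective f := fun b c e =>
      Subtype.ext (hinj b b.2.2 c c.2.2 (congrArg Subtype.val e))
    obtain ⟨b, hb⟩ := (Finite.injective_iff_surjective.1 hf) ⟨a * h * a⁻¹ * h⁻¹,
      H.mul_mem (((Subgroup.mem_normalizer_iff.1 haN) h).1 hhH) (H.inv_mem hhH), hmA a ha⟩
    rw [← hinj b b.2.2 a ha (congrArg Subtype.val hb)]
    exact b.2.1

end Cfsg.Agent.S4071
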