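import Mathlib
import Cfsg.Statements.S4074

set_option autoImplicit false
open Cfsg

namespace Cfsg.Agent.S4074

open DihedralGroup in
theorem four_aux : ∀ a b g : DihedralGroup 4, a * b ≠ b * a →
    ∃ i j k : Fin 4, g = a ^ (i : ℕ) * b ^ (j : ℕ) * (a * b) ^ (k : ℕ) := by
  decide +kernel

/-- parity homomorphism -/
def par (n : ℕ) (h : 2 ∣ n) : DihedralGroup n →* Multiplicative (ZMod 2) :=
  MonoidHom.mk' (fun g => match g with
    | DihedralGroup.r i => Multiplicative.ofAdd (ZMod.castHom h (ZMod 2) i)
    | DihedralGroup.sr i => Multiplicative.ofAdd (ZMod.castHom h (ZMod 2) i)) (by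
    have key : ∀ a b : ZMod 2, b - a = a + b := by decide
    rintro (i | i) (j | j)
    · simp only [DihedralGroup.r_mul_r, map_add, ofAdd_add]
    · simp only [DihedralGroup.r_mul_sr, map_sub, key, ofAdd_add]
    · simp only [DihedralGroup.sr_mul_r, map_add, ofAdd_add]
    · simp only [DihedralGroup.sr_mul_sr, map_sub, key, ofAdd_add])

theorem par_r (n : ℕ) (h : 2 ∣ n) (i : ZMod n) :
    par n h (DihedralGroup.r i) = Multiplicative.ofAdd (ZMod.castHom h (ZMod 2) i) := rfl

theorem par_sr (n : ℕ) (h : 2 ∣ n) (i : ZMod n) :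
    par n h (DihedralGroup.sr i) = Multiplicative.ofAdd (ZMod.castHom h (ZMod 2) i) := rfl


/-- For n > 2, every non-abelian subgroup of the dihedral group of order 2n is self-normalizing if and only if n = 4 or n is odd. -/
theorem result (n : ℕ) (hn : 2 < n) :
    (∀ H : Subgroup (DihedralGroup n), ¬ IsMulCommutative H → Subgroup.normalizer (H : Set (DihedralGroup n)) = H) ↔
    (n = 4 ∨ Odd n) := by
  constructor
  · intro h
    by_contra hcon
    push Not at hcon
    obtain ⟨h4, hev⟩ := hcon
    have h2 : 2 ∣ n := even_iff_two_dvd.mp (Nat.not_odd_iff_even.mp hev)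
    have hr2 : DihedralGroup.r (2 : ZMod n) ∈ (par n h2).ker := by
      rw [MonoidHom.mem_ker, par_r, map_ofNat]; rfl
    have hs0 : DihedralGroup.sr (0 : ZMod n) ∈ (par n h2).ker := by
      rw [MonoidHom.mem_ker, par_sr, map_zero]; rfl
    have hnc : ¬ IsMulCommutative (par n h2).ker := by
      intro hc
      have := congrArg Subtype.val (hc.is_comm.comm ⟨_, hr2⟩ ⟨_, hs0⟩)
      simp only [Subgroup.coe_mul, DihedralGroup.r_mul_sr, DihedralGroup.sr_mul_r,
        DihedralGroup.sr.injEq] at this
      have h40 : ((4 : ℕ) : ZMod n) = 0 := by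
        push_cast
        linear_combination -this
      rw [ZMod.natCast_eq_zero_iff] at h40
      have := Nat.le_of_dvd (by norm_num) h40
      interval_cases n <;> simp_all
    have h3 := h _ hnc
    rw [Subgroup.normalizer_eq_top] at h3
    have hr1 : DihedralGroup.r (1 : ZMod n) ∈ (par n h2).ker := h3 ▸ Subgroup.mem_top _
    rw [MonoidHom.mem_ker, par_r, map_one] at hr1
    exact absurd hr1 (by decide)
  · rintro (rfl | hodd) H hH
    · have : H = ⊤ := by
        by_contra hne
        apply hH
        refine ⟨⟨fun a b => Subtype.ext ?_⟩⟩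
        by_contra hab
        apply hne
        rw [eq_top_iff]
        intro g _
        obtain ⟨i, j, k, rfl⟩ := four_aux a b g hab
        exact H.mul_mem (H.mul_mem (H.pow_mem a.2 _) (H.pow_mem b.2 _))
          (H.pow_mem (H.mul_mem a.2 b.2) _)
      subst this
      exact Subgroup.normalizer_eq_top _
    · have hs : ∃ i, DihedralGroup.sr i ∈ H := by
        by_contra hcon
        push Not at hcon
        apply hH
        refine ⟨⟨?_⟩⟩
        rintro ⟨i | i, hi⟩ ⟨j | j, hj⟩
        · apply Subtype.ext
          simp [add_comm]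
        · exact absurd hj (hcon j)
        · exact absurd hi (hcon i)
        · exact absurd hi (hcon i)
      obtain ⟨i, hi⟩ := hs
      have hr : ∀ j, DihedralGroup.r j ∈ Subgroup.normalizer (H : Set (DihedralGroup n)) →
          DihedralGroup.r j ∈ H := by
        intro j hj
        have h1 := (Subgroup.mem_normalizer_iff.mp hj _).mp hi
        have h2 := H.mul_mem h1 hi
        simp only [DihedralGroup.r_mul_sr, DihedralGroup.inv_r, DihedralGroup.sr_mul_r,
          DihedralGroup.sr_mul_sr] at h2
        obtain ⟨m, hm⟩ := hodd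
        have h3 := H.pow_mem h2 (m + 1)
        rw [DihedralGroup.r_pow] at h3
        have hn0 : ((2 * m + 1 : ℕ) : ZMod n) = 0 := by rw [← hm]; exact ZMod.natCast_self n
        convert h3 using 2
        push_cast at hn0 ⊢
        linear_combination (-j) * hn0
      refine le_antisymm ?_ Subgroup.le_normalizer
      rintro (j | j) hj
      · exact hr j hj
      · have h1 := Subgroup.mul_mem _ hj (Subgroup.le_normalizer hi)
        rw [DihedralGroup.sr_mul_sr] at h1
        have h2 := H.mul_mem hi (H.inv_mem (hr _ h1))
        simpa using h2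

end Cfsg.Agent.S4074
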