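import Mathlib
import Cfsg.Statements.S4075

set_option autoImplicit false
open Cfsg

namespace Cfsg.Agent.S4075

/-- Let G be a finite nilpotent group. Every non-abelian subgroup of G is self-normalizing if and only if G is abelian or G is a minimal non-abelian p-group for some prime p (non-abelian of prime-power order with every proper subgroup abelian). -/
theorem result {G : Type*} [Group G] [Finite G]
    [Group.IsNilpotent G] :
    (∀ H : Subgroup G, ¬ IsMulCommutative H → Subgroup.normalizer (H : Set G) = H) ↔
    (IsMulCommutative G ∨ (IsPrimePow (Nat.card G) ∧ ¬ IsMulCommutative G ∧ ∀ H : Subgroup G, H ≠ ⊤ → IsMulCommutative H)) := by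
  constructor
  · intro h
    have hprop : ∀ H : Subgroup G, H ≠ ⊤ → IsMulCommutative H := by
      intro H hH
      by_contra hc
      exact hH (normalizerCondition_iff_only_full_group_self_normalizing.mp
        Group.normalizerCondition_of_isNilpotent H (h H hc))
    by_cases hG : IsMulCommutative G
    · exact Or.inl hG
    refine Or.inr ⟨?_, hG, hprop⟩
    by_contra hpp
    apply hG
    have hP : ∀ (p : ℕ) [Fact p.Prime] (P : Sylow p G), IsMulCommutative (P : Subgroup G) := by
      intro p _ P
      apply hprop
      intro hP
      have h1 : IsPGroup p G := by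
        have := P.isPGroup'
        rw [hP] at this
        exact this.of_equiv Subgroup.topEquiv
      obtain ⟨k, hk⟩ := IsPGroup.iff_card.mp h1
      rcases Nat.eq_zero_or_pos k with rfl | hk0
      · apply hG
        haveI : Subsingleton G := (Nat.card_eq_one_iff_unique.mp (by simpa using hk)).1
        exact ⟨⟨fun a b => Subsingleton.elim _ _⟩⟩
      · exact hpp ((isPrimePow_nat_iff _).mpr ⟨p, k, Fact.out, hk0, hk.symm⟩)
    let e := Sylow.directProductOfNormal (G := G) (fun {p} _ P => inferInstance)
    refine ⟨⟨fun a b => ?_⟩⟩
    obtain ⟨a, rfl⟩ := e.surjective a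
    obtain ⟨b, rfl⟩ := e.surjective b
    rw [← map_mul, ← map_mul]
    congr 1
    funext p P
    haveI : Fact (p : ℕ).Prime := ⟨Nat.prime_of_mem_primeFactors p.2⟩
    exact (hP p P).is_comm.comm _ _
  · rintro (hG | ⟨-, -, h⟩) H hH
    · exact absurd (inferInstance : IsMulCommutative H) hH
    · have : H = ⊤ := by
        by_contra hne
        exact hH (h H hne)
      subst this
      exact Subgroup.normalizer_eq_top _

end Cfsg.Agent.S4075
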