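import Cfsg.Statements.S4079
import Cfsg.Agent.FGS.Metacyclic
import Cfsg.Agent.FGS.MaxCl3
import Cfsg.Agent.S0112

set_option autoImplicit false
open Cfsg

namespace Cfsg.Agent.S4079

section
open Subgroup CL CL.Reg CL.MC
open scoped commutatorElement

theorem comm_pow_formula {G : Type*} [Group G] {α u v r ζ : G} (hv : ⁅α, u⁆ = v)
    (hr : ⁅α, v⁆ = r) (hζ : ⁅α, r⁆ = ζ) (h1 : ζ ∈ center G) (h2 : Commute r v) (k : ℕ) :
    ⁅α ^ k, u⁆ = ζ ^ k.choose 3 * r ^ k.choose 2 * v ^ k := by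
  have hc : ∀ g, Commute ζ g := fun g => (mem_center_iff.1 h1 g).symm
  induction k with
  | zero => simp
  | succ k ih =>
    have e : ⁅α ^ (k + 1), u⁆ = α * ⁅α ^ k, u⁆ * α⁻¹ * v := by
      rw [← hv, pow_succ']; simp only [commutatorElement_def]; group
    have e1 : α * v * α⁻¹ = r * v := by rw [← hr, commutatorElement_def]; group
    have e2 : α * r * α⁻¹ = ζ * r := by rw [← hζ, commutatorElement_def]; group
    have e3 : α * ζ * α⁻¹ = ζ := by rw [← (hc α).eq]; group
    have e4 : α * (ζ ^ k.choose 3 * r ^ k.choose 2 * v ^ k) * α⁻¹ =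
        (α * ζ * α⁻¹) ^ k.choose 3 * (α * r * α⁻¹) ^ k.choose 2 * (α * v * α⁻¹) ^ k := by
      simp only [conj_pow]; group
    rw [e, ih, e4, e1, e2, e3, (hc r).mul_pow, h2.mul_pow, Nat.choose_succ_succ' k 2,
      Nat.choose_succ_succ' k 1, Nat.choose_one_right, add_comm (k.choose 2), add_comm k,
      pow_add, pow_add, pow_succ]
    simp only [mul_assoc]

variable {G : Type*} [Group G] [Finite G] {p : ℕ} [hp : Fact p.Prime]

theorem core (hp2 : p ≠ 2) (hG : IsPGroup p G) (W R : Subgroup G) [W.Normal] [R.Normal]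
    (hRW : R ≤ W) (hW : Nat.card W = p ^ 4) (hR : Nat.card R = p ^ 2) (hRp : ∀ r ∈ R, r ^ p = 1)
    (hc : ∀ r ∈ R, ∀ w ∈ W, Commute r w) {α u : G} (hα : α ^ p = 1) (hu : u ∈ W)
    (hv : ⁅α, u⁆ ^ p ≠ 1) :
    p = 3 ∧ ∃ Z : Subgroup G, Nat.card Z = p ∧ Z ≤ R ∧ W ⊓ centralizer {α} = Z := by
  have hp1 := hp.out.one_lt
  have hlt : R < W := lt_of_le_of_ne hRW fun e => by
    rw [e, hW] at hR
    exact absurd (Nat.pow_right_injective hp1 hR) (by norm_num)
  obtain ⟨W₁, hW1n, hRW1, hW1W, hW1, hW1R⟩ := PN.exists_normal_between hG R W hlt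
  have hWW1 : Nat.card W = p * Nat.card W₁ := by rw [hW, hW1, hR]; ring
  have hlt1 : W₁ < W := lt_of_le_of_ne hW1W fun e => by
    rw [e] at hWW1
    have : 0 < Nat.card W := Nat.card_pos
    nlinarith
  obtain ⟨W', -, h1, h2, h3, hWW⟩ := PN.exists_normal_between hG W₁ W hlt1
  rw [Subgroup.eq_of_le_of_card_ge h2 (by rw [h3, hWW1])] at hWW
  have hR0 : ⊥ < R := bot_lt_iff_ne_bot.2 fun e => by
    rw [e, card_bot] at hR
    exact absurd hR (Nat.one_lt_pow (by norm_num) hp1).ne
  obtain ⟨Z, hZn, -, hZR, hZ, hZc⟩ := PN.exists_normal_between hG ⊥ R hR0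
  rw [card_bot, mul_one] at hZ
  have hZc' : Z ≤ center G := PG.le_center_of_card_le hG Z hZ.le
  have hRZ' : Nat.card R = p * Nat.card Z := by rw [hR, hZ, pow_two]
  have hlt2 : Z < R := lt_of_le_of_ne hZR fun e => by
    rw [e] at hRZ'
    have : 0 < Nat.card R := Nat.card_pos
    nlinarith
  obtain ⟨R', -, h1', h2', h3', hRZ⟩ := PN.exists_normal_between hG Z R hlt2
  rw [Subgroup.eq_of_le_of_card_ge h2' (by rw [h3', hRZ'])] at hRZ
  have cm : ∀ {A B : Subgroup G}, ⁅A, ⊤⁆ ≤ B → ∀ x ∈ A, ⁅α, x⁆ ∈ B := fun {A B} h x hx => by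
    rw [commutator_comm] at h
    exact h (commutator_mem_commutator (mem_top α) hx)
  have hv1 := cm hWW u hu
  have hr1 := cm hW1R _ hv1
  have hζ := cm hRZ _ hr1
  have key := comm_pow_formula rfl rfl rfl (hZc' hζ) (hc _ hr1 _ (hW1W hv1)) p
  obtain ⟨j, hj⟩ := PG.prime_dvd_choose_two hp.out hp2
  rw [hα, commutatorElement_one_left, hj, pow_mul, hRp _ hr1, one_pow, mul_one] at key
  have hζ1 : ⁅α, ⁅α, ⁅α, u⁆⁆⁆ ≠ 1 := fun e => by
    rw [e, one_pow, one_mul] at key
    exact hv key.symm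
  refine ⟨?_, Z, hZ, hZR, ?_⟩
  · by_contra h3
    have : 3 < p := by have := hp.out.two_le; omega
    obtain ⟨i, hi⟩ := hp.out.dvd_choose_self (by norm_num) this
    rw [hi, pow_mul, hRp _ (hZR hζ), one_pow, one_mul] at key
    exact hv key.symm
  have hrZ : ⁅α, ⁅α, u⁆⁆ ∉ Z := fun h => hζ1 (by
    rw [commutatorElement_eq_one_iff_mul_comm]; exact mem_center_iff.1 (hZc' h) α)
  have hvR : ⁅α, u⁆ ∉ R := fun h => hv (hRp _ h)
  have step : ∀ {A B C : Subgroup G} [C.Normal], B ≤ A → Nat.card A = p * Nat.card B →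
      ⁅B, ⊤⁆ ≤ C → ∀ x ∈ A, ⁅α, x⁆ ∉ C → ∀ y ∈ A, ⁅α, y⁆ ∈ C → y ∈ B := by
    intro A B C _ hBA hcard hBC x hx hx' y hy hy'
    rcases PG.eq_or_eq_of_card hp.out (K := A ⊓ MaxCl.cm α C)
      (le_inf hBA fun b hb => MaxCl.mem_cm.2 (cm hBC b hb)) inf_le_left hcard with h | h
    · exact h.le ⟨hy, MaxCl.mem_cm.2 hy'⟩
    · exact absurd (MaxCl.mem_cm.1 (h.ge hx).2) hx'
  apply le_antisymm
  · intro y hy
    have h0 : ⁅α, y⁆ = 1 := by
      rw [commutatorElement_eq_one_iff_mul_comm]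
      exact (mem_centralizer_singleton_iff.1 hy.2).symm
    have a1 := step hW1W hWW1 hW1R u hu hvR y hy.1 (h0 ▸ one_mem _)
    have a2 := step hRW1 hW1 hRZ _ hv1 hrZ y a1 (h0 ▸ one_mem _)
    exact step hZR hRZ' hZc _ hr1 (by simpa using hζ1) y a2 (h0 ▸ one_mem _)
  · exact le_inf (hZR.trans hRW) fun z hz =>
      mem_centralizer_singleton_iff.2 (mem_center_iff.1 (hZc' hz) α).symm

theorem struct (h : OMC p G) (hnc : ∀ C : Subgroup G, IsCyclic C → C.index ≠ p) [Nontrivial G] :
    Nat.card (h.wreg.omega 1) = p ^ 2 ∧ Nat.card (h.wreg.omega 2) = p ^ 4 ∧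
      (∀ r : G, r ^ p = 1 → ∃ t : G, t ^ p = r) ∧
      ∀ r w : G, r ^ p = 1 → w ^ p ^ 2 = 1 → Commute r w := by
  have hp1 := hp.out.one_lt
  obtain ⟨x, y, hxy, hinf, hcard⟩ := h.exists_basis
  obtain ⟨a, ha⟩ := (IsPGroup.iff_orderOf.1 h.pg) x
  obtain ⟨b, hb⟩ := (IsPGroup.iff_orderOf.1 h.pg) y
  have key : ∀ (x y : G) (a b : ℕ), orderOf x = p ^ a → orderOf y = p ^ b →
      orderOf x * orderOf y = Nat.card G → 2 ≤ b := by
    intro x y a b ha hb hcard
    have hi : (zpowers x).index = p ^ b := by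
      have := (zpowers x).card_mul_index
      rw [Nat.card_zpowers, ← hcard, hb] at this
      exact Nat.eq_of_mul_eq_mul_left (orderOf_pos x) this
    by_contra hlt
    have : b = 0 ∨ b = 1 := by omega
    rcases this with rfl | rfl
    · have ha0 : a ≠ 0 := by
        rintro rfl
        rw [ha, hb] at hcard
        exact absurd hcard.symm (by simpa using (Finite.one_lt_card (α := G)).ne')
      obtain ⟨a, rfl⟩ := Nat.exists_eq_succ_of_ne_zero ha0
      refine hnc (zpowers (x ^ p)) inferInstance ?_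
      have := (zpowers (x ^ p)).card_mul_index
      rw [Nat.card_zpowers, ← hcard, hb, orderOf_pow' x hp.out.ne_zero, ha,
        Nat.gcd_eq_right (dvd_pow_self p (by omega)), pow_succ, Nat.mul_div_cancel _ hp.out.pos,
        pow_zero, mul_one] at this
      exact Nat.eq_of_mul_eq_mul_left (pow_pos hp.out.pos _) this
    · exact hnc (zpowers x) inferInstance (by simpa using hi)
  have hb2 := key x y a b ha hb hcard
  have ha2 := key y x b a hb ha (by rw [mul_comm, hcard])
  set W := h.wreg.omega 2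
  set R := h.wreg.omega 1
  set P := Cfsg.powerClosure p 1 W
  have hPR : P ≤ R := by
    rw [powerClosure_le_iff]
    intro w hw
    rw [h.wreg.mem_omega, ← pow_mul, ← pow_add]
    exact hw
  have hel : ∀ (x : G) (a : ℕ), orderOf x = p ^ a → 2 ≤ a →
      ∃ t ∈ P, t ∈ zpowers x ∧ orderOf t = p := by
    intro x a ha h2
    obtain ⟨a, rfl⟩ : ∃ c, a = c + 2 := ⟨a - 2, by omega⟩
    have hw : x ^ p ^ a ∈ W := by
      rw [h.wreg.mem_omega, ← pow_mul, ← pow_add, ← ha, pow_orderOf_eq_one]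
    refine ⟨_, pow_mem_powerClosure hw 1, pow_mem (pow_mem (mem_zpowers x) _) _, ?_⟩
    rw [← pow_mul, ← pow_add]
    refine orderOf_eq_prime (by rw [← pow_mul, ← pow_succ, ← ha, pow_orderOf_eq_one]) fun e => ?_
    have := (pow_eq_one_iff_of_orderOf ha).1 e
    omega
  obtain ⟨s, hsP, hsx, hs⟩ := hel x a ha ha2
  obtain ⟨t, htP, hty, ht⟩ := hel y b hb hb2
  have hlt : zpowers s < P := lt_of_le_not_ge (zpowers_le.2 hsP) fun hh => by
    have : t ∈ zpowers x ⊓ zpowers y := ⟨zpowers_le.2 hsx (hh htP), hty⟩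
    rw [hinf, mem_bot] at this
    rw [this, orderOf_one] at ht
    exact hp1.ne ht
  have hP2 : p ^ 2 ≤ Nat.card P :=
    PG.pow_succ_le_card_of_lt h.pg hlt (k := 1) (by rw [Nat.card_zpowers, hs, pow_one])
  have hRle := h.card_omega_le 1
  have hPeq : P = R := Subgroup.eq_of_le_of_card_ge hPR (hRle.trans hP2)
  have hRc : Nat.card R = p ^ 2 := le_antisymm hRle (hPeq ▸ hP2)
  have hRW : R ≤ W := hPeq ▸ powerClosure_le W 1
  have hroot : ∀ r : G, r ^ p = 1 → ∃ t ∈ W, t ^ p = r := by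
    intro r hr
    have : r ∈ P := by rw [hPeq, h.wreg.mem_omega, pow_one]; exact hr
    obtain ⟨t, ht, e⟩ := h.wreg.mem_powerClosure_iff.1 this
    exact ⟨t, ht, by rw [e, pow_one]⟩
  refine ⟨hRc, ?_, fun r hr => (hroot r hr).imp fun _ h => h.2, fun r w hr hw => ?_⟩
  · have h1 := PN.card_mul_relIndex hRW
    rw [h.wreg.relIndex_omega, show Cfsg.powerClosure p 1 W = P from rfl, hPeq, hRc] at h1
    rw [← h1]; ring
  · obtain ⟨t, ht, rfl⟩ := hroot r hr
    have h1 : (⁅(⟨t, ht⟩ : W), (⟨w, hw⟩ : W)⁆ : W) ∈ Cfsg.powerClosure p 1 (⊤ : Subgroup W) :=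
      (h.subgroup W).commutator_le (commutator_mem_commutator (mem_top _) (mem_top _))
    have h2 := mem_map_of_mem W.subtype h1
    rw [map_powerClosure, ← MonoidHom.range_eq_map, range_subtype] at h2
    have h3 := hPR h2
    rw [h.wreg.mem_omega] at h3
    have := (h.wreg.commute_pow_iff 1 t w).2 h3
    rwa [pow_one] at this

end

open CL CL.MC CL.Reg Subgroup
open scoped commutatorElement


/-- Let p be an odd prime and L a finite metacyclic p-group with no cyclic subgroup of index p, and let a be an automorphism of L of order p. Then a moves some element of order p of L if and only if p = 3 and the semidirect product L ⋊ ⟨a⟩ (of order 3·#L) has maximal class, i.e. nilpotency class m where #L = 3^m. -/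
theorem result {L : Type*} [Group L] [Finite L] {p : ℕ} [Fact p.Prime]
    (hp : p ≠ 2) (hL : IsPGroup p L) (hmc : Cfsg.IsMetacyclic L) (hnc : ∀ C : Subgroup L, IsCyclic C → C.index ≠ p)
    (a : MulAut L) (ha : orderOf a = p) (m : ℕ) (hm : Nat.card L = p ^ m) :
    (∃ x : L, orderOf x = p ∧ a x ≠ x) ↔
    (p = 3 ∧ Group.nilpotencyClass (SemidirectProduct L ↥(Subgroup.zpowers a) (Subgroup.zpowers a).subtype) = m) := by
  have hp' : p.Prime := Fact.out
  have hp1 := hp'.one_lt
  have h : OMC p L := ⟨hp, hL, hmc⟩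
  haveI : Nontrivial L := by
    rcases subsingleton_or_nontrivial L with hs | hs
    · have : a = 1 := by ext; exact Subsingleton.elim _ _
      rw [this, orderOf_one] at ha
      exact absurd ha hp1.ne
    · exact hs
  obtain ⟨hR, hW, hroot, hcomm⟩ := struct h hnc
  set G := SemidirectProduct L ↥(Subgroup.zpowers a) (Subgroup.zpowers a).subtype
  haveI : Finite (MulAut L) := Finite.of_injective _ (DFunLike.coe_injective (F := MulAut L))
  haveI : Finite G := Finite.of_equiv _ SemidirectProduct.equivProd.symm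
  have hGc : Nat.card G = p ^ (m + 1) := by
    rw [SemidirectProduct.card, Nat.card_zpowers, ha, hm, pow_succ]
  have hG : IsPGroup p G := IsPGroup.of_card hGc
  let ι : L →* G := SemidirectProduct.inl
  have hι : Function.Injective ι := SemidirectProduct.inl_injective
  let α : G := SemidirectProduct.inr ⟨a, mem_zpowers a⟩
  have hα : α ^ p = 1 := by
    rw [← map_pow, ← map_one (SemidirectProduct.inr : ↥(zpowers a) →* G)]
    congr 1
    exact Subtype.ext (by simpa using ha ▸ pow_orderOf_eq_one a)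
  have hconj : ∀ l : L, α * ι l * α⁻¹ = ι (a l) := fun l => by
    rw [← map_inv]
    exact (SemidirectProduct.inl_aut (φ := (zpowers a).subtype) ⟨a, mem_zpowers a⟩ l).symm
  set K := ι.range with hK
  haveI hKn : K.Normal := by
    rw [hK, show ι.range = _ from SemidirectProduct.range_inl_eq_ker_rightHom]; infer_instance
  have hKc : Nat.card K = p ^ m := by
    rw [← hm]; exact (Nat.card_congr (MonoidHom.ofInjective hι).toEquiv).symm
  have hKi : K.index = p := by
    have := K.card_mul_index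
    rw [hKc, hGc, pow_succ] at this
    exact Nat.eq_of_mul_eq_mul_left (pow_pos hp'.pos _) this
  have hαK : α ∉ K := by
    rw [hK, show ι.range = _ from SemidirectProduct.range_inl_eq_ker_rightHom, MonoidHom.mem_ker]
    intro e
    have : a = 1 := congrArg Subtype.val e
    rw [this, orderOf_one] at ha
    exact absurd ha hp1.ne
  have hKco := PG.isCoatom_of_index_eq_prime hp' hKi
  have hmem : ∀ (k : ℕ) (g : G), g ∈ (h.wreg.omega k).map ι ↔ g ∈ K ∧ g ^ p ^ k = 1 := by
    intro k g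
    constructor
    · rintro ⟨l, hl, rfl⟩
      exact ⟨⟨l, rfl⟩, by rw [← map_pow, h.wreg.mem_omega.1 hl, map_one]⟩
    · rintro ⟨⟨l, rfl⟩, hl⟩
      exact ⟨l, h.wreg.mem_omega.2 (hι (by rw [map_pow, hl, map_one])), rfl⟩
  have hnorm : ∀ k : ℕ, ((h.wreg.omega k).map ι).Normal := fun k => ⟨fun g hg x => by
    rw [hmem] at hg ⊢
    exact ⟨hKn.conj_mem _ hg.1 x, by rw [conj_pow, hg.2, mul_one, mul_inv_cancel]⟩⟩
  set W := (h.wreg.omega 2).map ι
  set R := (h.wreg.omega 1).map ι
  haveI : W.Normal := hnorm 2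
  haveI : R.Normal := hnorm 1
  have hW' : Nat.card W = p ^ 4 := by rw [card_map_of_injective hι, hW]
  have hR' : Nat.card R = p ^ 2 := by rw [card_map_of_injective hι, hR]
  have hRp : ∀ r ∈ R, r ^ p = 1 := fun r hr => by simpa using ((hmem 1 r).1 hr).2
  have hRW : R ≤ W := fun r hr => (hmem 2 r).2 ⟨((hmem 1 r).1 hr).1, by
    rw [pow_two, pow_mul, hRp r hr, one_pow]⟩
  have hc : ∀ r ∈ R, ∀ w ∈ W, Commute r w := by
    rintro _ ⟨r, hr, rfl⟩ _ ⟨w, hw, rfl⟩
    exact (hcomm r w (by simpa using h.wreg.mem_omega.1 hr) hw).map ι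
  constructor
  · rintro ⟨x, hx, hax⟩
    have hxp : x ^ p = 1 := hx ▸ pow_orderOf_eq_one x
    obtain ⟨u, rfl⟩ := hroot x hxp
    have hu : ι u ∈ W := ⟨u, by rw [SetLike.mem_coe, h.wreg.mem_omega, pow_two, pow_mul, hxp], rfl⟩
    have hv : ⁅α, ι u⁆ ^ p ≠ 1 := by
      intro e
      rw [commutatorElement_def, hconj, ← map_inv, ← map_mul, ← map_pow, map_eq_one_iff _ hι] at e
      have := (h.wreg.pow_eq_pow_iff' 1 (a u) u).2 (by rwa [pow_one])
      rw [pow_one, ← map_pow] at this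
      exact hax this
    obtain ⟨h3, Z, hZ, hZR, hZe⟩ := core hp hG W R hRW hW' hR' hRp hc hα hu hv
    refine ⟨h3, ?_⟩
    set A := centralizer ({α} : Set G)
    have hαA : α ∈ A := mem_centralizer_singleton_iff.2 rfl
    have hKA : K ⊓ A = Z := by
      rw [← hZe]
      refine le_antisymm (fun g hg => ⟨?_, hg.2⟩)
        (inf_le_inf_right _ fun g hg => ((hmem 2 g).1 hg).1)
      refine (hmem 2 g).2 ⟨hg.1, ?_⟩
      obtain ⟨k, hk⟩ := (IsPGroup.iff_orderOf.1 hG) g
      rw [pow_eq_one_iff_of_orderOf hk]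
      by_contra hlt
      obtain ⟨k, rfl⟩ : ∃ j, k = j + 2 := ⟨k - 2, by omega⟩
      have h1 : g ^ p ^ k ∈ W ⊓ A := ⟨(hmem 2 _).2 ⟨pow_mem hg.1 _, by
        rw [← pow_mul, ← pow_add, ← hk, pow_orderOf_eq_one]⟩, pow_mem hg.2 _⟩
      rw [hZe] at h1
      have h2 := hRp _ (hZR h1)
      rw [← pow_mul, ← pow_succ, pow_eq_one_iff_of_orderOf hk] at h2
      omega
    have hA : Nat.card A = p ^ 2 := by
      have h1 := PN.card_inf_mul_relIndex K A
      have h2 : K.relIndex A = p := by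
        rw [← relIndex_sup_left, hKco.2 _ (lt_of_le_not_ge le_sup_left
          fun hh => hαK (hh (mem_sup_right hαA))), relIndex_top_right, hKi]
      rw [hKA, hZ, h2] at h1
      rw [← h1, pow_two]
    haveI : IsMulCommutative A := IsPGroup.isMulCommutative_of_card_eq_prime_sq hA
    exact Cfsg.Agent.S0112.result (m + 1) hGc A hA (le_antisymm
      (centralizer_le (Set.singleton_subset_iff.2 hαA)) (le_centralizer A))
  · rintro ⟨h3, hcl⟩
    by_contra hno
    push Not at hno
    have hm4 : 4 ≤ m := by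
      have := Subgroup.card_le_of_le (fun g hg => ((hmem 2 g).1 hg).1 : W ≤ K)
      rwa [hW', hKc, Nat.pow_le_pow_iff_right hp1] at this
    have hMC : MaxCl.IsMC p (m + 1) G := MaxCl.IsMC.of_class (by omega) hGc hcl
    have h4 : 4 ≤ m + 1 := by omega
    have hRP : R = MaxCl.P G (m + 1 - 2) := by
      rcases hMC.normal_cases h4 R with h1 | ⟨i, h1, h2, h3⟩
      · have := Subgroup.card_le_of_le h1
        rw [hR', hMC.card_P (i := 2) (j := m - 1) le_rfl (by omega),
          Nat.pow_le_pow_iff_right hp1] at this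
        omega
      · have := hMC.card_P (i := i) (j := m + 1 - i) (by omega) (by omega)
        rw [← h3, hR'] at this
        have := Nat.pow_right_injective hp1 this
        rw [h3]; congr 1; omega
    have hC : MaxCl.C G (m + 1 - 2) = centralizer (R : Set G) := by rw [hMC.C_last h4, hRP]
    have hC1 : MaxCl.C G (m + 1 - 2) = MaxCl.P G 1 := by
      by_contra hne
      have := hMC.exceptional h4 hne
      omega
    have hαC : α ∈ centralizer (R : Set G) := by
      rintro _ ⟨r, hr, rfl⟩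
      have hr' : r ^ p = 1 := by simpa using h.wreg.mem_omega.1 hr
      have : a r = r := by
        by_cases h1 : r = 1
        · rw [h1, map_one]
        · exact hno r (orderOf_eq_prime hr' h1)
      have h2 := hconj r
      rw [this] at h2
      exact (mul_inv_eq_iff_eq_mul.1 h2).symm
    have hKC : ¬ K ≤ centralizer (R : Set G) := by
      intro hle
      refine hMC.C_ne_top (i := m + 1 - 2) (by omega) (by omega) ?_
      rw [hC]
      exact hKco.2 _ (lt_of_le_not_ge hle fun hh => hαK (hh hαC))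
    obtain ⟨s, hsK, hs⟩ := SetLike.not_le_iff_exists.1 hKC
    have hU : MaxCl.Unif (m + 1) s := ⟨by rw [← hC1, hC]; exact hs, by rw [hC]; exact hs⟩
    have h1 := hMC.pow_mem_last h4 hU
    have h2 : (s ^ p) ^ p = 1 := by
      have := (MaxCl.P G (m + 1 - 1)).orderOf_dvd_natCard h1
      rw [hMC.card_P (i := m + 1 - 1) (j := 1) (by omega) (by omega), pow_one] at this
      exact orderOf_dvd_iff_pow_eq_one.1 this
    exact hs fun r hr => hc r hr s ((hmem 2 s).2 ⟨hsK, by rw [pow_two, pow_mul, h2]⟩)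

end Cfsg.Agent.S4079
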