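import Mathlib
import Cfsg.Statements.S4080

set_option autoImplicit false
open Cfsg

namespace Cfsg.Agent.S4080

theorem one_add_pow_of_pow_four {R : Type*} [Ring R] (N : R) (h : N ^ 4 = 0) (k : ℕ) :
    (1 + N) ^ k = 1 + (k : R) * N + (k.choose 2 : R) * N ^ 2 + (k.choose 3 : R) * N ^ 3 := by
  induction k with
  | zero => simp
  | succ k ih =>
    rw [pow_succ, ih, Nat.choose_succ_succ' k 1, Nat.choose_succ_succ' k 2, Nat.choose_one_right]
    push_cast
    have h' : (k.choose 3 : R) * N ^ 4 = 0 := by rw [h, mul_zero]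
    have : (1 + (k : R) * N + (k.choose 2 : R) * N ^ 2 + (k.choose 3 : R) * N ^ 3) * (1 + N) =
      1 + ((k : R) + 1) * N + ((k : R) + (k.choose (1 + 1) : R)) * N ^ 2 +
        ((k.choose 2 : R) + (k.choose (2 + 1) : R)) * N ^ 3 + (k.choose 3 : R) * N ^ 4 := by
      noncomm_ring
    rw [this, h', add_zero]

theorem exists_eq_mul {p : ℕ} [Fact p.Prime] (t : ZMod (p ^ 2))
    (ht : ZMod.castHom (dvd_pow_self p two_ne_zero) (ZMod p) t = 0) : ∃ s : ZMod (p ^ 2), t = (p : ZMod (p ^ 2)) * s := by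
  obtain ⟨m, rfl⟩ := ZMod.natCast_zmod_surjective t
  rw [map_natCast, ZMod.natCast_eq_zero_iff] at ht
  obtain ⟨s, rfl⟩ := ht
  exact ⟨s, by push_cast; rfl⟩

theorem exists_eq_mul' {p : ℕ} [hp : Fact p.Prime] (t : ZMod (p ^ 2))
    (ht : (p : ZMod (p ^ 2)) * t = 0) : ∃ s : ZMod (p ^ 2), t = (p : ZMod (p ^ 2)) * s := by
  obtain ⟨m, rfl⟩ := ZMod.natCast_zmod_surjective t
  rw [← Nat.cast_mul, ZMod.natCast_eq_zero_iff] at ht
  have ht' : p * p ∣ p * m := by rwa [← pow_two]
  obtain ⟨s, rfl⟩ := Nat.dvd_of_mul_dvd_mul_left hp.out.pos ht'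
  exact ⟨s, by push_cast; rfl⟩

theorem mat {p : ℕ} [hpp : Fact p.Prime] (hp : 3 < p) (A : Matrix (Fin 2) (Fin 2) (ZMod (p ^ 2)))
    (hA : A ^ p = 1) : (p : Matrix (Fin 2) (Fin 2) (ZMod (p ^ 2))) * (A - 1) = 0 := by
  set N := A - 1 with hN
  let φ := ZMod.castHom (dvd_pow_self p two_ne_zero) (ZMod p)
  have h1 : (φ.mapMatrix N) ^ p = 0 := by
    rw [hN, map_sub, map_one, sub_pow_char_of_commute _ (Commute.one_right _), ← map_pow, hA,
      map_one, one_pow, sub_self]
  have hnil : IsNilpotent (φ.mapMatrix N) := ⟨p, h1⟩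
  have htr : φ N.trace = 0 := by
    have := (Matrix.isNilpotent_trace_of_isNilpotent hnil).eq_zero
    rw [← this]
    simp [Matrix.trace_fin_two]
  have hdet : φ N.det = 0 := by
    rw [RingHom.map_det]
    have := congrArg Matrix.det h1
    rw [Matrix.det_pow, Matrix.det_zero] at this
    exact pow_eq_zero_iff hpp.out.ne_zero |>.mp this
  obtain ⟨t, ht⟩ := exists_eq_mul _ htr
  obtain ⟨d, hd⟩ := exists_eq_mul _ hdet
  have hCH : N ^ 2 = N.trace • N - N.det • (1 : Matrix (Fin 2) (Fin 2) (ZMod (p ^ 2))) := by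
    rw [Matrix.trace_fin_two, Matrix.det_fin_two, pow_two N]
    ext i j
    fin_cases i <;> fin_cases j <;> simp [Matrix.mul_apply, Fin.sum_univ_two] <;> ring
  have hpp0 : (p : ZMod (p ^ 2)) * p = 0 := by
    rw [← Nat.cast_mul, ← pow_two, ZMod.natCast_self]
  have h2 : N ^ 2 = (p : ZMod (p ^ 2)) • (t • N - d • 1) := by
    rw [hCH, ht, hd, smul_sub _ (t • N), smul_smul, smul_smul]
  have h3 : (p : Matrix (Fin 2) (Fin 2) (ZMod (p ^ 2))) * N ^ 2 = 0 := by
    rw [← nsmul_eq_mul, ← Nat.cast_smul_eq_nsmul (ZMod (p ^ 2)), h2, smul_smul, hpp0, zero_smul]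
  have h4 : N ^ 4 = 0 := by
    have : N ^ 4 = N ^ 2 * N ^ 2 := by rw [← pow_add]
    rw [this]
    nth_rewrite 2 [h2]
    rw [mul_smul_comm, ← smul_mul_assoc, Nat.cast_smul_eq_nsmul, nsmul_eq_mul, h3, zero_mul]
  have h5 := one_add_pow_of_pow_four N h4 p
  have h6 : 1 + N = A := by rw [hN]; abel
  obtain ⟨c2, hc2⟩ := hpp.out.dvd_choose_self (k := 2) (by norm_num) (by omega)
  obtain ⟨c3, hc3⟩ := hpp.out.dvd_choose_self (k := 3) (by norm_num) (by omega)
  rw [h6, hA, hc2, hc3, mul_comm p c2, mul_comm p c3, Nat.cast_mul, Nat.cast_mul, mul_assoc,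
    mul_assoc, h3, pow_succ N 2, ← mul_assoc _ (N ^ 2), h3] at h5
  simpa using h5.symm


/-- Let p > 3 be a prime and L the direct product of two cyclic groups of order p². Every automorphism of L of order p fixes every element of order p of L. -/
theorem result {p : ℕ} [Fact p.Prime] (hp : 3 < p)
    (a : MulAut (Multiplicative (ZMod (p ^ 2) × ZMod (p ^ 2)))) (ha : orderOf a = p)
    (x : Multiplicative (ZMod (p ^ 2) × ZMod (p ^ 2))) (hx : orderOf x = p) : a x = x := by
  let ψ : MulAut (Multiplicative (ZMod (p ^ 2) × ZMod (p ^ 2))) →*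
      Module.End (ZMod (p ^ 2)) (ZMod (p ^ 2) × ZMod (p ^ 2)) :=
    { toFun := fun b => (AddMonoidHom.toZModLinearMap (p ^ 2)
          ({ toFun := fun y => (b (Multiplicative.ofAdd y)).toAdd
             map_zero' := by simp
             map_add' := by intro y z; simp [ofAdd_add] } :
            (ZMod (p ^ 2) × ZMod (p ^ 2)) →+ (ZMod (p ^ 2) × ZMod (p ^ 2))))
      map_one' := by ext <;> simp
      map_mul' := by intro b c; apply LinearMap.ext; intro y; simp }
  have hψ : ∀ b y, ψ b y = (b (Multiplicative.ofAdd y)).toAdd := fun b y => rfl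
  let e := LinearMap.toMatrixAlgEquiv (Module.Basis.finTwoProd (ZMod (p ^ 2)))
  have h1 : (e (ψ a)) ^ p = 1 := by
    have ha' : a ^ p = 1 := by
      have := pow_orderOf_eq_one a
      rwa [ha] at this
    rw [← map_pow, ← map_pow, ha', map_one, map_one]
  have h2 := mat hp _ h1
  have h3 : (p : Module.End (ZMod (p ^ 2)) (ZMod (p ^ 2) × ZMod (p ^ 2))) * (ψ a - 1) = 0 := by
    apply e.injective
    rw [map_mul, map_sub, map_one, map_natCast, h2, map_zero]
  have hx1 : p • x.toAdd = 0 := by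
    have hx' : x ^ p = 1 := by
      have := pow_orderOf_eq_one x
      rwa [hx] at this
    rw [← toAdd_pow, hx']; rfl
  obtain ⟨s1, hs1⟩ := exists_eq_mul' x.toAdd.1 (by simpa using congrArg Prod.fst hx1)
  obtain ⟨s2, hs2⟩ := exists_eq_mul' x.toAdd.2 (by simpa using congrArg Prod.snd hx1)
  have hx2 : x.toAdd = p • (s1, s2) := by
    ext <;> simp [hs1, hs2]
  have h4 : (ψ a - 1) x.toAdd = 0 := by
    rw [hx2, map_nsmul]
    have := congrArg (fun f => f (s1, s2)) h3
    simpa using this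
  rw [LinearMap.sub_apply, hψ, sub_eq_zero] at h4
  exact Multiplicative.toAdd.injective (by simpa using h4)

end Cfsg.Agent.S4080
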