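import Cfsg.Statements.S4081
import Cfsg.Agent.FGS.CycMod
import Cfsg.Agent.FGS.AutExt
import Cfsg.Agent.FGS.NormTrick
import Cfsg.Agent.FGS.NilpBasic
import Cfsg.Agent.FGS.CyclicCrit
import Cfsg.Agent.SOLV.MinNormal
import Cfsg.Agent.SOLV.Core
import Cfsg.Agent.CHAR.Burnside

set_option autoImplicit false
open Cfsg

namespace Cfsg.Agent.S4081

theorem orderOf_aut {G : Type*} [Group G] (φ : MulAut G) (g : G) : orderOf (φ g) = orderOf g :=
  φ.orderOf_eq g

theorem fwd {G : Type*} [Group G] [Finite G] {p q : ℕ} (hp : p.Prime) (hq : q.Prime) (hpq : p ≠ q)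
    {a b : G} (ha : orderOf a = p) (hb : orderOf b = q)
    (hcls : ∀ g : G, g = 1 ∨ (∃ φ : MulAut G, φ a = g) ∨ (∃ φ : MulAut G, φ b = g))
    (hcore : Cfsg.pCore p G ≠ ⊥) :
    ∃ (p q n : ℕ) (_ : Fact p.Prime) (_ : Fact q.Prime), p ≠ q ∧ 1 ≤ n ∧ Nat.card G = p ^ n * q ∧
      (∀ P : Sylow p G, (P : Subgroup G).Normal ∧ Cfsg.IsElementaryAbelian p (P : Subgroup G)) ∧
      orderOf (p : ZMod q) = q - 1 ∧
      ∀ x y : G, orderOf x = q → orderOf y = p → x * y * x⁻¹ ≠ y := by
  have : Fact p.Prime := ⟨hp⟩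
  have : Fact q.Prime := ⟨hq⟩
  have hord : ∀ g : G, g = 1 ∨ orderOf g = p ∨ orderOf g = q := by
    intro g
    rcases hcls g with h | ⟨φ, rfl⟩ | ⟨φ, rfl⟩
    · exact Or.inl h
    · right; left; rw [orderOf_aut, ha]
    · right; right; rw [orderOf_aut, hb]
  have hclp : ∀ g : G, orderOf g = p → ∃ φ : MulAut G, φ a = g := by
    intro g hg
    rcases hcls g with rfl | h | ⟨φ, rfl⟩
    · rw [orderOf_one] at hg; exact absurd hg hp.one_lt.ne
    · exact h
    · rw [orderOf_aut, hb] at hg; exact absurd hg.symm hpq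
  have hclq : ∀ g : G, orderOf g = q → ∃ φ : MulAut G, φ b = g := by
    intro g hg
    rcases hcls g with rfl | ⟨φ, rfl⟩ | h
    · rw [orderOf_one] at hg; exact absurd hg hq.one_lt.ne
    · rw [orderOf_aut, ha] at hg; exact absurd hg hpq
    · exact h
  have hpow : ∀ (r : ℕ) [Fact r.Prime] (H : Subgroup G), IsPGroup r H → ∀ g ∈ H, g ≠ 1 →
      orderOf g = r := by
    intro r hr H hH g hg hg1
    obtain ⟨k, hk⟩ := (IsPGroup.iff_orderOf.1 hH) ⟨g, hg⟩
    rw [Subgroup.orderOf_mk] at hk
    have hpr : (orderOf g).Prime := by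
      rcases hord g with h | h | h
      · exact absurd h hg1
      · rwa [h]
      · rwa [h]
    rw [hk] at hpr ⊢
    rw [(Nat.Prime.eq_one_of_pow hpr), pow_one]
  set P := Cfsg.pCore p G with hP
  have hPc : P.Characteristic := CL.pCore_characteristic p G
  have hPp : IsPGroup p P := CL.isPGroup_pCore p G
  have hZ : ∀ g : G, orderOf g = p → g ∈ P ⊓ Subgroup.centralizer (P : Set G) := by
    have hc : (P ⊓ Subgroup.centralizer (P : Set G)).Characteristic := inferInstance
    obtain ⟨⟨z, hz⟩, hz1⟩ := Subgroup.ne_bot_iff_exists_ne_one.1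
      (CL.inf_centralizer_ne_bot_of_isPGroup hPp hPp Subgroup.le_normalizer hcore)
    obtain ⟨φ, hφ⟩ := hclp z (hpow p P hPp z hz.1 (fun h => hz1 (Subtype.ext h)))
    intro g hg
    obtain ⟨ψ, rfl⟩ := hclp g hg
    have h1 : a ∈ P ⊓ Subgroup.centralizer (P : Set G) := by
      rw [← Subgroup.characteristic_iff_comap_eq.1 hc φ]
      rw [Subgroup.mem_comap]
      exact hφ ▸ hz
    exact Subgroup.characteristic_iff_le_comap.1 hc ψ h1
  have hPab : IsMulCommutative P := by
    refine ⟨⟨fun x y => Subtype.ext ?_⟩⟩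
    by_cases hy : (y : G) = 1
    · simp [hy]
    · exact (hZ y (hpow p P hPp y y.2 hy)).2 x x.2
  have hPexp : ∀ g ∈ P, g ^ p = 1 := by
    intro g hg
    by_cases h : g = 1
    · simp [h]
    · rw [← hpow p P hPp g hg h]; exact pow_orderOf_eq_one g
  have hSyl : ∀ S : Sylow p G, (S : Subgroup G) = P := by
    intro S
    refine le_antisymm (fun g hg => ?_) (CL.pCore_le_sylow S)
    by_cases h : g = 1
    · rw [h]; exact P.one_mem
    · exact (hZ g (hpow p S S.isPGroup' g hg h)).1
  have hfpf : ∀ x y : G, orderOf x = q → orderOf y = p → x * y * x⁻¹ ≠ y := by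
    intro x y hx hy h
    have hc : Commute x y := mul_inv_eq_iff_eq_mul.1 h
    have := hc.orderOf_mul_eq_mul_orderOf_of_coprime
      (by rw [hx, hy]; exact (Nat.coprime_primes hq hp).2 hpq.symm)
    rw [hx, hy] at this
    have h2 := hp.two_le
    have h3 := hq.two_le
    rcases hord (x * y) with h | h | h
    · rw [h, orderOf_one] at this; nlinarith
    · rw [h] at this; nlinarith
    · rw [h] at this; nlinarith
  have hout : ∀ g : G, g ∉ P → orderOf g = q := by
    intro g hg
    rcases hord g with rfl | h | h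
    · exact absurd P.one_mem hg
    · exact absurd (hZ g h).1 hg
    · exact h
  obtain ⟨Q⟩ : Nonempty (Sylow q G) := inferInstance
  have hqG : q ∣ Nat.card G := hb ▸ orderOf_dvd_natCard b
  have hQn := Q.isPGroup'.isNilpotent
  obtain ⟨z, hzZ, hz⟩ := CL.FGS.exists_center_orderOf_eq_prime (G := Q) hq
    (Q.dvd_card_of_dvd_card hqG)
  set x : G := (z : G) with hxdef
  have hx : orderOf x = q := by rw [← hz]; exact Subgroup.orderOf_coe z
  have hcop : (Nat.card P).Coprime (Nat.card (Subgroup.zpowers x)) := by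
    obtain ⟨k, hk⟩ := IsPGroup.iff_card.1 hPp
    rw [hk, Nat.card_zpowers, hx]
    exact ((Nat.coprime_primes hp hq).2 hpq).pow_left k
  have hPQ : ∀ g ∈ P, g ∈ (Q : Subgroup G) → g = 1 := by
    intro g h1 h2
    by_contra h
    exact hpq ((hpow p P hPp g h1 h).symm.trans (hpow q Q Q.isPGroup' g h2 h))
  have hQ : (Q : Subgroup G) ≤ Subgroup.zpowers x := by
    intro y hy
    by_contra hyx
    apply hcore
    refine CL.FGS.eq_bot_of_coset_pow_prime_eq_one hq P (Subgroup.zpowers x) (y := y) ?_ ?_ ?_ hcop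
    · apply Subgroup.centralizer_le_normalizer
      rintro _ ⟨k, rfl⟩
      have : Commute x y := (congrArg Subtype.val (Subgroup.mem_center_iff.1 hzZ ⟨y, hy⟩)).symm
      exact (this.zpow_left k).eq
    · intro v hv s hs
      rw [← hout (v * (s * y))]
      · exact pow_orderOf_eq_one _
      rw [P.mul_mem_cancel_left hv]
      intro h
      have h1 := hPQ _ h ((Q : Subgroup G).mul_mem ((Subgroup.zpowers_le.2 z.2) hs) hy)
      exact hyx (by rw [eq_inv_of_mul_eq_one_right h1]; exact Subgroup.inv_mem _ hs)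
    · rw [eq_bot_iff]
      rintro c ⟨hc1, hc2⟩
      by_contra hc
      exact hfpf x c hx (hpow p P hPp c hc1 hc)
        (mul_inv_eq_iff_eq_mul.2 (hc2 x (Subgroup.mem_zpowers x)))
  have hsup : P ⊔ Subgroup.zpowers x = ⊤ := by
    apply CL.FGS.eq_top_of_forall_prime_exists_sylow_le
    intro r _
    by_cases hr : r = q
    · subst hr; exact ⟨Q, hQ.trans le_sup_right⟩
    · obtain ⟨R⟩ : Nonempty (Sylow r G) := inferInstance
      refine ⟨R, fun g hg => Subgroup.mem_sup_left ?_⟩
      by_contra h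
      exact hr ((hpow r R R.isPGroup' g hg (fun h1 => h (h1 ▸ P.one_mem))).symm.trans (hout g h))
  obtain ⟨n, hn⟩ := IsPGroup.iff_card.1 hPp
  have hnt : Nontrivial P := (Subgroup.nontrivial_iff_ne_bot P).2 hcore
  refine ⟨p, q, n, inferInstance, inferInstance, hpq, ?_, ?_, ?_, ?_, hfpf⟩
  · rcases Nat.eq_zero_or_pos n with rfl | h
    · exact absurd hn Finite.one_lt_card.ne'
    · exact h
  · have := CL.card_sup_mul_card_inf (Subgroup.zpowers x) P
    rw [sup_comm, hsup, inf_comm, Subgroup.inf_eq_bot_of_coprime hcop, Subgroup.card_top,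
      Subgroup.card_bot, mul_one, Nat.card_zpowers, hx, hn] at this
    rw [this, mul_comm]
  · intro S
    rw [hSyl S]
    exact ⟨inferInstance, hPab, hPexp⟩
  · let _ : CommGroup P := { (inferInstance : Group P) with mul_comm := mul_comm' }
    have key : ∀ (φ : MulAut G) (v : G) (j : ℕ), v ∈ P → φ x = v * x ^ j →
        MulAut.characteristic P φ * MulAut.conjNormal x =
          MulAut.conjNormal x ^ j * MulAut.characteristic P φ := by
      intro φ v j hv h
      ext u
      rw [← map_pow]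
      change φ (x * u * x⁻¹) = x ^ j * φ u * (x ^ j)⁻¹
      have hm : x ^ j * φ u * (x ^ j)⁻¹ ∈ P :=
        Subgroup.Normal.conj_mem inferInstance _ (MulAut.characteristic P φ u).2 _
      rw [map_mul, map_mul, map_inv, h]
      calc v * x ^ j * φ u * (v * x ^ j)⁻¹ = v * (x ^ j * φ u * (x ^ j)⁻¹) * v⁻¹ := by group
        _ = _ := by rw [setLike_mul_comm (s := P) hv hm]; group
    refine CL.FGS.CycMod.orderOf_eq_of_transitive_aut (A := P) hq hpq
      (fun u => Subtype.ext (hPexp u u.2)) (MulAut.conjNormal x) ?_ ?_ ?_ ?_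
    · rw [← map_pow, ← hx, pow_orderOf_eq_one, map_one]
    · intro u hu
      by_contra h
      exact hfpf x u hx (hpow p P hPp u u.2 fun h1 => h (Subtype.ext h1)) (congrArg Subtype.val hu)
    · intro u w hu hw
      obtain ⟨φ1, h1⟩ := hclp u (hpow p P hPp u u.2 fun h1 => hu (Subtype.ext h1))
      obtain ⟨φ2, h2⟩ := hclp w (hpow p P hPp w w.2 fun h1 => hw (Subtype.ext h1))
      obtain ⟨v, hv, k, hk, e⟩ := Subgroup.mem_sup_of_normal_left.1
        (hsup ▸ Subgroup.mem_top ((φ2 * φ1⁻¹) x) : (φ2 * φ1⁻¹) x ∈ P ⊔ Subgroup.zpowers x)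
      obtain ⟨j, rfl⟩ := (mem_powers_iff_mem_zpowers.2 hk : k ∈ Submonoid.powers x)
      refine ⟨_, j, key (φ2 * φ1⁻¹) v j hv e.symm, Subtype.ext ?_⟩
      change φ2 (φ1⁻¹ u) = w
      rw [← h1, ← h2]; simp
    · intro i hi
      obtain ⟨φ1, h1⟩ := hclq x hx
      obtain ⟨φ2, h2⟩ := hclq (x ^ i) (by
        rw [Nat.Coprime.orderOf_pow, hx]
        rw [hx]; exact (Nat.Prime.coprime_iff_not_dvd hq).2 hi)
      refine ⟨_, key (φ2 * φ1⁻¹) 1 i P.one_mem ?_⟩
      rw [one_mul, ← h2]
      change φ2 (φ1⁻¹ x) = _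
      rw [← h1]; simp

theorem bwd {G : Type*} [Group G] [Finite G] {p q n : ℕ} [hp : Fact p.Prime] [hq : Fact q.Prime]
    (hpq : p ≠ q) (hcard : Nat.card G = p ^ n * q)
    (hS : ∀ P : Sylow p G, (P : Subgroup G).Normal ∧ Cfsg.IsElementaryAbelian p (P : Subgroup G))
    (hord : orderOf (p : ZMod q) = q - 1)
    (hfpf : ∀ x y : G, orderOf x = q → orderOf y = p → x * y * x⁻¹ ≠ y) :
    (∀ g : G, orderOf g = 1 ∨ orderOf g = p ∨ orderOf g = q) ∧
      ∀ g h : G, orderOf g = orderOf h → ∃ φ : MulAut G, φ g = h := by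
  obtain ⟨S⟩ : Nonempty (Sylow p G) := inferInstance
  obtain ⟨hPn, hPab, hPexp⟩ := hS S
  set P : Subgroup G := (S : Subgroup G) with hP
  have hcop : (p ^ n).Coprime q := ((Nat.coprime_primes hp.out hq.out).2 hpq).pow_left n
  have hPc : Nat.card P = p ^ n := by
    rw [hP, S.card_eq_multiplicity, hcard, Nat.factorization_mul (pow_pos hp.out.pos n).ne'
      hq.out.pos.ne']
    simp [hp.out.factorization, hq.out.factorization, hpq.symm]
  have hidx : P.index = q := by
    have := P.card_mul_index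
    rw [hPc, hcard] at this
    exact Nat.eq_of_mul_eq_mul_left (pow_pos hp.out.pos n) this
  have hcompl : ∀ x : G, orderOf x = q → P.IsComplement' (Subgroup.zpowers x) := by
    intro x hx
    refine Subgroup.isComplement'_of_coprime ?_ ?_
    · rw [hPc, Nat.card_zpowers, hx, hcard]
    · rwa [hPc, Nat.card_zpowers, hx]
  have hin : ∀ g ∈ P, g ≠ 1 → orderOf g = p := fun g hg h => orderOf_eq_prime (hPexp g hg) h
  have hmemP : ∀ g : G, orderOf g = p → g ∈ P := fun g hg =>
    CL.FGS.mem_sylow_of_normal_of_pow_eq_one (k := 1) S hPn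
      (by rw [pow_one, ← hg]; exact pow_orderOf_eq_one g)
  obtain ⟨x, hx⟩ := exists_prime_orderOf_dvd_card' (G := G) q (by rw [hcard]; exact dvd_mul_left _ _)
  have hout : ∀ g, g ∉ P → orderOf g = q := by
    intro g hg
    refine orderOf_eq_prime ?_ fun h => hg (h ▸ P.one_mem)
    have h1 : g ^ q ∈ P := hidx ▸ P.pow_index_mem g
    by_contra h2
    obtain ⟨v, hv, k, hk, rfl⟩ := Subgroup.mem_sup_of_normal_left.1
      ((hcompl x hx).sup_eq_top ▸ Subgroup.mem_top g : g ∈ P ⊔ Subgroup.zpowers x)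
    have hk1 : k ≠ 1 := fun h => hg (by simpa [h] using hv)
    have hkq : orderOf k = q := by
      refine orderOf_eq_prime ?_ hk1
      obtain ⟨m, rfl⟩ := hk
      rw [← zpow_natCast, ← zpow_mul, mul_comm, zpow_mul, zpow_natCast, ← hx, pow_orderOf_eq_one,
        one_zpow]
    apply hfpf k _ hkq (hin _ h1 h2)
    have c1 : Commute (v * k) ((v * k) ^ q) := Commute.self_pow _ _
    have c2 : Commute v ((v * k) ^ q) := setLike_mul_comm (s := P) hv h1
    have c3 : Commute k ((v * k) ^ q) := by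
      have := c2.inv_left.mul_left c1
      simpa using this
    exact mul_inv_eq_iff_eq_mul.2 c3
  have hcases : ∀ g : G, orderOf g = 1 ∨ orderOf g = p ∨ orderOf g = q := by
    intro g
    by_cases h1 : g = 1
    · left; simp [h1]
    by_cases h2 : g ∈ P
    · exact Or.inr (Or.inl (hin g h2 h1))
    · exact Or.inr (Or.inr (hout g h2))
  refine ⟨hcases, ?_⟩
  let _ : CommGroup P := { (inferInstance : Group P) with mul_comm := mul_comm' }
  have key : ∀ (y : G), orderOf y = q → ∀ (i : ℕ), ¬ q ∣ i → ∀ u w : P, (u = 1 ↔ w = 1) →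
      ∃ φ : MulAut G, φ u = w ∧ φ y = y ^ i := by
    intro y hy i hi u w huw
    obtain ⟨ψ, h1, h2⟩ := CL.FGS.CycMod.exists_semiconj_aut (A := P) hq.out hpq hord
      (fun u => Subtype.ext (hPexp u u.2)) (MulAut.conjNormal y)
      (by rw [← map_pow, ← hy, pow_orderOf_eq_one, map_one])
      (fun u hu => by
        by_contra h
        exact hfpf y u hy (hin u u.2 fun h1 => h (Subtype.ext h1)) (congrArg Subtype.val hu))
      hi huw
    obtain ⟨φ, h3, h4⟩ := CL.FGS.exists_mulAut_extend_zpowers P (hcompl y hy) ψ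
      (by rw [hy]; exact (Nat.Prime.coprime_iff_not_dvd hq.out).2 hi) h1
    exact ⟨φ, by rw [h3, h2], h4⟩
  intro g h hgh
  rcases hcases g with hg | hg | hg
  · rw [hg, eq_comm, orderOf_eq_one_iff] at hgh
    rw [orderOf_eq_one_iff] at hg
    exact ⟨1, by simp [hg, hgh]⟩
  · have hh : orderOf h = p := hgh ▸ hg
    have ne1 : ∀ c : G, orderOf c = p → c ≠ 1 := by
      rintro c hc rfl
      rw [orderOf_one] at hc; exact hp.out.one_lt.ne hc
    obtain ⟨φ, h1, -⟩ := key x hx 1 hq.out.not_dvd_one ⟨g, hmemP g hg⟩ ⟨h, hmemP h hh⟩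
      (by simp [ne1 g hg, ne1 h hh])
    exact ⟨φ, h1⟩
  · have hh : orderOf h = q := hgh ▸ hg
    have hQc : ∀ Q : Sylow q G, Nat.card Q = q := by
      intro Q
      rw [Q.card_eq_multiplicity, hcard, Nat.factorization_mul (pow_pos hp.out.pos n).ne'
        hq.out.pos.ne']
      simp [hp.out.factorization, hq.out.factorization, hpq]
    obtain ⟨Q1, hQ1⟩ := CL.FGS.exists_sylow_mem_of_pow_eq_one (p := q) (k := 1) (x := g)
      (by rw [pow_one, ← hg]; exact pow_orderOf_eq_one g)
    obtain ⟨Q2, hQ2⟩ := CL.FGS.exists_sylow_mem_of_pow_eq_one (p := q) (k := 1) (x := h)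
      (by rw [pow_one, ← hh]; exact pow_orderOf_eq_one h)
    obtain ⟨c, hc⟩ := MulAction.exists_smul_eq G Q2 Q1
    have h1 : c * h * c⁻¹ ∈ (Q1 : Subgroup G) := by
      rw [← hc]
      exact Subgroup.smul_mem_pointwise_smul h (MulAut.conj c) _ hQ2
    have h2 : Subgroup.zpowers g = Q1 := Subgroup.eq_of_le_of_card_ge (Subgroup.zpowers_le.2 hQ1)
      (by rw [hQc, Nat.card_zpowers, hg])
    rw [← h2] at h1
    obtain ⟨i, hi⟩ := (mem_powers_iff_mem_zpowers.2 h1 : _ ∈ Submonoid.powers g)
    have hi' : g ^ i = c * h * c⁻¹ := hi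
    obtain ⟨φ, -, h4⟩ := key g hg i (by
      rintro ⟨m, rfl⟩
      rw [pow_mul, ← hg, pow_orderOf_eq_one, one_pow] at hi'
      have : h = 1 := by simpa using hi'.symm
      rw [this, orderOf_one] at hh
      exact hq.out.one_lt.ne hh) 1 1 Iff.rfl
    refine ⟨MulAut.conj c⁻¹ * φ, ?_⟩
    rw [MulAut.mul_apply, h4, hi']
    simp [mul_assoc]


/-- Let G be a finite group whose order is not a prime power. Then the automorphism group of G has exactly three orbits on G if and only if there are distinct primes p, q with #G = pⁿ·q (n ≥ 1) such that G has a normal elementary abelian Sylow p-subgroup P, p is a primitive root modulo q (the multiplicative order of p mod q is q − 1), and every element of order q of G acts on P without non-identity fixed points. -/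
theorem result {G : Type*} [Group G] [Finite G] (hnpp : ¬ IsPrimePow (Nat.card G)) (hnt : Nat.card G ≠ 1) :
    Nat.card (MulAction.orbitRel.Quotient (MulAut G) G) = 3 ↔
    ∃ (p q n : ℕ) (_ : Fact p.Prime) (_ : Fact q.Prime), p ≠ q ∧ 1 ≤ n ∧ Nat.card G = p ^ n * q ∧
      (∀ P : Sylow p G, (P : Subgroup G).Normal ∧ Cfsg.IsElementaryAbelian p (P : Subgroup G)) ∧
      orderOf (p : ZMod q) = q - 1 ∧
      ∀ x y : G, orderOf x = q → orderOf y = p → x * y * x⁻¹ ≠ y := by
  classical
  constructor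
  · intro h3
    obtain ⟨p, q, hp, hq, hpq, hpd, hqd⟩ : ∃ p q : ℕ, p.Prime ∧ q.Prime ∧ p ≠ q ∧ p ∣ Nat.card G ∧
        q ∣ Nat.card G := by
      obtain ⟨p, hp, hpd⟩ := Nat.exists_prime_and_dvd hnt
      by_contra h
      push Not at h
      apply hnpp
      rw [isPrimePow_iff_unique_prime_dvd]
      refine ⟨p, ⟨hp, hpd⟩, fun q hq => ?_⟩
      by_contra hne
      exact h q p hq.1 hp hne hq.2 hpd
    have : Fact p.Prime := ⟨hp⟩
    have : Fact q.Prime := ⟨hq⟩
    obtain ⟨a, ha⟩ := exists_prime_orderOf_dvd_card' (G := G) p hpd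
    obtain ⟨b, hb⟩ := exists_prime_orderOf_dvd_card' (G := G) q hqd
    let π : G → MulAction.orbitRel.Quotient (MulAut G) G := Quotient.mk''
    have hπ : ∀ g h : G, π g = π h ↔ ∃ φ : MulAut G, φ h = g := fun g h =>
      Quotient.eq''.trans Iff.rfl
    have hπo : ∀ g h : G, π g = π h → orderOf g = orderOf h := by
      intro g h e
      obtain ⟨φ, rfl⟩ := (hπ g h).1 e
      exact orderOf_aut φ h
    have hcls : ∀ g : G, g = 1 ∨ (∃ φ : MulAut G, φ a = g) ∨ (∃ φ : MulAut G, φ b = g) := by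
      intro g
      have := Fintype.ofFinite (MulAction.orbitRel.Quotient (MulAut G) G)
      have h1 : ({π 1, π a, π b} : Finset _) = Finset.univ := by
        apply Finset.eq_univ_of_card
        rw [← Nat.card_eq_fintype_card, h3, Finset.card_eq_three]
        refine ⟨_, _, _, ?_, ?_, ?_, rfl⟩
        · intro h; have := hπo _ _ h; rw [orderOf_one, ha] at this; exact hp.one_lt.ne this
        · intro h; have := hπo _ _ h; rw [orderOf_one, hb] at this; exact hq.one_lt.ne this
        · intro h; have := hπo _ _ h; rw [ha, hb] at this; exact hpq this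
      have h2 : π g ∈ ({π 1, π a, π b} : Finset _) := h1 ▸ Finset.mem_univ _
      simp only [Finset.mem_insert, Finset.mem_singleton, hπ] at h2
      rcases h2 with ⟨φ, h⟩ | h | h
      · left; rw [← h, map_one]
      · exact Or.inr (Or.inl h)
      · exact Or.inr (Or.inr h)
    have hprimes : ∀ r : ℕ, r.Prime → r ∣ Nat.card G → r = p ∨ r = q := by
      intro r hr hd
      have : Fact r.Prime := ⟨hr⟩
      obtain ⟨c, hc⟩ := exists_prime_orderOf_dvd_card' (G := G) r hd
      rcases hcls c with rfl | ⟨φ, rfl⟩ | ⟨φ, rfl⟩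
      · rw [orderOf_one] at hc; exact absurd hc hr.one_lt.ne
      · left; rw [← hc, orderOf_aut, ha]
      · right; rw [← hc, orderOf_aut, hb]
    have hsol := CL.Char.isSolvable_of_primes_subset_pair hp hq hprimes
    have : Nontrivial G := Finite.one_lt_card_iff_nontrivial.1
      (lt_of_le_of_ne Nat.card_pos (Ne.symm hnt))
    obtain ⟨r, hr, hcore⟩ := CL.exists_pCore_ne_bot G
    have hrd : r ∣ Nat.card G := by
      have : Fact r.Prime := ⟨hr⟩
      by_contra h
      exact hcore (CL.pCore_eq_bot_of_coprime ((Nat.Prime.coprime_iff_not_dvd hr).2 h).symm)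
    rcases hprimes r hr hrd with rfl | rfl
    · exact fwd hp hq hpq ha hb hcls hcore
    · exact fwd hq hp hpq.symm hb ha (fun g => by have := hcls g; tauto) hcore
  · rintro ⟨p, q, n, hp, hq, hpq, hn, hcard, hS, hord, hfpf⟩
    obtain ⟨h1, h2⟩ := bwd hpq hcard hS hord hfpf
    obtain ⟨a, ha⟩ := exists_prime_orderOf_dvd_card' (G := G) p
      (by rw [hcard]; exact (dvd_pow_self p (by omega)).mul_right _)
    obtain ⟨b, hb⟩ := exists_prime_orderOf_dvd_card' (G := G) q
      (by rw [hcard]; exact dvd_mul_left _ _)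
    let π : G → MulAction.orbitRel.Quotient (MulAut G) G := Quotient.mk''
    have hπ : ∀ g h : G, π g = π h ↔ orderOf g = orderOf h := by
      intro g h
      refine Quotient.eq''.trans ⟨?_, fun e => h2 h g e.symm⟩
      rintro ⟨φ, rfl⟩
      exact orderOf_aut φ h
    have := Fintype.ofFinite (MulAction.orbitRel.Quotient (MulAut G) G)
    rw [Nat.card_eq_fintype_card, ← Finset.card_univ, Finset.card_eq_three]
    refine ⟨π 1, π a, π b, ?_, ?_, ?_, ?_⟩
    · rw [Ne, hπ, orderOf_one, ha]; exact hp.out.one_lt.ne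
    · rw [Ne, hπ, orderOf_one, hb]; exact hq.out.one_lt.ne
    · rw [Ne, hπ, ha, hb]; exact hpq
    · ext c
      obtain ⟨g, rfl⟩ : ∃ g, π g = c := Quotient.exists_rep c
      simp only [Finset.mem_univ, Finset.mem_insert, Finset.mem_singleton, hπ, orderOf_one, ha, hb,
        true_iff]
      exact h1 g
end Cfsg.Agent.S4081
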