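import Cfsg.Statements.S4082
import Cfsg.Agent.TECH.SylIn
import Cfsg.Agent.ODD.AuxH39b
import Cfsg.Agent.PLOC.NPC
import Cfsg.Agent.INV.TwoInv
import Cfsg.Agent.SOLV.Schmidt

set_option autoImplicit false
open Cfsg

namespace Cfsg.Agent.S4082

open Subgroup CL CL.MSS

variable {G : Type*} [Group G] [Finite G] {p : ℕ} [hp : Fact p.Prime]

/-- the restriction on `p`-by-cyclic subgroups -/
def Res (p : ℕ) (G : Type*) [Group G] : Prop :=
  ∀ H : Subgroup G, (∀ S : Sylow p ↥H, (S : Subgroup ↥H).Normal) →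
    (∀ (S : Sylow p ↥H) [(S : Subgroup ↥H).Normal], IsCyclic (↥H ⧸ (S : Subgroup ↥H))) →
    IsCyclic H ∨ (∃ n : ℕ, Nonempty (H ≃* DihedralGroup (p ^ n)))

theorem Res.apply (h : Res p G) {T : Subgroup G} (hT : IsPGroup p T) {y : G}
    (hy : y ∈ normalizer (T : Set G)) (hc : (orderOf y).Coprime p) :
    IsCyclic (T ⊔ zpowers y : Subgroup G) ∨
      ∃ n : ℕ, Nonempty ((T ⊔ zpowers y : Subgroup G) ≃* DihedralGroup (p ^ n)) := by
  set H := T ⊔ zpowers y with hH
  have hn : (T.subgroupOf H).Normal :=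
    (normal_subgroupOf_iff_le_normalizer le_sup_left).2 (sup_le le_normalizer (zpowers_le.2 hy))
  let y' : H := ⟨y, mem_sup_right (mem_zpowers y)⟩
  have htop : T.subgroupOf H ⊔ zpowers y' = ⊤ := by
    apply map_injective H.subtype_injective
    rw [Subgroup.map_sup, map_subgroupOf_eq_of_le le_sup_left, MonoidHom.map_zpowers,
      ← MonoidHom.range_eq_map, range_subtype]
    rfl
  have hS : ∀ S : Sylow p H, (S : Subgroup H) = T.subgroupOf H := fun S => by
    refine le_antisymm (le_of_coprime_index ?_)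
      (IsPGroup.le_sylow_of_normal (isPGroup_subgroupOf hT H) S)
    refine (coprime_card_of_isPGroup S.isPGroup' ?_).symm
    refine Nat.Coprime.coprime_dvd_left (index_dvd_card_of_sup_eq_top htop) ?_
    rwa [Nat.card_zpowers, ← Subgroup.orderOf_coe]
  refine h H (fun S => hS S ▸ hn) fun S _ => ?_
  refine (isCyclic_iff_exists_zpowers_eq_top).2 ⟨QuotientGroup.mk' _ y', ?_⟩
  rw [← MonoidHom.map_zpowers, ← map_top_of_surjective _ (QuotientGroup.mk'_surjective
    (S : Subgroup H)), ← htop, Subgroup.map_sup, ← hS S, (Subgroup.map_eq_bot_iff _).2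
    (QuotientGroup.ker_mk' _).ge, bot_sup_eq]

omit [Finite G] in
theorem eq_one_of_sq (hp2 : p ≠ 2) {a : G} {k : ℕ} (ha : a ^ p ^ k = 1) (h : a ^ 2 = 1) : a = 1 := by
  rw [← orderOf_eq_one_iff]
  exact Nat.Coprime.eq_one_of_dvd (Nat.Coprime.coprime_dvd_left (orderOf_dvd_of_pow_eq_one h)
    (Nat.Coprime.pow_right _ ((Nat.coprime_primes Nat.prime_two hp.out).2 hp2.symm)))
    (orderOf_dvd_of_pow_eq_one ha)

theorem Res.inverts (hp2 : p ≠ 2) (h : Res p G) {T : Subgroup G} (hT : IsPGroup p T) {y : G}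
    (hy : y ∈ normalizer (T : Set G)) (hc : (orderOf y).Coprime p)
    (hyC : y ∉ centralizer (T : Set G)) : orderOf y = 2 ∧ ∀ t ∈ T, y * t * y⁻¹ = t⁻¹ := by
  let y' : (T ⊔ zpowers y : Subgroup G) := ⟨y, mem_sup_right (mem_zpowers y)⟩
  rcases h.apply hT hy hc with h1 | ⟨n, ⟨e⟩⟩
  · exact absurd (mem_centralizer_iff.2 fun t ht => congrArg Subtype.val
      (mul_comm' (⟨t, mem_sup_left ht⟩ : (T ⊔ zpowers y : Subgroup G)) y')) hyC
  have : NeZero (p ^ n) := ⟨pow_ne_zero _ hp.out.ne_zero⟩
  obtain ⟨i, hi⟩ : ∃ i, e y' = DihedralGroup.sr i := by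
    rcases hy' : e y' with i | i
    · exfalso
      have h1 : y' ^ p ^ n = 1 := e.injective (by
        rw [map_pow, hy', map_one, DihedralGroup.r_pow, ZMod.natCast_self, mul_zero]; rfl)
      have h2 : y = 1 := by
        rw [← orderOf_eq_one_iff]
        exact Nat.Coprime.eq_one_of_dvd (hc.pow_right n)
          (orderOf_dvd_of_pow_eq_one (congrArg Subtype.val h1))
      exact hyC (h2 ▸ one_mem _)
    · exact ⟨i, rfl⟩
  refine ⟨?_, fun t ht => ?_⟩
  · rw [← DihedralGroup.orderOf_sr i, ← hi, MulEquiv.orderOf_eq, Subgroup.orderOf_mk]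
  · let t' : (T ⊔ zpowers y : Subgroup G) := ⟨t, mem_sup_left ht⟩
    rcases ht' : e t' with j | j
    · have : y' * t' * y'⁻¹ = t'⁻¹ := e.injective (by
        rw [map_mul, map_mul, map_inv, map_inv, hi, ht']
        simp)
      exact congrArg Subtype.val this
    · exfalso
      obtain ⟨k, hk⟩ := hT ⟨t, ht⟩
      have h2 : orderOf t = 2 := by
        rw [← DihedralGroup.orderOf_sr j, ← ht', MulEquiv.orderOf_eq, Subgroup.orderOf_mk]
      have h3 := eq_one_of_sq hp2 (a := t) (congrArg Subtype.val hk) (h2 ▸ pow_orderOf_eq_one t)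
      rw [h3, orderOf_one] at h2
      omega

theorem Res.inverts' (hp2 : p ≠ 2) (h : Res p G) {T : Subgroup G} (hT : IsPGroup p T) {x : G}
    (hx : x ∈ normalizer (T : Set G)) (hxC : x ∉ centralizer (T : Set G))
    (hc : ∀ a ∈ zpowers x, (∃ k, a ^ p ^ k = 1) → a ∈ centralizer (T : Set G)) :
    orderOf x = 2 ∧ ∀ t ∈ T, x * t * x⁻¹ = t⁻¹ := by
  obtain ⟨a, b, ha, hb, ⟨k, hk⟩, hb', rfl⟩ := exists_p_part_mul_p'_part (p := p) x
  have haC := hc a ha ⟨k, hk⟩
  have hab : Commute a b := by
    obtain ⟨i, hi⟩ := mem_zpowers_iff.1 ha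
    obtain ⟨j, hj⟩ := mem_zpowers_iff.1 hb
    have := Commute.zpow_zpow_self (a * b) i j
    rwa [hi, hj] at this
  have hbC : b ∉ centralizer (T : Set G) := fun h' => hxC (mul_mem haC h')
  obtain ⟨h1, h2⟩ := h.inverts hp2 (T := T ⊔ zpowers a) (isPGroup_sup_of_normalizes' hT
    (isPGroup_zpowers hk) (zpowers_le.2 (centralizer_le_normalizer _ haC))) (y := b) (by
      rw [mem_normalizer_iff_cj, cj_sup, cj_eq_of_mem_normalizer (zpowers_le.2 hx hb), cj_zpowers,
        ← hab.eq, mul_inv_cancel_right]) hb' fun h' => hbC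
      (centralizer_le (le_sup_left (a := T) (b := zpowers a)) h')
  have h3 : a = 1 := by
    have := h2 a (mem_sup_right (mem_zpowers a))
    rw [← hab.eq, mul_inv_cancel_right] at this
    exact eq_one_of_sq hp2 hk (by rw [sq]; exact mul_eq_one_iff_eq_inv.2 this)
  subst h3
  rw [one_mul]
  exact ⟨h1, fun t ht => h2 t (mem_sup_left ht)⟩

theorem res_of (hP : ∀ S : Subgroup G, IsPGroup p S → IsCyclic S)
    (hK : ∀ Q : Subgroup G, Nat.card Q = p → ∀ x ∈ normalizer (Q : Set G),
      x ∉ centralizer (Q : Set G) →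
        orderOf x = 2 ∧ ∀ c ∈ centralizer (Q : Set G), x * c * x⁻¹ = c⁻¹) (hp2 : p ≠ 2) :
    Res p G := by
  intro H h1 h2
  obtain ⟨S⟩ : Nonempty (Sylow p H) := inferInstance
  have := h1 S
  obtain ⟨g, hg⟩ := (isCyclic_iff_exists_zpowers_eq_top).1 (h2 S)
  obtain ⟨x, rfl⟩ := QuotientGroup.mk'_surjective _ g
  obtain ⟨a, b, ha, hb, ⟨k, hk⟩, hb', rfl⟩ := exists_p_part_mul_p'_part (p := p) x
  have haS : a ∈ (S : Subgroup H) :=
    (sylIn_top S).le_of_normalizes (isPGroup_zpowers hk) le_top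
      (by rw [normalizer_eq_top]; exact le_top) (mem_zpowers a)
  have htop : (S : Subgroup H) ⊔ zpowers b = ⊤ := by
    have := comap_map_eq (QuotientGroup.mk' (S : Subgroup H)) (zpowers (a * b))
    rw [MonoidHom.map_zpowers, hg, comap_top, QuotientGroup.ker_mk'] at this
    rw [eq_top_iff, this]
    exact sup_le (zpowers_le.2 (mul_mem (mem_sup_left haS) (mem_sup_right (mem_zpowers b))))
      le_sup_left
  let T := (S : Subgroup H).map H.subtype
  have hT : IsPGroup p T := S.isPGroup'.map _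
  have hH : T ⊔ zpowers (b : G) = H := by
    have := congrArg (Subgroup.map H.subtype) htop
    rwa [Subgroup.map_sup, MonoidHom.map_zpowers, ← MonoidHom.range_eq_map, range_subtype] at this
  have hbT : (b : G) ∈ normalizer (T : Set G) := by
    have := le_normalizer_map (H := (S : Subgroup H)) H.subtype
    rw [normalizer_eq_top] at this
    exact this ⟨b, mem_top _, rfl⟩
  rw [← Subgroup.orderOf_coe] at hb'
  rw [← hH]
  generalize (b : G) = y at hb' hbT
  obtain ⟨s, hs⟩ := (Subgroup.isCyclic_iff_exists_zpowers_eq_top T).1 (hP T hT)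
  obtain ⟨n, hn⟩ := hT.exists_card_eq
  rw [← hs, Nat.card_zpowers] at hn
  by_cases hyC : y ∈ centralizer (T : Set G)
  · left
    have hc : Commute s y := mem_centralizer_iff.1 hyC s (hs ▸ mem_zpowers s)
    have hco : (orderOf s).Coprime (orderOf y) := hn ▸ (hb'.pow_right n).symm
    refine (Subgroup.isCyclic_iff_exists_zpowers_eq_top _).2 ⟨s * y, ?_⟩
    rw [← hs]
    refine le_antisymm (zpowers_le.2 (mul_mem (mem_sup_left (mem_zpowers s))
      (mem_sup_right (mem_zpowers y)))) (sup_le (zpowers_le.2 ?_) (zpowers_le.2 ?_))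
    · obtain ⟨m, hm⟩ := exists_pow_eq_self_of_coprime hco.symm
      have e : (s * y) ^ orderOf y = s ^ orderOf y := by
        rw [hc.mul_pow, pow_orderOf_eq_one, mul_one]
      have := npow_mem_zpowers (s * y) (orderOf y * m)
      rwa [pow_mul, e, hm] at this
    · obtain ⟨m, hm⟩ := exists_pow_eq_self_of_coprime hco
      have e : (s * y) ^ orderOf s = y ^ orderOf s := by
        rw [hc.mul_pow, pow_orderOf_eq_one, one_mul]
      have := npow_mem_zpowers (s * y) (orderOf s * m)
      rwa [pow_mul, e, hm] at this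
  · right
    have hT1 : T ≠ ⊥ := by rintro h; rw [h] at hyC; exact hyC (by simp [mem_centralizer_iff])
    obtain ⟨z, hz⟩ := exists_prime_orderOf_dvd_card' (G := T) p
      (dvd_card_of_isPGroup_le hT hT1 le_rfl)
    rw [← Subgroup.orderOf_coe] at hz
    have hTc := hP T hT
    have hzN : y ∈ normalizer (zpowers (z : G) : Set G) :=
      CL.BG.norm_le_norm_of_cyclic hTc (zpowers_le.2 z.2) hbT
    have hzC : y ∉ centralizer (zpowers (z : G) : Set G) := fun h => hyC (by
      have := CL.BG.H39.cent_of_cyclic_pgroup (A := zpowers y) hT hTc (zpowers_le.2 hbT)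
        (coprime_card_of_isPGroup_of_coprime hT (by rwa [Nat.card_zpowers])) (fun h0 => by
          have h4 : (z : G) ∈ T ⊓ centralizer (zpowers y : Set G) :=
            mem_inf.2 ⟨z.2, le_centralizer_iff.1 (zpowers_le.2 h) (mem_zpowers _)⟩
          rw [h0, mem_bot] at h4
          rw [h4, orderOf_one] at hz
          exact hp.out.one_lt.ne hz)
      exact le_centralizer_iff.1 this (mem_zpowers y))
    obtain ⟨h3, h4⟩ := hK _ (by rw [Nat.card_zpowers, hz]) y hzN hzC
    have h5 := h4 s (centralizer_le (zpowers_le.2 z.2)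
      (le_centralizer_of_le_of_isMulCommutative le_rfl (hs ▸ mem_zpowers s : s ∈ T)))
    refine ⟨n, ?_⟩
    have := CL.TwoInv.nonempty_closure_mulEquiv_dihedral hn
      (CL.TwoInv.mul_self_of_orderOf_eq_two h3) h5 (fun h => hyC (by
        rw [hs] at h
        exact le_centralizer_of_le_of_isMulCommutative le_rfl h))
    have e : Subgroup.closure ({s, y} : Set G) = T ⊔ zpowers y := by
      rw [← hs, zpowers_eq_closure, zpowers_eq_closure, ← Subgroup.closure_union,
        Set.singleton_union]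
    rwa [e] at this

/-- Let p be an odd prime and G a finite group with Sylow p-subgroup P. Say that G has restricted p-by-cyclic subgroups when every subgroup H of G whose Sylow p-subgroup is normal in H with cyclic quotient is itself cyclic or dihedral of order 2pⁿ for some n. Then G has restricted p-by-cyclic subgroups if and only if P is cyclic and one of the following holds: (1) N_G(P) = C_G(P); or (2) N_G(P)/C_G(P) has order 2 and, for the subgroup Q of order p of P, the centralizer C_G(Q) is abelian and every element of N_G(Q) outside C_G(Q) is an involution inverting every element of C_G(Q). -/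
theorem result {G : Type*} [Group G] [Finite G] {p : ℕ}
    [Fact p.Prime] (hp : p ≠ 2) (P : Sylow p G) :
    (∀ H : Subgroup G, (∀ S : Sylow p ↥H, (S : Subgroup ↥H).Normal) →
        (∀ (S : Sylow p ↥H) [(S : Subgroup ↥H).Normal], IsCyclic (↥H ⧸ (S : Subgroup ↥H))) →
        IsCyclic H ∨ (∃ n : ℕ, Nonempty (H ≃* DihedralGroup (p ^ n)))) ↔
    (IsCyclic P ∧
      (Subgroup.normalizer ((P : Subgroup G) : Set G) = Subgroup.centralizer ((P : Subgroup G) : Set G) ∨
       ((Subgroup.centralizer ((P : Subgroup G) : Set G)).relIndex (Subgroup.normalizer ((P : Subgroup G) : Set G)) = 2 ∧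
        ∀ Q : Subgroup G, Q ≤ P → Nat.card Q = p →
          IsMulCommutative ↥(Subgroup.centralizer (Q : Set G)) ∧
          ∀ x : G, x ∈ Subgroup.normalizer (Q : Set G) → x ∉ Subgroup.centralizer (Q : Set G) →
            orderOf x = 2 ∧ ∀ c : G, c ∈ Subgroup.centralizer (Q : Set G) → x * c * x⁻¹ = c⁻¹))) := by
  constructor
  · intro h
    have hcyc : IsCyclic P := by
      have := Res.apply h P.isPGroup' (one_mem _) (by simp)
      rw [zpowers_one_eq_bot, sup_bot_eq] at this
      refine this.resolve_right ?_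
      rintro ⟨n, ⟨e⟩⟩
      obtain ⟨k, hk⟩ := P.isPGroup' (e.symm (DihedralGroup.sr 0))
      have h2 : orderOf (e.symm (DihedralGroup.sr 0)) = 2 := by
        rw [MulEquiv.orderOf_eq, DihedralGroup.orderOf_sr]
      have h3 := eq_one_of_sq hp hk (h2 ▸ pow_orderOf_eq_one _)
      rw [h3, orderOf_one] at h2
      omega
    have hPc : (P : Subgroup G) ≤ centralizer ((P : Subgroup G) : Set G) :=
      le_centralizer_of_le_of_isMulCommutative le_rfl
    refine ⟨hcyc, ?_⟩
    by_cases hN : normalizer ((P : Subgroup G) : Set G) ≤ centralizer ((P : Subgroup G) : Set G)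
    · exact Or.inl (le_antisymm hN (centralizer_le_normalizer _))
    right
    have key : ∀ x ∈ normalizer ((P : Subgroup G) : Set G),
        x ∉ centralizer ((P : Subgroup G) : Set G) → ∀ t ∈ (P : Subgroup G), x * t * x⁻¹ = t⁻¹ :=
      fun x hx hxC => (Res.inverts' hp h P.isPGroup' hx hxC fun a ha ⟨k, hk⟩ =>
        hPc ((sylIn_top P).le_of_normalizes (isPGroup_zpowers hk) le_top
          (zpowers_le.2 (zpowers_le.2 hx ha)) (mem_zpowers a))).2
    obtain ⟨x, hx, hxC⟩ := SetLike.not_le_iff_exists.1 hN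
    refine ⟨relIndex_eq_two_iff_exists_notMem_and.2 ⟨x, hx, hxC, fun b hb => ?_⟩, fun Q hQ hQp => ?_⟩
    · by_cases hbC : b ∈ centralizer ((P : Subgroup G) : Set G)
      · exact Or.inr hbC
      · refine Or.inl (mem_centralizer_iff.2 fun t ht => ?_)
        apply (mul_inv_eq_iff_eq_mul.1 _).symm
        calc b * x * t * (b * x)⁻¹ = b * (x * t * x⁻¹) * b⁻¹ := by group
          _ = (b * t * b⁻¹)⁻¹ := by rw [key x hx hxC t ht]; group
          _ = t := by rw [key b hb hbC t ht, inv_inv]
    have hQ' : IsPGroup p Q := P.isPGroup'.to_le hQ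
    have key2 : ∀ y ∈ normalizer (Q : Set G), y ∉ centralizer (Q : Set G) → orderOf y = 2 :=
      fun y hy hyC => (Res.inverts' hp h hQ' hy hyC fun a ha ⟨k, hk⟩ => by
        have h1 := MSS.inf_centralizer_ne_bot (isPGroup_zpowers hk) hQ'
          (zpowers_le.2 (zpowers_le.2 hy ha)) (fun e => by
            rw [e, card_bot] at hQp; exact (Fact.out : p.Prime).one_lt.ne hQp)
        have h2 : Q ⊓ centralizer (zpowers a : Set G) = Q := by
          refine eq_of_le_of_card_ge inf_le_left ?_
          have h3 := card_dvd_of_le (inf_le_left : Q ⊓ centralizer (zpowers a : Set G) ≤ Q)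
          rw [hQp] at h3 ⊢
          rcases (Nat.dvd_prime Fact.out).1 h3 with h4 | h4
          · exact absurd (card_eq_one.1 h4) h1
          · exact h4.ge
        exact le_centralizer_iff.1 (h2.ge.trans inf_le_right) (mem_zpowers a)).1
    have key3 : ∀ y ∈ normalizer (Q : Set G), y ∉ centralizer (Q : Set G) →
        ∀ c ∈ centralizer (Q : Set G), y * c * y⁻¹ = c⁻¹ := fun y hy hyC c hc => by
      have h1 := CL.TwoInv.mul_self_of_orderOf_eq_two (key2 y hy hyC)
      have h2 := CL.TwoInv.mul_self_of_orderOf_eq_two (key2 (y * c)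
        (mul_mem hy (centralizer_le_normalizer _ hc))
        fun h' => hyC ((Subgroup.mul_mem_cancel_right _ hc).1 h'))
      calc y * c * y⁻¹ = (y * c * (y * c)) * c⁻¹ * (y * y)⁻¹ := by group
        _ = _ := by rw [h1, h2]; group
    refine ⟨?_, fun y hy hyC => ⟨key2 y hy hyC, key3 y hy hyC⟩⟩
    have hxQ : x ∈ normalizer (Q : Set G) := mem_normalizer_of_cj_le (cj_le_iff_forall.2
      fun t ht => by rw [key x hx hxC t (hQ ht)]; exact Q.inv_mem ht)
    have hxQC : x ∉ centralizer (Q : Set G) := fun h' => by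
      have hQ1 : Q ≠ ⊥ := fun e => by
        rw [e, card_bot] at hQp; exact (Fact.out : p.Prime).one_lt.ne hQp
      obtain ⟨t, ht, ht1⟩ := (Subgroup.bot_or_exists_ne_one Q).resolve_left hQ1
      have h1 := key x hx hxC t (hQ ht)
      rw [← mem_centralizer_iff.1 h' t ht, mul_inv_cancel_right] at h1
      obtain ⟨k, hk⟩ := hQ' ⟨t, ht⟩
      exact ht1 (eq_one_of_sq hp (a := t) (congrArg Subtype.val hk)
        (by rw [sq]; exact mul_eq_one_iff_eq_inv.2 h1))
    refine ⟨⟨fun a b => Subtype.ext ?_⟩⟩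
    have h1 := key3 x hxQ hxQC _ (mul_mem a.2 b.2)
    have h2 : x * (a * b) * x⁻¹ = (x * a * x⁻¹) * (x * b * x⁻¹) := by group
    rw [h2, key3 x hxQ hxQC _ a.2, key3 x hxQ hxQC _ b.2, ← mul_inv_rev, inv_inj] at h1
    exact h1.symm
  · rintro ⟨hcyc, h⟩
    refine res_of (fun S hS => ?_) (fun Q hQ x hx hxC => ?_) hp
    · obtain ⟨g, -, hg⟩ := (sylIn_top P).exists_conj_le hS le_top
      have := isCyclic_of_le hg
      exact isCyclic_of_surjective _ (cjEquiv g S).symm.surjective
    have hQ' : IsPGroup p Q := IsPGroup.of_card (n := 1) (by rw [hQ, pow_one])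
    obtain ⟨g, -, hg⟩ := (sylIn_top P).exists_conj_le hQ' le_top
    have hx' : g * x * g⁻¹ ∈ normalizer ((g •ᶜ Q : Subgroup G) : Set G) := by
      rw [← cj_normalizer]; exact conj_mem_cj hx
    have hxC' : g * x * g⁻¹ ∉ centralizer ((g •ᶜ Q : Subgroup G) : Set G) := by
      rwa [← cj_centralizer, conj_mem_cj_iff]
    rcases h with h | ⟨-, h⟩
    · exfalso
      have hPc : (P : Subgroup G) ≤ centralizer ((g •ᶜ Q : Subgroup G) : Set G) :=
        (le_centralizer_of_le_of_isMulCommutative le_rfl).trans (centralizer_le hg)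
      obtain ⟨c, hc, y, hy, e⟩ := (sylIn_sylow P hPc).frattini
        (MSS.normalizer_le_normalizer_centralizer _ hx')
      rw [h] at hy
      exact hxC' (e ▸ mul_mem hc (centralizer_le hg hy))
    · obtain ⟨h1, h2⟩ := (h _ hg (by rw [card_cj, hQ])).2 _ hx' hxC'
      refine ⟨by rwa [CL.TwoInv.orderOf_conj] at h1, fun c hc => ?_⟩
      have := h2 (g * c * g⁻¹) (by rw [← cj_centralizer]; exact conj_mem_cj hc)
      calc x * c * x⁻¹ = g⁻¹ * (g * x * g⁻¹ * (g * c * g⁻¹) * (g * x * g⁻¹)⁻¹) * g := by group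
        _ = _ := by rw [this]; group

end Cfsg.Agent.S4082
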