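import Cfsg.Statements.S4083
import Cfsg.Agent.INV.DihFusion
import Cfsg.Agent.INV.WrFour
import Cfsg.Agent.S0228
import Cfsg.Agent.TECH.SylIn

set_option autoImplicit false
open Cfsg

namespace Cfsg.Agent.S4083

open Subgroup CL.MSS CL.FusInv CL.Dih

theorem cyc_of {H : Type*} [Group H] [Finite H] (S : Sylow 2 H) [(S : Subgroup H).Normal]
    [IsCyclic (H ⧸ (S : Subgroup H))] [IsCyclic (S : Subgroup H)] : IsCyclic H := by
  have hq := quiet_of_isCyclic S.isPGroup'
  have h1 : (⊤ : Subgroup H) ≤ centralizer ((S : Subgroup H) : Set H) :=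
    le_of_sylowIn_of_odd (sylIn_top S).not_dvd_relIndex
      (inf_le_left.trans (le_centralizer_iff_isMulCommutative.2 inferInstance))
      fun g _ ho => hq g (by rw [normalizer_eq_top]; trivial) ho
  have hc : IsMulCommutative H :=
    (QuotientGroup.mk' (S : Subgroup H)).isMulCommutative_of_isCyclic_of_ker_le_center (by
      rw [QuotientGroup.ker_mk']
      exact fun s hs => mem_center_iff.2 fun g => (h1 (mem_top g) s hs).symm)
  have : IsZGroup H := isZGroup_of_coprime (f := (S : Subgroup H).subtype)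
    (f' := QuotientGroup.mk' (S : Subgroup H)) (by simp) S.card_coprime_index
  have : Group.IsNilpotent H := by
    letI : CommGroup H := { (inferInstance : Group H) with mul_comm := hc.1.1 }
    infer_instance
  infer_instance

theorem back {G : Type*} [Group G] [Finite G] (P : Sylow 2 G) {n : ℕ}
    (c : Coord (P : Subgroup G) n)
    (hK : ∀ K : Subgroup G, K ≤ P → Nat.card K = 4 → (∀ k ∈ K, k ^ 2 = 1) →
      centralizer (K : Set G) = K) {H T : Subgroup G} (hT : SylIn 2 T H) (hTP : T ≤ P)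
    (hn : H ≤ normalizer (T : Set G)) :
    IsCyclic T ∨ (∃ n : ℕ, Nonempty (H ≃* DihedralGroup (2 ^ n))) ∨
      Nonempty (H ≃* alternatingGroup (Fin 4)) := by
  have h4 : ∀ K j, c.IsSub K 2 j → centralizer (K : Set G) = K := fun K j h =>
    hK K h.1 h.card_two fun k hk => by
      have := h.isKleinFour
      rw [pow_two]
      exact congrArg Subtype.val (IsKleinFour.mul_self (⟨k, hk⟩ : K))
  obtain ⟨a, ha, h | ⟨j, h⟩⟩ := c.sub_cases hTP
  · exact Or.inl (h.isCyclic ha)
  rcases Nat.eq_zero_or_pos a with rfl | ha0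
  · have := h.card ha
    exact Or.inl (isCyclic_of_prime_card (p := 2) this)
  by_cases hHT : H ≤ T
  · obtain rfl := le_antisymm hHT hT.le
    exact Or.inr (Or.inl ⟨a, h.dihedral ha⟩)
  by_cases hq : Quiet T
  · refine absurd (le_of_sylowIn_of_odd hT.not_dvd_relIndex inf_le_left fun g hg ho => ?_) hHT
    have hk := c.isSub_sub 2 j
    have hle : c.sub 2 j ≤ T := by
      obtain ⟨b, rfl⟩ : ∃ b, a = b + 1 := ⟨a - 1, by omega⟩
      refine c.le_of_forall hk.1 (fun i hi => (h.2.1 i).2 ?_) (fun i hi => (h.2.2 i).2 ?_)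
      · rw [pow_succ, mul_assoc, (hk.2.1 i).1 hi, mul_zero]
      · rw [pow_succ, mul_assoc, (hk.2.2 i).1 hi, mul_zero]
    exact hle (h4 _ _ hk ▸ centralizer_le (SetLike.coe_subset_coe.2 hle) (hq g (hn hg) ho))
  obtain ⟨k, hk⟩ := c.quiet_cases hTP hq
  have hC := h4 _ _ hk
  refine Or.inr (Or.inr (Cfsg.Agent.S0228.result ?_ fun z hz hzc => hHT ?_))
  · obtain ⟨m, hm⟩ := hk.v4.relIndex_dvd
    rw [hC, ← relIndex_mul_relIndex T H _ hT.le hn] at hm
    have h3 : T.relIndex H ∣ 3 := Nat.Coprime.dvd_of_dvd_mul_right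
      (((Nat.Prime.coprime_iff_not_dvd Nat.prime_two).2 hT.not_dvd_relIndex).symm.pow_right m)
      ((Dvd.intro _ rfl).trans hm)
    rcases (Nat.dvd_prime Nat.prime_three).1 h3 with e | e
    · exact absurd (relIndex_eq_one.1 e) hHT
    · rw [← (T.subgroupOf H).card_mul_index, Nat.card_congr (subgroupOfEquivOfLe hT.le).toEquiv,
        hk.card_two]
      exact congrArg (4 * ·) e
  · refine le_of_sylowIn_of_odd hT.not_dvd_relIndex inf_le_left fun g hg ho => ?_
    by_contra hgT
    have hzT : (z : G) ∈ T := hT.le_of_normalizes (R := zpowers (z : G))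
      (isPGroup_zpowers (k := 1) (by rw [pow_one, ← coe_pow, ← hz, pow_orderOf_eq_one, coe_one]))
      (zpowers_le.2 z.2) (zpowers_le.2 (hn z.2)) (mem_zpowers _)
    refine hk.v4.fpf (hn hg) ho (hC.symm ▸ hgT) hzT (fun e => ?_) ?_
    · rw [show z = 1 from Subtype.ext (mem_bot.1 e), orderOf_one] at hz
      omega
    · have := congrArg Subtype.val (mem_center_iff.1 hzc ⟨g, hg⟩)
      simp only [coe_mul] at this
      rw [this]; simp

theorem alt_not_comm : ¬ IsMulCommutative (alternatingGroup (Fin 4)) := fun h => by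
  have := congrArg Subtype.val (h.1.1
    ⟨Equiv.swap 0 1 * Equiv.swap 1 2, Equiv.Perm.mem_alternatingGroup.2 (by decide)⟩
    ⟨Equiv.swap 1 2 * Equiv.swap 2 3, Equiv.Perm.mem_alternatingGroup.2 (by decide)⟩)
  revert this
  simp only [coe_mul]
  decide

/-- Let G be a finite group with Sylow 2-subgroup P. Every subgroup H of G whose Sylow 2-subgroup is normal in H with cyclic quotient is cyclic, dihedral of 2-power order, or isomorphic to the alternating group of degree 4, if and only if either P is cyclic, or P is dihedral (of order at least 4) and every elementary abelian subgroup K of order 4 of P satisfies C_G(K) = K. -/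
theorem result {G : Type*} [Group G] [Finite G] (P : Sylow 2 G) :
    (∀ H : Subgroup G, (∀ S : Sylow 2 ↥H, (S : Subgroup ↥H).Normal) →
        (∀ (S : Sylow 2 ↥H) [(S : Subgroup ↥H).Normal], IsCyclic (↥H ⧸ (S : Subgroup ↥H))) →
        IsCyclic H ∨ (∃ n : ℕ, Nonempty (H ≃* DihedralGroup (2 ^ n))) ∨ Nonempty (H ≃* alternatingGroup (Fin 4))) ↔
    (IsCyclic P ∨
      ((∃ n : ℕ, 1 ≤ n ∧ Nonempty ((P : Subgroup G) ≃* DihedralGroup (2 ^ n))) ∧
        ∀ K : Subgroup G, K ≤ P → Nat.card K = 4 → (∀ k ∈ K, k ^ 2 = 1) → Subgroup.centralizer (K : Set G) = K)) := by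
  constructor
  · intro h
    have h2 : ∀ Q : Subgroup G, IsPGroup 2 Q → IsCyclic Q ∨
        ∃ n : ℕ, 1 ≤ n ∧ Nonempty (Q ≃* DihedralGroup (2 ^ n)) := fun Q hQ => by
      have ht : ∀ S : Sylow 2 Q, (S : Subgroup Q) = ⊤ := fun S =>
        (S.is_maximal' (hQ.to_subgroup ⊤) le_top).symm
      rcases h Q (fun S => by rw [ht S]; infer_instance) (fun S _ => by
        have : Subsingleton (Q ⧸ (S : Subgroup Q)) := by
          rw [← Finite.card_le_one_iff_subsingleton, ← index_eq_card, ht S, index_top]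
        exact isCyclic_of_subsingleton) with h1 | ⟨n, ⟨e⟩⟩ | ⟨⟨e⟩⟩
      · exact Or.inl h1
      · rcases Nat.eq_zero_or_pos n with rfl | hn
        · exact Or.inl (isCyclic_of_prime_card (p := 2)
            (by rw [Nat.card_congr e.toEquiv, DihedralGroup.nat_card]; rfl))
        · exact Or.inr ⟨n, hn, ⟨e⟩⟩
      · obtain ⟨k, hk⟩ := IsPGroup.iff_card.1 hQ
        rw [Nat.card_congr e.toEquiv, nat_card_alternatingGroup] at hk
        have : 3 ∣ 2 ^ k := hk ▸ (by simp [Nat.factorial])
        exact absurd (Nat.prime_three.dvd_of_dvd_pow this) (by norm_num)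
    refine (h2 P P.isPGroup').imp_right fun h3 => ⟨h3, fun K hKP h4 hsq => ?_⟩
    have hV := CL.Wr.isKleinFour_of_card h4 fun g hg => by rw [← pow_two, hsq g hg]
    have hKc : K ≤ centralizer (K : Set G) :=
      le_centralizer_iff_isMulCommutative.2 IsKleinFour.isMulCommutative
    have hnc : ∀ H : Subgroup G, K ≤ H → ¬ IsCyclic H := fun H hH hc =>
      IsKleinFour.not_isCyclic (G := K) (isCyclic_of_le hH)
    have hK2 : IsPGroup 2 K := P.isPGroup'.to_le hKP
    obtain ⟨S, hS, hKS⟩ := exists_sylIn_ge hK2 hKc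
    refine le_antisymm (le_of_sylowIn_of_odd hS.not_dvd_relIndex ?_ fun x hx ho => ?_) hKc
    · obtain ⟨n, hn, ⟨e⟩⟩ := (h2 S hS.pgroup).resolve_left (hnc S hKS)
      obtain ⟨j, hj⟩ := (ofEquiv hn e).isSub_of_kleinFour hKS hV
      rw [inf_comm, hj.centralizer_two]
    · have hxK : zpowers x ≤ centralizer (K : Set G) := zpowers_le.2 hx
      have hmem : ∀ g ∈ K ⊔ zpowers x, ∃ k ∈ K, ∃ i : ℤ, k * x ^ i = g := fun g hg => by
        obtain ⟨k, hk, _, ⟨i, rfl⟩, e⟩ :=
          (mem_sup_of_normalizes_left (hxK.trans (centralizer_le_normalizer _))).1 hg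
        exact ⟨k, hk, i, e⟩
      have hc : IsMulCommutative ↥(K ⊔ zpowers x) := ⟨⟨by
        rintro ⟨a, ha⟩ ⟨b, hb⟩
        obtain ⟨k, hk, i, rfl⟩ := hmem a ha
        obtain ⟨l, hl, j, rfl⟩ := hmem b hb
        refine Subtype.ext ?_
        have h1 : Commute k l := hKc hl k hk
        have h2 : Commute k x := hx k hk
        have h3 : Commute l x := hx l hl
        exact ((h1.mul_right (h2.zpow_right j)).mul_left
          ((h3.symm.zpow_left i).mul_right (Commute.zpow_zpow_self x i j))).eq⟩⟩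
      have hcy : ∀ (S : Sylow 2 ↥(K ⊔ zpowers x)) [(S : Subgroup ↥(K ⊔ zpowers x)).Normal],
          IsCyclic (↥(K ⊔ zpowers x) ⧸ (S : Subgroup ↥(K ⊔ zpowers x))) := by
        intro S _
        have hKS : K.subgroupOf (K ⊔ zpowers x) ≤ S :=
          (isPGroup_subgroupOf hK2 _).le_sylow_of_normal S
        refine ⟨⟨QuotientGroup.mk ⟨x, mem_sup_right (mem_zpowers x)⟩, fun q => ?_⟩⟩
        obtain ⟨⟨g, hg⟩, rfl⟩ := QuotientGroup.mk_surjective q
        obtain ⟨k, hk, i, rfl⟩ := hmem g hg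
        refine ⟨i, ?_⟩
        have h1 : ((⟨k, mem_sup_left hk⟩ : ↥(K ⊔ zpowers x)) : _ ⧸ (S : Subgroup ↥(K ⊔ zpowers x))) = 1 :=
          (QuotientGroup.eq_one_iff _).2 (hKS hk)
        show _ ^ i = _
        rw [← QuotientGroup.mk_zpow, ← one_mul (QuotientGroup.mk _), ← h1, ← QuotientGroup.mk_mul]
        rfl
      rcases h (K ⊔ zpowers x) (fun S => inferInstance) hcy with h1 | ⟨n, ⟨e⟩⟩ | ⟨⟨e⟩⟩
      · exact absurd h1 (hnc _ le_sup_left)
      · have hx' : x ∈ K ⊔ zpowers x := mem_sup_right (mem_zpowers x)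
        have h1 := orderOf_dvd_natCard (⟨x, hx'⟩ : ↥(K ⊔ zpowers x))
        rw [Nat.card_congr e.toEquiv, DihedralGroup.nat_card, ← orderOf_coe, ← pow_succ'] at h1
        have := Nat.eq_one_of_dvd_coprimes
          ((Nat.coprime_two_right.2 ho).pow_right (n + 1)) dvd_rfl h1
        rw [orderOf_eq_one_iff.1 this]; exact one_mem _
      · exact absurd ⟨⟨fun a b => e.symm.injective (by rw [map_mul, map_mul, hc.1.1])⟩⟩ alt_not_comm
  · intro h H hN hC
    obtain ⟨S⟩ : Nonempty (Sylow 2 H) := inferInstance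
    have := hN S
    have := hC S
    have hT := sylIn_map_subtype S
    have hn : H ≤ normalizer (((S : Subgroup H).map H.subtype : Subgroup G) : Set G) := by
      intro g hg
      refine mem_normalizer_of_cj_le (cj_le_iff_forall.2 ?_)
      rintro _ ⟨s, hs, rfl⟩
      exact ⟨_, (hN S).conj_mem s hs ⟨g, hg⟩, rfl⟩
    have fin : IsCyclic ↥((S : Subgroup H).map H.subtype) → IsCyclic H := fun hc => by
      have := isCyclic_of_surjective _
        (equivMapOfInjective (S : Subgroup H) H.subtype H.subtype_injective).symm.surjective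
      exact cyc_of S
    obtain ⟨Q, hQ⟩ := hT.pgroup.exists_le_sylow
    obtain ⟨g, rfl⟩ := MulAction.exists_smul_eq G P Q
    rcases h with h | ⟨⟨n, hn1, ⟨e⟩⟩, h⟩
    · have := isCyclic_of_surjective _ (Sylow.equiv P (g • P)).surjective
      exact Or.inl (fin (isCyclic_of_le hQ))
    refine (back (g • P) (ofEquiv hn1 ((Sylow.equiv (g • P) P).trans e)) (fun K hK h4 hsq => ?_)
      hT hQ hn).imp_left fin
    rw [sylow_coe_smul, le_cj_iff] at hK
    have := h _ hK (by rw [card_cj, h4]) (by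
      rintro _ ⟨k, hk, rfl⟩
      rw [← map_pow, hsq k hk, map_one])
    rwa [← cj_centralizer, cj_inj] at this

end Cfsg.Agent.S4083
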