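import Cfsg.Statements.S4085
import Cfsg.Agent.ODD.BaseNorm

set_option autoImplicit false
open Cfsg

namespace Cfsg.Agent.S4085


open Subgroup

def Adj {G : Type*} [Group G] (u v : G) : Prop := u ∈ zpowers v ∨ v ∈ zpowers u

section
variable {G : Type*} [Group G] [Finite G]

theorem mem_iff {x u v : G} (hu : u ∈ zpowers x) (hv : v ∈ zpowers x) :
    u ∈ zpowers v ↔ orderOf u ∣ orderOf v := by
  refine ⟨orderOf_dvd_of_mem_zpowers, fun h => ?_⟩
  exact CL.BG.le_of_card_dvd_of_cyclic (C := zpowers x) inferInstance (zpowers_le.2 hu) (zpowers_le.2 hv)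
    (by rwa [Nat.card_zpowers, Nat.card_zpowers]) (mem_zpowers u)

theorem adj_iff {x u v : G} (hu : u ∈ zpowers x) (hv : v ∈ zpowers x) :
    Adj u v ↔ orderOf u ∣ orderOf v ∨ orderOf v ∣ orderOf u := by
  rw [Adj, mem_iff hu hv, mem_iff hv hu]

theorem zp_eq {u v : G} (h : u ∈ zpowers v) (h2 : orderOf v ≤ orderOf u) : zpowers u = zpowers v :=
  Subgroup.eq_of_le_of_card_ge (zpowers_le.2 h) (by rwa [Nat.card_zpowers, Nat.card_zpowers])

omit [Finite G] in
theorem adj_congr {u v : G} (h : zpowers u = zpowers v) (w : G) : Adj u w ↔ Adj v w := by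
  rw [Adj, Adj, h, ← zpowers_le, ← zpowers_le (g := v), h]

theorem exists_ord {x : G} {d : ℕ} (hd : d ∣ orderOf x) : ∃ u ∈ zpowers x, orderOf u = d :=
  ⟨_, pow_mem (mem_zpowers x) _, orderOf_pow_orderOf_div (orderOf_pos x).ne' hd⟩

theorem ncard_ord {x : G} {d : ℕ} (hd : d ∣ orderOf x) :
    {u | u ∈ zpowers x ∧ orderOf u = d}.ncard = d.totient := by
  classical
  have := Fintype.ofFinite (zpowers x)
  rw [← IsCyclic.card_orderOf_eq_totient (α := zpowers x) (by rwa [← Nat.card_eq_fintype_card, Nat.card_zpowers]),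
    ← Set.ncard_coe_finset, ← Set.ncard_image_of_injective _ Subtype.val_injective]
  congr 1
  ext u
  simp only [Set.mem_ofPred_eq, Finset.coe_filter, Finset.mem_univ, true_and, Set.mem_image]
  constructor
  · rintro ⟨h1, h2⟩
    exact ⟨⟨u, h1⟩, by rw [← orderOf_coe]; exact h2, rfl⟩
  · rintro ⟨v, h1, rfl⟩
    exact ⟨v.2, by rw [orderOf_coe]; exact h1⟩

end

theorem pp_incomp {n s t : ℕ} (hn : n ≠ 0) (hs : s.Prime) (ht : t.Prime) (hsn : s ∣ n) (hst : s ≠ t) :
    ¬ s ^ n.factorization s ∣ t ^ n.factorization t := by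
  intro h
  have h1 : s ∣ s ^ n.factorization s := dvd_pow_self _ (hs.factorization_pos_of_dvd hn hsn).ne'
  exact hst ((Nat.prime_dvd_prime_iff_eq hs ht).1 (hs.dvd_of_dvd_pow (h1.trans h)))

theorem arithA {n p q d : ℕ} (hn : n ≠ 0) (hp : p.Prime) (hq : q.Prime) (hpq : p ≠ q) (hpn : p ∣ n)
    (hqn : q ∣ n) (hd : d ∣ n) (h1 : d ≠ 1) (h2 : d ≠ n) :
    ∃ s : ℕ, s.Prime ∧ s ∣ n ∧ ¬ (d ∣ s ^ n.factorization s ∨ s ^ n.factorization s ∣ d) := by
  have hd0 : d ≠ 0 := by rintro rfl; exact hn (zero_dvd_iff.1 hd)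
  obtain ⟨r, hr, hrd⟩ : ∃ r : ℕ, r.Prime ∧ ¬ r ^ n.factorization r ∣ d := by
    by_contra hc
    push Not at hc
    refine h2 (Nat.dvd_antisymm hd ?_)
    rw [← Nat.factorization_le_iff_dvd hn hd0]
    intro r
    by_cases hr : r.Prime
    · exact (hr.pow_dvd_iff_le_factorization hd0).1 (hc r hr)
    · simp [Nat.factorization_eq_zero_of_not_prime _ hr]
  have hrn : r ∣ n := by
    by_contra hc
    rw [Nat.factorization_eq_zero_of_not_dvd hc] at hrd
    simp at hrd
  by_cases h3 : d ∣ r ^ n.factorization r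
  · obtain ⟨t, ht, htn, htr⟩ : ∃ t : ℕ, t.Prime ∧ t ∣ n ∧ t ≠ r := by
      by_cases hpr : p = r
      · exact ⟨q, hq, hqn, fun h => hpq (hpr.trans h.symm)⟩
      · exact ⟨p, hp, hpn, hpr⟩
    refine ⟨t, ht, htn, ?_⟩
    rintro (h | h)
    · exact h1 (Nat.eq_one_of_dvd_coprimes (Nat.Coprime.pow _ _ ((Nat.coprime_primes ht hr).2 htr)) h h3)
    · exact pp_incomp hn ht hr htn htr (h.trans h3)
  · exact ⟨r, hr, hrn, fun h => h.elim h3 hrd⟩

theorem arithB {n s t d : ℕ} (hs : s.Prime) (ht : t.Prime) (hst : s ≠ t) (hn : s * t ∣ n)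
    (h : ∀ c, c ∣ n → ((d ∣ c ∨ c ∣ d) ↔ (s ∣ c ∨ c ∣ s))) : d = s := by
  have h1 : ¬ (d ∣ t ∨ t ∣ d) := by
    rw [h t ((dvd_mul_left t s).trans hn), Nat.prime_dvd_prime_iff_eq hs ht, Nat.prime_dvd_prime_iff_eq ht hs]
    exact fun h => h.elim hst fun h => hst h.symm
  rcases (h s ((dvd_mul_right s t).trans hn)).2 (Or.inl dvd_rfl) with h2 | ⟨m, rfl⟩
  · exact ((Nat.dvd_prime hs).1 h2).resolve_left fun h => h1 (Or.inl (h ▸ one_dvd t))
  · rcases (h _ hn).2 (Or.inl (dvd_mul_right s t)) with h3 | h3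
    · rcases (Nat.dvd_prime ht).1 (Nat.dvd_of_mul_dvd_mul_left hs.pos h3) with rfl | rfl
      · rw [mul_one]
      · exact absurd (Or.inr (dvd_mul_left _ _)) h1
    · exact absurd (Or.inr ((dvd_mul_left t s).trans h3)) h1

theorem arithC {m : ℕ} (hm : 2 ≤ m) (h : ∀ s t : ℕ, s.Prime → t.Prime → s ∣ m → t ∣ m → s = t) :
    m ≤ 2 * m.totient := by
  have hr := Nat.minFac_prime (show m ≠ 1 by omega)
  have h1 := Nat.eq_prime_pow_of_unique_prime_dvd (show m ≠ 0 by omega)
    (fun hd hdm => h _ _ hd hr hdm (Nat.minFac_dvd m))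
  generalize m.primeFactorsList.length = k at h1
  generalize m.minFac = r at h1 hr
  subst h1
  obtain ⟨k, rfl⟩ : ∃ j, k = j + 1 := ⟨k - 1, by rcases k with _ | k <;> simp_all⟩
  rw [Nat.totient_prime_pow_succ hr, pow_succ, mul_left_comm]
  have := hr.two_le
  exact Nat.mul_le_mul_left _ (by omega)

theorem main {G H : Type*} [Group G] [Finite G] [Group H] [Finite H] (e : G ≃ H)
    (he : ∀ x y : G, Adj x y ↔ Adj (e x) (e y))
    {p q : ℕ} (hp : p.Prime) (hq : q.Prime) (hpq : p ≠ q) (g : G) (hg : orderOf g = p * q) :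
    ∃ h : H, orderOf h = p * q := by
  obtain ⟨x, hgx, hxmax⟩ := Set.exists_max_image {x : G | g ∈ zpowers x} orderOf (Set.toFinite _)
    ⟨g, mem_zpowers g⟩
  have hx : ∀ v, Adj x v ↔ v ∈ zpowers x := by
    intro v
    refine ⟨fun h => h.elim (fun h1 => ?_) id, Or.inr⟩
    rw [zp_eq h1 (hxmax v (zpowers_le.2 h1 hgx))]
    exact mem_zpowers v
  set n := orderOf x with hn
  have hn0 : n ≠ 0 := (orderOf_pos x).ne'
  have hpqn : p * q ∣ n := hg ▸ orderOf_dvd_of_mem_zpowers hgx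
  have hpn : p ∣ n := (dvd_mul_right p q).trans hpqn
  have hqn : q ∣ n := (dvd_mul_left q p).trans hpqn
  obtain ⟨y', hy, hymax⟩ := Set.exists_max_image {y : G | ∀ v, Adj y v ↔ v ∈ zpowers x}
    (fun y => orderOf (e y)) (Set.toFinite _) ⟨x, hx⟩
  set y := e y' with hyd
  have hyC : ∀ w ∈ zpowers y, e.symm w ∈ zpowers x := fun w hw => by
    rw [← hy, he, Equiv.apply_symm_apply]; exact Or.inr hw
  have hU : ∀ v ∈ zpowers x, e v ∉ zpowers y → y ∈ zpowers (e v) := fun v hv hv' =>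
    ((he _ _).1 ((hy v).2 hv)).resolve_right hv'
  by_cases hall : ∀ v ∈ zpowers x, e v ∈ zpowers y
  · have h1 : orderOf y = n := by
      rw [hn, ← Nat.card_zpowers, ← Nat.card_zpowers]
      exact (Nat.card_congr (e.subtypeEquiv fun v => ⟨hall v, fun h => by simpa using hyC _ h⟩)).symm
    obtain ⟨u, -, hu⟩ := exists_ord (x := y) (h1 ▸ hpqn)
    exact ⟨u, hu⟩
  exfalso
  push Not at hall
  obtain ⟨v₀, hv₀, hv₀'⟩ := hall
  have htw : ∀ v, (∀ w, Adj v w ↔ w ∈ zpowers x) → e v ∈ zpowers y := by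
    intro v hv
    by_contra hc
    have hvx : v ∈ zpowers x := (hv v).1 (Or.inl (mem_zpowers v))
    apply hc
    rw [zp_eq (hU v hvx hc) (hymax v hv)]
    exact mem_zpowers _
  have hgen : ∀ v ∈ zpowers x, orderOf v = n → e v ∈ zpowers y := fun v hv ho =>
    htw v fun w => by rw [adj_congr (zp_eq hv ho.ge), hx]
  let a : ℕ → G := fun s => x ^ (n / s ^ n.factorization s)
  have hax : ∀ s, a s ∈ zpowers x := fun s => pow_mem (mem_zpowers x) _
  have hao : ∀ s, orderOf (a s) = s ^ n.factorization s := fun s =>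
    orderOf_pow_orderOf_div hn0 (Nat.ordProj_dvd n s)
  have hnd : ∀ v ∈ zpowers x, orderOf v ≠ 1 → orderOf v ≠ n → ∃ s : ℕ, s.Prime ∧ s ∣ n ∧ ¬ Adj v (a s) := by
    intro v hv h1 h2
    obtain ⟨s, hs, hsn, h3⟩ := arithA hn0 hp hq hpq hpn hqn (orderOf_dvd_of_mem_zpowers hv) h1 h2
    exact ⟨s, hs, hsn, by rwa [adj_iff hv (hax s), hao]⟩
  have hone : e 1 ∈ zpowers y := by
    by_contra hc
    have hu : ∀ w, Adj (e.symm 1) w := fun w => by
      rw [he, Equiv.apply_symm_apply]; exact Or.inl (one_mem _)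
    have hux : e.symm 1 ∈ zpowers x := hyC 1 (one_mem _)
    have hu1 : orderOf (e.symm 1) ≠ 1 := fun h => by
      rw [orderOf_eq_one_iff, Equiv.symm_apply_eq] at h
      exact hc (h ▸ one_mem _)
    have hun : orderOf (e.symm 1) = n := by
      by_contra h
      obtain ⟨s, -, -, h3⟩ := hnd _ hux hu1 h
      exact h3 (hu _)
    refine hc (htw 1 fun w => ⟨fun _ => ?_, fun _ => Or.inl (one_mem _)⟩)
    rw [← hx, ← adj_congr (zp_eq hux hun.ge)]
    exact hu w
  have hside : ∀ u ∈ zpowers x, ∀ v ∈ zpowers x, ¬ Adj u v → e u ∉ zpowers y → e v ∉ zpowers y := by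
    intro u hu v hv huv h1 h2
    exact huv ((he _ _).2 (Or.inr (zpowers_le.2 (hU u hu h1) h2)))
  have hsymm : ∀ {u v : G}, ¬ Adj u v → ¬ Adj v u := fun h h' => h h'.symm
  have hallU : ∀ u ∈ zpowers x, orderOf u ≠ 1 → orderOf u ≠ n → e u ∉ zpowers y := by
    intro u hu h1 h2
    obtain ⟨s, hs, hsn, h3⟩ := hnd v₀ hv₀ (fun h => hv₀' (orderOf_eq_one_iff.1 h ▸ hone))
      (fun h => hv₀' (hgen _ hv₀ h))
    obtain ⟨t, ht, htn, h4⟩ := hnd u hu h1 h2
    have h5 := hside _ hv₀ _ (hax s) h3 hv₀'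
    refine hside _ (hax t) _ hu (hsymm h4) ?_
    by_cases hst : s = t
    · exact hst ▸ h5
    · refine hside _ (hax s) _ (hax t) ?_ h5
      rw [adj_iff (hax s) (hax t), hao, hao]
      exact fun h => h.elim (pp_incomp hn0 hs ht hsn hst) (pp_incomp hn0 ht hs htn (Ne.symm hst))
  have hn1 : n ≠ 1 := fun h => hp.ne_one (Nat.dvd_one.1 (h ▸ hpn))
  have hbig : n.totient + 1 ≤ orderOf y := by
    rw [← ncard_ord (x := x) dvd_rfl, ← Set.ncard_insert_of_notMem (a := 1)
      (fun h => hn1 (h.2.symm.trans orderOf_one)), ← Nat.card_zpowers y, ← SetLike.coe_sort_coe,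
      Nat.card_coe_set_eq]
    refine Set.ncard_le_ncard_of_injOn (t := (zpowers y : Set H)) e ?_ e.injective.injOn (Set.toFinite _)
    rintro u (rfl | ⟨h1, h2⟩)
    · exact hone
    · exact hgen u h1 h2
  have hφ : 0 < n.totient := Nat.totient_pos.2 (Nat.pos_of_ne_zero hn0)
  have hclq : orderOf y ≤ 2 * (orderOf y).totient := by
    refine arithC (by omega) fun s t hs ht hsy hty => ?_
    obtain ⟨u, hu, rfl⟩ := exists_ord hsy
    obtain ⟨v, hv, rfl⟩ := exists_ord hty
    have h1 : Adj (e.symm u) (e.symm v) := by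
      rw [adj_iff (hyC u hu) (hyC v hv)]
      by_cases h1 : orderOf (e.symm u) = 1
      · exact Or.inl (h1 ▸ one_dvd _)
      by_cases h2 : orderOf (e.symm u) = n
      · exact Or.inr (h2 ▸ orderOf_dvd_of_mem_zpowers (hyC v hv))
      exact absurd (by simpa using hu) (hallU _ (hyC u hu) h1 h2)
    rw [he, Equiv.apply_symm_apply, Equiv.apply_symm_apply, adj_iff hu hv,
      Nat.prime_dvd_prime_iff_eq hs ht, Nat.prime_dvd_prime_iff_eq ht hs] at h1
    exact h1.elim id Eq.symm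
  have hsm : ∀ s t : ℕ, s.Prime → t.Prime → s ≠ t → s * t ∣ n → (orderOf y).totient ≤ s - 1 := by
    intro s t hs ht hst hstn
    obtain ⟨b, hb, hbo⟩ := exists_ord (x := x) ((dvd_mul_right s t).trans hstn)
    have hbU : e b ∉ zpowers y := by
      refine hallU b hb (hbo ▸ hs.ne_one) fun h => ?_
      rw [← h, hbo] at hstn
      have := Nat.le_of_dvd hs.pos hstn
      have := ht.two_le
      have := hs.pos
      nlinarith
    have h1 : (orderOf y).totient ≤ (orderOf (e b)).totient :=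
      Nat.le_of_dvd (Nat.totient_pos.2 (orderOf_pos _))
        (Nat.totient_dvd_of_dvd (orderOf_dvd_of_mem_zpowers (hU b hb hbU)))
    refine h1.trans ?_
    rw [← Nat.totient_prime hs, ← ncard_ord (x := e b) dvd_rfl,
      ← ncard_ord (x := x) ((dvd_mul_right s t).trans hstn)]
    refine Set.ncard_le_ncard_of_injOn e.symm ?_ e.symm.injective.injOn
    rintro w ⟨hw1, hw2⟩
    have h2 : ∀ v, Adj (e.symm w) v ↔ Adj b v := fun v => by
      rw [he, Equiv.apply_symm_apply, adj_congr (zp_eq hw1 hw2.ge), he]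
    have h3 : e.symm w ∈ zpowers x := (hy _).1 ((h2 y').2 ((hy b).2 hb).symm).symm
    refine ⟨h3, arithB hs ht hst hstn fun c hc => ?_⟩
    obtain ⟨u, hu, rfl⟩ := exists_ord (x := x) hc
    rw [← adj_iff h3 hu, h2, adj_iff hb hu, hbo]
  have h1 := hsm p q hp hq hpq hpqn
  have h2 := hsm q p hq hp hpq.symm (mul_comm p q ▸ hpqn)
  have h3 : (p - 1) * (q - 1) ≤ n.totient := by
    rw [← Nat.totient_prime hp, ← Nat.totient_prime hq, ← Nat.totient_mul ((Nat.coprime_primes hp hq).2 hpq)]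
    exact Nat.le_of_dvd hφ (Nat.totient_dvd_of_dvd hpqn)
  have := hp.two_le
  have := hq.two_le
  rcases lt_or_gt_of_ne hpq with h | h
  · have : (p - 1) * 2 ≤ (p - 1) * (q - 1) := Nat.mul_le_mul_left _ (by omega)
    omega
  · have : 2 * (q - 1) ≤ (p - 1) * (q - 1) := Nat.mul_le_mul_right _ (by omega)
    omega

/-- Let G and H be finite groups whose power graphs are isomorphic: there is a bijection e : G → H such that, for all x, y, one of x, y is a power of the other exactly when one of e(x), e(y) is a power of the other. Then G and H have the same prime graph: for distinct primes p, q, G has an element of order pq if and only if H does. -/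
theorem result {G H : Type*} [Group G] [Finite G] [Group H] [Finite H] (e : G ≃ H)
    (he : ∀ x y : G, (x ∈ Subgroup.zpowers y ∨ y ∈ Subgroup.zpowers x) ↔
      (e x ∈ Subgroup.zpowers (e y) ∨ e y ∈ Subgroup.zpowers (e x)))
    {p q : ℕ} (hp : p.Prime) (hq : q.Prime) (hpq : p ≠ q) :
    (∃ g : G, orderOf g = p * q) ↔ (∃ h : H, orderOf h = p * q) := by
  refine ⟨fun ⟨g, hg⟩ => main e he hp hq hpq g hg, fun ⟨h, hh⟩ => main e.symm (fun x y => ?_) hp hq hpq h hh⟩
  have := he (e.symm x) (e.symm y)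
  rw [Equiv.apply_symm_apply, Equiv.apply_symm_apply] at this
  exact this.symm

end Cfsg.Agent.S4085
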