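import Mathlib
import Cfsg.Statements.S4086

set_option autoImplicit false
open Cfsg

namespace Cfsg.Agent.S4086

/-- For a finite group G the following are equivalent: every non-identity element has prime-power order; whenever two elements generate a cyclic subgroup, one of them is a power of the other (the enhanced power graph of G coincides with its power graph). -/
theorem result {G : Type*} [Group G] [Finite G] :
    (∀ g : G, g ≠ 1 → IsPrimePow (orderOf g)) ↔
    (∀ x y : G, IsCyclic ↥(Subgroup.closure ({x, y} : Set G)) → (x ∈ Subgroup.zpowers y ∨ y ∈ Subgroup.zpowers x)) := by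
  constructor
  · intro h x y hc
    obtain ⟨⟨g, hg⟩, hgen⟩ := IsCyclic.exists_generator (α := ↥(Subgroup.closure ({x, y} : Set G)))
    obtain ⟨i, hi⟩ := (mem_powers_iff_mem_zpowers).mpr
      (hgen ⟨x, Subgroup.subset_closure (by simp)⟩)
    obtain ⟨j, hj⟩ := (mem_powers_iff_mem_zpowers).mpr
      (hgen ⟨y, Subgroup.subset_closure (by simp)⟩)
    have hi' : g ^ i = x := congrArg Subtype.val hi
    have hj' : g ^ j = y := congrArg Subtype.val hj
    subst hi' hj'
    by_cases hg1 : g = 1
    · left; simp [hg1]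
    obtain ⟨p, k, hp, hk, hpk⟩ := (isPrimePow_nat_iff _).mp (h g hg1)
    have key : ∀ a b : ℕ, Nat.gcd (orderOf g) a ∣ Nat.gcd (orderOf g) b →
        g ^ b ∈ Subgroup.zpowers (g ^ a) := by
      intro a b hab
      obtain ⟨c, hc⟩ := hab.trans (Nat.gcd_dvd_right _ _)
      rw [hc, pow_mul]
      apply Subgroup.pow_mem
      refine ⟨Nat.gcdB (orderOf g) a, ?_⟩
      show (g ^ a) ^ (Nat.gcdB (orderOf g) a) = g ^ (Nat.gcd (orderOf g) a)
      rw [← zpow_natCast g (Nat.gcd _ _), Nat.gcd_eq_gcd_ab, zpow_add, zpow_mul, zpow_mul,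
        zpow_natCast, zpow_natCast, pow_orderOf_eq_one, one_zpow, one_mul]
    obtain ⟨a, -, ha⟩ := (Nat.dvd_prime_pow hp).mp (hpk ▸ Nat.gcd_dvd_left (orderOf g) i)
    obtain ⟨b, -, hb⟩ := (Nat.dvd_prime_pow hp).mp (hpk ▸ Nat.gcd_dvd_left (orderOf g) j)
    rw [hpk] at ha hb
    rcases le_total a b with hab | hab
    · right
      exact key i j (by rw [ha, hb]; exact pow_dvd_pow p hab)
    · left
      exact key j i (by rw [ha, hb]; exact pow_dvd_pow p hab)
  · intro h g hg
    rw [isPrimePow_iff_unique_prime_dvd]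
    obtain ⟨p, hp, hpd⟩ := Nat.exists_prime_and_dvd (n := orderOf g) (by simpa using hg)
    refine ⟨p, ⟨hp, hpd⟩, ?_⟩
    rintro q ⟨hq, hqd⟩
    have h0 : orderOf g ≠ 0 := (orderOf_pos g).ne'
    have hx := orderOf_pow_orderOf_div h0 hpd
    have hy := orderOf_pow_orderOf_div h0 hqd
    have hle : Subgroup.closure ({g ^ (orderOf g / p), g ^ (orderOf g / q)} : Set G) ≤
        Subgroup.zpowers g := by
      rw [Subgroup.closure_le]
      rintro _ (rfl | rfl) <;> exact Subgroup.pow_mem _ (Subgroup.mem_zpowers g) _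
    rcases h _ _ (Subgroup.isCyclic_of_le hle) with h1 | h1
    · have := orderOf_dvd_of_mem_zpowers h1
      rw [hx, hy] at this
      exact ((Nat.prime_dvd_prime_iff_eq hp hq).mp this).symm
    · have := orderOf_dvd_of_mem_zpowers h1
      rw [hx, hy] at this
      exact (Nat.prime_dvd_prime_iff_eq hq hp).mp this

end Cfsg.Agent.S4086
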