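import Cfsg.Statements.S4088
import Cfsg.Agent.FGS.Casolo

set_option autoImplicit false
open Cfsg

namespace Cfsg.Agent.S4088

open Subgroup CL CL.MSS CL.Casolo

/-- Let G be a finite group, p a prime dividing the order of G, H a p-subgroup of G and P a Sylow p-subgroup of G. Call the subnormalizer of H the set of elements g of G such that H is subnormal in the subgroup generated by H and g. Then the number of elements of the subnormalizer of H equals the number of Sylow p-subgroups of G containing H times the order of N_G(P), and also equals the number of conjugates of H contained in P times the order of N_G(H). -/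
theorem result {G : Type*} [Group G] [Finite G] (p : ℕ) [Fact p.Prime]
    (hp : p ∣ Nat.card G) (H : Subgroup G) (hH : IsPGroup p H) (P : Sylow p G) :
    Nat.card {g : G // ((H).subgroupOf (H ⊔ Subgroup.zpowers g)).IsSubnormal} =
        Nat.card {Q : Sylow p G // H ≤ (Q : Subgroup G)} * Nat.card (Subgroup.normalizer ((P : Subgroup G) : Set G)) ∧
    Nat.card {g : G // ((H).subgroupOf (H ⊔ Subgroup.zpowers g)).IsSubnormal} =
        Nat.card {K : Subgroup G // K ≤ (P : Subgroup G) ∧ ∃ g : G, K = H.map (MulAut.conj g).toMonoidHom} *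
          Nat.card (Subgroup.normalizer (H : Set G)) := by
  rw [card_subnormalizer hH P]
  constructor
  · have h := card_conj_prop ⊤ (P : Subgroup G) (H ≤ ·)
    rw [top_inf_eq] at h
    refine (Nat.card_congr (Equiv.subtypeEquivRight fun g => by simp)).trans (h.trans ?_)
    congr 1
    have h0 : ∀ Q : Sylow p G, ∃ g ∈ (⊤ : Subgroup G), g •ᶜ (P : Subgroup G) = Q := fun Q => by
      obtain ⟨g, hg⟩ := MulAction.exists_smul_eq G P Q
      exact ⟨g, trivial, by rw [← hg, sylow_coe_smul]⟩
    refine (Nat.card_congr (Equiv.ofBijective (fun Q => ⟨Q.1, Q.2, h0 Q.1⟩) ⟨?_, ?_⟩)).symm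
    · exact fun Q R h => Subtype.ext (Sylow.ext (congrArg Subtype.val h))
    · rintro ⟨_, h1, g, -, rfl⟩
      exact ⟨⟨g • P, h1⟩, rfl⟩
  · have h := card_conj_prop ⊤ H (· ≤ (P : Subgroup G))
    rw [top_inf_eq] at h
    refine (Nat.card_congr ((Equiv.inv G).subtypeEquiv fun g => le_cj_iff.trans (and_iff_right trivial).symm)).trans (h.trans ?_)
    congr 1
    exact Nat.card_congr (Equiv.subtypeEquivRight fun K => and_congr_right fun _ =>
      ⟨fun ⟨g, _, h⟩ => ⟨g, h.symm⟩, fun ⟨g, h⟩ => ⟨g, trivial, h.symm⟩⟩)

end Cfsg.Agent.S4088
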