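import Cfsg.Statements.S4089
import Cfsg.Agent.FGS.Casolo

set_option autoImplicit false
open Cfsg

namespace Cfsg.Agent.S4089

open Subgroup CL CL.MSS CL.Casolo

/-- Let G be a finite group, p a prime and H a p-subgroup of G. Then the set of elements g of G such that H is subnormal in the subgroup generated by H and g is the union of the normalizers N_G(R) over the subgroups R of G containing H with R = O_p(N_G(R)); and this set does not change when H is replaced by the intersection of all Sylow p-subgroups of G containing H. -/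
theorem result {G : Type*} [Group G] [Finite G] (p : ℕ) [Fact p.Prime]
    (H : Subgroup G) (hH : IsPGroup p H) :
    {g : G | ((H).subgroupOf (H ⊔ Subgroup.zpowers g)).IsSubnormal} =
      {g : G | ∃ R : Subgroup G, H ≤ R ∧ (Cfsg.pCore p (Subgroup.normalizer (R : Set G))).map (Subgroup.normalizer (R : Set G)).subtype = R ∧ g ∈ Subgroup.normalizer (R : Set G)} ∧
    ∀ g : G, (((H).subgroupOf (H ⊔ Subgroup.zpowers g)).IsSubnormal ↔
      (((sInf {K : Subgroup G | ∃ Q : Sylow p G, H ≤ (Q : Subgroup G) ∧ K = (Q : Subgroup G)})).subgroupOf ((sInf {K : Subgroup G | ∃ Q : Sylow p G, H ≤ (Q : Subgroup G) ∧ K = (Q : Subgroup G)}) ⊔ Subgroup.zpowers g)).IsSubnormal) := by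
  constructor
  · ext g
    rw [Set.mem_setOf_eq, isSubnormal_iff hH]
    refine ⟨fun h => ?_, fun ⟨R, h1, h2, h3⟩ => ⟨R, h2 ▸ isPGroup_map_pCore _, h1, h3⟩⟩
    obtain ⟨R, ⟨h1, h2, h3⟩, hmax⟩ := Set.Finite.exists_maximal (Set.toFinite
      {R : Subgroup G | IsPGroup p R ∧ H ≤ R ∧ g ∈ normalizer (R : Set G)}) h
    have h4 : R ≤ (pCore p (normalizer (R : Set G))).map (normalizer (R : Set G)).subtype :=
      le_map_pCore le_normalizer le_rfl h1
    exact ⟨R, h2, le_antisymm (hmax ⟨isPGroup_map_pCore _, h2.trans h4,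
      le_normalizer_map_subtype _ _ h3⟩ h4) h4, h3⟩
  · intro g
    have hD : ∀ R : Subgroup G, IsPGroup p R →
        IsPGroup p ↥(sInf {K : Subgroup G | ∃ Q : Sylow p G, R ≤ (Q : Subgroup G) ∧ K = (Q : Subgroup G)}) :=
      fun R hR => by
        obtain ⟨Q, hQ⟩ := hR.exists_le_sylow
        exact Q.isPGroup'.to_le (sInf_le ⟨Q, hQ, rfl⟩)
    rw [isSubnormal_iff hH, isSubnormal_iff (hD H hH)]
    refine ⟨fun ⟨R, h1, h2, h3⟩ => ⟨_, hD R h1, sInf_le_sInf ?_, mem_normalizer_of_cj_le (le_sInf ?_)⟩,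
      fun ⟨R, h1, h2, h3⟩ => ⟨R, h1, le_trans (le_sInf ?_) h2, h3⟩⟩
    · rintro _ ⟨Q, hQ, rfl⟩
      exact ⟨Q, h2.trans hQ, rfl⟩
    · rintro _ ⟨Q, hQ, rfl⟩
      rw [cj_le_iff]
      refine sInf_le ⟨g⁻¹ • Q, ?_, (sylow_coe_smul _ _).symm⟩
      rw [sylow_coe_smul, ← cj_le_iff, cj_eq_of_mem_normalizer h3]
      exact hQ
    · rintro _ ⟨Q, hQ, rfl⟩
      exact hQ

end Cfsg.Agent.S4089
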