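import Cfsg.Statements.S4090
import Cfsg.Agent.FGS.Casolo
import Cfsg.Agent.SOLV.CoprimeSylow
import Cfsg.Agent.SOLV.PiSep

set_option autoImplicit false
open scoped BigOperators
open Cfsg

namespace Cfsg.Agent.S4090

open Subgroup CL CL.MSS CL.Casolo

theorem step {G : Type*} [Group G] [Finite G] {p : ℕ} [Fact p.Prime] {H : Subgroup G} (hH : IsPGroup p H)
    (P : Sylow p G) {A B : Subgroup G} [hA : A.Normal] [hB : B.Normal] (hAB : A ≤ B)
    (hc : (A.relIndex B).Coprime p) :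
    Nat.card ↥((P : Subgroup G) ⊔ B) = Nat.card ↥((P : Subgroup G) ⊔ A) * A.relIndex B ∧
    Nat.card {g : G // H ≤ g •ᶜ ((P : Subgroup G) ⊔ A)} * A.relIndex B =
      Nat.card {g : G // H ≤ g •ᶜ ((P : Subgroup G) ⊔ B)} *
        (Nat.card {u : G // u ∈ B ∧ ∀ h ∈ H, h * u * h⁻¹ * u⁻¹ ∈ A} / Nat.card A) := by
  have hPB : (P : Subgroup G) ⊓ B ≤ A := by
    have h1 : ((P : Subgroup G) ⊓ B).subgroupOf B ≤ A.subgroupOf B :=
      le_of_coprime_index (coprime_card_of_isPGroup (isPGroup_subgroupOf P.isPGroup'.to_inf_left B) hc).symm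
    exact fun x hx => h1 (x := ⟨x, hx.2⟩) hx
  have hPAB : ∀ x ∈ (P : Subgroup G) ⊔ A, x ∈ B → x ∈ A := fun x h1 h2 => by
    obtain ⟨y, hy, a, ha, rfl⟩ := mem_sup_of_normal_right.1 h1
    exact mul_mem (hPB ⟨hy, (mul_mem_cancel_right (hAB ha)).1 h2⟩) ha
  have hA0 : 0 < Nat.card A := Nat.card_pos
  have hcard := card_mul_relIndex_of_le hAB
  constructor
  · have h1 := card_sup_mul_card_inf (P : Subgroup G) A
    have h2 := card_sup_mul_card_inf (P : Subgroup G) B
    rw [← hcard, ← mul_assoc, ← h1, show (P : Subgroup G) ⊓ B = (P : Subgroup G) ⊓ A from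
      le_antisymm (le_inf inf_le_left hPB) (inf_le_inf_left _ hAB), mul_right_comm] at h2
    exact Nat.eq_of_mul_eq_mul_right Nat.card_pos h2
  let C : Subgroup G := B ⊓ (centralizer (H.map (QuotientGroup.mk' A) : Set (G ⧸ A))).comap
    (QuotientGroup.mk' A)
  have hC : ∀ u, u ∈ C ↔ u ∈ B ∧ ∀ h ∈ H, h * u * h⁻¹ * u⁻¹ ∈ A := fun u => by
    rw [mem_inf, mem_comap, mem_centralizer_iff]
    refine and_congr_right fun _ => ?_
    have h1 : ∀ h : G, h * u * h⁻¹ * u⁻¹ ∈ A ↔ (h : G ⧸ A) * u = u * h := fun h => by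
      rw [← QuotientGroup.eq_one_iff, QuotientGroup.mk_mul, QuotientGroup.mk_mul, QuotientGroup.mk_mul,
        QuotientGroup.mk_inv, QuotientGroup.mk_inv, mul_inv_eq_one, mul_inv_eq_iff_eq_mul]
    exact ⟨fun h2 h hh => (h1 h).2 (h2 _ ⟨h, hh, rfl⟩), by rintro h2 _ ⟨h, hh, rfl⟩; exact (h1 h).1 (h2 h hh)⟩
  have hAC : A ≤ C := fun a ha => (hC a).2 ⟨hAB ha, fun h _ => mul_mem (hA.conj_mem a ha h) (inv_mem ha)⟩
  rw [← Nat.card_congr (Equiv.subtypeEquivRight hC), ← card_mul_relIndex_of_le hAC,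
    Nat.mul_div_cancel_left _ hA0]
  have key : ∀ g : G, H ≤ g •ᶜ ((P : Subgroup G) ⊔ B) → ∃ w : G, (w : G ⧸ B) = g ∧ H ≤ w •ᶜ (P : Subgroup G) := by
    intro g hg
    obtain ⟨x, hx, h1⟩ := (sylIn_sylow P le_sup_left).exists_le_conj (isPGroup_cj g⁻¹ hH) (le_cj_iff.1 hg)
    obtain ⟨b, hb, y, hy, rfl⟩ := mem_sup_of_normal_left.1 (sup_comm (P : Subgroup G) B ▸ hx)
    rw [cj_mul, cj_eq_of_mem hy, ← le_cj_iff, ← cj_mul] at h1
    exact ⟨g * b, by simp [(QuotientGroup.eq_one_iff b).2 hb], h1⟩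
  have hq : ∀ y w : G, (y : G ⧸ B) = w ↔ y * w⁻¹ ∈ B := fun y w => by
    rw [← QuotientGroup.eq_one_iff, QuotientGroup.mk_mul, QuotientGroup.mk_inv, mul_inv_eq_one]
  have h1 := card_eq_image_mul {g : G | H ≤ g •ᶜ ((P : Subgroup G) ⊔ B)} (fun g => (g : G ⧸ B)) B (by
    rintro _ ⟨t, ht, rfl⟩
    refine ⟨t, Or.inl fun y => ?_⟩
    rw [eq_comm, QuotientGroup.eq]
    refine ⟨fun h => h.2, fun h => ⟨?_, h⟩⟩
    have : y = t * (t⁻¹ * y) := by group
    rw [Set.mem_ofPred_eq, this, cj_mul, cj_eq_of_mem (mem_sup_right h)]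
    exact ht)
  have hmono : ∀ g : G, H ≤ g •ᶜ ((P : Subgroup G) ⊔ A) → H ≤ g •ᶜ ((P : Subgroup G) ⊔ B) :=
    fun g h => h.trans (cj_mono g (sup_le_sup_left hAB _))
  have h2 := card_eq_image_mul {g : G | H ≤ g •ᶜ ((P : Subgroup G) ⊔ A)} (fun g => (g : G ⧸ B)) C (by
    rintro _ ⟨t, ht, rfl⟩
    obtain ⟨w, hw, hw'⟩ := key t (hmono t ht)
    refine ⟨w, Or.inr fun y => ?_⟩
    rw [← C.inv_mem_iff, hC, inv_mem_iff, ← hq, hw, and_comm]
    refine and_congr_right fun hy => ?_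
    replace hy := (hq y w).1 (hy.trans hw.symm)
    have h3 : ∀ h ∈ H, y⁻¹ * h * y = (w⁻¹ * h * w) *
        (w⁻¹ * (h⁻¹ * (y * w⁻¹)⁻¹ * h⁻¹⁻¹ * (y * w⁻¹)⁻¹⁻¹) * w⁻¹⁻¹) := fun h _ => by group
    constructor
    · intro h4 h hh
      have h5 := mem_cj.1 (h4 (inv_mem hh))
      rw [h3 _ (inv_mem hh), mul_mem_cancel_left (mem_sup_left (mem_cj.1 (hw' (inv_mem hh)))),
        inv_inv h] at h5
      have h6 := hA.conj_mem _ (hPAB _ h5 (hB.conj_mem _ (mul_mem (hB.conj_mem _ (inv_mem hy) _)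
        (inv_mem (inv_mem hy))) _)) w
      convert h6 using 1
      group
    · intro h4 h hh
      rw [mem_cj, h3 h hh]
      exact mul_mem (mem_sup_left (mem_cj.1 (hw' hh))) (mem_sup_right (hA.conj_mem _ (h4 _ (inv_mem hh)) _)))
  have h3 : (fun g : G => (g : G ⧸ B)) '' {g : G | H ≤ g •ᶜ ((P : Subgroup G) ⊔ A)} =
      (fun g : G => (g : G ⧸ B)) '' {g : G | H ≤ g •ᶜ ((P : Subgroup G) ⊔ B)} := by
    refine Set.Subset.antisymm (Set.image_mono hmono) ?_
    rintro _ ⟨t, ht, rfl⟩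
    obtain ⟨w, hw, hw'⟩ := key t ht
    exact ⟨w, hw'.trans (cj_mono w le_sup_left), hw⟩
  rw [h3, ← card_mul_relIndex_of_le hAC] at h2
  rw [← hcard] at h1
  refine (congrArg (· * _) h2).trans (Eq.trans ?_ (congrArg (· * _) h1).symm)
  ring

/-- Let G be a finite p-solvable group, H a p-subgroup of G and P a Sylow p-subgroup, and fix a chain of normal subgroups 1 = M₀ ≤ M₁ ≤ ⋯ ≤ Mₙ = G of G each of whose factors is a p-group or a p'-group. Then the number of elements g of G such that H is subnormal in the subgroup generated by H and g equals the order of P times the product, over the factors Mᵢ₊₁/Mᵢ of order prime to p, of the order of the centralizer of H in Mᵢ₊₁/Mᵢ (counted as the number of u ∈ Mᵢ₊₁ with [h, u] ∈ Mᵢ for all h ∈ H, divided by the order of Mᵢ). -/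
theorem result {G : Type*} [Group G] [Finite G] (p : ℕ) [Fact p.Prime]
    (hG : Cfsg.IsPSolvable p G) (H : Subgroup G) (hH : IsPGroup p H) (P : Sylow p G)
    (n : ℕ) (M : Fin (n + 1) → Subgroup G) (h0 : M 0 = ⊥) (hn : M (Fin.last n) = ⊤) (hmono : Monotone M)
    (hnormal : ∀ i, (M i).Normal)
    (hfac : ∀ i : Fin n, (∃ m : ℕ, (M i.castSucc).relIndex (M i.succ) = p ^ m) ∨ ((M i.castSucc).relIndex (M i.succ)).Coprime p) :
    Nat.card {g : G // ((H).subgroupOf (H ⊔ Subgroup.zpowers g)).IsSubnormal} =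
      Nat.card (P : Subgroup G) *
        ∏ i : Fin n, (if ((M i.castSucc).relIndex (M i.succ)).Coprime p then
          Nat.card {u : G // u ∈ M i.succ ∧ ∀ h ∈ H, h * u * h⁻¹ * u⁻¹ ∈ M i.castSucc} / Nat.card (M i.castSucc)
          else 1) := by
  rw [card_subnormalizer hH P]
  set c : Fin n → ℕ := fun i => (if ((M i.castSucc).relIndex (M i.succ)).Coprime p then
    Nat.card {u : G // u ∈ M i.succ ∧ ∀ h ∈ H, h * u * h⁻¹ * u⁻¹ ∈ M i.castSucc} / Nat.card (M i.castSucc)
    else 1) with hc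
  have key : ∀ k : Fin (n + 1), Nat.card {g : G // H ≤ g •ᶜ (P : Subgroup G)} * Nat.card ↥((P : Subgroup G) ⊔ M k) =
      Nat.card {g : G // H ≤ g •ᶜ ((P : Subgroup G) ⊔ M k)} * (Nat.card (P : Subgroup G) *
        ∏ i : Fin n with i.castSucc < k, c i) := by
    intro k
    induction k using Fin.induction with
    | zero => simp [h0]
    | succ k ih =>
      have h1 : (Finset.univ.filter fun i : Fin n => i.castSucc < k.succ) =
          insert k (Finset.univ.filter fun i : Fin n => i.castSucc < k.castSucc) := by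
        ext i
        simp only [Finset.mem_filter, Finset.mem_univ, true_and, Finset.mem_insert, Fin.lt_def, Fin.ext_iff,
          Fin.val_succ, Fin.val_castSucc]
        omega
      rw [h1, Finset.prod_insert (by simp)]
      have := hnormal k.castSucc
      have := hnormal k.succ
      have hle : M k.castSucc ≤ M k.succ := hmono (Fin.castSucc_lt_succ).le
      by_cases h2 : ((M k.castSucc).relIndex (M k.succ)).Coprime p
      · obtain ⟨h3, h4⟩ := step hH P hle h2
        rw [h3, ← mul_assoc, ih, mul_right_comm, h4, hc]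
        simp only [if_pos h2]
        ring
      · obtain ⟨m, hm⟩ := (hfac k).resolve_right h2
        have h3 : (P : Subgroup G) ⊔ M k.succ = (P : Subgroup G) ⊔ M k.castSucc := by
          refine le_antisymm (sup_le le_sup_left ?_) (sup_le_sup_left hle _)
          rw [← relIndex_eq_one]
          refine Nat.eq_one_of_dvd_coprimes (((Nat.Prime.coprime_iff_not_dvd Fact.out).2
            P.not_dvd_index).pow_left m) (hm ▸ relIndex_dvd_of_le_left _ le_sup_right)
            ((relIndex_dvd_of_le_left _ le_sup_left).trans (relIndex_normal_dvd_index _ _))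
        rw [h3, ih, hc]
        simp only [if_neg h2, one_mul]
  have h := key (Fin.last n)
  rw [hn, sup_top_eq, Finset.filter_true_of_mem (fun i _ => Fin.castSucc_lt_last i), Subgroup.card_top,
    mul_comm] at h
  simp only [cj_top, le_top, Nat.card_congr (Equiv.subtypeUnivEquiv fun _ => trivial)] at h
  exact Nat.eq_of_mul_eq_mul_left Nat.card_pos h

end Cfsg.Agent.S4090
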