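import Cfsg.Statements.S4091
import Cfsg.Agent.FGS.NavRizo
import Cfsg.Agent.FGS.SylowNum
import Cfsg.Agent.FGS.Pronormal
import Cfsg.Agent.SOLV.PSolvable

set_option autoImplicit false
open Cfsg

namespace Cfsg.Agent.S4091


open Subgroup

noncomputable def mu {G : Type*} [Group G] (P : Subgroup G) (x : G) : ℕ :=
  Nat.card {g : G // g * x * g⁻¹ ∈ P}

theorem mu_le {G : Type*} [Group G] [Finite G] (N P C : Subgroup G) [N.Normal] (x : G)
    (h : ∀ g n : G, n ∈ N → g * x * g⁻¹ ∈ P → (g * n) * x * (g * n)⁻¹ ∈ P → n ∈ C) :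
    mu P x ≤ mu (P.map (QuotientGroup.mk' N)) (QuotientGroup.mk' N x) * Nat.card C := by
  classical
  have := Fintype.ofFinite G
  have := Fintype.ofFinite (G ⧸ N)
  unfold mu
  rw [Nat.card_eq_fintype_card, Nat.card_eq_fintype_card, Fintype.card_subtype,
    Fintype.card_subtype, mul_comm]
  refine Finset.card_le_mul_card_image_of_maps_to (f := QuotientGroup.mk' N) ?_ _ ?_
  · intro g hg
    simp only [Finset.mem_filter, Finset.mem_univ, true_and] at hg ⊢
    exact ⟨_, hg, by simp⟩
  · intro b _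
    rcases Finset.eq_empty_or_nonempty
      (((Finset.univ.filter fun g : G => g * x * g⁻¹ ∈ P)).filter
        fun a => QuotientGroup.mk' N a = b) with h0 | ⟨g, hg⟩
    · rw [h0]; simp
    · simp only [Finset.mem_filter, Finset.mem_univ, true_and] at hg
      rw [Nat.card_eq_fintype_card, Fintype.card_subtype]
      refine Finset.card_le_card_of_injOn (fun a => g⁻¹ * a) ?_ ?_
      · intro a ha
        simp only [Finset.coe_filter, Finset.mem_filter, Finset.mem_univ, true_and,
          Set.mem_setOf_eq] at ha ⊢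
        refine h g _ ?_ hg.1 (by simpa using ha.1)
        exact QuotientGroup.eq.1 (hg.2.trans ha.2.symm)
      · intro a _ b _ hab
        exact mul_left_cancel hab

theorem prod_surj {A B : Type*} [Group A] [Group B] [Fintype A] [Fintype B] (φ : A →* B)
    (hφ : Function.Surjective φ) (F : B → ℕ) :
    ∏ a, F (φ a) = (∏ b, F b) ^ Nat.card φ.ker := by
  classical
  rw [← Finset.prod_fiberwise (s := Finset.univ) (g := φ), ← Finset.prod_pow]
  refine Finset.prod_congr rfl fun b _ => ?_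
  rw [Finset.prod_congr rfl (g := fun _ => F b) (fun a ha => by
    rw [(Finset.mem_filter.1 ha).2]), Finset.prod_const]
  congr 1
  rw [MonoidHom.card_fiber_eq_of_mem_range φ (hφ b) (hφ 1), Nat.card_eq_fintype_card,
    Fintype.card_subtype]
  simp [MonoidHom.mem_ker]

theorem card_normalizer {G : Type*} [Group G] [Finite G] {p : ℕ} [Fact p.Prime] (P : Sylow p G)
    (N : Subgroup G) [N.Normal] :
    Nat.card (normalizer ((P : Subgroup G) : Set G)) =
      Nat.card (normalizer (((P : Subgroup G).map (QuotientGroup.mk' N) : Subgroup (G ⧸ N)) :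
        Set (G ⧸ N))) * Nat.card ↥(normalizer ((P : Subgroup G) : Set G) ⊓ N) := by
  have h1 := CL.SN.index_normalizer_of_isPronormal (CL.Pron.isPronormal_sylow P) N
  have h2 := (normalizer ((P : Subgroup G) : Set G)).card_mul_index
  have h3 := (normalizer (((P : Subgroup G).map (QuotientGroup.mk' N) : Subgroup (G ⧸ N)) :
        Set (G ⧸ N))).card_mul_index
  have h4 := N.card_mul_index
  rw [N.index_eq_card] at h4
  have h5 := ((normalizer ((P : Subgroup G) : Set G)).subgroupOf N).card_mul_index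
  have h6 : Nat.card ((normalizer ((P : Subgroup G) : Set G)).subgroupOf N) =
      Nat.card ↥(normalizer ((P : Subgroup G) : Set G) ⊓ N) := by
    rw [← inf_subgroupOf_right]
    exact Nat.card_congr (subgroupOfEquivOfLe inf_le_right).toEquiv
  have h7 : 0 < (normalizer ((P : Subgroup G) : Set G)).index :=
    Nat.pos_of_ne_zero (index_ne_zero_of_finite)
  refine Nat.eq_of_mul_eq_mul_right h7 ?_
  rw [h2, h1, ← h4, ← h3, ← h5, h6]
  unfold relIndex
  ring

theorem key (p : ℕ) [hp : Fact p.Prime] (G : Type*) [Group G] [Finite G] :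
    Cfsg.IsPSolvable p G → ∀ (P : Sylow p G) [Fintype (P : Subgroup G)],
      (∏ x : (P : Subgroup G), mu (P : Subgroup G) (x : G)) ^ p ≤
        Nat.card G ^ Nat.card (P : Subgroup G) *
          Nat.card (normalizer ((P : Subgroup G) : Set G)) ^ ((p - 1) * Nat.card (P : Subgroup G)) := by
  refine CL.card_induction (P := fun G _ _ => Cfsg.IsPSolvable p G →
    ∀ (P : Sylow p G) [Fintype (P : Subgroup G)],
      (∏ x : (P : Subgroup G), mu (P : Subgroup G) (x : G)) ^ p ≤
        Nat.card G ^ Nat.card (P : Subgroup G) *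
          Nat.card (normalizer ((P : Subgroup G) : Set G)) ^
            ((p - 1) * Nat.card (P : Subgroup G))) ?_ G
  intro G _ _ ih hG P _
  have hpp : ∀ m : ℕ, m * p = m + (p - 1) * m := fun m => by
    obtain ⟨k, hk⟩ : ∃ k, p = k + 1 := ⟨p - 1, (Nat.succ_pred_eq_of_pos hp.out.pos).symm⟩
    rw [hk, Nat.add_sub_cancel]; ring
  have step : ∀ (N : Subgroup G) [N.Normal], N ≠ ⊥ → ∀ c : ↥(P : Subgroup G) → ℕ,
      (∀ x : (P : Subgroup G), mu (P : Subgroup G) (x : G) ≤
        mu ((P : Subgroup G).map (QuotientGroup.mk' N)) (QuotientGroup.mk' N x) * c x) →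
      (∏ x, c x) ^ p ≤ Nat.card N ^ Nat.card (P : Subgroup G) *
        Nat.card ↥(normalizer ((P : Subgroup G) : Set G) ⊓ N) ^
          ((p - 1) * Nat.card (P : Subgroup G)) →
      (∏ x : (P : Subgroup G), mu (P : Subgroup G) (x : G)) ^ p ≤
        Nat.card G ^ Nat.card (P : Subgroup G) *
          Nat.card (normalizer ((P : Subgroup G) : Set G)) ^
            ((p - 1) * Nat.card (P : Subgroup G)) := by
    intro N _ hN c hc hprod
    have hlt : Nat.card (G ⧸ N) < Nat.card G := by
      rw [← N.index_eq_card, ← N.card_mul_index]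
      exact lt_mul_of_one_lt_left (Nat.pos_of_ne_zero N.index_ne_zero_of_finite)
        (N.one_lt_card_iff_ne_bot.2 hN)
    let Q : Sylow p (G ⧸ N) := P.mapSurjective (QuotientGroup.mk'_surjective N)
    have : Fintype (Q : Subgroup (G ⧸ N)) := Fintype.ofFinite _
    have h1 := ih (G ⧸ N) hlt (CL.IsPSolvable.quotient hG N) Q
    let φ : (P : Subgroup G) →* (Q : Subgroup (G ⧸ N)) :=
      (QuotientGroup.mk' N).subgroupMap (P : Subgroup G)
    have hφ : Function.Surjective φ := (QuotientGroup.mk' N).subgroupMap_surjective _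
    have h2 := prod_surj φ hφ (fun y => mu (Q : Subgroup (G ⧸ N)) (y : G ⧸ N))
    have h3 : Nat.card (P : Subgroup G) = Nat.card (Q : Subgroup (G ⧸ N)) * Nat.card φ.ker := by
      rw [← φ.ker.card_mul_index, index_ker, MonoidHom.range_eq_top_of_surjective φ hφ, card_top,
        mul_comm]
    have h4 := card_normalizer P N
    have h5 := N.card_mul_index
    rw [N.index_eq_card] at h5
    calc (∏ x : (P : Subgroup G), mu (P : Subgroup G) (x : G)) ^ p
        ≤ (∏ x : (P : Subgroup G), (mu (Q : Subgroup (G ⧸ N)) (φ x : G ⧸ N) * c x)) ^ p :=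
          Nat.pow_le_pow_left (Finset.prod_le_prod' fun x _ => hc x) _
      _ = ((∏ y : (Q : Subgroup (G ⧸ N)), mu (Q : Subgroup (G ⧸ N)) (y : G ⧸ N)) ^ p) ^
            Nat.card φ.ker * (∏ x, c x) ^ p := by
          rw [Finset.prod_mul_distrib, h2, mul_pow, ← pow_mul, ← pow_mul, mul_comm p]
      _ ≤ _ := Nat.mul_le_mul (Nat.pow_le_pow_left h1 _) hprod
      _ = _ := by
          rw [h4, ← h5, h3]
          show (_ * Nat.card (normalizer (((P : Subgroup G).map (QuotientGroup.mk' N) :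
            Subgroup (G ⧸ N)) : Set (G ⧸ N))) ^ _) ^ _ * _ = _
          simp only [mul_pow, ← pow_mul]
          ring
  rcases subsingleton_or_nontrivial G with hs | hs
  · have h1 : ∀ x : (P : Subgroup G), mu (P : Subgroup G) (x : G) ≤ 1 := fun x =>
      Finite.card_le_one_iff_subsingleton.2 inferInstance
    refine le_trans (Nat.pow_le_pow_left (Finset.prod_le_one' fun x _ => h1 x) _) ?_
    rw [one_pow]
    exact Nat.mul_pos (pow_pos Nat.card_pos _) (pow_pos Nat.card_pos _)
  rcases CL.IsPSolvable.pCore_ne_bot_or hG with h | h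
  · have hle : pCore p G ≤ (P : Subgroup G) := (CL.isPGroup_pCore p G).le_sylow_of_normal P
    refine step (pCore p G) h (fun _ => Nat.card (pCore p G))
      (fun x => mu_le _ _ _ _ fun g n hn _ _ => hn) ?_
    rw [inf_eq_right.2 (hle.trans le_normalizer), Finset.prod_const, Finset.card_univ,
      ← Nat.card_eq_fintype_card, ← pow_mul, hpp, pow_add]
  · set N := pPrimeCore p G with hN
    have hcop : ¬ p ∣ Nat.card N :=
      (Nat.Prime.coprime_iff_not_dvd hp.out).1 (CL.coprime_card_pPrimeCore p G).symm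
    have hbot : (P : Subgroup G) ⊓ N = ⊥ :=
      inf_eq_bot_of_coprime (CL.coprime_card_of_isPGroup P.isPGroup'
        (CL.coprime_card_pPrimeCore p G)).symm
    refine step N h (fun x => Nat.card ↥(N ⊓ centralizer {(x : G)}))
      (fun x => mu_le _ _ _ _ fun g n hn h1 h2 => mem_inf.2 ⟨hn, ?_⟩) ?_
    · have h3 : (g * n * x * (g * n)⁻¹) * (g * x * g⁻¹)⁻¹ ∈ (P : Subgroup G) ⊓ N := by
        refine mem_inf.2 ⟨mul_mem h2 (inv_mem h1), ?_⟩
        have : (g * n * x * (g * n)⁻¹) * (g * x * g⁻¹)⁻¹ =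
            g * (n * (x * n⁻¹ * (x : G)⁻¹)) * g⁻¹ := by group
        rw [this]
        exact Normal.conj_mem inferInstance _
          (mul_mem hn (Normal.conj_mem inferInstance _ (inv_mem hn) _)) _
      rw [hbot, mem_bot] at h3
      refine mem_centralizer_singleton_iff.2 ?_
      have : n * x = g⁻¹ * ((g * n * x * (g * n)⁻¹) * (g * x * g⁻¹)⁻¹) * g * (x * n) := by group
      rw [this, h3]; group
    · refine (CL.FGS.NavRizo.order_le hp.out (P : Subgroup G) N P.isPGroup'
        (by rw [normalizer_eq_top]; exact le_top) hcop).trans ?_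
      refine Nat.mul_le_mul_left _ (Nat.pow_le_pow_left (card_le_of_le ?_) _)
      exact le_inf (inf_le_right.trans (centralizer_le_normalizer _)) inf_le_left

theorem mu_conj {G : Type*} [Group G] (P : Subgroup G) (x h : G) :
    mu P (h * x * h⁻¹) = mu P x := by
  unfold mu
  refine Nat.card_congr ((Equiv.mulRight h).subtypeEquiv fun g => ?_)
  simp [mul_assoc]

theorem count {G : Type*} [Group G] [Finite G] {p : ℕ} [Fact p.Prime] (P : Sylow p G)
    [Fintype (P : Subgroup G)] :
    (∀ x : (P : Subgroup G), 0 < mu (P : Subgroup G) (x : G)) ∧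
    (Nat.card {g : G // ∃ k : ℕ, orderOf g = p ^ k} : ℝ) =
      Nat.card G * ∑ x : (P : Subgroup G), (mu (P : Subgroup G) (x : G) : ℝ)⁻¹ := by
  classical
  have := Fintype.ofFinite G
  have hpos : ∀ y : G, (∃ k : ℕ, orderOf y = p ^ k) → 0 < mu (P : Subgroup G) y := by
    intro y ⟨k, hk⟩
    have hy : IsPGroup p (zpowers y) := IsPGroup.of_card (by rw [Nat.card_zpowers, hk])
    obtain ⟨Q, hQ⟩ := hy.exists_le_sylow
    obtain ⟨g, hg⟩ := MulAction.exists_smul_eq G Q P
    have : Nonempty {g : G // g * y * g⁻¹ ∈ (P : Subgroup G)} := by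
      refine ⟨⟨g, ?_⟩⟩
      rw [← hg]
      exact smul_mem_pointwise_smul y (MulAut.conj g) _ (hQ (mem_zpowers y))
    exact Nat.card_pos
  have hP : ∀ x : G, x ∈ (P : Subgroup G) → ∃ k : ℕ, orderOf x = p ^ k := by
    intro x hx
    obtain ⟨k, hk⟩ := IsPGroup.iff_orderOf.1 P.isPGroup' ⟨x, hx⟩
    exact ⟨k, by rw [← hk, orderOf_mk]⟩
  refine ⟨fun x => hpos x (hP x x.2), ?_⟩
  have h1 : ∀ y : G, ∑ g : G, (if g * y * g⁻¹ ∈ (P : Subgroup G) then
      (mu (P : Subgroup G) y : ℝ)⁻¹ else 0) = if ∃ k : ℕ, orderOf y = p ^ k then 1 else 0 := by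
    intro y
    rw [← Finset.sum_filter, Finset.sum_const, ← Fintype.card_subtype, ← Nat.card_eq_fintype_card]
    split_ifs with hy
    · rw [nsmul_eq_mul]
      exact mul_inv_cancel₀ (Nat.cast_ne_zero.2 (hpos y hy).ne')
    · have : IsEmpty {g : G // g * y * g⁻¹ ∈ (P : Subgroup G)} := by
        refine ⟨fun ⟨g, hg⟩ => hy ?_⟩
        obtain ⟨k, hk⟩ := hP _ hg
        exact ⟨k, by rw [← hk]; exact ((MulAut.conj g).orderOf_eq y).symm⟩
      simp
  have h2 : ∀ g : G, ∑ y : G, (if g * y * g⁻¹ ∈ (P : Subgroup G) then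
      (mu (P : Subgroup G) y : ℝ)⁻¹ else 0) =
      ∑ x : (P : Subgroup G), (mu (P : Subgroup G) (x : G) : ℝ)⁻¹ := by
    intro g
    rw [← Finset.sum_subtype (Finset.univ.filter fun x : G => x ∈ (P : Subgroup G)) (by simp)
      (fun x => (mu (P : Subgroup G) x : ℝ)⁻¹), Finset.sum_filter]
    refine Fintype.sum_equiv (MulAut.conj g).toEquiv _ _ fun y => ?_
    simp [mu_conj]
  rw [Nat.card_eq_fintype_card, Fintype.card_subtype, Finset.card_filter]
  push_cast
  rw [← Finset.sum_congr rfl fun y _ => h1 y, Finset.sum_comm, Finset.sum_congr rfl fun g _ => h2 g,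
    Finset.sum_const, Finset.card_univ, nsmul_eq_mul, Nat.card_eq_fintype_card]

/-- Let G be a finite p-solvable group, P a Sylow p-subgroup of G, u the number of p-elements of G (elements of p-power order, the identity included) and n the number of Sylow p-subgroups of G. Then u/#P ≥ n^((p−1)/p), stated as u^p ≥ #P^p · n^(p−1). -/
theorem result {G : Type*} [Group G] [Finite G] (p : ℕ) [Fact p.Prime]
    (hG : Cfsg.IsPSolvable p G) (P : Sylow p G) :
    Nat.card (P : Subgroup G) ^ p * Nat.card (Sylow p G) ^ (p - 1) ≤ Nat.card {g : G // ∃ k : ℕ, orderOf g = p ^ k} ^ p := by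
  classical
  have hp : p.Prime := Fact.out
  have : Fintype (P : Subgroup G) := Fintype.ofFinite _
  obtain ⟨hpos, hcount⟩ := count P
  have hkey := key p G hG P
  have hn := (Subgroup.normalizer ((P : Subgroup G) : Set G)).card_mul_index
  rw [← CL.SN.card_sylow_eq_index] at hn
  set u := Nat.card {g : G // ∃ k : ℕ, orderOf g = p ^ k}
  set n := Nat.card (Sylow p G)
  set v := Nat.card (Subgroup.normalizer ((P : Subgroup G) : Set G))
  set m := Nat.card (P : Subgroup G) with hm
  have hm0 : 0 < m := Nat.card_pos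
  have hv0 : 0 < v := Nat.card_pos
  have hn0 : 0 < n := Nat.card_pos
  set S : ℝ := ∑ x : (P : Subgroup G), (mu (P : Subgroup G) (x : G) : ℝ)⁻¹ with hS
  have hamgm := Real.geom_mean_le_arith_mean (Finset.univ : Finset (P : Subgroup G)) (fun _ => 1)
    (fun x => (mu (P : Subgroup G) (x : G) : ℝ)⁻¹) (fun _ _ => zero_le_one)
    (by simp [← Nat.card_eq_fintype_card]) (fun _ _ => by positivity)
  simp only [Real.rpow_one, Finset.sum_const, Finset.card_univ, nsmul_eq_mul, mul_one, one_mul,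
    ← Nat.card_eq_fintype_card, ← hm, ← hS] at hamgm
  have h1 : ∏ x : (P : Subgroup G), (mu (P : Subgroup G) (x : G) : ℝ)⁻¹ ≤ (S / m) ^ m := by
    have h2 := pow_le_pow_left₀ (by positivity) hamgm m
    rwa [Real.rpow_inv_natCast_pow (by positivity) hm0.ne'] at h2
  rw [Finset.prod_inv_distrib, ← Nat.cast_prod] at h1
  set Z := ∏ x : (P : Subgroup G), mu (P : Subgroup G) (x : G)
  have hZ : 0 < Z := Finset.prod_pos fun x _ => hpos x
  have hZ' : (0 : ℝ) < Z := Nat.cast_pos.2 hZ
  have hS0 : 0 ≤ S := Finset.sum_nonneg fun _ _ => by positivity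
  have h3 : (1 : ℝ) ≤ (S / m) ^ m * Z := by
    rwa [inv_le_iff_one_le_mul₀ hZ'] at h1
  have h4 : (1 : ℝ) ≤ ((S / m) ^ p * (Nat.card G * v ^ (p - 1))) ^ m := by
    have h5 : ((Z : ℝ)) ^ p ≤ (Nat.card G : ℝ) ^ m * (v : ℝ) ^ ((p - 1) * m) := by
      exact_mod_cast hkey
    calc (1 : ℝ) ≤ ((S / m) ^ m * Z) ^ p := one_le_pow₀ h3
      _ = ((S / m) ^ m) ^ p * (Z : ℝ) ^ p := mul_pow _ _ _
      _ ≤ ((S / m) ^ m) ^ p * ((Nat.card G : ℝ) ^ m * (v : ℝ) ^ ((p - 1) * m)) :=
          mul_le_mul_of_nonneg_left h5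
            (pow_nonneg (pow_nonneg (div_nonneg hS0 (Nat.cast_nonneg _)) _) _)
      _ = _ := by simp only [mul_pow, ← pow_mul, mul_comm m p]
  clear_value S u n v m Z
  have h6 : (1 : ℝ) ≤ (S / m) ^ p * (Nat.card G * v ^ (p - 1)) :=
    (one_le_pow_iff_of_nonneg (mul_nonneg (pow_nonneg (div_nonneg hS0 (Nat.cast_nonneg _)) _)
      (mul_nonneg (Nat.cast_nonneg _) (pow_nonneg (Nat.cast_nonneg _) _))) hm0.ne').1 h4
  clear h1 h3 h4 hamgm hkey
  obtain ⟨k, hk⟩ : ∃ k, p = k + 1 := ⟨p - 1, (Nat.succ_pred_eq_of_pos hp.pos).symm⟩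
  rw [hk, Nat.add_sub_cancel] at h6 ⊢
  have hm' : (0 : ℝ) < m := Nat.cast_pos.2 hm0
  have goal : (m : ℝ) ^ (k + 1) * (n : ℝ) ^ k ≤ (u : ℝ) ^ (k + 1) := by
    rw [hcount, ← hn]
    rw [← hn] at h6
    push_cast at h6 ⊢
    rw [div_pow, div_mul_eq_mul_div, one_le_div (by positivity)] at h6
    calc (m : ℝ) ^ (k + 1) * (n : ℝ) ^ k ≤ (S ^ (k + 1) * (v * n * v ^ k)) * (n : ℝ) ^ k :=
          mul_le_mul_of_nonneg_right h6 (by positivity)
      _ = _ := by ring
  exact_mod_cast goal

end Cfsg.Agent.S4091
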