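import Mathlib
import Cfsg.Statements.S4092
import Cfsg.Agent.SOLV.Core

set_option autoImplicit false
open Cfsg

namespace Cfsg.Agent.S4092

/-- Let G be a finite group, p a prime and P a Sylow p-subgroup of G that is not normal in G. Then G has at least p·#P elements of p-power order (the identity included). -/
theorem result {G : Type*} [Group G] [Finite G] (p : ℕ) [Fact p.Prime]
    (P : Sylow p G) (hP : ¬ (P : Subgroup G).Normal) :
    p * Nat.card (P : Subgroup G) ≤ Nat.card {g : G // ∃ k : ℕ, orderOf g = p ^ k} := by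
  classical
  haveI := Fintype.ofFinite G
  haveI := Fintype.ofFinite (Sylow p G)
  have hp : p.Prime := Fact.out
  have hns : ∃ Q : Sylow p G, Q ≠ P := by
    by_contra h
    push Not at h
    haveI : Subsingleton (Sylow p G) := ⟨fun a b => (h a).trans (h b).symm⟩
    exact hP P.normal_of_subsingleton
  obtain ⟨Q0, hQ0⟩ := hns
  obtain ⟨⟨A, B⟩, hAB, hmax⟩ := Finset.exists_max_image
    (Finset.univ.filter fun x : Sylow p G × Sylow p G => x.1 ≠ x.2)
    (fun x => Nat.card ↥((x.1 : Subgroup G) ⊓ (x.2 : Subgroup G))) ⟨(Q0, P), by simpa using hQ0⟩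
  have hAB' : A ≠ B := by simpa using hAB
  set D : Subgroup G := (A : Subgroup G) ⊓ (B : Subgroup G) with hD
  have hDp : IsPGroup p D := A.isPGroup'.to_inf_left
  have hinf : ∀ R S : Sylow p G, R ≠ S → D ≤ R → D ≤ S → (R : Subgroup G) ⊓ (S : Subgroup G) = D := by
    intro R S hRS hR hS
    exact (Subgroup.eq_of_le_of_card_ge (le_inf hR hS) (hmax (R, S) (by simpa using hRS))).symm
  let S : Finset (Sylow p G) := Finset.univ.filter fun R => D ≤ R
  have hS1 : S.card ≡ 1 [MOD p] := by
    have h1 := hDp.card_modEq_card_fixedPoints (Sylow p G)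
    have h2 : Nat.card (MulAction.fixedPoints D (Sylow p G)) = S.card := by
      rw [← Nat.card_eq_finsetCard]
      refine Nat.card_congr (Equiv.subtypeEquivRight fun R => ?_)
      rw [hDp.sylow_mem_fixedPoints_iff]
      simp [S]
    rw [← h2]
    exact h1.symm.trans (card_sylow_modEq_one p G)
  have hS2 : 1 < S.card := Finset.one_lt_card.mpr
    ⟨A, by simp [S, hD], B, by simp [S, hD], hAB'⟩
  have hS3 : p + 1 ≤ S.card := by
    have := (Nat.modEq_iff_dvd' hS2.le).mp hS1.symm
    have := Nat.le_of_dvd (by omega) this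
    omega
  set m := Nat.card (P : Subgroup G) with hm
  have hcardR : ∀ R : Sylow p G, Nat.card (R : Subgroup G) = m := fun R =>
    Nat.card_congr (Sylow.equiv R P).toEquiv
  have hpd : p * Nat.card D ≤ m := by
    have h1 := CL.card_mul_relIndex_of_le (inf_le_left : D ≤ A)
    rw [hcardR] at h1
    obtain ⟨k, hk⟩ := A.isPGroup'.index (D.subgroupOf A)
    have hk0 : k ≠ 0 := by
      rintro rfl
      rw [pow_zero, Subgroup.index_eq_one, Subgroup.subgroupOf_eq_top] at hk
      exact hAB' (Sylow.ext (A.is_maximal' B.isPGroup' (hk.trans inf_le_right)).symm)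
    have h2 : p ≤ D.relIndex A := by
      rw [Subgroup.relIndex, hk]
      exact Nat.le_self_pow hk0 p
    rw [← h1, mul_comm]
    exact Nat.mul_le_mul_left _ h2
  let T : Finset G := Finset.univ.filter fun g => ∃ k : ℕ, orderOf g = p ^ k
  have hT : Nat.card {g : G // ∃ k : ℕ, orderOf g = p ^ k} = T.card := by
    rw [← Nat.card_eq_finsetCard]
    refine Nat.card_congr (Equiv.subtypeEquivRight fun R => ?_)
    simp [T]
  let F : Subgroup G → Finset G := fun H => Finset.univ.filter fun g => g ∈ H
  have hF : ∀ H : Subgroup G, (F H).card = Nat.card H := by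
    intro H
    rw [← Nat.card_eq_finsetCard]
    refine Nat.card_congr (Equiv.subtypeEquivRight fun R => ?_)
    simp [F]
  have hFT : ∀ R : Sylow p G, F R ⊆ T := by
    intro R g hg
    have hg' : g ∈ (R : Subgroup G) := by simpa [F] using hg
    obtain ⟨k, hk⟩ := IsPGroup.iff_orderOf.mp R.isPGroup' ⟨g, hg'⟩
    simp only [T, Finset.mem_filter, Finset.mem_univ, true_and]
    exact ⟨k, by rw [← hk, Subgroup.orderOf_mk]⟩
  have hsub : F D ∪ S.biUnion (fun R => F R \ F D) ⊆ T := by
    apply Finset.union_subset
    · refine subset_trans ?_ (hFT A)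
      intro g hg
      simp only [F, Finset.mem_filter, Finset.mem_univ, true_and] at hg ⊢
      exact hg.1
    · rw [Finset.biUnion_subset]
      intro R _
      exact Finset.sdiff_subset.trans (hFT R)
  have hc := Finset.card_le_card hsub
  rw [Finset.card_union_of_disjoint, Finset.card_biUnion, hF,
    Finset.sum_const_nat (m := m - Nat.card D)] at hc
  · rw [hT]
    have h1 : (p + 1) * (m - Nat.card D) ≤ S.card * (m - Nat.card D) := Nat.mul_le_mul_right _ hS3
    have h2 : Nat.card D ≤ m := le_trans (Nat.le_mul_of_pos_left _ hp.pos) hpd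
    obtain ⟨e, he⟩ := Nat.exists_eq_add_of_le h2
    rw [he, Nat.add_sub_cancel_left] at h1 hc
    rw [he] at hpd ⊢
    nlinarith
  · intro R hR
    have hR' : D ≤ R := by simpa [S] using hR
    rw [Finset.card_sdiff_of_subset, hF, hF, hcardR]
    intro g hg
    simp only [F, Finset.mem_filter, Finset.mem_univ, true_and] at hg ⊢
    exact hR' hg
  · intro R hR R' hR' hne
    have h1 := hinf R R' hne (by simpa [S] using hR) (by simpa [S] using hR')
    rw [Function.onFun, Finset.disjoint_left]
    intro g hg hg'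
    simp only [F, Finset.mem_sdiff, Finset.mem_filter, Finset.mem_univ, true_and] at hg hg'
    exact hg.2 (h1 ▸ ⟨hg.1, hg'.1⟩)
  · rw [Finset.disjoint_left]
    intro g hg hg'
    simp only [Finset.mem_biUnion, Finset.mem_sdiff] at hg'
    obtain ⟨R, -, -, h⟩ := hg'
    exact h hg

end Cfsg.Agent.S4092
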