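import Mathlib
import Cfsg.Statements.S4093
import Cfsg.Agent.FGS.ClassSize

set_option autoImplicit false
open scoped BigOperators
open Cfsg

namespace Cfsg.Agent.S4093

/-- Let G be a finite group with a normal subgroup N complementing a Sylow p-subgroup P (a normal p-complement). Then the number of elements of G of p-power order equals the sum over x ∈ P of the index of C_N(x) in N. -/
theorem result {G : Type*} [Group G] [Finite G] (p : ℕ) [Fact p.Prime]
    (P : Sylow p G) (N : Subgroup G) [N.Normal] (hNP : N.IsComplement' (P : Subgroup G)) :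
    Nat.card {g : G // ∃ k : ℕ, orderOf g = p ^ k} =
      ∑ᶠ x : (P : Subgroup G), Nat.card N / Nat.card ↥(N ⊓ Subgroup.centralizer ({(x : G)} : Set G)) := by
  classical
  haveI := Fintype.ofFinite (P : Subgroup G)
  rw [finsum_eq_sum_of_fintype]
  let π : {g : G // ∃ k : ℕ, orderOf g = p ^ k} → (P : Subgroup G) := fun g =>
    ⟨(hNP.equiv g.1).2, (hNP.equiv g.1).2.2⟩
  have hπ : ∀ g (y : (P : Subgroup G)), π g = y ↔ g.1 * (y : G)⁻¹ ∈ N := by
    intro g y
    constructor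
    · rintro rfl
      have := hNP.equiv_fst_eq_mul_inv g.1
      show g.1 * ((hNP.equiv g.1).2 : G)⁻¹ ∈ N
      rw [← this]
      exact (hNP.equiv g.1).1.2
    · intro h
      have h1 := (hNP.existsUnique g.1).unique
        (y₁ := hNP.equiv g.1) (y₂ := ⟨⟨_, h⟩, ⟨y, y.2⟩⟩) (hNP.equiv_fst_mul_equiv_snd _) (by simp)
      exact Subtype.ext (congrArg (fun t => (t.2 : G)) h1)
  rw [← Nat.card_congr (Equiv.sigmaFiberEquiv π), Nat.card_sigma]
  refine Finset.sum_congr rfl fun y _ => ?_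
  have h1 := CL.card_inf_mul_relIndex (Subgroup.centralizer ({(y : G)} : Set G)) N
  rw [inf_comm] at h1
  rw [← h1, Nat.mul_div_cancel_left _ Nat.card_pos, ← CL.CS.ncard_conj_subgroup,
    ← Nat.card_coe_set_eq]
  refine Nat.card_congr ((Equiv.subtypeSubtypeEquivSubtypeExists _ _).trans
    (Equiv.subtypeEquivRight fun g => ?_))
  simp only [hπ, Set.mem_range]
  constructor
  · rintro ⟨⟨k, hk⟩, hg⟩
    obtain ⟨Q, hQ⟩ := CL.FGS.exists_sylow_mem_of_pow_eq_one (p := p) (k := k) (x := g)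
      (by rw [← hk, pow_orderOf_eq_one])
    obtain ⟨h, rfl⟩ := MulAction.exists_smul_eq G P Q
    obtain ⟨⟨n, z⟩, hnz⟩ := (hNP.existsUnique h).exists
    have h2 : h⁻¹ * g * h ∈ (P : Subgroup G) := CL.mem_conj_smul_iff.mp hQ
    have h3 : (n : G)⁻¹ * g * n ∈ (P : Subgroup G) := by
      have : (n : G)⁻¹ * g * n = z * (h⁻¹ * g * h) * (z : G)⁻¹ := by
        rw [← hnz]; group
      rw [this]
      exact mul_mem (mul_mem z.2 h2) (inv_mem z.2)
    have h4 : (n : G)⁻¹ * g * n * (y : G)⁻¹ ∈ N := by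
      have : (n : G)⁻¹ * g * n * (y : G)⁻¹ = (n : G)⁻¹ * (g * n * g⁻¹) * (g * (y : G)⁻¹) := by group
      rw [this]
      exact mul_mem (mul_mem (inv_mem n.2) (‹N.Normal›.conj_mem _ n.2 g)) hg
    have h5 := Subgroup.disjoint_def.mp hNP.disjoint h4 (mul_mem h3 (inv_mem y.2))
    refine ⟨⟨n, n.2⟩, ?_⟩
    rw [← mul_inv_eq_one.mp h5]
    simp [mul_assoc]
  · rintro ⟨n, rfl⟩
    refine ⟨?_, ?_⟩
    · obtain ⟨k, hk⟩ := IsPGroup.iff_orderOf.mp P.isPGroup' y
      refine ⟨k, ?_⟩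
      rw [← hk, ← Subgroup.orderOf_coe]
      exact (MulAut.conj (n : G)).orderOf_eq (y : G)
    · have : (n : G) * y * (n : G)⁻¹ * (y : G)⁻¹ = n * (y * (n : G)⁻¹ * (y : G)⁻¹) := by group
      rw [this]
      exact mul_mem n.2 (‹N.Normal›.conj_mem _ (inv_mem n.2) _)

end Cfsg.Agent.S4093
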