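import Cfsg.Statements.S4097
import Mathlib
import Cfsg.Agent.SOLV.Frobenius
import Cfsg.Agent.SOLV.MinNormal

set_option autoImplicit false
open Cfsg

namespace Cfsg.Agent.S4097

open Subgroup

universe u

theorem main (n : ℕ) : ∀ (G : Type u) [Group G] [Finite G], Nat.card G = n → ∀ A : Subgroup G,
    Group.IsSolvable A → (∀ S : Subgroup G, A ≤ S → Group.IsSolvable S →
      S ≤ centralizer (A : Set G)) → A ≤ center G := by
  induction n using Nat.strong_induction_on with
  | _ n ih =>
  intro G _ _ hn A hA hc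
  by_contra hcon
  obtain ⟨a, ha, ha'⟩ := SetLike.not_le_iff_exists.1 hcon
  set M := centralizer (A : Set G) with hM
  have hAM : A ≤ M := hc A le_rfl hA
  have hP : ∀ H : Subgroup G, H ≠ ⊤ → A ≤ H → H ≤ M := by
    intro H hH hAH h hh x hx
    have e := H.card_mul_index
    have e1 := one_lt_index_of_ne_top hH
    have e2 : 0 < Nat.card H := Nat.card_pos
    have := ih _ (by nlinarith) H rfl (A.subgroupOf H) (CL.isSolvable_subgroupOf hA H)
      (fun S hS hS' s hs y hy => Subtype.ext (hc (S.map H.subtype)
        (map_subgroupOf_eq_of_le hAH ▸ map_mono hS) (CL.isSolvable_map S _) ⟨s, hs, rfl⟩ y hy))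
      (show (⟨x, hAH hx⟩ : H) ∈ A.subgroupOf H from hx)
    exact congrArg Subtype.val (mem_center_iff.1 this ⟨h, hh⟩).symm
  have hC : ∀ u ∈ M, u ∉ center G → centralizer {u} ≤ M := fun u hu hu' =>
    hP _ (fun h => hu' (mem_center_iff.2 fun g =>
      mem_centralizer_singleton_iff.1 (h ▸ mem_top g))) fun x hx =>
        mem_centralizer_singleton_iff.2 (hu x hx)
  have hconj : ∀ g x : G, g * x * g⁻¹ ∈ center G → x ∈ center G := fun g x h => by
    simpa [mul_assoc] using (inferInstance : (center G).Normal).conj_mem' _ h g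
  have hmal : ∀ g : G, g ∉ M → ∀ x ∈ M, g * x * g⁻¹ ∈ M → x ∈ center G := by
    intro g hg x hx hx'
    by_contra hxZ
    have h1 : g * a * g⁻¹ ∈ M := hC _ hx' (fun h => hxZ (hconj g x h))
      (mem_centralizer_singleton_iff.2 (by simpa using congrArg (MulAut.conj g) (hx a ha)))
    have h2 : g ∈ normalizer (M : Set G) := mem_normalizer_fintype fun m hm =>
      hC _ h1 (fun h => ha' (hconj g a h)) (mem_centralizer_singleton_iff.2
        (by simpa using congrArg (MulAut.conj g) (hm a ha).symm))
    by_cases h3 : normalizer (M : Set G) = ⊤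
    swap
    · exact hg (hP _ h3 (hAM.trans le_normalizer) h2)
    have : M.Normal := normalizer_eq_top_iff.1 h3
    have : IsMulCommutative ↥(M ⊓ centralizer (M : Set G)) :=
      ⟨⟨fun b c => Subtype.ext (c.2.2 b b.2.1)⟩⟩
    refine hg (hc (zpowers g ⊔ M ⊓ centralizer (M : Set G))
      (le_sup_of_le_right (le_inf hAM (le_centralizer_iff.1 le_rfl)))
      (CL.isSolvable_sup_of_normal (CL.isSolvable_of_isMulCommutative _)
        (CL.isSolvable_of_isMulCommutative _)) (mem_sup_left (mem_zpowers g)))
  have hZM : (QuotientGroup.mk' (center G)).ker ≤ M := by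
    rw [QuotientGroup.ker_mk']; exact center_le_centralizer _
  have hF : IsFrobeniusComplement (M.map (QuotientGroup.mk' (center G))) := by
    refine ⟨fun h => ha' ?_, fun h => ha' ?_, CL.Frob.malnormal_iff.2 ?_⟩
    · simpa using (Subgroup.map_eq_bot_iff _).1 h (hAM ha)
    · have := congrArg (comap (QuotientGroup.mk' (center G))) h
      rw [comap_map_eq_self hZM, comap_top] at this
      exact mem_center_iff.2 fun g => ((this ▸ mem_top g : g ∈ M) a ha).symm
    · rintro g hg _ ⟨x, hx, rfl⟩ hx'
      obtain ⟨g, rfl⟩ := QuotientGroup.mk'_surjective _ g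
      rw [← map_inv, ← map_mul, ← map_mul, ← mem_comap, comap_map_eq_self hZM] at hx'
      exact (QuotientGroup.eq_one_iff x).2 (hmal g (fun h => hg ⟨g, h, rfl⟩) x hx hx')
  obtain ⟨K, -, _, hK, hK1, hK2⟩ := CL.Frob.exists_kernel hF
  obtain ⟨V, hV, hV1, _, hV2⟩ := CL.Frob.exists_invariant_abelian hK1
    (by rw [normalizer_eq_top]; exact le_top) hK2
  have h4 := hc ((A.map (QuotientGroup.mk' (center G)) ⊔ V).comap (QuotientGroup.mk' (center G)))
    ((le_comap_map _ _).trans (comap_mono le_sup_left))
    (CL.isSolvable_comap _ _ (CL.isSolvable_sup_of_le_normalizer ((map_mono hAM).trans hV2)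
      (CL.isSolvable_map A _) (CL.isSolvable_of_isMulCommutative _))
      (by rw [QuotientGroup.ker_mk']; exact CL.isSolvable_of_isMulCommutative _))
  have h5 := map_mono (f := QuotientGroup.mk' (center G)) h4
  rw [map_comap_eq_self_of_surjective (QuotientGroup.mk'_surjective _)] at h5
  exact hV1 (eq_bot_iff.2 ((le_inf hV (le_sup_right.trans h5)).trans hK.disjoint.le_bot))

/-- Let A be a solvable subgroup of a finite group G such that A lies in the centre of every solvable subgroup of G containing A. Then A lies in the centre of G. -/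
theorem result {G : Type*} [Group G] [Finite G]
    (A : Subgroup G) (hA : Group.IsSolvable A)
    (hc : ∀ S : Subgroup G, A ≤ S → Group.IsSolvable S → ∀ a ∈ A, ∀ s ∈ S, a * s = s * a) : A ≤ Subgroup.center G := by
  exact main _ G rfl A hA fun S h1 h2 s hs a ha => hc S h1 h2 a ha s hs

end Cfsg.Agent.S4097
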