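import Mathlib
import Cfsg.Statements.S4100
import Cfsg.Agent.FGS.AltSec6

set_option autoImplicit false
open Cfsg

namespace Cfsg.Agent.S4100

/-- Let G be a finite group and p a prime other than 3 such that the centralizer of every non-central element of p-power order is solvable. Then every alternating group of degree at least 5 involved in G (as a section) has degree at most p + 4, or at most p + 6 = 8 when p = 2. -/
theorem result {G : Type*} [Group G] [Finite G] (p : ℕ) [Fact p.Prime] (hp3 : p ≠ 3)
    (h : ∀ x : G, x ∉ Subgroup.center G → (∃ k : ℕ, orderOf x = p ^ k) → Group.IsSolvable (Subgroup.centralizer ({x} : Set G)))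
    (d : ℕ) (hd : 5 ≤ d) (hinv : Cfsg.Involves (alternatingGroup (Fin d)) G) :
    d ≤ p + 4 + (if p = 2 then 2 else 0) := by
  obtain ⟨K, R, _, ⟨e⟩⟩ := hinv
  have hp : p.Prime := Fact.out
  have hH : CL.AS.Hyp p K := CL.AS.Hyp.subgroup (fun x hx ⟨k, hk⟩ => h x hx
    (((Nat.dvd_prime_pow hp).1 (orderOf_dvd_of_pow_eq_one hk)).imp fun _ h => h.2)) K
  have hπ := e.surjective.comp (QuotientGroup.mk'_surjective (R.subgroupOf K))
  by_contra hn
  by_cases h2 : p = 2
  · subst h2
    exact CL.AS.red_alt (m := 4) (by simp at hn; omega) (y := Equiv.swap 0 1 * Equiv.swap 2 3)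
      (by simp) (by decide) (by decide) (Or.inr fun V _ _ _ ρ hs => CL.AS.M2.main ρ hs) K hH
      (e.toMonoidHom.comp (QuotientGroup.mk' _)) hπ
  rw [if_neg h2] at hn
  have h3 := hp.two_le
  refine CL.AS.red_alt (m := p) (by omega) (y := finRotate p) ?_
    (isCycle_finRotate_of_le h3).ne_one ?_ ?_ K hH (e.toMonoidHom.comp (QuotientGroup.mk' _)) hπ
  · rw [sign_finRotate, (hp.even_sub_one h2).neg_one_pow]
  · have := (isCycle_finRotate_of_le h3).orderOf
    rw [support_finRotate_of_le h3, Finset.card_fin] at this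
    exact orderOf_dvd_iff_pow_eq_one.1 this.dvd
  · by_cases h5 : p = 5
    · subst h5
      exact Or.inr fun V _ _ _ ρ hs => CL.AS.M5.main ρ hs
    · refine Or.inl fun h => ?_
      have := Nat.mem_primeFactors.2 ⟨hp, h, by norm_num⟩
      rw [show Nat.primeFactors 60 = {2, 3, 5} by decide +kernel] at this
      simp [h2, hp3, h5] at this

end Cfsg.Agent.S4100
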