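import Cfsg.Statements.S4105
import Cfsg.Agent.FGS.PiNil3

set_option autoImplicit false
open Cfsg

namespace Cfsg.Agent.S4105

/-- Let G be a finite group, π a set of primes with least member p, m the π-part of the order of G and k the number of conjugacy classes of G consisting of π-elements. If k > m·(p² + p − 1)/p³, then G has an abelian Hall π-subgroup (an abelian subgroup of order m). -/
theorem result {G : Type*} [Group G] [Finite G]
    (π : Set ℕ) (hπ : ∀ q ∈ π, q.Prime) (p : ℕ) (hp : p ∈ π) (hmin : ∀ q ∈ π, p ≤ q)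
    (m : ℕ) (hm : m ∣ Nat.card G) (hmπ : ∀ q : ℕ, q.Prime → q ∣ m → q ∈ π)
    (hm' : ∀ q ∈ π, ¬ q ∣ Nat.card G / m)
    (k : ℕ) (hk : k = Nat.card {C : ConjClasses G // ∀ q : ℕ, q.Prime → (∃ g : G, ConjClasses.mk g = C ∧ q ∣ orderOf g) → q ∈ π})
    (hmany : m * (p ^ 2 + p - 1) < p ^ 3 * k) :
    ∃ H : Subgroup G, Nat.card H = m ∧ IsMulCommutative H := by
  rw [CL.PiCl.card_eq_kq] at hk
  have hp0 := (hπ p hp).pos
  obtain ⟨n, hn⟩ : ∃ n, p ^ 2 + p = n + 1 := ⟨p ^ 2 + p - 1, by omega⟩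
  rw [hn, Nat.add_sub_cancel] at hmany
  have h0 : m < p * k := by
    refine Nat.lt_of_mul_lt_mul_left (a := p ^ 2) ?_
    have := Nat.mul_le_mul_left m (show p ^ 2 ≤ n by omega)
    nlinarith
  subst hk
  obtain ⟨H, h1, -, h3⟩ := CL.PiNil.exists_hall π p hmin m hm hmπ hm' h0
  refine ⟨H, h1, ?_⟩
  by_contra hcon
  have h4 := CL.PiNil.nonab_bound hp0 (fun r hr hd => hmin r (hmπ r hr (h1 ▸ hd))) hcon
  have h5 := hmany.trans_le (Nat.mul_le_mul_left _ h3)
  rw [h1, hn] at h4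
  nlinarith

end Cfsg.Agent.S4105
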