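import Cfsg.Statements.S4106
import Cfsg.Agent.FGS.PiClass3

set_option autoImplicit false
open Cfsg

namespace Cfsg.Agent.S4106

/-- Let G be a finite group, π a set of primes and m the π-part of the order of G. Then the number of conjugacy classes of G consisting of π-elements (elements whose order is divisible only by primes in π) is at most m. -/
theorem result {G : Type*} [Group G] [Finite G]
    (π : Set ℕ) (hπ : ∀ q ∈ π, q.Prime)
    (m : ℕ) (hm : m ∣ Nat.card G) (hmπ : ∀ q : ℕ, q.Prime → q ∣ m → q ∈ π)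
    (hm' : ∀ q ∈ π, ¬ q ∣ Nat.card G / m) :
    Nat.card {C : ConjClasses G // ∀ q : ℕ, q.Prime → (∃ g : G, ConjClasses.mk g = C ∧ q ∣ orderOf g) → q ∈ π} ≤ m := by
  have hG : Nat.card G ≠ 0 := Nat.card_pos.ne'
  obtain ⟨k, hk⟩ := hm
  have hm0 : m ≠ 0 := fun h => hG (by rw [hk, h, zero_mul])
  have hk0 : k ≠ 0 := fun h => hG (by rw [hk, h, mul_zero])
  rw [hk, Nat.mul_div_cancel_left _ (Nat.pos_of_ne_zero hm0)] at hm'
  rw [CL.PiCl.card_eq_kq, CL.PiCl.kq_congr (R := fun x => CL.IsPiNum m.primeFactors (orderOf x))]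
  · refine (CL.PiCl.kq_le_part m.primeFactors (fun r hr => Nat.prime_of_mem_primeFactors hr) G).trans
      (le_of_eq ?_)
    conv_rhs => rw [← Nat.prod_factorization_pow_eq_self hm0]
    refine Finset.prod_congr rfl fun r hr => ?_
    rw [hk, Nat.factorization_mul hm0 hk0, Finsupp.add_apply, Nat.factorization_eq_zero_of_not_dvd
      (hm' r (hmπ r (Nat.prime_of_mem_primeFactors hr) (Nat.dvd_of_mem_primeFactors hr))), add_zero]
  · intro x
    rw [CL.isPiNum_primeFactors_iff hm0]
    refine ⟨fun h r hr hd => ?_, fun h r hr hd => hmπ r hr (h r hr hd)⟩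
    exact ((Nat.Prime.dvd_mul hr).1 (hk ▸ hd.trans (orderOf_dvd_natCard x))).resolve_right
      (hm' r (h r hr hd))

end Cfsg.Agent.S4106
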