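import Mathlib
import Cfsg.Statements.S4108
import Cfsg.Agent.FGS.FrobCS

set_option autoImplicit false
open Cfsg

namespace Cfsg.Agent.S4108

/-- Let G be a finite group, p a prime and N a proper non-trivial normal p-subgroup such that for every x outside N all elements of the coset xN have the same order as x. Then every non-trivial subgroup H of G of order prime to p acts fixed-point-freely on N: NH is a Frobenius group with complement H and kernel N. -/
theorem result {G : Type*} [Group G] [Finite G] (N : Subgroup G) [N.Normal] (hN1 : N ≠ ⊥) (hN2 : N ≠ ⊤)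
    (heq : ∀ x : G, x ∉ N → ∀ n ∈ N, orderOf (x * n) = orderOf x)
    (p : ℕ) [Fact p.Prime] (hNp : IsPGroup p N) :
    ∀ H : Subgroup G, H ≠ ⊥ → (Nat.card H).Coprime p →
      Cfsg.IsFrobeniusComplement (H.subgroupOf (N ⊔ H)) ∧ Cfsg.frobeniusKernel (H.subgroupOf (N ⊔ H)) = (N.subgroupOf (N ⊔ H) : Set ↥(N ⊔ H)) := by
  intro H hH1 hcop
  refine CL.CS.frobenius_sup_of_fpf (Subgroup.le_normalizer_of_normal) hN1 hH1 ?_
  intro h hh h1
  rw [eq_bot_iff]
  intro n hn
  have hnN : n ∈ N := hn.1
  have hc : Commute n h := CL.CS.mem_cen.1 hn.2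
  have hoh : (orderOf h).Coprime p :=
    Nat.Coprime.coprime_dvd_left (Subgroup.orderOf_dvd_natCard H hh) hcop
  have hpow : ∀ {y : G}, y ∈ N → ∃ k, orderOf y = p ^ k := by
    intro y hy
    obtain ⟨k, hk⟩ := IsPGroup.iff_orderOf.1 hNp ⟨y, hy⟩
    exact ⟨k, by rw [← hk, Subgroup.orderOf_mk]⟩
  have hhN : h ∉ N := by
    intro hhN
    obtain ⟨k, hk⟩ := hpow hhN
    have : (orderOf h).Coprime (orderOf h) := by
      nth_rewrite 2 [hk]
      exact hoh.pow_right k
    exact h1 (orderOf_eq_one_iff.1 ((Nat.coprime_self _).1 this))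
  obtain ⟨k, hk⟩ := hpow hnN
  have hco : (orderOf h).Coprime (orderOf n) := by rw [hk]; exact hoh.pow_right k
  have h2 := hc.symm.orderOf_mul_eq_mul_orderOf_of_coprime hco
  rw [heq h hhN n hnN] at h2
  have h3 : orderOf n = 1 := by
    have hpos := orderOf_pos h
    nlinarith [orderOf_pos n]
  exact Subgroup.mem_bot.2 (orderOf_eq_one_iff.1 h3)

end Cfsg.Agent.S4108
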