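import Cfsg.Statements.S4115
import Mathlib
import Cfsg.Agent.S0877
import Cfsg.Agent.S0025
import Cfsg.Agent.SOLV.OddOrderCor

set_option autoImplicit false
universe u
open Cfsg

namespace Cfsg.Agent.S4115

open Subgroup
open scoped Pointwise

section
variable {G : Type*} [Group G] [Finite G] {H : Subgroup G}

theorem memH (hHall : (Nat.card H).Coprime (H.subgroupOf (normalizer (H : Set G))).index) {s : G}
    (hs : s ∈ normalizer (H : Set G)) {k : ℕ} (ho : orderOf s ∣ Nat.card H ^ k) : s ∈ H := by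
  have h1 : s ^ (H.subgroupOf (normalizer (H : Set G))).index ∈ H :=
    (H.subgroupOf (normalizer (H : Set G))).pow_index_mem ⟨s, hs⟩
  have h2 : (orderOf s).Coprime (H.subgroupOf (normalizer (H : Set G))).index :=
    (hHall.pow_left k).coprime_dvd_left ho
  exact zpowers_le.mpr h1 (mem_zpowers_pow_iff.mpr h2.symm)

theorem sylow_le (hTI : IsTISubset (H : Set G))
    (hHall : (Nat.card H).Coprime (H.subgroupOf (normalizer (H : Set G))).index) {p : ℕ}
    [hp : Fact p.Prime] (hd : p ∣ Nat.card H) : ∃ S : Sylow p G, (S : Subgroup G) ≤ H := by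
  obtain ⟨x, hx⟩ := exists_prime_orderOf_dvd_card' p hd
  have hx1 : (x : G) ≠ 1 := fun h => hp.out.ne_one (by rw [← hx, ← orderOf_coe, h, orderOf_one])
  obtain ⟨S, hS⟩ := (IsPGroup.of_card (G := zpowers (x : G)) (p := p) (n := 1)
    (by rw [Nat.card_zpowers, orderOf_coe, hx, pow_one])).exists_le_sylow
  have hxS : (x : G) ∈ (S : Subgroup G) := hS (mem_zpowers _)
  refine ⟨S, ?_⟩
  by_contra h
  haveI := S.isPGroup'.isNilpotent
  have h1 : H.subgroupOf S < ⊤ := lt_top_iff_ne_top.mpr fun h1 => h (subgroupOf_eq_top.mp h1)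
  obtain ⟨s, hs, hsH⟩ := SetLike.exists_of_lt (normalizerCondition_of_isNilpotent _ h1)
  have h2 : (s : G) * x * (s : G)⁻¹ ∈ H := (mem_normalizer_iff.mp hs ⟨x, hxS⟩).mp x.2
  have h3 : (s : G) ∈ normalizer (H : Set G) := by
    by_contra h3
    exact hx1 (hTI _ h3 _ x.2 h2)
  obtain ⟨k, hk⟩ := IsPGroup.iff_orderOf.mp S.isPGroup' s
  exact hsH (memH hHall h3 (k := k) (((orderOf_coe s).trans hk).dvd.trans (pow_dvd_pow_of_dvd hd k)))

theorem hall (hTI : IsTISubset (H : Set G))
    (hHall : (Nat.card H).Coprime (H.subgroupOf (normalizer (H : Set G))).index) :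
    (Nat.card H).Coprime H.index := by
  refine Nat.coprime_of_dvd fun p hp h1 h2 => ?_
  haveI := Fact.mk hp
  obtain ⟨S, hS⟩ := sylow_le hTI hHall h1
  exact S.not_dvd_index (h2.trans (index_dvd_of_le hS))

theorem exists_compl (hTI : IsTISubset (H : Set G))
    (hHall : (Nat.card H).Coprime (H.subgroupOf (normalizer (H : Set G))).index)
    {K : Subgroup (normalizer (H : Set G))} (hK : K.Normal)
    (hc : K.IsComplement' (H.subgroupOf (normalizer (H : Set G)))) :
    ∃ N : Subgroup G, N.Normal ∧ N.IsComplement' H := by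
  obtain ⟨M, hM, h1, h2⟩ := Cfsg.Agent.S0877.result H (hall hTI hHall) (by
    intro x hx y hy hxy
    obtain ⟨g, rfl⟩ := isConj_iff.mp hxy
    by_cases hx1 : x = 1
    · exact ⟨1, one_mem _, by simp [hx1]⟩
    have hg : g ∈ normalizer (H : Set G) := by
      by_contra h3
      exact hx1 (hTI _ h3 _ hx hy)
    obtain ⟨⟨k, h⟩, hkh⟩ := hc.2 ⟨g, hg⟩
    have h3 : g = k.1.1 * h.1.1 := (congrArg Subtype.val hkh).symm
    have hh : h.1.1 ∈ H := h.2
    have h4 : h.1.1 * x * h.1.1⁻¹ ∈ H := mul_mem (mul_mem hh hx) (inv_mem hh)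
    have h5 := congrArg Subtype.val (commute_of_normal_of_disjoint K _ hK inferInstance hc.disjoint
      k.1 ⟨_, le_normalizer h4⟩ k.2 h4).eq
    refine ⟨_, hh, ?_⟩
    rw [h3, mul_inv_rev, ← mul_assoc, eq_mul_inv_iff_mul_eq]
    simpa [mul_assoc] using h5.symm) (by
    rintro E p hp ⟨x, hx, -, k, hk⟩ hE
    haveI := Fact.mk hp
    rcases subsingleton_or_nontrivial E with h | h
    · exact ⟨1, by rw [(eq_bot_of_subsingleton E)]; simp⟩
    obtain ⟨c, hc, hc1⟩ : ∃ c ∈ center E, c ≠ 1 := by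
      by_cases hx1 : x = 1
      · rw [hx1, zpowers_one_eq_bot, index_bot] at hk
        haveI := (IsPGroup.of_card hk).center_nontrivial
        obtain ⟨c, hc⟩ := exists_ne (1 : center E)
        exact ⟨c, c.2, fun h => hc (Subtype.ext h)⟩
      · exact ⟨x, hx, hx1⟩
    obtain ⟨r, hr, hrc⟩ := Nat.exists_prime_and_dvd (mt orderOf_eq_one_iff.mp hc1)
    haveI := Fact.mk hr
    have hz := orderOf_pow_orderOf_div (orderOf_pos c).ne' hrc
    set z := c ^ (orderOf c / r)
    have hzc : z ∈ center E := pow_mem hc _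
    obtain ⟨S, hS⟩ := sylow_le hTI hHall ((hrc.trans (orderOf_dvd_natCard c)).trans hE)
    obtain ⟨T, hT⟩ := (IsPGroup.of_card (G := zpowers (z : G)) (p := r) (n := 1)
      (by rw [Nat.card_zpowers, orderOf_coe, hz, pow_one])).exists_le_sylow
    obtain ⟨g, rfl⟩ := MulAction.exists_smul_eq G T S
    have h3 : g * z * g⁻¹ ∈ H := hS (smul_mem_pointwise_smul _ (MulAut.conj g) _ (hT (mem_zpowers _)))
    refine ⟨g, ?_⟩
    rintro _ ⟨e, he, rfl⟩
    refine memH hHall ?_ (k := 1) ?_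
    · by_contra h4
      have h5 := hTI _ h4 _ h3 (by
        have := congrArg Subtype.val (mem_center_iff.mp hzc ⟨e, he⟩)
        have h6 : e * z = z * e := this
        have : (MulAut.conj g).toMonoidHom e * (g * z * g⁻¹) * ((MulAut.conj g).toMonoidHom e)⁻¹ =
            g * z * g⁻¹ := by
          change g * e * g⁻¹ * (g * z * g⁻¹) * (g * e * g⁻¹)⁻¹ = _
          calc _ = g * (e * z) * e⁻¹ * g⁻¹ := by group
            _ = _ := by rw [h6]; group
        rw [this]; exact h3)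
      have h6 : (z : G) = 1 := by simpa using h5
      exact hr.ne_one (by rw [← hz, ← orderOf_coe, h6, orderOf_one])
    · rw [pow_one]
      exact ((orderOf_map_dvd _ _).trans (orderOf_dvd_natCard E he)).trans hE)
  exact ⟨M, hM, isComplement'_of_disjoint_and_mul_eq_univ (disjoint_iff.mpr h2)
    (by rw [← normal_mul, h1, coe_top])⟩

end

/-- Let G be a finite group and H a subgroup that meets each of its conjugates by elements outside N_G(H) trivially and whose order is coprime to its index in N_G(H). Then H has a normal complement in N_G(H) if and only if H has a normal complement in G. Moreover, if H is not normal in G and has a normal complement in N_G(H), then H is isomorphic to a Frobenius complement of some finite Frobenius group. -/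
theorem result {G : Type u} [Group G] [Finite G] (H : Subgroup G)
    (hTI : Cfsg.IsTISubset (H : Set G)) (hHall : (Nat.card H).Coprime (H.subgroupOf (Subgroup.normalizer (H : Set G))).index) :
    ((∃ K : Subgroup (Subgroup.normalizer (H : Set G)), K.Normal ∧ K.IsComplement' (H.subgroupOf (Subgroup.normalizer (H : Set G)))) ↔
      (∃ N : Subgroup G, N.Normal ∧ N.IsComplement' H)) ∧
    (¬ H.Normal → (∃ K : Subgroup (Subgroup.normalizer (H : Set G)), K.Normal ∧ K.IsComplement' (H.subgroupOf (Subgroup.normalizer (H : Set G)))) →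
      ∃ (F : Type u) (_ : Group F) (_ : Finite F) (C : Subgroup F), Cfsg.IsFrobeniusComplement C ∧ Nonempty (H ≃* C)) := by
  refine ⟨⟨fun ⟨K, hK, hc⟩ => exists_compl hTI hHall hK hc, fun ⟨M, hM, hc⟩ =>
    ⟨M.subgroupOf _, inferInstance, isComplement'_of_disjoint_and_mul_eq_univ ?_ ?_⟩⟩, ?_⟩
  · exact disjoint_def.mpr fun h1 h2 => Subtype.ext (disjoint_def.mp hc.disjoint h1 h2)
  · refine Set.eq_univ_of_forall fun g => ?_
    obtain ⟨⟨m, h⟩, hmh⟩ := hc.2 (g : G)
    have h1 : (h : G) ∈ normalizer (H : Set G) := le_normalizer h.2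
    have h2 : (m : G) ∈ normalizer (H : Set G) := by
      rw [eq_mul_inv_of_mul_eq hmh]; exact mul_mem g.2 (inv_mem h1)
    exact ⟨⟨m, h2⟩, m.2, ⟨h, h1⟩, h.2, Subtype.ext hmh⟩
  rintro hn ⟨K, hK, hKc⟩
  obtain ⟨M, hM, hc⟩ := exists_compl hTI hHall hK hKc
  have hcop : (Nat.card H).Coprime (Nat.card M) := hc.index_eq_card ▸ hall hTI hHall
  set N := normalizer (H : Set G) with hN
  obtain ⟨p, hp, Q, hQp, hQM, hHQ, hQN⟩ : ∃ p : ℕ, p.Prime ∧ ∃ Q : Subgroup G, IsPGroup p Q ∧ Q ≤ M ∧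
      H ≤ normalizer (Q : Set G) ∧ ¬ Q ≤ N := by
    by_contra h
    push Not at h
    have h1 : (N.subgroupOf M).index = 1 := by
      by_contra h1
      obtain ⟨p, hp, hd⟩ := Nat.exists_prime_and_dvd h1
      haveI := Fact.mk hp
      obtain ⟨P, -, hP⟩ := Cfsg.Agent.S0025.result H M (by rw [normalizer_eq_top]; exact le_top) hcop
        (CL.isSolvable_or_of_coprime _ _ hcop) p ⊥ bot_le IsPGroup.of_bot
        (by rw [normalizer_eq_top]; exact le_top)
      have h2 := h p hp _ (P.isPGroup'.map _) (map_subtype_le _) hP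
      exact P.not_dvd_index (hd.trans (index_dvd_of_le (map_le_iff_le_comap.mp h2)))
    rw [index_eq_one, subgroupOf_eq_top] at h1
    exact hn (normalizer_eq_top_iff.mp (top_le_iff.mp (hc.sup_eq_top ▸ sup_le h1 le_normalizer)))
  haveI := Fact.mk hp
  haveI := hQp.isNilpotent
  set C := Q ⊓ N with hC
  have hcomm : ∀ c ∈ C, ∀ h ∈ H, c * h = h * c := fun c hcC h hh => by
    have h1 : c * h * c⁻¹ * h⁻¹ = 1 := disjoint_def.mp hc.disjoint
      (by simpa [mul_assoc] using mul_mem (hQM hcC.1) (hM.conj_mem _ (inv_mem (hQM hcC.1)) h))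
      (mul_mem ((mem_normalizer_iff.mp hcC.2 h).mp hh) (inv_mem hh))
    rw [mul_inv_eq_one, mul_inv_eq_iff_eq_mul] at h1
    exact h1
  have hHC : H ≤ normalizer (C : Set G) := fun h hh => centralizer_le_normalizer _
    (mem_centralizer_iff.mpr fun c hc => hcomm c hc h hh)
  have h1 : N.subgroupOf Q < ⊤ := lt_top_iff_ne_top.mpr fun h1 => hQN (subgroupOf_eq_top.mp h1)
  obtain ⟨r, hr, hrN⟩ := SetLike.exists_of_lt (normalizerCondition_of_isNilpotent _ h1)
  have hrC : (r : G) ∈ normalizer (C : Set G) := mem_normalizer_fintype fun c hc =>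
    ⟨Q.mul_mem (Q.mul_mem r.2 hc.1) (Q.inv_mem r.2), (mem_normalizer_iff.mp hr ⟨c, hc.1⟩).mp hc.2⟩
  set L := normalizer (C : Set G) ⊓ (H ⊔ Q) with hL
  have hHL : H ≤ L := le_inf hHC le_sup_left
  haveI : (C.subgroupOf L).Normal := normal_subgroupOf_of_le_normalizer inf_le_left
  let φ : H →* L ⧸ C.subgroupOf L := (QuotientGroup.mk' _).comp (inclusion hHL)
  have hφ : Function.Injective φ := (injective_iff_map_eq_one φ).mpr fun h hh =>
    Subtype.ext (disjoint_def.mp hc.disjoint (hQM ((QuotientGroup.eq_one_iff _).mp hh).1) h.2)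
  refine ⟨L ⧸ C.subgroupOf L, inferInstance, inferInstance, φ.range, ⟨fun h => hn ?_, fun h => hrN ?_, ?_⟩,
    ⟨MonoidHom.ofInjective hφ⟩⟩
  · have : H = ⊥ := eq_bot_iff.mpr fun x hx => congrArg Subtype.val
      (hφ ((mem_bot.mp (h.le ⟨⟨x, hx⟩, rfl⟩)).trans (map_one φ).symm))
    rw [this]; infer_instance
  · obtain ⟨x, hx⟩ : QuotientGroup.mk (⟨r, hrC, mem_sup_right r.2⟩ : L) ∈ φ.range := h ▸ mem_top _
    have h2 : (x : G)⁻¹ * r ∈ C := (QuotientGroup.eq (s := C.subgroupOf L)).mp hx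
    exact (mul_mem_cancel_left (inv_mem (le_normalizer x.2))).mp h2.2
  intro g hg
  obtain ⟨g, rfl⟩ := QuotientGroup.mk_surjective g
  have hgN : (g : G) ∉ N := fun h => by
    have h2 : (g : G) ∈ ((H ⊔ Q : Subgroup G) : Set G) := g.2.2
    rw [coe_mul_of_left_le_normalizer_right H Q hHQ] at h2
    obtain ⟨a, ha, b, hb, hab⟩ := h2
    refine hg ⟨⟨a, ha⟩, QuotientGroup.eq.mpr ?_⟩
    change a⁻¹ * (g : G) ∈ C
    have h3 : a⁻¹ * (g : G) = b := by rw [← hab]; simp
    exact ⟨h3 ▸ hb, N.mul_mem (N.inv_mem (le_normalizer ha)) h⟩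
  rw [eq_bot_iff]
  rintro _ ⟨⟨a, rfl⟩, _, ⟨b, rfl⟩, hab⟩
  have h2 : ((g : G) * b * (g : G)⁻¹)⁻¹ * a ∈ C := (QuotientGroup.eq (s := C.subgroupOf L)
    (a := g * inclusion hHL b * g⁻¹) (b := inclusion hHL a)).mp hab
  have h3 : (g : G) * b * (g : G)⁻¹ = a * (((g : G) * b * (g : G)⁻¹)⁻¹ * a)⁻¹ := by group
  have h4 : (g : G) * b ^ Nat.card M * (g : G)⁻¹ ∈ H := by
    rw [← conj_pow, h3, (show Commute _ _ from (hcomm _ (inv_mem h2) _ a.2).symm).mul_pow,
      orderOf_dvd_iff_pow_eq_one.mp (orderOf_dvd_natCard M (hQM (inv_mem h2).1)), mul_one]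
    exact pow_mem a.2 _
  have h5 : (b : G) = 1 := orderOf_eq_one_iff.mp (Nat.eq_one_of_dvd_coprimes hcop
    (orderOf_dvd_natCard H b.2) (orderOf_dvd_of_pow_eq_one (hTI _ hgN _ (pow_mem b.2 _) h4)))
  rw [← hab, show b = 1 from Subtype.ext h5]
  simp

end Cfsg.Agent.S4115
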