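import Cfsg.Statements.S4116
import Cfsg.Agent.ODDC.TICount
import Cfsg.Agent.SOLV.Basic

set_option autoImplicit false
open Cfsg

namespace Cfsg.Agent.S4116


section
variable {G : Type*} [Group G] [Finite G]

theorem count {L : Subgroup G} (hL : L ≠ ⊥)
    (h : ∀ k y : G, y ∈ L → y ≠ 1 → k * y * k⁻¹ ∈ L → k ∈ L) :
    (Group.conjugatesOfSet ((L : Set G) \ {1})).ncard + L.index = Nat.card G := by
  have hN : Subgroup.normalizer (L : Set G) = L := by
    refine le_antisymm (fun k hk => ?_) Subgroup.le_normalizer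
    obtain ⟨⟨y, hy⟩, hy1⟩ := Subgroup.ne_bot_iff_exists_ne_one.1 hL
    exact h k y hy (fun e => hy1 (Subtype.ext e)) (((Subgroup.mem_normalizer_iff.1 hk) y).1 hy)
  have hTI : Cfsg.IsTISubset (L : Set G) := by
    intro g hg x hx hx'
    by_contra hne
    exact hg (by rw [hN]; exact h g x hx hne hx')
  rw [CL.TI.ncard_conjugatesOfSet_subgroup hTI, hN, ← L.card_mul_index]
  obtain ⟨n, hn⟩ : ∃ n, Nat.card L = n + 1 := ⟨Nat.card L - 1, by have := Nat.card_pos (α := L); omega⟩
  rw [hn]; simp; ring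

theorem two_mul_index_le {L : Subgroup G} (hL : L ≠ ⊥) : 2 * L.index ≤ Nat.card G := by
  rw [← L.card_mul_index]
  exact Nat.mul_le_mul_right _ (L.one_lt_card_iff_ne_bot.2 hL)

theorem mem_of_mem_normalizer {H : Subgroup G} {x : G} (hx : x ∈ Subgroup.normalizer (H : Set G))
    (hc : (orderOf x).Coprime H.index) : x ∈ H := by
  have := CL.normal_subgroupOf_of_le_normalizer (H := H) (K := Subgroup.normalizer (H : Set G)) le_rfl
  have h := CL.mem_of_coprime_index (N := H.subgroupOf (Subgroup.normalizer (H : Set G)))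
    (g := ⟨x, hx⟩) (by
      rw [Subgroup.orderOf_mk]
      exact hc.coprime_dvd_right (Subgroup.relIndex_dvd_index_of_le Subgroup.le_normalizer))
  exact h

end

open Pointwise


/-- Let G be a finite group with a subgroup H whose order is coprime to its index (a Hall subgroup) and which meets each of its conjugates by elements outside N_G(H) trivially. Then every subgroup of G whose order is divisible only by primes dividing the order of H lies in a conjugate of H. -/
theorem result {G : Type*} [Group G] [Finite G] (H : Subgroup G)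
    (hHall : (Nat.card H).Coprime H.index) (hTI : Cfsg.IsTISubset (H : Set G))
    (K : Subgroup G) (hK : ∀ q : ℕ, q.Prime → q ∣ Nat.card K → q ∣ Nat.card H) :
    ∃ g : G, K ≤ H.map (MulAut.conj g).toMonoidHom := by
  simp only [← CL.conj_smul_eq_map]
  -- (a) TI
  have ha : ∀ g g' x : G, x ≠ 1 → x ∈ MulAut.conj g • H → x ∈ MulAut.conj g' • H →
      MulAut.conj g • H = MulAut.conj g' • H := by
    intro g g' x hx1 h1 h2
    rw [CL.mem_conj_smul_iff] at h1 h2
    have : g⁻¹ * g' ∈ Subgroup.normalizer (H : Set G) := by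
      by_contra hn
      have := hTI _ hn _ h2 (by
        have e : g⁻¹ * g' * (g'⁻¹ * x * g') * (g⁻¹ * g')⁻¹ = g⁻¹ * x * g := by group
        rw [e]; exact h1)
      apply hx1
      calc x = g' * (g'⁻¹ * x * g') * g'⁻¹ := by group
        _ = 1 := by rw [this]; group
    have h3 := CL.conj_smul_eq_iff_mem_normalizer.2 this
    calc MulAut.conj g • H = MulAut.conj g • MulAut.conj (g⁻¹ * g') • H := by rw [h3]
      _ = MulAut.conj g' • H := by rw [CL.conj_smul_conj_smul]; simp
  have hcop : ∀ x ∈ K, (orderOf x).Coprime H.index := by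
    intro x hx
    refine Nat.coprime_of_dvd fun q hq h1 h2 => ?_
    have := hK q hq (h1.trans (Subgroup.orderOf_dvd_natCard K hx))
    exact hq.one_lt.ne' (Nat.eq_one_of_dvd_coprimes hHall this h2)
  have hb : ∀ g : G, ∀ x ∈ K, MulAut.conj x • MulAut.conj g • H = MulAut.conj g • H →
      x ∈ MulAut.conj g • H := fun g x hx h =>
    mem_of_mem_normalizer (CL.conj_smul_eq_iff_mem_normalizer.1 h)
      (by rw [CL.index_conj_smul]; exact hcop x hx)
  have hm : ∀ g : G, ∀ k ∈ K, ∀ y : G, y ∈ MulAut.conj g • H → y ≠ 1 →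
      k * y * k⁻¹ ∈ MulAut.conj g • H → k ∈ MulAut.conj g • H := by
    intro g k hk y hy hy1 hky
    refine hb g k hk ?_
    rw [CL.conj_smul_conj_smul]
    refine ha _ _ (k * y * k⁻¹) (by simpa using hy1) ?_ hky
    rw [← CL.conj_smul_conj_smul]
    exact CL.conj_mem_conj_smul hy
  have hc : ∀ x ∈ K, x ≠ 1 → ∃ g : G, x ∈ MulAut.conj g • H := by
    intro x hx hx1
    have ho : orderOf x ≠ 1 := by simpa using hx1
    obtain ⟨p, hp, hpd⟩ := Nat.exists_prime_and_dvd ho
    have := Fact.mk hp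
    set y := x ^ (orderOf x / p) with hy
    have hyo : orderOf y = p := orderOf_pow_orderOf_div (orderOf_pos x).ne' hpd
    have hpH : ¬ p ∣ H.index := fun h =>
      hp.one_lt.ne' (Nat.eq_one_of_dvd_coprimes (hcop x hx) hpd h)
    have hyP : IsPGroup p (Subgroup.zpowers y) :=
      IsPGroup.of_card (n := 1) (by rw [Nat.card_zpowers, hyo, pow_one])
    obtain ⟨Q, hQ⟩ := hyP.exists_le_sylow
    obtain ⟨P⟩ := (inferInstance : Nonempty (Sylow p H))
    have hPi : ¬ p ∣ ((P : Subgroup H).map H.subtype).index := by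
      rw [Subgroup.index_map_subtype]
      exact fun h => ((hp.dvd_mul.1 h).elim P.not_dvd_index hpH)
    let P' : Sylow p G := (P.isPGroup'.map H.subtype).toSylow hPi
    obtain ⟨g, hg⟩ := MulAction.exists_smul_eq G P' Q
    have hyg : y ∈ MulAut.conj g • H := by
      have h1 : y ∈ (Q : Subgroup G) := hQ (Subgroup.mem_zpowers y)
      rw [← hg] at h1
      have h2 : (P' : Subgroup G) ≤ H := Subgroup.map_subtype_le _
      exact CL.conj_smul_mono g h2 h1
    refine ⟨g, hm g x hx y hyg ?_ ?_⟩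
    · intro h; rw [h, orderOf_one] at hyo; exact hp.one_lt.ne hyo
    · have : x * y * x⁻¹ = y := by rw [hy]; group
      rw [this]; exact hyg
  by_contra hn
  push Not at hn
  have hK1 : K ≠ ⊥ := fun h => hn 1 (h ▸ bot_le)
  let L : G → Subgroup K := fun g => (MulAut.conj g • H).subgroupOf K
  have hL : ∀ g, ∀ k y : K, y ∈ L g → y ≠ 1 → k * y * k⁻¹ ∈ L g → k ∈ L g := fun g k y hy hy1 hky =>
    hm g k k.2 y hy (fun e => hy1 (Subtype.ext e)) hky
  let S : G → Set K := fun g => Group.conjugatesOfSet ((L g : Set K) \ {1})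
  have hS1 : ∀ g, (1 : K) ∉ S g := by
    intro g h
    obtain ⟨a, ⟨-, ha1⟩, hc⟩ := Group.mem_conjugatesOfSet_iff.1 h
    exact ha1 (isConj_one_right.1 hc.symm)
  obtain ⟨x, hx1⟩ := Subgroup.ne_bot_iff_exists_ne_one.1 hK1
  obtain ⟨g, hg⟩ := hc x x.2 (fun e => hx1 (Subtype.ext e))
  have hLg : L g ≠ ⊥ := fun h => hx1 (Subgroup.mem_bot.1 (h ▸ (hg : x ∈ L g)))
  have c1 := count hLg (hL g)
  have i1 := two_mul_index_le hLg
  have hi : (L g).index ≠ 1 := fun h => hn g (Subgroup.subgroupOf_eq_top.1 (Subgroup.index_eq_one.1 h))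
  have hi0 : (L g).index ≠ 0 := Subgroup.index_ne_zero_of_finite
  have : ∃ y : K, y ≠ 1 ∧ y ∉ S g := by
    by_contra hne
    push Not at hne
    have hsub : (Set.univ : Set K) ⊆ insert 1 (S g) := by
      intro y _
      by_cases hy : y = 1
      · exact Or.inl hy
      · exact Or.inr (hne y hy)
    have := Set.ncard_le_ncard hsub
    rw [Set.ncard_univ, Set.ncard_insert_of_notMem (hS1 g)] at this
    change (S g).ncard + _ = _ at c1
    omega
  obtain ⟨y, hy1, hyS⟩ := this
  obtain ⟨g', hg'⟩ := hc y y.2 (fun e => hy1 (Subtype.ext e))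
  have hLg' : L g' ≠ ⊥ := fun h => hy1 (Subgroup.mem_bot.1 (h ▸ (hg' : y ∈ L g')))
  have c2 := count hLg' (hL g')
  have i2 := two_mul_index_le hLg'
  have hdis : Disjoint (S g) (S g') := by
    rw [Set.disjoint_left]
    intro z hz hz'
    obtain ⟨a, ⟨ha0, ha1⟩, hca⟩ := Group.mem_conjugatesOfSet_iff.1 hz
    obtain ⟨b, ⟨hb0, hb1⟩, hcb⟩ := Group.mem_conjugatesOfSet_iff.1 hz'
    obtain ⟨c, hc⟩ := isConj_iff.1 (hca.trans hcb.symm)
    have hb2 : (b : G) ∈ MulAut.conj ((c : G) * g) • H := by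
      rw [← CL.conj_smul_conj_smul, ← hc]
      exact CL.conj_mem_conj_smul ha0
    have e := ha _ _ b (fun e => hb1 (Subtype.ext e)) hb2 hb0
    rw [← e, ← CL.conj_smul_conj_smul, CL.mem_conj_smul_iff] at hg'
    apply hyS
    refine Group.mem_conjugatesOfSet_iff.2 ⟨c⁻¹ * y * c, ⟨hg', ?_⟩, isConj_iff.2 ⟨c, by group⟩⟩
    intro h
    apply hy1
    have h' : c⁻¹ * y * c = 1 := h
    calc y = c * (c⁻¹ * y * c) * c⁻¹ := by group
      _ = 1 := by rw [h']; group
  have hle := Set.ncard_le_ncard (Set.subset_univ (insert 1 (S g ∪ S g')))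
  rw [Set.ncard_univ, Set.ncard_insert_of_notMem (by
    rintro (h | h)
    · exact hS1 g h
    · exact hS1 g' h), Set.ncard_union_eq hdis] at hle
  change (S g).ncard + _ = _ at c1
  change (S g').ncard + _ = _ at c2
  omega

end Cfsg.Agent.S4116
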