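import Cfsg.Statements.S4117
import Cfsg.Agent.S0055
import Cfsg.Agent.SOLV.Supersolvable
import Cfsg.Agent.SOLV.CoprimeAut

set_option autoImplicit false
open Cfsg

namespace Cfsg.Agent.S4117


section
variable {G A : Type*} [Group G] [Finite G] [Group A] [Finite A] [MulDistribMulAction A G]

theorem inf_eq_bot (hcop : (Nat.card A).Coprime (Nat.card G)) (V : Subgroup G) [IsMulCommutative V]
    (hV : ∀ a : A, ∀ x ∈ V, a • x ∈ V) :
    V ⊓ CL.actFix G (⊤ : Subgroup A) ⊓ CL.actComm V (⊤ : Subgroup A) = ⊥ := by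
  have h := (Cfsg.Agent.S0055.result (G := CL.Hol A G) ((⊤ : Subgroup A).map CL.Hol.inr)
    (V.map CL.Hol.inl) (CL.Hol.map_inr_le_normalizer_iff.2 fun b _ => hV b) (by
      rw [CL.Hol.card_map_inr, CL.Hol.card_map_inl, Subgroup.card_top]
      exact hcop.coprime_dvd_right V.card_subgroup_dvd_card)).1
  rw [CL.Hol.map_inl_inf_centralizer, CL.Hol.commutator_map_inl_map_inr, ← CL.Hol.map_inl_inf,
    CL.Hol.map_inl_eq_bot] at h
  exact h

theorem comm_actComm [IsZGroup G] : IsMulCommutative (CL.actComm (⊤ : Subgroup G) (⊤ : Subgroup A)) := by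
  have hD : IsCyclic (commutator G) := IsZGroup.isCyclic_commutator G
  have hn : ((commutator G).map (CL.Hol.inl : G →* CL.Hol A G)).Normal :=
    CL.Hol.normal_map_inl _ (CL.smul_mem_of_characteristic _)
  have hc : IsCyclic ((commutator G).map (CL.Hol.inl : G →* CL.Hol A G)) :=
    isCyclic_of_surjective _ (CL.Hol.equivInl (A := A) (commutator G)).surjective
  have h1 := CL.commutator_le_centralizer_of_cyclic_normal
    ((commutator G).map (CL.Hol.inl : G →* CL.Hol A G))
  have h2 : CL.actComm (⊤ : Subgroup G) (⊤ : Subgroup A) ≤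
      Subgroup.centralizer (commutator G : Set G) := by
    intro x hx
    have hx' : (CL.Hol.inl x : CL.Hol A G) ∈ commutator (CL.Hol A G) := by
      have : (CL.Hol.inl x : CL.Hol A G) ∈
          (CL.actComm (⊤ : Subgroup G) (⊤ : Subgroup A)).map CL.Hol.inl := ⟨x, hx, rfl⟩
      rw [← CL.Hol.commutator_map_inl_map_inr] at this
      exact Subgroup.commutator_mono le_top le_top this
    have := h1 hx'
    rw [Subgroup.mem_centralizer_iff] at this ⊢
    intro d hd
    apply CL.Hol.inl_injective (A := A)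
    rw [map_mul, map_mul]
    exact this _ ⟨d, hd, rfl⟩
  set K := CL.actComm (⊤ : Subgroup G) (⊤ : Subgroup A)
  refine MonoidHom.isMulCommutative_of_isCyclic_of_ker_le_center
    ((Abelianization.of : G →* Abelianization G).comp K.subtype) ?_
  intro x hx
  rw [MonoidHom.mem_ker, MonoidHom.comp_apply, ← MonoidHom.mem_ker, Abelianization.ker_of] at hx
  rw [Subgroup.mem_center_iff]
  intro y
  exact Subtype.ext ((Subgroup.mem_centralizer_iff.1 (h2 y.2)) x hx).symm

end


/-- Let A be a finite group acting on the finite group G by automorphisms with the orders of A and G coprime, and suppose every Sylow subgroup of G is cyclic. Then the fixed-point subgroup C_G(A) is a Hall subgroup of G (its order is coprime to its index), the subgroup [G, A] generated by the elements g⁻¹·a(g) is cyclic and normal with [G, A] ∩ C_G(A) = 1 and [G, A]·C_G(A) = G. -/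
theorem result {G A : Type*} [Group G] [Finite G] [Group A] [Finite A]
    [MulDistribMulAction A G] (hcop : (Nat.card A).Coprime (Nat.card G))
    (hcyc : ∀ (p : ℕ) [Fact p.Prime] (P : Sylow p G), IsCyclic (P : Subgroup G)) :
    (Nat.card (MulAction.fixedPoints A G : Set G)).Coprime (Nat.card G / Nat.card (MulAction.fixedPoints A G : Set G)) ∧
    IsCyclic (Subgroup.closure {y : G | ∃ (a : A) (g : G), y = g⁻¹ * a • g}) ∧
    (Subgroup.closure {y : G | ∃ (a : A) (g : G), y = g⁻¹ * a • g}).Normal ∧
    (Subgroup.closure {y : G | ∃ (a : A) (g : G), y = g⁻¹ * a • g} : Set G) ∩ MulAction.fixedPoints A G = {1} ∧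
    Subgroup.closure {y : G | ∃ (a : A) (g : G), y = g⁻¹ * a • g} ⊔ Subgroup.closure (MulAction.fixedPoints A G) = ⊤ := by
  have hZ : IsZGroup G := ⟨fun p hp P => by have := Fact.mk hp; exact hcyc p P⟩
  have hsol : Group.IsSolvable G := inferInstance
  have hC : (MulAction.fixedPoints A G : Set G) = (CL.actFix G (⊤ : Subgroup A) : Set G) := by
    ext x
    simp [CL.mem_actFix_top]
  rw [← CL.actComm_top_top, hC, Subgroup.closure_eq]
  have hcomm := comm_actComm (G := G) (A := A)
  have hKI : ∀ a : A, ∀ x ∈ CL.actComm (⊤ : Subgroup G) (⊤ : Subgroup A),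
      a • x ∈ CL.actComm (⊤ : Subgroup G) (⊤ : Subgroup A) :=
    fun a => CL.smul_mem_actComm _ _ a (Subgroup.mem_top _)
  refine ⟨?_, ?_, CL.actComm_top_normal _, ?_, ?_⟩
  · set C := CL.actFix G (⊤ : Subgroup A)
    have hidx : Nat.card G / Nat.card (C : Set G) = C.index := by
      rw [← C.card_mul_index]
      exact Nat.mul_div_cancel_left _ Nat.card_pos
    rw [hidx]
    refine Nat.coprime_of_dvd fun p hp h1 h2 => ?_
    have := Fact.mk hp
    obtain ⟨x, hx⟩ := exists_prime_orderOf_dvd_card' (G := C) p h1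
    have hx' : orderOf (x : G) = p := by rw [Subgroup.orderOf_coe, hx]
    have hU : IsPGroup p (Subgroup.zpowers (x : G)) :=
      IsPGroup.of_card (n := 1) (by rw [Nat.card_zpowers, hx', pow_one])
    obtain ⟨P, hUP, hP⟩ := CL.act_exists_invariant_sylow_ge hcop (Or.inr hsol) p _ hU (by
      intro a u hu
      have : u ∈ C := (Subgroup.zpowers_le.2 x.2) hu
      rw [CL.mem_actFix_top.1 this a]; exact hu)
    have hPI := CL.sylow_smul_eq_iff_invariant.1 hP
    have hPc : IsCyclic ((P : Subgroup G).map (CL.Hol.inl : G →* CL.Hol A G)) :=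
      isCyclic_of_surjective _ (CL.Hol.equivInl (A := A) (P : Subgroup G)).surjective
    rcases IsPGroup.commutator_eq_bot_or_commutator_eq_self (p := p)
      (P := (P : Subgroup G).map (CL.Hol.inl : G →* CL.Hol A G))
      (K := (⊤ : Subgroup A).map CL.Hol.inr) (P.isPGroup'.map _)
      (CL.Hol.map_inr_le_normalizer_iff.2 fun b _ => hPI b) (by
        rw [CL.Hol.card_map_inr, CL.Hol.card_map_inl, Subgroup.card_top]
        exact (hcop.coprime_dvd_right (P : Subgroup G).card_subgroup_dvd_card).symm) with h | h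
    · rw [Subgroup.commutator_comm, CL.Hol.commutator_map_inl_map_inr, CL.Hol.map_inl_eq_bot,
        CL.actComm_eq_bot_iff] at h
      exact P.not_dvd_index (h2.trans (Subgroup.index_dvd_of_le h))
    · rw [Subgroup.commutator_comm, CL.Hol.commutator_map_inl_map_inr, CL.Hol.map_inl_inj] at h
      have h3 := inf_eq_bot hcop (P : Subgroup G) hPI
      rw [h] at h3
      have hxP : (x : G) ∈ (P : Subgroup G) := hUP (Subgroup.mem_zpowers _)
      have : (x : G) ∈ (⊥ : Subgroup G) := h3 ▸ ⟨⟨hxP, x.2⟩, hxP⟩
      rw [Subgroup.mem_bot] at this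
      rw [this, orderOf_one] at hx'
      exact hp.one_lt.ne hx'
  · have : Group.IsNilpotent (CL.actComm (⊤ : Subgroup G) (⊤ : Subgroup A)) := by
      let _ : CommGroup (CL.actComm (⊤ : Subgroup G) (⊤ : Subgroup A)) :=
        { (inferInstance : Group _) with mul_comm := mul_comm' }
      exact CommGroup.isNilpotent
    infer_instance
  · have h3 := inf_eq_bot hcop _ hKI
    rw [CL.act_actComm_actComm (⊤ : Subgroup A) (⊤ : Subgroup G) (fun _ _ _ _ => Subgroup.mem_top _)
      (CL.coprime_top_top hcop) (CL.isSolvable_top_or_top (Or.inr hsol)), inf_right_comm, inf_idem] at h3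
    rw [← Subgroup.coe_inf, h3, Subgroup.coe_bot]
  · have := CL.act_actComm_sup_actFix (⊤ : Subgroup A) (⊤ : Subgroup G)
      (fun _ _ _ _ => Subgroup.mem_top _)
      (CL.coprime_top_top hcop) (CL.isSolvable_top_or_top (Or.inr hsol))
    rwa [top_inf_eq] at this

end Cfsg.Agent.S4117
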