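import Mathlib
import Cfsg.Statements.S4118
import Cfsg.Agent.SOLV.OddOrderCor
import Cfsg.Agent.SOLV.Supersolvable
import Cfsg.Agent.SOLV.Coprime
import Cfsg.Agent.PERM.FCStruct2
import Cfsg.Agent.S0055

set_option autoImplicit false
open Cfsg

namespace Cfsg.Agent.S4118

open Subgroup
open scoped commutatorElement

theorem solvable_of_zgroup {X : Type*} [Group X] [Finite X] (A : Subgroup X) [A.Normal] [IsZGroup A]
    (h : centralizer (A : Set X) ≤ A) : Group.IsSolvable X := by
  have h1 : IsCyclic (⁅A, A⁆ : Subgroup X) := by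
    rw [← map_subtype_commutator]
    have := IsZGroup.isCyclic_commutator A
    exact isCyclic_of_surjective _ (A.subtype.subgroupMap_surjective _)
  have h2 := CL.commutator_le_centralizer_of_cyclic_normal (⁅A, A⁆ : Subgroup X)
  have h3 : IsCyclic (A.map (QuotientGroup.mk' ⁅A, A⁆)) := by
    have : IsZGroup (A.map (QuotientGroup.mk' ⁅A, A⁆)) :=
      IsZGroup.of_surjective ((QuotientGroup.mk' ⁅A, A⁆).subgroupMap_surjective A)
    have : IsMulCommutative (A.map (QuotientGroup.mk' ⁅A, A⁆)) := by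
      rw [← commutator_self_eq_bot_iff, ← map_commutator, QuotientGroup.map_mk'_self]
    open scoped IsMulCommutative in infer_instance
  have : (A.map (QuotientGroup.mk' ⁅A, A⁆)).Normal := Normal.map inferInstance _
    (QuotientGroup.mk'_surjective _)
  have h4 := CL.commutator_le_centralizer_of_cyclic_normal (A.map (QuotientGroup.mk' ⁅A, A⁆))
  have h5 : ⁅commutator X, A⁆ ≤ ⁅A, A⁆ := by
    rw [← QuotientGroup.ker_mk' ⁅A, A⁆, ← Subgroup.map_eq_bot_iff, map_commutator,
      commutator_eq_bot_iff_le_centralizer]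
    refine le_trans ?_ h4
    rw [_root_.commutator, map_commutator]
    exact commutator_mono le_top le_top
  have h6 : ⁅⁅commutator X, A⁆, commutator X⁆ = ⊥ := by
    rw [commutator_comm, commutator_eq_bot_iff_le_centralizer]
    exact h2.trans (centralizer_le h5)
  have h7 : ⁅commutator X, commutator X⁆ ≤ A := by
    refine le_trans ?_ h
    rw [← commutator_eq_bot_iff_le_centralizer]
    exact commutator_commutator_eq_bot_of_rotate h6 (by rwa [commutator_comm A])
  have : Group.IsSolvable (X ⧸ A) := ⟨⟨2, by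
    rw [← map_derivedSeries_eq (QuotientGroup.mk'_surjective A), Subgroup.map_eq_bot_iff,
      QuotientGroup.ker_mk']
    exact h7⟩⟩
  exact Group.isSolvable_of_ker_le_range A.subtype (QuotientGroup.mk' A) (by simp)

theorem isFPF {G : Type*} [Group G] [Finite G] {H O : Subgroup G} [O.Normal]
    (hs : Group.IsSolvable O) (hcop : (Nat.card H).Coprime (Nat.card O))
    (hn : ¬ O ≤ centralizer (H : Set G))
    (hf : ∀ h ∈ H, h ≠ 1 → O ⊓ centralizer {h} ≤ centralizer (H : Set G)) : CL.FC.IsFPF H := by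
  obtain ⟨U, ⟨hU, hUO, hUH⟩, hmin⟩ := WellFounded.has_min (wellFounded_lt (α := Subgroup G))
    {U | U.Normal ∧ U ≤ O ∧ ¬ U ≤ centralizer (H : Set G)} ⟨O, inferInstance, le_rfl, hn⟩
  have hUs : Group.IsSolvable U := CL.isSolvable_of_le hUO hs
  have hlt : ⁅U, U⁆ < U := by
    have h1 : U ≠ ⊥ := fun e => hUH (e ▸ bot_le)
    have := (nontrivial_iff_ne_bot U).2 h1
    rw [← map_subtype_commutator]
    refine lt_of_le_of_ne (map_subtype_le _) fun e => ?_
    refine (Group.IsSolvable.commutator_lt_top_of_nontrivial U).ne (map_injective U.subtype_injective ?_)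
    rw [e, ← MonoidHom.range_eq_map, range_subtype]
  have hW : ⁅U, U⁆ ≤ centralizer (H : Set G) := by
    by_contra h
    exact hmin _ ⟨inferInstance, hlt.le.trans hUO, h⟩ hlt
  have hcU : (Nat.card H).Coprime (Nat.card U) := hcop.coprime_dvd_right (card_dvd_of_le hUO)
  obtain ⟨f, hf'⟩ : ∃ f, f = QuotientGroup.mk' ⁅U, U⁆ := ⟨_, rfl⟩
  have hk : f.ker = ⁅U, U⁆ := by rw [hf', QuotientGroup.ker_mk']
  have hsurj : Function.Surjective f := hf' ▸ QuotientGroup.mk'_surjective _
  have : IsMulCommutative (U.map f) := by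
    rw [← commutator_self_eq_bot_iff, ← map_commutator, Subgroup.map_eq_bot_iff, hk]
  have hUn : (U.map f).Normal := hU.map f hsurj
  have h1 := (Cfsg.Agent.S0055.result (H.map f) (U.map f) le_normalizer_of_normal
    ((hcU.coprime_dvd_left (card_map_dvd _ _)).coprime_dvd_right (card_map_dvd _ _))).1
  have h2 : ⁅U.map f, H.map f⁆ ≠ ⊥ := fun e => by
    rw [← map_commutator, Subgroup.map_eq_bot_iff, hk] at e
    exact hUH (CL.coprime_le_centralizer_of_commutator_le H U le_normalizer_of_normal hcU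
      (Or.inr hUs) (e.trans hW))
  have := (nontrivial_iff_ne_bot _).2 h2
  refine CL.FC.isFPF_of_fpf_aut ((CL.FC.conjHom (H.map f) ⁅U.map f, H.map f⁆
    (normalizer_commutator_ge_right _ _)).comp (f.subgroupMap H)) fun h hh k hk' => Subtype.ext ?_
  have h3 : f h * k * (f h)⁻¹ = k := congrArg Subtype.val hk'
  have h4 := CL.inf_centralizer_map_of_coprime f (zpowers (h : G)) U (hk.le.trans hlt.le)
    ((hcU.coprime_dvd_left (card_dvd_of_le (zpowers_le.2 h.2))).coprime_dvd_right
      (card_dvd_of_le (hk.le.trans hlt.le))) (Or.inl inferInstance)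
  have hkU : (k : G ⧸ ⁅U, U⁆) ∈ U.map f := commutator_le_left _ _ k.2
  obtain ⟨c, hc, e⟩ := h4.le ⟨hkU, by
    rw [MonoidHom.map_zpowers, zpowers_eq_closure, centralizer_closure]
    exact mem_centralizer_singleton_iff.2 (mul_inv_eq_iff_eq_mul.1 h3).symm⟩
  have h5 := hf h h.2 (fun e => hh (Subtype.ext e)) ⟨hUO hc.1,
    centralizer_le (Set.singleton_subset_iff.2 (mem_zpowers (h : G))) hc.2⟩
  refine mem_bot.1 (h1 ▸ ⟨⟨hkU, ?_⟩, k.2⟩)
  rintro _ ⟨y, hy, rfl⟩
  rw [← e, ← map_mul, ← map_mul, h5 y hy]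


/-- Let G be a finite group and H a non-normal subgroup meeting each of its conjugates by elements outside N_G(H) trivially, with the order of H coprime to its index in N_G(H); let π be the set of primes dividing the order of H and suppose G is π-separable (it has a chain of normal subgroups from 1 to G each of whose factors has order divisible only by primes in π or coprime to the order of H). Let O be the largest normal subgroup of G of order coprime to the order of H. Then G = O·N_G(H), O·H is normal in G, and G is solvable if and only if O is solvable and H has no subgroup isomorphic to SL₂(5). -/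
theorem result {G : Type*} [Group G] [Finite G] (H : Subgroup G)
    (hTI : Cfsg.IsTISubset (H : Set G)) (hnn : ¬ H.Normal)
    (hHall : (Nat.card H).Coprime (H.subgroupOf (Subgroup.normalizer (H : Set G))).index)
    (hsep : ∃ (n : ℕ) (M : Fin (n + 1) → Subgroup G), M 0 = ⊥ ∧ M (Fin.last n) = ⊤ ∧ Monotone M ∧ (∀ i, (M i).Normal) ∧
      ∀ i : Fin n, (∀ q : ℕ, q.Prime → q ∣ (M i.castSucc).relIndex (M i.succ) → q ∣ Nat.card H) ∨
        ((M i.castSucc).relIndex (M i.succ)).Coprime (Nat.card H))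
    (O : Subgroup G) (hO : O = sSup {K : Subgroup G | K.Normal ∧ (Nat.card K).Coprime (Nat.card H)}) :
    O ⊔ Subgroup.normalizer (H : Set G) = ⊤ ∧ (O ⊔ H).Normal ∧
    (Group.IsSolvable G ↔ Group.IsSolvable O ∧
      ∀ K : Subgroup G, K ≤ H → ¬ Nonempty (K ≃* Matrix.SpecialLinearGroup (Fin 2) (ZMod 5))) := by
  classical
  obtain ⟨π, hπ⟩ : ∃ π : Set ℕ, π = {q | q ∣ Nat.card H} := ⟨_, rfl⟩
  have hc : ∀ n : ℕ, n.Coprime (Nat.card H) ↔ ∀ q : ℕ, q.Prime → q ∣ n → q ∉ π := fun n =>
    ⟨fun h q hq h1 h2 => hq.one_lt.ne' (Nat.eq_one_of_dvd_coprimes h h1 (hπ ▸ h2 : q ∈ {q | q ∣ _})),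
      fun h => Nat.coprime_of_dvd fun q hq h1 h2 => h q hq h1 (hπ ▸ h2)⟩
  have hS : CL.IsPiSeparable π G := by
    obtain ⟨n, M, h1, h2, h3, h4, h5⟩ := hsep
    exact CL.isPiSeparable_iff.2 ⟨n, M, h1, h2, h3, h4, fun i =>
      (h5 i).imp (fun h q hq h6 => hπ ▸ h q hq h6) (hc _).1⟩
  have hO' : O = piCore πᶜ G := by
    rw [hO, piCore]
    congr 1
    ext K
    exact and_congr_right fun _ => hc _
  clear hO
  have : O.Normal := hO' ▸ inferInstance
  have hcop : (Nat.card H).Coprime (Nat.card O) :=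
    ((hc _).2 (hO' ▸ CL.isPiNum_card_piCore πᶜ G)).symm
  have ti : ∀ x ∈ H, x ≠ 1 → ∀ g : G, g * x * g⁻¹ ∈ H → g ∈ normalizer (H : Set G) :=
    fun x hx hx1 g hg => by_contra fun h => hx1 (hTI g h x hx hg)
  have ti' : ∀ X ≤ H, X ≠ ⊥ → normalizer (X : Set G) ≤ normalizer (H : Set G) := fun X hX h1 g hg => by
    obtain ⟨⟨x, hx⟩, hx1⟩ := ne_bot_iff_exists_ne_one.1 h1
    exact ti x (hX hx) (fun e => hx1 (Subtype.ext e)) g (hX ((mem_normalizer_iff.1 hg x).1 hx))
  have hH : IsPiHall π H := ⟨fun p _ h => hπ ▸ h, fun p hp hpπ => by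
    have := Fact.mk hp
    have hpH : p ∣ Nat.card H := (hπ ▸ hpπ : p ∈ {q | q ∣ _})
    obtain ⟨x, hx⟩ := exists_prime_orderOf_dvd_card' p hpH
    obtain ⟨S, hS⟩ := (IsPGroup.of_card (p := p) (n := 1) (G := zpowers (x : G))
      (by rw [Nat.card_zpowers, orderOf_coe, hx, pow_one])).exists_le_sylow
    have h1 : (S : Subgroup G) ⊓ H ≠ ⊥ := fun e => hp.one_lt.ne' (by
      have : (x : G) ∈ (S : Subgroup G) ⊓ H := ⟨hS (mem_zpowers _), x.2⟩
      rw [e, mem_bot] at this
      rw [← hx, ← orderOf_coe, this, orderOf_one])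
    have h2 : (S : Subgroup G) ≤ H := by
      by_contra h3
      have := S.isPGroup'.isNilpotent
      have h4 := Group.normalizerCondition_of_isNilpotent (G := (S : Subgroup G)) (H.subgroupOf S)
        (lt_top_iff_ne_top.2 fun e => h3 (subgroupOf_eq_top.1 e))
      obtain ⟨g, hg, hgH⟩ := SetLike.exists_of_lt h4
      have h5 : (g : G) ∈ normalizer (H : Set G) := by
        obtain ⟨⟨y, hy⟩, hy1⟩ := ne_bot_iff_exists_ne_one.1 h1
        exact ti y hy.2 (fun e => hy1 (Subtype.ext e)) g
          ((mem_normalizer_iff.1 hg ⟨y, hy.1⟩).1 hy.2)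
      obtain ⟨k, hk⟩ := IsPGroup.iff_orderOf.1 S.isPGroup' g
      have h6 := (H.subgroupOf (normalizer (H : Set G))).pow_index_mem ⟨g, h5⟩
      have h7 : (orderOf (g : G)).Coprime (H.subgroupOf (normalizer (H : Set G))).index := by
        rw [orderOf_coe, hk]
        exact (hHall.coprime_dvd_left hpH).pow_left k
      obtain ⟨m, hm⟩ := exists_pow_eq_self_of_coprime h7.symm
      exact hgH (mem_subgroupOf.2 (hm ▸ H.pow_mem h6 m))
    exact fun h => S.not_dvd_index (h.trans (index_dvd_of_le h2))⟩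
  have hH1 : H ≠ ⊥ := by rintro rfl; exact hnn inferInstance
  obtain ⟨f, hf⟩ : ∃ f, f = QuotientGroup.mk' O := ⟨_, rfl⟩
  have hk : f.ker = O := by rw [hf, QuotientGroup.ker_mk']
  have hsurj : Function.Surjective f := hf ▸ QuotientGroup.mk'_surjective _
  have hHf := CL.IsPiHall.map hH hsurj
  have hOq : piCore πᶜ (G ⧸ O) = ⊥ := by subst hO'; exact CL.piCore_quotient_piCore _ _
  have hHO : H ⊓ O = ⊥ := disjoint_iff.1 (disjoint_of_coprime_natCard hcop)
  have hOT : O ≠ ⊤ := fun e => hH1 (by simpa [e] using hHO)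
  have := CL.nontrivial_quotient_of_ne_top hOT
  have hR := (hS.quotient O).piCore_ne_bot.resolve_right (not_not.2 hOq)
  have h1 : (H ⊓ (piCore π (G ⧸ O)).comap f).map f = piCore π (G ⧸ O) := by
    refine le_antisymm (map_le_iff_le_comap.2 inf_le_right) fun x hx => ?_
    obtain ⟨y, hy, rfl⟩ := CL.IsPiHall.piCore_le hHf hx
    exact ⟨y, ⟨hy, hx⟩, rfl⟩
  have h2 : (normalizer (H : Set G)).map f = ⊤ := by
    have h4 : (Nat.card (H ⊓ (piCore π (G ⧸ O)).comap f : Subgroup G)).Coprime (Nat.card f.ker) := by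
      rw [hk]; exact hcop.coprime_dvd_left (card_dvd_of_le inf_le_left)
    have h3 := CL.normalizer_map_of_coprime f hsurj _ h4 (CL.isSolvable_or_of_coprime _ _ h4)
    rw [h1, normalizer_eq_top] at h3
    refine eq_top_iff.2 (h3.le.trans (map_mono (ti' _ inf_le_left fun e => hR ?_)))
    rw [← h1, e, Subgroup.map_bot]
  have h3 : O ⊔ normalizer (H : Set G) = ⊤ := by
    have := congrArg (comap f) h2
    rwa [comap_map_eq, hk, comap_top, sup_comm] at this
  have h4 : (H.map f).Normal := normalizer_eq_top_iff.1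
    (eq_top_iff.2 (h2 ▸ le_normalizer_map f))
  refine ⟨h3, ?_, fun hG => ⟨inferInstance, fun K _ ⟨e⟩ => ?_⟩, fun ⟨hs, h5⟩ => ?_⟩
  · have := h4.comap f
    rwa [comap_map_eq, hk, sup_comm] at this
  · have := CL.isSolvable_of_mulEquiv e
    have : Nontrivial (Matrix.SpecialLinearGroup (Fin 2) (ZMod 5)) := ⟨1, -1, by decide⟩
    exact (Group.IsSolvable.commutator_lt_top_of_nontrivial _).ne CL.TC.sl25_perfect
  have hF : CL.FC.IsFPF H := isFPF hs hcop
    (fun h => hnn (normalizer_eq_top_iff.1 (by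
      rw [← h3, sup_eq_right.2 (h.trans (centralizer_le_normalizer _))])))
    fun h hh hh1 g hg y hy => by
      have h6 : g ∈ normalizer (H : Set G) := ti h hh hh1 g (by
        rwa [mem_centralizer_singleton_iff.1 hg.2, mul_inv_cancel_right])
      have h7 : y * (g * y⁻¹ * g⁻¹) ∈ H ⊓ O := ⟨H.mul_mem hy
        ((mem_normalizer_iff.1 h6 _).1 (H.inv_mem hy)), by
          simpa [mul_assoc] using O.mul_mem (Normal.conj_mem inferInstance g hg.1 y) (O.inv_mem hg.1)⟩
      rw [hHO, mem_bot] at h7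
      calc y * g = y * (g * y⁻¹ * g⁻¹) * (g * y) := by group
        _ = _ := by rw [h7, one_mul]
  have hHs : Group.IsSolvable H := by
    by_contra h
    obtain ⟨φ, hφ, -⟩ := hF.exists_SL25 h
    exact h5 (H.subtype.comp φ).range (by rintro _ ⟨x, rfl⟩; exact (φ x).2)
      ⟨(MonoidHom.ofInjective (f := H.subtype.comp φ) (H.subtype_injective.comp hφ)).symm⟩
  have : Group.IsSolvable (G ⧸ O) := by
    by_cases h : 2 ∣ Nat.card H
    · have := CL.isSolvable_of_not_two_dvd ((G ⧸ O) ⧸ H.map f) (hHf.2 2 Nat.prime_two (hπ ▸ h))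
      have := CL.isSolvable_map H f
      exact Group.isSolvable_of_ker_le_range (H.map f).subtype (QuotientGroup.mk' (H.map f)) (by simp)
    · have := hF.isZGroup_of_odd ((Nat.Prime.coprime_iff_not_dvd Nat.prime_two).2 h).symm
      have : IsZGroup (H.map f) := IsZGroup.of_surjective (f.subgroupMap_surjective H)
      refine solvable_of_zgroup (H.map f) ?_
      rw [CL.IsPiHall.eq_piCore hHf]
      exact (hS.quotient O).centralizer_piCore_le hOq
  exact Group.isSolvable_of_ker_le_range O.subtype (QuotientGroup.mk' O) (by simp)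

end Cfsg.Agent.S4118
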