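import Cfsg.Statements.S4120
import Cfsg.Agent.SOLV.FH.Key

set_option autoImplicit false
open Cfsg

namespace Cfsg.Agent.S4120

open CL CL.FroA CL.Hol in

theorem result {G A : Type*} [Group G] [Finite G] [Group A] [Finite A] [MulDistribMulAction A G] [FaithfulSMul A G]
    (Fk Hc : Subgroup A) [Fk.Normal] (hHc : Cfsg.IsFrobeniusComplement Hc) (hker : Cfsg.frobeniusKernel Hc = (Fk : Set A))
    (hCF : ∀ g : G, (∀ f ∈ Fk, f • g = g) → g = 1) (hnil : Group.IsNilpotent (Subgroup.closure {g : G | ∀ h ∈ Hc, h • g = g})) : Group.IsNilpotent G := by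
  have := (hol_fr hHc hker (N := ⊤) (fun _ _ _ => trivial) fun n _ => hCF n).nil (by
    refine isNilpotent_of_le (isNilpotent_map (Subgroup.closure {g : G | ∀ h ∈ Hc, h • g = g})
      (inl : G →* Hol A G)) ?_
    rw [map_inl_inf_centralizer]
    exact Subgroup.map_mono fun x hx => Subgroup.subset_closure hx.2)
  exact Group.nilpotent_of_mulEquiv ((equivInl (A := A) ⊤).symm.trans Subgroup.topEquiv)

end Cfsg.Agent.S4120
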