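import Cfsg.Statements.S4121
import Cfsg.Agent.SOLV.FH.Fr

set_option autoImplicit false
open Cfsg

namespace Cfsg.Agent.S4121

open CL CL.FroA CL.Hol in

theorem result {G A : Type*} [Group G] [Finite G] [Group A] [Finite A] [MulDistribMulAction A G] [FaithfulSMul A G]
    (Fk Hc : Subgroup A) [Fk.Normal] (hHc : Cfsg.IsFrobeniusComplement Hc) (hker : Cfsg.frobeniusKernel Hc = (Fk : Set A))
    (N : Subgroup G) [N.Normal] (hNA : ∀ (a : A) (n : G), n ∈ N → a • n ∈ N)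
    (hCNF : ∀ n ∈ N, (∀ f ∈ Fk, f • n = n) → n = 1)
    (g : G) (hg : ∀ h ∈ Hc, g⁻¹ * h • g ∈ N) : ∃ c : G, (∀ h ∈ Hc, h • c = c) ∧ c⁻¹ * g ∈ N := by
  obtain ⟨_, ⟨k, hk, rfl⟩, e⟩ := (hol_fr hHc hker hNA hCNF).lift (g := inl g⁻¹)
    ((map_inl_le_normalizer_iff (K := ⊤)).2 (by rw [Subgroup.normalizer_eq_top]) ⟨_, trivial, rfl⟩) (by
      rintro _ ⟨f, hf, rfl⟩
      refine ⟨_, hg f hf, ?_⟩
      rw [map_mul, ← conj_inl, map_inv, inv_inv]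
      group)
  rw [← map_mul, hol_comm] at e
  exact ⟨(k * g⁻¹)⁻¹, fun h hh => by rw [smul_inv', e h hh], by simpa using hk⟩

end Cfsg.Agent.S4121
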