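import Cfsg.Statements.S4122
import Cfsg.Agent.SOLV.FH.Fr

set_option autoImplicit false
open Cfsg

namespace Cfsg.Agent.S4122

open CL CL.FroA CL.Hol in

theorem result {G A : Type*} [Group G] [Finite G] [Group A] [Finite A] [MulDistribMulAction A G] [FaithfulSMul A G]
    (Fk Hc : Subgroup A) [Fk.Normal] (hHc : Cfsg.IsFrobeniusComplement Hc) (hker : Cfsg.frobeniusKernel Hc = (Fk : Set A))
    (hCF : ∀ g : G, (∀ f ∈ Fk, f • g = g) → g = 1) : Subgroup.closure {x : G | ∃ f ∈ Fk, ∃ c : G, (∀ h ∈ Hc, h • c = c) ∧ x = f • c} = ⊤ := by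
  refine top_le_iff.1 (map_inl_le_map_inl.1 ((hol_fr hHc hker (N := ⊤) (fun _ _ _ => trivial)
    fun n _ => hCF n).gen ?_))
  rintro _ ⟨c, -, rfl⟩ e _ ⟨f, hf, rfl⟩
  exact ⟨_, Subgroup.subset_closure ⟨f, hf, c, hol_comm.1 e, rfl⟩, (conj_inl f c).symm⟩

end Cfsg.Agent.S4122
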