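import Cfsg.Statements.S4123
import Cfsg.Agent.SOLV.FH.Fr

set_option autoImplicit false
open Cfsg

namespace Cfsg.Agent.S4123

open CL CL.FroA CL.Hol CL.Misc in

theorem result {G A : Type*} [Group G] [Finite G] [Group A] [Finite A] [MulDistribMulAction A G] [FaithfulSMul A G]
    (Fk Hc : Subgroup A) [Fk.Normal] (hHc : Cfsg.IsFrobeniusComplement Hc) (hker : Cfsg.frobeniusKernel Hc = (Fk : Set A))
    (hCF : ∀ g : G, (∀ f ∈ Fk, f • g = g) → g = 1) (p : ℕ) [Fact p.Prime] : ∃! P : Sylow p G, ∀ (a : A) (x : G), x ∈ (P : Subgroup G) → a • x ∈ (P : Subgroup G) := by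
  have h := hol_fr hHc hker (N := ⊤) (fun _ _ _ => trivial) fun n _ => hCF n
  obtain ⟨P, hP, h1, -⟩ := h.syl p
  obtain ⟨Q, -, rfl⟩ := exists_eq_map_inl hP.le
  obtain ⟨S, rfl⟩ := SylIn.exists_sylow (p := p) (P := Q) ⟨le_top,
    hP.isPGroup.of_equiv (equivInl Q).symm, by
      have := hP.not_dvd
      rwa [Subgroup.relIndex_map_map_of_injective _ _ inl_injective] at this⟩
  refine ⟨S, fun a => (map_inr_le_normalizer_iff (B := ⊤)).1 (fun x hx => h.hy.mem_nm_syl hP h1
    (map_inr_le_normalizer_top ⊤ hx) (map_le_normalizer_map _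
      (by rw [Subgroup.normalizer_eq_top]) hx)) a trivial, fun T hT => Sylow.ext ?_⟩
  exact map_inl_inj.1 (h.hy.syl_uniq ((sylIn_top T).map_of_injective inl_injective) hP
    (map_inr_le_normalizer_iff.2 fun b _ => hT b) h1)

end Cfsg.Agent.S4123
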