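import Mathlib
import Cfsg.Statements.S4125
import Cfsg.Agent.FGS.QBaer

set_option autoImplicit false
open Cfsg

namespace Cfsg.Agent.S4125

/-- Let G be a finite group and q a prime dividing its order such that every element of q-power order has a conjugacy class of prime-power size. Then G is q-solvable of q-length 1: there are normal subgroups K ≤ L of G with K of order prime to q, L/K a q-group and L of index prime to q. Moreover there is a prime p such that every element of q-power order has a class of p-power size (one prime serving for all of them), and for a Sylow q-subgroup Q: if p = q then Q is normal with a normal complement (a direct factor), while if p ≠ q then Q is abelian, the product of Q with the largest normal p-subgroup O_p(G) is normal in G, and G/O_{q'}(G) is solvable, where O_{q'}(G) is the largest normal subgroup of order prime to q. -/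
theorem result {G : Type*} [Group G] [Finite G] (q : ℕ) [Fact q.Prime] (hq : q ∣ Nat.card G)
    (hBaer : ∀ x : G, (∃ k : ℕ, orderOf x = q ^ k) → ∃ (r : ℕ) (a : ℕ), r.Prime ∧ (Subgroup.centralizer ({x} : Set G)).index = r ^ a) (Q : Sylow q G) :
    (∃ K L : Subgroup G, K.Normal ∧ L.Normal ∧ K ≤ L ∧ (Nat.card K).Coprime q ∧ (∃ m : ℕ, K.relIndex L = q ^ m) ∧ L.index.Coprime q) ∧
    ∃ p : ℕ, p.Prime ∧ (∀ x : G, (∃ k : ℕ, orderOf x = q ^ k) → ∃ a : ℕ, (Subgroup.centralizer ({x} : Set G)).index = p ^ a) ∧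
      (p = q → (Q : Subgroup G).Normal ∧ ∃ N : Subgroup G, N.Normal ∧ N.IsComplement' (Q : Subgroup G)) ∧
      (p ≠ q → IsMulCommutative (Q : Subgroup G) ∧ (Cfsg.pCore p G ⊔ (Q : Subgroup G)).Normal ∧
        ∀ _h : (Cfsg.pPrimeCore q G).Normal, Group.IsSolvable (G ⧸ Cfsg.pPrimeCore q G)) := by
  have hq' : q.Prime := Fact.out
  have hconv : ∀ (x : G) (k : ℕ), x ^ q ^ k = 1 → ∃ j, orderOf x = q ^ j := fun x k hk => by
    obtain ⟨j, -, hj⟩ := (Nat.dvd_prime_pow hq').1 (orderOf_dvd_of_pow_eq_one hk)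
    exact ⟨j, hj⟩
  obtain ⟨p, hp, hB⟩ := CL.CS.qBaer_single (q := q) fun x k hk => hBaer x (hconv x k hk)
  haveI := Fact.mk hp
  refine ⟨?_, p, hp, fun x ⟨k, hk⟩ => hB x k (hk ▸ pow_orderOf_eq_one x), ?_, fun hpq =>
    ⟨CL.CS.qBaer_abelian hpq hB Q, CL.CS.qBaer_normal hB Q, fun _ => CL.CS.qBaer_solvable hpq hB⟩⟩
  · by_cases hpq : p = q
    · subst hpq
      obtain ⟨N, hN, h1, k, hk⟩ := CL.hasNPC_iff_exists_normal_index.1 (CL.CS.qBaer_same hB Q).2
      exact ⟨N, ⊤, hN, inferInstance, le_top, h1, ⟨k, by rw [Subgroup.relIndex_top_right, hk]⟩,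
        by simp⟩
    · refine ⟨Cfsg.pCore p G, _, inferInstance, CL.CS.qBaer_normal hB Q, le_sup_left,
        (CL.coprime_card_of_isPGroup (CL.isPGroup_pCore p G)
          ((Nat.coprime_primes hq' hp).2 (Ne.symm hpq))).symm, ?_, ?_⟩
      · rw [Subgroup.relIndex_sup_left]
        exact CL.CS.exists_relIndex_eq_pow Q.isPGroup' _
      · exact (hq'.coprime_iff_not_dvd.2 (CL.CS.not_dvd_index_of_sylow_le le_sup_right)).symm
  · rintro rfl
    obtain ⟨h1, h2⟩ := CL.CS.qBaer_same hB Q
    exact ⟨h1, (CL.hasNPC_iff_exists_complement Q).1 h2⟩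

end Cfsg.Agent.S4125
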