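import Mathlib
import Cfsg.Statements.S4126
import Cfsg.Agent.FGS.OmegaCS

set_option autoImplicit false
open Cfsg

namespace Cfsg.Agent.S4126

/-- Let G be a finite group and p a prime. Suppose every element of order p, and when p = 2 also every element of order 4, has a conjugacy class of p-power size. Then G has a normal p-complement. -/
theorem result {G : Type*} [Group G] [Finite G] (p : ℕ) [Fact p.Prime]
    (h : ∀ x : G, (orderOf x = p ∨ (p = 2 ∧ orderOf x = 4)) → ∃ a : ℕ, (Subgroup.centralizer ({x} : Set G)).index = p ^ a) :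
    Cfsg.HasNormalPComplement p G := by
  refine CL.CS.hasNPC_of_omega fun x hx => ?_
  have hp : p.Prime := Fact.out
  by_cases h1 : x = 1
  · exact ⟨0, by rw [h1, CL.CS.index_cen_one, pow_zero]⟩
  rcases hx with hx | ⟨h2, hx⟩
  · exact h x (Or.inl (orderOf_eq_prime hx h1))
  · subst h2
    by_cases h3 : x ^ 2 = 1
    · exact h x (Or.inl (orderOf_eq_prime h3 h1))
    · refine h x (Or.inr ⟨rfl, ?_⟩)
      have := orderOf_eq_prime_pow (p := 2) (n := 1) (x := x) (by simpa using h3) (by simpa using hx)
      simpa using this

end Cfsg.Agent.S4126
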