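import Mathlib
import Cfsg.Statements.S4127
import Cfsg.Agent.SOLV.CoprimeSylow
import Cfsg.Agent.FGS.ClassSizeReg

set_option autoImplicit false
open Cfsg

namespace Cfsg.Agent.S4127

open Subgroup CL.CS in
theorem main {G : Type*} [Group G] [Finite G] (p : ℕ) [hp : Fact p.Prime]
    (a : ℕ) (hmax : ∀ y : G, ¬ p ^ (a + 1) ∣ (Subgroup.centralizer ({y} : Set G)).index)
    (hx : ∃ x : G, (∃ k : ℕ, orderOf x = p ^ k) ∧ (Subgroup.centralizer ({x} : Set G)).index = p ^ a) :
    Cfsg.HasNormalPComplement p G := by
  obtain ⟨x, ⟨k, hk⟩, hx⟩ := hx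
  set H := centralizer ({x} : Set G) with hH
  set O := Cfsg.pCore p G with hO
  have hxO : x ∈ O := mem_pCore_of_index_eq_pow (j := k) (by rw [← hk, pow_orderOf_eq_one]) hx
  have hreg : ∀ y : H, (orderOf y).Coprime p → ¬ p ∣ (centralizer {y}).index := by
    intro y hy hd
    have hc : Commute x y := (mem_cen.1 y.2).symm
    have hco : (orderOf x).Coprime (orderOf (y : G)) := by
      rw [hk, Subgroup.orderOf_coe]; exact hy.symm.pow_left k
    apply hmax (x * y)
    rw [index_cen_mul_of_coprime hc hco, ← hH, hx, ← index_cen_subgroup, pow_succ']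
    exact Nat.mul_dvd_mul_right hd _
  have hHN := hasNPC_of_regular hreg
  have hOp : IsPGroup p O := CL.isPGroup_pCore p G
  set C := centralizer (O : Set G) with hC
  have hCH : C ≤ H := centralizer_le (Set.singleton_subset_iff.2 hxO)
  have hres : Cfsg.pResidual p H ≤ C.subgroupOf H := by
    rw [CL.pResidual_le_iff]
    intro y hy
    have h1 : O.subgroupOf H ≤ centralizer {y} :=
      le_cen_of_normal_isPGroup (hreg y hy) hOp.comap_subtype
    have hc : Commute x y := (mem_cen.1 y.2).symm
    have hzx : IsPGroup p (zpowers x) := IsPGroup.of_card (by rw [Nat.card_zpowers, hk])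
    have h2 := CL.thompson_p_times_q (p := p) (zpowers x) (zpowers (y : G)) O hzx
      (by rwa [Nat.card_zpowers, Subgroup.orderOf_coe]) hOp
      (by rw [cen_zpowers]; exact zpowers_le.2 (mem_cen.2 hc))
      le_normalizer_of_normal le_normalizer_of_normal (by
        rw [cen_zpowers, cen_zpowers]
        intro u hu
        have h4 := h1 (show (⟨u, hu.2⟩ : H) ∈ O.subgroupOf H from hu.1)
        exact mem_cen.2 (congrArg Subtype.val (mem_cen.1 h4).eq))
    exact le_centralizer_iff.1 h2 (mem_zpowers _)
  have h3 : IsPGroup p (H ⧸ C.subgroupOf H) := (CL.isPGroup_quotient_iff_pResidual_le _).2 hres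
  obtain ⟨n, hn⟩ := IsPGroup.iff_card.1 h3
  refine CL.hasNPC_of_normal_hasNPC C (IsPGroup.of_card (n := n + a) ?_) (CL.hasNPC_of_le hHN hCH)
  rw [← index_eq_card, ← relIndex_mul_index hCH, hx, pow_add, ← hn]
  rfl


/-- Let G be a finite group, p a prime and p^a the largest power of p dividing the size of any conjugacy class of G. If some element of p-power order has a conjugacy class of size exactly p^a, then G has a normal p-complement. -/
theorem result {G : Type*} [Group G] [Finite G] (p : ℕ) [Fact p.Prime]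
    (a : ℕ) (hmax : ∀ y : G, ¬ p ^ (a + 1) ∣ (Subgroup.centralizer ({y} : Set G)).index)
    (hx : ∃ x : G, (∃ k : ℕ, orderOf x = p ^ k) ∧ (Subgroup.centralizer ({x} : Set G)).index = p ^ a) :
    Cfsg.HasNormalPComplement p G := by
  exact main p a hmax hx

end Cfsg.Agent.S4127
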