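import Mathlib
import Cfsg.Statements.S4130
import Cfsg.Agent.FGS.SqFree2

set_option autoImplicit false
open Cfsg

namespace Cfsg.Agent.S4130

/-- Let G be a finite group all of whose conjugacy class sizes are square-free. Then G is supersolvable, G/F(G) and the derived subgroup G′ are cyclic of square-free order (F(G) the Fitting subgroup, which is normal), F(G) has nilpotency class at most 2, and G is metabelian. -/
theorem result {G : Type*} [Group G] [Finite G]
    (h : ∀ x : G, Squarefree (Subgroup.centralizer ({x} : Set G)).index) :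
    Cfsg.IsSupersolvable G ∧ (Cfsg.fittingSubgroup G).Normal ∧
    (∀ _h : (Cfsg.fittingSubgroup G).Normal, IsCyclic (G ⧸ Cfsg.fittingSubgroup G) ∧ Squarefree (Cfsg.fittingSubgroup G).index) ∧
    IsCyclic (commutator G) ∧ Squarefree (Nat.card (commutator G)) ∧
    Subgroup.upperCentralSeries ↥(Cfsg.fittingSubgroup G) 2 = ⊤ ∧ commutator ↥(commutator G) = ⊥ := by
  haveI hc := CL.CS.isCyclic_commutator_of_squarefree_index h
  have hsq := CL.CS.squarefree_card_commutator h
  have hF := CL.CS.fitting_eq_centralizer_commutator hsq
  have hle : commutator G ≤ Cfsg.fittingSubgroup G := by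
    rw [hF]; exact Subgroup.le_centralizer _
  refine ⟨CL.CS.isSupersolvable_of_squarefree_index h, CL.fittingSubgroup_normal G, fun _h => ?_,
    hc, hsq, ?_, ?_⟩
  · obtain ⟨x, -, hx⟩ := CL.CS.exists_cen_eq_centralizer_of_isCyclic (commutator G)
    have h1 : Squarefree (Cfsg.fittingSubgroup G).index := by rw [hF, ← hx]; exact h x
    refine ⟨?_, h1⟩
    haveI := IsZGroup.of_squarefree (G := G ⧸ Cfsg.fittingSubgroup G) h1
    haveI : IsMulCommutative (G ⧸ Cfsg.fittingSubgroup G) :=
      Subgroup.Normal.quotient_commutative_iff_commutator_le.mpr hle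
    haveI := CL.isNilpotent_of_isMulCommutative (G ⧸ Cfsg.fittingSubgroup G)
    infer_instance
  · rw [eq_top_iff]
    intro x _
    rw [Subgroup.mem_upperCentralSeries_succ_iff]
    intro y
    rw [Subgroup.upperCentralSeries_one, Subgroup.mem_center_iff]
    intro z
    apply Subtype.ext
    have hz : (z : G) ∈ Subgroup.centralizer (commutator G : Set G) := hF ▸ z.2
    exact (Subgroup.mem_centralizer_iff.mp hz _
      (Subgroup.commutator_mem_commutator (Subgroup.mem_top (x : G)) (Subgroup.mem_top (y : G)))).symm
  · rw [commutator_eq_bot_iff_center_eq_top, eq_top_iff]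
    intro a _
    exact Subgroup.mem_center_iff.mpr fun b => IsCyclic.isMulCommutative.is_comm.comm b a

end Cfsg.Agent.S4130
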