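import Mathlib
import Cfsg.Statements.S4133
import Cfsg.Agent.FGS.AbTwoCompl

set_option autoImplicit false
open Cfsg

namespace Cfsg.Agent.S4133

set_option linter.style.haveILetI false

open Subgroup CL.CS in
open scoped commutatorElement in
theorem main {G : Type*} [Group G] [Finite G]
    (hA : ∀ (p : ℕ) [Fact p.Prime] (P : Sylow p G), IsMulCommutative (P : Subgroup G))
    (a : ℕ) (hmax : ∀ y : G, ¬ 2 ^ (a + 1) ∣ (Subgroup.centralizer ({y} : Set G)).index) (hx : ∃ x : G, (Subgroup.centralizer ({x} : Set G)).index = 2 ^ a) :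
    Group.IsSolvable G := by
  obtain ⟨x, hx⟩ := hx
  obtain ⟨P⟩ : Nonempty (Sylow 2 G) := inferInstance
  haveI := hA 2 P
  set H := centralizer ({x} : Set G) with hH
  haveI := isSolvable_quotient_normalCore_of_index_two_pow P hx
  suffices h : Group.IsSolvable H.normalCore from
    Group.isSolvable_of_ker_le_range H.normalCore.subtype (QuotientGroup.mk' H.normalCore) (by simp)
  by_contra hns
  obtain ⟨L, ⟨hLn, hLC, hL⟩, hmin⟩ := exists_minimal_of_wellFoundedLT
    (fun L : Subgroup G => L.Normal ∧ L ≤ H.normalCore ∧ ¬ Group.IsSolvable L)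
    ⟨H.normalCore, inferInstance, le_rfl, hns⟩
  have hperf : _root_.commutator L = ⊤ := by
    have h1 : ¬ Group.IsSolvable ↥⁅L, L⁆ := by
      intro h
      rw [← map_subtype_commutator, CL.isSolvable_map_subtype_iff] at h
      haveI : IsMulCommutative (L ⧸ _root_.commutator L) :=
        Subgroup.Normal.quotient_commutative_iff_commutator_le.2 le_rfl
      haveI := CL.isSolvable_of_isMulCommutative (L ⧸ _root_.commutator L)
      exact hL (Group.isSolvable_of_ker_le_range (_root_.commutator L).subtype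
        (QuotientGroup.mk' (_root_.commutator L)) (by simp))
    have h2 := hmin (y := ⁅L, L⁆) ⟨inferInstance, (commutator_le_self L).trans hLC, h1⟩
      (commutator_le_self L)
    rw [← map_subtype_commutator] at h2
    rw [eq_top_iff]
    intro g _
    obtain ⟨c, hc, e⟩ := h2 g.2
    exact (show c = g from Subtype.ext e) ▸ hc
  have hAL : ∀ (p : ℕ) [Fact p.Prime] (Q : Sylow p L), IsMulCommutative (Q : Subgroup L) := by
    intro p _ Q
    obtain ⟨R⟩ : Nonempty (Sylow p G) := inferInstance
    haveI := hA p R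
    exact isMulCommutative_sylow_subgroup R L Q
  have hZL : ∀ z : L, z ∈ center L → z = 1 := fun z hz =>
    eq_one_of_mem_commutator_center hAL (hperf ▸ mem_top z) hz
  have hLH : L ≤ H := hLC.trans (normalCore_le H)
  have hcen : ∀ y ∈ L, centralizer {x * y} = H ⊓ centralizer {y} := by
    intro y hy
    refine le_antisymm (fun g hg => ?_) (inf_le_cen_mul x y)
    have h1 : g * (x * y) * g⁻¹ = x * y := mul_inv_eq_iff_eq_mul.2 (mem_cen.1 hg).eq
    have h2 : x⁻¹ * (g * x * g⁻¹) = y * (g * y * g⁻¹)⁻¹ := by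
      calc x⁻¹ * (g * x * g⁻¹) = x⁻¹ * (g * (x * y) * g⁻¹) * (g * y * g⁻¹)⁻¹ := by group
        _ = _ := by rw [h1]; group
    have h3 : x⁻¹ * (g * x * g⁻¹) ∈ L := h2 ▸ mul_mem hy (inv_mem (hLn.conj_mem y hy g))
    have h4 := hZL ⟨_, h3⟩ (mem_center_iff.2 fun l => Subtype.ext (by
      have c1 : Commute (l : G) x := mem_cen.1 (hLH l.2)
      have c2 : Commute (l : G) (g * x * g⁻¹) := by
        have c3 : Commute (g⁻¹ * l * g⁻¹⁻¹) x := mem_cen.1 (hLH (hLn.conj_mem _ l.2 g⁻¹))
        have := c3.conj g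
        simpa [mul_assoc] using this
      exact (c1.inv_right.mul_right c2).eq))
    have h5 : x⁻¹ * (g * x * g⁻¹) = 1 := congrArg Subtype.val h4
    have h6 : y * (g * y * g⁻¹)⁻¹ = 1 := h2 ▸ h5
    exact ⟨mem_cen.2 (mul_inv_eq_iff_eq_mul.1 (inv_mul_eq_one.1 h5).symm),
      mem_cen.2 (mul_inv_eq_iff_eq_mul.1 (mul_inv_eq_one.1 h6).symm)⟩
  have hodd : ∀ y : L, ¬ 2 ∣ (centralizer ({y} : Set L)).index := by
    intro y hd
    apply hmax (x * y)
    rw [hcen y y.2, ← relIndex_mul_index (inf_le_left : H ⊓ centralizer {(y : G)} ≤ H), hx,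
      pow_succ', inf_relIndex_left]
    refine Nat.mul_dvd_mul_right (hd.trans ?_) _
    rw [index_cen_subgroup]
    exact relIndex_dvd_relIndex_of_le_normalizer _ hLH le_normalizer_of_normal
  refine hL (CL.isSolvable_of_not_two_dvd L fun hd => ?_)
  obtain ⟨g, hg⟩ := exists_prime_orderOf_dvd_card' 2 hd
  obtain ⟨Q, hQ⟩ := CL.FGS.exists_sylow_mem_of_pow_eq_one (p := 2) (k := 1) (x := g)
    (by rw [pow_one, ← hg, pow_orderOf_eq_one])
  rw [hZL g (sylow_le_center_of_forall_not_dvd hodd Q hQ), orderOf_one] at hg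
  exact absurd hg (by norm_num)


/-- Let G be a finite group all of whose Sylow subgroups are abelian, and let 2^a be the largest power of 2 dividing the size of any conjugacy class of G. If some element has a conjugacy class of size exactly 2^a, then G is solvable. -/
theorem result {G : Type*} [Group G] [Finite G]
    (hA : ∀ (p : ℕ) [Fact p.Prime] (P : Sylow p G), IsMulCommutative (P : Subgroup G))
    (a : ℕ) (hmax : ∀ y : G, ¬ 2 ^ (a + 1) ∣ (Subgroup.centralizer ({y} : Set G)).index) (hx : ∃ x : G, (Subgroup.centralizer ({x} : Set G)).index = 2 ^ a) :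
    Group.IsSolvable G := by
  exact main hA a hmax hx

end Cfsg.Agent.S4133
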