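import Mathlib
import Cfsg.Statements.S4134
import Cfsg.Agent.FGS.TwoSizes

set_option autoImplicit false
open Cfsg

namespace Cfsg.Agent.S4134

set_option linter.style.haveILetI false

open Subgroup CL.CS in
theorem main {G : Type*} [Group G] [Finite G] (n : ℕ) (hn : 1 < n)
    (h : ∀ x : G, (Subgroup.centralizer ({x} : Set G)).index = 1 ∨ (Subgroup.centralizer ({x} : Set G)).index = n) (hex : ∃ x : G, (Subgroup.centralizer ({x} : Set G)).index = n) :
    ∃ (p : ℕ) (_ : Fact p.Prime) (a : ℕ), n = p ^ a ∧ ∀ P : Sylow p G, (P : Subgroup G).Normal ∧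
      (∃ N : Subgroup G, N.Normal ∧ N.IsComplement' (P : Subgroup G) ∧ IsMulCommutative N ∧
        ∀ x ∈ N, ∀ y ∈ (P : Subgroup G), x * y = y * x) ∧
      ∃ A : Subgroup (P : Subgroup G), A.Normal ∧ IsMulCommutative A ∧ ∀ y : (P : Subgroup G), y ^ p ∈ A := by
  obtain ⟨x, hx⟩ := hex
  have hxZ : x ∉ center G := fun e => hn.ne' (hx ▸ index_cen_eq_one_iff.2 e)
  have h' : ∀ x ∈ (⊤ : Subgroup G), (centralizer ({x} : Set G)).index = 1 ∨
      (centralizer ({x} : Set G)).index = n := fun x _ => h x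
  obtain ⟨w, p, k, hp, hk, hwZ⟩ : ∃ (w : G) (p k : ℕ), p.Prime ∧ w ^ p ^ k = 1 ∧ w ∉ center G := by
    by_contra hcon
    push Not at hcon
    exact hxZ (mem_of_forall_primePow_mem fun z _ q j hq hz => hcon z q j hq hz)
  haveI := Fact.mk hp
  obtain ⟨R, hR⟩ := CL.FGS.exists_sylow_mem_of_pow_eq_one hk
  have hnil := isNilpotent_of_two_sizes R (fun e => hwZ (e hR)) ⊤ le_top n h'
  haveI : Group.IsNilpotent G := Group.nilpotent_of_mulEquiv topEquiv
  have hco : ∀ {u v : G} {j : ℕ}, u ^ p ^ j = 1 → (orderOf v).Coprime p →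
      (orderOf v).Coprime (orderOf u) := fun hu hv =>
    (hv.pow_right _).coprime_dvd_right (orderOf_dvd_of_pow_eq_one hu)
  have hreg : ∀ y : G, (orderOf y).Coprime p → y ∈ center G := by
    intro y hy
    have h1 := two_le_of_coprime h' (mem_top w) hwZ (mem_top y)
      (CL.FGS.commute_of_nilpotent_of_coprime (hco hk hy).symm) (hco hk hy).symm
    rw [← cen_eq_top_iff, eq_top_iff]
    intro g _
    obtain ⟨a, b, -, -, ⟨j, hj⟩, hb, rfl⟩ := CL.exists_p_part_mul_p'_part (p := p) g
    exact mul_mem (mem_cen.2 (CL.FGS.commute_of_nilpotent_of_coprime (hco hj hy).symm))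
      (h1 (mem_cen.2 (CL.FGS.commute_of_nilpotent_of_coprime (hco hk hb))))
  obtain ⟨c, hc⟩ := IsPGroup.iff_card.1 (isPGroup_quotient_center_of_regular_central hreg)
  rw [← index_eq_card] at hc
  obtain ⟨a, -, ha⟩ := (Nat.dvd_prime_pow hp).1 (hc ▸ index_cen_dvd_index_center x)
  refine ⟨p, inferInstance, a, hx ▸ ha, fun P => ?_⟩
  obtain ⟨N, hN, hc'⟩ := (CL.hasNPC_iff_exists_complement P).1 CL.hasNPC_of_isNilpotent
  have hNZ : N ≤ center G := fun y hy =>
    hreg y ((CL.mem_iff_coprime_of_isComplement' P N hc' y).1 hy)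
  refine ⟨CL.isNilpotent_iff_sylow_normal.1 inferInstance p inferInstance P,
    ⟨N, hN, hc', CL.isMulCommutative_of_le inferInstance hNZ,
      fun x hx y _ => (mem_center_iff.1 (hNZ hx) y).symm⟩, center _, inferInstance, inferInstance,
    pow_mem_center_of_two_sizes P.isPGroup' (m := n) fun y => ?_⟩
  rw [index_cen_subgroup, CL.relIndex_eq_index_of_forall_exists_mul]
  · exact h y
  · intro g
    obtain ⟨a, ha, b, hb, e⟩ := exists_mul_sylow_of_index_eq_pow hc P g
    exact ⟨a, ha, b, center_le_cen _ hb, e⟩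


/-- Let G be a finite group whose conjugacy classes have exactly two sizes, 1 and n > 1. Then n is a power of a prime p and G is the direct product of a p-group and an abelian group of order prime to p: its Sylow p-subgroup P is normal with an abelian normal complement centralizing it; moreover P has an abelian normal subgroup A with P/A of exponent dividing p. -/
theorem result {G : Type*} [Group G] [Finite G] (n : ℕ) (hn : 1 < n)
    (h : ∀ x : G, (Subgroup.centralizer ({x} : Set G)).index = 1 ∨ (Subgroup.centralizer ({x} : Set G)).index = n) (hex : ∃ x : G, (Subgroup.centralizer ({x} : Set G)).index = n) :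
    ∃ (p : ℕ) (_ : Fact p.Prime) (a : ℕ), n = p ^ a ∧ ∀ P : Sylow p G, (P : Subgroup G).Normal ∧
      (∃ N : Subgroup G, N.Normal ∧ N.IsComplement' (P : Subgroup G) ∧ IsMulCommutative N ∧
        ∀ x ∈ N, ∀ y ∈ (P : Subgroup G), x * y = y * x) ∧
      ∃ A : Subgroup (P : Subgroup G), A.Normal ∧ IsMulCommutative A ∧ ∀ y : (P : Subgroup G), y ^ p ∈ A := by
  exact main n hn h hex

end Cfsg.Agent.S4134
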