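import Mathlib
import Cfsg.Statements.S4139
import Cfsg.Agent.SOLV.Fitting
import Cfsg.Agent.FGS.ClassSize

set_option autoImplicit false
open Cfsg

namespace Cfsg.Agent.S4139

set_option linter.style.haveILetI false

open CL.CS

universe u

/-- number of elements whose class size is a power of `p` -/
noncomputable def sp (p : ℕ) (G : Type u) [Group G] : ℕ :=
  Nat.card {x : G // ∃ k, 𝐂[x].index = p ^ k}

theorem sp_modEq {G : Type u} [Group G] [Finite G] {p : ℕ} [hp : Fact p.Prime] :
    sp p G ≡ Nat.card (Subgroup.center G) [MOD p] := by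
  classical
  let S := {x : G // ∃ k, 𝐂[x].index = p ^ k}
  letI : MulAction G S :=
    { smul := fun g x => ⟨g * x.1 * g⁻¹, by rw [index_cen_conj]; exact x.2⟩
      one_smul := fun x => Subtype.ext (by change 1 * x.1 * 1⁻¹ = x.1; simp)
      mul_smul := fun g h x => Subtype.ext (by
        change (g * h) * x.1 * (g * h)⁻¹ = g * (h * x.1 * h⁻¹) * g⁻¹; group) }
  obtain ⟨P⟩ : Nonempty (Sylow p G) := inferInstance
  have h1 := P.isPGroup'.card_modEq_card_fixedPoints (α := S)
  have h2 : Nat.card (MulAction.fixedPoints P S) = Nat.card (Subgroup.center G) := by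
    refine Nat.card_congr ⟨fun x => ⟨x.1.1, ?_⟩, fun z => ⟨⟨z.1, 0, ?_⟩, ?_⟩, fun x => rfl, fun z => rfl⟩
    · obtain ⟨k, hk⟩ := x.1.2
      have hle : (P : Subgroup G) ≤ 𝐂[x.1.1] := by
        intro g hg
        have := x.2 ⟨g, hg⟩
        have h3 : g * x.1.1 * g⁻¹ = x.1.1 := congrArg Subtype.val this
        rw [mem_cen]
        exact (mul_inv_eq_iff_eq_mul.mp h3)
      have hnd := not_dvd_index_of_sylow_le hle
      rw [← index_cen_eq_one_iff]
      rcases k with _ | k
      · simpa using hk
      · exact absurd (hk ▸ dvd_pow_self p (Nat.succ_ne_zero k)) hnd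
    · rw [pow_zero, index_cen_eq_one_iff]; exact z.2
    · intro g
      apply Subtype.ext
      change (g : G) * z.1 * (g : G)⁻¹ = z.1
      rw [Subgroup.mem_center_iff.mp z.2 g]; group
  unfold sp
  rw [← h2]
  exact h1

theorem pow_iff {G : Type u} [Group G] [Finite G] {p : ℕ} [hp : Fact p.Prime] {N : Subgroup G}
    [N.Normal] (hN : N ≤ Subgroup.center G) (hc : Nat.card N = p) (x : G) :
    (∃ k, 𝐂[x].index = p ^ k) ↔ ∃ k, 𝐂[(x : G ⧸ N)].index = p ^ k := by
  constructor
  · rintro ⟨k, hk⟩
    have := index_cen_mk'_dvd N x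
    rw [hk] at this
    obtain ⟨j, -, hj⟩ := (Nat.dvd_prime_pow hp.out).mp this
    exact ⟨j, hj⟩
  · rintro ⟨k, hk⟩
    let D : Subgroup G := 𝐂[(x : G ⧸ N)].comap (QuotientGroup.mk' N)
    have hD : D.index = p ^ k := by
      rw [← hk]; exact Subgroup.index_comap_of_surjective _ (QuotientGroup.mk'_surjective N)
    have hmem : ∀ d ∈ D, d * x * d⁻¹ * x⁻¹ ∈ N := by
      intro d hd
      have h1 : Commute (d : G ⧸ N) (x : G ⧸ N) := mem_cen.mp hd
      rw [← QuotientGroup.eq_one_iff]
      simp only [QuotientGroup.mk_mul, QuotientGroup.mk_inv]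
      rw [h1.eq]; group
    let f : D →* N :=
      { toFun := fun d => ⟨d.1 * x * d.1⁻¹ * x⁻¹, hmem d.1 d.2⟩
        map_one' := by ext; simp
        map_mul' := by
          intro a b
          ext
          have hb := Subgroup.mem_center_iff.mp (hN (hmem b.1 b.2))
          change (a.1 * b.1) * x * (a.1 * b.1)⁻¹ * x⁻¹ =
            (a.1 * x * a.1⁻¹ * x⁻¹) * (b.1 * x * b.1⁻¹ * x⁻¹)
          calc (a.1 * b.1) * x * (a.1 * b.1)⁻¹ * x⁻¹
              = a.1 * (b.1 * x * b.1⁻¹ * x⁻¹) * (x * a.1⁻¹ * x⁻¹) := by group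
            _ = a.1 * ((b.1 * x * b.1⁻¹ * x⁻¹) * (x * a.1⁻¹ * x⁻¹)) := by group
            _ = a.1 * ((x * a.1⁻¹ * x⁻¹) * (b.1 * x * b.1⁻¹ * x⁻¹)) := by rw [hb]
            _ = _ := by group }
    have hker : f.ker = 𝐂[x].subgroupOf D := by
      ext d
      rw [MonoidHom.mem_ker, Subgroup.mem_subgroupOf, mem_cen]
      constructor
      · intro h
        have h1 : d.1 * x * d.1⁻¹ * x⁻¹ = 1 := congrArg Subtype.val h
        exact (mul_inv_eq_iff_eq_mul.mp (mul_inv_eq_one.mp h1))
      · intro h
        apply Subtype.ext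
        change d.1 * x * d.1⁻¹ * x⁻¹ = 1
        rw [h.eq]; group
    have hle : 𝐂[x] ≤ D := by
      intro g hg
      have : Commute g x := mem_cen.mp hg
      exact mem_cen.mpr (this.map (QuotientGroup.mk' N))
    have hr : 𝐂[x].relIndex D ∣ p := by
      rw [Subgroup.relIndex, ← hker, Subgroup.index_ker, ← hc]
      exact Subgroup.card_subgroup_dvd_card _
    have hm := Subgroup.relIndex_mul_index hle
    rw [hD] at hm
    have : 𝐂[x].index ∣ p ^ (k + 1) := by
      rw [← hm, pow_succ']; exact Nat.mul_dvd_mul_right hr _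
    obtain ⟨j, -, hj⟩ := (Nat.dvd_prime_pow hp.out).mp this
    exact ⟨j, hj⟩

theorem sp_quot {G : Type u} [Group G] [Finite G] {p : ℕ} [hp : Fact p.Prime] {N : Subgroup G}
    [N.Normal] (hN : N ≤ Subgroup.center G) (hc : Nat.card N = p) :
    sp p G = p * sp p (G ⧸ N) := by
  have h := QuotientGroup.card_preimage_mk N {y : G ⧸ N | ∃ k, 𝐂[y].index = p ^ k}
  rw [hc] at h
  unfold sp
  rw [show Nat.card {x : G ⧸ N // ∃ k, 𝐂[x].index = p ^ k} =
    Nat.card ({y : G ⧸ N | ∃ k, 𝐂[y].index = p ^ k} : Set (G ⧸ N)) from rfl, ← h]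
  exact Nat.card_congr (Equiv.subtypeEquivRight fun x => pow_iff hN hc x)

theorem exists_N {G : Type u} [Group G] [Finite G] {p : ℕ} [hp : Fact p.Prime]
    (h : p ∣ Nat.card (Subgroup.center G)) :
    ∃ N : Subgroup G, N.Normal ∧ N ≤ Subgroup.center G ∧ Nat.card N = p := by
  obtain ⟨z, hz⟩ := exists_prime_orderOf_dvd_card' p h
  have hle : Subgroup.zpowers (z : G) ≤ Subgroup.center G := by
    rw [Subgroup.zpowers_le]; exact z.2
  refine ⟨Subgroup.zpowers (z : G), ⟨fun n hn g => ?_⟩, hle, ?_⟩
  · rw [Subgroup.mem_center_iff.mp (hle hn) g]; simpa using hn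
  · rw [Nat.card_zpowers, Subgroup.orderOf_coe, hz]

theorem card_quot {G : Type u} [Group G] [Finite G] {p : ℕ} {N : Subgroup G} [N.Normal]
    (hc : Nat.card N = p) : Nat.card G = p * Nat.card (G ⧸ N) := by
  rw [← hc, mul_comm]; exact Subgroup.card_eq_card_quotient_mul_card_subgroup N

theorem dvd_sp {p : ℕ} [hp : Fact p.Prime] : ∀ (k : ℕ) (G : Type u) [Group G] [Finite G],
    Group.IsNilpotent G → p ^ k ∣ Nat.card G → p ^ k ∣ sp p G := by
  intro k
  induction k with
  | zero => intros; simp
  | succ k ih =>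
    intro G _ _ hG hd
    have hpG : p ∣ Nat.card G := (dvd_pow_self p (Nat.succ_ne_zero k)).trans hd
    have hz : p ∣ Nat.card (Subgroup.center G) := by
      obtain ⟨P⟩ : Nonempty (Sylow p G) := inferInstance
      have hPne : (P : Subgroup G) ≠ ⊥ := P.ne_bot_of_dvd_card hpG
      obtain ⟨z, hzP, hzc, hz1⟩ : ∃ z ∈ (P : Subgroup G), z ∈ Subgroup.center G ∧ z ≠ 1 := by
        haveI : Nontrivial (P : Subgroup G) := (Subgroup.nontrivial_iff_ne_bot _).mpr hPne
        haveI := P.isPGroup'.center_nontrivial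
        obtain ⟨z, hz⟩ := exists_ne (1 : Subgroup.center (P : Subgroup G))
        refine ⟨z.1.1, z.1.2, ?_, fun h => hz (Subtype.ext (Subtype.ext h))⟩
        rw [← index_cen_eq_one_iff]
        by_contra hne
        obtain ⟨q, hq, hqd⟩ := Nat.exists_prime_and_dvd hne
        haveI : Fact q.Prime := ⟨hq⟩
        obtain ⟨Q⟩ : Nonempty (Sylow q G) := inferInstance
        by_cases hqp : q = p
        · subst hqp
          refine not_dvd_index_of_sylow_le (P := P) ?_ hqd
          intro g hg
          exact mem_cen.mpr (congrArg Subtype.val (Subgroup.mem_center_iff.mp z.2 ⟨g, hg⟩))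
        · refine not_dvd_index_of_sylow_le (P := Q) ?_ hqd
          intro g hg
          obtain ⟨a, ha⟩ := Q.isPGroup' ⟨g, hg⟩
          obtain ⟨b, hb⟩ := P.isPGroup' z.1
          have ha' : orderOf g ∣ q ^ a := orderOf_dvd_of_pow_eq_one (congrArg Subtype.val ha)
          have hb' : orderOf z.1.1 ∣ p ^ b := orderOf_dvd_of_pow_eq_one (congrArg Subtype.val hb)
          refine mem_cen.mpr (CL.commute_of_coprime_of_isNilpotent ?_)
          exact Nat.Coprime.coprime_dvd_left ha' (Nat.Coprime.coprime_dvd_right hb'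
            (Nat.Coprime.pow _ _ ((Nat.coprime_primes hq hp.out).mpr hqp)))
      have h1 : IsPGroup p ((P : Subgroup G) ⊓ Subgroup.center G : Subgroup G) :=
        P.isPGroup'.to_inf_left
      obtain ⟨n, hn⟩ := h1.exists_card_eq
      have hne : ((P : Subgroup G) ⊓ Subgroup.center G : Subgroup G) ≠ ⊥ := by
        intro hb
        have : z ∈ ((P : Subgroup G) ⊓ Subgroup.center G : Subgroup G) := ⟨hzP, hzc⟩
        rw [hb] at this
        exact hz1 (Subgroup.mem_bot.mp this)
      have hn0 : n ≠ 0 := by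
        rintro rfl
        exact hne (Subgroup.eq_bot_of_card_eq _ (by simpa using hn))
      exact (hn ▸ dvd_pow_self p hn0).trans (Subgroup.card_dvd_of_le inf_le_right)
    obtain ⟨N, hNn, hN, hc⟩ := exists_N hz
    rw [sp_quot hN hc, pow_succ']
    refine Nat.mul_dvd_mul_left p (ih (G ⧸ N) inferInstance ?_)
    rw [card_quot hc, pow_succ'] at hd
    exact Nat.dvd_of_mul_dvd_mul_left hp.out.pos hd

theorem normal_of_dvd {p : ℕ} [hp : Fact p.Prime] : ∀ (k : ℕ) (G : Type u) [Group G] [Finite G],
    ¬ p ^ (k + 1) ∣ Nat.card G → (∀ j, p ^ j ∣ Nat.card G → p ^ j ∣ sp p G) →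
    ∃ M : Subgroup G, M.Normal ∧ IsPGroup p M ∧ ¬ p ∣ M.index := by
  intro k
  induction k with
  | zero =>
    intro G _ _ h _
    exact ⟨⊥, inferInstance, IsPGroup.of_bot, by simpa using h⟩
  | succ k ih =>
    intro G _ _ h hs
    by_cases hpG : p ∣ Nat.card G
    · have h1 : p ∣ sp p G := by simpa using hs 1 (by simpa using hpG)
      have hz : p ∣ Nat.card (Subgroup.center G) :=
        ((Nat.ModEq.dvd_iff sp_modEq (dvd_refl p)).mp h1)
      obtain ⟨N, hNn, hN, hc⟩ := exists_N hz
      obtain ⟨M, hMn, hMp, hMi⟩ := ih (G ⧸ N) (by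
          intro hd
          apply h
          rw [card_quot hc, pow_succ']
          exact Nat.mul_dvd_mul_left p hd) (by
          intro j hj
          have := hs (j + 1) (by rw [card_quot hc, pow_succ']; exact Nat.mul_dvd_mul_left p hj)
          rw [sp_quot hN hc, pow_succ'] at this
          exact Nat.dvd_of_mul_dvd_mul_left hp.out.pos this)
      refine ⟨M.comap (QuotientGroup.mk' N), inferInstance, ?_, ?_⟩
      · apply hMp.comap_of_ker_isPGroup
        rw [QuotientGroup.ker_mk']
        exact IsPGroup.of_card (n := 1) (by simpa using hc)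
      · rwa [Subgroup.index_comap_of_surjective _ (QuotientGroup.mk'_surjective N)]
    · exact ⟨⊥, inferInstance, IsPGroup.of_bot, by simpa using hpG⟩

theorem card_fiber (G : Type u) [Group G] [Finite G] (k : ℕ) :
    Nat.card {x : G // 𝐂[x].index = k} =
      Nat.card {C : ConjClasses G // Nat.card C.carrier = k} * k := by
  classical
  let e : {x : G // 𝐂[x].index = k} ≃
      Σ C : {C : ConjClasses G // Nat.card C.carrier = k}, C.1.carrier :=
    { toFun := fun x => ⟨⟨ConjClasses.mk x.1, by rw [card_carrier_eq_index]; exact x.2⟩,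
        ⟨x.1, ConjClasses.mem_carrier_mk⟩⟩
      invFun := fun y => ⟨y.2.1, by
        have h := ConjClasses.mem_carrier_iff_mk_eq.mp y.2.2
        rw [← card_carrier_eq_index, h]; exact y.1.2⟩
      left_inv := fun x => rfl
      right_inv := by
        rintro ⟨⟨C, hC⟩, ⟨y, hy⟩⟩
        have h := ConjClasses.mem_carrier_iff_mk_eq.mp hy
        subst h
        rfl }
  rw [Nat.card_congr e]
  haveI := Fintype.ofFinite {C : ConjClasses G // Nat.card C.carrier = k}
  rw [Nat.card_sigma, Finset.sum_congr rfl (fun C _ => C.2), Finset.sum_const, Finset.card_univ,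
    smul_eq_mul, Nat.card_eq_fintype_card]


/-- Let G and H be finite groups such that for every natural number k, G and H have the same number of conjugacy classes of size k. If H is nilpotent then G is nilpotent. -/
theorem result {G H : Type*} [Group G] [Finite G] [Group H] [Finite H]
    (hH : Group.IsNilpotent H)
    (h : ∀ k : ℕ, Nat.card {C : ConjClasses G // Nat.card C.carrier = k} = Nat.card {C : ConjClasses H // Nat.card C.carrier = k}) :
    Group.IsNilpotent G := by
  classical
  have hf : ∀ k, Nonempty ({x : G // 𝐂[x].index = k} ≃ {x : H // 𝐂[x].index = k}) := by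
    intro k
    apply Finite.card_eq.mp
    rw [card_fiber, card_fiber, h k]
  let e : G ≃ H := Equiv.ofFiberEquiv (f := fun x : G => 𝐂[x].index)
    (g := fun x : H => 𝐂[x].index) fun k => (hf k).some
  have he : ∀ x : G, 𝐂[e x].index = 𝐂[x].index := fun x =>
    Equiv.ofFiberEquiv_map (f := fun x : G => 𝐂[x].index)
      (g := fun x : H => 𝐂[x].index) (fun k => (hf k).some) x
  have hcard : Nat.card G = Nat.card H := Nat.card_congr e
  have hsp : ∀ p, sp p G = sp p H := fun p =>
    Nat.card_congr (e.subtypeEquiv fun x => by rw [he])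
  refine ((Group.isNilpotent_of_finite_tfae (G := G)).out 0 3).mpr ?_
  intro p hp P
  obtain ⟨M, hMn, hMp, hMi⟩ := normal_of_dvd (p := p) (Nat.card G) G (by
      intro hd
      have h1 := Nat.le_of_dvd Nat.card_pos hd
      have h2 : Nat.card G + 1 < p ^ (Nat.card G + 1) := Nat.lt_pow_self hp.out.one_lt
      omega) (by
      intro j hj
      rw [hsp]
      exact dvd_sp j H hH (hcard ▸ hj))
  let Q : Sylow p G := hMp.toSylow hMi
  haveI : (Q : Subgroup G).Normal := hMn
  haveI := Sylow.unique_of_normal Q hMn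
  rw [Subsingleton.elim P Q]
  exact hMn

end Cfsg.Agent.S4139
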