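import Cfsg.Statements.S4146
import Cfsg.Agent.FGS.CS4B

set_option autoImplicit false
open Cfsg

namespace Cfsg.Agent.S4146

/-- Let G be a finite group whose conjugacy class sizes are exactly 1, n, m and nm for coprime integers n, m > 1. Then G is nilpotent and n and m are prime powers. -/
theorem result {G : Type*} [Group G] [Finite G] (n m : ℕ) (hn : 1 < n) (hm : 1 < m) (hcop : n.Coprime m)
    (h : Set.range (fun x : G => (Subgroup.centralizer ({x} : Set G)).index) = ({1, n, m, n * m} : Set ℕ)) :
    Group.IsNilpotent G ∧ IsPrimePow n ∧ IsPrimePow m := by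
  have hH : CL.CS4.H G n m := ⟨hn, hm, hcop, fun x => by
    have : (Subgroup.centralizer ({x} : Set G)).index ∈ ({1, n, m, n * m} : Set ℕ) := h ▸ ⟨x, rfl⟩
    simpa using this⟩
  obtain ⟨a, ha⟩ : n ∈ Set.range (fun x : G => (Subgroup.centralizer ({x} : Set G)).index) := by
    rw [h]; simp
  obtain ⟨b, hb⟩ : m ∈ Set.range (fun x : G => (Subgroup.centralizer ({x} : Set G)).index) := by
    rw [h]; simp
  obtain ⟨g, hg⟩ : n * m ∈ Set.range (fun x : G => (Subgroup.centralizer ({x} : Set G)).index) := by
    rw [h]; simp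
  exact hH.main ha hb hg

end Cfsg.Agent.S4146
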