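import Mathlib
import Cfsg.Statements.S4149
import Cfsg.Agent.FGS.ClassSizeCount

set_option autoImplicit false
open Cfsg

namespace Cfsg.Agent.S4149

/-- Let G be a finite group that has a normal p-complement for at most one prime p dividing its order, and let σ be a natural number such that every conjugacy class size of G has at most σ distinct prime divisors. Then the number of primes dividing at least one conjugacy class size of G is at most 2σ. -/
theorem result {G : Type*} [Group G] [Finite G] (σ : ℕ)
    (hσ : ∀ x : G, ((Subgroup.centralizer ({x} : Set G)).index).primeFactors.card ≤ σ)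
    (hnil : ∀ p q : ℕ, p.Prime → q.Prime → p ∣ Nat.card G → q ∣ Nat.card G →
      Cfsg.HasNormalPComplement p G → Cfsg.HasNormalPComplement q G → p = q) :
    Nat.card {p : ℕ | p.Prime ∧ ∃ x : G, p ∣ (Subgroup.centralizer ({x} : Set G)).index} ≤ 2 * σ := by
  classical
  haveI := Fintype.ofFinite G
  set S : Set ℕ := {p : ℕ | p.Prime ∧ ∃ x : G, p ∣ (Subgroup.centralizer ({x} : Set G)).index} with hS
  have hdvd : ∀ p ∈ S, p ∣ Nat.card G := by
    rintro p ⟨-, x, hx⟩
    exact hx.trans (Subgroup.index_dvd_card _)
  have hfin : S.Finite := by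
    refine (Set.finite_Iic (Nat.card G)).subset ?_
    intro p hp
    exact Nat.le_of_dvd Nat.card_pos (hdvd p hp)
  rw [Nat.card_coe_set_eq, Set.ncard_eq_toFinset_card S hfin]
  set T := hfin.toFinset with hT
  have hmem : ∀ p, p ∈ T ↔ p ∈ S := fun p => by simp [hT]
  rcases Nat.eq_zero_or_pos σ with h0 | hpos
  · have : T = ∅ := by
      rw [Finset.eq_empty_iff_forall_notMem]
      intro p hp
      obtain ⟨hp1, x, hx⟩ := (hmem p).mp hp
      have h1 := hσ x
      rw [h0, Nat.le_zero, Finset.card_eq_zero] at h1
      have : p ∈ (Subgroup.centralizer ({x} : Set G)).index.primeFactors :=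
        Nat.mem_primeFactors.mpr ⟨hp1, hx, (CL.CS.index_cen_pos x).ne'⟩
      rw [h1] at this
      simp at this
    simp [this]
  set T' := T.filter (fun p => ¬ Cfsg.HasNormalPComplement p G) with hT'
  have h1 : T.card ≤ T'.card + 1 := by
    have h2 := Finset.card_filter_add_card_filter_not (s := T) (fun p => Cfsg.HasNormalPComplement p G)
    have h3 : (T.filter (fun p => Cfsg.HasNormalPComplement p G)).card ≤ 1 := by
      rw [Finset.card_le_one]
      intro a ha b hb
      rw [Finset.mem_filter] at ha hb
      have ha' := (hmem a).mp ha.1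
      have hb' := (hmem b).mp hb.1
      exact hnil a b ha'.1 hb'.1 (hdvd a ha') (hdvd b hb') ha.2 hb.2
    have h4 : T'.card = (T.filter (fun p => ¬ Cfsg.HasNormalPComplement p G)).card := rfl
    omega
  have h2 : T'.card * Nat.card G ≤
      2 * ∑ p ∈ T', (Finset.univ.filter (fun x : G => p ∣ (Subgroup.centralizer ({x} : Set G)).index)).card := by
    rw [Finset.mul_sum, ← smul_eq_mul, ← Finset.sum_const]
    refine Finset.sum_le_sum fun p hp => ?_
    rw [Finset.mem_filter] at hp
    haveI := Fact.mk ((hmem p).mp hp.1).1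
    have := CL.CS.card_le_two_mul_ncard_dvd hp.2
    rwa [Set.ncard_eq_toFinset_card', Set.toFinset_ofPred] at this
  have h3 : ∑ p ∈ T', (Finset.univ.filter (fun x : G => p ∣ (Subgroup.centralizer ({x} : Set G)).index)).card
      = ∑ x : G, (T'.filter (fun p => p ∣ (Subgroup.centralizer ({x} : Set G)).index)).card := by
    simp only [Finset.card_filter]
    exact Finset.sum_comm
  have h4 : ∑ x : G, (T'.filter (fun p => p ∣ (Subgroup.centralizer ({x} : Set G)).index)).card
      < ∑ _x : G, σ := by
    refine Finset.sum_lt_sum (fun x _ => le_trans (Finset.card_le_card ?_) (hσ x)) ⟨1, Finset.mem_univ _, ?_⟩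
    · intro p hp
      rw [Finset.mem_filter, Finset.mem_filter] at hp
      exact Nat.mem_primeFactors.mpr ⟨((hmem p).mp hp.1.1).1, hp.2, (CL.CS.index_cen_pos x).ne'⟩
    · have : T'.filter (fun p => p ∣ (Subgroup.centralizer ({(1 : G)} : Set G)).index) = ∅ := by
        rw [Finset.filter_eq_empty_iff]
        intro p hp
        rw [Finset.mem_filter] at hp
        rw [CL.CS.index_cen_one, Nat.dvd_one]
        exact ((hmem p).mp hp.1).1.one_lt.ne'
      rw [this]; simpa using hpos
  rw [Finset.sum_const, Finset.card_univ, smul_eq_mul, ← Nat.card_eq_fintype_card] at h4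
  have h5 : T'.card * Nat.card G < 2 * σ * Nat.card G := by nlinarith
  have h6 := Nat.lt_of_mul_lt_mul_right h5
  omega

end Cfsg.Agent.S4149
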