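import Cfsg.Statements.S4150
import Cfsg.Agent.FGS.PrimeCyc
import Cfsg.Agent.FGS.TwoPrimes

set_option autoImplicit false
open Cfsg

namespace Cfsg.Agent.S4150

open MulAction Equiv Equiv.Perm CL.FGS.PCycle in
theorem closure_eq {β : Type*} [Fintype β] [DecidableEq β] {x y : Perm β} {p q : ℕ}
    (hp : p.Prime) (hq : q.Prime) (hp2 : p ≠ 2) (hpq : p < q) (hx : orderOf x = p)
    (hy : orderOf y = q) (hβ : Fintype.card β ≤ 2 * p) (hS : ∀ b, x b ≠ b ∨ y b ≠ b)
    (h1 : x.support.card < 2 * p ∨ q + 3 ≤ 2 * p)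
    (h2 : p + 3 ≤ q ∨ p = 3 ∨ (p = 5 ∧ q = 7) ∨ (p = 11 ∧ q = 13)) :
    Subgroup.closure {x, y} = alternatingGroup β := by
  set G := Subgroup.closure ({x, y} : Set (Perm β)) with hG
  have hxG : x ∈ G := Subgroup.subset_closure (by simp)
  have hyG : y ∈ G := Subgroup.subset_closure (by simp)
  have hle : ∀ g : Perm β, g.support.card ≤ Fintype.card β := fun g => Finset.card_le_univ _
  obtain ⟨hyc, hys⟩ := isCycle_of_orderOf hq hy (by have := hle y; omega)
  have hodd : ∀ (g : Perm β) (r : ℕ), r.Prime → r ≠ 2 → orderOf g = r → g ∈ alternatingGroup β := by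
    intro g r hr hr2 hg
    have h3 : sign g ^ r = 1 := by rw [← map_pow, ← hg, pow_orderOf_eq_one, map_one]
    rcases Int.units_eq_one_or (sign g) with h | h
    · exact h
    · rw [h, (hr.odd_of_ne_two hr2).neg_one_pow] at h3
      exact absurd h3 (by decide)
  have hp1 := hp.two_le
  refine le_antisymm ((Subgroup.closure_le _).2 ?_) ?_
  · rintro g (rfl | rfl)
    · exact hodd _ p hp hp2 hx
    · exact hodd _ q hq (by omega) hy
  obtain ⟨z, hz, -⟩ := id hyc
  have horb : ∀ b, ∃ g : G, g • z = b := by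
    have h3 : ∀ b, y b ≠ b → ∃ g : G, g • z = b := fun b hb => by
      obtain ⟨i, hi⟩ := hyc.exists_zpow_eq hz hb
      exact ⟨⟨y ^ i, G.zpow_mem hyG i⟩, hi⟩
    intro b
    rcases hS b with hb | hb
    · have h4 : (orbit (Subgroup.zpowers x) b).ncard = p := by
        rw [← period_eq_ncard]
        exact ((Nat.dvd_prime hp).1 (hx ▸ period_dvd_orderOf x b)).resolve_left
          fun h => hb (period_eq_one_iff.1 h)
      obtain ⟨w, ⟨⟨_, i, rfl⟩, hw⟩, hwy⟩ :
          (orbit (Subgroup.zpowers x) b ∩ (y.support : Set β)).Nonempty := by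
        refine Set.nonempty_inter_of_lt_ncard_add_ncard ?_
        rw [h4, Set.ncard_coe_finset, hys, Nat.card_eq_fintype_card]
        omega
      obtain ⟨g, hg⟩ := h3 w (mem_support.1 hwy)
      refine ⟨(⟨x ^ i, G.zpow_mem hxG i⟩ : G)⁻¹ * g, ?_⟩
      rw [mul_smul, hg, inv_smul_eq_iff]
      exact hw.symm
    · exact h3 b hb
  have : IsPretransitive G β := ⟨fun a b => by
    obtain ⟨g, rfl⟩ := horb a
    obtain ⟨h, rfl⟩ := horb b
    exact ⟨h * g⁻¹, by rw [mul_smul, inv_smul_smul]⟩⟩
  have hprim : IsPreprimitive G β := isPreprimitive_of_cycle (hys ▸ hq) hyc hyG (by omega)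
  by_cases h3 : x.support.card < 2 * p
  · obtain ⟨hxc, hxs⟩ := isCycle_of_orderOf hp hx h3
    by_cases h4 : p + 3 ≤ Fintype.card β
    · exact CL.Perm.alternatingGroup_le_of_prime_cycle G hprim hp h4 hxc hxs hxG
    have := hle y
    rcases h2 with h | rfl | ⟨rfl, rfl⟩ | ⟨rfl, rfl⟩
    · omega
    · exact CL.Perm.alternatingGroup_le_of_card_support_le_three G hprim hxG hxc.ne_one hxs.le
    · exact deg_seven (by omega) hprim hxG hx
    · exact deg_thirteen (by omega) hprim hxG hx
  · have := hle x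
    exact CL.Perm.alternatingGroup_le_of_prime_cycle G hprim hq (by omega) hyc hys hyG

open MulAction Equiv Equiv.Perm CL.FGS.PCycle in
theorem core {α : Type*} [Fintype α] [DecidableEq α] {x y : Perm α} {p q : ℕ}
    (hp : p.Prime) (hq : q.Prime) (hp2 : p ≠ 2) (hpq : p < q) (hx : orderOf x = p)
    (hy : orderOf y = q) (hα : Fintype.card α ≤ 2 * p)
    (h1 : x.support.card < 2 * p ∨ q + 3 ≤ 2 * p)
    (h2 : p + 3 ≤ q ∨ p = 3 ∨ (p = 5 ∧ q = 7) ∨ (p = 11 ∧ q = 13)) :
    ∃ d : ℕ, 5 ≤ d ∧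
      Nonempty (Subgroup.closure ({x, y} : Set (Perm α)) ≃* alternatingGroup (Fin d)) := by
  let S := x.support ∪ y.support
  have hS : ∀ g : Perm α, g.support ⊆ S → ∃ g' : Perm S, ofSubtype g' = g := fun g hg =>
    ⟨g.subtypePerm fun a => by
      by_cases h : g a = a
      · rw [h]
      · exact iff_of_true (hg (apply_mem_support.2 (mem_support.2 h))) (hg (mem_support.2 h)),
      ofSubtype_subtypePerm _ fun a ha => hg (mem_support.2 ha)⟩
  obtain ⟨x', hx'⟩ := hS x Finset.subset_union_left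
  obtain ⟨y', hy'⟩ := hS y Finset.subset_union_right
  have hinj : Function.Injective (ofSubtype : Perm S →* Perm α) := ofSubtype_injective
  have hyo : orderOf y' = q := by rw [← orderOf_injective _ hinj, hy', hy]
  have hc : Fintype.card S ≤ 2 * p := by
    rw [Fintype.card_coe]; exact (Finset.card_le_univ _).trans hα
  have h3 := closure_eq (x := x') (y := y') hp hq hp2 hpq
    (by rw [← orderOf_injective _ hinj, hx', hx]) hyo hc (fun b => by
      have hb := b.2
      rw [Finset.mem_union, ← hx', ← hy', mem_support_ofSubtype, mem_support_ofSubtype] at hb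
      rcases hb with ⟨_, h⟩ | ⟨_, h⟩
      · exact Or.inl (by simpa using h)
      · exact Or.inr (by simpa using h))
    (by rw [← hx', support_ofSubtype, Finset.card_map] at h1; convert h1) h2
  have h4 := Finset.card_le_univ y'.support
  have h5 := (isCycle_of_orderOf hq hyo (by omega)).2
  have h6 : 5 ≤ q := by
    have := hp.two_le
    by_contra h
    have h7 : q = 4 := by omega
    rw [h7] at hq
    norm_num at hq
  refine ⟨Fintype.card S, by omega, ⟨?_⟩⟩
  have h7 : Subgroup.closure ({x, y} : Set (Perm α)) = (alternatingGroup S).map ofSubtype := by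
    rw [← h3, MonoidHom.map_closure, Set.image_pair, hx', hy']
  exact ((MulEquiv.subgroupCongr h7).trans (Subgroup.equivMapOfInjective _ _ hinj).symm).trans
    (Fintype.equivFin S).altCongrHom

open MulAction Equiv Equiv.Perm CL.FGS.PCycle in
theorem six {α : Type*} [Fintype α] [DecidableEq α] {x y : Perm α} (hx : orderOf x = 3)
    (hy : orderOf y = 5) (hα : Fintype.card α ≤ 6) :
    ∃ d : ℕ, 5 ≤ d ∧
      Nonempty (Subgroup.closure ({x, y} : Set (Perm α)) ≃* alternatingGroup (Fin d)) := by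
  by_cases h : x.support.card < 2 * 3
  · exact core Nat.prime_three Nat.prime_five (by norm_num) (by norm_num) hx hy hα (Or.inl h)
      (Or.inr (Or.inl rfl))
  have h6 : Fintype.card α = 6 := by have := Finset.card_le_univ x.support; omega
  obtain ⟨θ, hθ, -⟩ := CL.SymIdx.exists_outer_six h6
  obtain ⟨g, hg, hθg⟩ : ∃ g : Perm α, g.IsThreeCycle ∧ ¬ (θ g).IsThreeCycle := by
    by_contra hn
    push Not at hn
    obtain ⟨σ, hσ⟩ := CL.SymIdx.inner_of_threeCycles (by omega) θ hn
    obtain ⟨a, b, hab⟩ := (Fintype.one_lt_card_iff (α := α)).1 (by omega)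
    obtain ⟨k, hk1, hk2⟩ := hθ (σ a) a b
    rw [hσ] at hk1
    simp only [Perm.mul_apply, Perm.inv_def, Equiv.symm_apply_apply,
      EmbeddingLike.apply_eq_iff_eq] at hk1
    exact hab (hk1.symm.trans hk2)
  have hc := CL.SymIdx.isConj_of_order_three h6 (by rw [MulEquiv.orderOf_eq, hg.orderOf]) hx hθg
    (fun h3 => h (by rw [h3.card_support]; norm_num))
  have hc' : IsConj g (θ.symm x) := by simpa using θ.symm.toMonoidHom.map_isConj hc
  have h3 := CL.SymIdx.isThreeCycle_of_isConj hc' hg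
  obtain ⟨d, hd, ⟨e⟩⟩ := core (x := θ.symm x) (y := θ.symm y) Nat.prime_three Nat.prime_five
    (by norm_num) (by norm_num) h3.orderOf (by rw [MulEquiv.orderOf_eq, hy]) hα
    (Or.inl (by rw [h3.card_support]; norm_num)) (Or.inr (Or.inl rfl))
  refine ⟨d, hd, ⟨MulEquiv.trans ?_ e⟩⟩
  refine (θ.symm.subgroupMap _).trans (MulEquiv.subgroupCongr ?_)
  rw [MonoidHom.map_closure, Set.image_pair]
  rfl


/-- Let m ≥ 5. Then there are primes p < q with m/2 ≤ p and q ≤ m such that any two elements x, y of the alternating group of degree m with x of order p and y of order q generate a subgroup isomorphic to an alternating group of some degree d ≥ 5. -/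
theorem result (m : ℕ) (hm : 5 ≤ m) :
    ∃ p q : ℕ, p.Prime ∧ q.Prime ∧ m ≤ 2 * p ∧ p < q ∧ q ≤ m ∧
      ∀ x y : alternatingGroup (Fin m), orderOf x = p → orderOf y = q →
        ∃ d : ℕ, 5 ≤ d ∧ Nonempty (Subgroup.closure ({x, y} : Set (alternatingGroup (Fin m))) ≃* alternatingGroup (Fin d)) := by
  have key : ∀ x y : alternatingGroup (Fin m), (∃ d : ℕ, 5 ≤ d ∧
      Nonempty (Subgroup.closure ({(x : Equiv.Perm (Fin m)), (y : Equiv.Perm (Fin m))} :
        Set (Equiv.Perm (Fin m))) ≃* alternatingGroup (Fin d))) →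
      ∃ d : ℕ, 5 ≤ d ∧ Nonempty (Subgroup.closure ({x, y} : Set (alternatingGroup (Fin m))) ≃*
        alternatingGroup (Fin d)) := by
    rintro x y ⟨d, hd, ⟨e⟩⟩
    refine ⟨d, hd, ⟨MulEquiv.trans ?_ e⟩⟩
    refine (Subgroup.equivMapOfInjective _ _ (alternatingGroup (Fin m)).subtype_injective).trans
      (MulEquiv.subgroupCongr ?_)
    rw [MonoidHom.map_closure, Set.image_pair]
    rfl
  have key2 : ∀ p q : ℕ, p.Prime → q.Prime → p ≠ 2 → p < q → m ≤ 2 * p → q ≤ m →
      (m < 2 * p ∨ q + 3 ≤ 2 * p) → (p + 3 ≤ q ∨ p = 3 ∨ (p = 5 ∧ q = 7) ∨ (p = 11 ∧ q = 13)) →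
      ∃ p q : ℕ, p.Prime ∧ q.Prime ∧ m ≤ 2 * p ∧ p < q ∧ q ≤ m ∧
      ∀ x y : alternatingGroup (Fin m), orderOf x = p → orderOf y = q →
        ∃ d : ℕ, 5 ≤ d ∧ Nonempty (Subgroup.closure ({x, y} : Set (alternatingGroup (Fin m))) ≃*
          alternatingGroup (Fin d)) := by
    intro p q hp hq hp2 hpq h1 h2 h3 h4
    refine ⟨p, q, hp, hq, h1, hpq, h2, fun x y hx hy => key x y (core hp hq hp2 hpq
      (by rw [Subgroup.orderOf_coe, hx]) (by rw [Subgroup.orderOf_coe, hy]) (by simpa using h1)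
      (h3.imp_left fun h => ?_) h4)⟩
    have := Finset.card_le_univ (x : Equiv.Perm (Fin m)).support
    rw [Fintype.card_fin] at this
    omega
  by_cases h : 17 ≤ m
  · obtain ⟨p, q, hp, hq, h1, h2, h3⟩ := CL.FGS.TwoPrimes.exists_two_primes m h
    exact key2 p q hp hq (by omega) (by omega) h1.le h3 (Or.inl h1) (Or.inl h2)
  by_cases h : 15 ≤ m
  · exact key2 11 13 (by norm_num) (by norm_num) (by norm_num) (by norm_num) (by omega) (by omega)
      (by omega) (by omega)
  by_cases h : 11 ≤ m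
  · exact key2 7 11 (by norm_num) (by norm_num) (by norm_num) (by norm_num) (by omega) (by omega)
      (by omega) (by omega)
  by_cases h : 7 ≤ m
  · exact key2 5 7 (by norm_num) (by norm_num) (by norm_num) (by norm_num) (by omega) (by omega)
      (by omega) (by omega)
  exact ⟨3, 5, Nat.prime_three, Nat.prime_five, by omega, by omega, by omega, fun x y hx hy =>
    key x y (six (by rw [Subgroup.orderOf_coe, hx]) (by rw [Subgroup.orderOf_coe, hy])
      (by rw [Fintype.card_fin]; omega))⟩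
end Cfsg.Agent.S4150
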