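import Cfsg.Statements.S4151
import Cfsg.Agent.S0055
import Cfsg.Agent.SOLV.Supersolvable
import Cfsg.Agent.SOLV.PiSep
import Cfsg.Agent.SOLV.Hall
import Cfsg.Agent.SOLV.Core
import Cfsg.Agent.SOLV.CoprimeGen
import Cfsg.Agent.SOLV.CoprimeSylow
import Cfsg.Agent.SOLV.PGroupCyclicSCN
import Cfsg.Agent.TECH.SylIn

set_option autoImplicit false
open Cfsg

namespace Cfsg.Agent.S4151

open scoped commutatorElement

theorem comm_le_cent {G : Type*} [Group G] (A : Subgroup G) [IsCyclic A] {X Y : Subgroup G}
    (hX : X ≤ Subgroup.normalizer (A : Set G)) (hY : Y ≤ Subgroup.normalizer (A : Set G)) :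
    ⁅X, Y⁆ ≤ Subgroup.centralizer (A : Set G) := by
  haveI : IsCyclic (A.subgroupOf (Subgroup.normalizer (A : Set G))) :=
    isCyclic_of_surjective _ (Subgroup.subgroupOfEquivOfLe Subgroup.le_normalizer).symm.surjective
  have h := CL.commutator_le_centralizer_of_cyclic_normal
    (A.subgroupOf (Subgroup.normalizer (A : Set G)))
  rw [Subgroup.commutator_le]
  intro x hx y hy a ha
  have := h (Subgroup.commutator_mem_commutator (Subgroup.mem_top ⟨x, hX hx⟩)
    (Subgroup.mem_top ⟨y, hY hy⟩)) ⟨a, Subgroup.le_normalizer ha⟩ ha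
  exact congrArg Subtype.val this

theorem zgroup {G : Type*} [Group G] [Finite G] (H Q : Subgroup G) [IsZGroup H]
    (hQ : Q ≤ Subgroup.normalizer (H : Set G)) (hcop : (Nat.card Q).Coprime (Nat.card H)) :
    ⁅H, Q⁆ ⊓ (H ⊓ Subgroup.centralizer (Q : Set G)) = ⊥ ∧
      (Nat.card ↥(H ⊓ Subgroup.centralizer (Q : Set G))).Coprime
        ((H ⊓ Subgroup.centralizer (Q : Set G)).relIndex H) := by
  have hsol : Group.IsSolvable H := inferInstance
  have hDH : ⁅H, Q⁆ ≤ H := Subgroup.commutator_le.2 fun x hx y hy => by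
    rw [commutatorElement_def, mul_assoc, mul_assoc]
    exact H.mul_mem hx (by
      rw [← mul_assoc]; exact (Subgroup.mem_normalizer_iff.1 (hQ hy) _).1 (H.inv_mem hx))
  constructor
  · haveI := IsZGroup.isCyclic_commutator H
    haveI : IsCyclic ((commutator H).map H.subtype) :=
      isCyclic_of_surjective _ ((commutator H).equivMapOfInjective _ H.subtype_injective).surjective
    have h1 := comm_le_cent ((commutator H).map H.subtype)
      (Subgroup.le_normalizer.trans (CL.normalizer_le_normalizer_map_subtype H (commutator H)))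
      (hQ.trans (CL.normalizer_le_normalizer_map_subtype H (commutator H)))
    haveI : IsMulCommutative ↥⁅H, Q⁆ := by
      refine MonoidHom.isMulCommutative_of_isCyclic_of_ker_le_center
        ((Abelianization.of : H →* Abelianization H).comp (Subgroup.inclusion hDH)) ?_
      intro x hx
      rw [MonoidHom.mem_ker, MonoidHom.comp_apply, ← MonoidHom.mem_ker, Abelianization.ker_of] at hx
      rw [Subgroup.mem_center_iff]
      intro y
      exact Subtype.ext ((Subgroup.mem_centralizer_iff.1 (h1 y.2)) x ⟨_, hx, rfl⟩).symm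
    have h2 := (Cfsg.Agent.S0055.result Q ⁅H, Q⁆ (CL.le_normalizer_commutator hQ Subgroup.le_normalizer)
      (hcop.coprime_dvd_right (Subgroup.card_dvd_of_le hDH))).1
    rw [CL.coprime_commutator_commutator Q H hQ hcop (Or.inr hsol)] at h2
    rw [eq_bot_iff, ← h2]
    exact fun x hx => ⟨⟨hx.1, hx.2.2⟩, hx.1⟩
  · refine Nat.coprime_of_dvd fun p hp h1 h2 => ?_
    have := Fact.mk hp
    obtain ⟨x, hx⟩ := exists_prime_orderOf_dvd_card' p h1
    have hx' : orderOf (x : G) = p := by rw [Subgroup.orderOf_coe, hx]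
    have hU : IsPGroup p (Subgroup.zpowers (x : G)) :=
      IsPGroup.of_card (n := 1) (by rw [Nat.card_zpowers, hx', pow_one])
    obtain ⟨P, hUP, hP⟩ := CL.coprime_exists_invariant_sylow_ge Q H hQ hcop (Or.inr hsol) p _
      (Subgroup.zpowers_le.2 x.2.1) hU (le_trans (by
        rw [← Subgroup.le_centralizer_iff, Subgroup.zpowers_le]; exact x.2.2)
        (Subgroup.centralizer_le_normalizer _))
    haveI : IsCyclic ((P : Subgroup H).map H.subtype) :=
      isCyclic_of_surjective _ ((P : Subgroup H).equivMapOfInjective _ H.subtype_injective).surjective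
    have hc : (Nat.card Q).Coprime (Nat.card ((P : Subgroup H).map H.subtype)) :=
      hcop.coprime_dvd_right (Subgroup.card_dvd_of_le (Subgroup.map_subtype_le _))
    rcases IsPGroup.commutator_eq_bot_or_commutator_eq_self (P.isPGroup'.map _) hP hc.symm with h | h
    · rw [Subgroup.commutator_comm, Subgroup.commutator_eq_bot_iff_le_centralizer] at h
      exact (CL.MSS.sylIn_map_subtype P).not_dvd_relIndex (h2.trans
        (Subgroup.relIndex_dvd_of_le_left _ (le_inf (Subgroup.map_subtype_le _) h)))
    · have h3 := (Cfsg.Agent.S0055.result Q _ hP hc).1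
      rw [Subgroup.commutator_comm, h] at h3
      have hxP := hUP (Subgroup.mem_zpowers _)
      have : (x : G) ∈ (⊥ : Subgroup G) := h3 ▸ ⟨⟨hxP, x.2.2⟩, hxP⟩
      rw [Subgroup.mem_bot] at this
      rw [this, orderOf_one] at hx'
      exact hp.one_lt.ne hx'

/-- Let G be a finite group and H a non-normal subgroup meeting each of its conjugates by elements outside N_G(H) trivially, with the order of H coprime to its index in N_G(H), such that G is π-separable for π the set of primes dividing the order of H (G has a chain of normal subgroups from 1 to G each of whose factors has order divisible only by primes dividing the order of H or coprime to it). Suppose a Sylow 2-subgroup of H is abelian and Q is a complement of H in N_G(H). Then C_H(Q), the subgroup of elements of H commuting with Q, has order coprime to its index in G and has a normal complement in G. -/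
theorem result {G : Type*} [Group G] [Finite G] (H : Subgroup G)
    (hTI : Cfsg.IsTISubset (H : Set G)) (hnn : ¬ H.Normal)
    (hHall : (Nat.card H).Coprime (H.subgroupOf (Subgroup.normalizer (H : Set G))).index)
    (hsep : ∃ (n : ℕ) (M : Fin (n + 1) → Subgroup G), M 0 = ⊥ ∧ M (Fin.last n) = ⊤ ∧ Monotone M ∧ (∀ i, (M i).Normal) ∧
      ∀ i : Fin n, (∀ q : ℕ, q.Prime → q ∣ (M i.castSucc).relIndex (M i.succ) → q ∣ Nat.card H) ∨
        ((M i.castSucc).relIndex (M i.succ)).Coprime (Nat.card H))
    (h2 : ∀ P : Sylow 2 H, IsMulCommutative (P : Subgroup H))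
    (Q : Subgroup G) (hQ : Q ≤ Subgroup.normalizer (H : Set G)) (hQH : Q ⊓ H = ⊥) (hQH' : Q ⊔ H = Subgroup.normalizer (H : Set G)) :
    (Nat.card ↥(H ⊓ Subgroup.centralizer (Q : Set G))).Coprime (H ⊓ Subgroup.centralizer (Q : Set G)).index ∧
    ∃ N : Subgroup G, N.Normal ∧ N.IsComplement' (H ⊓ Subgroup.centralizer (Q : Set G)) := by
  set N := Subgroup.normalizer (H : Set G) with hN
  set C := H ⊓ Subgroup.centralizer (Q : Set G) with hC
  have hTI' : ∀ X : Subgroup G, X ≤ H → X ≠ ⊥ → Subgroup.normalizer (X : Set G) ≤ N := by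
    intro X hX hX1 g hg
    by_contra h
    exact hX1 (eq_bot_iff.2 fun x hx => hTI g h x (hX hx)
      (hX ((Subgroup.mem_normalizer_iff.1 hg x).1 hx)))
  change (Nat.card H).Coprime (H.relIndex N) at hHall
  have hHN : H ≤ N := Subgroup.le_normalizer
  -- Sylow subgroups of `H` are Sylow in `G`
  have hsyl : ∀ (p : ℕ) [Fact p.Prime], p ∣ Nat.card H → ∀ P, CL.MSS.SylIn p P H →
      CL.MSS.SylIn p P ⊤ := by
    intro p hp hpH P hP
    refine CL.MSS.SylIn.of_normalizer_le (K := N) ?_ le_top
      (inf_le_right.trans (hTI' P hP.le (hP.ne_bot hpH)))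
    refine CL.MSS.sylIn_of_not_dvd_relIndex hP.pgroup (hP.le.trans hHN) ?_
    rw [← Subgroup.relIndex_mul_relIndex P H N hP.le hHN]
    intro h
    rcases (Nat.Prime.dvd_mul hp.out).1 h with h | h
    · exact hP.not_dvd_relIndex h
    · exact hp.out.one_lt.ne' (Nat.eq_one_of_dvd_coprimes hHall hpH h)
  have hHi : (Nat.card H).Coprime H.index := by
    refine Nat.coprime_of_dvd fun p hp h1 h2 => ?_
    have := Fact.mk hp
    obtain ⟨P, hP⟩ := CL.MSS.exists_sylIn p H
    exact (hsyl p h1 P hP).not_dvd_relIndex (by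
      rw [Subgroup.relIndex_top_right]; exact h2.trans (Subgroup.index_dvd_of_le hP.le))
  set π : Set ℕ := {p | p ∣ Nat.card H}
  have hHall' : Cfsg.IsPiHall π H := CL.isPiHall_of_coprime hHi
  have hsep' : CL.IsPiSeparable π G := by
    obtain ⟨n, M, h0, h1, h2, h3, h4⟩ := hsep
    refine CL.isPiSeparable_iff.2 ⟨n, M, h0, h1, h2, h3, fun i => (h4 i).imp id fun h q hq hd hd' => ?_⟩
    exact hq.one_lt.ne' (Nat.eq_one_of_dvd_coprimes h hd hd')
  set K := Cfsg.piCore πᶜ G
  have hKc : (Nat.card H).Coprime (Nat.card K) :=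
    (CL.isPiNum_setOf_dvd _).coprime (CL.isPiNum_card_piCore _ G)
  have hH1 : H ≠ ⊥ := fun h => hnn (h ▸ inferInstance)
  have hKH : K ⊓ H = ⊥ := disjoint_iff.1 (Subgroup.disjoint_of_coprime_natCard hKc.symm)
  -- `G = K N`
  have hKN : K ⊔ N = ⊤ := by
    have hK1 : K ≠ ⊤ := fun h => hH1 (by rw [← hKH, h, top_inf_eq])
    haveI := CL.nontrivial_quotient_of_ne_top hK1
    have h1 : Cfsg.piCore πᶜ (G ⧸ K) = ⊥ := by
      rw [← CL.map_mk'_piCore K (CL.isPiNum_card_piCore _ G), CL.map_mk'_eq_bot_iff]
    have h2 := ((hsep'.quotient K).piCore_ne_bot).resolve_right (not_not.2 h1)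
    set L := (Cfsg.piCore π (G ⧸ K)).comap (QuotientGroup.mk' K)
    obtain ⟨p, hp, hpd⟩ := Nat.exists_prime_and_dvd (n := Nat.card (Cfsg.piCore π (G ⧸ K)))
      (by rwa [Ne, Subgroup.card_eq_one])
    have := Fact.mk hp
    have hpH : p ∣ Nat.card H := CL.isPiNum_card_piCore π _ p hp hpd
    obtain ⟨P, hP⟩ := CL.MSS.exists_sylIn p H
    have hPL : CL.MSS.SylIn p (P ⊓ L) L :=
      (hsyl p hpH P hP).inf_normal_of_le (by rw [Subgroup.normalizer_eq_top]) le_top
    have h3 := hPL.frattini_sup (H := ⊤) le_top (by rw [Subgroup.normalizer_eq_top])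
    have h4 : L ≤ K ⊔ N := by
      have h5 := CL.IsPiHall.piCore_le (CL.IsPiHall.map hHall' (QuotientGroup.mk'_surjective K))
      refine (Subgroup.comap_mono h5).trans ?_
      rw [CL.comap_map_mk', sup_comm]
      exact sup_le_sup_left hHN _
    rw [eq_top_iff, ← h3]
    refine sup_le h4 (inf_le_right.trans ((hTI' _ (inf_le_left.trans hP.le) (hPL.ne_bot ?_)).trans
      le_sup_right))
    rw [CL.card_comap_mk']
    exact hpd.mul_right _
  -- abelian subgroups of `H` are cyclic
  have hab : ∀ A : Subgroup G, A ≤ H → IsMulCommutative A → IsCyclic A := by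
    intro A hA hAc
    by_contra hnc
    have h1 := CL.coprime_le_of_forall_centralizer_le A K N hnc (by rw [Subgroup.normalizer_eq_top]; exact le_top)
      (hKc.coprime_dvd_left (Subgroup.card_dvd_of_le hA)) (fun a ha ha1 => by
        refine inf_le_right.trans (le_trans ?_ (hTI' (Subgroup.zpowers a)
          (Subgroup.zpowers_le.2 (hA ha)) (by simpa using ha1)))
        rw [← CL.PCyc.centralizer_zpowers]
        exact Subgroup.centralizer_le_normalizer _)
    rw [sup_eq_right.2 h1] at hKN
    exact hnn (Subgroup.normalizer_eq_top_iff.1 hKN)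
  haveI hZ : IsZGroup H := ⟨fun p hp P => by
    have := Fact.mk hp
    have e := (P : Subgroup H).equivMapOfInjective _ H.subtype_injective
    by_cases hp2 : p = 2
    · subst hp2
      have := h2 P
      have := hab _ (Subgroup.map_subtype_le (P : Subgroup H)) inferInstance
      exact isCyclic_of_surjective _ e.symm.surjective
    · by_contra hnc
      obtain ⟨E, -, hE, hE2⟩ := CL.PCyc.exists_normal_elemAb_of_odd P.isPGroup' hp2 hnc
      haveI : IsMulCommutative E := hE.1
      have := hab ((E.map (P : Subgroup H).subtype).map H.subtype) (Subgroup.map_subtype_le _)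
        inferInstance
      refine CL.PCyc.not_isCyclic_of_elemAb hp hE (by
        rw [hE2]; nlinarith [hp.one_lt]) ?_
      exact isCyclic_of_surjective _ ((E.equivMapOfInjective _ (Subgroup.subtype_injective _)).trans
        ((E.map (P : Subgroup H).subtype).equivMapOfInjective _ H.subtype_injective)).symm.surjective⟩
  have hQc : (Nat.card Q).Coprime (Nat.card H) := by
    have h1 := CL.card_sup_of_disjoint hQ hQH
    rw [hQH', ← CL.card_mul_relIndex_of_le hHN, mul_comm] at h1
    rw [← Nat.eq_of_mul_eq_mul_right Nat.card_pos h1]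
    exact hHall.symm
  obtain ⟨hDC, hCH⟩ := zgroup H Q hQ hQc
  have hDC' := CL.coprime_commutator_sup_centralizer Q H hQ hQc (Or.inr inferInstance)
  rw [← hC] at hDC hCH hDC'
  set D := ⁅H, Q⁆
  have hCQ : C ≤ Subgroup.normalizer (Q : Set G) :=
    inf_le_right.trans (Subgroup.centralizer_le_normalizer _)
  have hCD : C ≤ Subgroup.normalizer (D : Set G) :=
    CL.le_normalizer_commutator (inf_le_left.trans hHN) hCQ
  have hQD : Q ≤ Subgroup.normalizer (D : Set G) :=
    CL.le_normalizer_commutator hQ Subgroup.le_normalizer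
  have hCc : (Nat.card C).Coprime (Nat.card D) := by
    have h1 := CL.card_sup_of_disjoint hCD (by rw [inf_comm]; exact hDC)
    rw [sup_comm, hDC', ← CL.card_mul_relIndex_of_le (inf_le_left : C ≤ H)] at h1
    rwa [← Nat.eq_of_mul_eq_mul_left Nat.card_pos h1]
  have hcd : Nat.card C ∣ Nat.card H := Subgroup.card_dvd_of_le inf_le_left
  have hCi : (Nat.card C).Coprime C.index := by
    rw [← Subgroup.relIndex_mul_index (inf_le_left : C ≤ H)]
    exact hCH.mul_right (hHi.coprime_dvd_left hcd)
  have htop : (Q ⊔ D) ⊔ K ⊔ C = ⊤ := by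
    rw [eq_top_iff, ← hKN, ← hQH', ← hDC']
    exact sup_le (le_sup_right.trans le_sup_left) (sup_le (le_sup_left.trans (le_sup_left.trans
      le_sup_left)) (sup_le (le_sup_right.trans (le_sup_left.trans le_sup_left)) le_sup_right))
  have hn : ((Q ⊔ D) ⊔ K).Normal := by
    rw [← Subgroup.normalizer_eq_top_iff, eq_top_iff, ← htop]
    exact sup_le Subgroup.le_normalizer (CL.le_normalizer_sup (CL.le_normalizer_sup hCQ hCD)
      (by rw [Subgroup.normalizer_eq_top]; exact le_top))
  refine ⟨hCi, (Q ⊔ D) ⊔ K, hn, ?_⟩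
  refine Subgroup.isComplement'_of_disjoint_and_mul_eq_univ
    (Subgroup.disjoint_of_coprime_natCard ?_) (by rw [← Subgroup.normal_mul, htop, Subgroup.coe_top])
  refine Nat.Coprime.coprime_dvd_left ((CL.card_sup_dvd_mul _ _).trans (mul_dvd_mul_right
    (CL.card_sup_dvd_mul_of_le_normalizer hQD) _)) ?_
  exact Nat.Coprime.mul_left (Nat.Coprime.mul_left (hQc.coprime_dvd_right hcd) hCc.symm)
    (hKc.symm.coprime_dvd_right hcd)

end Cfsg.Agent.S4151
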