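import Cfsg.Statements.S4153
import Cfsg.Agent.FGS.ClassCount
import Cfsg.Agent.FGS.CoprimeIndex
import Cfsg.Agent.PLOC.PNormal

set_option autoImplicit false
open Cfsg

namespace Cfsg.Agent.S4153

theorem pel_iff {G : Type*} [Group G] [Finite G] (p : ℕ) [hp : Fact p.Prime] (g : G) :
    (∃ k : ℕ, orderOf g = p ^ k) ↔ ∃ k : ℕ, g ^ p ^ k = 1 := by
  constructor
  · rintro ⟨k, hk⟩; exact ⟨k, hk ▸ pow_orderOf_eq_one g⟩
  · rintro ⟨k, hk⟩
    obtain ⟨j, -, hj⟩ := (Nat.dvd_prime_pow hp.out).mp (orderOf_dvd_of_pow_eq_one hk)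
    exact ⟨j, hj⟩

theorem exists_lift {G : Type*} [Group G] [Finite G] (p : ℕ) [hp : Fact p.Prime] (N : Subgroup G)
    [N.Normal] (q : G ⧸ N) (hq : ∃ k : ℕ, q ^ p ^ k = 1) :
    ∃ g : G, (g : G ⧸ N) = q ∧ ∃ k : ℕ, g ^ p ^ k = 1 := by
  have hq' : IsPGroup p (Subgroup.zpowers q) := by
    obtain ⟨k, hk⟩ := (pel_iff p q).mpr hq
    apply IsPGroup.of_card (n := k)
    rw [Nat.card_zpowers, hk]
  obtain ⟨Q, hQ⟩ := hq'.exists_le_sylow
  obtain ⟨R, hR⟩ := Sylow.mapSurjective_surjective (QuotientGroup.mk'_surjective N) p Q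
  have : q ∈ (R.mapSurjective (QuotientGroup.mk'_surjective N) : Subgroup (G ⧸ N)) := by
    rw [hR]; exact hQ (Subgroup.mem_zpowers q)
  obtain ⟨g, hg, hgq⟩ := this
  obtain ⟨k, hk⟩ := R.isPGroup' ⟨g, hg⟩
  exact ⟨g, hgq, k, by simpa using congrArg Subtype.val hk⟩

theorem card_inf {G : Type*} [Group G] [Finite G] (p : ℕ) [hp : Fact p.Prime] (N : Subgroup G)
    [N.Normal] (P Q : Sylow p G) (Pbar : Sylow p (G ⧸ N)) :
    Nat.card (P : Subgroup G) = Nat.card ↥((Q : Subgroup G) ⊓ N) * Nat.card (Pbar : Subgroup (G ⧸ N)) := by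
  rw [Nat.card_congr (P.equiv Q).toEquiv,
    Nat.card_congr (Pbar.equiv (Q.mapSurjective (QuotientGroup.mk'_surjective N))).toEquiv]
  have := CL.PN.card_eq_card_inf_ker_mul_card_map (QuotientGroup.mk' N) (Q : Subgroup G)
  rw [QuotientGroup.ker_mk'] at this
  exact this

/-- Let G be a finite group, p a prime, N a normal subgroup, P a Sylow p-subgroup of G and P̄ a Sylow p-subgroup of G/N. Count the elements of p-power order, the identity included. Then (number of such elements of G/N)/#P̄ ≤ (number of such elements of G)/#P, stated as a cross-multiplied inequality, with equality when N is central. -/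
theorem result {G : Type*} [Group G] [Finite G] (p : ℕ) [Fact p.Prime] (N : Subgroup G) [N.Normal]
    (P : Sylow p G) (Pbar : Sylow p (G ⧸ N)) :
    Nat.card {g : (G ⧸ N) // ∃ k : ℕ, orderOf g = p ^ k} * Nat.card (P : Subgroup G) ≤ Nat.card {g : G // ∃ k : ℕ, orderOf g = p ^ k} * Nat.card (Pbar : Subgroup (G ⧸ N)) ∧
    (N ≤ Subgroup.center G → Nat.card {g : (G ⧸ N) // ∃ k : ℕ, orderOf g = p ^ k} * Nat.card (P : Subgroup G) = Nat.card {g : G // ∃ k : ℕ, orderOf g = p ^ k} * Nat.card (Pbar : Subgroup (G ⧸ N))) := by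
  classical
  have := Fintype.ofFinite G
  have := Fintype.ofFinite (G ⧸ N)
  set a := Nat.card ↥((P : Subgroup G) ⊓ N) with ha
  have hPa : Nat.card (P : Subgroup G) = a * Nat.card (Pbar : Subgroup (G ⧸ N)) := card_inf p N P P Pbar
  have hpos : 0 < Nat.card (Pbar : Subgroup (G ⧸ N)) := Nat.card_pos
  have ha' : ∀ Q : Sylow p G, Nat.card ↥((Q : Subgroup G) ⊓ N) = a := by
    intro Q
    have := card_inf p N P Q Pbar
    rw [hPa] at this
    exact (Nat.eq_of_mul_eq_mul_right hpos this).symm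
  simp only [pel_iff]
  let F : (G ⧸ N) → Set G := fun q => {g | (g : G ⧸ N) = q ∧ ∃ k : ℕ, g ^ p ^ k = 1}
  have hsum : Nat.card {g : G // ∃ k : ℕ, g ^ p ^ k = 1} =
      ∑ q : {q : G ⧸ N // ∃ k : ℕ, q ^ p ^ k = 1}, (F q).ncard := by
    simp_rw [← Nat.card_coe_set_eq]
    rw [← Nat.card_sigma]
    refine Nat.card_congr ⟨fun g => ⟨⟨(g.1 : G ⧸ N), ?_⟩, ⟨g.1, rfl, g.2⟩⟩, fun s => ⟨s.2.1, s.2.2.2⟩,
      fun _ => rfl, ?_⟩
    · obtain ⟨k, hk⟩ := g.2
      exact ⟨k, by rw [← QuotientGroup.mk_pow, hk]; rfl⟩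
    · rintro ⟨⟨q, hq⟩, g, hg1, hg⟩
      have hg2 : (g : G ⧸ N) = q := hg1
      subst hg2
      rfl
  have hge : ∀ q : {q : G ⧸ N // ∃ k : ℕ, q ^ p ^ k = 1}, a ≤ (F q).ncard := by
    intro q
    obtain ⟨g, hgq, hg⟩ := exists_lift p N q q.2
    have hg' : IsPGroup p (Subgroup.zpowers g) := by
      obtain ⟨k, hk⟩ := (pel_iff p g).mpr hg
      apply IsPGroup.of_card (n := k)
      rw [Nat.card_zpowers, hk]
    obtain ⟨Q, hQ⟩ := hg'.exists_le_sylow
    have hgQ : g ∈ (Q : Subgroup G) := hQ (Subgroup.mem_zpowers g)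
    rw [← ha' Q, ← CL.ncard_leftCoset_eq _ g]
    apply Set.ncard_le_ncard _ (Set.toFinite _)
    rintro x ⟨hx1, hx2⟩
    refine ⟨(QuotientGroup.eq.mpr hx2).symm.trans hgq, ?_⟩
    have hxQ : x ∈ (Q : Subgroup G) := by simpa using (Q : Subgroup G).mul_mem hgQ hx1
    obtain ⟨k, hk⟩ := Q.isPGroup' ⟨x, hxQ⟩
    exact ⟨k, by simpa using congrArg Subtype.val hk⟩
  have hle : N ≤ Subgroup.center G →
      ∀ q : {q : G ⧸ N // ∃ k : ℕ, q ^ p ^ k = 1}, (F q).ncard ≤ a := by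
    intro hN q
    apply CL.ncard_le_card_of_inv_mul_mem
    rintro x ⟨hx1, k, hx2⟩ y ⟨hy1, l, hy2⟩
    have hn : x⁻¹ * y ∈ N := QuotientGroup.eq.mp (hx1.trans hy1.symm)
    refine ⟨?_, hn⟩
    have hc : Commute x (x⁻¹ * y) := Subgroup.mem_center_iff.mp (hN hn) x
    have hxy : Commute x⁻¹ y := by
      have h2 : Commute x (x * (x⁻¹ * y)) := (Commute.refl x).mul_right hc
      rw [mul_inv_cancel_left] at h2
      exact h2.inv_left
    have hpow : (x⁻¹ * y) ^ p ^ (k + l) = 1 := by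
      rw [hxy.mul_pow, inv_pow]
      nth_rewrite 2 [add_comm k l]
      rw [pow_add, pow_add, pow_mul, pow_mul, hx2, hy2]
      simp
    have hz : IsPGroup p (Subgroup.zpowers (x⁻¹ * y)) := by
      obtain ⟨k, hk⟩ := (pel_iff p _).mpr ⟨_, hpow⟩
      apply IsPGroup.of_card (n := k)
      rw [Nat.card_zpowers, hk]
    haveI : (Subgroup.zpowers (x⁻¹ * y)).Normal :=
      CL.normal_of_le_center' ((Subgroup.zpowers_le).mpr (hN hn))
    exact hz.le_sylow_of_normal P (Subgroup.mem_zpowers _)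
  have key1 : Nat.card {q : G ⧸ N // ∃ k : ℕ, q ^ p ^ k = 1} * a ≤
      Nat.card {g : G // ∃ k : ℕ, g ^ p ^ k = 1} := by
    rw [hsum, Nat.card_eq_fintype_card, ← smul_eq_mul, ← Finset.card_univ, ← Finset.sum_const]
    exact Finset.sum_le_sum fun q _ => hge q
  refine ⟨?_, fun hN => ?_⟩
  · rw [hPa, ← mul_assoc]
    exact Nat.mul_le_mul_right _ key1
  · rw [hPa, ← mul_assoc]
    congr 1
    apply le_antisymm key1
    rw [hsum, Nat.card_eq_fintype_card, ← smul_eq_mul, ← Finset.card_univ, ← Finset.sum_const]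
    exact Finset.sum_le_sum fun q _ => hle hN q

end Cfsg.Agent.S4153
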