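import Cfsg.Statements.S4154
import Cfsg.Agent.FGS.ClassCount

set_option autoImplicit false
open Cfsg

namespace Cfsg.Agent.S4154

/-- Let G be a finite group and α an automorphism of G such that every element of G is the product of an element fixed by α and an element of the form g⁻¹α(g). If N is a normal α-invariant subgroup, then the automorphism ᾱ induced on G/N has the same property, and every coset fixed by ᾱ contains an element fixed by α (so the fixed points of ᾱ are the images of the fixed points of α). -/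
theorem result {G : Type*} [Group G] [Finite G] (α : MulAut G)
    (hccp : ∀ x : G, ∃ c g : G, α c = c ∧ x = c * (g⁻¹ * α g))
    (N : Subgroup G) [N.Normal] (hN : ∀ n ∈ N, α n ∈ N) :
    (∀ x : G, ∃ c g : G, c⁻¹ * α c ∈ N ∧ x⁻¹ * (c * (g⁻¹ * α g)) ∈ N) ∧
    (∀ x : G, x⁻¹ * α x ∈ N → ∃ c : G, α c = c ∧ c⁻¹ * x ∈ N) := by
  classical
  constructor
  · intro x
    obtain ⟨c, g, hc, hx⟩ := hccp x
    refine ⟨c, g, by rw [hc]; simp, by rw [← hx]; simp⟩
  · let β : G ⧸ N →* G ⧸ N := QuotientGroup.map N N α.toMonoidHom (fun n hn => hN n hn)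
    have hβ : ∀ x : G, β (x : G ⧸ N) = ((α x : G) : G ⧸ N) := fun x => rfl
    let C : Subgroup G := MonoidHom.eqLocus α.toMonoidHom (MonoidHom.id G)
    let D : Subgroup (G ⧸ N) := MonoidHom.eqLocus β (MonoidHom.id _)
    let Cb : Subgroup (G ⧸ N) := C.map (QuotientGroup.mk' N)
    have hle : Cb ≤ D := by
      rintro _ ⟨c, hc, rfl⟩
      show β (c : G ⧸ N) = c
      rw [hβ]
      exact congrArg _ hc
    let S : Set (G ⧸ N) := Set.range (fun g : G ⧸ N => β g * g⁻¹)
    have hS : S.ncard = D.index := by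
      apply CL.ncard_range_eq_index
      intro a b
      show _ ↔ β (a⁻¹ * b) = a⁻¹ * b
      rw [map_mul, map_inv]
      constructor
      · intro h
        calc (β a)⁻¹ * β b = (β a)⁻¹ * (β b * b⁻¹) * b := by group
          _ = a⁻¹ * b := by rw [← h]; group
      · intro h
        calc β a * a⁻¹ = β a * (a⁻¹ * b) * b⁻¹ := by group
          _ = β b * b⁻¹ := by rw [← h]; group
    have hsurj : Function.Surjective (fun p : S × Cb => (p.1 : G ⧸ N) * p.2) := by
      intro q
      induction q using QuotientGroup.induction_on with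
      | H x =>
        obtain ⟨c, g, hc, hx⟩ := hccp x⁻¹
        refine ⟨(⟨_, ⟨((g⁻¹ : G) : G ⧸ N), rfl⟩⟩, ⟨((c⁻¹ : G) : G ⧸ N), c⁻¹, C.inv_mem hc, rfl⟩), ?_⟩
        have : x = α g⁻¹ * g⁻¹⁻¹ * c⁻¹ := by
          rw [← inv_inv x, hx]; simp [mul_assoc]
        simp only [hβ]
        rw [this]
        simp
    have h1 := Nat.card_le_card_of_surjective _ hsurj
    rw [Nat.card_prod, Nat.card_coe_set_eq, hS, ← D.index_mul_card] at h1
    have h2 : Nat.card D ≤ Nat.card Cb :=
      Nat.le_of_mul_le_mul_left h1 (Nat.pos_of_ne_zero Subgroup.index_ne_zero_of_finite)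
    have h3 : Cb = D := Subgroup.eq_of_le_of_card_ge hle h2
    intro x hx
    have : (x : G ⧸ N) ∈ Cb := by
      rw [h3]
      show β (x : G ⧸ N) = x
      rw [hβ]
      exact (QuotientGroup.eq.mpr hx).symm
    obtain ⟨c, hc, hcx⟩ := this
    exact ⟨c, hc, QuotientGroup.eq.mp hcx⟩

end Cfsg.Agent.S4154
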