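import Cfsg.Statements.S4155
import Cfsg.Agent.FGS.EqOrder

set_option autoImplicit false
open Cfsg

namespace Cfsg.Agent.S4155

/-- Let G be a finite group and N a proper non-trivial normal nilpotent subgroup whose order is not a prime power, such that for every x outside N all elements of the coset xN have the same order as x. Then N is the Fitting subgroup of G, and for every prime q every Sylow q-subgroup of G/N is cyclic or generalized quaternion. -/
theorem result {G : Type*} [Group G] [Finite G] (N : Subgroup G) [N.Normal] (hN1 : N ≠ ⊥) (hN2 : N ≠ ⊤)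
    (heq : ∀ x : G, x ∉ N → ∀ n ∈ N, orderOf (x * n) = orderOf x)
    (hnil : Group.IsNilpotent N) (hnpp : ¬ IsPrimePow (Nat.card N)) :
    N = Cfsg.fittingSubgroup G ∧
    ∀ (q : ℕ) [Fact q.Prime] (Q : Sylow q (G ⧸ N)), IsCyclic (Q : Subgroup (G ⧸ N)) ∨ ∃ n : ℕ, Nonempty ((Q : Subgroup (G ⧸ N)) ≃* QuaternionGroup (2 ^ n)) := by
  refine ⟨by_contra fun h => ?_, fun q _ Q => ?_⟩
  · obtain ⟨q, hq, h1⟩ := CL.EqOrd.isPrimePow_of_lt heq hN1
      (lt_of_le_of_ne (CL.le_fittingSubgroup hnil) h)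
    have := Fact.mk hq
    exact hnpp (CL.EqOrd.isPrimePow_card (h1.to_le (CL.le_fittingSubgroup hnil)) hN1)
  obtain ⟨K, hK, h1, h2, h3⟩ := CL.EqOrd.exists_of_isNilpotent (p := q) hnil
    fun h => hnpp (CL.EqOrd.isPrimePow_card h hN1)
  obtain ⟨T, hT, ⟨e⟩, h4⟩ := CL.EqOrd.exists_fpf heq K h1 h2 Q Q.isPGroup'
  have := (‹N.Normal›.map _ (QuotientGroup.mk'_surjective K))
  rcases CL.Frob.isCyclic_or_quaternion hT (mt (CL.map_mk'_eq_bot_iff _ _).1 h3)
    (by rw [Subgroup.normalizer_eq_top]; exact le_top) h4 with h | ⟨-, n, ⟨f⟩⟩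
  · exact Or.inl (isCyclic_of_surjective e e.surjective)
  · exact Or.inr ⟨n + 1, ⟨e.symm.trans f⟩⟩

end Cfsg.Agent.S4155
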