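import Cfsg.Statements.S4156

set_option autoImplicit false
open Cfsg

namespace Cfsg.Agent.S4156

open Equiv

/-- the action on functions modulo constants -/
def T (n : ℕ) (F : Type*) [Field F] : Perm (Fin (n + 1)) →* Module.End F (Fin n → F) where
  toFun g :=
    { toFun := fun f i => (Fin.cons 0 f : Fin (n + 1) → F) (g⁻¹ i.succ) -
        (Fin.cons 0 f : Fin (n + 1) → F) (g⁻¹ 0)
      map_add' := fun f h => by
        have : ∀ a, (Fin.cons 0 (f + h) : Fin (n + 1) → F) a =
            (Fin.cons 0 f : Fin (n + 1) → F) a + (Fin.cons 0 h : Fin (n + 1) → F) a := fun a => by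
          refine Fin.cases ?_ (fun _ => ?_) a <;> simp
        ext i; simp only [this, Pi.add_apply]; ring
      map_smul' := fun c f => by
        have : ∀ a, (Fin.cons 0 (c • f) : Fin (n + 1) → F) a =
            c * (Fin.cons 0 f : Fin (n + 1) → F) a := fun a => by
          refine Fin.cases ?_ (fun _ => ?_) a <;> simp
        ext i; simp only [this, Pi.smul_apply, smul_eq_mul, RingHom.id_apply]; ring }
  map_one' := by ext f i; simp
  map_mul' g h := by
    refine LinearMap.ext fun f => funext fun i => ?_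
    have : ∀ a, (Fin.cons 0 (fun i : Fin n => (Fin.cons 0 f : Fin (n + 1) → F) (h⁻¹ i.succ) -
        (Fin.cons 0 f : Fin (n + 1) → F) (h⁻¹ 0)) : Fin (n + 1) → F) a =
        (Fin.cons 0 f : Fin (n + 1) → F) (h⁻¹ a) - (Fin.cons 0 f : Fin (n + 1) → F) (h⁻¹ 0) :=
      fun a => by refine Fin.cases ?_ (fun _ => ?_) a <;> simp
    simp only [Module.End.mul_apply, LinearMap.coe_mk, AddHom.coe_mk, this, mul_inv_rev,
      Perm.mul_apply]
    ring


/-- Let n ≥ 5 and F a finite field. Then the projective special linear group PSL_n(F) contains a subgroup isomorphic to the alternating group of degree n + 1. -/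
theorem result (n : ℕ) (hn : 5 ≤ n) (F : Type*) [Field F] [Finite F] :
    ∃ f : alternatingGroup (Fin (n + 1)) →* Matrix.ProjectiveSpecialLinearGroup (Fin n) F, Function.Injective f := by
  have hs : IsSimpleGroup (alternatingGroup (Fin (n + 1))) :=
    alternatingGroup.isSimpleGroup (by simp; omega)
  have hp : ∀ {C : Type _} [Group C] (φ : alternatingGroup (Fin (n + 1)) →* C),
      (∀ a b, φ a * φ b = φ b * φ a) → ∀ a, φ a = 1 := by
    intro C _ φ h a
    rcases hs.eq_bot_or_eq_top_of_normal φ.ker inferInstance with h1 | h1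
    · have h2 := alternatingGroup.center_eq_bot (α := Fin (n + 1)) (by simp; omega)
      have : a ∈ Subgroup.center _ := Subgroup.mem_center_iff.2 fun b =>
        (MonoidHom.ker_eq_bot_iff φ).1 h1 (by rw [map_mul, map_mul, h])
      rw [h2, Subgroup.mem_bot] at this
      rw [this, map_one]
    · exact (h1 ▸ Subgroup.mem_top a : a ∈ φ.ker)
  let M : alternatingGroup (Fin (n + 1)) →* Matrix (Fin n) (Fin n) F :=
    ((LinearMap.toMatrixAlgEquiv' : _ ≃ₐ[F] Matrix (Fin n) (Fin n) F) : _ →* _).comp
      ((T n F).comp (alternatingGroup (Fin (n + 1))).subtype)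
  have hd : ∀ g, (M g).det = 1 := fun g =>
    congrArg Units.val (hp (Matrix.detMonoidHom.comp M).toHomUnits (fun a b => mul_comm _ _) g)
  let S : alternatingGroup (Fin (n + 1)) →* Matrix.SpecialLinearGroup (Fin n) F :=
    { toFun := fun g => ⟨M g, hd g⟩
      map_one' := Subtype.ext (map_one M)
      map_mul' := fun a b => Subtype.ext (map_mul M a b) }
  refine ⟨(QuotientGroup.mk' _).comp S, (MonoidHom.ker_eq_bot_iff _).1
    ((hs.eq_bot_or_eq_top_of_normal _ inferInstance).resolve_right fun h => ?_)⟩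
  have h1 := hp S fun a b => Subgroup.mem_center_iff.1 ((QuotientGroup.eq_one_iff _).1
    (h ▸ Subgroup.mem_top b : b ∈ ((QuotientGroup.mk' _).comp S).ker)) (S a)
  obtain ⟨i, j, k, -, -, -, hij, hik, hjk⟩ :=
    (Finset.two_lt_card_iff (s := (Finset.univ : Finset (Fin n)))).1 (by simp; omega)
  let g : alternatingGroup (Fin (n + 1)) := ⟨(swap i.succ j.succ * swap i.succ k.succ)⁻¹, inv_mem (by
    simp [Perm.mem_alternatingGroup, hij, hik])⟩
  have h2 : T n F g = 1 := (map_eq_one_iff _ LinearMap.toMatrixAlgEquiv'.injective).1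
    (congrArg Subtype.val (h1 g))
  have h3 := congrFun (DFunLike.congr_fun h2 (Pi.single i 1)) i
  have e1 : (swap i.succ j.succ * swap i.succ k.succ : Perm (Fin (n + 1))) i.succ = k.succ := by
    rw [Perm.mul_apply, swap_apply_left, swap_apply_of_ne_of_ne] <;> simp [hik.symm, hjk.symm]
  have e2 : (swap i.succ j.succ * swap i.succ k.succ : Perm (Fin (n + 1))) 0 = 0 := by
    rw [Perm.mul_apply, swap_apply_of_ne_of_ne (x := 0), swap_apply_of_ne_of_ne] <;>
      exact (Fin.succ_ne_zero _).symm
  simp only [T, g, MonoidHom.coe_mk, OneHom.coe_mk, LinearMap.coe_mk, AddHom.coe_mk, inv_inv,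
    e1, e2, Fin.cons_succ, Fin.cons_zero] at h3
  rw [Pi.single_eq_of_ne hik.symm] at h3
  simp at h3

end Cfsg.Agent.S4156
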