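import Cfsg.Statements.S4161
import Mathlib
import Cfsg.Agent.FGS.ClassSizeCount

set_option autoImplicit false
open Cfsg

namespace Cfsg.Agent.S4161

open Subgroup CL CL.CS
open scoped commutatorElement

variable {X : Type*} [Group X] [Finite X] {p q : ℕ} [hp : Fact p.Prime] [hq : Fact q.Prime]

/-- If all elements of a normal subgroup containing a Sylow subgroup of a `p`-nilpotent group have
`p'`-class size, so have all elements. -/
theorem all_of_normal (h : HasNormalPComplement p X) (N : Subgroup X) [N.Normal] (P : Sylow p X)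
    (hP : (P : Subgroup X) ≤ N) (hN : ∀ x ∈ N, ¬ p ∣ (𝐂[x]).index) (x : X) :
    ¬ p ∣ (𝐂[x]).index := by
  have c : N ≤ centralizer ((P : Subgroup X) : Set X) := fun n hn => mem_centralizer_iff.2 fun a ha => by
    have := sylow_le_center_of_forall_not_dvd (G := N)
      (fun y hy => hN y y.2 (hy.trans (index_cen_normal_dvd y))) (P.subtype hP)
      (show (⟨a, hP ha⟩ : N) ∈ (P.subtype hP : Subgroup N) from ha)
    exact (congrArg Subtype.val (mem_center_iff.1 this ⟨n, hn⟩)).symm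
  have n : normalizer ((P : Subgroup X) : Set X) = ⊤ := by
    rw [eq_top_iff, ← P.normalizer_sup_eq_top' hP]
    exact sup_le le_rfl (c.trans (centralizer_le_normalizer _))
  have t : ⊤ ≤ centralizer ((P : Subgroup X) : Set X) := by
    rw [← pResidual_sup_sylow P]
    exact sup_le (fun g hg => mem_centralizer_of_hasNPC h P.isPGroup' (n ▸ mem_top g)
      (hasNPC_iff_forall_mem_pResidual.1 h g hg)) (hP.trans c)
  exact not_dvd_index_cen_of_sylow_le_center (P := P) (fun a ha => mem_center_iff.2 fun g =>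
    (mem_centralizer_iff.1 (t (mem_top g)) a ha).symm) x

omit [Finite X] in
theorem cop_of_pow (hpq : p ≠ q) {a : X} {k : ℕ} (ha : a ^ p ^ k = 1) : (orderOf a).Coprime q :=
  (((Nat.coprime_primes hp.out hq.out).2 hpq).pow_left k).coprime_dvd_left
    (orderOf_dvd_of_pow_eq_one ha)

theorem conj_mem (P : Sylow p X) {a : X} {k : ℕ} (ha : a ^ p ^ k = 1) :
    ∃ g : X, g * a * g⁻¹ ∈ (P : Subgroup X) := by
  have : IsPGroup p (zpowers a) := fun ⟨_, n, rfl⟩ =>
    ⟨k, Subtype.ext (by simp only [SubgroupClass.coe_pow, OneMemClass.coe_one]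
                        rw [← zpow_natCast, ← zpow_mul, mul_comm, zpow_mul, zpow_natCast, ha, one_zpow])⟩
  obtain ⟨Q, hQ⟩ := this.exists_le_sylow
  obtain ⟨g, rfl⟩ := MulAction.exists_smul_eq X Q P
  exact ⟨g, smul_mem_pointwise_smul a (MulAut.conj g) _ (hQ (mem_zpowers a))⟩

omit [Finite X] hp in
theorem pow_of_mem (P : Sylow p X) {a : X} (ha : a ∈ (P : Subgroup X)) : ∃ k, a ^ p ^ k = 1 :=
  let ⟨k, hk⟩ := P.isPGroup' ⟨a, ha⟩; ⟨k, congrArg Subtype.val hk⟩

/-- the class size of a `p`-element divides a class size divisible by `q` -/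
theorem step (hpq : p ≠ q) (h1 : HasNormalPComplement p X) (h2 : HasNormalPComplement q X)
    (hn : ∀ x : X, ¬ p ∣ (𝐂[x]).index ∨ ¬ q ∣ (𝐂[x]).index) (v : ∃ x : X, q ∣ (𝐂[x]).index)
    {a : X} {k : ℕ} (ha : a ^ p ^ k = 1) :
    ∃ w : X, q ∣ (𝐂[w]).index ∧ (𝐂[a]).index ∣ (𝐂[w]).index := by
  obtain ⟨Q⟩ : Nonempty (Sylow q X) := inferInstance
  obtain ⟨y, yK, hy⟩ : ∃ y ∈ pResidual p X, q ∣ (𝐂[y]).index := by
    by_contra! c
    obtain ⟨x, hx⟩ := v
    refine all_of_normal h2 _ Q (fun b hb => ?_) c x hx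
    obtain ⟨k, hk⟩ := pow_of_mem Q hb
    exact mem_pResidual_of_coprime (cop_of_pow hpq.symm hk)
  obtain ⟨P, hP⟩ := exists_sylow_le_of_not_dvd_index ((hn y).resolve_right (not_not.2 hy))
  obtain ⟨g, hg⟩ := conj_mem P ha
  have c : Commute (g * a * g⁻¹) y := mem_cen.1 (hP hg)
  have o : (orderOf (g * a * g⁻¹)).Coprime (orderOf y) := by
    obtain ⟨j, hj⟩ := pow_of_mem P hg
    exact ((hasNPC_iff_forall_mem_pResidual.1 h1 y yK).symm.pow_left j).coprime_dvd_left
      (orderOf_dvd_of_pow_eq_one hj)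
  exact ⟨_, hy.trans (index_cen_dvd_mul_right c o), index_cen_conj g a ▸ index_cen_dvd_mul_left c o⟩

omit [Finite X] hp in
theorem nrm : (centralizer {b : X | ∃ k, b ^ p ^ k = 1}).Normal :=
  ⟨fun n hn g => mem_centralizer_iff.2 fun b ⟨k, hk⟩ => by
    have := mem_centralizer_iff.1 hn (g⁻¹ * b * g⁻¹⁻¹) ⟨k, by rw [conj_pow, hk]; simp⟩
    calc b * (g * n * g⁻¹) = g * (g⁻¹ * b * g⁻¹⁻¹ * n) * g⁻¹ := by group
      _ = g * n * g⁻¹ * b := by rw [this]; group⟩

omit hq in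
theorem fin (h1 : HasNormalPComplement p X) (v : ∃ x : X, p ∣ (𝐂[x]).index)
    (c : ∀ a b : X, (∃ k, a ^ p ^ k = 1) → (∃ k, b ^ q ^ k = 1) → Commute a b) :
    ∃ x : X, p ∣ (𝐂[x]).index ∧ ∀ Q : Sylow q X, (Q : Subgroup X) ≤ 𝐂[x] := by
  obtain ⟨P⟩ : Nonempty (Sylow p X) := inferInstance
  have := nrm (X := X) (p := q)
  obtain ⟨x, hx, d⟩ : ∃ x ∈ centralizer {b : X | ∃ k, b ^ q ^ k = 1}, p ∣ (𝐂[x]).index := by
    by_contra! e
    obtain ⟨x, hx⟩ := v
    exact all_of_normal h1 (centralizer {b : X | ∃ k, b ^ q ^ k = 1}) P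
      (fun a ha => mem_centralizer_iff.2 fun b hb =>
      (c a b (pow_of_mem P ha) hb).symm) e x hx
  exact ⟨x, d, fun Q b hb => mem_cen.2 (mem_centralizer_iff.1 hx b (pow_of_mem Q hb))⟩

theorem both (hpq : p ≠ q) (h1 : HasNormalPComplement p X) (h2 : HasNormalPComplement q X)
    (v1 : ∃ x : X, p ∣ (𝐂[x]).index) (v2 : ∃ x : X, q ∣ (𝐂[x]).index)
    (H : ∀ x y : X, p ∣ (𝐂[x]).index → q ∣ (𝐂[y]).index → (𝐂[x]).index.Coprime (𝐂[y]).index) :
    False := by
  have hn : ∀ x : X, ¬ p ∣ (𝐂[x]).index ∨ ¬ q ∣ (𝐂[x]).index := fun x => by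
    by_contra! c
    have := H x x c.1 c.2
    rw [Nat.coprime_self] at this
    exact hp.out.one_lt.ne' (Nat.dvd_one.1 (this ▸ c.1))
  obtain ⟨Q⟩ : Nonempty (Sylow q X) := inferInstance
  have QK : (Q : Subgroup X) ≤ pResidual p X := fun b hb =>
    let ⟨_, hk⟩ := pow_of_mem Q hb; mem_pResidual_of_coprime (cop_of_pow hpq.symm hk)
  obtain ⟨P, hP⟩ : ∃ P : Sylow p X, (P : Subgroup X) ≤ normalizer ((Q : Subgroup X) : Set X) := by
    refine exists_sylow_le_of_not_dvd_index fun d => hasNPC_iff_not_dvd_card_pResidual.1 h1 ?_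
    rw [← relIndex_eq_index_of_forall_exists_mul (pResidual p X) _ fun g => by
      have : g ∈ pResidual p X ⊔ normalizer ((Q : Subgroup X) : Set X) := by
        rw [sup_comm]; exact (Q.normalizer_sup_eq_top' QK).ge (mem_top g)
      obtain ⟨a, ha, b, hb, e⟩ := mem_sup_of_normal_left.1 this
      exact ⟨a, ha, b, hb, e.symm⟩] at d
    exact d.trans (relIndex_dvd_card _ _)
  have c : ∀ a b : X, (∃ k, a ^ p ^ k = 1) → (∃ k, b ^ q ^ k = 1) → Commute a b := by
    rintro a b ⟨k, ha⟩ ⟨j, hb⟩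
    obtain ⟨w, w1, w2⟩ := step hpq h1 h2 hn v2 ha
    obtain ⟨u, u1, u2⟩ := step hpq.symm h2 h1 (fun x => (hn x).symm) v1 hb
    have co := ((H u w u1 w1).coprime_dvd_left u2).coprime_dvd_right w2
    obtain ⟨g, hg⟩ := conj_mem P ha
    obtain ⟨g', hg'⟩ := conj_mem Q hb
    obtain ⟨i, hi⟩ := pow_of_mem P hg
    have e := mem_centralizer_iff.1
      (mem_centralizer_of_hasNPC h2 Q.isPGroup' (hP hg) (cop_of_pow hpq hi)) _ hg'
    obtain ⟨s, hs, t, ht, e'⟩ := exists_mul_eq_of_coprime_index _ _ co.symm (g⁻¹ * g')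
    have e1 : g' = g * s * t := by rw [mul_assoc, ← e']; group
    have e2 : t * b * t⁻¹ = b := by rw [(mem_cen.1 ht).eq]; group
    have e3 : s⁻¹ * a * s = a := by rw [mul_assoc, ← (mem_cen.1 hs).eq]; group
    calc a * b = s⁻¹ * a * s * (t * b * t⁻¹) := by rw [e2, e3]
      _ = s⁻¹ * g⁻¹ * (g * a * g⁻¹ * (g' * b * g'⁻¹)) * g * s := by rw [e1]; group
      _ = t * b * t⁻¹ * (s⁻¹ * a * s) := by rw [← e, e1]; group
      _ = b * a := by rw [e2, e3]
  obtain ⟨x, x1, x2⟩ := fin h1 v1 c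
  obtain ⟨y, y1, y2⟩ := fin h2 v2 fun a b ha hb => (c b a hb ha).symm
  rcases hn (x * y) with d | d
  · obtain ⟨R, hR⟩ := exists_sylow_le_of_not_dvd_index d
    refine not_dvd_index_of_sylow_le (P := R) (fun a ha => mem_cen.2 ?_) x1
    simpa using (mem_cen.1 (hR ha)).mul_right (mem_cen.1 (y2 R ha)).inv_right
  · obtain ⟨R, hR⟩ := exists_sylow_le_of_not_dvd_index d
    refine not_dvd_index_of_sylow_le (P := R) (fun a ha => mem_cen.2 ?_) y1
    simpa using (mem_cen.1 (x2 R ha)).inv_right.mul_right (mem_cen.1 (hR ha))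

theorem perf {D : Subgroup X} [D.Normal] (hD : ⁅D, D⁆ = D) (h0 : D ≠ ⊥)
    (h : ∀ x : X, p ∣ (𝐂[x]).index → D ≤ 𝐂[x]) (x : X) : ¬ p ∣ (𝐂[x]).index := fun hx => by
  have c : ∀ P : Sylow p X, D ≤ centralizer ((P : Subgroup X) : Set X) := fun P => by
    have t : centralizer ((P : Subgroup X) : Set X) ⊔ centralizer (D : Set X) = ⊤ :=
      eq_top_of_forall_exists_conj_mem fun y => by
        by_cases d : p ∣ (𝐂[y]).index
        · exact ⟨1, mem_sup_right (by simpa using le_cen_iff.1 (h y d))⟩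
        · exact let ⟨g, hg⟩ := exists_conj_mem_centralizer_sylow d P; ⟨g, mem_sup_left hg⟩
    have k : ⁅⁅(P : Subgroup X), D⁆, D⁆ = ⊥ := by
      rw [commutator_eq_bot_iff_le_centralizer, commutator_le]
      intro a ha d _
      obtain ⟨s, hs, z, hz, rfl⟩ := mem_sup_of_normal_right.1 (t ▸ mem_top d)
      have e : ⁅a, s * z⁆ = s * (a * z * a⁻¹ * z⁻¹) * s⁻¹ := by
        rw [commutatorElement_def, ← mul_assoc a, mem_centralizer_iff.1 hs a ha]; group
      rw [e]
      exact Normal.conj_mem inferInstance _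
        (mul_mem (Normal.conj_mem inferInstance _ hz a) (inv_mem hz)) s
    rw [← commutator_eq_bot_iff_le_centralizer, ← hD]
    exact commutator_commutator_eq_bot_of_rotate (by rwa [commutator_comm D]) k
  obtain ⟨y, yD, hy⟩ : ∃ y ∈ D, y ∉ centralizer (D : Set X) := by
    by_contra! e
    exact h0 (hD ▸ commutator_eq_bot_iff_le_centralizer.2 e)
  have d : ¬ p ∣ (𝐂[x * y]).index := fun d => hy (by
    simpa using mul_mem (inv_mem (le_cen_iff.1 (h x hx))) (le_cen_iff.1 (h _ d)))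
  obtain ⟨R, hR⟩ := exists_sylow_le_of_not_dvd_index d
  refine not_dvd_index_of_sylow_le (P := R) (fun a ha => mem_cen.2 ?_) hx
  have : Commute a y := mem_centralizer_iff.1 (c R yD) a ha
  simpa using (mem_cen.1 (hR ha)).mul_right this.inv_right

theorem not_npc {D : Subgroup X} (hD : ⁅D, D⁆ = D) (h : p ∣ Nat.card D) :
    ¬ HasNormalPComplement p X := fun n => by
  have := (isPGroup_quotient_pResidual (G := X) (p := p)).isNilpotent
  have e : D.map (QuotientGroup.mk' (pResidual p X)) = ⊥ := by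
    by_contra e
    have := Group.IsSolvable.commutator_lt_of_ne_bot e
    rw [← map_commutator, hD] at this
    exact this.ne rfl
  rw [Subgroup.map_eq_bot_iff, QuotientGroup.ker_mk'] at e
  exact hasNPC_iff_not_dvd_card_pResidual.1 n (h.trans (card_dvd_of_le e))

theorem half {D : Subgroup X} [D.Normal] (hD : ⁅D, D⁆ = D) (h0 : D ≠ ⊥) (hpq : p ≠ q)
    (v : ∃ x : X, p ∣ (𝐂[x]).index) (h1 : ∀ x : X, ¬ p * q ∣ (𝐂[x]).index)
    (h2 : ∀ r : ℕ, r.Prime → r ≠ p → r ≠ q → ∀ x : X, p * r ∣ (𝐂[x]).index →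
      ∀ y : X, ¬ r * q ∣ (𝐂[y]).index) : HasNormalPComplement q X := by
  by_contra n
  obtain ⟨x, hx⟩ := v
  refine perf hD h0 (fun y hy => le_cen_of_coprime_card ?_) x hx
  refine Nat.coprime_of_dvd fun r hr d1 d2 => ?_
  have := Fact.mk hr
  have nr := not_npc hD d2
  by_cases e : r = p
  · subst e
    exact (hasNPC_or_hasNPC_of_not_mul_dvd hr hq.out hpq h1).elim nr n
  have d : p * r ∣ (𝐂[y]).index :=
    ((Nat.coprime_primes hp.out hr).2 (Ne.symm e)).mul_dvd_of_dvd_of_dvd hy d1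
  have e' : r ≠ q := fun e' => h1 y (e' ▸ d)
  exact (hasNPC_or_hasNPC_of_not_mul_dvd hr hq.out e' (h2 r hr e e' y d)).elim nr n

/-- Let G be a finite non-solvable group and p ≠ q primes each dividing the size of some conjugacy class of G. Then either some class size is divisible by pq, or there is a prime r, different from p and q, such that some class size is divisible by pr and some class size is divisible by rq. -/
theorem result {G : Type*} [Group G] [Finite G] (hG : ¬ Group.IsSolvable G)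
    (p q : ℕ) (hp : p.Prime) (hq : q.Prime) (hpq : p ≠ q) (hp' : ∃ x : G, p ∣ (Subgroup.centralizer ({x} : Set G)).index) (hq' : ∃ x : G, q ∣ (Subgroup.centralizer ({x} : Set G)).index) :
    (∃ x : G, p * q ∣ (Subgroup.centralizer ({x} : Set G)).index) ∨ ∃ r : ℕ, r.Prime ∧ r ≠ p ∧ r ≠ q ∧ (∃ x : G, p * r ∣ (Subgroup.centralizer ({x} : Set G)).index) ∧ (∃ y : G, r * q ∣ (Subgroup.centralizer ({y} : Set G)).index) := by
  by_contra! c
  obtain ⟨h1, h2⟩ := c
  have := Fact.mk hp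
  have := Fact.mk hq
  obtain ⟨n, hn⟩ := WellFoundedLT.antitone_chain_condition (derivedSeries_antitone G)
  have hD : ⁅derivedSeries G n, derivedSeries G n⁆ = derivedSeries G n :=
    (hn (n + 1) (Nat.le_succ n)).symm
  have h0 : derivedSeries G n ≠ ⊥ := fun e => hG ⟨⟨n, e⟩⟩
  refine both hpq (half hD h0 hpq.symm hq' (fun x => mul_comm p q ▸ h1 x)
      fun r hr e1 e2 x hx y hy => h2 r hr e2 e1 ⟨y, mul_comm r p ▸ hy⟩ x (mul_comm q r ▸ hx))
    (half hD h0 hpq hp' h1 fun r hr e1 e2 x hx => h2 r hr e1 e2 ⟨x, hx⟩) hp' hq'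
    fun x y hx hy => Nat.coprime_of_dvd fun r hr d1 d2 => ?_
  have pq := (Nat.coprime_primes hp hq).2 hpq
  by_cases e1 : r = p
  · exact h1 y (pq.mul_dvd_of_dvd_of_dvd (e1 ▸ d2) hy)
  by_cases e2 : r = q
  · exact h1 x (pq.mul_dvd_of_dvd_of_dvd hx (e2 ▸ d1))
  exact h2 r hr e1 e2 ⟨x, ((Nat.coprime_primes hp hr).2 (Ne.symm e1)).mul_dvd_of_dvd_of_dvd hx d1⟩ y
    (((Nat.coprime_primes hr hq).2 e2).mul_dvd_of_dvd_of_dvd d2 hy)

end Cfsg.Agent.S4161
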