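import Cfsg.Statements.S4163
import Cfsg.Agent.FGS.ClassCount
import Cfsg.Agent.FGS.AbelMax

set_option autoImplicit false
open Cfsg

namespace Cfsg.Agent.S4163

open Subgroup
open scoped commutatorElement

/-- Mann's lemma: a nontrivial commutator of `x` with an element of an abelian normal subgroup
has a smaller class than `x`. -/
theorem index_commutator_lt {G : Type*} [Group G] [Finite G] (A : Subgroup G) [hn : A.Normal]
    (hA : IsMulCommutative A) {a x : G} (ha : a ∈ A) (hy : ⁅a, x⁆ ≠ 1) :
    (centralizer ({⁅a, x⁆} : Set G)).index < (centralizer ({x} : Set G)).index := by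
  set C := centralizer ({x} : Set G) with hC
  set y := ⁅a, x⁆ with hydef
  set D := centralizer ({y} : Set G) with hD
  set H := A ⊔ C with hH
  have hyA : y ∈ A := by
    have := A.mul_mem ha (hn.conj_mem _ (A.inv_mem ha) x)
    simpa [hydef, commutatorElement_def, mul_assoc] using this
  have h1 : (Set.range fun h : H => ⁅(h : G), x⁆).ncard = C.relIndex H := by
    apply CL.ncard_range_eq_index (C.subgroupOf H)
    intro a b
    rw [mem_subgroupOf, hC, CL.mem_centralizer_singleton_iff_conj]
    simp only [commutatorElement_def, mul_left_inj, coe_mul, coe_inv]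
    constructor
    · intro h
      calc _ = (a : G)⁻¹ * (b * x * (b : G)⁻¹) * a := by group
        _ = x := by rw [← h]; group
    · intro h
      calc _ = (a : G) * ((a : G)⁻¹ * b * x * ((a : G)⁻¹ * b)⁻¹) * (a : G)⁻¹ := by rw [h]
        _ = _ := by group
  have h2 : (Set.range fun h : H => (h : G) * y * (h : G)⁻¹).ncard = D.relIndex H := by
    apply CL.ncard_range_eq_index (D.subgroupOf H)
    intro a b
    rw [mem_subgroupOf, hD, CL.mem_centralizer_singleton_iff_conj]
    simp only [coe_mul, coe_inv]
    constructor
    · intro h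
      calc _ = (a : G)⁻¹ * (b * y * (b : G)⁻¹) * a := by group
        _ = y := by rw [← h]; group
    · intro h
      calc _ = (a : G) * ((a : G)⁻¹ * b * y * ((a : G)⁻¹ * b)⁻¹) * (a : G)⁻¹ := by rw [h]
        _ = _ := by group
  have h3 : (Set.range fun h : H => (h : G) * y * (h : G)⁻¹) ⊂
      Set.range fun h : H => ⁅(h : G), x⁆ := by
    constructor
    · rintro _ ⟨⟨h, hh⟩, rfl⟩
      have hh' : h ∈ ((A ⊔ C : Subgroup G) : Set G) := hh
      rw [normal_mul] at hh'
      obtain ⟨t, ht, c, hc, rfl⟩ := hh'
      have hcx : c * x * c⁻¹ = x := CL.mem_centralizer_singleton_iff_conj.mp hc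
      refine ⟨⟨c * a * c⁻¹, mem_sup_left (hn.conj_mem _ ha c)⟩, ?_⟩
      have e1 : ⁅c * a * c⁻¹, x⁆ = c * y * c⁻¹ := by
        rw [hydef, conjugate_commutatorElement, hcx]
      have e2 := CL.AbM.comm_of_mem hA ht (hn.conj_mem _ hyA c)
      simp only [e1]
      calc c * y * c⁻¹ = t * (c * y * c⁻¹) * t⁻¹ := by rw [e2]; group
        _ = _ := by group
    · intro h
      obtain ⟨g, hg⟩ := h (a := 1) ⟨1, by simp⟩
      apply hy
      simpa using hg
  have h4 := Set.ncard_lt_ncard h3 (Set.toFinite _)
  rw [h1, h2] at h4
  have h5 : C.relIndex H * H.index = C.index := relIndex_mul_index le_sup_right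
  have h6 : D.index ≤ D.relIndex H * H.index := by
    rw [← inf_relIndex_right, relIndex_mul_index inf_le_right]
    exact index_antitone inf_le_left
  have h7 : 0 < H.index := Nat.pos_of_ne_zero index_ne_zero_of_finite
  calc D.index ≤ D.relIndex H * H.index := h6
    _ < C.relIndex H * H.index := Nat.mul_lt_mul_of_pos_right h4 h7
    _ = _ := h5

/-- Let G be a finite group with a normal abelian subgroup A satisfying C_G(A) = A. Suppose some conjugacy class of G has size greater than 1, let m be the smallest such size, and let M be the subgroup generated by the elements whose class has size 1 or m. Then M is nilpotent of class at most 3. -/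
theorem result {G : Type*} [Group G] [Finite G]
    (A : Subgroup G) [A.Normal] (hA : IsMulCommutative A) (hCA : Subgroup.centralizer (A : Set G) = A)
    (m : ℕ) (hm1 : 1 < m) (hm : ∃ x : G, (Subgroup.centralizer ({x} : Set G)).index = m) (hmin : ∀ x : G, 1 < (Subgroup.centralizer ({x} : Set G)).index → m ≤ (Subgroup.centralizer ({x} : Set G)).index) :
    Subgroup.upperCentralSeries ↥(Subgroup.closure {x : G | (Subgroup.centralizer ({x} : Set G)).index = 1 ∨ (Subgroup.centralizer ({x} : Set G)).index = m}) 3 = ⊤ := by
  set M := Subgroup.closure {x : G | (Subgroup.centralizer ({x} : Set G)).index = 1 ∨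
    (Subgroup.centralizer ({x} : Set G)).index = m} with hM
  have hcen : ∀ x : G, (Subgroup.centralizer ({x} : Set G)).index = 1 → x ∈ center G := by
    intro x hx
    rw [index_eq_one] at hx
    rw [mem_center_iff]
    intro g
    exact mem_centralizer_singleton_iff.mp (hx ▸ mem_top g)
  have h1 : ⁅A, M⁆ ≤ center G := by
    have : M ≤ (centralizer ((A.map (QuotientGroup.mk' (center G)) : Subgroup _) : Set _)).comap
        (QuotientGroup.mk' (center G)) := by
      rw [hM, closure_le]
      rintro x hx _ ⟨a, ha, rfl⟩
      rw [← commutatorElement_eq_one_iff_mul_comm, ← map_commutatorElement, QuotientGroup.mk'_apply,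
        QuotientGroup.eq_one_iff]
      by_cases hy : ⁅a, x⁆ = 1
      · rw [hy]; exact one_mem _
      have h2 := index_commutator_lt A hA ha hy
      apply hcen
      have h3 : 0 < (centralizer ({⁅a, x⁆} : Set G)).index :=
        Nat.pos_of_ne_zero index_ne_zero_of_finite
      have h4 := hmin ⁅a, x⁆
      rcases hx with hx | hx <;> omega
    rw [commutator_le]
    intro a ha x hx
    have h2 := this hx _ ⟨a, ha, rfl⟩
    rwa [← commutatorElement_eq_one_iff_mul_comm, ← map_commutatorElement, QuotientGroup.mk'_apply,
        QuotientGroup.eq_one_iff] at h2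
  have h2 : ∀ K : Subgroup G, ⁅⁅A, M⁆, K⁆ = ⊥ := fun K =>
    commutator_eq_bot_iff_le_centralizer.mpr (h1.trans (center_le_centralizer _))
  have h3 : ⁅⁅M, M⁆, A⁆ = ⊥ :=
    commutator_commutator_eq_bot_of_rotate (by rw [commutator_comm M A]; exact h2 M) (h2 M)
  rw [commutator_eq_bot_iff_le_centralizer, hCA] at h3
  rw [← Subgroup.lowerCentralSeries_eq_bot_iff_upperCentralSeries_eq_top,
    ← Subgroup.map_eq_bot_iff_of_injective _ M.subtype_injective, top_subtype_lowerCentralSeries,
    eq_bot_iff, ← h2 M]
  exact commutator_mono (commutator_mono h3 le_rfl) le_rfl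

end Cfsg.Agent.S4163
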