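import Mathlib
import Cfsg.Statements.S4167
import Cfsg.Agent.SOLV.OddOrderCor
import Cfsg.Agent.FGS.SqFree

set_option autoImplicit false
open Cfsg

namespace Cfsg.Agent.S4167

/-- Let G be a finite group in which no conjugacy class has size divisible by 4. Then G is solvable. -/
theorem result {G : Type*} [Group G] [Finite G]
    (h : ∀ x : G, ¬ 4 ∣ (Subgroup.centralizer ({x} : Set G)).index) : Group.IsSolvable G := by
  refine CL.CS.isSolvable_of_hereditary
    (fun G _ _ => ∀ x : G, ¬ 4 ∣ (Subgroup.centralizer ({x} : Set G)).index) ?_ ?_ ?_ G h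
  · intro G _ _ h N _ x hx
    exact h x (hx.trans (CL.CS.index_cen_normal_dvd x))
  · intro G _ _ h N _ y hy
    obtain ⟨x, rfl⟩ := QuotientGroup.mk_surjective y
    exact h x (hy.trans (CL.CS.index_cen_mk'_dvd N x))
  · intro G _ _ _ h
    by_cases h2 : 2 ∣ Nat.card G
    · exact CL.CS.isSolvable_of_simple_of_not_sq_dvd Nat.prime_two h2 (fun r hr _ => hr.two_le) h
    · exact CL.isSolvable_of_not_two_dvd G h2

end Cfsg.Agent.S4167
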