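import Cfsg.Statements.S4169
import Cfsg.Agent.S4163
import Cfsg.Agent.SOLV.PGroupCyclicSCN

set_option autoImplicit false
open Cfsg

namespace Cfsg.Agent.S4169

/-- Let P be a finite p-group whose conjugacy classes have exactly two sizes (1 and one other value). Then P has nilpotency class at most 3. -/
theorem result {P : Type*} [Group P] [Finite P] {p : ℕ} [Fact p.Prime] (hP : IsPGroup p P)
    (m : ℕ) (hm : 1 < m) (h : ∀ x : P, (Subgroup.centralizer ({x} : Set P)).index = 1 ∨ (Subgroup.centralizer ({x} : Set P)).index = m) :
    upperCentralSeries P 3 = ⊤ := by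
  have := hP.isNilpotent
  obtain ⟨A, hA1, hA2, -, hA3⟩ := CL.PCyc.exists_selfCentralizing_ge (⊥ : Subgroup P)
  by_cases hx : ∃ x : P, (Subgroup.centralizer ({x} : Set P)).index = m
  · have h1 := Cfsg.Agent.S4163.result A hA2 hA3 m hm hx fun x hx => by
      rcases h x with h | h <;> omega
    have h2 : {x : P | (Subgroup.centralizer ({x} : Set P)).index = 1 ∨
        (Subgroup.centralizer ({x} : Set P)).index = m} = Set.univ := Set.eq_univ_of_forall h
    rw [h2, Subgroup.closure_univ,
      ← Subgroup.lowerCentralSeries_eq_bot_iff_upperCentralSeries_eq_top,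
      ← Subgroup.map_eq_bot_iff_of_injective _ (⊤ : Subgroup P).subtype_injective,
      Subgroup.top_subtype_lowerCentralSeries] at h1
    exact Subgroup.lowerCentralSeries_eq_bot_iff_upperCentralSeries_eq_top.mp h1
  · have h1 : Subgroup.upperCentralSeries P 1 = ⊤ := by
      rw [Subgroup.upperCentralSeries_one, eq_top_iff]
      intro x _
      have h2 := (h x).resolve_right fun h => hx ⟨x, h⟩
      rw [Subgroup.index_eq_one] at h2
      rw [Subgroup.mem_center_iff]
      intro g
      exact Subgroup.mem_centralizer_singleton_iff.mp (h2 ▸ Subgroup.mem_top g)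
    rw [eq_top_iff, ← h1]
    exact Subgroup.upperCentralSeries_mono P (by norm_num)

end Cfsg.Agent.S4169
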