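import Cfsg.Statements.S4170
import Cfsg.Agent.FGS.SylRat2

set_option autoImplicit false
open scoped Pointwise
open Cfsg

namespace Cfsg.Agent.S4170

/-- Let p be an odd prime and G a nontrivial group of permutations of a finite set Ω that is generated by its elements of p-power order. Then Ω has two disjoint nonempty subsets Δ₁ and Δ₂ such that the index in G of the subgroup of elements mapping Δ₁ onto Δ₁ and Δ₂ onto Δ₂ (and hence also the complement of their union onto itself) is divisible by p. -/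
theorem result {Ω : Type*} [Fintype Ω] (p : ℕ) [Fact p.Prime] (hp : p ≠ 2) (G : Subgroup (Equiv.Perm Ω)) (hG : G ≠ ⊥) (hgen : Subgroup.closure {g : G | ∃ k : ℕ, orderOf g = p ^ k} = ⊤) :
    ∃ Δ₁ Δ₂ : Set Ω, Δ₁.Nonempty ∧ Δ₂.Nonempty ∧ Disjoint Δ₁ Δ₂ ∧ p ∣ (MulAction.stabilizer G Δ₁ ⊓ MulAction.stabilizer G Δ₂).index := by
  classical
  have hpp : p.Prime := Fact.out
  obtain ⟨y, ⟨k, hk⟩, hy1⟩ : ∃ y : G, (∃ k : ℕ, orderOf y = p ^ k) ∧ y ≠ 1 := by
    by_contra h
    push Not at h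
    have h1 : (⊤ : Subgroup G) ≤ ⊥ := hgen ▸ (Subgroup.closure_le _).2 fun g hg => h g hg
    exact hG (eq_bot_iff.2 fun g hg =>
      congrArg Subtype.val (Subgroup.mem_bot.1 (h1 (Subgroup.mem_top (⟨g, hg⟩ : G)))))
  obtain ⟨c, hc⟩ : ∃ c : Ω, y • c ≠ c := by
    by_contra h
    push Not at h
    exact hy1 (Subtype.ext (Equiv.ext h))
  have h3 : ∃ k, (y ^ p ^ k) • c = c := ⟨k, by rw [← hk, pow_orderOf_eq_one, one_smul]⟩
  have h4 := Nat.find_spec h3
  obtain ⟨j, hj⟩ := Nat.exists_eq_succ_of_ne_zero (n := Nat.find h3)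
    fun h => hc (by simpa [h] using h4)
  have hx1 : (y ^ p ^ j) • c ≠ c := Nat.find_min h3 (by omega)
  have hx2 : ((y ^ p ^ j) ^ p) • c = c := by
    rwa [← pow_mul, ← pow_succ, ← Nat.succ_eq_add_one, ← hj]
  have hxp : IsPGroup p (Subgroup.zpowers (y ^ p ^ j)) :=
    CL.MSS.isPGroup_zpowers (k := k) (by
      rw [← pow_mul, mul_comm, pow_mul, ← hk, pow_orderOf_eq_one, one_pow])
  set x := y ^ p ^ j
  let D : Finset Ω := ((Finset.range p).image fun i => (x ^ i) • c).erase c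
  have hD : D.card < p := by
    refine (Finset.card_erase_lt_of_mem ?_).trans_le
      (Finset.card_image_le.trans (Finset.card_range p).le)
    exact Finset.mem_image.2 ⟨0, Finset.mem_range.2 hpp.pos, by simp⟩
  refine ⟨{c}, D, Set.singleton_nonempty c, ⟨x • c, Finset.mem_erase.2 ⟨hx1,
    Finset.mem_image.2 ⟨1, Finset.mem_range.2 hpp.one_lt, by simp⟩⟩⟩,
    Set.disjoint_singleton_left.2 (Finset.notMem_erase c _), ?_⟩
  by_contra hcon
  obtain ⟨R, hR⟩ := CL.MSS.exists_sylIn p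
    (MulAction.stabilizer G ({c} : Set Ω) ⊓ MulAction.stabilizer G (D : Set Ω))
  obtain ⟨P, rfl⟩ := CL.MSS.sylIn_top_iff.1 (CL.MSS.sylIn_of_not_dvd_relIndex hR.pgroup le_top (by
    rw [Subgroup.relIndex_top_right, ← Subgroup.relIndex_mul_index hR.le]
    exact fun h => (hpp.dvd_mul.1 h).elim hR.not_dvd_relIndex hcon))
  have h1 : (P : Subgroup G) ≤ ⨅ i : ℕ, MulAction.stabilizer G ((x ^ i) • c) := le_iInf fun i => by
    have h5 : (x ^ i) • c = (x ^ (i % p)) • c := by
      conv_lhs => rw [← Nat.mod_add_div i p, pow_add, pow_mul, mul_smul]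
      rw [MulAction.mem_stabilizer_iff.1 (pow_mem (MulAction.mem_stabilizer_iff.2 hx2) _)]
    by_cases h6 : (x ^ i) • c = c
    · rw [h6, ← MulAction.stabilizer_singleton]
      exact hR.le.trans inf_le_left
    · by_contra h7
      refine hD.not_ge ((CL.SylRat.le_card_orb P.isPGroup' h7).trans
        (Finset.card_le_card fun b hb => ?_))
      obtain ⟨u, hu, rfl⟩ := CL.SylRat.mem_orb.1 hb
      have h8 : (x ^ i) • c ∈ (D : Set Ω) := Finset.mem_erase.2 ⟨h6,
        Finset.mem_image.2 ⟨i % p, Finset.mem_range.2 (Nat.mod_lt i hpp.pos), h5.symm⟩⟩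
      have h9 := Set.smul_mem_smul_set (a := u) h8
      rwa [MulAction.mem_stabilizer_iff.1 (hR.le hu).2] at h9
  have h2 : x⁻¹ ∈ Subgroup.normalizer
      ((⨅ i : ℕ, MulAction.stabilizer G ((x ^ i) • c) : Subgroup G) : Set G) :=
    CL.MSS.mem_normalizer_of_cj_le (le_iInf fun i => by
      rw [← CL.MSS.le_cj_iff, ← CL.SylRat.stabilizer_smul', ← mul_smul, ← pow_succ']
      exact iInf_le (fun i : ℕ => MulAction.stabilizer G ((x ^ i) • c)) _)
  have h5 := CL.SylRat.le_of_le_normalizer (CL.SylRat.nu_pos_iff.2 ⟨P, h1⟩) hxp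
    (Subgroup.zpowers_le.2 (inv_mem_iff.1 h2)) (Subgroup.mem_zpowers x)
  have h6 := iInf_le (fun i : ℕ => MulAction.stabilizer G ((x ^ i) • c)) 0 h5
  rw [pow_zero, one_smul] at h6
  exact hx1 h6

end Cfsg.Agent.S4170
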