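import Cfsg.Statements.S4176
import Cfsg.Agent.SOLV.PSolvable
import Cfsg.Agent.FGS.CoprimeIndex

set_option autoImplicit false
open Cfsg

namespace Cfsg.Agent.S4176

section
variable {k V H : Type*} [Field k] [AddCommGroup V] [Module k V] [Group H] [Finite H]
  (ρ : Representation k H V)

noncomputable def av (S : Subgroup H) : V →ₗ[k] V :=
  (Nat.card S : k)⁻¹ • ∑ s ∈ (Set.toFinite (Set.univ : Set S)).toFinset, ρ s

theorem av_eq (S : Subgroup H) [Fintype S] (v : V) :
    av ρ S v = (Nat.card S : k)⁻¹ • ∑ s : S, ρ s v := by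
  simp [av]

theorem av_of_fixed (S : Subgroup H) (hS : (Nat.card S : k) ≠ 0) {v : V}
    (hv : ∀ s ∈ S, ρ s v = v) : av ρ S v = v := by
  have := Fintype.ofFinite S
  rw [av_eq, Finset.sum_congr rfl (g := fun _ => v) (fun (s : S) _ => hv s s.2), Finset.sum_const,
    Finset.card_univ, ← Nat.cast_smul_eq_nsmul k, ← Nat.card_eq_fintype_card, smul_smul,
    inv_mul_cancel₀ hS, one_smul]

theorem apply_av (S : Subgroup H) {s : H} (hs : s ∈ S) (v : V) : ρ s (av ρ S v) = av ρ S v := by
  have := Fintype.ofFinite S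
  rw [av_eq, map_smul, map_sum]
  congr 1
  simp only [← Module.End.mul_apply, ← map_mul]
  exact Equiv.sum_comp (Equiv.mulLeft (⟨s, hs⟩ : S)) (fun x : S => ρ x v)

theorem av_apply (S : Subgroup H) {s : H} (hs : s ∈ S) (v : V) : av ρ S (ρ s v) = av ρ S v := by
  have := Fintype.ofFinite S
  rw [av_eq, av_eq]
  congr 1
  simp only [← Module.End.mul_apply, ← map_mul]
  exact Equiv.sum_comp (Equiv.mulRight (⟨s, hs⟩ : S)) (fun x : S => ρ x v)

theorem av_comm (S : Subgroup H) [hS : S.Normal] (g : H) (v : V) :
    av ρ S (ρ g v) = ρ g (av ρ S v) := by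
  have := Fintype.ofFinite S
  rw [av_eq, av_eq, map_smul, map_sum]
  congr 1
  simp only [← Module.End.mul_apply, ← map_mul]
  rw [← Equiv.sum_comp (MulAut.conjNormal (H := S) g).toEquiv]
  simp

theorem fixed_of_coprime (N A B : Subgroup H) [N.Normal] (hN : (Nat.card N : k) ≠ 0)
    (hAB : A.index.Coprime B.index) (a b : V) (ha : ∀ x ∈ A, ρ x a = a) (hb : ∀ x ∈ B, ρ x b = b)
    (hspan : Submodule.span k (Set.range fun h => ρ h a) = ⊤) : ∀ x ∈ N, ρ x b = b := by
  have := Fintype.ofFinite N
  have hB : (Nat.card ↥(N ⊓ B) : k) ≠ 0 := by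
    obtain ⟨c, hc⟩ := Subgroup.card_dvd_of_le (inf_le_left : N ⊓ B ≤ N)
    rw [hc, Nat.cast_mul] at hN
    exact left_ne_zero_of_mul hN
  have key : ∀ v, av ρ (N ⊓ B) v = av ρ (N ⊓ B) (av ρ N v) := by
    intro v
    have hv : v ∈ Submodule.span k (Set.range fun h => ρ h a) := hspan ▸ Submodule.mem_top
    induction hv using Submodule.span_induction with
    | mem v hv =>
      obtain ⟨g, rfl⟩ := hv
      have h1 : ∀ n : N, av ρ (N ⊓ B) (ρ n (ρ g a)) = av ρ (N ⊓ B) (ρ g a) := by
        intro n
        have hc : (B.subgroupOf N).index.Coprime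
            ((A.map (MulAut.conj g).toMonoidHom).subgroupOf N).index := by
          refine Nat.Coprime.coprime_dvd_left (CL.relIndex_normal_dvd_index B N)
            (Nat.Coprime.coprime_dvd_right (CL.relIndex_normal_dvd_index _ N) ?_)
          rw [Subgroup.index_map_of_bijective (MulAut.conj g).bijective]
          exact hAB.symm
        obtain ⟨β, hβ, α, hα, rfl⟩ := CL.exists_mul_eq_of_coprime_index _ _ hc n
        obtain ⟨α', hα', e⟩ := hα
        have e' : (α : H) = g * α' * g⁻¹ := e.symm
        have : ρ (α : H) (ρ g a) = ρ g a := by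
          rw [e', ← Module.End.mul_apply, ← map_mul, inv_mul_cancel_right, map_mul,
            Module.End.mul_apply, ha α' hα']
        rw [Subgroup.coe_mul, map_mul, Module.End.mul_apply, this,
          av_apply ρ (N ⊓ B) (Subgroup.mem_inf.mpr ⟨β.2, hβ⟩)]
      rw [av_eq ρ N, map_smul, map_sum, Finset.sum_congr rfl fun n _ => h1 n, Finset.sum_const,
        Finset.card_univ, ← Nat.cast_smul_eq_nsmul k, ← Nat.card_eq_fintype_card, smul_smul,
        inv_mul_cancel₀ hN, one_smul]
    | zero => simp
    | add x y _ _ hx hy => rw [map_add, map_add, map_add, ← hx, ← hy]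
    | smul c x _ hx => rw [map_smul, map_smul, map_smul, ← hx]
  have h2 : b = av ρ N b := by
    have h3 := key b
    rwa [av_of_fixed ρ _ hB (fun s hs => hb s hs.2),
      av_of_fixed ρ _ hB (fun s hs => apply_av ρ N hs.1 b)] at h3
  intro x hx
  rw [h2, apply_av ρ N hx]
end

universe u v w in
theorem main {k : Type w} [Field k] (p : ℕ) [Fact p.Prime] [CharP k p] (n : ℕ) :
    ∀ {H : Type u} [Group H] [Finite H] {V : Type v} [AddCommGroup V] [Module k V]
      (ρ : Representation k H V) (a : V) (A : Subgroup H), Nat.card H = n →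
      Cfsg.IsPSolvable p H → (∀ x ∈ A, ρ x a = a) → ¬ p ∣ A.index →
      Submodule.span k (Set.range fun h => ρ h a) = ⊤ →
      (∃ c : V, ρ.invariants ≤ Submodule.span k {c}) ∧
        ∀ (b : V) (B : Subgroup H), (∀ x ∈ B, ρ x b = b) → A.index.Coprime B.index →
          ∀ h, ρ h b = b := by
  induction n using Nat.strong_induction_on with
  | _ n ih =>
  intro H _ _ V _ _ ρ a A hn hsol ha hp hspan
  rcases subsingleton_or_nontrivial H with hH | hH
  · refine ⟨⟨a, ?_⟩, fun b _ _ _ h => by rw [Subsingleton.elim h 1]; simp⟩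
    refine le_top.trans (hspan.ge.trans (Submodule.span_mono ?_))
    rintro _ ⟨h, rfl⟩
    rw [Subsingleton.elim h 1]; simp
  have step : ∃ (N : Subgroup H) (_ : N.Normal) (e : V →ₗ[k] V), N ≠ ⊥ ∧
      (∀ g v, e (ρ g v) = ρ g (e v)) ∧ (∀ v, ∀ x ∈ N, ρ x (e v) = e v) ∧
      (∀ v, (∀ x ∈ N, ρ x v = v) → e v = v) ∧
      ∀ (b : V) (B : Subgroup H), (∀ x ∈ B, ρ x b = b) → A.index.Coprime B.index →
          ∀ x ∈ N, ρ x b = b := by
    rcases CL.IsPSolvable.pCore_ne_bot_or hsol with h | h
    · have hall : ∀ v, ∀ x ∈ Cfsg.pCore p H, ρ x v = v := by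
        have hle : Cfsg.pCore p H ≤ A := by
          rw [← Subgroup.relIndex_eq_one]
          obtain ⟨m, hm⟩ := IsPGroup.iff_card.mp (CL.isPGroup_pCore p H)
          have h1 : A.relIndex (Cfsg.pCore p H) ∣ p ^ m := hm ▸ Subgroup.relIndex_dvd_card _ _
          have h2 := CL.relIndex_normal_dvd_index A (Cfsg.pCore p H)
          exact Nat.eq_one_of_dvd_coprimes (Nat.Coprime.pow_left m
            ((Nat.Prime.coprime_iff_not_dvd Fact.out).mpr hp)) h1 h2
        intro v x hx
        have hv : v ∈ Submodule.span k (Set.range fun h => ρ h a) := hspan ▸ Submodule.mem_top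
        induction hv using Submodule.span_induction with
        | mem v hv =>
          obtain ⟨g, rfl⟩ := hv
          have := ha _ (hle (Subgroup.Normal.conj_mem' inferInstance x hx g))
          have h2 := congrArg (ρ g) this
          rw [← Module.End.mul_apply, ← map_mul] at h2
          change ρ x (ρ g a) = ρ g a
          rw [show g * (g⁻¹ * x * g) = x * g by group, map_mul] at h2
          exact h2
        | zero => simp
        | add y z _ _ hy hz => rw [map_add, hy, hz]
        | smul c y _ hy => rw [map_smul, hy]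
      exact ⟨_, inferInstance, LinearMap.id, h, fun _ _ => rfl, hall, fun _ _ => rfl,
        fun b _ _ _ => hall b⟩
    · have hN : (Nat.card (Cfsg.pPrimeCore p H) : k) ≠ 0 := by
        rw [Ne, CharP.cast_eq_zero_iff k p]
        exact (Nat.Prime.coprime_iff_not_dvd Fact.out).mp (CL.coprime_card_pPrimeCore p H).symm
      exact ⟨_, inferInstance, av ρ _, h, av_comm ρ _, fun v x hx => apply_av ρ _ hx v,
        fun v hv => av_of_fixed ρ _ hN hv,
        fun b B hb hAB => fixed_of_coprime ρ _ A B hN hAB a b ha hb hspan⟩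
  obtain ⟨N, _, e, hN, he1, he2, he3, he4⟩ := step
  have hlt : Nat.card (H ⧸ N) < n := by
    rw [← hn, Subgroup.card_eq_card_quotient_mul_card_subgroup N]
    have h1 : 1 < Nat.card N := (Subgroup.one_lt_card_iff_ne_bot N).mpr hN
    have h2 : 0 < Nat.card (H ⧸ N) := Nat.card_pos
    nlinarith
  let U := (Representation.invariants (V := V) (ρ.comp N.subtype))
  let a' : U := ⟨e a, fun x => he2 a x x.2⟩
  have hq : ∀ (g : H) (u : U), ((ρ.quotientToInvariants N (g : H ⧸ N) u : U) : V) = ρ g u :=
    fun _ _ => rfl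
  have hidx : ∀ C : Subgroup H, (C.map (QuotientGroup.mk' N)).index ∣ C.index := fun C =>
    Subgroup.index_map_dvd _ (QuotientGroup.mk'_surjective N)
  obtain ⟨⟨c, hc⟩, hb⟩ := ih _ hlt (ρ.quotientToInvariants N) a' (A.map (QuotientGroup.mk' N)) rfl
    (CL.IsPSolvable.quotient hsol N)
    (by
      rintro _ ⟨x, hx, rfl⟩
      apply Subtype.ext
      change ρ x (e a) = e a
      rw [← he1, ha x hx])
    (fun h => hp (h.trans (hidx A)))
    (by
      rw [eq_top_iff]
      rintro ⟨u, hu⟩ -
      have hv : u ∈ Submodule.span k (Set.range fun h => ρ h a) := hspan ▸ Submodule.mem_top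
      have : ∀ v ∈ Submodule.span k (Set.range fun h => ρ h a),
          (⟨e v, fun x => he2 v x x.2⟩ : U) ∈
            Submodule.span k (Set.range fun h => ρ.quotientToInvariants N h a') := by
        intro v hv
        induction hv using Submodule.span_induction with
        | mem v hv =>
          obtain ⟨g, rfl⟩ := hv
          exact Submodule.subset_span ⟨(g : H ⧸ N), Subtype.ext (he1 g a).symm⟩
        | zero => convert Submodule.zero_mem _ using 1; exact Subtype.ext (map_zero e)
        | add y z _ _ hy hz =>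
          convert Submodule.add_mem _ hy hz using 1; exact Subtype.ext (map_add e y z)
        | smul c y _ hy =>
          convert Submodule.smul_mem _ c hy using 1; exact Subtype.ext (map_smul e c y)
      convert this u hv using 2
      exact Subtype.ext (he3 u fun x hx => hu ⟨x, hx⟩).symm)
  refine ⟨⟨c, fun v hv => ?_⟩, fun b B hB hAB h => ?_⟩
  · have := hc (x := ⟨v, fun x => hv x⟩) (fun g => by
      obtain ⟨g, rfl⟩ := QuotientGroup.mk_surjective g
      exact Subtype.ext (hv g))
    obtain ⟨t, ht⟩ := Submodule.mem_span_singleton.mp this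
    exact Submodule.mem_span_singleton.mpr ⟨t, congrArg Subtype.val ht⟩
  · have := hb ⟨b, fun x => he4 b B hB hAB x x.2⟩ (B.map (QuotientGroup.mk' N))
      (by
        rintro _ ⟨x, hx, rfl⟩
        exact Subtype.ext (hB x hx))
      (Nat.Coprime.coprime_dvd_left (hidx A) (Nat.Coprime.coprime_dvd_right (hidx B) hAB)) h
    exact congrArg Subtype.val this


/-- Let k be a field of prime characteristic p, H a finite p-soluble group and ρ a k-linear representation of H on V. Let a be a vector that is fixed by some Sylow p-subgroup of H and whose H-orbit spans V. Then the space of H-fixed vectors has dimension at most 1, and every vector b whose H-orbit has size coprime to the size of the orbit of a is fixed by H. -/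
theorem result {k V H : Type*} [Field k] (p : ℕ) [Fact p.Prime] [CharP k p] [AddCommGroup V] [Module k V]
    [Group H] [Finite H] (hsol : Cfsg.IsPSolvable p H) (ρ : Representation k H V) (a : V)
    (hfix : ∃ P : Sylow p H, ∀ x : H, x ∈ (P : Subgroup H) → ρ x a = a)
    (hspan : Submodule.span k {u : V | ∃ h : H, ρ h a = u} = ⊤) :
    Module.finrank k ρ.invariants ≤ 1 ∧
    ∀ b : V, (Nat.card {u : V | ∃ h : H, ρ h a = u}).Coprime (Nat.card {u : V | ∃ h : H, ρ h b = u}) → ∀ h : H, ρ h b = b := by
  letI : MulAction H V := MulAction.compHom V ρ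
  have hsm : ∀ (h : H) (v : V), h • v = ρ h v := fun _ _ => rfl
  have hcard : ∀ v : V, Nat.card {u : V | ∃ h : H, ρ h v = u} = (MulAction.stabilizer H v).index :=
    fun v => (MulAction.index_stabilizer H v ▸ Nat.card_coe_set_eq _ :)
  obtain ⟨P, hP⟩ := hfix
  obtain ⟨⟨c, hc⟩, hb⟩ := main p _ ρ a (MulAction.stabilizer H a) rfl hsol (fun x hx => hx)
    (fun h => P.not_dvd_index (h.trans (Subgroup.index_dvd_of_le (fun x hx => hP x hx)))) hspan
  refine ⟨?_, fun b hab => hb b (MulAction.stabilizer H b) (fun x hx => hx) (by rwa [hcard, hcard] at hab)⟩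
  refine (Submodule.finrank_mono hc).trans ?_
  simpa using finrank_span_le_card (R := k) ({c} : Set V)

end Cfsg.Agent.S4176
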