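import Cfsg.Statements.S4177
import Cfsg.Agent.FGS.ClassCount
import Cfsg.Agent.FGS.CoprimeIndex

set_option autoImplicit false
open Cfsg

namespace Cfsg.Agent.S4177

/-- Let k be a field whose characteristic does not divide the order of the finite group H (for instance a field of characteristic zero), and ρ a k-linear representation of H on V. Let a be a vector whose H-orbit spans V. Then the space of H-fixed vectors has dimension at most 1, and every vector b whose H-orbit has size coprime to the size of the orbit of a is fixed by H. -/
theorem result {k V H : Type*} [Field k] [AddCommGroup V] [Module k V] [Group H] [Finite H]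
    (hchar : ¬ ringChar k ∣ Nat.card H) (ρ : Representation k H V) (a : V)
    (hspan : Submodule.span k {u : V | ∃ h : H, ρ h a = u} = ⊤) :
    Module.finrank k ρ.invariants ≤ 1 ∧
    ∀ b : V, (Nat.card {u : V | ∃ h : H, ρ h a = u}).Coprime (Nat.card {u : V | ∃ h : H, ρ h b = u}) → ∀ h : H, ρ h b = b := by
  classical
  have := Fintype.ofFinite H
  have hcast : ∀ B : Subgroup H, ((Nat.card B : ℕ) : k) ≠ 0 := by
    intro B h
    exact hchar (((ringChar.spec k _).mp h).trans (Subgroup.card_subgroup_dvd_card B))
  -- averaging over a subgroup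
  let avg : Subgroup H → (V →ₗ[k] V) := fun B => ∑ x : B, ρ x
  have havg : ∀ (B : Subgroup H) (v : V), avg B v = ∑ x : B, ρ x v := by
    intro B v; simp [avg, LinearMap.sum_apply]
  have hfix : ∀ (B : Subgroup H) (v : V), (∀ x ∈ B, ρ x v = v) → avg B v = (Nat.card B : k) • v := by
    intro B v hv
    rw [havg, Finset.sum_congr rfl (fun (x : B) _ => hv x x.2), Finset.sum_const, Finset.card_univ,
      Nat.card_eq_fintype_card, Nat.cast_smul_eq_nsmul]
  let stab : V → Subgroup H := fun v =>
    { carrier := {h | ρ h v = v}
      one_mem' := by simp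
      mul_mem' := by
        intro x y hx hy
        simp only [Set.mem_ofPred_eq] at hx hy ⊢
        rw [map_mul, Module.End.mul_apply, hy, hx]
      inv_mem' := by
        intro x hx
        simp only [Set.mem_ofPred_eq] at hx ⊢
        nth_rewrite 1 [← hx]
        rw [← Module.End.mul_apply, ← map_mul, inv_mul_cancel, map_one, Module.End.one_apply] }
  have hstab : ∀ v : V, Nat.card {u : V | ∃ h : H, ρ h v = u} = (stab v).index := by
    intro v
    rw [Nat.card_coe_set_eq]
    apply CL.ncard_range_eq_index (stab v) (fun h => ρ h v)
    intro x y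
    show _ ↔ ρ (x⁻¹ * y) v = v
    constructor
    · intro h
      rw [map_mul, Module.End.mul_apply, ← h, ← Module.End.mul_apply, ← map_mul, inv_mul_cancel,
        map_one, Module.End.one_apply]
    · intro h
      nth_rewrite 1 [← h]
      rw [← Module.End.mul_apply, ← map_mul, mul_inv_cancel_left]
  -- if `B` supplements the stabiliser of `u`, then `avg B u` is invariant
  have hinv : ∀ (B : Subgroup H) (u : V), (∀ g : H, ∃ b ∈ B, ∃ s ∈ stab u, g = b * s) →
      avg B u ∈ ρ.invariants := by
    intro B u hB
    have key : ∀ w : V, (∃ g : H, ρ g u = w) →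
        (Finset.univ.filter (fun x : B => ρ x u = w)).card =
          (Finset.univ.filter (fun x : B => ρ x u = u)).card := by
      rintro w ⟨g, rfl⟩
      obtain ⟨b, hb, s, hs, rfl⟩ := hB g
      have hs' : ρ s u = u := hs
      symm
      apply Finset.card_bij (fun x _ => (⟨b, hb⟩ : B) * x)
      · intro x hx
        simp only [Finset.mem_filter, Finset.mem_univ, true_and] at hx ⊢
        simp [map_mul, hx, hs']
      · intro x _ y _ h; exact mul_left_cancel h
      · intro y hy
        refine ⟨(⟨b, hb⟩ : B)⁻¹ * y, ?_, by simp⟩
        simp only [Finset.mem_filter, Finset.mem_univ, true_and] at hy ⊢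
        simp only [Subgroup.coe_mul, InvMemClass.coe_inv, map_mul, Module.End.mul_apply, hy, hs']
        rw [← Module.End.mul_apply, ← map_mul, inv_mul_cancel, map_one, Module.End.one_apply]
    let O : Finset V := Finset.univ.image (fun g : H => ρ g u)
    have e : avg B u = (Finset.univ.filter (fun x : B => ρ x u = u)).card • ∑ w ∈ O, w := by
      rw [havg, Finset.smul_sum, ← Finset.sum_fiberwise_of_maps_to (s := Finset.univ) (t := O)
        (g := fun x : B => ρ x u) (fun x _ => Finset.mem_image.mpr ⟨x, Finset.mem_univ _, rfl⟩)]
      apply Finset.sum_congr rfl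
      intro w hw
      obtain ⟨g, -, hg⟩ := Finset.mem_image.mp hw
      rw [← key w ⟨g, hg⟩, ← Finset.sum_const]
      apply Finset.sum_congr rfl
      intro x hx
      exact (Finset.mem_filter.mp hx).2
    rw [e]
    apply Submodule.smul_of_tower_mem
    intro g
    rw [map_sum]
    apply Finset.sum_bij (fun w _ => ρ g w)
    · intro w hw
      obtain ⟨h, -, rfl⟩ := Finset.mem_image.mp hw
      exact Finset.mem_image.mpr ⟨g * h, Finset.mem_univ _, by simp⟩
    · intro w _ w' _ h
      have := congrArg (ρ g⁻¹) h
      simpa [← Module.End.mul_apply, ← map_mul] using this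
    · intro w hw
      obtain ⟨h, -, rfl⟩ := Finset.mem_image.mp hw
      refine ⟨ρ (g⁻¹ * h) u, Finset.mem_image.mpr ⟨g⁻¹ * h, Finset.mem_univ _, rfl⟩, ?_⟩
      rw [← Module.End.mul_apply, ← map_mul, mul_inv_cancel_left]
    · intro w _; rfl
  constructor
  · have h1 : ρ.invariants ≤ Submodule.span k {avg ⊤ a} := by
      intro v hv
      have h2 : ∀ w : V, avg ⊤ w ∈ Submodule.span k {avg ⊤ a} := by
        intro w
        have hw : w ∈ Submodule.span k {u : V | ∃ h : H, ρ h a = u} := by rw [hspan]; trivial
        have : Submodule.span k {u : V | ∃ h : H, ρ h a = u} ≤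
            (Submodule.span k {avg ⊤ a}).comap (avg ⊤) := by
          rw [Submodule.span_le]
          rintro _ ⟨h, rfl⟩
          have : avg ⊤ (ρ h a) = avg ⊤ a := by
            rw [havg, havg]
            apply Fintype.sum_equiv (Equiv.mulRight (⟨h, trivial⟩ : (⊤ : Subgroup H)))
            intro x
            simp
          show avg ⊤ (ρ h a) ∈ Submodule.span k {avg ⊤ a}
          rw [this]
          exact Submodule.mem_span_singleton_self _
        exact this hw
      have h3 := h2 v
      rw [hfix ⊤ v (fun x _ => hv x)] at h3
      exact (Submodule.smul_mem_iff _ (hcast ⊤)).mp h3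
    haveI : FiniteDimensional k (Submodule.span k {avg ⊤ a}) := FiniteDimensional.span_singleton k _
    exact (Submodule.finrank_mono h1).trans (finrank_span_le_card _ |>.trans (by simp))
  · intro b hb
    rw [hstab b] at hb
    have h2 : ∀ w : V, avg (stab b) w ∈ ρ.invariants := by
      intro w
      have hw : w ∈ Submodule.span k {u : V | ∃ h : H, ρ h a = u} := by rw [hspan]; trivial
      have : Submodule.span k {u : V | ∃ h : H, ρ h a = u} ≤
          ρ.invariants.comap (avg (stab b)) := by
        rw [Submodule.span_le]
        rintro _ ⟨h, rfl⟩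
        apply hinv
        have e : {u : V | ∃ h : H, ρ h a = u} = {u : V | ∃ g : H, ρ g (ρ h a) = u} := by
          ext u
          constructor
          · rintro ⟨g, rfl⟩
            exact ⟨g * h⁻¹, by rw [← Module.End.mul_apply, ← map_mul, inv_mul_cancel_right]⟩
          · rintro ⟨g, rfl⟩
            exact ⟨g * h, by simp⟩
        rw [e, hstab] at hb
        exact CL.exists_mul_eq_of_coprime_index _ _ hb.symm
      exact this hw
    have h3 := h2 b
    rw [hfix _ b (fun x hx => hx)] at h3
    exact (Submodule.smul_mem_iff _ (hcast _)).mp h3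

end Cfsg.Agent.S4177
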