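import Cfsg.Statements.S4178
import Cfsg.Agent.FGS.ClassCount

set_option autoImplicit false
open Cfsg

namespace Cfsg.Agent.S4178

/-- Let F be a finite field with q elements, V a non-zero finite-dimensional F-space of dimension d, H a group of invertible linear maps of V, and R the subgroup of H generated by the elements of H that fix some non-zero vector (have eigenvalue 1). Then the index of R in H is at most q^d − 1; and if H leaves invariant some proper non-zero subspace, the index is at most q^(d/2) − 1. -/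
theorem result {F V : Type*} [Field F] [Fintype F] [AddCommGroup V] [Module F V] [FiniteDimensional F V] [Nontrivial V]
    (H : Subgroup (V ≃ₗ[F] V)) :
    (Subgroup.closure {h : ↥H | ∃ v : V, v ≠ 0 ∧ (h : V ≃ₗ[F] V) v = v}).index ≤ Fintype.card F ^ Module.finrank F V - 1 ∧
    ((∃ W : Submodule F V, W ≠ ⊥ ∧ W ≠ ⊤ ∧ ∀ h ∈ H, ∀ w ∈ W, h w ∈ W) →
      ((Subgroup.closure {h : ↥H | ∃ v : V, v ≠ 0 ∧ (h : V ≃ₗ[F] V) v = v}).index : ℝ) ≤ Real.sqrt ((Fintype.card F : ℝ) ^ Module.finrank F V) - 1) := by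
  set R := Subgroup.closure {h : ↥H | ∃ v : V, v ≠ 0 ∧ (h : V ≃ₗ[F] V) v = v} with hR
  have hV : Finite V := Module.finite_of_finite F
  have hH : Finite (V ≃ₗ[F] V) := Finite.of_injective _ DFunLike.coe_injective
  have hcard : Nat.card V = Fintype.card F ^ Module.finrank F V := by
    rw [Module.natCard_eq_pow_finrank (K := F), Nat.card_eq_fintype_card]
  have key : ∀ (X : Type _) [Finite X] (x₀ : X) (f : H → X) (S : Subgroup H), S ≤ R →
      (∀ a b, f a = f b ↔ a⁻¹ * b ∈ S) → (∀ a, f a ≠ x₀) → R.index + 1 ≤ Nat.card X := by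
    intro X _ x₀ f S hS h1 h2
    have h3 := CL.ncard_range_eq_index S f h1
    have h4 : (Set.range f).ncard < (Set.univ : Set X).ncard :=
      Set.ncard_lt_ncard ⟨Set.subset_univ _, fun h => by
        obtain ⟨a, ha⟩ := h (Set.mem_univ x₀)
        exact h2 a ha⟩ (Set.toFinite _)
    rw [Set.ncard_univ, h3] at h4
    exact (Subgroup.index_antitone hS).trans_lt h4
  have key1 : ∀ W : Submodule F V, W ≠ ⊥ → (∀ h ∈ H, ∀ w ∈ W, h w ∈ W) →
      R.index + 1 ≤ Nat.card W := by
    intro W hW hinv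
    obtain ⟨w, hw, hw0⟩ := (Submodule.ne_bot_iff W).mp hW
    refine key W 0 (fun h => ⟨(h : V ≃ₗ[F] V) w, hinv h h.2 w hw⟩) (MulAction.stabilizer H w)
      (fun h hh => Subgroup.subset_closure ⟨w, hw0, hh⟩) (fun a b => ?_) (fun a h => hw0 ?_)
    · rw [MulAction.mem_stabilizer_iff, mul_smul, inv_smul_eq_iff, Subtype.ext_iff, eq_comm]
      rfl
    · exact (a : V ≃ₗ[F] V).map_eq_zero_iff.mp (congrArg Subtype.val h)
  have key2 : ∀ W : Submodule F V, W ≠ ⊤ → (∀ h ∈ H, ∀ w ∈ W, h w ∈ W) →
      R.index + 1 ≤ Nat.card (V ⧸ W) := by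
    intro W hW hinv
    obtain ⟨v, -, hv⟩ := SetLike.exists_of_lt (lt_top_iff_ne_top.mpr hW)
    have hiff : ∀ (h : H) (w : V), (h : V ≃ₗ[F] V) w ∈ W ↔ w ∈ W := fun h w =>
      ⟨fun hw => by simpa using hinv _ (h⁻¹).2 _ hw, hinv h h.2 w⟩
    let S : Subgroup H :=
      { carrier := {h | (h : V ≃ₗ[F] V) v - v ∈ W}
        one_mem' := by simp
        mul_mem' := fun {a b} ha hb => by
          have := W.add_mem (hinv a a.2 _ hb) ha
          simpa using this
        inv_mem' := fun {a} ha => by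
          have := W.neg_mem (hinv _ (a⁻¹).2 _ ha)
          simpa using this }
    have : Finite (V ⧸ W) := Finite.of_surjective _ W.mkQ_surjective
    refine key (V ⧸ W) 0 (fun h => W.mkQ ((h : V ≃ₗ[F] V) v)) S (fun h hh => ?_) (fun a b => ?_)
      (fun a h => hv ?_)
    · apply Subgroup.subset_closure
      by_contra hc
      simp only [Set.mem_ofPred_eq, not_exists, not_and] at hc
      let T : V →ₗ[F] V := ((h : V ≃ₗ[F] V) : V →ₗ[F] V) - LinearMap.id
      have hT : Function.Injective T := by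
        rw [← LinearMap.ker_eq_bot, Submodule.eq_bot_iff]
        intro x hx
        by_contra hx0
        exact hc x hx0 (sub_eq_zero.mp hx)
      have hTW : ∀ w ∈ W, T w ∈ W := fun w hw => W.sub_mem (hinv h h.2 w hw) hw
      have h1 : Function.Surjective (T.restrict hTW) :=
        Finite.surjective_of_injective fun a b hab => Subtype.ext (hT (congrArg Subtype.val hab))
      obtain ⟨w, hw⟩ := h1 ⟨T v, hh⟩
      exact hv (hT (congrArg Subtype.val hw) ▸ w.2)
    · rw [Submodule.mkQ_apply, Submodule.mkQ_apply, eq_comm, Submodule.Quotient.eq, ← hiff a⁻¹]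
      simp [S]
    · exact (hiff a v).mp ((Submodule.Quotient.mk_eq_zero W).mp h)
  refine ⟨?_, ?_⟩
  · have := key1 ⊤ top_ne_bot (fun _ _ _ _ => trivial)
    rw [Nat.card_congr Submodule.topEquiv.toEquiv, hcard] at this
    omega
  · rintro ⟨W, h1, h2, h3⟩
    have h4 := Nat.mul_le_mul (key1 W h1 h3) (key2 W h2 h3)
    rw [← Submodule.card_eq_card_quotient_mul_card, hcard] at h4
    rw [le_sub_iff_add_le]
    apply Real.le_sqrt_of_sq_le
    rw [sq]
    exact_mod_cast h4

end Cfsg.Agent.S4178
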