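import Cfsg.Statements.S4181
import Cfsg.Agent.FGS.SylRat2

set_option autoImplicit false
open Cfsg

namespace Cfsg.Agent.S4181

/-- Let p be a prime and G a finite group generated by its elements of p-power order, and let H be a proper subgroup of G containing a Sylow p-subgroup of G. Then 2p − 1 times the number of Sylow p-subgroups of H is at most p − 1 times the number of Sylow p-subgroups of G. -/
theorem result {G : Type*} [Group G] [Finite G] (p : ℕ) [Fact p.Prime] (hgen : Subgroup.closure {g : G | ∃ k : ℕ, orderOf g = p ^ k} = ⊤)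
    (H : Subgroup G) (hH : H ≠ ⊤) (P : Sylow p G) (hP : (P : Subgroup G) ≤ H) :
    (2 * p - 1) * Nat.card (Sylow p ↥H) ≤ (p - 1) * Nat.card (Sylow p G) := by
  have h := CL.SylRat.bd (p := p) ⊤ (CL.SylRat.gen_eq_top hgen) H fun h => hH (top_le_iff.1 h)
  rw [top_inf_eq, CL.SylRat.nu_top] at h
  exact (Nat.mul_le_mul_left _ (CL.SylRat.card_sylow_le_nu hP)).trans h

end Cfsg.Agent.S4181
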