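import Cfsg.Statements.S4182
import Cfsg.Agent.FGS.MaxCl
import Cfsg.Agent.FGS.ClassCount
import Cfsg.Agent.FGS.FiberCount
import Cfsg.Agent.SOLV.MaxClass
import Cfsg.Agent.TECH.Conj
import Cfsg.Agent.SOLV.Primitive

set_option autoImplicit false
open Cfsg

namespace Cfsg.Agent.S4182

open Subgroup CL.MSS

section
variable {G : Type*} [Group G] (p : ℕ)

/-- The subgroup generated by the `p`-elements of `H`. -/
def pGen (H : Subgroup G) : Subgroup G := closure {g : G | g ∈ H ∧ ∃ k : ℕ, g ^ p ^ k = 1}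

variable {p}

theorem pGen_le (H : Subgroup G) : pGen p H ≤ H := (closure_le _).mpr fun _ h => h.1

theorem pGen_le_pGen {H K : Subgroup G} (h : pGen p H ≤ K) : pGen p H ≤ pGen p K :=
  closure_mono fun _ hg => ⟨h (subset_closure hg), hg.2⟩

theorem pGen_pGen (H : Subgroup G) : pGen p (pGen p H) = pGen p H :=
  le_antisymm (pGen_le _) (pGen_le_pGen le_rfl)

theorem le_pGen {Q H : Subgroup G} (hQ : IsPGroup p Q) (h : Q ≤ H) : Q ≤ pGen p H := by
  intro x hx
  obtain ⟨k, hk⟩ := hQ ⟨x, hx⟩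
  exact subset_closure ⟨h hx, k, congrArg Subtype.val hk⟩

theorem cj_pGen (g : G) (H : Subgroup G) : g •ᶜ pGen p H = pGen p (g •ᶜ H) := by
  rw [pGen, cj_closure, pGen]
  congr 1
  ext x
  constructor
  · rintro ⟨y, ⟨hy, k, hk⟩, rfl⟩
    exact ⟨conj_mem_cj hy, k, by rw [conj_pow, hk]; simp⟩
  · rintro ⟨⟨y, hy, rfl⟩, k, hk⟩
    refine ⟨y, ⟨hy, k, (MulAut.conj g).injective ?_⟩, rfl⟩
    rw [map_pow, map_one]
    exact hk

/-- Key step: if a Sylow subgroup lies in a proper subgroup `K₀`, there are a subgroup `L` not in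
`K₀`, an element `x ∈ L` and a proper subgroup `R` of `P` controlling the conjugates of `P`. -/
theorem key [Finite G] [Fact p.Prime] (hgen : pGen p (⊤ : Subgroup G) = ⊤) (P : Sylow p G)
    {K₀ : Subgroup G} (hK : K₀ ≠ ⊤) (hP : (P : Subgroup G) ≤ K₀) :
    ∃ (L R : Subgroup G) (x : G), (P : Subgroup G) ≤ L ∧ ¬ L ≤ K₀ ∧ R < P ∧
      (∀ u ∈ (P : Subgroup G), ¬ (u * x) •ᶜ (P : Subgroup G) ≤ K₀) ∧
      ∀ K : Subgroup G, ¬ L ≤ K → ∀ u ∈ (P : Subgroup G), ∀ v ∈ (P : Subgroup G),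
        (u * x) •ᶜ (P : Subgroup G) ≤ K → (v * x) •ᶜ (P : Subgroup G) ≤ K → u⁻¹ * v ∈ R := by
  obtain ⟨L, -, hL⟩ := exists_minimal_le_of_wellFoundedLT
    (fun L : Subgroup G => (P : Subgroup G) ≤ L ∧ ¬ pGen p L ≤ K₀) ⊤
    ⟨le_top, fun h => hK (top_le_iff.mp (hgen ▸ h))⟩
  obtain ⟨hPL, hLK⟩ := hL.prop
  set H₀ := pGen p (L ⊓ K₀) with hH₀
  have hLK' : ¬ L ≤ K₀ := fun h => hLK ((pGen_le L).trans h)
  have h0 : H₀ < L := lt_of_le_not_ge ((pGen_le _).trans inf_le_left)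
    fun h => hLK' (h.trans ((pGen_le _).trans inf_le_right))
  have hP0 : (P : Subgroup G) ≤ H₀ := le_pGen P.isPGroup' (le_inf hPL hP)
  have h1 : ∀ H : Subgroup G, H < L → (P : Subgroup G) ≤ H → pGen p H ≤ H₀ := by
    intro H hH hPH
    apply pGen_le_pGen
    refine le_inf ((pGen_le _).trans hH.le) ?_
    by_contra h
    exact hH.not_ge (hL.le_of_le ⟨hPH, h⟩ hH.le)
  have h2 : ∀ g ∈ L, ∀ H : Subgroup G, H < L → g •ᶜ (P : Subgroup G) ≤ H →
      pGen p H ≤ g •ᶜ H₀ := by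
    intro g hg H hH hPH
    rw [le_cj_iff, cj_pGen]
    apply h1 _ _ (cj_le_iff.mp hPH)
    rw [← cj_eq_of_mem (inv_mem hg), cj_lt_cj_iff]
    exact hH
  have h3 : ∀ g ∈ L, ∀ h ∈ L, g •ᶜ (P : Subgroup G) ≤ h •ᶜ H₀ → h •ᶜ H₀ = g •ᶜ H₀ := by
    intro g hg h hh hle
    have e := h2 g hg (h •ᶜ H₀) (by rw [← cj_eq_of_mem hh, cj_lt_cj_iff]; exact h0) hle
    rw [← cj_pGen, hH₀, pGen_pGen, ← hH₀] at e
    exact eq_of_le_of_card_ge e (by rw [card_cj, card_cj])
  obtain ⟨x, hx, hx2⟩ : ∃ x ∈ L, x •ᶜ H₀ ≠ H₀ := by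
    by_contra h
    push Not at h
    apply hLK
    refine le_trans ((closure_le _).mpr ?_) ((pGen_le (p := p) (L ⊓ K₀)).trans inf_le_right)
    rintro y ⟨hy, k, hk⟩
    obtain ⟨g, hg, hle⟩ := CL.Prim.exists_le_conj_sylow (isPGroup_zpowers hk) (zpowers_le.mpr hy) P hPL
    have := (hle.trans (cj_mono g hP0)) (mem_zpowers y)
    rwa [h g hg] at this
  refine ⟨L, (P : Subgroup G) ⊓ normalizer ((x •ᶜ H₀ : Subgroup G) : Set G), x, hPL, hLK',
    lt_of_le_not_ge inf_le_left fun h => ?_, fun u hu h => ?_, fun K hK u hu v hv e1 e2 => ?_⟩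
  · have hn : (P : Subgroup G) ≤ normalizer ((x •ᶜ H₀ : Subgroup G) : Set G) := h.trans inf_le_right
    obtain ⟨g, hg, hle⟩ := CL.Prim.exists_le_conj_sylow P.isPGroup'
      (le_sup_right : (P : Subgroup G) ≤ x •ᶜ H₀ ⊔ P) (x • P) (le_sup_of_le_left (cj_mono x hP0))
    have hg' : g •ᶜ (x •ᶜ H₀) = x •ᶜ H₀ :=
      cj_eq_of_mem_normalizer ((sup_le le_normalizer hn : _ ≤ normalizer _) hg)
    have h4 : (P : Subgroup G) ≤ x •ᶜ H₀ := by
      rw [← hg']
      exact hle.trans (cj_mono g (cj_mono x hP0))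
    have := h3 1 (one_mem _) x hx (by rwa [cj_one])
    rw [cj_one] at this
    exact hx2 this
  · have hux : u * x ∈ L := mul_mem (hPL hu) hx
    have h4 : (u * x) •ᶜ (P : Subgroup G) ≤ (1 : G) •ᶜ H₀ := by
      rw [cj_one]
      exact le_pGen (isPGroup_cj _ P.isPGroup') (le_inf (cj_le_of_mem hPL hux) h)
    have := h3 _ hux 1 (one_mem _) h4
    rw [cj_one, cj_mul, eq_comm, cj_eq_iff, cj_eq_of_mem (inv_mem (hP0 hu))] at this
    exact hx2 this
  · have hux : u * x ∈ L := mul_mem (hPL hu) hx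
    have hvx : v * x ∈ L := mul_mem (hPL hv) hx
    have h4 : L ⊓ K < L := lt_of_le_not_ge inf_le_left fun h => hK (h.trans inf_le_right)
    have h5 := h2 _ hux _ h4 (le_inf (cj_le_of_mem hPL hux) e1)
    have h6 := h3 _ hvx _ hux ((le_pGen (isPGroup_cj _ P.isPGroup')
      (le_inf (cj_le_of_mem hPL hvx) e2)).trans h5)
    refine Subgroup.mem_inf.mpr ⟨mul_mem (inv_mem hu) hv, ?_⟩
    rw [mem_normalizer_iff_cj, cj_mul, ← cj_mul v, ← h6, cj_mul, inv_cj_cj]

end

/-- Let p be a prime and G a finite group generated by its p-elements. If a finite family of proper subgroups of G covers the set of p-elements of G (every element of p-power order lies in one of them), then the family has at least p + 1 members. -/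
theorem result {G : Type*} [Group G] [Finite G] (p : ℕ) [Fact p.Prime] (hgen : Subgroup.closure {g : G | ∃ k : ℕ, orderOf g = p ^ k} = ⊤)
    {ι : Type*} [Fintype ι] (K : ι → Subgroup G) (hK : ∀ i, K i ≠ ⊤)
    (hcov : ∀ g : G, (∃ k : ℕ, orderOf g = p ^ k) → ∃ i, g ∈ K i) :
    p + 1 ≤ Fintype.card ι := by
  classical
  have hp : p.Prime := Fact.out
  by_contra hlt
  have hle : Fintype.card ι ≤ p := by omega
  have hgen' : pGen p (⊤ : Subgroup G) = ⊤ := by
    rw [eq_top_iff, ← hgen]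
    refine closure_mono ?_
    rintro g ⟨k, hk⟩
    exact ⟨hgen ▸ mem_top g, k, by rw [← hk, pow_orderOf_eq_one]⟩
  have hsyl : ∀ P : Sylow p G, ∃ i, (P : Subgroup G) ≤ K i := by
    intro P
    by_contra h
    push Not at h
    obtain ⟨x, hx⟩ := CL.MaxCl.exists_not_mem P.isPGroup'
      (Finset.univ.image fun i => (K i).subgroupOf P) (by
        intro H hH
        obtain ⟨i, -, rfl⟩ := Finset.mem_image.mp hH
        exact fun e => h i (subgroupOf_eq_top.mp e))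
      (Finset.card_image_le.trans hle)
    obtain ⟨k, hk⟩ := IsPGroup.iff_orderOf.mp P.isPGroup' x
    obtain ⟨i, hi⟩ := hcov x ⟨k, by rw [orderOf_coe, hk]⟩
    exact hx _ (Finset.mem_image_of_mem _ (Finset.mem_univ i)) hi
  obtain ⟨P, hmin⟩ := exists_minimalFor_of_wellFoundedLT (fun _ : Sylow p G => True)
    (fun P => (Finset.univ.filter fun i => (P : Subgroup G) ≤ K i).card) ⟨default, trivial⟩
  obtain ⟨i₀, hi₀⟩ := hsyl P
  obtain ⟨L, R, x, hPL, hL, hR, h1, h2⟩ := key hgen' P (hK i₀) hi₀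
  have h3 : ∀ u ∈ (P : Subgroup G), ∃ i ∈ Finset.univ.erase i₀, ¬ L ≤ K i ∧
      (u * x) •ᶜ (P : Subgroup G) ≤ K i := by
    intro u hu
    by_contra h
    push Not at h
    have h4 : (Finset.univ.filter fun i => (((u * x) • P : Sylow p G) : Subgroup G) ≤ K i) ⊂
        Finset.univ.filter fun i => (P : Subgroup G) ≤ K i := by
      rw [Finset.ssubset_iff_of_subset]
      · exact ⟨i₀, by simpa using hi₀, fun h => h1 u hu (Finset.mem_filter.mp h).2⟩
      · intro i hi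
        rw [Finset.mem_filter] at hi ⊢
        refine ⟨hi.1, hPL.trans ?_⟩
        by_contra hn
        refine h i (Finset.mem_erase.mpr ⟨?_, hi.1⟩) hn hi.2
        rintro rfl
        exact h1 u hu hi.2
    have h5 := Finset.card_lt_card h4
    exact h5.not_ge (hmin.2 trivial h5.le)
  have : Nonempty ι := ⟨i₀⟩
  choose! f hf1 hf2 hf3 using h3
  have h4 := CL.Cnt.ncard_eq_sum_fiber (Set.toFinite ((P : Subgroup G) : Set G)) f _ hf1
  have h5 : ∑ b ∈ Finset.univ.erase i₀, {a | a ∈ ((P : Subgroup G) : Set G) ∧ f a = b}.ncard ≤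
      (Finset.univ.erase i₀).card • Nat.card R := by
    apply Finset.sum_le_card_nsmul
    intro i _
    apply CL.ncard_le_card_of_inv_mul_mem
    rintro a ⟨ha, rfl⟩ b ⟨hb, hab⟩
    exact h2 _ (hf2 a ha) a ha b hb (hf3 a ha) (hab ▸ hf3 b hb)
  have h6 := CL.PCyc.mul_card_le_of_lt P.isPGroup' hR
  rw [← h4, ← Nat.card_coe_set_eq, SetLike.coe_sort_coe, smul_eq_mul,
    Finset.card_erase_of_mem (Finset.mem_univ _), Finset.card_univ] at h5
  have h7 := Nat.le_of_mul_le_mul_right (h6.trans h5) Nat.card_pos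
  have := hp.pos
  omega

end Cfsg.Agent.S4182
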