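import Cfsg.Statements.S4184
import Cfsg.Agent.FGS.ClassSize
import Cfsg.Agent.TECH.SylIn
import Cfsg.Agent.INV.SmallMisc
import Cfsg.Agent.INV.SmallCount

set_option autoImplicit false
open Cfsg

namespace Cfsg.Agent.S4184

open CL CL.CS CL.MSS Subgroup

/-- `n` is divisible by the full `r`-part of `N` for all primes `r ∈ X`. -/
def Full (N : ℕ) (X : Set ℕ) (n : ℕ) : Prop := ∀ r ∈ X, r.Prime → r ^ N.factorization r ∣ n

theorem Full.mono {N : ℕ} {X : Set ℕ} {m n : ℕ} (h : Full N X m) (hmn : m ∣ n) : Full N X n :=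
  fun r hr hr' => (h r hr hr').trans hmn

theorem Full.dvd {N : ℕ} {X : Set ℕ} {n r : ℕ} (h : Full N X n) (hN : N ≠ 0) (hr : r ∈ X)
    (hr' : r.Prime) (hd : r ∣ N) : r ∣ n :=
  (dvd_pow_self r (hr'.factorization_pos_of_dvd hN hd).ne').trans (h r hr hr')

theorem exists_central {G : Type*} [Group G] [Finite G] {p : ℕ} [hp : Fact p.Prime] (P : Sylow p G)
    (h : p ∣ Nat.card G) : ∃ z, orderOf z = p ∧ (P : Subgroup G) ≤ 𝐂[z] := by
  have h1 := inf_centralizer_ne_bot P.isPGroup' P.isPGroup' le_normalizer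
    ((sylIn_top P).ne_bot (by simpa using h))
  obtain ⟨z, hz, hzp⟩ := Small.exists_mem_orderOf_eq_prime _ p
    (dvd_card_of_isPGroup_le (P.isPGroup'.to_le inf_le_left) h1 le_rfl)
  exact ⟨z, hzp, le_cen_iff.2 hz.2⟩

theorem main {G : Type*} [Group G] [Finite G] {N : ℕ} (hN : N ≠ 0) (A : Set ℕ)
    (H1 : ∀ g : G, g ≠ 1 → Full N A (𝐂[g]).index ∨ Full N Aᶜ (𝐂[g]).index)
    (H2 : ∀ g : G, ¬ (Full N A (𝐂[g]).index ∧ Full N Aᶜ (𝐂[g]).index))
    (H3 : ∀ g : G, (𝐂[g]).index ∣ N) {p q : ℕ} (hp : p.Prime) (hpA : p ∈ A) (hpN : p ∣ N)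
    (hpG : p ∣ Nat.card G) (hq : q.Prime) (hqA : q ∈ Aᶜ) (hqN : q ∣ N) :
    (Nat.card G).factorization q = N.factorization q := by
  have := Fact.mk hp
  have := Fact.mk hq
  have hpq : p ≠ q := fun h => hqA (h ▸ hpA)
  obtain ⟨x, hxp, hxP⟩ := exists_central (default : Sylow p G) hpG
  have hne : ∀ {r : ℕ} {y : G}, r.Prime → orderOf y = r → y ≠ 1 := by
    rintro r _ hr hy rfl
    rw [orderOf_one] at hy
    exact hr.one_lt.ne hy
  have hx : Full N Aᶜ (𝐂[x]).index := (H1 x (hne hp hxp)).resolve_left fun h =>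
    not_dvd_index_of_sylow_le hxP (h.dvd hN hpA hp hpN)
  have hy : ∀ y, Commute x y → orderOf y = q → Full N Aᶜ (𝐂[y]).index := by
    intro y hxy hyq
    have hc : (orderOf x).Coprime (orderOf y) := by
      rw [hxp, hyq]; exact (Nat.coprime_primes hp hq).2 hpq
    exact (H1 y (hne hq hyq)).resolve_left fun h =>
      H2 (x * y) ⟨h.mono (index_cen_dvd_mul_right hxy hc), hx.mono (index_cen_dvd_mul_left hxy hc)⟩
  have hfull : ∀ g : G, Full N Aᶜ (𝐂[g]).index → (𝐂[g]).index.factorization q = N.factorization q :=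
    fun g hg => le_antisymm ((Nat.factorization_le_iff_dvd (index_cen_pos g).ne' hN).2 (H3 g) q)
      ((hq.pow_dvd_iff_le_factorization (index_cen_pos g).ne').1 (hg q hqA hq))
  have h1 := (𝐂[x]).card_mul_index
  rw [← h1, Nat.factorization_mul Nat.card_pos.ne' (index_cen_pos x).ne', Finsupp.add_apply,
    hfull x hx, add_eq_right, Nat.factorization_eq_zero_iff]
  refine Or.inr (Or.inl fun hd => ?_)
  obtain ⟨y, hyx, hyq⟩ := Small.exists_mem_orderOf_eq_prime _ q hd
  have hxy : Commute x y := mem_cen'.1 hyx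
  have hc : (orderOf x).Coprime (orderOf y) := by
    rw [hxp, hyq]; exact (Nat.coprime_primes hp hq).2 hpq
  have h2 := index_cen_mul_of_coprime hxy.symm hc.symm
  have h3 := hfull (y * x) ((hy y hxy hyq).mono (index_cen_dvd_mul_left hxy.symm hc.symm))
  have h0 : (𝐂[x]).relIndex 𝐂[y] ≠ 0 := index_ne_zero_of_finite
  rw [h2, Nat.factorization_mul h0 (index_cen_pos y).ne', Finsupp.add_apply,
    hfull y (hy y hxy hyq), add_eq_right, Nat.factorization_eq_zero_iff] at h3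
  have h4 : ¬ q ∣ (𝐂[x]).relIndex 𝐂[y] := by tauto
  obtain ⟨Q, hQ⟩ := Small.exists_sylow_mem (p := q) (k := 1) (hyq.trans (pow_one q).symm)
  obtain ⟨z, hzq, hzQ⟩ := exists_central Q (hd.trans (card_subgroup_dvd_card _))
  obtain ⟨S, hS⟩ := exists_sylIn q (𝐂[x] ⊓ 𝐂[y])
  have hS' : SylIn q S 𝐂[y] := sylIn_of_not_dvd_relIndex hS.pgroup (hS.le.trans inf_le_right) (by
    rw [← relIndex_mul_relIndex S _ _ hS.le inf_le_right, inf_relIndex_right]
    exact fun h => (hq.dvd_mul.1 h).elim hS.not_dvd_relIndex h4)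
  obtain ⟨a, -, ha⟩ := hS'.exists_conj_le (R := zpowers z)
    (isPGroup_zpowers (k := 1) (by rw [pow_one, ← hzq, pow_orderOf_eq_one]))
    (zpowers_le.2 (mem_cen_comm.1 (hzQ hQ)))
  have h5 := hy _ (mem_cen'.1 (hS.le (ha (conj_mem_cj (mem_zpowers z)))).1)
    (((MulAut.conj a).orderOf_eq z).trans hzq)
  rw [index_cen_conj] at h5
  exact not_dvd_index_of_sylow_le hzQ (h5.dvd hN hqA hq hqN)

theorem full_of_prime {M : Type*} [Group M] [Finite M] {A : Set ℕ}
    (h : ∀ a ∈ A, ∀ b ∉ A, a.Prime → b.Prime → a ∣ Nat.card M → b ∣ Nat.card M →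
      ¬ ∃ x : M, orderOf x = a * b) {m : M} (hm : m ≠ 1) :
    Full (Nat.card M) A (𝐂[m]).index ∨ Full (Nat.card M) Aᶜ (𝐂[m]).index := by
  obtain ⟨r, hr, hd⟩ := Nat.exists_prime_and_dvd (orderOf_eq_one_iff.not.2 hm)
  have := Fact.mk hr
  obtain ⟨x, hx, hxr⟩ := Small.exists_mem_orderOf_eq_prime (zpowers m) r (by rwa [Nat.card_zpowers])
  have key : ∀ s : ℕ, s.Prime → s ≠ r → (s ∣ Nat.card M → ¬ ∃ x : M, orderOf x = r * s) →
      s ^ (Nat.card M).factorization s ∣ (𝐂[m]).index := by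
    intro s hs hsr h1
    have := Fact.mk hs
    have h2 : ¬ s ∣ Nat.card 𝐂[m] := fun h2 => by
      obtain ⟨y, hy, hys⟩ := Small.exists_mem_orderOf_eq_prime _ s h2
      refine h1 (h2.trans (card_subgroup_dvd_card _)) ⟨x * y, ?_⟩
      rw [(mem_cen'.1 (cen_le_cen_of_mem_zpowers hx hy)).orderOf_mul_eq_mul_orderOf_of_coprime
        (by rw [hxr, hys]; exact (Nat.coprime_primes hr hs).2 hsr.symm), hxr, hys]
    refine ((hs.coprime_iff_not_dvd.2 h2).pow_left _).dvd_of_dvd_mul_left ?_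
    rw [card_mul_index]
    exact Nat.ordProj_dvd _ _
  have hrM : r ∣ Nat.card M := hd.trans (orderOf_dvd_natCard m)
  by_cases hrA : r ∈ A
  · exact Or.inr fun s hs hs' => key s hs' (fun h => hs (h ▸ hrA)) (h r hrA s hs hr hs' hrM)
  · exact Or.inl fun s hs hs' => key s hs' (fun h => hrA (h ▸ hs))
      fun h1 => mul_comm s r ▸ h s hs r hrA hs' hr h1 hrM

theorem dvd_card_of_range {G M : Type*} [Group G] [Finite G] [Group M] [Finite M]
    (hZG : Subgroup.center G = ⊥) (h : ∀ g : G, (𝐂[g]).index ∣ Nat.card M) {r : ℕ} (hr : r.Prime)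
    (hd : r ∣ Nat.card G) : r ∣ Nat.card M := by
  have := Fact.mk hr
  obtain ⟨x, hx⟩ := exists_dvd_index_cen_of_dvd_index_center (G := G) (p := r)
    (by rwa [hZG, index_bot])
  exact hx.trans (h x)


/-- Let G and M be finite groups with trivial centres and the same set of conjugacy class sizes, and suppose the prime graph of M is disconnected: the prime divisors of #M split into two non-empty parts such that M has no element of order pq with p in one part and q in the other. Then #G = #M. -/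
theorem result {G M : Type*}
    [Group G] [Finite G] [Group M] [Finite M] (hZG : Subgroup.center G = ⊥) (hZM : Subgroup.center M = ⊥)
    (h : Set.range (fun g : G => (Subgroup.centralizer ({g} : Set G)).index) = Set.range (fun g : M => (Subgroup.centralizer ({g} : Set M)).index))
    (hdisc : ∃ A : Set ℕ, (∃ a ∈ A, a.Prime ∧ a ∣ Nat.card M) ∧ (∃ b ∉ A, b.Prime ∧ b ∣ Nat.card M) ∧
      ∀ a ∈ A, ∀ b ∉ A, a.Prime → b.Prime → a ∣ Nat.card M → b ∣ Nat.card M → ¬ ∃ x : M, orderOf x = a * b) :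
    Nat.card G = Nat.card M := by
  obtain ⟨A, ⟨a, haA, ha, haM⟩, ⟨b, hbA, hb, hbM⟩, hA⟩ := hdisc
  have hGM : ∀ g : G, ∃ m : M, (𝐂[m]).index = (𝐂[g]).index := fun g =>
    (Set.ext_iff.1 h _).1 ⟨g, rfl⟩
  have hMG : ∀ m : M, ∃ g : G, (𝐂[g]).index = (𝐂[m]).index := fun m =>
    (Set.ext_iff.1 h _).2 ⟨m, rfl⟩
  have H3 : ∀ g : G, (𝐂[g]).index ∣ Nat.card M := fun g => by
    obtain ⟨m, hm⟩ := hGM g
    exact hm ▸ index_dvd_card _
  have H3' : ∀ m : M, (𝐂[m]).index ∣ Nat.card G := fun m => by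
    obtain ⟨g, hg⟩ := hMG m
    exact hg ▸ index_dvd_card _
  have H1 : ∀ g : G, g ≠ 1 →
      Full (Nat.card M) A (𝐂[g]).index ∨ Full (Nat.card M) Aᶜ (𝐂[g]).index := fun g hg => by
    obtain ⟨m, hm⟩ := hGM g
    rw [← hm]
    refine full_of_prime hA ?_
    rintro rfl
    rw [index_cen_one, eq_comm, index_cen_eq_one_iff, hZG] at hm
    exact hg (mem_bot.1 hm)
  have H2 : ∀ g : G,
      ¬ (Full (Nat.card M) A (𝐂[g]).index ∧ Full (Nat.card M) Aᶜ (𝐂[g]).index) := fun g hg => by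
    obtain ⟨m, hm⟩ := hGM g
    rw [← hm] at hg
    have h1 : Nat.card M ∣ (𝐂[m]).index := by
      rw [← Nat.factorization_prime_le_iff_dvd Nat.card_pos.ne' (index_cen_pos m).ne']
      intro r hr
      rw [← hr.pow_dvd_iff_le_factorization (index_cen_pos m).ne']
      by_cases hrA : r ∈ A
      · exact hg.1 r hrA hr
      · exact hg.2 r hrA hr
    have h2 : 𝐂[m] = ⊥ := by
      rw [← card_eq_one]
      have h3 := (𝐂[m]).card_mul_index
      rw [Nat.dvd_antisymm (index_dvd_card _) h1] at h3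
      exact (Nat.mul_eq_right Nat.card_pos.ne').1 h3
    have h3 : m = 1 := mem_bot.1 (h2 ▸ self_mem_cen m)
    rw [h3, index_cen_one] at h1
    exact ha.not_dvd_one (haM.trans h1)
  refine Nat.eq_of_factorization_eq Nat.card_pos.ne' Nat.card_pos.ne' fun r => ?_
  by_cases hr : r.Prime
  swap
  · simp [Nat.factorization_eq_zero_of_not_prime _ hr]
  by_cases hrM : r ∣ Nat.card M
  · by_cases hrA : r ∈ A
    · exact main Nat.card_pos.ne' Aᶜ (fun g hg => by rw [compl_compl]; exact (H1 g hg).symm)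
        (fun g hg => H2 g (by rw [compl_compl] at hg; exact hg.symm)) H3 hb hbA hbM
        (dvd_card_of_range hZM H3' hb hbM) hr (by rwa [compl_compl]) hrM
    · exact main Nat.card_pos.ne' A H1 H2 H3 ha haA haM (dvd_card_of_range hZM H3' ha haM) hr hrA hrM
  · rw [Nat.factorization_eq_zero_of_not_dvd hrM,
      Nat.factorization_eq_zero_of_not_dvd fun h => hrM (dvd_card_of_range hZG H3 hr h)]

end Cfsg.Agent.S4184
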