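import Cfsg.Statements.S4186

set_option autoImplicit false
open Cfsg

namespace Cfsg.Agent.S4186

/-- Let T and X be subgroups of a group with T a finite 2-group normalizing X but not centralizing it. Then some element of T inverts some non-identity element of X under conjugation. -/
theorem result {G : Type*} [Group G] (T X : Subgroup G) [Finite ↥T] (hT : IsPGroup 2 ↥T) (hTN : T ≤ Subgroup.normalizer (X : Set G)) (hTC : ¬ T ≤ Subgroup.centralizer (X : Set G)) : ∃ t ∈ T, ∃ x ∈ X, x ≠ 1 ∧ t * x * t⁻¹ = x⁻¹ := by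
  classical
  have hex : ∃ t ∈ T, ¬ t ∈ Subgroup.centralizer (X : Set G) := by
    by_contra h
    push Not at h
    exact hTC h
  obtain ⟨t, htT, ht⟩ := hex
  obtain ⟨k, hk⟩ := hT ⟨t, htT⟩
  have hk' : t ^ (2 ^ k) = 1 := by simpa using congrArg Subtype.val hk
  have hE : ∃ j : ℕ, t ^ (2 ^ j) ∈ Subgroup.centralizer (X : Set G) := ⟨k, by rw [hk']; exact Subgroup.one_mem _⟩
  have hj := Nat.find_spec hE
  have hj0 : Nat.find hE ≠ 0 := by
    intro h0
    rw [h0] at hj
    simp at hj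
    exact ht hj
  obtain ⟨i, hi⟩ := Nat.exists_eq_succ_of_ne_zero hj0
  have hni : ¬ t ^ (2 ^ i) ∈ Subgroup.centralizer (X : Set G) := Nat.find_min hE (by omega)
  set s := t ^ (2 ^ i) with hs
  have hsT : s ∈ T := T.pow_mem htT _
  have hs2 : s * s ∈ Subgroup.centralizer (X : Set G) := by
    rw [hi] at hj
    have : s * s = t ^ (2 ^ i.succ) := by
      rw [hs, ← pow_add]; congr 1; rw [Nat.pow_succ]; omega
    rw [this]; exact hj
  rw [Subgroup.mem_centralizer_iff] at hni hs2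
  push Not at hni
  obtain ⟨y, hyX, hy⟩ := hni
  have hconj : s * y * s⁻¹ ∈ X := (Subgroup.mem_normalizer_iff.mp (hTN hsT) y).mp hyX
  refine ⟨s, hsT, y⁻¹ * (s * y * s⁻¹), X.mul_mem (X.inv_mem hyX) hconj, ?_, ?_⟩
  · intro h
    apply hy
    have h1 : s * y * s⁻¹ = y := by
      have := congrArg (fun z => y * z) h
      simpa [← mul_assoc] using this
    calc y * s = (s * y * s⁻¹) * s := by rw [h1]
      _ = s * y := by group
  · have h2 := hs2 y hyX
    calc s * (y⁻¹ * (s * y * s⁻¹)) * s⁻¹ = s * y⁻¹ * s⁻¹ * ((s * s) * y) * s⁻¹ * s⁻¹ := by group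
      _ = s * y⁻¹ * s⁻¹ * (y * (s * s)) * s⁻¹ * s⁻¹ := by rw [h2]
      _ = (y⁻¹ * (s * y * s⁻¹))⁻¹ := by group

end Cfsg.Agent.S4186
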