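import Cfsg.Statements.S4188
import Cfsg.Agent.ORD.FratBound

set_option autoImplicit false
open Cfsg

namespace Cfsg.Agent.S4188

/-- Let G be a finite group that is the semidirect product of a normal abelian subgroup N of odd order by a 2-subgroup P, and suppose N is the unique minimal normal subgroup of G. Then the index of the Frattini subgroup of P in P is at most #N − 1. -/
theorem result {G : Type*} [Group G] [Finite G] (N P : Subgroup G) (hN : N.Normal) (hNab : IsMulCommutative ↥N) (hNodd : Odd (Nat.card ↥N)) (hP : IsPGroup 2 ↥P) (hdisj : N ⊓ P = ⊥) (hprod : N ⊔ P = ⊤) (hmin : N ≠ ⊥ ∧ ∀ M : Subgroup G, M.Normal → M ≠ ⊥ → N ≤ M) : (frattini ↥P).index ≤ Nat.card ↥N - 1 := by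
  letI : CommGroup N := { mul_comm := hNab.is_comm.comm }
  let φ : P →* MulAut N := (MulAut.conjNormal (H := N)).comp P.subtype
  have hφ : Function.Injective φ := by
    rw [← MonoidHom.ker_eq_bot_iff]
    have hC : φ.ker.map P.subtype = P ⊓ Subgroup.centralizer (N : Set G) := by
      ext g
      constructor
      · rintro ⟨x, hx, rfl⟩
        refine ⟨x.2, fun n hn => ?_⟩
        have := congrArg Subtype.val (DFunLike.congr_fun (MonoidHom.mem_ker.1 hx) ⟨n, hn⟩)
        exact (mul_inv_eq_iff_eq_mul.1 this).symm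
      · rintro ⟨h1, h2⟩
        exact ⟨⟨g, h1⟩, MulEquiv.ext fun n => Subtype.ext
          (mul_inv_eq_iff_eq_mul.2 (h2 n n.2).symm), rfl⟩
    have hn : (P ⊓ Subgroup.centralizer (N : Set G)).Normal := by
      rw [← Subgroup.normalizer_eq_top_iff, eq_top_iff, ← hprod, sup_le_iff]
      constructor
      · intro n hn
        refine Subgroup.centralizer_le_normalizer _ fun x hx => ?_
        exact (hx.2 n hn).symm
      · exact (le_inf Subgroup.le_normalizer (Subgroup.le_normalizer_of_normal)).trans
          (Subgroup.inf_normalizer_le_normalizer_inf)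
    rw [← Subgroup.map_eq_bot_iff_of_injective _ P.subtype_injective, hC]
    by_contra h
    exact hmin.1 (eq_bot_iff.2 (hdisj ▸ le_inf le_rfl ((hmin.2 _ hn h).trans inf_le_left)))
  have h1 := (CL.Ord.FB.main _ N rfl hNodd P hP φ hφ).1
  have h2 := (Subgroup.one_lt_card_iff_ne_bot N).2 hmin.1
  obtain ⟨k, hk⟩ := hNodd
  omega

end Cfsg.Agent.S4188
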