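import Cfsg.Statements.S4189
import Cfsg.Agent.S3116
import Cfsg.Agent.PERM.SharpThree
import Cfsg.Agent.SOLV.MaxClass

set_option autoImplicit false
open Cfsg

namespace Cfsg.Agent.S4189

/-- Let P be a finite non-abelian 2-group whose commutator subgroup has index 4 and whose automorphism group is not a 2-group (some automorphism has order that is not a power of 2). Then P is isomorphic to the quaternion group of order 8. -/
theorem result {P : Type*} [Group P] [Finite P] (hP : IsPGroup 2 P) (hna : ¬ IsMulCommutative P) (h4 : (commutator P).index = 4) (haut : ¬ IsPGroup 2 (MulAut P)) : Nonempty (P ≃* QuaternionGroup 2) := by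
  obtain ⟨m, hm⟩ := IsPGroup.iff_card.mp hP
  have h1 : 1 < Nat.card (commutator P) := by
    rw [Finite.one_lt_card_iff_nontrivial, Subgroup.nontrivial_iff_ne_bot]
    exact fun h => hna ((commutator_eq_bot_iff P).mp h)
  have h2 := (commutator P).card_mul_index
  rw [h4, hm] at h2
  have h3 : 2 < m := by
    rw [← Nat.pow_lt_pow_iff_right one_lt_two]
    omega
  obtain ⟨n, rfl⟩ : ∃ n, m = n + 3 := ⟨m - 3, by omega⟩
  obtain ⟨a, b, h⟩ := CL.PCyc.exists_isDQS_of_index_commutator hm h4.le
  rcases h.trichotomy with ⟨-, he⟩ | ⟨⟨e⟩⟩ | ⟨-, -, -, he⟩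
  · refine (haut (Cfsg.Agent.S3116.result hP (Or.inl ⟨_, ?_, he⟩))).elim
    exact Nat.pow_le_pow_right two_pos (show 2 ≤ n + 2 by omega)
  · rcases n with _ | n
    · exact ⟨e⟩
    · exact (haut ((CL.Zass.isPGroup_mulAut_quaternion (n := n + 1 + 2 - 1) (by omega)).of_equiv
        (MulAut.congr e).symm)).elim
  · exact (haut (Cfsg.Agent.S3116.result hP (Or.inr he))).elim

end Cfsg.Agent.S4189
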