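import Cfsg.Statements.S4196
import Cfsg.Agent.S4195

set_option autoImplicit false
open Cfsg

namespace Cfsg.Agent.S4196

/-- A finite group G has elementary abelian Sylow 2-subgroups (commutative with every element squaring to the identity) if and only if every 2-element of G has a Sylow 2-subgroup in its centralizer and is conjugate to its inverse. -/
theorem result {G : Type*} [Group G] [Finite G] (P : Sylow 2 G) :
    (IsMulCommutative (P : Subgroup G) ∧ ∀ x ∈ (P : Subgroup G), x ^ 2 = 1) ↔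
      ∀ x : G, (∃ k : ℕ, orderOf x = 2 ^ k) → (∃ Q : Sylow 2 G, (Q : Subgroup G) ≤ Subgroup.centralizer ({x} : Set G)) ∧ IsConj x x⁻¹ := by
  classical
  constructor
  · rintro ⟨hcomm, hsq⟩ x ⟨k, hk⟩
    have hx : IsPGroup 2 (Subgroup.zpowers x) := by
      apply IsPGroup.of_card (n := k)
      rw [Nat.card_zpowers, hk]
    obtain ⟨Q, hQ⟩ := hx.exists_le_sylow
    have hxQ : x ∈ (Q : Subgroup G) := hQ (Subgroup.mem_zpowers x)
    obtain ⟨g, rfl⟩ := MulAction.exists_smul_eq G P Q
    have hmem : ∀ y : G, y ∈ ((g • P : Sylow 2 G) : Subgroup G) → g⁻¹ * y * g ∈ (P : Subgroup G) := by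
      intro y hy
      rw [Sylow.coe_subgroup_smul, Subgroup.mem_pointwise_smul_iff_inv_smul_mem] at hy
      simpa using hy
    refine ⟨⟨g • P, ?_⟩, ?_⟩
    · intro y hy
      rw [Subgroup.mem_centralizer_singleton_iff]
      have h := congrArg Subtype.val
        (hcomm.is_comm.comm ⟨_, hmem y hy⟩ ⟨_, hmem x hxQ⟩)
      simp only [Subgroup.coe_mul] at h
      have h2 : g * (g⁻¹ * y * g * (g⁻¹ * x * g)) * g⁻¹ = g * (g⁻¹ * x * g * (g⁻¹ * y * g)) * g⁻¹ := by
        rw [h]
      simpa [mul_assoc] using h2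
    · have h := hsq _ (hmem x hxQ)
      have h2 : x ^ 2 = 1 := by
        have : x ^ 2 = g * (g⁻¹ * x * g) ^ 2 * g⁻¹ := by simp [pow_two, mul_assoc]
        rw [this, h]; simp
      have : x⁻¹ = x := by
        rw [pow_two] at h2
        exact inv_eq_of_mul_eq_one_right h2
      rw [this]
  · intro h
    have hsq : ∀ x ∈ (P : Subgroup G), x ^ 2 = 1 := by
      intro x hx
      by_cases hx1 : x = 1
      · simp [hx1]
      obtain ⟨k, hk⟩ := (IsPGroup.iff_orderOf.mp P.isPGroup') ⟨x, hx⟩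
      obtain ⟨⟨Q, hQ⟩, hc⟩ := h x ⟨k, by rw [← hk, Subgroup.orderOf_mk]⟩
      have := Cfsg.Agent.S4195.result x hx1 Q hQ hc
      rw [← this]; exact pow_orderOf_eq_one x
    refine ⟨⟨⟨?_⟩⟩, hsq⟩
    rintro ⟨a, ha⟩ ⟨b, hb⟩
    apply Subtype.ext
    simp only [Subgroup.coe_mul]
    have inv : ∀ x ∈ (P : Subgroup G), x⁻¹ = x := fun x hx => by
      have h2 := hsq x hx
      rw [pow_two] at h2
      exact inv_eq_of_mul_eq_one_right h2
    have := inv _ ((P : Subgroup G).mul_mem ha hb)
    rw [mul_inv_rev, inv a ha, inv b hb] at this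
    exact this.symm

end Cfsg.Agent.S4196
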