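import Cfsg.Statements.S4230

set_option autoImplicit false
open Cfsg

namespace Cfsg.Agent.S4230

/-- Let p be an odd prime, q a natural number not divisible by p, and e the multiplicative order of q modulo p. For a natural number f, p divides the value at q of the f-th cyclotomic polynomial if and only if f = e·p^j for some j ≥ 0. -/
theorem result (p q f : ℕ) (hp : p.Prime) (hp2 : p ≠ 2) (hpq : ¬ p ∣ q) :
    ((p : ℤ) ∣ (Polynomial.cyclotomic f ℤ).eval (q : ℤ)) ↔ ∃ j : ℕ, f = orderOf (q : ZMod p) * p ^ j := by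
  have := Fact.mk hp
  have hev : ∀ n : ℕ, ((p : ℤ) ∣ (Polynomial.cyclotomic n ℤ).eval (q : ℤ)) ↔
      (Polynomial.cyclotomic n (ZMod p)).IsRoot (q : ZMod p) := by
    intro n
    rw [← ZMod.intCast_zmod_eq_zero_iff_dvd, Polynomial.IsRoot.def,
      ← Polynomial.map_cyclotomic_int n (ZMod p), Polynomial.eval_map,
      ← map_natCast (Int.castRingHom (ZMod p)) q, Polynomial.eval₂_hom, eq_intCast]
  have hq0 : (q : ZMod p) ≠ 0 := by rwa [Ne, ZMod.natCast_eq_zero_iff]
  have he : orderOf (q : ZMod p) ∣ p - 1 := ZMod.orderOf_dvd_card_sub_one hq0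
  have hp1 := hp.one_lt
  have he0 : orderOf (q : ZMod p) ≠ 0 := by
    intro h
    rw [h, zero_dvd_iff] at he
    omega
  rw [hev]
  constructor
  · intro h
    rcases Nat.eq_zero_or_pos f with rfl | hf
    · simp at h
    obtain ⟨k, m, hm, rfl⟩ := Nat.exists_eq_pow_mul_and_not_dvd hf.ne' p hp.ne_one
    have : NeZero (m : ZMod p) := ⟨by rwa [Ne, ZMod.natCast_eq_zero_iff]⟩
    have h1 := Polynomial.isRoot_cyclotomic_prime_pow_mul_iff_of_charP.1 h
    exact ⟨k, by rw [← h1.eq_orderOf, mul_comm]⟩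
  · rintro ⟨j, rfl⟩
    have : NeZero ((orderOf (q : ZMod p) : ℕ) : ZMod p) := ⟨by
      rw [Ne, ZMod.natCast_eq_zero_iff]
      intro h
      have h1 := Nat.le_of_dvd (Nat.pos_of_ne_zero he0) h
      have h2 := Nat.le_of_dvd (by omega) he
      omega⟩
    rw [mul_comm]
    exact Polynomial.isRoot_cyclotomic_prime_pow_mul_iff_of_charP.2 (IsPrimitiveRoot.orderOf _)

end Cfsg.Agent.S4230
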