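import Cfsg.Statements.S4234
import Cfsg.Agent.S0799
import Cfsg.Agent.S0809
import Cfsg.Agent.INV.SmallBasic
import Cfsg.Agent.CLAS.SL2Lift

set_option autoImplicit false
open Cfsg

namespace Cfsg.Agent.S4234

open Subgroup CL.Small

/-- every non-normal subgroup has a maximal normalizer -/
def NM (G : Type*) [Group G] : Prop := ∀ H : Subgroup G, ¬ H.Normal → IsCoatom (normalizer (H : Set G))

theorem NM.of_equiv {G G' : Type*} [Group G] [Group G'] (h : NM G') (e : G ≃* G') : NM G := fun H hH => by
  have h1 : (H.map (e : G →* G')).comap (e : G →* G') = H := comap_map_eq_self_of_injective e.injective H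
  rw [← h1, ← comap_normalizer_eq_of_surjective _ e.surjective]
  exact isCoatom_comap_of_surjective e.surjective (h _ fun hn => hH (h1 ▸ hn.comap _))

section Abs

variable {G : Type*} [Group G] [Finite G] [IsSimpleGroup G]

theorem nm_abs (hc : Nat.card G = 1092)
    (hl : ∀ M : Subgroup G, M ≠ ⊤ → Nat.card M ∣ 12 ∨ Nat.card M ∣ 14 ∨ Nat.card M ∣ 78)
    (hi : ∀ x y : G, orderOf x = 2 → orderOf y = 2 → IsConj x y) : NM G := by
  have hG : ¬ IsMulCommutative G := not_comm_of_not_prime (by rw [hc]; norm_num)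
  have : Fact (Nat.Prime 13) := ⟨by norm_num⟩
  have : Fact (Nat.Prime 7) := ⟨by norm_num⟩
  have syl : ∀ (p : ℕ) [Fact p.Prime] (H : Subgroup G) (a m : ℕ), Nat.card H = p ^ a → 1092 = p ^ a * m → ¬ p ∣ m →
      ∃ P : Sylow p G, (P : Subgroup G) = H := fun p _ H a m h1 h2 h3 => by
    obtain ⟨P, hP⟩ := (IsPGroup.of_card h1).exists_le_sylow
    exact ⟨P, (eq_of_le_of_card_ge hP (by rw [card_sylow_eq_of_factor P (hc.trans h2) h3, h1])).symm⟩
  have cN : ∀ (p : ℕ) [Fact p.Prime] (P : Sylow p G), p ∣ 1092 → ∃ n k, n * k = 1092 ∧ n % p = 1 ∧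
      k = Nat.card (normalizer ((P : Subgroup G) : Set G)) ∧ Nat.card P ∣ k ∧ (k ∣ 12 ∨ k ∣ 14 ∨ k ∣ 78) :=
    fun p _ P hp => ⟨_, _, (card_sylow_mul_card_normalizer P).trans hc, card_sylow_mod, rfl,
      card_dvd_of_le le_normalizer, hl _ (sylow_normalizer_ne_top hG P (hc ▸ hp))⟩
  have dv : ∀ {k : ℕ}, k ∣ 12 ∨ k ∣ 14 ∨ k ∣ 78 → k ∈ [1, 2, 3, 4, 6, 7, 12, 13, 14, 26, 39, 78] := by
    intro k hk
    have : k ≤ 78 := by rcases hk with h | h | h <;> have := Nat.le_of_dvd (by norm_num) h <;> omega
    revert hk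
    interval_cases k <;> decide
  have n13 : ∀ H : Subgroup G, Nat.card H = 13 → Nat.card (normalizer (H : Set G)) = 78 := fun H h => by
    obtain ⟨P, rfl⟩ := syl 13 H 1 84 h rfl (by norm_num)
    obtain ⟨n, k, h1, h2, h3, h4, h5⟩ := cN 13 P (by norm_num)
    rw [← h3]
    rw [h] at h4
    have := dv h5
    simp only [List.mem_cons, List.not_mem_nil, or_false] at this
    rcases this with h | h | h | h | h | h | h | h | h | h | h | h <;> subst h <;> omega
  have n7 : ∀ H : Subgroup G, Nat.card H = 7 → Nat.card (normalizer (H : Set G)) = 14 := fun H h => by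
    obtain ⟨P, rfl⟩ := syl 7 H 1 156 h rfl (by norm_num)
    obtain ⟨n, k, h1, h2, h3, h4, h5⟩ := cN 7 P (by norm_num)
    rw [← h3]
    rw [h] at h4
    have := dv h5
    simp only [List.mem_cons, List.not_mem_nil, or_false] at this
    rcases this with h | h | h | h | h | h | h | h | h | h | h | h <;> subst h <;> omega
  have n4 : ∀ H : Subgroup G, Nat.card H = 4 → Nat.card (normalizer (H : Set G)) = 12 := fun H h => by
    obtain ⟨P, rfl⟩ := syl 2 H 2 273 h rfl (by norm_num)
    obtain ⟨n, k, h1, h2, h3, h4, h5⟩ := cN 2 P (by norm_num)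
    have h6 : k ≠ 4 := fun h6 => not_normalizer_le_centralizer hG P (by rw [hc]; norm_num) (by
      have : IsMulCommutative P := IsPGroup.isMulCommutative_of_card_eq_prime_sq (p := 2) h
      rw [← eq_of_le_of_card_ge le_normalizer (by rw [← h3, h6, h])]
      exact le_centralizer _)
    rw [← h3]
    rw [h] at h4
    have := dv h5
    simp only [List.mem_cons, List.not_mem_nil, or_false] at this
    rcases this with h | h | h | h | h | h | h | h | h | h | h | h <;> subst h <;> omega
  have n3 : ∀ H : Subgroup G, Nat.card H = 3 → Nat.card (normalizer (H : Set G)) = 12 ∧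
      Nat.card (centralizer (H : Set G)) = 6 := fun H h => by
    obtain ⟨P, rfl⟩ := syl 3 H 1 364 h rfl (by norm_num)
    obtain ⟨n, k, h1, h2, h3, h4, h5⟩ := cN 3 P (by norm_num)
    have h6 := relIndex_centralizer_ne_one hG P (by rw [hc]; norm_num)
    have h7 := relIndex_centralizer_dvd_card_mulAut (P : Subgroup G)
    have : IsCyclic P := isCyclic_of_prime_card h
    rw [IsCyclic.card_mulAut, h] at h7
    have h8 := card_centralizer_mul_relIndex (P : Subgroup G)
    rw [((Nat.dvd_prime Nat.prime_two).1 h7).resolve_left h6] at h8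
    rw [← h3] at h8 ⊢
    rw [h] at h4
    have := dv h5
    simp only [List.mem_cons, List.not_mem_nil, or_false] at this
    rcases this with h | h | h | h | h | h | h | h | h | h | h | h <;> subst h <;> omega
  have nz : ∀ x : G, normalizer (zpowers x : Set G) ≠ ⊤ → ∀ m, m ∣ Nat.card (centralizer ({x} : Set G)) →
      m ∣ Nat.card (normalizer (zpowers x : Set G)) := fun x _ m hm => hm.trans (card_dvd_of_le (by
    rw [← centralizer_closure, ← zpowers_eq_closure]; exact centralizer_le_normalizer' (zpowers x)))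
  have c2 : ∀ x : G, orderOf x = 2 → 12 ∣ Nat.card (centralizer ({x} : Set G)) := fun x hx => by
    refine (by norm_num : Nat.Coprime 4 3).mul_dvd_of_dvd_of_dvd ?_ ?_
    · obtain ⟨P, hP⟩ := (IsPGroup.of_card (p := 2) (n := 1) ((Nat.card_zpowers x).trans hx)).exists_le_sylow
      have h := card_sylow_eq_of_factor P (a := 2) (m := 273) hc (by norm_num)
      have : IsMulCommutative P := IsPGroup.isMulCommutative_of_card_eq_prime_sq (p := 2) h
      exact (show 4 = _ from h.symm).dvd.trans (card_dvd_of_le ((le_centralizer _).trans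
        (centralizer_le (Set.singleton_subset_iff.2 (hP (mem_zpowers x))))))
    · obtain ⟨P⟩ : Nonempty (Sylow 3 G) := inferInstance
      have h := card_sylow_eq_of_factor P (a := 1) (m := 364) hc (by norm_num)
      obtain ⟨y, hy⟩ := exists_prime_orderOf_dvd_card' (G := centralizer ((P : Subgroup G) : Set G)) 2
        (by rw [(n3 _ h).2]; norm_num)
      obtain ⟨g, rfl⟩ := isConj_iff.1 (hi y x (by rw [orderOf_coe, hy]) hx)
      have h2 : (P : Subgroup G).map (MulAut.conj g).toMonoidHom ≤ centralizer {g * y * g⁻¹} := by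
        rintro _ ⟨u, hu, rfl⟩
        rw [mem_centralizer_singleton_iff]
        change g * u * g⁻¹ * _ = _ * (g * u * g⁻¹)
        rw [conj_mul, conj_mul, y.2 u hu]
      have := card_dvd_of_le h2
      rwa [card_map_of_injective (MulAut.conj g).injective, h] at this
  have key : ∀ H : Subgroup G, H ≠ ⊥ → H ≠ ⊤ → 12 ∣ Nat.card (normalizer (H : Set G)) ∨
      14 ∣ Nat.card (normalizer (H : Set G)) ∨ 78 ∣ Nat.card (normalizer (H : Set G)) := fun H h0 h1 => by
    have hN := card_dvd_of_le (le_normalizer (H := H))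
    have sub : ∀ p [Fact p.Prime], p ∣ Nat.card H → ¬ p ∣ Nat.card H / p → Nat.card H / p ≤ p →
        ∃ Q : Subgroup G, Nat.card Q = p ∧ Q ≤ H ∧ H ≤ normalizer (Q : Set G) := fun p _ d1 d2 d3 => by
      obtain ⟨Q⟩ : Nonempty (Sylow p H) := inferInstance
      have e : Nat.card H = p ^ 1 * (Nat.card H / p) := by rw [pow_one, Nat.mul_div_cancel' d1]
      have h2 := card_sylow_dvd_of_factor e d2
      have h3 := card_sylow_mod (G := H) (p := p)
      have h4 : Nat.card (Sylow p H) = 1 := by
        have := (Nat.le_of_dvd (Nat.pos_of_ne_zero fun h => d2 (by rw [h]; exact dvd_zero p)) h2).trans d3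
        rcases this.lt_or_eq with h | h
        · rwa [Nat.mod_eq_of_lt h] at h3
        · rw [h, Nat.mod_self] at h3; omega
      have := normal_of_card_sylow_eq_one h4 Q
      refine ⟨(Q : Subgroup H).map H.subtype, by
        rw [card_map_of_injective (subtype_injective _), card_sylow_eq_of_factor Q e d2, pow_one],
        map_subtype_le _, ?_⟩
      exact (by rw [normalizer_eq_top, ← MonoidHom.range_eq_map, range_subtype] :
        H = (normalizer ((Q : Subgroup H) : Set H)).map H.subtype).le.trans (le_normalizer_map _)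
    have two : ∀ N : Subgroup G, H ≤ N → Nat.card N = Nat.card H * 2 → N ≤ normalizer (H : Set G) := fun N h1 h2 => by
      have h3 := (H.subgroupOf N).card_mul_index
      rw [Nat.card_congr (subgroupOfEquivOfLe h1).toEquiv, h2] at h3
      exact le_normalizer_of_normal_subgroupOf h1 (hK := normal_of_index_eq_two
        (Nat.eq_of_mul_eq_mul_left Nat.card_pos h3))
    have := dv (hl H h1)
    simp only [List.mem_cons, List.not_mem_nil, or_false] at this
    rcases this with h | h | h | h | h | h | h | h | h | h | h | h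
    · exact (h0 (card_eq_one.1 h)).elim
    · obtain ⟨x, hx⟩ := exists_prime_orderOf_dvd_card' (G := H) 2 h.symm.dvd
      have hx' : orderOf (x : G) = 2 := by rw [orderOf_coe, hx]
      have e : zpowers (x : G) = H := eq_of_le_of_card_ge (zpowers_le.2 x.2) (by rw [Nat.card_zpowers, hx', h])
      rw [← e] at h0 h1 ⊢
      exact .inl (nz _ (normalizer_ne_top h0 h1) _ (c2 _ hx'))
    · exact .inl (n3 H h).1.symm.dvd
    · exact .inl (n4 H h).symm.dvd
    · obtain ⟨Q, q1, q2, q3⟩ := sub 3 (by simp [h]) (by simp [h]) (by simp [h])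
      exact .inl ((n3 Q q1).1.symm.dvd.trans (card_dvd_of_le (two _ q3 (by rw [(n3 Q q1).1, h]))))
    · exact .inr (.inl (n7 H h).symm.dvd)
    · exact .inl (h ▸ hN)
    · exact .inr (.inr (n13 H h).symm.dvd)
    · exact .inr (.inl (h ▸ hN))
    · obtain ⟨Q, q1, q2, q3⟩ := sub 13 (by simp [h]) (by simp [h]) (by simp [h])
      refine .inr (.inr ((n13 Q q1).symm.dvd.trans (card_dvd_of_le ?_)))
      have : IsCyclic Q := isCyclic_of_prime_card q1
      have : IsMulCommutative Q := inferInstance
      have hC : centralizer (Q : Set G) = Q := by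
        refine (eq_of_le_of_card_ge (le_centralizer _) ?_).symm
        have d1 := card_dvd_of_le (centralizer_le_normalizer' Q)
        have d2 := card_dvd_of_le (le_centralizer Q)
        rw [n13 Q q1] at d1
        rw [q1] at d2 ⊢
        have no : ∀ p [Fact p.Prime], p = 2 ∨ p = 3 → ¬ p ∣ Nat.card (centralizer (Q : Set G)) := fun p _ hp d => by
          obtain ⟨y, hy⟩ := exists_prime_orderOf_dvd_card' p d
          have hy' : orderOf (y : G) = p := by rw [orderOf_coe, hy]
          have d3 : 13 ∣ Nat.card (centralizer ({y.1} : Set G)) :=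
            q1 ▸ card_dvd_of_le fun u hu => mem_centralizer_singleton_iff.2 (y.2 u hu)
          rcases hp with rfl | rfl
          · have d4 := c2 _ hy'
            have := dv (hl _ (centralizer_ne_top hG (x := y.1) fun h => by simp [h] at hy'))
            simp only [List.mem_cons, List.not_mem_nil, or_false] at this
            omega
          · have := (n3 _ ((Nat.card_zpowers y.1).trans hy')).2
            rw [zpowers_eq_closure, centralizer_closure] at this
            omega
        have e2 := no 2 (.inl rfl)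
        have e3 := no 3 (.inr rfl)
        have := dv (.inr (.inr d1))
        simp only [List.mem_cons, List.not_mem_nil, or_false] at this
        omega
      intro n hn
      refine mem_normalizer_fintype fun x hx => ?_
      have h2 : n * x * n⁻¹ * x⁻¹ ∈ Q := by
        rw [← hC]
        let f := Q.normalizerMonoidHom
        have h3 : (⟨n, hn⟩ * ⟨x, q3 hx⟩ * ⟨n, hn⟩⁻¹ * ⟨x, q3 hx⟩⁻¹ : normalizer (Q : Set G)) ∈ f.ker := by
          rw [MonoidHom.mem_ker, map_mul, map_mul, map_mul, map_inv, map_inv]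
          have := (IsCyclic.mulAutMulEquiv Q).injective
          refine this ?_
          simp only [map_mul, map_inv, map_one]
          rw [mul_comm _ (IsCyclic.mulAutMulEquiv Q (f ⟨x, q3 hx⟩))]
          group
        rw [normalizerMonoidHom_ker] at h3
        exact h3
      simpa using mul_mem (q2 h2) hx
    · obtain ⟨Q, q1, q2, q3⟩ := sub 13 (by simp [h]) (by simp [h]) (by simp [h])
      exact .inr (.inr ((n13 Q q1).symm.dvd.trans (card_dvd_of_le (two _ q3 (by rw [n13 Q q1, h])))))
    · exact .inr (.inr (h ▸ hN))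
  intro H hH
  have h0 : H ≠ ⊥ := fun h => hH (h ▸ inferInstance)
  have h1 : H ≠ ⊤ := fun h => hH (h ▸ inferInstance)
  refine ⟨normalizer_ne_top h0 h1, fun M hM => by_contra fun hM' => hM.ne (eq_of_le_of_card_ge hM.le ?_)⟩
  have d1 := card_dvd_of_le hM.le
  have d2 := dv (hl M hM')
  have d3 := key H h0 h1
  have d4 := Nat.card_pos (α := normalizer (H : Set G))
  simp only [List.mem_cons, List.not_mem_nil, or_false] at d2
  rcases d3 with d | d | d <;> have := d.trans d1 <;> have := Nat.le_of_dvd d4 d <;> omega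

end Abs

instance fact13 : Fact (Nat.Prime 13) := ⟨by norm_num⟩

theorem nm_psl : NM (Matrix.ProjectiveSpecialLinearGroup (Fin 2) (ZMod 13)) := by
  have hc : Nat.card (Matrix.ProjectiveSpecialLinearGroup (Fin 2) (ZMod 13)) = 1092 := by
    have := CL.SL.gcd_mul_card_PSL_two (F := ZMod 13)
    rw [Nat.card_zmod] at this
    exact Nat.eq_of_mul_eq_mul_left two_pos this
  have hs : IsSimpleGroup (Matrix.ProjectiveSpecialLinearGroup (Fin 2) (ZMod 13)) :=
    CL.SL.psl_isSimpleGroup_of_perfect (CL.SL.commutator_eq_top_of_sq_ne_one (a := 2) (by decide) (by decide))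
  obtain ⟨A, hA⟩ := Sylow.exists_subgroup_card_pow_prime (G := Matrix.SpecialLinearGroup (Fin 2) (ZMod 13)) 2 (n := 2)
    (by rw [CL.SL.card_SL_two, Nat.card_zmod]; norm_num)
  refine nm_abs hc (fun M hM => ?_) (S0809.result (F := ZMod 13) (q := 13) (by simp) (by decide) A hA).2.2.2
  have hd := card_subgroup_dvd_card M
  have hne : Nat.card M ≠ 1092 := fun h => hM (eq_top_of_card_eq _ (h.trans hc.symm))
  rw [hc] at hd
  rcases S0799.result (F := ZMod 13) (q := 13) (by simp) 13 M with ⟨k, hk, h | ⟨⟨e⟩⟩⟩ | ⟨P, K, hK, ⟨e⟩⟩ | ⟨⟨e⟩⟩ | ⟨⟨e⟩⟩ |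
    ⟨⟨e⟩⟩ | ⟨K, _, _, m, hm, h⟩
  · rw [h.2]
    exact hk.symm.imp (·.trans (by norm_num)) fun h => .inl (h.trans (by norm_num))
  · rw [Nat.card_congr e.toEquiv, DihedralGroup.nat_card]
    exact hk.symm.imp (Nat.mul_dvd_mul_left 2) fun h => .inl (Nat.mul_dvd_mul_left 2 h)
  · refine .inr (.inr ?_)
    have h1 := card_sylow_mul_card_normalizer P
    have h2 := card_sylow_mod (G := Matrix.ProjectiveSpecialLinearGroup (Fin 2) (ZMod 13)) (p := 13)
    have h3 := card_sylow_dvd_of_factor (p := 13) (a := 1) (m := 84) hc (by norm_num)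
    have h4 := one_lt_card_sylow (p := 13) (not_comm_of_not_prime (by rw [hc]; norm_num)) (by rw [hc]; norm_num)
    have h5 := Nat.le_of_dvd (by norm_num) h3
    rw [hc] at h1
    rw [Nat.card_congr e.toEquiv]
    refine (card_dvd_of_le hK).trans (Eq.dvd ?_)
    generalize Nat.card (Sylow 13 (Matrix.ProjectiveSpecialLinearGroup (Fin 2) (ZMod 13))) = n at *
    interval_cases n <;> omega
  · rw [Nat.card_congr e.toEquiv, nat_card_alternatingGroup]; simp [Nat.factorial]
  · rw [Nat.card_congr e.toEquiv, Nat.card_perm] at hd; simp [Nat.factorial] at hd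
  · rw [Nat.card_congr e.toEquiv, nat_card_alternatingGroup] at hd; simp [Nat.factorial] at hd
  · have h13 : Nat.card K = 13 := by
      rw [Nat.card_eq_fintype_card]
      exact ((Nat.Prime.pow_eq_iff (by norm_num)).1 hm).1
    obtain ⟨⟨e⟩⟩ | ⟨⟨e⟩⟩ := h
    · have := CL.SL.gcd_mul_card_PSL_two (F := K)
      rw [h13, ← Nat.card_congr e.toEquiv] at this
      norm_num at this
      omega
    · rw [Nat.card_congr e.toEquiv, CL.SL.card_PGL_eq_card_SL, CL.SL.card_SL_two, h13] at hd
      norm_num at hd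

theorem nm_sl : NM (Matrix.SpecialLinearGroup (Fin 2) (ZMod 13)) := fun H hH => by
  let π := QuotientGroup.mk' (center (Matrix.SpecialLinearGroup (Fin 2) (ZMod 13)))
  have hπ : Function.Surjective π := QuotientGroup.mk'_surjective _
  have h2 : (2 : ZMod 13) ≠ 0 := by decide
  have hz : ∀ z ∈ center (Matrix.SpecialLinearGroup (Fin 2) (ZMod 13)), z = 1 ∨ z = -1 := fun z hz => by
    refine or_iff_not_imp_left.2 (CL.Dk.eq_neg_one_of_mul_self h2 ?_)
    have := pow_card_eq_one' (x := (⟨z, hz⟩ : center (Matrix.SpecialLinearGroup (Fin 2) (ZMod 13))))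
    rw [CL.SL.card_center_SL, Nat.card_zmod] at this
    have h3 : z ^ 2 = 1 := congrArg Subtype.val this
    rwa [pow_two] at h3
  have key : (normalizer ((H.map π : Subgroup _) : Set _)).comap π = normalizer (H : Set _) := by
    refine le_antisymm (fun g hg => mem_normalizer_fintype fun x hx => ?_)
      (le_normalizer_map π |>.trans' le_rfl |> fun h g hg => h ⟨g, hg, rfl⟩)
    obtain ⟨y, hy, e⟩ := (mem_normalizer_iff.1 hg _).1 (mem_map_of_mem π hx)
    have e' : y⁻¹ * (g * x * g⁻¹) ∈ center (Matrix.SpecialLinearGroup (Fin 2) (ZMod 13)) := by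
      rw [← QuotientGroup.ker_mk' (center _), MonoidHom.mem_ker, map_mul, map_inv, map_mul, map_mul, map_inv]
      exact inv_mul_eq_one.2 e
    rcases hz _ e' with h | h
    · rwa [← inv_mul_eq_one.1 h]
    rw [inv_mul_eq_iff_eq_mul] at h
    by_cases h1 : -1 ∈ H
    · exact h ▸ mul_mem hy h1
    exfalso
    have ho : Odd (Nat.card H) := Nat.not_even_iff_odd.1 fun he => by
      obtain ⟨t, ht⟩ := exists_prime_orderOf_dvd_card' (G := H) 2 he.two_dvd
      refine h1 (CL.Dk.eq_neg_one_of_mul_self h2 (g := t.1) ?_ (fun h => by rw [← orderOf_coe, h] at ht; simp at ht) ▸ t.2)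
      exact (pow_two _).symm.trans (congrArg Subtype.val (ht ▸ pow_orderOf_eq_one t))
    have e1 : x ^ Nat.card H = 1 := congrArg Subtype.val (pow_card_eq_one' (x := (⟨x, hx⟩ : H)))
    have e2 : y ^ Nat.card H = 1 := congrArg Subtype.val (pow_card_eq_one' (x := (⟨y, hy⟩ : H)))
    have := congrArg (· ^ Nat.card H) h
    simp only [conj_pow, e1, mul_neg, mul_one, ho.neg_pow, e2, mul_inv_cancel] at this
    exact CL.Dk.neg_one_ne_one_SL2 h2 this.symm
  rw [← key]
  refine isCoatom_comap_of_surjective hπ (nm_psl _ fun hn => hH ?_)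
  rw [← normalizer_eq_top_iff, ← key, normalizer_eq_top_iff.2 hn, comap_top]

theorem result {K S : Type*} [Group K] [CommGroup S] [Finite K] [Finite S]
    (hK : Nonempty (K ≃* Matrix.ProjectiveSpecialLinearGroup (Fin 2) (ZMod 13)) ∨
      Nonempty (K ≃* Matrix.SpecialLinearGroup (Fin 2) (ZMod 13)))
    (hKS : (Nat.card K).Coprime (Nat.card S)) (H : Subgroup (K × S)) (hH : ¬ H.Normal) :
    IsCoatom (Subgroup.normalizer (H : Set (K × S))) := by
  have h : NM K := hK.elim (fun ⟨e⟩ => nm_psl.of_equiv e) fun ⟨e⟩ => nm_sl.of_equiv e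
  have k1 : ∀ x ∈ H, (x.1, (1 : S)) ∈ H := fun x hx => by
    obtain ⟨m, m1, m2⟩ := Nat.chineseRemainder hKS 1 0
    have := pow_mem hx m
    rwa [show x ^ m = (x.1, 1) from Prod.ext
      ((pow_eq_pow_iff_modEq.2 (m1.of_dvd (orderOf_dvd_natCard _))).trans (pow_one _))
      ((pow_eq_pow_iff_modEq.2 (m2.of_dvd (orderOf_dvd_natCard _))).trans (pow_zero _))] at this
  have key : (normalizer ((H.comap (MonoidHom.inl K S) : Subgroup K) : Set K)).comap (MonoidHom.fst K S) =
      normalizer (H : Set (K × S)) := by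
    refine le_antisymm (fun g hg => mem_normalizer_fintype fun x hx => ?_)
      (fun g hg => mem_normalizer_fintype fun x hx => ?_)
    · have h1 : (g.1 * x.1 * g.1⁻¹, (1 : S)) ∈ H := (mem_normalizer_iff.1 hg x.1).1 (k1 x hx)
      have := mul_mem (mul_mem h1 (inv_mem (k1 x hx))) hx
      rwa [show (g.1 * x.1 * g.1⁻¹, (1 : S)) * (x.1, 1)⁻¹ * x = g * x * g⁻¹ by ext <;> simp] at this
    · exact k1 _ ((mem_normalizer_iff.1 hg _).1 hx)
  rw [← key]
  refine isCoatom_comap_of_surjective Prod.fst_surjective (h _ fun hn => hH ?_)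
  rw [← normalizer_eq_top_iff, ← key, normalizer_eq_top_iff.2 hn, comap_top]

end Cfsg.Agent.S4234
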