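import Cfsg.Statements.S4237
import Cfsg.Agent.FGS.Kulakoff

set_option autoImplicit false
open Cfsg

namespace Cfsg.Agent.S4237

open scoped Pointwise in
theorem dvd_ncard_of_equivariant {A X Y : Type*} [Group A] [MulAction A X] [MulAction A Y]
    {S : Set X} (hS : S.Finite) (f : X → Y) {q r : ℕ} (h1 : ∀ a : A, ∀ x ∈ S, a • x ∈ S)
    (h2 : ∀ a : A, ∀ x ∈ S, f (a • x) = a • f x)
    (h3 : ∀ x ∈ S, q ∣ {y | y ∈ S ∧ f y = f x}.ncard)
    (h4 : ∀ x ∈ S, r ∣ (MulAction.stabilizer A (f x)).index) : q * r ∣ S.ncard := by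
  apply CL.Cnt.dvd_ncard_of_fiber hS (fun x => MulAction.orbit A (f x))
  intro x hx
  have hfin : (MulAction.orbit A (f x)).Finite := by
    apply (hS.image f).subset
    rintro _ ⟨a, rfl⟩
    exact ⟨a • x, h1 a x hx, h2 a x hx⟩
  rw [CL.Cnt.ncard_eq_mul_of_fiber (hS.subset fun y hy => hy.1) f hfin
    (q := {y | y ∈ S ∧ f y = f x}.ncard), ← MulAction.index_stabilizer]
  · exact mul_dvd_mul (h3 x hx) (h4 x hx)
  · intro y hy
    exact MulAction.orbit_eq_iff.mp hy.2
  · rintro _ ⟨a, rfl⟩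
    rw [← Set.ncard_image_of_injective {y | y ∈ S ∧ f y = f x} (MulAction.injective a)]
    congr 1
    ext y
    constructor
    · rintro ⟨⟨hy, -⟩, hy2⟩
      refine ⟨a⁻¹ • y, ⟨h1 _ _ hy, ?_⟩, by simp⟩
      rw [h2 _ _ hy, hy2]; simp
    · rintro ⟨z, ⟨hz, hz2⟩, rfl⟩
      have e : f (a • z) = a • f x := by rw [h2 _ _ hz, hz2]
      exact ⟨⟨h1 _ _ hz, by rw [e, MulAction.orbit_smul]⟩, e⟩

theorem card_mul_le {G : Type*} [Group G] [Finite G] {p : ℕ} [hp : Fact p.Prime]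
    {H K : Subgroup G} (hK : IsPGroup p K) (h : H < K) : Nat.card H * p ≤ Nat.card K := by
  rw [← CL.card_mul_relIndex_of_le h.le]
  exact Nat.mul_le_mul_left _ (Nat.le_of_dvd (Nat.pos_of_ne_zero Subgroup.index_ne_zero_of_finite)
    (CL.Cnt.dvd_relIndex_of_not_le hK h.not_ge))

open Subgroup in
open scoped Pointwise in
theorem sq_dvd_aux {G : Type*} [Group G] [Finite G] {p a : ℕ} [hp : Fact p.Prime] (P : Sylow p G)
    (h : p ^ (a + 1) ∣ Nat.card P) :
    p ^ 2 ∣ {H : Subgroup G | Nat.card H = p ^ a ∧ ¬ H ≤ P}.ncard := by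
  have hinv : ∀ g ∈ (P : Subgroup G), ∀ H : Subgroup G, Nat.card H = p ^ a ∧ ¬ H ≤ P →
      Nat.card ↥(MulAut.conj g • H) = p ^ a ∧ ¬ MulAut.conj g • H ≤ P := by
    intro g hg H hH
    refine ⟨by rw [CL.card_conj_smul]; exact hH.1, fun h => hH.2 fun x hx => ?_⟩
    have := h (CL.conj_mem_conj_smul (g := g) hx)
    rwa [(P : Subgroup G).mul_mem_cancel_right (inv_mem hg), (P : Subgroup G).mul_mem_cancel_left hg]
      at this
  have hrel : ∀ g ∈ (P : Subgroup G), ∀ H : Subgroup G,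
      (normalizer ((MulAut.conj g • H : Subgroup G) : Set G)).relIndex P =
        (normalizer (H : Set G)).relIndex P := by
    intro g hg H
    rw [CL.normalizer_conj_smul]
    conv_lhs => rw [← CL.conj_smul_of_mem hg]
    exact relIndex_pointwise_smul _ _ _
  rw [CL.Cnt.ncard_eq_add (Set.toFinite {H : Subgroup G | Nat.card H = p ^ a ∧ ¬ H ≤ P})
    (fun H => p ^ 2 ∣ (normalizer (H : Set G)).relIndex P)]
  apply Nat.dvd_add
  · apply CL.Cnt.dvd_ncard_of_conj P
    · rintro g hg H ⟨h1, h2⟩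
      exact ⟨hinv g hg H h1, by rw [hrel g hg]; exact h2⟩
    · exact fun H hH => hH.2
  letI : MulAction (P : Subgroup G) (Subgroup G) :=
    MulAction.compHom (Subgroup G) ((MulAut.conj : G →* MulAut G).comp (P : Subgroup G).subtype)
  -- basic facts
  have hfact : ∀ H : Subgroup G, Nat.card H = p ^ a → ¬ H ≤ P →
      ¬ p ^ 2 ∣ (normalizer (H : Set G)).relIndex P →
      Nat.card ↥(normalizer (H : Set G) ⊓ P) * p = Nat.card P ∧
      IsPGroup p ↥(H ⊔ normalizer (H : Set G) ⊓ P) ∧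
      (H ⊔ normalizer (H : Set G) ⊓ P) ⊓ P = normalizer (H : Set G) ⊓ P ∧
      Nat.card ↥(H ⊔ normalizer (H : Set G) ⊓ P) = Nat.card P := by
    intro H h1 h2 h3
    have hH : IsPGroup p H := IsPGroup.of_card h1
    have hn : ¬ (P : Subgroup G) ≤ normalizer (H : Set G) := fun h =>
      h2 (CL.Cnt.le_sylow_of_le_normalizer P hH h)
    obtain ⟨k, hk⟩ := P.isPGroup'.index ((normalizer (H : Set G)).subgroupOf P)
    have hk' : (normalizer (H : Set G)).relIndex P = p ^ k := hk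
    have hk1 : k = 1 := by
      rcases k with _ | _ | k
      · exact (hn (relIndex_eq_one.mp hk')).elim
      · rfl
      · exact (h3 (hk' ▸ pow_dvd_pow p (by omega))).elim
    have e1 : Nat.card ↥(normalizer (H : Set G) ⊓ P) * p = Nat.card P := by
      have := CL.card_mul_relIndex_of_le (inf_le_right : normalizer (H : Set G) ⊓ P ≤ P)
      rw [inf_relIndex_right, hk', hk1, pow_one] at this
      exact this
    have hQ : IsPGroup p ↥(H ⊔ normalizer (H : Set G) ⊓ P) :=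
      IsPGroup.to_sup_of_normal_left' hH (P.isPGroup'.to_inf_right) inf_le_left
    have hlt : normalizer (H : Set G) ⊓ P < H ⊔ normalizer (H : Set G) ⊓ P :=
      lt_of_le_not_ge le_sup_right fun h => h2 ((le_sup_left.trans h).trans inf_le_right)
    obtain ⟨Q, hQle⟩ := hQ.exists_le_sylow
    have e2 : Nat.card ↥(H ⊔ normalizer (H : Set G) ⊓ P) = Nat.card P := by
      apply le_antisymm
      · rw [← Q.card_eq_multiplicity.trans P.card_eq_multiplicity.symm]
        exact card_le_of_le hQle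
      · rw [← e1]
        exact card_mul_le hQ hlt
    refine ⟨e1, hQ, ?_, e2⟩
    symm
    by_contra hne
    have hlt2 : normalizer (H : Set G) ⊓ P < (H ⊔ normalizer (H : Set G) ⊓ P) ⊓ P :=
      lt_of_le_of_ne (le_inf le_sup_right inf_le_right) hne
    have h5 := card_mul_le P.isPGroup'.to_inf_right hlt2
    rw [e1] at h5
    have h6 : (H ⊔ normalizer (H : Set G) ⊓ P) ⊓ P = P := eq_of_le_of_card_ge inf_le_right h5
    have h7 : (P : Subgroup G) = H ⊔ normalizer (H : Set G) ⊓ P :=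
      eq_of_le_of_card_ge (inf_eq_right.mp h6) e2.le
    exact h2 (h7 ▸ le_sup_left)
  rw [sq]
  apply dvd_ncard_of_equivariant (A := (P : Subgroup G)) (Set.toFinite _)
    (fun H => H ⊔ normalizer (H : Set G) ⊓ P)
  · rintro g H ⟨h1, h2⟩
    exact ⟨hinv g g.2 H h1, by
      show ¬ p * p ∣ (normalizer ((MulAut.conj (g : G) • H : Subgroup G) : Set G)).relIndex P
      rw [hrel g g.2]; exact h2⟩
  · rintro g H -
    show MulAut.conj (g : G) • H ⊔ normalizer ((MulAut.conj (g : G) • H : Subgroup G) : Set G) ⊓ P =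
      MulAut.conj (g : G) • (H ⊔ normalizer (H : Set G) ⊓ P)
    rw [smul_sup, smul_inf, CL.normalizer_conj_smul, CL.conj_smul_of_mem g.2]
  · rintro H ⟨⟨h1, h2⟩, h3⟩
    obtain ⟨e1, hQ, e2, e3⟩ := hfact H h1 h2 (sq p ▸ h3)
    set M := normalizer (H : Set G) ⊓ P with hM
    set Q := H ⊔ M with hQd
    have hMp : IsPGroup p M := P.isPGroup'.to_inf_right
    have hMd : p ^ a ∣ Nat.card M := by
      rw [← e1, pow_succ] at h
      exact Nat.dvd_of_mul_dvd_mul_right hp.out.pos h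
    have c1 := CL.Cnt.ncard_normalized_modEq_one hQ hMp (le_sup_right.trans le_normalizer)
      (k := a) (hMd.trans (card_dvd_of_le le_sup_right))
    have c2 := CL.Cnt.ncard_normalized_modEq_one hMp hMp le_normalizer (k := a) hMd
    rw [CL.Cnt.ncard_eq_add (Set.toFinite _) (fun K => K ≤ M)] at c1
    have e4 : {K | K ∈ {K : Subgroup G | (K ≤ Q ∧ Nat.card K = p ^ a) ∧ M ≤ normalizer (K : Set G)}
        ∧ K ≤ M} = {K : Subgroup G | (K ≤ M ∧ Nat.card K = p ^ a) ∧ M ≤ normalizer (K : Set G)} := by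
      ext K
      exact ⟨fun h => ⟨⟨h.2, h.1.1.2⟩, h.1.2⟩, fun h => ⟨⟨⟨h.1.1.trans le_sup_right, h.1.2⟩, h.2⟩,
        h.1.1⟩⟩
    rw [e4] at c1
    have c3 := Nat.ModEq.add_left_cancel c2 (c1.trans (by rfl : 1 ≡ 1 + 0 [MOD p]))
    rw [Nat.modEq_zero_iff_dvd] at c3
    convert c3 using 2
    ext K
    constructor
    · rintro ⟨⟨⟨k1, k2⟩, k3⟩, k4⟩
      obtain ⟨-, -, f2, -⟩ := hfact K k1 k2 (sq p ▸ k3)
      have k5 : K ⊔ normalizer (K : Set G) ⊓ P = Q := k4
      rw [k5, e2] at f2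
      exact ⟨⟨⟨k5 ▸ le_sup_left, k1⟩, f2 ▸ inf_le_left⟩, fun h => k2 (h.trans inf_le_right)⟩
    · rintro ⟨⟨⟨k1, k2⟩, k3⟩, k4⟩
      have k5 : ¬ K ≤ P := fun h => k4 (e2 ▸ le_inf k1 h)
      have k6 : ¬ p ^ 2 ∣ (normalizer (K : Set G)).relIndex P := by
        intro h
        have h6 := relIndex_dvd_of_le_left (P : Subgroup G) k3
        rw [hM, inf_relIndex_right] at h6
        exact h3 (sq p ▸ h.trans h6)
      obtain ⟨f1, -, -, f3⟩ := hfact K k2 k5 k6
      refine ⟨⟨⟨k2, k5⟩, sq p ▸ k6⟩, ?_⟩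
      have f4 : M = normalizer (K : Set G) ⊓ P := eq_of_le_of_card_ge (le_inf k3 inf_le_right)
        (Nat.le_of_mul_le_mul_right (by rw [f1, e1]) hp.out.pos)
      show K ⊔ normalizer (K : Set G) ⊓ P = Q
      apply eq_of_le_of_card_ge (sup_le k1 (f4 ▸ le_sup_right))
      rw [f3, e3]
  · rintro H ⟨⟨h1, h2⟩, h3⟩
    obtain ⟨-, hQ, -, -⟩ := hfact H h1 h2 (sq p ▸ h3)
    have : MulAction.stabilizer (P : Subgroup G) (H ⊔ normalizer (H : Set G) ⊓ P) =
        (normalizer ((H ⊔ normalizer (H : Set G) ⊓ P : Subgroup G) : Set G)).subgroupOf P := by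
      ext g
      rw [mem_subgroupOf, ← CL.conj_smul_eq_iff_mem_normalizer]
      rfl
    rw [this]
    exact CL.Cnt.dvd_relIndex_of_not_le P.isPGroup' fun h =>
      h2 (le_sup_left.trans (CL.Cnt.le_sylow_of_le_normalizer P hQ h))

/-- Let G be a finite group, p a prime and a a natural number such that p^(a+1) divides the order of G. Then the number of subgroups of G of order p^a is congruent to 1 or to 1 + p modulo p². -/
theorem result {G : Type*} [Group G] [Finite G] (p a : ℕ) (hp : p.Prime) (hdvd : p ^ (a + 1) ∣ Nat.card G) :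
    Nat.card {H : Subgroup G // Nat.card H = p ^ a} ≡ 1 [MOD p ^ 2] ∨
      Nat.card {H : Subgroup G // Nat.card H = p ^ a} ≡ 1 + p [MOD p ^ 2] := by
  haveI : Fact p.Prime := ⟨hp⟩
  obtain ⟨P⟩ : Nonempty (Sylow p G) := inferInstance
  have h : p ^ (a + 1) ∣ Nat.card P := by
    rw [P.card_eq_multiplicity]
    exact pow_dvd_pow p ((hp.pow_dvd_iff_le_factorization Nat.card_pos.ne').mp hdvd)
  obtain ⟨r, hr⟩ := sq_dvd_aux P h
  have e := CL.Cnt.ncard_eq_add (Set.toFinite {H : Subgroup G | Nat.card H = p ^ a})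
    (fun H => H ≤ P)
  have e2 : CL.Cnt.nSub G (p ^ a) = CL.Cnt.nSub P (p ^ a) + p ^ 2 * r := by
    rw [CL.Cnt.nSub_subgroup, CL.Cnt.nSub_def, e, ← hr]
    congr 2
    ext H; exact and_comm
  rw [← CL.Cnt.nSub_eq_card, e2]
  simpa [Nat.ModEq] using CL.Cnt.nSub_modEq_sq_of_isPGroup P.isPGroup' h

end Cfsg.Agent.S4237
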