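import Cfsg.Statements.S4238
import Cfsg.Agent.PLOC.FrobeniusNPC
import Cfsg.Agent.PLOC.PFrattini
import Cfsg.Agent.SOLV.Schmidt

set_option autoImplicit false
open Cfsg

namespace Cfsg.Agent.S4238


universe u

/-- every section with trivial `p'`-core has an element of order the exponent -/
def Sec (p : ℕ) (G : Type u) [Group G] : Prop :=
  ∀ (K : Type u) [Group K] (H : Subgroup G) (f : H →* K), Function.Surjective f →
    Cfsg.pPrimeCore p K = ⊥ → ∃ k : K, orderOf k = Monoid.exponent K

theorem Sec.subgroup {p : ℕ} {G : Type u} [Group G] (h : Sec p G) (L : Subgroup G) : Sec p L := by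
  intro K _ H f hf hK
  exact h K (H.map L.subtype) (f.comp (H.equivMapOfInjective L.subtype L.subtype_injective).symm)
    (hf.comp (MulEquiv.surjective _)) hK

theorem Sec.quotient {p : ℕ} {G : Type u} [Group G] (h : Sec p G) (N : Subgroup G) [N.Normal] :
    Sec p (G ⧸ N) := by
  intro K _ H f hf hK
  exact h K (H.comap (QuotientGroup.mk' N)) (f.comp ((QuotientGroup.mk' N).subgroupComap H))
    (hf.comp (MonoidHom.subgroupComap_surjective_of_surjective _ _ (QuotientGroup.mk'_surjective N))) hK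

theorem main (p : ℕ) [hp : Fact p.Prime] (G : Type u) [Group G] [Finite G] :
    Sec p G → Cfsg.HasNormalPComplement p G := by
  refine CL.card_induction (P := fun G _ _ => Sec p G → Cfsg.HasNormalPComplement p G) ?_ G
  intro G _ _ ih hS
  by_contra hn
  have hsub : ∀ L : Subgroup G, L ≠ ⊤ → Cfsg.HasNormalPComplement p L := fun L hL =>
    ih L (CL.card_lt_of_ne_top hL) (hS.subgroup L)
  have hO : Cfsg.pPrimeCore p G = ⊥ := by
    by_contra h
    exact hn (CL.hasNPC_of_quotient_coprime (Cfsg.pPrimeCore p G) (CL.coprime_card_pPrimeCore p G)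
      (ih _ (CL.card_quotient_lt h) (hS.quotient _)))
  have hZ : Subgroup.center G = ⊥ := by
    by_contra h
    exact hn (CL.hasNPC_of_quotient_central (Subgroup.center G) le_rfl
      (ih _ (CL.card_quotient_lt h) (hS.quotient _)))
  obtain ⟨P⟩ := (inferInstance : Nonempty (Sylow p G))
  obtain ⟨Q, q, k, g, hQP, hq, hqp, hgo, hgN, hgC, hgq⟩ := CL.Tr.exists_prime_acting_of_not_hasNPC P hn
  have hQ : IsPGroup p Q := P.isPGroup'.to_le hQP
  have hqc : q.Coprime p := (Nat.coprime_primes hq hp.out).2 hqp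
  have htop : Q ⊔ Subgroup.zpowers g = ⊤ := by
    by_contra h
    exact hgC (CL.Tr.mem_centralizer_of_hasNPC_subgroup (hsub _ h) hQ le_sup_left
      (Subgroup.mem_sup_right (Subgroup.mem_zpowers g)) hgN (by rw [hgo]; exact hqc.pow_left _))
  have hQn : Q.Normal := by
    rw [← Subgroup.normalizer_eq_top_iff, eq_top_iff, ← htop]
    exact sup_le Subgroup.le_normalizer (Subgroup.zpowers_le.2 hgN)
  have hcen : ∀ (R : Subgroup G) (b a : G), R ⊔ Subgroup.zpowers b = ⊤ →
      a ∈ Subgroup.centralizer (R : Set G) → Commute a b → a = 1 := by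
    intro R b a hR ha hab
    have : (⊤ : Subgroup G) ≤ Subgroup.centralizer {a} := by
      rw [← hR]
      refine sup_le (fun x hx => ?_) (Subgroup.zpowers_le.2 ?_)
      · rw [Subgroup.mem_centralizer_singleton_iff]
        exact Subgroup.mem_centralizer_iff.1 ha x hx
      · rw [Subgroup.mem_centralizer_singleton_iff]; exact hab.symm.eq
    have h2 : a ∈ Subgroup.center G := by
      rw [Subgroup.mem_center_iff]
      intro x
      exact Subgroup.mem_centralizer_singleton_iff.1 (this (Subgroup.mem_top x))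
    rwa [hZ, Subgroup.mem_bot] at h2
  have hg1 : g ^ q = 1 := hcen Q g _ htop hgq ((Commute.refl g).pow_left q)
  have hgne : g ≠ 1 := by rintro rfl; exact hgC (Subgroup.one_mem _)
  have := Fact.mk hq
  have hgo' : orderOf g = q := orderOf_eq_prime hg1 hgne
  have hidx : Q.index ∣ q := by
    have := CL.index_dvd_card_of_sup_eq_top htop
    rwa [Nat.card_zpowers, hgo'] at this
  have hQ1 : Q ≠ ⊥ := by
    rintro rfl
    exact hgC (by simp [Subgroup.mem_centralizer_iff])
  have hQt : Q ≠ ⊤ := by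
    rintro rfl
    exact hn (CL.hasNPC_of_isPGroup (hQ.of_equiv Subgroup.topEquiv))
  have hidx' : Q.index = q :=
    ((Nat.dvd_prime hq).1 hidx).resolve_left fun h => hQt (Subgroup.index_eq_one.1 h)
  obtain ⟨c, hc⟩ := hS G ⊤ (Subgroup.subtype _) (fun x => ⟨⟨x, trivial⟩, rfl⟩) hO
  have hpc : p ∣ orderOf c := by
    rw [hc]
    have : Nontrivial Q := (Subgroup.nontrivial_iff_ne_bot Q).2 hQ1
    obtain ⟨n, hn0, hn⟩ := hQ.nontrivial_iff_card.1 this
    obtain ⟨x, hx⟩ := exists_prime_orderOf_dvd_card' (G := Q) p (by rw [hn]; exact dvd_pow_self p hn0.ne')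
    rw [← hx, ← Subgroup.orderOf_coe]
    exact Monoid.order_dvd_exponent _
  have hqc' : q ∣ orderOf c := by rw [hc, ← hgo']; exact Monoid.order_dvd_exponent _
  set a := c ^ (orderOf c / p)
  set b := c ^ (orderOf c / q)
  have hao : orderOf a = p := orderOf_pow_orderOf_div (orderOf_pos c).ne' hpc
  have hbo : orderOf b = q := orderOf_pow_orderOf_div (orderOf_pos c).ne' hqc'
  have hab : Commute a b := (Commute.refl c).pow_pow _ _
  have haQ : a ∈ Q := CL.mem_of_coprime_index (by rw [hao, hidx']; exact hqc.symm)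
  have hbQ : b ∉ Q := by
    intro h
    obtain ⟨n, hn⟩ := IsPGroup.iff_orderOf.1 hQ ⟨b, h⟩
    rw [Subgroup.orderOf_mk, hbo] at hn
    exact hqp ((Nat.prime_dvd_prime_iff_eq hq hp.out).1 (hq.dvd_of_dvd_pow (dvd_of_eq hn)))
  have hbtop : Q ⊔ Subgroup.zpowers b = ⊤ :=
    (CL.PG.isCoatom_of_index_eq_prime hq hidx').2 _ (lt_of_le_of_ne le_sup_left fun h =>
      hbQ (h ▸ Subgroup.mem_sup_right (Subgroup.mem_zpowers b)))
  set Z := Q ⊓ Subgroup.centralizer (Q : Set G) with hZdef
  by_cases hZt : Z ⊔ Subgroup.zpowers b = ⊤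
  · have : a = 1 := hcen Z b a hZt (by
      rw [Subgroup.mem_centralizer_iff]
      intro z hz
      exact (Subgroup.mem_centralizer_iff.1 hz.2 a haQ).symm) hab
    rw [this, orderOf_one] at hao
    exact hp.out.one_lt.ne hao
  · have hZn : Z.Normal := inferInstance
    have hbZ := CL.Tr.mem_centralizer_of_hasNPC_subgroup (hsub _ hZt) (hQ.to_le inf_le_left) le_sup_left
      (Subgroup.mem_sup_right (Subgroup.mem_zpowers b))
      (Subgroup.normalizer_eq_top Z ▸ Subgroup.mem_top b) (by rw [hbo]; exact hqc)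
    have : Nontrivial Q := (Subgroup.nontrivial_iff_ne_bot Q).2 hQ1
    have := hQ.center_nontrivial
    obtain ⟨z, hz1⟩ := exists_ne (1 : Subgroup.center Q)
    have hzc : ((z : Q) : G) ∈ Subgroup.centralizer (Q : Set G) := by
      rw [Subgroup.mem_centralizer_iff]
      intro y hy
      exact congrArg Subtype.val (Subgroup.mem_center_iff.1 z.2 ⟨y, hy⟩)
    have := hcen Q b _ hbtop hzc (Subgroup.mem_centralizer_iff.1 hbZ _ ⟨(z : Q).2, hzc⟩)
    exact hz1 (Subtype.ext (Subtype.ext this))


/-- Let G be a finite group and p a prime. Then G has a normal p-complement if and only if every section K = H/N of G (N a normal subgroup of a subgroup H) whose largest normal subgroup of order prime to p is trivial contains an element whose order equals the exponent of K. -/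
theorem result {G : Type*} [Group G] [Finite G] (p : ℕ) [Fact p.Prime] :
    Cfsg.HasNormalPComplement p G ↔
      ∀ (H : Subgroup G) (N : Subgroup H) [N.Normal], Cfsg.pPrimeCore p (H ⧸ N) = ⊥ →
        ∃ k : H ⧸ N, orderOf k = Monoid.exponent (H ⧸ N) := by
  constructor
  · intro h H N _ hO
    have h1 : Cfsg.HasNormalPComplement p (H ⧸ N) := CL.hasNPC_quotient (CL.hasNPC_subgroup h H) N
    obtain ⟨M, hM, hMc, k, hk⟩ := CL.hasNPC_iff_exists_normal_index.1 h1
    have hM1 : M = ⊥ := le_bot_iff.1 (hO ▸ CL.le_pPrimeCore hMc)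
    rw [hM1, Subgroup.index_bot] at hk
    have hp : p.Prime := Fact.out
    obtain ⟨j, -, hj⟩ := (Nat.dvd_prime_pow hp).1 (hk ▸ (Group.exponent_dvd_nat_card (G := H ⧸ N)))
    obtain ⟨g, hg⟩ := Nat.Prime.exists_orderOf_eq_pow_factorization_exponent (H ⧸ N) hp
    refine ⟨g, ?_⟩
    rw [hg, hj, Nat.factorization_pow_self hp]
  · intro h
    refine main p G fun K _ H f hf hK => ?_
    let e := QuotientGroup.quotientKerEquivOfSurjective f hf
    obtain ⟨k, hk⟩ := h H f.ker (by
      rw [← CL.map_pPrimeCore_equiv e.symm, hK, Subgroup.map_bot])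
    exact ⟨e k, by rw [MulEquiv.orderOf_eq, hk, Monoid.exponent_eq_of_mulEquiv e]⟩

end Cfsg.Agent.S4238
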