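import Cfsg.Statements.S4240
import Cfsg.Agent.FGS.NilpMax
import Cfsg.Agent.SOLV.OddOrderCor
import Cfsg.Agent.SOLV.CoprimeAut

set_option autoImplicit false
open Cfsg

namespace Cfsg.Agent.S4240

open Subgroup CL CL.MSS

universe u

theorem aux {X : Type u} [Group X] [Finite X] : ∀ (G A : Subgroup X) [G.Normal], G ⊔ A = ⊤ →
    (Nat.card A).Coprime (Nat.card G) → Group.IsSolvable A →
    (∀ H < G, A ≤ normalizer (H : Set X) → Group.IsNilpotent H) → Group.IsSolvable G := by
  refine card_induction (P := fun X _ _ => ∀ (G A : Subgroup X) [G.Normal], G ⊔ A = ⊤ →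
    (Nat.card A).Coprime (Nat.card G) → Group.IsSolvable A →
    (∀ H < G, A ≤ normalizer (H : Set X) → Group.IsNilpotent H) → Group.IsSolvable G)
    (fun X _ _ ih G A hG hGA hcop hs h => ?_) X
  by_cases h2 : IsPiNum {2} (Nat.card G)
  · exact isSolvable_of_isPGroup (isPGroup_iff_isPiNum.2 h2)
  simp only [IsPiNum, not_forall] at h2
  obtain ⟨p, hp, hpG, hp2⟩ := h2
  have := Fact.mk hp
  have hAG : A ≤ normalizer (G : Set X) := by rw [normalizer_eq_top]; exact le_top
  obtain ⟨S, hS⟩ := coprime_exists_invariant_sylow A G hAG hcop (Or.inl hs) p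
  have hP := sylIn_map_subtype S
  set P := (S : Subgroup G).map G.subtype with hPdef
  have hZP : centerThompsonOf p P ≤ P := inf_le_left.trans (CL.Th.thompsonSubgroupOf_le P)
  have h1 : centerThompsonOf p P ≠ ⊥ :=
    inf_centralizer_ne_bot (hP.pgroup.to_le (CL.Th.thompsonSubgroupOf_le P))
      (hP.pgroup.to_le (CL.Th.thompsonSubgroupOf_le P)) le_normalizer
      (CL.Th.thompsonSubgroupOf_ne_bot_of_isPGroup hP.pgroup (hP.ne_bot hpG))
  have hAZ := hS.trans ((CL.Th.normalizer_le_normalizer_thompsonSubgroupOf P).trans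
    (CL.Th.normalizer_thompson_le_normalizer_centerThompsonOf (p := p) P))
  by_cases hN : G ≤ normalizer (centerThompsonOf p P : Set X)
  · set Z := centerThompsonOf p P
    have hZ : Z.Normal := normalizer_eq_top_iff.1 (eq_top_iff.2 (hGA ▸ sup_le hN hAZ))
    have hsurj := QuotientGroup.mk'_surjective Z
    have := hG.map _ hsurj
    refine isSolvable_of_map_of_inf_ker G (QuotientGroup.mk' Z) (ih _ (card_quotient_lt h1) _
      (A.map (QuotientGroup.mk' Z)) ?_ ((hcop.coprime_dvd_left (card_map_dvd _ _)).coprime_dvd_right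
      (card_map_dvd _ _)) (isSolvable_map _ _) fun H hH hAH => ?_) ?_
    · rw [← Subgroup.map_sup, hGA, map_top_of_surjective _ hsurj]
    · have h3 : H.comap (QuotientGroup.mk' Z) < G := by
        refine lt_of_le_of_ne ((comap_mono hH.le).trans ?_) fun h' => hH.ne ?_
        · rw [comap_map_mk']
          exact sup_le le_rfl (hZP.trans hP.le)
        · rw [← h', map_comap_mk']
      have := h _ h3 ((map_le_iff_le_comap.1 hAH).trans (le_normalizer_comap _))
      rw [← map_comap_mk' Z H]
      exact Group.nilpotent_of_surjective _ (MonoidHom.subgroupMap_surjective _ _)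
    · rw [QuotientGroup.ker_mk']
      exact isSolvable_of_isPGroup (hP.pgroup.to_le (inf_le_right.trans hZP))
  have h3 := h _ (inf_lt_left.2 hN) (MSS.le_normalizer_inf hAG (MSS.le_normalizer_normalizer hAZ))
  have h4 : HasNormalPComplement p G := by
    refine (Cfsg.Agent.S0117.result hp2 S).2 ?_
    have h4 := map_le_normalizer_map G.subtype
      (le_refl (normalizer (centerThompsonOf p (S : Subgroup G) : Set G)))
    rw [CL.Th.map_centerThompsonOf _ G.subtype_injective] at h4
    exact hasNPC_of_equiv (hasNPC_of_le hasNPC_of_isNilpotent (le_inf (map_subtype_le _) h4))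
      (equivMapOfInjective _ _ G.subtype_injective).symm
  have h5 : ((pResidual p G).map G.subtype).Normal := ConjAct.normal_of_characteristic_of_normal
  have h6 := h ((pResidual p G).map G.subtype) (lt_of_le_of_ne (map_subtype_le _) fun h' =>
    hasNPC_iff_not_dvd_card_pResidual.1 h4 (by
      rwa [← card_map_of_injective G.subtype_injective, h'])) (by rw [normalizer_eq_top]; exact le_top)
  have h7 := Group.nilpotent_of_mulEquiv
    (equivMapOfInjective (pResidual p G) _ G.subtype_injective).symm
  exact CL.NilpMax.isSolvable_of_sup (isSolvable_of_isPGroup S.isPGroup') inferInstance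
    (by rw [sup_comm]; exact pResidual_sup_sylow S)


/-- Let a finite group A act by automorphisms on a finite group G of order coprime to that of A. Suppose every maximal A-invariant proper subgroup of G is nilpotent while G is not. Then G is solvable, the order of G has the form p^a·q^b for two distinct primes p and q, and G has a normal A-invariant Sylow subgroup for some prime dividing its order. -/
theorem result {A G : Type*} [Group A] [Group G] [Finite A] [Finite G] [MulDistribMulAction A G]
    (hcop : (Nat.card A).Coprime (Nat.card G))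
    (hmax : ∀ H : Subgroup G, H ≠ ⊤ → (∀ a : A, ∀ x ∈ H, a • x ∈ H) →
      (∀ K : Subgroup G, H < K → (∀ a : A, ∀ x ∈ K, a • x ∈ K) → K = ⊤) → Group.IsNilpotent H)
    (hG : ¬ Group.IsNilpotent G) :
    Group.IsSolvable G ∧
      (∃ p q a b : ℕ, p.Prime ∧ q.Prime ∧ p ≠ q ∧ Nat.card G = p ^ a * q ^ b) ∧
      ∃ (p : ℕ) (P : Sylow p G), p.Prime ∧ p ∣ Nat.card G ∧ (P : Subgroup G).Normal ∧ (∀ a : A, ∀ x ∈ (P : Subgroup G), a • x ∈ (P : Subgroup G)) := by
  have hall : ∀ H : Subgroup G, H ≠ ⊤ → (∀ a : A, ∀ x ∈ H, a • x ∈ H) → Group.IsNilpotent H := by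
    intro H
    induction H using subgroup_induction_top with
    | h H ih =>
    intro h1 h2
    by_contra h3
    refine h3 (hmax H h1 h2 fun K hK h4 => ?_)
    by_contra h5
    have := ih K hK h5 h4
    exact h3 (Group.nilpotent_of_mulEquiv (subgroupOfEquivOfLe hK.le))
  have hs : Group.IsSolvable G := by
    refine (isSolvable_or_of_coprime A G hcop).elim (fun hA => ?_) id
    have := aux ((⊤ : Subgroup G).map (Hol.inl : G →* Hol A G)) ((⊤ : Subgroup A).map Hol.inr)
      Hol.map_inl_top_sup_map_inr_top (by rwa [Hol.card_map_inl, Hol.card_map_inr, card_top, card_top])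
      (Hol.isSolvable_map_inr inferInstance) fun H hH hAH => by
        obtain ⟨H₀, -, rfl⟩ := Hol.exists_eq_map_inl hH.le
        have := hall H₀ (fun h => hH.ne (by rw [h])) fun a =>
          Hol.map_inr_le_normalizer_iff.1 hAH a (mem_top a)
        exact Group.nilpotent_of_mulEquiv (Hol.equivInl H₀)
    exact isSolvable_of_mulEquiv (((Hol.equivInl (A := A) ⊤).symm).trans topEquiv)
  refine ⟨hs, ?_⟩
  have : Nontrivial G := not_subsingleton_iff_nontrivial.1 fun h => hG inferInstance
  obtain ⟨p, hp, hpd⟩ := Nat.exists_prime_and_dvd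
    (mt index_eq_one.1 (Group.IsSolvable.commutator_lt_top_of_nontrivial G).ne)
  have := Fact.mk hp
  have h1 : pResidual p G ≠ ⊤ := fun h => by
    have h3 : Function.Surjective (Abelianization.of : G →* Abelianization G) :=
      QuotientGroup.mk_surjective
    have : Finite (Abelianization G) := Finite.of_surjective _ h3
    have h2 := map_pResidual_of_surjective (p := p) _ h3
    rw [h, map_top_of_surjective _ h3] at h2
    refine hasNPC_iff_not_dvd_card_pResidual.1 (hasNPC_of_isNilpotent (p := p) (G := Abelianization G)) ?_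
    rwa [← h2, card_top]
  have h2 := hall _ h1 (smul_mem_of_characteristic _)
  have h3 : ∀ (q : ℕ) [Fact q.Prime] (Q : Sylow q G), q ≠ p → (Q : Subgroup G).Normal := by
    intro q hq Q hqp
    have h4 := sylIn_sylow Q (le_pResidual_of_coprime (coprime_card_of_isPGroup Q.isPGroup'
      ((Nat.coprime_primes hp hq.out).2 hqp.symm)).symm)
    have h5 := normalizer_le_normalizer_sylow_of_isNilpotent h2 h4.toSylow
    rw [h4.map_toSylow, normalizer_eq_top] at h5
    exact normalizer_eq_top_iff.1 (eq_top_iff.2 h5)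
  obtain ⟨P, hP⟩ := act_exists_invariant_sylow hcop (Or.inr hs) p
  have h4 : ∀ (q : ℕ) [Fact q.Prime] (Q : Sylow q G), q ≠ p →
      ∀ a : A, ∀ x ∈ (Q : Subgroup G), a • x ∈ (Q : Subgroup G) := fun q _ Q hqp =>
    have := Q.characteristic_of_normal (h3 q Q hqp)
    smul_mem_of_characteristic _
  obtain ⟨q, hq, Q, hqp, h5⟩ : ∃ (q : ℕ) (_ : Fact q.Prime) (Q : Sylow q G), q ≠ p ∧
      (P : Subgroup G) ⊔ Q = ⊤ := by
    by_contra hcon
    push Not at hcon
    have h5 : (P : Subgroup G).Normal := by
      refine normalizer_eq_top_iff.1 (eq_top_of_forall_sylow_le fun q hq => ?_)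
      by_cases hqp : q = p
      · subst hqp
        exact ⟨P, le_normalizer⟩
      refine ⟨default, le_trans ?_ (centralizer_le_normalizer _)⟩
      have := h3 q default hqp
      refine le_centralizer_of_coprime_of_le_nilpotent (hall _ (hcon q hq default hqp)
        fun a x hx => ?_) le_sup_right le_sup_left
        (IsPGroup.coprime_card_of_ne q p hqp _ _ (Sylow.isPGroup' _) P.isPGroup')
      obtain ⟨y, hy, z, hz, rfl⟩ := mem_sup_of_normal_right.1 hx
      rw [smul_mul']
      exact mul_mem_sup (sylow_smul_eq_iff_invariant.1 hP a y hy) (h4 q _ hqp a z hz)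
    refine hG ((Group.isNilpotent_of_finite_tfae.out 3 0).1 fun q hq Q => ?_)
    have := hq
    by_cases hqp : q = p
    · subst hqp
      have := P.unique_of_normal h5
      rwa [Subsingleton.elim Q P]
    · exact h3 q Q hqp
  have := h3 q Q hqp
  have h6 := card_sup_of_disjoint (H := (P : Subgroup G)) (K := (Q : Subgroup G)) (by rw [normalizer_eq_top]; exact le_top)
    (IsPGroup.disjoint_of_ne p q hqp.symm _ _ P.isPGroup' Q.isPGroup').eq_bot
  rw [h5, card_top] at h6
  obtain ⟨a, ha⟩ := P.isPGroup'.exists_card_eq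
  obtain ⟨b, hb⟩ := Q.isPGroup'.exists_card_eq
  refine ⟨⟨p, q, a, b, hp, hq.out, hqp.symm, by rw [h6, ha, hb]⟩, q, Q, hq.out, ?_, this, h4 q Q hqp⟩
  by_contra h7
  rw [eq_bot_of_isPGroup_of_not_dvd Q.isPGroup' le_top (by rwa [card_top]), sup_bot_eq] at h5
  exact hG ((h5 ▸ P.isPGroup').of_equiv topEquiv).isNilpotent

end Cfsg.Agent.S4240
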