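import Cfsg.Statements.S4241
import Mathlib
import Cfsg.Agent.S4240
import Cfsg.Agent.S0659
import Cfsg.Agent.PLOC.ZJF.Real

set_option autoImplicit false
open Cfsg

namespace Cfsg.Agent.S4241

open Subgroup CL CL.MSS

universe u

theorem aux {X : Type u} [Group X] [Finite X] : ∀ (G A : Subgroup X) [G.Normal], G ⊔ A = ⊤ →
    (Nat.card A).Coprime (Nat.card G) → Group.IsSolvable A → ∀ p : ℕ, p.Prime → p ∣ Nat.card G →
    (∀ H < G, A ≤ normalizer (H : Set X) → p ∣ Nat.card H → Group.IsNilpotent H) →
    Group.IsSolvable G := by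
  refine card_induction (P := fun X _ _ => ∀ (G A : Subgroup X) [G.Normal], G ⊔ A = ⊤ →
    (Nat.card A).Coprime (Nat.card G) → Group.IsSolvable A → ∀ p : ℕ, p.Prime → p ∣ Nat.card G →
    (∀ H < G, A ≤ normalizer (H : Set X) → p ∣ Nat.card H → Group.IsNilpotent H) →
    Group.IsSolvable G) (fun X _ _ ih G A hG hGA hcop hs p hp hpG h => ?_) X
  by_contra hns
  have := Fact.mk hp
  have hAG : A ≤ normalizer (G : Set X) := by rw [normalizer_eq_top]; exact le_top
  have key : ∀ (q : ℕ) [Fact q.Prime], q ∣ Nat.card G → ∃ S : Sylow q G,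
      p ∣ Nat.card (normalizer (centerThompsonAOf (S : Subgroup G) : Set G)) →
        Group.IsNilpotent (normalizer (centerThompsonAOf (S : Subgroup G) : Set G)) := by
    intro q _ hq
    obtain ⟨S, hS⟩ := coprime_exists_invariant_sylow A G hAG hcop (Or.inl hs) q
    have hP := sylIn_map_subtype S
    set P := (S : Subgroup G).map G.subtype with hPdef
    have hZP := CL.ThA.centerThompsonAOf_le P
    have h1 := CL.ThA.centerThompsonAOf_ne_bot hP.pgroup (hP.ne_bot hq)
    have hAZ := hS.trans (CL.ThA.normalizer_le_normalizer_centerThompsonAOf P)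
    by_cases hN : G ≤ normalizer (centerThompsonAOf P : Set X)
    · set Z := centerThompsonAOf P
      have hZ : Z.Normal := normalizer_eq_top_iff.1 (eq_top_iff.2 (hGA ▸ sup_le hN hAZ))
      have hsurj := QuotientGroup.mk'_surjective Z
      have := hG.map _ hsurj
      have h2 : ∀ H < G.map (QuotientGroup.mk' Z),
          A.map (QuotientGroup.mk' Z) ≤ normalizer (H : Set (X ⧸ Z)) →
          p ∣ Nat.card (H.comap (QuotientGroup.mk' Z)) → Group.IsNilpotent H := fun H hH hAH hd => by
        have h3 : H.comap (QuotientGroup.mk' Z) < G := by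
          refine lt_of_le_of_ne ((comap_mono hH.le).trans ?_) fun h' => hH.ne ?_
          · rw [comap_map_mk']
            exact sup_le le_rfl (hZP.trans hP.le)
          · rw [← h', map_comap_mk']
        have := h _ h3 ((map_le_iff_le_comap.1 hAH).trans (le_normalizer_comap _)) hd
        rw [← map_comap_mk' Z H]
        exact Group.nilpotent_of_surjective _ (MonoidHom.subgroupMap_surjective _ _)
      have h3 : G.map (QuotientGroup.mk' Z) ⊔ A.map (QuotientGroup.mk' Z) = ⊤ := by
        rw [← Subgroup.map_sup, hGA, map_top_of_surjective _ hsurj]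
      have h4 := (hcop.coprime_dvd_left (card_map_dvd A (QuotientGroup.mk' Z))).coprime_dvd_right
        (card_map_dvd G (QuotientGroup.mk' Z))
      refine (hns (isSolvable_of_map_of_inf_ker G (QuotientGroup.mk' Z) ?_ ?_)).elim
      · by_cases e : p ∣ Nat.card (G.map (QuotientGroup.mk' Z))
        · refine ih _ (card_quotient_lt h1) _ _ h3 h4 (isSolvable_map _ _) p hp e
            fun H hH hAH hd => h2 H hH hAH (hd.trans ?_)
          conv_lhs => rw [← map_comap_mk' Z H]
          exact card_map_dvd _ _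
        refine Agent.S4240.aux _ _ h3 h4 (isSolvable_map _ _) fun H hH hAH => h2 H hH hAH ?_
        rw [← relIndex_ker, QuotientGroup.ker_mk'] at e
        rw [← index_mul_card (Z.subgroupOf G),
          Nat.card_congr (subgroupOfEquivOfLe (hZP.trans hP.le)).toEquiv] at hpG
        exact ((hp.dvd_mul.1 hpG).resolve_left e).trans (card_dvd_of_le (QuotientGroup.le_comap_mk' _ _))
      · rw [QuotientGroup.ker_mk']
        exact isSolvable_of_isPGroup (hP.pgroup.to_le (inf_le_right.trans hZP))
    refine ⟨S, fun hd => ?_⟩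
    have h4 := map_le_normalizer_map G.subtype
      (le_refl (normalizer (centerThompsonAOf (S : Subgroup G) : Set G)))
    rw [CL.ThA.map_centerThompsonAOf _ G.subtype_injective] at h4
    replace h4 := le_inf (map_subtype_le _) h4
    have := h _ (inf_lt_left.2 hN) (MSS.le_normalizer_inf hAG (MSS.le_normalizer_normalizer hAZ))
      ((card_map_of_injective G.subtype_injective ▸ hd).trans (card_dvd_of_le h4))
    have := Group.nilpotent_of_mulEquiv (subgroupOfEquivOfLe h4)
    exact Group.nilpotent_of_mulEquiv (equivMapOfInjective _ _ G.subtype_injective).symm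
  obtain ⟨P⟩ : Nonempty (Sylow 2 G) := inferInstance
  obtain ⟨q, n, x, g, hq, hq2, hx, h1, e⟩ := CL.ZJF.exists_real_of_not_normal (P := P) fun hP => hns
    (have := isSolvable_of_isPGroup P.isPGroup'
     have := isSolvable_of_not_two_dvd (G ⧸ (P : Subgroup G)) P.not_dvd_index
     solvable_of_ker_le_range (P : Subgroup G).subtype (QuotientGroup.mk' P) (by simp))
  have := Fact.mk hq
  obtain ⟨S, hS⟩ := key q (by_contra fun hd => h1 (orderOf_eq_one_iff.1 (Nat.eq_one_of_dvd_coprimes
    ((hq.coprime_iff_not_dvd.2 hd).pow_left n) (orderOf_dvd_of_pow_eq_one hx) (orderOf_dvd_natCard x))))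
  obtain ⟨y, hy, hy1, k, hk, e'⟩ := CL.ZJF.exists_inverted_of_real hq2 S hx h1 e
  obtain ⟨j, -, hj⟩ := (Nat.dvd_prime_pow hq).1 (orderOf_dvd_of_pow_eq_one
    (isPGroup_iff_forall_mem.1 S.isPGroup' y hy).choose_spec)
  refine hy1 (congrArg Subtype.val (CL.ZJF.eq_one_of_inverted
    (x := ⟨y, CL.ThA.le_normalizer_centerThompsonAOf _ hy⟩) (g := ⟨k, hk⟩) (fun R => ?_)
    (by rw [orderOf_mk, hj]; exact (hq.odd_of_ne_two hq2).pow) (Subtype.ext e')))
  by_cases hd : p ∣ Nat.card (normalizer (centerThompsonAOf (S : Subgroup G) : Set G))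
  · have := hS hd
    infer_instance
  by_cases hp2 : p = 2
  · rw [R.isPGroup'.card_eq_or_dvd.elim card_eq_one.1
      fun h => (hd (hp2 ▸ h.trans (card_subgroup_dvd_card _))).elim]
    infer_instance
  obtain ⟨T, hT⟩ := key p hpG
  have h2 : ∀ (r : ℕ) [Fact r.Prime] (T : Sylow r G) {m}, r = m → m ∣ Nat.card G →
      m ∣ Nat.card (normalizer (centerThompsonAOf (T : Subgroup G) : Set G)) := by
    rintro r _ T _ rfl hr
    exact (T.dvd_card_of_dvd_card hr).trans (card_dvd_of_le (CL.ThA.le_normalizer_centerThompsonAOf _))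
  have := hT (h2 p T rfl hpG)
  have h3 := hasNPC_iff_not_dvd_card_pResidual.1 (Agent.S0659.result hp2 T hasNPC_of_isNilpotent)
  have h4 := S.normalizer_sup_eq_top' (le_pResidual_of_coprime (coprime_card_of_isPGroup S.isPGroup'
    ((Nat.coprime_primes hp hq).2 fun e => hd (h2 q S e.symm hpG))).symm)
  rw [← index_mul_card (pResidual p G), ← relIndex_top_right, ← h4, relIndex_sup_right] at hpG
  exact (hd (((hp.dvd_mul.1 hpG).resolve_right h3).trans ((relIndex_dvd_card _ _).trans
    (card_dvd_of_le (CL.ThA.normalizer_le_normalizer_centerThompsonAOf _))))).elim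

/-- Let a finite group A act by automorphisms on a finite group G of order coprime to that of A, and let p be a prime dividing the order of G. If every maximal A-invariant proper subgroup of G whose order is divisible by p is nilpotent, then G is solvable. -/
theorem result {A G : Type*} [Group A] [Group G] [Finite A] [Finite G] [MulDistribMulAction A G]
    (hcop : (Nat.card A).Coprime (Nat.card G)) (p : ℕ) (hp : p.Prime) (hpG : p ∣ Nat.card G)
    (hmax : ∀ H : Subgroup G, H ≠ ⊤ → (∀ a : A, ∀ x ∈ H, a • x ∈ H) →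
      (∀ K : Subgroup G, H < K → (∀ a : A, ∀ x ∈ K, a • x ∈ K) → K = ⊤) → p ∣ Nat.card H → Group.IsNilpotent H) :
    Group.IsSolvable G := by
  have hall : ∀ H : Subgroup G, H ≠ ⊤ → (∀ a : A, ∀ x ∈ H, a • x ∈ H) → p ∣ Nat.card H →
      Group.IsNilpotent H := by
    intro H
    induction H using subgroup_induction_top with
    | h H ih =>
    intro h1 h2 hd
    by_contra h3
    refine h3 (hmax H h1 h2 (fun K hK h4 => ?_) hd)
    by_contra h5
    have := ih K hK h5 h4 (hd.trans (card_dvd_of_le hK.le))
    exact h3 (Group.nilpotent_of_mulEquiv (subgroupOfEquivOfLe hK.le))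
  refine (isSolvable_or_of_coprime A G hcop).elim (fun hA => ?_) id
  have := aux ((⊤ : Subgroup G).map (Hol.inl : G →* Hol A G)) ((⊤ : Subgroup A).map Hol.inr)
    Hol.map_inl_top_sup_map_inr_top (by rwa [Hol.card_map_inl, Hol.card_map_inr, card_top, card_top])
    (Hol.isSolvable_map_inr inferInstance) p hp (by rwa [Hol.card_map_inl, card_top])
    fun H hH hAH hd => by
      obtain ⟨H₀, -, rfl⟩ := Hol.exists_eq_map_inl hH.le
      have := hall H₀ (fun h => hH.ne (by rw [h])) (fun a =>
        Hol.map_inr_le_normalizer_iff.1 hAH a (mem_top a)) (by rwa [Hol.card_map_inl] at hd)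
      exact Group.nilpotent_of_mulEquiv (Hol.equivInl H₀)
  exact isSolvable_of_mulEquiv (((Hol.equivInl (A := A) ⊤).symm).trans topEquiv)

end Cfsg.Agent.S4241
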