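import Cfsg.Statements.S4242
import Cfsg.Agent.PLOC.FrobeniusNPC
import Cfsg.Agent.SOLV.CoprimeSylow
import Cfsg.Agent.SOLV.Schmidt

set_option autoImplicit false
open Cfsg

namespace Cfsg.Agent.S4242


section
variable {G : Type*} [Group G] [Finite G]

theorem ne_top_of {M L Q : Subgroup G} (hLM : L < M) (hc : (Nat.card M).Coprime (Nat.card Q))
    (hd : Nat.card (L ⊔ Q : Subgroup G) ∣ Nat.card L * Nat.card Q) : L ⊔ Q ≠ ⊤ := by
  intro h
  rw [h, Subgroup.card_top] at hd
  have := hc.dvd_of_dvd_mul_right (M.card_subgroup_dvd_card.trans hd)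
  exact (CL.card_lt_of_lt hLM).not_ge (Nat.le_of_dvd Nat.card_pos this)

theorem cent {p : ℕ} (h : ∀ L : Subgroup G, L ≠ ⊤ → p ∣ Nat.card L → Group.IsNilpotent L)
    {M Q : Subgroup G} (hM : ¬ Group.IsNilpotent M) (hc : (Nat.card M).Coprime (Nat.card Q))
    (hQ : p ∣ Nat.card Q)
    (hR : ∀ (q : ℕ) [Fact q.Prime], ∃ R : Sylow q M,
      Nat.card ((R : Subgroup M).map M.subtype ⊔ Q : Subgroup G) ∣
        Nat.card ((R : Subgroup M).map M.subtype) * Nat.card Q) :
    M ≤ Subgroup.centralizer (Q : Set G) := by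
  rw [← Subgroup.relIndex_eq_one]
  by_contra hne
  obtain ⟨q, hq, hqd⟩ := Nat.exists_prime_and_dvd hne
  have := Fact.mk hq
  obtain ⟨R, hR⟩ := hR q
  have hlt : (R : Subgroup M).map M.subtype < M := by
    refine lt_of_le_of_ne (Subgroup.map_subtype_le _) fun e => hM ?_
    have h1 : IsPGroup q ((R : Subgroup M).map M.subtype) := R.isPGroup'.map _
    rw [e] at h1
    exact h1.isNilpotent
  have hn := h _ (ne_top_of hlt hc hR) (hQ.trans (Subgroup.card_dvd_of_le le_sup_right))
  have hRC := CL.le_centralizer_of_coprime_of_le_nilpotent hn le_sup_left le_sup_right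
    (hc.coprime_dvd_left (Subgroup.card_dvd_of_le hlt.le))
  apply R.not_dvd_index
  refine hqd.trans (Subgroup.index_dvd_of_le ?_)
  intro x hx
  exact hRC ⟨x, hx, rfl⟩

end


/-- Let G be a finite group and p a prime dividing its order. Every maximal subgroup of G of order divisible by p is nilpotent if and only if G is nilpotent, or G is a minimal non-nilpotent group, or G is the internal direct product of a normal subgroup of order p and a normal minimal non-nilpotent subgroup of order prime to p. -/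
theorem result {G : Type*} [Group G] [Finite G] (p : ℕ) (hp : p.Prime) (hpG : p ∣ Nat.card G) :
    (∀ M : Subgroup G, IsCoatom M → p ∣ Nat.card M → Group.IsNilpotent M) ↔
      (Group.IsNilpotent G ∨ Cfsg.IsMinimalNonNilpotent G ∨
        ∃ Z K : Subgroup G, Z.Normal ∧ K.Normal ∧ Z ⊓ K = ⊥ ∧ Z ⊔ K = ⊤ ∧ Nat.card Z = p ∧
          Cfsg.IsMinimalNonNilpotent K ∧ ¬ p ∣ Nat.card K) := by
  have := Fact.mk hp
  constructor
  · intro h
    have h' : ∀ L : Subgroup G, L ≠ ⊤ → p ∣ Nat.card L → Group.IsNilpotent L := by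
      intro L hL hpL
      obtain ⟨M, hM, hLM⟩ := (eq_top_or_exists_le_coatom L).resolve_left hL
      have := h M hM (hpL.trans (Subgroup.card_dvd_of_le hLM))
      exact Group.nilpotent_of_mulEquiv (Subgroup.subgroupOfEquivOfLe hLM)
    by_cases hG : Group.IsNilpotent G
    · exact Or.inl hG
    by_cases hmin : Cfsg.IsMinimalNonNilpotent G
    · exact Or.inr (Or.inl hmin)
    refine Or.inr (Or.inr ?_)
    obtain ⟨M, hM, hMn⟩ : ∃ M : Subgroup G, IsCoatom M ∧ ¬ Group.IsNilpotent M := by
      by_contra hne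
      push Not at hne
      refine hmin ⟨hG, fun L hL => ?_⟩
      obtain ⟨M, hM, hLM⟩ := (eq_top_or_exists_le_coatom L).resolve_left hL
      have := hne M hM
      exact Group.nilpotent_of_mulEquiv (Subgroup.subgroupOfEquivOfLe hLM)
    have hpM : ¬ p ∣ Nat.card M := fun hd => hMn (h M hM hd)
    have hMp : (Nat.card M).Coprime p := ((Nat.Prime.coprime_iff_not_dvd hp).2 hpM).symm
    have hdv : ∀ Q : Subgroup G, IsPGroup p Q → Q ≠ ⊥ → p ∣ Nat.card Q := by
      intro Q hQ hQ1
      have : Nontrivial Q := (Subgroup.nontrivial_iff_ne_bot Q).2 hQ1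
      obtain ⟨n, hn0, hn⟩ := hQ.nontrivial_iff_card.1 this
      rw [hn]; exact dvd_pow_self p hn0.ne'
    obtain ⟨Q, hQn, hQ, hQ1⟩ : ∃ Q : Subgroup G, Q.Normal ∧ IsPGroup p Q ∧ Q ≠ ⊥ := by
      by_contra hne
      push Not at hne
      have hN : Cfsg.HasNormalPComplement p G := by
        refine CL.Tr.hasNPC_iff_forall_local.2 fun Q hQ hQ1 => ?_
        have := h' (Subgroup.normalizer (Q : Set G))
          (fun e => hQ1 (hne Q (Subgroup.normalizer_eq_top_iff.1 e) hQ))
          ((hdv Q hQ hQ1).trans (Subgroup.card_dvd_of_le Subgroup.le_normalizer))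
        exact CL.hasNPC_of_isNilpotent
      obtain ⟨P, K, hK, hKP⟩ := hN
      have hcP : (Nat.card M).Coprime (Nat.card P) :=
        (CL.coprime_card_of_isPGroup_of_coprime P.isPGroup' hMp).symm
      have hMK : M ≤ K := CL.le_of_coprime_index (by rw [hKP.symm.index_eq_card]; exact hcP)
      have hP1 : (P : Subgroup G) ≠ ⊥ := P.ne_bot_of_dvd_card hpG
      have hKt : K ≠ ⊤ := by
        rintro rfl
        exact hP1 (Subgroup.isComplement'_top_left.1 hKP)
      have hMK' : M = K := by
        by_contra hne'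
        exact hKt (hM.2 K (lt_of_le_of_ne hMK hne'))
      subst hMK'
      have hMC := cent h' hMn hcP (hdv _ P.isPGroup' hP1) (by
        intro q _
        obtain ⟨R, hR⟩ := CL.coprime_exists_invariant_sylow (P : Subgroup G) M
          (Subgroup.normalizer_eq_top M ▸ le_top) hcP.symm
          (Or.inl (CL.isSolvable_of_isPGroup P.isPGroup')) q
        refine ⟨R, ?_⟩
        rw [sup_comm, mul_comm]
        exact CL.card_sup_dvd_mul_of_le_normalizer hR)
      refine hP1 (hne P ?_ P.isPGroup')
      rw [← Subgroup.normalizer_eq_top_iff, eq_top_iff, ← hKP.sup_eq_top]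
      exact sup_le (hMC.trans (Subgroup.centralizer_le_normalizer _)) Subgroup.le_normalizer
    have hcQ : (Nat.card M).Coprime (Nat.card Q) :=
      (CL.coprime_card_of_isPGroup_of_coprime hQ hMp).symm
    have hMC := cent h' hMn hcQ (hdv _ hQ hQ1) (fun q _ =>
      ⟨Classical.arbitrary _, CL.card_sup_dvd_mul _ _⟩)
    obtain ⟨z, hz⟩ := exists_prime_orderOf_dvd_card' (G := Q) p (hdv _ hQ hQ1)
    have hz' : orderOf (z : G) = p := by rw [Subgroup.orderOf_coe, hz]
    have hZc : Nat.card (Subgroup.zpowers (z : G)) = p := by rw [Nat.card_zpowers, hz']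
    have hzM : (z : G) ∉ M := fun hzM => hpM (hz' ▸ Subgroup.orderOf_dvd_natCard M hzM)
    have htop : Subgroup.zpowers (z : G) ⊔ M = ⊤ :=
      hM.2 _ (lt_of_le_of_ne le_sup_right fun e =>
        hzM (e ▸ Subgroup.mem_sup_left (Subgroup.mem_zpowers _)))
    have hMZ : M ≤ Subgroup.centralizer (Subgroup.zpowers (z : G) : Set G) :=
      hMC.trans (Subgroup.centralizer_le (Subgroup.zpowers_le.2 z.2))
    have hZn : (Subgroup.zpowers (z : G)).Normal := by
      rw [← Subgroup.normalizer_eq_top_iff, eq_top_iff, ← htop]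
      exact sup_le Subgroup.le_normalizer (hMZ.trans (Subgroup.centralizer_le_normalizer _))
    refine ⟨Subgroup.zpowers (z : G), M, hZn, ?_, ?_, htop, hZc, ⟨hMn, fun H hH => ?_⟩, hpM⟩
    · rw [← Subgroup.normalizer_eq_top_iff, eq_top_iff, ← htop]
      exact sup_le ((Subgroup.le_centralizer_iff.1 hMZ).trans (Subgroup.centralizer_le_normalizer _))
        Subgroup.le_normalizer
    · exact disjoint_iff.1 (Subgroup.disjoint_of_coprime_natCard (by rw [hZc]; exact hMp.symm))
    · have hlt : H.map M.subtype < M := by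
        refine lt_of_le_of_ne (Subgroup.map_subtype_le _) fun e => hH ?_
        rw [eq_top_iff]
        intro x _
        obtain ⟨y, hy, hyx⟩ : (x : G) ∈ H.map M.subtype := e.symm ▸ x.2
        exact (Subtype.ext hyx : y = x) ▸ hy
      have hn := h' _ (ne_top_of (Q := Subgroup.zpowers (z : G)) hlt (by rw [hZc]; exact hMp)
        (CL.card_sup_dvd_mul _ _)) (hZc ▸ Subgroup.card_dvd_of_le le_sup_right)
      have h2 : Group.IsNilpotent (H.map M.subtype) :=
        Group.nilpotent_of_mulEquiv (Subgroup.subgroupOfEquivOfLe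
          (le_sup_left : H.map M.subtype ≤ _ ⊔ Subgroup.zpowers (z : G)))
      exact Group.nilpotent_of_mulEquiv (H.equivMapOfInjective M.subtype M.subtype_injective).symm
  · rintro (hG | hG | ⟨Z, K, hZ, hK, hZK, htop, hZc, hmin, hpK⟩) M hM hpM
    · infer_instance
    · exact hG.2 M hM.1
    · have hZi : ¬ p ∣ Z.index := fun h => hpK (h.trans (CL.index_dvd_card_of_sup_eq_top htop))
      obtain ⟨z, hz⟩ := exists_prime_orderOf_dvd_card' (G := M) p hpM
      have hz' : orderOf (z : G) = p := by rw [Subgroup.orderOf_coe, hz]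
      have hzZ : (z : G) ∈ Z :=
        CL.mem_of_coprime_index (by rw [hz']; exact (Nat.Prime.coprime_iff_not_dvd hp).2 hZi)
      have hZM : Z ≤ M := by
        have : Subgroup.zpowers (z : G) = Z :=
          Subgroup.eq_of_le_of_card_ge (Subgroup.zpowers_le.2 hzZ) (by rw [Nat.card_zpowers, hz', hZc])
        rw [← this]
        exact Subgroup.zpowers_le.2 z.2
      have hMeq : Z ⊔ K ⊓ M = M := by
        rw [← CL.sup_inf_assoc_of_le_of_le_normalizer hZM
          (Or.inl (Subgroup.normalizer_eq_top K ▸ le_top)), htop, top_inf_eq]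
      have h1 : Group.IsNilpotent (M.subgroupOf K) := hmin.2 _ (by
        intro e
        exact hM.1 (top_le_iff.1 (htop ▸ sup_le hZM (Subgroup.subgroupOf_eq_top.1 e))))
      have h2 : Group.IsNilpotent (K.subgroupOf M) := by
        have e1 : (M ⊓ K).subgroupOf K = M.subgroupOf K := Subgroup.inf_subgroupOf_right M K
        have e2 : (K ⊓ M).subgroupOf M = K.subgroupOf M := Subgroup.inf_subgroupOf_right K M
        rw [← e1] at h1
        have h3 : Group.IsNilpotent (M ⊓ K : Subgroup G) :=
          Group.nilpotent_of_mulEquiv (Subgroup.subgroupOfEquivOfLe inf_le_right)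
        rw [inf_comm] at h3
        rw [← e2]
        exact Group.nilpotent_of_mulEquiv (Subgroup.subgroupOfEquivOfLe inf_le_right).symm
      have h4 : Group.IsNilpotent (Z.subgroupOf M) := by
        have : IsPGroup p Z := IsPGroup.of_card (n := 1) (by rw [hZc, pow_one])
        exact (this.comap_subtype (K := M)).isNilpotent
      have h5 := CL.isNilpotent_sup_of_normal h4 h2
      have h6 : Z.subgroupOf M ⊔ K.subgroupOf M = ⊤ := by
        rw [← Subgroup.inf_subgroupOf_right K M, ← Subgroup.subgroupOf_sup hZM inf_le_right, hMeq,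
          Subgroup.subgroupOf_self]
      rw [h6] at h5
      exact Group.nilpotent_of_mulEquiv Subgroup.topEquiv

end Cfsg.Agent.S4242
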