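import Cfsg.Statements.S4250
import Cfsg.Agent.PLOC.Gruen

set_option autoImplicit false
open Cfsg

namespace Cfsg.Agent.S4250

open scoped commutatorElement

/-- Let P be a Sylow p-subgroup of a finite group G. Call an intersection H = P ∩ Q with a Sylow p-subgroup Q tame when N_P(H) and N_Q(H) are Sylow p-subgroups of N_G(H). Then P ∩ G′ is generated by [P, N_G(P)] together with the commutator subgroups [P ∩ Q, ⟨x⟩] for all tame intersections P ∩ Q and all p-elements x of N_G(P ∩ Q). -/
theorem result {G : Type*} [Group G] [Finite G] (p : ℕ) [Fact p.Prime] (P : Sylow p G) :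
    (P : Subgroup G) ⊓ commutator G =
      ⁅(P : Subgroup G), Subgroup.normalizer ((P : Subgroup G) : Set G)⁆ ⊔
        ⨆ (Q : Sylow p G) (_ : (¬ p ∣ ((P : Subgroup G) ⊓ Subgroup.normalizer (((P : Subgroup G) ⊓ (Q : Subgroup G) : Subgroup G) : Set G)).relIndex (Subgroup.normalizer (((P : Subgroup G) ⊓ (Q : Subgroup G) : Subgroup G) : Set G)) ∧ ¬ p ∣ ((Q : Subgroup G) ⊓ Subgroup.normalizer (((P : Subgroup G) ⊓ (Q : Subgroup G) : Subgroup G) : Set G)).relIndex (Subgroup.normalizer (((P : Subgroup G) ⊓ (Q : Subgroup G) : Subgroup G) : Set G))))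
          (x : G) (_ : x ∈ Subgroup.normalizer (((P : Subgroup G) ⊓ (Q : Subgroup G) : Subgroup G) : Set G) ∧ ∃ k : ℕ, orderOf x = p ^ k),
          ⁅(P : Subgroup G) ⊓ (Q : Subgroup G), Subgroup.zpowers x⁆ := by
  refine le_antisymm (CL.Tr.sylow_inf_commutator_le_of_tame P fun Q x hx a ha => ?_)
    (sup_le (le_inf (CL.Tr.commutator_le_of_le_normalizer le_rfl)
        (Subgroup.commutator_mono le_top le_top))
      (iSup_le fun Q => iSup_le fun _ => iSup_le fun x => iSup_le fun hx =>
        le_inf ((CL.Tr.commutator_le_of_le_normalizer (Subgroup.zpowers_le.mpr hx.1)).trans inf_le_left)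
          (Subgroup.commutator_mono le_top le_top)))
  rw [CL.Tr.inv_mul_conj_eq_commutatorElement]
  rcases hx.2.2.2 with hQ | hk
  · have hx1 := hx.1
    rw [hQ, inf_idem] at hx1
    exact Subgroup.mem_sup_left (Subgroup.commutator_mem_commutator (inv_mem ha.1) (inv_mem hx1))
  · refine Subgroup.mem_sup_right (Subgroup.mem_iSup_of_mem Q (Subgroup.mem_iSup_of_mem
      ⟨hx.2.1, hx.2.2.1⟩ (Subgroup.mem_iSup_of_mem x (Subgroup.mem_iSup_of_mem ⟨hx.1, hk⟩ ?_))))
    exact Subgroup.commutator_mem_commutator (inv_mem ha) (inv_mem (Subgroup.mem_zpowers x))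

end Cfsg.Agent.S4250
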