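import Cfsg.Statements.S4251
import Cfsg.Agent.PLOC.FrobeniusNPC
import Cfsg.Agent.PLOC.Alperin

set_option autoImplicit false
open Cfsg

namespace Cfsg.Agent.S4251

open Subgroup CL CL.Tr


/-- Let P be a Sylow p-subgroup of a finite group G. Call an intersection H = P ∩ Q with a Sylow p-subgroup Q tame when N_P(H) and N_Q(H) are Sylow p-subgroups of N_G(H). If N_G(H)/C_G(H) is a p-group for every nontrivial tame intersection H = P ∩ Q, then G has a normal p-complement. -/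
theorem result {G : Type*} [Group G] [Finite G] (p : ℕ) [Fact p.Prime] (P : Sylow p G)
    (h : ∀ Q : Sylow p G, (P : Subgroup G) ⊓ (Q : Subgroup G) ≠ ⊥ → (¬ p ∣ ((P : Subgroup G) ⊓ Subgroup.normalizer (((P : Subgroup G) ⊓ (Q : Subgroup G) : Subgroup G) : Set G)).relIndex (Subgroup.normalizer (((P : Subgroup G) ⊓ (Q : Subgroup G) : Subgroup G) : Set G)) ∧ ¬ p ∣ ((Q : Subgroup G) ⊓ Subgroup.normalizer (((P : Subgroup G) ⊓ (Q : Subgroup G) : Subgroup G) : Set G)).relIndex (Subgroup.normalizer (((P : Subgroup G) ⊓ (Q : Subgroup G) : Subgroup G) : Set G))) →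
      IsPGroup p (Subgroup.normalizer (((P : Subgroup G) ⊓ (Q : Subgroup G) : Subgroup G) : Set G) ⧸
        (Subgroup.centralizer (((P : Subgroup G) ⊓ (Q : Subgroup G) : Subgroup G) : Set G)).subgroupOf
          (Subgroup.normalizer (((P : Subgroup G) ⊓ (Q : Subgroup G) : Subgroup G) : Set G)))) :
    Cfsg.HasNormalPComplement p G := by
  have key : ∀ (A : Set G) (g : G), Chain (fun Q : Sylow p G => (P : Subgroup G) ⊓ Q) (TameStep P) A g →
      ∃ k ∈ (P : Subgroup G), ∀ a ∈ A, k⁻¹ * a * k = g⁻¹ * a * g := by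
    intro A g hc
    induction hc with
    | nil A => exact ⟨1, one_mem _, fun _ _ => rfl⟩
    | @cons Q x A g h1 h2 _ ih =>
      obtain ⟨k, hk, hk'⟩ := ih
      obtain ⟨z, hz, hz'⟩ : ∃ z ∈ (P : Subgroup G), ∀ a ∈ (P : Subgroup G) ⊓ Q,
          z * a * z⁻¹ = x⁻¹ * a * x⁻¹⁻¹ := by
        by_cases h0 : (P : Subgroup G) ⊓ Q = ⊥
        · refine ⟨1, one_mem _, fun a ha => ?_⟩
          rw [h0] at ha
          simp [mem_bot.1 ha]
        have h3 := h Q h0 ⟨h1.2.1, h1.2.2.1⟩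
        obtain ⟨z, hz, -, hz'⟩ := exists_sylowIn_conj_eq le_rfl P.isPGroup'.to_inf_left h1.2.1
          (fun y hy hc => pResidual_le_of_isPGroup_quotient _ h3
            (mem_pResidual_of_coprime (g := ⟨y, hy⟩) (by rwa [orderOf_mk]))) (inv_mem h1.1)
        exact ⟨z, hz.1, hz'⟩
      refine ⟨z⁻¹ * k, mul_mem (inv_mem hz) hk, fun a ha => ?_⟩
      have h4 := hk' _ ⟨a, ha, rfl⟩
      have h5 := hz' a (h2 ha)
      rw [inv_inv] at h5
      calc _ = k⁻¹ * (z * a * z⁻¹) * k := by group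
        _ = _ := by rw [h5, h4]; group
  refine hasNPC_of_sylow_controls P fun x hx g hg => ?_
  obtain ⟨k, hk, hk'⟩ := key {x} g⁻¹ (alperin_chain P _ _ (Set.singleton_subset_iff.2 hx)
    (by rintro _ ⟨_, rfl, rfl⟩; rw [inv_inv]; exact hg))
  exact ⟨k⁻¹, inv_mem hk, by simpa using hk' x rfl⟩

end Cfsg.Agent.S4251
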