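import Cfsg.Statements.S4252
import Cfsg.Agent.SOLV.Frobenius

set_option autoImplicit false
open Cfsg

namespace Cfsg.Agent.S4252

/-- Let a finite group G act on a finite set Ω with more than one point, transitively but not regularly, so that no non-identity element of G fixes two distinct points. Then the stabilizer H of any point is a Frobenius complement in G (nontrivial, proper, meeting its other conjugates trivially), and the Frobenius kernel of G with respect to H (the identity together with the elements lying in no conjugate of H) is exactly the set consisting of the identity and the elements fixing no point. -/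
theorem result {G Ω : Type*} [Group G] [Finite G] [Fintype Ω] [MulAction G Ω] (hΩ : 1 < Fintype.card Ω)
    (htrans : ∀ α β : Ω, ∃ g : G, g • α = β) (hnreg : ∃ g : G, g ≠ 1 ∧ ∃ α : Ω, g • α = α)
    (hfix : ∀ g : G, g ≠ 1 → ∀ α β : Ω, g • α = α → g • β = β → α = β) (α : Ω) :
    Cfsg.IsFrobeniusComplement (MulAction.stabilizer G α) ∧
      Cfsg.frobeniusKernel (MulAction.stabilizer G α) = {g : G | g = 1 ∨ ∀ ω : Ω, g • ω ≠ ω} := by
  refine ⟨⟨fun hb => ?_, fun ht => ?_, CL.Frob.malnormal_iff.2 fun g hg x hx hx' => ?_⟩, ?_⟩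
  · obtain ⟨g, hg1, β, hβ⟩ := hnreg
    obtain ⟨y, rfl⟩ := htrans α β
    have : y⁻¹ * g * y ∈ MulAction.stabilizer G α := by
      rw [MulAction.mem_stabilizer_iff, mul_smul, mul_smul, hβ, inv_smul_smul]
    rw [hb, Subgroup.mem_bot] at this
    apply hg1
    calc g = y * (y⁻¹ * g * y) * y⁻¹ := by group
      _ = 1 := by rw [this]; simp
  · obtain ⟨β, hβ⟩ := Fintype.exists_ne_of_one_lt_card hΩ α
    obtain ⟨y, rfl⟩ := htrans α β
    exact hβ (show y ∈ MulAction.stabilizer G α from ht ▸ Subgroup.mem_top y)
  · by_contra hx1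
    apply hg
    rw [MulAction.mem_stabilizer_iff] at hx hx' ⊢
    have h1 : x • g⁻¹ • α = g⁻¹ • α := by
      rw [eq_inv_smul_iff, ← mul_smul, ← mul_smul, hx']
    have := hfix x hx1 α _ hx h1
    rw [eq_inv_smul_iff] at this
    exact this
  · ext g
    refine or_congr Iff.rfl ⟨fun h ω hω => ?_, fun h y hy => ?_⟩
    · obtain ⟨y, rfl⟩ := htrans α ω
      apply h y
      rw [CL.mem_conj_smul_iff, MulAction.mem_stabilizer_iff, mul_smul, mul_smul, hω,
        inv_smul_smul]
    · rw [CL.mem_conj_smul_iff, MulAction.mem_stabilizer_iff, mul_smul, mul_smul,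
        inv_smul_eq_iff] at hy
      exact h _ hy

end Cfsg.Agent.S4252
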