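import Cfsg.Statements.S4253
import Cfsg.Agent.SOLV.Frobenius

set_option autoImplicit false
open Cfsg

namespace Cfsg.Agent.S4253

/-- Let H be a Frobenius complement in a finite group G (a nontrivial proper subgroup meeting each conjugate gHg⁻¹ with g outside H trivially). Then in the action of G on the left cosets of H by left multiplication, no non-identity element of G fixes two distinct cosets. -/
theorem result {G : Type*} [Group G] [Finite G] (H : Subgroup G) (hH : Cfsg.IsFrobeniusComplement H)
    (g : G) (hg : g ≠ 1) (a b : G ⧸ H) (ha : g • a = a) (hb : g • b = b) : a = b := by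
  obtain ⟨a, rfl⟩ := QuotientGroup.mk_surjective a
  obtain ⟨b, rfl⟩ := QuotientGroup.mk_surjective b
  rw [MulAction.Quotient.smul_mk, QuotientGroup.eq, smul_eq_mul] at ha hb
  rw [QuotientGroup.eq]
  refine CL.Frob.mem_of_conj_mem hH hb (fun h => hg ?_) ?_
  · have : g⁻¹ = b * ((g * b)⁻¹ * b) * b⁻¹ := by group
    rw [h] at this
    simpa using this
  · have : a⁻¹ * b * ((g * b)⁻¹ * b) * (a⁻¹ * b)⁻¹ = (g * a)⁻¹ * a := by group
    rw [this]; exact ha

end Cfsg.Agent.S4253
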