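import Cfsg.Statements.S4260
import Mathlib

set_option autoImplicit false
open Cfsg

namespace Cfsg.Agent.S4260

/-- Let H be a Hall subgroup of a finite group G (the order of H is coprime to its index) such that x^[G : H] lies in H for every x in G. Then H is normal in G. -/
theorem result {G : Type*} [Group G] [Finite G] (H : Subgroup G) (hHall : (Nat.card H).Coprime H.index)
    (hexp : ∀ x : G, x ^ H.index ∈ H) : H.Normal := by
  refine ⟨fun h hh g => ?_⟩
  have h1 : orderOf (g * h * g⁻¹) ∣ Nat.card H := by
    rw [show g * h * g⁻¹ = MulAut.conj g h from rfl, MulEquiv.orderOf_eq]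
    exact H.orderOf_dvd_natCard hh
  exact Subgroup.zpowers_le.2 (hexp _)
    (mem_zpowers_pow_iff.2 (hHall.symm.coprime_dvd_right h1))

end Cfsg.Agent.S4260
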