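import Cfsg.Statements.S4261
import Mathlib
import Cfsg.Agent.SOLV.Primitive
import Cfsg.Agent.PLOC.NPC
import Cfsg.Agent.SOLV.Frattini

set_option autoImplicit false
open Cfsg

namespace Cfsg.Agent.S4261

/-- Let M be a maximal subgroup of a finite solvable group G such that x^[G : M] lies in M for every x in G. Then M is normal in G. -/
theorem result {G : Type*} [Group G] [Finite G] (hG : Group.IsSolvable G) (M : Subgroup G) (hM : IsCoatom M)
    (hexp : ∀ x : G, x ^ M.index ∈ M) : M.Normal := by
  obtain ⟨p, k, hp, -, hk⟩ := (isPrimePow_nat_iff _).1 (CL.Prim.isPrimePow_index M hM)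
  have := Fact.mk hp
  have h1 : pResidual p G ≤ M := (Subgroup.closure_le _).2 fun x hx =>
    Subgroup.zpowers_le.2 (hexp x) (mem_zpowers_pow_iff.2 (by
      rw [← hk]; exact Nat.Coprime.pow_left k (Nat.Coprime.symm hx)))
  have hk : (QuotientGroup.mk' (pResidual p G)).ker ≤ M := by rwa [QuotientGroup.ker_mk']
  have h2 := CL.isNilpotent_iff_coatom_normal.1 (CL.isPGroup_quotient_pResidual (G := G) (p := p)).isNilpotent
    _ (CL.isCoatom_map_of_ker_le (QuotientGroup.mk'_surjective _) hM hk)
  rw [← Subgroup.comap_map_eq_self hk]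
  infer_instance

end Cfsg.Agent.S4261
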