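import Cfsg.Statements.S4263
import Mathlib
import Cfsg.Agent.SOLV.Fitting
import Cfsg.Agent.SOLV.Subnormal

set_option autoImplicit false
open Cfsg

namespace Cfsg.Agent.S4263

theorem pow_relIndex_mem {G : Type*} [Group G] {V H : Subgroup G} (h : CL.SnIn V H) {x : G}
    (hx : x ∈ V) : x ^ H.relIndex V ∈ H := by
  have h1 := h.isSubnormal_subgroupOf
  have key : ∀ K : Subgroup V, K.IsSubnormal → ∀ y : V, y ^ K.index ∈ K := by
    intro K hK
    induction hK with
    | top => intro y; trivial
    | step H K hle _ hN ih =>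
      intro y
      have h2 := Subgroup.pow_index_mem (H.subgroupOf K) (⟨_, ih y⟩ : K)
      rw [Subgroup.mem_subgroupOf] at h2
      rw [← Subgroup.relIndex_mul_index hle, mul_comm, pow_mul]
      exact h2
  have := key _ h1 ⟨x, hx⟩
  rw [Subgroup.mem_subgroupOf] at this
  exact this

/-- Let G be a finite group. An element x lies in the Fitting subgroup F(G) if and only if, for every subgroup H of G, the power x^[G : H] lies in H. -/
theorem result {G : Type*} [Group G] [Finite G] (x : G) :
    x ∈ Cfsg.fittingSubgroup G ↔ ∀ H : Subgroup G, x ^ H.index ∈ H := by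
  constructor
  · intro hx H
    have hs : CL.SnIn (fittingSubgroup G) (H ⊓ fittingSubgroup G) :=
      CL.SnIn.of_isNilpotent (CL.isNilpotent_fittingSubgroup G) inf_le_right
    have h1 := pow_relIndex_mem hs hx
    rw [Subgroup.inf_relIndex_right] at h1
    obtain ⟨c, hc⟩ := CL.relIndex_dvd_index_of_normal_right (fittingSubgroup G) H
    rw [hc, pow_mul]
    exact H.pow_mem h1.1 c
  · intro h
    have : Subgroup.zpowers x ≤ fittingSubgroup G := by
      refine CL.le_of_forall_isPGroup_le fun p _ P => ?_
      refine le_trans ?_ (CL.pCore_le_fittingSubgroup p)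
      rw [CL.pCore_eq_iInf_sylow, le_iInf_iff]
      rintro Q _ ⟨y, hy, rfl⟩
      obtain ⟨n, hn⟩ := P.isPGroup'.exists_orderOf_eq_pow ⟨_, hy⟩
      rw [Subgroup.orderOf_mk, ← Subgroup.orderOf_coe] at hn
      obtain ⟨y, k, rfl⟩ := y
      change orderOf (x ^ k) = _ at hn
      have h1 : (x ^ k) ^ (Q : Subgroup G).index ∈ (Q : Subgroup G) := by
        have := (Q : Subgroup G).zpow_mem (h Q) k
        rwa [← zpow_natCast, ← zpow_mul, mul_comm, zpow_mul, zpow_natCast] at this
      have h2 : ((Q : Subgroup G).index).Coprime (orderOf (x ^ k)) := by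
        rw [hn]
        exact Nat.Coprime.pow_right _
          ((Nat.Prime.coprime_iff_not_dvd Fact.out).mpr Q.not_dvd_index).symm
      obtain ⟨m, hm⟩ := exists_pow_eq_self_of_coprime h2
      show x ^ k ∈ (Q : Subgroup G)
      rw [← hm]
      exact (Q : Subgroup G).pow_mem h1 m
    exact this (Subgroup.mem_zpowers x)

end Cfsg.Agent.S4263
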