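import Cfsg.Statements.S4269
import Cfsg.Agent.FGS.Pronormal

set_option autoImplicit false
open Cfsg

namespace Cfsg.Agent.S4269

open CL.Pron CL.MSS
open scoped commutatorElement


/-- Let G be a finite group, V an abelian normal subgroup and H a subgroup with HV = G. Then H is pronormal in G (H and gHg⁻¹ are conjugate inside the subgroup they generate, for every g) if and only if every H-invariant subgroup U of V satisfies U = N_U(H)·[H, U], that is, U is the join of U ∩ N_G(H) and the commutator subgroup [H, U]. -/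
theorem result {G : Type*} [Group G] [Finite G]
    (V : Subgroup G) [V.Normal] (hV : IsMulCommutative ↥V) (H : Subgroup G) (hHV : H ⊔ V = ⊤) :
    Cfsg.IsPronormal H ↔
      ∀ U : Subgroup G, U ≤ V → (∀ h ∈ H, U.map (MulAut.conj h).toMonoidHom = U) →
        U = (U ⊓ Subgroup.normalizer (H : Set G)) ⊔ ⁅H, U⁆ := by
  have hcomm : ∀ a ∈ V, ∀ b ∈ V, a * b = b * a := fun a ha b hb =>
    congrArg Subtype.val (hV.is_comm.comm (⟨a, ha⟩ : V) ⟨b, hb⟩)
  constructor
  · intro h U hUV hU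
    have hHU : H ≤ Subgroup.normalizer (U : Set G) := fun x hx =>
      mem_normalizer_iff_cj.2 (hU x hx)
    have hCU : ⁅H, U⁆ ≤ U := commutator_le_right_of_normalizes hHU
    refine le_antisymm (fun u hu => ?_) (sup_le inf_le_left hCU)
    obtain ⟨x, hx, he⟩ := h u
    have hHC : H ≤ Subgroup.normalizer ((⁅H, U⁆ : Subgroup G) : Set G) :=
      le_normalizer_commutator Subgroup.le_normalizer hHU
    have hle : H ⊔ u •ᶜ H ≤ ⁅H, U⁆ ⊔ H := by
      refine sup_le le_sup_right ?_
      rintro _ ⟨y, hy, rfl⟩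
      have h1 : ⁅y, u⁆⁻¹ * y ∈ ⁅H, U⁆ ⊔ H := Subgroup.mul_mem_sup
        (Subgroup.inv_mem _ (Subgroup.commutator_mem_commutator hy hu)) hy
      convert h1 using 1
      simp [commutatorElement_def, mul_assoc]
    obtain ⟨c, hc, y, hy, rfl⟩ := (mem_sup_of_normalizes_left hHC).1 (hle hx)
    rw [cj_mul, cj_eq_of_mem hy] at he
    have hn : c⁻¹ * u ∈ U ⊓ Subgroup.normalizer (H : Set G) := by
      refine ⟨U.mul_mem (U.inv_mem (hCU hc)) hu, mem_normalizer_iff_cj.2 ?_⟩
      rw [cj_mul, he, inv_cj_cj]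
    have : u = c * (c⁻¹ * u) := by group
    rw [this]
    exact Subgroup.mul_mem _ (Subgroup.mem_sup_right hc) (Subgroup.mem_sup_left hn)
  · intro h g
    have hg : g ∈ V ⊔ H := by rw [sup_comm, hHV]; trivial
    obtain ⟨v, hv, y, hy, rfl⟩ :=
      (mem_sup_of_normalizes_left Subgroup.le_normalizer_of_normal).1 hg
    rw [cj_mul, cj_eq_of_mem hy]
    set L := H ⊔ v •ᶜ H with hL
    have hVn : ∀ a ∈ V, ∀ x : G, x * a * x⁻¹ ∈ V := fun a ha x =>
      Subgroup.Normal.conj_mem inferInstance a ha x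
    let W : Subgroup G :=
      { carrier := {u | u ∈ V ∧ ∀ x ∈ H, x * u * x⁻¹ * u⁻¹ ∈ L}
        one_mem' := ⟨V.one_mem, fun x _ => by simp⟩
        mul_mem' := by
          rintro a b ⟨ha, ha'⟩ ⟨hb, hb'⟩
          refine ⟨V.mul_mem ha hb, fun x hx => ?_⟩
          have h1 := L.mul_mem (ha' x hx) (hb' x hx)
          have h2 := hcomm a⁻¹ (V.inv_mem ha) (x * b * x⁻¹ * b⁻¹)
            (V.mul_mem (hVn b hb x) (V.inv_mem hb))
          have h3 : x * (a * b) * x⁻¹ * (a * b)⁻¹ =
              x * a * x⁻¹ * ((x * b * x⁻¹ * b⁻¹) * a⁻¹) := by group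
          rw [h3, ← h2, ← mul_assoc]
          exact h1
        inv_mem' := by
          rintro a ⟨ha, ha'⟩
          refine ⟨V.inv_mem ha, fun x hx => ?_⟩
          have h1 := L.inv_mem (ha' x hx)
          have h2 := hcomm a ha (x * a⁻¹ * x⁻¹) (hVn _ (V.inv_mem ha) x)
          have h3 : (x * a * x⁻¹ * a⁻¹)⁻¹ = a * (x * a⁻¹ * x⁻¹) := by group
          rw [h3, h2] at h1
          rwa [inv_inv] }
    have hWV : W ≤ V := fun u hu => hu.1
    have hHW : H ≤ Subgroup.normalizer (W : Set G) := by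
      apply le_normalizer_of_cj_le
      rintro k hk _ ⟨u, hu, rfl⟩
      refine ⟨hVn u hu.1 k, fun x hx => ?_⟩
      have h1 := hu.2 (k⁻¹ * x * k) (H.mul_mem (H.mul_mem (H.inv_mem hk) hx) hk)
      have hkL : k ∈ L := Subgroup.mem_sup_left hk
      have h2 := L.mul_mem (L.mul_mem hkL h1) (L.inv_mem hkL)
      convert h2 using 1
      simp [mul_assoc]
    have hvW : v ∈ W := by
      refine ⟨hv, fun x hx => ?_⟩
      have h1 : x * (v * x⁻¹ * v⁻¹) ∈ L :=
        Subgroup.mul_mem_sup hx (conj_mem_cj (H.inv_mem hx))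
      simpa [mul_assoc] using h1
    have hC : ⁅H, W⁆ ≤ L := Subgroup.commutator_le.2 fun x hx u hu => hu.2 x hx
    have hCW : ⁅H, W⁆ ≤ W := commutator_le_right_of_normalizes hHW
    rw [h W hWV (fun x hx => mem_normalizer_iff_cj.1 (hHW hx)), sup_comm] at hvW
    have hnorm : W ⊓ Subgroup.normalizer (H : Set G) ≤
        Subgroup.normalizer ((⁅H, W⁆ : Subgroup G) : Set G) := by
      refine le_trans ?_ (Subgroup.centralizer_le_normalizer _)
      intro a ha b hb
      exact hcomm b (hWV (hCW hb)) a (hWV ha.1)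
    obtain ⟨c, hc, n, hn, hcn⟩ := (mem_sup_of_normalizes_left hnorm).1 hvW
    refine ⟨c, hC hc, ?_⟩
    rw [← hcn, cj_mul, cj_eq_of_mem_normalizer hn.2]

end Cfsg.Agent.S4269
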