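import Cfsg.Statements.S4271
import Cfsg.Agent.FGS.Pronormal

set_option autoImplicit false
open Cfsg

namespace Cfsg.Agent.S4271

open CL.Pron CL.MSS


/-- Let p be a prime and G a finite group with a normal subgroup A such that every subgroup of A containing a Sylow p-subgroup of A is pronormal in A, and the Sylow p-subgroups of G/A are self-normalizing. Let T be a Sylow p-subgroup of A. Then every subgroup of G containing a Sylow p-subgroup of G is pronormal in G if and only if every subgroup of N_G(T)/T containing a Sylow p-subgroup of N_G(T)/T is pronormal in N_G(T)/T. (Pronormal: H and gHg⁻¹ are conjugate inside the subgroup they generate, for every g.) -/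
theorem result {G : Type*} [Group G] [Finite G] {p : ℕ} [Fact p.Prime]
    (A : Subgroup G) [A.Normal] (hA : (∀ K : Subgroup ↥A, (∃ P : Sylow p ↥A, (P : Subgroup ↥A) ≤ K) → Cfsg.IsPronormal K))
    (hQ : ∀ P : Sylow p (G ⧸ A), Subgroup.normalizer ((P : Subgroup (G ⧸ A)) : Set (G ⧸ A)) = P)
    (T : Subgroup G) (hT : ∃ P : Sylow p ↥A, (P : Subgroup ↥A).map A.subtype = T) [(T.subgroupOf (Subgroup.normalizer (T : Set G))).Normal] :
    (∀ K : Subgroup G, (∃ P : Sylow p G, (P : Subgroup G) ≤ K) → Cfsg.IsPronormal K) ↔ (∀ K : Subgroup (↥(Subgroup.normalizer (T : Set G)) ⧸ T.subgroupOf (Subgroup.normalizer (T : Set G))), (∃ P : Sylow p (↥(Subgroup.normalizer (T : Set G)) ⧸ T.subgroupOf (Subgroup.normalizer (T : Set G))), (P : Subgroup (↥(Subgroup.normalizer (T : Set G)) ⧸ T.subgroupOf (Subgroup.normalizer (T : Set G)))) ≤ K) → Cfsg.IsPronormal K) := by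
  have hT' : SylIn p T A := sylIn_iff_exists_sylow.2 hT
  constructor
  · intro h
    obtain ⟨S, -, hS⟩ := exists_sylow_le_normalizer hT'
    exact (SylowOverPron.subgroup h S hS).of_surjective (QuotientGroup.mk'_surjective _)
  · rintro h1 H ⟨S, hS⟩
    have hN : SylowOverPron p (Subgroup.normalizer (T : Set G)) :=
      SylowOverPron.of_quotient (isPGroup_subgroupOf hT'.pgroup _) h1
    let S' : Sylow p (G ⧸ A) := S.mapSurjective (QuotientGroup.mk'_surjective A)
    have hle : Subgroup.normalizer ((S' : Subgroup (G ⧸ A)) : Set (G ⧸ A)) ≤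
        H.map (QuotientGroup.mk' A) := by
      rw [hQ S']
      exact Subgroup.map_mono hS
    refine isPronormal_of_quotient (pronIn_of_sylowOverPron hA hT' hN S hS)
      (isPronormal_of_normalizer_le (isPronormal_sylow S') hle) ?_
    refine le_antisymm (Subgroup.le_normalizer_map _) ?_
    have := (sylIn_top S').normalizer_le_of_le le_top (inf_le_right.trans hle)
    rw [top_inf_eq] at this
    exact this.trans (Subgroup.map_mono Subgroup.le_normalizer)

end Cfsg.Agent.S4271
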