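import Cfsg.Statements.S4304
import Cfsg.Agent.FGS.PseudoSylow

set_option autoImplicit false
open Cfsg

namespace Cfsg.Agent.S4304

open CL CL.PSyl

/-- No finite group has exactly 15 Sylow 7-subgroups. -/
theorem result {G : Type*} [Group G] [Finite G] : Nat.card (Sylow 7 G) ≠ 15 := by
  intro h
  have : Fact (Nat.Prime 7) := ⟨by norm_num⟩
  have : Fact (Nat.Prime 5) := ⟨by norm_num⟩
  obtain ⟨S, _, _, hS, hc, hd, hn⟩ := exists_simple h (by norm_num) (by decide +kernel) (by
    intro a b hab ha hb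
    have h1 : a ≤ 15 := Nat.le_of_dvd (by norm_num) ⟨b, hab.symm⟩
    interval_cases a <;> omega)
  have hP : ∀ P : Sylow 7 S, Nat.card P = 7 := fun P =>
    Cfsg.Agent.S4343.result hc 7 hd (by rw [hn]; norm_num) P
  have hodd := odd_card_of_card_sylow hc (by norm_num) hP hn
  obtain ⟨e, k, h1, h2, h3, -, -, h4⟩ := Small.prime_sylow_data hc default (hP default)
  have hk : ¬ 5 ∣ k := by
    intro hk
    obtain ⟨c, hcC, hc5⟩ := Small.exists_mem_orderOf_eq_prime _ 5 (h3 ▸ hk.mul_left 7)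
    obtain ⟨f, m, -, h5, h6, h7, h8, -⟩ := fixed_moved_data hc hd default (by norm_num) hc5 hcC
    omega
  have h5 : e ≤ 6 := Nat.le_of_dvd (by norm_num) h2
  rw [hn] at h4
  have hR : Nat.card (default : Sylow 5 S) = 5 := by
    apply card_sylow_eq_prime
    · rw [h4]; exact Dvd.dvd.mul_right (by norm_num) _
    · rw [h4]
      interval_cases e <;> omega
  obtain ⟨e', k', h1', h2', -, -, -, h4'⟩ := Small.prime_sylow_data hc default hR
  have h6 : e' ≤ 4 := Nat.le_of_dvd (by norm_num) h2'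
  have h7 : 2 ∣ e' := by interval_cases e' <;> simp_all
  rw [h4'] at hodd
  exact Nat.not_even_iff_odd.2 hodd
    (even_iff_two_dvd.2 (Dvd.dvd.mul_left (Dvd.dvd.mul_left h7 _) _))

end Cfsg.Agent.S4304
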