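import Cfsg.Statements.S4331
import Cfsg.Agent.S0144
import Cfsg.Agent.SOLV.Core
import Cfsg.Agent.SOLV.Subnormal

set_option autoImplicit false
open Cfsg

namespace Cfsg.Agent.S4331

@[ext] structure Aff where
  a : ZMod 3
  b : ZMod 3
  c : ZMod 3
  d : ZMod 3
  x : ZMod 3
  y : ZMod 3
  deriving DecidableEq

instance : Fintype Aff := Fintype.ofEquiv (ZMod 3 × ZMod 3 × ZMod 3 × ZMod 3 × ZMod 3 × ZMod 3)
  { toFun := fun p => ⟨p.1, p.2.1, p.2.2.1, p.2.2.2.1, p.2.2.2.2.1, p.2.2.2.2.2⟩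
    invFun := fun p => (p.a, p.b, p.c, p.d, p.x, p.y)
    left_inv := fun _ => rfl
    right_inv := fun _ => rfl }

def Aff.mul (p q : Aff) : Aff :=
  ⟨p.a * q.a + p.b * q.c, p.a * q.b + p.b * q.d, p.c * q.a + p.d * q.c, p.c * q.b + p.d * q.d,
    p.a * q.x + p.b * q.y + p.x, p.c * q.x + p.d * q.y + p.y⟩

def Aff.inv (p : Aff) : Aff :=
  let e := p.a * p.d - p.b * p.c
  ⟨e * p.d, -(e * p.b), -(e * p.c), e * p.a, -(e * p.d * p.x - e * p.b * p.y),
    -(e * p.a * p.y - e * p.c * p.x)⟩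

def good (a b c d : ZMod 3) : Bool :=
  (a != 0 || c != 0) && ((b == -c && d == a) || (b == c && d == -a))

theorem good_mul : ∀ a b c d : ZMod 3, good a b c d = true → ∀ a' b' c' d' : ZMod 3,
    good a' b' c' d' = true →
      good (a * a' + b * c') (a * b' + b * d') (c * a' + d * c') (c * b' + d * d') = true := by
  decide +kernel

theorem good_inv : ∀ p : Aff, good p.a p.b p.c p.d = true →
    good p.inv.a p.inv.b p.inv.c p.inv.d = true ∧ p.inv.mul p = ⟨1, 0, 0, 1, 0, 0⟩ := by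
  decide +kernel

def Gp : Type := {p : Aff // good p.a p.b p.c p.d = true}

instance : DecidableEq Gp := inferInstanceAs (DecidableEq {p : Aff // good p.a p.b p.c p.d = true})
instance : Fintype Gp := inferInstanceAs (Fintype {p : Aff // good p.a p.b p.c p.d = true})

instance : Mul Gp := ⟨fun p q => ⟨p.1.mul q.1, good_mul _ _ _ _ p.2 _ _ _ _ q.2⟩⟩
instance : One Gp := ⟨⟨⟨1, 0, 0, 1, 0, 0⟩, by decide⟩⟩
instance : Inv Gp := ⟨fun p => ⟨p.1.inv, (good_inv _ p.2).1⟩⟩

instance : Group Gp := Group.ofLeftAxioms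
  (fun p q r => Subtype.ext (by
    change (p.1.mul q.1).mul r.1 = p.1.mul (q.1.mul r.1)
    ext <;> simp only [Aff.mul] <;> ring))
  (fun p => Subtype.ext (by
    change Aff.mul ⟨1, 0, 0, 1, 0, 0⟩ p.1 = p.1
    ext <;> simp [Aff.mul]))
  (fun p => Subtype.ext (good_inv _ p.2).2)

def s : Gp := ⟨⟨1, 0, 0, -1, 0, 0⟩, by decide⟩
def w : Gp := ⟨⟨1, 0, 0, 1, 0, 1⟩, by decide⟩

theorem key : ∀ c : Gp, ∃ k : Gp, s * (k * c * k⁻¹) = (k * c * k⁻¹) * s ∨
    ((k * c * k⁻¹).1.x = 0 ∧ (k * c * k⁻¹).1.y = 0) := by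
  decide +kernel

theorem card_Gp : Fintype.card Gp = 2 ^ 4 * 3 ^ 2 := by decide +kernel

theorem pow8 : ∀ g : Gp, g.1.x = 0 ∧ g.1.y = 0 →
    ((g * g) * (g * g)) * ((g * g) * (g * g)) = 1 := by decide +kernel

def K : Subgroup Gp where
  carrier := {g | g.1.x = 0 ∧ g.1.y = 0}
  mul_mem' := by
    rintro p q ⟨h1, h2⟩ ⟨h3, h4⟩
    constructor
    · change p.1.a * q.1.x + p.1.b * q.1.y + p.1.x = 0
      simp [h1, h3, h4]
    · change p.1.c * q.1.x + p.1.d * q.1.y + p.1.y = 0
      simp [h2, h3, h4]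
  one_mem' := ⟨rfl, rfl⟩
  inv_mem' := by
    rintro p ⟨h1, h2⟩
    constructor
    · change -(_ * p.1.x - _ * p.1.y) = 0
      simp [h1, h2]
    · change -(_ * p.1.y - _ * p.1.x) = 0
      simp [h1, h2]

theorem isPGroup_K : IsPGroup 2 K := fun g => ⟨3, Subtype.ext (by
  have := pow8 g.1 g.2
  change g.1 ^ 2 ^ 3 = 1
  rw [← this]
  simp only [← pow_two, ← pow_mul]; norm_num)⟩

/-- There is a finite solvable group G with a subgroup A of order 2 such that every conjugacy class of G contains an element g for which A is subnormal in the subgroup generated by A and g, and yet A is not contained in O_2(G). (So the corresponding criteria for odd primes fail at the prime 2, even for solvable groups.) -/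
theorem result :
    ∃ (G : Type) (_ : Group G) (_ : Finite G) (A : Subgroup G), Group.IsSolvable G ∧ Nat.card A = 2 ∧
      (∀ c : G, ∃ g : G, IsConj c g ∧ (A.subgroupOf (A ⊔ Subgroup.zpowers g)).IsSubnormal) ∧
      ¬ A ≤ Cfsg.pCore 2 G := by
  open Subgroup in
  refine ⟨Gp, inferInstance, inferInstance, zpowers s,
    Cfsg.Agent.S0144.result 2 3 4 2 Nat.prime_two Nat.prime_three
      (by rw [Nat.card_eq_fintype_card, card_Gp]), ?_, fun c => ?_, fun h => ?_⟩
  · rw [Nat.card_zpowers]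
    exact orderOf_eq_prime (by rw [sq]; decide +kernel) (by decide +kernel)
  · obtain ⟨k, hk⟩ := key c
    refine ⟨k * c * k⁻¹, isConj_iff.mpr ⟨k, rfl⟩, ?_⟩
    rcases hk with hk | hk
    · apply Normal.isSubnormal
      rw [normal_subgroupOf_iff_le_normalizer le_sup_left]
      refine sup_le le_normalizer (zpowers_le.mpr (centralizer_le_normalizer _ ?_))
      rw [mem_centralizer_iff]
      rintro _ ⟨m, rfl⟩
      exact ((show Commute s _ from hk).zpow_left m).eq
    · have h1 : zpowers s ⊔ zpowers (k * c * k⁻¹) ≤ K :=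
        sup_le (zpowers_le.mpr ⟨rfl, rfl⟩) (zpowers_le.mpr hk)
      have := (isPGroup_K.to_le h1).isNilpotent
      exact CL.isSubnormal_of_isNilpotent _
  · have h1 := h (mem_zpowers s)
    have h2 : w * s * w⁻¹ * s ∈ Cfsg.pCore 2 Gp :=
      mul_mem (Normal.conj_mem inferInstance _ h1 w) h1
    obtain ⟨k, hk⟩ := CL.isPGroup_pCore 2 Gp ⟨_, h2⟩
    have h3 : (w * s * w⁻¹ * s) ^ 2 ^ k = 1 := congrArg Subtype.val hk
    have h4 : orderOf (w * s * w⁻¹ * s) = 3 :=
      haveI := Fact.mk Nat.prime_three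
      orderOf_eq_prime (by rw [pow_succ, sq]; decide +kernel) (by decide +kernel)
    have := orderOf_dvd_of_pow_eq_one h3
    rw [h4] at this
    exact absurd (Nat.prime_three.dvd_of_dvd_pow this) (by norm_num)

end Cfsg.Agent.S4331
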