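import Cfsg.Statements.S4332
import Cfsg.Agent.SOLV.Core

set_option autoImplicit false
open Pointwise
open Cfsg

namespace Cfsg.Agent.S4332

open Equiv Equiv.Perm Subgroup
open scoped Pointwise

def G (a b d x y z : Fin 8) : Bool :=
  ((x == a || x == b || x == d) && (y == a || y == b || y == d) && (z == a || z == b || z == d)) ||
  (x != a && x != b && x != d && y != a && y != b && y != d && z != a && z != b && z != d)

set_option synthInstance.maxSize 100000 in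
set_option synthInstance.maxHeartbeats 2000000 in
set_option maxRecDepth 100000 in
theorem search : ∀ x0 x1 : Fin 8, x1 ≠ x0 → ∀ x2 : Fin 8, x2 ≠ x0 → x2 ≠ x1 → ((G 0 1 2 x0 x1 x2 = true) ∨ (∀ x3 : Fin 8, x3 ≠ x0 → x3 ≠ x1 → x3 ≠ x2 → ((G 0 1 3 x0 x1 x3 = true ∨ G 0 2 3 x0 x2 x3 = true ∨ G 1 2 3 x1 x2 x3 = true) ∨ (∀ x4 : Fin 8, x4 ≠ x0 → x4 ≠ x1 → x4 ≠ x2 → x4 ≠ x3 → ((G 0 1 4 x0 x1 x4 = true ∨ G 0 2 4 x0 x2 x4 = true ∨ G 0 3 4 x0 x3 x4 = true ∨ G 1 2 4 x1 x2 x4 = true ∨ G 1 3 4 x1 x3 x4 = true ∨ G 2 3 4 x2 x3 x4 = true) ∨ (∀ x5 : Fin 8, x5 ≠ x0 → x5 ≠ x1 → x5 ≠ x2 → x5 ≠ x3 → x5 ≠ x4 → ((G 0 1 5 x0 x1 x5 = true ∨ G 0 2 5 x0 x2 x5 = true ∨ G 0 3 5 x0 x3 x5 = true ∨ G 0 4 5 x0 x4 x5 = true ∨ G 1 2 5 x1 x2 x5 = true ∨ G 1 3 5 x1 x3 x5 = true ∨ G 1 4 5 x1 x4 x5 = true ∨ G 2 3 5 x2 x3 x5 = true ∨ G 2 4 5 x2 x4 x5 = true ∨ G 3 4 5 x3 x4 x5 = true) ∨ (∀ x6 : Fin 8, x6 ≠ x0 → x6 ≠ x1 → x6 ≠ x2 → x6 ≠ x3 → x6 ≠ x4 → x6 ≠ x5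 → ((G 0 1 6 x0 x1 x6 = true ∨ G 0 2 6 x0 x2 x6 = true ∨ G 0 3 6 x0 x3 x6 = true ∨ G 0 4 6 x0 x4 x6 = true ∨ G 0 5 6 x0 x5 x6 = true ∨ G 1 2 6 x1 x2 x6 = true ∨ G 1 3 6 x1 x3 x6 = true ∨ G 1 4 6 x1 x4 x6 = true ∨ G 1 5 6 x1 x5 x6 = true ∨ G 2 3 6 x2 x3 x6 = true ∨ G 2 4 6 x2 x4 x6 = true ∨ G 2 5 6 x2 x5 x6 = true ∨ G 3 4 6 x3 x4 x6 = true ∨ G 3 5 6 x3 x5 x6 = true ∨ G 4 5 6 x4 x5 x6 = true) ∨ (∀ x7 : Fin 8, x7 ≠ x0 → x7 ≠ x1 → x7 ≠ x2 → x7 ≠ x3 → x7 ≠ x4 → x7 ≠ x5 → x7 ≠ x6 → (G 0 1 7 x0 x1 x7 = true ∨ G 0 2 7 x0 x2 x7 = true ∨ G 0 3 7 x0 x3 x7 = true ∨ G 0 4 7 x0 x4 x7 = true ∨ G 0 5 7 x0 x5 x7 = true ∨ G 0 6 7 x0 x6 x7 = true ∨ G 1 2 7 x1 x2 x7 = true ∨ G 1 3 7 x1 x3 x7 = true ∨ G 1 4 7 x1 x4 x7 = true ∨ G 1 5 7 x1 x5 x7 = true ∨ G 1 6 7 x1 x6 x7 = true ∨ G 2 3 7 x2 x3 x7 = true ∨ G 2 4 7 x2 x4 x7 = true ∨ G 2 5 7 x2 x5 x7 = true ∨ G 2 6 7 x2 x6 x7 = true ∨ G 3 4 7 x3 x4 x7 = true ∨ G 3 5 7 x3 x5 x7 = true ∨ G 3 6 7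 x3 x6 x7 = true ∨ G 4 5 7 x4 x5 x7 = true ∨ G 4 6 7 x4 x6 x7 = true ∨ G 5 6 7 x5 x6 x7 = true))))))))))) := by
  decide +kernel

theorem rot {α : Type*} [DecidableEq α] {a b d : α} (hab : a ≠ b) (had : a ≠ d) (hbd : b ≠ d) :
    swap b d * swap b a = swap a b * swap a d := by
  rw [swap_comm b a, swap_mul_eq_mul_swap, swap_inv, swap_apply_right,
    swap_apply_of_ne_of_ne had.symm hbd.symm]

theorem comm_inv {α : Type*} [DecidableEq α] (a b d : α) :
    Commute (swap a b * swap a d) (swap a d * swap a b) := by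
  have : swap a d * swap a b = (swap a b * swap a d)⁻¹ := by simp
  rw [this]; exact (Commute.refl _).inv_right

theorem commute_of_G {a b d x y z : Fin 8} (hab : a ≠ b) (had : a ≠ d) (hbd : b ≠ d)
    (hxy : x ≠ y) (hxz : x ≠ z) (hyz : y ≠ z) (h : G a b d x y z = true) :
    Commute (swap a b * swap a d) (swap x y * swap x z) := by
  simp only [G, Bool.or_eq_true, Bool.and_eq_true, beq_iff_eq, bne_iff_ne] at h
  rcases h with ⟨⟨h1, h2⟩, h3⟩ | h
  · rcases h1 with (rfl | rfl) | rfl <;> rcases h2 with (rfl | rfl) | rfl <;>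
      rcases h3 with (rfl | rfl) | rfl <;> first
        | contradiction
        | exact Commute.refl _
        | exact comm_inv _ _ _
        | (rw [rot hab had hbd]; done)
        | (rw [← rot had.symm hbd.symm hab]; done)
        | (rw [rot had hab hbd.symm]; exact comm_inv _ _ _)
        | (rw [← rot hab.symm hbd had]; exact comm_inv _ _ _)
  · obtain ⟨⟨⟨⟨⟨⟨⟨⟨h1, h2⟩, h3⟩, h4⟩, h5⟩, h6⟩, h7⟩, h8⟩, h9⟩ := h
    apply Disjoint.commute
    intro i
    by_cases hi : i = a ∨ i = b ∨ i = d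
    · right
      rcases hi with rfl | rfl | rfl <;>
        simp [swap_apply_of_ne_of_ne, h1.symm, h2.symm, h3.symm, h4.symm, h5.symm, h6.symm,
          h7.symm, h8.symm, h9.symm]
    · left
      push Not at hi
      simp [swap_apply_of_ne_of_ne, hi.1, hi.2.1, hi.2.2]

theorem exists_triple (c : Perm (Fin 8)) : ∃ a b d : Fin 8, a ≠ b ∧ a ≠ d ∧ b ≠ d ∧
    G a b d (c a) (c b) (c d) = true := by
  have hne : ∀ {i j : Fin 8}, i ≠ j → c i ≠ c j := fun h => c.injective.ne h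
  have h := search (c 0) (c 1) (hne (by decide)) (c 2) (hne (by decide)) (hne (by decide))
  rcases h with h | h
  · rcases h with h <;> exact ⟨_, _, _, by decide, by decide, by decide, h⟩
  replace h := h (c 3) (hne (by decide)) (hne (by decide)) (hne (by decide))
  rcases h with h | h
  · rcases h with h | h | h <;> exact ⟨_, _, _, by decide, by decide, by decide, h⟩
  replace h := h (c 4) (hne (by decide)) (hne (by decide)) (hne (by decide)) (hne (by decide))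
  rcases h with h | h
  · rcases h with h | h | h | h | h | h <;> exact ⟨_, _, _, by decide, by decide, by decide, h⟩
  replace h := h (c 5) (hne (by decide)) (hne (by decide)) (hne (by decide)) (hne (by decide)) (hne (by decide))
  rcases h with h | h
  · rcases h with h | h | h | h | h | h | h | h | h | h <;> exact ⟨_, _, _, by decide, by decide, by decide, h⟩
  replace h := h (c 6) (hne (by decide)) (hne (by decide)) (hne (by decide)) (hne (by decide)) (hne (by decide)) (hne (by decide))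
  rcases h with h | h
  · rcases h with h | h | h | h | h | h | h | h | h | h | h | h | h | h | h <;> exact ⟨_, _, _, by decide, by decide, by decide, h⟩
  replace h := h (c 7) (hne (by decide)) (hne (by decide)) (hne (by decide)) (hne (by decide)) (hne (by decide)) (hne (by decide)) (hne (by decide))
  rcases h with h | h | h | h | h | h | h | h | h | h | h | h | h | h | h | h | h | h | h | h | h <;> exact ⟨_, _, _, by decide, by decide, by decide, h⟩

/-- In the symmetric group of degree 8, let A be the subgroup generated by a 3-cycle. Then every conjugacy class contains an element g for which A is subnormal in the subgroup generated by A and its conjugate by g, although O_3 of the symmetric group of degree 8 is trivial. -/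
theorem result
    (σ : Equiv.Perm (Fin 8)) (hσ : σ.IsThreeCycle) :
    (∀ c : Equiv.Perm (Fin 8), ∃ g : Equiv.Perm (Fin 8), IsConj c g ∧
      ((Subgroup.zpowers σ).subgroupOf (Subgroup.zpowers σ ⊔ MulAut.conj g • Subgroup.zpowers σ)).IsSubnormal) ∧
    Cfsg.pCore 3 (Equiv.Perm (Fin 8)) = ⊥ := by
  constructor
  · intro c
    obtain ⟨a, b, d, hab, had, hbd, h⟩ := exists_triple c
    have h1 := commute_of_G hab had hbd (c.injective.ne hab) (c.injective.ne had)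
      (c.injective.ne hbd) h
    have h2 : swap (c a) (c b) * swap (c a) (c d) = c * (swap a b * swap a d) * c⁻¹ := by
      rw [swap_apply_apply c a b, swap_apply_apply c a d]; group
    have h3 := isThreeCycle_swap_mul_swap_same hab had hbd
    obtain ⟨k, hk⟩ := isConj_iff.mp (isConj_iff_cycleType_eq.mpr (hσ.cycleType.trans h3.cycleType.symm))
    rw [h2, ← hk] at h1
    have h4 : Commute σ ((k⁻¹ * c * k) * σ * (k⁻¹ * c * k)⁻¹) := by
      have := h1.map (MulAut.conj k⁻¹)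
      simpa [mul_assoc] using this
    refine ⟨k⁻¹ * c * k, isConj_iff.mpr ⟨k⁻¹, by group⟩, ?_⟩
    apply Normal.isSubnormal
    rw [normal_subgroupOf_iff_le_normalizer le_sup_left]
    refine sup_le le_normalizer ?_
    rintro _ ⟨_, ⟨n, rfl⟩, rfl⟩
    apply centralizer_le_normalizer
    rw [mem_centralizer_iff]
    rintro _ ⟨m, rfl⟩
    have := (h4.zpow_zpow m n).eq
    rw [conj_zpow] at this
    exact this
  · by_contra hne
    have : Nontrivial (Cfsg.pCore 3 (Perm (Fin 8))) := (nontrivial_iff_ne_bot _).mpr hne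
    have h1 := alternatingGroup_le_of_normal (α := Fin 8) (by simp) this
    obtain ⟨k, hk⟩ := ((CL.isPGroup_pCore (p := 3) (G := Perm (Fin 8))).to_le h1).exists_card_eq
    rw [nat_card_alternatingGroup] at hk
    have : 2 ∣ 3 ^ k := by rw [← hk]; simp [Nat.factorial]
    exact absurd (Nat.prime_two.dvd_of_dvd_pow this) (by norm_num)

end Cfsg.Agent.S4332
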