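import Cfsg.Statements.S4333
import Mathlib
import Cfsg.Agent.SOLV.Subnormal

set_option autoImplicit false
open Pointwise
open Cfsg

namespace Cfsg.Agent.S4333

open Subgroup CL Pointwise in
theorem aux {G : Type*} [Group G] [Finite G] (A : Subgroup G)
    (h : ∀ a ∈ A, ∀ g : G, SnIn (A ⊔ MulAut.conj (g⁻¹ * a * g) • A) A) : A.IsSubnormal := by
  induction hn : Nat.card G using Nat.strong_induction_on generalizing G with
  | _ n ih =>
  by_contra hA
  have hprop : ∀ V, A ≤ V → V ≠ ⊤ → SnIn V A := by
    intro V hAV hV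
    refine SnIn.iff_subgroupOf.2 ⟨hAV, ih _ (hn ▸ card_lt_of_ne_top hV) _ (fun a ha g => ?_) rfl⟩
    have : SnIn _ _ := (h a ha g).comap V.subtype
    change SnIn ((A ⊔ MulAut.conj ((g⁻¹ * a * g : V) : G) • A).comap _) _ at this
    rwa [comap_subtype, comap_subtype, subgroupOf_sup hAV
      (conj_smul_le_of_le hAV (g⁻¹ * a * g)), ← conj_smul_subgroupOf hAV (g⁻¹ * a * g)] at this
  obtain ⟨M, hM, hAM, hM'⟩ := zipper_lemma hprop hA
  by_cases hN : normalizer (M : Set G) = ⊤
  · exact hA ((hprop M hAM hM).isSubnormal (normalizer_eq_top_iff.1 hN).isSubnormal)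
  have hle : normalClosure (A : Set G) ≤ M := by
    refine (closure_le _).2 fun y hy => ?_
    obtain ⟨a, ha, hc⟩ := Group.mem_conjugatesOfSet_iff.1 hy
    obtain ⟨g, rfl⟩ := isConj_iff.1 hc
    have h1 := h a ha g⁻¹
    rw [inv_inv] at h1
    have h2 := le_sup_right.trans (hM' _ le_sup_left fun e => hA (SnIn.top_iff.1 (e ▸ h1)))
    refine hM' _ (hAM.trans le_normalizer) hN (inv_mem_iff.1 (conj_smul_eq_iff_mem_normalizer.1
      (conj_smul_eq_of_le (hM' _ ?_ fun e => hM ?_))))
    · have := conj_smul_mono (g * a * g⁻¹)⁻¹ h2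
      rwa [conj_smul_conj_smul, inv_mul_cancel, conj_one_smul] at this
    · rw [← index_eq_one, ← index_conj_smul, e, index_top]
  exact hA ((hprop _ le_normalClosure (ne_top_of_le_ne_top hM hle)).isSubnormal
    (Normal.isSubnormal inferInstance))

/-- Let A be a subgroup of a finite group G. If A is subnormal in the subgroup generated by A and its conjugate by g⁻¹ a g, for every a ∈ A and every g ∈ G, then A is subnormal in G. (A sharpening of Wielandt's subnormality criterion: only conjugates of A by conjugates of elements of A are needed.) -/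
theorem result {G : Type*} [Group G] [Finite G]
    (A : Subgroup G)
    (h : ∀ a ∈ A, ∀ g : G, (A.subgroupOf (A ⊔ MulAut.conj (g⁻¹ * a * g) • A)).IsSubnormal) :
    A.IsSubnormal := by
  exact aux A fun a ha g => CL.SnIn.iff_subgroupOf.2 ⟨le_sup_left, h a ha g⟩

end Cfsg.Agent.S4333
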