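import Cfsg.Statements.S4334
import Mathlib
import Cfsg.Agent.SOLV.ProductsHall
import Cfsg.Agent.PLOC.FrobeniusNPC

set_option autoImplicit false
open Cfsg

namespace Cfsg.Agent.S4334

open Subgroup CL Pointwise in
theorem aux {G : Type*} [Group G] [Finite G]
    (σ τ : Set ℕ) (hd : Disjoint σ τ) (Hs Ht : Subgroup G) (hH : Cfsg.IsPiHall (σ ∪ τ) (Hs ⊔ Ht))
    (hs : IsPiNum σ (Nat.card Hs)) (ht : IsPiNum τ (Nat.card Ht)) (hsn : Group.IsNilpotent Hs)
    (hcomm : Ht ≤ centralizer (Hs : Set G)) (hD : Cfsg.IsDPiGroup τ G) (K : Subgroup G)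
    (hK : IsPiNum (σ ∪ τ) (Nat.card K)) : ∃ g : G, MulAut.conj g • K ≤ Hs ⊔ Ht := by
  set H := Hs ⊔ Ht with hHdef
  have hHi := (isPiHall_iff.1 hH).2
  have hidx : ∀ X Y : Subgroup G, X ⊔ Y = H → X ≤ normalizer (Y : Set G) → ∀ L : Subgroup G,
      Y ≤ L → L.relIndex H ∣ Nat.card X := fun X Y hXY hn L hYL => by
    have hf : IsFact (X.subgroupOf H) (L.subgroupOf H) := IsFact.subgroupOf_of_forall fun g hg => by
      obtain ⟨a, ha, b, hb, e⟩ := (mem_sup_of_le_normalizer hn).1 (hXY.ge hg)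
      exact ⟨a, ha, b, hYL hb, e.symm, Or.inl (hXY.le (mem_sup_left ha))⟩
    have := hf.index_dvd_card
    rwa [card_subgroupOf_of_le (le_sup_left.trans hXY.le)] at this
  have hidx2 : ∀ L : Subgroup G, L.index ∣ L.relIndex H * H.index := fun L => by
    rw [← inf_relIndex_right, relIndex_mul_index inf_le_right]
    exact index_dvd_of_le inf_le_left
  induction K using subgroup_induction with | h K ih =>
  by_cases hτ : IsPiNum τ (Nat.card K)
  · obtain ⟨M, hKM, hM⟩ := Finite.exists_le_maximal (p := Cfsg.IsPiSubgroup τ) hτ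
    have hHt : Cfsg.IsPiHall τ Ht := isPiHall_iff.2 ⟨ht, fun q hq hqd hqτ => by
      rcases hq.dvd_mul.1 (hqd.trans (hidx2 Ht)) with h | h
      · exact hd.notMem_of_mem_right hqτ (hs q hq (h.trans (hidx Hs Ht rfl
          ((le_centralizer_iff.1 hcomm).trans (centralizer_le_normalizer _)) Ht le_rfl)))
      · exact hHi q hq h (Or.inr hqτ)⟩
    obtain ⟨g, hg⟩ := hD M Ht hM ⟨ht, fun L hL h => (IsPiHall.eq_of_le hHt h hL).ge⟩
    exact ⟨g, (conj_smul_mono g hKM).trans (hg.ge.trans le_sup_right)⟩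
  obtain ⟨p, hp, hpK, hpσ⟩ : ∃ p : ℕ, p.Prime ∧ p ∣ Nat.card K ∧ p ∈ σ := by
    by_contra hc
    exact hτ fun q hq hqK => (hK q hq hqK).resolve_left fun h => hc ⟨q, hq, hqK, h⟩
  have := Fact.mk hp
  set P := Op p Hs with hP
  have hPp : IsPGroup p P := isPGroup_Op p Hs
  have hPi : ¬ p ∣ P.index := not_dvd_index_Op hsn fun h => by
    rcases hp.dvd_mul.1 (h.trans (hidx2 Hs)) with h | h
    · exact hd.notMem_of_mem_left hpσ (ht p hp (h.trans (hidx Ht Hs (sup_comm _ _)
        (hcomm.trans (centralizer_le_normalizer _)) Hs le_rfl)))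
    · exact hHi p hp h (Or.inl hpσ)
  have hW : Op' p Hs ⊔ Ht ≤ centralizer (P : Set G) := sup_le
    (le_centralizer_iff.1 (Op_le_centralizer hsn (Op'_le p Hs) (coprime_card_Op' p Hs)))
    (hcomm.trans (centralizer_le (Op_le p Hs)))
  have hPW : P ⊔ (Op' p Hs ⊔ Ht) = H := by rw [← sup_assoc, Op_sup_Op' hsn]
  obtain ⟨k, hk⟩ : ∃ k, (centralizer (P : Set G)).relIndex H = p ^ k := by
    obtain ⟨n, hn⟩ := IsPGroup.iff_card.1 hPp
    have := hidx _ _ hPW ((le_centralizer_iff.1 hW).trans (centralizer_le_normalizer _)) _ hW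
    rw [hn] at this
    obtain ⟨k, -, hk⟩ := (Nat.dvd_prime_pow hp).1 this
    exact ⟨k, hk⟩
  have hNPC : HasNormalPComplement p K := by
    by_contra hc
    obtain ⟨Q, q, j, g, hQ, hq, hqp, hg, hgN, hgC, -⟩ :=
      Tr.exists_prime_acting_of_not_hasNPC default hc
    have hQp : IsPGroup p (Q.map K.subtype) :=
      ((default : Sylow p K).isPGroup'.to_le hQ).map _
    obtain ⟨x, hx⟩ := exists_conj_le_of_not_dvd_index hQp hPi
    have h1 : ¬ q ∣ (centralizer ((Q.map K.subtype : Subgroup G) : Set G)).index := fun h => by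
      rw [← index_conj_smul x, ← centralizer_conj_smul] at h
      rcases hq.dvd_mul.1 ((h.trans (index_dvd_of_le (centralizer_le hx))).trans (hidx2 _)) with h | h
      · rw [hk] at h
        exact hqp ((Nat.prime_dvd_prime_iff_eq hq hp).1 (hq.dvd_of_dvd_pow h))
      · exact hHi q hq h (hK q hq ((dvd_pow_self q (Nat.succ_ne_zero j)).trans
          (hg ▸ orderOf_dvd_natCard g)))
    have h2 : (⟨g, le_normalizer_map K.subtype (mem_map_of_mem _ hgN)⟩ :
        normalizer ((Q.map K.subtype : Subgroup G) : Set G)) ∈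
        (centralizer ((Q.map K.subtype : Subgroup G) : Set G)).subgroupOf _ :=
      mem_of_coprime_index (by
        rw [orderOf_mk, orderOf_coe, hg]
        exact Nat.Coprime.pow_left _ (hq.coprime_iff_not_dvd.2 fun h =>
          h1 (h.trans (relIndex_dvd_index_of_le (centralizer_le_normalizer _)))))
    exact hgC fun y hy => Subtype.ext (h2 y (mem_map_of_mem _ hy))
  obtain ⟨L, M, hMn, hML⟩ := hNPC
  have hM : (Nat.card M).Coprime p := by
    rw [← hML.index_eq_card]
    exact (hp.coprime_iff_not_dvd.2 L.not_dvd_index).symm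
  have hlt : M.map K.subtype < K := (map_subtype_le M).lt_of_ne fun e => by
    rw [← card_subtype, e] at hM
    exact hp.coprime_iff_not_dvd.1 hM.symm hpK
  obtain ⟨g, hg⟩ := ih _ hlt (hK.of_dvd (card_dvd_of_le hlt.le))
  set M' := MulAut.conj g • M.map K.subtype with hM'
  have hHN : H ≤ normalizer (P : Set G) := hPW.ge.trans
    (sup_le le_normalizer (hW.trans (centralizer_le_normalizer _)))
  have h1 : M' ≤ centralizer (P : Set G) := by
    have := CL.normal_subgroupOf_of_le_normalizer (le_normalizer_centralizer hHN)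
    have h2 : M'.subgroupOf H ≤ (centralizer (P : Set G)).subgroupOf H := le_of_coprime_index (by
      rw [card_subgroupOf_of_le hg, hM', card_conj_smul, card_subtype]
      change Nat.Coprime _ (relIndex _ _)
      rw [hk]
      exact hM.pow_right k)
    exact fun x hx => h2 (show (⟨x, hg hx⟩ : H) ∈ M'.subgroupOf H from hx)
  have hPN : P ≤ normalizer (M' : Set G) :=
    (le_centralizer_iff.1 h1).trans (centralizer_le_normalizer _)
  set L' := MulAut.conj g • (L : Subgroup K).map K.subtype with hL'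
  have hLN : L' ≤ normalizer (M' : Set G) := by
    rw [hM', normalizer_conj_smul]
    exact conj_smul_mono g ((map_subtype_le _).trans (le_normalizer_map_subtype K M))
  obtain ⟨n, hn⟩ := exists_conj_le_of_not_dvd_index
    (((L.isPGroup'.map K.subtype).map (MulAut.conj g).toMonoidHom).comap_subtype
      (K := normalizer (M' : Set G)))
    (H := P.subgroupOf _) fun h => hPi (h.trans (relIndex_dvd_index_of_le hPN))
  have h2 := map_mono (f := (normalizer (M' : Set G)).subtype) hn
  rw [map_conj_smul, map_subgroupOf_eq_of_le hPN] at h2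
  erw [map_subgroupOf_eq_of_le hLN] at h2
  refine ⟨n * g, ?_⟩
  have h3 : K = M.map K.subtype ⊔ (L : Subgroup K).map K.subtype := by
    rw [← Subgroup.map_sup, hML.sup_eq_top, ← MonoidHom.range_eq_map, range_subtype]
  rw [← conj_smul_conj_smul, h3, smul_sup, smul_sup, ← hM', conj_smul_eq_iff_mem_normalizer.2 n.2]
  exact sup_le hg (h2.trans (le_sup_left.trans hPW.le))

/-- Let σ and τ be disjoint sets of primes with union π. Suppose a finite group G has a Hall π-subgroup H which is the direct product of a nilpotent σ-subgroup and a τ-subgroup (two elementwise-commuting subgroups generating H), and that the maximal τ-subgroups of G are pairwise conjugate. Then the maximal π-subgroups of G are pairwise conjugate. -/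
theorem result {G : Type*} [Group G] [Finite G]
    (σ τ π : Set ℕ) (hπ : π = σ ∪ τ) (hd : Disjoint σ τ) (H Hs Ht : Subgroup G) (hH : Cfsg.IsPiHall π H)
    (hs : Cfsg.IsPiSubgroup σ Hs) (ht : Cfsg.IsPiSubgroup τ Ht) (hsn : Group.IsNilpotent Hs)
    (hjoin : Hs ⊔ Ht = H) (hcomm : ∀ a ∈ Hs, ∀ b ∈ Ht, a * b = b * a) (hD : Cfsg.IsDPiGroup τ G) :
    Cfsg.IsDPiGroup π G := by
  subst hπ hjoin
  have key : ∀ K : Subgroup G, Maximal (Cfsg.IsPiSubgroup (σ ∪ τ)) K →
      ∃ g : G, K = (Hs ⊔ Ht).map (MulAut.conj g).toMonoidHom := fun K hK => by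
    obtain ⟨g, hg⟩ := aux σ τ hd Hs Ht hH hs ht hsn (fun b hb a ha => hcomm a ha b hb) hD K hK.1
    have h1 := CL.conj_smul_mono g⁻¹ hg
    rw [CL.conj_smul_conj_smul, inv_mul_cancel, CL.conj_one_smul] at h1
    exact ⟨g⁻¹, le_antisymm h1 (hK.2 (CL.isPiSubgroup_iff.2 (by
      erw [CL.card_conj_smul]; exact (CL.isPiHall_iff.1 hH).1)) h1)⟩
  intro K L hK hL
  obtain ⟨g, rfl⟩ := key K hK
  obtain ⟨h, rfl⟩ := key L hL
  exact ⟨h * g⁻¹, by rw [CL.Tr.map_conj_map_conj, inv_mul_cancel_right]⟩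

end Cfsg.Agent.S4334
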