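import Cfsg.Statements.S4337
import Mathlib
import Cfsg.Agent.FGS.SwapOrbits
import Cfsg.Agent.CHAR.Burnside

set_option autoImplicit false
open Cfsg

namespace Cfsg.Agent.S4337

/-- In a finite symmetric group, any three transpositions generate a solvable subgroup. -/
theorem result (n : ℕ) (a b c : Equiv.Perm (Fin n))
    (ha : a.IsSwap) (hb : b.IsSwap) (hc : c.IsSwap) :
    Group.IsSolvable (Subgroup.closure ({a, b, c} : Set (Equiv.Perm (Fin n)))) := by
  refine CL.Char.isSolvable_of_primes_subset_pair Nat.prime_two Nat.prime_three fun r hr hd => ?_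
  have h := CL.prime_le_of_dvd_card_closure_isSwap [a, b, c] (by simp [ha, hb, hc]) hr (by
    rwa [show {t | t ∈ [a, b, c]} = ({a, b, c} : Set _) by ext t; simp])
  have h2 := hr.two_le
  simp only [List.length_cons, List.length_nil] at h
  interval_cases r
  · exact Or.inl rfl
  · exact Or.inr rfl
  · exact absurd hr (by norm_num)

end Cfsg.Agent.S4337
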