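import Cfsg.Statements.S4342

set_option autoImplicit false
open Cfsg

namespace Cfsg.Agent.S4342

theorem sylow_le_of_normal {G : Type*} [Group G] [Finite G] (p : ℕ) [Fact p.Prime]
    (H : Subgroup G) [H.Normal] (hp : ¬ p ∣ H.index) (P : Sylow p G) : (P : Subgroup G) ≤ H := by
  intro x hx
  rw [← QuotientGroup.eq_one_iff]
  by_contra hne
  have h1 : IsPGroup p ((P : Subgroup G).map (QuotientGroup.mk' H)) := P.isPGroup'.map _
  have h2 := h1.dvd_orderOf (g := ⟨(x : G ⧸ H), x, hx, rfl⟩) (fun h => hne (congrArg Subtype.val h))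
  rw [← Subgroup.orderOf_coe] at h2
  exact hp (h2.trans (orderOf_dvd_natCard _))

theorem card_sylow_quotient_central {G : Type*} [Group G] [Finite G] (p : ℕ) [Fact p.Prime]
    (Z : Subgroup G) [Z.Normal] (hZ : Z ≤ Subgroup.center G) :
    Nat.card (Sylow p (G ⧸ Z)) = Nat.card (Sylow p G) := by
  symm
  apply Nat.card_eq_of_bijective
    (fun P : Sylow p G => P.mapSurjective (QuotientGroup.mk'_surjective Z))
  refine ⟨fun P Q hPQ => ?_, Sylow.mapSurjective_surjective _ p⟩
  have h1 : (P : Subgroup G).map (QuotientGroup.mk' Z) = (Q : Subgroup G).map (QuotientGroup.mk' Z) :=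
    congrArg (fun R : Sylow p (G ⧸ Z) => (R : Subgroup (G ⧸ Z))) hPQ
  have h2 : (P : Subgroup G) ≤ (Q : Subgroup G) ⊔ Z := by
    have := congrArg (Subgroup.comap (QuotientGroup.mk' Z)) h1
    rw [Subgroup.comap_map_eq, Subgroup.comap_map_eq, QuotientGroup.ker_mk'] at this
    rw [← this]
    exact le_sup_left
  have h3 : (Q : Subgroup G) ⊔ Z ≤ Subgroup.normalizer ((Q : Subgroup G) : Set G) :=
    sup_le Subgroup.le_normalizer (hZ.trans (Subgroup.center_le_normalizer _))
  have h4 := IsPGroup.inf_normalizer_sylow P.isPGroup' Q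
  have h5 : (P : Subgroup G) ≤ Q := by
    intro x hx
    have : x ∈ (P : Subgroup G) ⊓ Subgroup.normalizer (Q : Set G) := ⟨hx, h3 (h2 hx)⟩
    rw [h4] at this
    exact this.2
  exact Sylow.ext (P.is_maximal' Q.isPGroup' h5).symm


/-- Let H be a normal subgroup of a finite group G and p a prime not dividing the index of H. Then the number of Sylow p-subgroups of H/Z(H) equals the number of Sylow p-subgroups of G. -/
theorem result {G : Type*} [Group G] [Finite G]
    (p : ℕ) [Fact p.Prime] (H : Subgroup G) [H.Normal] (hp : ¬ p ∣ H.index) :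
    Nat.card (Sylow p (H ⧸ Subgroup.center H)) = Nat.card (Sylow p G) := by
  rw [card_sylow_quotient_central p _ le_rfl]
  symm
  apply Nat.card_eq_of_bijective (fun P : Sylow p G => P.subtype (sylow_le_of_normal p H hp P))
  refine ⟨fun P Q h => Sylow.subtype_injective h, fun R => ?_⟩
  obtain ⟨P, hP⟩ := R.exists_comap_subtype_eq
  exact ⟨P, Sylow.ext hP⟩

end Cfsg.Agent.S4342
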