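import Cfsg.Statements.S4344

set_option autoImplicit false
open Cfsg

namespace Cfsg.Agent.S4344

/-- Let S be a finite non-abelian simple group, M a maximal subgroup of S and C a cyclic normal subgroup of M. If a Sylow p-subgroup P of S (for a prime p dividing the order of S) is contained in C, then the number of Sylow p-subgroups of S equals the index of M. -/
theorem result {S : Type*} [Group S] [Finite S]
    [IsSimpleGroup S] (hS : ¬ IsMulCommutative S) (p : ℕ) [Fact p.Prime] (hp : p ∣ Nat.card S)
    (M : Subgroup S) (hM : IsCoatom M) (C : Subgroup S) (hCM : C ≤ M) (hCn : (C.subgroupOf M).Normal)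
    (hC : IsCyclic C) (P : Sylow p S) (hP : (P : Subgroup S) ≤ C) :
    Nat.card (Sylow p S) = M.index := by
  have hle : M ≤ Subgroup.normalizer ((P : Subgroup S) : Set S) := by
    intro m hm
    apply Sylow.smul_eq_iff_mem_normalizer.1
    have hmC : ((m • P : Sylow p S) : Subgroup S) ≤ C := by
      intro y hy
      rw [Sylow.coe_subgroup_smul, Subgroup.mem_pointwise_smul_iff_inv_smul_mem] at hy
      have hy' : m⁻¹ * y * m ∈ C := by simpa using hP hy
      have := hCn.conj_mem ⟨_, hCM hy'⟩ hy' ⟨m, hm⟩
      rw [Subgroup.mem_subgroupOf] at this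
      simpa [mul_assoc] using this
    have hN : ((m • P : Sylow p S) : Subgroup S) ≤
        Subgroup.normalizer ((P : Subgroup S) : Set S) := by
      refine hmC.trans (le_trans ?_ (Subgroup.centralizer_le_normalizer _))
      intro c hc y hy
      have := hC.isMulCommutative.is_comm.comm (⟨y, hP hy⟩ : C) ⟨c, hc⟩
      exact congrArg Subtype.val this
    have h1 := IsPGroup.inf_normalizer_sylow (m • P).isPGroup' P
    have h2 : ((m • P : Sylow p S) : Subgroup S) ≤ P := by
      intro y hy
      have h3 : y ∈ ((m • P : Sylow p S) : Subgroup S) ⊓ Subgroup.normalizer (P : Set S) :=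
        ⟨hy, hN hy⟩
      rw [h1] at h3
      exact h3.2
    exact Sylow.ext ((m • P).is_maximal' P.isPGroup' h2).symm
  have hne : Subgroup.normalizer ((P : Subgroup S) : Set S) ≠ ⊤ := by
    intro h
    have hn : (P : Subgroup S).Normal := Subgroup.normalizer_eq_top_iff.1 h
    rcases hn.eq_bot_or_eq_top with h0 | h0
    · exact P.ne_bot_of_dvd_card hp h0
    · apply hM.1
      rw [eq_top_iff, ← h0]
      exact hP.trans hCM
  have heq : M = Subgroup.normalizer ((P : Subgroup S) : Set S) := by
    rcases hle.eq_or_lt with h | h
    · exact h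
    · exact absurd (hM.2 _ h) hne
  rw [heq]
  exact P.card_eq_index_normalizer

end Cfsg.Agent.S4344
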