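import Cfsg.Statements.S4346
import Cfsg.Agent.FGS.Syl22B

set_option autoImplicit false
open Cfsg

namespace Cfsg.Agent.S4346

open CL CL.PSyl

/-- No finite group has exactly 22 Sylow 3-subgroups. -/
theorem result {G : Type*} [Group G] [Finite G] : Nat.card (Sylow 3 G) ≠ 22 := by
  intro h
  obtain ⟨S, _, _, hS, hc, hd, hn⟩ := exists_simple h (by norm_num) (by decide +kernel) (by
    intro a b hab ha hb
    have h1 : a ≤ 22 := Nat.le_of_dvd (by norm_num) ⟨b, hab.symm⟩
    interval_cases a <;> omega)
  exact S22.contradiction hc hd hn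

end Cfsg.Agent.S4346
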