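import Mathlib
import Cfsg.Statements.S4354
import Cfsg.Agent.FGS.StrongAb

set_option autoImplicit false
open Cfsg

namespace Cfsg.Agent.S4354

open CL.StrongAb CL.MSS

/-- Let G be a finite group and p a prime such that the Sylow p-subgroups of G are non-abelian while every element of p-power order has conjugacy class size prime to p, and suppose no nontrivial proper normal subgroup N of G has this property and no quotient G/N by such an N has it. Then G is simple. -/
theorem result {G : Type*} [Group G] [Finite G]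
    (p : ℕ) [Fact p.Prime] (h : ((∃ P : Sylow p G, ¬ IsMulCommutative P) ∧ ∀ x : G, (∃ k : ℕ, orderOf x = p ^ k) → ¬ p ∣ (Subgroup.centralizer ({x} : Set G)).index))
    (hmin : ∀ (N : Subgroup G) [N.Normal], N ≠ ⊥ → N ≠ ⊤ →
      ¬ ((∃ P : Sylow p N, ¬ IsMulCommutative P) ∧ ∀ x : N, (∃ k : ℕ, orderOf x = p ^ k) → ¬ p ∣ (Subgroup.centralizer ({x} : Set N)).index) ∧
      ¬ ((∃ P : Sylow p (G ⧸ N), ¬ IsMulCommutative P) ∧ ∀ x : (G ⧸ N), (∃ k : ℕ, orderOf x = p ^ k) → ¬ p ∣ (Subgroup.centralizer ({x} : Set (G ⧸ N))).index)) :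
    IsSimpleGroup G := by
  obtain ⟨⟨P, hP⟩, hc⟩ := h
  rw [← cen_iff_index] at hc
  have hnt : Nontrivial G := by
    by_contra hn
    rw [not_nontrivial_iff_subsingleton] at hn
    exact hP ⟨⟨fun a b => Subsingleton.elim _ _⟩⟩
  refine ⟨fun N hN => ?_⟩
  by_contra hne
  push Not at hne
  obtain ⟨h1, h2⟩ := hmin N hne.1 hne.2
  rw [← cen_iff_index, not_and', not_exists] at h1 h2
  have h3 := h1 (hc.normal N)
  have h4 := h2 (hc.of_surjective _ (QuotientGroup.mk'_surjective N))
  simp only [not_not] at h3 h4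
  have hV : VSys p (N : Set G) (fun Q : Sylow p G => (Q : Subgroup G) ⊓ N) := by
    refine ⟨fun g x hx => hN.conj_mem x hx g, fun Q x => Iff.rfl, fun Q x hx y hy => ?_⟩
    have := (h3 (sylIn_inf_normal Q N).toSylow).is_comm.comm ⟨⟨x, hx.2⟩, hx⟩ ⟨⟨y, hy.2⟩, hy⟩
    exact congrArg (fun z => ((z : N) : G)) (congrArg Subtype.val this)
  refine hP ⟨⟨fun a b => Subtype.ext (hV.comm_of_cen hc P (fun x hx y hy => ⟨?_, ?_⟩) a a.2 b b.2)⟩⟩
  · exact (P : Subgroup G).mul_mem (mul_mem (mul_mem hx hy) (inv_mem hx)) (inv_mem hy)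
  · have := (h4 (P.mapSurjective (QuotientGroup.mk'_surjective N))).is_comm.comm
      ⟨(x : G ⧸ N), x, hx, rfl⟩ ⟨(y : G ⧸ N), y, hy, rfl⟩
    have e : (x : G ⧸ N) * y = y * x := congrArg Subtype.val this
    refine (QuotientGroup.eq_one_iff _).mp ?_
    simp only [QuotientGroup.mk_mul, QuotientGroup.mk_inv]
    rw [e]; group

end Cfsg.Agent.S4354
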