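import Cfsg.Statements.S4370
import Cfsg.Agent.ODD.BaseNorm
import Cfsg.Agent.S0016
import Cfsg.Agent.SOLV.Fitting

set_option autoImplicit false
open Cfsg

namespace Cfsg.Agent.S4370


open QuaternionGroup in
theorem quat_cen {n : ℕ} [NeZero n] (u : QuaternionGroup n) (hu : ∃ v, v * u ≠ u * v) :
    ∃ w : QuaternionGroup n, ∀ y, y * u = u * y → y ∈ Subgroup.zpowers w := by
  have ha : ∀ j : ZMod (2 * n), (a j : QuaternionGroup n) ∈ Subgroup.zpowers (a 1) := fun j =>
    ⟨(j.val : ℕ), by simp only [zpow_natCast, a_one_pow, ZMod.natCast_zmod_val]⟩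
  rcases u with i | i
  · refine ⟨a 1, fun y hy => ?_⟩
    rcases y with j | j
    · exact ha j
    · exfalso
      obtain ⟨v, hv⟩ := hu
      apply hv
      simp only [xa_mul_a, a_mul_xa, xa.injEq] at hy
      rcases v with k | k
      · simp [add_comm]
      · simp only [xa_mul_a, a_mul_xa, xa.injEq]
        linear_combination hy
  · refine ⟨xa i, fun y hy => ?_⟩
    have key : ∀ j : ZMod (2 * n), j + j = 0 → (a j : QuaternionGroup n) ∈ Subgroup.zpowers (xa i) := by
      intro j hj
      have h2 : 2 * n ∣ 2 * j.val := by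
        rw [← ZMod.natCast_eq_zero_iff]; push_cast; rw [ZMod.natCast_zmod_val]; linear_combination hj
      obtain ⟨c, hc⟩ := Nat.dvd_of_mul_dvd_mul_left two_pos h2
      have : (a j : QuaternionGroup n) = (xa i ^ 2) ^ c := by
        rw [xa_sq, ← ZMod.natCast_zmod_val j, hc, ← a_one_pow, ← a_one_pow, pow_mul]
      rw [this]
      exact Subgroup.pow_mem _ (Subgroup.pow_mem _ (Subgroup.mem_zpowers _) _) _
    rcases y with j | j
    · simp only [xa_mul_a, a_mul_xa, xa.injEq] at hy
      exact key j (by linear_combination -hy)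
    · simp only [xa_mul_xa, a.injEq] at hy
      have : (xa j : QuaternionGroup n) = xa i * a (j - i) := by simp
      rw [this]
      exact Subgroup.mul_mem _ (Subgroup.mem_zpowers _) (key _ (by linear_combination -hy))

theorem back {k m : ℕ} (hm : Odd m) (x : QuaternionGroup (2 ^ k) × Multiplicative (ZMod m))
    (hx : x ∉ Subgroup.center _) :
    IsCyclic (Subgroup.centralizer ({x} : Set (QuaternionGroup (2 ^ k) × Multiplicative (ZMod m)))) := by
  have : NeZero m := ⟨hm.pos.ne'⟩
  obtain ⟨w, hw⟩ := quat_cen x.1 (by
    by_contra h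
    push Not at h
    exact hx (Subgroup.mem_center_iff.2 fun y => Prod.ext (h y.1) (mul_comm _ _)))
  have hc : IsCyclic (Subgroup.zpowers w × Multiplicative (ZMod m)) := by
    refine Group.isCyclic_prod_iff.2 ⟨inferInstance, inferInstance, ?_⟩
    have h1 : Nat.card (Subgroup.zpowers w) ∣ 2 ^ (k + 2) := by
      refine (Subgroup.card_subgroup_dvd_card _).trans (dvd_of_eq ?_)
      rw [Nat.card_eq_fintype_card, QuaternionGroup.card]; ring
    refine Nat.Coprime.coprime_dvd_left h1 (Nat.Coprime.pow_left _ ?_)
    rw [Nat.card_eq_fintype_card, Fintype.card_multiplicative, ZMod.card]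
    exact hm.coprime_two_left
  let f : Subgroup.centralizer ({x} : Set (QuaternionGroup (2 ^ k) × Multiplicative (ZMod m))) →*
      Subgroup.zpowers w × Multiplicative (ZMod m) :=
    MonoidHom.prod (((MonoidHom.fst (QuaternionGroup (2 ^ k)) (Multiplicative (ZMod m))).comp
      (Subgroup.centralizer {x}).subtype).codRestrict _ (fun y =>
      hw (y : QuaternionGroup (2 ^ k) × Multiplicative (ZMod m)).1
        (congrArg Prod.fst (Subgroup.mem_centralizer_singleton_iff.1 y.2))))
      ((MonoidHom.snd _ _).comp (Subgroup.subtype _))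
  refine isCyclic_of_injective f fun y z h => ?_
  have h1 := congrArg (fun t => (t.1 : QuaternionGroup (2 ^ k))) h
  have h2 := congrArg Prod.snd h
  exact Subtype.ext (Prod.ext h1 h2)


/-- Let G be a finite non-abelian nilpotent group. Then the centralizer of every non-central element of G is cyclic if and only if G is isomorphic to the direct product of a generalized quaternion group and a cyclic group of odd order. -/
theorem result {G : Type*} [Group G] [Finite G] (hG : Group.IsNilpotent G)
    (hna : ¬ IsMulCommutative G) :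
    (∀ x : G, x ∉ Subgroup.center G → IsCyclic (Subgroup.centralizer ({x} : Set G))) ↔
      ∃ (k m : ℕ), 1 ≤ k ∧ Odd m ∧ Nonempty (G ≃* QuaternionGroup (2 ^ k) × Multiplicative (ZMod m)) := by
  constructor
  · intro h
    obtain ⟨x, hx⟩ : ∃ x : G, x ∉ Subgroup.center G := by
      by_contra hn
      push Not at hn
      exact hna ⟨⟨fun a b => Subgroup.mem_center_iff.1 (hn b) a⟩⟩
    have hle : ∀ y : G, Subgroup.center G ≤ Subgroup.centralizer {y} := fun y =>
      Subgroup.center_le_centralizer _
    have huniq : ∀ p : ℕ, p.Prime → ∀ H K : Subgroup G, Nat.card H = p → Nat.card K = p → H = K := by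
      intro p hp H K hH hK
      have := Fact.mk hp
      have hHp : IsPGroup p H := IsPGroup.of_card (n := 1) (by rw [hH, pow_one])
      obtain ⟨P, hP⟩ := hHp.exists_le_sylow
      have hPn : (P : Subgroup G).Normal := inferInstance
      have hP1 : (P : Subgroup G) ≠ ⊥ := fun e => hp.one_lt.ne' (by
        rw [e, le_bot_iff] at hP; rw [← hH, hP, Subgroup.card_bot])
      have h1 := CL.inf_center_ne_bot_of_isNilpotent (P : Subgroup G) hP1
      have h2 : IsPGroup p ((P : Subgroup G) ⊓ Subgroup.center G : Subgroup G) :=
        P.isPGroup'.to_le inf_le_left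
      have := (Subgroup.nontrivial_iff_ne_bot _).2 h1
      obtain ⟨n, hn0, hn⟩ := h2.nontrivial_iff_card.1 this
      obtain ⟨z, hz⟩ := exists_prime_orderOf_dvd_card'
        (G := ((P : Subgroup G) ⊓ Subgroup.center G : Subgroup G)) p (by rw [hn]; exact dvd_pow_self p hn0.ne')
      have hz' : Nat.card (Subgroup.zpowers (z : G)) = p := by
        rw [Nat.card_zpowers, Subgroup.orderOf_coe, hz]
      have hzc : Subgroup.zpowers (z : G) ≤ Subgroup.center G := Subgroup.zpowers_le.2 z.2.2
      have key : ∀ L : Subgroup G, Nat.card L = p → L = Subgroup.zpowers (z : G) := by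
        intro L hL
        by_cases hLZ : L ≤ Subgroup.center G
        · exact CL.BG.eq_of_card_eq_of_cyclic (h x hx) (hLZ.trans (hle x)) (hzc.trans (hle x))
            (hL.trans hz'.symm)
        · obtain ⟨y, hyL, hy⟩ := SetLike.not_le_iff_exists.1 hLZ
          have := isCyclic_of_prime_card hL
          refine CL.BG.eq_of_card_eq_of_cyclic (h y hy) (fun a ha => ?_) (hzc.trans (hle y))
            (hL.trans hz'.symm)
          rw [Subgroup.mem_centralizer_singleton_iff]
          exact setLike_mul_comm (s := L) ha hyL
      rw [key H hH, key K hK]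
    have hsub : ∀ (p : ℕ) [Fact p.Prime] (Q : Subgroup G), IsPGroup p Q →
        IsCyclic Q ∨ p = 2 ∧ ∃ n, Nonempty (Q ≃* QuaternionGroup (2 ^ n)) := by
      intro p _ Q hQ
      refine Cfsg.Agent.S0016.result p hQ fun H K hH hK => ?_
      exact Subgroup.map_injective Q.subtype_injective (huniq p Fact.out _ _
        (by rw [Subgroup.card_map_of_injective Q.subtype_injective, hH])
        (by rw [Subgroup.card_map_of_injective Q.subtype_injective, hK]))
    set P := Cfsg.pCore 2 G
    set O := Cfsg.pPrimeCore 2 G
    have hPO : P ⊔ O = ⊤ := CL.pCore_sup_pPrimeCore_of_isNilpotent 2 G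
    have hOc : (Nat.card O).Coprime 2 := CL.coprime_card_pPrimeCore 2 G
    have hP2 : IsPGroup 2 P := CL.isPGroup_pCore 2 G
    have hOZ : IsZGroup O := ⟨fun p hp R => by
      have := Fact.mk hp
      have hR : IsPGroup p ((R : Subgroup O).map O.subtype) := R.isPGroup'.map _
      have e := (R : Subgroup O).equivMapOfInjective O.subtype O.subtype_injective
      rcases hsub p _ hR with h1 | ⟨rfl, n, ⟨e'⟩⟩
      · exact isCyclic_of_surjective e.symm e.symm.surjective
      · have h3 : (R : Subgroup O) = ⊥ := by
          have := CL.inf_eq_bot_of_isPGroup_of_coprime (K := ⊤) R.isPGroup'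
            (by rw [Subgroup.card_top]; exact hOc)
          rwa [inf_top_eq] at this
        rw [h3]; infer_instance⟩
    have hOcyc : IsCyclic O := inferInstance
    have hcomm : ∀ (a : P) (b : O), Commute (P.subtype a) (O.subtype b) := fun a b =>
      (Subgroup.mem_centralizer_iff.1 (CL.le_centralizer_of_coprime_of_isNilpotent
        (CL.coprime_card_of_isPGroup_of_coprime hP2 hOc) a.2) b b.2).symm
    have hbij : Function.Bijective (P.subtype.noncommCoprod O.subtype hcomm) := by
      constructor
      · rw [MonoidHom.noncommCoprod_injective]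
        refine ⟨P.subtype_injective, O.subtype_injective, ?_⟩
        rw [Subgroup.range_subtype, Subgroup.range_subtype]
        exact disjoint_iff.2 (CL.inf_eq_bot_of_isPGroup_of_coprime hP2 hOc)
      · rw [← MonoidHom.range_eq_top, MonoidHom.noncommCoprod_range, Subgroup.range_subtype,
          Subgroup.range_subtype, hPO]
    let e0 := MulEquiv.ofBijective _ hbij
    have hPnc : ¬ IsCyclic P := by
      intro hPc
      apply hna
      refine ⟨⟨fun a b => ?_⟩⟩
      obtain ⟨a, rfl⟩ := e0.surjective a
      obtain ⟨b, rfl⟩ := e0.surjective b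
      rw [← map_mul, ← map_mul]
      congr 1
      exact Prod.ext (mul_comm' _ _) (mul_comm' _ _)
    obtain ⟨-, n, ⟨e1⟩⟩ := (hsub 2 P hP2).resolve_left hPnc
    refine ⟨n, Nat.card O, ?_, Nat.coprime_two_right.1 hOc, ⟨e0.symm.trans
      (MulEquiv.prodCongr e1 (zmodCyclicMulEquiv hOcyc).symm)⟩⟩
    by_contra hn
    obtain rfl : n = 0 := by omega
    exact hPnc (@isCyclic_of_surjective _ _ _ _ _ QuaternionGroup.quaternionGroup_one_isCyclic _ _
      e1.symm e1.symm.surjective)
  · rintro ⟨k, m, -, hm, ⟨e⟩⟩ x hx
    have := back hm (e x) (fun h => hx (Subgroup.mem_center_iff.2 fun y => e.injective (by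
      rw [map_mul, map_mul]; exact Subgroup.mem_center_iff.1 h _)))
    let f : Subgroup.centralizer ({x} : Set G) →* Subgroup.centralizer {e x} :=
      ((e : G →* _).comp (Subgroup.subtype _)).codRestrict _ (fun y => by
        rw [Subgroup.mem_centralizer_singleton_iff]
        have := congrArg e (Subgroup.mem_centralizer_singleton_iff.1 y.2)
        rw [map_mul, map_mul] at this
        exact this)
    exact isCyclic_of_injective f fun y z h => Subtype.ext (e.injective (congrArg Subtype.val h))

end Cfsg.Agent.S4370
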