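import Cfsg.Statements.S4377

set_option autoImplicit false
open Cfsg

namespace Cfsg.Agent.S4377

theorem card_pow_eq_sum {G : Type*} [Group G] [Finite G] {n : ℕ} (hn : n ≠ 0) :
    Nat.card {g : G // g ^ n = 1} = ∑ m ∈ n.divisors, Nat.card {g : G // orderOf g = m} := by
  classical
  have := Fintype.ofFinite G
  simp only [Nat.card_eq_fintype_card, Fintype.card_subtype]
  exact (sum_card_orderOf_eq_card_pow_eq_one hn).symm

theorem card_zero_eq {G : Type*} [Group G] [Finite G] {n : ℕ} (hn : Nat.card G ∣ n) :
    Nat.card {g : G // g ^ 0 = 1} = Nat.card {g : G // g ^ n = 1} := by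
  apply Nat.card_congr
  apply Equiv.subtypeEquivRight
  intro g
  simp only [pow_zero, true_iff]
  exact orderOf_dvd_iff_pow_eq_one.1 ((orderOf_dvd_natCard g).trans hn)


/-- Two finite groups have the same number of elements of each order if and only if, for every n, they have the same number of elements g with gⁿ = 1. -/
theorem result {G H : Type*} [Group G] [Finite G] [Group H] [Finite H] :
    (∀ n : ℕ, Nat.card {g : G // orderOf g = n} = Nat.card {h : H // orderOf h = n}) ↔
      ∀ n : ℕ, Nat.card {g : G // g ^ n = 1} = Nat.card {h : H // h ^ n = 1} := by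
  constructor
  · intro h
    have key : ∀ n : ℕ, n ≠ 0 →
        Nat.card {g : G // g ^ n = 1} = Nat.card {h : H // h ^ n = 1} := by
      intro n hn
      rw [card_pow_eq_sum hn, card_pow_eq_sum hn]
      exact Finset.sum_congr rfl (fun m _ => h m)
    intro n
    rcases eq_or_ne n 0 with rfl | hn
    · rw [card_zero_eq (dvd_mul_right (Nat.card G) (Nat.card H)),
        card_zero_eq (dvd_mul_left (Nat.card H) (Nat.card G))]
      exact key _ (mul_ne_zero Nat.card_pos.ne' Nat.card_pos.ne')
    · exact key n hn
  · intro h n
    induction n using Nat.strong_induction_on with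
    | _ n ih =>
      rcases eq_or_ne n 0 with rfl | hn
      · have h1 : IsEmpty {g : G // orderOf g = 0} := ⟨fun g => (orderOf_pos g.1).ne' g.2⟩
        have h2 : IsEmpty {g : H // orderOf g = 0} := ⟨fun g => (orderOf_pos g.1).ne' g.2⟩
        rw [Nat.card_of_isEmpty, Nat.card_of_isEmpty]
      · have h1 := h n
        rw [card_pow_eq_sum hn, card_pow_eq_sum hn, ← Nat.insert_self_properDivisors hn,
          Finset.sum_insert Nat.self_notMem_properDivisors,
          Finset.sum_insert Nat.self_notMem_properDivisors] at h1
        rw [Finset.sum_congr rfl (fun m hm => ih m (Nat.mem_properDivisors.1 hm).2)] at h1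
        exact Nat.add_right_cancel h1

end Cfsg.Agent.S4377
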