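import Mathlib
import Cfsg.Statements.S4376
import Cfsg.Agent.FGS.Mueller2
import Cfsg.Agent.S4377

set_option autoImplicit false
open Cfsg

namespace Cfsg.Agent.S4376

open CL.Mueller

theorem cnt_prod (A B : Type) [Group A] [Group B] (n : ℕ) : cnt (A × B) n = cnt A n * cnt B n := by
  unfold cnt
  rw [← Nat.card_prod]
  refine Nat.card_congr ((Equiv.subtypeEquivRight fun g => ?_).trans
    (Equiv.subtypeProdEquivProd (p := fun a : A => a ^ n = 1) (q := fun b : B => b ^ n = 1)))
  rw [Prod.ext_iff]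
  rfl

theorem cnt_gcd (A : Type) [Group A] [Finite A] (h : cnt A 168 = Nat.card A) (n : ℕ) :
    cnt A n = cnt A (Nat.gcd n 168) := by
  have h1 : ∀ g : A, g ^ 168 = 1 := by
    have : ({g : A | g ^ 168 = 1} : Set A) = Set.univ :=
      Set.eq_univ_iff_ncard _ |>.mpr h
    intro g
    exact (this ▸ Set.mem_univ g : g ∈ ({g : A | g ^ 168 = 1} : Set A))
  refine Nat.card_congr (Equiv.subtypeEquivRight fun g => ?_)
  rw [pow_gcd_eq_one]
  simp [h1]

theorem mem_dl (n : ℕ) : Nat.gcd n 168 ∈ dl := by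
  have h1 : Nat.gcd n 168 ∈ Nat.divisors 168 :=
    Nat.mem_divisors.mpr ⟨Nat.gcd_dvd_right _ _, by norm_num⟩
  generalize Nat.gcd n 168 = d at h1
  revert d
  decide +kernel

theorem lt_of_mem_dl : ∀ d ∈ dl, d < 2 ^ 8 := by decide

theorem key (d : ℕ) (hd : d ∈ dl) : cnt (G1 × G2 × G3) d = cnt (F21 × H2 × H3 × H4) d ∧
    (d = 168 → cnt (G1 × G2 × G3) d = 227598336) := by
  have hlt := lt_of_mem_dl d hd
  have h4 := cnt_H4_eq hlt
  have r1 : cnt G2 d = cnt7 _ psi2 d := cnt_sd7 _ _ _ hlt
  have r2 : cnt G3 d = cnt7 _ psi3 d := cnt_sd7 _ _ _ hlt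
  have r3 : cnt F21 d = cnt7 _ two7 d := cnt_sd7 _ _ _ hlt
  have r4 : cnt H3 d = cnt7 _ psi4 d := cnt_sd7 _ _ _ hlt
  rw [cnt_prod G1, cnt_prod G2, cnt_prod F21, cnt_prod H2, cnt_prod H3, cnt_eq G1 hlt,
    cnt_eq H2 hlt, r1, r2, r3, r4]
  generalize cnt H4 d = x at h4
  have e1 := cnt_G1
  have e2 := cnt_G2
  have e3 := cnt_G3
  have e4 := cnt_F21
  have e5 := cnt_H2
  have e6 := cnt_H3
  have e7 := cntP_eq
  simp only [dl, List.map_cons, List.map_nil, List.cons.injEq, and_true] at e1 e2 e3 e4 e5 e6 e7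
  simp only [dl, List.mem_cons, List.not_mem_nil, or_false] at hd
  rcases hd with rfl | rfl | rfl | rfl | rfl | rfl | rfl | rfl | rfl | rfl | rfl | rfl | rfl | rfl |
    rfl | rfl <;> simp only [e1, e2, e3, e4, e5, e6, e7] at h4 ⊢ <;>
    exact ⟨by omega, fun _ => by omega⟩

theorem card_sd {N K : Type} [Group N] [Group K] (φ : K →* MulAut N) :
    Nat.card (N ⋊[φ] K) = Nat.card N * Nat.card K := SemidirectProduct.card

theorem card_H4 : Nat.card H4 = 336 := by
  have h1 := Subgroup.card_eq_card_quotient_mul_card_subgroup Z7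
  have h2 : Nat.card GL7 = 2016 := by
    rw [Nat.card_eq_fintype_card]
    decide +kernel
  rw [card_Z7, h2] at h1
  show Nat.card (GL7 ⧸ Z7) = 336
  omega

theorem card_Q (n : ℕ) [NeZero n] : Nat.card (QuaternionGroup n) = 4 * n := by
  rw [Nat.card_eq_fintype_card, QuaternionGroup.card]

theorem card_Cy (n : ℕ) : Nat.card (Cy n) = n := Nat.card_zmod n

theorem solvQ (n k : ℕ) [NeZero n] (h : 4 * n = 2 ^ k) : Group.IsSolvable (QuaternionGroup n) := by
  have : IsPGroup 2 (QuaternionGroup n) := IsPGroup.of_card ((card_Q n).trans h)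
  have := this.isNilpotent
  infer_instance

/-- There are finite groups G and H having the same number of elements of each order (the same order type) with G solvable and H not solvable. -/
theorem result :
    ∃ (G : Type) (_ : Group G) (_ : Finite G) (H : Type) (_ : Group H) (_ : Finite H),
      Group.IsSolvable G ∧ ¬ Group.IsSolvable H ∧ ∀ n : ℕ, Nat.card {g : G // orderOf g = n} = Nat.card {h : H // orderOf h = n} := by
  have s2 := solvQ 2 3 rfl
  have s4 := solvQ 4 4 rfl
  have sF : Group.IsSolvable F21 := solvable_sd _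
  have s1 : Group.IsSolvable G1 := solvable_sd _
  have sK48 : Group.IsSolvable K48 := solvable_sd _
  have sG2 : Group.IsSolvable G2 := solvable_sd _
  have sSL : Group.IsSolvable SL23 := solvable_sd _
  have sL : Group.IsSolvable L48 := solvable_sd _
  have sK : Group.IsSolvable K192 := solvable_sd _
  have sG3 : Group.IsSolvable G3 := solvable_sd _
  refine ⟨G1 × G2 × G3, inferInstance, inferInstance, F21 × H2 × H3 × H4, inferInstance,
    inferInstance, inferInstance, fun h => not_solvable_H4 ?_, Cfsg.Agent.S4377.result.mpr fun n => ?_⟩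
  · exact Group.isSolvable_of_surjective (f := (MonoidHom.snd H3 H4).comp
      ((MonoidHom.snd H2 _).comp (MonoidHom.snd F21 _))) fun x => ⟨(1, 1, 1, x), rfl⟩
  · have k := key 168 (by decide)
    have c1 : Nat.card (G1 × G2 × G3) = 227598336 := by
      simp only [Nat.card_prod, card_sd, card_Q, card_Cy]
    have c2 : Nat.card (F21 × H2 × H3 × H4) = 227598336 := by
      simp only [Nat.card_prod, card_H4, card_sd, card_Q, card_Cy]
    show cnt _ n = cnt _ n
    rw [cnt_gcd _ ((k.2 rfl).trans c1.symm), cnt_gcd (F21 × H2 × H3 × H4)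
      (k.1.symm.trans ((k.2 rfl).trans c2.symm))]
    exact (key _ (mem_dl n)).1

end Cfsg.Agent.S4376
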