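import Cfsg.Statements.S4381
import Cfsg.Agent.ODD.BG4.Aut
import Cfsg.Agent.PLOC.PFrattini
import Cfsg.Agent.SOLV.CoprimeAut
import Cfsg.Agent.SOLV.Frattini

set_option autoImplicit false
open Pointwise
open Cfsg

namespace Cfsg.Agent.S4381


section
variable {A G : Type*} [Group A] [Group G] [MulDistribMulAction A G]

theorem inv_sup {H K : Subgroup G} (hH : ∀ a : A, ∀ x ∈ H, a • x ∈ H)
    (hK : ∀ a : A, ∀ x ∈ K, a • x ∈ K) : ∀ a : A, ∀ x ∈ H ⊔ K, a • x ∈ H ⊔ K := by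
  intro a
  have : H ⊔ K ≤ (H ⊔ K).comap (MulDistribMulAction.toMonoidHom G a) := by
    refine sup_le (fun x hx => ?_) (fun x hx => ?_)
    · exact Subgroup.mem_sup_left (hH a x hx)
    · exact Subgroup.mem_sup_right (hK a x hx)
  exact fun x hx => this hx

theorem inv_normalizer {H : Subgroup G} (hH : ∀ a : A, ∀ x ∈ H, a • x ∈ H) :
    ∀ a : A, ∀ x ∈ Subgroup.normalizer (H : Set G), a • x ∈ Subgroup.normalizer (H : Set G) := by
  intro a x hx
  rw [Subgroup.mem_normalizer_iff] at hx ⊢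
  intro h
  have key : ∀ y : G, y ∈ H ↔ a⁻¹ • y ∈ H := fun y =>
    ⟨fun hy => hH _ _ hy, fun hy => by simpa using hH a _ hy⟩
  rw [key h, key (a • x * h * (a • x)⁻¹), hx (a⁻¹ • h)]
  simp [smul_mul', smul_inv']

theorem ex_max [Finite G] {H : Subgroup G} (hH : H ≠ ⊤) (hI : ∀ a : A, ∀ x ∈ H, a • x ∈ H) :
    ∃ M : Subgroup G, H ≤ M ∧ (M ≠ ⊤ ∧ (∀ a : A, ∀ x ∈ M, a • x ∈ M) ∧
      ∀ L : Subgroup G, M < L → (∀ a : A, ∀ x ∈ L, a • x ∈ L) → L = ⊤) := by
  obtain ⟨M, hHM, hM⟩ := Finite.exists_le_maximal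
    (p := fun L : Subgroup G => L ≠ ⊤ ∧ ∀ a : A, ∀ x ∈ L, a • x ∈ L) (a := H) ⟨hH, hI⟩
  refine ⟨M, hHM, hM.prop.1, hM.prop.2, fun L hL hLI => ?_⟩
  by_contra hne
  exact hL.not_ge (hM.le_of_ge ⟨hne, hLI⟩ hL.le)

theorem maschke [Finite A] [Finite G] {p : ℕ} [Fact p.Prime] (hG : IsPGroup p G)
    (hA : ¬ p ∣ Nat.card A) {L : Subgroup G} (hL : frattini G ≤ L)
    (hLI : ∀ a : A, ∀ x ∈ L, a • x ∈ L) :
    ∃ X : Subgroup G, (∀ a : A, ∀ x ∈ X, a • x ∈ X) ∧ L ⊓ X = frattini G ∧ L ⊔ X = ⊤ := by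
  have hn : ∀ H : Subgroup G, (∀ a : A, ∀ x ∈ H, a • x ∈ H) →
      (⊤ : Subgroup A).map (CL.Hol.inr : A →* CL.Hol A G) ≤
        Subgroup.normalizer ((H.map (CL.Hol.inl : G →* CL.Hol A G) : Subgroup (CL.Hol A G)) :
          Set (CL.Hol A G)) := fun H hH =>
    CL.Hol.map_inr_le_normalizer_iff.2 fun b _ => hH b
  obtain ⟨X, hCX, hXV, hAX, h1, h2⟩ := CL.BG.Maschke_abelem_section (G := CL.Hol A G) (p := p)
    (A := (⊤ : Subgroup A).map CL.Hol.inr) (C := (frattini G).map CL.Hol.inl)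
    (U := L.map CL.Hol.inl) (V := (⊤ : Subgroup G).map CL.Hol.inl)
    ((CL.BG.piGrp_compl_singleton_iff Fact.out).2 (by
      rw [CL.Hol.card_map_inr, Subgroup.card_top]; exact hA))
    (Subgroup.map_mono hL) (Subgroup.map_mono le_top)
    (by
      rw [← Subgroup.map_commutator]
      exact Subgroup.map_mono (CL.PG.commutator_le_frattini hG))
    (by
      rintro _ ⟨g, -, rfl⟩
      rw [← map_pow]
      exact ⟨_, CL.PG.pow_mem_frattini hG g, rfl⟩)
    (hn _ (CL.smul_mem_of_characteristic _)) (hn _ hLI) (hn _ (fun _ _ _ => Subgroup.mem_top _))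
  obtain ⟨Y, -, rfl⟩ := CL.Hol.exists_eq_map_inl hXV
  refine ⟨Y, fun a => CL.Hol.map_inr_le_normalizer_iff.1 hAX a (Subgroup.mem_top _), ?_, ?_⟩
  · rw [← CL.Hol.map_inl_inf] at h1
    exact CL.Hol.map_inl_inj.1 h1
  · rw [← Subgroup.map_sup] at h2
    exact CL.Hol.map_inl_inj.1 h2

end


/-- Let the finite group A act by automorphisms on the finite group G with the orders of A and G coprime, and assume that A or G is solvable. Call a proper A-invariant subgroup of G maximal A-invariant when no A-invariant subgroup lies strictly between it and G. Then all maximal A-invariant subgroups of G are conjugate under elements of the fixed-point subgroup C_G(A) if and only if G is a p-group for some prime p and A leaves invariant no subgroup strictly between the Frattini subgroup of G and G. In that case, if G is nontrivial, the Frattini subgroup is the only maximal A-invariant subgroup (a trivial G has none). -/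
theorem result {A G : Type*} [Group A] [Finite A]
    [Group G] [Finite G] [MulDistribMulAction A G] (hcop : (Nat.card A).Coprime (Nat.card G)) (hsol : Group.IsSolvable A ∨ Group.IsSolvable G) :
    ((∀ M N : Subgroup G, (M ≠ ⊤ ∧ (∀ a : A, ∀ x ∈ M, a • x ∈ M) ∧ ∀ L : Subgroup G, M < L → (∀ a : A, ∀ x ∈ L, a • x ∈ L) → L = ⊤) → (N ≠ ⊤ ∧ (∀ a : A, ∀ x ∈ N, a • x ∈ N) ∧ ∀ L : Subgroup G, N < L → (∀ a : A, ∀ x ∈ L, a • x ∈ L) → L = ⊤) →
        ∃ c : G, (∀ a : A, a • c = c) ∧ N = MulAut.conj c • M) ↔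
      ((∃ p : ℕ, p.Prime ∧ IsPGroup p G) ∧ ∀ L : Subgroup G, frattini G < L → (∀ a : A, ∀ x ∈ L, a • x ∈ L) → L = ⊤)) ∧
    (((∃ p : ℕ, p.Prime ∧ IsPGroup p G) ∧ ∀ L : Subgroup G, frattini G < L → (∀ a : A, ∀ x ∈ L, a • x ∈ L) → L = ⊤) →
      ∀ M : Subgroup G, (M ≠ ⊤ ∧ (∀ a : A, ∀ x ∈ M, a • x ∈ M) ∧ ∀ L : Subgroup G, M < L → (∀ a : A, ∀ x ∈ L, a • x ∈ L) → L = ⊤) ↔ (M = frattini G ∧ M ≠ ⊤)) := by
  have h2 : (∀ L : Subgroup G, frattini G < L → (∀ a : A, ∀ x ∈ L, a • x ∈ L) → L = ⊤) →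
      ∀ M : Subgroup G, (M ≠ ⊤ ∧ (∀ a : A, ∀ x ∈ M, a • x ∈ M) ∧ ∀ L : Subgroup G, M < L → (∀ a : A, ∀ x ∈ L, a • x ∈ L) → L = ⊤) ↔ (M = frattini G ∧ M ≠ ⊤) := by
    intro hirr M
    constructor
    · rintro ⟨hM, hMI, hmax⟩
      refine ⟨?_, hM⟩
      have hΦ : frattini G ≤ M := by
        by_contra hn
        have hlt : M < frattini G ⊔ M := lt_of_le_of_ne le_sup_right fun h => hn (h ▸ le_sup_left)
        have := hmax _ hlt (inv_sup (CL.smul_mem_of_characteristic _) hMI)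
        exact hM (CL.eq_top_of_sup_eq_top_of_le_frattini le_rfl this)
      by_contra hne
      exact hM (hirr M (lt_of_le_of_ne hΦ (Ne.symm hne)) hMI)
    · rintro ⟨rfl, hM⟩
      exact ⟨hM, CL.smul_mem_of_characteristic _, hirr⟩
  refine ⟨⟨fun hc => ?_, fun h M N hM hN => ?_⟩, fun h => h2 h.2⟩
  · have hp : ∃ p : ℕ, p.Prime ∧ IsPGroup p G := by
      by_contra hn
      push Not at hn
      have key : ∀ q : ℕ, q.Prime → ∃ M : Subgroup G, (M ≠ ⊤ ∧ (∀ a : A, ∀ x ∈ M, a • x ∈ M) ∧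
          ∀ L : Subgroup G, M < L → (∀ a : A, ∀ x ∈ L, a • x ∈ L) → L = ⊤) ∧ ¬ q ∣ M.index := by
        intro q hq
        have := Fact.mk hq
        obtain ⟨Q, hQ⟩ := CL.act_exists_invariant_sylow hcop hsol q
        have hne : (Q : Subgroup G) ≠ ⊤ := fun h => hn q hq (by
          have := Q.isPGroup'
          rw [h] at this
          exact this.of_equiv Subgroup.topEquiv)
        obtain ⟨M, hQM, hM⟩ := ex_max hne (CL.sylow_smul_eq_iff_invariant.1 hQ)
        exact ⟨M, hM, fun h => Q.not_dvd_index (h.trans (Subgroup.index_dvd_of_le hQM))⟩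
      obtain ⟨M, hM, -⟩ := key 2 Nat.prime_two
      have hM1 : M.index ≠ 1 := fun h => hM.1 (Subgroup.index_eq_one.1 h)
      obtain ⟨q, hq, hqd⟩ := Nat.exists_prime_and_dvd hM1
      obtain ⟨N, hN, hqN⟩ := key q hq
      obtain ⟨c, -, rfl⟩ := hc M N hM hN
      apply hqN
      rw [Subgroup.pointwise_smul_def]
      rw [show (MulDistribMulAction.toMonoidEnd (MulAut G) G (MulAut.conj c)) =
        ((MulAut.conj c : G ≃* G) : G →* G) from rfl, Subgroup.index_map_equiv]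
      exact hqd
    refine ⟨hp, fun L hL hLI => ?_⟩
    obtain ⟨p, hp, hG⟩ := hp
    have := Fact.mk hp
    by_contra hLt
    have : Nontrivial G := by
      by_contra hnt
      rw [not_nontrivial_iff_subsingleton] at hnt
      exact hLt (Subsingleton.elim _ _)
    have hpA : ¬ p ∣ Nat.card A := by
      intro h
      obtain ⟨n, hn0, hn⟩ := hG.nontrivial_iff_card.1 inferInstance
      have : p ∣ Nat.card G := by rw [hn]; exact dvd_pow_self p hn0.ne'
      exact hp.one_lt.ne' (Nat.eq_one_of_dvd_coprimes hcop h this)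
    obtain ⟨X, hXI, h1, h3⟩ := maschke hG hpA hL.le hLI
    have hXt : X ≠ ⊤ := by
      rintro rfl
      rw [inf_top_eq] at h1
      exact hL.ne h1.symm
    obtain ⟨M, hLM, hM⟩ := ex_max hLt hLI
    obtain ⟨N, hXN, hN⟩ := ex_max hXt hXI
    obtain ⟨c, -, hNc⟩ := hc M N hM hN
    have := hG.isNilpotent
    have hMn : Subgroup.normalizer (M : Set G) = ⊤ :=
      hM.2.2 _ (Group.normalizerCondition_of_isNilpotent M (lt_top_iff_ne_top.2 hM.1))
        (inv_normalizer hM.2.1)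
    have : MulAut.conj c • M = M := CL.mem_normalizer_iff_conj_smul_eq.1 (hMn ▸ Subgroup.mem_top c)
    rw [this] at hNc
    subst hNc
    exact hM.1 (top_le_iff.1 (h3 ▸ sup_le hLM hXN))
  · refine ⟨1, fun a => smul_one a, ?_⟩
    rw [((h2 h.2 M).1 hM).1, ((h2 h.2 N).1 hN).1]
    simp

end Cfsg.Agent.S4381
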