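import Cfsg.Statements.S4387
import Cfsg.Agent.FGS.ConjCover

set_option autoImplicit false
open Pointwise
open Cfsg

namespace Cfsg.Agent.S4387

/-- Let G be a non-trivial finite group in which any two maximal subgroups are conjugate. Then G is cyclic of prime-power order. -/
theorem result {G : Type*} [Group G] [Finite G] [Nontrivial G]
    (h : ∀ M N : Subgroup G, IsCoatom M → IsCoatom N → ∃ g : G, N = MulAut.conj g • M) :
    IsCyclic G ∧ IsPrimePow (Nat.card G) := by
  obtain ⟨M, hM⟩ : ∃ M : Subgroup G, IsCoatom M := by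
    rcases eq_top_or_exists_le_coatom (⊥ : Subgroup G) with h0 | ⟨M, hM, -⟩
    · exact absurd h0 bot_ne_top
    · exact ⟨M, hM⟩
  constructor
  · obtain ⟨x, hx⟩ := CL.exists_forall_notMem_conj_smul hM.1
    rcases eq_top_or_exists_le_coatom (Subgroup.zpowers x) with h0 | ⟨N, hN, hxN⟩
    · exact ⟨⟨x, fun y => by
        have : y ∈ Subgroup.zpowers x := h0 ▸ Subgroup.mem_top y
        exact this⟩⟩
    · obtain ⟨g, rfl⟩ := h M N hM hN
      exact absurd (hxN (Subgroup.mem_zpowers x)) (hx g)
  · have h1 : M.index ≠ 1 := fun h1 => hM.1 (Subgroup.index_eq_one.1 h1)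
    obtain ⟨r, hr, hrM⟩ := Nat.exists_prime_and_dvd h1
    have := Fact.mk hr
    let P : Sylow r G := default
    rcases eq_top_or_exists_le_coatom (P : Subgroup G) with h0 | ⟨N, hN, hPN⟩
    · have hG : IsPGroup r G := by
        have := P.isPGroup'
        rw [h0] at this
        exact this.of_equiv Subgroup.topEquiv
      obtain ⟨n, hn0, hn⟩ := hG.nontrivial_iff_card.1 inferInstance
      rw [hn]
      exact hr.isPrimePow.pow hn0.ne'
    · obtain ⟨g, rfl⟩ := h M N hM hN
      exfalso
      apply P.not_dvd_index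
      refine dvd_trans ?_ (Subgroup.index_dvd_of_le hPN)
      have : (MulAut.conj g • M).index = M.index :=
        Subgroup.index_map_equiv M (MulAut.conj g)
      rwa [this]

end Cfsg.Agent.S4387
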