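import Cfsg.Statements.S4392
import Cfsg.Agent.SOLV.FH.Cov
import Cfsg.Agent.SOLV.Hol

set_option autoImplicit false
open Cfsg

namespace Cfsg.Agent.S4392

open CL CL.FroA CL.Hol in

theorem result {G F : Type*} [Group G] [Finite G] [Group F] [Finite F] [MulDistribMulAction F G] [FaithfulSMul F G]
    (hF : Group.IsNilpotent F) (hCF : ∀ g : G, (∀ f : F, f • g = g) → g = 1) (N : Subgroup G) [N.Normal] (hN : ∀ (f : F) (n : G), n ∈ N → f • n ∈ N)
    (g : G) (hg : ∀ f : F, g⁻¹ * f • g ∈ N) : g ∈ N := by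
  have h : Hy ((⊤ : Subgroup G).map (inl : G →* Hol F G)) ((⊤ : Subgroup F).map inr) := by
    refine ⟨map_inr_le_normalizer_top _, ?_, ?_⟩
    · exact Group.nilpotent_of_mulEquiv (Subgroup.topEquiv.symm.trans (equivInr ⊤))
    · rintro _ ⟨x, -, rfl⟩ e
      rw [hCF x fun f => inl_injective (A := F) ?_, map_one]
      rw [← conj_inl, e _ ⟨f, trivial, rfl⟩, mul_inv_cancel_right]
  have hle : N.map (inl : G →* Hol F G) ≤ (⊤ : Subgroup G).map inl := Subgroup.map_mono le_top
  have := (h.mono hle (map_inr_le_normalizer_iff.2 fun b _ => hN b)).cov.fix h hle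
    (g := inl g⁻¹) ⟨_, trivial, rfl⟩ (by
      rintro _ ⟨f, -, rfl⟩
      refine ⟨_, hg f, ?_⟩
      rw [map_mul, ← conj_inl, map_inv, inv_inv]
      group)
  exact inv_mem_iff.1 (inl_mem_map.1 this)

end Cfsg.Agent.S4392
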