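import Cfsg.Statements.S4402
import Cfsg.Agent.KSG.DWr1
import Cfsg.Agent.FGS.SecRank
import Cfsg.Agent.INV.ZD.J1Aux

set_option autoImplicit false
open Cfsg

namespace Cfsg.Agent.S4402

open CL.W4 CL.DWr Subgroup

section
variable {S : Type*} [Group S] {ι : W →* S}

/-- `x` acts on the image of `W` as `g σ ^ e` modulo the centre. -/
def Ac (ι : W →* S) (x : S) (g : W) (e : Bool) : Prop :=
  ∀ w, ∃ w', x * ι w * x⁻¹ = ι w' ∧ Cg w' (g * sgf e w * g⁻¹)

theorem exists_ac (hι : Function.Injective ι) {x : S} (hx : x ∈ normalizer (ι.range : Set S)) :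
    ∃ g e, Ac ι x g e := by
  have h : ∀ w, ∃ w', x * ι w * x⁻¹ = ι w' := fun w => by
    obtain ⟨w', hw'⟩ := (mem_normalizer_iff.1 hx (ι w)).1 ⟨w, rfl⟩
    exact ⟨w', hw'.symm⟩
  choose f hf using h
  let α : W →* W := MonoidHom.mk' f fun a b => hι (by
    rw [map_mul, ← hf, ← hf, ← hf, map_mul]; group)
  have hα : Function.Injective α := fun a b hab => hι (by
    have : x * ι a * x⁻¹ = x * ι b * x⁻¹ := by rw [hf, hf]; exact congrArg ι hab
    simpa using this)
  obtain ⟨g, e, h⟩ := aut_form α hα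
  exact ⟨g, e, fun w => ⟨f w, hf w, h w⟩⟩

theorem Ac.shift {x : S} {g : W} {e : Bool} (h : Ac ι x g e) : Ac ι ((ι g)⁻¹ * x) 1 e := by
  intro w
  obtain ⟨w', h1, h2⟩ := h w
  refine ⟨g⁻¹ * w' * g⁻¹⁻¹, ?_, ?_⟩
  · rw [map_mul, map_mul, ← h1, map_inv, map_inv, map_inv]; group
  · convert h2.conj g⁻¹ using 1; group

theorem Ac.sq (hι : Function.Injective ι) {x : S} {e : Bool} (h : Ac ι x 1 e) {u : W}
    (hu : x * x = ι u) (w : W) : Cg (u * w * u⁻¹) w := by
  obtain ⟨w', h1, h2⟩ := h w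
  obtain ⟨w'', h3, h4⟩ := h w'
  have : u * w * u⁻¹ = w'' := hι (by
    rw [map_mul, map_mul, map_inv, ← hu, ← h3, ← h1]; group)
  rw [this]
  simp only [one_mul, inv_one, mul_one] at h2 h4
  refine h4.trans ?_
  cases e
  · exact h2
  · have := h2.map (α := sg true) (fun a b hab => by
      have := congrArg (sgf true) hab
      rwa [show sg true a = sgf true a from rfl, show sg true b = sgf true b from rfl, sgf_sgf,
        sgf_sgf] at this)
    rwa [show sg true (sgf true w) = sgf true (sgf true w) from rfl, sgf_sgf] at this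

variable [Finite S]

theorem no_false (hr : SectionalPRankLE 2 4 S) (hι : Function.Injective ι) {x : S}
    (h : Ac ι x 1 false) (hx : x ∉ ι.range) (hxx : x * x ∈ ι.range) : False := by
  obtain ⟨u, hu⟩ := hxx
  have huZ : u ∈ Z := mem_Z_of u (h.sq hι hu.symm _) (h.sq hι hu.symm _) (h.sq hι hu.symm _)
  have h' : ∀ w ∈ J, ∃ w' ∈ J, x * ι w = ι w' * x ∧ w * w' ∈ Z := by
    intro w hw
    obtain ⟨w', h1, h2⟩ := h w
    simp only [one_mul, inv_one, mul_one] at h2
    exact ⟨w', cg_J h2 hw, by rw [← h1]; group, cg_sq h2 hw⟩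
  have huJ : u ∈ J := Z_le_J huZ
  let U : Subgroup S :=
    { carrier := {s | ∃ w ∈ J, s = ι w ∨ s = ι w * x}
      one_mem' := ⟨1, J.one_mem, Or.inl (map_one ι).symm⟩
      mul_mem' := by
        rintro _ _ ⟨w, hw, rfl | rfl⟩ ⟨v, hv, rfl | rfl⟩
        · exact ⟨w * v, J.mul_mem hw hv, Or.inl (map_mul ι w v).symm⟩
        · exact ⟨w * v, J.mul_mem hw hv, Or.inr (by rw [map_mul, mul_assoc])⟩
        · obtain ⟨v', hv', e, -⟩ := h' v hv
          exact ⟨w * v', J.mul_mem hw hv', Or.inr (by rw [map_mul, mul_assoc, e, mul_assoc])⟩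
        · obtain ⟨v', hv', e, -⟩ := h' v hv
          refine ⟨w * v' * u, J.mul_mem (J.mul_mem hw hv') huJ, Or.inl ?_⟩
          rw [map_mul, map_mul, hu, mul_assoc, ← mul_assoc x, e]; group
      inv_mem' := by
        rintro _ ⟨w, hw, rfl | rfl⟩
        · exact ⟨w⁻¹, J.inv_mem hw, Or.inl (map_inv ι w).symm⟩
        · obtain ⟨v', hv', e, -⟩ := h' (u⁻¹ * w⁻¹) (J.mul_mem (J.inv_mem huJ) (J.inv_mem hw))
          refine ⟨v', hv', Or.inr ?_⟩
          rw [← e, map_mul, map_inv, map_inv, hu]; group }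
  have h1 := CL.SecR.relIndex_le hr (A := U) (B := Z.map ι) (by
    rintro _ ⟨w, hw, rfl | rfl⟩
    · exact ⟨w * w, (zz_sqJ w hw).1, map_mul ι w w⟩
    · obtain ⟨v', hv', e, hz⟩ := h' w hw
      refine ⟨w * v' * u, Z.mul_mem hz huZ, ?_⟩
      rw [map_mul, map_mul, hu, mul_assoc (ι w) x, ← mul_assoc x, e]; group)
  have hJU : J.map ι ≤ U := by rintro _ ⟨w, hw, rfl⟩; exact ⟨w, hw, Or.inl rfl⟩
  have h2 := relIndex_mul_relIndex (Z.map ι) (J.map ι) U (map_mono Z_le_J) hJU
  have h3 : (Z.map ι).relIndex (J.map ι) = 16 := by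
    rw [relIndex_map_map_of_injective _ _ hι]
    have := (Z.subgroupOf J).card_mul_index
    rw [Nat.card_congr (subgroupOfEquivOfLe Z_le_J).toEquiv, card_Z, card_J] at this
    change 4 * Z.relIndex J = 64 at this
    omega
  have h4 : (J.map ι).relIndex U ≠ 1 := by
    rw [Ne, relIndex_eq_one]
    intro hle
    obtain ⟨w, -, hw⟩ := hle (show x ∈ U from ⟨1, J.one_mem, Or.inr (by simp)⟩)
    exact hx ⟨w, hw⟩
  have h5 : (J.map ι).relIndex U ≠ 0 := index_ne_zero_of_finite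
  rw [← h2, h3] at h1
  omega

omit [Finite S] in
theorem Ac.mapsA {x : S} {g : W} {e : Bool} (h : Ac ι x g e) {w : W} :
    ∃ w', x * ι w * x⁻¹ = ι w' ∧ (w' ∈ A ↔ sgf e w ∈ A) ∧ (w' ∈ B ↔ sgf e w ∈ B) := by
  obtain ⟨w', h1, h2⟩ := h w
  exact ⟨w', h1, (cg_mem zz_A h2).trans (conj_A _ _), (cg_mem zz_B h2).trans (conj_B _ _)⟩

/-- An element normalizing the image and squaring into it has type `σ`. -/
theorem type_true (hr : SectionalPRankLE 2 4 S) (hι : Function.Injective ι) {x : S} {g : W}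
    {e : Bool} (h : Ac ι x g e) (hx : x ∉ ι.range) (hxx : x * x ∈ ι.range) : e = true := by
  cases e
  · refine (no_false hr hι h.shift (fun hm => hx ?_) ?_).elim
    · exact (ι.range.mul_mem_cancel_left (ι.range.inv_mem ⟨g, rfl⟩)).1 hm
    · obtain ⟨w', h1, -⟩ := h g⁻¹
      have : (ι g)⁻¹ * x * ((ι g)⁻¹ * x) = (ι g)⁻¹ * ι w' * (x * x) := by
        rw [← h1, map_inv]; group
      rw [this]
      exact mul_mem (mul_mem (inv_mem ⟨g, rfl⟩) ⟨w', rfl⟩) hxx
  · rfl

theorem norm_eq (h2 : IsPGroup 2 S) (hr : SectionalPRankLE 2 4 S) (hι : Function.Injective ι)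
    {X : Subgroup W} (hX : X = A ∨ X = B) : normalizer (X.map ι : Set S) = ι.range := by
  have hle : ι.range ≤ normalizer (X.map ι : Set S) := by
    rintro _ ⟨g, rfl⟩
    rw [mem_normalizer_iff]
    intro s
    constructor
    · rintro ⟨w, hw, rfl⟩
      refine ⟨g * w * g⁻¹, ?_, by simp⟩
      rcases hX with rfl | rfl
      · exact nA g w hw
      · exact f_nB g w hw
    · rintro ⟨w, hw, e⟩
      refine ⟨g⁻¹ * w * g⁻¹⁻¹, ?_, by simp [e, mul_assoc]⟩
      rcases hX with rfl | rfl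
      · exact nA _ w hw
      · exact f_nB _ w hw
  by_contra hne
  obtain ⟨x, hxN, hxP, hx, hxx⟩ := CL.ZD.J1.exists_sq_mem (h2.to_subgroup _)
    (lt_of_le_of_ne hle (Ne.symm hne))
  obtain ⟨g, e, h⟩ := exists_ac hι hxP
  obtain rfl := type_true hr hι h hx hxx
  rcases hX with rfl | rfl
  · obtain ⟨w', h1, hA, -⟩ := h.mapsA (w := a1)
    obtain ⟨w, hw, e⟩ := (mem_normalizer_iff.1 hxN (ι a1)).1 ⟨a1, (by decide +kernel : a1 ∈ A), rfl⟩
    rw [h1] at e
    obtain rfl := hι e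
    exact absurd (hA.1 hw) (by decide +kernel)
  · obtain ⟨w', h1, -, hB⟩ := h.mapsA (w := b1)
    obtain ⟨w, hw, e⟩ := (mem_normalizer_iff.1 hxN (ι b1)).1 ⟨b1, (by decide +kernel : b1 ∈ B), rfl⟩
    rw [h1] at e
    obtain rfl := hι e
    exact absurd (hB.1 hw) (by decide +kernel)

theorem mem_of_maps (h2 : IsPGroup 2 S) (hr : SectionalPRankLE 2 4 S) (hι : Function.Injective ι)
    {x : S} (h : ∀ w ∈ A, ∃ w' ∈ A, x * ι w * x⁻¹ = ι w') : x ∈ ι.range := by
  rw [← norm_eq h2 hr hι (Or.inl rfl)]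
  refine mem_normalizer_fintype ?_
  rintro _ ⟨w, hw, rfl⟩
  obtain ⟨w', h1, h2⟩ := h w hw
  exact ⟨w', h1, h2.symm⟩

theorem type_true' (h2 : IsPGroup 2 S) (hr : SectionalPRankLE 2 4 S) (hι : Function.Injective ι)
    {x : S} {g : W} {e : Bool} (h : Ac ι x g e) (hx : x ∉ ι.range) : e = true := by
  cases e
  · refine (hx (mem_of_maps h2 hr hι fun w hw => ?_)).elim
    obtain ⟨w', h1, hA, -⟩ := h.mapsA (w := w)
    exact ⟨w', hA.2 hw, h1⟩
  · rfl

theorem mul_mem_of (h2 : IsPGroup 2 S) (hr : SectionalPRankLE 2 4 S) (hι : Function.Injective ι)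
    {x y : S} (hxN : x ∈ normalizer (ι.range : Set S)) (hyN : y ∈ normalizer (ι.range : Set S))
    (hx : x ∉ ι.range) (hy : y ∉ ι.range) : x * y ∈ ι.range := by
  obtain ⟨g, e, h⟩ := exists_ac hι hxN
  obtain ⟨g', e', h'⟩ := exists_ac hι hyN
  obtain rfl := type_true' h2 hr hι h hx
  obtain rfl := type_true' h2 hr hι h' hy
  refine mem_of_maps h2 hr hι fun w hw => ?_
  obtain ⟨w', h1, -, hB⟩ := h'.mapsA (w := w)
  obtain ⟨w'', h3, hA, -⟩ := h.mapsA (w := w')
  refine ⟨w'', hA.2 ((sg_A _).2 (hB.2 ((sg_B _).2 hw))), ?_⟩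
  rw [← h3, ← h1]; group

theorem mem_center_iff' (h2 : IsPGroup 2 S) (hr : SectionalPRankLE 2 4 S)
    (hι : Function.Injective ι) {s : S} : s ∈ center S ↔ s = 1 ∨ s = ι zz := by
  have h1 : ∀ s ∈ center S, s = 1 ∨ s = ι zz := by
    intro s hs
    obtain ⟨u, rfl⟩ : s ∈ ι.range := mem_of_maps h2 hr hι fun w hw =>
      ⟨w, hw, by rw [← mem_center_iff.1 hs, mul_inv_cancel_right]⟩
    have hc : ∀ w, u * w = w * u := fun w => hι (by
      rw [map_mul, map_mul, mem_center_iff.1 hs])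
    rcases cent_W u (hc _) (hc _) (hc _) with rfl | rfl
    · exact Or.inl (map_one ι)
    · exact Or.inr rfl
  refine ⟨h1 s, ?_⟩
  rintro (rfl | rfl)
  · exact one_mem _
  · have : Nontrivial W := ⟨⟨1, zz, by decide +kernel⟩⟩
    have : Nontrivial S := hι.nontrivial
    have := h2.center_nontrivial
    obtain ⟨⟨s, hs⟩, hs1⟩ := exists_ne (1 : center S)
    rcases h1 s hs with rfl | rfl
    · exact absurd rfl hs1
    · exact hs

theorem eq_AB {V : Subgroup W} (hn : ∀ g : W, ∀ v ∈ V, g * v * g⁻¹ ∈ V)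
    (hc : ∀ u ∈ V, ∀ v ∈ V, u * v = v * u) (hs : ∀ u ∈ V, u * u = 1) (h16 : Nat.card V = 16) :
    V = A ∨ V = B := by
  have h1 : ∀ u ∈ V, u ∈ A ∨ u ∈ B := fun u hu =>
    or_AB u (hs u hu) (hc _ hu _ (hn _ _ hu)) (hc _ hu _ (hn _ _ hu))
  by_cases hA : V ≤ A
  · exact Or.inl (eq_of_le_of_card_ge hA (by rw [card_A, h16]))
  · refine Or.inr (eq_of_le_of_card_ge (fun v hv => ?_) (by rw [card_B, h16]))
    obtain ⟨u, hu, huA⟩ := SetLike.not_le_iff_exists.1 hA
    by_contra hvB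
    exact not_AB u ((h1 u hu).resolve_left huA) huA v ((h1 v hv).resolve_right hvB) hvB
      (hc _ hu _ hv) (hc _ hu _ (hn _ _ hv))

theorem exists_iso (h2 : IsPGroup 2 S) (hr : SectionalPRankLE 2 4 S) (hι : Function.Injective ι)
    {y : S} (hyN : y ∈ normalizer (ι.range : Set S)) (hy : y ∉ ι.range) :
    Nonempty (W ≃* normalizer (ι.range : Set S) ⧸
      (center S).subgroupOf (normalizer (ι.range : Set S))) := by
  set N := normalizer (ι.range : Set S) with hN
  obtain ⟨g, e, h0⟩ := exists_ac hι hyN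
  obtain rfl := type_true' h2 hr hι h0 hy
  have h := h0.shift
  have hιN : ∀ w, ι w ∈ N := fun w => le_normalizer ⟨w, rfl⟩
  have hxN : (ι g)⁻¹ * y ∈ N := mul_mem (inv_mem (hιN g)) hyN
  have hx : (ι g)⁻¹ * y ∉ ι.range := fun hm =>
    hy ((ι.range.mul_mem_cancel_left (ι.range.inv_mem ⟨g, rfl⟩)).1 hm)
  generalize (ι g)⁻¹ * y = x at h hxN hx
  obtain ⟨u, hu⟩ := mul_mem_of h2 hr hι hxN hxN hx hx
  have huZ : u ∈ Z :=
    mem_Z_of u (h.sq hι hu.symm _) (h.sq hι hu.symm _) (h.sq hι hu.symm _)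
  have hzc : ι zz ∈ center S := (mem_center_iff' h2 hr hι).2 (Or.inr rfl)
  have hxx : x * x ∈ center S := by
    have : u * sw = sw * u := hι (by
      obtain ⟨w', h1, h3⟩ := h sw
      rw [sgf_sw, one_mul, inv_one, mul_one] at h3
      rw [map_mul, map_mul, hu]
      have h4 : x * ι sw = ι w' * x := by rw [← h1]; group
      have h5 : x * ι zz = ι zz * x := (mem_center_iff.1 hzc x)
      rcases h3 with rfl | rfl
      · rw [mul_assoc, h4, ← mul_assoc, h4, mul_assoc]
      · rw [mul_assoc, h4, map_mul, ← mul_assoc, ← mul_assoc, h4, mul_assoc _ x, h5, ← mul_assoc,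
          ← map_mul, mul_assoc sw, zz_sq, mul_one, mul_assoc])
    rw [← hu, mem_center_iff' h2 hr hι]
    rcases f_cT u huZ sw rfl this with rfl | rfl
    · exact Or.inl (map_one ι)
    · exact Or.inr rfl
  let π := QuotientGroup.mk' ((center S).subgroupOf N)
  let j : W →* N ⧸ (center S).subgroupOf N := π.comp (ι.codRestrict N hιN)
  let ξ := π ⟨x, hxN⟩
  have hξ : ξ * ξ = 1 := by
    rw [← map_mul]; exact (QuotientGroup.eq_one_iff _).2 hxx
  have jz : j zz = 1 := (QuotientGroup.eq_one_iff _).2 hzc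
  have jc : ∀ {a b}, Cg a b → j a = j b := by
    rintro a b (rfl | rfl)
    · rfl
    · rw [map_mul, jz, mul_one]
  have hj : ∀ w, ξ * j w = j (sgf true w) * ξ := by
    intro w
    obtain ⟨w', h1, h3⟩ := h w
    rw [one_mul, inv_one, mul_one] at h3
    rw [← jc h3]
    change π _ * π _ = π _ * π _
    rw [← map_mul, ← map_mul]
    congr 1
    ext
    change x * ι w = ι w' * x
    rw [← h1]; group
  let ev : W × Bool → N ⧸ (center S).subgroupOf N := fun p => j p.1 * cond p.2 ξ 1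
  have ev_pm : ∀ p q, ev (pm p q) = ev p * ev q := by
    rintro ⟨a, _ | _⟩ ⟨b, _ | _⟩
    · simp [ev, pm, sgf]
    · simp [ev, pm, sgf, mul_assoc]
    · simp only [ev, pm, map_mul, cond_true, cond_false, Bool.xor_false, mul_one, mul_assoc, hj]
    · simp only [ev, pm, map_mul, cond_true, cond_false, Bool.xor_self, mul_one]
      rw [mul_assoc, ← mul_assoc ξ, hj, mul_assoc, hξ, mul_one]
  have key : ∀ y ∈ [a1, b1, sw], ∀ x, ev (Fm (x * y)) = ev (Fm x) * ev (Fm y) := by
    intro y hy x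
    obtain ⟨h1, h3⟩ := Fm_mul x y hy
    rw [← ev_pm]
    simp only [ev]
    rw [jc h1, h3]; rfl
  have key2 : ∀ y x, ev (Fm (x * y)) = ev (Fm x) * ev (Fm y) := by
    refine ind_W ?_ ?_ (key _ (by simp)) (key _ (by simp)) (key _ (by simp))
    · intro x; simp [Fm_one, ev]
    · intro y y' hy hy' x
      rw [← mul_assoc, hy', hy, hy', mul_assoc]
  let Ψ : W →* N ⧸ (center S).subgroupOf N := MonoidHom.mk' (fun w => ev (Fm w)) fun a b => key2 b a
  refine ⟨MulEquiv.ofBijective Ψ ⟨?_, ?_⟩⟩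
  · rw [injective_iff_map_eq_one]
    intro w hw
    change ev (Fm w) = 1 at hw
    rcases hb : (Fm w).2 with _ | _
    · refine Fm_inj w hb ?_
      simp only [ev, hb, cond_false, mul_one] at hw
      have : ι (Fm w).1 ∈ center S :=
        (QuotientGroup.eq_one_iff (ι.codRestrict N hιN (Fm w).1)).1 hw
      rcases (mem_center_iff' h2 hr hι).1 this with e | e
      · exact Or.inl ((map_eq_one_iff ι hι).1 e)
      · exact Or.inr (by rw [one_mul]; exact hι e)
    · exfalso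
      simp only [ev, hb, cond_true] at hw
      have hw' : π (ι.codRestrict N hιN (Fm w).1 * ⟨x, hxN⟩) = 1 := by rw [map_mul]; exact hw
      have : ι (Fm w).1 * x ∈ center S :=
        (QuotientGroup.eq_one_iff (ι.codRestrict N hιN (Fm w).1 * (⟨x, hxN⟩ : N))).1 hw'
      refine hx ((ι.range.mul_mem_cancel_left ⟨(Fm w).1, rfl⟩).1 ?_)
      rcases (mem_center_iff' h2 hr hι).1 this with e | e <;> rw [e]
      · exact one_mem _
      · exact ⟨_, rfl⟩
  · intro q
    obtain ⟨⟨n, hn⟩, rfl⟩ := QuotientGroup.mk'_surjective _ q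
    by_cases hnP : n ∈ ι.range
    · obtain ⟨w, rfl⟩ := hnP
      obtain ⟨v, h1, h3⟩ := Fm_surj w false
      refine ⟨v, ?_⟩
      change ev (Fm v) = _
      simp only [ev, h3, cond_false, mul_one]
      rw [← jc h1]; rfl
    · obtain ⟨w, hw⟩ := mul_mem_of h2 hr hι hn (inv_mem hxN) hnP (fun hm => hx (by simpa using hm))
      obtain ⟨v, h1, h3⟩ := Fm_surj w true
      refine ⟨v, ?_⟩
      change ev (Fm v) = _
      simp only [ev, h3, cond_true]
      rw [← jc h1]
      change π _ * π _ = π _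
      rw [← map_mul]
      congr 1
      ext
      change ι w * x = n
      rw [hw]; group

end

/-- Let S be a finite 2-group of sectional 2-rank at most 4 and P a proper subgroup isomorphic to the wreath product of the dihedral group of order 8 by a group of order 2 (equivalently, to a Sylow 2-subgroup of the symmetric group of degree 8; order 128). Then Z(S) = Z(P) has order 2, P has index 2 in its normalizer N_S(P), N_S(P)/Z(S) is again isomorphic to that wreath product, and every elementary abelian subgroup V of order 16 that is normal in P satisfies N_S(V) = P. -/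
theorem result {S : Type*} [Group S] [Finite S] (h2 : IsPGroup 2 S) (hr : Cfsg.SectionalPRankLE 2 4 S)
    (P : Subgroup S) (hPlt : P ≠ ⊤) (hP : ∃ T : Sylow 2 (Equiv.Perm (Fin 8)), Nonempty (↥P ≃* ↥(T : Subgroup (Equiv.Perm (Fin 8))))) :
    Subgroup.center S = (Subgroup.center ↥P).map P.subtype ∧ Nat.card ↥(Subgroup.center S) = 2 ∧
    P.relIndex (Subgroup.normalizer (P : Set S)) = 2 ∧
    (∃ (_ : ((Subgroup.center S).subgroupOf (Subgroup.normalizer (P : Set S))).Normal) (T : Sylow 2 (Equiv.Perm (Fin 8))),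
      Nonempty (↥(Subgroup.normalizer (P : Set S)) ⧸ (Subgroup.center S).subgroupOf (Subgroup.normalizer (P : Set S)) ≃*
        ↥(T : Subgroup (Equiv.Perm (Fin 8))))) ∧
    ∀ V : Subgroup S, V ≤ P → (∀ g ∈ P, ∀ v ∈ V, g * v * g⁻¹ ∈ V) → Cfsg.IsElementaryAbelian 2 V → Nat.card ↥V = 16 →
      Subgroup.normalizer (V : Set S) = P := by
  obtain ⟨T, ⟨eT⟩⟩ := hP
  obtain ⟨eW⟩ := iso_sylow T
  let ι : W →* S := P.subtype.comp (eW.trans eT.symm).toMonoidHom
  have hι : Function.Injective ι := P.subtype_injective.comp (eW.trans eT.symm).injective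
  have hPr : ι.range = P := by
    ext s
    constructor
    · rintro ⟨w, rfl⟩; exact ((eW.trans eT.symm) w).2
    · intro hs
      obtain ⟨w, hw⟩ := (eW.trans eT.symm).surjective ⟨s, hs⟩
      exact ⟨w, congrArg Subtype.val hw⟩
  clear_value ι
  subst hPr
  obtain ⟨y, -, hyN, hy, -⟩ := CL.ZD.J1.exists_sq_mem (h2.to_subgroup ⊤) (lt_top_iff_ne_top.2 hPlt)
  have hz1 : ι zz ≠ 1 := by rw [Ne, map_eq_one_iff ι hι]; decide +kernel
  refine ⟨?_, ?_, ?_, ?_, ?_⟩
  · rw [CL.SecR.map_center]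
    ext s
    rw [mem_center_iff' h2 hr hι]
    constructor
    · rintro (rfl | rfl)
      · exact one_mem _
      · refine ⟨⟨_, rfl⟩, ?_⟩
        rintro _ ⟨w, rfl⟩
        rw [← map_mul, ← map_mul, f_cz]
    · rintro ⟨⟨u, rfl⟩, hc⟩
      have hc' : ∀ w, u * w = w * u := fun w => hι (by
        rw [map_mul, map_mul]; exact (hc _ ⟨w, rfl⟩).symm)
      rcases cent_W u (hc' _) (hc' _) (hc' _) with rfl | rfl
      · exact Or.inl (map_one ι)
      · exact Or.inr rfl
  · have : (center S : Set S) = {1, ι zz} := by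
      ext s; simp [mem_center_iff' h2 hr hι]
    rw [← SetLike.coe_sort_coe, Nat.card_coe_set_eq, this, Set.ncard_pair hz1.symm]
  · rw [relIndex, index_eq_two_iff]
    refine ⟨⟨y, hyN⟩, fun ⟨b, hb⟩ => ?_⟩
    simp only [mem_subgroupOf, MulMemClass.mk_mul_mk]
    by_cases hbP : b ∈ ι.range
    · exact Or.inr ⟨hbP, fun hm => hy ((ι.range.mul_mem_cancel_left hbP).1 hm)⟩
    · exact Or.inl ⟨mul_mem_of h2 hr hι hb hyN hbP hy, hbP⟩
  · obtain ⟨e⟩ := exists_iso h2 hr hι hyN hy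
    exact ⟨inferInstance, T, ⟨e.symm.trans eW⟩⟩
  · intro V hV hn hE h16
    have hV' : V = (V.comap ι).map ι := (map_comap_eq_self hV).symm
    rw [hV']
    refine norm_eq h2 hr hι (eq_AB ?_ ?_ ?_ ?_)
    · intro g v hv
      have := hn (ι g) ⟨g, rfl⟩ _ hv
      simpa using this
    · intro u hu v hv
      refine hι ?_
      rw [map_mul, map_mul]
      have := hE.1
      exact congrArg Subtype.val (mul_comm' (⟨ι u, hu⟩ : V) ⟨ι v, hv⟩)
    · intro u hu
      refine hι ?_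
      rw [map_mul, map_one, ← sq]
      exact hE.2 _ hu
    · rw [← h16, hV', ← Nat.card_congr (equivMapOfInjective _ _ hι).toEquiv, ← hV']

end Cfsg.Agent.S4402
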