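import Mathlib
import Cfsg.Statements.S4405
import Cfsg.Agent.CHAR.Burnside
import Cfsg.Agent.SOLV.Fitting
import Cfsg.Agent.SOLV.Primitive
import Cfsg.Agent.S0200

set_option autoImplicit false
open Cfsg

namespace Cfsg.Agent.S4405

set_option linter.style.haveILetI false

theorem le_center_two {G : Type*} [Group G] {W : Subgroup G} [hW : W.Normal] (h : Nat.card W = 2) :
    W ≤ Subgroup.center G := by
  intro z hz
  rw [Subgroup.mem_center_iff]
  intro g
  obtain ⟨y, hy, hu⟩ := (Nat.card_eq_two_iff' (1 : W)).1 h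
  by_cases h1 : z = 1
  · simp [h1]
  have a1 := hu ⟨z, hz⟩ (fun e => h1 (congrArg Subtype.val e))
  have a2 := hu ⟨g * z * g⁻¹, hW.conj_mem z hz g⟩ (fun e => h1 (by
    have := congrArg Subtype.val e
    simpa [mul_inv_eq_one] using this))
  have : g * z * g⁻¹ = z := congrArg Subtype.val (a2.trans a1.symm)
  rw [mul_inv_eq_iff_eq_mul] at this
  exact this

theorem dih {Q : Type*} [Group Q] {u s : Q} (hu : u * u = 1) (hs : s * s = 1) (h5 : (u * s) ^ 5 = 1) :
    u = ((u * s) ^ 2)⁻¹ * s * (u * s) ^ 2 := by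
  have e1 : ((u * s) ^ 2)⁻¹ = (u * s) ^ 3 := by
    apply inv_eq_of_mul_eq_one_right; rw [← pow_add]; exact h5
  rw [e1]
  have e2 : ∀ x : Q, s * (s * x) = x := fun x => by rw [← mul_assoc, hs, one_mul]
  have e3 : ∀ x : Q, u * (u * x) = x := fun x => by rw [← mul_assoc, hu, one_mul]
  simp only [pow_succ, pow_zero, one_mul, mul_assoc, e2, e3, hs, mul_one]

/-- The key step: an element of `H` centralised by `T` squares to one. -/
theorem key {G : Type*} [Group G] {H Z : Subgroup G} [H.Normal] [Z.Normal]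
    (hZc : Z ≤ Subgroup.center G) (hZ2 : ∀ z ∈ Z, z * z = 1)
    (hcomm : ∀ a ∈ H, ∀ b ∈ H, a * b * a⁻¹ * b⁻¹ ∈ Z) (hsq : ∀ a ∈ H, a * a ∈ Z)
    {T σ : G} (hT : T * T = 1) (hσ : σ ^ 5 = 1) (hi : T * σ * T⁻¹ = σ⁻¹)
    (hC : ∀ n ∈ H, σ * n = n * σ → n ∈ Z) {c : G} (hc : c ∈ H) (hcT : T * c = c * T) :
    c * c = 1 := by
  have hcen : ∀ z ∈ Z, ∀ g : G, g * z = z * g := fun z hz g => Subgroup.mem_center_iff.1 (hZc hz) g
  have hn : (c * σ) ^ 5 ∈ H := by
    rw [← QuotientGroup.eq_one_iff, QuotientGroup.mk_pow, QuotientGroup.mk_mul,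
      (QuotientGroup.eq_one_iff c).2 hc, one_mul, ← QuotientGroup.mk_pow, hσ, QuotientGroup.mk_one]
  set n := (c * σ) ^ 5 with hndef
  have hz : σ * n * σ⁻¹ * n⁻¹ ∈ Z := by
    have h1 : c * σ * n = n * (c * σ) := ((Commute.refl (c * σ)).pow_right 5).eq
    have h2 : σ * n * σ⁻¹ * n⁻¹ = c⁻¹ * n * c⁻¹⁻¹ * n⁻¹ := by
      have : σ * n = c⁻¹ * (n * (c * σ)) := by rw [← h1]; group
      rw [this]; group
    rw [h2]
    exact hcomm _ (H.inv_mem hc) _ hn
  set z := σ * n * σ⁻¹ * n⁻¹ with hzdef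
  have hzn : σ * n = z * n * σ := by rw [hzdef]; group
  have hpow : ∀ k : ℕ, σ ^ k * n = z ^ k * n * σ ^ k := by
    intro k
    induction k with
    | zero => simp
    | succ k ih =>
      have hzk : z ^ k ∈ Z := Z.pow_mem hz k
      calc σ ^ (k + 1) * n = σ * (σ ^ k * n) := by rw [pow_succ']; group
        _ = (σ * z ^ k) * n * σ ^ k := by rw [ih]; group
        _ = z ^ k * (σ * n) * σ ^ k := by rw [hcen _ hzk σ]; group
        _ = z ^ (k + 1) * n * σ ^ (k + 1) := by rw [hzn, pow_succ, pow_succ']; group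
  have hz1 : z = 1 := by
    have h5 := hpow 5
    rw [hσ, one_mul, mul_one] at h5
    have h5' : z ^ 5 = 1 := by
      have : z ^ 5 * n = 1 * n := by rw [← h5, one_mul]
      exact mul_right_cancel this
    have h2 := hZ2 z hz
    calc z = z * (z * z) * (z * z) := by rw [h2]; group
      _ = z ^ 5 := by simp only [pow_succ, pow_zero, one_mul, mul_assoc]
      _ = 1 := h5'
  have hnZ : n ∈ Z := hC n hn (by rw [hzn, hz1, one_mul])
  have hTi : T⁻¹ = T := inv_eq_of_mul_eq_one_right hT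
  have hs : (T * σ) * (T * σ) = 1 := by
    calc (T * σ) * (T * σ) = (T * σ * T⁻¹) * σ := by rw [hTi]; group
      _ = 1 := by rw [hi]; group
  have hu : (c * T) * (c * T) = c * c := by
    calc (c * T) * (c * T) = c * (T * c) * T := by group
      _ = c * c * (T * T) := by rw [hcT]; group
      _ = c * c := by rw [hT, mul_one]
  have hus : (c * T) * (T * σ) = c * σ := by
    calc (c * T) * (T * σ) = c * (T * T) * σ := by group
      _ = c * σ := by rw [hT, mul_one]
  have hd := dih (Q := G ⧸ Z) (u := ((c * T : G) : G ⧸ Z)) (s := ((T * σ : G) : G ⧸ Z))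
    (by rw [← QuotientGroup.mk_mul, hu, QuotientGroup.eq_one_iff]; exact hsq c hc)
    (by rw [← QuotientGroup.mk_mul, hs, QuotientGroup.mk_one])
    (by rw [← QuotientGroup.mk_mul, hus, ← QuotientGroup.mk_pow, QuotientGroup.eq_one_iff]; exact hnZ)
  rw [← QuotientGroup.mk_mul, ← QuotientGroup.mk_pow, ← QuotientGroup.mk_inv, ← QuotientGroup.mk_mul,
    ← QuotientGroup.mk_mul, QuotientGroup.eq] at hd
  set a := (c * T * (T * σ)) ^ 2
  set w := (c * T)⁻¹ * (a⁻¹ * (T * σ) * a) with hw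
  have e : c * T * w = a⁻¹ * (T * σ) * a := by rw [hw]; group
  have e2 : (c * T * w) * (c * T * w) = 1 := by
    rw [e]
    calc a⁻¹ * (T * σ) * a * (a⁻¹ * (T * σ) * a) = a⁻¹ * ((T * σ) * (T * σ)) * a := by group
      _ = 1 := by rw [hs]; group
  rw [← hu, ← e2]
  calc c * T * (c * T) = c * T * (c * T) * (w * w) := by rw [hZ2 w hd, mul_one]
    _ = c * T * ((c * T) * w) * w := by group
    _ = c * T * (w * (c * T)) * w := by rw [hcen w hd (c * T)]
    _ = c * T * w * (c * T * w) := by group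

/-- Let G be a finite group of order 320 = 64·5 whose largest normal 2-subgroup H = O₂(G) equals the Fitting subgroup F(G) and is extraspecial of order 32 containing no elementary abelian subgroup of order 8 (so H is the central product of a quaternion group and a dihedral group of order 8). If T is an involution of G outside H whose centralizer in H contains an elementary abelian subgroup of order 4, then C_H(T) itself is elementary abelian of order 4. -/
theorem result {G : Type*} [Group G] [Finite G]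
    (hG : Nat.card G = 320) (hHF : Cfsg.pCore 2 G = Cfsg.fittingSubgroup G)
    (hex : Cfsg.IsExtraspecial 2 ↥(Cfsg.pCore 2 G)) (h32 : Nat.card ↥(Cfsg.pCore 2 G) = 32)
    (hminus : ∀ A : Subgroup G, A ≤ Cfsg.pCore 2 G → Cfsg.IsElementaryAbelian 2 A → Nat.card ↥A ≤ 4)
    (T : G) (hT : orderOf T = 2) (hTH : T ∉ Cfsg.pCore 2 G)
    (V : Subgroup G) (hV : V ≤ Cfsg.pCore 2 G ⊓ Subgroup.centralizer ({T} : Set G)) (hV4 : Nat.card ↥V = 4) (hVe : Cfsg.IsElementaryAbelian 2 V) :
    Nat.card ↥(Cfsg.pCore 2 G ⊓ Subgroup.centralizer ({T} : Set G)) = 4 ∧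
      Cfsg.IsElementaryAbelian 2 (Cfsg.pCore 2 G ⊓ Subgroup.centralizer ({T} : Set G)) := by
  classical
  haveI hHn : (Cfsg.pCore 2 G).Normal := inferInstance
  set H := Cfsg.pCore 2 G with hH
  let Z : Subgroup G := (Subgroup.center H).map H.subtype
  haveI hZn : Z.Normal := inferInstance
  have hZ2 : Nat.card Z = 2 := by
    rw [Subgroup.card_subtype]; exact hex.2
  have hZc : Z ≤ Subgroup.center G := le_center_two hZ2
  have hZH : Z ≤ H := Subgroup.map_subtype_le _
  have hZsq : ∀ z ∈ Z, z * z = 1 := by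
    intro z hz
    have : (⟨z, hz⟩ : Z) ^ 2 = 1 := by rw [← hZ2]; exact pow_card_eq_one'
    have := congrArg Subtype.val this
    simpa [pow_two] using this
  have hcomm : ∀ a ∈ H, ∀ b ∈ H, a * b * a⁻¹ * b⁻¹ ∈ Z := by
    intro a ha b hb
    refine ⟨⟨a, ha⟩ * ⟨b, hb⟩ * (⟨a, ha⟩ : H)⁻¹ * (⟨b, hb⟩ : H)⁻¹, ?_, rfl⟩
    have := Subgroup.commutator_mem_commutator (Subgroup.mem_top (⟨a, ha⟩ : H)) (Subgroup.mem_top (⟨b, hb⟩ : H))
    rw [← _root_.commutator_def, hex.1.2.2] at this
    exact this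
  have hcen : ∀ z ∈ Z, ∀ g : G, g * z = z * g := fun z hz g => Subgroup.mem_center_iff.1 (hZc hz) g
  have hsq : ∀ a ∈ H, a * a ∈ Z := by
    intro a ha
    refine ⟨⟨a * a, H.mul_mem ha ha⟩, ?_, rfl⟩
    rw [SetLike.mem_coe, Subgroup.mem_center_iff]
    rintro ⟨b, hb⟩
    apply Subtype.ext
    show b * (a * a) = a * a * b
    have h1 := hcomm a ha b hb
    set z := a * b * a⁻¹ * b⁻¹ with hz
    have e : a * b = z * b * a := by rw [hz]; group
    calc b * (a * a) = (z * z) * b * (a * a) := by rw [hZsq z h1, one_mul]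
      _ = z * (z * b * a) * a := by group
      _ = (z * a) * (b * a) := by rw [← e]; group
      _ = a * (z * b * a) := by rw [← hcen z h1 a]; group
      _ = a * a * b := by rw [← e]; group
  have hH2 : IsPGroup 2 H := hex.1.1
  obtain ⟨σ, hσ1, hσo, hi⟩ := Cfsg.Agent.S0200.result T hT (fun N hN hp hTN =>
    hTH (le_sSup (s := {N : Subgroup G | N.Normal ∧ IsPGroup 2 N}) ⟨hN, hp⟩ hTN))
  have hσ5 : orderOf σ = 5 := by
    have hd : orderOf σ ∣ 320 := hG ▸ orderOf_dvd_natCard σ
    have hd5 : orderOf σ ∣ 5 := by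
      have : Nat.Coprime (orderOf σ) (2 ^ 6) := Nat.Coprime.pow_right _ (Nat.coprime_two_right.2 hσo)
      exact this.dvd_of_dvd_mul_left (by simpa using hd)
    rcases (Nat.dvd_prime Nat.prime_five).1 hd5 with h | h
    · exact absurd (orderOf_eq_one_iff.1 h) hσ1
    · exact h
  have hσp : σ ^ 5 = 1 := hσ5 ▸ pow_orderOf_eq_one σ
  haveI : Group.IsSolvable G := CL.Char.isSolvable_of_primes_subset_pair Nat.prime_two Nat.prime_five (by
    intro r hr hd
    rw [hG, show 320 = 2 ^ 6 * 5 by norm_num] at hd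
    rcases (Nat.Prime.dvd_mul hr).1 hd with h | h
    · exact Or.inl ((Nat.prime_dvd_prime_iff_eq hr Nat.prime_two).1 (hr.dvd_of_dvd_pow h))
    · exact Or.inr ((Nat.prime_dvd_prime_iff_eq hr Nat.prime_five).1 h))
  have hC : ∀ n ∈ H, σ * n = n * σ → n ∈ Z := by
    haveI : Fact (Nat.Prime 5) := ⟨Nat.prime_five⟩
    have hA : IsPGroup 5 (Subgroup.zpowers σ) := IsPGroup.of_card (n := 1) (by simp [hσ5])
    have hm := CL.Prim.card_modEq_card_inf_centralizer (E := H) hA (by
      rw [Subgroup.normalizer_eq_top]; exact le_top)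
    set C := H ⊓ Subgroup.centralizer (Subgroup.zpowers σ : Set G) with hCdef
    have hmem : ∀ n, n ∈ H → σ * n = n * σ → n ∈ C := by
      intro n hn hc
      refine ⟨hn, ?_⟩
      rintro _ ⟨k, rfl⟩
      exact ((show Commute σ n from hc).zpow_left k).eq
    have hZC : Z ≤ C := fun z hz => hmem z (hZH hz) (hcen z hz σ)
    have hd : Nat.card C ∣ 2 ^ 5 := by
      have := Subgroup.card_dvd_of_le (inf_le_left : C ≤ H)
      rwa [h32] at this
    obtain ⟨k, hk, hk'⟩ := (Nat.dvd_prime_pow Nat.prime_two).1 hd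
    rw [h32, hk'] at hm
    have : k = 1 ∨ k = 5 := by
      interval_cases k <;> simp_all [Nat.ModEq]
    rcases this with rfl | rfl
    · have : Z = C := Subgroup.eq_of_le_of_card_ge hZC (by rw [hk', hZ2]; norm_num)
      intro n hn hc
      rw [this]; exact hmem n hn hc
    · exfalso
      have hCH : C = H := Subgroup.eq_of_le_of_card_ge inf_le_left (by rw [hk', h32]; norm_num)
      have : σ ∈ H := by
        rw [hHF]
        apply CL.centralizer_fittingSubgroup_le G
        rw [← hHF]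
        intro h hh
        have : h ∈ C := hCH.symm ▸ hh
        exact (this.2 σ (Subgroup.mem_zpowers σ)).symm
      have hd := Subgroup.orderOf_dvd_natCard H this
      rw [hσ5, h32] at hd
      norm_num at hd
  have hT2 : T * T = 1 := by rw [← pow_two, ← hT]; exact pow_orderOf_eq_one T
  have hk : ∀ c ∈ H ⊓ Subgroup.centralizer ({T} : Set G), c * c = 1 := fun c hc =>
    key hZc hZsq hcomm hsq hT2 hσp hi hC hc.1 (hc.2 T rfl)
  have hE : Cfsg.IsElementaryAbelian 2 (H ⊓ Subgroup.centralizer ({T} : Set G)) := by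
    refine ⟨⟨⟨fun a b => Subtype.ext ?_⟩⟩, fun a ha => by rw [pow_two]; exact hk a ha⟩
    have h1 := hk _ a.2
    have h2 := hk _ b.2
    have h3 := hk _ (a * b).2
    show (a : G) * b = b * a
    have h3' : (a : G) * b * (a * b) = 1 := h3
    have i1 : (a : G)⁻¹ = a := inv_eq_of_mul_eq_one_right h1
    have i2 : (b : G)⁻¹ = b := inv_eq_of_mul_eq_one_right h2
    have i3 : ((a : G) * b)⁻¹ = a * b := inv_eq_of_mul_eq_one_right h3'
    rw [← i3, mul_inv_rev, i1, i2]
  refine ⟨le_antisymm (hminus _ inf_le_left hE) ?_, hE⟩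
  rw [← hV4]
  exact Subgroup.card_le_of_le hV

end Cfsg.Agent.S4405
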