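import Mathlib
import Cfsg.Statements.S4406

set_option autoImplicit false
open Cfsg

namespace Cfsg.Agent.S4406

abbrev A4 := ↥(alternatingGroup (Fin 4))

theorem l1 : ∀ a : A4, a ^ 2 = 1 ∨ a ^ 3 = 1 := by decide +kernel

set_option synthInstance.maxSize 2000 in
theorem l2 : ∀ a u : A4, a ^ 3 = 1 → a ≠ 1 → u ^ 2 = 1 → u ≠ 1 →
    (a * u * a⁻¹ ≠ u ∧ a * (a * u * a⁻¹) * a⁻¹ = u * (a * u * a⁻¹) ∧
      ∀ w : A4, w ^ 2 = 1 → (w = 1 ∨ w = u ∨ w = a * u * a⁻¹ ∨ w = u * (a * u * a⁻¹))) := by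
  decide +kernel

set_option synthInstance.maxSize 2000 in
theorem l3 : ∀ b v w : A4, b ^ 3 = 1 → b ≠ 1 → v ^ 2 = 1 → v ≠ 1 → w ^ 2 = 1 → w ≠ 1 → w ≠ v →
    (w = b * v * b⁻¹ ∨ w = b⁻¹ * v * b⁻¹⁻¹) := by decide +kernel

theorem l4 : Fintype.card {u : A4 // u ^ 2 = 1} = 4 := by decide +kernel

theorem l5 : ∃ u : A4, u ^ 2 = 1 ∧ u ≠ 1 := by decide +kernel

theorem card_A4 : Nat.card A4 = 12 := by
  rw [Nat.card_eq_fintype_card]; decide +kernel

theorem sq_of_two_pow (a : A4) (k : ℕ) (h : a ^ 2 ^ k = 1) : a ^ 2 = 1 := by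
  rcases l1 a with h2 | h3
  · exact h2
  · have h4 : orderOf a ∣ Nat.gcd (2 ^ k) 3 :=
      Nat.dvd_gcd (orderOf_dvd_of_pow_eq_one h) (orderOf_dvd_of_pow_eq_one h3)
    have h5 : Nat.Coprime (2 ^ k) 3 := Nat.Coprime.pow_left k (by norm_num)
    rw [h5, Nat.dvd_one, orderOf_eq_one_iff] at h4
    rw [h4, one_pow]

theorem cube_of_three_pow (a : A4) (k : ℕ) (h : a ^ 3 ^ k = 1) : a ^ 3 = 1 := by
  rcases l1 a with h2 | h3
  · have h4 : orderOf a ∣ Nat.gcd (3 ^ k) 2 :=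
      Nat.dvd_gcd (orderOf_dvd_of_pow_eq_one h) (orderOf_dvd_of_pow_eq_one h2)
    have h5 : Nat.Coprime (3 ^ k) 2 := Nat.Coprime.pow_left k (by norm_num)
    rw [h5, Nat.dvd_one, orderOf_eq_one_iff] at h4
    rw [h4, one_pow]
  · exact h3

theorem exists_gen (S : Sylow 3 A4) : ∃ a ∈ (S : Subgroup A4), a ^ 3 = 1 ∧ a ≠ 1 := by
  have h := S.ne_bot_of_dvd_card (by rw [card_A4]; norm_num)
  obtain ⟨⟨a, ha⟩, ha1⟩ := (Subgroup.ne_bot_iff_exists_ne_one).1 h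
  obtain ⟨k, hk⟩ := S.isPGroup' ⟨a, ha⟩
  exact ⟨a, ha, cube_of_three_pow a k (congrArg Subtype.val hk),
    fun h1 => ha1 (Subtype.ext h1)⟩


/-- In the direct product P = A₄ × A₄, let X be the Sylow 2-subgroup, X₁ and X₂ its intersections with the two direct factors, Q a Sylow 3-subgroup and Q₁, Q₂ its intersections with the two factors. Then every subgroup B of X of order 4 either meets X₁ or X₂ nontrivially, or is normalized by one of the two subgroups of Q of order 3 other than Q₁ and Q₂. -/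
theorem result
    (X : Sylow 2 (↥(alternatingGroup (Fin 4)) × ↥(alternatingGroup (Fin 4))))
    (Q : Sylow 3 (↥(alternatingGroup (Fin 4)) × ↥(alternatingGroup (Fin 4))))
    (B : Subgroup (↥(alternatingGroup (Fin 4)) × ↥(alternatingGroup (Fin 4)))) (hBX : B ≤ (X : Subgroup _)) (hB4 : Nat.card ↥B = 4) :
    B ⊓ ((X : Subgroup _) ⊓ Subgroup.prod ⊤ ⊥) ≠ ⊥ ∨ B ⊓ ((X : Subgroup _) ⊓ Subgroup.prod ⊥ ⊤) ≠ ⊥ ∨
      ∃ R : Subgroup (↥(alternatingGroup (Fin 4)) × ↥(alternatingGroup (Fin 4))), R ≤ (Q : Subgroup _) ∧ Nat.card ↥R = 3 ∧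
        R ≠ (Q : Subgroup _) ⊓ Subgroup.prod ⊤ ⊥ ∧ R ≠ (Q : Subgroup _) ⊓ Subgroup.prod ⊥ ⊤ ∧ R ≤ Subgroup.normalizer (B : Set _) := by
  by_contra hcon
  simp only [not_or, not_not, not_exists, not_and] at hcon
  obtain ⟨h1, h2, h3⟩ := hcon
  have hsq : ∀ x ∈ B, x.1 ^ 2 = 1 ∧ x.2 ^ 2 = 1 := by
    intro x hx
    obtain ⟨k, hk⟩ := X.isPGroup' ⟨x, hBX hx⟩
    have hk' : x ^ 2 ^ k = 1 := congrArg Subtype.val hk
    exact ⟨sq_of_two_pow _ k (congrArg Prod.fst hk'), sq_of_two_pow _ k (congrArg Prod.snd hk')⟩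
  have hi1 : ∀ x ∈ B, x.1 = 1 → x = 1 := by
    intro x hx h
    have : x ∈ B ⊓ ((X : Subgroup _) ⊓ Subgroup.prod ⊥ ⊤) :=
      ⟨hx, hBX hx, Subgroup.mem_prod.2 ⟨h, trivial⟩⟩
    rw [h2] at this
    exact this
  have hi2 : ∀ x ∈ B, x.2 = 1 → x = 1 := by
    intro x hx h
    have : x ∈ B ⊓ ((X : Subgroup _) ⊓ Subgroup.prod ⊤ ⊥) :=
      ⟨hx, hBX hx, Subgroup.mem_prod.2 ⟨trivial, h⟩⟩
    rw [h1] at this
    exact this
  have hj1 : ∀ x ∈ B, ∀ y ∈ B, x.1 = y.1 → x = y := by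
    intro x hx y hy h
    have := hi1 (x⁻¹ * y) (B.mul_mem (B.inv_mem hx) hy) (by simp [h])
    exact inv_mul_eq_one.1 this
  have hj2 : ∀ x ∈ B, ∀ y ∈ B, x.2 = y.2 → x = y := by
    intro x hx y hy h
    have := hi2 (x⁻¹ * y) (B.mul_mem (B.inv_mem hx) hy) (by simp [h])
    exact inv_mul_eq_one.1 this
  have hsurj : ∀ u : A4, u ^ 2 = 1 → ∃ v : A4, (u, v) ∈ B := by
    let f : B → {u : A4 // u ^ 2 = 1} := fun x => ⟨x.1.1, (hsq x.1 x.2).1⟩
    have hf : Function.Injective f := fun x y h =>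
      Subtype.ext (hj1 _ x.2 _ y.2 (congrArg Subtype.val h))
    have hb : Function.Bijective f :=
      (Nat.bijective_iff_injective_and_card f).2 ⟨hf, by rw [hB4, Nat.card_eq_fintype_card, l4]⟩
    intro u hu
    obtain ⟨x, hx⟩ := hb.2 ⟨u, hu⟩
    have : x.1.1 = u := congrArg Subtype.val hx
    exact ⟨x.1.2, this ▸ x.2⟩
  -- the Sylow 3-subgroup is the product of its projections
  have : Fact (Nat.Prime 3) := ⟨Nat.prime_three⟩
  let Q1 : Sylow 3 A4 := Q.mapSurjective (f := MonoidHom.fst A4 A4) Prod.fst_surjective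
  let Q2 : Sylow 3 A4 := Q.mapSurjective (f := MonoidHom.snd A4 A4) Prod.snd_surjective
  have hprod : (Q1 : Subgroup A4).prod (Q2 : Subgroup A4) = Q := by
    apply Q.is_maximal'
    · rintro ⟨x, hx⟩
      obtain ⟨k, hk⟩ := Q1.isPGroup' ⟨x.1, (Subgroup.mem_prod.1 hx).1⟩
      obtain ⟨l, hl⟩ := Q2.isPGroup' ⟨x.2, (Subgroup.mem_prod.1 hx).2⟩
      refine ⟨1, Subtype.ext (Prod.ext ?_ ?_)⟩
      · exact cube_of_three_pow _ k (congrArg Subtype.val hk)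
      · exact cube_of_three_pow _ l (congrArg Subtype.val hl)
    · intro x hx
      exact Subgroup.mem_prod.2 ⟨⟨x, hx, rfl⟩, ⟨x, hx, rfl⟩⟩
  obtain ⟨a, haQ, ha3, ha1⟩ := exists_gen Q1
  obtain ⟨b, hbQ, hb3, hb1⟩ := exists_gen Q2
  obtain ⟨u, hu2, hu1⟩ := l5
  obtain ⟨v, hv⟩ := hsurj u hu2
  obtain ⟨e1, e2, e3⟩ := l2 a u ha3 ha1 hu2 hu1
  obtain ⟨w, hw⟩ := hsurj (a * u * a⁻¹) (by rw [conj_pow, hu2]; simp)
  have hv1 : v ≠ 1 := fun h => hu1 (congrArg Prod.fst (hi2 _ hv h))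
  have hw1 : w ≠ 1 := fun h => hu1 (by simpa using congrArg Prod.fst (hi2 _ hw h))
  have hwv : w ≠ v := fun h => e1 (congrArg Prod.fst (hj2 _ hw _ hv h))
  have key : ∀ c : A4, c ∈ (Q2 : Subgroup A4) → c ^ 3 = 1 → c ≠ 1 → w = c * v * c⁻¹ → False := by
    intro c hcQ hc3 hc1 hwc
    obtain ⟨f1, f2, -⟩ := l2 c v hc3 hc1 (hsq _ hv).2 hv1
    have hac : ((a, c) : A4 × A4) ∈ (Q : Subgroup _) := by
      rw [← hprod]; exact Subgroup.mem_prod.2 ⟨haQ, hcQ⟩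
    refine h3 (Subgroup.zpowers (a, c)) (Subgroup.zpowers_le.2 hac) ?_ ?_ ?_ ?_
    · rw [Nat.card_zpowers]
      apply orderOf_eq_prime
      · exact Prod.ext ha3 hc3
      · exact fun h => ha1 (congrArg Prod.fst h)
    · intro h
      have := Subgroup.mem_zpowers ((a, c) : A4 × A4)
      rw [h] at this
      exact hc1 (Subgroup.mem_prod.1 this.2).2
    · intro h
      have := Subgroup.mem_zpowers ((a, c) : A4 × A4)
      rw [h] at this
      exact ha1 (Subgroup.mem_prod.1 this.2).1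
    · rw [Subgroup.zpowers_le]
      apply Subgroup.mem_normalizer_fintype
      have g1 : ((a, c) : A4 × A4) * (u, v) * (a, c)⁻¹ ∈ B := by
        rw [hwc] at hw; exact hw
      have g2 : ((a, c) : A4 × A4) * (a * u * a⁻¹, w) * (a, c)⁻¹ ∈ B := by
        have := B.mul_mem hv hw
        rw [Prod.mk_mul_mk, ← e2, hwc, ← f2] at this
        rw [hwc]
        exact this
      intro x hx
      rcases e3 x.1 (hsq x hx).1 with h | h | h | h
      · rw [hi1 x hx h, mul_one, mul_inv_cancel]; exact B.one_mem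
      · rw [hj1 x hx _ hv h]; exact g1
      · rw [hj1 x hx _ hw h]; exact g2
      · rw [hj1 x hx _ (B.mul_mem hv hw) h]
        have := B.mul_mem g1 g2
        have e : ∀ g y z : A4 × A4, g * (y * z) * g⁻¹ = g * y * g⁻¹ * (g * z * g⁻¹) := by
          intro g y z; group
        rw [e]
        exact this
  rcases l3 b v w hb3 hb1 (hsq _ hv).2 hv1 (hsq _ hw).2 hw1 hwv with h | h
  · exact key b hbQ hb3 hb1 h
  · exact key b⁻¹ ((Q2 : Subgroup A4).inv_mem hbQ) (by rw [inv_pow, hb3, inv_one])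
      (inv_ne_one.2 hb1) h

end Cfsg.Agent.S4406
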