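import Cfsg.Statements.S4407
import Cfsg.Agent.SOLV.Fitting

set_option autoImplicit false
open Cfsg

namespace Cfsg.Agent.S4407

open DihedralGroup

theorem core {S : Type*} [Group S] {M : Type*} [AddCommGroup M] [Module (ZMod 2) M] [Finite M]
    (ρ : Representation (ZMod 2) S M) (s t z x y : S)
    (ht : t * t = 1) (hzt : z * t = t * z) (hst : s * t = t * s * z) (hzs : z * s = s * z)
    (hs : s * s = 1) (hz : z * z = 1)
    (hx3 : x * x * x = 1) (hxy : x * y = y * x) (hty : t * x = y * t)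
    (hsx : s * x = x * s) (hzx : z * x = x * x * z)
    (hC : ∀ m, ρ x m = m → ρ y m = m → m = 0) (hx : ∃ m, m ≠ 0 ∧ ρ x m = m)
    (hirr : ∀ N : Submodule (ZMod 2) M, (∀ m ∈ N, ρ x m ∈ N) → (∀ m ∈ N, ρ s m ∈ N) →
      (∀ m ∈ N, ρ t m ∈ N) → N = ⊥ ∨ N = ⊤) :
    Nat.card M = 16 ∧ Nat.card {m : M // ρ z m = m ∧ ρ t m = m} = 2 ∧
      Nat.card {m : M // ρ z m = m ∧ ρ s m = m} ≠ 2 := by
  have h2 : ∀ v : M, v + v = 0 := fun v => by
    rw [← two_smul (ZMod 2), show (2 : ZMod 2) = 0 from rfl, zero_smul]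
  have hneg : ∀ v : M, -v = v := fun v => neg_eq_of_add_eq_zero_right (h2 v)
  have ap : ∀ {a b c d : S}, a * b = c * d → ∀ m, ρ a (ρ b m) = ρ c (ρ d m) := by
    intro a b c d h m
    rw [← Module.End.mul_apply, ← map_mul, h, map_mul, Module.End.mul_apply]
  have ap1 : ∀ {a b : S}, a * b = 1 → ∀ m, ρ a (ρ b m) = m := by
    intro a b h m
    rw [← Module.End.mul_apply, ← map_mul, h, map_one, Module.End.one_apply]
  have mulap : ∀ (a b : S) m, ρ (a * b) m = ρ a (ρ b m) := by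
    intro a b m; rw [map_mul, Module.End.mul_apply]
  have hti : t⁻¹ = t := inv_eq_of_mul_eq_one_right ht
  have hy : y = t * x * t := by rw [hty, mul_assoc, ht, mul_one]
  have htx : t * y = x * t := by rw [hy, ← mul_assoc, ← mul_assoc, ht, one_mul]
  have hy3 : y * y * y = 1 := by
    calc y * y * y = t * x * (t * t) * x * (t * t) * x * t := by rw [hy]; simp only [mul_assoc, mul_one, one_mul]
      _ = t * (x * x * x) * t := by rw [ht]; simp only [mul_assoc, mul_one, one_mul]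
      _ = 1 := by rw [hx3, mul_one, ht]
  have hzy : z * y = y * y * z := by
    calc z * y = t * (z * x) * t := by rw [hy, ← mul_assoc, ← mul_assoc, hzt]; simp only [mul_assoc, mul_one, one_mul]
      _ = t * x * (t * t) * x * (z * t) := by rw [hzx, ht]; simp only [mul_assoc, mul_one, one_mul]
      _ = y * y * z := by rw [hzt, hy]; simp only [mul_assoc, mul_one, one_mul]
  have hsy : s * y = y * y * s := by
    calc s * y = (s * t) * x * t := by rw [hy]; simp only [mul_assoc, mul_one, one_mul]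
      _ = t * s * (z * x) * t := by rw [hst]; simp only [mul_assoc, mul_one, one_mul]
      _ = t * (s * x) * x * z * t := by rw [hzx]; simp only [mul_assoc, mul_one, one_mul]
      _ = t * x * (s * x) * z * t := by
        conv_lhs => rw [hsx]
        simp only [mul_assoc]
      _ = t * x * x * s * (z * t) := by rw [hsx]; simp only [mul_assoc, mul_one, one_mul]
      _ = t * x * x * (s * t) * z := by rw [hzt]; simp only [mul_assoc, mul_one, one_mul]
      _ = t * x * x * t * s * (z * z) := by rw [hst]; simp only [mul_assoc, mul_one, one_mul]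
      _ = t * x * (t * t) * x * t * s := by rw [hz, ht]; simp only [mul_assoc, mul_one, one_mul]
      _ = y * y * s := by rw [hy]; simp only [mul_assoc, mul_one, one_mul]
  -- a vector fixed by x, s, z
  obtain ⟨v, hv0, hvx, hvs, hvz⟩ : ∃ v, v ≠ 0 ∧ ρ x v = v ∧ ρ s v = v ∧ ρ z v = v := by
    obtain ⟨w, hw0, hw⟩ := hx
    obtain ⟨w, hw0, hw, hws⟩ : ∃ v, v ≠ 0 ∧ ρ x v = v ∧ ρ s v = v := by
      by_cases h : ρ s w = w
      · exact ⟨w, hw0, hw, h⟩
      · refine ⟨w + ρ s w, fun e => h ?_, ?_, ?_⟩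
        · rw [← hneg w]; rw [hneg w, eq_neg_of_add_eq_zero_right e, hneg]
        · rw [map_add, ← ap hsx, hw]
        · rw [map_add, ap1 hs, add_comm]
    by_cases h : ρ z w = w
    · exact ⟨w, hw0, hw, hws, h⟩
    · refine ⟨w + ρ z w, fun e => h ?_, ?_, ?_, ?_⟩
      · rw [eq_neg_of_add_eq_zero_right e, hneg]
      · have e : x * z = z * (x * x) := by
          calc x * z = (x * x * x) * x * z := by rw [hx3, one_mul]
            _ = x * x * (x * x * z) := by group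
            _ = x * x * (z * x) := by rw [hzx]
            _ = (x * x * z) * x := by simp only [mul_assoc]
            _ = z * (x * x) := by rw [← hzx, mul_assoc]
        rw [map_add, ap e, mulap, hw, hw]
      · rw [map_add, ← ap hzs, hws]
      · rw [map_add, ap1 hz, add_comm]
  have hyy : ∀ m, ρ x m = m → ρ y (ρ y m) = m + ρ y m := by
    intro m hm
    have h1 : ρ x (ρ y m) = ρ y m := by rw [ap hxy, hm]
    have h3 : ρ x (ρ y (ρ y m)) = ρ y (ρ y m) := by rw [ap hxy, h1]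
    have h4 : ρ y (ρ y (ρ y m)) = m := by
      rw [← mulap, ← mulap, hy3, map_one, Module.End.one_apply]
    have := hC (m + ρ y m + ρ y (ρ y m)) (by rw [map_add, map_add, hm, h1, h3])
      (by rw [map_add, map_add, h4]; abel)
    rw [eq_neg_of_add_eq_zero_right this, hneg]
  set w := ρ t v with hw
  have htw : ρ t w = v := ap1 ht v
  have hyw : ρ y w = w := by rw [hw, ← ap hty, hvx]
  have htyv : ρ t (ρ y v) = ρ x w := ap htx v
  have htxw : ρ t (ρ x w) = ρ y v := by rw [← htyv, ap1 ht]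
  have hyyv := hyy v hvx
  have hxxw : ρ x (ρ x w) = w + ρ x w := by
    have := congrArg (ρ t) hyyv
    rwa [ap htx, htyv.symm.symm, map_add, htyv] at this
  have hxyv : ρ x (ρ y v) = ρ y v := by rw [ap hxy, hvx]
  have hyxw : ρ y (ρ x w) = ρ x w := by rw [← ap hxy, hyw]
  have hzw : ρ z w = w := by rw [hw, ap hzt, hvz]
  have hsw : ρ s w = w := by rw [hw, ap hst, hvz, mulap, hvs]
  have hzyv : ρ z (ρ y v) = v + ρ y v := by rw [ap hzy, hvz, mulap, hyyv]
  have hsyv : ρ s (ρ y v) = v + ρ y v := by rw [ap hsy, hvs, mulap, hyyv]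
  have hzxw : ρ z (ρ x w) = w + ρ x w := by rw [ap hzx, hzw, mulap, hxxw]
  have hsxw : ρ s (ρ x w) = ρ x w := by rw [ap hsx, hsw]
  let L : (Fin 4 → ZMod 2) →ₗ[ZMod 2] M := Fintype.linearCombination (ZMod 2) ![v, ρ y v, w, ρ x w]
  have hL : ∀ c, L c = c 0 • v + c 1 • ρ y v + c 2 • w + c 3 • ρ x w := by
    intro c
    simp [L, Fintype.linearCombination_apply, Fin.sum_univ_four]
  have hind : ∀ a b : ZMod 2, a • v + b • ρ y v = 0 → a = 0 ∧ b = 0 := by
    have hyv0 : ρ y v ≠ 0 := fun e => hv0 (by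
      have := hyyv; rw [e, map_zero, add_zero] at this; exact this.symm)
    have hyv1 : v + ρ y v ≠ 0 := fun e => hv0 (hC v hvx (by
      rw [eq_neg_of_add_eq_zero_right e, hneg]))
    intro a b h
    have hz2 : ∀ c : ZMod 2, c = 0 ∨ c = 1 := by decide
    rcases hz2 a with rfl | rfl <;> rcases hz2 b with rfl | rfl
    · exact ⟨rfl, rfl⟩
    · exact absurd (by simpa using h) hyv0
    · exact absurd (by simpa using h) hv0
    · exact absurd (by simpa using h) hyv1
  have hLi : Function.Injective L := by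
    rw [injective_iff_map_eq_zero]
    intro c hc
    rw [hL, add_assoc] at hc
    have h1 : c 0 • v + c 1 • ρ y v = c 2 • w + c 3 • ρ x w := by
      rw [eq_neg_of_add_eq_zero_left hc, hneg]
    have h3 : c 0 • v + c 1 • ρ y v = 0 := hC _ (by simp [hvx, hxyv]) (by rw [h1]; simp [hyw, hyxw])
    have h4 : c 2 • v + c 3 • ρ y v = 0 := by
      have := congrArg (ρ t) (h1.symm.trans h3)
      simpa [htw, htxw] using this
    obtain ⟨e0, e1⟩ := hind _ _ h3
    obtain ⟨e2, e3⟩ := hind _ _ h4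
    funext i
    fin_cases i <;> simp [e0, e1, e2, e3]
  have hLs : Function.Surjective L := by
    rw [← LinearMap.range_eq_top]
    refine (hirr _ ?_ ?_ ?_).resolve_left ?_
    · rintro _ ⟨c, rfl⟩
      refine ⟨![c 0, c 1, c 3, c 2 + c 3], ?_⟩
      simp [hL, hvx, hxyv, hxxw, add_smul]; abel
    · rintro _ ⟨c, rfl⟩
      refine ⟨![c 0 + c 1, c 1, c 2, c 3], ?_⟩
      simp [hL, hvs, hsyv, hsw, hsxw, add_smul]; abel
    · rintro _ ⟨c, rfl⟩
      refine ⟨![c 2, c 3, c 0, c 1], ?_⟩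
      simp [hL, ← hw, htw, htyv, htxw]; abel
    · intro h
      have : v ∈ LinearMap.range L := ⟨![1, 0, 0, 0], by simp [hL]⟩
      rw [h, Submodule.mem_bot] at this
      exact hv0 this
  have hzL : ∀ c, ρ z (L c) = L ![c 0 + c 1, c 1, c 2 + c 3, c 3] := by
    intro c; simp [hL, hvz, hzyv, hzw, hzxw, add_smul]; abel
  have htL : ∀ c, ρ t (L c) = L ![c 2, c 3, c 0, c 1] := by
    intro c; simp [hL, ← hw, htw, htyv, htxw]; abel
  have hsL : ∀ c, ρ s (L c) = L ![c 0 + c 1, c 1, c 2, c 3] := by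
    intro c; simp [hL, hvs, hsyv, hsw, hsxw, add_smul]; abel
  let e := Equiv.ofBijective L ⟨hLi, hLs⟩
  refine ⟨?_, ?_, ?_⟩
  · rw [← Nat.card_congr e]; simp
  · rw [← Nat.card_congr (Equiv.subtypeEquiv (p := fun c : Fin 4 → ZMod 2 =>
      ![c 0 + c 1, c 1, c 2 + c 3, c 3] = c ∧ ![c 2, c 3, c 0, c 1] = c) e (fun c => by
        change _ ↔ ρ z (L c) = L c ∧ ρ t (L c) = L c
        rw [hzL, htL, hLi.eq_iff, hLi.eq_iff])), Nat.card_eq_fintype_card]
    decide
  · rw [← Nat.card_congr (Equiv.subtypeEquiv (p := fun c : Fin 4 → ZMod 2 =>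
      ![c 0 + c 1, c 1, c 2 + c 3, c 3] = c ∧ ![c 0 + c 1, c 1, c 2, c 3] = c) e (fun c => by
        change _ ↔ ρ z (L c) = L c ∧ ρ s (L c) = L c
        rw [hzL, hsL, hLi.eq_iff, hLi.eq_iff])), Nat.card_eq_fintype_card]
    decide


theorem gen9 {S : Type*} [Group S] [Finite S] {A : Subgroup S} (hA : Cfsg.IsElementaryAbelian 3 A)
    (hA9 : Nat.card A = 9) {a b : S} (ha : a ∈ A) (hb : b ∈ A) (ha1 : a ≠ 1)
    (hab : ∀ i : ℕ, b ≠ a ^ i) : ∀ g ∈ A, ∃ i j : ℕ, g = a ^ i * b ^ j := by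
  have hcomm : ∀ x ∈ A, ∀ y ∈ A, x * y = y * x := fun x hx y hy =>
    congrArg Subtype.val (hA.1.is_comm.comm (⟨x, hx⟩ : A) ⟨y, hy⟩)
  have hc : Commute a b := hcomm a ha b hb
  have inv3 : ∀ x ∈ A, x⁻¹ = x ^ 2 := fun x hx => by
    rw [inv_eq_iff_mul_eq_one, ← pow_succ']; exact hA.2 x hx
  let K : Subgroup S :=
    { carrier := {g | ∃ i j : ℕ, g = a ^ i * b ^ j}
      one_mem' := ⟨0, 0, by simp⟩
      mul_mem' := by
        rintro _ _ ⟨i, j, rfl⟩ ⟨i', j', rfl⟩
        refine ⟨i + i', j + j', ?_⟩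
        rw [pow_add, pow_add, (hc.pow_pow i' j).symm.mul_mul_mul_comm]
      inv_mem' := by
        rintro _ ⟨i, j, rfl⟩
        refine ⟨2 * i, 2 * j, ?_⟩
        rw [mul_inv_rev, ← inv_pow, ← inv_pow, inv3 a ha, inv3 b hb, ← pow_mul, ← pow_mul,
          (hc.pow_pow _ _).eq] }
  have hKA : K ≤ A := by
    rintro _ ⟨i, j, rfl⟩
    exact A.mul_mem (A.pow_mem ha i) (A.pow_mem hb j)
  have ho : orderOf a = 3 := orderOf_eq_prime (hA.2 a ha) ha1
  have hlt : Subgroup.zpowers a < K := by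
    refine lt_of_le_of_ne (by rw [Subgroup.zpowers_le]; exact ⟨1, 0, by simp⟩) fun h => ?_
    have : b ∈ Subgroup.zpowers a := h ▸ ⟨0, 1, by simp⟩
    rw [← mem_powers_iff_mem_zpowers] at this
    obtain ⟨i, hi⟩ := this
    exact hab i hi.symm
  have h1 : Nat.card K ∣ 3 ^ 2 := by
    have := Subgroup.card_dvd_of_le hKA
    rwa [hA9] at this
  have h2 : 3 < Nat.card K := by
    rw [← ho, ← Nat.card_zpowers]
    refine lt_of_le_of_ne (Subgroup.card_le_of_le hlt.le) fun h => hlt.ne ?_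
    exact Subgroup.eq_of_le_of_card_ge hlt.le h.ge
  obtain ⟨k, hk, hk'⟩ := (Nat.dvd_prime_pow Nat.prime_three).mp h1
  have : K = A := by
    apply Subgroup.eq_of_le_of_card_ge hKA
    interval_cases k <;> omega
  intro g hg
  exact (this ▸ hg : g ∈ K)

def four (σ : DihedralGroup 4) (h : ∀ a ∈ ({1, r 2, σ, σ * r 2} : Finset (DihedralGroup 4)),
    a⁻¹ = a ∧ ∀ b ∈ ({1, r 2, σ, σ * r 2} : Finset (DihedralGroup 4)),
      a * b ∈ ({1, r 2, σ, σ * r 2} : Finset (DihedralGroup 4))) : Subgroup (DihedralGroup 4) where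
  carrier := ({1, r 2, σ, σ * r 2} : Finset (DihedralGroup 4))
  one_mem' := by simp
  mul_mem' := fun {a b} ha hb => (h a ha).2 b hb
  inv_mem' := fun {a} ha => by rw [(h a ha).1]; exact ha

theorem final {S : Type*} [Group S] [Finite S] (X : Subgroup S) (ψ : DihedralGroup 4 →* S)
    (hψ : Function.Injective ψ) (hX : ψ.range = X) {M : Type*} [AddCommGroup M]
    [Module (ZMod 2) M] (ρ : Representation (ZMod 2) S M) (σ τ : DihedralGroup 4)
    (hτ : ∀ a ∈ ({1, r 2, τ, τ * r 2} : Finset (DihedralGroup 4)),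
      a⁻¹ = a ∧ ∀ b ∈ ({1, r 2, τ, τ * r 2} : Finset (DihedralGroup 4)),
        a * b ∈ ({1, r 2, τ, τ * r 2} : Finset (DihedralGroup 4)))
    (hσ : ∀ a ∈ ({1, r 2, σ, σ * r 2} : Finset (DihedralGroup 4)),
      a⁻¹ = a ∧ ∀ b ∈ ({1, r 2, σ, σ * r 2} : Finset (DihedralGroup 4)),
        a * b ∈ ({1, r 2, σ, σ * r 2} : Finset (DihedralGroup 4)))
    (hτ4 : ({1, r 2, τ, τ * r 2} : Finset (DihedralGroup 4)).card = 4)
    (hσ4 : ({1, r 2, σ, σ * r 2} : Finset (DihedralGroup 4)).card = 4)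
    (hall : ∀ a b : DihedralGroup 4, a ^ 2 = 1 → b ^ 2 = 1 → (a * b) ^ 2 = 1 →
      a ∈ ({1, r 2, σ, σ * r 2} : Finset (DihedralGroup 4)) ∨
      b ∈ ({1, r 2, τ, τ * r 2} : Finset (DihedralGroup 4)))
    (h1 : Nat.card {m : M // ρ (ψ (r 2)) m = m ∧ ρ (ψ τ) m = m} = 2)
    (h2 : Nat.card {m : M // ρ (ψ (r 2)) m = m ∧ ρ (ψ σ) m = m} ≠ 2) :
    ∃! B : Subgroup S, B ≤ X ∧ Nat.card ↥B = 4 ∧ (∀ b ∈ B, b ^ 2 = 1) ∧
        Nat.card {m : M // ∀ b ∈ B, ρ b m = m} = 2 := by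
  have hfix : ∀ σ hσ, Nat.card {m : M // ∀ b ∈ (four σ hσ).map ψ, ρ b m = m} =
      Nat.card {m : M // ρ (ψ (r 2)) m = m ∧ ρ (ψ σ) m = m} := by
    intro σ hσ
    refine Nat.card_congr (Equiv.subtypeEquivRight fun m => ⟨fun h => ⟨h _ ⟨_, ?_, rfl⟩,
      h _ ⟨_, ?_, rfl⟩⟩, ?_⟩)
    · simp [four]
    · simp [four]
    · rintro ⟨e1, e2⟩ _ ⟨d, hd, rfl⟩
      simp only [four, Subgroup.coe_set_mk, Submonoid.coe_set_mk, Subsemigroup.coe_set_mk,
        Finset.coe_insert, Finset.coe_singleton, Set.mem_insert_iff, Set.mem_singleton_iff] at hd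
      rcases hd with rfl | rfl | rfl | rfl
      · simp
      · exact e1
      · exact e2
      · rw [map_mul, map_mul, Module.End.mul_apply, e1, e2]
  have hcard : ∀ σ hσ, ({1, r 2, σ, σ * r 2} : Finset (DihedralGroup 4)).card = 4 →
      Nat.card ((four σ hσ).map ψ) = 4 := by
    intro σ hσ h
    rw [Subgroup.card_map_of_injective hψ]
    exact (Nat.card_eq_finsetCard _).trans h
  refine ⟨(four τ hτ).map ψ, ⟨hX ▸ Subgroup.map_le_range _ _, hcard τ hτ hτ4, ?_, ?_⟩, ?_⟩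
  · rintro _ ⟨d, hd, rfl⟩
    rw [← map_pow, pow_two]
    nth_rewrite 1 [← (hτ d hd).1]
    simp
  · rw [hfix, h1]
  · rintro B ⟨hBX, hB4, hB2, hBc⟩
    by_cases h : B ≤ (four τ hτ).map ψ
    · exact Subgroup.eq_of_le_of_card_ge h (by rw [hB4, hcard τ hτ hτ4])
    exfalso
    obtain ⟨b, hb, hbn⟩ := SetLike.not_le_iff_exists.mp h
    obtain ⟨b, rfl⟩ : b ∈ ψ.range := hX ▸ hBX hb
    have hle : B ≤ (four σ hσ).map ψ := by
      intro a ha
      obtain ⟨a, rfl⟩ : a ∈ ψ.range := hX ▸ hBX ha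
      have sq : ∀ d, ψ d ∈ B → d ^ 2 = 1 := fun d hd => hψ (by rw [map_pow, hB2 _ hd, map_one])
      rcases hall a b (sq a ha) (sq b hb) (sq _ (by rw [map_mul]; exact B.mul_mem ha hb)) with e | e
      · exact ⟨a, e, rfl⟩
      · exact absurd ⟨b, e, rfl⟩ hbn
    have := Subgroup.eq_of_le_of_card_ge hle (by rw [hB4, hcard σ hσ hσ4])
    rw [this, hfix] at hBc
    exact h2 hBc

/-- Let S be a finite group with a normal elementary abelian subgroup A of order 9 that is self-centralizing (C_S(A) = A), and a dihedral subgroup X of order 8 with S = AX. Let M be a finite-dimensional module for S over the field with two elements that is faithful and irreducible. Then M has 16 elements, and X contains exactly one subgroup B of order 4 and exponent 2 whose fixed points on M form a subspace with exactly 2 elements (equivalently, M is free of rank one over the group algebra of B). -/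
theorem result {S : Type*} [Group S] [Finite S]
    (A : Subgroup S) [A.Normal] (hA : Cfsg.IsElementaryAbelian 3 A) (hA9 : Nat.card ↥A = 9)
    (hAC : Subgroup.centralizer (A : Set S) = A) (X : Subgroup S) (hX : Nonempty (↥X ≃* DihedralGroup 4)) (hAX : A ⊔ X = ⊤)
    {M : Type*} [AddCommGroup M] [Module (ZMod 2) M] [Finite M] (ρ : Representation (ZMod 2) S M)
    (hfaith : Function.Injective ρ)
    (hirr : ∀ N : Submodule (ZMod 2) M, (∀ s : S, ∀ m ∈ N, ρ s m ∈ N) → N = ⊥ ∨ N = ⊤) (hM : Nontrivial M) :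
    Nat.card M = 16 ∧
      ∃! B : Subgroup S, B ≤ X ∧ Nat.card ↥B = 4 ∧ (∀ b ∈ B, b ^ 2 = 1) ∧
        Nat.card {m : M // ∀ b ∈ B, ρ b m = m} = 2 := by
  classical
  obtain ⟨φ⟩ := hX
  let ψ : DihedralGroup 4 →* S := X.subtype.comp φ.symm.toMonoidHom
  have hψ : Function.Injective ψ := X.subtype_injective.comp φ.symm.injective
  have hrange : ψ.range = X := by
    ext g
    constructor
    · rintro ⟨d, rfl⟩; exact (φ.symm d).2
    · intro hg; exact ⟨φ ⟨g, hg⟩, by simp [ψ]⟩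
  have hcomm : ∀ x ∈ A, ∀ y ∈ A, x * y = y * x := fun x hx y hy =>
    congrArg Subtype.val (hA.1.is_comm.comm (⟨x, hx⟩ : A) ⟨y, hy⟩)
  have inv3 : ∀ x ∈ A, x⁻¹ = x * x := fun x hx => by
    rw [inv_eq_iff_mul_eq_one, ← pow_two, ← pow_succ']; exact hA.2 x hx
  have cube : ∀ x ∈ A, x * x * x = 1 := fun x hx => by
    rw [← inv3 x hx, inv_mul_cancel]
  have sq1 : ∀ x ∈ A, x⁻¹ = x → x = 1 := fun x hx h => by
    rw [inv3 x hx] at h; simpa using h
  have hn : ∀ g, ∀ a ∈ A, g * a * g⁻¹ ∈ A := fun g a ha => Subgroup.Normal.conj_mem inferInstance a ha g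
  have hfa : ∀ d : DihedralGroup 4, (∀ a ∈ A, ψ d * a * (ψ d)⁻¹ = a) → d = 1 := by
    intro d hd
    have h1 : ψ d ∈ A := by
      rw [← hAC, Subgroup.mem_centralizer_iff]
      intro a ha
      rw [← mul_inv_eq_iff_eq_mul.mp (hd a ha)]
    have h2 : d ^ 3 = 1 := hψ (by rw [map_pow, hA.2 _ h1, map_one])
    exact (by decide : ∀ d : DihedralGroup 4, d ^ 3 = 1 → d = 1) d h2
  set z := ψ (r 2) with hz
  have hzz : z * z = 1 := by rw [hz, ← map_mul, show (r 2 * r 2 : DihedralGroup 4) = 1 by decide, map_one]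
  have hzi : z⁻¹ = z := inv_eq_of_mul_eq_one_right hzz
  have hzinv : ∀ a ∈ A, z * a * z⁻¹ = a⁻¹ := by
    have hcz : ∀ c ∈ A, z * c * z⁻¹ = c → c = 1 := by
      intro c hc hzc
      by_contra hc1
      obtain ⟨a, ha, hza⟩ : ∃ a ∈ A, z * a * z⁻¹ ≠ a := by
        by_contra! h
        exact absurd (hfa (r 2) h) (by decide)
      set d := a⁻¹ * (z * a * z⁻¹) with hd
      have hdA : d ∈ A := A.mul_mem (A.inv_mem ha) (hn z a ha)
      have hd1 : d ≠ 1 := fun h => hza (inv_mul_eq_one.mp h).symm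
      have hzd : z * d * z⁻¹ = d⁻¹ := by
        calc z * d * z⁻¹ = (z * a⁻¹ * z⁻¹) * ((z * z) * a * (z * z)⁻¹) := by rw [hd]; group
          _ = d⁻¹ := by rw [hzz, hd]; group
      have hdc : ∀ i : ℕ, d ≠ c ^ i := by
        intro i hi
        apply hd1
        apply sq1 d hdA
        rw [← hzd, hi, ← conj_pow, hzc]
      set ρ1 := ψ (r 1) with hρ1
      have hρz : ρ1 * ρ1 = z := by rw [hρ1, hz, ← map_mul]; rfl
      obtain ⟨i, j, hij⟩ := gen9 hA hA9 hc hdA hc1 hdc _ (hn ρ1 d hdA)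
      have h1 : z * (ρ1 * d * ρ1⁻¹) * z⁻¹ = (ρ1 * d * ρ1⁻¹)⁻¹ := by
        calc z * (ρ1 * d * ρ1⁻¹) * z⁻¹ = ρ1 * (z * d * z⁻¹) * ρ1⁻¹ := by rw [← hρz]; group
          _ = _ := by rw [hzd]; group
      have h2 : c ^ i = 1 := by
        apply sq1 _ (A.pow_mem hc i)
        rw [hij, hcomm _ (A.pow_mem hc i) _ (A.pow_mem hdA j), mul_inv_rev,
          ← hcomm _ (A.pow_mem hc i) _ (A.pow_mem hdA j)] at h1
        have h3 : z * (c ^ i * d ^ j) * z⁻¹ = (z * c * z⁻¹) ^ i * (z * d * z⁻¹) ^ j := by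
          rw [conj_pow, conj_pow]; group
        rw [h3, hzc, hzd, inv_pow] at h1
        exact (mul_right_cancel h1).symm
      rw [h2, one_mul] at hij
      have h4 : d ^ (j ^ 2 + 1) = 1 := by
        rw [pow_succ, pow_two, pow_mul, ← hij, conj_pow, ← hij,
          show ρ1 * (ρ1 * d * ρ1⁻¹) * ρ1⁻¹ = (ρ1 * ρ1) * d * (ρ1 * ρ1)⁻¹ by group, hρz, hzd,
          inv_mul_cancel]
      have h5 := orderOf_dvd_of_pow_eq_one h4
      rw [orderOf_eq_prime (hA.2 d hdA) hd1] at h5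
      have : j % 3 = 0 ∨ j % 3 = 1 ∨ j % 3 = 2 := by omega
      rcases this with e | e | e <;>
        simp [Nat.dvd_iff_mod_eq_zero, Nat.add_mod, Nat.pow_mod, e] at h5
    intro a ha
    have := hcz (a * (z * a * z⁻¹)) (A.mul_mem ha (hn z a ha)) (by
      calc z * (a * (z * a * z⁻¹)) * z⁻¹ = (z * a * z⁻¹) * ((z * z) * a * (z * z)⁻¹) := by group
        _ = _ := by rw [hzz, hcomm a ha _ (hn z a ha)]; group)
    exact eq_inv_of_mul_eq_one_right this
  have hCA : ∀ m, (∀ a ∈ A, ρ a m = m) → m = 0 := by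
    let U : Submodule (ZMod 2) M :=
      { carrier := {v | ∀ x ∈ A, ρ x v = v}
        zero_mem' := by simp
        add_mem' := fun {a b} ha hb x hx => by rw [map_add, ha x hx, hb x hx]
        smul_mem' := fun c a ha x hx => by rw [map_smul, ha x hx] }
    rcases hirr U (fun g v hv x hx => by
      have h1 := hv _ (Subgroup.Normal.conj_mem' inferInstance x hx g)
      have h2 := congrArg (ρ g) h1
      rw [← Module.End.mul_apply, ← map_mul, show g * (g⁻¹ * x * g) = x * g by group,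
        map_mul] at h2
      exact h2) with h | h
    · intro v hv
      have : v ∈ U := hv
      rwa [h, Submodule.mem_bot] at this
    · exfalso
      have : A = ⊥ := by
        rw [eq_bot_iff]
        intro a ha
        exact hfaith (by
          rw [map_one]
          exact LinearMap.ext fun v => (h ▸ Submodule.mem_top : v ∈ U) a ha)
      rw [this] at hA9
      simp at hA9
  have key : ∀ σ τ : DihedralGroup 4, σ * σ = 1 → τ * τ = 1 → r 2 * σ = σ * r 2 →
      r 2 * τ = τ * r 2 → σ * τ = τ * σ * r 2 →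
      (∀ d : DihedralGroup 4, ∃ i : Fin 4, d = (σ * τ) ^ (i : ℕ) ∨ d = σ * (σ * τ) ^ (i : ℕ)) →
      ∀ x ∈ A, x ≠ 1 → ψ σ * x = x * ψ σ → (∃ m, m ≠ 0 ∧ ρ x m = m) →
      Nat.card M = 16 ∧ Nat.card {m : M // ρ z m = m ∧ ρ (ψ τ) m = m} = 2 ∧
        Nat.card {m : M // ρ z m = m ∧ ρ (ψ σ) m = m} ≠ 2 := by
    intro σ τ hσ hτ hzσ hzτ hστ hgen x hx hx1 hsx hm
    have ht : ψ τ * ψ τ = 1 := by rw [← map_mul, hτ, map_one]
    have hs : ψ σ * ψ σ = 1 := by rw [← map_mul, hσ, map_one]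
    have hti : (ψ τ)⁻¹ = ψ τ := inv_eq_of_mul_eq_one_right ht
    have hst : ψ σ * ψ τ = ψ τ * ψ σ * z := by rw [hz, ← map_mul, ← map_mul, ← map_mul, hστ]
    have hyA : ψ τ * x * (ψ τ)⁻¹ ∈ A := hn _ x hx
    have hgenA := gen9 hA hA9 hx hyA hx1 (fun i hi => by
      have h1 : ψ σ * (ψ τ * x * (ψ τ)⁻¹) * (ψ σ)⁻¹ = (ψ τ * x * (ψ τ)⁻¹)⁻¹ := by
        calc ψ σ * (ψ τ * x * (ψ τ)⁻¹) * (ψ σ)⁻¹ = (ψ σ * ψ τ) * x * (ψ σ * ψ τ)⁻¹ := by group
          _ = ψ τ * (ψ σ * (z * x * z⁻¹) * (ψ σ)⁻¹) * (ψ τ)⁻¹ := by rw [hst]; group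
          _ = ψ τ * (ψ σ * x * (ψ σ)⁻¹)⁻¹ * (ψ τ)⁻¹ := by rw [hzinv x hx]; group
          _ = _ := by rw [hsx]; group
      have h2 : ψ σ * (ψ τ * x * (ψ τ)⁻¹) * (ψ σ)⁻¹ = ψ τ * x * (ψ τ)⁻¹ := by
        rw [hi, ← conj_pow, hsx, mul_inv_cancel_right]
      have h3 := sq1 _ hyA (h1.symm.trans h2)
      apply hx1
      calc x = (ψ τ)⁻¹ * (ψ τ * x * (ψ τ)⁻¹) * ψ τ := by group
        _ = 1 := by rw [h3]; group)
    refine core ρ (ψ σ) (ψ τ) z x (ψ τ * x * (ψ τ)⁻¹) ht
      (by rw [hz, ← map_mul, ← map_mul, hzτ]) hst (by rw [hz, ← map_mul, ← map_mul, hzσ]) hs hzz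
      (cube x hx) (hcomm _ hx _ hyA) (by group) hsx
      (by rw [← inv3 x hx, ← hzinv x hx]; group) ?_ hm ?_
    · intro m h1 h2
      apply hCA
      intro a ha
      obtain ⟨i, j, rfl⟩ := hgenA a ha
      rw [map_mul, map_pow, map_pow, Module.End.mul_apply,
        Module.End.pow_apply, Module.End.pow_apply, Function.iterate_fixed h2,
        Function.iterate_fixed h1]
    · intro N h1 h2 h3
      let T : Submonoid S :=
        { carrier := {g | ∀ m ∈ N, ρ g m ∈ N}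
          one_mem' := by simp
          mul_mem' := fun {a b} ha hb m hm => by
            rw [map_mul, Module.End.mul_apply]; exact ha _ (hb m hm) }
      have e1 : x ∈ T := h1
      have e2 : ψ σ ∈ T := h2
      have e3 : ψ τ ∈ T := h3
      refine hirr N fun g => ?_
      change g ∈ T
      have hg : g ∈ A ⊔ X := hAX ▸ Subgroup.mem_top g
      rw [Subgroup.mem_sup_of_normal_left] at hg
      obtain ⟨a, ha, b, hb, rfl⟩ := hg
      refine T.mul_mem ?_ ?_
      · obtain ⟨i, j, rfl⟩ := hgenA a ha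
        rw [hti]
        exact T.mul_mem (T.pow_mem e1 i) (T.pow_mem (T.mul_mem (T.mul_mem e3 e1) e3) j)
      · obtain ⟨d, rfl⟩ : b ∈ ψ.range := hrange ▸ hb
        obtain ⟨i, rfl | rfl⟩ := hgen d
        · rw [map_pow, map_mul]; exact T.pow_mem (T.mul_mem e2 e3) _
        · rw [map_mul, map_pow, map_mul]; exact T.mul_mem e2 (T.pow_mem (T.mul_mem e2 e3) _)
  set s := ψ (sr 0) with hs
  set t := ψ (sr 1) with ht
  have hss : s * s = 1 := by rw [hs, ← map_mul]; exact (congrArg ψ (by decide)).trans (map_one ψ)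
  have htt : t * t = 1 := by rw [ht, ← map_mul]; exact (congrArg ψ (by decide)).trans (map_one ψ)
  have hst : s * t = t * s * z := by
    rw [hs, ht, hz, ← map_mul, ← map_mul, ← map_mul]; exact congrArg ψ (by decide)
  obtain ⟨x, hx, hx1, hsx⟩ : ∃ x ∈ A, x ≠ 1 ∧ s * x * s⁻¹ = x := by
    obtain ⟨a, ha, hsa⟩ : ∃ a ∈ A, s * a * s⁻¹ ≠ a⁻¹ := by
      by_contra! h
      refine absurd (hfa (r 2 * sr 0) fun a ha => ?_) (by decide)
      rw [map_mul, ← hz, ← hs]
      calc z * s * a * (z * s)⁻¹ = z * (s * a * s⁻¹) * z⁻¹ := by group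
        _ = a := by rw [h a ha, hzinv _ (A.inv_mem ha), inv_inv]
    refine ⟨a * (s * a * s⁻¹), A.mul_mem ha (hn s a ha),
      fun h => hsa (eq_inv_of_mul_eq_one_right h), ?_⟩
    calc s * (a * (s * a * s⁻¹)) * s⁻¹ = (s * a * s⁻¹) * ((s * s) * a * (s * s)⁻¹) := by group
      _ = _ := by rw [hss, hcomm a ha _ (hn s a ha)]; group
  set y := t * x * t⁻¹ with hy
  have hyA : y ∈ A := hn t x hx
  have hsy : s * y * s⁻¹ = y⁻¹ := by
    calc s * y * s⁻¹ = (s * t) * x * (s * t)⁻¹ := by rw [hy]; group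
      _ = t * (s * (z * x * z⁻¹) * s⁻¹) * t⁻¹ := by rw [hst]; group
      _ = t * (s * x * s⁻¹)⁻¹ * t⁻¹ := by rw [hzinv x hx]; group
      _ = _ := by rw [hsx, hy]; group
  have hxy1 : x * y ≠ 1 := by
    intro h
    have h1 : y = x⁻¹ := eq_inv_of_mul_eq_one_right h
    apply hx1
    apply sq1 x hx
    rw [h1, inv_inv] at hsy
    rwa [show s * x⁻¹ * s⁻¹ = (s * x * s⁻¹)⁻¹ by group, hsx] at hsy
  have htxy : t * (x * y) = x * y * t := by
    calc t * (x * y) = y * ((t * t) * x * (t * t)⁻¹) * t := by rw [hy]; group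
      _ = _ := by rw [htt, hcomm x hx y hyA]; group
  have hdich : (∃ m, m ≠ 0 ∧ ρ x m = m) ∨ (∃ m, m ≠ 0 ∧ ρ (x * y) m = m) := by
    by_contra! h
    obtain ⟨h1, h2⟩ := h
    have h2M : ∀ v : M, v + v = 0 := fun v => by
      rw [← two_smul (ZMod 2), show (2 : ZMod 2) = 0 from rfl, zero_smul]
    have hneg : ∀ v : M, -v = v := fun v => neg_eq_of_add_eq_zero_right (h2M v)
    have mulap : ∀ (a b : S) m, ρ (a * b) m = ρ a (ρ b m) := by
      intro a b m; rw [map_mul, Module.End.mul_apply]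
    have conj : ∀ g a : S, (∀ m, m ≠ 0 → ρ a m ≠ m) → ∀ m, ρ (g * a * g⁻¹) m = m → m = 0 := by
      intro g a ha m hm
      by_contra hm0
      refine ha (ρ g⁻¹ m) (fun e => hm0 ?_) ?_
      · rw [← hm, mulap, e, map_zero]
      · conv_rhs => rw [← hm, ← mulap]
        rw [← mulap]; congr 2; group
    have sq : ∀ a ∈ A, (∀ m, ρ a m = m → m = 0) → ∀ m, ρ a (ρ a m) = m + ρ a m := by
      intro a ha h m
      have h4 : ρ a (ρ a (ρ a m)) = m := by
        rw [← mulap, ← mulap, cube a ha, map_one, Module.End.one_apply]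
      have := h (m + ρ a m + ρ a (ρ a m)) (by rw [map_add, map_add, h4]; abel)
      rw [eq_neg_of_add_eq_zero_right this, hneg]
    have c1 : ∀ m, ρ x m = m → m = 0 := fun m hm => by_contra fun h => h1 m h hm
    have c2 : ∀ m, ρ y m = m → m = 0 := conj t x h1
    have c3 : ∀ m, ρ (x * y) m = m → m = 0 := fun m hm => by_contra fun h => h2 m h hm
    have c4 : ∀ m, ρ (x * (y * y)) m = m → m = 0 := by
      have := conj s _ h2
      rwa [show s * (x * y) * s⁻¹ = (s * x * s⁻¹) * (s * y * s⁻¹) by group, hsx, hsy,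
        inv3 y hyA] at this
    have hxyc : ∀ m, ρ x (ρ y m) = ρ y (ρ x m) := fun m => by
      rw [← mulap, ← mulap, hcomm x hx y hyA]
    have y3 : ∀ m, ρ y (ρ y (ρ y m)) = m := fun m => by
      rw [← mulap, ← mulap, cube y hyA, map_one, Module.End.one_apply]
    obtain ⟨m, hm⟩ := exists_ne (0 : M)
    have e1 : ρ x (ρ x m + ρ y (ρ y m)) = ρ y (ρ x m + ρ y (ρ y m)) := by
      rw [map_add, map_add, y3, sq x hx c1, sq y hyA c2, map_add, hxyc]
      linear_combination (norm := skip) (exp := 1) h2M (ρ x m)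
      abel
    have e2 := c4 (ρ x m + ρ y (ρ y m)) (by rw [mulap, mulap, hxyc, hxyc, e1, y3])
    apply hm
    apply c3
    rw [mulap, hxyc, eq_neg_of_add_eq_zero_left e2, hneg, y3]
  rcases hdich with h | h
  · obtain ⟨k1, k2, k3⟩ := key (sr 0) (sr 1) (by decide) (by decide) (by decide) (by decide)
      (by decide) (by decide) x hx hx1 (mul_inv_eq_iff_eq_mul.mp hsx) h
    exact ⟨k1, final X ψ hψ hrange ρ (sr 0) (sr 1) (by decide) (by decide) (by decide) (by decide)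
      (by decide) k2 k3⟩
  · obtain ⟨k1, k2, k3⟩ := key (sr 1) (sr 0) (by decide) (by decide) (by decide) (by decide)
      (by decide) (by decide) (x * y) (A.mul_mem hx hyA) hxy1 htxy h
    exact ⟨k1, final X ψ hψ hrange ρ (sr 1) (sr 0) (by decide) (by decide) (by decide) (by decide)
      (by decide) k2 k3⟩

end Cfsg.Agent.S4407
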