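import Cfsg.Statements.S4408
import Cfsg.Agent.FGS.ThompDih

set_option autoImplicit false
open Cfsg

namespace Cfsg.Agent.S4408

open Subgroup CL

/-- Let S be a finite solvable group whose Fitting subgroup F(S) has odd order, and let I be an elementary abelian 2-subgroup of S of order 2ⁿ with n ≥ 1. Then F(S) contains subgroups A₁, …, Aₙ of prime order, each normalized by I, pairwise commuting and generating a subgroup A of order |A₁|⋯|Aₙ| (their internal direct product), such that no non-identity element of I centralizes A. -/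
theorem result {S : Type*} [Group S] [Finite S]
    [Group.IsSolvable S] (hF : Odd (Nat.card ↥(Cfsg.fittingSubgroup S)))
    (I : Subgroup S) (hI : Cfsg.IsElementaryAbelian 2 I) (n : ℕ) (hn : 1 ≤ n) (hIn : Nat.card ↥I = 2 ^ n) :
    ∃ f : Fin n → Subgroup S, (∀ i, (Nat.card ↥(f i)).Prime) ∧ (∀ i, f i ≤ Cfsg.fittingSubgroup S) ∧
      (∀ i, I ≤ Subgroup.normalizer ((f i) : Set S)) ∧ (∀ i j, i ≠ j → ∀ a ∈ f i, ∀ b ∈ f j, a * b = b * a) ∧
      Nat.card ↥(⨆ i, f i) = ∏ i, Nat.card ↥(f i) ∧ I ⊓ Subgroup.centralizer ((⨆ i, f i : Subgroup S) : Set S) = ⊥ := by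
  have hf : I ⊓ centralizer (fittingSubgroup S : Set S) = ⊥ := by
    rw [eq_bot_iff]
    refine (inf_le_inf_left _ (centralizer_fittingSubgroup_le S)).trans (le_of_eq ?_)
    refine inf_eq_bot_of_coprime ?_
    rw [hIn]
    exact Nat.Coprime.pow_left _ (Nat.coprime_two_left.2 hF)
  obtain ⟨M, hM, hMc, x, a, F⟩ := CL.TDih.exists_fam_of_nilpotent hI hF
    (isNilpotent_fittingSubgroup S) (by rw [normalizer_eq_top]; exact le_top) hf hIn
  have hMo : Odd (Nat.card M) := Odd.of_dvd_nat hF (card_dvd_of_le hM)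
  refine ⟨fun i => zpowers (x i), fun i => ?_, fun i => zpowers_le.2 (hM (F.mem i)),
    fun i => (F.eig i).le_normalizer, ?_, F.card_iSup hMo hMc, ?_⟩
  · rw [Nat.card_zpowers]; exact F.prime i
  · intro i j _ u hu v hv
    exact congrArg Subtype.val (hMc.is_comm.comm (⟨u, zpowers_le.2 (F.mem i) hu⟩ : M)
      ⟨v, zpowers_le.2 (F.mem j) hv⟩)
  · rw [eq_bot_iff]
    rintro s ⟨hs, hsc⟩
    exact mem_bot.2 (F.faith s hs fun i =>
      (mem_centralizer_iff.1 hsc (x i) (mem_iSup_of_mem i (mem_zpowers _))).symm)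

end Cfsg.Agent.S4408
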