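import Cfsg.Statements.S4409
import Cfsg.Agent.FGS.Min8b
import Cfsg.Agent.SOLV.Hall
import Cfsg.Agent.SOLV.Fitting

set_option autoImplicit false
open Cfsg

namespace Cfsg.Agent.S4409

open Subgroup CL.Min8 in
theorem has_pCore {S : Type*} [Group S] [Finite S]
    [Group.IsSolvable S] (hO : Cfsg.pPrimeCore 2 S = ⊥) (h8 : Has (⊤ : Subgroup S)) :
    Has (pCore 2 S) := by
  by_contra hn
  set H := pCore 2 S with hH
  have hC : centralizer (H : Set S) ≤ H := CL.centralizer_pCore_le_of_isSolvable hO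
  have hp : IsPGroup 2 H := CL.isPGroup_pCore 2 S
  have haut : ¬ IsPGroup 2 (MulAut H) := fun h => by
    have hS : IsPGroup 2 S := fun g => by
      obtain ⟨k, hk⟩ := h (MulAut.conjNormal g)
      have h1 : g ^ 2 ^ k ∈ H := by
        apply hC
        intro x hx
        have := congrArg (fun φ : MulAut H => (φ ⟨x, hx⟩ : S)) hk
        simp only [← map_pow, MulAut.conjNormal_apply, MulAut.one_apply] at this
        rw [mul_inv_eq_iff_eq_mul] at this
        exact this.symm
      obtain ⟨m, hm⟩ := hp ⟨_, h1⟩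
      exact ⟨k + m, by rw [pow_add, pow_mul]; exact congrArg Subtype.val hm⟩
    exact hn (by rw [hH, CL.pCore_eq_top_iff.2 hS]; exact h8)
  have hsm : Nat.card H = 4 ∨ (Nat.card H = 8 ∧ ¬ IsMulCommutative H) := by
    rcases classify hp (fun h => hn ((has_top_iff H).1 h)) with h | h | ⟨n, a, b, h⟩
    · exact absurd (CL.OddAut.isPGroup_mulAut_of_isCyclic hp) haut
    · exact Or.inl h
    · by_cases h3 : 3 ≤ n
      · exact absurd (isPGroup_mulAut_of_three_le h h3) haut
      · have := h.two_le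
        obtain rfl : n = 2 := by omega
        exact Or.inr ⟨h.card_eq, h.not_isMulCommutative⟩
  obtain ⟨B, -, hB1, hB2, hB3⟩ := h8
  have hP : IsPGroup 2 (B ⊔ H : Subgroup S) :=
    IsPGroup.to_sup_of_normal_right (IsPGroup.of_card (n := 3) hB3) hp
  have e := subgroupOfEquivOfLe (le_sup_right : H ≤ B ⊔ H)
  have hC' : centralizer (H.subgroupOf (B ⊔ H) : Set (B ⊔ H : Subgroup S)) ≤
      H.subgroupOf (B ⊔ H) := fun y hy => hC fun x hx =>
    congrArg Subtype.val (hy ⟨x, (le_sup_right : H ≤ B ⊔ H) hx⟩ hx)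
  obtain ⟨n, a, b, h⟩ := isDQS_of_selfCent hP hC' (by
    rw [Nat.card_congr e.toEquiv]
    exact hsm.imp id fun h => ⟨h.1, fun h' => h.2 (isMulCommutative_of_equiv e h')⟩)
    (hB3 ▸ Subgroup.card_le_of_le le_sup_left)
  exact not_has_of_isDQS h ((has_top_iff _).2 ⟨B, le_sup_left, hB1, hB2, hB3⟩)


/-- Let S be a finite solvable group with O_{2'}(S) = 1 that contains a non-cyclic abelian subgroup of order 8, while no proper subgroup of S of 2-power index contains one. Then a Sylow 2-subgroup X of S is normal in S, and one of the following holds: X is abelian; X is extraspecial of order at least 32; X has a generalized quaternion subgroup X₀ of index 2 with X = X₀·C_X(X₀); or X is special with centre of order 4. -/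
theorem result {S : Type*} [Group S] [Finite S]
    [Group.IsSolvable S] (hO : Cfsg.pPrimeCore 2 S = ⊥)
    (h8 : ∃ A : Subgroup S, IsMulCommutative ↥A ∧ ¬ IsCyclic ↥A ∧ Nat.card ↥A = 8)
    (hmin : ∀ R : Subgroup S, R ≠ ⊤ → (∃ k : ℕ, R.index = 2 ^ k) →
      ¬ ∃ A : Subgroup S, A ≤ R ∧ IsMulCommutative ↥A ∧ ¬ IsCyclic ↥A ∧ Nat.card ↥A = 8)
    (X : Sylow 2 S) :
    (X : Subgroup S).Normal ∧
      (IsMulCommutative ↥X ∨
        (Cfsg.IsExtraspecial 2 ↥X ∧ 32 ≤ Nat.card ↥X) ∨
        (∃ (X₀ : Subgroup S) (k : ℕ), X₀ ≤ (X : Subgroup S) ∧ X₀.relIndex (X : Subgroup S) = 2 ∧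
          Nonempty (↥X₀ ≃* QuaternionGroup (2 ^ (k + 1))) ∧ X₀ ⊔ ((X : Subgroup S) ⊓ Subgroup.centralizer (X₀ : Set S)) = (X : Subgroup S)) ∨
        (Cfsg.IsSpecial 2 ↥X ∧ Nat.card ↥(Subgroup.center ↥X) = 4)) := by
  open Subgroup CL.Min8 in
  have h8' : Has (⊤ : Subgroup S) := by
    obtain ⟨A, h⟩ := h8
    exact ⟨A, le_top, h⟩
  obtain ⟨K, hK1, hK2⟩ := CL.exists_isPiHall {p | p ≠ 2} S
  have hKodd : Odd (Nat.card K) := by
    rw [← Nat.not_even_iff_odd, even_iff_two_dvd]
    exact fun h => hK1 2 Nat.prime_two h rfl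
  have hidx : ∀ R : Subgroup S, K ≤ R → ∃ k, R.index = 2 ^ k := fun R hR =>
    ⟨_, Nat.eq_prime_pow_of_unique_prime_dvd Subgroup.FiniteIndex.index_ne_zero fun {d} hd hdv => by
      by_contra hne
      exact hK2 d hd hne (hdv.trans (Subgroup.index_dvd_of_le hR))⟩
  have hXK : ∀ k ∈ K, k ∈ (X : Subgroup S) → k = 1 := fun k hk hkX => by
    have : (X : Subgroup S) ⊓ K = ⊥ := by
      obtain ⟨n, hn⟩ := IsPGroup.iff_card.1 X.isPGroup'
      exact Subgroup.inf_eq_bot_of_coprime (by
        rw [hn]; exact Nat.Coprime.pow_left n (Nat.coprime_two_left.2 hKodd))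
    exact (Subgroup.mem_bot).1 (this ▸ ⟨hkX, hk⟩)
  have key : ∀ Y : Subgroup S, Y ≤ X → K ≤ Subgroup.normalizer (Y : Set S) → CL.Min8.Has Y →
      Y = X := fun Y hY hKY hh => by
    have htop : Y ⊔ K = ⊤ := by
      by_contra hne
      exact hmin _ hne (hidx _ le_sup_right) (hh.mono le_sup_left)
    refine le_antisymm hY fun x hx => ?_
    have h1 : x ∈ ((Y ⊔ K : Subgroup S) : Set S) := htop ▸ Subgroup.mem_top x
    rw [Subgroup.coe_mul_of_right_le_normalizer_left Y K hKY] at h1
    obtain ⟨y, hy, k, hk, rfl⟩ := h1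
    have := hXK k hk ((Subgroup.mul_mem_cancel_left _ (hY hy)).1 hx)
    simpa [this] using hy
  have hXH : pCore 2 S = X := key _ (CL.pCore_le_sylow X)
    (by rw [Subgroup.normalizer_eq_top]; exact le_top) (has_pCore hO h8')
  have hN : (X : Subgroup S).Normal := hXH ▸ inferInstance
  refine ⟨hN, ?_⟩
  letI : MulDistribMulAction K (X : Subgroup S) :=
    MulDistribMulAction.compHom _ ((MulAut.conjNormal (H := (X : Subgroup S))).comp K.subtype)
  have hsm : ∀ (k : K) (x : (X : Subgroup S)), ((k • x : (X : Subgroup S)) : S) = k * x * k⁻¹ :=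
    fun _ _ => rfl
  have hmain := CL.Min8.main (X := (X : Subgroup S)) (A := K) X.isPGroup' hKodd
    ((CL.Min8.has_top_iff _).2 (hXH ▸ has_pCore hO h8')) (fun Y hY hh => by
      have := key (Y.map (X : Subgroup S).subtype) (Subgroup.map_subtype_le Y)
        (fun k hk => by
          refine Subgroup.mem_normalizer_fintype ?_
          rintro _ ⟨y, hy, rfl⟩
          exact ⟨_, hY ⟨k, hk⟩ y hy, hsm ⟨k, hk⟩ y⟩)
        (hh.map _ (X : Subgroup S).subtype_injective)
      apply Subgroup.map_injective (X : Subgroup S).subtype_injective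
      rw [this, ← MonoidHom.range_eq_map, Subgroup.range_subtype])
  rcases hmain with h | h | ⟨X₀, k, h1, ⟨e⟩, h3⟩ | h
  · exact Or.inl h
  · exact Or.inr (Or.inl h)
  · refine Or.inr (Or.inr (Or.inl ⟨X₀.map (X : Subgroup S).subtype, k, Subgroup.map_subtype_le _,
      ?_, ⟨(X₀.equivMapOfInjective _ (X : Subgroup S).subtype_injective).symm.trans e⟩, ?_⟩))
    · rw [Subgroup.relIndex, Subgroup.subgroupOf, Subgroup.comap_map_eq_self_of_injective
        (X : Subgroup S).subtype_injective, h1]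
    · refine le_antisymm (sup_le (Subgroup.map_subtype_le _) inf_le_left) ?_
      have h4 := congrArg (Subgroup.map (X : Subgroup S).subtype) h3
      rw [← MonoidHom.range_eq_map, Subgroup.range_subtype, Subgroup.map_sup] at h4
      refine h4.ge.trans (sup_le_sup_left ?_ _)
      rintro _ ⟨c, hc, rfl⟩
      refine ⟨c.2, ?_⟩
      rintro _ ⟨y, hy, rfl⟩
      exact congrArg Subtype.val (hc y hy)
  · exact Or.inr (Or.inr (Or.inr h))

end Cfsg.Agent.S4409
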