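import Cfsg.Statements.S4410
import Cfsg.Agent.SOLV.Fitting

set_option autoImplicit false
open Cfsg

namespace Cfsg.Agent.S4410

open Module

theorem card_gl_dvd {W : Type*} [AddCommGroup W] [Module (ZMod 2) W] [FiniteDimensional (ZMod 2) W]
    (h : finrank (ZMod 2) W ≤ 3) : Nat.card (LinearMap.GeneralLinearGroup (ZMod 2) W) ∣ 168 := by
  let b := Module.finBasis (ZMod 2) W
  rw [← Nat.card_congr (Matrix.GeneralLinearGroup.toLin' b).toEquiv, Matrix.card_GL_field]
  generalize finrank (ZMod 2) W = n at h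
  interval_cases n <;> simp [Fin.prod_univ_succ]

theorem no_sq {n : ℕ} (h : n ∣ 21) (a : ℕ) (ha : n ∣ a ^ 2 + 1) : n = 1 := by
  have h3 : ¬ 3 ∣ a ^ 2 + 1 := by
    intro h
    have : a % 3 = 0 ∨ a % 3 = 1 ∨ a % 3 = 2 := by omega
    rcases this with e | e | e <;> simp [Nat.dvd_iff_mod_eq_zero, Nat.add_mod, Nat.pow_mod, e] at h
  have h7 : ¬ 7 ∣ a ^ 2 + 1 := by
    intro h
    have : a % 7 = 0 ∨ a % 7 = 1 ∨ a % 7 = 2 ∨ a % 7 = 3 ∨ a % 7 = 4 ∨ a % 7 = 5 ∨ a % 7 = 6 := by
      omega
    rcases this with e | e | e | e | e | e | e <;>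
      simp [Nat.dvd_iff_mod_eq_zero, Nat.add_mod, Nat.pow_mod, e] at h
  have : n ∈ Nat.divisors 21 := by simp [h]
  have e : Nat.divisors 21 = {1, 3, 7, 21} := by decide
  rw [e] at this
  simp only [Finset.mem_insert, Finset.mem_singleton] at this
  rcases this with rfl | rfl | rfl | rfl
  · rfl
  · exact absurd ha h3
  · exact absurd ha h7
  · exact absurd (Dvd.dvd.trans (by norm_num) ha) h3


/-- Let V be a finite-dimensional vector space over the field with two elements and S a solvable group of linear automorphisms of V with O₂(S) = 1. If P ∈ S has order 4 and (P − 1)³ = 0 on V, then the image of (P − 1)² has at least 4 elements; equivalently, in the decomposition of V into indecomposable modules for the cyclic group generated by P, at least two summands have dimension 3. -/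
theorem result
    {V : Type*} [AddCommGroup V] [Module (ZMod 2) V] [Finite V]
    (S : Subgroup (V ≃ₗ[ZMod 2] V)) (hS : Group.IsSolvable ↥S) (hO2 : Cfsg.pCore 2 ↥S = ⊥)
    (P : V ≃ₗ[ZMod 2] V) (hPS : P ∈ S) (hP4 : orderOf P = 4)
    (hcub : ((P : V →ₗ[ZMod 2] V) - LinearMap.id) ^ 3 = 0) :
    4 ≤ Nat.card ↥(LinearMap.range (((P : V →ₗ[ZMod 2] V) - LinearMap.id) ^ 2)) := by
  classical
  haveI : Finite (V ≃ₗ[ZMod 2] V) :=
    Finite.of_injective (fun f : V ≃ₗ[ZMod 2] V => (f : V → V)) DFunLike.coe_injective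
  have h2V : ∀ v : V, v + v = 0 := fun v => by
    rw [← two_smul (ZMod 2), show (2 : ZMod 2) = 0 from rfl, zero_smul]
  set L := LinearMap.range (((P : V →ₗ[ZMod 2] V) - LinearMap.id) ^ 2) with hL
  set z := P * P with hz
  have hzL : ∀ v, z v - v ∈ L := by
    intro v
    refine ⟨v, ?_⟩
    simp only [pow_two, Module.End.mul_apply, LinearMap.sub_apply, LinearEquiv.coe_coe,
      LinearMap.id_apply, map_sub, hz, LinearEquiv.mul_apply]
    have := h2V (P v)
    have h' := h2V v
    linear_combination (norm := skip) (exp := 1) h' - this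
    abel
  by_contra hlt
  have hLd : finrank (ZMod 2) L ≤ 1 := by
    by_contra h
    apply hlt
    rw [Module.natCard_eq_pow_finrank (K := ZMod 2), Nat.card_zmod]
    calc 4 = 2 ^ 2 := rfl
      _ ≤ _ := Nat.pow_le_pow_right (by norm_num) (by omega)
  have hzz : z * z = 1 := by
    have := pow_orderOf_eq_one P
    rw [hP4] at this
    rw [hz, ← this]; simp [pow_succ, mul_assoc]
  have hz1 : z ≠ 1 := by
    intro h
    have : orderOf P ∣ 2 := orderOf_dvd_of_pow_eq_one (by rw [pow_two]; exact h)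
    rw [hP4] at this; omega
  haveI := hS
  have hzS : z ∈ S := S.mul_mem hPS hPS
  set F := Cfsg.fittingSubgroup S with hF
  have hFnil : Group.IsNilpotent F := CL.isNilpotent_fittingSubgroup S
  have hFodd : (Nat.card F).Coprime 2 := by
    have h1 := CL.fittingSubgroup_le_pCore_sup (G := S) 2
    rw [hO2, bot_sup_eq] at h1
    exact Nat.Coprime.coprime_dvd_left (Subgroup.card_dvd_of_le h1) (CL.coprime_card_pPrimeCore 2 S)
  let z' : S := ⟨z, hzS⟩
  let P' : S := ⟨P, hPS⟩
  have hz'P : z' = P' * P' := rfl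
  have hz'z : z' * z' = 1 := Subtype.ext hzz
  have hnc : z' ∉ Subgroup.centralizer (F : Set S) := by
    intro h
    have h1 := CL.centralizer_fittingSubgroup_le S h
    have h2 : orderOf z' ∣ Nat.card F := Subgroup.orderOf_dvd_natCard _ h1
    have h3 : orderOf z' = 2 := orderOf_eq_prime (by rw [pow_two]; exact hz'z)
      (fun e => hz1 (congrArg Subtype.val e))
    rw [h3] at h2
    exact absurd (Nat.Coprime.eq_one_of_dvd hFodd.symm h2) (by norm_num)
  rw [Subgroup.mem_centralizer_iff] at hnc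
  push Not at hnc
  obtain ⟨f, hf, hfz⟩ := hnc
  have hzi : z'⁻¹ = z' := inv_eq_of_mul_eq_one_right hz'z
  let x : S := f⁻¹ * z' * f * z'
  let y : S := P' * x * P'⁻¹
  have hxF : x ∈ F := by
    have : x = f⁻¹ * (z' * f * z'⁻¹) := by rw [hzi]; simp [x, mul_assoc]
    rw [this]
    exact F.mul_mem (F.inv_mem hf) (Subgroup.Normal.conj_mem inferInstance _ hf _)
  have hyF : y ∈ F := Subgroup.Normal.conj_mem inferInstance _ hxF _
  have hx1 : x ≠ 1 := by
    intro h
    apply hfz
    have : f⁻¹ * z' * f * z' = 1 := h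
    calc f * z' = f * (f⁻¹ * z' * f * z') * z' := by rw [this, mul_one]
      _ = z' * f * (z' * z') := by group
      _ = z' * f := by rw [hz'z, mul_one]
  have hzx : z' * x * z'⁻¹ = x⁻¹ := by
    rw [hzi]
    simp only [x, mul_inv_rev, hzi, inv_inv]
    calc z' * (f⁻¹ * z' * f * z') * z' = z' * f⁻¹ * z' * f * (z' * z') := by group
      _ = _ := by rw [hz'z]; group
  have hzy : z' * y * z'⁻¹ = y⁻¹ := by
    calc z' * y * z'⁻¹ = P' * (z' * x * z'⁻¹) * P'⁻¹ := by rw [hz'P]; simp only [y]; group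
      _ = y⁻¹ := by rw [hzx]; simp only [y]; group
  let D : Subgroup S := Subgroup.closure {x, y}
  have hDF : D ≤ F := by
    rw [Subgroup.closure_le]
    rintro _ (rfl | rfl)
    exacts [hxF, hyF]
  -- the subspace W
  let g1 : S := f⁻¹
  let g2 : S := P' * f⁻¹
  let W : Submodule (ZMod 2) V := L ⊔ L.map (g1 : V ≃ₗ[ZMod 2] V).toLinearMap ⊔
    L.map (g2 : V ≃ₗ[ZMod 2] V).toLinearMap
  have hWd : finrank (ZMod 2) W ≤ 3 := by
    have e1 := Submodule.finrank_add_le_finrank_add_finrank
      (L ⊔ L.map (g1 : V ≃ₗ[ZMod 2] V).toLinearMap) (L.map (g2 : V ≃ₗ[ZMod 2] V).toLinearMap)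
    have e2 := Submodule.finrank_add_le_finrank_add_finrank L
      (L.map (g1 : V ≃ₗ[ZMod 2] V).toLinearMap)
    have e3 := Submodule.finrank_map_le (g1 : V ≃ₗ[ZMod 2] V).toLinearMap L
    have e4 := Submodule.finrank_map_le (g2 : V ≃ₗ[ZMod 2] V).toLinearMap L
    simp only [W]
    omega
  let K : Subgroup S :=
    { carrier := {g | ∀ v, (g : V ≃ₗ[ZMod 2] V) v - v ∈ W}
      one_mem' := by simp
      mul_mem' := fun {a b} ha hb v => by
        have := W.add_mem (ha ((b : V ≃ₗ[ZMod 2] V) v)) (hb v)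
        simpa using this
      inv_mem' := fun {a} ha v => by
        have := W.neg_mem (ha (((a⁻¹ : S) : V ≃ₗ[ZMod 2] V) v))
        simpa using this }
  have hconj : ∀ g : S, L.map (g : V ≃ₗ[ZMod 2] V).toLinearMap ≤ W → g * z' * g⁻¹ ∈ K := by
    intro g hg v
    apply hg
    refine ⟨_, hzL (((g⁻¹ : S) : V ≃ₗ[ZMod 2] V) v), ?_⟩
    simp [z']
  have hzK : z' ∈ K := fun v => Submodule.mem_sup_left (Submodule.mem_sup_left (hzL v))
  have hDK : D ≤ K := by
    rw [Subgroup.closure_le]
    rintro _ (rfl | rfl)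
    · have : x = g1 * z' * g1⁻¹ * z' := by simp [x, g1]
      rw [this]
      exact K.mul_mem (hconj g1 (le_sup_of_le_left le_sup_right)) hzK
    · have : y = g2 * z' * g2⁻¹ * z' := by
        simp only [x, y, g2, hz'P]; group
      rw [this]
      exact K.mul_mem (hconj g2 le_sup_right) hzK
  let ρ : Representation (ZMod 2) D V :=
    LinearEquiv.automorphismGroup.toLinearMapMonoidHom.comp (S.subtype.comp D.subtype)
  have hρ : ∀ (d : D) v, ρ d v = ((d : S) : V ≃ₗ[ZMod 2] V) v := fun _ _ => rfl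
  have hW : ∀ d : D, W ≤ W.comap (ρ d) := by
    intro d v hv
    have := W.add_mem (hDK d.2 v) hv
    simpa [hρ] using this
  have hDodd : (Nat.card D).Coprime 2 :=
    Nat.Coprime.coprime_dvd_left (Subgroup.card_dvd_of_le hDF) hFodd
  have hinj : Function.Injective (ρ.subrepresentation W hW).asGroupHom := by
    rw [injective_iff_map_eq_one]
    intro d hd
    have h1 : ∀ w ∈ W, ρ d w = w := fun w hw =>
      congrArg Subtype.val (congrArg (fun u : (W →ₗ[ZMod 2] W)ˣ => u.val ⟨w, hw⟩) hd)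
    have h2 : d ^ 2 = 1 := by
      apply Subtype.ext; apply Subtype.ext
      ext v
      have h3 := h1 _ (hDK d.2 v)
      rw [map_sub, hρ, hρ] at h3
      have h4 := h2V (((d : S) : V ≃ₗ[ZMod 2] V) v)
      have h5 := h2V v
      simp only [pow_two, Subgroup.coe_mul, LinearEquiv.mul_apply, OneMemClass.coe_one,
        LinearEquiv.coe_one, id_eq]
      linear_combination (norm := skip) (exp := 1) h3 + h4 - h5
      abel
    have h3 : orderOf d ∣ Nat.gcd (Nat.card D) 2 :=
      Nat.dvd_gcd (orderOf_dvd_natCard d) (orderOf_dvd_of_pow_eq_one h2)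
    rw [hDodd, Nat.dvd_one, orderOf_eq_one_iff] at h3
    exact h3
  have hD168 : Nat.card D ∣ 168 :=
    (Subgroup.card_dvd_of_injective _ hinj).trans (card_gl_dvd hWd)
  have hD21 : Nat.card D ∣ 21 :=
    (Nat.Coprime.pow_right 3 hDodd).dvd_of_dvd_mul_left (by simpa using hD168)
  haveI : IsZGroup D := IsZGroup.of_squarefree
    (Squarefree.squarefree_of_dvd hD21 (by
      rw [show (21 : ℕ) = 3 * 7 from rfl, Nat.squarefree_mul (by norm_num)]
      exact ⟨Nat.prime_three.squarefree, (by norm_num : Nat.Prime 7).squarefree⟩))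
  haveI : Group.IsNilpotent D := CL.isNilpotent_of_le_fittingSubgroup hDF
  haveI : IsCyclic D := inferInstance
  obtain ⟨g, hg⟩ := IsCyclic.exists_monoid_generator (α := D)
  have hxD : x ∈ D := Subgroup.subset_closure (by simp)
  have hyD : y ∈ D := Subgroup.subset_closure (by simp)
  have hcomm : ∀ a ∈ D, ∀ b ∈ D, a * b = b * a := fun a ha b hb =>
    congrArg Subtype.val (IsCyclic.commutative.is_comm.comm (⟨a, ha⟩ : D) ⟨b, hb⟩)
  have hPD : ∀ d ∈ D, P' * d * P'⁻¹ ∈ D := by
    intro d hd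
    induction hd using Subgroup.closure_induction with
    | mem d hd =>
      rcases hd with rfl | rfl
      · exact hyD
      · have : P' * y * P'⁻¹ = z' * x * z'⁻¹ := by rw [hz'P]; simp only [y]; group
        rw [this, hzx]; exact D.inv_mem hxD
    | one => simpa using D.one_mem
    | mul a b _ _ ha hb => simpa [mul_assoc] using D.mul_mem ha hb
    | inv a _ ha => simpa [mul_assoc] using D.inv_mem ha
  have hzD : ∀ d ∈ D, z' * d * z'⁻¹ = d⁻¹ := by
    intro d hd
    induction hd using Subgroup.closure_induction with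
    | mem d hd =>
      rcases hd with rfl | rfl
      exacts [hzx, hzy]
    | one => simp
    | mul a b ha' hb' ha hb =>
      calc z' * (a * b) * z'⁻¹ = (z' * a * z'⁻¹) * (z' * b * z'⁻¹) := by group
        _ = _ := by rw [ha, hb, hcomm a ha' b hb', mul_inv_rev]
    | inv a _ ha =>
      calc z' * a⁻¹ * z'⁻¹ = (z' * a * z'⁻¹)⁻¹ := by group
        _ = _ := by rw [ha]
  obtain ⟨a, ha⟩ := hg ⟨_, hPD g g.2⟩
  have ha' : (g : S) ^ a = P' * g * P'⁻¹ := congrArg Subtype.val ha
  have h1 : (g : S) ^ (a ^ 2 + 1) = 1 := by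
    rw [pow_succ, pow_two, pow_mul, ha', conj_pow, ha']
    have := hzD g g.2
    rw [hz'P] at this
    rw [show P' * (P' * g * P'⁻¹) * P'⁻¹ = P' * P' * g * (P' * P')⁻¹ by group, this, inv_mul_cancel]
  have h2 : orderOf g = 1 := no_sq ((orderOf_dvd_natCard g).trans hD21) a
    (orderOf_dvd_of_pow_eq_one (Subtype.ext (by simpa using h1)))
  rw [orderOf_eq_one_iff] at h2
  obtain ⟨b, hb⟩ := hg ⟨x, hxD⟩
  apply hx1
  have := congrArg Subtype.val hb
  simpa [h2] using this.symm

end Cfsg.Agent.S4410
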