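import Cfsg.Statements.S4412
import Cfsg.Agent.SOLV.CoprimeAut
import Cfsg.Agent.FGS.ThompDih
import Cfsg.Agent.FUS.MetaAut

set_option autoImplicit false
open Cfsg

namespace Cfsg.Agent.S4412

open Subgroup CL

theorem exists_fam {P : Type*} [Group P] [Finite P] (p : ℕ) (hp : p.Prime) (hp2 : p ≠ 2)
    (hP : IsPGroup p P) (I : Subgroup (MulAut P)) (hI : Cfsg.IsElementaryAbelian 2 I)
    (hI8 : Nat.card ↥I = 8) : ∃ (x : Fin 3 → P) (a : Fin 3 → MulAut P), (∀ i, x i ≠ 1) ∧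
      (∀ i, x i ^ p = 1) ∧ (∀ i j, x i * x j = x j * x i) ∧ (∀ i, a i ∈ I) ∧
      (∀ i, a i (x i) = (x i)⁻¹) ∧ (∀ i j, i ≠ j → a i (x j) = x j) ∧
      (∀ T ∈ I, ∀ i, T (x i) = x i ∨ T (x i) = (x i)⁻¹) ∧
      (∀ T ∈ I, (∀ i, T (x i) = x i) → T = 1) := by
  have := Fact.mk hp
  have : Finite (MulAut P) := Finite.of_injective _ (DFunLike.coe_injective (F := P ≃* P))
  obtain ⟨n, hn⟩ := hP.exists_card_eq
  have hodd : Odd (Nat.card P) := hn ▸ (hp.odd_of_ne_two hp2).pow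
  have hPm : IsPGroup p ((⊤ : Subgroup P).map (Hol.inl : P →* Hol (MulAut P) P)) :=
    (hP.to_subgroup ⊤).map _
  obtain ⟨M, hM, hMc, x, a, F⟩ := CL.TDih.exists_fam_of_nilpotent
    (A := I.map (Hol.inr : MulAut P →* Hol (MulAut P) P))
    (Y := (⊤ : Subgroup P).map (Hol.inl : P →* Hol (MulAut P) P)) (k := 3)
    ⟨by have := hI.1; infer_instance, by
      rintro _ ⟨T, hT, rfl⟩
      rw [← map_pow, hI.2 T hT, map_one]⟩
    (by rwa [Hol.card_map_inl, card_top]) hPm.isNilpotent (Hol.map_inr_le_normalizer_top I)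
    (Hol.map_inr_inf_centralizer_eq_bot I) (by rw [Hol.card_map_inr, hI8]; rfl)
  choose y _ hy using fun i => hM (F.mem i)
  choose b hb hb' using F.amem
  have hc : ∀ (T : MulAut P) (g : P), (Hol.inr T : Hol (MulAut P) P) * Hol.inl g = Hol.inl g * Hol.inr T ↔
      T g = g := fun T g => by
    rw [Hol.inr_mul_inl, mul_left_inj, Hol.inl_injective.eq_iff]; rfl
  refine ⟨y, b, fun i h => F.ne_one i (by rw [← hy, h, map_one]), fun i => ?_, fun i j => ?_, hb,
    fun i => ?_, fun i j hij => ?_, fun T hT i => ?_, fun T hT h => ?_⟩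
  · have h1 := F.prime i
    rw [← hy, orderOf_injective _ Hol.inl_injective] at h1
    obtain ⟨k, hk⟩ := hP (y i)
    rw [← (Nat.prime_dvd_prime_iff_eq h1 hp).mp (h1.dvd_of_dvd_pow (orderOf_dvd_of_pow_eq_one hk)),
      pow_orderOf_eq_one]
  · apply Hol.inl_injective (A := MulAut P)
    rw [map_mul, map_mul, hy, hy, F.x_comm hMc]
  · apply Hol.inl_injective (A := MulAut P)
    have := F.inv i
    rwa [← hy, ← hb', Hol.conj_inl, ← map_inv] at this
  · have := F.comm i j hij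
    rwa [← hy, ← hb', hc] at this
  · have := F.eig i _ ⟨T, hT, rfl⟩
    rw [← hy, Hol.conj_inl, ← map_inv, Hol.inl_injective.eq_iff, Hol.inl_injective.eq_iff] at this
    exact this
  · apply Hol.inr_injective (G := P)
    rw [map_one]
    exact F.faith _ ⟨T, hT, rfl⟩ fun i => by rw [← hy, hc, h]

/-- Let p be an odd prime, P a finite p-group and I an elementary abelian subgroup of order 8 of Aut(P). Call T ∈ I, T ≠ 1, broad when its fixed-point subgroup C_P(T) is not cyclic. Suppose I has a proper subgroup I₀ containing no broad element such that the product of any two broad elements lies in I₀. Then P is abelian of rank exactly 3 (generated by three elements but not by two), there are exactly three broad elements and they generate I, and I₀ is exactly the set of products of two broad elements. -/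
theorem result
    {P : Type*} [Group P] [Finite P] (p : ℕ) (hp : p.Prime) (hp2 : p ≠ 2) (hP : IsPGroup p P)
    (I : Subgroup (MulAut P)) (hI : Cfsg.IsElementaryAbelian 2 I) (hI8 : Nat.card ↥I = 8)
    (I₀ : Subgroup (MulAut P)) (hI₀ : I₀ < I)
    (hdisj : ∀ T ∈ I₀, T ≠ 1 → ∃ g : P, ∀ x : P, (T x = x ↔ x ∈ Subgroup.zpowers g))
    (hprod : ∀ T ∈ I, ∀ T' ∈ I, T ≠ 1 → T' ≠ 1 → (¬ ∃ g : P, ∀ x : P, (T x = x ↔ x ∈ Subgroup.zpowers g)) →
      (¬ ∃ g : P, ∀ x : P, (T' x = x ↔ x ∈ Subgroup.zpowers g)) → T * T' ∈ I₀) :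
    IsMulCommutative P ∧ (∃ a b c : P, Subgroup.closure {a, b, c} = ⊤) ∧ (¬ ∃ a b : P, Subgroup.closure {a, b} = ⊤) ∧
      Nat.card {T : MulAut P // T ∈ I ∧ T ≠ 1 ∧ ¬ ∃ g : P, ∀ x : P, (T x = x ↔ x ∈ Subgroup.zpowers g)} = 3 ∧
      Subgroup.closure {T : MulAut P | T ∈ I ∧ T ≠ 1 ∧ ¬ ∃ g : P, ∀ x : P, (T x = x ↔ x ∈ Subgroup.zpowers g)} = I ∧
      (I₀ : Set (MulAut P)) = {S : MulAut P | ∃ T T' : MulAut P, T ∈ I ∧ T' ∈ I ∧ T ≠ 1 ∧ T' ≠ 1 ∧
        (¬ ∃ g : P, ∀ x : P, (T x = x ↔ x ∈ Subgroup.zpowers g)) ∧ (¬ ∃ g : P, ∀ x : P, (T' x = x ↔ x ∈ Subgroup.zpowers g)) ∧ S = T * T'} := by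
  classical
  have := Fact.mk hp
  have : Finite (MulAut P) := Finite.of_injective _ (DFunLike.coe_injective (F := P ≃* P))
  obtain ⟨x, a, hx1, hxp, hxc, ha, hinv, hfix, heig, hfaith⟩ := exists_fam p hp hp2 hP I hI hI8
  obtain ⟨n, hn⟩ := hP.exists_card_eq
  have hodd : Odd (Nat.card P) := hn ▸ (hp.odd_of_ne_two hp2).pow
  have hne : ∀ y : P, y⁻¹ = y → y = 1 := fun y h =>
    CL.TDih.ne_inv_of_odd (M := ⊤) (by rwa [card_top]) (mem_top y) h.symm
  have hxi : ∀ i, (x i)⁻¹ ≠ x i := fun i h => hx1 i (hne _ h)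
  have hsq : ∀ T ∈ I, T * T = 1 := fun T hT => by rw [← sq, hI.2 T hT]
  have hcm : ∀ T ∈ I, ∀ U ∈ I, T * U = U * T := fun T hT U hU =>
    congrArg Subtype.val (hI.1.is_comm.comm (⟨T, hT⟩ : I) ⟨U, hU⟩)
  set B : MulAut P → Prop := fun T => ¬ ∃ g : P, ∀ x : P, (T x = x ↔ x ∈ zpowers g) with hB
  have hcyc : ∀ (g : P) (i : Fin 3) (y : P), x i ∈ zpowers g → y ∈ zpowers g → y ^ p = 1 →
      y ∈ zpowers (x i) := fun g i y h1 h2 h3 =>
    CL.MC.mem_zpowers_of_cyclic (N := zpowers g) h2 h1 h3 (hxp i) (hx1 i)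
  have hbroad : ∀ (T : MulAut P) (i j : Fin 3), i ≠ j → T (x i) = x i → T (x j) = x j → B T := by
    rintro T i j hij h1 h2 ⟨g, hg⟩
    obtain ⟨k, hk⟩ := hcyc g i (x j) ((hg _).1 h1) ((hg _).1 h2) (hxp j)
    have h3 : a j (x j) = x j := by
      conv_lhs => rw [← hk, map_zpow, hfix j i hij.symm]
      exact hk
    exact hxi j ((hinv j).symm.trans h3)
  have ha1 : ∀ i, a i ≠ 1 := fun i h => hxi i (by rw [← hinv, h]; rfl)
  have hB0 : B (a 0) := hbroad _ 1 2 (by decide) (hfix 0 1 (by decide)) (hfix 0 2 (by decide))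
  have hB1 : B (a 1) := hbroad _ 0 2 (by decide) (hfix 1 0 (by decide)) (hfix 1 2 (by decide))
  have hB2 : B (a 2) := hbroad _ 0 1 (by decide) (hfix 2 0 (by decide)) (hfix 2 1 (by decide))
  have hBa : ∀ i, B (a i) := fun i => by fin_cases i <;> assumption
  have f01 := hfix 0 1 (by decide)
  have f02 := hfix 0 2 (by decide)
  have f10 := hfix 1 0 (by decide)
  have f12 := hfix 1 2 (by decide)
  have f20 := hfix 2 0 (by decide)
  have f21 := hfix 2 1 (by decide)
  have heq : ∀ T ∈ I, ∀ U ∈ I, T (x 0) = U (x 0) → T (x 1) = U (x 1) → T (x 2) = U (x 2) →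
      T = U := by
    intro T hT U hU h0 h1 h2
    refine (inv_mul_eq_one.mp (hfaith _ (I.mul_mem (I.inv_mem hU) hT) fun i => ?_)).symm
    have : T (x i) = U (x i) := by fin_cases i <;> assumption
    rw [MulAut.mul_apply, this, MulAut.inv_apply_self]
  have m01 := I.mul_mem (ha 0) (ha 1)
  have m02 := I.mul_mem (ha 0) (ha 2)
  have m12 := I.mul_mem (ha 1) (ha 2)
  have m012 := I.mul_mem m01 (ha 2)
  have hall : ∀ T ∈ I, T = 1 ∨ T = a 0 ∨ T = a 1 ∨ T = a 2 ∨ T = a 0 * a 1 ∨ T = a 0 * a 2 ∨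
      T = a 1 * a 2 ∨ T = a 0 * a 1 * a 2 := by
    intro T hT
    rcases heig T hT 0 with h0 | h0 <;> rcases heig T hT 1 with h1 | h1 <;>
      rcases heig T hT 2 with h2 | h2
    · exact Or.inl (heq T hT 1 I.one_mem h0 h1 h2)
    · exact .inr (.inr (.inr (.inl (heq T hT _ (ha 2) (by simp [*]) (by simp [*]) (by simp [*])))))
    · exact .inr (.inr (.inl (heq T hT _ (ha 1) (by simp [*]) (by simp [*]) (by simp [*]))))
    · exact .inr (.inr (.inr (.inr (.inr (.inr (.inl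
        (heq T hT _ m12 (by simp [*]) (by simp [*]) (by simp [*]))))))))
    · exact .inr (.inl (heq T hT _ (ha 0) (by simp [*]) (by simp [*]) (by simp [*])))
    · exact .inr (.inr (.inr (.inr (.inr (.inl
        (heq T hT _ m02 (by simp [*]) (by simp [*]) (by simp [*])))))))
    · exact .inr (.inr (.inr (.inr (.inl
        (heq T hT _ m01 (by simp [*]) (by simp [*]) (by simp [*]))))))
    · exact .inr (.inr (.inr (.inr (.inr (.inr (.inr
        (heq T hT _ m012 (by simp [*]) (by simp [*]) (by simp [*]))))))))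
  have hp0 : ∀ i j, a i * a j ∈ I₀ := fun i j =>
    hprod _ (ha i) _ (ha j) (ha1 i) (ha1 j) (hBa i) (hBa j)
  have hn0 : ∀ i, a i ∉ I₀ := fun i h => hBa i (hdisj _ h (ha1 i))
  have hn012 : a 0 * a 1 * a 2 ∉ I₀ := fun h => hn0 2 ((I₀.mul_mem_cancel_left (hp0 0 1)).mp h)
  have hI0 : ∀ T ∈ I₀, T = 1 ∨ T = a 0 * a 1 ∨ T = a 0 * a 2 ∨ T = a 1 * a 2 := by
    intro T hT
    rcases hall T (hI₀.le hT) with h | h | h | h | h | h | h | h
    · exact Or.inl h
    · exact absurd (h ▸ hT) (hn0 0)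
    · exact absurd (h ▸ hT) (hn0 1)
    · exact absurd (h ▸ hT) (hn0 2)
    · exact .inr (.inl h)
    · exact .inr (.inr (.inl h))
    · exact .inr (.inr (.inr h))
    · exact absurd (h ▸ hT) hn012
  have n01 : a 0 * a 1 ≠ 1 := fun h => hxi 0 (by
    have := congrArg (fun T : MulAut P => T (x 0)) h
    simpa [hinv, f01, f02, f10, f12, f20, f21] using this)
  have n02 : a 0 * a 2 ≠ 1 := fun h => hxi 0 (by
    have := congrArg (fun T : MulAut P => T (x 0)) h
    simpa [hinv, f01, f02, f10, f12, f20, f21] using this)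
  have n12 : a 1 * a 2 ≠ 1 := fun h => hxi 1 (by
    have := congrArg (fun T : MulAut P => T (x 1)) h
    simpa [hinv, f01, f02, f10, f12, f20, f21] using this)
  have hI0c : IsMulCommutative I₀ := ⟨⟨fun s t => Subtype.ext (hcm _ (hI₀.le s.2) _ (hI₀.le t.2))⟩⟩
  have hI0n : ¬ IsCyclic I₀ := fun h => by
    obtain ⟨k, hk⟩ := CL.MC.mem_zpowers_of_cyclic (p := 2) (N := I₀) (hp0 0 2) (hp0 0 1)
      (hI.2 _ m02) (hI.2 _ m01) n01
    have h1 : (a 0 * a 1) (x 2) = x 2 := by simp [*]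
    have h2 : (a 0 * a 2) (x 2) = x 2 :=
      hk ▸ (zpowers_le (H := MulAction.stabilizer (MulAut P) (x 2))).2 h1 (zpow_mem_zpowers _ k)
    exact hxi 2 (by simpa [hinv, f01, f02, f10, f12, f20, f21] using h2)
  have hcop : ∀ K : Subgroup P, (Nat.card I₀).Coprime (Nat.card K) := fun K =>
    Nat.Coprime.coprime_dvd_right K.card_subgroup_dvd_card
      (Nat.Coprime.coprime_dvd_left ((card_dvd_of_le hI₀.le).trans (by rw [hI8]))
        (Nat.Coprime.pow_left 3 (Nat.coprime_two_left.mpr hodd)))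
  obtain ⟨g2, hg2⟩ := hdisj _ (hp0 0 1) n01
  obtain ⟨g1, hg1⟩ := hdisj _ (hp0 0 2) n02
  obtain ⟨g0, hg0⟩ := hdisj _ (hp0 1 2) n12
  set Z := a 0 * a 1 * a 2 with hZ
  have hZx : ∀ i, Z (x i) = (x i)⁻¹ := fun i => by fin_cases i <;> simp [*]
  have hZg : ∀ (g : P) (i : Fin 3), x i ∈ zpowers g → ∀ y ∈ zpowers g, Z y = y → y = 1 := by
    intro g i hi y hy h
    by_contra hy1
    obtain ⟨k, hk⟩ := hP y
    have hd : p ∣ orderOf y := by
      obtain ⟨m, -, hm⟩ := (Nat.dvd_prime_pow hp).mp (orderOf_dvd_of_pow_eq_one hk)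
      rcases m with _ | m
      · exact absurd (orderOf_eq_one_iff.mp hm) hy1
      · exact hm ▸ dvd_pow_self p m.succ_ne_zero
    have ho := orderOf_pow_orderOf_div (orderOf_pos y).ne' hd
    obtain ⟨m, hm⟩ := hcyc g i _ hi (pow_mem hy (orderOf y / p)) (orderOf_dvd_iff_pow_eq_one.mp ho.dvd)
    have h1 : Z (y ^ (orderOf y / p)) = y ^ (orderOf y / p) := by rw [map_pow, h]
    have h2 : Z (y ^ (orderOf y / p)) = (y ^ (orderOf y / p))⁻¹ := by
      rw [← hm]
      simp only [map_zpow, hZx, inv_zpow]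
    rw [hne _ (h2.symm.trans h1), orderOf_one] at ho
    exact hp.one_lt.ne ho
  have hfpf : MonoidHom.FixedPointFree Z := by
    intro y hy
    have := act_le_of_forall_fixed_le I₀ (actFix P (zpowers Z)) ⊥ hI0n (fun b hb k hk => by
      rw [mem_actFix_zpowers] at hk ⊢
      rw [← mul_smul, hcm Z m012 b (hI₀.le hb), mul_smul, hk]) (hcop _) (fun b hb hb1 k hk => by
        have h1 : Z k = k := mem_actFix_zpowers.mp hk.1
        have h2 : b k = k := mem_actFix_zpowers.mp hk.2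
        rcases hI0 b hb with h | rfl | rfl | rfl
        · exact absurd h hb1
        · exact hZg g2 2 ((hg2 _).1 (by simp [*])) k ((hg2 k).1 h2) h1
        · exact hZg g1 1 ((hg1 _).1 (by simp [*])) k ((hg1 k).1 h2) h1
        · exact hZg g0 0 ((hg0 _).1 (by simp [*])) k ((hg0 k).1 h2) h1)
    exact this (mem_actFix_zpowers.mpr hy)
  have hcomm : ∀ s t : P, s * t = t * s := fun s t =>
    hfpf.commute_all_of_involutive (fun y => by rw [← MulAut.mul_apply, hsq Z m012]; rfl) s t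
  have hBiff : ∀ T : MulAut P, (T ∈ I ∧ T ≠ 1 ∧ B T) ↔ T = a 0 ∨ T = a 1 ∨ T = a 2 := by
    refine fun T => ⟨fun ⟨h1, h2, h3⟩ => ?_, ?_⟩
    · rcases hall T h1 with h | h | h | h | h | h | h | h
      · exact absurd h h2
      · exact .inl h
      · exact .inr (.inl h)
      · exact .inr (.inr h)
      · exact absurd ⟨g2, h ▸ hg2⟩ h3
      · exact absurd ⟨g1, h ▸ hg1⟩ h3
      · exact absurd ⟨g0, h ▸ hg0⟩ h3
      · refine absurd ⟨1, fun y => ⟨fun hy => ?_, fun hy => ?_⟩⟩ h3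
        · rw [hfpf y (h ▸ hy)]; exact one_mem _
        · rw [zpowers_one_eq_bot, mem_bot] at hy
          rw [hy, map_one]
    · rintro (rfl | rfl | rfl) <;> exact ⟨ha _, ha1 _, hBa _⟩
  refine ⟨⟨⟨hcomm⟩⟩, ⟨g0, g1, g2, eq_top_iff.mpr ?_⟩, ?_, ?_, ?_, ?_⟩
  · refine act_le_of_forall_fixed_le I₀ ⊤ _ hI0n (fun _ _ _ _ => trivial) (hcop _)
      fun b hb hb1 k hk => ?_
    have h2 : b k = k := mem_actFix_zpowers.mp hk.2
    rcases hI0 b hb with h | rfl | rfl | rfl
    · exact absurd h hb1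
    · exact zpowers_le.mpr (subset_closure (by simp)) ((hg2 k).1 h2)
    · exact zpowers_le.mpr (subset_closure (by simp)) ((hg1 k).1 h2)
    · exact zpowers_le.mpr (subset_closure (by simp)) ((hg0 k).1 h2)
  · rintro ⟨u, v, huv⟩
    let _ : CommGroup P := { (inferInstance : Group P) with mul_comm := hcomm }
    let f : P →* P := powMonoidHom p
    have hox : ∀ i, Nat.card (zpowers (x i)) = p := fun i => by
      rw [Nat.card_zpowers, orderOf_eq_prime (hxp i) (hx1 i)]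
    have hd : ∀ (H : Subgroup P) (i : Fin 3), H ≤ actFix P (zpowers (a i)) →
        Nat.card ↥(H ⊔ zpowers (x i)) = Nat.card H * p := by
      intro H i hH
      rw [card_sup_of_disjoint le_normalizer_of_normal, hox]
      refine eq_bot_iff.mpr ?_
      rintro y ⟨hy, k, rfl⟩
      have h1 : a i (x i ^ k) = x i ^ k := mem_actFix_zpowers.mp (hH hy)
      rw [map_zpow, hinv, inv_zpow] at h1
      exact hne _ h1
    have h1 : Nat.card ↥(zpowers (x 0) ⊔ zpowers (x 1) ⊔ zpowers (x 2)) = p * p * p := by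
      rw [hd, hd, hox]
      · exact zpowers_le.mpr (mem_actFix_zpowers.mpr f10)
      · exact sup_le (zpowers_le.mpr (mem_actFix_zpowers.mpr f20))
          (zpowers_le.mpr (mem_actFix_zpowers.mpr f21))
    have h2 : zpowers (x 0) ⊔ zpowers (x 1) ⊔ zpowers (x 2) ≤ f.ker :=
      sup_le (sup_le (zpowers_le.mpr (hxp 0)) (zpowers_le.mpr (hxp 1))) (zpowers_le.mpr (hxp 2))
    have h3 : Nat.card f.ker = f.range.index := by
      have a1 := f.ker.card_mul_index
      have a2 := f.range.card_mul_index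
      rw [index_ker, mul_comm] at a1
      exact Nat.eq_of_mul_eq_mul_left Nat.card_pos (a1.trans a2.symm)
    have h4 : f.range.index ∣ p * p := by
      have a1 : zpowers (QuotientGroup.mk' f.range u) ⊔ zpowers (QuotientGroup.mk' f.range v) = ⊤ := by
        rw [← MonoidHom.map_zpowers, ← MonoidHom.map_zpowers, ← Subgroup.map_sup, zpowers_eq_closure,
          zpowers_eq_closure, ← Subgroup.closure_union, Set.singleton_union, huv,
          map_top_of_surjective _ (QuotientGroup.mk'_surjective _)]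
      have a2 : ∀ w : P, Nat.card (zpowers (QuotientGroup.mk' f.range w)) ∣ p := fun w => by
        rw [Nat.card_zpowers, orderOf_dvd_iff_pow_eq_one, ← map_pow, QuotientGroup.mk'_apply,
          QuotientGroup.eq_one_iff]
        exact ⟨w, rfl⟩
      rw [index_eq_card, ← card_top, ← a1]
      exact (card_sup_dvd_mul _ _).trans (Nat.mul_dvd_mul (a2 u) (a2 v))
    have h5 := Nat.le_of_dvd (Nat.mul_pos hp.pos hp.pos) ((h1 ▸ card_dvd_of_le h2).trans (h3 ▸ h4))
    have := hp.one_lt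
    nlinarith
  · have : {T : MulAut P | T ∈ I ∧ T ≠ 1 ∧ B T} = {a 0, a 1, a 2} := Set.ext hBiff
    change Nat.card {T : MulAut P | T ∈ I ∧ T ≠ 1 ∧ B T} = 3
    have d : ∀ i j, i ≠ j → a i ≠ a j := fun i j hij h =>
      hxi j (by rw [← hinv, ← h, hfix i j hij])
    rw [this, Nat.card_coe_set_eq]
    exact Set.ncard_eq_three.mpr ⟨_, _, _, d 0 1 (by decide), d 0 2 (by decide), d 1 2 (by decide), rfl⟩
  · refine le_antisymm ((closure_le _).mpr fun T hT => hT.1) fun T hT => ?_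
    have c : ∀ i, a i ∈ closure {T : MulAut P | T ∈ I ∧ T ≠ 1 ∧ B T} := fun i =>
      subset_closure ⟨ha i, ha1 i, hBa i⟩
    rcases hall T hT with rfl | rfl | rfl | rfl | rfl | rfl | rfl | rfl
    · exact one_mem _
    · exact c 0
    · exact c 1
    · exact c 2
    · exact mul_mem (c 0) (c 1)
    · exact mul_mem (c 0) (c 2)
    · exact mul_mem (c 1) (c 2)
    · exact mul_mem (mul_mem (c 0) (c 1)) (c 2)
  · ext S
    constructor
    · intro hS
      rcases hI0 S hS with rfl | rfl | rfl | rfl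
      · exact ⟨a 0, a 0, ha _, ha _, ha1 _, ha1 _, hBa _, hBa _, (hsq _ (ha 0)).symm⟩
      all_goals exact ⟨a _, a _, ha _, ha _, ha1 _, ha1 _, hBa _, hBa _, rfl⟩
    · rintro ⟨T, T', h1, h2, h3, h4, h5, h6, rfl⟩
      exact hprod T h1 T' h2 h3 h4 h5 h6

end Cfsg.Agent.S4412
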