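import Cfsg.Statements.S4413
import Cfsg.Agent.PLOC.ESMinus32

set_option autoImplicit false
open Cfsg

namespace Cfsg.Agent.S4413

/-- Let P be an extraspecial 2-group of order 32 with no elementary abelian subgroup of order 8 (the central product of a dihedral and a quaternion group of order 8). Then the inner automorphism group of P has order 16 and the outer automorphism group Aut(P)/Inn(P) is isomorphic to the symmetric group of degree 5; in particular Aut(P) has order 1920. -/
theorem result {P : Type*} [Group P] [Finite P]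
    (hex : Cfsg.IsExtraspecial 2 P) (h32 : Nat.card P = 32)
    (hminus : ∀ A : Subgroup P, Cfsg.IsElementaryAbelian 2 A → Nat.card ↥A ≤ 4)
    [(MulAut.conj : P →* MulAut P).range.Normal] :
    Nat.card ↥(MulAut.conj : P →* MulAut P).range = 16 ∧ Nat.card (MulAut P) = 1920 ∧
      Nonempty ((MulAut P ⧸ (MulAut.conj : P →* MulAut P).range) ≃* Equiv.Perm (Fin 5)) := by
  obtain ⟨z, h, hc, -⟩ := CL.ES.exists_zdata hex
  have hd := h.finrank_eq_of_card (n := 4) h32
  have hpl : ¬ CL.Orth.IsPlus h.Q := by
    rw [h.isPlus_iff_not_pRankLE hc (m := 2) hd, not_not]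
    exact fun A h1 h2 => hminus A ⟨h1, h2⟩
  obtain ⟨e⟩ := CL.ES.nonempty_O_equiv_perm (h.nondegenerate_Q hc) hd hpl
  refine ⟨by rw [h.card_range_conj hc, h.card_V, hd]; rfl, ?_, ⟨?_⟩⟩
  · rw [h.card_mulAut hc, h.card_V, hd, Nat.card_congr e.toEquiv, Nat.card_perm, Nat.card_fin]
    rfl
  · exact ((QuotientGroup.quotientMulEquivOfEq (h.ker_autO hc).symm).trans
      (QuotientGroup.quotientKerEquivOfSurjective _ (h.autO_surjective hc))).trans e

end Cfsg.Agent.S4413
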