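import Cfsg.Statements.S4414
import Cfsg.Agent.FGS.HHSec
import Cfsg.Agent.FGS.DerLen

set_option autoImplicit false
open Cfsg

namespace Cfsg.Agent.S4414

open Module CL.HH
open scoped TensorProduct Pointwise

theorem bc_tmul {k G E : Type*} (K : Type*) [Field k] [Field K] [Algebra k K] [Group G]
    [AddCommGroup E] [Module k E] (ρ : Representation k G E) (g : G) (a : K) (e : E) :
    bc K ρ g (a ⊗ₜ e) = a ⊗ₜ ρ g e := rfl

theorem fixed_bc {k G E : Type*} (K : Type*) [Field k] [Field K] [Algebra k K] [Group G] [Finite G]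
    [AddCommGroup E] [Module k E] (ρ : Representation k G E) (T : Subgroup G)
    (E0 : Submodule k E) (hE0 : ∀ v, v ∈ E0 ↔ ∀ s ∈ T, ρ s v = v) (v : K ⊗[k] E)
    (hv : ∀ s ∈ T, bc K ρ s v = v) : v ∈ LinearMap.range (E0.subtype.baseChange K) := by
  classical
  have := Fintype.ofFinite T
  let f : E →ₗ[k] (T → E) := LinearMap.pi fun t => ρ t - LinearMap.id
  have hf : LinearMap.ker f = E0 := by
    ext v
    rw [hE0, LinearMap.mem_ker, funext_iff]
    simp [f, sub_eq_zero]
  have h1 : v ∈ LinearMap.ker (TensorProduct.AlgebraTensorModule.lTensor K K f) := by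
    rw [LinearMap.mem_ker, ← (TensorProduct.piRight k K K (fun _ : T => E)).map_eq_zero_iff]
    funext t
    have : ∀ w : K ⊗[k] E, TensorProduct.piRight k K K (fun _ : T => E)
        (TensorProduct.AlgebraTensorModule.lTensor K K f w) t = bc K ρ t w - w := by
      intro w
      induction w with
      | zero => simp
      | tmul a e => simp [f, bc_tmul, TensorProduct.tmul_sub]
      | add a b ha hb => rw [map_add, map_add, Pi.add_apply, ha, hb, map_add]; abel
    rw [this, hv t t.2, sub_self]; rfl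
  rw [Module.Flat.ker_lTensor_eq, hf] at h1
  exact h1

section wt
variable {K S V : Type*} [Field K] [Group S] [Finite S] [AddCommGroup V] [Module K V]
  (ρ : Representation K S V) (Q : Subgroup S) [Q.Normal]

instance act : MulAction S (Q →* K) where
  smul g l := l.comp (MulAut.conjNormal (H := Q) g⁻¹).toMonoidHom
  one_smul l := by ext x; change l (MulAut.conjNormal (1 : S)⁻¹ x) = l x; simp
  mul_smul a b l := by
    ext x
    change l (MulAut.conjNormal (a * b)⁻¹ x) = l (MulAut.conjNormal b⁻¹ (MulAut.conjNormal a⁻¹ x))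
    simp

omit [Finite S] in
theorem act_apply (g : S) (l : Q →* K) (x : Q) : (g • l) x = l (MulAut.conjNormal g⁻¹ x) := rfl

noncomputable def ee (l : Q →* K) : V →ₗ[K] V :=
  ∑ x ∈ (Set.toFinite (Set.univ : Set Q)).toFinset, l x⁻¹ • ρ x

omit [Q.Normal] in
theorem ee_eq [Fintype Q] (l : Q →* K) (v : V) : ee ρ Q l v = ∑ x : Q, l x⁻¹ • ρ x v := by
  simp [ee]

theorem ee_smul (g : S) (l : Q →* K) (v : V) : ee ρ Q (g • l) (ρ g v) = ρ g (ee ρ Q l v) := by
  have := Fintype.ofFinite Q
  rw [ee_eq, ee_eq, map_sum, ← Equiv.sum_comp (MulAut.conjNormal (H := Q) g).toEquiv]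
  refine Finset.sum_congr rfl fun x _ => ?_
  rw [map_smul, act_apply, ← rho_mul, ← rho_mul]
  have : (MulAut.conjNormal g⁻¹) ((MulAut.conjNormal (H := Q) g).toEquiv x)⁻¹ = x⁻¹ :=
    Subtype.ext (by simp [mul_assoc])
  rw [this]
  simp

omit [Q.Normal] in
open Classical in
theorem ee_wt {l m : Q →* K} {v : V} (hv : ∀ x : Q, ρ x v = l x • v) :
    ee ρ Q m v = if m = l then (Nat.card Q : K) • v else 0 := by
  have := Fintype.ofFinite Q
  rw [ee_eq]
  simp only [hv, smul_smul, ← Finset.sum_smul]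
  split_ifs with h
  · subst h
    simp only [← map_mul, inv_mul_cancel, map_one]
    simp
  · let f : Q →* K :=
      { toFun := fun x => m x⁻¹ * l x
        map_one' := by simp
        map_mul' := fun a b => by rw [mul_inv_rev, map_mul, map_mul]; ring }
    have hf : f ≠ 1 := by
      intro e
      apply h
      ext x
      have h1 : m x⁻¹ * l x = 1 := DFunLike.congr_fun e x
      calc m x = m x * (m x⁻¹ * l x) := by rw [h1, mul_one]
        _ = l x := by rw [← mul_assoc, ← map_mul, mul_inv_cancel, map_one, one_mul]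
    rw [show ∑ x : Q, m x⁻¹ * l x = 0 from sum_hom_units_eq_zero f hf, zero_smul]

omit [Finite S] in
theorem wt_smul (g : S) {l : Q →* K} {v : V} (hv : ∀ x : Q, ρ x v = l x • v) (x : Q) :
    ρ x (ρ g v) = (g • l) x • ρ g v := by
  rw [act_apply, ← map_smul, ← hv, ← rho_mul, ← rho_mul]
  simp

theorem exists_vec {p : ℕ} [Fact p.Prime] [CharP K p] (hQ : (Nat.card Q : K) ≠ 0) (T : Subgroup S)
    (hT : IsPGroup p T) {l : Q →* K} {v : V} (hv0 : v ≠ 0) (hv : ∀ x : Q, ρ x v = l x • v) :
    ∃ w : V, (∀ s ∈ T, ρ s w = w) ∧ ∀ m, ee ρ Q m w ≠ 0 ↔ m ∈ MulAction.orbit T l := by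
  classical
  let W : Submodule K V :=
    { carrier := {v | ∀ x : Q, ρ x v = l x • v}
      zero_mem' := by simp
      add_mem' := fun {a b} ha hb x => by rw [map_add, ha x, hb x, smul_add]
      smul_mem' := fun c a ha x => by rw [map_smul, ha x, smul_comm] }
  let T0 := MulAction.stabilizer T l
  let σ : Representation K T0 V := ρ.comp (T.subtype.comp T0.subtype)
  have hW : ∀ g, W ≤ W.comap (σ g) := by
    intro g w hw x
    have := wt_smul ρ Q (g : T) hw x
    rwa [show ((g : T) : S) • l = l from g.2] at this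
  haveI : Nontrivial W := ⟨⟨⟨v, hv⟩, 0, fun h => hv0 (congrArg Subtype.val h)⟩⟩
  obtain ⟨u, hu0, hu⟩ := CL.DL.exists_fixed (hT.to_subgroup T0) (σ.subrepresentation W hW)
  have hu' : ∀ g : T, g • l = l → ρ g u = u := fun g hg => congrArg Subtype.val (hu ⟨g, hg⟩)
  have : Finite (MulAction.orbit T l) := Set.finite_range _
  have := Fintype.ofFinite (MulAction.orbit T l)
  choose g hg using fun m : MulAction.orbit T l => m.2
  refine ⟨∑ m, ρ (g m) u, fun s hs => ?_, fun m => ?_⟩
  · rw [map_sum, ← Equiv.sum_comp (MulAction.toPerm (⟨s, hs⟩ : T)) (fun m => ρ (g m) u)]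
    refine Finset.sum_congr rfl fun m _ => ?_
    have h1 := hu' ((g ((⟨s, hs⟩ : T) • m))⁻¹ * ⟨s, hs⟩ * g m) (by
      have e1 : g m • l = m := hg m
      have e2 : g ((⟨s, hs⟩ : T) • m) • l = (⟨s, hs⟩ : T) • (m : Q →* K) := hg _
      rw [mul_smul, mul_smul, e1, ← e2, inv_smul_smul])
    change _ = ρ (g ((⟨s, hs⟩ : T) • m)) u
    conv_rhs => rw [← h1, ← rho_mul]
    rw [← rho_mul]
    simp [mul_assoc]
  · rw [map_sum]
    have h1 : ∀ n : MulAction.orbit T l, ee ρ Q m (ρ (g n) u) =
        if m = n then (Nat.card Q : K) • ρ (g n) u else 0 := by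
      intro n
      have := ee_wt ρ Q (m := m) (wt_smul ρ Q (g n) u.2)
      rwa [show ((g n : T) : S) • l = n from hg n] at this
    simp only [h1]
    constructor
    · intro h
      obtain ⟨n, -, hn⟩ := Finset.exists_ne_zero_of_sum_ne_zero h
      by_contra hm
      exact hn (if_neg fun e => hm (by rw [e]; exact n.2))
    · intro hm
      rw [Finset.sum_eq_single ⟨m, hm⟩ (fun n _ hn => if_neg fun e => hn (Subtype.ext e.symm))
        (by simp), if_pos rfl]
      refine smul_ne_zero hQ fun e => hu0 (Subtype.ext ?_)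
      exact rho_injective ρ _ (e.trans (map_zero _).symm)

omit [Q.Normal] in
theorem indep {ι : Type*} (w : ι → V) (m : ι → (Q →* K))
    (h : ∀ i j, ee ρ Q (m i) (w j) ≠ 0 ↔ i = j) : LinearIndependent K w := by
  classical
  rw [linearIndependent_iff']
  intro s c hc i hi
  have := congrArg (ee ρ Q (m i)) hc
  rw [map_sum, map_zero, Finset.sum_eq_single i (fun j _ hj => by
    rw [map_smul, not_not.mp ((h i j).not.mpr (Ne.symm hj)), smul_zero]) (fun h => absurd hi h),
    map_smul, smul_eq_zero] at this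
  exact this.resolve_right ((h i i).mpr rfl)

end wt


/-- Let S be a finite solvable group whose order is divisible only by the primes 2, p, q (p, q distinct odd primes), with a Sylow system S₂, S_p, S_q (pairwise permutable Sylow subgroups) such that: S_p is a minimal normal subgroup of S of order p or p²; S_q has order q and [S_p, S_q] = S_p; and O₂(S) = 1. Let E be an irreducible module for S over the field with two elements on which S_p acts faithfully, and E₀ the subspace of fixed points of S₂. Then either E₀ has at least 8 elements, or E₀ has exactly 4 elements and S_q does not leave E₀ invariant. -/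
theorem result {S : Type*} [Group S] [Finite S]
    [Group.IsSolvable S] (p q : ℕ) (hp : p.Prime) (hq : q.Prime) (hp2 : p ≠ 2) (hq2 : q ≠ 2) (hpq : p ≠ q)
    (hπ : ∀ r : ℕ, r.Prime → r ∣ Nat.card S → r = 2 ∨ r = p ∨ r = q)
    (S₂ : Sylow 2 S) (Sp : Sylow p S) (Sq : Sylow q S)
    (h2q : Nat.card ↥((S₂ : Subgroup S) ⊔ (Sq : Subgroup S)) = Nat.card ↥S₂ * Nat.card ↥Sq)
    (h2p : Nat.card ↥((S₂ : Subgroup S) ⊔ (Sp : Subgroup S)) = Nat.card ↥S₂ * Nat.card ↥Sp)
    (hpq' : Nat.card ↥((Sp : Subgroup S) ⊔ (Sq : Subgroup S)) = Nat.card ↥Sp * Nat.card ↥Sq)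
    (hSpN : (Sp : Subgroup S).Normal) (hSpmin : ∀ N : Subgroup S, N.Normal → N ≤ (Sp : Subgroup S) → N = ⊥ ∨ N = (Sp : Subgroup S))
    (hSpcard : Nat.card ↥Sp = p ∨ Nat.card ↥Sp = p ^ 2)
    (hSq : Nat.card ↥Sq = q) (hcomm : ⁅(Sp : Subgroup S), (Sq : Subgroup S)⁆ = (Sp : Subgroup S))
    (hO2 : Cfsg.pCore 2 S = ⊥)
    {E : Type*} [AddCommGroup E] [Module (ZMod 2) E] [Finite E] (ρ : Representation (ZMod 2) S E) (hE : Nontrivial E)
    (hirr : ∀ N : Submodule (ZMod 2) E, (∀ s : S, ∀ m ∈ N, ρ s m ∈ N) → N = ⊥ ∨ N = ⊤)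
    (hfaith : ∀ x ∈ (Sp : Subgroup S), ρ x = 1 → x = 1) :
    8 ≤ Nat.card {v : E // ∀ s ∈ (S₂ : Subgroup S), ρ s v = v} ∨
      (Nat.card {v : E // ∀ s ∈ (S₂ : Subgroup S), ρ s v = v} = 4 ∧
        ∃ x ∈ (Sq : Subgroup S), ∃ v : E, (∀ s ∈ (S₂ : Subgroup S), ρ s v = v) ∧ ¬ ∀ s ∈ (S₂ : Subgroup S), ρ s (ρ x v) = ρ x v) := by
  classical
  haveI := Fact.mk hp
  haveI := Fact.mk hq
  let K := AlgebraicClosure (ZMod 2)
  let σ := bc K ρ
  set Q : Subgroup S := (Sp : Subgroup S) with hQdef
  have hQ : (Nat.card Q : K) ≠ 0 := by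
    rw [Ne, CharP.cast_eq_zero_iff K 2]
    intro h
    have : 2 ∣ p := by
      rcases hSpcard with e | e
      · exact e ▸ h
      · exact Nat.prime_two.dvd_of_dvd_pow (e ▸ h)
    exact hp2 ((Nat.prime_dvd_prime_iff_eq Nat.prime_two hp).mp this).symm
  have hcommQ : IsMulCommutative Q := by
    rcases hSpcard with e | e
    · haveI := isCyclic_of_prime_card e
      exact IsCyclic.commutative
    · exact ⟨IsPGroup.commutative_of_card_eq_prime_sq e |> fun h => ⟨h⟩⟩
  have hQ1 : ¬ Q ≤ triv σ ⊤ := by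
    rw [triv_top, ker_bc]
    intro h
    have : Q = ⊥ := by
      rw [eq_bot_iff]
      exact fun x hx => hfaith x hx (h hx)
    have h2 : Nat.card Q = p ∨ Nat.card Q = p ^ 2 := hSpcard
    rw [this, Subgroup.card_bot] at h2
    have := hp.one_lt
    rcases h2 with e | e <;> nlinarith
  obtain ⟨U, -, hU, hU1⟩ := exists_irr_not_le_triv hQ inv_top hQ1
  have hsc : Q ≤ scal σ U := hU.le_scal hU.2.1.le_stab (by
    rw [Subgroup.commutator_eq_bot_iff_le_centralizer.mpr
      (Subgroup.le_centralizer_iff_isMulCommutative.mpr hcommQ)]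
    exact bot_le)
  obtain ⟨v, hvU, hv0⟩ := Submodule.exists_mem_ne_zero_of_ne_bot hU.1
  choose c hc0 hc using fun x : Q => mem_scal.mp (hsc x.2)
  let l : Q →* K :=
    { toFun := c
      map_one' := smul_left_injective K hv0 (by simpa using (hc 1 v hvU).symm)
      map_mul' := fun a b => smul_left_injective K hv0 (by
        have := hc (a * b) v hvU
        rw [Subgroup.coe_mul, rho_mul, hc b v hvU, map_smul, hc a v hvU, smul_smul, mul_comm] at this
        exact this.symm) }
  have hv : ∀ x : Q, σ x v = l x • v := fun x => hc x v hvU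
  have hl : l ≠ 1 := by
    intro e
    apply hU1
    intro x hx w hw
    have : c ⟨x, hx⟩ = 1 := DFunLike.congr_fun e ⟨x, hx⟩
    rw [hc ⟨x, hx⟩ w hw, this, one_smul]
  set T : Subgroup S := (S₂ : Subgroup S) with hTdef
  set B : Set (Q →* K) := MulAction.orbit T l with hB
  have hBfin : B.Finite := Set.finite_range _
  -- no nontrivial element of S_q stabilizes B
  have hmove : ∀ h ∈ (Sq : Subgroup S), h ≠ 1 → h • B ≠ B := by
    intro h hh h1 hst
    have hle : (Sq : Subgroup S) ≤ MulAction.stabilizer S B := by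
      haveI : Fact (Nat.card (Sq : Subgroup S)).Prime := ⟨by rw [show Nat.card (Sq : Subgroup S) = q from hSq]; exact hq⟩
      rcases ((MulAction.stabilizer S B).subgroupOf (Sq : Subgroup S)).eq_bot_or_eq_top_of_prime_card with e | e
      · exfalso
        have : (⟨h, hh⟩ : (Sq : Subgroup S)) ∈ (MulAction.stabilizer S B).subgroupOf (Sq : Subgroup S) := hst
        rw [e, Subgroup.mem_bot] at this
        exact h1 (congrArg Subtype.val this)
      · exact Subgroup.subgroupOf_eq_top.mp e
    let X : SubMulAction (Sq : Subgroup S) (Q →* K) :=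
      { carrier := B
        smul_mem' := fun g m hm => by
          have : (g : S) • B = B := hle g.2
          rw [← this]
          exact Set.smul_mem_smul_set hm }
    haveI : Finite X := hBfin
    have hcard : ¬ q ∣ Nat.card X := by
      have h1 : Nat.card X ∣ Nat.card T := by
        have := MulAction.index_stabilizer T l
        rw [← Nat.card_coe_set_eq] at this
        exact this ▸ Subgroup.index_dvd_card _
      obtain ⟨n, hn⟩ := IsPGroup.iff_card.mp S₂.isPGroup'
      intro h
      have := hq.dvd_of_dvd_pow (hn ▸ h.trans h1)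
      exact hq2 ((Nat.prime_dvd_prime_iff_eq hq Nat.prime_two).mp this)
    obtain ⟨⟨m, t, rfl⟩, hm⟩ := Sq.isPGroup'.nonempty_fixed_point_of_prime_not_dvd_card X hcard
    apply hl
    have hm' : ∀ y ∈ (Sq : Subgroup S), y • ((t : S) • l) = (t : S) • l := fun y hy =>
      congrArg Subtype.val (hm ⟨y, hy⟩)
    have h2 : (t : S) • l = 1 := by
      have : Q ≤ ((t : S) • l).ker.map Q.subtype := by
        conv_lhs => rw [← hcomm]
        rw [Subgroup.commutator_le]
        intro x hx y hy
        refine ⟨⟨x, hx⟩ * MulAut.conjNormal y (⟨x, hx⟩ : Q)⁻¹, ?_, by simp [commutatorElement_def, mul_assoc]⟩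
        have h3 := DFunLike.congr_fun (hm' y⁻¹ (Subgroup.inv_mem _ hy)) (⟨x, hx⟩ : Q)⁻¹
        rw [act_apply, inv_inv] at h3
        rw [SetLike.mem_coe, MonoidHom.mem_ker, map_mul, h3, ← map_mul, mul_inv_cancel, map_one]
      ext x
      obtain ⟨x', hx', e⟩ := this x.2
      rwa [show x' = x from Subtype.ext e] at hx'
    rw [← inv_smul_smul (t : S) l, h2]; rfl
  let E0 : Submodule (ZMod 2) E := Representation.invariants (V := E) (ρ.comp T.subtype)
  have hE0 : ∀ v, v ∈ E0 ↔ ∀ s ∈ T, ρ s v = v := fun v => ⟨fun h s hs => h ⟨s, hs⟩, fun h s => h s s.2⟩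
  have hcard : Nat.card {v : E // ∀ s ∈ T, ρ s v = v} = 2 ^ finrank (ZMod 2) E0 := by
    rw [← Nat.card_congr (Equiv.subtypeEquivRight hE0), Module.natCard_eq_pow_finrank (K := ZMod 2),
      Nat.card_zmod]
  have hdim : ∀ {ι : Type _} [Finite ι] (w : ι → K ⊗[ZMod 2] E), LinearIndependent K w →
      (∀ i, ∀ s ∈ T, σ s (w i) = w i) → Nat.card ι ≤ finrank (ZMod 2) E0 := by
    intro ι _ w hw hfix
    have := Fintype.ofFinite ι
    have h1 := LinearMap.finrank_range_le (E0.subtype.baseChange K)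
    rw [Module.finrank_baseChange] at h1
    refine le_trans ?_ h1
    rw [Nat.card_eq_fintype_card]
    exact (LinearIndependent.of_comp (Submodule.subtype _)
      (v := fun i => (⟨w i, fixed_bc K ρ T E0 hE0 _ (hfix i)⟩ :
        LinearMap.range (E0.subtype.baseChange K))) hw).fintype_card_le_finrank
  have hdim2 : ∀ {ι : Type} [Finite ι] (w : ι → K ⊗[ZMod 2] E), LinearIndependent K w →
      (∀ i, ∀ s ∈ T, σ s (w i) = w i) → Nat.card ι ≤ finrank (ZMod 2) E0 := by
    intro ι _ w hw hfix
    have := Fintype.ofFinite ι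
    have h1 := LinearMap.finrank_range_le (E0.subtype.baseChange K)
    rw [Module.finrank_baseChange] at h1
    refine le_trans ?_ h1
    rw [Nat.card_eq_fintype_card]
    exact (LinearIndependent.of_comp (Submodule.subtype _)
      (v := fun i => (⟨w i, fixed_bc K ρ T E0 hE0 _ (hfix i)⟩ :
        LinearMap.range (E0.subtype.baseChange K))) hw).fintype_card_le_finrank
  obtain ⟨w, hw, hwB⟩ := exists_vec σ Q hQ T S₂.isPGroup' hv0 hv
  have hq3 : 3 ≤ q := by have := hq.two_le; omega
  by_cases hinv : ∀ x ∈ (Sq : Subgroup S), ∀ v : E, (∀ s ∈ T, ρ s v = v) → ∀ s ∈ T, ρ s (ρ x v) = ρ x v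
  · left
    have hfix : ∀ x ∈ (Sq : Subgroup S), ∀ s ∈ T, σ s (σ x w) = σ x w := by
      intro x hx s hs
      obtain ⟨u, rfl⟩ := fixed_bc K ρ T E0 hE0 w hw
      clear hw hwB
      induction u with
      | zero => simp
      | tmul a e => simp [σ, bc_tmul, hinv x hx e ((hE0 e).mp e.2) s hs]
      | add a b ha hb => rw [map_add, map_add, map_add, ha, hb]
    have hsupp : ∀ (x : S) m, ee σ Q m (σ x w) ≠ 0 ↔ m ∈ x • B := by
      intro x m
      rw [Set.mem_smul_set_iff_inv_smul_mem, ← hwB, ← smul_inv_smul x m, ee_smul, inv_smul_smul,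
        Ne, Ne, (rho_injective σ x).eq_iff' (map_zero _)]
    have hnot : ∀ h ∈ (Sq : Subgroup S), h ≠ 1 → h • l ∉ B := by
      rintro h hh h1 ⟨t, ht⟩
      apply hmove h hh h1
      symm
      refine Set.eq_of_subset_of_ncard_le ?_ (by rw [Set.ncard_smul_set]) (hBfin.smul_set)
      rintro _ ⟨t', rfl⟩
      have e : (t' • l : Q →* K) = ((t' * t⁻¹ : T) : S) • h • l := by
        rw [← show t • l = h • l from ht]
        change _ = (t' * t⁻¹) • t • l
        rw [← mul_smul, inv_mul_cancel_right]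
      change (t' • l : Q →* K) ∈ _
      rw [e, ← hsupp, ← hfix h hh _ (t' * t⁻¹).2, ee_smul, Ne, (rho_injective σ _).eq_iff' (map_zero _),
        ← Ne, hsupp]
      exact Set.smul_mem_smul_set (MulAction.mem_orbit_self l)
    have := hdim (fun x : (Sq : Subgroup S) => σ x w) (indep σ Q _ (fun x => (x : S) • l) (by
      intro i j
      rw [hsupp, Set.mem_smul_set_iff_inv_smul_mem, ← mul_smul]
      constructor
      · intro h
        by_contra hne
        exact hnot _ (j⁻¹ * i).2 (fun e => hne (Subtype.ext (inv_mul_eq_one.mp e).symm)) h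
      · rintro rfl
        rw [inv_mul_cancel, one_smul]
        exact MulAction.mem_orbit_self l)) (fun i => hfix i i.2)
    rw [show Nat.card (Sq : Subgroup S) = q from hSq] at this
    rw [hcard]
    calc 8 = 2 ^ 3 := rfl
      _ ≤ _ := Nat.pow_le_pow_right (by norm_num) (by omega)
  · obtain ⟨y, hy, hy1⟩ : ∃ y ∈ (Sq : Subgroup S), y ≠ 1 := by
      by_contra! h
      have : (Sq : Subgroup S) = ⊥ := (Subgroup.eq_bot_iff_forall _).mpr h
      have h2 : Nat.card (Sq : Subgroup S) = q := hSq
      rw [this, Subgroup.card_bot] at h2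
      omega
    obtain ⟨_, ⟨_, ⟨t, rfl⟩, rfl⟩, hm⟩ : ∃ m ∈ y • B, m ∉ B := by
      by_contra! h
      exact hmove y hy hy1 (Set.eq_of_subset_of_ncard_le h (by rw [Set.ncard_smul_set]) hBfin)
    obtain ⟨w', hw', hwB'⟩ := exists_vec σ Q hQ T S₂.isPGroup' (l := y • (t : S) • l)
      (v := σ y (σ t v)) (fun e => hv0 (rho_injective σ _ (rho_injective σ y
        (by rw [e, map_zero, map_zero])))) (wt_smul σ Q y (wt_smul σ Q t hv))
    have := hdim2 (ι := Fin 2) ![w, w'] (indep σ Q _ ![l, y • (t : S) • l] (by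
      intro i j
      fin_cases i <;> fin_cases j
      · exact iff_of_true ((hwB _).mpr (MulAction.mem_orbit_self l)) rfl
      · exact iff_of_false (fun h => hm (MulAction.mem_orbit_symm.mp ((hwB' _).mp h))) (by decide)
      · exact iff_of_false (fun h => hm ((hwB _).mp h)) (by decide)
      · exact iff_of_true ((hwB' _).mpr (MulAction.mem_orbit_self _)) rfl)) (by
      intro i; fin_cases i
      exacts [hw, hw'])
    rw [Nat.card_eq_fintype_card, Fintype.card_fin] at this
    rcases this.eq_or_lt with e | e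
    · right
      refine ⟨by rw [hcard, ← e]; norm_num, ?_⟩
      push Not at hinv
      obtain ⟨x, hx, v, hv, s, hs, h⟩ := hinv
      exact ⟨x, hx, v, hv, fun h' => h (h' s hs)⟩
    · left
      rw [hcard]
      calc 8 = 2 ^ 3 := rfl
        _ ≤ _ := Nat.pow_le_pow_right (by norm_num) e

end Cfsg.Agent.S4414
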