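import Cfsg.Statements.S4417
import Cfsg.Agent.FGS.DerLen

set_option autoImplicit false
open Cfsg

namespace Cfsg.Agent.S4417

/-- Let F be a field with q elements, p a prime not dividing q, and e the multiplicative order of q modulo p; assume e ≤ n. Then every p-subgroup of GL_n(F) has derived length at most ⌊log₂(n/e)⌋ + 1: that term of its derived series is trivial (n/e is the integer quotient). -/
theorem result {F : Type*} [Field F] [Fintype F] (q : ℕ) (hF : Fintype.card F = q) (p : ℕ) [Fact p.Prime] (hpq : ¬ p ∣ q) (n e : ℕ) (he : e = orderOf (q : ZMod p)) (hen : e ≤ n) (P : Subgroup (GL (Fin n) F)) (hP : IsPGroup p P) : derivedSeries ↥P (Nat.log 2 (n / e) + 1) = ⊥ := by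
  subst hF
  by_cases hp2 : p = 2
  · subst hp2
    have h1 : (Fintype.card F : ZMod 2) = 1 := by
      have : (Fintype.card F : ZMod 2) ≠ 0 := fun h => hpq ((ZMod.natCast_eq_zero_iff _ _).mp h)
      simpa using ZMod.pow_card_sub_one_eq_one this
    rw [h1, orderOf_one] at he
    rw [he, Nat.div_one]
    exact CL.DL.derived_eq_bot_log_two 2 hP F n P.subtype P.subtype_injective
  · refine CL.DL.derived_eq_bot_finite hp2 hpq hP P.subtype P.subtype_injective _ ?_
    rw [← he]
    exact (Nat.lt_pow_succ_log_self one_lt_two _).trans_le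
      (Nat.pow_le_pow_left (Fact.out : p.Prime).two_le _)

end Cfsg.Agent.S4417
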