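import Cfsg.Statements.S4420

set_option autoImplicit false
open Cfsg

namespace Cfsg.Agent.S4420

/-- Structure of groups in which every element outside some proper subgroup has square 1. Let H be a finite group with a proper subgroup A such that every element outside A has square 1. Then H has an abelian normal subgroup B of index 2 such that every element outside B is an involution inverting every element of B; and if H is not an elementary abelian 2-group, B is the only abelian normal subgroup of index 2 with this property. -/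
theorem result {H : Type*} [Group H] [Finite H] (A : Subgroup H) (hA : A ≠ ⊤) (hD : ∀ x : H, x ∉ A → x ^ 2 = 1) :
    ∃ B : Subgroup H, B.Normal ∧ IsMulCommutative ↥B ∧ B.index = 2 ∧
      (∀ x : H, x ∉ B → x ^ 2 = 1 ∧ ∀ b ∈ B, x * b * x⁻¹ = b⁻¹) ∧
      (¬ (IsMulCommutative H ∧ ∀ x : H, x ^ 2 = 1) →
        ∀ B' : Subgroup H, B'.Normal → IsMulCommutative ↥B' → B'.index = 2 →
          (∀ x : H, x ∉ B' → x ^ 2 = 1 ∧ ∀ b ∈ B', x * b * x⁻¹ = b⁻¹) → B' = B) := by
  -- every element outside such a subgroup inverts it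
  have hinv : ∀ x : H, x ∉ A → ∀ a ∈ A, x * a * x⁻¹ = a⁻¹ := by
    intro x hx a ha
    have h1 : x * a ∉ A := fun h => hx (by simpa using A.mul_mem h (A.inv_mem ha))
    have h2 := hD _ h1
    have h3 := hD _ hx
    rw [sq] at h2 h3
    have h4 : x⁻¹ = x := inv_eq_of_mul_eq_one_right h3
    rw [h4, eq_inv_iff_mul_eq_one]
    simpa [mul_assoc] using h2
  have comm_of_sq : (∀ x : H, x ^ 2 = 1) → ∀ a b : H, a * b = b * a := by
    intro h a b
    have h1 : ∀ x : H, x⁻¹ = x := fun x => inv_eq_of_mul_eq_one_right (by rw [← sq]; exact h x)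
    rw [← h1 (a * b), mul_inv_rev, h1, h1]
  have huniq : ∀ B : Subgroup H, B.index = 2 →
      (∀ x : H, x ∉ B → x ^ 2 = 1 ∧ ∀ b ∈ B, x * b * x⁻¹ = b⁻¹) →
      (¬ (IsMulCommutative H ∧ ∀ x : H, x ^ 2 = 1) →
        ∀ B' : Subgroup H, B'.Normal → IsMulCommutative ↥B' → B'.index = 2 →
          (∀ x : H, x ∉ B' → x ^ 2 = 1 ∧ ∀ b ∈ B', x * b * x⁻¹ = b⁻¹) → B' = B) := by
    intro B hB hBx hne B' _ hc hB' hB'x
    obtain ⟨g, hg⟩ : ∃ g : H, g ^ 2 ≠ 1 := by
      by_contra hcon
      push Not at hcon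
      exact hne ⟨⟨⟨comm_of_sq hcon⟩⟩, hcon⟩
    have hgB : g ∈ B := by
      by_contra h
      exact hg (hBx g h).1
    have hgB' : g ∈ B' := by
      by_contra h
      exact hg (hB'x g h).1
    have hle : B' ≤ B := by
      intro x hx
      by_contra hxB
      have h1 := (hBx x hxB).2 g hgB
      have h2 : x * g = g * x :=
        congrArg Subtype.val (hc.is_comm.comm (⟨x, hx⟩ : B') ⟨g, hgB'⟩)
      rw [h2, mul_inv_cancel_right] at h1
      apply hg
      rw [sq]
      exact mul_eq_one_iff_eq_inv.2 h1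
    by_contra hneq
    have := Subgroup.index_strictAnti (lt_of_le_of_ne hle hneq)
    omega
  obtain ⟨x, hx⟩ : ∃ x : H, x ∉ A := by
    by_contra hcon
    push Not at hcon
    exact hA (eq_top_iff.2 fun y _ => hcon y)
  by_cases h2 : A.index = 2
  · refine ⟨A, Subgroup.normal_of_index_eq_two h2, ⟨⟨fun a b => Subtype.ext ?_⟩⟩, h2,
      fun y hy => ⟨hD y hy, hinv y hy⟩, huniq A h2 (fun y hy => ⟨hD y hy, hinv y hy⟩)⟩
    have ha := hinv x hx a a.2
    have hb := hinv x hx b b.2
    have hab := hinv x hx (a * b) (A.mul_mem a.2 b.2)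
    have h5 : x * (a * b) * x⁻¹ = (x * a * x⁻¹) * (x * b * x⁻¹) := by group
    rw [h5, ha, hb, ← mul_inv_rev] at hab
    exact (inv_injective hab).symm
  · have hsq : ∀ y : H, y ^ 2 = 1 := by
      obtain ⟨b, hb1, hb2⟩ : ∃ b : H, b * x ∉ A ∧ b ∉ A := by
        by_contra hcon
        push Not at hcon
        apply h2
        rw [Subgroup.index_eq_two_iff]
        refine ⟨x, fun b => ?_⟩
        by_cases hb : b ∈ A
        · exact Or.inr ⟨hb, fun h => hx (by simpa using A.mul_mem (A.inv_mem hb) h)⟩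
        · refine Or.inl ⟨?_, hb⟩
          by_contra h
          exact hb (hcon b h)
      intro y
      by_cases hy : y ∈ A
      · have e1 := hinv _ hb1 y hy
        have e2 := hinv _ hx y hy
        have e3 := hinv _ hb2 y⁻¹ (A.inv_mem hy)
        have e4 : b * x * y * (b * x)⁻¹ = b * (x * y * x⁻¹) * b⁻¹ := by group
        rw [e4, e2, e3, inv_inv] at e1
        rw [sq]
        exact mul_eq_one_iff_eq_inv.2 e1
      · exact hD y hy
    have hcomm := comm_of_sq hsq
    have : Fact (Nat.Prime 2) := ⟨Nat.prime_two⟩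
    have hP : IsPGroup 2 H := fun g => ⟨1, by simpa using hsq g⟩
    have hnt : Nontrivial H := ⟨⟨x, 1, fun h => hx (h ▸ A.one_mem)⟩⟩
    obtain ⟨n, hn0, hn⟩ := hP.nontrivial_iff_card.1 hnt
    obtain ⟨m, rfl⟩ : ∃ m, n = m + 1 := ⟨n - 1, by omega⟩
    obtain ⟨B, hB⟩ := Sylow.exists_subgroup_card_pow_prime (G := H) 2 (n := m)
      (by rw [hn]; exact pow_dvd_pow 2 (Nat.le_succ m))
    have hBi : B.index = 2 := by
      have := B.card_mul_index
      rw [hB, hn, pow_succ] at this
      exact Nat.eq_of_mul_eq_mul_left (by positivity) this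
    have hBx : ∀ y : H, y ∉ B → y ^ 2 = 1 ∧ ∀ b ∈ B, y * b * y⁻¹ = b⁻¹ := by
      intro y _
      refine ⟨hsq y, fun b _ => ?_⟩
      rw [hcomm y b, mul_inv_cancel_right, eq_inv_iff_mul_eq_one, ← sq]
      exact hsq b
    exact ⟨B, Subgroup.normal_of_index_eq_two hBi, ⟨⟨fun a b => Subtype.ext (hcomm a b)⟩⟩, hBi,
      hBx, huniq B hBi hBx⟩

end Cfsg.Agent.S4420
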