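import Cfsg.Statements.S4501
import Cfsg.Agent.INV.GW.Cor2
import Cfsg.Agent.INV.Def1Ex
import Cfsg.Agent.KSG.PSL2Basic
import Cfsg.Agent.INV.SmallPSL
import Cfsg.Agent.S0992
import Cfsg.Agent.S0998
import Cfsg.Agent.S0253

set_option autoImplicit false
open Cfsg

namespace Cfsg.Agent.S4501

theorem exists_odd_prime {n n' m : ℕ} (h : n * n' = 8 * m) (hm : Odd m) (hn' : Even n')
    (h4 : 4 < n) : ∃ s, s.Prime ∧ s ≠ 2 ∧ s ∣ n := by
  obtain ⟨k, o, ho, rfl⟩ := Nat.exists_eq_two_pow_mul_odd (show n ≠ 0 by omega)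
  by_cases h1 : o = 1
  · obtain ⟨c, rfl⟩ := hn'
    rw [h1, mul_one] at h h4
    obtain ⟨j, rfl⟩ : ∃ j, k = j + 3 := ⟨k - 3, by
      by_contra h2
      have : k ≤ 2 := by omega
      interval_cases k <;> omega⟩
    rw [show 2 ^ (j + 3) * (c + c) = 16 * (2 ^ j * c) by ring] at h
    obtain ⟨d, rfl⟩ := hm
    omega
  obtain ⟨s, hs, h2⟩ := Nat.exists_prime_and_dvd h1
  refine ⟨s, hs, ?_, h2.mul_left _⟩
  rintro rfl
  exact Nat.not_even_iff_odd.2 ho (even_iff_two_dvd.2 h2)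

theorem part_one {G : Type*} [Group G] [Finite G] [IsSimpleGroup G] (hG : ¬ IsMulCommutative G)
    {p q m : ℕ} (hm : Odd m) (hc : Nat.card G = 4 * m)
    (h : ∀ s, s.Prime → s ∣ m → s = p ∨ s = q) : Nonempty (G ≃* alternatingGroup (Fin 5)) := by
  classical
  have : Fact (Nat.Prime 2) := ⟨Nat.prime_two⟩
  have h8 : ¬ 8 ∣ Nat.card G := by obtain ⟨d, rfl⟩ := hm; omega
  have := (Cfsg.Agent.S0992.result hG ⟨2 * m, by omega⟩ h8 default).1
  obtain ⟨e⟩ := IsKleinFour.nonempty_mulEquiv (G₁ := ((default : Sylow 2 G) : Subgroup G))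
    (G₂ := DihedralGroup 2)
  rcases CL.GW.known_of_simple hG (CL.GW.d2_of_dihedral _ e) with ⟨r, hr, h3, F, _, _, rfl, ⟨φ⟩⟩ | ⟨⟨φ⟩⟩
  swap
  · refine absurd ?_ h8
    rw [Nat.card_congr φ.toEquiv, nat_card_alternatingGroup]
    simp [Nat.factorial]
  have h1 := CL.GL2.gcd_mul_card_PSL2 (F := F)
  obtain ⟨k, hk⟩ := hr
  by_cases h5 : Fintype.card F = 5
  · exact ⟨φ.trans (Cfsg.Agent.S0253.result h5).some⟩
  exfalso
  rw [← Nat.card_congr φ.toEquiv, hc, hk, Nat.add_sub_cancel, Nat.gcd_eq_left (dvd_mul_right 2 k)]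
    at h1
  obtain ⟨s₁, a₁, b₁⟩ := Nat.exists_prime_and_dvd (show 2 * k + 1 ≠ 1 by omega)
  have c₁ : s₁ ≠ 2 := by rintro rfl; omega
  have h2 : Odd (2 * k + 1) := ⟨k, rfl⟩
  obtain ⟨s₂, a₂, c₂, b₂⟩ := exists_odd_prime (n := 2 * k) (n' := (2 * k + 1) * (2 * k + 1 + 1))
    (by linarith) hm (Even.mul_left ⟨k + 1, by ring⟩ _) (by omega)
  obtain ⟨s₃, a₃, c₃, b₃⟩ := exists_odd_prime (n := 2 * k + 1 + 1) (n' := (2 * k + 1) * (2 * k))
    (by linarith) hm (Even.mul_left ⟨k, by ring⟩ _) (by omega)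
  have h6 : ∀ s, s.Prime → s ≠ 2 → s ∣ 2 * (4 * m) → s = p ∨ s = q := fun s hs h2 h6 =>
    h s hs ((((Nat.coprime_primes hs Nat.prime_two).2 h2).pow_right 3).dvd_of_dvd_mul_left
      (by rwa [← mul_assoc] at h6))
  have d₁ := h6 s₁ a₁ c₁ (h1 ▸ (b₁.mul_right _).mul_right _)
  have d₂ := h6 s₂ a₂ c₂ (h1 ▸ b₂.mul_left _)
  have d₃ := h6 s₃ a₃ c₃ (h1 ▸ (b₃.mul_left _).mul_right _)
  have e₁ : s₁ ≠ s₂ := by
    rintro rfl; exact a₁.not_dvd_one ((Nat.dvd_add_right b₂).1 b₁)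
  have e₂ : s₁ ≠ s₃ := by
    rintro rfl; exact a₁.not_dvd_one ((Nat.dvd_add_right b₁).1 b₃)
  have e₃ : s₂ ≠ s₃ := by
    rintro rfl
    exact c₂ ((Nat.prime_dvd_prime_iff_eq a₂ Nat.prime_two).1 ((Nat.dvd_add_right b₂).1 b₃))
  omega

theorem pow_of_coprime {p q a b m n : ℕ} (hp : p.Prime) (hq : q.Prime) (hm : m ∣ p ^ a * q ^ b)
    (hn : n ∣ p ^ a * q ^ b) (h : m.Coprime n) (h1 : 2 ≤ m) (h2 : 2 ≤ n) :
    (m ∣ p ^ a ∧ n ∣ q ^ b) ∨ (n ∣ p ^ a ∧ m ∣ q ^ b) := by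
  have key : ∀ {m n : ℕ}, m ∣ p ^ a * q ^ b → n ∣ p ^ a * q ^ b → m.Coprime n → 2 ≤ n → p ∣ m →
      m ∣ p ^ a ∧ n ∣ q ^ b := fun {m n} hm hn h h2 h3 => by
    have h4 : n ∣ q ^ b := ((h.coprime_dvd_left h3).symm.pow_right a).dvd_of_dvd_mul_left hn
    obtain ⟨s, hs, h5⟩ := Nat.exists_prime_and_dvd (show n ≠ 1 by omega)
    obtain rfl := (Nat.prime_dvd_prime_iff_eq hs hq).1 (hs.dvd_of_dvd_pow (h5.trans h4))
    exact ⟨((h.coprime_dvd_right h5).pow_right b).dvd_of_dvd_mul_right hm, h4⟩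
  by_cases h3 : p ∣ m
  · exact Or.inl (key hm hn h h2 h3)
  by_cases h4 : p ∣ n
  · exact Or.inr (key hn hm h.symm h1 h4)
  exfalso
  have h5 := fun k (hk : ¬ p ∣ k) (h : k ∣ p ^ a * q ^ b) =>
    (((Nat.Prime.coprime_iff_not_dvd hp).2 hk).symm.pow_right a).dvd_of_dvd_mul_left h
  obtain ⟨s, hs, h6⟩ := Nat.exists_prime_and_dvd (show n ≠ 1 by omega)
  obtain ⟨t, ht, h7⟩ := Nat.exists_prime_and_dvd (show m ≠ 1 by omega)
  obtain rfl := (Nat.prime_dvd_prime_iff_eq hs hq).1 (hs.dvd_of_dvd_pow (h6.trans (h5 n h4 hn)))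
  obtain rfl := (Nat.prime_dvd_prime_iff_eq ht hq).1 (ht.dvd_of_dvd_pow (h7.trans (h5 m h3 hm)))
  exact ht.not_dvd_one (h ▸ Nat.dvd_gcd h7 h6)

theorem exists_degrees {G : Type*} [Group G] [Finite G] [IsSimpleGroup G]
    (hG : ¬ IsMulCommutative G) {m : ℕ} (hc : Nat.card G = 3 * m) (hm : ¬ 3 ∣ m) :
    ∃ χ θ : IrrCharacter G, 2 ≤ charDegree χ.1 ∧ charDegree θ.1 = charDegree χ.1 + 1 ∧
      charDegree χ.1 ∣ m ∧ charDegree θ.1 ∣ m := by
  have : Fact (Nat.Prime 3) := ⟨Nat.prime_three⟩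
  let P : Sylow 3 G := default
  have hP : Nat.card P = 3 := CL.Small.card_sylow_eq_of_factor P (a := 1) hc hm
  obtain ⟨e, k, h1, h2, -, -, h3, -⟩ := CL.Small.prime_sylow_data hG P hP
  obtain rfl : e = 2 := by have := Nat.le_of_dvd two_pos h2; omega
  have hperf := CL.Small.commutator_eq_top hG
  obtain ⟨D⟩ := CL.D1.exists_data hperf (by norm_num) P hP h3
  obtain ⟨χ, hχ⟩ := Finset.card_eq_one.1 (show D.X.card = 1 by have := D.card_X; omega)
  have hχ' : χ ∈ D.X := by simp [hχ]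
  obtain ⟨θ, hθ⟩ := D.Y_nonempty
  have h4 := D.deg_eqn hθ
  have h5 := CL.D1.degree_ne_one hperf (D.ne_one (Or.inl hχ'))
  have h6 := CL.D1.degree_ne_one hperf (D.ne_one (Or.inr hθ))
  obtain ⟨x, -, hx⟩ := CL.Small.exists_mem_orderOf_eq_prime (P : Subgroup G) 3 hP.symm.dvd
  have h7 : ∀ ψ, ψ ∈ D.X ∨ ψ ∈ D.Y → charDegree ψ.1 ∣ m := fun ψ hψ =>
    ((Nat.Prime.coprime_iff_not_dvd Nat.prime_three).2
      (D.not_dvd_deg hx hψ)).symm.dvd_of_dvd_mul_left (hc ▸ ψ.2.charDegree_dvd_card)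
  rw [hχ, Finset.sum_singleton] at h4
  rcases D.ε_sign with a | a <;> rcases D.δ_sign χ hχ' with b | b <;> rw [a, b] at h4
  · exact ⟨χ, θ, h5, by omega, h7 _ (Or.inl hχ'), h7 _ (Or.inr hθ)⟩
  · omega
  · omega
  · exact ⟨θ, χ, h6, by omega, h7 _ (Or.inr hθ), h7 _ (Or.inl hχ')⟩

theorem degree_ne {G : Type*} [Group G] [Finite G] [IsSimpleGroup G]
    (hG : ¬ IsMulCommutative G) {p m : ℕ} (hp : p.Prime) (hc : Nat.card G = p ^ 2 * m)
    (hm : ¬ p ∣ m) (χ : IrrCharacter G) : charDegree χ.1 ≠ p := fun h => by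
  have := Fact.mk hp
  let P : Sylow p G := default
  have hP : Nat.card P = p ^ 2 := CL.Small.card_sylow_eq_of_factor P hc hm
  have := IsPGroup.isMulCommutative_of_card_eq_prime_sq hP
  have hker := χ.2.charKer_eq_bot_of_simple fun e => by
    rw [e, CL.Char.charDegree_const_one] at h
    exact hp.one_lt.ne h
  have h1 := CL.D1.card_dvd_of_vanish χ.2.isGen P (n := p) (fun y hy h1 => by
    refine (χ.2.eq_zero_or_norm_eq y ?_).resolve_right fun h2 => h1 ?_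
    · rw [h, hp.coprime_iff_not_dvd]
      refine fun h2 => P.not_dvd_index (h2.trans (Subgroup.index_dvd_of_le fun z hz => ?_))
      exact Subgroup.mem_centralizer_singleton_iff.2 (setLike_mul_comm hz hy)
    · have := χ.2.mem_charCenter.2 h2
      rwa [χ.2.charCenter_eq_center hker, CL.Small.center_eq_bot hG] at this)
    (by rw [χ.2.apply_one_eq_charDegree, h]; simp)
  rw [hP, Int.natCast_dvd_natCast] at h1
  have := Nat.le_of_dvd hp.pos h1
  have := hp.two_le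
  nlinarith

/-- Let G be a non-abelian finite simple group and p, q distinct primes. If the order of G is 4·p^a·q^b with a ≤ 2, then G is isomorphic to the alternating group of degree 5. If the order of G is 3·p^a·q^b with a ≤ 2, then G is isomorphic to the alternating group of degree 5 or to PSL(2,7). -/
theorem result {G : Type*} [Group G] [Finite G] [IsSimpleGroup G] (hna : ∃ x y : G, x * y ≠ y * x) (p q a b : ℕ) (hp : p.Prime) (hq : q.Prime) (hpq : p ≠ q) (ha : a ≤ 2) : (Nat.card G = 4 * p ^ a * q ^ b → Nonempty (G ≃* alternatingGroup (Fin 5))) ∧ (Nat.card G = 3 * p ^ a * q ^ b → Nonempty (G ≃* alternatingGroup (Fin 5)) ∨ Nonempty (G ≃* Matrix.ProjectiveSpecialLinearGroup (Fin 2) (ZMod 7))) := by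
  classical
  obtain ⟨x, y, hxy⟩ := hna
  have hG : ¬ IsMulCommutative G := fun h => hxy (mul_comm' x y)
  have h2 : ∀ {r s i j : ℕ}, r.Prime → s.Prime → Nat.card G ≠ r ^ i * s ^ j := fun hr hs h =>
    hxy (CL.Char.mul_comm_of_simple_of_card_dvd hr hs h.dvd x y)
  have h3 : ∀ {r s : ℕ} (i j : ℕ), r.Prime → s.Prime → ∀ t, t.Prime → t ∣ r ^ i * s ^ j →
      t = r ∨ t = s := fun i j hr hs t ht h => ((Nat.Prime.dvd_mul ht).1 h).imp
    (fun h => (Nat.prime_dvd_prime_iff_eq ht hr).1 (ht.dvd_of_dvd_pow h))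
    fun h => (Nat.prime_dvd_prime_iff_eq ht hs).1 (ht.dvd_of_dvd_pow h)
  refine ⟨fun hc => ?_, fun hc => ?_⟩
  · have hp2 : p ≠ 2 := by
      rintro rfl; exact h2 (i := 2 + a) (j := b) hp hq (by rw [hc]; ring)
    have hq2 : q ≠ 2 := by
      rintro rfl; exact h2 (i := a) (j := 2 + b) hp hq (by rw [hc]; ring)
    exact part_one hG ((hp.odd_of_ne_two hp2).pow.mul (hq.odd_of_ne_two hq2).pow)
      (hc.trans (mul_assoc _ _ _)) (h3 a b hp hq)
  have hp3 : p ≠ 3 := by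
    rintro rfl; exact h2 (i := 1 + a) (j := b) hp hq (by rw [hc]; ring)
  have hq3 : q ≠ 3 := by
    rintro rfl; exact h2 (i := a) (j := 1 + b) hp hq (by rw [hc]; ring)
  have h4 : ¬ IsCyclic G := fun h => hG inferInstance
  obtain rfl | rfl | rfl : a = 0 ∨ a = 1 ∨ a = 2 := by omega
  · exact absurd (by rw [hc]; ring) (h2 (i := 1) (j := b) Nat.prime_three hq)
  · rcases Cfsg.Agent.S0998.result h4 3 q p b Nat.prime_three hq hp hq3.symm hp3.symm hpq.symm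
      (by rw [hc, pow_one]) with ⟨F, _, _, hF, ⟨φ⟩⟩ | ⟨F, _, _, hF, ⟨φ⟩⟩
    · exact Or.inl ⟨φ.trans (Cfsg.Agent.S0253.result hF).some⟩
    · have : Fact (Nat.Prime 7) := ⟨by norm_num⟩
      exact Or.inr (CL.Small.psl_transfer (by rw [hF, ZMod.card]) ⟨φ⟩)
  by_cases hp2 : p = 2
  · subst hp2
    exact Or.inl (part_one hG (p := 3) (q := q) (m := 3 ^ 1 * q ^ b)
      (Odd.mul (by decide) (hq.odd_of_ne_two hpq.symm).pow) (by rw [hc]; ring)
      (h3 1 b Nat.prime_three hq))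
  exfalso
  obtain ⟨χ, θ, h5, h6, h7, h8⟩ := exists_degrees hG (hc.trans (mul_assoc _ _ _)) fun h => by
    rcases h3 2 b hp hq 3 Nat.prime_three h with h | h <;> omega
  have h9 := degree_ne hG hp (m := 3 * q ^ b) (by rw [hc]; ring) fun h => by
    rcases h3 1 b Nat.prime_three hq p hp (by rwa [pow_one]) with h | h <;> omega
  have h10 : ∀ ψ : IrrCharacter G, 2 ≤ charDegree ψ.1 → charDegree ψ.1 ∣ p ^ 2 →
      charDegree ψ.1 = p ^ 2 := fun ψ h10 h11 => by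
    obtain ⟨i, hi, h12⟩ := (Nat.dvd_prime_pow hp).1 h11
    have := h9 ψ
    interval_cases i
    · rw [pow_zero] at h12; omega
    · rw [pow_one] at h12; omega
    · exact h12
  obtain ⟨k, rfl⟩ := hp.odd_of_ne_two hp2
  have h11 : ∀ n, 2 ∣ n → n ∣ q ^ b → ∃ j, n = 2 ^ j := fun n h11 h12 => by
    obtain rfl := (Nat.prime_dvd_prime_iff_eq Nat.prime_two hq).1
      (Nat.prime_two.dvd_of_dvd_pow (h11.trans h12))
    obtain ⟨j, -, hj⟩ := (Nat.dvd_prime_pow hq).1 h12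
    exact ⟨j, hj⟩
  have hk : 2 ≤ k := by have := hp.two_le; omega
  rcases pow_of_coprime hp hq h7 h8 (by rw [h6]; simp) h5 (by omega) with ⟨a, b⟩ | ⟨a, b⟩
  · rw [h6, h10 _ h5 a] at b
    obtain ⟨j, hj⟩ := h11 _ ⟨2 * k ^ 2 + 2 * k + 1, by ring⟩ b
    rcases j with _ | _ | j
    · nlinarith
    · rw [zero_add, pow_one] at hj; nlinarith
    · rw [show (2 * k + 1) ^ 2 + 1 = 4 * (k ^ 2 + k) + 2 by ring, pow_succ, pow_succ] at hj
      omega
  · have h12 : charDegree χ.1 = 4 * (k * (k + 1)) := by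
      have := h10 θ (by omega) a
      nlinarith
    obtain ⟨l, hl⟩ := h11 _ ⟨2 * (k * (k + 1)), by rw [h12]; ring⟩ b
    have h13 : k * (k + 1) ∣ 2 ^ l := hl ▸ h12 ▸ dvd_mul_left _ _
    obtain ⟨i, -, hi⟩ := (Nat.dvd_prime_pow Nat.prime_two).1 ((dvd_mul_right _ _).trans h13)
    obtain ⟨j, -, hj⟩ := (Nat.dvd_prime_pow Nat.prime_two).1 ((dvd_mul_left _ _).trans h13)
    rcases i with _ | i
    · omega
    · rcases j with _ | j <;> omega

end Cfsg.Agent.S4501
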