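import Cfsg.Statements.S4518
import Cfsg.Agent.CHAR.Clifford
import Cfsg.Agent.CHAR.Galois

set_option autoImplicit false
open Cfsg

namespace Cfsg.Agent.S4518

open CL.Char


/-- Let N be a normal subgroup of the finite group G whose index is not divisible by the prime p, and let k be coprime to the order of G with k ^ (p ^ e) ≡ 1 modulo the order of G for some e (so g ↦ g ^ k induces a field automorphism of p-power order on character values). If an irreducible character χ of G satisfies χ (g ^ k) = χ g for all g, then every irreducible constituent θ of the restriction of χ to N satisfies θ (n ^ k) = θ n for all n. -/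
theorem result {G : Type*} [Group G] [Fintype G] (p : ℕ) [Fact p.Prime] (N : Subgroup G) [N.Normal] [Fintype N] (hidx : ¬ p ∣ N.index) (k e : ℕ) (hk : Nat.Coprime k (Nat.card G)) (hke : k ^ (p ^ e) ≡ 1 [MOD Nat.card G]) (χ : Cfsg.IrrCharacter G) (hχ : ∀ g : G, (χ : G → ℂ) (g ^ k) = (χ : G → ℂ) g) (θ : Cfsg.IrrCharacter N) (hθ : Cfsg.classInner (fun n : N => (χ : G → ℂ) n) (θ : N → ℂ) ≠ 0) : ∀ n : N, (θ : N → ℂ) (n ^ k) = (θ : N → ℂ) n := by
  classical
  have hkN : k.Coprime (Nat.card N) := hk.coprime_dvd_right (Subgroup.card_subgroup_dvd_card N)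
  let τ : (N → ℂ) → N → ℂ := fun φ n => φ (n ^ k)
  have hcomm : ∀ (g : G) (φ : N → ℂ), τ (conjN N g φ) = conjN N g (τ φ) := fun g φ => by
    funext n
    simp only [τ, conjN_eq_comp, map_pow]
  have hτθ : τ θ.1 ∈ conjugates N θ.1 := by
    refine mem_conjugates_of_under χ.2 θ.2 (θ.2.pow_coprime hkN) hθ ?_
    have := classInner_pow_coprime (fun n : N => (χ : G → ℂ) n) θ.1 hkN
    simp only [Subgroup.coe_pow, hχ] at this
    rwa [← this] at hθ
  have hmap : ∀ φ ∈ conjugates N θ.1, τ φ ∈ conjugates N θ.1 := fun φ hφ => by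
    obtain ⟨g, rfl⟩ := mem_conjugates.1 hφ
    obtain ⟨h, hh⟩ := mem_conjugates.1 hτθ
    rw [hcomm, ← hh, ← conjN_mul]
    exact conjN_mem_conjugates _ _
  let f : Function.End (conjugates N θ.1) := fun φ => ⟨τ φ.1, hmap _ φ.2⟩
  have hf : ∀ (m : ℕ) (φ : conjugates N θ.1) (n : N), ((f ^ m) φ).1 n = φ.1 (n ^ k ^ m) := by
    intro m
    induction m with
    | zero => intro φ n; rw [pow_zero, pow_zero, pow_one]; rfl
    | succ m ih =>
      intro φ n
      rw [pow_succ f, pow_succ k, pow_mul]
      exact ih (f φ) n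
  have hf1 : f ^ p ^ e = 1 := by
    funext φ
    refine Subtype.ext (funext fun n => ?_)
    rw [hf, pow_eq_pow_iff_modEq.2 (hke.of_dvd ((orderOf_dvd_natCard n).trans
      (Subgroup.card_subgroup_dvd_card N))), pow_one]
    rfl
  have h1 := Equiv.Perm.card_fixedPoints_modEq hf1
  have h2 : ¬ p ∣ Fintype.card (conjugates N θ.1) := by
    rw [Fintype.card_coe, card_conjugates]
    exact fun h => hidx (h.trans (Subgroup.index_dvd_of_le
      (le_inertia θ.2.isCharacter.isClassFunction)))
  have h3 : Nonempty f.fixedPoints := by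
    rw [← Fintype.card_pos_iff, Nat.pos_iff_ne_zero]
    intro h0
    rw [h0] at h1
    exact h2 ((Nat.modEq_zero_iff_dvd).1 h1)
  obtain ⟨⟨φ, hφ⟩, hfix⟩ := h3
  obtain ⟨g, rfl⟩ := mem_conjugates.1 hφ
  have h4 : τ (conjN N g θ.1) = conjN N g θ.1 := congrArg Subtype.val hfix
  rw [hcomm] at h4
  exact congrFun (conjN_injective g h4)

end Cfsg.Agent.S4518
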