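import Cfsg.Statements.S4519
import Cfsg.Agent.BLK.OddExt

set_option autoImplicit false
open Cfsg

namespace Cfsg.Agent.S4519

open CL.Char CL.OddExt


/-- Let N be a normal subgroup of odd index in the finite group G, and let k be coprime to the order of G with k ^ (2 ^ e) ≡ 1 modulo the order of G for some e and g ^ k = g⁻¹ for every element g of odd order (so g ↦ g ^ k induces a field automorphism of 2-power order inverting the roots of unity of odd order). If an irreducible character θ of N satisfies θ (n ^ k) = θ n for all n, then there is exactly one irreducible character χ of G with θ a constituent of its restriction to N and χ (g ^ k) = χ g for all g; moreover, if θ is invariant under conjugation by G, that χ restricts to θ. -/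
theorem result {G : Type*} [Group G] [Fintype G] (N : Subgroup G) [hN : N.Normal] [Fintype N] (hidx : Odd N.index) (k e : ℕ) (hk : Nat.Coprime k (Nat.card G)) (hke : k ^ (2 ^ e) ≡ 1 [MOD Nat.card G]) (hk₂ : ∀ g : G, Odd (orderOf g) → g ^ k = g⁻¹) (θ : Cfsg.IrrCharacter N) (hθ : ∀ n : N, (θ : N → ℂ) (n ^ k) = (θ : N → ℂ) n) : ∃ χ : Cfsg.IrrCharacter G, (Cfsg.classInner (fun n : N => (χ : G → ℂ) n) (θ : N → ℂ) ≠ 0 ∧ (∀ g : G, (χ : G → ℂ) (g ^ k) = (χ : G → ℂ) g) ∧ ((∀ g : G, ∀ n : N, (θ : N → ℂ) ⟨g * n * g⁻¹, hN.conj_mem n n.2 g⟩ = (θ : N → ℂ) n) → ∀ n : N, (χ : G → ℂ) n = (θ : N → ℂ) n)) ∧ ∀ χ' : Cfsg.IrrCharacter G, Cfsg.classInner (fun n : N => (χ' : G → ℂ) n) (θ : N → ℂ) ≠ 0 → (∀ g : G, (χ' : G → ℂ) (g ^ k) = (χ' : G → ℂ) g) → χ' = χ := by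
  classical
  obtain ⟨σ', hσ'⟩ := exists_ringEquiv_pow (Nat.card_pos (α := G)).ne' hk
  set σ : ℂ →+* ℂ := σ'.toRingHom
  have hσ : ∀ z : ℂ, z ^ Nat.card G = 1 → σ z = z ^ k := hσ'
  have hG : ∀ {χ : G → ℂ}, IsIrrCharacter G χ → ∀ g, σ (χ g) = χ (g ^ k) := fun h g =>
    h.isCharacter.gal_apply hσ pow_card_eq_one'
  have hθσ : ∀ n, σ (θ.1 n) = θ.1 n := fun n => by
    rw [θ.2.isCharacter.gal_apply hσ (Subtype.ext (by simp)), hθ]
  have hexp : Monoid.exponent (G ⧸ N) ∣ N.index := Group.exponent_dvd_nat_card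
  have hexp2 : Monoid.exponent (G ⧸ N) ∣ k + 1 := by
    rw [Monoid.exponent_dvd_iff_forall_pow_eq_one]
    intro x
    obtain ⟨g, rfl⟩ := QuotientGroup.mk_surjective x
    obtain ⟨a, b, hb, hab⟩ := Nat.exists_eq_two_pow_mul_odd (Nat.card_pos (α := G)).ne'
    have h1 : Odd (orderOf (g ^ 2 ^ a)) := hb.of_dvd_nat (orderOf_dvd_of_pow_eq_one (by
      rw [← pow_mul, ← hab, pow_card_eq_one']))
    have h2 : (g : G ⧸ N) ^ (2 ^ a * (k + 1)) = 1 := by
      rw [← QuotientGroup.mk_pow, pow_mul, pow_succ, hk₂ _ h1, inv_mul_cancel,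
        QuotientGroup.mk_one]
    have h3 : Odd (orderOf (g : G ⧸ N)) := hidx.of_dvd_nat (orderOf_dvd_natCard _)
    exact orderOf_dvd_iff_pow_eq_one.1 ((Nat.Coprime.pow_right a
      ((Nat.coprime_two_right).2 h3)).dvd_of_dvd_mul_left (orderOf_dvd_of_pow_eq_one h2))
  have h : Hyp σ (Monoid.exponent (G ⧸ N)) N := by
    refine ⟨hidx.of_dvd_nat hexp, fun g => ?_, fun z hz => ?_⟩
    · rw [← QuotientGroup.eq_one_iff, QuotientGroup.mk_pow, Monoid.pow_exponent_eq_one]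
    · obtain ⟨c, hc⟩ := hexp.trans N.index_dvd_card
      obtain ⟨d, hd⟩ := hexp2
      rw [hσ z (by rw [hc, pow_mul, hz, one_pow]), ← pow_succ, hd, pow_mul, hz, one_pow]
  obtain ⟨χ, hχ, h1, h2, h3⟩ := h.exists_unique θ.2 hθσ
  refine ⟨⟨χ, hχ⟩, ⟨h1 ▸ one_ne_zero, fun g => (hG hχ g).symm.trans (h2 g), fun hinv => ?_⟩,
    fun χ' h4 h5 => Subtype.ext (h3 _ χ'.2 h4 fun g => by rw [hG χ'.2, h5])⟩
  have := clifford_of_invariant hχ θ.2 (inertia_eq_top_iff.2 hinv) (h1 ▸ one_ne_zero)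
  rw [h1, one_smul] at this
  exact congrFun this

end Cfsg.Agent.S4519
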