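import Cfsg.Statements.S4520
import Cfsg.Agent.BLK.Princ2
import Cfsg.Agent.S4519
import Cfsg.Agent.CHAR.Gallagher

set_option autoImplicit false
open Cfsg

namespace Cfsg.Agent.S4520

open CL.Char CL.Blk

/-- Let N be a normal subgroup of odd index in the finite group G, M a maximal ideal of the algebraic integers containing 2, and k coprime to the order of G with k ^ (2 ^ e) ≡ 1 modulo the order of G for some e and g ^ k = g⁻¹ for every element g of odd order. Let θ be an irreducible character of N and χ an irreducible character of G over θ, both unchanged by composing with g ↦ g ^ k. Then χ lies in the principal 2-block of G if and only if θ lies in the principal 2-block of N. -/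
theorem result {G : Type*} [Group G] [Fintype G] (M : Ideal Cfsg.AlgInt) (hM : Cfsg.IsPModular 2 M) (N : Subgroup G) [N.Normal] [Fintype N] (hidx : Odd N.index) (k e : ℕ) (hk : Nat.Coprime k (Nat.card G)) (hke : k ^ (2 ^ e) ≡ 1 [MOD Nat.card G]) (hk₂ : ∀ g : G, Odd (orderOf g) → g ^ k = g⁻¹) (θ : Cfsg.IrrCharacter N) (hθ : ∀ n : N, (θ : N → ℂ) (n ^ k) = (θ : N → ℂ) n) (χ : Cfsg.IrrCharacter G) (hχ : ∀ g : G, (χ : G → ℂ) (g ^ k) = (χ : G → ℂ) g) (hover : Cfsg.classInner (fun n : N => (χ : G → ℂ) n) (θ : N → ℂ) ≠ 0) : χ ∈ Cfsg.principalBlock M G ↔ θ ∈ Cfsg.principalBlock M N := by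
  classical
  refine ⟨fun h => principal_of_under hM N h hover, fun h => ?_⟩
  obtain ⟨χ₀, -, huniq⟩ := Cfsg.Agent.S4519.result N hidx k e hk hke hk₂ θ hθ
  have := Fact.mk Nat.prime_two
  set π := powIrr hk with hπ
  have hpow : ∀ (j : ℕ) (ψ : IrrCharacter G) (g : G), ((π ^ j) ψ).1 g = ψ.1 (g ^ k ^ j) := by
    intro j
    induction j with
    | zero => simp
    | succ j ih => intro ψ g; rw [pow_succ', Equiv.Perm.mul_apply, powIrr_apply, ih, ← pow_mul,
        pow_succ']
  have hP : IsPGroup 2 (Subgroup.zpowers π) := by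
    obtain ⟨j, -, hj⟩ := (Nat.dvd_prime_pow Nat.prime_two).1 (orderOf_dvd_of_pow_eq_one
      (show π ^ 2 ^ e = 1 from Equiv.ext fun ψ => Subtype.ext (funext fun g => by
        rw [hpow, pow_eq_pow_iff_modEq.2 (hke.of_dvd (orderOf_dvd_natCard g)), pow_one]; rfl)))
    exact IsPGroup.of_card (by rw [Nat.card_zpowers, hj])
  let f : IrrCharacter G → ℂ := fun ψ =>
    classInner (fun n : N => ψ.1 n) θ.1 * regSum 2 ψ.1 / θ.1 1
  have hf : ∀ ψ, f (π ψ) = f ψ := fun ψ => by
    obtain ⟨σ, hσ⟩ := exists_gal_eq_pow G hk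
    obtain ⟨n, hn⟩ := exists_rat_regSum Nat.prime_two ψ.2.isCharacter.isGen
    have e1 : regSum 2 (π ψ).1 = regSum 2 ψ.1 := by
      rw [show (π ψ).1 = fun g => σ.toRingHom (ψ.1 g) from
        funext fun g => (hσ _ ψ.2.isCharacter.isGen g).symm, regSum_gal, hn, map_intCast]
    have e2 := classInner_pow_coprime (fun n : N => ψ.1 n) θ.1
      (hk.coprime_dvd_right N.card_subgroup_dvd_card)
    simp only [hθ] at e2
    simp only [f, e1, ← e2]
    rfl
  have hsum := sum_sub_sum_fixed_mem hM hP f (fun ψ => by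
    by_cases h0 : classInner (fun n : N => ψ.1 n) θ.1 = 0
    · simp only [f, h0, zero_mul, zero_div]; exact zero_mem _
    obtain ⟨m, hm⟩ := (ψ.2.isCharacter.res N).exists_nat_inner θ.2.isCharacter
    have e := clifford_degree ψ.2 θ.2 h0
    have : f ψ = m * (m * (inertia N θ.1).index) * (regSum 2 ψ.1 / ψ.1 1) := by
      have h1 := θ.2.one_ne_zero
      have h2 : ((inertia N θ.1).index : ℂ) ≠ 0 :=
        Nat.cast_ne_zero.2 Subgroup.index_ne_zero_of_finite
      simp only [f]
      rw [hm] at h0 e ⊢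
      rw [e]
      field_simp
    rw [this]
    exact mul_mem (mul_mem (natCast_mem _ _) (mul_mem (natCast_mem _ _) (natCast_mem _ _)))
      (regSum_div_mem_V ψ)) (by
    rintro ⟨u, hu⟩ ψ
    obtain ⟨j, rfl⟩ := mem_powers_iff_mem_zpowers.2 hu
    induction j with
    | zero => rfl
    | succ j ih => exact (show f (π ((π ^ j) ψ)) = _ from (hf _).trans
        (ih (Subgroup.pow_mem _ (Subgroup.mem_zpowers π) j))) ▸ congrArg f (by
          change (π ^ (j + 1)) ψ = _; rw [pow_succ', Equiv.Perm.mul_apply]))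
  have htot : ∑ ψ, f ψ = N.index * (regSum 2 θ.1 / θ.1 1) := by
    rw [← mul_div_assoc, ← regSum_indFun, indFun_eq_sum_inner_res θ.2.isCharacter, regSum_sum,
      Finset.sum_div]
    exact Finset.sum_congr rfl fun ψ _ => by rw [regSum_smul]
  obtain ⟨ψ, hψ, hψ0⟩ : ∃ ψ ∈ Finset.univ.filter
      (fun ψ : IrrCharacter G => ∀ u : Subgroup.zpowers π, u • ψ = ψ), f ψ ≠ 0 := by
    refine Finset.exists_ne_zero_of_sum_ne_zero fun h0 => ?_
    rw [h0, sub_zero, htot] at hsum
    exact mul_notMem_nonunits (mt (natCast_mem_nonunits_iff hM _).1 hidx.not_two_dvd_nat)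
      ((mem_principal_iff_regSum_div hM θ).1 h) hsum
  have h1 := mul_ne_zero_iff.1 (div_ne_zero_iff.1 hψ0).1
  rw [huniq χ hover hχ, ← huniq ψ h1.1 fun g => congrFun (congrArg Subtype.val
    ((Finset.mem_filter.1 hψ).2 ⟨π, Subgroup.mem_zpowers π⟩)) g]
  exact (mem_principal_iff_regSum hM ψ).2 h1.2

end Cfsg.Agent.S4520
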