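import Cfsg.Statements.S4521
import Cfsg.Agent.BLK.Princ2
-- import your own Cfsg.Agent.* helpers here

set_option autoImplicit false
open Cfsg

namespace Cfsg.Agent.S4521

/-- Let the finite group G be generated by subgroups U₁ and U₂ that commute elementwise and whose intersection is a p-group, and let M be a maximal ideal of the algebraic integers containing the prime p. If the irreducible character χ of G has the irreducible constituents ψ₁ on U₁ and ψ₂ on U₂, then χ lies in the principal block of G if and only if ψ₁ and ψ₂ lie in the principal blocks of U₁ and U₂. -/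
theorem result {G : Type*} [Group G] [Fintype G] (p : ℕ) [Fact p.Prime] (M : Ideal Cfsg.AlgInt) (hM : Cfsg.IsPModular p M) (U₁ U₂ : Subgroup G) [Fintype U₁] [Fintype U₂] (hcomm : ∀ u ∈ U₁, ∀ v ∈ U₂, u * v = v * u) (hgen : U₁ ⊔ U₂ = ⊤) (hZ : IsPGroup p ↥(U₁ ⊓ U₂)) (χ : Cfsg.IrrCharacter G) (ψ₁ : Cfsg.IrrCharacter U₁) (ψ₂ : Cfsg.IrrCharacter U₂) (h₁ : Cfsg.classInner (fun u : U₁ => (χ : G → ℂ) u) (ψ₁ : U₁ → ℂ) ≠ 0) (h₂ : Cfsg.classInner (fun u : U₂ => (χ : G → ℂ) u) (ψ₂ : U₂ → ℂ) ≠ 0) : χ ∈ Cfsg.principalBlock M G ↔ (ψ₁ ∈ Cfsg.principalBlock M U₁ ∧ ψ₂ ∈ Cfsg.principalBlock M U₂) := by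
  obtain ⟨α, β, hα, hβ, h⟩ := χ.2.exists_centralProd hcomm hgen
  have e1 : ψ₁ = ⟨α, hα⟩ := by
    have : (fun u : U₁ => (χ : G → ℂ) u) = β 1 • α := by
      funext u; have := h u 1; simp only [OneMemClass.coe_one, mul_one] at this
      rw [this, Pi.smul_apply, smul_eq_mul, mul_comm]
    rw [this] at h₁
    exact Subtype.ext (CL.Char.eq_of_inner_smul_ne_zero hα ψ₁.2 h₁).symm
  have e2 : ψ₂ = ⟨β, hβ⟩ := by
    have : (fun u : U₂ => (χ : G → ℂ) u) = α 1 • β := by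
      funext u; have := h 1 u; simp only [OneMemClass.coe_one, one_mul] at this
      rw [this, Pi.smul_apply, smul_eq_mul]
    rw [this] at h₂
    exact Subtype.ext (CL.Char.eq_of_inner_smul_ne_zero hβ ψ₂.2 h₂).symm
  let f : U₁ × U₂ →* G := U₁.subtype.noncommCoprod U₂.subtype fun a b => hcomm a a.2 b b.2
  have hf : Function.Surjective f := fun g => by
    obtain ⟨a, b, e⟩ := CL.Char.exists_mul_eq_of_commute hcomm hgen g
    exact ⟨(a, b), e⟩
  have hker : ∀ x ∈ f.ker, (x.1 : G) ∈ U₁ ⊓ U₂ ∧ (x.2 : G) = (x.1 : G)⁻¹ := fun x hx => by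
    have hx' : (x.1 : G) * x.2 = 1 := hx
    have e : (x.2 : G) = (x.1 : G)⁻¹ := eq_inv_of_mul_eq_one_right hx'
    exact ⟨Subgroup.mem_inf.2 ⟨x.1.2, U₂.inv_mem_iff.1 (e ▸ x.2.2)⟩, e⟩
  have hK : CL.Blk.RegCentralKer p f := by
    refine ⟨fun x => ?_, fun y _ x hx => ?_⟩
    · obtain ⟨k, hk⟩ := hZ ⟨_, (hker x x.2).1⟩
      have hk' : ((x : U₁ × U₂).1 : G) ^ p ^ k = 1 := congrArg Subtype.val hk
      refine ⟨k, Subtype.ext (Prod.ext (Subtype.ext hk') (Subtype.ext ?_))⟩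
      change (((x : U₁ × U₂).2 : G)) ^ p ^ k = 1
      rw [(hker x x.2).2, inv_pow, hk', inv_one]
    · refine Prod.ext (Subtype.ext ?_) (Subtype.ext ?_)
      · exact (hcomm _ y.1.2 _ (hker x hx).1.2).symm
      · refine hcomm _ ?_ _ y.2.2
        rw [(hker x hx).2]
        exact inv_mem x.1.2
  rw [← hK.infl_mem_principal_iff hM hf χ, e1, e2, ← CL.Blk.prod_mem_principal_iff hM]
  have : CL.Char.irrInfl f hf χ = CL.Char.irrProdEquiv U₁ U₂ (⟨α, hα⟩, ⟨β, hβ⟩) :=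
    Subtype.ext (funext fun x => h x.1 x.2)
  rw [this]

end Cfsg.Agent.S4521
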