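import Cfsg.Statements.S4533
import Cfsg.Agent.S4954
import Cfsg.Agent.S0029
import Cfsg.Agent.SOLV.PSolvable
import Cfsg.Agent.PLOC.PFrattini
import Cfsg.Agent.TECH.SylowIn

set_option autoImplicit false
open Cfsg

namespace Cfsg.Agent.S4533

open Subgroup

theorem lt_of {T Z : Type*} [Group T] [Group Z] [Finite Z] (V : Subgroup Z) [V.Normal] (hV : V ≠ ⊥)
    (j : T →* Z) (h1 : ∀ t, j t ∈ V → t = 1) (h2 : ∀ z : Z, ∃ s : T, (j s)⁻¹ * z ∈ V) :
    Nat.card (ConjClasses T) < Nat.card (ConjClasses Z) := by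
  have hinj : Function.Injective (ConjClasses.map j) := by
    intro a b hab
    obtain ⟨a, rfl⟩ := ConjClasses.mk_surjective a
    obtain ⟨b, rfl⟩ := ConjClasses.mk_surjective b
    have hc : IsConj (j a) (j b) := ConjClasses.mk_eq_mk_iff_isConj.1 hab
    obtain ⟨z, hz⟩ := isConj_iff.1 hc
    obtain ⟨s, hs⟩ := h2 z
    refine ConjClasses.mk_eq_mk_iff_isConj.2 (isConj_iff.2 ⟨s, ?_⟩)
    have : j (s * a * s⁻¹ * b⁻¹) ∈ V := by
      rw [← QuotientGroup.eq_one_iff] at hs ⊢
      have e : ((j s : Z) : Z ⧸ V) = (z : Z ⧸ V) := by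
        rw [QuotientGroup.mk_mul, QuotientGroup.mk_inv] at hs
        exact inv_mul_eq_one.1 hs
      simp only [map_mul, map_inv, ← hz, QuotientGroup.mk_mul, QuotientGroup.mk_inv, e]
      group
    exact mul_inv_eq_one.1 (h1 _ this)
  obtain ⟨⟨v, hv⟩, hv1⟩ := ne_bot_iff_exists_ne_one.1 hV
  have hns : ¬ Function.Surjective (ConjClasses.map j) := by
    intro hs
    obtain ⟨a, ha⟩ := hs (ConjClasses.mk v)
    obtain ⟨a, rfl⟩ := ConjClasses.mk_surjective a
    have hc : IsConj (j a) v := ConjClasses.mk_eq_mk_iff_isConj.1 ha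
    obtain ⟨z, hz⟩ := isConj_iff.1 hc.symm
    have : a = 1 := h1 a (hz ▸ (inferInstance : V.Normal).conj_mem v hv z)
    subst this
    rw [map_one, isConj_one_right] at hc
    exact hv1 (Subtype.ext hc)
  have := Fintype.ofFinite (ConjClasses Z)
  have : Finite (ConjClasses T) := Finite.of_injective _ hinj
  have := Fintype.ofFinite (ConjClasses T)
  rw [Nat.card_eq_fintype_card, Nat.card_eq_fintype_card]
  exact Fintype.card_lt_of_injective_not_surjective _ hinj hns

theorem key {X : Type*} [Group X] [Finite X] (p : ℕ) [hp : Fact p.Prime] (P : Subgroup X) [P.Normal]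
    (hP : IsPGroup p P) (hP1 : P ≠ ⊥) (hC : centralizer (P : Set X) ≤ P) (r : ℕ)
    (hr : Cfsg.SectionalPRankLE p r P) (T : Subgroup X) (hT : (Nat.card T).Coprime p) :
    Nat.card (ConjClasses T) < p ^ r := by
  let F : Subgroup X := (frattini P).map P.subtype
  have hFn : F.Normal := inferInstance
  have hFP : F ≤ P := map_subtype_le _
  let Y : Subgroup X := T ⊔ P
  let π := QuotientGroup.mk' (F.subgroupOf Y)
  let V : Subgroup (Y ⧸ F.subgroupOf Y) := (P.subgroupOf Y).map π
  have hVn : V.Normal := Normal.map inferInstance π (QuotientGroup.mk'_surjective _)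
  have hmem : ∀ y : Y, π y ∈ V ↔ (y : X) ∈ P := fun y => by
    constructor
    · rintro ⟨a, ha, e⟩
      have : a⁻¹ * y ∈ F.subgroupOf Y := QuotientGroup.eq.1 e
      have h2 : (a : X) * ((a : X)⁻¹ * y) ∈ P := mul_mem ha (hFP this)
      simpa using h2
    · exact fun h => ⟨y, h, rfl⟩
  have hone : ∀ y : Y, π y = 1 ↔ (y : X) ∈ F := fun y => QuotientGroup.eq_one_iff y
  have hdec : ∀ y : Y, ∃ t ∈ T, t⁻¹ * (y : X) ∈ P := fun y => by
    have : (y : X) ∈ ((T ⊔ P : Subgroup X) : Set X) := y.2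
    rw [mul_normal] at this
    obtain ⟨t, ht, a, ha, e⟩ := this
    exact ⟨t, ht, by rw [← e]; simpa using ha⟩
  have hTP : ∀ t ∈ T, t ∈ P → t = 1 := fun t ht htP => by
    obtain ⟨k, hk⟩ := hP ⟨t, htP⟩
    have h1 : orderOf t ∣ p ^ k := orderOf_dvd_of_pow_eq_one (by simpa using congrArg Subtype.val hk)
    have h2 : orderOf t ∣ Nat.card T := by
      simpa using orderOf_dvd_natCard (⟨t, ht⟩ : T)
    exact orderOf_eq_one_iff.1 (Nat.eq_one_of_dvd_coprimes (hT.pow_right k) h2 h1)
  have hexp : ∀ v ∈ V, v ^ p = 1 := by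
    rintro _ ⟨a, ha, rfl⟩
    rw [← map_pow, hone]
    exact CL.PG.pow_mem_frattini_map hP ha
  have hcomm : ∀ a ∈ V, ∀ b ∈ V, a * b = b * a := by
    rintro _ ⟨a, ha, rfl⟩ _ ⟨b, hb, rfl⟩
    rw [← commutatorElement_eq_one_iff_mul_comm, ← map_commutatorElement, hone]
    exact CL.PG.commutator_le_frattini_map hP (commutator_mem_commutator ha hb)
  have hidx : ¬ p ∣ V.index := by
    have : V.index = (P.subgroupOf Y).index := index_map_eq _ (QuotientGroup.mk'_surjective _)
      (by rw [QuotientGroup.ker_mk']; exact fun x hx => hFP hx)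
    rw [this]
    change ¬ p ∣ P.relIndex (T ⊔ P)
    rw [relIndex_sup_right]
    exact fun h => (hp.out.coprime_iff_not_dvd.1 hT.symm) (h.trans (relIndex_dvd_card _ _))
  have hself : centralizer (V : Set (Y ⧸ F.subgroupOf Y)) = V := by
    refine le_antisymm (fun z hz => ?_) fun z hz => mem_centralizer_iff.2 fun a ha => hcomm a ha z hz
    obtain ⟨y, rfl⟩ := QuotientGroup.mk'_surjective _ z
    obtain ⟨t, ht, hty⟩ := hdec y
    let t' : Y := ⟨t, mem_sup_left ht⟩
    have hc : π t' ∈ centralizer (V : Set (Y ⧸ F.subgroupOf Y)) := by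
      have h1 : π (t'⁻¹ * y) ∈ centralizer (V : Set (Y ⧸ F.subgroupOf Y)) :=
        mem_centralizer_iff.2 fun a ha => hcomm a ha _ ((hmem _).2 hty)
      have h2 := mul_mem hz (inv_mem h1)
      have e : π t' = π y * (π (t'⁻¹ * y))⁻¹ := by rw [← map_inv, ← map_mul]; congr 1; group
      rw [e]; exact h2
    have hcz : zpowers t ≤ centralizer (P : Set X) := by
      refine Cfsg.Agent.S0029.result (zpowers t) P (by rw [normalizer_eq_top]; exact le_top) ?_ ?_
      · obtain ⟨k, hk⟩ := (hP.to_subgroup (frattini P)).exists_card_eq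
        rw [hk]
        exact (Nat.Coprime.coprime_dvd_left (card_dvd_of_le (zpowers_le.2 ht)) hT).pow_right k
      · intro a ha k hk
        have ha' : (⟨a, mem_sup_left (zpowers_le.2 ht ha)⟩ : Y) ∈ zpowers t' := by
          obtain ⟨n, rfl⟩ := ha
          exact ⟨n, rfl⟩
        have h3 : π ⟨a, mem_sup_left (zpowers_le.2 ht ha)⟩ ∈
            centralizer (V : Set (Y ⧸ F.subgroupOf Y)) := by
          obtain ⟨n, e⟩ := ha'
          rw [← e]
          simpa using zpow_mem hc n
        have h4 := mem_centralizer_iff.1 h3 (π ⟨k, mem_sup_right hk⟩) ((hmem _).2 hk)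
        have h5 : π (⟨a, mem_sup_left (zpowers_le.2 ht ha)⟩ * ⟨k, mem_sup_right hk⟩ *
            (⟨a, mem_sup_left (zpowers_le.2 ht ha)⟩)⁻¹ * (⟨k, mem_sup_right hk⟩)⁻¹) = 1 := by
          simp only [map_mul, map_inv]
          rw [← h4]; group
        exact (hone _).1 h5
    have htP : t ∈ P := hC (hcz (mem_zpowers t))
    refine (hmem y).2 ?_
    simpa using mul_mem htP hty
  have hk := Cfsg.Agent.S4954.result p V hexp hidx hself
  have hV1 : V ≠ ⊥ := fun h => by
    have hle : frattini P = ⊤ := by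
      refine eq_top_iff.2 fun a _ => ?_
      have : π ⟨a, mem_sup_right a.2⟩ ∈ V := (hmem _).2 a.2
      rw [h, mem_bot, hone] at this
      obtain ⟨b, hb, e⟩ := this
      have : b = a := Subtype.ext e
      exact this ▸ hb
    have : (⊥ : Subgroup P) = ⊤ := frattini_nongenerating (by rw [hle]; simp)
    have h1 : Nontrivial P := (nontrivial_iff_ne_bot P).2 hP1
    exact bot_ne_top this
  have hlt := lt_of V hV1 (π.comp (inclusion (le_sup_left : T ≤ Y)))
    (fun t ht => Subtype.ext (hTP t t.2 ((hmem _).1 ht)))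
    (fun z => by
      obtain ⟨y, rfl⟩ := QuotientGroup.mk'_surjective _ z
      obtain ⟨t, ht, hty⟩ := hdec y
      refine ⟨⟨t, ht⟩, ?_⟩
      rw [MonoidHom.comp_apply, ← map_inv, ← map_mul]
      exact (hmem _).2 hty)
  have hcard : Nat.card V ≤ p ^ r := by
    let f : (⊤ : Subgroup P) →* (Y ⧸ F.subgroupOf Y) :=
      π.comp ((inclusion (le_sup_right : P ≤ Y)).comp (⊤ : Subgroup P).subtype)
    have hf : f.range = V := by
      ext z
      constructor
      · rintro ⟨a, rfl⟩
        exact (hmem _).2 a.1.2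
      · rintro ⟨a, ha, rfl⟩
        exact ⟨⟨⟨a, ha⟩, mem_top _⟩, rfl⟩
    let e := QuotientGroup.quotientKerEquivRange f
    have h1 := hr ⊤ f.ker ⊤ ⟨⟨fun a b => Subtype.ext (e.injective (Subtype.ext (by
      simp only [coe_mul, map_mul]
      exact hcomm _ (hf ▸ (e a).2) _ (hf ▸ (e b).2))))⟩⟩
      (fun a _ => e.injective (Subtype.ext (by
        simp only [map_pow, map_one, coe_pow, coe_one]
        exact hexp _ (hf ▸ (e a).2))))
    rw [card_top, Nat.card_congr e.toEquiv, hf] at h1
    exact h1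
  omega

/-- Let X be a nontrivial finite p-solvable group whose largest normal subgroup of order prime to p is trivial, and suppose every section of its largest normal p-subgroup has p-rank at most r. Then every subgroup of X of order prime to p and index a power of p (a Hall p'-subgroup) has fewer than p ^ r conjugacy classes, and X has fewer than p ^ r conjugacy classes of elements of order prime to p. -/
theorem result {X : Type*} [Group X] [Finite X] [Nontrivial X] (p : ℕ) [Fact p.Prime] (hsolv : Cfsg.IsPSolvable p X) (hcore : Cfsg.pPrimeCore p X = ⊥) (r : ℕ) (hr : Cfsg.SectionalPRankLE p r ↥(Cfsg.pCore p X)) : (∀ T : Subgroup X, (Nat.card T).Coprime p → (∃ m : ℕ, T.index = p ^ m) → Nat.card (ConjClasses T) < p ^ r) ∧ Nat.card {C : ConjClasses X // ∃ g : X, ConjClasses.mk g = C ∧ ¬ p ∣ orderOf g} < p ^ r := by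
  have hP : IsPGroup p (pCore p X) := CL.Amalg.isPGroup_pCore' p X
  have hk := key p (pCore p X) hP (CL.IsPSolvable.pCore_ne_bot hsolv hcore)
    (CL.IsPSolvable.centralizer_pCore_le hsolv hcore) r hr
  refine ⟨fun T hT _ => hk T hT, ?_⟩
  obtain ⟨T, hT⟩ := CL.IsPSolvable.exists_isPiHall_compl hsolv
  refine lt_of_le_of_lt ?_ (hk T (CL.isPiHall_compl_singleton_iff.1 hT).1)
  have hex : ∀ C : {C : ConjClasses X // ∃ g : X, ConjClasses.mk g = C ∧ ¬ p ∣ orderOf g},
      ∃ D : ConjClasses T, ConjClasses.map T.subtype D = C.1 := by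
    rintro ⟨_, g, rfl, hg⟩
    obtain ⟨x, hx⟩ := CL.IsPSolvable.exists_le_conj hsolv hT (K := zpowers g)
      (by rw [Nat.card_zpowers]; exact ((Fact.out : p.Prime).coprime_iff_not_dvd.2 hg).symm)
    obtain ⟨t, ht, e⟩ := hx (mem_zpowers g)
    exact ⟨ConjClasses.mk ⟨t, ht⟩, ConjClasses.mk_eq_mk_iff_isConj.2 (isConj_iff.2 ⟨x, e⟩)⟩
  choose D hD using hex
  exact Nat.card_le_card_of_injective D fun a b h => Subtype.ext (by rw [← hD a, ← hD b, h])

end Cfsg.Agent.S4533
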