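import Cfsg.Statements.S4532
import Cfsg.Agent.BLK.KG.RankOver
import Cfsg.Agent.S4533

set_option autoImplicit false
open Cfsg CL CL.Blk CL.Char Subgroup

namespace Cfsg.Agent.S4532

/-- Let G be a finite p-solvable group and B a p-block of G (relative to a maximal ideal M of the algebraic integers containing p) with a nontrivial defect group D all of whose sections have p-rank at most r. Then the p-regular rank of B (the number of irreducible Brauer characters in B) is less than p ^ r. -/
theorem result {G : Type*} [Group G] [Finite G] (p : ℕ) [Fact p.Prime] (hsolv : Cfsg.IsPSolvable p G) (M : Ideal Cfsg.AlgInt) (hM : Cfsg.IsPModular p M) (B : Set (Cfsg.IrrCharacter G)) (hB : Cfsg.IsPBlock M B) (D : Subgroup G) (hD : Cfsg.IsDefectGroup p M B D) (hD1 : D ≠ ⊥) (r : ℕ) (hr : Cfsg.SectionalPRankLE p r D) : Cfsg.blockRank p B < p ^ r := by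
  revert D
  refine fong_induction hM (fun G _ _ B => ∀ D : Subgroup G, IsDefectGroup p M B D → D ≠ ⊥ →
    SectionalPRankLE p r D → blockRank p B < p ^ r) ?_ ?_ G hsolv B hB
  · intro G _ _ _ _ θ _ B' B _ _ hfr ih D hD hD1 hr
    obtain ⟨D', hD', ⟨φ⟩⟩ := hfr.exists_equiv hM hD
    refine hfr.blockRank_le.trans_lt (ih D' hD' (fun e => hD1 ?_)
      (RkOv.sec_of_inj φ.toMonoidHom φ.injective hr))
    rw [← card_eq_one, ← Nat.card_congr φ.toEquiv, e, card_bot]
  · intro G _ _ _ hG θ hθ D hD hD1 hr
    have hc := IsPSolvable.isPConstrained hG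
    obtain ⟨S, rfl⟩ := (isDefectGroup_overSet_iff hM hc rfl hθ).1 hD
    let φ : S →* G ⧸ pPrimeCore p G := (QuotientGroup.mk' _).comp (S : Subgroup G).subtype
    have hφ : Function.Injective φ := by
      rw [injective_iff_map_eq_one]
      intro x hx
      obtain ⟨k, hk⟩ := S.isPGroup'.exists_card_eq
      exact Subtype.ext (disjoint_def.1 (disjoint_of_coprime_natCard
        (hk ▸ (coprime_card_pPrimeCore p G).pow_right k))
        ((QuotientGroup.eq_one_iff _).1 hx) x.2)
    have : Nontrivial (S : Subgroup G) := (nontrivial_iff_ne_bot _).2 hD1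
    have : Nontrivial (G ⧸ pPrimeCore p G) := hφ.nontrivial
    have hle : pCore p (G ⧸ pPrimeCore p G) ≤ φ.range := by
      refine (pCore_le_sylow (S.mapSurjective (QuotientGroup.mk'_surjective _))).trans ?_
      rintro _ ⟨x, hx, rfl⟩
      exact ⟨⟨x, hx⟩, rfl⟩
    refine (RkOv.blockRank_le hM.1 _ (not_dvd_card_pPrimeCore p G) θ.2 hθ).trans_lt
      (Cfsg.Agent.S4533.result p (IsPSolvable.quotient hG _) (pPrimeCore_quotient_pPrimeCore p G)
        r (RkOv.sec_of_inj ((MonoidHom.ofInjective hφ).symm.toMonoidHom.comp (inclusion hle))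
          ((MonoidHom.ofInjective hφ).symm.injective.comp (inclusion_injective hle)) hr)).2

end Cfsg.Agent.S4532
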