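import Cfsg.Statements.S4540
import Cfsg.Agent.BLK.KBound

set_option autoImplicit false
open Cfsg

namespace Cfsg.Agent.S4540

open CL.Blk CL.Char

/-- Let B be a 2-block of the finite group G (relative to a maximal ideal M of the algebraic integers containing 2) of defect d with defect group D. Let z be an element of D commuting with every element of D, and let b be a block of the centralizer C of z with defect group D that induces B (a major subsection (z, b)). If b has 2-regular rank at most three, then 3·k(B) ≤ 3·k₀(B) + 2·Σ 2 ^ h(χ), where k(B) is the number of members of B, k₀(B) the number of members of height zero, and the sum runs over the members χ of B of positive height h(χ); this bound is at most 3·2 ^ d, so in particular B contains at most 2 ^ d irreducible characters. -/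
theorem result {G : Type*} [Group G] [Finite G] (M : Ideal Cfsg.AlgInt) (hM : Cfsg.IsPModular 2 M) (B : Set (Cfsg.IrrCharacter G)) (hB : Cfsg.IsPBlock M B) (D : Subgroup G) (hD : Cfsg.IsDefectGroup 2 M B D) (z : G) (hzD : z ∈ D) (hzc : ∀ d ∈ D, d * z = z * d) (b : Set (Cfsg.IrrCharacter ↥(Subgroup.centralizer ({z} : Set G)))) (hb : Cfsg.IsInducedBlock M (Subgroup.centralizer ({z} : Set G)) b B) (hbD : Cfsg.IsDefectGroup 2 M b (D.subgroupOf (Subgroup.centralizer ({z} : Set G)))) (hl : Cfsg.blockRank 2 b ≤ 3) : 3 * Nat.card B ≤ 3 * Nat.card {χ : Cfsg.IrrCharacter G // χ ∈ B ∧ Cfsg.blockHeight 2 B (χ : G → ℂ) = 0} + 2 * (∑ᶠ χ ∈ {χ : Cfsg.IrrCharacter G | χ ∈ B ∧ 1 ≤ Cfsg.blockHeight 2 B (χ : G → ℂ)}, 2 ^ Cfsg.blockHeight 2 B (χ : G → ℂ)) ∧ 3 * Nat.card {χ : Cfsg.IrrCharacter G // χ ∈ B ∧ Cfsg.blockHeight 2 B (χ : G → ℂ) = 0} + 2 * (∑ᶠ χ ∈ {χ : Cfsg.IrrCharacter G | χ ∈ B ∧ 1 ≤ Cfsg.blockHeight 2 B (χ : G → ℂ)}, 2 ^ Cfsg.blockHeight 2 B (χ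 : G → ℂ)) ≤ 3 * 2 ^ Cfsg.blockDefect 2 B := by
  classical
  obtain ⟨h, hi, hd⟩ := major_data hM hB hD hzD hzc hb hbD
  obtain ⟨n, hn⟩ := h.exists_pow_eq_one
  obtain ⟨t, ht, hsum, hodd, hge⟩ := h.exists_avg_two hM hb.1 hB hi hn
  have hpos : (0 : ℝ) < (copr (2 ^ n)).card := by exact_mod_cast card_copr_pos (by positivity)
  set H : Cfsg.IrrCharacter G → ℕ := fun χ => Cfsg.blockHeight 2 B (χ : G → ℂ) with hH
  have e1 : ∑ᶠ χ ∈ {χ : Cfsg.IrrCharacter G | χ ∈ B ∧ 1 ≤ Cfsg.blockHeight 2 B (χ : G → ℂ)},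
      2 ^ Cfsg.blockHeight 2 B (χ : G → ℂ) = ∑ χ, if χ ∈ B ∧ 1 ≤ H χ then 2 ^ H χ else 0 := by
    rw [← Finset.sum_filter, ← finsum_mem_coe_finset]
    congr 1
    ext χ
    simp [hH]
  have e2 : Nat.card {χ : Cfsg.IrrCharacter G // χ ∈ B ∧ Cfsg.blockHeight 2 B (χ : G → ℂ) = 0} =
      ∑ χ, if χ ∈ B ∧ H χ = 0 then 1 else 0 := by
    rw [Nat.card_eq_fintype_card, Fintype.card_subtype, Finset.card_filter]
  have e3 : Nat.card B = ∑ χ, if χ ∈ B then 1 else 0 := by
    rw [Nat.card_eq_fintype_card, Fintype.card_subtype, Finset.card_filter]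
  rw [e1, e2, e3]
  simp only [Finset.mul_sum, ← Finset.sum_add_distrib]
  refine ⟨Finset.sum_le_sum fun χ _ => ?_, ?_⟩
  · by_cases h1 : χ ∈ B
    · rcases Nat.eq_zero_or_pos (H χ) with h2 | h2
      · simp [h1, h2]
      · have : 2 ^ 1 ≤ 2 ^ H χ := Nat.pow_le_pow_right two_pos h2
        simp only [h1, h2.ne', true_and, if_true, if_false, show 1 ≤ H χ from h2]
        omega
    · simp [h1]
  by_cases h1 : ∃ χ ∈ B, H χ = 0 ∧ t χ = 1
  · obtain ⟨χ, hχ, h0, h1⟩ := h1
    have h2 := h.sum_pow_le_row hM hb.1 hB hi hd hn hχ h0 (Finset.univ.filter (· ∈ B))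
      fun ψ hψ => (Finset.mem_filter.1 hψ).2
    rw [Nat.cast_ofNat, Nat.cast_ofNat, ht, h1, Nat.cast_one, mul_one, hd] at h2
    have h3 : ∑ ψ with ψ ∈ B, 2 ^ (2 * H ψ) ≤ 2 ^ Cfsg.blockDefect 2 B := by
      exact_mod_cast le_of_mul_le_mul_right h2 hpos
    refine le_trans ?_ (Nat.mul_le_mul_left 3 h3)
    rw [Finset.sum_filter, Finset.mul_sum]
    refine Finset.sum_le_sum fun ψ _ => ?_
    by_cases h4 : ψ ∈ B
    · rcases Nat.eq_zero_or_pos (H ψ) with h5 | h5
      · simp [h4, h5]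
      · have : 2 ^ H ψ ≤ 2 ^ (2 * H ψ) := Nat.pow_le_pow_right two_pos (by omega)
        simp only [h4, h5.ne', true_and, if_true, if_false, show 1 ≤ H ψ from h5]
        omega
    · simp [h4]
  · push Not at h1
    refine le_trans ?_ ((hd ▸ hsum.le).trans (by rw [mul_comm]; exact Nat.mul_le_mul_right _ hl))
    refine Finset.sum_le_sum fun ψ _ => ?_
    by_cases h4 : ψ ∈ B
    · rcases Nat.eq_zero_or_pos (H ψ) with h5 | h5
      · obtain ⟨c, hc⟩ := hodd ψ h4 h5
        have := h1 ψ h4 h5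
        simp only [h4, h5, true_and, if_true]
        simp
        omega
      · have := hge hd ψ h4 h5.ne'
        simp only [h4, h5.ne', true_and, if_true, if_false, show 1 ≤ H ψ from h5]
        rw [pow_succ] at this
        simp only [hH]
        omega
    · simp [h4]

end Cfsg.Agent.S4540
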