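import Cfsg.Statements.S4541
import Cfsg.Agent.BLK.KBound

set_option autoImplicit false
open Cfsg

namespace Cfsg.Agent.S4541

open CL.Blk CL.Char

/-- Let B be a 2-block of the finite group G (relative to a maximal ideal M of the algebraic integers containing 2), u a 2-element, and b a block of the centralizer of u inducing B (a subsection (u, b)), of defect q and 2-regular rank l; write s for the integer square root of l and k₀(B) for the number of members of B of height zero. If s is odd then k₀(B) ≤ s·2 ^ q, and otherwise (s + 1)·k₀(B) ≤ l·2 ^ q; in particular k₀(B) ≤ 2 ^ q when l ≤ 3. -/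
theorem result {G : Type*} [Group G] [Finite G] (M : Ideal Cfsg.AlgInt) (hM : Cfsg.IsPModular 2 M) (B : Set (Cfsg.IrrCharacter G)) (hB : Cfsg.IsPBlock M B) (u : G) (hu : ∃ j : ℕ, orderOf u = 2 ^ j) (b : Set (Cfsg.IrrCharacter ↥(Subgroup.centralizer ({u} : Set G)))) (hb : Cfsg.IsInducedBlock M (Subgroup.centralizer ({u} : Set G)) b B) : (Odd (Nat.sqrt (Cfsg.blockRank 2 b)) → Nat.card {χ : Cfsg.IrrCharacter G // χ ∈ B ∧ Cfsg.blockHeight 2 B (χ : G → ℂ) = 0} ≤ Nat.sqrt (Cfsg.blockRank 2 b) * 2 ^ Cfsg.blockDefect 2 b) ∧ (¬ Odd (Nat.sqrt (Cfsg.blockRank 2 b)) → (Nat.sqrt (Cfsg.blockRank 2 b) + 1) * Nat.card {χ : Cfsg.IrrCharacter G // χ ∈ B ∧ Cfsg.blockHeight 2 B (χ : G → ℂ) = 0} ≤ Cfsg.blockRank 2 b * 2 ^ Cfsg.blockDefect 2 b) ∧ (Cfsg.blockRank 2 b ≤ 3 → Nat.card {χ : Cfsg.IrrCharacter G // χ ∈ B ∧ Cfsg.blockHeight 2 B (χ : G → ℂ) = 0} ≤ 2 ^ Cfsg.blockDefect 2 b) := by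
  classical
  have h := isSec_centralizer (p := 2) hu
  have hi := (subset_locSet_iff_isInducedBlock hM hu rfl hB hb.1).2 hb
  obtain ⟨n, hn⟩ := h.exists_pow_eq_one
  obtain ⟨t, ht, hsum, hodd, -⟩ := h.exists_avg_two hM hb.1 hB hi hn
  set T := Finset.univ.filter fun χ : Cfsg.IrrCharacter G =>
    χ ∈ B ∧ Cfsg.blockHeight 2 B (χ : G → ℂ) = 0 with hTdef
  have hT : ∀ ψ ∈ T, ψ ∈ B ∧ Cfsg.blockHeight 2 B ψ.1 = 0 := fun ψ hψ => (Finset.mem_filter.1 hψ).2
  rw [Nat.card_eq_fintype_card, Fintype.card_subtype, ← hTdef]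
  obtain ⟨ξ, hξ⟩ := exists_height_zero 2 (block_nonempty hM hB)
  obtain ⟨χ, hχ, hmin⟩ := T.exists_min_image t ⟨ξ, Finset.mem_filter.2 ⟨Finset.mem_univ _, hξ⟩⟩
  have hpos : (0 : ℝ) < (copr (2 ^ n)).card := by exact_mod_cast card_copr_pos (by positivity)
  have h1 : T.card ≤ 2 ^ Cfsg.blockDefect 2 b * t χ := by
    have := h.card_mul_le_row hM hb.1 hB hi hn (hT χ hχ).1 (hT χ hχ).2 T hT
    rw [Nat.cast_ofNat, Nat.cast_ofNat, ht, mul_left_comm, mul_comm] at this
    exact_mod_cast le_of_mul_le_mul_left this hpos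
  have h2 : T.card * t χ ≤ 2 ^ Cfsg.blockDefect 2 b * Cfsg.blockRank 2 b := by
    rw [← hsum, ← smul_eq_mul]
    exact (Finset.card_nsmul_le_sum T t _ hmin).trans
      (Finset.sum_le_univ_sum_of_nonneg fun _ => Nat.zero_le _)
  have h3 := hodd χ (hT χ hχ).1 (hT χ hχ).2
  have h4 := Nat.sqrt_le' (Cfsg.blockRank 2 b)
  have h5 := Nat.lt_succ_sqrt' (Cfsg.blockRank 2 b)
  have h6 := blockRank_pos hM hb.1
  generalize Cfsg.blockRank 2 b = l at *
  generalize 2 ^ Cfsg.blockDefect 2 b = Q at *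
  generalize T.card = k at *
  generalize t χ = τ at *
  have hA : Odd (Nat.sqrt l) → k ≤ Nat.sqrt l * Q := fun hs => by
    generalize Nat.sqrt l = s at *
    rcases le_or_gt τ s with h7 | h7
    · nlinarith
    · have h8 : s + 2 ≤ τ := by
        obtain ⟨a, rfl⟩ := hs
        obtain ⟨c, rfl⟩ := h3
        omega
      have h9 : l ≤ s * (s + 2) := by rw [Nat.succ_eq_add_one] at h5; nlinarith
      refine le_of_mul_le_mul_right ?_ (by omega : 0 < s + 2)
      nlinarith [Nat.mul_le_mul_left k h8, Nat.mul_le_mul_left Q h9]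
  refine ⟨hA, fun hs => ?_, fun hl => ?_⟩
  · generalize Nat.sqrt l = s at *
    rcases le_or_gt τ s with h7 | h7
    · have h8 : τ + 1 ≤ s := by
        obtain ⟨a, rfl⟩ := Nat.not_odd_iff_even.1 hs
        obtain ⟨c, rfl⟩ := h3
        omega
      have h9 : (s + 1) * τ ≤ l := by nlinarith
      nlinarith [Nat.mul_le_mul_left (s + 1) h1, Nat.mul_le_mul_left Q h9]
    · nlinarith [Nat.mul_le_mul_left k (Nat.succ_le_of_lt h7)]
  · have : Nat.sqrt l = 1 := by
      interval_cases l <;> norm_num [Nat.sqrt, Nat.sqrt.iter]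
    simpa [this] using hA

end Cfsg.Agent.S4541
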