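import Cfsg.Statements.S4552
import Cfsg.Agent.BLK.FreeCount

set_option autoImplicit false
open Cfsg

namespace Cfsg.Agent.S4552

/-- Let B be a 2-block of the finite group G (relative to a maximal ideal M of the algebraic integers containing 2) whose defect group D is the direct product of two cyclic groups of the same order 2 ^ m, m ≥ 2. Then either B has 2-regular rank one and exactly 4 ^ m irreducible characters, or B has 2-regular rank three and exactly (4 ^ m + 8) / 3 irreducible characters. -/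
theorem result {G : Type*} [Group G] [Finite G] (M : Ideal Cfsg.AlgInt) (hM : Cfsg.IsPModular 2 M) (B : Set (Cfsg.IrrCharacter G)) (hB : Cfsg.IsPBlock M B) (D : Subgroup G) (hD : Cfsg.IsDefectGroup 2 M B D) (m : ℕ) (hm : 2 ≤ m) (hiso : Nonempty (D ≃* Multiplicative (ZMod (2 ^ m) × ZMod (2 ^ m)))) : (Cfsg.blockRank 2 B = 1 ∧ Nat.card B = 4 ^ m) ∨ (Cfsg.blockRank 2 B = 3 ∧ 3 * Nat.card B = 4 ^ m + 8) := by
  obtain ⟨e, h⟩ := CL.Blk.exists_maxP hM hB hD
  obtain ⟨φ⟩ := hiso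
  have hc : ∀ x ∈ D, ∀ y ∈ D, Commute x y := fun x hx y hy =>
    have : (⟨x, hx⟩ * ⟨y, hy⟩ : D) = ⟨y, hy⟩ * ⟨x, hx⟩ :=
      φ.injective (by rw [map_mul, map_mul, mul_comm])
    Subtype.ext_iff.1 this
  have hcard : Nat.card D = 4 ^ m := by
    rw [Nat.card_congr φ.toEquiv]
    simp [← mul_pow]
  have h16 : 4 ^ 2 ≤ 4 ^ m := Nat.pow_le_pow_right (by norm_num) hm
  have h1 : D ≠ ⊥ := fun h0 => by
    rw [h0, Subgroup.card_bot] at hcard
    omega
  have h4 : {x | x ∈ D ∧ x ^ 2 = 1}.ncard ≤ 4 := by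
    classical
    let S := Finset.univ.filter fun a : Multiplicative (ZMod (2 ^ m)) => a ^ 2 = 1
    have hS : S.card ≤ 2 := IsCyclic.card_pow_eq_one_le two_pos
    let f : Multiplicative (ZMod (2 ^ m)) × Multiplicative (ZMod (2 ^ m)) → G :=
      fun a => φ.symm (Multiplicative.ofAdd (a.1.toAdd, a.2.toAdd))
    refine (Set.ncard_le_ncard (t := ((S ×ˢ S).image f : Finset G)) ?_).trans ?_
    · rintro x ⟨hx, h2⟩
      have h3 : φ ⟨x, hx⟩ ^ 2 = 1 := by rw [← map_pow, φ.map_eq_one_iff]; exact Subtype.ext h2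
      refine Finset.mem_coe.2 (Finset.mem_image.2 ⟨(.ofAdd (φ ⟨x, hx⟩).toAdd.1,
        .ofAdd (φ ⟨x, hx⟩).toAdd.2), Finset.mem_product.2 ⟨?_, ?_⟩, by simp [f]⟩)
      · exact Finset.mem_filter.2 ⟨Finset.mem_univ _, congrArg Prod.fst h3⟩
      · exact Finset.mem_filter.2 ⟨Finset.mem_univ _, congrArg Prod.snd h3⟩
    · rw [Set.ncard_coe_finset]
      exact Finset.card_image_le.trans ((Finset.card_product _ _).trans_le (Nat.mul_le_mul hS hS))
  have hf := h.freeOn_of_invol hc h4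
  obtain ⟨h2, h3⟩ := h.card_block_of_free' hc hf
  have h5 := (h.blockRank_of_free hc hf h1).2
  rw [hcard] at h2 h3
  rcases h.inIdx_of_invol hc h1 h4 with h6 | h6 <;> rw [h6] at h2 h3 h5 <;> omega

end Cfsg.Agent.S4552
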