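import Cfsg.Statements.S4553
import Cfsg.Agent.BLK.Princ3
import Cfsg.Agent.BLK.GCanon
import Cfsg.Agent.CHAR.Triple
import Cfsg.Agent.CHAR.Gallagher
import Cfsg.Agent.PLOC.Tate
-- import your own Cfsg.Agent.* helpers here

set_option autoImplicit false
open Cfsg

namespace Cfsg.Agent.S4553

open CL.Char CL.Blk in
theorem card_lam {G : Type*} [Group G] [Finite G] {p : ℕ} [hp : Fact p.Prime] (N : Subgroup G)
    [N.Normal] (hNres : N = pResidual p G) (hcyc : IsCyclic (G ⧸ N)) (hnt : N ≠ ⊤) :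
    Nat.card {lam : G →* ℂˣ // (∀ n ∈ N, lam n = 1) ∧ lam ^ p = 1} = p := by
  obtain ⟨K, hK, hNK, hidx⟩ := CL.Tr.exists_normal_index_prime_of_pResidual_ne_top
    (p := p) (G := G) (hNres ▸ hnt)
  rw [← hNres] at hNK
  refine Eq.trans ?_ ((card_hom_trivial_on K (CL.Tr.commutator_le_of_index_prime hidx)).trans hidx)
  refine Nat.card_congr (Equiv.subtypeEquivRight fun lam => ⟨fun h g hg => ?_, fun h =>
    ⟨fun n hn => h n (hNK hn), hidx ▸ hom_pow_index_eq_one K lam fun n => h n n.2⟩⟩)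
  obtain ⟨x, hx⟩ := hcyc.exists_generator
  obtain ⟨x, rfl⟩ := QuotientGroup.mk_surjective x
  have hgen : ∀ y : G, ∃ m : ℤ, (x ^ m)⁻¹ * y ∈ N := fun y => by
    obtain ⟨m, hm⟩ := Subgroup.mem_zpowers_iff.1 (hx (y : G ⧸ N))
    exact ⟨m, QuotientGroup.eq.1 (by rw [← hm]; rfl)⟩
  have hxK : x ∉ K := fun hxK => hp.out.ne_one (by
    rw [← hidx, Subgroup.index_eq_one, Subgroup.eq_top_iff']
    intro y
    obtain ⟨m, hm⟩ := hgen y
    have := mul_mem (zpow_mem hxK m) (hNK hm)
    simpa using this)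
  have hord : orderOf (x : G ⧸ K) = K.index := by
    have h1 : orderOf (x : G ⧸ K) ∣ p := hidx ▸ orderOf_dvd_natCard _
    rcases (Nat.dvd_prime hp.out).1 h1 with h1 | h1
    · exact absurd ((QuotientGroup.eq_one_iff x).1 (orderOf_eq_one_iff.1 h1)) hxK
    · rw [h1, hidx]
  obtain ⟨m, hm⟩ := hgen g
  have hxm : x ^ m ∈ K := by
    have := mul_mem hg (inv_mem (hNK hm))
    simpa using this
  have hdvd : (K.index : ℤ) ∣ m := by
    rw [← hord, orderOf_dvd_iff_zpow_eq_one, ← QuotientGroup.mk_zpow]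
    exact (QuotientGroup.eq_one_iff _).2 hxm
  obtain ⟨c, rfl⟩ := hdvd
  have h1 := h.1 _ hm
  have h2 : lam x ^ K.index = 1 := by rw [← MonoidHom.pow_apply, hidx, h.2, MonoidHom.one_apply]
  rwa [map_mul, map_inv, map_zpow, zpow_mul, zpow_natCast, h2, one_zpow, inv_one, one_mul] at h1

/-- Let G be a finite group, p a prime, P a Sylow p-subgroup, N the p-residual of G (the subgroup generated by the elements of order prime to p, the smallest normal subgroup with G/N a p-group), and M a maximal ideal of the algebraic integers containing p; suppose G/N is cyclic and nontrivial. Let k be a natural number with g ^ k = g ^ (1 + p) for every p-element g and g ^ k = g for every element g of order prime to p (so that χ (g ^ k) is the image of χ g under the field automorphism that raises p-power roots of unity to the power 1 + p and fixes the roots of unity of order prime to p). Then the number of members χ of the principal block of G of degree prime to p with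 χ (g ^ k) = χ g for all g equals p times the number of members θ of the principal block of N of degree prime to p that are invariant under conjugation by P and satisfy θ (n ^ k) = θ n for all n. -/
theorem result {G : Type*} [Group G] [Finite G] (p : ℕ) [Fact p.Prime] (M : Ideal Cfsg.AlgInt) (hM : Cfsg.IsPModular p M) (P : Sylow p G) (N : Subgroup G) [hN : N.Normal] (hNres : N = Cfsg.pResidual p G) (hcyc : IsCyclic (G ⧸ N)) (hnt : N ≠ ⊤) (k : ℕ) (hk₁ : ∀ g : G, (∃ j : ℕ, orderOf g = p ^ j) → g ^ k = g ^ (1 + p)) (hk₂ : ∀ g : G, Nat.Coprime (orderOf g) p → g ^ k = g) : Nat.card {χ : Cfsg.IrrCharacter G // χ ∈ Cfsg.principalBlock M G ∧ ¬ p ∣ Cfsg.charDegree (χ : G → ℂ) ∧ ∀ g : G, (χ : G → ℂ) (g ^ k) = (χ : G → ℂ) g} = p * Nat.card {θ : Cfsg.IrrCharacter ↥N // θ ∈ Cfsg.principalBlock M ↥N ∧ ¬ p ∣ Cfsg.charDegree (θ : ↥N → ℂ) ∧ (∀ x ∈ (P : Subgroup G), ∀ n : ↥N, (θ : ↥N → ℂ) ⟨x * n * x⁻¹, hN.conj_mem n n.2 x⟩ = (θ : ↥N → ℂ) n) ∧ ∀ n : ↥N, (θ : ↥N → ℂ) (n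 ^ k) = (θ : ↥N → ℂ) n} := by
  open CL.Char CL.Blk in
  have hp : p.Prime := Fact.out
  have := Fintype.ofFinite G
  have := Fintype.ofFinite N
  obtain ⟨a, ha⟩ := CL.exists_pResidual_index (p := p) (G := G)
  have hsup := CL.pResidual_sup_sylow P
  have hperf : pResidual p (pResidual p G) = ⊤ := CL.pResidual_pResidual
  have hlam := card_lam N hNres hcyc hnt
  subst hNres
  have hr : ∀ g, ¬ p ∣ orderOf g → g ∈ pResidual p G := fun g hg => mem_of_reg_of_index hp ha hg
  have hk : k.Coprime (Nat.card G) := by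
    refine Nat.Coprime.symm (Nat.coprime_of_dvd fun q hq hqG hqk => ?_)
    have := Fact.mk hq
    obtain ⟨g, hg⟩ := exists_prime_orderOf_dvd_card' q hqG
    have h1 : g ^ k = 1 := orderOf_dvd_iff_pow_eq_one.1 (hg ▸ hqk)
    have h2 : g ^ k = g := by
      by_cases e : q = p
      · subst e
        rw [hk₁ g ⟨1, by rw [hg, pow_one]⟩, pow_add, pow_one, ← hg, pow_orderOf_eq_one, mul_one]
      · exact hk₂ g (hg ▸ (Nat.coprime_primes hq hp).2 e)
    rw [h1] at h2
    rw [← h2, orderOf_one] at hg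
    exact hq.ne_one hg.symm
  have hcop : ∀ {d : ℕ}, ¬ p ∣ d → (pResidual p G).index.Coprime d := fun hd => by
    rw [ha]; exact Nat.Coprime.pow_left _ ((Nat.Prime.coprime_iff_not_dvd hp).2 hd)
  have hpow : ∀ lam : G →* ℂˣ, (∀ n ∈ pResidual p G, lam n = 1) → lam ^ k = lam * lam ^ p := by
    intro lam h
    ext1 g
    obtain ⟨x, y, -, -, ⟨j, hj⟩, hy, rfl⟩ := CL.exists_p_part_mul_p'_part (p := p) g
    have h1 : lam y = 1 := h y (CL.mem_pResidual_of_coprime hy)
    simp only [MonoidHom.pow_apply, MonoidHom.mul_apply, map_mul, h1, one_pow, mul_one]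
    rw [← map_pow, hk₁ x (exists_orderOf_eq_pow_of_pow_eq_one hp hj), pow_add, pow_one, map_mul,
      map_pow]
  -- canonical extensions
  have hext : ∀ θ : {θ : IrrCharacter (pResidual p G) // θ ∈ principalBlock M (pResidual p G) ∧
      ¬ p ∣ charDegree θ.1 ∧ (∀ x ∈ (P : Subgroup G), ∀ n : pResidual p G,
        θ.1 ⟨x * n * x⁻¹, hN.conj_mem n n.2 x⟩ = θ.1 n) ∧ ∀ n, θ.1 (n ^ k) = θ.1 n},
      ∃ χ : IrrCharacter G, (∀ n : pResidual p G, χ.1 n = θ.1.1 n) ∧ ∀ g, χ.1 (g ^ k) = χ.1 g := by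
    rintro ⟨θ, -, h2, h3, h4⟩
    obtain ⟨χ, he, ho⟩ := exists_canon_ext _ ha
      (inertia_eq_top_of_sup _ hsup (θ := θ) fun u hu => Subtype.ext (funext (h3 u hu))) h2
      (not_dvd_detOrder_of_pResidual hperf _)
    refine ⟨χ, he, fun g => congrFun (ext_unique_of_coprime _ θ.2 (irr_one_eq θ) (hcop h2)
      (χ.2.isCharacter.pow_coprime hk) χ.2.isCharacter (fun n => ?_) he
      (hcop fun h => ho (h.trans (CL.Glb.detOrder_pow_dvd χ.2.isCharacter hk))) (hcop ho)) g⟩
    rw [← h4 n, ← he]; rfl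
  choose E hE hEk using hext
  have hEirr : ∀ θ, IsIrrCharacter (pResidual p G) (fun n => (E θ).1 n) := fun θ => by
    rw [show (fun n : pResidual p G => (E θ).1 n) = θ.1.1 from funext (hE θ)]
    exact θ.1.2
  have hinj : ∀ θ (l m : G →* ℂˣ), (∀ n ∈ pResidual p G, l n = 1) →
      (∀ n ∈ pResidual p G, m n = 1) → (∀ g, (l g : ℂ) * (E θ).1 g = m g * (E θ).1 g) → l = m :=
    fun θ l m hl hm e => hom_coe_injective (gallagher_inj (E θ).2.isCharacter (hEirr θ)
      (isIrrCharacter_hom l) (isIrrCharacter_hom m) (fun n hn => by simp [hl n hn])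
      (fun n hn => by simp [hm n hn]) (funext e))
  refine Eq.trans ?_ ((Nat.card_prod _ _).trans (congrArg (· * _) hlam))
  symm
  have hres : ∀ θ (l : G →* ℂˣ), (∀ n ∈ pResidual p G, l n = 1) → ∀ n : pResidual p G,
      (irrMulHom l (E θ)).1 n = θ.1.1 n := fun θ l hl n => by
    rw [irrMulHom_apply, hl n n.2, hE, Units.val_one, one_mul]
  refine Nat.card_congr (Equiv.ofBijective (fun x => ⟨irrMulHom x.1.1 (E x.2),
    (mem_principal_iff_of_under hM _ hr (inner_res_ne_zero_of_ext (hres _ _ x.1.2.1))).2 x.2.2.1,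
    by rw [charDegree_eq_of_ext (hres _ _ x.1.2.1)]; exact x.2.2.2.1, fun g => by
      rw [irrMulHom_apply, irrMulHom_apply, hEk, map_pow, ← MonoidHom.pow_apply,
        hpow _ x.1.2.1, x.1.2.2, MonoidHom.mul_apply, MonoidHom.one_apply, mul_one]⟩) ⟨?_, ?_⟩)
  · rintro ⟨l, θ⟩ ⟨m, φ⟩ e
    have e' : irrMulHom l.1 (E θ) = irrMulHom m.1 (E φ) := congrArg Subtype.val e
    have h1 : θ = φ := Subtype.ext (Subtype.ext (funext fun n => by
      rw [← hres θ _ l.2.1, e', hres φ _ m.2.1]))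
    subst h1
    refine Prod.ext (Subtype.ext (hinj θ _ _ l.2.1 m.2.1 fun g => ?_)) rfl
    exact congrFun (congrArg Subtype.val e') g
  · rintro ⟨χ, h1, h2, h3⟩
    have hirr : IsIrrCharacter (pResidual p G) (fun n => χ.1 n) :=
      res_irr_of_coprime_index χ.2 (irr_one_eq χ) (hcop h2).symm
    let θ : {θ : IrrCharacter (pResidual p G) // θ ∈ principalBlock M (pResidual p G) ∧
        ¬ p ∣ charDegree θ.1 ∧ (∀ x ∈ (P : Subgroup G), ∀ n : pResidual p G,
          θ.1 ⟨x * n * x⁻¹, hN.conj_mem n n.2 x⟩ = θ.1 n) ∧ ∀ n, θ.1 (n ^ k) = θ.1 n} :=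
      ⟨⟨_, hirr⟩, (mem_principal_iff_of_under hM _ hr
        (inner_res_ne_zero_of_ext (θ := ⟨_, hirr⟩) fun _ => rfl)).1 h1, h2,
        fun x _ n => χ.2.isClassFunction _ _, fun n => h3 n⟩
    obtain ⟨l, hl, e⟩ := exists_hom_mul_of_res_eq (E θ).2.isCharacter (hEirr θ) χ.2.isCharacter
      (fun n => (hE θ n).symm)
    have hlp : l ^ p = 1 := by
      have := hinj θ (l ^ k) l (fun n hn => by rw [MonoidHom.pow_apply, hl n hn, one_pow]) hl
        fun g => by
          have := h3 g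
          rw [e] at this
          simp only [hEk, map_pow] at this
          exact this
      rw [hpow l hl] at this
      ext1 g
      exact mul_eq_left.1 (DFunLike.congr_fun this g)
    exact ⟨⟨⟨l, hl, hlp⟩, θ⟩, Subtype.ext (Subtype.ext e.symm)⟩

end Cfsg.Agent.S4553
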