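import Cfsg.Statements.S4560
import Mathlib
import Cfsg.Agent.BLK.SymAlt

set_option autoImplicit false
open Cfsg

namespace Cfsg.Agent.S4560

open CL.Sym Equiv Function Multiset

theorem move {N r : ℕ} (i : Fin N) (m : Multiset ℕ) (k : ℕ) : ∀ lam : Fin N → ℕ,
    (∀ j ≠ i, lam j < r) → r * k ≤ lam i →
      chiM lam (replicate k r + m) = chiM (update lam i (lam i - r * k)) m := by
  induction k with
  | zero => simp
  | succ k ih =>
    intro lam h hk
    rw [mul_add_one] at hk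
    rw [replicate_succ, cons_add, chiM_cons, Finset.sum_eq_single i
      (fun j _ hj => if_neg (h j hj).not_ge) (by simp), if_pos (by omega),
      ih _ (fun j hj => by rw [update_of_ne hj]; exact h j hj) (by rw [update_self]; omega),
      update_idem, update_self, mul_add_one, Nat.sub_sub, add_comm r]

theorem key {n N s r k : ℕ} (lam : Fin N → ℕ) (i : Fin N) (hl : StrictMono lam)
    (hs : IsSize lam n) (he : Even s) (h0 : 2 ≤ s) (h1 : ∀ j ≠ i, lam j < s) (h2 : s ≤ lam i)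
    (h2' : s ≤ n) (h3 : Injective (update lam i (lam i - s))) (h4 : ∀ j ≠ i, lam j < r)
    (h5 : r * k ≤ lam i) (h6 : ¬ Injective (update lam i (lam i - r * k))) (m : Multiset ℕ)
    (hm : (replicate k r + m).sum ≤ n) (hm2 : ∀ a ∈ replicate k r + m, 2 ≤ a)
    (hm3 : Even ((replicate k r + m).sum + card (replicate k r + m))) (P : ℕ → Prop)
    (hP : P (replicate k r + m).lcm) :
    ∃ χ : IrrCharacter (alternatingGroup (Fin n)), (∃ x : alternatingGroup (Fin n),
      P (orderOf x) ∧ (χ : alternatingGroup (Fin n) → ℂ) x = 0) ∧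
      ∃ ψ : IrrCharacter (Perm (Fin n)), ∀ x : alternatingGroup (Fin n),
        (ψ : Perm (Fin n) → ℂ) x = (χ : alternatingGroup (Fin n) → ℂ) x := by
  have hi := isIrr_chi (A := Fin n) (by simpa using hs) hl
  obtain ⟨g, hg⟩ := (Perm.exists_with_cycleType_iff (Fin n) (m := replicate 1 s)).2
    ⟨by simpa, by simpa⟩
  obtain ⟨x, hx⟩ := (Perm.exists_with_cycleType_iff (Fin n)).2 ⟨by simpa using hm, hm2⟩
  refine ⟨⟨_, res_irr_of_ne_zero hi (g := g) ?_ (Int.cast_ne_zero.2 ?_)⟩,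
    ⟨⟨x, Perm.mem_alternatingGroup.2 ?_⟩, ?_, Int.cast_eq_zero.2 ?_⟩, ⟨_, hi⟩, fun _ => rfl⟩
  · simp [Perm.sign_of_cycleType, hg, pow_succ, he.neg_one_pow]
  · rw [chi, parts, Perm.parts_partition, ← Perm.sum_cycleType, hg, move i _ _ _ h1 (by omega),
      mul_one]
    refine chiM_replicate_one_ne_zero h3 ?_
    have := sum_update_sub h2
    simp only [IsSize, replicate_one, sum_singleton, Fintype.card_fin] at hs ⊢
    omega
  · rw [Perm.sign_of_cycleType, hx, hm3.neg_one_pow]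
  · rwa [← Subgroup.orderOf_coe, ← Perm.lcm_cycleType, hx]
  · change chi lam x = 0
    rw [chi, parts, Perm.parts_partition, hx, add_assoc, move i _ _ _ h4 h5, chiM_eq_zero h6]

theorem inj2 {a x y : ℕ} : Injective (update ![a, x] 1 y) ↔ a ≠ y := by
  simp [Injective, Fin.forall_fin_succ, update, eq_comm]

theorem inj3 {a b x y : ℕ} : Injective (update ![a, b, x] 2 y) ↔ a ≠ b ∧ a ≠ y ∧ b ≠ y := by
  simp [Injective, Fin.forall_fin_succ, update, eq_comm]
  tauto

theorem lcm_rep {k r : ℕ} (hk : k ≠ 0) : (replicate k r).lcm = r :=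
  Nat.dvd_antisymm (lcm_dvd.2 fun _ h => (eq_of_mem_replicate h).dvd)
    (dvd_lcm (mem_replicate.2 ⟨hk, rfl⟩))

/-- For n ≥ 7 the alternating group on n letters has an irreducible character that vanishes at some 2-element and is the restriction of an irreducible character of the symmetric group, and an irreducible character that vanishes at some element of order 3 and is the restriction of an irreducible character of the symmetric group. -/
theorem result (n : ℕ) (hn : 7 ≤ n) : (∃ χ : Cfsg.IrrCharacter (alternatingGroup (Fin n)), (∃ x : alternatingGroup (Fin n), (∃ j : ℕ, orderOf x = 2 ^ j) ∧ (χ : alternatingGroup (Fin n) → ℂ) x = 0) ∧ ∃ ψ : Cfsg.IrrCharacter (Equiv.Perm (Fin n)), ∀ x : alternatingGroup (Fin n), (ψ : Equiv.Perm (Fin n) → ℂ) x = (χ : alternatingGroup (Fin n) → ℂ) x) ∧ (∃ χ : Cfsg.IrrCharacter (alternatingGroup (Fin n)), (∃ y : alternatingGroup (Fin n), orderOf y = 3 ∧ (χ : alternatingGroup (Fin n) → ℂ) y = 0) ∧ ∃ ψ : Cfsg.IrrCharacter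 (Equiv.Perm (Fin n)), ∀ x : alternatingGroup (Fin n), (ψ : Equiv.Perm (Fin n) → ℂ) x = (χ : alternatingGroup (Fin n) → ℂ) x) := by
  constructor
  · obtain ⟨a, b, e, k, h, hk⟩ : ∃ a b e k : ℕ, (a < b ∧ b ≤ 3 ∧ (e = a ∨ e = b) ∧
        5 ≤ a + b + e ∧ a + 6 ≠ e + 4 * k ∧ 2 ≤ e ∧ n + 3 = a + b + e + 4 * k) ∧ k ≠ 0 := by
      obtain h | h | h | h : n % 4 = 0 ∨ n % 4 = 1 ∨ n % 4 = 2 ∨ n % 4 = 3 := by omega
      exacts [⟨2, 3, 2, n / 4 - 1, by omega⟩, ⟨2, 3, 3, n / 4 - 1, by omega⟩,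
        ⟨1, 2, 2, n / 4, by omega⟩, ⟨0, 3, 3, n / 4, by omega⟩]
    refine key (s := 6) (r := 4) (k := k) ![a, b, e + 4 * k] 2 ?_ ?_ (by decide) (by decide) ?_ ?_
      (by omega) (inj3.2 ?_) ?_ ?_ (mt inj3.1 ?_) (replicate (k % 2) 2) ?_ ?_ ?_
      (fun t => ∃ j, t = 2 ^ j) ⟨2, Nat.dvd_antisymm (lcm_dvd.2 fun b hb => (mem_add.1 hb).elim
        (fun h => (eq_of_mem_replicate h).dvd) fun h => (eq_of_mem_replicate h).dvd.mul_right 2)
        (dvd_lcm ?_)⟩
    all_goals simp [Fin.strictMono_iff_lt_succ, Fin.forall_fin_succ, IsSize, Fin.sum_univ_succ,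
      mem_replicate, or_imp, Nat.even_iff, hk]
    all_goals omega
  · obtain h | h : n % 3 = 0 ∨ n % 3 ≠ 0 := by omega
    · refine key (s := 4) (r := 3) (k := n / 3 - 1) ![2, n - 1] 1 ?_ ?_ (by decide) (by decide) ?_ ?_
        (by omega) (inj2.2 ?_) ?_ ?_ (mt inj2.1 ?_) 0 ?_ ?_ ?_
        (· = 3) (by rw [add_zero, lcm_rep (by omega)])
      all_goals simp [Fin.strictMono_iff_lt_succ, Fin.forall_fin_succ, IsSize, Fin.sum_univ_succ,
        mem_replicate, Nat.even_iff]
      all_goals omega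
    · refine key (s := 4) (r := 3) (k := n / 3) ![1, 2, n] 2 ?_ ?_ (by decide) (by decide) ?_ ?_
        (by omega) (inj3.2 ?_) ?_ ?_ (mt inj3.1 ?_) 0 ?_ ?_ ?_
        (· = 3) (by rw [add_zero, lcm_rep (by omega)])
      all_goals simp [Fin.strictMono_iff_lt_succ, Fin.forall_fin_succ, IsSize, Fin.sum_univ_succ,
        mem_replicate, Nat.even_iff]
      all_goals omega

end Cfsg.Agent.S4560
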