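import Cfsg.Statements.S4563
import Cfsg.Agent.ORD.FullRam
import Cfsg.Agent.BLK.Codeg
import Cfsg.Agent.SOLV.HallConverse

set_option autoImplicit false
open Cfsg

open CL.Char
namespace Cfsg.Agent.S4563

/-- Let χ be an irreducible character of the finite group H that is fully ramified over the normal subgroup Z: the restriction of χ to Z is e times an irreducible character of Z with e ^ 2 equal to the index of Z. If K is a proper normal subgroup of H containing Z and χ is induced from a character of K, then H/K is solvable; in particular, if K is solvable then so is H. -/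
theorem result {H : Type*} [Group H] [Fintype H] (Z : Subgroup H) [Z.Normal] (χ : Cfsg.IrrCharacter H) (hfr : ∃ (θ : Cfsg.IrrCharacter ↥Z) (e : ℕ), e ^ 2 = Z.index ∧ ∀ z : ↥Z, (χ : H → ℂ) z = (e : ℂ) * (θ : ↥Z → ℂ) z) (K : Subgroup H) [K.Normal] [Fintype K] (hZK : Z ≤ K) (hK : K ≠ ⊤) (φ : ↥K → ℂ) (hφ : Cfsg.IsCharacter ↥K φ) (hind : Cfsg.indFun K φ = (χ : H → ℂ)) : Group.IsSolvable (H ⧸ K) ∧ (Group.IsSolvable ↥K → Group.IsSolvable H) := by
  classical
  obtain ⟨θ, e, he, hres⟩ := hfr
  have h : CL.Ord.FR Z χ.1 θ.1 e := ⟨χ.2, θ.2, he, funext hres⟩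
  have hφi : IsIrrCharacter K φ := hφ.irr_of_ind (hind ▸ χ.2)
  have hφin : classInner (fun x : K => χ.1 x) φ ≠ 0 := by
    rw [← inner_ind_eq_inner_res hφ χ.2.isCharacter, hind, χ.2.inner_self]
    exact one_ne_zero
  have hsolv : Group.IsSolvable (H ⧸ K) := by
    refine CL.isSolvable_of_forall_exists_pComplement fun p hp => ?_
    have : Fact p.Prime := ⟨hp⟩
    obtain ⟨R⟩ : Nonempty (Sylow p H) := inferInstance
    obtain ⟨S, hS, hdec⟩ := h.exists_compl hZK R (by
      intro Q _ ξ m η hQ hξ hχQ hm hη hin
      have := Fintype.ofFinite Q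
      have hm0 : (m : ℂ) ≠ 0 := by
        have : m ≠ 0 := by
          rintro rfl
          exact Subgroup.index_ne_zero_of_finite (H := Q) (by simpa using hm.symm)
        exact_mod_cast this
      obtain ⟨r, hr⟩ := (hξ.isCharacter.res (K.subgroupOf Q)).exists_nat_inner hη.isCharacter
      have hvan : ∀ x : Q, x ∉ K.subgroupOf Q → ξ x = 0 := by
        intro x hx
        have h2 : χ.1 x = m * ξ x := congrFun hχQ x
        rw [h.vanish (g := x) fun hz => hx (hZK hz)] at h2
        exact (mul_eq_zero.mp h2.symm).resolve_left hm0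
      have h1 := clifford_norm hξ hη hin
      rw [(inner_res_self_eq_index_iff _ hξ.inner_self).mpr hvan, hr] at h1
      have h2 := clifford_degree hξ hη hin
      rw [hr] at h2
      set t := (inertia (K.subgroupOf Q) η).index with ht
      have h1' : K.relIndex Q = r ^ 2 * t := by exact_mod_cast h1
      let j : K.subgroupOf Q →* K :=
        ((Q.subtype.comp (K.subgroupOf Q).subtype)).codRestrict K fun x => x.2
      have h3 : charDegree η ∣ charDegree φ := by
        rw [← charDegree_comp φ j]
        refine CL.Blk.dvd_charDegree_of_forall (hφ.comp j) fun ψ hψ hψin => ?_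
        have h4 := inner_comp_ne_zero_of_constituent j (χ.2.isCharacter.res K) hφi hφin
          hψ.isCharacter hψin
        have h5 : (fun x : K.subgroupOf Q => χ.1 (j x)) =
            (m : ℂ) • fun x : K.subgroupOf Q => ξ x := funext fun x => congrFun hχQ x
        rw [h5, classInner_smul_left] at h4
        obtain ⟨g, hg⟩ := mem_conjugates.mp
          (mem_conjugates_of_under hξ hη hψ hin (right_ne_zero_of_mul h4))
        have : ψ 1 = η 1 := by rw [← hg, conjN_apply_one]
        rw [hη.apply_one_eq_charDegree] at this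
        rw [charDegree_eq_of_apply_one this]
      obtain ⟨b, hb⟩ := h3
      have h4 : χ.1 1 = K.index * φ 1 := by rw [← hind, indFun_one]
      have h5 : χ.1 1 = m * ξ 1 := congrFun hχQ 1
      rw [h4, h2, hφ.apply_one_eq_charDegree, hb, hη.apply_one_eq_charDegree] at h5
      have h6 : K.index * (charDegree η * b) = m * (r * t * charDegree η) := by
        exact_mod_cast h5
      obtain ⟨c, hc⟩ := Subgroup.relIndex_dvd_index_of_normal K Q
      have ht0 : 0 < t := Nat.pos_of_ne_zero Subgroup.index_ne_zero_of_finite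
      have hr0 : 0 < r := Nat.pos_of_ne_zero (by rintro rfl; exact hin (by simpa using hr))
      have h7 : r ∣ m := by
        refine ⟨c * b, ?_⟩
        rw [hc, h1'] at h6
        have := hη.charDegree_pos
        apply Nat.eq_of_mul_eq_mul_right (show 0 < r * t * charDegree η by positivity)
        rw [← h6]
        ring
      have h8 : r ∣ Nat.card R := by
        have : K.relIndex Q ∣ Nat.card R := by
          have e1 : K ⊔ Q = K ⊔ R := by rw [hQ, ← sup_assoc, sup_eq_left.mpr hZK]
          rw [← Subgroup.relIndex_sup_left, e1, Subgroup.relIndex_sup_left]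
          exact Subgroup.relIndex_dvd_card _ _
        exact (Dvd.intro (r * t) (by rw [h1']; ring)).trans this
      have h9 : r ∣ (R : Subgroup H).index := by
        have : m ∣ Q.index := by rw [← hm]; exact Dvd.intro_left _ (pow_two m).symm
        exact (h7.trans this).trans (Subgroup.index_dvd_of_le (hQ ▸ le_sup_right))
      rw [hr, Nat.eq_one_of_dvd_coprimes R.card_coprime_index h8 h9, Nat.cast_one])
    refine ⟨S.map (QuotientGroup.mk' K), ?_, ?_⟩
    · rwa [← Subgroup.relIndex_ker, QuotientGroup.ker_mk']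
    · rw [← CL.relIndex_eq_index_of_forall_exists_mul
        ((R : Subgroup H).map (QuotientGroup.mk' K)) _ (fun q => by
          obtain ⟨g, rfl⟩ := QuotientGroup.mk_surjective q
          obtain ⟨k, hk, s, hs, r, hr, e⟩ := hdec g⁻¹
          refine ⟨(r⁻¹ : H), ⟨_, inv_mem hr, rfl⟩, (s⁻¹ : H), ⟨_, inv_mem hs, rfl⟩, ?_⟩
          rw [inv_eq_iff_eq_inv.mp e]
          simp [(QuotientGroup.eq_one_iff k).mpr hk])]
      obtain ⟨k, hk⟩ := IsPGroup.iff_card.mp (R.isPGroup'.map (QuotientGroup.mk' K))
      obtain ⟨i, -, hi⟩ := (Nat.dvd_prime_pow hp).mp (hk ▸ Subgroup.relIndex_dvd_card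
        (S.map (QuotientGroup.mk' K)) ((R : Subgroup H).map (QuotientGroup.mk' K)))
      exact ⟨i, hi⟩
  refine ⟨hsolv, fun hKs => ?_⟩
  exact Group.isSolvable_of_ker_le_range K.subtype (QuotientGroup.mk' K) (by simp)

end Cfsg.Agent.S4563
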