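import Cfsg.Statements.S4564
import Cfsg.Agent.ORD.FullRam

set_option autoImplicit false
open Cfsg

open CL.Char
namespace Cfsg.Agent.S4564

/-- Let χ be an irreducible character of the finite group H that is fully ramified over the normal subgroup Z: the restriction of χ to Z is e times an irreducible character of Z with e ^ 2 equal to the index of Z. Let K be a normal subgroup of H containing Z and P a cyclic Sylow p-subgroup of H/K. Then P has a complement in H/K: a subgroup meeting P trivially whose product with P is the whole group. -/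
theorem result {H : Type*} [Group H] [Finite H] (Z : Subgroup H) [Z.Normal] (χ : Cfsg.IrrCharacter H) (hfr : ∃ (θ : Cfsg.IrrCharacter ↥Z) (e : ℕ), e ^ 2 = Z.index ∧ ∀ z : ↥Z, (χ : H → ℂ) z = (e : ℂ) * (θ : ↥Z → ℂ) z) (K : Subgroup H) [K.Normal] (hZK : Z ≤ K) (p : ℕ) [Fact p.Prime] (P : Sylow p (H ⧸ K)) (hcyc : IsCyclic P) : ∃ M : Subgroup (H ⧸ K), M.IsComplement' (P : Subgroup (H ⧸ K)) := by
  classical
  obtain ⟨θ, e, he, hres⟩ := hfr
  have h : CL.Ord.FR Z χ.1 θ.1 e := ⟨χ.2, θ.2, he, funext hres⟩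
  obtain ⟨R, hR⟩ := Sylow.mapSurjective_surjective (QuotientGroup.mk'_surjective K) p P
  have hR' : (R : Subgroup H).map (QuotientGroup.mk' K) = P := by rw [← hR]; rfl
  obtain ⟨S, hS, hdec⟩ := h.exists_compl hZK R (by
    intro Q _ ξ m η hQ hξ _ _ hη hin
    refine CL.Ord.inner_res_eq_one_of_isCyclic ?_ hξ hη hin
    let f : Q ⧸ K.subgroupOf Q →* H ⧸ K := QuotientGroup.map _ _ Q.subtype le_rfl
    have hf : ∀ a, f a ∈ (P : Subgroup (H ⧸ K)) := by
      intro a
      obtain ⟨⟨t, ht⟩, rfl⟩ := QuotientGroup.mk_surjective a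
      rw [hQ] at ht
      obtain ⟨z, hz, r, hr, rfl⟩ := Subgroup.mem_sup_of_normal_left.mp ht
      rw [← hR']
      refine ⟨r, hr, ?_⟩
      change (r : H ⧸ K) = ((z * r : H) : H ⧸ K)
      rw [QuotientGroup.mk_mul, (QuotientGroup.eq_one_iff z).mpr (hZK hz), one_mul]
    refine isCyclic_of_injective (f.codRestrict _ hf) ?_
    rw [injective_iff_map_eq_one]
    intro a ha
    obtain ⟨t, rfl⟩ := QuotientGroup.mk_surjective a
    exact (QuotientGroup.eq_one_iff _).mpr
      ((QuotientGroup.eq_one_iff (t : H)).mp (congrArg Subtype.val ha)))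
  refine ⟨S.map (QuotientGroup.mk' K), Subgroup.isComplement'_of_disjoint_and_mul_eq_univ ?_ ?_⟩
  · apply Subgroup.disjoint_of_coprime_natCard
    obtain ⟨k, hk⟩ := IsPGroup.iff_card.mp P.isPGroup'
    rw [hk, ← Subgroup.relIndex_ker, QuotientGroup.ker_mk']
    exact Nat.Coprime.pow_right _
      ((Nat.Prime.coprime_iff_not_dvd (Fact.out : p.Prime)).mpr hS).symm
  · rw [Set.eq_univ_iff_forall]
    intro q
    obtain ⟨g, rfl⟩ := QuotientGroup.mk_surjective q
    obtain ⟨k, hk, s, hs, r, hr, rfl⟩ := hdec g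
    refine ⟨s, ⟨s, hs, rfl⟩, r, by rw [← hR']; exact ⟨r, hr, rfl⟩, ?_⟩
    simp [(QuotientGroup.eq_one_iff k).mpr hk]

end Cfsg.Agent.S4564
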