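import Cfsg.Statements.S4565
import Cfsg.Agent.ORD.FullRam

set_option autoImplicit false
open Cfsg

open CL.Char
namespace Cfsg.Agent.S4565

/-- Let χ be an irreducible character of the finite group H that is fully ramified over the normal subgroup Z: the restriction of χ to Z is e times an irreducible character of Z with e ^ 2 equal to the index of Z. If Z ≠ H, then H/Z has no cyclic subgroup that is its own centralizer. -/
theorem result {H : Type*} [Group H] [Finite H] (Z : Subgroup H) [Z.Normal] (χ : Cfsg.IrrCharacter H) (hfr : ∃ (θ : Cfsg.IrrCharacter ↥Z) (e : ℕ), e ^ 2 = Z.index ∧ ∀ z : ↥Z, (χ : H → ℂ) z = (e : ℂ) * (θ : ↥Z → ℂ) z) (hZ : Z ≠ ⊤) (C : Subgroup (H ⧸ Z)) (hC : IsCyclic C) : Subgroup.centralizer (C : Set (H ⧸ Z)) ≠ C := by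
  classical
  have := Fintype.ofFinite H
  have := Fintype.ofFinite Z
  obtain ⟨θ, e, he, hres⟩ := hfr
  have h : CL.Ord.FR Z χ.1 θ.1 e := ⟨χ.2, θ.2, he, funext hres⟩
  intro hcent
  obtain ⟨c, hc⟩ := (Subgroup.isCyclic_iff_exists_zpowers_eq_top C).mp hC
  obtain ⟨g, rfl⟩ := QuotientGroup.mk_surjective c
  obtain ⟨A, hA⟩ : ∃ A, A = C.comap (QuotientGroup.mk' Z) := ⟨_, rfl⟩
  have hmem : ∀ x : H, x ∈ A ↔ (x : H ⧸ Z) ∈ C := fun x => by rw [hA]; rfl
  have hZA : Z ≤ A := fun z hz => by
    rw [hmem, (QuotientGroup.eq_one_iff z).mpr hz]; exact one_mem _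
  have hgA : g ∈ A := by rw [hmem, ← hc]; exact Subgroup.mem_zpowers _
  have hgZ : g ∉ Z := by
    intro hg
    rw [(QuotientGroup.eq_one_iff g).mpr hg, Subgroup.zpowers_one_eq_bot] at hc
    apply hZ
    rw [eq_top_iff]
    intro x _
    have : (x : H ⧸ Z) ∈ Subgroup.centralizer (C : Set (H ⧸ Z)) := by
      rw [← hc, Subgroup.mem_centralizer_iff]
      intro y hy
      rw [Subgroup.mem_bot.mp hy, one_mul, mul_one]
    rw [hcent, ← hc, Subgroup.mem_bot, QuotientGroup.eq_one_iff] at this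
    exact this
  have hcomm : ∀ y : H, (y : H ⧸ Z) * g = g * y ↔ y ∈ A := by
    intro y
    rw [hmem, ← hcent, ← hc, Subgroup.zpowers_eq_closure, Subgroup.centralizer_closure,
      Subgroup.mem_centralizer_singleton_iff]
  have := Fintype.ofFinite A
  have := Fintype.ofFinite (Z.subgroupOf A)
  have hcyc : IsCyclic (A ⧸ Z.subgroupOf A) := by
    let f : A ⧸ Z.subgroupOf A →* H ⧸ Z := QuotientGroup.map _ _ A.subtype le_rfl
    have hf : ∀ a, f a ∈ C := by
      intro a
      obtain ⟨⟨t, ht⟩, rfl⟩ := QuotientGroup.mk_surjective a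
      exact (hmem t).mp ht
    refine isCyclic_of_injective (f.codRestrict _ hf) ?_
    rw [injective_iff_map_eq_one]
    intro a ha
    obtain ⟨t, rfl⟩ := QuotientGroup.mk_surjective a
    exact (QuotientGroup.eq_one_iff _).mpr
      ((QuotientGroup.eq_one_iff (t : H)).mp (congrArg Subtype.val ha))
  obtain ⟨η, hη, hext⟩ := exists_ext_of_isCyclic (Z.subgroupOf A) hcyc (θ.2.subOf hZA)
    (inertia_eq_top_iff.mp (inertia_subOf_eq_top hZA (by rw [h.inertia]; exact le_top)))
  have hηZ : (fun n : Z.subgroupOf A => η n) = subOf Z A θ.1 := funext hext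
  have hηirr : IsIrrCharacter (Z.subgroupOf A) fun n => η n := hηZ ▸ θ.2.subOf hZA
  let f : A → ℂ := fun a => if (a : H) * g⁻¹ ∈ Z then η a else 0
  have hfcl : ∀ (a : A) (y : H) (hy : y ∈ A), f ⟨y⁻¹ * a * y, mul_mem (mul_mem (inv_mem hy) a.2) hy⟩ =
      f a := by
    intro a y hy
    have e1 : (y⁻¹ * a * y * g⁻¹ ∈ Z) ↔ ((a : H) * g⁻¹ ∈ Z) := by
      rw [← QuotientGroup.eq_one_iff, ← QuotientGroup.eq_one_iff]
      simp only [QuotientGroup.mk_mul, QuotientGroup.mk_inv, mul_inv_eq_one]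
      rw [mul_assoc, inv_mul_eq_iff_eq_mul, (hcomm y).mpr hy, mul_left_inj]
    simp only [f, e1]
    split_ifs
    · exact hη.isClassFunction.conj_inv a ⟨y, hy⟩
    · rfl
  have hfc : IsClassFunction A f := fun a y => by
    rw [← hfcl a y⁻¹ (inv_mem y.2)]
    congr 1
    exact Subtype.ext (by simp)
  have hzero : ∀ ψ, IsIrrCharacter A ψ → classInner (fun n : Z.subgroupOf A => ψ n)
      (fun n => η n) = 0 → classInner ψ f = 0 := by
    intro ψ hψ h0
    have h1 := congrFun (cosetAvg_eq_zero_of_inner hη.isCharacter hηirr hψ h0) ⟨g, hgA⟩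
    simp only [cosetAvg, Pi.zero_apply, mul_eq_zero, inv_eq_zero, card_ne_zero, false_or] at h1
    rw [classInner_def, ← Equiv.sum_comp (Equiv.mulRight (⟨g, hgA⟩ : A)), mul_eq_zero]
    right
    rw [← h1, ← sum_extendByZero (Z.subgroupOf A)]
    refine Finset.sum_congr rfl fun a _ => ?_
    by_cases ha : a ∈ Z.subgroupOf A
    · have ha' : (a : H) ∈ Z := ha
      rw [extendByZero_of_mem _ _ ha]
      simp [f, ha']
    · have ha' : (a : H) ∉ Z := ha
      rw [extendByZero_of_not_mem _ _ ha]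
      simp [f, ha']
  obtain ⟨n, hn, hn0⟩ := exists_apply_mul_ne_zero hη.isCharacter hηirr ⟨g, hgA⟩
  have hn' : (n : H) ∈ Z := hn
  have hx : (n : H) * g ∉ Z := fun hx => hgZ ((Z.mul_mem_cancel_left hn').mp hx)
  have h0 : indFun A f (n * g) = 0 := by
    rw [hfc.eq_sum, indFun_sum, Finset.sum_apply]
    refine Finset.sum_eq_zero fun ψ _ => ?_
    rw [indFun_smul, Pi.smul_apply, smul_eq_mul]
    by_cases h1 : classInner (fun n : Z.subgroupOf A => ψ.1 n) (fun n => η n) = 0
    · rw [classInner_eq_zero_comm.mp (hzero ψ ψ.2 h1), zero_mul]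
    · rw [hηZ, classInner_res_subOf hZA] at h1
      have h2 := ψ.2.isCharacter.ind.isClassFunction.eq_smul_of_forall χ.2 fun φ hφ h3 => by
        rw [inner_ind_eq_inner_res ψ.2.isCharacter hφ.isCharacter] at h3
        exact h.unique hφ (inner_comp_ne_zero_of_constituent (Subgroup.inclusion hZA)
          (hφ.isCharacter.res A) ψ.2 h3 θ.2.isCharacter h1)
      rw [h2, Pi.smul_apply, h.vanish hx, smul_zero, mul_zero]
  have h1 := card_mul_indFun A f (n * g)
  rw [h0, mul_zero] at h1
  have h2 : ∀ y : H, extendByZero A f (y⁻¹ * (n * g) * y) =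
      extendByZero A (fun _ => η (n * ⟨g, hgA⟩)) y := by
    intro y
    by_cases hy : y ∈ A
    · rw [extendByZero_of_mem _ _ hy,
        extendByZero_of_mem _ _ (mul_mem (mul_mem (inv_mem hy) (mul_mem n.2 hgA)) hy)]
      refine (hfcl (n * ⟨g, hgA⟩) y hy).trans ?_
      simp [f, hn']
    · rw [extendByZero_of_not_mem _ _ hy, extendByZero_apply]
      split_ifs with h3
      · simp only [f]
        rw [if_neg]
        intro h4
        apply hy
        rw [← hcomm]
        rw [← QuotientGroup.eq_one_iff] at h4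
        simp only [QuotientGroup.mk_mul, QuotientGroup.mk_inv, mul_inv_eq_one,
          (QuotientGroup.eq_one_iff _).mpr hn', one_mul] at h4
        rw [mul_assoc, inv_mul_eq_iff_eq_mul] at h4
        exact h4.symm
      · rfl
  simp only [h2, sum_extendByZero, Finset.sum_const, Finset.card_univ, nsmul_eq_mul] at h1
  exact mul_ne_zero (by exact_mod_cast Fintype.card_ne_zero) hn0 h1.symm

end Cfsg.Agent.S4565
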