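import Cfsg.Statements.S4566
import Cfsg.Agent.CHAR.Orth

set_option autoImplicit false
open Cfsg

namespace Cfsg.Agent.S4566

theorem central_mul {G : Type*} [Group G] [Fintype G] {χ : G → ℂ} (h : IsIrrCharacter G χ)
    (z : G) (hz : z ∈ Subgroup.center G) (x : G) : χ 1 * χ (z * x) = χ z * χ x := by
  classical
  have hf : IsClassFunction G (fun g => if g = z then (1 : ℂ) else 0) := by
    intro g k
    have : k * g * k⁻¹ = z ↔ g = z := by
      have hk := Subgroup.mem_center_iff.1 hz k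
      constructor
      · intro h1
        have : g = k⁻¹ * z * k := by rw [← h1]; group
        rw [this, mul_assoc, ← hk]; group
      · rintro rfl
        rw [hk]; group
    simp [this]
  have := h.sum_mul_apply_mul hf x
  simpa using this

/-- Let N be a central subgroup of the finite group G, ψ a faithful irreducible (hence degree-one) character of N, and χ an irreducible character of G whose restriction to N contains ψ. If g ∈ G and some x ∈ G has commutator x⁻¹ g⁻¹ x g in N but different from 1, then χ g = 0. -/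
theorem result {G : Type*} [Group G] [Fintype G] (N : Subgroup G) [Fintype N] (hN : N ≤ Subgroup.center G) (ψ : Cfsg.IrrCharacter ↥N) (hfaith : ∀ n : ↥N, (ψ : ↥N → ℂ) n = (ψ : ↥N → ℂ) 1 → n = 1) (χ : Cfsg.IrrCharacter G) (hover : Cfsg.classInner (fun n : ↥N => (χ : G → ℂ) n) (ψ : ↥N → ℂ) ≠ 0) (g x : G) (hcomm : x⁻¹ * g⁻¹ * x * g ∈ N) (hne : x⁻¹ * g⁻¹ * x * g ≠ 1) : (χ : G → ℂ) g = 0 := by
  have h1 : (χ : G → ℂ) 1 ≠ 0 := χ.2.one_ne_zero
  let f : N →* ℂ :=
    { toFun := fun n => (χ : G → ℂ) n / (χ : G → ℂ) 1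
      map_one' := by simp [h1]
      map_mul' := by
        intro a b
        have := central_mul χ.2 a (hN a.2) b
        simp only [Subgroup.coe_mul]
        field_simp
        rw [mul_comm, this] }
  have hlam : IsIrrCharacter N (fun n => (f.toHomUnits n : ℂ)) := CL.Char.isIrrCharacter_hom _
  have hres : (fun n : ↥N => (χ : G → ℂ) n) = (χ : G → ℂ) 1 • (fun n => (f.toHomUnits n : ℂ)) := by
    funext n
    simp only [Pi.smul_apply, smul_eq_mul, MonoidHom.coe_toHomUnits, f, MonoidHom.coe_mk,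
      OneHom.coe_mk]
    field_simp
  rw [hres, CL.Char.classInner_smul_left] at hover
  have heq := hlam.eq_of_inner_ne_zero ψ.2 (right_ne_zero_of_mul hover)
  set z := x⁻¹ * g⁻¹ * x * g with hz
  have hzi : z⁻¹ ∈ N := N.inv_mem hcomm
  have h2 := central_mul χ.2 z⁻¹ (hN hzi) g
  have h3 : z⁻¹ * g = x⁻¹ * g * x⁻¹⁻¹ := by
    have hc := Subgroup.mem_center_iff.1 (hN hzi) g
    rw [← hc, hz]; group
  rw [h3, χ.2.isClassFunction g x⁻¹] at h2
  by_contra hg
  have h4 : (χ : G → ℂ) z⁻¹ = (χ : G → ℂ) 1 := (mul_right_cancel₀ hg h2).symm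
  have h5 : (ψ : N → ℂ) ⟨z⁻¹, hzi⟩ = (ψ : N → ℂ) 1 := by
    rw [← heq]
    simp only [MonoidHom.coe_toHomUnits, f, MonoidHom.coe_mk, OneHom.coe_mk, h4]
    simp
  have h6 := hfaith _ h5
  apply hne
  have : z⁻¹ = 1 := congrArg Subtype.val h6
  exact inv_eq_one.1 this

end Cfsg.Agent.S4566
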