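import Cfsg.Statements.S4574
import Mathlib
import Cfsg.Agent.BLK.Codeg
import Cfsg.Agent.CHAR.LinExt

set_option autoImplicit false
open Cfsg

namespace Cfsg.Agent.S4574

open CL CL.Blk CL.Char MonoidAlgebra
open scoped CL.MSS
open scoped ComplexConjugate commutatorElement

/-- Let χ be an irreducible character of the finite group G, of degree d, and let Z(χ) be the set of elements g with |χ g| = d (the centre of χ). Then χ vanishes on at least (d ^ 2 - 1) · |Z(χ)| elements of G, with equality when every value |χ g| is 0, 1 or d. -/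
theorem result {G : Type*} [Group G] [Fintype G] [DecidableEq G] (χ : G → ℂ) (hχ : Cfsg.IsIrrCharacter G χ) : (Cfsg.charDegree χ ^ 2 - 1) * (Finset.univ.filter (fun g : G => ‖χ g‖ = (Cfsg.charDegree χ : ℝ))).card ≤ (Finset.univ.filter (fun g : G => χ g = 0)).card ∧ ((∀ g : G, ‖χ g‖ = 0 ∨ ‖χ g‖ = 1 ∨ ‖χ g‖ = (Cfsg.charDegree χ : ℝ)) → (Cfsg.charDegree χ ^ 2 - 1) * (Finset.univ.filter (fun g : G => ‖χ g‖ = (Cfsg.charDegree χ : ℝ))).card = (Finset.univ.filter (fun g : G => χ g = 0)).card) := by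
  have hd := hχ.charDegree_pos
  set Z := Finset.univ.filter (fun g : G => ‖χ g‖ = (charDegree χ : ℝ)) with hZ
  set O := Finset.univ.filter (fun g : G => χ g = 0) with hO
  set S := Finset.univ.filter (fun g : G => ¬ ‖χ g‖ = (charDegree χ : ℝ) ∧ χ g ≠ 0) with hS
  have hsplit : ∀ f : G → ℝ, ∑ g, f g = ∑ g ∈ Z, f g + ∑ g ∈ O, f g + ∑ g ∈ S, f g := by
    intro f
    rw [hZ, hO, hS, Finset.sum_filter, Finset.sum_filter, Finset.sum_filter,
      ← Finset.sum_add_distrib, ← Finset.sum_add_distrib]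
    refine Finset.sum_congr rfl fun g _ => ?_
    by_cases h1 : χ g = 0
    · have h2 : ¬ ‖χ g‖ = (charDegree χ : ℝ) := by
        rw [h1, norm_zero]; exact_mod_cast hd.ne
      simp [h1, h2] <;> simp_all
    · by_cases h2 : ‖χ g‖ = (charDegree χ : ℝ) <;> simp [h1, h2]
  have h1 := hsplit fun _ => 1
  have h2 := hsplit fun g => ‖χ g‖ ^ 2
  rw [hχ.sum_norm_sq] at h2
  simp only [Finset.sum_const, Finset.card_univ, nsmul_eq_mul, mul_one,
    ← Nat.card_eq_fintype_card] at h1
  have h3 : ∑ g ∈ Z, ‖χ g‖ ^ 2 = Z.card * (charDegree χ : ℝ) ^ 2 := by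
    rw [Finset.sum_congr rfl fun g hg => by rw [(Finset.mem_filter.1 hg).2]]
    simp
  have h4 : ∑ g ∈ O, ‖χ g‖ ^ 2 = 0 :=
    Finset.sum_eq_zero fun g hg => by rw [(Finset.mem_filter.1 hg).2]; simp
  rw [h3, h4] at h2
  have h5 : (((charDegree χ ^ 2 - 1) * Z.card : ℕ) : ℝ) = Z.card * (charDegree χ : ℝ) ^ 2 - Z.card := by
    rw [Nat.cast_mul, Nat.cast_sub (Nat.one_le_pow _ _ hd)]
    push_cast; ring
  constructor
  · have h6 := hχ.isCharacter.isGen.card_le_sum_norm_sq S (fun g hg k hk => by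
      obtain ⟨h7, h8⟩ := (Finset.mem_filter.1 hg).2
      have h9 : k.Coprime (orderOf g) := hk.coprime_dvd_right (orderOf_dvd_natCard g)
      refine Finset.mem_filter.2 ⟨Finset.mem_univ _, fun h10 => h7 ?_,
        fun h10 => h8 ((hχ.isCharacter.isGen.apply_pow_eq_zero_iff h9).1 h10)⟩
      exact hχ.mem_charCenter.1 (mem_of_coprime_pow_mem _ h9 (hχ.mem_charCenter.2 h10)
        (by rw [pow_orderOf_eq_one]; exact one_mem _))) fun g hg => (Finset.mem_filter.1 hg).2.2
    have h7 : (((charDegree χ ^ 2 - 1) * Z.card : ℕ) : ℝ) ≤ O.card := by rw [h5]; linarith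
    exact_mod_cast h7
  · intro h
    have h6 : ∑ g ∈ S, ‖χ g‖ ^ 2 = S.card := by
      rw [Finset.sum_congr rfl (g := fun _ => (1 : ℝ)) fun g hg => by
        obtain ⟨h7, h8⟩ := (Finset.mem_filter.1 hg).2
        rcases h g with h9 | h9 | h9
        · exact absurd (norm_eq_zero.1 h9) h8
        · rw [h9, one_pow]
        · exact absurd h9 h7]
      simp
    have h7 : (((charDegree χ ^ 2 - 1) * Z.card : ℕ) : ℝ) = O.card := by rw [h5]; linarith
    exact_mod_cast h7

end Cfsg.Agent.S4574
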