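import Cfsg.Statements.S4575
import Cfsg.Agent.BLK.KBound

set_option autoImplicit false
open Cfsg

namespace Cfsg.Agent.S4575

open CL.Blk CL.Char

/-- Let B be a 2-block of the finite group G (relative to a maximal ideal M of the algebraic integers containing 2) of defect d with defect group D. Let z be an element of D commuting with every element of D, and let b be a block of the centralizer of z with defect group D that induces B (a major subsection (z, b)). If the number of irreducible characters in B exceeds the 2-regular rank of b by at most three, then B contains at most 2 ^ d irreducible characters. -/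
theorem result {G : Type*} [Group G] [Finite G] (M : Ideal Cfsg.AlgInt) (hM : Cfsg.IsPModular 2 M) (B : Set (Cfsg.IrrCharacter G)) (hB : Cfsg.IsPBlock M B) (D : Subgroup G) (hD : Cfsg.IsDefectGroup 2 M B D) (z : G) (hzD : z ∈ D) (hzc : ∀ d ∈ D, d * z = z * d) (b : Set (Cfsg.IrrCharacter ↥(Subgroup.centralizer ({z} : Set G)))) (hb : Cfsg.IsInducedBlock M (Subgroup.centralizer ({z} : Set G)) b B) (hbD : Cfsg.IsDefectGroup 2 M b (D.subgroupOf (Subgroup.centralizer ({z} : Set G)))) (h : Nat.card B ≤ Cfsg.blockRank 2 b + 3) : Nat.card B ≤ 2 ^ Cfsg.blockDefect 2 B := by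
  classical
  obtain ⟨hs, hi, hd⟩ := major_data hM hB hD hzD hzc hb hbD
  by_cases hd0 : Cfsg.blockDefect 2 B = 0
  · rw [card_eq_one_of_blockDefect_eq_zero hM hB hd0, hd0, pow_zero]
  obtain ⟨n, hn⟩ := hs.exists_pow_eq_one
  obtain ⟨t, ht, hsum, hodd, hge⟩ := hs.exists_avg_two hM hb.1 hB hi hn
  have hq : (2 : ℕ) ^ n ≠ 0 := by positivity
  have hpos : (0 : ℝ) < (copr (2 ^ n)).card := by exact_mod_cast card_copr_pos hq
  have hbu := isBlockUnion_of_block hM hb.1
  set f := (Subgroup.centralizer ({z} : Set G)).subtype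
  set w : Subgroup.centralizer ({z} : Set G) := ⟨z, self_mem_centralizer_singleton z⟩
  set T := Finset.univ.filter (fun χ : Cfsg.IrrCharacter G => χ ∈ B) with hTdef
  have hT : ∀ ψ, ψ ∈ T ↔ ψ ∈ B := fun ψ => by simp [hTdef]
  have hcard : Nat.card B = T.card := by rw [Nat.card_eq_fintype_card, Fintype.card_subtype]
  rw [hd] at ht hsum
  set d := Cfsg.blockDefect 2 B with hdd
  have e : ((2 : ℂ) ^ d) = (((2 : ℝ) ^ d : ℝ) : ℂ) := by push_cast; rfl
  let m : ℕ → Cfsg.IrrCharacter G → Cfsg.IrrCharacter G → ℂ := fun k χ ψ =>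
    (2 : ℂ) ^ d * gcontr 2 f (w ^ k) b χ.1 ψ.1
  have hm : ∀ χ ψ, (fun k => m k χ ψ) ∈ Cyc (2 ^ n) := fun χ ψ => by
    have := gcontr_mem_cyc hM f hs.mem_center hn hb.1 χ.2.isGen ψ.2.isGen
    rwa [hd] at this
  have hre : ∀ k χ, m k χ χ = ((m k χ χ).re : ℂ) := fun k χ =>
    (Complex.conj_eq_iff_re.1 (by
      simp only [m]; rw [map_mul, map_pow, map_ofNat, conj_gcontr f _ hM hbu])).symm
  -- the off-diagonal part of a row
  have hrow : ∀ k ∈ copr (2 ^ n), ∀ χ, ∑ ψ ∈ Finset.univ.erase χ, ‖m k χ ψ‖ ^ 2 =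
      (m k χ χ).re * (2 ^ d - (m k χ χ).re) := fun k hk χ => by
    have h1 := (hs.pow hM.1 hn (mem_copr.1 hk).2).sum_norm_sq_row hM hbu (2 ^ d) χ.1
    rw [← e, ← Finset.add_sum_erase _ _ (Finset.mem_univ χ)] at h1
    have h2 : ‖m k χ χ‖ ^ 2 = (m k χ χ).re ^ 2 := by
      conv_lhs => rw [hre, Complex.norm_real, Real.norm_eq_abs, sq_abs]
    change ‖m k χ χ‖ ^ 2 + ∑ ψ ∈ Finset.univ.erase χ, ‖m k χ ψ‖ ^ 2 = 2 ^ d * (m k χ χ).re at h1
    linarith
  have h0 : ∀ k χ, 0 ≤ (m k χ χ).re := fun k χ => by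
    simp only [m]
    rw [e, Complex.re_ofReal_mul]
    exact mul_nonneg (by positivity) (gcontr_self_re_nonneg f _ hM hbu _)
  have hle : ∀ k ∈ copr (2 ^ n), ∀ χ, (m k χ χ).re ≤ 2 ^ d := fun k hk χ => by
    have h1 := hrow k hk χ
    have h2 : 0 ≤ ∑ ψ ∈ Finset.univ.erase χ, ‖m k χ ψ‖ ^ 2 :=
      Finset.sum_nonneg fun _ _ => by positivity
    by_contra h3
    have h4 : (0 : ℝ) < 2 ^ d := by positivity
    nlinarith
  have hc : ∀ χ, (fun k => (2 : ℂ) ^ d - m k χ χ) ∈ Cyc (2 ^ n) := fun χ =>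
    Cyc.sub_mem' (by simpa using Cyc.const_mem (q := 2 ^ n) (2 ^ d)) (hm χ χ)
  choose s hs' hsodd hsge using fun χ => Cyc.exists_avg_two_nat hM (hc χ)
    (fun k => by rw [map_sub, map_pow, map_ofNat, hre, Complex.conj_ofReal]) fun k hk => by
      rw [Complex.sub_re, e, Complex.ofReal_re]; linarith [hle k hk χ]
  have hst : ∀ χ, s χ + t χ = 2 ^ d := fun χ => by
    have h1 := hs' χ
    have h2 := ht χ
    simp only [Complex.sub_re, Finset.sum_sub_distrib, Finset.sum_const, nsmul_eq_mul] at h1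
    rw [e, Complex.ofReal_re] at h1
    have h3 : ((copr (2 ^ n)).card : ℝ) * (s χ + t χ) = (copr (2 ^ n)).card * 2 ^ d := by
      rw [mul_add, ← h1, ← h2]; simp only [m]; ring
    exact_mod_cast mul_left_cancel₀ hpos.ne' h3
  have h2d : ((2 : ℂ) ^ d) ∈ (V M).nonunits :=
    pow_mem_nonunits hd0 (by exact_mod_cast p_mem_nonunits hM)
  have hunit : ∀ χ ∈ B, Cfsg.blockHeight 2 B χ.1 = 0 → (2 : ℂ) ^ d - m 1 χ χ ∉ (V M).nonunits :=
    fun χ hχ hχ0 h1 => by
      have h2 := (hs.gcontr_notMem_iff hM hb.1 hB hi hχ hχ).2 ⟨hχ0, hχ0⟩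
      rw [hd] at h2
      exact h2 (by simpa [m] using sub_mem h2d h1)
  by_cases h1 : ∃ χ ∈ B, Cfsg.blockHeight 2 B χ.1 = 0 ∧ s χ = 1
  · obtain ⟨χ, hχ, hχ0, h1⟩ := h1
    have h2 : ((T.erase χ).card : ℝ) * (copr (2 ^ n)).card ≤
        ∑ k ∈ copr (2 ^ n), ∑ ψ ∈ Finset.univ.erase χ, ‖m k χ ψ‖ ^ 2 := by
      rw [Finset.sum_comm, ← nsmul_eq_mul, ← Finset.sum_const]
      refine (Finset.sum_le_sum fun ψ hψ => ?_).trans (Finset.sum_le_sum_of_subset_of_nonneg
        (Finset.erase_subset_erase _ (Finset.subset_univ T)) fun ψ _ _ =>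
          Finset.sum_nonneg fun k _ => by positivity)
      have := hs.sum_pow_mul_le_row hM hb.1 hB hi hd hn hχ hχ0
        ((hT ψ).1 (Finset.mem_of_mem_erase hψ))
      rw [hd] at this
      refine le_trans (le_mul_of_one_le_left hpos.le (one_le_pow₀ (by norm_num))) this
    have h3 := Cyc.card_le_sum_norm_sq hq (hc χ) (ne_zero_of_notMem_nonunits (hunit χ hχ hχ0))
    have h4 : ∑ k ∈ copr (2 ^ n), ∑ ψ ∈ Finset.univ.erase χ, ‖m k χ ψ‖ ^ 2 +
        ∑ k ∈ copr (2 ^ n), ‖(2 : ℂ) ^ d - m k χ χ‖ ^ 2 =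
        2 ^ d * ∑ k ∈ copr (2 ^ n), ((2 : ℂ) ^ d - m k χ χ).re := by
      rw [← Finset.sum_add_distrib, Finset.mul_sum]
      refine Finset.sum_congr rfl fun k hk => ?_
      rw [hrow k hk, hre k χ, e, ← Complex.ofReal_sub, Complex.norm_real, Real.norm_eq_abs, sq_abs,
        Complex.ofReal_re, Complex.ofReal_re]
      ring
    rw [hs', h1, Nat.cast_one, mul_one] at h4
    have h5 : (((T.erase χ).card + 1 : ℕ) : ℝ) ≤ 2 ^ d := by
      refine le_of_mul_le_mul_right ?_ hpos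
      push_cast
      linarith
    rw [Finset.card_erase_add_one ((hT χ).2 hχ)] at h5
    rw [hcard]
    exact_mod_cast h5
  push Not at h1
  have h3 : ∀ χ ∈ T, 3 ≤ s χ := fun χ hχ => by
    rw [hT] at hχ
    by_cases hχ0 : Cfsg.blockHeight 2 B χ.1 = 0
    · obtain ⟨c, hc⟩ := hsodd χ (hunit χ hχ hχ0)
      have := h1 χ hχ hχ0
      omega
    · have h4 := height_add_two_le hM hB hχ hχ0
      refine le_trans (by norm_num) (hsge χ 1 ?_ ?_)
      · intro h5
        obtain ⟨ξ, hξ, hξ0⟩ := exists_height_zero 2 (block_nonempty hM hB)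
        have h6 := hrow _ (mod_mem_copr hq (Nat.coprime_one_left _)) χ
        have h7 : ∀ ψ, m (1 % 2 ^ n) χ ψ = m 1 χ ψ := fun ψ => Cyc.apply_mod (hm χ ψ) 1
        simp only [h7] at h6
        rw [← sub_eq_zero.1 h5, e, Complex.ofReal_re, sub_self, mul_zero,
          Finset.sum_eq_zero_iff_of_nonneg fun _ _ => by positivity] at h6
        have h8 := h6 ξ (Finset.mem_erase.2 ⟨fun h => hχ0 (h ▸ hξ0), Finset.mem_univ _⟩)
        simp only [m, pow_one] at h8
        exact hs.gcontr_ne_zero_of_major hM hb.1 hB hi hd hχ hξ hξ0 (by simpa using h8)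
      · have h5 := (hs.gcontr_div_notMem_iff hM hb.1 hB hi hd hχ hχ).not.2 hχ0
        rw [not_not, div_nd_mem_nonunits_iff hM hχ] at h5
        obtain ⟨c, hc⟩ := Nat.exists_eq_succ_of_ne_zero hχ0
        obtain ⟨c', hc'⟩ : ∃ c', d = c' + 2 := ⟨d - 2, by omega⟩
        have h6 : ((2 : ℂ) ^ d - m 1 χ χ) / 2 ^ 1 = 2 ^ (c' + 1) -
            ((2 : ℕ) : ℂ) ^ d * gcontr 2 f w b χ.1 χ.1 / ((2 : ℕ) : ℂ) ^ (c + 1) * 2 ^ c := by
          simp only [m, pow_one, Nat.cast_ofNat]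
          rw [hc']
          field_simp
          ring
        rw [h6]
        rw [hc] at h5
        exact sub_mem (pow_mem_nonunits (Nat.succ_ne_zero _) (by exact_mod_cast p_mem_nonunits hM))
          (mul_mem_nonunits_right h5 (pow_mem (by exact_mod_cast natCast_mem (V M) 2) _))
  have h4 : ∑ χ ∈ T, t χ = 2 ^ d * Cfsg.blockRank 2 b := by
    rw [← hsum]
    refine Finset.sum_subset (Finset.subset_univ _) fun χ _ hχ => ?_
    have h5 := ht χ
    rw [Finset.sum_eq_zero fun k hk => by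
      rw [(hs.pow hM.1 hn (mem_copr.1 hk).2).gcontr_eq_zero_of_notMem_left hM
        (isBlockUnion_of_block hM hB) hbu hi (fun h => hχ ((hT χ).2 h))]; simp] at h5
    exact_mod_cast (mul_eq_zero.1 h5.symm).resolve_left hpos.ne'
  have h5 := Finset.card_nsmul_le_sum T s _ h3
  have h6 : ∑ χ ∈ T, (s χ + t χ) = T.card * 2 ^ d := by simp [hst]
  rw [Finset.sum_add_distrib, h4] at h6
  rw [hcard] at h ⊢
  rw [smul_eq_mul] at h5
  nlinarith [Nat.mul_le_mul_right (2 ^ d) h]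

end Cfsg.Agent.S4575
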