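import Cfsg.Statements.S4580
import Cfsg.Agent.BLK.Real2
import Cfsg.Agent.CHAR.Gallagher

set_option autoImplicit false
open Cfsg

namespace Cfsg.Agent.S4580

/-- Let N be a normal subgroup of the finite group G, M a maximal ideal of the algebraic integers containing 2, and θ a real-valued irreducible character of N of odd degree that extends to G (some irreducible character of G restricts to θ). Then θ has an extension to G lying in the principal 2-block of G. -/
theorem result {G : Type*} [Group G] [Finite G] (N : Subgroup G) [N.Normal] (M : Ideal Cfsg.AlgInt) (hM : Cfsg.IsPModular 2 M) (θ : Cfsg.IrrCharacter N) (hreal : ∀ n : N, ((θ : N → ℂ) n).im = 0) (hodd : Odd (Cfsg.charDegree (θ : N → ℂ))) (hext : ∃ η : Cfsg.IrrCharacter G, ∀ n : N, (η : G → ℂ) n = (θ : N → ℂ) n) :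
    ∃ η : Cfsg.IrrCharacter G, (∀ n : N, (η : G → ℂ) n = (θ : N → ℂ) n) ∧ η ∈ Cfsg.principalBlock M G := by
  obtain ⟨η, hη⟩ := hext
  have hirr : IsIrrCharacter N (fun n : N => η.1 n) := by
    rw [show (fun n : N => η.1 n) = θ.1 from funext hη]; exact θ.2
  obtain ⟨lam, hlam, e⟩ := CL.Char.exists_hom_mul_of_res_eq η.2.isCharacter hirr
    η.2.conj.isCharacter fun n => by
      rw [hη n]; exact Complex.conj_eq_iff_im.2 (hreal n)
  obtain ⟨k, hk⟩ : Odd (ordCompl[2] (Nat.card G)) := Nat.not_even_iff_odd.1 fun h =>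
    Nat.not_dvd_ordCompl Nat.prime_two Nat.card_pos.ne' h.two_dvd
  have h1 : ∀ n : N, ((lam ^ (k + 1)) n : ℂ) * η.1 n = θ.1 n := fun n => by
    rw [MonoidHom.pow_apply, hlam n n.2, one_pow, Units.val_one, one_mul, hη]
  refine ⟨⟨_, η.2.hom_mul (lam ^ (k + 1))⟩, h1, CL.Blk.mem_principalBlock_of_inv hM ?_
    (CL.Blk.sameBlock_refl hM _) fun g hg => ?_⟩
  · have : charDegree (fun g => ((lam ^ (k + 1)) g : ℂ) * η.1 g) = charDegree θ.1 :=
      congrArg (fun z : ℂ => ⌊z.re⌋₊) (h1 1)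
    exact this ▸ fun h => Nat.not_even_iff_odd.2 hodd (even_iff_two_dvd.2 h)
  · have h2 : lam g ^ (2 * k + 1) = 1 := by
      rw [← hk, ← map_pow, orderOf_dvd_iff_pow_eq_one.1 (Nat.dvd_ordCompl_of_dvd_not_dvd
        (orderOf_dvd_natCard g) hg), map_one]
    have h3 : (lam ^ (k + 1)) g = (lam ^ (k + 1)) g⁻¹ * lam g := by
      rw [map_inv, MonoidHom.pow_apply, eq_inv_mul_iff_mul_eq, ← pow_add,
        show k + 1 + (k + 1) = 2 * k + 1 + 1 by ring, pow_succ, h2, one_mul]
    change ((lam ^ (k + 1)) g : ℂ) * η.1 g = ((lam ^ (k + 1)) g⁻¹ : ℂˣ) * η.1 g⁻¹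
    rw [η.2.isCharacter.apply_inv, congrFun e g, h3, Units.val_mul, mul_assoc]

end Cfsg.Agent.S4580
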