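import Cfsg.Statements.S4581
import Cfsg.Agent.BLK.McKay
import Cfsg.Agent.SOLV.PSolvable
import Cfsg.Agent.PLOC.PFrattini

set_option autoImplicit false
open Cfsg

namespace Cfsg.Agent.S4581

open CL.Char CL.OW Subgroup
open scoped ComplexConjugate

theorem count {G : Type*} [Group G] [Finite G] [Group.IsSolvable G] (P : Sylow 2 G)
    {Pr : ∀ H : Subgroup G, (H → ℂ) → Prop} (hg : Good 2 Pr) :
    Nat.card {χ : IrrCharacter G // Odd (charDegree χ.1) ∧ Pr ⊤ fun g => χ.1 g} =
      Nat.card {χ : IrrCharacter (normalizer ((P : Subgroup G) : Set G)) //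
        Odd (charDegree χ.1) ∧ Pr _ χ.1} := by
  have h1 : ∀ {H : Type _} [Group H] (f : (⊥ : Subgroup G) →* H) {χ : H → ℂ}, IsIrrCharacter H χ →
      @classInner _ _ (ftSub ⊥) (fun l => χ (f l)) (fun _ => 1) ≠ 0 := fun f χ hχ => by
    simpa [classInner, Subsingleton.elim (_ : (⊥ : Subgroup G)) 1] using hχ.one_ne_zero
  have h2 : ∀ n : ℕ, ¬ 2 ∣ n ↔ Odd n := fun n => by rw [Nat.odd_iff, Nat.two_dvd_ne_zero]
  refine Eq.trans ?_ (((card_eq_Ct (L := ⊥) (CL.isPSolvable_of_isSolvable 2 G) hg P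
    isIrrCharacter_one (fun x _ => ⟨le_normalizer_of_normal (K := ⊤) trivial, fun _ _ _ => rfl⟩)
    bot_le).trans (Ct_congr (by rw [bot_sup_eq]) _ bot_le)).trans ?_)
  · exact Nat.card_congr (Equiv.subtypeEquivRight fun χ =>
      ((and_iff_left (h1 (Subgroup.subtype ⊥) χ.2)).trans (and_congr_left' (h2 _))).symm)
  · exact Nat.card_congr (Equiv.subtypeEquivRight fun χ =>
      (and_iff_left (h1 (inclusion bot_le) χ.2)).trans (and_congr_left' (h2 _)))

theorem real_iff {A : Type*} (χ : A → ℂ) : (fun g => conj (χ g)) = χ ↔ ∀ g, (χ g).im = 0 :=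
  funext_iff.trans (forall_congr' fun _ => Complex.conj_eq_iff_im)

theorem all_iff {A : Type*} [Finite A] (X Y : A → Prop) :
    (∀ a, X a → Y a) ↔ Nat.card {a // Y a ∧ X a} = Nat.card {a // X a ∧ True} := by
  refine ⟨fun h => Nat.card_congr (Equiv.subtypeEquivRight fun a =>
    ⟨fun h => ⟨h.2, trivial⟩, fun h' => ⟨h a h'.1, h'.1⟩⟩), fun h a ha => ?_⟩
  have := Set.eq_of_subset_of_ncard_le (s := {a | Y a ∧ X a}) (t := {a | X a ∧ True})
    (fun a h => ⟨h.2, trivial⟩) h.ge
  exact (this.ge ⟨ha, trivial⟩).1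

theorem eq_top_of_real {H : Type*} [Group H] [Finite H] (Q : Subgroup H) [Q.Normal]
    (hQ : Odd Q.index) (h : ∀ χ : IrrCharacter H, Odd (charDegree χ.1) → ∀ g, (χ.1 g).im = 0) :
    Q = ⊤ := by
  refine (eq_top_iff' Q).2 fun g => by_contra fun hg => ?_
  obtain ⟨χ, hχ, h1⟩ := exists_irr_not_mem_charKer (mt (QuotientGroup.eq_one_iff g).1 hg)
  let β := irrInfl (QuotientGroup.mk' Q) (QuotientGroup.mk'_surjective Q) ⟨χ, hχ⟩
  have h2 := CL.OddExt.Hyp.eq_one (σ := conj) (N := Q) ⟨hQ, Q.pow_index_mem, fun z hz => by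
    rw [Complex.conj_mul', Complex.norm_eq_one_of_pow_eq_one hz hQ.pos.ne']; simp⟩ β.2
    (fun n hn => congrArg χ (((QuotientGroup.eq_one_iff n).2 hn).trans rfl))
    fun g => Complex.conj_eq_iff_im.2 (h β (hQ.of_dvd_nat hχ.charDegree_dvd_card) g)
  exact h1 (hχ.mem_charKer.2 ((congrFun h2 g).trans (congrFun h2 1).symm))

theorem real_iff_frattini {H : Type*} [Group H] [Finite H] (hH : IsPGroup 2 H) :
    (∀ χ : IrrCharacter H, Odd (charDegree χ.1) → ∀ g, (χ.1 g).im = 0) ↔
      commutator H = frattini H := by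
  refine ⟨fun h => le_antisymm (CL.PG.commutator_le_frattini hH) ((CL.PG.frattini_le_iff hH).2
    ⟨le_rfl, fun g => mem_commutator_iff_hom.2 fun lam => Units.ext ?_⟩), fun h χ hχ g => ?_⟩
  · have h1 := Complex.conj_eq_iff_im.2 (h ⟨_, isIrrCharacter_hom lam⟩ (by simp [charDegree]) g)
    have h2 := (isIrrCharacter_hom lam).isCharacter.apply_inv g
    simp only [h1] at h2
    rw [pow_two, map_mul, Units.val_mul]
    nth_rw 1 [← h2]
    rw [← Units.val_mul, ← map_mul, inv_mul_cancel, map_one]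
  · obtain ⟨a, ha⟩ := IsPGroup.iff_card.1 hH
    have h1 := Nat.eq_one_of_dvd_coprimes (Nat.Coprime.pow_left a hχ.coprime_two_left)
      (ha ▸ χ.2.charDegree_dvd_card) dvd_rfl
    have h2 := χ.2.commutator_le_charKer_iff.2 (by rw [χ.2.apply_one_eq_charDegree, h1]; simp)
      (h ▸ ((CL.PG.frattini_le_iff hH).1 le_rfl).2 g)
    rw [← Complex.conj_eq_iff_im, ← χ.2.isCharacter.apply_inv, ← mem_charKer_iff.1 h2]
    simp [pow_two]

/-- Let G be a finite solvable group, P a Sylow 2-subgroup and N its normalizer. Then G and N have the same number of real-valued irreducible characters of odd degree; and every odd-degree irreducible character of G is real-valued exactly when the derived subgroup of P equals the Frattini subgroup of P and P is its own normalizer in G. -/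
theorem result {G : Type*} [Group G] [Finite G] [Group.IsSolvable G] (P : Sylow 2 G) :
    Nat.card {χ : Cfsg.IrrCharacter G // (∀ g : G, ((χ : G → ℂ) g).im = 0) ∧ Odd (Cfsg.charDegree (χ : G → ℂ))} =
      Nat.card {ψ : Cfsg.IrrCharacter (Subgroup.normalizer ((P : Subgroup G) : Set G)) // (∀ g, ((ψ : Subgroup.normalizer ((P : Subgroup G) : Set G) → ℂ) g).im = 0) ∧ Odd (Cfsg.charDegree (ψ : Subgroup.normalizer ((P : Subgroup G) : Set G) → ℂ))} ∧
    ((∀ χ : Cfsg.IrrCharacter G, Odd (Cfsg.charDegree (χ : G → ℂ)) → ∀ g : G, ((χ : G → ℂ) g).im = 0) ↔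
      (commutator (P : Subgroup G) = frattini (P : Subgroup G) ∧ Subgroup.normalizer ((P : Subgroup G) : Set G) = (P : Subgroup G))) := by
  have h1 := count P good_real
  have h2 := count P good_true
  simp only [real_iff, and_comm (a := Odd _)] at h1
  simp only [(topEquiv (G := G)).symm.surjective.forall, topEquiv_symm_apply_coe] at h1
  refine ⟨h1, ?_⟩
  rw [all_iff, h1, h2, ← all_iff]
  refine ⟨fun h => ?_, fun h => h.2.symm ▸ (real_iff_frattini P.2).2 h.1⟩
  have h3 : normalizer ((P : Subgroup G) : Set G) = P := le_antisymm (subgroupOf_eq_top.1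
    (eq_top_of_real _ (Nat.odd_iff.2 (Nat.two_dvd_ne_zero.1 (CL.MSS.sylIn_sylow P
      le_normalizer).not_dvd_relIndex)) h)) le_normalizer
  exact ⟨(real_iff_frattini P.2).1 (h3 ▸ h), h3⟩

end Cfsg.Agent.S4581
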