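import Cfsg.Statements.S4582
import Mathlib
import Cfsg.Agent.SOLV.Basic
import Cfsg.Agent.TECH.SylIn

set_option autoImplicit false
open Cfsg

namespace Cfsg.Agent.S4582

open CL MonoidAlgebra
open scoped CL.MSS
open scoped ComplexConjugate commutatorElement

open Subgroup in
theorem aux {G A : Type*} [Group G] [Finite G] [CommGroup A] (N P : Subgroup G) [hN : N.Normal]
    (hsup : N ⊔ P = ⊤) (ϕ : P →* A) (hQ : ∀ y : P, (y : G) ∈ N → ϕ y ^ 2 = 1)
    (hP : ∀ x : P, (x : G) ^ 2 ∈ N ⊔ _root_.commutator G)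
    (hodd : ∀ f : G →* A, ∀ n ∈ N, f n = 1) (x : P) : (ϕ x ^ 2) ^ P.index = 1 := by
  classical
  have := Fintype.ofFinite (Quotient (MulAction.orbitRel (zpowers (x : G)) (G ⧸ P)))
  have h1 : MonoidHom.transfer ϕ x ^ 2 = 1 := by
    rw [← map_pow]
    exact (sup_le (fun n hn => hodd _ n hn) (Abelianization.commutator_subset_ker _) :
      N ⊔ _root_.commutator G ≤ (MonoidHom.transfer ϕ).ker) (hP x)
  rw [MonoidHom.transfer_eq_prod_quotient_orbitRel_zpowers_quot, ← Finset.prod_pow] at h1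
  rw [← h1, index_eq_sum_minimalPeriod P (x : G), ← Finset.prod_pow_eq_pow_sum]
  refine Finset.prod_congr rfl fun q _ => ?_
  have key : ∀ (t : G) (r : ℕ) (h : t⁻¹ * x ^ r * t ∈ P), (ϕ x ^ 2) ^ r = ϕ ⟨_, h⟩ ^ 2 := by
    intro t r h
    obtain ⟨n, hn, y, hy, rfl⟩ := mem_sup_of_normal_left.1 (hsup ▸ mem_top t)
    set y' : P := ⟨y, hy⟩
    have h2 : ((⟨_, h⟩ * (y'⁻¹ * x ^ r * y')⁻¹ : P) : G) ∈ N := by
      have := hN.conj_mem _ (N.mul_mem (N.inv_mem hn) (hN.conj_mem n hn (x ^ r))) y⁻¹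
      convert this using 1
      simp only [y', coe_mul, coe_inv, SubmonoidClass.coe_pow]
      group
    have h3 := hQ _ h2
    rw [map_mul, map_inv, mul_pow, inv_pow, mul_inv_eq_one, map_mul, map_mul, map_inv,
      mul_comm (ϕ y')⁻¹, inv_mul_cancel_right, map_pow] at h3
    rw [h3, ← pow_mul, ← pow_mul, mul_comm]
  exact key _ _ _

/-- Let N be a normal subgroup of the finite group G, P a Sylow 2-subgroup of G and Q = P ∩ N. Suppose that P/QP' and Q/Q' are elementary abelian (every square of an element of P lies in the subgroup generated by Q and the derived subgroup of P, and every square of an element of Q lies in the derived subgroup of Q), and that the commutator factor group N/N' has odd order. Then P/P' is elementary abelian. -/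
theorem result {G : Type*} [Group G] [Finite G] (N : Subgroup G) [N.Normal] (P : Sylow 2 G)
    (hP : ∀ x ∈ (P : Subgroup G), x ^ 2 ∈ ((P : Subgroup G) ⊓ N) ⊔ ⁅(P : Subgroup G), (P : Subgroup G)⁆)
    (hQ : ∀ x ∈ (P : Subgroup G) ⊓ N, x ^ 2 ∈ ⁅(P : Subgroup G) ⊓ N, (P : Subgroup G) ⊓ N⁆)
    (hodd : Odd (Nat.card (Abelianization N))) :
    ∀ x ∈ (P : Subgroup G), x ^ 2 ∈ ⁅(P : Subgroup G), (P : Subgroup G)⁆ := by
  open Subgroup in
  intro x hx
  set H : Subgroup G := N ⊔ P with hH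
  have hle : (P : Subgroup G) ≤ H := le_sup_right
  let e := subgroupOfEquivOfLe hle
  let ϕ : (P : Subgroup G).subgroupOf H →* Abelianization (P : Subgroup G) :=
    Abelianization.of.comp e.toMonoidHom
  have hker : ∀ y : (P : Subgroup G), Abelianization.of y = 1 ↔
      (y : G) ∈ ⁅(P : Subgroup G), (P : Subgroup G)⁆ := fun y => by
    rw [← MonoidHom.mem_ker, Abelianization.ker_of, ← map_subtype_commutator]
    exact (mem_map_iff_mem (subtype_injective _)).symm
  have hA : IsPGroup 2 (Abelianization (P : Subgroup G)) :=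
    P.isPGroup'.of_surjective Abelianization.of (QuotientGroup.mk'_surjective _)
  have h1 := aux (N.subgroupOf H) ((P : Subgroup G).subgroupOf H)
    (by rw [← subgroupOf_sup le_sup_left hle, subgroupOf_self]) ϕ (fun y hy => ?_) (fun y => ?_)
    (fun f n hn => ?_) ⟨⟨x, hle hx⟩, hx⟩
  · have h2 : ¬ 2 ∣ ((P : Subgroup G).subgroupOf H).index := (P.subtype hle).not_dvd_index
    obtain ⟨k, hk⟩ := hA (ϕ ⟨⟨x, hle hx⟩, hx⟩ ^ 2)
    have h3 : ϕ ⟨⟨x, hle hx⟩, hx⟩ ^ 2 = 1 := orderOf_eq_one_iff.1 (Nat.eq_one_of_dvd_coprimes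
      (Nat.Coprime.pow_left k (Nat.prime_two.coprime_iff_not_dvd.2 h2))
      (orderOf_dvd_of_pow_eq_one hk) (orderOf_dvd_of_pow_eq_one h1))
    rw [← map_pow] at h3
    exact (hker _).1 h3
  · rw [← map_pow]
    exact (hker _).2 (commutator_mono inf_le_left inf_le_left (hQ _ ⟨y.2, hy⟩))
  · have h2 : ((P : Subgroup G) ⊓ N) ⊔ ⁅(P : Subgroup G), (P : Subgroup G)⁆ ≤
        (N.subgroupOf H ⊔ _root_.commutator H).map H.subtype := by
      rw [Subgroup.map_sup, map_subtype_commutator, subgroupOf_map_subtype]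
      exact sup_le_sup (le_inf inf_le_right (inf_le_left.trans hle)) (commutator_mono hle hle)
    obtain ⟨z, hz, h3⟩ := h2 (hP _ y.2)
    rwa [← show z = (y : H) ^ 2 from Subtype.ext h3]
  · let g : N →* Abelianization (P : Subgroup G) := f.comp (inclusion le_sup_left)
    have h2 : g ⟨n, hn⟩ ^ Nat.card (Abelianization N) = 1 := by
      rw [← Abelianization.lift_apply_of g, ← map_pow, pow_card_eq_one', map_one]
    obtain ⟨k, hk⟩ := hA (g ⟨n, hn⟩)
    exact orderOf_eq_one_iff.1 (Nat.eq_one_of_dvd_coprimes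
      (Nat.Coprime.pow_left k (Nat.coprime_two_left.2 hodd))
      (orderOf_dvd_of_pow_eq_one hk) (orderOf_dvd_of_pow_eq_one h2))

end Cfsg.Agent.S4582
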