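import Cfsg.Statements.S4583
import Cfsg.Agent.BLK.Princ2
-- import your own Cfsg.Agent.* helpers here

set_option autoImplicit false
open Cfsg

namespace Cfsg.Agent.S4583

/-- Let N be a normal subgroup of the finite group G, p a prime, M a maximal ideal of the algebraic integers containing p, and P a Sylow p-subgroup of G. Let θ be an irreducible character of N of degree prime to p lying in the principal p-block of N, and suppose θ extends to the subgroup NP (some irreducible character of NP restricts to θ). Then some irreducible character χ of G of degree prime to p in the principal p-block of G lies over θ (θ is a constituent of the restriction of χ to N). -/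
theorem result {G : Type*} [Group G] [Finite G] (N : Subgroup G) [N.Normal] (p : ℕ) [Fact p.Prime] (M : Ideal Cfsg.AlgInt) (hM : Cfsg.IsPModular p M) (P : Sylow p G)
    (θ : Cfsg.IrrCharacter N) (hθ : θ ∈ Cfsg.principalBlock M N) (hdeg : ¬ p ∣ Cfsg.charDegree (θ : N → ℂ))
    (hext : ∃ η : Cfsg.IrrCharacter ↥(N ⊔ (P : Subgroup G)), ∀ n : N, (η : ↥(N ⊔ (P : Subgroup G)) → ℂ) (Subgroup.inclusion le_sup_left n) = (θ : N → ℂ) n) :
    ∃ χ : Cfsg.IrrCharacter G, χ ∈ Cfsg.principalBlock M G ∧ ¬ p ∣ Cfsg.charDegree (χ : G → ℂ) ∧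
      haveI := Fintype.ofFinite N; Cfsg.classInner (fun n : N => (χ : G → ℂ) n) (θ : N → ℂ) ≠ 0 := by
  classical
  have := Fintype.ofFinite G
  let H : Subgroup G := N ⊔ (P : Subgroup G)
  have hH : H = N ⊔ (P : Subgroup G) := rfl
  obtain ⟨η, hη⟩ : ∃ η : Cfsg.IrrCharacter H, ∀ n : N, (η : H → ℂ) (Subgroup.inclusion le_sup_left n) = (θ : N → ℂ) n := hext
  let _ := Fintype.ofFinite N
  have hreg : ∀ g : H, ¬ p ∣ orderOf g → g ∈ (Subgroup.inclusion (le_sup_left : N ≤ H)).range := by
    intro g hg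
    have hg' : ¬ p ∣ orderOf (g : G) := by rwa [Subgroup.orderOf_coe]
    have hmem : (g : G) ∈ N := by
      rw [← QuotientGroup.eq_one_iff]
      have h1 : (g : G ⧸ N) ∈ (P : Subgroup G).map (QuotientGroup.mk' N) := by
        have : H.map (QuotientGroup.mk' N) = (P : Subgroup G).map (QuotientGroup.mk' N) := by
          rw [hH, Subgroup.map_sup, QuotientGroup.map_mk'_self, bot_sup_eq]
        rw [← this]
        exact ⟨g, g.2, rfl⟩
      exact CL.Blk.eq_one_of_pElt_of_pReg (CL.Blk.pElt_of_mem_isPGroup hM.1 (P.isPGroup'.map _) h1)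
        (CL.Blk.reg_map (QuotientGroup.mk' N) hg')
    exact ⟨⟨g, hmem⟩, rfl⟩
  have h1 : CL.Blk.regSum p η.1 = CL.Blk.regSum p θ.1 := by
    rw [← CL.Blk.regSum_comp_injective _ (Subgroup.inclusion_injective _) hreg]
    congr 1
    exact funext hη
  have h2 : CL.Blk.regSum p (indFun H η.1) ∉ (CL.Blk.V M).nonunits := by
    rw [CL.Blk.regSum_indFun, h1]
    refine CL.Blk.mul_notMem_nonunits ?_ ((CL.Blk.regSum_notMem_iff hM θ).2 ⟨hθ, hdeg⟩)
    rw [CL.Blk.natCast_mem_nonunits_iff hM]
    exact fun h => P.not_dvd_index (h.trans (Subgroup.index_dvd_of_le le_sup_right))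
  obtain ⟨χ, hχ, hd, n, hn, hn'⟩ := CL.Blk.exists_principal_of_regSum_notMem hM η.2.isGen.ind h2
  refine ⟨χ, hχ, hd, ?_⟩
  rw [CL.Char.inner_ind_eq_inner_res η.2.isCharacter χ.2.isCharacter] at hn
  have h3 : classInner (fun x : H => χ.1 x) η.1 ≠ 0 := by
    rw [hn]; rintro h; rw [Int.cast_eq_zero] at h; exact hn' (h ▸ dvd_zero _)
  exact CL.Char.inner_comp_ne_zero_of_constituent (Subgroup.inclusion (le_sup_left : N ≤ H))
    (χ.2.isCharacter.res H) η.2 h3 θ.2.isCharacter (by
      rw [show (fun x => η.1 (Subgroup.inclusion (le_sup_left : N ≤ H) x)) = θ.1 from funext hη,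
        θ.2.inner_self]; exact one_ne_zero)

end Cfsg.Agent.S4583
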