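import Cfsg.Statements.S4585
import Cfsg.Agent.S4586

set_option autoImplicit false
open Cfsg

namespace Cfsg.Agent.S4585

open scoped commutatorElement

theorem lcs_lt {P : Type*} [Group P] [Group.IsNilpotent P] (n : ℕ)
    (h : (⊤ : Subgroup P).lowerCentralSeries n ≠ ⊥) :
    (⊤ : Subgroup P).lowerCentralSeries (n + 1) < (⊤ : Subgroup P).lowerCentralSeries n := by
  refine lt_of_le_of_ne (Subgroup.lowerCentralSeries_antitone _ (Nat.le_succ n)) fun he => h ?_
  have hall : ∀ m, (⊤ : Subgroup P).lowerCentralSeries (n + m) =
      (⊤ : Subgroup P).lowerCentralSeries n := by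
    intro m
    induction m with
    | zero => rfl
    | succ m ih => rw [← add_assoc, Subgroup.lowerCentralSeries_succ, ih,
        ← Subgroup.lowerCentralSeries_succ, he]
  rw [← hall (Group.nilpotencyClass P), Subgroup.lowerCentralSeries_eq_bot_iff_nilpotencyClass_le]
  omega

theorem card_lt {P : Type*} [Group P] [Finite P] {H K : Subgroup P} (h : H < K) :
    Nat.card H < Nat.card K := by
  refine lt_of_le_of_ne (Subgroup.card_le_of_le h.le) fun he => h.ne ?_
  exact Subgroup.eq_of_le_of_card_ge h.le he.ge


/-- Let p be a prime and P a group of order p^4. Then P' has index p^2 in P if and only if P has maximal nilpotency class, that is, nilpotency class exactly 3. -/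
theorem result {P : Type*} [Group P] [Finite P] (p : ℕ) [Fact p.Prime] (hP : Nat.card P = p ^ 4) :
    (commutator P).index = p ^ 2 ↔ Group.nilpotencyClass P = 3 := by
  have hp : p.Prime := Fact.out
  have hG : IsPGroup p P := IsPGroup.of_card hP
  have hnil : Group.IsNilpotent P := hG.isNilpotent
  have hcard : ∀ H : Subgroup P, ∃ k, Nat.card H = p ^ k := fun H =>
    IsPGroup.iff_card.1 (hG.to_subgroup H)
  have hL1 : (⊤ : Subgroup P).lowerCentralSeries 1 = commutator P :=
    Subgroup.top_lowerCentralSeries_one
  have hL2 : (⊤ : Subgroup P).lowerCentralSeries 2 = ⁅commutator P, ⊤⁆ := by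
    rw [← hL1]; rfl
  have hmul := Subgroup.index_mul_card (commutator P)
  rw [hP] at hmul
  have hplt : ∀ {a b : ℕ}, p ^ a < p ^ b → a < b := fun h =>
    (Nat.pow_lt_pow_iff_right hp.one_lt).1 h
  constructor
  · intro h
    have hc : Nat.card (commutator P) = p ^ 2 := by
      rw [h] at hmul
      apply Nat.eq_of_mul_eq_mul_left (pow_pos hp.pos 2)
      rw [hmul]; ring
    have hne1 : commutator P ≠ ⊥ := by
      intro hb
      rw [hb, Subgroup.card_bot] at hc
      have := hplt (a := 0) (b := 2)
      have h2 : 1 < p ^ 2 := Nat.one_lt_pow (by norm_num) hp.one_lt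
      omega
    have hne2 : (⊤ : Subgroup P).lowerCentralSeries 2 ≠ ⊥ := by
      intro hb
      rw [hL2] at hb
      have hZ : commutator P ≤ Subgroup.center P := by
        rw [Subgroup.commutator_eq_bot_iff_le_centralizer] at hb
        rwa [← Subgroup.centralizer_univ, ← Subgroup.coe_top]
      have hex : ∃ x : P, x ∉ Subgroup.center P := by
        by_contra hcon
        push Not at hcon
        apply hne1
        rw [commutator_def, Subgroup.commutator_eq_bot_iff_le_centralizer]
        intro a _
        rw [Subgroup.coe_top, Subgroup.centralizer_univ]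
        exact hcon a
      obtain ⟨x, hx⟩ := hex
      set C := Subgroup.centralizer ({x} : Set P) with hC
      have hPC : commutator P ≤ C := hZ.trans (Subgroup.center_le_centralizer _)
      have hxC : x ∈ C := by rw [hC, Subgroup.mem_centralizer_singleton_iff]
      have hrel := Subgroup.relIndex_mul_index hPC
      rw [h] at hrel
      have hCi : C.index = p := by
        have hd : C.index ∣ p ^ 2 := Dvd.intro_left _ hrel
        obtain ⟨i, hi, he⟩ := (Nat.dvd_prime_pow hp).1 hd
        interval_cases i
        · exfalso
          rw [pow_zero, Subgroup.index_eq_one] at he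
          apply hx
          rw [Subgroup.mem_center_iff]
          intro g
          have : g ∈ C := by rw [he]; exact Subgroup.mem_top g
          rwa [hC, Subgroup.mem_centralizer_singleton_iff] at this
        · simpa using he
        · exfalso
          rw [he] at hrel
          have h2 : (commutator P).relIndex C = 1 := by
            have := pow_pos hp.pos 2
            nlinarith
          rw [Subgroup.relIndex_eq_one] at h2
          exact hx (hZ (h2 hxC))
      have hrel' : ((commutator P).subgroupOf C).index = p := by
        rw [hCi] at hrel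
        change (commutator P).relIndex C = p
        apply Nat.eq_of_mul_eq_mul_right hp.pos
        rw [hrel]; ring
      have hCn : C.Normal := Subgroup.Normal.of_commutator_le P hPC
      have hCab : Subgroup.center C = ⊤ := by
        refine S4586.eq_top_of_mem hp _ hrel' _ ?_ (x := ⟨x, hxC⟩) ?_ ?_
        · intro c hc
          rw [Subgroup.mem_subgroupOf] at hc
          rw [Subgroup.mem_center_iff]
          intro g
          exact Subtype.ext ((Subgroup.mem_center_iff.1 (hZ hc)) g)
        · rw [Subgroup.mem_subgroupOf]
          exact fun hh => hx (hZ hh)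
        · rw [Subgroup.mem_center_iff]
          intro g
          exact Subtype.ext (Subgroup.mem_centralizer_singleton_iff.1 g.2)
      have hC' : commutator C = ⊥ := by
        rw [commutator_def, Subgroup.commutator_eq_bot_iff_le_centralizer, Subgroup.coe_top,
          Subgroup.centralizer_univ, hCab]
      have hey : ∃ y : P, y ∉ C := by
        by_contra hcon
        push Not at hcon
        have : C = ⊤ := (Subgroup.eq_top_iff' C).2 hcon
        rw [this, Subgroup.index_top] at hCi
        exact hp.one_lt.ne hCi
      obtain ⟨y, hy⟩ := hey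
      have hk := S4586.key hp C hCi hy
      rw [h, hC', Subgroup.card_bot] at hk
      have hle : Nat.card (commutator P) ≤
          Nat.card {n : C // y * n * y⁻¹ * (n : P)⁻¹ ∈ (⊥ : Subgroup C).map C.subtype} := by
        refine Nat.card_le_card_of_injective (fun z => ⟨⟨z, hPC z.2⟩, ?_⟩) ?_
        · have := (Subgroup.mem_center_iff.1 (hZ z.2)) y
          have e : y * (z : P) * y⁻¹ * (z : P)⁻¹ = 1 := by rw [this]; group
          change y * (z : P) * y⁻¹ * (z : P)⁻¹ ∈ _
          rw [e]
          exact Subgroup.one_mem _
        · intro a b hab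
          simp only [Subtype.mk.injEq] at hab
          exact Subtype.ext hab
      rw [hc] at hle
      have h1 := hp.one_lt
      have h3 : p * p ^ 2 ≤ p ^ 2 * 1 := by rw [hk]; exact Nat.mul_le_mul_left p hle
      have h4 := pow_pos hp.pos 2
      nlinarith
    have h3 : (⊤ : Subgroup P).lowerCentralSeries 3 = ⊥ := by
      have a1 := card_lt (lcs_lt 1 (by rw [hL1]; exact hne1))
      have a2 := card_lt (lcs_lt 2 hne2)
      rw [hL1, hc] at a1
      obtain ⟨i, hi⟩ := hcard ((⊤ : Subgroup P).lowerCentralSeries (1 + 1))
      obtain ⟨j, hj⟩ := hcard ((⊤ : Subgroup P).lowerCentralSeries (2 + 1))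
      have hi' : Nat.card ((⊤ : Subgroup P).lowerCentralSeries 2) = p ^ i := hi
      rw [hi] at a1
      rw [hi', hj] at a2
      have b1 := hplt a1
      have b2 := hplt a2
      have : j = 0 := by omega
      rw [this, pow_zero] at hj
      exact Subgroup.card_eq_one.1 hj
    rw [Subgroup.lowerCentralSeries_eq_bot_iff_nilpotencyClass_le] at h3
    rw [Ne, Subgroup.lowerCentralSeries_eq_bot_iff_nilpotencyClass_le] at hne2
    omega
  · intro h
    have hne : ∀ i, i ≤ 2 → (⊤ : Subgroup P).lowerCentralSeries i ≠ ⊥ := by
      intro i hi
      rw [Ne, Subgroup.lowerCentralSeries_eq_bot_iff_nilpotencyClass_le]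
      omega
    have a0 := lcs_lt 0 (hne 0 (by norm_num))
    have a1 := lcs_lt 1 (hne 1 (by norm_num))
    have a2 := hne 2 le_rfl
    obtain ⟨i, hi⟩ := hcard ((⊤ : Subgroup P).lowerCentralSeries (1 + 1))
    obtain ⟨j, hj⟩ := hcard (commutator P)
    have hi0 : i ≠ 0 := by
      rintro rfl
      rw [pow_zero] at hi
      exact a2 (Subgroup.card_eq_one.1 hi)
    have hij : i < j := by
      have := card_lt a1
      rw [hi, hL1, hj] at this
      exact hplt this
    have hd : (commutator P).index ∣ p ^ 4 := Dvd.intro _ hmul
    obtain ⟨k, -, hk⟩ := (Nat.dvd_prime_pow hp).1 hd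
    have hkj : k + j = 4 := by
      rw [hk, hj, ← pow_add] at hmul
      exact Nat.pow_right_injective hp.two_le hmul
    have hk0 : k ≠ 0 := by
      rintro rfl
      rw [pow_zero, Subgroup.index_eq_one] at hk
      apply a0.ne
      change (⊤ : Subgroup P).lowerCentralSeries 1 = ⊤
      rw [hL1, hk]
    have hk1 : k ≠ 1 := by
      rintro rfl
      rw [pow_one] at hk
      have hex : ∃ x : P, x ∉ commutator P := by
        by_contra hcon
        push Not at hcon
        have : commutator P = ⊤ := (Subgroup.eq_top_iff' _).2 hcon
        rw [this, Subgroup.index_top] at hk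
        exact hp.one_lt.ne hk
      obtain ⟨x, hx⟩ := hex
      set R : Subgroup P := ⁅commutator P, ⊤⁆ with hR
      have hRn : R.Normal := Subgroup.commutator_normal _ _
      let π := QuotientGroup.mk' R
      have hc : ∀ n ∈ commutator P, ∀ g, π n * π g = π g * π n := by
        intro n hn g
        rw [← commutatorElement_eq_one_iff_mul_comm, ← map_commutatorElement]
        simp only [π, QuotientGroup.mk'_apply, QuotientGroup.eq_one_iff]
        exact Subgroup.commutator_mem_commutator hn (Subgroup.mem_top g)
      have hstep : ∀ a, π x * π a = π a * π x → ∀ g, π g * π a = π a * π g := by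
        intro a ha g
        have : (Subgroup.centralizer ({π a} : Set (P ⧸ R))).comap π = ⊤ := by
          refine S4586.eq_top_of_mem hp _ hk _ ?_ hx ?_
          · intro m hm
            rw [Subgroup.mem_comap, Subgroup.mem_centralizer_singleton_iff]
            exact hc m hm a
          · rw [Subgroup.mem_comap, Subgroup.mem_centralizer_singleton_iff]
            exact ha
        have h2 : g ∈ (Subgroup.centralizer ({π a} : Set (P ⧸ R))).comap π := by
          rw [this]; exact Subgroup.mem_top g
        rwa [Subgroup.mem_comap, Subgroup.mem_centralizer_singleton_iff] at h2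
      have hPR : commutator P ≤ R := by
        rw [commutator_def, Subgroup.commutator_le]
        intro a _ b _
        have : π ⁅a, b⁆ = 1 := by
          rw [map_commutatorElement, commutatorElement_eq_one_iff_mul_comm]
          exact hstep b (hstep x rfl b).symm a
        simpa only [π, QuotientGroup.mk'_apply, QuotientGroup.eq_one_iff] using this
      apply a1.not_ge
      change (⊤ : Subgroup P).lowerCentralSeries 1 ≤ (⊤ : Subgroup P).lowerCentralSeries 2
      rw [hL1, hL2]
      exact hPR
    have : k = 2 := by omega
    rw [hk, this]

end Cfsg.Agent.S4585
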