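import Cfsg.Statements.S4588
import Cfsg.Agent.BLK.KBound2

set_option autoImplicit false
open Cfsg

namespace Cfsg.Agent.S4588

open CL.Blk CL.Char

/-- Let G be a finite group, p a prime and M a maximal ideal of the algebraic integers containing p. If some p-element x of G (possibly x = 1) has centralizer whose order has p-part at most p², then the principal p-block of G contains at most p² irreducible characters of degree prime to p. -/
theorem result {G : Type*} [Group G] [Finite G] (p : ℕ) [Fact p.Prime] (M : Ideal Cfsg.AlgInt) (hM : Cfsg.IsPModular p M)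
    (hx : ∃ x : G, (∃ k : ℕ, orderOf x = p ^ k) ∧ (Nat.card (Subgroup.centralizer ({x} : Set G))).factorization p ≤ 2) :
    Nat.card {χ : Cfsg.IrrCharacter G // χ ∈ Cfsg.principalBlock M G ∧ ¬ p ∣ Cfsg.charDegree (χ : G → ℂ)} ≤ p ^ 2 := by
  obtain ⟨x, hx, hle⟩ := hx
  have hs := isSec_centralizer (p := p) hx
  set K := Subgroup.centralizer ({x} : Set G)
  have hb : Cfsg.IsPBlock M (Cfsg.principalBlock M K) := isPBlock_principalBlock
  obtain ⟨D, hD⟩ := exists_isDefectGroup hM hb
  have hc := hD.card_eq_pow hM hb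
  rw [blockDefect_principal hM] at hc
  have hDle : Nat.card D ≤ p ^ 2 := hc ▸ Nat.pow_le_pow_right hM.1.pos hle
  by_cases hx1 : x = 1
  · subst hx1
    have h1 : K = ⊤ := by ext; simp [K, Subgroup.mem_centralizer_iff]
    rw [h1, Subgroup.card_top, ← blockDefect_principal hM] at hle
    refine le_trans ?_ ((card_le_of_blockDefect_le_two hM isPBlock_principalBlock hle).trans
      (Nat.pow_le_pow_right hM.1.pos hle))
    exact Nat.card_le_card_of_injective (fun χ => ⟨χ.1, χ.2.1⟩) fun a b h =>
      Subtype.ext (Subtype.mk.inj h)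
  set z : K := ⟨x, self_mem_centralizer_singleton x⟩
  have hZ : Subgroup.zpowers z ≤ Subgroup.center K := Subgroup.zpowers_le.2 hs.mem_center
  have := normal_of_le_center' hZ
  obtain ⟨k, hk⟩ := hx
  have hz : orderOf z = p ^ k := by rw [← Subgroup.orderOf_coe, hk]
  obtain ⟨S, rfl⟩ := (isDefectGroup_principal_iff hM).1 hD
  obtain ⟨b, h1, h2, h3, -, h4⟩ := exists_dominated hM hb hD (Z := Subgroup.zpowers z)
    ((isPGroup_zpowers_of_pElt ⟨k, hz⟩).le_sylow_of_normal S) hZ
  have h5 := h4 _ (formBound_of_isCyclic hM h1 h2 (isCyclic_of_card_dvd_prime' hM.1 (by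
    obtain ⟨k, rfl⟩ := Nat.exists_eq_succ_of_ne_zero
      (show k ≠ 0 from fun h => hx1 (by rwa [h, pow_zero, orderOf_eq_one_iff] at hk))
    rw [Nat.card_zpowers, hz, hc] at h3
    have h7 := h3.dvd.trans (pow_dvd_pow p hle)
    rw [sq, pow_succ', mul_assoc, Nat.mul_dvd_mul_iff_left hM.1.pos] at h7
    exact (Dvd.intro_left _ rfl).trans h7)))
  rw [← Nat.cast_mul, h3] at h5
  have h6 := hs.card_le_of_height_zero hM hb isPBlock_principalBlock
    (locSet_principal hM ⟨k, hk⟩ rfl).ge h5
  refine le_trans ?_ ((Nat.cast_le.1 h6).trans hDle)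
  refine (Nat.card_congr (Equiv.subtypeEquivRight fun χ => and_congr_right fun _ => ?_)).le
  rw [blockHeight_principal hM, Nat.factorization_eq_zero_iff]
  simp [hM.1, χ.2.charDegree_pos.ne']

end Cfsg.Agent.S4588
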