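import Cfsg.Statements.S4602
import Mathlib
import Cfsg.Agent.SOLV.PSolvable
import Cfsg.Agent.TECH.SylIn
import Cfsg.Agent.SOLV.Subnormal

set_option autoImplicit false
open Cfsg

namespace Cfsg.Agent.S4602

open CL MonoidAlgebra
open scoped CL.MSS
open scoped ComplexConjugate commutatorElement

theorem exists_sylow_le {G : Type*} [Group G] [Finite G] (p : ℕ) [Fact p.Prime] (H : Subgroup G)
    (h : ¬ p ∣ H.index) : ∃ P : Sylow p G, (P : Subgroup G) ≤ H := by
  obtain ⟨R, hR⟩ := CL.MSS.exists_sylIn p H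
  refine ⟨(CL.MSS.sylIn_of_not_dvd_relIndex hR.pgroup le_top ?_).toSylowTop, hR.le⟩
  rw [Subgroup.relIndex_top_right, ← Subgroup.relIndex_mul_index hR.le]
  exact fun hd => ((Nat.Prime.dvd_mul Fact.out).1 hd).elim hR.not_dvd_relIndex h

theorem mem_core {G : Type*} [Group G] [Finite G] {p q : ℕ} [Fact p.Prime] [Fact q.Prime]
    (hpq : p ≠ q) (hsolv : IsPSolvable p G) {y : G} (hy : ∃ k, y ^ q ^ k = 1)
    (h : ∀ a ∈ pCore p (G ⧸ pPrimeCore p G),
      a * QuotientGroup.mk' (pPrimeCore p G) y = QuotientGroup.mk' (pPrimeCore p G) y * a) :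
    y ∈ pPrimeCore p G := by
  have h1 := IsPSolvable.centralizer_pCore_le (IsPSolvable.quotient hsolv (pPrimeCore p G))
    (pPrimeCore_quotient_pPrimeCore p G) (Subgroup.mem_centralizer_iff.2 h)
  obtain ⟨j, hj⟩ := isPGroup_pCore p _ ⟨_, h1⟩
  obtain ⟨k, hk⟩ := hy
  have h2 : QuotientGroup.mk' (pPrimeCore p G) y ^ p ^ j = 1 := congrArg Subtype.val hj
  have h3 : QuotientGroup.mk' (pPrimeCore p G) y ^ q ^ k = 1 := by rw [← map_pow, hk, map_one]
  exact (QuotientGroup.eq_one_iff y).1 (orderOf_eq_one_iff.1 (Nat.eq_one_of_dvd_coprimes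
    (Nat.Coprime.pow j k ((Nat.coprime_primes Fact.out Fact.out).2 hpq))
    (orderOf_dvd_of_pow_eq_one h2) (orderOf_dvd_of_pow_eq_one h3)))

/-- Let G be a finite p-solvable group and q a prime different from p. Some Sylow p-subgroup of G normalizes some Sylow q-subgroup of G if and only if q does not divide the order of G/O_{p'}(G), the quotient by the largest normal subgroup of order prime to p. -/
theorem result {G : Type*} [Group G] [Finite G] (p q : ℕ) [Fact p.Prime] [Fact q.Prime] (hpq : p ≠ q) (hsolv : Cfsg.IsPSolvable p G) :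
    (∃ (P : Sylow p G) (Q : Sylow q G), (P : Subgroup G) ≤ Subgroup.normalizer ((Q : Subgroup G) : Set G)) ↔ ¬ q ∣ (Cfsg.pPrimeCore p G).index := by
  set K := pPrimeCore p G
  constructor
  · rintro ⟨P, Q, h⟩ hd
    refine Q.not_dvd_index (hd.trans (Subgroup.index_dvd_of_le fun y hy => ?_))
    obtain ⟨k, hk⟩ := Q.isPGroup' ⟨y, hy⟩
    refine mem_core hpq hsolv ⟨k, congrArg Subtype.val hk⟩ fun a ha => ?_
    have hs := QuotientGroup.mk'_surjective K
    obtain ⟨b, hb, rfl⟩ := (isPGroup_pCore p _).le_sylow_of_normal (P.mapSurjective hs) ha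
    rw [← commutatorElement_eq_one_iff_mul_comm]
    have h1 : ⁅QuotientGroup.mk' K b, QuotientGroup.mk' K y⁆ ∈ pCore p (G ⧸ K) := by
      rw [commutatorElement_def, mul_assoc, mul_assoc, ← mul_assoc (QuotientGroup.mk' K y)]
      exact mul_mem ha (Subgroup.Normal.conj_mem inferInstance _ (inv_mem ha) _)
    have h2 : ⁅QuotientGroup.mk' K b, QuotientGroup.mk' K y⁆ ∈ (Q : Subgroup G).map (QuotientGroup.mk' K) :=
      ⟨⁅b, y⁆, mul_mem ((Subgroup.mem_normalizer_iff.1 (h hb) y).1 hy) (inv_mem hy),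
        map_commutatorElement _ _ _⟩
    exact Subgroup.disjoint_def.1 (IsPGroup.disjoint_of_ne p q hpq _ _ (isPGroup_pCore p _)
      (Q.isPGroup'.map _)) h1 h2
  · intro h
    obtain ⟨Q, hQ⟩ := exists_sylow_le q K h
    obtain ⟨P, hP⟩ := exists_sylow_le p (Subgroup.normalizer ((Q : Subgroup G) : Set G)) fun hd => by
      rw [← Subgroup.relIndex_top_right, ← Sylow.normalizer_sup_eq_top' Q hQ, sup_comm] at hd
      have h1 : (Subgroup.normalizer ((Q : Subgroup G) : Set G)).relIndex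
          (K ⊔ Subgroup.normalizer ((Q : Subgroup G) : Set G)) ∣ Nat.card K := by
        rw [relIndex_sup_of_normal]
        exact Subgroup.relIndex_dvd_card _ _
      exact not_dvd_card_pPrimeCore p G (hd.trans h1)
    exact ⟨P, Q, hP⟩

end Cfsg.Agent.S4602
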