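import Cfsg.Statements.S4601
import Mathlib
import Cfsg.Agent.SOLV.PSolvable
import Cfsg.Agent.TECH.SylIn
import Cfsg.Agent.SOLV.CoprimeSylow
import Cfsg.Agent.S4602

set_option autoImplicit false
open Cfsg

namespace Cfsg.Agent.S4601

open CL MonoidAlgebra
open scoped CL.MSS
open scoped ComplexConjugate commutatorElement

open Subgroup in
theorem index_normalizer {G : Type*} [Group G] [Finite G] {q : ℕ} [Fact q.Prime] (Q : Sylow q G)
    (N : Subgroup G) [N.Normal] : (normalizer ((Q : Subgroup G) : Set G)).index =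
      (normalizer ((Q : Subgroup G) : Set G)).relIndex N *
      (normalizer (((Q : Subgroup G).map (QuotientGroup.mk' N) : Subgroup _) : Set (G ⧸ N))).index := by
  have hs := QuotientGroup.mk'_surjective N
  have h1 : (normalizer (((Q : Subgroup G).map (QuotientGroup.mk' N) : Subgroup _) :
      Set (G ⧸ N))).comap (QuotientGroup.mk' N) = N ⊔ normalizer ((Q : Subgroup G) : Set G) := by
    rw [comap_normalizer_eq_of_surjective _ hs, comap_map_eq, QuotientGroup.ker_mk']
    refine le_antisymm (fun g hg => ?_) (sup_le (le_sup_right.trans le_normalizer) ?_)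
    · obtain ⟨n, hn, y, hy, rfl⟩ := (CL.MSS.sylIn_sylow Q (le_sup_left (b := N))).frattini hg
      exact mul_mem ((sup_le (le_normalizer.trans le_sup_right) le_sup_left :
        (Q : Subgroup G) ⊔ N ≤ _) hn) (mem_sup_right hy)
    · exact (le_inf le_rfl le_normalizer_of_normal).trans (normalizer_inf_normalizer_le_normalizer_sup _ _)
  rw [← index_comap_mk', h1, ← relIndex_sup_of_normal, relIndex_mul_index le_sup_right]

universe u

open Subgroup in
theorem aux {p q : ℕ} [hp : Fact p.Prime] [hq : Fact q.Prime] (n : ℕ) :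
    ∀ (G : Type u) [Group G] [Finite G], Nat.card G = n → IsPSolvable q G →
      (∀ y : G, (∃ k : ℕ, y ^ q ^ k = 1) → ¬ p ∣ (centralizer ({y} : Set G)).index) →
      ∀ Q : Sylow q G, ¬ p ∣ (normalizer ((Q : Subgroup G) : Set G)).index := by
  induction n using Nat.strong_induction_on with
  | _ n ih =>
  intro G _ _ hn hs h Q
  rcases subsingleton_or_nontrivial G with h2 | h2
  · rw [Subsingleton.elim (normalizer _) ⊤, index_top, Nat.dvd_one]
    exact hp.out.one_lt.ne'
  have hquot : ∀ (N : Subgroup G) [N.Normal], N ≠ ⊥ → ¬ p ∣ (normalizer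
      (((Q : Subgroup G).map (QuotientGroup.mk' N) : Subgroup _) : Set (G ⧸ N))).index := by
    intro N _ hN
    have hsurj := QuotientGroup.mk'_surjective N
    refine ih _ ?_ (G ⧸ N) rfl (IsPSolvable.quotient hs N) (fun y hy => ?_) (Q.mapSurjective hsurj)
    · rw [← hn, ← N.card_mul_index]
      exact lt_mul_of_one_lt_left (Nat.pos_of_ne_zero N.index_ne_zero_of_finite)
        ((one_lt_card_iff_ne_bot _).2 hN)
    · have hR : IsPGroup q (zpowers y) := by
        obtain ⟨k, hk⟩ := hy
        rintro ⟨_, j, rfl⟩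
        exact ⟨k, Subtype.ext (by
          change (y ^ j) ^ q ^ k = 1
          rw [← zpow_natCast, ← zpow_mul, mul_comm, zpow_mul, zpow_natCast, hk, one_zpow])⟩
      obtain ⟨R, hR⟩ := hR.exists_le_sylow
      obtain ⟨R, rfl⟩ := Sylow.mapSurjective_surjective hsurj q R
      obtain ⟨x, hx, rfl⟩ := hR (mem_zpowers y)
      obtain ⟨k, hk⟩ := R.isPGroup' ⟨x, hx⟩
      refine fun hd => h x ⟨k, congrArg Subtype.val hk⟩ (hd.trans ?_)
      refine (index_dvd_of_le ?_).trans (index_map_dvd _ hsurj)
      rintro _ ⟨c, hc, rfl⟩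
      rw [mem_centralizer_singleton_iff, ← map_mul, ← map_mul, mem_centralizer_singleton_iff.1 hc]
  rcases IsPSolvable.pCore_ne_bot_or hs with h1 | h1
  · rw [index_normalizer Q (pCore q G), relIndex_eq_one.2
      (((isPGroup_pCore q G).le_sylow_of_normal Q).trans le_normalizer), one_mul]
    exact hquot _ h1
  · set K := pPrimeCore q G
    rw [index_normalizer Q K]
    refine fun hd => ((Nat.Prime.dvd_mul hp.out).1 hd).elim (fun hd => ?_) (hquot _ h1)
    have hcop : ∀ A : Subgroup G, A ≤ Q → (Nat.card A).Coprime (Nat.card K) := fun A hA =>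
      (coprime_card_of_isPGroup (Q.isPGroup'.to_le hA) (coprime_card_pPrimeCore q G)).symm
    obtain ⟨P, hP⟩ := coprime_exists_invariant_sylow (Q : Subgroup G) K le_normalizer_of_normal
      (hcop _ le_rfl) (Or.inl (isSolvable_of_isPGroup Q.isPGroup')) p
    have h3 : (P : Subgroup K).map K.subtype ≤ centralizer ((Q : Subgroup G) : Set G) := by
      refine le_centralizer_iff.1 fun y hy => ?_
      obtain ⟨k, hk⟩ := Q.isPGroup' ⟨y, hy⟩
      obtain ⟨S, hS⟩ := S4602.exists_sylow_le p _ (h y ⟨k, congrArg Subtype.val hk⟩)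
      obtain ⟨T, hT⟩ := (CL.MSS.sylIn_inf_normal S K).exists_sylow
      have h4 : (T : Subgroup K).map K.subtype ≤ centralizer (zpowers y : Set G) := by
        rw [hT, zpowers_eq_closure, centralizer_closure]
        exact inf_le_left.trans hS
      obtain ⟨c, hc, h5⟩ := coprime_invariant_sylow_conj (zpowers y) K le_normalizer_of_normal
        (hcop _ (zpowers_le.2 hy)) (Or.inl inferInstance) p T P
        ((le_centralizer_iff.1 h4).trans (centralizer_le_normalizer _)) ((zpowers_le.2 hy).trans hP)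
      rw [← h5]
      rintro _ ⟨t, ht, rfl⟩
      exact (mem_centralizer_iff.1 (mul_mem (mul_mem hc.2 (h4 ht)) (inv_mem hc.2)) y
        (mem_zpowers y)).symm
    exact (CL.MSS.sylIn_map_subtype P).not_dvd_relIndex (hd.trans (relIndex_dvd_of_le_left _
      (h3.trans (centralizer_le_normalizer _))))

/-- Let p and q be primes and G a finite group that is p-solvable or q-solvable, in which no q-element has conjugacy class size divisible by p. Then some Sylow p-subgroup of G normalizes some Sylow q-subgroup of G. -/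
theorem result {G : Type*} [Group G] [Finite G] (p q : ℕ) [Fact p.Prime] [Fact q.Prime] (hsolv : Cfsg.IsPSolvable p G ∨ Cfsg.IsPSolvable q G)
    (h : ∀ y : G, (∃ k : ℕ, orderOf y = q ^ k) → ¬ p ∣ (Subgroup.centralizer ({y} : Set G)).index) :
    ∃ (P : Sylow p G) (Q : Sylow q G), (P : Subgroup G) ≤ Subgroup.normalizer ((Q : Subgroup G) : Set G) := by
  have h' : ∀ y : G, (∃ k : ℕ, y ^ q ^ k = 1) → ¬ p ∣ (Subgroup.centralizer ({y} : Set G)).index :=
    fun y ⟨k, hk⟩ => h y (by
      obtain ⟨j, -, hj⟩ := (Nat.dvd_prime_pow Fact.out).1 (orderOf_dvd_of_pow_eq_one hk)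
      exact ⟨j, hj⟩)
  rcases hsolv with hs | hs
  · by_cases hpq : p = q
    · subst hpq
      obtain ⟨P⟩ : Nonempty (Sylow p G) := inferInstance
      exact ⟨P, P, Subgroup.le_normalizer⟩
    refine (S4602.result p q hpq hs).2 fun hd => ?_
    obtain ⟨Q⟩ : Nonempty (Sylow q G) := inferInstance
    refine Q.not_dvd_index (hd.trans (Subgroup.index_dvd_of_le fun y hy => ?_))
    obtain ⟨k, hk⟩ := Q.isPGroup' ⟨y, hy⟩
    refine S4602.mem_core hpq hs ⟨k, congrArg Subtype.val hk⟩ fun a ha => ?_
    obtain ⟨P, hP⟩ := S4602.exists_sylow_le p _ (h' y ⟨k, congrArg Subtype.val hk⟩)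
    obtain ⟨b, hb, rfl⟩ := (isPGroup_pCore p _).le_sylow_of_normal
      (P.mapSurjective (QuotientGroup.mk'_surjective _)) ha
    rw [← map_mul, ← map_mul, Subgroup.mem_centralizer_singleton_iff.1 (hP hb)]
  · obtain ⟨Q⟩ : Nonempty (Sylow q G) := inferInstance
    obtain ⟨P, hP⟩ := S4602.exists_sylow_le p _ (aux _ G rfl hs h' Q)
    exact ⟨P, Q, hP⟩

end Cfsg.Agent.S4601
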