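import Cfsg.Statements.S4604
import Cfsg.Agent.BLK.GRoots
import Cfsg.Agent.CHAR.BrauerCong
import Cfsg.Agent.CHAR.PowCongr

set_option autoImplicit false
open Cfsg

namespace Cfsg.Agent.S4604

theorem pow_eq_of_part {G : Type*} [Group G] [Finite G] {p : ℕ} (hp : p.Prime) {x x' : G}
    (hx : (∃ k : ℕ, orderOf (x * x'⁻¹) = p ^ k) ∧ Commute (x * x'⁻¹) x' ∧ ¬ p ∣ orderOf x') :
    x ^ p ^ (Nat.card G).factorization p = x' ^ p ^ (Nat.card G).factorization p := by
  obtain ⟨⟨k, hk⟩, hc, -⟩ := hx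
  have h1 : p ^ k ∣ Nat.card G := hk ▸ orderOf_dvd_natCard _
  have h2 : k ≤ (Nat.card G).factorization p :=
    (hp.pow_dvd_iff_le_factorization Nat.card_pos.ne').1 h1
  have h3 : (x * x'⁻¹) ^ p ^ (Nat.card G).factorization p = 1 :=
    orderOf_dvd_iff_pow_eq_one.1 (hk ▸ pow_dvd_pow p h2)
  have h4 := hc.mul_pow (p ^ (Nat.card G).factorization p)
  rw [h3, one_mul, inv_mul_cancel_right] at h4
  exact h4

theorem inv_mul_part {G : Type*} [Group G] {x x' : G} (hc : Commute (x * x'⁻¹) x') :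
    (x * x'⁻¹)⁻¹ * x = x' := by
  rw [inv_mul_eq_iff_eq_mul, inv_mul_cancel_right]


/-- Let G be a finite group, p a prime and p^a the p-part of the order of G. Let x, y ∈ G and let x′, y′ be their p-regular parts: x′ has order prime to p, commutes with x·x′⁻¹, and x·x′⁻¹ has p-power order (likewise for y). Then x′ and y′ are conjugate in G if and only if for every irreducible character χ of G the algebraic integer χ(x)^(p^a) − χ(y)^(p^a) is p times an algebraic integer. -/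
theorem result {G : Type*} [Group G] [Finite G] (p : ℕ) [Fact p.Prime] (x y x' y' : G)
    (hx : (∃ k : ℕ, orderOf (x * x'⁻¹) = p ^ k) ∧ Commute (x * x'⁻¹) x' ∧ ¬ p ∣ orderOf x')
    (hy : (∃ k : ℕ, orderOf (y * y'⁻¹) = p ^ k) ∧ Commute (y * y'⁻¹) y' ∧ ¬ p ∣ orderOf y') :
    IsConj x' y' ↔ ∀ χ : Cfsg.IrrCharacter G, ∃ γ : Cfsg.AlgInt,
      (χ : G → ℂ) x ^ (p ^ (Nat.card G).factorization p) - (χ : G → ℂ) y ^ (p ^ (Nat.card G).factorization p) = (p : ℂ) * (γ : ℂ) := by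
  have hp : p.Prime := Fact.out
  constructor
  · intro hc χ
    obtain ⟨a, ha, ha'⟩ := χ.2.isCharacter.exists_pow_congr hp ((Nat.card G).factorization p) x
    obtain ⟨b, hb, hb'⟩ := χ.2.isCharacter.exists_pow_congr hp ((Nat.card G).factorization p) y
    refine ⟨⟨a - b, ha.sub hb⟩, ?_⟩
    have h1 : (χ : G → ℂ) (x ^ p ^ (Nat.card G).factorization p) =
        (χ : G → ℂ) (y ^ p ^ (Nat.card G).factorization p) := by
      rw [pow_eq_of_part hp hx, pow_eq_of_part hp hy]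
      obtain ⟨c, hc⟩ := isConj_iff.1 (hc.pow (p ^ (Nat.card G).factorization p))
      rw [← hc]
      exact (χ.2.isCharacter.isClassFunction _ _).symm
    rw [ha', hb', h1]
    show _ = (p : ℂ) * (a - b)
    ring
  · intro h
    obtain ⟨M, hM⟩ := CL.Glb.exists_isPModular hp
    have hxp : IsPPart p x (x * x'⁻¹) := ⟨x', inv_mul_cancel_right _ _, hx.2.1, hx.1, hx.2.2⟩
    have hyp : IsPPart p y (y * y'⁻¹) := ⟨y', inv_mul_cancel_right _ _, hy.2.1, hy.1, hy.2.2⟩
    have := (CL.Char.isConj_regular_iff hM hxp hyp).2 (fun χ => ?_)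
    · rwa [inv_mul_part hx.2.1, inv_mul_part hy.2.1] at this
    obtain ⟨γ, hγ⟩ := h χ
    have hxi := χ.2.isIntegral x
    have hyi := χ.2.isIntegral y
    rw [CL.Blk.memLocalIdeal_sub_iff_red hM (CL.Blk.memLocalRing_of_isIntegral hM hxi)
      (CL.Blk.memLocalRing_of_isIntegral hM hyi)]
    have hxv : (χ : G → ℂ) x ∈ CL.Blk.V M := CL.Blk.mem_V_of_isIntegral hxi
    have hyv : (χ : G → ℂ) y ∈ CL.Blk.V M := CL.Blk.mem_V_of_isIntegral hyi
    have h1 := congrArg (CL.Blk.red M) hγ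
    rw [CL.Blk.red_sub (pow_mem hxv _) (pow_mem hyv _), CL.Blk.red_pow hxv, CL.Blk.red_pow hyv,
      CL.Blk.red_eq_zero_of_mem (CL.Blk.mul_mem_nonunits_right (CL.Blk.p_mem_nonunits hM)
        (CL.Blk.algInt_mem γ))] at h1
    haveI := CL.Blk.charP_F hM
    rw [← sub_pow_char_pow] at h1
    exact sub_eq_zero.1 (pow_eq_zero_iff (pow_ne_zero _ hp.ne_zero) |>.1 h1)

end Cfsg.Agent.S4604
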