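import Cfsg.Statements.S4609
import Cfsg.Agent.BLK.ThreeChar

set_option autoImplicit false
open Cfsg

namespace Cfsg.Agent.S4609

open CL.Blk CL.Char

/-- Let G be a finite group, p a prime, M a maximal ideal of the algebraic integers containing p, and B a p-block of G with defect group D containing exactly three irreducible characters. Suppose the number of height-zero characters of B equals the number of height-zero characters of its Brauer correspondent b, the block of N_G(D) with defect group D inducing B (as the Alperin–McKay conjecture predicts). Then D has order 3. -/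
theorem result {G : Type*} [Group G] [Finite G] (p : ℕ) [Fact p.Prime] (M : Ideal Cfsg.AlgInt) (hM : Cfsg.IsPModular p M) (B : Set (Cfsg.IrrCharacter G)) (hB : Cfsg.IsPBlock M B) (D : Subgroup G) (hD : Cfsg.IsDefectGroup p M B D) (hk : Nat.card B = 3)
    (b : Set (Cfsg.IrrCharacter (Subgroup.normalizer (D : Set G)))) (hbB : Cfsg.IsInducedBlock M (Subgroup.normalizer (D : Set G)) b B)
    (hbD : Cfsg.IsDefectGroup p M b (D.subgroupOf (Subgroup.normalizer (D : Set G))))
    (hAM : Nat.card {χ : Cfsg.IrrCharacter G // χ ∈ B ∧ Cfsg.blockHeight p B (χ : G → ℂ) = 0} =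
           Nat.card {ψ : Cfsg.IrrCharacter (Subgroup.normalizer (D : Set G)) // ψ ∈ b ∧ Cfsg.blockHeight p b (ψ : Subgroup.normalizer (D : Set G) → ℂ) = 0}) :
    Nat.card D = 3 := by
  have h1 := card_le_three_of_height_zero hM ((isInducedBlock_iff hM).1 hbB).1 hbD
    (hAM ▸ hk ▸ Nat.card_le_card_of_injective (fun χ => (⟨χ.1, χ.2.1⟩ : B))
      fun _ _ e => Subtype.ext (congrArg (fun χ : B => χ.1) e))
  rw [Nat.card_congr (Subgroup.subgroupOfEquivOfLe Subgroup.le_normalizer).toEquiv] at h1
  have h2 := (Cfsg.Agent.S4607.result p M hM B hB D hD).2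
  have h3 : 1 < Nat.card D := hD.card_eq_pow hM hB ▸ Nat.one_lt_pow (fun e => by
    have := card_eq_one_of_blockDefect_eq_zero hM hB e
    omega) hM.1.one_lt
  omega

end Cfsg.Agent.S4609
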