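import Cfsg.Statements.S4610
import Cfsg.Agent.BLK.PInd
-- import your own Cfsg.Agent.* helpers here

set_option autoImplicit false
open Cfsg

namespace Cfsg.Agent.S4610

/-- Let G be a finite group and p a prime dividing its order; fix for every prime r a maximal ideal M r of the algebraic integers containing r. Then, for every prime q ≠ p dividing the order of G, the principal p-block and the principal q-block of G have only the principal character in common, if and only if a Sylow p-subgroup P of G is normal and G is generated by P and its largest normal subgroup of order prime to p (that is, G is the direct product of P and that subgroup). -/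
theorem result {G : Type*} [Group G] [Finite G] (p : ℕ) [Fact p.Prime] (hp : p ∣ Nat.card G) (M : ℕ → Ideal Cfsg.AlgInt) (hM : ∀ r : ℕ, r.Prime → Cfsg.IsPModular r (M r)) (P : Sylow p G) :
    (∀ q : ℕ, q.Prime → q ≠ p → q ∣ Nat.card G →
        ∀ χ : Cfsg.IrrCharacter G, χ ∈ Cfsg.principalBlock (M p) G → χ ∈ Cfsg.principalBlock (M q) G → (χ : G → ℂ) = fun _ => 1) ↔
      ((P : Subgroup G).Normal ∧ (P : Subgroup G) ⊔ Cfsg.pPrimeCore p G = ⊤) := by
  have hpp : p.Prime := Fact.out
  constructor
  · intro h
    refine CL.PInd.main P fun x => ?_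
    refine (Nat.dvd_iff_prime_pow_dvd_dvd _ _).2 fun q k hq hk => ?_
    rcases Nat.eq_zero_or_pos k with rfl | hk0
    · simp
    have hqi : q ∣ (P : Subgroup G).index := (dvd_pow_self q hk0.ne').trans hk
    have hne : q ≠ p := by
      rintro rfl
      exact P.not_dvd_index hqi
    exact CL.PInd.dvd_fib (hM p hpp) (hM q hq)
      (h q hq hne (hqi.trans (P : Subgroup G).index_dvd_card)) x
      (hk.trans (P : Subgroup G).index_dvd_card)
  · rintro ⟨hn, htop⟩ q hq hne - χ h1 h2
    refine χ.2.eq_one_of_const fun g => ?_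
    have hqP : ¬ q ∣ Nat.card (P : Subgroup G) := by
      obtain ⟨k, hk⟩ := IsPGroup.iff_card.1 P.isPGroup'
      rw [hk]
      intro hd
      exact hne ((Nat.prime_dvd_prime_iff_eq hq hpp).1 (hq.dvd_of_dvd_pow hd))
    have hle : (P : Subgroup G) ⊔ pPrimeCore p G ≤ CL.Blk.blockKerSub {χ} := by
      refine sup_le (fun n hn' => CL.Blk.mem_blockKerSub.2 fun ψ hψ => ?_)
        (fun n hn' => CL.Blk.mem_blockKerSub.2 fun ψ hψ => ?_)
      · obtain rfl : ψ = χ := hψ
        exact CL.Blk.ker_of_mem_principal (hM q hq) h2 _ hqP n hn'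
      · obtain rfl : ψ = χ := hψ
        exact CL.Blk.pPrimeCore_ker_of_mem_principal (hM p hpp) h1 n hn'
    exact CL.Blk.mem_blockKerSub.1 (hle (htop ▸ Subgroup.mem_top g)) χ rfl

end Cfsg.Agent.S4610
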