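import Cfsg.Statements.S4611
import Cfsg.Agent.BLK.Princ3
-- import your own Cfsg.Agent.* helpers here

set_option autoImplicit false
open Cfsg

namespace Cfsg.Agent.S4611

/-- Let G be a finite solvable group and π a nonempty set of primes, each dividing the order of G; fix for each p in π a maximal ideal M p of the algebraic integers containing p. Then the only irreducible character lying in the principal p-block for every p in π is the principal character if and only if G is generated by the subgroups O_{p'}(G), p in π (the largest normal subgroups of order prime to p). -/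
theorem result {G : Type*} [Group G] [Finite G] [Group.IsSolvable G] (π : Set ℕ) (hπ : ∀ p ∈ π, p.Prime ∧ p ∣ Nat.card G) (hne : π.Nonempty) (M : ℕ → Ideal Cfsg.AlgInt) (hM : ∀ p ∈ π, Cfsg.IsPModular p (M p)) :
    (∀ χ : Cfsg.IrrCharacter G, (∀ p ∈ π, χ ∈ Cfsg.principalBlock (M p) G) → (χ : G → ℂ) = fun _ => 1) ↔
      ⨆ p ∈ π, Cfsg.pPrimeCore p G = ⊤ := by
  have key : ∀ p ∈ π, ∀ χ : IrrCharacter G, χ ∈ principalBlock (M p) G ↔
      ∀ n ∈ pPrimeCore p G, (χ : G → ℂ) n = (χ : G → ℂ) 1 := fun p hp χ => by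
    have := Fact.mk (hπ p hp).1
    exact CL.Blk.mem_principal_iff_core_le_ker (hM p hp) (CL.isPSolvable_of_isSolvable p G) χ
  have hK : (⨆ p ∈ π, pPrimeCore p G).Normal := by
    exact Subgroup.biSup_normal π _ fun _ _ => inferInstance
  constructor
  · intro h
    by_contra hne
    obtain ⟨x, hx⟩ : ∃ x, x ∉ ⨆ p ∈ π, pPrimeCore p G := by
      by_contra hall
      push Not at hall
      exact hne ((Subgroup.eq_top_iff' _).2 hall)
    obtain ⟨χ, hχ, h1, h2⟩ := CL.Char.exists_irr_ker_of_not_mem _ hx
    have := h ⟨χ, hχ⟩ fun p hp => (key p hp _).2 fun n hn =>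
      h1 n (le_iSup₂_of_le (f := fun p (_ : p ∈ π) => pPrimeCore p G) p hp le_rfl hn)
    apply h2
    change χ = _ at this
    rw [this]
  · intro h χ hχ
    refine χ.2.eq_one_of_const fun g => ?_
    have hle : ⨆ p ∈ π, pPrimeCore p G ≤ CL.Blk.blockKerSub {χ} :=
      iSup₂_le fun p hp n hn => CL.Blk.mem_blockKerSub.2 fun ψ hψ => by
        obtain rfl : ψ = χ := hψ
        exact (key p hp _).1 (hχ p hp) n hn
    exact CL.Blk.mem_blockKerSub.1 (hle (h ▸ Subgroup.mem_top g)) χ rfl

end Cfsg.Agent.S4611
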