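import Cfsg.Statements.S4620
import Mathlib
import Cfsg.Agent.SOLV.Core
import Cfsg.Agent.SOLV.MinNormal
import Cfsg.Agent.TECH.SylIn

set_option autoImplicit false
open scoped Pointwise
open Cfsg

namespace Cfsg.Agent.S4620

open CL MonoidAlgebra
open scoped CL.MSS
open scoped ComplexConjugate commutatorElement

/-- Let H be a finite group with no nontrivial normal p-subgroup and no nontrivial normal subgroup of order prime to p, whose Sylow p-subgroup P is nontrivial and a trivial-intersection set (P meets its conjugates by elements outside N_H(P) trivially). Then H has a unique minimal normal subgroup N; N is non-abelian simple with trivial centralizer in H (so H embeds in Aut(N)), and a Sylow p-subgroup of N is again a nontrivial trivial-intersection set in N. -/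
theorem result {H : Type*} [Group H] [Finite H] (p : ℕ) [Fact p.Prime] (hOp : Cfsg.pCore p H = ⊥) (hOp' : Cfsg.pPrimeCore p H = ⊥) (P : Sylow p H) (hP1 : (P : Subgroup H) ≠ ⊥)
    (hTI : ∀ g : H, g ∉ Subgroup.normalizer ((P : Subgroup H) : Set H) → (P : Subgroup H) ⊓ (MulAut.conj g • (P : Subgroup H)) = ⊥) :
    ∃ N : Subgroup H, N.Normal ∧ N ≠ ⊥ ∧ (∀ K : Subgroup H, K.Normal → K ≠ ⊥ → N ≤ K) ∧
      IsSimpleGroup N ∧ ¬ IsMulCommutative N ∧ Subgroup.centralizer (N : Set H) = ⊥ ∧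
      ∀ Q : Sylow p N, (Q : Subgroup N) ≠ ⊥ ∧
        ∀ n : N, n ∉ Subgroup.normalizer ((Q : Subgroup N) : Set N) → (Q : Subgroup N) ⊓ (MulAut.conj n • (Q : Subgroup N)) = ⊥ := by
  open Subgroup CL.MSS in
  have hp : p.Prime := Fact.out
  have hTI' : ∀ (R : Sylow p H) (a g : H), a ≠ 1 → a ∈ (R : Subgroup H) →
      a ∈ g •ᶜ (R : Subgroup H) → g ∈ normalizer ((R : Subgroup H) : Set H) := by
    intro R a g ha h1 h2
    obtain ⟨c, rfl⟩ := MulAction.exists_smul_eq H P R
    rw [sylow_coe_smul] at h1 h2 ⊢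
    rw [← cj_normalizer, mem_cj]
    by_contra h3
    have h4 := hTI _ h3
    rw [pointwise_smul_eq_cj] at h4
    have h5 : c⁻¹ * a * c ∈ (P : Subgroup H) ⊓ (c⁻¹ * g * c) •ᶜ (P : Subgroup H) := by
      refine ⟨mem_cj.1 h1, mem_cj.2 ?_⟩
      have := mem_cj.1 (mem_cj.1 h2)
      convert this using 1
      group
    rw [h4, mem_bot] at h5
    exact ha (by simpa [mul_assoc, inv_mul_eq_one] using congrArg (fun x => c * x * c⁻¹) h5)
  have hdvd : ∀ B : Subgroup H, B.IsSubnormal → B ≠ ⊥ → ∃ a ∈ B, orderOf a = p := by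
    intro B hB h1
    have h2 : p ∣ Nat.card B := by
      by_contra h2
      exact h1 (eq_bot_iff.2 (hOp' ▸ le_pPrimeCore_of_isSubnormal hB
        ((Nat.Prime.coprime_iff_not_dvd hp).2 h2).symm))
    obtain ⟨a, ha⟩ := exists_prime_orderOf_dvd_card' p h2
    exact ⟨a, a.2, by rwa [Subgroup.orderOf_coe]⟩
  have key : ∀ B : Subgroup H, B.IsSubnormal → ∀ a : H, orderOf a = p →
      B ≤ centralizer ({a} : Set H) → B = ⊥ := by
    intro B hB a ha hc
    have ha1 : a ≠ 1 := fun e => hp.one_lt.ne (by rw [← ha, e, orderOf_one])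
    obtain ⟨R, hR⟩ := (IsPGroup.of_card (G := zpowers a) (n := 1)
      (by rw [Nat.card_zpowers, ha, pow_one])).exists_le_sylow
    have h1 : B ≤ normalizer ((R : Subgroup H) : Set H) := fun b hb =>
      hTI' R a b ha1 (hR (mem_zpowers a)) (mem_cj.2 (by
        rw [mul_assoc, ← mem_centralizer_singleton_iff.1 (hc hb), inv_mul_cancel_left]
        exact hR (mem_zpowers a)))
    have h2 := sylIn_inf_subnormal (sylIn_top R) hB
    have h3 : ((R : Subgroup H) ⊓ B).IsSubnormal := by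
      refine IsSubnormal.trans inf_le_right (Normal.isSubnormal ?_) hB
      exact (normal_subgroupOf_iff_le_normalizer inf_le_right).2
        (CL.le_normalizer_inf h1 le_normalizer)
    have h4 : (R : Subgroup H) ⊓ B = ⊥ :=
      eq_bot_iff.2 (hOp ▸ le_pCore_of_isSubnormal h3 h2.pgroup)
    rw [h4] at h2
    by_contra h5
    obtain ⟨b, hb, hbo⟩ := hdvd B hB h5
    exact not_dvd_card_of_sylIn_bot h2 (hbo ▸ Subgroup.orderOf_dvd_natCard _ hb)
  obtain ⟨N, hN, -⟩ := exists_isMinNormal_le (⊤ : Subgroup H) fun e => hP1 (eq_bot_iff.2 (e ▸ le_top))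
  have hNn := hN.normal
  obtain ⟨a, haN, ha⟩ := hdvd N hNn.isSubnormal hN.ne_bot
  have hC : centralizer (N : Set H) = ⊥ := key _ (Normal.isSubnormal inferInstance) a ha
    (centralizer_le (Set.singleton_subset_iff.2 haN))
  refine ⟨N, hNn, hN.ne_bot, fun K hK hK1 => ?_, ?_, fun hc => hN.ne_bot ?_, hC, fun Q => ⟨?_, ?_⟩⟩
  · refine (hN.inf_eq_bot_or_le K).resolve_left fun e => hK1 (eq_bot_iff.2 (hC ▸ ?_))
    rw [← commutator_eq_bot_iff_le_centralizer, eq_bot_iff, ← e, inf_comm]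
    exact commutator_le_inf _ _
  · have := hN.nontrivial
    refine ⟨fun K hK => or_iff_not_imp_left.2 fun hK1 => ?_⟩
    obtain ⟨L, hL, hLK⟩ := exists_isMinNormal_le K hK1
    have hLs : ∀ L : Subgroup N, IsMinNormal L → (L.map N.subtype).IsSubnormal := fun L hL =>
      hL.normal.isSubnormal.trans' hNn.isSubnormal
    have hL1 : ∀ L : Subgroup N, IsMinNormal L → L.map N.subtype ≠ ⊥ := fun L hL e =>
      hL.ne_bot ((map_eq_bot_iff_of_injective _ N.subtype_injective).1 e)
    obtain ⟨_, ⟨b, hb, rfl⟩, hbo⟩ := hdvd _ (hLs L hL) (hL1 L hL)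
    have h1 : ∀ h : H, L.map (MulAut.conjNormal (H := N) h : N →* N) = L := by
      intro h
      by_contra h2
      have h3 := hL.map_equiv (MulAut.conjNormal (H := N) h)
      refine hL1 _ h3 (key _ (hLs _ h3) _ hbo ?_)
      rintro _ ⟨c, hc, rfl⟩
      exact mem_centralizer_singleton_iff.2 (congrArg Subtype.val
        (mem_centralizer_iff.1 (h3.le_centralizer_of_ne hL h2 hc) b hb).symm)
    have h2 : (L.map N.subtype).Normal := ⟨by
      rintro _ ⟨c, hc, rfl⟩ h
      exact ⟨MulAut.conjNormal h c, (h1 h).le ⟨c, hc, rfl⟩, rfl⟩⟩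
    have h3 := hN.eq_of_le (map_subtype_le L) (hL1 L hL)
    refine eq_top_iff.2 fun c _ => hLK ?_
    obtain ⟨d, hd, e⟩ := h3.ge c.2
    rwa [← show d = c from Subtype.ext e]
  · exact eq_bot_iff.2 (hC ▸ le_centralizer N)
  · intro e
    have := (sylIn_top Q).ne_bot (by
      rw [card_top]; exact ha ▸ Subgroup.orderOf_dvd_natCard _ haN)
    exact this e
  · intro n hn
    obtain ⟨R, hR⟩ := (Q.isPGroup'.map N.subtype).exists_le_sylow
    have h1 : (R : Subgroup H) ⊓ N = (Q : Subgroup N).map N.subtype :=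
      (sylIn_map_subtype Q).max _ (R.isPGroup'.to_le inf_le_left)
        (le_inf hR (map_subtype_le _)) inf_le_right
    by_contra h2
    obtain ⟨⟨c, hc⟩, hc1⟩ := ne_bot_iff_exists_ne_one.1 h2
    have h3 := hTI' R c n (fun e => hc1 (Subtype.ext (Subtype.ext e))) (hR ⟨c, hc.1, rfl⟩)
      (mem_cj.2 (hR ⟨_, mem_cj.1 hc.2, rfl⟩))
    refine hn (mem_normalizer_of_cj_le (cj_le_iff_forall.2 fun x hx => ?_))
    obtain ⟨d, hd, e⟩ := h1.le ⟨(mem_normalizer_iff.1 h3 x).1 (hR ⟨x, hx, rfl⟩), (n * x * n⁻¹).2⟩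
    rwa [← show d = n * x * n⁻¹ from Subtype.ext e]

end Cfsg.Agent.S4620
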