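import Cfsg.Statements.S4741
import Cfsg.Agent.BLK.Robinson

set_option autoImplicit false
open Cfsg

namespace Cfsg.Agent.S4741

open CL CL.Char CL.Blk Subgroup

/-- Let p be a prime, M a maximal ideal of the algebraic integers containing p, and D a subgroup of the finite group G. Let x₁, …, x_r be pairwise non-conjugate elements of G such that D is a Sylow p-subgroup of the centralizer of each xᵢ, and such that for any conjugates g of some xᵢ and h of some xⱼ the element g h⁻¹ is never a non-identity p-element. Then there are r distinct p-blocks B₁, …, B_r of G, each having D as a defect group, such that for every choice of characters χᵢ ∈ Bᵢ of height zero the determinant of the r × r matrix (χᵢ(xⱼ)) does not lie in the local ideal at M. -/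
theorem result {G : Type*} [Group G] [Finite G] (p : ℕ) [Fact p.Prime] (M : Ideal Cfsg.AlgInt) (hM : Cfsg.IsPModular p M) (D : Subgroup G) {r : ℕ} (x : Fin r → G) (hx : ∀ i j : Fin r, IsConj (x i) (x j) → i = j) (hD : ∀ i : Fin r, ∃ S : Sylow p ↥(Subgroup.centralizer ({x i} : Set G)), (S : Subgroup ↥(Subgroup.centralizer ({x i} : Set G))).map (Subgroup.centralizer ({x i} : Set G)).subtype = D) (hsep : ∀ i j : Fin r, ∀ g h : G, IsConj (x i) g → IsConj (x j) h → ∀ k : ℕ, 0 < k → orderOf (g * h⁻¹) ≠ p ^ k) : ∃ B : Fin r → Set (Cfsg.IrrCharacter G), Function.Injective B ∧ (∀ i : Fin r, Cfsg.IsPBlock M (B i) ∧ Cfsg.IsDefectGroup p M (B i) D) ∧ ∀ χ : Fin r → Cfsg.IrrCharacter G, (∀ i : Fin r, χ i ∈ B i ∧ Cfsg.blockHeight p (B i) (χ i : G → ℂ) = 0) → ¬ Cfsg.MemLocalIdeal M (Matrix.det (Matrix.of fun i j : Fin r => (χ i : G → ℂ) (x j))) := by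
  classical
  obtain ⟨S⟩ : Nonempty (Sylow p G) := inferInstance
  have hs : ∀ i, MSS.SylIn p D (centralizer {x i}) := fun i => by
    obtain ⟨R, hR⟩ := hD i
    exact hR ▸ MSS.sylIn_map_subtype R
  have hV := fun (χ : IrrCharacter G) g => mul_mem (trivMult_mem_V (M := M) S χ) (irr_mem_V χ g)
  have key : ∀ i j, ∑ χ : IrrCharacter G, red M (trivMult S χ.1 * χ.1 (x i)⁻¹) *
      red M (centralChar χ.1 (x j)) = if i = j then ((S : Subgroup G).index : F M) else 0 := by
    intro i j
    have h1 := card_mul_pairCnt_subgroup (S : Subgroup G) (x i) (x j)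
    rw [pairCnt_of_sep (one_mem _) fun a b ha hb hab => by
      obtain ⟨k, hk⟩ := IsPGroup.iff_orderOf.1 S.isPGroup' ⟨_, hab⟩
      rw [← orderOf_coe] at hk
      obtain rfl | hk0 := k.eq_zero_or_pos
      · exact (mul_inv_eq_one.1 (orderOf_eq_one_iff.1 hk)).symm
      · exact absurd hk (hsep j i b a hb ha k hk0), mul_comm] at h1
    have h0 : ((centralizer {x i}).index : ℂ) ≠ 0 := Nat.cast_ne_zero.2 index_ne_zero_of_finite
    rw [← Finset.sum_congr rfl fun χ _ => red_mul (hV χ _) (centralChar_mem_V χ _),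
      ← red_sum _ fun χ _ => mul_mem (hV χ _) (centralChar_mem_V χ _)]
    split_ifs with hij
    · rw [if_pos (hij ▸ IsConj.refl _)] at h1
      rw [← mul_left_cancel₀ h0 h1, red_natCast]
    · rw [if_neg fun h => hij (hx i j h), Nat.cast_zero, zero_mul] at h1
      rw [(mul_eq_zero.1 h1.symm).resolve_left h0, red_zero]
  obtain ⟨f, hf1, hf2⟩ := exists_det_ne_zero _ _ (by
    rw [show (Matrix.of fun i j => ∑ χ : IrrCharacter G, red M (trivMult S χ.1 * χ.1 (x i)⁻¹) *
      red M (centralChar χ.1 (x j))) = Matrix.diagonal fun _ => ((S : Subgroup G).index : F M) by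
        ext i j; rw [Matrix.of_apply, key, Matrix.diagonal_apply], Matrix.det_diagonal]
    exact Finset.prod_ne_zero_iff.2 fun _ _ h =>
      S.not_dvd_index ((natCast_F_eq_zero_iff hM _).1 h))
  have hl := fun i {χ} (h : χ ∈ blockOf M (f i).1) g =>
    (lamB_classSum hM (isPBlock_blockOf (f i)) (mem_blockOf_self hM _) g).symm.trans
      (lamB_classSum hM (isPBlock_blockOf (f i)) h g)
  have hdef : ∀ i, IsDefectGroup p M (blockOf M (f i).1) D := fun i => by
    obtain ⟨j, hj⟩ : ∃ j, red M (centralChar (f i).1 (x j)) ≠ 0 := by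
      by_contra! h
      exact hf2 (Matrix.det_eq_zero_of_row_eq_zero i h)
    refine isDefectGroup_of_lamB hM (isPBlock_blockOf _) (hs j)
      (by rwa [lamB_classSum hM (isPBlock_blockOf (f i)) (mem_blockOf_self hM _)]) ?_
    have h1 := le_blockDefect_of_apply hM (mem_blockOf_self hM (f i)) (x := (x i)⁻¹) fun h =>
      hf1 i (red_eq_zero_of_mem (mul_mem_nonunits_left (trivMult_mem_V _ _) h))
    have h2 : centralizer ({(x i)⁻¹} : Set G) = centralizer {x i} := by
      ext; simp only [mem_centralizer_singleton_iff]; exact Commute.inv_right_iff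
    rw [(hs i).card_eq_pow_factorization, ← h2]
    exact Nat.pow_le_pow_right hM.1.pos h1
  refine ⟨fun i => blockOf M (f i).1, fun i j hij => by_contra fun hne => hf2
    (Matrix.det_zero_of_row_eq hne (funext fun k => hl i (by
      simpa only [hij] using mem_blockOf_self hM (f j)) _)),
    fun i => ⟨isPBlock_blockOf _, hdef i⟩, fun χ hχ h => ?_⟩
  set c := p ^ ((Nat.card G).factorization p - (Nat.card D).factorization p)
  have hc : c.factorization p = _ := Nat.Prime.factorization_pow hM.1 ▸ Finsupp.single_eq_same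
  have hc0 : c ≠ 0 := pow_ne_zero _ hM.1.ne_zero
  have hu : ∀ {a b : ℕ}, a ≠ 0 → b ≠ 0 → a.factorization p = b.factorization p →
      (a : ℂ) / b ∈ V M ∧ red M ((a : ℂ) / b) ≠ 0 := fun ha hb h =>
    have h1 := (natCast_div_mem_V_iff hM ha hb).2 h.ge
    ⟨h1, fun h2 => ((natCast_div_mem_nonunits_iff hM ha hb).1 ((red_eq_zero_iff h1).1 h2)).ne' h⟩
  have h1 := fun i => hu (charDegree_ne_zero (χ i)) hc0 (by
    have h2 := minVal_add_blockDefect p ⟨_, (hχ i).1⟩
    have h3 := (blockHeight_eq_zero_iff (hχ i).1).1 (hχ i).2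
    rw [hc, IsDefectGroup.card_eq_pow hM (isPBlock_blockOf _) (hdef i),
      Nat.Prime.factorization_pow hM.1, Finsupp.single_eq_same, h3]
    exact Nat.eq_sub_of_add_eq h2)
  have h2 := fun j => hu hc0 (centralizer {x j}).index_ne_zero_of_finite (by
    have := factorization_card_centralizer_add p (x j)
    rw [hc, (hs j).card_eq_pow_factorization, Nat.Prime.factorization_pow hM.1, Finsupp.single_eq_same]
    omega)
  have h3 := MemLocalIdeal.red_eq_zero hM h
  rw [red_det (by exact fun i j => irr_mem_V (χ i) (x j)), show (Matrix.of fun i j => (χ i).1 (x j)).map (red M) =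
    Matrix.of fun i j => red M ((charDegree (χ i).1 : ℂ) / c) * (Matrix.of fun i j =>
      red M ((c : ℂ) / (centralizer {x j}).index) * (Matrix.of fun i j =>
        red M (centralChar (f i).1 (x j))) i j) i j by
      ext i j
      simp only [Matrix.map_apply, Matrix.of_apply]
      rw [hl i (hχ i).1, ← red_mul (h2 j).1 (centralChar_mem_V _ _),
        ← red_mul (h1 i).1 (mul_mem (h2 j).1 (centralChar_mem_V _ _)), centralChar, ← irr_one_eq]
      congr 1
      field_simp [(χ i).2.one_ne_zero, (centralizer {x j}).index_ne_zero_of_finite],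
    Matrix.det_mul_column, Matrix.det_mul_row] at h3
  exact mul_ne_zero (Finset.prod_ne_zero_iff.2 fun i _ => (h1 i).2)
    (mul_ne_zero (Finset.prod_ne_zero_iff.2 fun i _ => (h2 i).2) hf2) h3

end Cfsg.Agent.S4741
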