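import Cfsg.Statements.S4742
import Mathlib
import Cfsg.Agent.BLK.DZ

set_option autoImplicit false
open Cfsg

namespace Cfsg.Agent.S4742

open CL CL.Blk CL.Char MonoidAlgebra
open scoped CL.MSS
open scoped ComplexConjugate commutatorElement

/-- Let p ≠ q be primes dividing the order of the finite group G, and suppose the centralizer of every non-identity p-element of G has order prime to q. Then either G has an irreducible character of p-defect zero, or for every non-identity q-element z of G there are conjugates g, h of z such that g h⁻¹ is a non-identity p-element. -/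
theorem result {G : Type*} [Group G] [Finite G] (p q : ℕ) [Fact p.Prime] [Fact q.Prime] (hppq : p ≠ q) (hpG : p ∣ Nat.card G) (hqG : q ∣ Nat.card G) (hC : ∀ g : G, g ≠ 1 → (∃ k : ℕ, orderOf g = p ^ k) → ¬ q ∣ Nat.card ↥(Subgroup.centralizer ({g} : Set G))) : (∃ χ : Cfsg.IrrCharacter G, (Cfsg.charDegree (χ : G → ℂ)).factorization p = (Nat.card G).factorization p) ∨ ∀ z : G, z ≠ 1 → (∃ k : ℕ, orderOf z = q ^ k) → ∃ g h : G, IsConj z g ∧ IsConj z h ∧ g * h⁻¹ ≠ 1 ∧ ∃ k : ℕ, orderOf (g * h⁻¹) = p ^ k := by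
  refine or_iff_not_imp_right.2 fun h => ?_
  push Not at h
  obtain ⟨z, hz1, ⟨k, hk⟩, hz⟩ := h
  have hN := noPQ_of_not_dvd (Fact.out : p.Prime) (Fact.out : q.Prime) hC
  refine exists_defZero_of_sep z (hN.not_dvd Fact.out ⟨k, by rw [← hk, pow_orderOf_eq_one]⟩ hz1)
    fun g g' hg hg' ⟨j, hj⟩ => ?_
  by_contra h1
  exact hz g g' hg hg' h1 j hj

end Cfsg.Agent.S4742
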