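import Cfsg.Statements.S4743
import Mathlib
import Cfsg.Agent.BLK.DZ
import Cfsg.Agent.SOLV.PSolvable

set_option autoImplicit false
open Cfsg

namespace Cfsg.Agent.S4743

open CL CL.Blk CL.Char MonoidAlgebra
open scoped CL.MSS
open scoped ComplexConjugate commutatorElement

theorem aux {G : Type*} [Group G] [Finite G] {p q : ℕ} [hp : Fact p.Prime] [hq : Fact q.Prime]
    (hppq : p ≠ q) (hpG : p ∣ Nat.card G) (h : NoPQ p q G) (hs : IsPSolvable p G) :
    (∃ χ : IrrCharacter G, (charDegree (χ : G → ℂ)).factorization p = (Nat.card G).factorization p) ∨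
    (∃ χ : IrrCharacter G, (charDegree (χ : G → ℂ)).factorization q = (Nat.card G).factorization q) := by
  by_cases hK : q ∣ Nat.card (pPrimeCore p G)
  · exact Or.inl (h.exists_defZero_of_normal hq.out _ (not_dvd_card_pPrimeCore p G) hK)
  right
  set K := pPrimeCore p G with hKdef
  have hne : K ≠ ⊤ := fun h0 => not_dvd_card_pPrimeCore p G (by
    rw [← hKdef, h0, Subgroup.card_top]; exact hpG)
  have : Nontrivial (G ⧸ K) := QuotientGroup.nontrivial_iff.2 hne
  have h1 : pCore p (G ⧸ K) ≠ ⊥ := IsPSolvable.pCore_ne_bot (IsPSolvable.quotient hs K) (pPrimeCore_quotient_pPrimeCore p G)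
  obtain ⟨k, hk⟩ := (isPGroup_pCore p (G ⧸ K)).exists_card_eq
  have hk0 : k ≠ 0 := by
    rintro rfl
    exact h1 (Subgroup.eq_bot_of_card_eq _ (by simpa using hk))
  have hc : Nat.card ((pCore p (G ⧸ K)).comap (QuotientGroup.mk' K)) = Nat.card K * p ^ k := by
    rw [← hk, card_comap_mk', mul_comm]
  refine h.symm.exists_defZero_of_normal hp.out ((pCore p (G ⧸ K)).comap (QuotientGroup.mk' K)) ?_ ?_
  · rw [hc]
    intro hd
    rcases (Nat.Prime.dvd_mul hq.out).1 hd with h2 | h2
    · exact hK h2
    · exact hppq ((Nat.prime_dvd_prime_iff_eq hq.out hp.out).1 (hq.out.dvd_of_dvd_pow h2)).symm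
  · rw [hc]
    exact Dvd.dvd.mul_left (dvd_pow_self p hk0) _

/-- Let p ≠ q be primes dividing the order of the finite group G, suppose the centralizer of every non-identity p-element has order prime to q, and suppose G is p-solvable or q-solvable. Then G has an irreducible character of p-defect zero or an irreducible character of q-defect zero. -/
theorem result {G : Type*} [Group G] [Finite G] (p q : ℕ) [Fact p.Prime] [Fact q.Prime] (hppq : p ≠ q) (hpG : p ∣ Nat.card G) (hqG : q ∣ Nat.card G) (hC : ∀ g : G, g ≠ 1 → (∃ k : ℕ, orderOf g = p ^ k) → ¬ q ∣ Nat.card ↥(Subgroup.centralizer ({g} : Set G))) (hsolv : Cfsg.IsPSolvable p G ∨ Cfsg.IsPSolvable q G) : (∃ χ : Cfsg.IrrCharacter G, (Cfsg.charDegree (χ : G → ℂ)).factorization p = (Nat.card G).factorization p) ∨ (∃ χ : Cfsg.IrrCharacter G, (Cfsg.charDegree (χ : G → ℂ)).factorization q = (Nat.card G).factorization q) := by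
  have hN := noPQ_of_not_dvd (Fact.out : p.Prime) (Fact.out : q.Prime) hC
  rcases hsolv with hs | hs
  · exact aux hppq hpG hN hs
  · exact (aux hppq.symm hqG hN.symm hs).symm

end Cfsg.Agent.S4743
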