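import Cfsg.Statements.S4744
import Mathlib
import Cfsg.Agent.BLK.DZ

set_option autoImplicit false
open Cfsg

namespace Cfsg.Agent.S4744

open CL CL.Blk CL.Char MonoidAlgebra
open scoped CL.MSS
open scoped ComplexConjugate commutatorElement

/-- Let p be an odd prime and G a finite group of even order divisible by p in which the centralizer of every non-identity p-element has odd order. Then either G has an irreducible character of p-defect zero, or the normalizer of every Sylow p-subgroup P of G has even order and P is abelian. -/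
theorem result {G : Type*} [Group G] [Finite G] (p : ℕ) [Fact p.Prime] (hp2 : p ≠ 2) (hpG : p ∣ Nat.card G) (h2G : 2 ∣ Nat.card G) (hC : ∀ g : G, g ≠ 1 → (∃ k : ℕ, orderOf g = p ^ k) → Odd (Nat.card ↥(Subgroup.centralizer ({g} : Set G)))) : (∃ χ : Cfsg.IrrCharacter G, (Cfsg.charDegree (χ : G → ℂ)).factorization p = (Nat.card G).factorization p) ∨ ∀ P : Sylow p G, Even (Nat.card ↥(Subgroup.normalizer ((P : Subgroup G) : Set G))) ∧ IsMulCommutative ↥(P : Subgroup G) := by
  refine or_iff_not_imp_left.2 fun h0 P => ?_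
  have hN := noPQ_of_not_dvd (Fact.out : p.Prime) Nat.prime_two
    fun g hg hk hd => Nat.not_even_iff_odd.2 (hC g hg hk) (even_iff_two_dvd.2 hd)
  have := Fact.mk Nat.prime_two
  obtain ⟨t, ht⟩ := exists_prime_orderOf_dvd_card' 2 h2G
  obtain ⟨-, s, hts, hs⟩ := hN.exists_conj_inverts h0 ht P
  refine ⟨even_iff_two_dvd.2 ?_, comm_of_inverted hs⟩
  have h1 : s ∈ Subgroup.normalizer ((P : Subgroup G) : Set G) :=
    CL.MSS.mem_normalizer_of_cj_le (CL.MSS.cj_le_iff_forall.2 fun x hx => by
      rw [hs x hx]; exact inv_mem hx)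
  have h2 := orderOf_dvd_natCard (⟨s, h1⟩ : Subgroup.normalizer ((P : Subgroup G) : Set G))
  rwa [← Subgroup.orderOf_coe, ← CL.Inv.orderOf_eq_of_isConj hts, ht] at h2

end Cfsg.Agent.S4744
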