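import Cfsg.Statements.S4745
import Mathlib
import Cfsg.Agent.BLK.DZ
import Cfsg.Agent.SOLV.PSolvable
import Cfsg.Agent.SOLV.HallConverse
import Cfsg.Agent.S0205

set_option autoImplicit false
open Cfsg

namespace Cfsg.Agent.S4745

open CL CL.Blk CL.Char MonoidAlgebra Subgroup
open scoped CL.MSS
open scoped ComplexConjugate commutatorElement

variable {G : Type*} [Group G] [Finite G] {p : ℕ}

theorem dvd_card_pairs [hp : Fact p.Prime]
    (h0 : ¬ ∃ χ : IrrCharacter G, (charDegree (χ : G → ℂ)).factorization p =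
      (Nat.card G).factorization p) {a : G} (ha : ¬ p ∣ Nat.card (centralizer ({a} : Set G)))
    (c : G) : p ∣ Nat.card {x : G × G // IsConj a x.1 ∧ IsConj a x.2 ∧ x.1 * x.2 = c} := by
  obtain ⟨M, hM⟩ := CL.Glb.exists_isPModular hp.out
  rw [← pow_one p, ← natCast_div_pow_mem_V_iff hM, card_class_mul_eq, Finset.mul_sum,
    Finset.sum_div]
  refine sum_mem fun χ _ => ?_
  have hK := CL.Inv.card_isConj_mul_card_centralizer a
  set K := Nat.card {x : G // IsConj a x}
  have hG : Nat.card G ≠ 0 := Nat.card_pos.ne'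
  have hK0 : K ≠ 0 := fun h => hG (by rw [← hK, h, zero_mul])
  have hd := χ.2.charDegree_pos.ne'
  have h1 : K.factorization p = (Nat.card G).factorization p := by
    rw [← hK, Nat.factorization_mul hK0 Nat.card_pos.ne', Finsupp.add_apply,
      Nat.factorization_eq_zero_of_not_dvd ha, add_zero]
  have h2 : (charDegree (χ : G → ℂ)).factorization p < (Nat.card G).factorization p :=
    lt_of_le_of_ne ((Nat.factorization_le_iff_dvd hd hG).2 χ.2.charDegree_dvd_card p)
      fun h => h0 ⟨χ, h⟩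
  have h3 : (K : ℂ) * K / Nat.card G * ((χ : G → ℂ) a * (χ : G → ℂ) a * conj ((χ : G → ℂ) c) /
      (χ : G → ℂ) 1) / (p : ℂ) ^ 1 = (χ : G → ℂ) a * (χ : G → ℂ) a * conj ((χ : G → ℂ) c) *
      (((K * K : ℕ) : ℂ) / ((Nat.card G * charDegree (χ : G → ℂ) * p : ℕ) : ℂ)) := by
    rw [χ.2.apply_one_eq_charDegree]
    push_cast
    ring
  rw [h3]
  refine mul_mem (mul_mem (mul_mem (mem_V_of_isIntegral (χ.2.isIntegral a))
    (mem_V_of_isIntegral (χ.2.isIntegral a)))
    (mem_V_of_isIntegral (CL.Char.isIntegral_conj (χ.2.isIntegral c)))) ?_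
  rw [natCast_div_mem_V_iff hM (mul_ne_zero hK0 hK0)
    (mul_ne_zero (mul_ne_zero hG hd) hp.out.ne_zero), Nat.factorization_mul hK0 hK0,
    Nat.factorization_mul (mul_ne_zero hG hd) hp.out.ne_zero, Nat.factorization_mul hG hd]
  simp only [Finsupp.add_apply, hp.out.factorization_self]
  omega

theorem two_dvd_inf {K : Subgroup G} {t : G} (htt : t * t = 1)
    (ht : ∀ k ∈ K, t * k * t⁻¹ ∈ K) (h : 2 ∣ Nat.card K) :
    2 ∣ Nat.card (K ⊓ centralizer ({t} : Set G) : Subgroup G) := by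
  classical
  have := Fintype.ofFinite K
  let f : Function.End K := fun k => ⟨t * k * t⁻¹, ht k k.2⟩
  have h1 : f ^ 2 ^ 1 = 1 := by
    funext k
    refine Subtype.ext ?_
    change t * (t * k * t⁻¹) * t⁻¹ = k
    calc t * (t * k * t⁻¹) * t⁻¹ = (t * t) * k * (t * t)⁻¹ := by group
      _ = k := by rw [htt]; group
  have h2 := Equiv.Perm.card_fixedPoints_modEq h1
  rw [← Nat.card_eq_fintype_card, ← Nat.card_eq_fintype_card] at h2
  have h3 : Nat.card f.fixedPoints = Nat.card (K ⊓ centralizer ({t} : Set G) : Subgroup G) := by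
    refine Nat.card_congr ⟨fun x => ⟨x.1, x.1.2, mem_centralizer_singleton_iff.2 ?_⟩,
      fun y => ⟨⟨y, y.2.1⟩, Subtype.ext ?_⟩, fun _ => rfl, fun _ => rfl⟩
    · have h4 : t * x.1 * t⁻¹ = x.1 := congrArg Subtype.val x.2
      exact (mul_inv_eq_iff_eq_mul.1 h4).symm
    · exact mul_inv_eq_iff_eq_mul.2 (mem_centralizer_singleton_iff.1 y.2.2).symm
  rw [← h3]
  exact (Nat.modEq_zero_iff_dvd).1 (h2.symm.trans (Nat.modEq_zero_iff_dvd.2 h))

theorem card_pairs_dvd {t d : G} (ht : orderOf t = 2)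
    (hodd : ¬ 2 ∣ Nat.card (centralizer ({d} : Set G)))
    (x0 : {x : G × G // IsConj t x.1 ∧ IsConj t x.2 ∧ x.1 * x.2 = d}) :
    Nat.card {x : G × G // IsConj t x.1 ∧ IsConj t x.2 ∧ x.1 * x.2 = d} ∣
      Nat.card (centralizer ({d} : Set G)) := by
  set K := centralizer ({d} : Set G)
  letI : MulAction K {x : G × G // IsConj t x.1 ∧ IsConj t x.2 ∧ x.1 * x.2 = d} :=
    { smul := fun k x => ⟨(k * x.1.1 * (k : G)⁻¹, k * x.1.2 * (k : G)⁻¹),
        x.2.1.trans (isConj_iff.2 ⟨k, rfl⟩), x.2.2.1.trans (isConj_iff.2 ⟨k, rfl⟩), by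
          have h1 := mem_centralizer_singleton_iff.1 k.2
          calc k * x.1.1 * (k : G)⁻¹ * (k * x.1.2 * (k : G)⁻¹)
              = k * (x.1.1 * x.1.2) * (k : G)⁻¹ := by group
            _ = d := by rw [x.2.2.2, h1]; group⟩
      one_smul := fun x => Subtype.ext (Prod.ext (by
        change ((1 : K) : G) * x.1.1 * ((1 : K) : G)⁻¹ = x.1.1; simp) (by
        change ((1 : K) : G) * x.1.2 * ((1 : K) : G)⁻¹ = x.1.2; simp))
      mul_smul := fun k l x => Subtype.ext (Prod.ext (by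
        change ((k * l : K) : G) * x.1.1 * ((k * l : K) : G)⁻¹ =
          k * (l * x.1.1 * (l : G)⁻¹) * (k : G)⁻¹
        rw [Subgroup.coe_mul]; group) (by
        change ((k * l : K) : G) * x.1.2 * ((k * l : K) : G)⁻¹ =
          k * (l * x.1.2 * (l : G)⁻¹) * (k : G)⁻¹
        rw [Subgroup.coe_mul]; group)) }
  haveI : MulAction.IsPretransitive K
      {x : G × G // IsConj t x.1 ∧ IsConj t x.2 ∧ x.1 * x.2 = d} := ⟨fun x y => by
    have h2 : ∀ a, IsConj t a → a * a = 1 := fun a ha =>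
      CL.Inv.mul_self_of_orderOf_two ((CL.Inv.orderOf_eq_of_isConj ha).symm.trans ht)
    have hx := CL.Inv.conj_mul_eq_inv (h2 _ x.2.1) (h2 _ x.2.2.1)
    have hy := CL.Inv.conj_mul_eq_inv (h2 _ y.2.1) (h2 _ y.2.2.1)
    rw [x.2.2.2] at hx
    rw [y.2.2.2] at hy
    have hm : y.1.1 * x.1.1 ∈ K := mem_centralizer_singleton_iff.2 (by
      calc y.1.1 * x.1.1 * d = (y.1.1 * (x.1.1 * d * x.1.1⁻¹)⁻¹ * y.1.1⁻¹)⁻¹ * (y.1.1 * x.1.1) := by
            group
        _ = d * (y.1.1 * x.1.1) := by rw [hx, inv_inv, hy, inv_inv])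
    obtain ⟨j, hj⟩ := CL.Inv.exists_pow_conj_of_odd (h2 _ y.2.1) (h2 _ x.2.1)
      (Nat.odd_iff.2 (Nat.two_dvd_ne_zero.1 fun hd => hodd (hd.trans
        (orderOf_dvd_natCard (⟨_, hm⟩ : K) |> fun h5 => by rwa [← Subgroup.orderOf_coe] at h5))))
    refine ⟨⟨_, pow_mem hm j⟩, Subtype.ext (Prod.ext hj ?_)⟩
    have h3 := mem_centralizer_singleton_iff.1 (pow_mem hm j)
    change (y.1.1 * x.1.1) ^ j * x.1.2 * ((y.1.1 * x.1.1) ^ j)⁻¹ = y.1.2
    set c := (y.1.1 * x.1.1) ^ j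
    calc c * x.1.2 * c⁻¹ = (c * x.1.1 * c⁻¹)⁻¹ * (c * (x.1.1 * x.1.2)) * c⁻¹ := by group
      _ = y.1.1⁻¹ * d := by rw [hj, x.2.2.2, h3]; group
      _ = y.1.2 := inv_mul_eq_of_eq_mul y.2.2.2.symm⟩
  rw [← MulAction.index_stabilizer_of_transitive K x0]
  exact index_dvd_card _

variable {Ω : Type*} [MulAction G Ω] [Fintype Ω] {r : ℕ}

theorem sylow_trans [hp : Fact p.Prime] [MulAction.IsPretransitive G Ω]
    (hΩ : Fintype.card Ω = p ^ r) (P : Sylow p G) (α β : Ω) :
    ∃ u ∈ (P : Subgroup G), u • α = β := by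
  have h1 : (MulAction.stabilizer G α).index = p ^ r := by
    rw [MulAction.index_stabilizer_of_transitive, Nat.card_eq_fintype_card, hΩ]
  have h2 : (MulAction.stabilizer G α).relIndex P =
      (MulAction.orbit (P : Subgroup G) α).ncard := by
    rw [← MulAction.index_stabilizer]; rfl
  have h3 : p ^ r ∣ (MulAction.stabilizer G α).relIndex P * (P : Subgroup G).index := by
    rw [← inf_relIndex_right, relIndex_mul_index inf_le_right, ← h1]
    exact index_dvd_of_le inf_le_left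
  have h4 := (Nat.Coprime.pow_left r
    ((Nat.Prime.coprime_iff_not_dvd hp.out).2 P.not_dvd_index)).dvd_of_dvd_mul_right h3
  rw [h2] at h4
  have h5 : MulAction.orbit (P : Subgroup G) α = Set.univ := by
    refine Set.eq_of_subset_of_ncard_le (Set.subset_univ _) ?_
    rw [Set.ncard_univ, Nat.card_eq_fintype_card, hΩ]
    exact Nat.le_of_dvd ((Set.ncard_pos).2 ⟨α, MulAction.mem_orbit_self α⟩) h4
  obtain ⟨u, hu⟩ : β ∈ MulAction.orbit (P : Subgroup G) α := h5 ▸ Set.mem_univ β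
  exact ⟨u, u.2, hu⟩

variable [FaithfulSMul G Ω] [MulAction.IsPretransitive G Ω] [hp : Fact p.Prime]

theorem eq_one_of_fix (hΩ : Fintype.card Ω = p ^ r) (P : Sylow p G) {d : G}
    (hd : ∀ x ∈ (P : Subgroup G), d * x = x * d) {γ : Ω} (h : d • γ = γ) : d = 1 := by
  refine FaithfulSMul.eq_of_smul_eq_smul (α := Ω) fun β => ?_
  obtain ⟨u, hu, rfl⟩ := sylow_trans hΩ P γ β
  rw [one_smul, ← mul_smul, hd u hu, mul_smul, h]

theorem fix_unique (hΩ : Fintype.card Ω = p ^ r) (h : NoPQ p 2 G)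
    (h0 : ¬ ∃ χ : IrrCharacter G, (charDegree (χ : G → ℂ)).factorization p =
      (Nat.card G).factorization p) {t : G} (ht : orderOf t = 2) {α β : Ω} (hα : t • α = α)
    (hβ : t • β = β) : α = β := by
  obtain ⟨P, -, hP⟩ := h.exists_sylow_inverted_of_not_defZero h0 ht
  obtain ⟨u, hu, rfl⟩ := sylow_trans hΩ P α β
  have h1 : (u * u) • α = α := by
    have h2 : t * u = u⁻¹ * t := by rw [← hP u hu]; group
    rw [← mul_smul, h2, mul_smul, hα] at hβ
    rw [mul_smul, ← hβ, smul_inv_smul]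
  have h3 : u * u = 1 := eq_one_of_fix hΩ P (fun x hx => congrArg Subtype.val
    ((comm_of_inverted hP).1.1 ⟨_, mul_mem hu hu⟩ ⟨x, hx⟩)) h1
  have h4 := h u u (MSS.isPGroup_iff_forall_mem.1 P.isPGroup' u hu) ⟨1, by rw [pow_one, sq, h3]⟩ rfl
  rw [or_self] at h4
  rw [h4, one_smul]

theorem not_fix (hΩ : Fintype.card Ω = p ^ r) (h : NoPQ p 2 G)
    (h0 : ¬ ∃ χ : IrrCharacter G, (charDegree (χ : G → ℂ)).factorization p =
      (Nat.card G).factorization p) {s t : G} (hs : orderOf s = 2) (ht : orderOf t = 2) {α β γ : Ω}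
    (hα : t • α = α) (hβ : s • β = β) (hγ : (s * t) • γ = γ) : α = β := by
  by_contra hne
  have hss := CL.Inv.mul_self_of_orderOf_two hs
  have htt := CL.Inv.mul_self_of_orderOf_two ht
  have hinv : ∀ {v : G}, orderOf v = 2 → ∀ {U : Subgroup G}, IsPGroup p U →
      v ∈ normalizer (U : Set G) → ∀ x ∈ U, v * x * v⁻¹ = x⁻¹ := fun {v} hv {U} hU hn =>
    CL.Frob.conj_eq_inv_of_involution (CL.Inv.mul_self_of_orderOf_two hv) hn
      (eq_bot_iff.2 fun x hx => (h x v (MSS.isPGroup_iff_forall_mem.1 hU x hx.1)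
        ⟨1, by rw [pow_one, sq, CL.Inv.mul_self_of_orderOf_two hv]⟩
        (mem_centralizer_singleton_iff.1 hx.2)).resolve_right (CL.Inv.ne_one_of_orderOf_two hv))
  set d := s * t with hd
  set K := centralizer ({d} : Set G) with hK
  have htd : t * d * t⁻¹ = d⁻¹ := CL.Inv.conj_mul_eq_inv' hss htt
  have htK : ∀ k ∈ K, t * k * t⁻¹ ∈ K := fun k hk => mem_centralizer_singleton_iff.2 (by
    have h1 := mem_centralizer_singleton_iff.1 hk
    have h2 : d = t * d⁻¹ * t⁻¹ := by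
      rw [show t * d⁻¹ * t⁻¹ = (t * d * t⁻¹)⁻¹ by group, htd, inv_inv]
    have h3 : k * d⁻¹ = d⁻¹ * k := (Commute.inv_right h1).eq
    calc t * k * t⁻¹ * d = t * k * t⁻¹ * (t * d⁻¹ * t⁻¹) := by rw [← h2]
      _ = t * (k * d⁻¹) * t⁻¹ := by group
      _ = t * d⁻¹ * t⁻¹ * (t * k * t⁻¹) := by rw [h3]; group
      _ = d * (t * k * t⁻¹) := by rw [← h2])
  have hodd : ¬ 2 ∣ Nat.card K := fun h2 => by
    obtain ⟨z, hz⟩ := exists_prime_orderOf_dvd_card' 2 (two_dvd_inf htt htK h2)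
    rw [← Subgroup.orderOf_coe] at hz
    have h1 : (z : G) * t = t * z := mem_centralizer_singleton_iff.1 z.2.2
    have h3 : (z : G) * (s * t) = s * t * z := mem_centralizer_singleton_iff.1 z.2.1
    have h4 : (z : G) * s = s * z := by
      rw [mul_assoc s, ← h1, ← mul_assoc, ← mul_assoc] at h3
      exact mul_right_cancel h3
    refine hne (fix_unique hΩ h h0 hz (fix_unique hΩ h h0 ht ?_ hα) (fix_unique hΩ h h0 hs ?_ hβ))
    · rw [← mul_smul, ← h1, mul_smul, hα]
    · rw [← mul_smul, ← h4, mul_smul, hβ]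
  have hpK : p ∣ Nat.card K := (dvd_card_pairs h0 (h.not_dvd hp.out
    ⟨1, by rw [pow_one, sq, htt]⟩ (CL.Inv.ne_one_of_orderOf_two ht)) d).trans
      (card_pairs_dvd ht hodd ⟨(s, t), h.isConj_of_not_defZero h0 ht hs, IsConj.refl t, rfl⟩)
  obtain ⟨U, hU⟩ := coprime_exists_invariant_sylow (zpowers t) K
    (zpowers_le.2 (MSS.mem_normalizer_of_cj_le (MSS.cj_le_iff_forall.2 htK)))
    (by rw [Nat.card_zpowers, ht]; exact (Nat.Prime.coprime_iff_not_dvd Nat.prime_two).2 hodd)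
    (Or.inl inferInstance) p
  obtain ⟨u, hu, hu1⟩ := (U : Subgroup K).bot_or_exists_ne_one.resolve_left
    (U.ne_bot_of_dvd_card hpK)
  have hUp := U.isPGroup'.map K.subtype
  have hu1' : (u : G) ≠ 1 := fun h1 => hu1 (Subtype.ext h1)
  have hup := MSS.isPGroup_iff_forall_mem.1 hUp u (mem_map_of_mem _ hu)
  obtain ⟨P, huP, hP⟩ := h.exists_sylow_inverted ht hup hu1'
    (hinv ht hUp (hU (mem_zpowers t)) u (mem_map_of_mem _ hu))
  have hc := comm_of_inverted hP
  set C := centralizer ({(u : G)} : Set G) with hC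
  have hPC : (P : Subgroup G) ≤ C := fun x hx => mem_centralizer_singleton_iff.2
    (congrArg Subtype.val (hc.1.1 ⟨x, hx⟩ ⟨u, huP⟩))
  have hdC : d ∈ C := mem_centralizer_singleton_iff.2 (mem_centralizer_singleton_iff.1 u.2).symm
  haveI : Group.IsSolvable C := S0205.result
    (Nat.odd_iff.2 (Nat.two_dvd_ne_zero.1 (h.symm.not_dvd Nat.prime_two hup hu1')))
  haveI : MulAction.IsPretransitive C Ω := ⟨fun a b => by
    obtain ⟨v, hv, h1⟩ := sylow_trans hΩ P a b
    exact ⟨⟨v, hPC hv⟩, h1⟩⟩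
  have hO : pPrimeCore p C = ⊥ := eq_bot_iff.2 fun n hn => Subtype.ext
    (FaithfulSMul.eq_of_smul_eq_smul (α := Ω) fun ω => by
      have h1 : pPrimeCore p C ≤ MulAction.stabilizer C ω := normal_le_of_coprime_index (by
        rw [MulAction.index_stabilizer_of_transitive, Nat.card_eq_fintype_card (α := Ω), hΩ]
        exact (coprime_card_pPrimeCore p C).pow_right r)
      exact (h1 hn).trans (one_smul G ω).symm)
  have h1 := IsPSolvable.centralizer_pCore_le (isPSolvable_of_isSolvable p C) hO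
  have h2 : pCore p C ≤ (P : Subgroup G).subgroupOf C := pCore_le_sylow (P.subtype hPC)
  have hdN : d ∈ normalizer ((P : Subgroup G) : Set G) := by
    refine MSS.mem_normalizer_of_cj_le (MSS.cj_le_iff_forall.2 fun x hx => ?_)
    have h3 : (⟨x, hPC hx⟩ : C) ∈ pCore p C := h1 fun y hy => Subtype.ext
      (show (y : G) * x = x * y from congrArg Subtype.val (hc.1.1 ⟨y, h2 hy⟩ ⟨x, hx⟩))
    exact h2 ((inferInstance : (pCore p C).Normal).conj_mem _ h3 ⟨d, hdC⟩)
  have htN : t ∈ normalizer ((P : Subgroup G) : Set G) :=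
    MSS.mem_normalizer_of_cj_le (MSS.cj_le_iff_forall.2 fun x hx => hP x hx ▸ inv_mem hx)
  have hsP := hinv hs P.isPGroup' (by simpa [hd] using mul_mem hdN (inv_mem htN))
  have hd1 : d = 1 := eq_one_of_fix hΩ P (fun x hx => by
    calc s * t * x = s * (t * x * t⁻¹) * s⁻¹ * (s * t) := by group
      _ = x * (s * t) := by rw [hP x hx, hsP _ (inv_mem hx), inv_inv]) hγ
  have h5 : s = t := mul_right_cancel (hd1.trans htt.symm)
  exact hne (fix_unique hΩ h h0 ht hα (h5 ▸ hβ))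

/-- Let p be an odd prime and G a finite group of even order divisible by p in which the centralizer of every non-identity p-element has odd order, and suppose G acts faithfully and transitively on a set with p ^ r elements, r ≥ 1. Then either G has an irreducible character of p-defect zero, or G is p-solvable and has an irreducible character of 2-defect zero. -/
theorem result {G Ω : Type*} [Group G] [Finite G] [MulAction G Ω] [FaithfulSMul G Ω] [Fintype Ω] (htr : MulAction.IsPretransitive G Ω) (p : ℕ) [Fact p.Prime] (hp2 : p ≠ 2) (hpG : p ∣ Nat.card G) (h2G : 2 ∣ Nat.card G) (hC : ∀ g : G, g ≠ 1 → (∃ k : ℕ, orderOf g = p ^ k) → Odd (Nat.card ↥(Subgroup.centralizer ({g} : Set G)))) (r : ℕ) (hr : 1 ≤ r) (hΩ : Fintype.card Ω = p ^ r) : (∃ χ : Cfsg.IrrCharacter G, (Cfsg.charDegree (χ : G → ℂ)).factorization p = (Nat.card G).factorization p) ∨ (Cfsg.IsPSolvable p G ∧ ∃ χ : Cfsg.IrrCharacter G, (Cfsg.charDegree (χ : G → ℂ)).factorization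 2 = (Nat.card G).factorization 2) := by
  by_contra hne
  rw [not_or] at hne
  obtain ⟨h0, hne⟩ := hne
  refine hne ?_
  have hp : p.Prime := Fact.out
  have h : NoPQ p 2 G := noPQ_of_not_dvd hp Nat.prime_two fun g hg hk =>
    Nat.two_dvd_ne_zero.2 (Nat.odd_iff.1 (hC g hg hk))
  have hp2' : ¬ 2 ∣ p := fun h2 => hp2 ((Nat.prime_dvd_prime_iff_eq Nat.prime_two hp).1 h2).symm
  obtain ⟨t, ht⟩ := exists_prime_orderOf_dvd_card' 2 h2G
  have htt := CL.Inv.mul_self_of_orderOf_two ht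
  obtain ⟨P, hP1, hP⟩ := h.exists_sylow_inverted_of_not_defZero h0 ht
  have htP : t ∉ (P : Subgroup G) := fun h1 => by
    have h2 := h t t (MSS.isPGroup_iff_forall_mem.1 P.isPGroup' t h1)
      ⟨1, by rw [pow_one, sq, htt]⟩ rfl
    rw [or_self] at h2
    exact CL.Inv.ne_one_of_orderOf_two ht h2
  have hw : ∀ w ∈ (P : Subgroup G), orderOf (w * t) = 2 := fun w hw =>
    CL.Inv.orderOf_eq_two_of (CL.Inv.mul_self_mul_of_inverts htt (hP w hw)) fun h1 =>
      htP (eq_inv_of_mul_eq_one_right h1 ▸ inv_mem hw)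
  have hfix : ∀ s : G, orderOf s = 2 → ∃ α : Ω, s • α = α := fun s hs => by
    have h1 : IsPGroup 2 (zpowers s) := IsPGroup.of_card (n := 1) (by rw [Nat.card_zpowers, hs]; rfl)
    obtain ⟨α, hα⟩ := h1.nonempty_fixed_point_of_prime_not_dvd_card Ω (by
      rw [Nat.card_eq_fintype_card, hΩ]
      exact fun h2 => hp2' (Nat.prime_two.dvd_of_dvd_pow h2))
    exact ⟨α, hα ⟨s, mem_zpowers s⟩⟩
  have hall : ∀ s : G, orderOf s = 2 → s * t ∈ (P : Subgroup G) := fun s hs => by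
    obtain ⟨α, hα⟩ := hfix s hs
    obtain ⟨w, hwP, hw1⟩ := sylow_trans hΩ P (t • α) α
    rw [← mul_smul] at hw1
    have h1 : s = w * t := FaithfulSMul.eq_of_smul_eq_smul (α := Ω) fun β => by
      obtain ⟨v, hvP, hv⟩ := sylow_trans hΩ P (t • β) (s • β)
      rw [← mul_smul] at hv
      obtain ⟨δ, hδ⟩ := hfix _ (hw v hvP)
      have h2 : δ = α := not_fix hΩ h h0 hs (hw v hvP) (γ := β) hδ hα (by
        rw [mul_smul, hv, ← mul_smul, CL.Inv.mul_self_of_orderOf_two hs, one_smul])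
      have h3 : w⁻¹ * v = 1 := eq_one_of_fix hΩ P (γ := t • α) (fun x hx => congrArg Subtype.val
        ((comm_of_inverted hP).1.1 ⟨_, mul_mem (inv_mem hwP) hvP⟩ ⟨x, hx⟩)) (by
          rw [mul_smul, ← mul_smul v, ← h2, hδ, h2, inv_smul_eq_iff, ← mul_smul, hw1])
      rw [← hv, inv_mul_eq_one.1 h3]
    rw [h1, mul_assoc, htt, mul_one]
    exact hwP
  haveI hN : (P : Subgroup G).Normal := ⟨fun x hx g => by
    have h1 := hall _ ((CL.Inv.orderOf_conj' g _).trans (hw x hx))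
    have h2 := hall _ ((CL.Inv.orderOf_conj' g _).trans ht)
    have h3 : g * x * g⁻¹ = g * (x * t) * g⁻¹ * t * (g * t * g⁻¹ * t)⁻¹ := by group
    rw [h3]
    exact mul_mem h1 (inv_mem h2)⟩
  refine ⟨IsPSolvable.of_normal_of_quotient (P : Subgroup G) (isPSolvable_of_isPGroup P.isPGroup')
    (isPSolvable_of_coprime ((Nat.Prime.coprime_iff_not_dvd hp).2 P.not_dvd_index).symm), ?_⟩
  refine h.symm.exists_defZero_of_normal hp P ?_ (P.dvd_card_of_dvd_card hpG)
  rw [P.card_eq_multiplicity]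
  exact fun h2 => hp2' (Nat.prime_two.dvd_of_dvd_pow h2)

end Cfsg.Agent.S4745
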