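import Cfsg.Statements.S4746
import Mathlib
import Cfsg.Agent.BLK.DZ

set_option autoImplicit false
open Cfsg

namespace Cfsg.Agent.S4746

open CL CL.Blk CL.Char MonoidAlgebra
open scoped CL.MSS
open scoped ComplexConjugate commutatorElement

/-- Let p be an odd prime and G a finite group of even order divisible by p in which the centralizer of every non-identity p-element has odd order. Then G has an irreducible character of p-defect zero or an irreducible character of even degree. -/
theorem result {G : Type*} [Group G] [Finite G] (p : ℕ) [Fact p.Prime] (hp2 : p ≠ 2) (hpG : p ∣ Nat.card G) (h2G : 2 ∣ Nat.card G) (hC : ∀ g : G, g ≠ 1 → (∃ k : ℕ, orderOf g = p ^ k) → Odd (Nat.card ↥(Subgroup.centralizer ({g} : Set G)))) : (∃ χ : Cfsg.IrrCharacter G, (Cfsg.charDegree (χ : G → ℂ)).factorization p = (Nat.card G).factorization p) ∨ ∃ χ : Cfsg.IrrCharacter G, Even (Cfsg.charDegree (χ : G → ℂ)) := by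
  refine or_iff_not_imp_left.2 fun h0 => ?_
  have hN := noPQ_of_not_dvd (Fact.out : p.Prime) Nat.prime_two
    fun g hg hk hd => Nat.not_even_iff_odd.2 (hC g hg hk) (even_iff_two_dvd.2 hd)
  have := Fact.mk Nat.prime_two
  obtain ⟨t, ht⟩ := exists_prime_orderOf_dvd_card' 2 h2G
  obtain ⟨P, hP, hs⟩ := hN.exists_sylow_inverted_of_not_defZero h0 ht
  obtain ⟨u, hu, hu1⟩ := (P : Subgroup G).bot_or_exists_ne_one.resolve_left hP
  exact exists_even_degree hu1 (isConj_iff.2 ⟨t, hs u hu⟩) (hN.symm.not_dvd Nat.prime_two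
    (CL.MSS.isPGroup_iff_forall_mem.1 P.isPGroup' u hu) hu1)

end Cfsg.Agent.S4746
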