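import Cfsg.Statements.S4748
import Mathlib
import Cfsg.Agent.BLK.TIDeg
import Cfsg.Agent.SOLV.PSolvable
import Cfsg.Agent.CHAR.Faithful

set_option autoImplicit false
open scoped Pointwise
open Cfsg

namespace Cfsg.Agent.S4748

open CL Cfsg Subgroup
open scoped commutatorElement

theorem aux {H : Type*} [Group H] [Finite H] {p : ℕ} [Fact p.Prime] (P : Sylow p H)
    (hTI : ∀ g : H, g ∉ normalizer ((P : Subgroup H) : Set H) →
      (P : Subgroup H) ⊓ (MulAut.conj g • (P : Subgroup H)) = ⊥) {χ : H → ℂ}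
    (hχ : IsCharacter H χ) (hfaith : ∀ g, χ g = χ 1 → g = 1)
    (hdeg : charDegree χ ^ 2 ≤ Nat.card (P : Subgroup H)) {z : H}
    (hz : z ∈ normalizer ((P : Subgroup H) : Set H))
    (hc : ∀ n ∈ normalizer ((P : Subgroup H) : Set H), n * z = z * n) (g : H) : ⁅z, g⁆ = 1 := by
  have := Fintype.ofFinite H
  have := Fintype.ofFinite (normalizer ((P : Subgroup H) : Set H))
  refine hfaith _ (hχ.mem_charKer.1 (hχ.mem_charKer_iff_constituents.2 fun ψ hψ h => ?_))
  have h1 := hχ.degree_le_of_inner_ne_zero hψ h hχ.apply_one_eq_charDegree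
    hψ.apply_one_eq_charDegree
  have h2 := Blk.inner_res_eq_of_TI P hTI hψ.isCharacter
    ((Nat.pow_le_pow_left h1 2).trans hdeg) le_rfl
  have h3 := Char.isIrrCharacter_iff.2 ⟨hψ.isCharacter.res _, h2.symm.trans hψ.inner_self⟩
  exact hψ.isClassFunction.commutator_mem_charKer (hψ.mem_charCenter.2 (h3.norm_of_mem_center
    (z := ⟨z, hz⟩) (mem_center_iff.2 fun n => Subtype.ext (hc n n.2)))) g

/-- Let G be a finite p-solvable group whose Sylow p-subgroup P meets each conjugate g P g⁻¹ with g outside N_G(P) trivially, and let χ be a faithful character of G (χ g = χ 1 only for g = 1) whose degree d satisfies d² ≤ |P|. Then P is normal in G. -/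
theorem result {G : Type*} [Group G] [Finite G] (p : ℕ) [Fact p.Prime] (hsolv : Cfsg.IsPSolvable p G) (P : Sylow p G) (hTI : ∀ g : G, g ∉ Subgroup.normalizer ((P : Subgroup G) : Set G) → (P : Subgroup G) ⊓ (MulAut.conj g • (P : Subgroup G)) = ⊥) (χ : G → ℂ) (hχ : Cfsg.IsCharacter G χ) (hfaith : ∀ g : G, χ g = χ 1 → g = 1) (hdeg : Cfsg.charDegree χ ^ 2 ≤ Nat.card ↥(P : Subgroup G)) : (P : Subgroup G).Normal := by
  have hTI' : ∀ g ∉ normalizer ((P : Subgroup G) : Set G), ∀ x ∈ (P : Subgroup G),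
      g⁻¹ * x * g ∈ (P : Subgroup G) → x = 1 := fun g hg x hx h =>
    mem_bot.1 ((hTI g hg).le (mem_inf.2 ⟨hx, mem_pointwise_smul_iff_inv_smul_mem.2
      (by simpa using h)⟩))
  by_cases h0 : pCore p G = ⊥
  swap
  · obtain ⟨⟨x, hx⟩, hx1⟩ := ne_bot_iff_exists_ne_one.1 h0
    refine normalizer_eq_top_iff.1 (eq_top_iff.2 fun g _ => by_contra fun hg => ?_)
    exact hx1 (Subtype.ext (hTI' g hg x (pCore_le_sylow P hx) (pCore_le_sylow P
      ((inferInstance : (pCore p G).Normal).conj_mem' x hx g))))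
  by_cases hP : (P : Subgroup G) = ⊥
  · rw [hP]; infer_instance
  have := (nontrivial_iff_ne_bot _).2 hP
  obtain ⟨⟨z, hz⟩, hz1⟩ := ne_bot_iff_exists_ne_one.1
    ((nontrivial_iff_ne_bot _).1 P.isPGroup'.center_nontrivial)
  have hd : pPrimeCore p G ⊓ P = ⊥ := inf_eq_bot_of_coprime
    (coprime_card_of_isPGroup_of_coprime P.isPGroup' (coprime_card_pPrimeCore p G)).symm
  have hle : (P : Subgroup G) ≤ pPrimeCore p G ⊔ P := le_sup_right
  have hN : ∀ n : ↥(pPrimeCore p G ⊔ P), n ∈ normalizer ((P.subtype hle :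
      Subgroup ↥(pPrimeCore p G ⊔ P)) : Set ↥(pPrimeCore p G ⊔ P)) ↔
      (n : G) ∈ normalizer ((P : Subgroup G) : Set G) := fun n => by
    rw [Sylow.coe_subtype, ← subgroupOf_normalizer_eq hle, mem_subgroupOf]
  refine absurd (Subtype.ext (Subtype.ext (mem_bot.1 (hd.le (mem_inf.2 ⟨IsPSolvable.centralizer_pPrimeCore_le hsolv
    h0 fun k hk => ?_, z.2⟩))))) hz1
  have h1 := aux (P.subtype hle) (fun g hg => eq_bot_iff.2 fun x hx => ?_) (hχ.res _)
    (fun g hg => Subtype.ext (hfaith _ hg)) (hdeg.trans_eq ?_) (z := ⟨z, hle z.2⟩)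
    ((hN _).2 (le_normalizer z.2)) (fun n hn => ?_) ⟨k, mem_sup_left hk⟩
  · exact (commutatorElement_eq_one_iff_mul_comm.1 (congrArg Subtype.val h1)).symm
  · have h2 := mem_pointwise_smul_iff_inv_smul_mem.1 hx.2
    exact Subtype.ext (hTI' g (mt (hN g).2 hg) x hx.1 (by simpa [mem_subgroupOf] using h2))
  · exact (Nat.card_congr (subgroupOfEquivOfLe hle).toEquiv).symm
  · obtain ⟨a, ha, b, hb, h⟩ := mem_sup_of_normal_left.1 n.2
    have h2 : a ∈ normalizer ((P : Subgroup G) : Set G) := by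
      rw [eq_mul_inv_of_mul_eq h]
      exact mul_mem ((hN n).1 hn) (inv_mem (le_normalizer hb))
    have h3 : a * z * a⁻¹ * (z : G)⁻¹ = 1 := mem_bot.1 (hd.le (mem_inf.2 ⟨by
      simpa [mul_assoc] using mul_mem ha ((inferInstance : (pPrimeCore p G).Normal).conj_mem _
        (inv_mem ha) z), mul_mem ((mem_normalizer_iff.1 h2 _).1 z.2) (inv_mem z.2)⟩))
    have h4 : b * z = z * b := congrArg Subtype.val (mem_center_iff.1 hz ⟨b, hb⟩)
    refine Subtype.ext (show (n : G) * z = z * n from ?_)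
    rw [← h, mul_assoc, h4, ← mul_assoc, ← mul_assoc, mul_inv_eq_iff_eq_mul.1 (mul_inv_eq_one.1 h3)]

end Cfsg.Agent.S4748
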