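import Cfsg.Statements.S4752
import Mathlib
import Cfsg.Agent.BLK.Ex3C

set_option autoImplicit false
open Cfsg

namespace Cfsg.Agent.S4752

/-- Let G be a finite group whose Sylow 3-subgroup P is extraspecial of order 27 and exponent 3, with N_G(P) ≤ C_G(Z(P)), and let M be a maximal ideal of the algebraic integers containing 3, B the principal 3-block of G, k its number of irreducible characters, k₀ the number of those of height zero, l its 3-regular rank (number of irreducible Brauer characters), and e the index of P·C_G(P) in N_G(P) (the order of the inertial quotient). Then e = 1 gives (k, k₀, l) = (11, 9, 1); e = 2 gives (10, 6, 2); e = 4 gives (14, 6, 4); e = 8 gives (16, 6, 5). -/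
theorem result {G : Type*} [Group G] [Finite G] (P : Sylow 3 G) (hE : Cfsg.IsExtraspecial 3 ↥(P : Subgroup G)) (h27 : Nat.card ↥(P : Subgroup G) = 27) (hexp : ∀ x ∈ (P : Subgroup G), x ^ 3 = 1) (hNC : ∀ g ∈ Subgroup.normalizer ((P : Subgroup G) : Set G), ∀ z ∈ (P : Subgroup G), (∀ y ∈ (P : Subgroup G), z * y = y * z) → g * z = z * g) (M : Ideal Cfsg.AlgInt) (hM : Cfsg.IsPModular 3 M) (k k₀ l e : ℕ) (hk : Nat.card ↥(Cfsg.principalBlock M G) = k) (hk₀ : Nat.card {χ : Cfsg.IrrCharacter G // χ ∈ Cfsg.principalBlock M G ∧ Cfsg.blockHeight 3 (Cfsg.principalBlock M G) (χ : G → ℂ) = 0} = k₀) (hl : Cfsg.blockRank 3 (Cfsg.principalBlock M G) = l) (he : ((P : Subgroup G) ⊔ Subgroup.centralizer ((P : Subgroup G) : Set G)).relIndex (Subgroup.normalizer ((P : Subgroup G) : Set G)) = e) : (e = 1 → k = 11 ∧ k₀ = 9 ∧ l = 1) ∧ (e = 2 → k = 10 ∧ k₀ = 6 ∧ l = 2) ∧ (e = 4 → k = 14 ∧ k₀ = 6 ∧ l = 4) ∧ (e = 8 → k = 16 ∧ k₀ = 6 ∧ l = 5) := by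
  obtain ⟨z, h⟩ := CL.Ex3.exists_ex P hE h27 hexp hNC
  obtain ⟨X, h1, h2, h3⟩ := h.exists_reps
  have r : CL.Ex3.Reps P z X := ⟨h1, h2⟩
  rw [he] at h3
  have key : 2 ∣ e → k + 2 * X.card = 18 ∧ k₀ = 6 ∧ l + X.card = 6 := fun h4 => by
    rw [← hk, ← hk₀, ← hl]
    exact h.even hM r (fun x hx => h.real (he ▸ h4) (h1 x hx))
      (Finset.card_pos.1 (Nat.pos_of_ne_zero fun c => by rw [c] at h3; omega))
  refine ⟨fun c => ?_, fun c => ?_, fun c => ?_, fun c => ?_⟩
  · rw [← hk, ← hk₀, ← hl]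
    exact h.one hM r (by rw [c] at h3; omega) (h.npc_of_one (he.trans c))
  all_goals
    have := key (by omega)
    rw [c] at h3
    omega

end Cfsg.Agent.S4752
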