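import Cfsg.Statements.S4754
import Mathlib
import Cfsg.Agent.CHAR.ClassMult

set_option autoImplicit false
open Cfsg

namespace Cfsg.Agent.S4754

open CL CL.Char MonoidAlgebra
open scoped ComplexConjugate commutatorElement

/-- For elements x, y of a finite group G, the conjugacy class of x y equals the set of all products of a conjugate of x with a conjugate of y if and only if χ(1) χ(a x a⁻¹ b y b⁻¹) = χ(x) χ(y) for all a, b ∈ G and every irreducible character χ. -/
theorem result {G : Type*} [Group G] [Finite G] (x y : G) : (∀ z : G, IsConj (x * y) z ↔ ∃ a b : G, z = a * x * a⁻¹ * (b * y * b⁻¹)) ↔ ∀ (a b : G) (χ : Cfsg.IrrCharacter G), (χ : G → ℂ) 1 * (χ : G → ℂ) (a * x * a⁻¹ * (b * y * b⁻¹)) = (χ : G → ℂ) x * (χ : G → ℂ) y := by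
  have := Fintype.ofFinite G
  constructor
  · intro h a b χ
    have h1 : ∀ a b : G, (χ : G → ℂ) (a * x * a⁻¹ * (b * y * b⁻¹)) = (χ : G → ℂ) (x * y) :=
      fun a b => (χ.2.isClassFunction.eq_of_isConj ((h _).2 ⟨a, b, rfl⟩)).symm
    have h2 := χ.2.sum_conj_mul x y
    have h3 : ∀ a : G, (χ : G → ℂ) (a * x * a⁻¹ * y) = (χ : G → ℂ) (x * y) := fun a => by
      simpa using h1 a 1
    simp only [h3, Finset.sum_const, Finset.card_univ, nsmul_eq_mul] at h2
    rw [h1]
    have h4 := χ.2.one_ne_zero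
    have h5 := card_ne_zero G
    rw [← Nat.card_eq_fintype_card] at h2
    field_simp at h2
    linear_combination h2
  · intro h z
    constructor
    · intro hz
      obtain ⟨c, rfl⟩ := isConj_iff.1 hz
      exact ⟨c, c, by group⟩
    · rintro ⟨a, b, rfl⟩
      refine isConj_of_irr_eq fun χ hχ => mul_left_cancel₀ hχ.one_ne_zero ?_
      have h1 := h 1 1 ⟨χ, hχ⟩
      simp only [one_mul, inv_one, mul_one] at h1
      exact h1.trans (h a b ⟨χ, hχ⟩).symm

end Cfsg.Agent.S4754
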