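import Cfsg.Statements.S4755
import Mathlib
import Cfsg.Agent.CHAR.ClassMult
import Cfsg.Agent.CHAR.Quot
import Cfsg.Agent.S4754

set_option autoImplicit false
open Cfsg

namespace Cfsg.Agent.S4755

open CL CL.Char MonoidAlgebra
open scoped ComplexConjugate commutatorElement

/-- Let x, y be non-identity elements of the finite group G such that χ(x' y') = χ(x') χ(y') for all conjugates x' of x, y' of y and every irreducible character χ. Then the conjugacy class of x y is the set of all products of a conjugate of x with a conjugate of y; every irreducible character of degree greater than 1 vanishes at x y; and the conjugacy class of x y is the coset of the commutator subgroup containing x y. -/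
theorem result {G : Type*} [Group G] [Finite G] (x y : G) (hx : x ≠ 1) (hy : y ≠ 1) (h : ∀ (a b : G) (χ : Cfsg.IrrCharacter G), (χ : G → ℂ) (a * x * a⁻¹ * (b * y * b⁻¹)) = (χ : G → ℂ) (a * x * a⁻¹) * (χ : G → ℂ) (b * y * b⁻¹)) : (∀ z : G, IsConj (x * y) z ↔ ∃ a b : G, z = a * x * a⁻¹ * (b * y * b⁻¹)) ∧ (∀ χ : Cfsg.IrrCharacter G, (χ : G → ℂ) 1 ≠ 1 → (χ : G → ℂ) (x * y) = 0) ∧ (∀ z : G, IsConj (x * y) z ↔ (x * y)⁻¹ * z ∈ commutator G) := by
  classical
  have := Fintype.ofFinite G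
  have h0 : ∀ (a b : G) (χ : IrrCharacter G), (χ : G → ℂ) (a * x * a⁻¹ * (b * y * b⁻¹)) =
      (χ : G → ℂ) x * (χ : G → ℂ) y := fun a b χ => by
    rw [h, χ.2.isClassFunction, χ.2.isClassFunction]
  have h1 : ∀ χ : IrrCharacter G, (χ : G → ℂ) 1 ≠ 1 → (χ : G → ℂ) x * (χ : G → ℂ) y = 0 := by
    intro χ hχ
    have h2 := χ.2.sum_conj_mul x y
    have h3 : ∀ a : G, (χ : G → ℂ) (a * x * a⁻¹ * y) = (χ : G → ℂ) x * (χ : G → ℂ) y :=
      fun a => by simpa using h0 a 1 χ
    simp only [h3, Finset.sum_const, Finset.card_univ, nsmul_eq_mul] at h2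
    have h4 := χ.2.one_ne_zero
    have h5 := card_ne_zero G
    rw [← Nat.card_eq_fintype_card, mul_assoc, eq_div_iff h4] at h2
    have h6 : (Nat.card G : ℂ) * ((χ : G → ℂ) x * (χ : G → ℂ) y) * ((χ : G → ℂ) 1 - 1) = 0 := by
      linear_combination h2
    exact (mul_eq_zero.1 ((mul_eq_zero.1 h6).resolve_right (sub_ne_zero.2 hχ))).resolve_left h5
  have h2 : ∀ χ : IrrCharacter G, (χ : G → ℂ) 1 ≠ 1 → (χ : G → ℂ) (x * y) = 0 := by
    intro χ hχ
    have h3 := h0 1 1 χ
    simp only [one_mul, inv_one, mul_one] at h3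
    rw [h3, h1 χ hχ]
  refine ⟨(Cfsg.Agent.S4754.result x y).2 fun a b χ => ?_, h2, fun z => ⟨fun hz => ?_, fun hz => ?_⟩⟩
  · by_cases hχ : (χ : G → ℂ) 1 = 1
    · rw [hχ, one_mul, h0]
    · rw [h0, h1 χ hχ, mul_zero]
  · obtain ⟨c, rfl⟩ := isConj_iff.1 hz
    have : (x * y)⁻¹ * (c * (x * y) * c⁻¹) = ⁅(x * y)⁻¹, c⁆ := by
      rw [commutatorElement_def]; group
    rw [this]
    exact Subgroup.commutator_mem_commutator (Subgroup.mem_top _) (Subgroup.mem_top _)
  · by_contra hc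
    have h3 := column_not_conj hc
    have h4 : ∀ χ : IrrCharacter G, (χ : G → ℂ) (x * y) * (starRingEnd ℂ) ((χ : G → ℂ) z) =
        (χ : G → ℂ) (x * y) * (starRingEnd ℂ) ((χ : G → ℂ) (x * y)) := by
      intro χ
      by_cases hχ : (χ : G → ℂ) 1 = 1
      · have h5 := χ.2.isCharacter.apply_mul_of_ker (χ.2.one_eq_one_iff_commutator.1 hχ _ hz) (x * y)
        rw [mul_inv_cancel_left] at h5
        rw [h5]
      · rw [h2 χ hχ, zero_mul, zero_mul]
    rw [Finset.sum_congr rfl fun χ _ => h4 χ, column_conj (IsConj.refl _)] at h3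
    exact card_ne_zero _ h3

end Cfsg.Agent.S4755
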