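import Cfsg.Statements.S4756
import Mathlib
import Cfsg.Agent.BLK.DefZero
import Cfsg.Agent.BLK.Reg
import Cfsg.Agent.BLK.Codeg
import Cfsg.Agent.INV.BlockAux
import Cfsg.Agent.SOLV.Frobenius
import Cfsg.Agent.SOLV.CoprimeSylow
import Cfsg.Agent.CHAR.Linear

set_option autoImplicit false
open Cfsg

namespace Cfsg.Agent.S4756

open CL CL.Char CL.Blk Cfsg Subgroup
open scoped ComplexConjugate

section
variable {G : Type*} [Group G] [Finite G]

open Classical in
theorem lin_sum (u : G) {d : G} (hd : d ∈ commutator G) :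
    ∑ χ : IrrCharacter G with χ.1 1 = 1, χ.1 (u * d) * conj (χ.1 u) = (commutator G).index := by
  rw [Finset.sum_congr rfl fun χ hχ => by
    rw [χ.2.isClassFunction.apply_mul_of_mem_charKer (χ.2.commutator_le_charKer_iff.2
      (Finset.mem_filter.1 hχ).2 hd), χ.2.isCharacter.mul_conj_of_apply_one
      (Finset.mem_filter.1 hχ).2], ← card_linear, Nat.card_eq_fintype_card, Fintype.card_subtype]
  simp

open Classical in
theorem card_cent (u : G) : (Nat.card (centralizer ({u} : Set G)) : ℝ) = (commutator G).index +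
    ∑ χ : IrrCharacter G with ¬ χ.1 1 = 1, ‖χ.1 u‖ ^ 2 := by
  rw [← sum_norm_sq_eq_card_centralizer, ← Finset.sum_filter_add_sum_filter_not _
    fun χ : IrrCharacter G => χ.1 1 = 1]
  have := lin_sum u (one_mem _)
  simp only [mul_one, Complex.mul_conj'] at this
  congr 1
  exact_mod_cast this

theorem isConj_of_van {u d : G} (h : ∀ χ : IrrCharacter G, χ.1 1 ≠ 1 → χ.1 u = 0)
    (hd : d ∈ commutator G) : IsConj (u * d) u := by
  classical
  by_contra hc
  have h1 := column_not_conj hc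
  rw [← Finset.sum_filter_add_sum_filter_not _ fun χ : IrrCharacter G => χ.1 1 = 1, lin_sum u hd,
    Finset.sum_eq_zero fun χ hχ => by rw [h χ (Finset.mem_filter.1 hχ).2, map_zero, mul_zero],
    add_zero] at h1
  exact FiniteIndex.index_ne_zero (Nat.cast_eq_zero.1 h1)

theorem van_of_inf {u : G} (h : centralizer {u} ⊓ commutator G = ⊥) (χ : IrrCharacter G)
    (hχ : χ.1 1 ≠ 1) : χ.1 u = 0 := by
  classical
  have h1 : Nat.card (centralizer ({u} : Set G)) ≤ (commutator G).index := by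
    rw [← relIndex_bot_left, ← h, inf_relIndex_left]
    exact Nat.le_of_dvd (Nat.pos_of_ne_zero FiniteIndex.index_ne_zero)
      (relIndex_dvd_index_of_normal _ _)
  have h2 := card_cent u
  have h3 : ∑ χ : IrrCharacter G with ¬ χ.1 1 = 1, ‖χ.1 u‖ ^ 2 = 0 :=
    le_antisymm (by have : _ ≤ ((commutator G).index : ℝ) := Nat.cast_le.2 h1; linarith)
      (Finset.sum_nonneg fun _ _ => sq_nonneg _)
  simpa using (Finset.sum_eq_zero_iff_of_nonneg fun _ _ => sq_nonneg _).1 h3 χ (by simpa using hχ)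

theorem inf_of_van {u : G} (h : ∀ χ : IrrCharacter G, χ.1 1 ≠ 1 → χ.1 u = 0)
    (hs : centralizer {u} ⊔ commutator G = ⊤) : centralizer {u} ⊓ commutator G = ⊥ := by
  classical
  have h1 := card_cent u
  rw [Finset.sum_eq_zero fun χ hχ => by rw [h χ (Finset.mem_filter.1 hχ).2]; simp, add_zero,
    ← relIndex_top_right, ← hs, relIndex_sup_right, ← inf_relIndex_left, Nat.cast_inj] at h1
  have h2 := relIndex_mul_relIndex ⊥ _ _ bot_le
    (inf_le_left : centralizer {u} ⊓ commutator G ≤ centralizer {u})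
  rw [← h1, relIndex_bot_left, relIndex_bot_left] at h2
  exact card_eq_one.1 (Nat.eq_of_mul_eq_mul_right Nat.card_pos (h2.trans (one_mul _).symm))

theorem exists_prime_of_hyp (h : ∀ (x y : G) (χ : IrrCharacter G), x ≠ 1 → y ≠ 1 →
    (∃ p q a b : ℕ, p.Prime ∧ q.Prime ∧ p ≠ q ∧ orderOf x = p ^ a ∧ orderOf y = q ^ b) →
      χ.1 (x * y) = χ.1 x * χ.1 y) (χ : IrrCharacter G) (hχ : χ.1 1 ≠ 1) :
    ∃ p : ℕ, p.Prime ∧ ∀ q : ℕ, q.Prime → q ≠ p →
      q ^ (Nat.card G).factorization q ∣ charDegree χ.1 := by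
  classical
  have := Fintype.ofFinite G
  suffices ∃ p : ℕ, p.Prime ∧ ∀ q b : ℕ, q.Prime → q ≠ p → ∀ y : G, y ≠ 1 → orderOf y = q ^ b →
      χ.1 y = 0 by
    obtain ⟨p, hp, h1⟩ := this
    refine ⟨p, hp, fun q hq hqp => ?_⟩
    have := Fact.mk hq
    let Q : Sylow q G := default
    obtain ⟨k, hk⟩ := card_dvd_degree_of_vanish χ.2.isCharacter.isGen Q fun y hy hy1 => by
      obtain ⟨b, hb⟩ := IsPGroup.iff_orderOf.1 Q.isPGroup' ⟨y, hy⟩
      exact h1 q b hq hqp y hy1 ((orderOf_coe _).trans hb)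
    rw [χ.2.apply_one_eq_charDegree, Q.card_eq_multiplicity] at hk
    exact Int.natCast_dvd_natCast.1 ⟨k, by exact_mod_cast hk⟩
  by_cases h0 : ∃ p a : ℕ, p.Prime ∧ ∃ x : G, x ≠ 1 ∧ orderOf x = p ^ a ∧ χ.1 x ≠ 0
  swap
  · exact ⟨2, Nat.prime_two, fun q b hq _ y h1 h2 => by_contra fun h3 =>
      h0 ⟨q, b, hq, y, h1, h2, h3⟩⟩
  obtain ⟨p, a, hp, x, hx1, hx, hx0⟩ := h0
  refine ⟨p, hp, fun q b hq hqp y hy1 hy => ?_⟩
  have h1 := χ.2.sum_mul_apply_mul (isClassFunction_indicator y) x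
  have h2 : ∀ g, (if IsConj y g then (1 : ℂ) else 0) * χ.1 (g * x) =
      (if IsConj y g then (1 : ℂ) else 0) * χ.1 g * χ.1 x := fun g => by
    split_ifs with hg
    · rw [h g x χ (fun h => hy1 (by simpa [h] using hg)) hx1
        ⟨q, p, b, a, hq, hp, hqp, hg.orderOf_eq'.symm.trans hy, hx⟩, mul_assoc]
    · simp
  simp only [h2, ← Finset.sum_mul] at h1
  have h3 := (mul_left_eq_self₀.1 h1).resolve_left hχ
  simp only [ite_mul, one_mul, zero_mul, sum_ite_isConj χ.2.isClassFunction, mul_eq_zero, hx0,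
    or_false, Nat.cast_eq_zero] at h3
  exact h3.resolve_left (@Nat.card_pos _ ⟨⟨y, IsConj.refl y⟩⟩ _).ne'

theorem prime_dvd_of_order {x : G} (hx : x ≠ 1) {p a : ℕ} (h : orderOf x = p ^ a) :
    p ∣ orderOf x :=
  h ▸ dvd_pow_self p fun h0 => hx (orderOf_eq_one_iff.1 (by rw [h, h0, pow_zero]))

end

/-- For a finite group G the following are equivalent. (1) χ(x y) = χ(x) χ(y) for every irreducible character χ and all non-identity elements x, y of prime power orders for two different primes. (2) G is a p-group for some prime p, or G is abelian, or for some prime p: G = A P with P a normal Sylow p-subgroup and A a nontrivial cyclic subgroup of order prime to p such that, with C = C_P(A) and D = [A, P], one has P = C D, C abelian, D normal in G, C ∩ D = 1, and A acts fixed-point-freely on D (no non-identity element of A centralizes a non-identity element of D). -/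
theorem result {G : Type*} [Group G] [Finite G] : (∀ (x y : G) (χ : Cfsg.IrrCharacter G), x ≠ 1 → y ≠ 1 → (∃ p q a b : ℕ, p.Prime ∧ q.Prime ∧ p ≠ q ∧ orderOf x = p ^ a ∧ orderOf y = q ^ b) → (χ : G → ℂ) (x * y) = (χ : G → ℂ) x * (χ : G → ℂ) y) ↔ ((∃ p : ℕ, p.Prime ∧ IsPGroup p G) ∨ IsMulCommutative G ∨ ∃ (p : ℕ) (_ : Fact p.Prime) (P : Sylow p G) (A : Subgroup G), (P : Subgroup G).Normal ∧ IsCyclic ↥A ∧ A ≠ ⊥ ∧ (Nat.card ↥A).Coprime p ∧ A ⊔ (P : Subgroup G) = ⊤ ∧ IsMulCommutative ↥((P : Subgroup G) ⊓ Subgroup.centralizer (A : Set G)) ∧ (⁅A, (P : Subgroup G)⁆).Normal ∧ ((P : Subgroup G) ⊓ Subgroup.centralizer (A : Set G)) ⊔ ⁅A, (P : Subgroup G)⁆ = (P : Subgroup G) ∧ ((P : Subgroup G) ⊓ Subgroup.centralizer (A : Set G)) ⊓ ⁅A, (P : Subgroup G)⁆ = ⊥ ∧ ∀ a ∈ A, a ≠ 1 → ∀ d ∈ ⁅A, (P : Subgroup G)⁆, a * d = d * a → d = 1) := by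
  classical
  refine ⟨fun h => ?_, ?_⟩
  · refine or_iff_not_imp_left.2 fun h1 => or_iff_not_imp_left.2 fun h2 => ?_
    have hc : commutator G ≠ ⊥ := fun h => h2 ⟨⟨fun a b => commutatorElement_eq_one_iff_mul_comm.1
      (mem_bot.1 (h.le (commutator_mem_commutator (mem_top a) (mem_top b))))⟩⟩
    obtain ⟨⟨d, hd⟩, hd1⟩ := ne_bot_iff_exists_ne_one.1 hc
    obtain ⟨χ, hχ, hk⟩ := exists_irr_not_mem_charKer fun h => hd1 (Subtype.ext h)
    obtain ⟨p, hp, h3⟩ := exists_prime_of_hyp h ⟨χ, hχ⟩ fun h =>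
      hk (hχ.commutator_le_charKer_iff.2 h hd)
    have h4 : ∀ ψ : IrrCharacter G, ψ.1 1 ≠ 1 → ∀ q : ℕ, q.Prime → q ≠ p →
        q ^ (Nat.card G).factorization q ∣ charDegree ψ.1 := fun ψ hψ => by
      obtain ⟨r, hr, h5⟩ := exists_prime_of_hyp h ψ hψ
      by_cases hrp : r = p
      · exact hrp ▸ h5
      have h6 : Nat.card G ∣ charDegree χ * charDegree ψ.1 :=
        (Nat.dvd_iff_prime_pow_dvd_dvd _ _).2 fun q k hq hk => by
          refine (pow_dvd_pow q ((hq.pow_dvd_iff_le_factorization Nat.card_pos.ne').1 hk)).trans ?_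
          by_cases hqp : q = p
          · exact (h5 q hq (hqp ▸ Ne.symm hrp)).mul_left _
          · exact (h3 q hq hqp).mul_right _
      have h7 := charDegree_sq_lt_card hχ fun h =>
        hk (hχ.commutator_le_charKer_iff.2 (hχ.isCharacter.charDegree_eq_one_iff.1 h) hd)
      have h8 := charDegree_sq_lt_card ψ.2 (mt ψ.2.isCharacter.charDegree_eq_one_iff.1 hψ)
      have h9 := Nat.le_of_dvd (Nat.mul_pos hχ.charDegree_pos ψ.2.charDegree_pos) h6
      nlinarith [sq_nonneg ((charDegree χ : ℤ) - charDegree ψ.1)]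
    have h5 : ∀ g : G, (¬ ∃ k, orderOf g = p ^ k) → ∀ ψ : IrrCharacter G, ψ.1 1 ≠ 1 → ψ.1 g = 0 :=
      fun g hg ψ hψ => by
        obtain ⟨q, hq, hd, hqp⟩ : ∃ q : ℕ, q.Prime ∧ q ∣ orderOf g ∧ q ≠ p := by
          by_contra! h
          exact hg ⟨_, Nat.eq_prime_pow_of_unique_prime_dvd (orderOf_pos g).ne' fun hq hd =>
            h _ hq hd⟩
        obtain ⟨M, hM⟩ := BS.exists_isPModular q hq
        exact ((defZero_iff_pow_dvd hq).2 (h4 ψ hψ q hq hqp)).vanish hM hd
    have := Fact.mk hp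
    have h6 : IsPGroup p (commutator G) := IsPGroup.iff_orderOf.2 fun g => by_contra fun hg => by
      have h7 := isConj_of_van (h5 g fun h => hg (by simpa using h)) (inv_mem g.2)
      rw [mul_inv_cancel, isConj_one_right] at h7
      exact hg ⟨0, by rw [pow_zero, orderOf_eq_one_iff]; exact Subtype.ext h7⟩
    let P : Sylow p G := default
    have h7 : commutator G ≤ P := h6.le_sylow_of_normal P
    have hP : (P : Subgroup G).Normal := Normal.of_commutator_le _ h7
    obtain ⟨A, hA⟩ := exists_right_complement'_of_coprime P.card_coprime_index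
    have hA1 : (Nat.card A).Coprime (Nat.card P) := hA.symm.index_eq_card ▸ P.card_coprime_index.symm
    have hA3 : (Nat.card A).Coprime p :=
      hA.symm.index_eq_card ▸ (hp.coprime_iff_not_dvd.2 P.not_dvd_index).symm
    have hA2 : A ≠ ⊥ := fun h => h1 ⟨p, hp, P.isPGroup'.of_equiv
      ((MulEquiv.subgroupCongr (by simpa [h] using hA.sup_eq_top)).trans topEquiv)⟩
    have hcomm : ∀ K : Subgroup G, K ⊓ commutator G = ⊥ → IsMulCommutative K := fun K hK =>
      ⟨⟨fun a b => Subtype.ext (commutatorElement_eq_one_iff_mul_comm.1 (mem_bot.1 (hK.le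
        ⟨(a * b * a⁻¹ * b⁻¹).2, commutator_mem_commutator (mem_top _) (mem_top _)⟩)))⟩⟩
    have := hcomm A (eq_bot_iff.2 ((inf_le_inf_left _ h7).trans hA.disjoint.symm.le_bot))
    have hD : ⁅A, (P : Subgroup G)⁆ ≤ commutator G := commutator_mono le_top le_top
    have h8 := coprime_eq_centralizer_sup_of_commutator_le A P ⁅A, (P : Subgroup G)⁆
      (commutator_le_right _ _) (normalizer_commutator_ge_left _ _)
      (hA1.coprime_dvd_right (card_dvd_of_le (commutator_le_right _ _))) (Or.inl (Group.isSolvable_of_comm this.is_comm.comm))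
      (commutator_comm _ _).le
    have h9 : ∀ a ∈ A, a ≠ 1 → centralizer {a} ⊓ commutator G = ⊥ := fun a ha ha1 => by
      refine inf_of_van (h5 a fun ⟨k, hk⟩ => ha1 (orderOf_eq_one_iff.1 ?_)) ?_
      · exact (hk ▸ hA3.symm.pow_left k).eq_one_of_dvd (A.orderOf_dvd_natCard ha)
      · rw [eq_top_iff, ← hA.sup_eq_top, ← h8]
        exact sup_le (sup_le (le_sup_of_le_left (inf_le_right.trans (centralizer_le
          (Set.singleton_subset_iff.2 ha)))) (le_sup_of_le_right hD)) (le_sup_of_le_left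
          ((le_centralizer A).trans (centralizer_le (Set.singleton_subset_iff.2 ha))))
    obtain ⟨⟨a, ha⟩, ha1⟩ := ne_bot_iff_exists_ne_one.1 hA2
    have h10 : (P : Subgroup G) ⊓ centralizer A ⊓ commutator G = ⊥ := eq_bot_iff.2 ((inf_le_inf_right _
      (inf_le_right.trans (centralizer_le (Set.singleton_subset_iff.2 ha)))).trans
        (h9 a ha fun h => ha1 (Subtype.ext h)).le)
    exact ⟨p, inferInstance, P, A, hP, Frob.isCyclic_of_comm hc le_normalizer_of_normal
      fun a ha h => (inf_comm _ _).trans (h9 a ha h), hA2, hA3, (sup_comm _ _).trans hA.sup_eq_top,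
      hcomm _ h10, normalizer_eq_top_iff.1 (eq_top_iff.2 (hA.sup_eq_top.ge.trans (sup_le
      (normalizer_commutator_ge_right _ _) (normalizer_commutator_ge_left _ _)))), h8,
      eq_bot_iff.2 ((inf_le_inf_left _ hD).trans h10.le), fun a ha h d hd h' => mem_bot.1
      ((h9 a ha h).le ⟨mem_centralizer_singleton_iff.2 h'.symm, hD hd⟩)⟩
  rintro (⟨r, hr, h⟩ | h | ⟨r, _, P, A, hP, h1, -, h2, h3, h4, h5, h6, -, h7⟩) x y χ hx hy
    ⟨p, q, a, b, hp, hq, hpq, ha, hb⟩
  · have := Fact.mk hr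
    have h1 : ∀ {z : G} {s : ℕ}, s.Prime → s ∣ orderOf z → s = r := fun {z s} hs hd => by
      obtain ⟨k, hk⟩ := IsPGroup.iff_orderOf.1 h z
      exact (Nat.prime_dvd_prime_iff_eq hs hr).1 (hs.dvd_of_dvd_pow (hk ▸ hd))
    exact absurd ((h1 hp (prime_dvd_of_order hx ha)).trans
      (h1 hq (prime_dvd_of_order hy hb)).symm) hpq
  · obtain ⟨l, hl⟩ := χ.2.exists_hom_of_comm h.is_comm.comm
    simp [hl]
  by_cases hχ : χ.1 1 = 1
  · obtain ⟨l, hl⟩ := (linearEquivHom G).surjective ⟨χ, hχ⟩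
    obtain rfl : irrOfHom l = χ := congrArg Subtype.val hl
    simp [irrOfHom_apply]
  have hCA : (P : Subgroup G) ⊓ centralizer A ≤ centralizer (A : Set G) := inf_le_right
  have h8 : IsMulCommutative ↥(A ⊔ P ⊓ centralizer A) := le_centralizer_iff_isMulCommutative.1
    (sup_le (le_centralizer_iff.1 (sup_le (le_centralizer A) hCA)) (le_centralizer_iff.1
      (sup_le (le_centralizer_iff.1 hCA) (le_centralizer _))))
  have h9 : ⁅A, (P : Subgroup G)⁆ ⊔ (A ⊔ P ⊓ centralizer A) = ⊤ := by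
    rw [sup_comm, sup_assoc, h6, h3]
  have h10 := Normal.commutator_le_of_self_sup_commutative_eq_top h9 h8
  obtain ⟨n, hn⟩ := IsPGroup.iff_card.1 P.isPGroup'
  have h11 : ∀ g ∉ (P : Subgroup G), χ.1 g = 0 := fun g hg => by
    obtain ⟨u, hu, d, hd, rfl⟩ := mem_sup_of_normal_right.1
      (((sup_comm _ _).trans h9).ge (mem_top g))
    have hu' : u ∈ (P : Subgroup G) ⊓ centralizer A ⊔ A := sup_comm A _ ▸ hu
    obtain ⟨c, hc, e, he, rfl⟩ : ∃ c ∈ (P : Subgroup G) ⊓ centralizer A, ∃ e ∈ A, c * e = u := by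
      rw [← SetLike.mem_coe, coe_mul_of_right_le_normalizer_left _ _ ((le_centralizer_iff.1
        hCA).trans (centralizer_le_normalizer _))] at hu'
      exact hu'
    have h12 : (c * e) ^ Nat.card P = e ^ Nat.card P := by
      rw [(Commute.symm (hc.2 e he)).mul_pow, orderOf_dvd_iff_pow_eq_one.1
        (orderOf_dvd_natCard _ hc.1), one_mul]
    have h13 : e ^ Nat.card P ≠ 1 := fun h => hg (mul_mem (mul_mem hc.1 (by
      rw [orderOf_eq_one_iff.1 (Nat.eq_one_of_dvd_coprimes (hn ▸ h2.pow_right n)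
        (A.orderOf_dvd_natCard he) (orderOf_dvd_of_pow_eq_one h))]
      exact one_mem _)) (commutator_le_right _ _ hd))
    have h14 := van_of_inf (u := c * e) (eq_bot_iff.2 fun z hz => h7 _ (pow_mem he _) h13 z
      (h10 hz.2) (h12 ▸ (Commute.pow_right (mem_centralizer_singleton_iff.1 hz.1) _).symm))
    rw [χ.2.isClassFunction.eq_of_isConj (isConj_of_van h14 (commutator_mono le_top le_top hd)),
      h14 χ hχ]
  have h12 : ∀ {z : G} {s k : ℕ}, z ≠ 1 → s.Prime → orderOf z = s ^ k → z ∈ (P : Subgroup G) →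
      s = r := fun hz hs hk h => (Nat.prime_dvd_prime_iff_eq hs Fact.out).1 (hs.dvd_of_dvd_pow
        (hn ▸ (prime_dvd_of_order hz hk).trans (orderOf_dvd_natCard _ h)))
  have h13 : ¬ (x ∈ (P : Subgroup G) ∧ y ∈ (P : Subgroup G)) := fun h =>
    hpq ((h12 hx hp ha h.1).trans (h12 hy hq hb h.2).symm)
  rw [h11 _ fun h => h13 ?_, eq_comm, mul_eq_zero]
  · exact (not_and_or.1 h13).imp (h11 x) (h11 y)
  have h14 : (x : G ⧸ (P : Subgroup G)) = (y : G ⧸ (P : Subgroup G))⁻¹ :=
    eq_inv_of_mul_eq_one_left ((QuotientGroup.eq_one_iff _).2 h)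
  have h15 : (x : G ⧸ (P : Subgroup G)) = 1 := orderOf_eq_one_iff.1 (Nat.eq_one_of_dvd_coprimes
    (Nat.coprime_pow_primes a b hp hq hpq) (ha ▸ orderOf_map_dvd (QuotientGroup.mk' _) x)
    (by rw [h14, orderOf_inv, ← hb]; exact orderOf_map_dvd (QuotientGroup.mk' _) y))
  exact ⟨(QuotientGroup.eq_one_iff _).1 h15, (QuotientGroup.eq_one_iff _).1
    (inv_eq_one.1 (h14.symm.trans h15))⟩

end Cfsg.Agent.S4756
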