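import Cfsg.Statements.S4757
import Mathlib
import Cfsg.Agent.CHAR.Values
import Cfsg.Agent.CHAR.Linear
import Cfsg.Agent.SOLV.Core

set_option autoImplicit false
open Cfsg

namespace Cfsg.Agent.S4757

open CL CL.Char Cfsg Subgroup
open scoped ComplexOrder

/-- Let u ≠ 1 be an element of the finite group G and c a complex number such that every non-principal irreducible character χ satisfies χ(1) − χ(u) = c or χ(u) = 0. Then the following are equivalent: (a) u has order 2, G is generated by u together with O(G), the largest normal subgroup of G of odd order, and the centralizer of u is {1, u}; (b) G is not perfect; (c) c = 2. -/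
theorem result {G : Type*} [Group G] [Finite G] (u : G) (hu : u ≠ 1) (c : ℂ) (hyp : ∀ χ : Cfsg.IrrCharacter G, (χ : G → ℂ) ≠ (fun _ => (1 : ℂ)) → ((χ : G → ℂ) 1 - (χ : G → ℂ) u = c ∨ (χ : G → ℂ) u = 0)) : ((orderOf u = 2 ∧ Subgroup.zpowers u ⊔ Cfsg.oddCore G = ⊤ ∧ Subgroup.centralizer ({u} : Set G) = Subgroup.zpowers u) ↔ commutator G ≠ ⊤) ∧ (commutator G ≠ ⊤ ↔ c = 2) := by
  classical
  have := Fintype.ofFinite (IrrCharacter G)
  have hs : ∑ χ : IrrCharacter G, χ.1 1 * χ.1 u = 0 := by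
    convert (sum_degree_mul u).trans (if_neg hu)
  have hne : ∀ χ : IrrCharacter G, χ ≠ irrOne G → χ.1 ≠ fun _ => 1 := fun χ h =>
    mt eq_irrOne_iff.2 h
  rw [← Finset.add_sum_erase _ _ (Finset.mem_univ (irrOne G)), irrOne_apply, irrOne_apply,
    one_mul] at hs
  have hpos : ∀ χ : IrrCharacter G, χ ≠ irrOne G → c = 0 ∨ (c = 2 ∧ χ.1 1 ≠ 1) →
      0 ≤ χ.1 1 * χ.1 u := fun χ h hc => by
    rcases hyp χ (hne χ h) with h1 | h1
    swap
    · rw [h1, mul_zero]
    have h2 := χ.2.charDegree_pos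
    rw [← sub_sub_cancel (χ.1 1) (χ.1 u), h1, χ.2.apply_one_eq_charDegree]
    rcases hc with rfl | ⟨rfl, h3⟩
    · rw [sub_zero]; positivity
    · rw [Ne, ← χ.2.isCharacter.charDegree_eq_one_iff] at h3
      refine mul_nonneg (by positivity) (sub_nonneg.2 ?_)
      exact_mod_cast (by omega : 2 ≤ charDegree χ.1)
  have hcon : (∀ χ : IrrCharacter G, χ ≠ irrOne G → c = 0 ∨ (c = 2 ∧ χ.1 1 ≠ 1)) → False :=
    fun h => (add_pos_of_pos_of_nonneg one_pos (Finset.sum_nonneg fun χ hχ =>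
      hpos χ (Finset.ne_of_mem_erase hχ) (h χ (Finset.ne_of_mem_erase hχ)))).ne' hs
  have h1 : ∀ lam : G →* ℂˣ, lam ≠ 1 → irrOfHom lam ≠ irrOne G := fun lam h h' =>
    h (hom_coe_eq_one_iff.1 (eq_irrOne_iff.1 h'))
  have h2 : ∀ lam : G →* ℂˣ, lam ≠ 1 → 1 - (lam u : ℂ) = c := fun lam h => by
    simpa [irrOfHom_apply] using hyp _ (hne _ (h1 lam h))
  have h3 : ∀ lam : G →* ℂˣ, lam ≠ 1 → (lam u : ℂ) = -1 := fun lam h => by
    have h4 := sub_right_injective ((h2 lam h).trans (h2 lam⁻¹ fun h' => h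
      (MonoidHom.ext fun g => inv_eq_one.1 (DFunLike.congr_fun h' g))).symm)
    have h5 : (lam u : ℂ) * lam u = 1 := by
      nth_rewrite 1 [h4]; simp
    refine (mul_self_eq_one_iff.1 h5).resolve_left fun h6 => hcon fun _ _ => Or.inl ?_
    rw [← h2 lam h, h6, sub_self]
  have hbc : commutator G ≠ ⊤ → ∃ lam : G →* ℂˣ, lam ≠ 1 ∧ c = 2 := fun h => by
    obtain ⟨lam, hl⟩ := not_forall.1 (mt commutator_eq_top_iff_hom.2 h)
    exact ⟨lam, hl, by rw [← h2 lam hl, h3 lam hl]; norm_num⟩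
  refine ⟨⟨fun ⟨a1, a2, _⟩ h => ?_, fun h => ?_⟩, fun h => (hbc h).choose_spec.2,
    fun hc h => hcon fun χ hχ => Or.inr ⟨hc, fun h4 => hne χ hχ (χ.2.charKer_eq_top_iff.1
      (eq_top_iff.2 (h.ge.trans (χ.2.commutator_le_charKer_iff.2 h4))))⟩⟩
  · have h4 := Normal.commutator_le_of_self_sup_commutative_eq_top ((sup_comm _ _).trans a2)
      inferInstance
    have h5 := pPrimeCore_eq_top_iff.1 (eq_top_iff.2 (h.ge.trans h4))
    exact absurd (Nat.Coprime.coprime_dvd_left (a1 ▸ orderOf_dvd_natCard u) h5) (by decide)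
  obtain ⟨lam, hl, hc⟩ := hbc h
  have h4 : ∀ mu : G →* ℂˣ, mu ≠ 1 → mu = lam := fun mu hm => by_contra fun h5 => by
    have h6 := h3 (mu * lam⁻¹) fun h => h5 (mul_inv_eq_one.1 h)
    rw [MonoidHom.mul_apply, MonoidHom.inv_apply, Units.val_mul, Units.val_inv_eq_inv_val,
      h3 mu hm, h3 lam hl] at h6
    norm_num at h6
  have hm : irrOfHom lam ∈ Finset.univ.erase (irrOne G) := by simpa using h1 lam hl
  have h5 : ∀ χ ∈ (Finset.univ.erase (irrOne G)).erase (irrOfHom lam), χ.1 u = 0 := by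
    rw [← Finset.add_sum_erase _ _ hm, irrOfHom_apply, irrOfHom_apply, h3 lam hl, map_one,
      Units.val_one, one_mul, add_neg_cancel_left] at hs
    refine fun χ hχ => (mul_eq_zero.1 ((Finset.sum_eq_zero_iff_of_nonneg fun χ hχ => ?_).1 hs χ
      hχ)).resolve_left
        (by rw [χ.2.apply_one_eq_charDegree]; exact_mod_cast χ.2.charDegree_pos.ne')
    have h6 := Finset.ne_of_mem_erase (Finset.mem_of_mem_erase hχ)
    refine hpos χ h6 (Or.inr ⟨hc, fun h7 => Finset.ne_of_mem_erase hχ ?_⟩)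
    obtain ⟨mu, hmu⟩ := (linearEquivHom G).surjective ⟨χ, h7⟩
    obtain rfl : irrOfHom mu = χ := congrArg Subtype.val hmu
    rw [h4 mu fun h => h6 (by rw [h]; rfl)]
  have h6 : Nat.card (centralizer ({u} : Set G)) = 2 := by
    have h7 : ∑ χ : IrrCharacter G, ‖χ.1 u‖ ^ 2 = Nat.card (centralizer ({u} : Set G)) := by
      convert sum_norm_sq_eq_card_centralizer u
    rw [← Finset.add_sum_erase _ _ (Finset.mem_univ (irrOne G)), ← Finset.add_sum_erase _ _ hm,
      Finset.sum_eq_zero fun χ hχ => by rw [h5 χ hχ, norm_zero, zero_pow two_ne_zero],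
      irrOne_apply, irrOfHom_apply, h3 lam hl] at h7
    norm_num at h7
    exact_mod_cast h7.symm
  have h7 : zpowers u ≤ centralizer {u} := zpowers_le.2 (mem_centralizer_singleton_iff.2 rfl)
  have h8 : orderOf u = 2 := ((Nat.dvd_prime Nat.prime_two).1
    (Nat.card_zpowers u ▸ h6 ▸ card_dvd_of_le h7)).resolve_left (mt orderOf_eq_one_iff.1 hu)
  have h9 := (eq_of_le_of_card_ge h7 (by rw [h6, Nat.card_zpowers, h8])).symm
  have h10 : (commutator G).index = 2 := card_hom.symm.trans (Nat.card_eq_two_iff.2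
    ⟨1, lam, hl.symm, Set.eq_univ_of_forall fun mu => or_iff_not_imp_left.2 (h4 mu)⟩)
  have h11 : u ∉ commutator G := fun h => by
    have := h3 lam hl
    rw [hom_apply_of_mem_commutator lam h] at this
    norm_num at this
  have h12 : commutator G ≤ oddCore G := le_pPrimeCore (Nat.coprime_two_right.2
    (MonoidHom.FixedPointFree.odd_card_of_involutive (φ := MulAut.conjNormal u)
      (fun x hx => ?_) fun x => ?_))
  · refine ⟨h8, eq_top_iff.2 fun g _ => ?_, h9⟩
    by_cases hg : g ∈ commutator G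
    · exact mem_sup_right (h12 hg)
    · exact mul_inv_cancel_left u g ▸ mul_mem_sup (mem_zpowers u) (h12
        ((mul_mem_iff_of_index_two h10).2 (by simp [hg, h11])))
  · have h13 : (x : G) ∈ zpowers u := h9 ▸ mem_centralizer_singleton_iff.2
      (mul_inv_eq_iff_eq_mul.1 (congrArg Subtype.val hx)).symm
    rw [mem_zpowers_iff_mem_range_orderOf, h8] at h13
    obtain ⟨i, hi, h14⟩ := Finset.mem_image.1 h13
    obtain rfl | rfl : i = 0 ∨ i = 1 := by have := Finset.mem_range.1 hi; omega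
    · exact Subtype.ext (by simpa using h14.symm)
    · exact absurd (by simpa [← h14] using x.2) h11
  · rw [← MulAut.mul_apply, ← map_mul, ← sq, ← h8, pow_orderOf_eq_one, map_one, MulAut.one_apply]

end Cfsg.Agent.S4757
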