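import Cfsg.Statements.S4758
import Mathlib
import Cfsg.Agent.BLK.Diff4
import Cfsg.Agent.S3378
import Cfsg.Agent.S0253
import Cfsg.Agent.INV.SmallBasic
import Cfsg.Agent.FGS.RealSolv

set_option autoImplicit false
open Cfsg

namespace Cfsg.Agent.S4758

open CL CL.Blk CL.Char MonoidAlgebra Subgroup
open scoped ComplexConjugate commutatorElement

theorem a5_four : ∀ x : alternatingGroup (Fin 5), x ^ 4 = 1 → x * x = 1 := by decide +kernel

theorem conj_card {G : Type*} [Group G] [Finite G] {u g : G} (h : IsConj u g) :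
    Nat.card (centralizer ({g} : Set G)) = Nat.card (centralizer ({u} : Set G)) := by
  have h1 := card_conj_mul_card_centralizer u
  have h2 := card_conj_mul_card_centralizer g
  have h3 : Nat.card {x : G // IsConj g x} = Nat.card {x : G // IsConj u x} :=
    Nat.card_congr (Equiv.subtypeEquivRight fun x => ⟨h.trans, h.symm.trans⟩)
  rw [h3, ← h1] at h2
  have : Nonempty {x : G // IsConj u x} := ⟨⟨u, IsConj.refl u⟩⟩
  exact Nat.eq_of_mul_eq_mul_left Nat.card_pos h2

theorem conj_order {G : Type*} [Group G] {u g : G} (h : IsConj u g) : orderOf g = orderOf u := by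
  obtain ⟨c, rfl⟩ := isConj_iff.mp h
  exact (MulAut.conj c).orderOf_eq u

structure St {G : Type*} [Group G] (π : G →* alternatingGroup (Fin 5)) (u : G) : Prop where
  surj : Function.Surjective π
  card : Nat.card (centralizer ({u} : Set G)) = 4
  cj : ∀ g, π g ≠ 1 → π g * π g = 1 → IsConj u g

namespace St

variable {G : Type*} [Group G] [Finite G] {π : G →* alternatingGroup (Fin 5)} {u : G} (S : St π u)
include S

theorem card_map (P : Sylow 2 G) : Nat.card ((P : Subgroup G).map π) = 4 :=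
  CL.Small.card_sylow_eq_of_factor (P.mapSurjective S.surj) (a := 2) (m := 15)
    (by rw [CL.TC.card_a5]; norm_num) (by norm_num)

theorem sq_mem (P : Sylow 2 G) {g : G} (hg : g ∈ (P : Subgroup G)) : π g * π g = 1 := by
  apply a5_four
  have := pow_card_eq_one' (x := (⟨π g, mem_map_of_mem π hg⟩ : (P : Subgroup G).map π))
  rw [S.card_map] at this
  exact congrArg Subtype.val this

theorem exists_ab (P : Sylow 2 G) : ∃ a ∈ (P : Subgroup G), ∃ b ∈ (P : Subgroup G),
    π a ≠ 1 ∧ π b ≠ 1 ∧ π (a * b) ≠ 1 := by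
  classical
  have := Fintype.ofFinite ((P : Subgroup G).map π)
  obtain ⟨⟨_, x, hx, rfl⟩, ⟨_, y, hy, rfl⟩, ⟨_, z, hz, rfl⟩, h1, h2, h3⟩ :=
    (Fintype.two_lt_card_iff (α := (P : Subgroup G).map π)).mp
      (by rw [← Nat.card_eq_fintype_card, S.card_map]; norm_num)
  refine ⟨x⁻¹ * y, mul_mem (inv_mem hx) hy, y⁻¹ * z, mul_mem (inv_mem hy) hz, fun h => h1 ?_,
    fun h => h3 ?_, fun h => h2 ?_⟩
  · rw [map_mul, map_inv, inv_mul_eq_one] at h
    exact Subtype.ext h
  · rw [map_mul, map_inv, inv_mul_eq_one] at h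
    exact Subtype.ext h
  · rw [show x⁻¹ * y * (y⁻¹ * z) = x⁻¹ * z by group, map_mul, map_inv, inv_mul_eq_one] at h
    exact Subtype.ext h

theorem conj' {g k : G} (h1 : π g ≠ 1) (h2 : π g * π g = 1) (hk : π k = 1) : IsConj u (g * k) :=
  S.cj _ (by rwa [map_mul, hk, mul_one]) (by rwa [map_mul, hk, mul_one])

theorem core_le : oddCore G ≤ π.ker := by
  have h1 := map_pPrimeCore_le (p := 2) S.surj
  have h2 : pPrimeCore 2 (alternatingGroup (Fin 5)) = ⊥ := by
    refine (IsSimpleGroup.eq_bot_or_eq_top_of_normal _ inferInstance).resolve_right fun h => ?_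
    rw [pPrimeCore_eq_top_iff, CL.TC.card_a5] at h
    norm_num at h
  rw [h2, le_bot_iff, Subgroup.map_eq_bot_iff] at h1
  exact h1

theorem inj_of_two (hu : orderOf u = 2) : Function.Injective π := by
  obtain ⟨P⟩ : Nonempty (Sylow 2 G) := inferInstance
  obtain ⟨a, ha, b, hb, h1, h2, h3⟩ := S.exists_ab P
  have hab := mul_mem ha hb
  have sq : ∀ g ∈ (P : Subgroup G), π g ≠ 1 → ∀ k, π k = 1 → g * k * (g * k) = 1 := by
    intro g hg h k hk
    have := pow_orderOf_eq_one (g * k)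
    rwa [conj_order (S.conj' h (S.sq_mem P hg) hk), hu, pow_two] at this
  have sq1 : ∀ g ∈ (P : Subgroup G), π g ≠ 1 → g * g = 1 := fun g hg h => by
    simpa using sq g hg h 1 (map_one π)
  have inv : ∀ g ∈ (P : Subgroup G), π g ≠ 1 → ∀ k, π k = 1 → g * k * g⁻¹ = k⁻¹ := by
    intro g hg h k hk
    rw [inv_eq_of_mul_eq_one_right (sq1 g hg h)]
    apply eq_inv_of_mul_eq_one_left
    rw [mul_assoc, sq g hg h k hk]
  rw [injective_iff_map_eq_one]
  intro k hk
  by_contra hk1
  have e1 : k⁻¹ = k := by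
    rw [← inv _ hab h3 k hk, show a * b * k * (a * b)⁻¹ = a * (b * k * b⁻¹) * a⁻¹ by group,
      inv b hb h2 k hk, inv a ha h1 k⁻¹ (by rw [map_inv, hk, inv_one]), inv_inv]
  have e2 : a * k = k * a := by
    have := inv a ha h1 k hk
    rw [e1] at this
    nth_rewrite 2 [← this]
    group
  have e3 : a * b = b * a := by
    have := eq_inv_of_mul_eq_one_left (sq1 _ hab h3)
    rwa [mul_inv_rev, inv_eq_of_mul_eq_one_right (sq1 a ha h1),
      inv_eq_of_mul_eq_one_right (sq1 b hb h2)] at this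
  have hc := conj_card (S.cj a h1 (S.sq_mem P ha))
  rw [S.card] at hc
  have hsub : ({1, a, b, a * b, k} : Set G) ⊆ centralizer ({a} : Set G) := by
    rintro x (rfl | rfl | rfl | rfl | rfl) <;>
      simp only [SetLike.mem_coe, mem_centralizer_singleton_iff]
    · simp
    · exact e3.symm
    · rw [mul_assoc, e3]
    · exact e2.symm
  have h5 := Set.ncard_le_ncard hsub
  have ne : ∀ x y : G, π x ≠ π y → x ≠ y := fun x y h e => h (by rw [e])
  have hab' : π a ≠ π b := fun e => h3 (by rw [map_mul, ← e, S.sq_mem P ha])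
  have n1 : (1 : G) ≠ a := ne _ _ (by rw [map_one]; exact h1.symm)
  have n2 : (1 : G) ≠ b := ne _ _ (by rw [map_one]; exact h2.symm)
  have n3 : (1 : G) ≠ a * b := ne _ _ (by rw [map_one]; exact h3.symm)
  have n4 : a ≠ b := ne _ _ hab'
  have n5 : a ≠ k := ne _ _ (by rwa [hk])
  have n6 : b ≠ k := ne _ _ (by rwa [hk])
  have n7 : a * b ≠ k := ne _ _ (by rwa [hk])
  rw [Set.ncard_insert_of_notMem (by simp [n1, n2, n3, Ne.symm hk1]),
    Set.ncard_insert_of_notMem (by simp [n4, n5, Ne.symm n2]),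
    Set.ncard_insert_of_notMem (by simp [n6, Ne.symm n1]), Set.ncard_pair n7,
    ← Nat.card_coe_set_eq] at h5
  have : Nat.card (centralizer ({a} : Set G)) = Nat.card (centralizer ({a} : Set G) : Set G) := rfl
  omega

theorem cent_four (hu : orderOf u = 4) {g : G} (h1 : π g ≠ 1) (h2 : π g * π g = 1) {x : G}
    (hx : x * g = g * x) (hk : π x = 1) : x = 1 ∨ x = g * g := by
  classical
  have hc := S.cj g h1 h2
  have ho : orderOf g = 4 := by rw [conj_order hc, hu]
  have e : zpowers g = centralizer ({g} : Set G) := by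
    refine eq_of_le_of_card_ge ?_ (by rw [conj_card hc, S.card, Nat.card_zpowers, ho])
    rw [zpowers_le, mem_centralizer_singleton_iff]
  have hm : x ∈ zpowers g := by rwa [e, mem_centralizer_singleton_iff]
  rw [mem_zpowers_iff_mem_range_orderOf, ho] at hm
  obtain ⟨i, hi, rfl⟩ := Finset.mem_image.mp hm
  rw [Finset.mem_range] at hi
  interval_cases i
  · exact Or.inl (pow_zero g)
  · exact absurd (by simpa using hk) h1
  · exact Or.inr (pow_two g)
  · rw [map_pow, pow_succ, pow_two, h2, one_mul] at hk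
    exact absurd hk h1

theorem exists_z (hu : orderOf u = 4) (P : Sylow 2 G) : ∃ z, orderOf z = 2 ∧ π z = 1 ∧
    (∀ g ∈ (P : Subgroup G), π g ≠ 1 → g * g = z) ∧
    ∀ q ∈ (P : Subgroup G), π q = 1 → q = 1 ∨ q = z := by
  obtain ⟨a, ha, b, hb, h1, h2, h3⟩ := S.exists_ab P
  have hab := mul_mem ha hb
  have : Nontrivial (P : Subgroup G) := ⟨⟨⟨a, ha⟩, 1, fun e => h1 (by
    rw [show a = 1 from congrArg Subtype.val e, map_one])⟩⟩
  have := P.isPGroup'.center_nontrivial
  obtain ⟨z, hz1', hzc, hzK⟩ : ∃ z : G, z ≠ 1 ∧ (∀ g ∈ (P : Subgroup G), z * g = g * z) ∧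
      π z = 1 := by
    obtain ⟨⟨⟨z, hzP⟩, hz⟩, hz1⟩ := exists_ne (1 : center (P : Subgroup G))
    have hzc : ∀ g ∈ (P : Subgroup G), z * g = g * z := fun g hg =>
      (congrArg Subtype.val (mem_center_iff.mp hz ⟨g, hg⟩)).symm
    by_cases h : π z = 1
    · exact ⟨z, fun e => hz1 (Subtype.ext (Subtype.ext e)), hzc, h⟩
    · refine ⟨z * z, fun e => ?_, fun g hg => ?_, by rw [map_mul, S.sq_mem P hzP]⟩
      · have := orderOf_dvd_of_pow_eq_one ((pow_two z).trans e)
        rw [conj_order (S.cj z h (S.sq_mem P hzP)), hu] at this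
        norm_num at this
      · rw [mul_assoc, hzc g hg, ← mul_assoc, hzc g hg, mul_assoc]
  have sq : ∀ g ∈ (P : Subgroup G), π g ≠ 1 → g * g = z := fun g hg h =>
    ((S.cent_four hu h (S.sq_mem P hg) (hzc g hg) hzK).resolve_left hz1').symm
  refine ⟨z, ?_, hzK, sq, ?_⟩
  · have := conj_order (S.cj a h1 (S.sq_mem P ha))
    rw [← sq a ha h1, ← pow_two, orderOf_pow' _ two_ne_zero, this, hu]
    norm_num
  have inv : ∀ g ∈ (P : Subgroup G), π g ≠ 1 → ∀ q ∈ (P : Subgroup G), π q = 1 →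
      g⁻¹ * q * g = q⁻¹ := by
    intro g hg h q hq hk
    have e := (sq _ (mul_mem hg hq) (by rwa [map_mul, hk, mul_one])).trans (sq g hg h).symm
    apply eq_inv_of_mul_eq_one_left
    calc g⁻¹ * q * g * q = g⁻¹ * g⁻¹ * (g * q * (g * q)) := by group
      _ = 1 := by rw [e]; group
  intro q hq hk
  have e1 : q⁻¹ = q := by
    rw [← inv _ hab h3 q hq hk, show (a * b)⁻¹ * q * (a * b) = b⁻¹ * (a⁻¹ * q * a) * b by group,
      inv a ha h1 q hq hk, inv b hb h2 q⁻¹ (inv_mem hq) (by rw [map_inv, hk, inv_one]), inv_inv]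
  have e2 : q * a = a * q := by
    have := inv a ha h1 q hq hk
    rw [e1] at this
    nth_rewrite 2 [← this]
    group
  rw [← sq a ha h1]
  exact S.cent_four hu h1 (S.sq_mem P ha) e2 hk

theorem core_comm (hu : orderOf u = 4) : IsMulCommutative (oddCore G) := by
  obtain ⟨P⟩ : Nonempty (Sylow 2 G) := inferInstance
  obtain ⟨a, ha, b, hb, h1, h2, h3⟩ := S.exists_ab P
  have hab := mul_mem ha hb
  obtain ⟨z, hz, hzK, sq, -⟩ := S.exists_z hu P
  have hN : (oddCore G).Normal := inferInstance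
  have odd : ∀ y ∈ oddCore G, y * y = 1 → y = 1 := by
    intro y hy h
    have h1 := (coprime_card_pPrimeCore 2 G).coprime_dvd_left (orderOf_dvd_natCard _ hy)
    have h2 := orderOf_dvd_of_pow_eq_one ((pow_two y).trans h)
    exact orderOf_eq_one_iff.mp (Nat.Coprime.eq_one_of_dvd h1 h2)
  have zz : z * z = 1 := by rw [← pow_two, ← hz, pow_orderOf_eq_one]
  have inv : ∀ g ∈ (P : Subgroup G), π g ≠ 1 → ∀ x ∈ oddCore G, z * x = x * z →
      g⁻¹ * x * g = x⁻¹ := by
    intro g hg h x hx hc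
    apply eq_inv_of_mul_eq_one_left
    have h4 := pow_orderOf_eq_one (g * x)
    rw [conj_order (S.conj' h (S.sq_mem P hg) (S.core_le hx)), hu] at h4
    have e := sq g hg h
    have e1 : z * (g⁻¹ * x * g * x) = g⁻¹ * x * g * x * z := by
      have e2 : z * g = g * z := by rw [← e, mul_assoc]
      have c1 : Commute z g := e2
      have c2 : Commute z x := hc
      exact ((c1.inv_right.mul_right c2).mul_right c1).mul_right c2
    refine odd _ (mul_mem (hN.conj_mem' x hx g) hx) ?_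
    calc g⁻¹ * x * g * x * (g⁻¹ * x * g * x)
        = z * z * (g⁻¹ * x * g * x) * (g⁻¹ * x * g * x) := by rw [zz, one_mul]
      _ = z * (g⁻¹ * x * g * x) * (z * (g⁻¹ * x * g * x)) := by
          rw [mul_assoc z z]
          nth_rewrite 1 [e1]
          simp only [mul_assoc]
      _ = (g * x) ^ 4 := by rw [← e]; simp only [pow_succ, pow_zero]; group
      _ = 1 := h4
  have fpf : ∀ x ∈ oddCore G, z * x = x * z → x = 1 := by
    intro x hx hc
    refine odd x hx (mul_eq_one_iff_eq_inv.mpr ?_)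
    have c2 : Commute z x := hc
    rw [← inv _ hab h3 x hx hc, show (a * b)⁻¹ * x * (a * b) = b⁻¹ * (a⁻¹ * x * a) * b by group,
      inv a ha h1 x hx hc, inv b hb h2 x⁻¹ (inv_mem hx) c2.inv_right, inv_inv]
  have hφ : MonoidHom.FixedPointFree (MulAut.conjNormal z : MulAut (oddCore G)) := by
    intro x hx
    have := congrArg Subtype.val hx
    rw [MulAut.conjNormal_apply, mul_inv_eq_iff_eq_mul] at this
    exact Subtype.ext (fpf x x.2 this)
  have hi : Function.Involutive (MulAut.conjNormal z : MulAut (oddCore G)) := by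
    intro x
    rw [← MulAut.mul_apply, ← map_mul, zz, map_one, MulAut.one_apply]
  exact ⟨⟨fun x y => hφ.commute_all_of_involutive hi x y⟩⟩

theorem index_core (hu : orderOf u = 4) : (oddCore G).index = 120 := by
  obtain ⟨R⟩ : Nonempty (Sylow 2 π.ker) := inferInstance
  obtain ⟨P, hP⟩ := (R.isPGroup'.map π.ker.subtype).exists_le_sylow
  obtain ⟨z, hz, hzK, -, hq⟩ := S.exists_z hu P
  have h1 : (R : Subgroup π.ker).map π.ker.subtype ≤ zpowers z := by
    rintro _ ⟨x, hx, rfl⟩
    rcases hq _ (hP ⟨x, hx, rfl⟩) x.2 with h | h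
    · rw [h]; exact one_mem _
    · rw [h]; exact mem_zpowers z
  have h2 := card_dvd_of_le h1
  rw [card_map_of_injective π.ker.subtype_injective, Nat.card_zpowers, hz] at h2
  have h3 : 2 ∣ Nat.card R :=
    R.dvd_card_of_dvd_card (hz ▸ orderOf_dvd_natCard π.ker (show z ∈ π.ker from hzK))
  have h4 : Nat.card R = 2 := Nat.dvd_antisymm h2 h3
  have h5 := (CL.RealSolv.isComplement'_of_isCyclic R (isCyclic_of_prime_card h4)).card_mul_card
  have h6 := congrArg (fun H : Subgroup G => Nat.card H) (map_pPrimeCore_of_normal (p := 2) π.ker)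
  simp only [card_map_of_injective π.ker.subtype_injective, inf_eq_left.mpr S.core_le] at h6
  have h7 := π.ker.card_mul_index
  rw [index_ker, MonoidHom.range_eq_top.mpr S.surj, card_top, CL.TC.card_a5, ← h5, h4, h6,
    ← (oddCore G).card_mul_index, mul_assoc] at h7
  exact (Nat.eq_of_mul_eq_mul_left Nat.card_pos h7).symm

theorem iso_four (hu : orderOf u = 4) :
    Nonempty (G ⧸ oddCore G ≃* Matrix.SpecialLinearGroup (Fin 2) (ZMod 5)) := by
  have hG : Nat.card (G ⧸ oddCore G) = 120 := S.index_core hu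
  let φ : G ⧸ oddCore G →* alternatingGroup (Fin 5) := QuotientGroup.lift _ π S.core_le
  have hφ : Function.Surjective φ := fun y => by
    obtain ⟨g, rfl⟩ := S.surj y
    exact ⟨g, rfl⟩
  have hZ : Nat.card φ.ker = 2 := by
    have h7 := φ.ker.card_mul_index
    rw [index_ker, MonoidHom.range_eq_top.mpr hφ, card_top, CL.TC.card_a5, hG] at h7
    omega
  have hsq : ∀ g, φ g = 1 → g ^ 2 = 1 := fun g hg => by
    have := pow_card_eq_one' (x := (⟨g, hg⟩ : φ.ker))
    rw [hZ] at this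
    exact congrArg Subtype.val this
  have hcen : ∀ g, φ g = 1 → ∀ x, x * g = g * x := fun g hg x => by
    by_cases h1 : g = 1
    · simp [h1]
    obtain ⟨y, -, hy⟩ := (Nat.card_eq_two_iff' (1 : φ.ker)).mp hZ
    have e1 := hy ⟨g, hg⟩ fun e => h1 (congrArg Subtype.val e)
    have e2 := hy ⟨x * g * x⁻¹, by simp [MonoidHom.mem_ker, hg]⟩ fun e => h1 (by
      simpa using congrArg Subtype.val e)
    exact mul_inv_eq_iff_eq_mul.mp (congrArg Subtype.val (e2.trans e1.symm))
  obtain ⟨a, ha⟩ := hφ CL.TC.a5x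
  obtain ⟨b, hb⟩ := hφ CL.TC.a5y
  have hx : φ (a ^ 4) = CL.TC.a5x := by rw [map_pow, ha]; decide
  have hy : φ (b ^ 6) = CL.TC.a5y := by rw [map_pow, hb]; decide
  have hx3 : (a ^ 4) ^ 3 = 1 := by
    have := hsq (a ^ 3) (by rw [map_pow, ha, CL.TC.a5x_pow])
    calc (a ^ 4) ^ 3 = ((a ^ 3) ^ 2) ^ 2 := by group
      _ = 1 := by rw [this, one_pow]
  have hy5 : (b ^ 6) ^ 5 = 1 := by
    have := hsq (b ^ 5) (by rw [map_pow, hb, CL.TC.a5y_pow])
    calc (b ^ 6) ^ 5 = ((b ^ 5) ^ 2) ^ 3 := by group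
      _ = 1 := by rw [this, one_pow]
  generalize a ^ 4 = x at hx hx3
  generalize b ^ 6 = y at hy hy5
  have hz : φ ((x * y) ^ 2) = 1 := by rw [map_pow, map_mul, hx, hy, CL.TC.a5xy_pow]
  obtain ⟨f, -, -, hf⟩ := CL.TC.exists_hom_SL25 hx3 hy5 (hsq _ hz) (hcen _ hz x) (hcen _ hz y) rfl
  have hne : (x * y) ^ 2 ≠ 1 := by
    intro h2
    obtain ⟨g, hg⟩ := QuotientGroup.mk_surjective (x * y)
    have h3 : π g = CL.TC.a5x * CL.TC.a5y := by rw [← hx, ← hy, ← map_mul, ← hg]; rfl
    have h4 : orderOf g = 4 := by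
      rw [conj_order (S.cj g (h3 ▸ CL.TC.a5xy_ne) (by rw [h3, ← pow_two, CL.TC.a5xy_pow])), hu]
    rw [← hg, ← QuotientGroup.mk_pow, QuotientGroup.eq_one_iff] at h2
    have h5 := (coprime_card_pPrimeCore 2 G).coprime_dvd_left (orderOf_dvd_natCard _ h2)
    rw [orderOf_pow' _ two_ne_zero, h4] at h5
    norm_num at h5
  have hinj := CL.TC.injective_of_sl25 (f := f) (by rwa [hf])
  exact ⟨(MulEquiv.ofBijective f ((Nat.bijective_iff_injective_and_card f).mpr
    ⟨hinj, by rw [CL.TC.card_sl25, hG]⟩)).symm⟩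

end St

theorem simple_sixty {X : Type*} [Group X] [Finite X] (hc : Nat.card X = 60)
    (hp : commutator X = ⊤) : IsSimpleGroup X := by
  have : Nontrivial X := Finite.one_lt_card_iff_nontrivial.mp (by omega)
  have hns : ¬ Group.IsSolvable X := fun h =>
    (Group.IsSolvable.commutator_lt_top_of_nontrivial X).ne hp
  refine ⟨fun N hN => ?_⟩
  by_contra hcon
  push Not at hcon
  have h1 := N.card_mul_index
  have h2 : Nat.card N ≠ 1 := fun h => hcon.1 (Subgroup.card_eq_one.mp h)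
  have h3 : N.index ≠ 1 := fun h => hcon.2 (Subgroup.index_eq_one.mp h)
  have h4 : 0 < Nat.card N := Nat.card_pos
  have h5 : N.index ≠ 0 := Subgroup.index_ne_zero_of_finite
  have h6 : 2 ≤ Nat.card N := by omega
  have h7 : 2 ≤ N.index := by omega
  have := S3378.solv N (by nlinarith) (N.card_subgroup_dvd_card.trans (by rw [hc]; norm_num))
  have := S3378.solv (_ ⧸ N) (by rw [← Subgroup.index_eq_card]; nlinarith)
    ((Subgroup.card_quotient_dvd_card N).trans (by rw [hc]; norm_num))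
  exact hns (Group.isSolvable_of_ker_le_range N.subtype (QuotientGroup.mk' N) (by simp))

/-- Let u ≠ 1 be an element of the finite group G such that every non-principal irreducible character χ satisfies χ(1) − χ(u) = 4 or χ(u) = 0. Then O(G), the largest normal subgroup of odd order, is abelian, and either G ⧸ O(G) ≅ PSL₂(5) and u is an involution, or G ⧸ O(G) ≅ SL₂(5) and u has order 4. -/
theorem result {G : Type*} [Group G] [Finite G] (u : G) (hu : u ≠ 1) (hyp : ∀ χ : Cfsg.IrrCharacter G, (χ : G → ℂ) ≠ (fun _ => (1 : ℂ)) → ((χ : G → ℂ) 1 - (χ : G → ℂ) u = 4 ∨ (χ : G → ℂ) u = 0)) : IsMulCommutative ↥(Cfsg.oddCore G) ∧ ((Nonempty (G ⧸ Cfsg.oddCore G ≃* Matrix.ProjectiveSpecialLinearGroup (Fin 2) (ZMod 5)) ∧ orderOf u = 2) ∨ (Nonempty (G ⧸ Cfsg.oddCore G ≃* Matrix.SpecialLinearGroup (Fin 2) (ZMod 5)) ∧ orderOf u = 4)) := by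
  classical
  have := Fintype.ofFinite G
  have H : D4.Hyp u := fun χ hχ h1 => hyp ⟨χ, hχ⟩ h1
  obtain ⟨K, hK, hi, huK, hC, hcj⟩ := H.main hu
  have hp : commutator G = ⊤ := commutator_eq_top_iff_hom.mpr H.perfect
  have hp' : commutator (G ⧸ K) = ⊤ := by
    rw [commutator_eq_top_iff_hom]
    intro lam
    ext g
    exact congrArg Units.val (DFunLike.congr_fun (H.perfect (lam.comp (QuotientGroup.mk' K))) g)
  have := simple_sixty (X := G ⧸ K) hi hp'
  obtain ⟨ε⟩ := S0494.result (G := G ⧸ K) hi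
  let π : G →* alternatingGroup (Fin 5) := ε.toMonoidHom.comp (QuotientGroup.mk' _)
  have hker : ∀ g, π g = 1 ↔ g ∈ K := fun g =>
    ε.map_eq_one_iff.trans (QuotientGroup.eq_one_iff g)
  have S : St π u := ⟨ε.surjective.comp (QuotientGroup.mk'_surjective _), hC, fun g h1 h2 =>
    hcj g (mt (hker g).mpr h1) ((hker _).mp (by rwa [map_mul]))⟩
  have ho : orderOf u ∣ 2 ^ 2 := by
    have := orderOf_dvd_natCard (centralizer ({u} : Set G)) (x := u)
      (mem_centralizer_singleton_iff.mpr rfl)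
    rwa [hC] at this
  obtain ⟨i, hi2, ho⟩ := (Nat.dvd_prime_pow Nat.prime_two).mp ho
  interval_cases i
  · exact absurd (orderOf_eq_one_iff.mp ho) hu
  · have hinj := S.inj_of_two ho
    have hO : oddCore G = ⊥ := by
      have := S.core_le
      rwa [(MonoidHom.ker_eq_bot_iff π).mpr hinj, le_bot_iff] at this
    have : Fact (Nat.Prime 5) := ⟨by norm_num⟩
    obtain ⟨e⟩ := S0253.result (F := ZMod 5) (ZMod.card 5)
    refine ⟨by rw [hO]; infer_instance, Or.inl ⟨⟨?_⟩, ho⟩⟩
    exact ((QuotientGroup.quotientMulEquivOfEq hO).trans QuotientGroup.quotientBot).trans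
      ((MulEquiv.ofBijective π ⟨hinj, S.surj⟩).trans e.symm)
  · exact ⟨S.core_comm ho, Or.inr ⟨S.iso_four ho, ho⟩⟩

end Cfsg.Agent.S4758
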