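import Cfsg.Statements.S4759
import Cfsg.Agent.BLK.DExC
import Cfsg.Agent.CHAR.Extraspecial

set_option autoImplicit false
open Cfsg

namespace Cfsg.Agent.S4759

open Subgroup CL.Char CL.DEx CL.Glb

theorem card_sup_eq {G : Type*} [Group G] {E S : Subgroup G} [E.Normal] (h : E ⊓ S = ⊥) :
    Nat.card ↥(E ⊔ S) = Nat.card E * Nat.card S := by
  rw [← (E.subgroupOf (E ⊔ S)).card_mul_index, Nat.card_congr (subgroupOfEquivOfLe le_sup_left).toEquiv]
  congr 1
  rw [← relIndex, relIndex_sup_left, ← inf_relIndex_right, h, relIndex_bot_left]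

/-- Let G be a finite group that is the semidirect product of a normal extraspecial 2-subgroup E and a complement H acting faithfully on E (no non-identity element of H centralizes E), and suppose H has a normal subgroup K of odd order with [E, K] = E. Then every faithful irreducible character θ of E (there is exactly one) extends to G: some irreducible character of G restricts to θ on E. -/
theorem result {G : Type*} [Group G] [Finite G] (E H : Subgroup G) [E.Normal] (hE : Cfsg.IsExtraspecial 2 ↥E) (hEH : E ⊓ H = ⊥) (hEHtop : E ⊔ H = ⊤) (hfaith : ∀ h ∈ H, (∀ e ∈ E, h * e = e * h) → h = 1) (K : Subgroup G) (hKH : K ≤ H) (hKn : ∀ h ∈ H, ∀ k ∈ K, h * k * h⁻¹ ∈ K) (hKodd : Odd (Nat.card ↥K)) (hEK : ⁅E, K⁆ = E) (θ : Cfsg.IrrCharacter ↥E) (hθ : ∀ e : ↥E, (θ : ↥E → ℂ) e = (θ : ↥E → ℂ) 1 → e = 1) : ∃ χ : Cfsg.IrrCharacter G, ∀ e : ↥E, (χ : G → ℂ) e = (θ : ↥E → ℂ) e := by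
  have := Fact.mk Nat.prime_two
  obtain ⟨⟨hp, -, hcm⟩, hZ⟩ := hE
  obtain ⟨z, hz1, hz⟩ := (Nat.card_eq_two_iff' (1 : center E)).1 hZ
  have hz' : ∀ a ∈ center E, a = 1 ∨ a = z := fun a ha =>
    (eq_or_ne a 1).imp_right fun h => congrArg Subtype.val (hz ⟨a, ha⟩ fun e =>
      h (congrArg Subtype.val e))
  have hz1' : (z : E) ≠ 1 := fun e => hz1 (Subtype.ext e)
  have huniq : ∀ ψ : E → ℂ, IsIrrCharacter E ψ → ψ z ≠ ψ 1 → ψ = θ.1 := fun ψ h1 h2 => by
    have := (Nat.card_eq_one_iff_unique.1 (card_irr_not_ker_center Nat.prime_two hZ hcm.le)).1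
    exact congrArg (fun x => x.1.1) (this.elim ⟨⟨ψ, h1⟩, fun h => h2 (h _ z.2)⟩
      ⟨θ, fun h => hz1' (hθ _ (h _ z.2))⟩)
  have hzc : ∀ g : G, g * z * g⁻¹ = z := fun g => by
    refine congrArg Subtype.val ((hz' ⟨g * z * g⁻¹, Normal.conj_mem ‹_› _ z.1.2 g⟩
      (mem_center_iff.2 fun a => Subtype.ext ?_)).resolve_left fun e => hz1' (Subtype.ext ?_))
    · have := congrArg Subtype.val (mem_center_iff.1 z.2
        ⟨g⁻¹ * a * g, Normal.conj_mem' ‹_› _ a.2 g⟩)
      change g⁻¹ * a * g * z = z * (g⁻¹ * a * g) at this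
      change a * (g * z * g⁻¹) = g * z * g⁻¹ * a
      calc _ = g * (g⁻¹ * a * g * z) * g⁻¹ := by group
        _ = _ := by rw [this]; group
    · simpa using congrArg Subtype.val e
  have hinv : ∀ (g : G) (n : E), θ.1 ⟨g * n * g⁻¹, Normal.conj_mem ‹_› _ n.2 g⟩ = θ.1 n :=
    fun g n => congrFun (huniq _ (θ.2.conjN g) fun e => hz1' (hθ _ (by
      rw [conjN_apply_one, conjN_apply] at e
      rw [← e]
      exact congrArg _ (Subtype.ext (hzc g).symm)))) n
  obtain ⟨χ, h1, h2⟩ := exists_ext_of_sylow E θ.2 hinv fun p hpp => by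
    have := Fact.mk hpp
    by_cases hp2 : p = 2
    · subst hp2
      obtain ⟨Q⟩ : Nonempty (Sylow 2 H) := inferInstance
      let S := (Q : Subgroup H).map H.subtype
      have hSH : S ≤ H := map_subtype_le _
      have hn : ∀ X : Subgroup G, X ≤ normalizer (E : Set G) := fun X => by
        rw [normalizer_eq_top]; exact le_top
      have hzc' : ∀ a : G, a * z = z * a := fun a => mul_inv_eq_iff_eq_mul.1 (hzc a)
      have hcen : ∀ a ∈ E, (∀ b ∈ E, a * b = b * a) → a = 1 ∨ a = z := fun a ha h =>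
        (hz' ⟨a, ha⟩ (mem_center_iff.2 fun b => Subtype.ext (h b b.2).symm)).imp
          (congrArg Subtype.val) (congrArg Subtype.val)
      have hz2 : ((z : E) : G) * z = 1 := (hcen _ (mul_mem z.1.2 z.1.2) fun b _ => by
        rw [mul_assoc, ← hzc', ← mul_assoc, ← hzc', mul_assoc]).resolve_right (by simpa using hz1')
      have hcm' : ∀ a ∈ E, ∀ b ∈ E, a * b = b * a ∨ a * b = z * (b * a) := fun a ha b hb =>
        (hz' _ (hcm.le (commutator_mem_commutator (mem_top (⟨a, ha⟩ : E)) (mem_top ⟨b, hb⟩)))).imp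
          (fun e => congrArg Subtype.val (commutatorElement_eq_one_iff_mul_comm.1 e)) fun e => by
            rw [← show a * b * a⁻¹ * b⁻¹ = z from congrArg Subtype.val e]; group
      have hS : Sit E S K z := ⟨hz2, fun e => hz1' (Subtype.ext e), z.1.2, hp, Q.2.map _, hKodd,
        hcm', fun a _ => hzc' a, fun a _ => hzc' a, fun a _ => hzc' a, hcen, hn _, hn _,
        le_norm_of_conj fun s hs => hKn s (hSH hs), fun a ha h4 => (hEH.le ⟨ha, hSH h4⟩ :),
        fun a ha h => hcen a ha fun b hb => comm_of_cm hz2 hcm' (fun a _ => hzc' a)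
          (fun a _ => hzc' a) ha (fun k hk => (h k hk).symm) (hEK.ge hb)⟩
      obtain ⟨f, hf⟩ := hS.ext
      refine ⟨E ⊔ S, le_sup_left, _, ?_, hf.irr', congrFun (huniq _ hf.irr fun e => ?_)⟩
      · have a1 := (E ⊔ S).card_mul_index
        rw [card_sup_eq (le_bot_iff.1 ((inf_le_inf_left E hSH).trans hEH.le)), ← card_top (G := G), ← hEHtop,
          card_sup_eq hEH, card_subtype, ← (Q : Subgroup H).card_mul_index, ← mul_assoc] at a1
        rw [Nat.eq_of_mul_eq_mul_left (Nat.mul_pos Nat.card_pos Nat.card_pos) a1]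
        exact (hpp.coprime_iff_not_dvd.2 Q.not_dvd_index).symm
      · have a1 : f z = f 1 := e
        rw [hf.neg] at a1
        exact hf.irr.one_ne_zero (show f 1 = 0 by linear_combination -(2⁻¹ : ℂ) * a1)
    · obtain ⟨Q⟩ : Nonempty (Sylow p G) := inferInstance
      obtain ⟨η, a1, a2, -⟩ := exists_ext_of_coprime_card (E.subgroupOf (E ⊔ Q))
        (θ.2.comp_mulEquiv (subgroupOfEquivOfLe le_sup_left)) (fun g n => hinv g ⟨n, n.2⟩) (by
          obtain ⟨k, hk⟩ := hp.exists_card_eq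
          obtain ⟨j, hj⟩ := Q.2.exists_card_eq
          rw [Nat.card_congr (subgroupOfEquivOfLe le_sup_left).toEquiv, hk, ← relIndex,
            relIndex_sup_left]
          refine Nat.Coprime.coprime_dvd_left (relIndex_dvd_card _ _) ?_
          rw [hj]
          exact Nat.Coprime.pow _ _ ((Nat.coprime_primes hpp Nat.prime_two).2 hp2))
      exact ⟨E ⊔ Q, le_sup_left, η, ((hpp.coprime_iff_not_dvd.2 Q.not_dvd_index).symm).coprime_dvd_left
        (index_dvd_of_le le_sup_right), a1, fun n => a2 ⟨⟨n, mem_sup_left n.2⟩, n.2⟩⟩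
  exact ⟨⟨χ, h1⟩, h2⟩

end Cfsg.Agent.S4759
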