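import Cfsg.Statements.S4762
import Cfsg.Agent.CHAR.Extraspecial
import Cfsg.Agent.CHAR.Prod
import Cfsg.Agent.CHAR.Faithful
import Cfsg.Agent.SOLV.Fitting
import Cfsg.Agent.S3799

set_option autoImplicit false
open Cfsg

open CL.Char
open scoped commutatorElement
namespace Cfsg.Agent.S4762

/-- Let p be a prime and G a finite nilpotent group. Then G has exactly one irreducible complex character of degree divisible by p if and only if p = 2 and G is an extraspecial 2-group. -/
theorem result {G : Type*} [Group G] [Finite G] [Group.IsNilpotent G] (p : ℕ) [Fact p.Prime] : Nat.card {χ : Cfsg.IrrCharacter G // p ∣ Cfsg.charDegree (χ : G → ℂ)} = 1 ↔ (p = 2 ∧ Cfsg.IsExtraspecial 2 G) := by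
  classical
  have hp : p.Prime := Fact.out
  constructor
  · intro h
    obtain ⟨hu, ⟨χ, hχ⟩⟩ := Nat.card_eq_one_iff_unique.mp h
    have huniq : ∀ ψ : G → ℂ, IsIrrCharacter G ψ → p ∣ charDegree ψ → ψ = χ.1 := fun ψ h1 h2 =>
      congrArg (fun z => z.1.1) (hu.elim ⟨⟨ψ, h1⟩, h2⟩ ⟨χ, hχ⟩)
    have hc : ∀ a ∈ pCore p G, ∀ b ∈ pPrimeCore p G, a * b = b * a := fun a ha b hb =>
      (CL.pCore_le_centralizer_pPrimeCore ha b hb).symm
    have hs := CL.pCore_sup_pPrimeCore_of_isNilpotent p G
    have hd : pCore p G ⊓ pPrimeCore p G = ⊥ := CL.pCore_inf_pPrimeCore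
    obtain ⟨α, β, hα, hβ, hαβ⟩ := χ.2.exists_centralProd hc hs
    have hdeg : ∀ {ψ : G → ℂ} {γ : pPrimeCore p G → ℂ}, IsIrrCharacter _ γ →
        (∀ (a : pCore p G) (b : pPrimeCore p G), ψ (a * b) = α a * γ b) →
        charDegree ψ = charDegree α * charDegree γ := by
      intro ψ γ hγ h1
      apply charDegree_eq_of_apply_one
      have := h1 1 1
      simp only [OneMemClass.coe_one, mul_one] at this
      rw [this, hα.apply_one_eq_charDegree, hγ.apply_one_eq_charDegree, Nat.cast_mul]
    have hpα : p ∣ charDegree α := by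
      rw [hdeg hβ hαβ] at hχ
      exact ((Nat.Prime.dvd_mul hp).mp hχ).resolve_right fun h1 =>
        CL.not_dvd_card_pPrimeCore p G (h1.trans hβ.charDegree_dvd_card)
    have hall : ∀ γ, IsIrrCharacter (pPrimeCore p G) γ → γ = β := by
      intro γ hγ
      obtain ⟨ψ, hψ, h1⟩ := exists_irr_directProd hc hs hd hα hγ
      have h2 := huniq ψ hψ (by rw [hdeg hγ h1]; exact hpα.mul_right _)
      exact (irr_prod_inj hα hα hγ hβ fun a b => by rw [← h1, h2, hαβ]).2
    have hQ : pPrimeCore p G = ⊥ := by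
      rw [eq_bot_iff]
      intro x hx
      have := eq_one_of_irr_eq (g := (⟨x, hx⟩ : pPrimeCore p G)) fun γ hγ => by
        rw [hall γ hγ, ← hall _ isIrrCharacter_one]
      exact congrArg Subtype.val this
    rw [hQ, sup_bot_eq, CL.pCore_eq_top_iff] at hs
    obtain ⟨n, hn⟩ := IsPGroup.iff_card.mp hs
    have hpow : ∀ m, m ∣ Nat.card G → m = 1 ∨ p ∣ m := by
      intro m hm
      obtain ⟨i, -, rfl⟩ := (Nat.dvd_prime_pow hp).mp (hn ▸ hm)
      rcases i with _ | i
      · simp
      · exact Or.inr (dvd_pow_self p i.succ_ne_zero)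
    have hχ1 : χ.1 1 ≠ 1 := fun e => by
      rw [χ.2.isCharacter.charDegree_eq_one_iff.mpr e] at hχ
      exact hp.one_lt.ne' (Nat.dvd_one.mp hχ)
    have h1 := sum_not_ker_degree_sq (commutator G)
    have h2 : Finset.univ.filter (fun ψ : IrrCharacter G =>
        ¬ ∀ n ∈ commutator G, (ψ : G → ℂ) n = (ψ : G → ℂ) 1) = {χ} := by
      ext ψ
      simp only [Finset.mem_filter, Finset.mem_univ, true_and, Finset.mem_singleton,
        ← ψ.2.one_eq_one_iff_commutator]
      refine ⟨fun h3 => Subtype.ext (huniq _ ψ.2 ?_), fun h3 => h3 ▸ hχ1⟩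
      exact (hpow _ ψ.2.charDegree_dvd_card).resolve_left fun e =>
        h3 (ψ.2.isCharacter.charDegree_eq_one_iff.mp e)
    rw [h2, Finset.sum_singleton, χ.2.apply_one_eq_charDegree, eq_sub_iff_add_eq,
      ← Subgroup.card_mul_index (commutator G)] at h1
    have h3 : charDegree χ.1 ^ 2 + (commutator G).index =
        Nat.card (commutator G) * (commutator G).index := by exact_mod_cast h1
    obtain ⟨c, hc'⟩ : ∃ c, Nat.card (commutator G) = c + 1 :=
      Nat.exists_eq_succ_of_ne_zero Nat.card_pos.ne'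
    have h4 : charDegree χ.1 ^ 2 = c * (commutator G).index := by rw [hc'] at h3; nlinarith
    have hc0 : c ≠ 0 := by
      rintro rfl
      have := χ.2.charDegree_pos
      simp only [zero_mul] at h4
      exact this.ne' (pow_eq_zero_iff two_ne_zero |>.mp h4)
    have hpc : p ∣ c + 1 := (hpow _ (hc' ▸ Subgroup.card_subgroup_dvd_card _)).resolve_left
      (by omega)
    have hc1 : c = 1 := by
      obtain ⟨i, -, hi⟩ := (Nat.dvd_prime_pow hp).mp (hn ▸ χ.2.charDegree_dvd_card)
      have : c ∣ p ^ (i * 2) := by rw [pow_mul, ← hi, h4]; exact dvd_mul_right _ _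
      obtain ⟨j, -, rfl⟩ := (Nat.dvd_prime_pow hp).mp this
      rcases j with _ | j
      · simp
      · exact absurd ((Nat.dvd_add_right (dvd_pow_self p j.succ_ne_zero)).mp hpc)
          (fun e => hp.one_lt.ne' (Nat.dvd_one.mp e))
    subst hc1
    have hp2 : p = 2 := (Nat.prime_dvd_prime_iff_eq hp Nat.prime_two).mp hpc
    subst hp2
    refine ⟨rfl, ?_⟩
    have hle : commutator G ≤ Subgroup.center G := by
      intro z hz
      rw [Subgroup.mem_center_iff]
      intro g
      by_cases hz1 : z = 1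
      · simp [hz1]
      obtain ⟨y, -, hy⟩ := (Nat.card_eq_two_iff' (1 : commutator G)).mp hc'
      have e1 := hy ⟨z, hz⟩ fun e => hz1 (congrArg Subtype.val e)
      have e2 := hy ⟨g * z * g⁻¹, (inferInstance : (commutator G).Normal).conj_mem z hz g⟩
        fun e => hz1 (by simpa using congrArg Subtype.val e)
      have := congrArg Subtype.val (e2.trans e1.symm)
      exact mul_inv_eq_iff_eq_mul.mp this
    have h5 := χ.2.charDegree_sq_le_index χ.2.center_le_charCenter
    have heq : commutator G = Subgroup.center G := by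
      have h6 := Subgroup.relIndex_mul_index hle
      rw [h4, one_mul, ← h6] at h5
      have h7 : 0 < (Subgroup.center G).index :=
        Nat.pos_of_ne_zero Subgroup.index_ne_zero_of_finite
      have h8 : (commutator G).relIndex (Subgroup.center G) ≠ 0 :=
        Subgroup.index_ne_zero_of_finite
      exact le_antisymm hle (Subgroup.relIndex_eq_one.mp (by nlinarith [Nat.pos_of_ne_zero h8]))
    refine Cfsg.Agent.S3799.extraspecial_of hs (heq ▸ hc') hle (fun g => ?_) fun hcm => ?_
    · rw [Subgroup.mem_center_iff]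
      intro x
      have hz : ⁅g⁻¹, x⁆ ∈ commutator G := Subgroup.commutator_mem_commutator trivial trivial
      have hz2 : ⁅g⁻¹, x⁆ ^ 2 = 1 := by
        have := pow_card_eq_one' (x := (⟨_, hz⟩ : commutator G))
        rw [hc'] at this
        exact congrArg Subtype.val this
      have hzc := Subgroup.mem_center_iff.mp (hle hz)
      have e : x * g = g * ⁅g⁻¹, x⁆ * x := by simp [commutatorElement_def, mul_assoc]
      calc x * g ^ 2 = x * g * g := by rw [pow_two, mul_assoc]
        _ = g * ⁅g⁻¹, x⁆ * (x * g) := by rw [← mul_assoc _ x g, ← e]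
        _ = g * (⁅g⁻¹, x⁆ * g) * ⁅g⁻¹, x⁆ * x := by rw [e]; simp only [mul_assoc]
        _ = g ^ 2 * ⁅g⁻¹, x⁆ ^ 2 * x := by rw [← hzc g]; simp only [pow_two, mul_assoc]
        _ = _ := by rw [hz2, mul_one]
    · exact hχ1 χ.2.apply_one_of_isMulCommutative
  · rintro ⟨rfl, hG⟩
    have h1 := card_irr_not_ker_center hp hG.2 hG.1.2.2.le
    rw [← show 2 - 1 = 1 from rfl, ← h1]
    refine Nat.card_congr (Equiv.subtypeEquivRight fun χ => ⟨fun h2 h3 => ?_, fun h2 => ?_⟩)
    · rw [χ.2.isCharacter.charDegree_eq_one_iff.mpr (extraspecial_degree_one hG χ.2 h3)] at h2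
      omega
    · obtain ⟨n, hn⟩ := IsPGroup.iff_card.mp hG.1.1
      obtain ⟨i, -, hi⟩ := (Nat.dvd_prime_pow hp).mp (hn ▸ χ.2.charDegree_dvd_card)
      rcases i with _ | i
      · rw [← hG.1.2.2, ← χ.2.one_eq_one_iff_commutator] at h2
        exact absurd (χ.2.isCharacter.charDegree_eq_one_iff.mp (by simpa using hi)) h2
      · exact hi ▸ dvd_pow_self 2 i.succ_ne_zero

end Cfsg.Agent.S4762
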