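import Cfsg.Statements.S4763
import Cfsg.Agent.CHAR.Triple
import Cfsg.Agent.CHAR.Ext
import Cfsg.Agent.CHAR.Ramified
import Cfsg.Agent.CHAR.BrauerPerm
import Cfsg.Agent.BLK.Ito
import Cfsg.Agent.BLK.GCount
import Cfsg.Agent.FGS.CoprimeIndex

set_option autoImplicit false
open Cfsg

open CL.Char
open scoped ComplexConjugate
namespace Cfsg.Agent.S4763

/-- Let p be a prime and G a finite group that is not nilpotent and has a normal p-complement (a normal subgroup of order prime to p and index a power of p). If G has exactly one irreducible complex character of degree divisible by p, then G has exactly one conjugacy class whose size is divisible by p. -/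
theorem result {G : Type*} [Group G] [Finite G] (p : ℕ) [Fact p.Prime] (hnil : ¬ Group.IsNilpotent G) (N : Subgroup G) [N.Normal] (hN : (Nat.card N).Coprime p) (hidx : ∃ k : ℕ, N.index = p ^ k) (hone : Nat.card {χ : Cfsg.IrrCharacter G // p ∣ Cfsg.charDegree (χ : G → ℂ)} = 1) : Nat.card {C : ConjClasses G // p ∣ Nat.card C.carrier} = 1 := by
  classical
  have hp : p.Prime := Fact.out
  have := Fintype.ofFinite G
  have := Fintype.ofFinite N
  obtain ⟨k, hk⟩ := hidx
  obtain ⟨hu, ⟨χ, hχ⟩⟩ := Nat.card_eq_one_iff_unique.mp hone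
  have huniq : ∀ ψ : G → ℂ, IsIrrCharacter G ψ → p ∣ charDegree ψ → ψ = χ.1 := fun ψ h1 h2 =>
    congrArg (fun z => z.1.1) (hu.elim ⟨⟨ψ, h1⟩, h2⟩ ⟨χ, hχ⟩)
  have hpow : ∀ m, m ∣ N.index → m = 1 ∨ p ∣ m := by
    intro m hm
    obtain ⟨i, -, rfl⟩ := (Nat.dvd_prime_pow hp).mp (hk ▸ hm)
    rcases i with _ | i
    · simp
    · exact Or.inr (dvd_pow_self p i.succ_ne_zero)
  have hcop : N.index.Coprime (Nat.card N) := hk ▸ Nat.Coprime.pow_left _ hN.symm
  have hext : ∀ θ, IsIrrCharacter N θ → inertia N θ = ⊤ →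
      ∃ η, IsIrrCharacter G η ∧ (fun n : N => η n) = θ := fun θ hθ h => by
    obtain ⟨η, h1, h2, -⟩ := exists_ext_of_coprime_card N hθ (inertia_eq_top_iff.mp h) hcop
    exact ⟨η, h1, funext h2⟩
  have hcomm : commutator G ≤ N := by
    by_contra hc
    obtain ⟨x, hx, hxN⟩ := SetLike.not_le_iff_exists.mp hc
    obtain ⟨β, hβ, hβN, hβx⟩ := exists_irr_ker_of_not_mem N hxN
    have h1 : p ∣ charDegree β := by
      refine (hpow _ (hβ.charDegree_dvd_index_charKer.trans
        (Subgroup.index_dvd_of_le (hβ.isCharacter.le_charKer_iff.mpr hβN)))).resolve_left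
        fun e => hβx ?_
      exact hβ.one_eq_one_iff_commutator.mp (hβ.isCharacter.charDegree_eq_one_iff.mp e) x hx
    have hβχ := huniq β hβ h1
    have h2 : ∀ θ, IsIrrCharacter N θ → θ = fun _ => 1 := by
      intro θ hθ
      have h3 : classInner (fun n : N => β n) θ ≠ 0 := by
        by_cases hT : inertia N θ = ⊤
        · obtain ⟨η, hη, rfl⟩ := hext θ hθ hT
          have h4 := huniq _ (gallagher_irr hη.isCharacter hθ hβ hβN) (by
            have : charDegree (β * η) = charDegree β * charDegree η := by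
              apply charDegree_eq_of_apply_one
              rw [Pi.mul_apply, hβ.apply_one_eq_charDegree, hη.apply_one_eq_charDegree,
                Nat.cast_mul]
            rw [this]
            exact h1.mul_right _)
          have h5 := inner_res_mul_of_ker hθ hβN
          rw [h4, ← hβχ] at h5
          rw [h5]
          exact hβ.one_ne_zero
        · obtain ⟨ψ, hψ, h4⟩ := hθ.exists_over
          have h5 := (hpow _ (Subgroup.index_dvd_of_le
            (le_inertia hθ.isClassFunction))).resolve_left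
            fun e => hT (Subgroup.index_eq_one.mp e)
          rw [hβχ, ← huniq ψ hψ (h5.trans (CL.Blk.index_inertia_dvd_of_under hψ hθ h4))]
          exact h4
      have h6 : (fun n : N => β n) = β 1 • fun _ => 1 := funext fun n => by simp [hβN n n.2]
      rw [h6] at h3
      exact (eq_of_inner_smul_ne_zero isIrrCharacter_one hθ h3).symm
    have h7 : N = ⊥ := by
      rw [eq_bot_iff]
      intro y hy
      exact congrArg Subtype.val
        (eq_one_of_irr_eq (g := (⟨y, hy⟩ : N)) fun γ hγ => by rw [h2 γ hγ])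
    rw [h7, Subgroup.index_bot] at hk
    exact hnil (IsPGroup.of_card hk).isNilpotent
  have hvan : ∀ g, g ∉ N → χ.1 g = 0 := by
    intro g hg
    obtain ⟨lam, -, hl⟩ := exists_hom_of_not_mem N hcomm hg
    have h1 := congrFun (huniq _ (χ.2.hom_mul lam) (by
      rwa [charDegree_eq_of_apply_one (n := charDegree χ.1)
        (by simp [χ.2.apply_one_eq_charDegree])])) g
    by_contra h0
    exact hl (Units.ext (mul_right_cancel₀ h0 (by simpa using h1)))
  have hres : ∀ ψ : IrrCharacter G, ψ ≠ χ → IsIrrCharacter N fun n : N => ψ.1 n := by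
    intro ψ hψ
    refine res_irr_of_coprime_index ψ.2 ψ.2.apply_one_eq_charDegree ?_
    rw [hk]
    refine Nat.Coprime.pow_right _ ((Nat.Prime.coprime_iff_not_dvd hp).mpr fun h => ?_).symm
    exact hψ (Subtype.ext (huniq _ ψ.2 h))
  have hχinv : ∀ θ, IsIrrCharacter N θ → inertia N θ = ⊤ →
      classInner (fun n : N => χ.1 n) θ = 0 := by
    intro θ hθ hT
    by_contra h0
    obtain ⟨e, -, he⟩ := exists_res_eq_smul_of_invariant χ.2 hθ hT h0
    obtain ⟨η, hη, rfl⟩ := hext θ hθ hT
    have h1 := (sq_eq_index_iff_unique χ.2 hθ he).mp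
      ((sq_eq_index_iff_vanish χ.2 hθ he).mpr hvan) η hη (by rw [hθ.inner_self]; exact one_ne_zero)
    have h2 := hθ.charDegree_dvd_card
    rw [charDegree_res, h1] at h2
    exact (Nat.Prime.coprime_iff_not_dvd hp).mp hN.symm (hχ.trans h2)
  let I : Finset (IrrCharacter N) := Finset.univ.filter fun θ => inertia N θ.1 = ⊤
  let r : IrrCharacter G → IrrCharacter N := fun ψ =>
    if h : ψ = χ then irrOne N else ⟨_, hres ψ h⟩
  have hr : ∀ ψ, ψ ≠ χ → (r ψ).1 = fun n : N => ψ.1 n := fun ψ h => by simp only [r, dif_neg h]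
  have hrI : ∀ ψ ∈ Finset.univ.erase χ, r ψ ∈ I := fun ψ h => by
    simp only [I, Finset.mem_filter, Finset.mem_univ, true_and, hr ψ (Finset.ne_of_mem_erase h)]
    exact inertia_res_eq_top ψ.2.isClassFunction
  have hfib : ∀ θ ∈ I, ((Finset.univ.erase χ).filter fun ψ => r ψ = θ).card = N.index := by
    intro θ hθ
    have hT := (Finset.mem_filter.mp hθ).2
    have h1 := sum_inner_res_sq (G := G) θ.2
    rw [hT, Subgroup.relIndex_top_right, ← Finset.add_sum_erase _ _ (Finset.mem_univ χ),
      hχinv _ θ.2 hT] at h1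
    have h2 : ∀ ψ ∈ Finset.univ.erase χ, classInner (fun n : N => ψ.1 n) θ.1 ^ 2 =
        if r ψ = θ then 1 else 0 := by
      intro ψ hψ
      rw [← hr ψ (Finset.ne_of_mem_erase hψ), (r ψ).2.inner θ.2]
      simp [Subtype.ext_iff]
    rw [Finset.sum_congr rfl h2, Finset.sum_boole] at h1
    exact_mod_cast (by simpa using h1 : (((Finset.univ.erase χ).filter
      fun ψ => r ψ = θ).card : ℂ) = N.index)
  have hcarr : ∀ g : G, Nat.card (ConjClasses.mk g).carrier =
      (Subgroup.centralizer ({g} : Set G)).index := fun g => by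
    rw [← card_conj_eq_index, ← card_mk_eq]
    exact Nat.card_congr (Equiv.subtypeEquivRight fun x => ConjClasses.mem_carrier_iff_mk_eq)
  have hout : ∀ g, g ∉ N → ¬ p ∣ (Subgroup.centralizer ({g} : Set G)).index := by
    intro g hg hd
    have h1 := column_conj (IsConj.refl g)
    rw [← Finset.add_sum_erase _ _ (Finset.mem_univ χ), hvan g hg, zero_mul, zero_add,
      ← Finset.sum_fiberwise_of_maps_to hrI] at h1
    have h2 : ∀ θ ∈ I, ∃ z, IsIntegral ℤ z ∧
        ∑ ψ ∈ (Finset.univ.erase χ).filter (fun ψ => r ψ = θ), ψ.1 g * conj (ψ.1 g) =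
          N.index * z := by
      intro θ hθ
      obtain ⟨η, hη, e⟩ := hext θ.1 θ.2 (Finset.mem_filter.mp hθ).2
      refine ⟨η g * conj (η g), (hη.isIntegral g).mul (isIntegral_conj (hη.isIntegral g)), ?_⟩
      rw [← hfib θ hθ, ← nsmul_eq_mul, ← Finset.sum_const]
      refine Finset.sum_congr rfl fun ψ hψ => ?_
      obtain ⟨h3, h4⟩ := Finset.mem_filter.mp hψ
      obtain ⟨lam, -, h5⟩ := exists_hom_mul_of_res_eq (N := N) hη.isCharacter (e ▸ θ.2)
        ψ.2.isCharacter (congrFun ((hr ψ (Finset.ne_of_mem_erase h3)).symm.trans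
          (by rw [h4, e])))
      rw [h5, map_mul, mul_mul_mul_comm, hom_mul_conj, one_mul]
    choose! z hz1 hz2 using h2
    rw [Finset.sum_congr rfl hz2, ← Finset.mul_sum] at h1
    have hi0 : N.index ≠ 0 := Subgroup.index_ne_zero_of_finite
    have h3 : N.index ∣ Nat.card (Subgroup.centralizer ({g} : Set G)) := by
      refine nat_dvd_of_isIntegral_div hi0 ?_
      rw [← h1, mul_div_cancel_left₀ _ (by exact_mod_cast hi0)]
      exact IsIntegral.sum _ hz1
    have h4 := Nat.mul_dvd_mul h3 hd
    rw [Subgroup.card_mul_index, ← N.index_mul_card,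
      Nat.mul_dvd_mul_iff_left (Nat.pos_of_ne_zero hi0)] at h4
    exact (Nat.Prime.coprime_iff_not_dvd hp).mp hN.symm h4
  let InN : ConjClasses G → Prop := fun C => ∀ g, ConjClasses.mk g = C → g ∈ N
  have hInN : ∀ g, InN (ConjClasses.mk g) ↔ g ∈ N := fun g =>
    ⟨fun h => h g rfl, fun h x hx => by
      obtain ⟨c, rfl⟩ := isConj_iff.mp (ConjClasses.mk_eq_mk_iff_isConj.mp hx.symm)
      exact (inferInstance : N.Normal).conj_mem g h c⟩
  have hcN : Nat.card {C // InN C} = I.card + 1 := by
    have h1 := sum_card_centralizer_filter InN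
    simp only [hInN] at h1
    have h2 : ((∑ g : G, if g ∈ N then Nat.card (Subgroup.centralizer ({g} : Set G)) else 0 : ℕ) :
        ℂ) = ∑ ψ : IrrCharacter G, (Nat.card N : ℂ) *
          classInner (fun n : N => ψ.1 n) (fun n : N => ψ.1 n) := by
      simp only [card_mul_classInner]
      rw [Finset.sum_comm, Nat.cast_sum, ← sum_extendByZero N]
      refine Finset.sum_congr rfl fun g _ => ?_
      rw [extendByZero_apply]
      split_ifs with h
      · exact (column_conj (IsConj.refl g)).symm
      · simp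
    rw [h1, ← Finset.mul_sum, ← Finset.add_sum_erase _ _ (Finset.mem_univ χ),
      (inner_res_self_eq_index_iff N χ.2.inner_self).mpr hvan,
      Finset.sum_congr rfl fun ψ hψ => (hres ψ (Finset.ne_of_mem_erase hψ)).inner_self,
      Finset.sum_const, Finset.card_eq_sum_card_fiberwise hrI, Finset.sum_congr rfl hfib,
      Finset.sum_const, ← N.card_mul_index] at h2
    have a1 := card_ne_zero N
    have a2 : (N.index : ℂ) ≠ 0 := by exact_mod_cast Subgroup.index_ne_zero_of_finite
    simp only [smul_eq_mul, nsmul_eq_mul, mul_one] at h2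
    push_cast at h2
    field_simp at h2
    exact_mod_cast h2.trans (add_comm _ _)
  obtain ⟨P⟩ : Nonempty (Sylow p G) := inferInstance
  have hNP : ∀ g : G, ∃ n ∈ N, ∃ s ∈ (P : Subgroup G), g = n * s :=
    CL.exists_mul_eq_of_coprime_index _ _ (hk ▸ Nat.Coprime.pow_left _
      ((Nat.Prime.coprime_iff_not_dvd hp).mpr P.not_dvd_index))
  have hPs : Group.IsSolvable (P : Subgroup G) :=
    have := P.isPGroup'.isNilpotent
    inferInstance
  have hPc : (Nat.card N).Coprime (Nat.card (P : Subgroup G)) :=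
    (CL.coprime_card_of_isPGroup_of_coprime P.isPGroup' hN).symm
  have hg1 := CL.Glb.card_IS_eq hPs N Subgroup.le_normalizer_of_normal hPc
  have hg2 := CL.Glb.card_classes_eq (S := P) (G := N) Subgroup.le_normalizer_of_normal hPc
    (Or.inl hPs) rfl inf_le_left (fun _ => True) (fun _ => True) (fun _ => Iff.rfl)
  simp only [true_and, Nat.card_subtype_true] at hg2
  rw [card_irr, ← hg2] at hg1
  have hI : Nat.card {θ : IrrCharacter N // CL.Glb.IS P N θ.1} = I.card := by
    rw [Nat.card_eq_fintype_card, Fintype.card_subtype]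
    congr 1
    refine Finset.filter_congr fun θ _ => ⟨fun h => ?_, fun h s _ g g' e => ?_⟩
    · rw [eq_top_iff]
      intro g _
      obtain ⟨n, hn, s, hs, rfl⟩ := hNP g
      exact mul_mem (le_inertia θ.2.isClassFunction hn) (mem_inertia.mpr fun x => h s hs _ _ rfl)
    · rw [← inertia_eq_top_iff.mp h s g]
      exact congrArg θ.1 (Subtype.ext e)
  have hinv : ∀ n : N, (∀ s ∈ (P : Subgroup G), ∀ g g' : N, (g' : G) = s * g * s⁻¹ →
      ConjClasses.mk g = ConjClasses.mk n → ConjClasses.mk g' = ConjClasses.mk n) ↔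
      ¬ p ∣ (Subgroup.centralizer ({(n : G)} : Set G)).index := by
    intro n
    constructor
    · intro h hd
      have h1 := CL.relIndex_eq_index_of_forall_exists_mul N
        (Subgroup.centralizer ({(n : G)} : Set G)) fun g => by
          obtain ⟨m, hm, s, hs, rfl⟩ := hNP g
          have h2 := h s hs n ⟨_, (inferInstance : N.Normal).conj_mem n n.2 s⟩ rfl rfl
          obtain ⟨c, hc⟩ := isConj_iff.mp (ConjClasses.mk_eq_mk_iff_isConj.mp h2.symm)
          have hc' : (c : G) * n * (c : G)⁻¹ = s * n * s⁻¹ := congrArg Subtype.val hc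
          refine ⟨m * c, mul_mem hm c.2, (c : G)⁻¹ * s, ?_, by group⟩
          rw [Subgroup.mem_centralizer_singleton_iff]
          calc (c : G)⁻¹ * s * n = (c : G)⁻¹ * (s * n * s⁻¹) * s := by group
            _ = _ := by rw [← hc']; group
      rw [← h1] at hd
      exact (Nat.Prime.coprime_iff_not_dvd hp).mp hN.symm
        (hd.trans (Subgroup.relIndex_dvd_card _ _))
    · intro h s _ g g' e hg
      obtain ⟨c, rfl⟩ := isConj_iff.mp (ConjClasses.mk_eq_mk_iff_isConj.mp hg.symm)
      obtain ⟨m, hm, y, hy, e'⟩ := CL.exists_mul_eq_of_coprime_index N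
        (Subgroup.centralizer ({(n : G)} : Set G)) (hk ▸ Nat.Coprime.pow_left _
          ((Nat.Prime.coprime_iff_not_dvd hp).mpr h)) (s * c)
      rw [Subgroup.mem_centralizer_singleton_iff] at hy
      refine (ConjClasses.mk_eq_mk_iff_isConj.mpr (isConj_iff.mpr ⟨⟨m, hm⟩, Subtype.ext ?_⟩)).symm
      rw [e]
      change m * n * m⁻¹ = s * (c * n * (c : G)⁻¹) * s⁻¹
      calc m * n * m⁻¹ = m * (n * y) * y⁻¹ * m⁻¹ := by group
        _ = (m * y) * n * (m * y)⁻¹ := by rw [← hy]; group
        _ = _ := by rw [← e']; group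
  have hbij : Nat.card {C // InN C ∧ ¬ p ∣ Nat.card C.carrier} = I.card := by
    rw [← hI, hg1]
    symm
    refine Nat.card_eq_of_bijective (fun K => ⟨ConjClasses.map N.subtype K.1, ?_⟩) ⟨?_, ?_⟩
    · obtain ⟨K, hK⟩ := K
      obtain ⟨n, rfl⟩ := ConjClasses.mk_surjective K
      exact ⟨(hInN n).mpr n.2, hcarr n ▸ (hinv n).mp hK⟩
    · rintro ⟨K, hK⟩ ⟨K', hK'⟩ h
      obtain ⟨n, rfl⟩ := ConjClasses.mk_surjective K
      obtain ⟨n', rfl⟩ := ConjClasses.mk_surjective K'
      have h1 : ConjClasses.mk (n : G) = ConjClasses.mk (n' : G) := congrArg Subtype.val h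
      obtain ⟨g, hg⟩ := isConj_iff.mp (ConjClasses.mk_eq_mk_iff_isConj.mp h1)
      obtain ⟨m, hm, s, hs, rfl⟩ := hNP g
      have h2 := hK s hs n ⟨_, (inferInstance : N.Normal).conj_mem n n.2 s⟩ rfl rfl
      apply Subtype.ext
      simp only
      rw [← h2, ConjClasses.mk_eq_mk_iff_isConj, isConj_iff]
      refine ⟨⟨m, hm⟩, Subtype.ext ?_⟩
      rw [← hg]
      change m * (s * n * s⁻¹) * m⁻¹ = _
      group
    · rintro ⟨C, h1, h2⟩
      obtain ⟨g, rfl⟩ := ConjClasses.mk_surjective C
      exact ⟨⟨ConjClasses.mk ⟨g, (hInN g).mp h1⟩, (hinv _).mpr (hcarr g ▸ h2)⟩, rfl⟩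
  have := Fintype.ofFinite (ConjClasses G)
  have hfin : Nat.card {C // InN C} = Nat.card {C // InN C ∧ ¬ p ∣ Nat.card C.carrier} +
      Nat.card {C : ConjClasses G // p ∣ Nat.card C.carrier} := by
    simp only [Nat.card_eq_fintype_card (α := {_C : ConjClasses G // _}), Fintype.card_subtype]
    rw [← Finset.card_filter_add_card_filter_not (s := Finset.univ.filter InN)
      (fun C : ConjClasses G => ¬ p ∣ Nat.card C.carrier), Finset.filter_filter,
      Finset.filter_filter]
    congr 2
    refine Finset.filter_congr fun C _ => ⟨fun h => not_not.mp h.2, fun h => ⟨?_, not_not.mpr h⟩⟩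
    obtain ⟨g, rfl⟩ := ConjClasses.mk_surjective C
    by_contra h1
    exact hout g (fun h2 => h1 ((hInN g).mpr h2)) (hcarr g ▸ h)
  omega

end Cfsg.Agent.S4763
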