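import Cfsg.Statements.S4765
import Cfsg.Agent.KSG.PSL2Basic

set_option autoImplicit false
open Cfsg CL.GL2 CL.Char

namespace Cfsg.Agent.S4765

/-- Let F be a finite field of characteristic p with at least 4 elements. Then PSL(2,F) has exactly one irreducible complex character of degree divisible by p, and its degree is the order of F. -/
theorem result (p : ℕ) [Fact p.Prime] (F : Type*) [Field F] [Fintype F] [CharP F p] (hF : 4 ≤ Fintype.card F) : Nat.card {χ : Cfsg.IrrCharacter (Matrix.ProjectiveSpecialLinearGroup (Fin 2) F) // p ∣ Cfsg.charDegree (χ : Matrix.ProjectiveSpecialLinearGroup (Fin 2) F → ℂ)} = 1 ∧ ∀ χ : Cfsg.IrrCharacter (Matrix.ProjectiveSpecialLinearGroup (Fin 2) F), p ∣ Cfsg.charDegree (χ : Matrix.ProjectiveSpecialLinearGroup (Fin 2) F → ℂ) → Cfsg.charDegree (χ : Matrix.ProjectiveSpecialLinearGroup (Fin 2) F → ℂ) = Fintype.card F := by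
  classical
  have key : ∀ χ : IrrCharacter (Matrix.ProjectiveSpecialLinearGroup (Fin 2) F),
      p ∣ charDegree (χ : Matrix.ProjectiveSpecialLinearGroup (Fin 2) F → ℂ) ↔
        (fun g => χ.1 (pslMk F g)) = stL F := fun χ => by
    rw [← char_dvd_charDegree_iff p (isIrr_PSL_iff.1 χ.2)]
    simp only [charDegree, map_one]
  constructor
  · obtain ⟨ψ, hψ, e⟩ := exists_irr_PSL (isIrr_stL (F := F)) (by rw [← stL_neg 1, mul_one])
    rw [Nat.card_eq_one_iff_exists]
    exact ⟨⟨⟨ψ, hψ⟩, (key _).2 e.symm⟩, fun χ => Subtype.ext (Subtype.ext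
      (comp_surjective_injective pslMk_surjective (((key _).1 χ.2).trans e)))⟩
  · intro χ h
    have := congrFun ((key χ).1 h) 1
    simp only [map_one, stL_one, χ.2.apply_one_eq_charDegree] at this
    exact_mod_cast this

end Cfsg.Agent.S4765
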