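import Cfsg.Statements.S4768
import Mathlib
import Cfsg.Agent.BLK.Ito
import Cfsg.Agent.CHAR.LinExt
import Cfsg.Agent.CHAR.Gallagher

set_option autoImplicit false
open Cfsg

namespace Cfsg.Agent.S4768

open CL CL.Blk CL.Char MonoidAlgebra
open scoped CL.MSS commutatorElement
universe u
open scoped ComplexConjugate commutatorElement

open Subgroup in
theorem exists_lin_constit {P : Type*} [Group P] [Fintype P] {p : ℕ} [hp : Fact p.Prime]
    (hP : IsPGroup p P) {a : P → ℂ} (ha : IsCharacter P a) (hd : ¬ p ∣ charDegree a) :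
    ∃ μ : P →* ℂˣ, classInner a (fun g => (μ g : ℂ)) ≠ 0 := by
  classical
  by_contra hcon
  push Not at hcon
  obtain ⟨n, hn, hsum⟩ := ha.exists_nat_coeffs
  apply hd
  have h1 : charDegree a = ∑ χ : IrrCharacter P, n χ * charDegree (χ : P → ℂ) := by
    apply charDegree_eq_of_apply_one
    rw [hsum, Finset.sum_apply]
    push_cast
    exact Finset.sum_congr rfl fun χ _ => by
      rw [Pi.smul_apply, smul_eq_mul, χ.2.apply_one_eq_charDegree]
  rw [h1]
  refine Finset.dvd_sum fun χ _ => ?_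
  obtain ⟨k, hk⟩ := IsPGroup.iff_card.1 hP
  have h2 := χ.2.charDegree_dvd_card
  rw [hk] at h2
  obtain ⟨j, -, hj⟩ := (Nat.dvd_prime_pow hp.out).1 h2
  rcases Nat.eq_zero_or_pos j with rfl | hj0
  · obtain ⟨μ, hμ⟩ := χ.2.isCharacter.exists_hom
      (χ.2.isCharacter.charDegree_eq_one_iff.1 (by simpa using hj))
    have h3 := hn χ
    rw [hμ, hcon μ] at h3
    have : n χ = 0 := by exact_mod_cast h3.symm
    simp [this]
  · rw [hj]; exact Dvd.dvd.mul_left (dvd_pow_self p hj0.ne') _

open Subgroup in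
theorem comm_le {G : Type*} [Group G] [Finite G] {p : ℕ} [hp : Fact p.Prime]
    (hG : IsPSolvable p G) (P : Sylow p G) {N : Subgroup G} [hN : N.Normal] (hN0 : N ≠ ⊥)
    (hNp : IsPGroup p N)
    (h : ∀ χ, IsIrrCharacter G χ → ¬ (∀ n ∈ N, χ n = χ 1) → ¬ p ∣ charDegree χ) :
    ⁅(P : Subgroup G), (P : Subgroup G)⁆ ≤ N := by
  classical
  have := Fintype.ofFinite G
  have hNP : N ≤ P := hNp.le_sylow_of_normal P
  obtain ⟨x, hx, hx1⟩ := (bot_lt_iff_ne_bot.2 hN0 : ⊥ < N) |> SetLike.exists_of_lt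
  obtain ⟨χ, hχ, -, hχx⟩ := exists_irr_ker_of_not_mem (⊥ : Subgroup G) hx1
  have hχN : ¬ ∀ n ∈ N, χ n = χ 1 := fun h' => hχx (h' x hx)
  obtain ⟨μ, hμ⟩ := exists_lin_constit P.isPGroup' (hχ.isCharacter.res (P : Subgroup G))
    (h χ hχ hχN)
  let lam : N →* ℂˣ := μ.comp (inclusion hNP)
  have hlam : IsIrrCharacter N (fun n => (lam n : ℂ)) := isIrrCharacter_hom lam
  have hχlam : classInner (fun n : N => χ n) (fun n => (lam n : ℂ)) ≠ 0 :=
    inner_comp_ne_zero_of_constituent (inclusion hNP) (hχ.isCharacter.res (P : Subgroup G))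
      (isIrrCharacter_hom μ) hμ hlam.isCharacter (by
        have := hlam.inner_self
        exact ne_of_eq_of_ne this one_ne_zero)
  have hover : ∀ ψ, IsIrrCharacter G ψ →
      classInner (fun n : N => ψ n) (fun n => (lam n : ℂ)) ≠ 0 → ¬ ∀ n ∈ N, ψ n = ψ 1 := by
    intro ψ hψ h1 h2
    apply hχN
    have h3 : (fun n : N => ψ n) = ψ 1 • fun _ : N => (1 : ℂ) := by
      funext n; simp [h2 n n.2]
    rw [h3] at h1
    have h4 := eq_of_inner_smul_ne_zero isIrrCharacter_one hlam h1
    rw [← h4] at hχlam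
    exact (inner_res_one_ne_zero_iff hχ).1 hχlam
  let T := inertia N (fun n => (lam n : ℂ))
  have hNT : N ≤ T := le_inertia hlam.isClassFunction
  have hPT : (P : Subgroup G) ≤ T := by
    intro g hg n
    have : inclusion hNP ⟨g * n * g⁻¹, hN.conj_mem n n.2 g⟩ =
        ⟨g, hg⟩ * inclusion hNP n * (⟨g, hg⟩ : P)⁻¹ := rfl
    show ((μ (inclusion hNP ⟨g * n * g⁻¹, hN.conj_mem n n.2 g⟩) : ℂˣ) : ℂ) = μ (inclusion hNP n)
    rw [this, map_mul, map_mul, map_inv, mul_inv_cancel_comm]
  let N' := N.subgroupOf T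
  let lam' : N' →* ℂˣ := lam.comp (subgroupOfEquivOfLe hNT).toMonoidHom
  obtain ⟨ν, hν⟩ := exists_hom_ext_of_sylow N' lam' (fun g n => by
      have := g.2 ⟨n, n.2⟩
      exact Units.ext this) (fun q hq hqo => by
      refine ⟨(P : Subgroup G).subgroupOf T, subgroupOf_mono T hNP,
        μ.comp (subgroupOfEquivOfLe hPT).toMonoidHom, ?_, fun n => rfl⟩
      have h1 : q = p := by
        obtain ⟨k, hk⟩ := IsPGroup.iff_card.1 hNp
        have h2 : lam' ^ p ^ k = 1 := by
          ext n
          have : (subgroupOfEquivOfLe hNT n) ^ p ^ k = 1 := by rw [← hk]; exact pow_card_eq_one'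
          simp only [MonoidHom.pow_apply, MonoidHom.one_apply, lam', MonoidHom.comp_apply]
          rw [← map_pow]
          erw [this]
          rw [map_one]
        exact (Nat.prime_dvd_prime_iff_eq hq hp.out).1
          (hq.dvd_of_dvd_pow (hqo.trans (orderOf_dvd_of_pow_eq_one h2)))
      subst h1
      exact ((Nat.Prime.coprime_iff_not_dvd hq).2 (P.subtype hPT).not_dvd_index).symm)
  have hνN : IsIrrCharacter N' (fun n : N' => (ν n : ℂ)) := isIrrCharacter_hom (ν.comp N'.subtype)
  have hall : ∀ θ, IsIrrCharacter (T ⧸ N') θ → ¬ p ∣ charDegree θ := by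
    intro θ hθ hd
    have hβ := hθ.infl N'
    have hβN : ∀ n ∈ N', (fun g : T => θ g) n = (fun g : T => θ g) 1 :=
      fun n hn => infl_apply_of_mem N' θ hn
    have hψ := gallagher_irr (isIrrCharacter_hom ν).isCharacter hνN hβ hβN
    have hne : classInner (fun n : N => ((fun g : T => θ g) * fun g => (ν g : ℂ)) ⟨n, hNT n.2⟩)
        (fun n => (lam n : ℂ)) ≠ 0 := by
      have h3 : (fun n : N => ((fun g : T => θ g) * fun g => (ν g : ℂ)) ⟨n, hNT n.2⟩) =
          θ 1 • fun n => (lam n : ℂ) := by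
        funext n
        have h4 : θ ((⟨n, hNT n.2⟩ : T) : T ⧸ N') = θ 1 := hβN ⟨n, hNT n.2⟩ n.2
        have h5 := hν ⟨⟨n, hNT n.2⟩, n.2⟩
        simp only [Pi.mul_apply, Pi.smul_apply, smul_eq_mul]
        rw [h4]
        congr 1
        exact congrArg Units.val h5
      rw [h3, inner_smul_self hlam]
      exact hθ.one_ne_zero
    have h6 := clifford_ind_irr hNT hlam le_rfl hψ hne
    refine h _ h6 (hover _ h6 (by rw [clifford_ind_inner hNT hlam le_rfl hψ hne]; exact hne)) ?_
    rw [Char.charDegree_indFun T hψ.isCharacter]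
    refine Dvd.dvd.mul_left ?_ _
    have : charDegree ((fun g : T => θ g) * fun g => (ν g : ℂ)) = charDegree θ := by
      simp [charDegree]
    rw [this]; exact hd
  have hS := ((ito_iff (CL.IsPSolvable.quotient (CL.IsPSolvable.subgroup hG T) N')
    ((P.subtype hPT).mapSurjective (QuotientGroup.mk'_surjective N'))).2 hall).2
  rw [commutator_le]
  intro a ha b hb
  have h1 := hS (QuotientGroup.mk' N' ⟨a, hPT ha⟩) (mem_map_of_mem _ ha)
    (QuotientGroup.mk' N' ⟨b, hPT hb⟩) (mem_map_of_mem _ hb)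
  have h2 : QuotientGroup.mk' N' ⁅(⟨a, hPT ha⟩ : T), ⟨b, hPT hb⟩⁆ = 1 := by
    rw [map_commutatorElement, commutatorElement_eq_one_iff_mul_comm, h1]
  exact (QuotientGroup.eq_one_iff (N := N') _).1 h2

open Subgroup in
theorem aux (p : ℕ) [hp : Fact p.Prime] (m : ℕ) : ∀ (G : Type u) [Group G] [Finite G],
    Nat.card G = m → IsPSolvable p G → ∀ P : Sylow p G, derivedSeries ↥(P : Subgroup G)
      (Nat.card {χ : IrrCharacter G // p ∣ charDegree (χ : G → ℂ)} + 1) = ⊥ := by
  induction m using Nat.strong_induction_on with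
  | _ m ih => ?_
  intro G _ _ hm hG P
  classical
  rcases subsingleton_or_nontrivial G with hG1 | hG1
  · exact Subsingleton.elim _ _
  obtain ⟨N, hN⟩ := exists_isMinNormal G
  have := hN.normal
  have hlt : Nat.card (G ⧸ N) < m := by
    rw [← hm, card_eq_card_quotient_mul_card_subgroup N]
    have := hN.nontrivial
    exact lt_mul_of_one_lt_right Nat.card_pos Finite.one_lt_card
  have h1 := ih _ hlt (G ⧸ N) rfl (CL.IsPSolvable.quotient hG N)
    (P.mapSurjective (QuotientGroup.mk'_surjective N))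
  set n' := Nat.card {χ : IrrCharacter (G ⧸ N) // p ∣ charDegree (χ : G ⧸ N → ℂ)} with hn'
  set n := Nat.card {χ : IrrCharacter G // p ∣ charDegree (χ : G → ℂ)} with hn
  have h2 : derivedSeries (P : Subgroup G) (n' + 1) ≤ N.subgroupOf P := by
    intro x hx
    have h3 := map_derivedSeries_le_derivedSeries
      ((QuotientGroup.mk' N).subgroupMap (P : Subgroup G)) (n' + 1) (mem_map_of_mem _ hx)
    have h4 : derivedSeries ↥((P : Subgroup G).map (QuotientGroup.mk' N)) (n' + 1) = ⊥ := h1
    rw [h4, mem_bot] at h3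
    exact (QuotientGroup.eq_one_iff (N := N) _).1 (congrArg Subtype.val h3)
  let ι : {χ : IrrCharacter (G ⧸ N) // p ∣ charDegree (χ : G ⧸ N → ℂ)} →
      {χ : IrrCharacter G // p ∣ charDegree (χ : G → ℂ)} := fun χ =>
    ⟨irrInfl (QuotientGroup.mk' N) (QuotientGroup.mk'_surjective N) χ.1, χ.2⟩
  have hι : Function.Injective ι := fun a b hab =>
    Subtype.ext (irrInfl_injective _ (QuotientGroup.mk'_surjective N) (congrArg Subtype.val hab))
  have hanti : ∀ {a b : ℕ}, a ≤ b → derivedSeries (P : Subgroup G) a = ⊥ →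
      derivedSeries (P : Subgroup G) b = ⊥ := fun hab h =>
    le_bot_iff.1 (h ▸ derivedSeries_antitone _ hab)
  have hle : n' ≤ n := Nat.card_le_card_of_injective ι hι
  rcases hN.isPGroup_or_coprime (CL.IsPSolvable.subgroup hG N) with hNp | hNp
  · have hc := (hN.isElementaryAbelian_of_isPGroup hNp).1
    have hstep : ∀ k, derivedSeries (P : Subgroup G) k ≤ N.subgroupOf P →
        derivedSeries (P : Subgroup G) (k + 1) = ⊥ := by
      intro k hk
      rw [derivedSeries_succ, eq_bot_iff, commutator_le]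
      intro a ha b hb
      rw [mem_bot, commutatorElement_eq_one_iff_mul_comm]
      exact Subtype.ext (congrArg Subtype.val
        (hc.is_comm.comm (⟨a, hk ha⟩ : N) ⟨b, hk hb⟩) :)
    by_cases hex : ∃ χ, IsIrrCharacter G χ ∧ ¬ (∀ n ∈ N, χ n = χ 1) ∧ p ∣ charDegree χ
    · obtain ⟨χ, hχ, hχN, hχp⟩ := hex
      have hlt' : n' < n := by
        refine lt_of_le_of_ne hle fun he => hχN ?_
        have hs := ((Nat.bijective_iff_injective_and_card ι).2 ⟨hι, he⟩).2
        obtain ⟨ψ, hψ⟩ := hs ⟨⟨χ, hχ⟩, hχp⟩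
        have h5 := (mem_range_irrInfl (QuotientGroup.mk' N) (QuotientGroup.mk'_surjective N)
          ⟨χ, hχ⟩).1 ⟨ψ.1, congrArg Subtype.val hψ⟩
        exact fun x hx => h5 x ((QuotientGroup.eq_one_iff x).2 hx)
      exact hanti (by omega) (hstep _ h2)
    · push Not at hex
      rcases Nat.eq_zero_or_pos n with h0 | h0
      · have h5 : ∀ χ, IsIrrCharacter G χ → ¬ p ∣ charDegree χ := by
          intro χ hχ hd
          have : Nonempty {χ : IrrCharacter G // p ∣ charDegree (χ : G → ℂ)} := ⟨⟨⟨χ, hχ⟩, hd⟩⟩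
          have : 0 < n := Nat.card_pos
          omega
        have h6 := ((ito_iff hG P).2 h5).2
        rw [h0, derivedSeries_succ, eq_bot_iff, commutator_le]
        intro a _ b _
        rw [mem_bot, commutatorElement_eq_one_iff_mul_comm]
        exact Subtype.ext (h6 a a.2 b b.2)
      · have h5 := comm_le hG P hN.ne_bot hNp (fun χ hχ h => hex χ hχ (by push Not at h; exact h))
        refine hanti (a := 2) (by omega) (hstep 1 ?_)
        rw [derivedSeries_succ, commutator_le]
        intro a _ b _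
        exact h5 (commutator_mem_commutator a.2 b.2)
  · refine hanti (a := n' + 1) (by omega) (le_bot_iff.1 (h2.trans ?_))
    intro x hx
    have h5 : orderOf (x : G) ∣ Nat.card N := N.orderOf_dvd_natCard hx
    obtain ⟨k, hk⟩ := P.isPGroup' x
    have h6 : orderOf (x : G) ∣ p ^ k := orderOf_dvd_of_pow_eq_one (congrArg Subtype.val hk)
    exact Subtype.ext (orderOf_eq_one_iff.1
      (Nat.eq_one_of_dvd_coprimes (hNp.pow_right k) h5 h6))

/-- Let p be a prime, G a finite p-solvable group and P a Sylow p-subgroup of G. If n is the number of irreducible complex characters of G whose degree is divisible by p, then the (n+1)-st term of the derived series of P is trivial. (The p-solvable case has a direct inductive proof.) -/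
theorem result {G : Type*} [Group G] [Finite G] (p : ℕ) [Fact p.Prime] (hG : Cfsg.IsPSolvable p G) (P : Sylow p G) : derivedSeries ↥(P : Subgroup G) (Nat.card {χ : Cfsg.IrrCharacter G // p ∣ Cfsg.charDegree (χ : G → ℂ)} + 1) = ⊥ := by
  exact aux p _ G rfl hG P

end Cfsg.Agent.S4768
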