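import Cfsg.Statements.S4782
import Cfsg.Agent.CHAR.Burnside
import Cfsg.Agent.BLK.Ito

set_option autoImplicit false
open Cfsg

namespace Cfsg.Agent.S4782

open CL.Char

theorem simple {G : Type*} [Group G] [Finite G] [IsSimpleGroup G] {p q : ℕ} (hp : p.Prime) (hq : q.Prime)
    (h : ∀ r : ℕ, r.Prime → r ≠ p → r ≠ q → ∀ χ, IsIrrCharacter G χ → ¬ r ∣ charDegree χ) (hd : p ∣ Nat.card G)
    (x y : G) : x * y = y * x := by
  have := Fact.mk hp
  obtain ⟨Q⟩ : Nonempty (Sylow p G) := inferInstance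
  have : Nontrivial (Q : Subgroup G) := (Subgroup.nontrivial_iff_ne_bot _).mpr (Q.ne_bot_of_dvd_card hd)
  have := Q.isPGroup'.center_nontrivial
  obtain ⟨⟨z, hz⟩, hz1⟩ := exists_ne (1 : Subgroup.center (Q : Subgroup G))
  have hz1' : (z : G) ≠ 1 := fun h => hz1 (Subtype.ext (Subtype.ext h))
  have hle : (Q : Subgroup G) ≤ Subgroup.centralizer ({(z : G)} : Set G) := fun w hw => by
    rw [Subgroup.mem_centralizer_singleton_iff]
    exact congrArg Subtype.val (Subgroup.mem_center_iff.mp hz ⟨w, hw⟩)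
  obtain ⟨χ, hχ, h1, hd, h0⟩ := exists_irr_coprime_apply_ne_zero hq hz1'
  have hc := hχ.mem_charCenter.mpr ((hχ.eq_zero_or_norm_eq (z : G) (Nat.coprime_of_dvd fun r hr h2 h3 => by
    by_cases e : r = p
    · exact Q.not_dvd_index ((e ▸ h3 : p ∣ _).trans (Subgroup.index_dvd_of_le hle))
    · exact h r hr e (fun e => hd (e ▸ h2)) χ hχ h2)).resolve_left h0)
  rw [hχ.charCenter_eq_center (hχ.charKer_eq_bot_of_simple h1)] at hc
  exact mul_comm_of_simple_of_mem_center hz1' hc x y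

universe u in
theorem solv {p q : ℕ} (hp : p.Prime) (hq : q.Prime) (n : ℕ) : ∀ (G : Type u) [Group G] [Finite G], Nat.card G = n →
    (∀ r : ℕ, r.Prime → r ≠ p → r ≠ q → ∀ χ, IsIrrCharacter G χ → ¬ r ∣ charDegree χ) → Group.IsSolvable G := by
  induction n using Nat.strong_induction_on with
  | _ n ih =>
  intro G _ _ hn h
  subst hn
  rcases subsingleton_or_nontrivial G with h0 | h0
  · infer_instance
  by_cases hs : IsSimpleGroup G
  · refine IsSimpleGroup.comm_iff_isSolvable.1 ?_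
    by_cases hd : p ∣ Nat.card G
    · exact simple hp hq h hd
    · obtain ⟨s, hs, hs'⟩ := Nat.exists_prime_and_dvd (Finite.one_lt_card (α := G)).ne'
      exact simple hs hq (fun r hr _ h2 χ hχ h3 => by
        by_cases e : r = p
        · exact hd (e ▸ h3.trans hχ.charDegree_dvd_card)
        · exact h r hr e h2 χ hχ h3) hs'
  · obtain ⟨N, hN, h1, h2⟩ : ∃ N : Subgroup G, N.Normal ∧ N ≠ ⊥ ∧ N ≠ ⊤ := by
      by_contra hc
      exact hs ⟨fun N hN => by by_contra h'; exact hc ⟨N, hN, fun e => h' (.inl e), fun e => h' (.inr e)⟩⟩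
    have := ih _ (by
      rw [← N.card_mul_index]
      exact lt_mul_of_one_lt_right Nat.card_pos (Subgroup.one_lt_index_of_ne_top h2)) N rfl fun r hr a b => CL.Blk.forall_not_dvd_normal (h r hr a b) N
    have := ih _ (by
      rw [N.card_eq_card_quotient_mul_card_subgroup]
      exact lt_mul_of_one_lt_right Nat.card_pos (N.one_lt_card_iff_ne_bot.2 h1)) (G ⧸ N) rfl
      fun r hr a b => CL.Blk.forall_not_dvd_quot (h r hr a b) N
    exact Group.isSolvable_of_ker_le_range N.subtype (QuotientGroup.mk' N) (by simp)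

/-- If the finite group G is not solvable, then at least three distinct primes each divide some irreducible complex character degree of G. -/
theorem result {G : Type*} [Group G] [Finite G] (hG : ¬ Group.IsSolvable G) : ∃ p q r : ℕ, p ≠ q ∧ q ≠ r ∧ p ≠ r ∧ p ∈ Cfsg.degreePrimes G ∧ q ∈ Cfsg.degreePrimes G ∧ r ∈ Cfsg.degreePrimes G := by
  by_contra hc
  obtain ⟨p, q, hp, hq, h⟩ : ∃ p q : ℕ, p.Prime ∧ q.Prime ∧ ∀ r ∈ Cfsg.degreePrimes G, r = p ∨ r = q := by
    by_cases h1 : ∃ p, p ∈ Cfsg.degreePrimes G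
    · obtain ⟨p, hp⟩ := h1
      by_cases h2 : ∃ q ∈ Cfsg.degreePrimes G, p ≠ q
      · obtain ⟨q, hq, e⟩ := h2
        refine ⟨p, q, hp.1, hq.1, fun r hr => ?_⟩
        by_contra h3
        exact hc ⟨p, q, r, e, fun e => h3 (.inr e.symm), fun e => h3 (.inl e.symm), hp, hq, hr⟩
      · exact ⟨p, p, hp.1, hp.1, fun r hr => .inl (by by_contra e; exact h2 ⟨r, hr, fun e' => e e'.symm⟩)⟩
    · exact ⟨2, 2, Nat.prime_two, Nat.prime_two, fun r hr => absurd ⟨r, hr⟩ h1⟩
  exact hG (solv hp hq _ G rfl fun r hr a b χ hχ hd => (h r ⟨hr, _, ⟨⟨χ, hχ⟩, rfl⟩, hd⟩).elim a b)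

end Cfsg.Agent.S4782
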