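import Cfsg.Statements.S4784
import Cfsg.Agent.CHAR.FS
import Cfsg.Agent.CHAR.PermChar
import Cfsg.Agent.CHAR.Primitive
import Cfsg.Agent.CHAR.Faithful
import Cfsg.Agent.CHAR.BrauerPerm

set_option autoImplicit false
open Cfsg

open CL.Char
namespace Cfsg.Agent.S4784

/-- Let H be a subgroup of the finite group G and consider the permutation character of G on the cosets of H (the function induced from the principal character of H). Then exactly one irreducible constituent of it is real-valued with Frobenius–Schur indicator +1 (namely the principal character) if and only if the normal core of H has odd index in G. -/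
theorem result {G : Type*} [Group G] [Fintype G] (H : Subgroup G) : Nat.card {χ : Cfsg.IrrCharacter G // Cfsg.classInner (Cfsg.indFun H (fun _ : H => (1 : ℂ))) (χ : G → ℂ) ≠ 0 ∧ (∀ g : G, (starRingEnd ℂ) ((χ : G → ℂ) g) = (χ : G → ℂ) g) ∧ (Nat.card G : ℂ)⁻¹ * ∑ g : G, (χ : G → ℂ) (g * g) = 1} = 1 ↔ Odd H.normalCore.index := by
  classical
  have := Fintype.ofFinite H
  set π : G → ℂ := indFun H (fun _ : H => (1 : ℂ)) with hπ
  have hπc : IsCharacter G π := (isCharacter_one (G := H)).ind
  have hπ1 : classInner π (fun _ => 1) = 1 := by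
    rw [hπ, classInner_indFun_left H _ (isClassFunction_const 1)]
    exact classInner_one_one
  have h1mem : Cfsg.classInner π (irrOne G : G → ℂ) ≠ 0 ∧
      (∀ g : G, (starRingEnd ℂ) ((irrOne G : G → ℂ) g) = (irrOne G : G → ℂ) g) ∧
      (Nat.card G : ℂ)⁻¹ * ∑ g : G, (irrOne G : G → ℂ) (g * g) = 1 := by
    refine ⟨?_, fun g => by simp [irrOne_apply], ?_⟩
    · rw [irrOne_coe, hπ1]; exact one_ne_zero
    · rw [← fsInd_def, irrOne_coe, fsInd_one]
  constructor
  · intro h
    by_contra hodd
    rw [Nat.not_odd_iff_even] at hodd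
    have huniq : ∀ χ : IrrCharacter G, classInner π χ ≠ 0 → fsInd (χ : G → ℂ) = 1 →
        χ = irrOne G := by
      intro χ h1 h2
      have h3 : ∀ g, ((χ : G → ℂ) g).im = 0 := by
        by_contra hc
        push Not at hc
        rw [χ.2.fsInd_eq_zero_of_not_real hc] at h2
        exact zero_ne_one h2
      have := (Nat.card_eq_one_iff_unique.mp h).1.elim
        ⟨χ, h1, fun g => Complex.conj_eq_iff_im.mpr (h3 g), h2⟩ ⟨irrOne G, h1mem⟩
      exact congrArg Subtype.val this
    obtain ⟨m, hm, hsum⟩ := hπc.exists_nat_coeffs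
    have hfs : fsInd π = ∑ χ : IrrCharacter G, (m χ : ℂ) * fsInd (χ : G → ℂ) := by
      conv_lhs => rw [hsum]
      simp only [fsInd_def, Finset.sum_apply, Pi.smul_apply, smul_eq_mul, Finset.mul_sum]
      rw [Finset.sum_comm]
      refine Finset.sum_congr rfl fun χ _ => Finset.sum_congr rfl fun g _ => by ring
    have hle : (fsInd π).re ≤ 1 := by
      rw [hfs, Complex.re_sum, ← Finset.add_sum_erase _ _ (Finset.mem_univ (irrOne G))]
      have e1 : ((m (irrOne G) : ℂ) * fsInd (irrOne G : G → ℂ)).re = 1 := by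
        rw [← hm, irrOne_coe, hπ1, fsInd_one]; simp
      have e2 : ∑ χ ∈ Finset.univ.erase (irrOne G),
          ((m χ : ℂ) * fsInd (χ : G → ℂ)).re ≤ 0 := by
        refine Finset.sum_nonpos fun χ hχ => ?_
        by_cases h0 : m χ = 0
        · simp [h0]
        rcases χ.2.fsInd_trichotomy with h2 | h2 | h2
        · simp [h2]
        · exact absurd (huniq χ (by rw [hm]; exact_mod_cast h0) h2) (Finset.ne_of_mem_erase hχ)
        · simp [h2]
      linarith
    have hv : ∀ g, π g = (Nat.card (MulAction.fixedBy (G ⧸ H) g) : ℂ) :=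
      indFun_one_eq_card_fixedBy H
    have hsumπ : ∑ g : G, Nat.card (MulAction.fixedBy (G ⧸ H) g) = Nat.card G := by
      have := card_mul_classInner π (fun _ => 1)
      rw [hπ1] at this
      simp only [hv, map_one, mul_one] at this
      exact_mod_cast this.symm
    have hsub : ∀ g : G, MulAction.fixedBy (G ⧸ H) g ⊆ MulAction.fixedBy (G ⧸ H) (g * g) := by
      intro g x hx
      rw [MulAction.mem_fixedBy] at hx ⊢
      rw [mul_smul, hx, hx]
    have : Fact (Nat.Prime 2) := ⟨Nat.prime_two⟩
    obtain ⟨q, hq⟩ := exists_prime_orderOf_dvd_card' (G := G ⧸ H.normalCore) 2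
      (even_iff_two_dvd.mp hodd)
    obtain ⟨x, rfl⟩ := QuotientGroup.mk_surjective q
    have hx1 : x ∉ H.normalCore := by
      intro hx
      rw [(QuotientGroup.eq_one_iff x).mpr hx, orderOf_one] at hq
      omega
    have hx2 : x * x ∈ H.normalCore := by
      rw [← QuotientGroup.eq_one_iff, QuotientGroup.mk_mul, ← pow_two, ← hq, pow_orderOf_eq_one]
    rw [Subgroup.normalCore_eq_ker, MonoidHom.mem_ker] at hx1 hx2
    have hlt : ∑ g : G, Nat.card (MulAction.fixedBy (G ⧸ H) g) <
        ∑ g : G, Nat.card (MulAction.fixedBy (G ⧸ H) (g * g)) := by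
      refine Finset.sum_lt_sum (fun g _ => Nat.card_mono (Set.toFinite _) (hsub g))
        ⟨x, Finset.mem_univ _, ?_⟩
      rw [Nat.card_coe_set_eq, Nat.card_coe_set_eq]
      refine Set.ncard_lt_ncard ⟨hsub x, fun hc => hx1 ?_⟩ (Set.toFinite _)
      ext y
      have : y ∈ MulAction.fixedBy (G ⧸ H) (x * x) := by
        rw [MulAction.mem_fixedBy]
        exact congrArg (fun σ : Equiv.Perm (G ⧸ H) => σ y) hx2
      exact hc this
    rw [hsumπ] at hlt
    have hpos : (0 : ℝ) < Nat.card G := by exact_mod_cast Nat.card_pos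
    have : (fsInd π).re = (Nat.card G : ℝ)⁻¹ *
        ((∑ g : G, Nat.card (MulAction.fixedBy (G ⧸ H) (g * g)) : ℕ) : ℝ) := by
      rw [fsInd_def]
      simp only [hv]
      rw [← Nat.cast_sum, ← Complex.ofReal_natCast, ← Complex.ofReal_natCast, ← Complex.ofReal_inv,
        ← Complex.ofReal_mul, Complex.ofReal_re]
    rw [this, inv_mul_le_iff₀ hpos, mul_one] at hle
    exact absurd (by exact_mod_cast hle) (not_le.mpr hlt)
  · intro hodd
    rw [Nat.card_eq_one_iff_unique]
    refine ⟨⟨?_⟩, ⟨⟨irrOne G, h1mem⟩⟩⟩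
    have key : ∀ χ : IrrCharacter G, classInner π χ ≠ 0 →
        (∀ g : G, (starRingEnd ℂ) ((χ : G → ℂ) g) = (χ : G → ℂ) g) → χ = irrOne G := by
      intro χ h1 h2
      have hk : H.normalCore ≤ charKer (χ : G → ℂ) :=
        (le_charKer_indFun H.normalCore_le isCharacter_one (fun _ _ => rfl)).trans
          (hπc.charKer_le_of_inner_ne_zero χ.2 h1)
      obtain ⟨ψ, hψ, e⟩ := χ.2.exists_quot H.normalCore
        (χ.2.isCharacter.le_charKer_iff.mp hk)
      have := hψ.eq_one_of_real_of_odd hodd (fun q => by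
        obtain ⟨g, rfl⟩ := QuotientGroup.mk_surjective q
        have := h2 g
        rw [e] at this
        exact Complex.conj_eq_iff_im.mp this)
      rw [eq_irrOne_iff, e, this]
    rintro ⟨a, ha1, ha2, -⟩ ⟨b, hb1, hb2, -⟩
    exact Subtype.ext ((key a ha1 ha2).trans (key b hb1 hb2).symm)

end Cfsg.Agent.S4784
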