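import Cfsg.Statements.S4793
import Cfsg.Agent.CLAS.WU.Deg
import Cfsg.Agent.CLAS.WU.Tor
import Cfsg.Agent.CLAS.WU.Odd
import Cfsg.Agent.CLAS.WU.Br

set_option autoImplicit false
open Cfsg

namespace Cfsg.Agent.S4793

/-- Let F be a finite field with q² elements, n ≥ 3 with n coprime to 2(q + 1), and G a finite group isomorphic to the projective special unitary group PSU(n, q). Then G has exactly one irreducible complex character of degree (qⁿ − q)/(q + 1), and an irreducible character χ of G has nonzero inner product with the conjugation character g ↦ #C_G(g) (is a constituent of the permutation character of G on itself by conjugation) if and only if its degree is not (qⁿ − q)/(q + 1). -/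
theorem result {G : Type*} [Group G] [Fintype G] (n q : ℕ) (F : Type*) [Field F] [Fintype F] (hF : Fintype.card F = q ^ 2) (hn : 3 ≤ n) (hcop : Nat.Coprime n (2 * (q + 1))) (hG : Nonempty (G ≃* Cfsg.PSU n F q)) : Nat.card {χ : Cfsg.IrrCharacter G // Cfsg.charDegree (χ : G → ℂ) = (q ^ n - q) / (q + 1)} = 1 ∧ ∀ χ : Cfsg.IrrCharacter G, Cfsg.classInner (χ : G → ℂ) (fun g : G => (Nat.card ↥(Subgroup.centralizer ({g} : Set G)) : ℂ)) ≠ 0 ↔ Cfsg.charDegree (χ : G → ℂ) ≠ (q ^ n - q) / (q + 1) := by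
  classical
  obtain ⟨e⟩ := hG
  have hcop' : Nat.Coprime n (q + 1) := Nat.Coprime.coprime_dvd_right (Dvd.intro_left 2 rfl) hcop
  have hodd : Odd n := by
    have := Nat.Coprime.coprime_dvd_right (Dvd.intro (q + 1) rfl) hcop
    exact Nat.coprime_two_right.1 this
  obtain ⟨π, hπs, hπ⟩ := CL.WU.exists_proj hF hn hcop' e
  have hf : (CL.Uni.std hF (Fin n)).Nondeg := CL.Uni.std_nondeg hF _
  have hn' : Module.finrank F (Fin n → F) = n := by simp
  have h3 : 3 ≤ Module.finrank F (Fin n → F) := hn'.symm ▸ hn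
  have hc2 : Nat.Coprime (Module.finrank F (Fin n → F)) (2 * (q + 1)) := hn'.symm ▸ hcop
  have hc1 : Nat.Coprime (Module.finrank F (Fin n → F)) (q + 1) := hn'.symm ▸ hcop'
  have ho : Odd (Module.finrank F (Fin n → F)) := hn'.symm ▸ hodd
  have hpull : ∀ χ : IrrCharacter G,
      IsIrrCharacter (CL.Uni.std hF (Fin n)).O (fun x => χ.1 (π x)) :=
    fun χ => χ.2.comp_surjective π hπs
  have hcen : ∀ χ : G → ℂ, CL.WU.Cen (CL.Uni.std hF (Fin n)) (fun x => χ (π x)) 1 := by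
    intro χ z g
    simp [map_mul, (hπ _).2 ⟨z, rfl⟩]
  obtain ⟨ζ, hζ, hζπ⟩ := CL.WU.exists_desc π hπs hπ (CL.WU.isIrr_ze hf (by omega) 1)
    (CL.WU.cen_ze 1)
  have hinj : ∀ χ : G → ℂ, (fun x => χ (π x)) = CL.WU.ze (CL.Uni.std hF (Fin n)) 1 → χ = ζ := by
    intro χ h
    funext g
    obtain ⟨x, rfl⟩ := hπs g
    rw [hζπ, ← h]
  have hζ1 : ((q : ℂ) + 1) * ζ 1 = (q : ℂ) ^ n - q := by
    have := CL.WU.ze_one (f := CL.Uni.std hF (Fin n)) (by omega) 1
    rw [hn', if_pos rfl, hodd.neg_one_pow, ← hζπ, map_one] at this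
    rw [this]; ring
  obtain ⟨m, hm⟩ := hζ.isCharacter.exists_nat_degree
  have hm' : (q + 1) * m + q = q ^ n := by
    rw [hm] at hζ1
    have : (((q + 1) * m + q : ℕ) : ℂ) = ((q ^ n : ℕ) : ℂ) := by
      push_cast; rw [hζ1]; ring
    exact_mod_cast this
  have hm'' : (q ^ n - q) / (q + 1) = m := by
    rw [← hm', Nat.add_sub_cancel, Nat.mul_div_cancel_left _ (Nat.succ_pos q)]
  have key : ∀ χ : IrrCharacter G,
      charDegree (χ : G → ℂ) = (q ^ n - q) / (q + 1) ↔ (χ : G → ℂ) = ζ := by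
    intro χ
    rw [hm'']
    constructor
    · intro h
      obtain ⟨k, hk⟩ := χ.2.isCharacter.exists_nat_degree
      have hkm : k = m := by
        rw [← h, charDegree, hk]; simp
      refine hinj _ (CL.WU.eq_ze_of_deg hf h3 hc2 (hpull χ) (hcen _) ?_)
      rw [map_one, hk, hkm, ← hm, hζ1, hn']
    · intro h
      rw [h, charDegree, hm]; simp
  have hgs : ∀ (χ : G → ℂ) (x : (CL.Uni.std hF (Fin n)).O),
      CL.WU.gsum (fun y => χ (π y)) (Subgroup.centralizer {x}) =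
        Nat.card π.ker * CL.WU.gsum χ (Subgroup.centralizer {π x}) := by
    intro χ x
    rw [← CL.WU.cent_comap hf hc1 π hπ x, CL.WU.gsum_comp π χ _ hπs]
  have hker : (Nat.card π.ker : ℂ) ≠ 0 := CL.Char.card_ne_zero _
  refine ⟨?_, fun χ => ?_⟩
  · rw [Nat.card_eq_one_iff_unique]
    refine ⟨⟨fun a b => Subtype.ext (Subtype.ext ?_)⟩, ⟨⟨⟨ζ, hζ⟩, (key ⟨ζ, hζ⟩).2 rfl⟩⟩⟩
    rw [(key _).1 a.2, (key _).1 b.2]
  · rw [CL.WU.conj_inner_ne_zero_iff χ.2.isCharacter, Ne, key]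
    constructor
    · rintro ⟨g, hg⟩ h
      obtain ⟨x, rfl⟩ := hπs g
      have h1 := hgs χ.1 x
      have h2 : (fun y => χ.1 (π y)) = CL.WU.ze (CL.Uni.std hF (Fin n)) 1 := by
        funext y; rw [h, hζπ]
      rw [h2, CL.WU.gsum_ze_cent hf ho x] at h1
      exact hg ((mul_eq_zero.1 h1.symm).resolve_left hker)
    · intro h
      have hs : ¬ CL.WU.Hs (CL.Uni.std hF (Fin n)) (fun x => χ.1 (π x)) := fun hs =>
        h (hinj _ (CL.WU.eq_ze_of_hs hf h3 hc2 (hpull χ) (hcen _) hs))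
      obtain ⟨x, hx⟩ := CL.WU.exists_gsum_ne hf h3 hc2 (hpull χ) (hcen _) hs
      refine ⟨π x, fun h0 => hx ?_⟩
      rw [hgs, h0, mul_zero]

end Cfsg.Agent.S4793
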