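import Cfsg.Statements.S4796
import Mathlib
import Cfsg.Agent.BLK.Codeg

set_option autoImplicit false
open Cfsg

namespace Cfsg.Agent.S4796

open CL CL.Blk CL.Char MonoidAlgebra
open scoped CL.MSS
open scoped ComplexConjugate commutatorElement

/-- Let G be a finite group with a faithful irreducible complex character χ whose codegree #G / χ(1) is a prime p (for a faithful character the kernel is trivial, so the codegree is #G / χ(1)). Then either G is cyclic of order p, or G is a Frobenius group whose Frobenius kernel has order p: some proper non-trivial subgroup H satisfies H ∩ gHg⁻¹ = 1 for every element g outside H, and the set of elements lying in no conjugate of H, together with the identity, has exactly p elements. -/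
theorem result {G : Type*} [Group G] [Finite G] (χ : Cfsg.IrrCharacter G) (hfaith : ∀ g : G, (χ : G → ℂ) g = (χ : G → ℂ) 1 → g = 1) (p : ℕ) (hp : p.Prime) (hcod : Nat.card G = p * Cfsg.charDegree (χ : G → ℂ)) : (IsCyclic G ∧ Nat.card G = p) ∨ ∃ H : Subgroup G, Cfsg.IsFrobeniusComplement H ∧ Nat.card ↥(Cfsg.frobeniusKernel H) = p := by
  by_cases h1 : charDegree (χ : G → ℂ) = 1
  · rw [h1, mul_one] at hcod
    have := Fact.mk hp
    exact Or.inl ⟨isCyclic_of_prime_card hcod, hcod⟩
  obtain ⟨P, hn, hP, hi, hlt, hC⟩ := exists_normal_of_prime_codeg χ.2 hp hcod h1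
  have hd := χ.2.charDegree_pos
  obtain ⟨H, hH⟩ := Subgroup.exists_right_complement'_of_coprime (N := P) (by
    rw [hP, hi]
    exact (Nat.Prime.coprime_iff_not_dvd hp).2 fun h => absurd (Nat.le_of_dvd hd h) (not_le.2 hlt))
  have h2 := CL.CS.frobeniusKernel_eq_of_fpf hH (fun h => by
      rw [h, Subgroup.card_bot] at hP; exact hp.one_lt.ne hP)
    (fun h => h1 (by rw [← hi, hH.symm.index_eq_card, h, Subgroup.card_bot]))
    (fun h hh h0 => by
      have := Fact.mk hp
      have := Fact.mk (hP ▸ hp : (Nat.card P).Prime)
      rcases ((Subgroup.centralizer {h}).subgroupOf P).eq_bot_or_eq_top_of_prime_card with h3 | h3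
      · rw [Subgroup.subgroupOf_eq_bot] at h3
        exact h3.symm.eq_bot
      · rw [Subgroup.subgroupOf_eq_top] at h3
        have h4 : h ∈ P := hC (Subgroup.mem_centralizer_iff.2 fun y hy =>
          Subgroup.mem_centralizer_singleton_iff.1 (h3 hy))
        exact absurd (Subgroup.disjoint_def.1 hH.disjoint h4 hh) h0)
  exact Or.inr ⟨H, h2.1, by rw [h2.2]; exact hP⟩

end Cfsg.Agent.S4796
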