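import Cfsg.Statements.S4797
import Mathlib
import Cfsg.Agent.BLK.Codeg
import Cfsg.Agent.CHAR.Linear
import Cfsg.Agent.SOLV.Supersolvable
import Cfsg.Agent.TECH.Gamma

set_option autoImplicit false
open Cfsg

namespace Cfsg.Agent.S4797

open CL CL.Blk CL.Char MonoidAlgebra
open scoped CL.MSS
open scoped ComplexConjugate commutatorElement

/-- The codegree of an irreducible complex character χ of a finite group G is [G : ker χ] / χ(1), where ker χ is the set of elements at which χ takes the value χ(1). A non-trivial finite group is perfect if and only if no irreducible complex character of it has prime codegree. -/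
theorem result {G : Type*} [Group G] [Finite G] [Nontrivial G] : commutator G = ⊤ ↔ ∀ χ : Cfsg.IrrCharacter G, ¬ ((Nat.card G / (Nat.card {g : G // (χ : G → ℂ) g = (χ : G → ℂ) 1} * Cfsg.charDegree (χ : G → ℂ)))).Prime := by
  constructor
  · intro hG χ hp
    have := χ.2.charKer_normal
    obtain ⟨ψ, hψ, hχ⟩ := χ.2.exists_quot (charKer (χ : G → ℂ)) fun n hn => χ.2.mem_charKer.1 hn
    have hd : charDegree (χ : G → ℂ) = charDegree ψ := by
      exact (congrArg charDegree hχ).trans (charDegree_comp ψ (QuotientGroup.mk' _))
    have h1 := codeg_mul χ.2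
    set p := Nat.card G / (Nat.card {g : G // (χ : G → ℂ) g = (χ : G → ℂ) 1} *
      charDegree (χ : G → ℂ))
    rw [hd, Subgroup.index_eq_card] at h1
    have hQ : commutator (G ⧸ charKer (χ : G → ℂ)) = ⊤ := by
      have h2 := Subgroup.map_commutator (⊤ : Subgroup G) ⊤ (QuotientGroup.mk' (charKer (χ : G → ℂ)))
      rw [Subgroup.map_top_of_surjective _ (QuotientGroup.mk'_surjective _)] at h2
      rw [commutator_def, ← h2, ← commutator_def, hG,
        Subgroup.map_top_of_surjective _ (QuotientGroup.mk'_surjective _)]
    have := Fact.mk hp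
    by_cases h2 : charDegree ψ = 1
    · rw [h2, mul_one] at h1
      have h3 := (isCyclic_of_prime_card h1.symm).isMulCommutative
      rw [commutator_eq_bot] at hQ
      have h4 := congrArg (fun H : Subgroup (G ⧸ charKer (χ : G → ℂ)) => Nat.card H) hQ
      simp only [Subgroup.card_bot, Subgroup.card_top] at h4
      exact hp.one_lt.ne (h4.trans h1.symm)
    · obtain ⟨P, hn, hP, hi, hlt, hC⟩ := exists_normal_of_prime_codeg hψ hp h1.symm h2
      have h3 : IsCyclic P := isCyclic_of_prime_card hP
      have h4 := (commutator_le_centralizer_of_cyclic_normal P).trans hC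
      rw [hQ, top_le_iff] at h4
      rw [h4, Subgroup.index_top] at hi
      exact h2 hi.symm
  · intro h
    by_contra hG
    obtain ⟨M, hM, hle⟩ := (eq_top_or_exists_le_coatom (commutator G)).resolve_left hG
    have hn : M.Normal := ⟨fun n hn g => by
      have h1 : g * n * g⁻¹ = ⁅g, n⁆ * n := by rw [commutatorElement_def]; group
      rw [h1]
      exact M.mul_mem (hle (Subgroup.commutator_mem_commutator (Subgroup.mem_top _)
        (Subgroup.mem_top _))) hn⟩
    have hp := CL.Misc.prime_index_of_isCoatom hM
    obtain ⟨x, -, hx⟩ := SetLike.exists_of_lt hM.1.lt_top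
    obtain ⟨lam, h1, h2⟩ := exists_hom_of_not_mem M hle hx
    have h3 := codeg_mul (irrOfHom lam).2
    have h4 : charDegree (irrOfHom lam : G → ℂ) = 1 :=
      charDegree_eq_of_apply_one (by simp [irrOfHom_apply])
    have h5 : charKer (irrOfHom lam : G → ℂ) = M := by
      refine (hM.le_iff.1 fun n hn => (irrOfHom lam).2.mem_charKer.2 ?_).resolve_left fun h6 => ?_
      · simp [irrOfHom_apply, h1 n hn]
      · have h7 := (irrOfHom lam).2.mem_charKer.1 (h6 ▸ Subgroup.mem_top x)
        simp only [irrOfHom_apply, map_one, Units.val_one, Units.val_eq_one] at h7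
        exact h2 h7
    rw [h5] at h3
    nth_rewrite 2 [h4] at h3
    rw [mul_one] at h3
    exact h (irrOfHom lam) (h3 ▸ hp)

end Cfsg.Agent.S4797
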