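import Cfsg.Statements.S4798
import Mathlib
import Cfsg.Agent.BLK.Codeg

set_option autoImplicit false
open Cfsg

namespace Cfsg.Agent.S4798

open CL CL.Blk CL.Char MonoidAlgebra
open scoped CL.MSS
open scoped ComplexConjugate commutatorElement

/-- Let p be a prime and χ a faithful irreducible complex character of the finite group G (χ(g) = χ(1) only for g = 1), so that its codegree is #G / χ(1). Then #G / χ(1) is a power of p if and only if χ is induced from a character of a Sylow p-subgroup of G. -/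
theorem result {G : Type*} [Group G] [Fintype G] (p : ℕ) [Fact p.Prime] (χ : Cfsg.IrrCharacter G) (hfaith : ∀ g : G, (χ : G → ℂ) g = (χ : G → ℂ) 1 → g = 1) : (∃ k : ℕ, Nat.card G = p ^ k * Cfsg.charDegree (χ : G → ℂ)) ↔ ∃ (P : Sylow p G) (θ : ↥(P : Subgroup G) → ℂ), Cfsg.IsCharacter ↥(P : Subgroup G) θ ∧ (χ : G → ℂ) = Cfsg.indFun (P : Subgroup G) θ := by
  have hp : p.Prime := Fact.out
  constructor
  · rintro ⟨k, hk⟩
    obtain ⟨P⟩ : Nonempty (Sylow p G) := inferInstance
    have := Fintype.ofFinite (P : Subgroup G)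
    obtain ⟨n, hn⟩ := P.isPGroup'.exists_card_eq
    have h1 : (P : Subgroup G).index ∣ charDegree (χ : G → ℂ) := by
      refine Nat.Coprime.dvd_of_dvd_mul_left (m := p ^ k) ?_ (hk ▸ Subgroup.index_dvd_card _)
      exact Nat.Coprime.pow_right _ ((Nat.Prime.coprime_iff_not_dvd hp).2 P.not_dvd_index).symm
    obtain ⟨m, hm⟩ := h1
    have h0 : 0 < (P : Subgroup G).index := Nat.pos_of_ne_zero Subgroup.index_ne_zero_of_finite
    have h2 : m ∣ p ^ n := by
      have h3 := (P : Subgroup G).card_mul_index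
      rw [hk, hn, hm] at h3
      exact Dvd.intro_left (p ^ k) (Nat.eq_of_mul_eq_mul_left h0 (by linarith))
    obtain ⟨a, -, rfl⟩ := (Nat.dvd_prime_pow hp).1 h2
    have h3 : ∃ θ, IsIrrCharacter (P : Subgroup G) θ ∧
        classInner (fun x : (P : Subgroup G) => (χ : G → ℂ) x) θ ≠ 0 ∧ charDegree θ ≤ p ^ a := by
      by_contra h4
      push Not at h4
      have h5 := dvd_charDegree_of_forall (χ.2.isCharacter.res (P : Subgroup G)) (m := p ^ (a + 1))
        fun θ hθ hne => by
          obtain ⟨b, -, hb⟩ := (Nat.dvd_prime_pow hp).1 (hn ▸ hθ.charDegree_dvd_card)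
          have h6 := h4 θ hθ hne
          rw [hb] at h6 ⊢
          exact pow_dvd_pow _ ((Nat.pow_lt_pow_iff_right hp.one_lt).1 h6)
      rw [charDegree_res, hm, pow_succ, mul_comm (P : Subgroup G).index] at h5
      exact P.not_dvd_index (Nat.dvd_of_mul_dvd_mul_left (pow_pos hp.pos a) h5)
    obtain ⟨θ, hθ, hne, hle⟩ := h3
    exact ⟨P, θ, hθ.isCharacter, (eq_indFun_of_degree χ.2 hθ.isCharacter hne
      (hm ▸ Nat.mul_le_mul_left _ hle)).symm⟩
  · rintro ⟨P, θ, hθ, h⟩
    have h1 := hθ.irr_of_ind (h ▸ χ.2)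
    obtain ⟨n, hn⟩ := P.isPGroup'.exists_card_eq
    obtain ⟨c, hc⟩ := h1.charDegree_dvd_card
    obtain ⟨b, -, hb⟩ := (Nat.dvd_prime_pow hp).1 (hn ▸ Dvd.intro_left _ hc.symm)
    refine ⟨b, ?_⟩
    rw [h, charDegree_indFun _ hθ, ← (P : Subgroup G).card_mul_index, hc, hb]
    ring

end Cfsg.Agent.S4798
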