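import Cfsg.Statements.S4802
import Mathlib
import Cfsg.Agent.CHAR.Quot

set_option autoImplicit false
open Cfsg

namespace Cfsg.Agent.S4802

open CL CL.Char MonoidAlgebra
open scoped ComplexConjugate commutatorElement

/-- Let N < M be normal subgroups of the finite group G and g ∈ M ∖ N. Then the conjugacy class of g is exactly M ∖ N if and only if every irreducible complex character of G whose kernel contains N takes the same value at all elements of M ∖ N, and every irreducible complex character of G whose kernel does not contain N vanishes at g. -/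
theorem result {G : Type*} [Group G] [Finite G] (N M : Subgroup G) [N.Normal] [M.Normal] (hNM : N < M) (g : G) (hgM : g ∈ M) (hgN : g ∉ N) : {h : G | IsConj g h} = (M : Set G) \ (N : Set G) ↔ ((∀ χ : Cfsg.IrrCharacter G, (∀ x ∈ N, (χ : G → ℂ) x = (χ : G → ℂ) 1) → ∀ x ∈ M, x ∉ N → ∀ y ∈ M, y ∉ N → (χ : G → ℂ) x = (χ : G → ℂ) y) ∧ (∀ χ : Cfsg.IrrCharacter G, (∃ x ∈ N, (χ : G → ℂ) x ≠ (χ : G → ℂ) 1) → (χ : G → ℂ) g = 0)) := by
  classical
  constructor
  · intro h
    have h1 : ∀ x ∈ M, x ∉ N → IsConj g x := fun x hx hx' => by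
      have : x ∈ {h : G | IsConj g h} := by rw [h]; exact ⟨hx, hx'⟩
      exact this
    refine ⟨fun χ _ x hx hx' y hy hy' => ?_, fun χ ⟨x, hx, hx'⟩ => ?_⟩
    · exact χ.2.isClassFunction.eq_of_isConj ((h1 x hx hx').symm.trans (h1 y hy hy'))
    · refine χ.2.eq_zero_of_coset_isConj N (fun hk => hx' (hk x hx)) fun n hn => ?_
      exact h1 _ (M.mul_mem hgM (hNM.le hn)) fun h2 => hgN ((N.mul_mem_cancel_right hn).1 h2)
  · rintro ⟨h1, h2⟩
    ext z
    constructor
    · intro hz
      obtain ⟨c, rfl⟩ := isConj_iff.1 hz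
      exact ⟨Subgroup.Normal.conj_mem inferInstance g hgM c, fun h3 =>
        hgN ((Subgroup.Normal.mem_comm_iff inferInstance).1 h3 |> fun h4 => by simpa using h4)⟩
    · rintro ⟨hz, hz'⟩
      by_contra hc
      have h3 := column_not_conj hc
      have h4 : ∀ χ : IrrCharacter G, (χ : G → ℂ) g * (starRingEnd ℂ) ((χ : G → ℂ) z) =
          (χ : G → ℂ) g * (starRingEnd ℂ) ((χ : G → ℂ) g) := by
        intro χ
        by_cases hχ : ∀ x ∈ N, (χ : G → ℂ) x = (χ : G → ℂ) 1
        · rw [h1 χ hχ z hz hz' g hgM hgN]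
        · push Not at hχ
          rw [h2 χ hχ, zero_mul, zero_mul]
      rw [Finset.sum_congr rfl fun χ _ => h4 χ, column_conj (IsConj.refl _)] at h3
      exact card_ne_zero _ h3

end Cfsg.Agent.S4802
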