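import Cfsg.Statements.S4805
import Mathlib
import Cfsg.Agent.BLK.CaminaInv
import Cfsg.Agent.CHAR.Triple
import Cfsg.Agent.CHAR.PowCongr
import Cfsg.Agent.CHAR.Quot
import Cfsg.Agent.CHAR.Faithful
import Cfsg.Agent.S4456
import Cfsg.Agent.S0205

set_option autoImplicit false
open Cfsg

namespace Cfsg.Agent.S4805

open CL CL.Blk CL.Char MonoidAlgebra
open scoped commutatorElement ComplexConjugate
open scoped ComplexConjugate commutatorElement

open Subgroup in
theorem solv_of {G : Type*} [Group G] [Finite G] (M : Subgroup G) [M.Normal]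
    (h1 : Group.IsSolvable M) (h2 : Group.IsSolvable (G ⧸ M)) : Group.IsSolvable G := by
  refine Group.isSolvable_of_ker_le_range M.subtype (QuotientGroup.mk' M) ?_
  rw [QuotientGroup.ker_mk', Subgroup.range_subtype]

theorem solv_quot {G : Type*} [Group G] [Finite G] (M : Subgroup G) [M.Normal] {p k : ℕ}
    (hp : p.Prime) (h : M.index = p ^ k) : Group.IsSolvable (G ⧸ M) := by
  have : Fact p.Prime := ⟨hp⟩
  have := (IsPGroup.of_card (G := G ⧸ M) h).isNilpotent
  infer_instance

open Subgroup in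
theorem odd_case {G : Type*} [Group G] [Finite G] {p : ℕ} [hp : Fact p.Prime] (hp2 : p ≠ 2)
    {N K M : Subgroup G} [hN : N.Normal] [hK : K.Normal] [M.Normal] (hKN : K ≤ N)
    (hGN : commutator G ≤ N) {g : G} (hg : g ∈ N) (hgK : g ∉ K)
    (hconj : ∀ x ∈ N, x ∉ K → IsConj g x) (hNN : ⁅N, N⁆ ≤ K) (hgp : g ^ p ∈ K) {a : ℕ}
    (hga : g ^ p ^ a = 1) {n : ℕ} (hq : K.relIndex N = p ^ n) (hm : ¬ p ∣ N.index)
    (hc : Nat.card (centralizer {g}) ∣ N.index * p ^ n) (hMK : M ≤ K)
    (hM : (Nat.card M).Coprime p) : Group.IsNilpotent M := by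
  classical
  obtain ⟨P⟩ := (inferInstance : Nonempty (Sylow p G))
  have hPN : (P : Subgroup G) ≤ N := by
    intro x hx
    obtain ⟨k, hk⟩ := P.isPGroup' ⟨x, hx⟩
    have h1 : x ^ p ^ k ∈ N := by
      have : x ^ p ^ k = 1 := congrArg Subtype.val hk
      rw [this]; exact one_mem _
    exact mem_of_coprime_pow_mem N
      (Nat.Coprime.pow_left k ((Nat.Prime.coprime_iff_not_dvd hp.out).2 hm)) h1 (N.pow_index_mem x)
  have hrel : K.relIndex P = p ^ n := by
    have h1 : (K ⊔ P).relIndex N = 1 := by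
      have h2 : (K ⊔ P).relIndex N ∣ p ^ n := hq ▸ relIndex_dvd_of_le_left N le_sup_left
      have h3 : (K ⊔ P).relIndex N ∣ (P : Subgroup G).index :=
        (relIndex_dvd_of_le_left N le_sup_right).trans (relIndex_dvd_index_of_le hPN)
      exact Nat.eq_one_of_dvd_coprimes
        (Nat.Coprime.pow_left n ((Nat.Prime.coprime_iff_not_dvd hp.out).2 P.not_dvd_index)) h2 h3
    have h2 : K ⊔ P = N := le_antisymm (sup_le hKN hPN) (relIndex_eq_one.1 h1)
    rw [← hq, ← h2, relIndex_sup_left]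
  have hcent : ∀ x ∈ N, x ∉ K → Nat.card (centralizer {x}) = Nat.card (centralizer {g}) := by
    intro x hx hxK
    have h1 := card_conj_mul_card_centralizer x
    have h2 := card_conj_mul_card_centralizer g
    have h3 : Nat.card {y : G // IsConj x y} = Nat.card {y : G // IsConj g y} :=
      Nat.card_congr (Equiv.subtypeEquivRight fun y =>
        ⟨fun h => (hconj x hx hxK).trans h, fun h => (hconj x hx hxK).symm.trans h⟩)
    rw [h3, ← h2] at h1
    have : 0 < Nat.card {y : G // IsConj g y} :=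
      @Nat.card_pos _ ⟨⟨g, IsConj.refl g⟩⟩ _
    exact Nat.eq_of_mul_eq_mul_left this h1
  have hcommK : ∀ x ∈ N, ∀ y ∈ N, ⁅x, y⁆ ∈ K := fun x hx y hy =>
    hNN (commutator_mem_commutator hx hy)
  let K' := K.subgroupOf (P : Subgroup G)
  -- the Camina property in `P`
  have hcam : ∀ x : P, x ∉ K' → ∀ c ∈ K', ∃ y : P, y * x * y⁻¹ = x * c := by
    intro x hx c hcK
    have h1 : Nat.card (centralizer ({x} : Set P)) ≤ p ^ n := by
      obtain ⟨i, hi⟩ := IsPGroup.iff_card.1 (P.isPGroup'.to_subgroup (centralizer ({x} : Set P)))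
      have h2 : Nat.card (centralizer ({x} : Set P)) ∣ Nat.card (centralizer ({(x : G)} : Set G)) := by
        rw [← card_map_of_injective (P : Subgroup G).subtype_injective]
        refine card_dvd_of_le ?_
        rintro _ ⟨y, hy, rfl⟩
        exact mem_centralizer_singleton_iff.2
          (congrArg Subtype.val (mem_centralizer_singleton_iff.1 hy))
      rw [hcent x (hPN x.2) hx, hi] at h2
      rw [hi]
      exact Nat.le_of_dvd (pow_pos hp.out.pos n) (Nat.Coprime.dvd_of_dvd_mul_left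
        (Nat.Coprime.pow_left i ((Nat.Prime.coprime_iff_not_dvd hp.out).2 hm)) (h2.trans hc))
    let f : {y : P // IsConj x y} → K' := fun y => ⟨x⁻¹ * y, by
      obtain ⟨u, hu⟩ := isConj_iff.1 y.2
      have : x⁻¹ * (y : P) = ⁅x⁻¹, u⁆ := by rw [← hu, commutatorElement_def]; group
      rw [this]
      exact hcommK _ (hPN x⁻¹.2) _ (hPN u.2)⟩
    have hf : Function.Injective f := fun y z h =>
      Subtype.ext (mul_left_cancel (congrArg Subtype.val h))
    have h2 : Nat.card K' ≤ Nat.card {y : P // IsConj x y} := by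
      have h3 := card_conj_mul_card_centralizer x
      have h4 : Nat.card K' * p ^ n = Nat.card P := by rw [← hrel]; exact K'.card_mul_index
      refine Nat.le_of_mul_le_mul_right ?_ (pow_pos hp.out.pos n)
      exact h4.le.trans (h3.symm.le.trans (Nat.mul_le_mul_left _ h1))
    have hb := (Nat.bijective_iff_injective_and_card f).2
      ⟨hf, le_antisymm (Nat.card_le_card_of_injective f hf) h2⟩
    obtain ⟨y, hy⟩ := hb.2 ⟨c, hcK⟩
    obtain ⟨u, hu⟩ := isConj_iff.1 y.2
    refine ⟨u, ?_⟩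
    have : x⁻¹ * (y : P) = c := congrArg Subtype.val hy
    rw [hu, ← this, mul_inv_cancel_left]
  have hn : n ≠ 0 := by
    rintro rfl
    exact hgK (relIndex_eq_one.1 (by simpa using hq) hg)
  obtain ⟨x, hxP, hxK⟩ : ∃ x ∈ (P : Subgroup G), x ∉ K := by
    by_contra hcon
    push Not at hcon
    rw [relIndex_eq_one.2 hcon] at hrel
    exact hn ((Nat.pow_eq_one.1 hrel.symm).resolve_left hp.out.ne_one)
  have hC : ∀ c ∈ K', ∃ y : P, ⁅(⟨x, hxP⟩ : P), y⁆ = c := by
    intro c hc
    obtain ⟨y, hy⟩ := hcam (⟨x, hxP⟩ : P)⁻¹ (fun h => hxK (K'.inv_mem_iff.1 h)) c hc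
    exact ⟨y, by rw [commutatorElement_def, mul_assoc, mul_assoc, ← mul_assoc y, hy,
      mul_inv_cancel_left]⟩
  have hD : _root_.commutator P = K' := by
    apply le_antisymm
    · exact (commutator_le (H₁ := ⊤) (H₂ := ⊤)).2 fun a _ b _ =>
        hcommK _ (hPN a.2) _ (hPN b.2)
    · intro c hc
      obtain ⟨y, rfl⟩ := hC c hc
      exact commutator_mem_commutator (mem_top _) (mem_top _)
  -- the inverting automorphism
  let π := QuotientGroup.mk' K
  have hπN : ∀ u ∈ N, ∀ v ∈ N, π u * π v * (π u)⁻¹ = π v := by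
    intro u hu v hv
    rw [mul_inv_eq_iff_eq_mul, ← commutatorElement_eq_one_iff_mul_comm, ← map_commutatorElement]
    exact (QuotientGroup.eq_one_iff _).2 (hcommK u hu v hv)
  obtain ⟨s, hs⟩ := isConj_iff.1 (hconj g⁻¹ (N.inv_mem hg) (fun h => hgK (K.inv_mem_iff.1 h)))
  have hsN : ∀ v ∈ N, π s * π v * (π s)⁻¹ = (π v)⁻¹ := by
    intro v hv
    by_cases hvK : v ∈ K
    · have : π v = 1 := (QuotientGroup.eq_one_iff _).2 hvK
      simp [this]
    · obtain ⟨h, rfl⟩ := isConj_iff.1 (hconj v hv hvK)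
      have h1 : s * (h * g * h⁻¹) * s⁻¹ = ⁅s, h⁆ * (h * g * h⁻¹)⁻¹ * ⁅s, h⁆⁻¹ := by
        have : ⁅s, h⁆ * (h * g * h⁻¹)⁻¹ * ⁅s, h⁆⁻¹ =
            s * h * s⁻¹ * g⁻¹ * s * h⁻¹ * s⁻¹ := by
          simp only [commutatorElement_def]; group
        rw [this, ← hs]; group
      rw [← map_inv, ← map_mul, ← map_mul, h1, map_mul, map_mul, map_inv π ⁅s, h⁆,
        hπN _ (hGN (commutator_mem_commutator (mem_top s) (mem_top h))) _ (N.inv_mem hv), map_inv]
  obtain ⟨t, ht, n0, hn0, rfl⟩ := mem_sup_of_normal_right.1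
    ((Sylow.normalizer_sup_eq_top' P hPN).symm ▸ mem_top s)
  have htN : ∀ v ∈ N, π t * π v * (π t)⁻¹ = (π v)⁻¹ := by
    intro v hv
    rw [← hsN v hv, map_mul]
    conv_lhs => rw [← hπN n0 hn0 v hv]
    group
  let τ : P →* P := ((P : Subgroup G).normalizerMonoidHom ⟨t, ht⟩).toMonoidHom
  have hodd : Odd (Nat.card P) := by
    obtain ⟨k, hk⟩ := IsPGroup.iff_card.1 P.isPGroup'
    rw [hk]; exact (hp.out.odd_of_ne_two hp2).pow
  have := P.isPGroup'.isNilpotent
  have hZ := camina_class_two hodd τ (by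
      intro y
      rw [hD]
      show t * y * t⁻¹ * y ∈ K
      rw [← QuotientGroup.eq_one_iff]
      show π (t * y * t⁻¹ * y) = 1
      rw [map_mul, map_mul, map_mul, map_inv, htN y (hPN y.2), inv_mul_cancel])
    (by rw [hD]; exact hcam)
  rw [hD] at hZ
  refine isNilpotent_of_class_two (P₀ := K ⊓ P) P.isPGroup' inf_le_right
    (le_normalizer_of_normal) hM ?_ ?_ ?_ ?_ hxP (fun h => hxK h.1) ?_
  · intro c hc y hy
    exact congrArg Subtype.val (mem_center_iff.1 (hZ (show (⟨c, hc.2⟩ : P) ∈ K' from hc.1)) ⟨y, hy⟩)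
  · intro u hu v hv
    exact ⟨hcommK u (hPN hu) v (hPN hv), (P : Subgroup G).mul_mem
      ((P : Subgroup G).mul_mem ((P : Subgroup G).mul_mem hu hv) ((P : Subgroup G).inv_mem hu))
      ((P : Subgroup G).inv_mem hv)⟩
  · intro u hu
    refine ⟨?_, (P : Subgroup G).pow_mem hu p⟩
    by_cases huK : u ∈ K
    · exact K.pow_mem huK p
    · obtain ⟨h, rfl⟩ := isConj_iff.1 (hconj u (hPN hu) huK)
      rw [conj_pow]
      exact hK.conj_mem _ hgp h
  · intro u hu huK
    have huK' : u ∉ K := fun h => huK ⟨h, hu⟩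
    have hpa : ∀ v ∈ N, v ∉ K → v ^ p ^ a = 1 := by
      intro v hv hvK
      obtain ⟨h, rfl⟩ := isConj_iff.1 (hconj v hv hvK)
      rw [conj_pow, hga, mul_one, mul_inv_cancel]
    rw [eq_bot_iff]
    rintro y ⟨hyM, hyC⟩
    have h1 : Commute y u := mem_centralizer_singleton_iff.1 hyC
    have h2 := hpa (y * u) (N.mul_mem (hKN (hMK hyM)) (hPN hu))
      (fun h => huK' ((K.mul_mem_cancel_left (hMK hyM)).1 h))
    rw [h1.mul_pow, hpa u (hPN hu) huK', mul_one] at h2
    exact orderOf_eq_one_iff.1 (Nat.eq_one_of_dvd_coprimes (hM.pow_right a)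
      (M.orderOf_dvd_natCard hyM) (orderOf_dvd_of_pow_eq_one h2))
  · intro c hc
    obtain ⟨y, hy⟩ := hC ⟨c, hc.2⟩ hc.1
    exact ⟨y, y.2, congrArg Subtype.val hy⟩

/-- Let G be a finite group, g an element outside the centre of G, and χ an irreducible complex character of degree greater than one with χ(g) ≠ 0 such that every other irreducible character of degree greater than one vanishes at g. Then g lies in the derived subgroup G′ and χ(g) = −[G : G′]/χ(1); G′ is the union of the kernel of χ (the elements where χ takes the value χ(1)) and the conjugacy class of g, and χ vanishes outside G′; every irreducible character of degree greater than one whose kernel contains that of χ equals χ; and G is solvable. -/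
theorem result {G : Type*} [Group G] [Finite G] (g : G) (hg : g ∉ Subgroup.center G) (χ : Cfsg.IrrCharacter G) (hχ1 : Cfsg.charDegree (χ : G → ℂ) ≠ 1) (hχg : (χ : G → ℂ) g ≠ 0) (hother : ∀ ψ : Cfsg.IrrCharacter G, Cfsg.charDegree (ψ : G → ℂ) ≠ 1 → ψ ≠ χ → (ψ : G → ℂ) g = 0) : g ∈ commutator G ∧ (χ : G → ℂ) g = -(((commutator G).index : ℂ) / (χ : G → ℂ) 1) ∧ ((commutator G : Set G) = {x : G | (χ : G → ℂ) x = (χ : G → ℂ) 1} ∪ {h : G | IsConj g h}) ∧ (∀ x : G, x ∉ commutator G → (χ : G → ℂ) x = 0) ∧ (∀ ψ : Cfsg.IrrCharacter G, Cfsg.charDegree (ψ : G → ℂ) ≠ 1 → (∀ x : G, (χ : G → ℂ) x = (χ : G → ℂ) 1 → (ψ : G → ℂ) x = (ψ : G → ℂ) 1) → ψ = χ) ∧ Group.IsSolvable G := by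
  classical
  have := Fintype.ofFinite G
  set N := commutator G with hN
  have hχ := χ.2
  set d := charDegree (χ : G → ℂ) with hd
  have hd1 : (χ : G → ℂ) 1 = d := hχ.apply_one_eq_charDegree
  have hd0 : 0 < d := hχ.charDegree_pos
  have hd0' : (d : ℂ) ≠ 0 := by exact_mod_cast hd0.ne'
  set m := N.index with hm
  have hm0 : m ≠ 0 := Subgroup.index_ne_zero_of_finite
  have hm0' : (m : ℂ) ≠ 0 := by exact_mod_cast hm0
  have hlin : ∀ ψ : IrrCharacter G, (∀ n ∈ N, (ψ : G → ℂ) n = (ψ : G → ℂ) 1) ↔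
      charDegree (ψ : G → ℂ) = 1 := fun ψ => by
    rw [ψ.2.isCharacter.charDegree_eq_one_iff, ψ.2.one_eq_one_iff_commutator]
  have E : ∀ x, (if g * x⁻¹ ∈ N then (m : ℂ) else 0) + (χ : G → ℂ) g * conj ((χ : G → ℂ) x) =
      if IsConj g x then (Nat.card (Subgroup.centralizer ({g} : Set G)) : ℂ) else 0 := by
    intro x
    rw [← column_orth g x, ← Finset.sum_filter_add_sum_filter_not Finset.univ
      (fun ψ : IrrCharacter G => ∀ n ∈ N, (ψ : G → ℂ) n = (ψ : G → ℂ) 1),
      ← sum_ker_degree_mul N (g * x⁻¹)]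
    congr 1
    · refine Finset.sum_congr (by congr) fun ψ hψ => ?_
      have h1 := ψ.2.one_eq_one_of_commutator (Finset.mem_filter.1 hψ).2
      obtain ⟨l, hl⟩ := ψ.2.isCharacter.exists_hom h1
      rw [h1, hl, one_mul, conj_hom]
      simp
    · symm
      refine Finset.sum_eq_single_of_mem χ ?_ fun ψ hψ hne => ?_
      · exact Finset.mem_filter.2 ⟨Finset.mem_univ _, fun h => hχ1 ((hlin χ).1 h)⟩
      · rw [hother ψ (fun h => (Finset.mem_filter.1 hψ).2 ((hlin ψ).2 h)) hne, zero_mul]
  have hg1 : ¬ IsConj g 1 := fun h => hg (by rw [isConj_one_left.1 h]; exact Subgroup.one_mem _)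
  have E1 := E 1
  rw [if_neg hg1, inv_one, mul_one, hd1, map_natCast] at E1
  have hgN : g ∈ N := by
    by_contra h
    rw [if_neg h, zero_add] at E1
    exact mul_ne_zero hχg hd0' E1
  rw [if_pos hgN] at E1
  have hval : (χ : G → ℂ) g = -((m : ℂ) / d) := by
    field_simp
    linear_combination E1
  have hconjN : ∀ x, IsConj g x → x ∈ N := fun x h => by
    obtain ⟨u, rfl⟩ := isConj_iff.1 h
    exact Subgroup.Normal.conj_mem inferInstance g hgN u
  have hoff : ∀ x, x ∉ N → (χ : G → ℂ) x = 0 := by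
    intro x hx
    have h1 := E x
    rw [if_neg (fun h => hx (N.inv_mem_iff.1 ((N.mul_mem_cancel_left hgN).1 h))),
      if_neg (fun h => hx (hconjN x h)), zero_add] at h1
    simpa [hχg] using h1
  set K := charKer (χ : G → ℂ) with hK
  have hKn : K.Normal := hχ.charKer_normal
  have hmemK : ∀ x, x ∈ K ↔ (χ : G → ℂ) x = (χ : G → ℂ) 1 := fun x => hχ.mem_charKer
  have hKN : K ≤ N := fun x hx => by
    by_contra h
    exact hχ.one_ne_zero (((hmemK x).1 hx).symm.trans (hoff x h))
  have hconj : ∀ x ∈ N, x ∉ K → IsConj g x := by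
    intro x hx hxK
    by_contra h
    have h1 := E x
    rw [if_pos (N.mul_mem hgN (N.inv_mem hx)), if_neg h, hval] at h1
    apply hxK
    rw [hmemK, hd1]
    have h2 : conj ((χ : G → ℂ) x) = d := by
      have h3 : (m : ℂ) * conj ((χ : G → ℂ) x) = m * d := by
        field_simp at h1
        linear_combination -h1
      exact mul_left_cancel₀ hm0' h3
    rw [← Complex.conj_conj ((χ : G → ℂ) x), h2, map_natCast]
  have hgK : g ∉ K := by
    rw [hmemK, hval, hd1]
    intro h
    have h1 : (m : ℂ) + d * d = 0 := by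
      field_simp at h
      linear_combination -h
    have h2 : m + d * d = 0 := by exact_mod_cast h1
    omega
  have hconjK : ∀ x, IsConj g x → x ∉ K := fun x h hx => by
    obtain ⟨u, hu⟩ := isConj_iff.1 h.symm
    exact hgK (hu ▸ hKn.conj_mem x hx u)
  have huniq : ∀ ψ : IrrCharacter G, charDegree (ψ : G → ℂ) ≠ 1 →
      (∀ x : G, (χ : G → ℂ) x = (χ : G → ℂ) 1 → (ψ : G → ℂ) x = (ψ : G → ℂ) 1) → ψ = χ := by
    intro ψ hψ1 hψK
    by_contra hne
    have h1 := ψ.2.sum_normal_eq_zero N (fun h => hψ1 ((hlin ψ).1 h))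
    have h2 : ∀ n : N, (ψ : G → ℂ) n = if (n : G) ∈ K then (ψ : G → ℂ) 1 else 0 := by
      intro n
      split_ifs with h
      · exact hψK n ((hmemK n).1 h)
      · obtain ⟨u, hu⟩ := isConj_iff.1 (hconj n n.2 h)
        rw [← hu, ψ.2.isClassFunction, hother ψ hψ1 hne]
    rw [Finset.sum_congr rfl fun n _ => h2 n, ← Finset.sum_filter, Finset.sum_const,
      nsmul_eq_mul, mul_eq_zero, Nat.cast_eq_zero, Finset.card_eq_zero] at h1
    rcases h1 with h1 | h1
    · have : (1 : N) ∈ Finset.univ.filter fun n : N => (n : G) ∈ K :=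
        Finset.mem_filter.2 ⟨Finset.mem_univ _, K.one_mem⟩
      rw [h1] at this
      exact Finset.notMem_empty _ this
    · exact ψ.2.one_ne_zero h1
  refine ⟨hgN, by rw [hval, hd1], ?_, hoff, huniq, ?_⟩
  · ext x
    constructor
    · intro hx
      by_cases hxK : x ∈ K
      · exact Or.inl ((hmemK x).1 hxK)
      · exact Or.inr (hconj x hx hxK)
    · rintro (h | h)
      · exact hKN ((hmemK x).2 h)
      · exact hconjN x h
  -- solvability
  let π := QuotientGroup.mk' K
  have hπg : π g ≠ 1 := fun h => hgK ((QuotientGroup.eq_one_iff _).1 h)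
  obtain ⟨p, hp, hpo⟩ := Nat.exists_prime_and_dvd (fun h => hπg (orderOf_eq_one_iff.1 h))
  have : Fact p.Prime := ⟨hp⟩
  have hgp : g ^ p ∈ K := by
    obtain ⟨r, hr⟩ := hpo
    have hr0 : 0 < orderOf (π g) := orderOf_pos _
    have h1 : g ^ r ∉ K := by
      intro h
      have h2 : π g ^ r = 1 := by rw [← map_pow]; exact (QuotientGroup.eq_one_iff _).2 h
      have h3 := Nat.le_of_dvd (Nat.pos_of_ne_zero (by rintro rfl; omega))
        (orderOf_dvd_of_pow_eq_one h2)
      have := hp.two_le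
      nlinarith
    obtain ⟨u, hu⟩ := isConj_iff.1 (hconj _ (N.pow_mem hgN r) h1).symm
    rw [← hu, conj_pow]
    refine hKn.conj_mem _ ?_ u
    rw [← QuotientGroup.eq_one_iff]
    show π ((g ^ r) ^ p) = 1
    rw [← pow_mul, map_pow, mul_comm, ← hr, pow_orderOf_eq_one]
  obtain ⟨a, hga⟩ : ∃ a, g ^ p ^ a = 1 := by
    obtain ⟨a, r, hr, hor⟩ := Nat.exists_eq_pow_mul_and_not_dvd (orderOf_pos g).ne' p hp.ne_one
    have h1 : g ^ r ∉ K := by
      intro h
      have h2 : π g ^ r = 1 := by rw [← map_pow]; exact (QuotientGroup.eq_one_iff _).2 h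
      exact hr (hpo.trans (orderOf_dvd_of_pow_eq_one h2))
    obtain ⟨u, hu⟩ := isConj_iff.1 (hconj _ (N.pow_mem hgN r) h1).symm
    refine ⟨a, ?_⟩
    rw [← hu, conj_pow, ← pow_mul, mul_comm r, ← hor, pow_orderOf_eq_one, mul_one,
      mul_inv_cancel]
  have hNp : ∀ x ∈ N, x ^ p ∈ K := by
    intro u hu
    by_cases huK : u ∈ K
    · exact K.pow_mem huK p
    · obtain ⟨h, rfl⟩ := isConj_iff.1 (hconj u hu huK)
      rw [conj_pow]
      exact hKn.conj_mem _ hgp h
  have hNbar : IsPGroup p (N.map π) := by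
    rintro ⟨_, x, hx, rfl⟩
    refine ⟨1, Subtype.ext ?_⟩
    show π x ^ p ^ 1 = 1
    rw [pow_one, ← map_pow]
    exact (QuotientGroup.eq_one_iff _).2 (hNp x hx)
  have hNN : ⁅N, N⁆ ≤ K := by
    have h1 := inf_centralizer_ne_bot_of_isPGroup hNbar hNbar Subgroup.le_normalizer (by
      intro h
      exact hπg (Subgroup.mem_bot.1 (h ▸ Subgroup.mem_map_of_mem π hgN)))
    obtain ⟨z, hz, hz1⟩ := (bot_lt_iff_ne_bot.2 h1 : ⊥ < _) |> SetLike.exists_of_lt
    obtain ⟨⟨z, hzN, rfl⟩, hzC⟩ := hz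
    have hzK : z ∉ K := fun h => hz1 ((QuotientGroup.eq_one_iff _).2 h)
    rw [Subgroup.commutator_le]
    intro u hu v hv
    by_cases huK : u ∈ K
    · rw [commutatorElement_def, mul_assoc, mul_assoc, ← mul_assoc v]
      exact K.mul_mem huK (hKn.conj_mem _ (K.inv_mem huK) v)
    obtain ⟨h, rfl⟩ := isConj_iff.1 ((hconj z hzN hzK).symm.trans (hconj u hu huK))
    have h2 : ⁅h * z * h⁻¹, v⁆ = h * ⁅z, h⁻¹ * v * h⁆ * h⁻¹ := by
      simp only [commutatorElement_def]; group
    rw [h2]
    refine hKn.conj_mem _ ?_ h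
    rw [← QuotientGroup.eq_one_iff]
    show π ⁅z, h⁻¹ * v * h⁆ = 1
    rw [map_commutatorElement, commutatorElement_eq_one_iff_mul_comm]
    exact (Subgroup.mem_centralizer_iff.1 hzC _ (Subgroup.mem_map_of_mem π
      (Subgroup.Normal.conj_mem' inferInstance v hv h))).symm
  obtain ⟨n, hq⟩ : ∃ n, K.relIndex N = p ^ n := by
    obtain ⟨n, hn⟩ := IsPGroup.iff_card.1 hNbar
    refine ⟨n, ?_⟩
    rw [← hn, ← Subgroup.relIndex_bot_left, ← Subgroup.relIndex_comap, MonoidHom.comap_bot,
      QuotientGroup.ker_mk']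
  have hn0 : n ≠ 0 := by
    rintro rfl
    exact hgK (Subgroup.relIndex_eq_one.1 (by simpa using hq) hgN)
  set c := Nat.card (Subgroup.centralizer ({g} : Set G)) with hc
  obtain ⟨q', hq'⟩ : ∃ q', p ^ n = q' + 1 := ⟨p ^ n - 1, by
    have := pow_pos hp.pos n; omega⟩
  have hpq' : (Nat.Coprime p q') := by
    rw [Nat.Prime.coprime_iff_not_dvd hp]
    intro h
    have h1 : p ∣ q' + 1 := hq' ▸ dvd_pow_self p hn0
    exact hp.one_lt.ne' (Nat.dvd_one.1 ((Nat.dvd_add_right h).1 h1))
  have hcq : c * q' = m * p ^ n := by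
    have h1 := card_conj_mul_card_centralizer g
    have h2 : Nat.card K + Nat.card {x : G // IsConj g x} = Nat.card N := by
      have h3 : Nat.card {x : G // IsConj g x} = ({x : G | IsConj g x}).ncard := rfl
      have h4 : Nat.card K = (K : Set G).ncard := rfl
      have h5 : Nat.card N = (N : Set G).ncard := rfl
      rw [h3, h4, h5, ← Set.ncard_union_eq (s := (K : Set G)) (t := {x : G | IsConj g x})
        (Set.disjoint_left.2 fun x hx h => hconjK x h hx)]
      congr 1
      ext x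
      constructor
      · rintro (h | h)
        · exact hKN h
        · exact hconjN x h
      · intro hx
        by_cases hxK : x ∈ K
        · exact Or.inl hxK
        · exact Or.inr (hconj x hx hxK)
    have h3 : Nat.card K * p ^ n = Nat.card N := by
      rw [← hq, ← Subgroup.card_mul_index (K.subgroupOf N),
        Nat.card_congr (Subgroup.subgroupOfEquivOfLe hKN).toEquiv]
      rfl
    have h4 : Nat.card N * m = Nat.card G := N.card_mul_index
    have h5 : Nat.card {x : G // IsConj g x} = Nat.card K * q' := by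
      rw [hq', mul_add, mul_one] at h3; omega
    have h6 : 0 < Nat.card K := Nat.card_pos
    refine Nat.eq_of_mul_eq_mul_left h6 ?_
    rw [h5, ← h4, ← h3] at h1
    calc Nat.card K * (c * q') = Nat.card K * q' * c := by ring
      _ = _ := h1
      _ = _ := by ring
  have hdm : m * q' = d * d := by
    have h1 := E g
    rw [mul_inv_cancel, if_pos N.one_mem, if_pos (IsConj.refl g), hval] at h1
    simp only [map_neg, map_div₀, map_natCast] at h1
    have h2 : (c : ℂ) * q' = m * (q' + 1) := by rw [hq'] at hcq; exact_mod_cast hcq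
    have h3 : (m : ℂ) * q' = d * d := by
      field_simp at h1
      have h4 : (m : ℂ) * (m * q') = m * (d * d) := by
        linear_combination (q' : ℂ) * h1 + (d : ℂ) ^ 2 * h2
      exact mul_left_cancel₀ hm0' h4
    exact_mod_cast h3
  have hdeg : ∀ ψ : IrrCharacter G, charDegree (ψ : G → ℂ) ≠ 1 → ψ ≠ χ →
      p ∣ charDegree (ψ : G → ℂ) := fun ψ h1 h2 =>
    ψ.2.isCharacter.dvd_degree_of_eq_zero hp hga (hother ψ h1 h2)
  have hp'K : ∀ y ∈ N, (orderOf y).Coprime p → y ∈ K := by
    intro y hy hcop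
    exact mem_of_coprime_pow_mem K hcop (by rw [pow_orderOf_eq_one]; exact K.one_mem) (hNp y hy)
  have hFT : ∀ M : Subgroup G, (Nat.card M).Coprime 2 → Group.IsSolvable M := fun M h =>
    Cfsg.Agent.S0205.result (Nat.coprime_two_right.1 h)
  by_cases hpd : p ∣ d
  · obtain ⟨M, hMn, hMc, k, hk⟩ := Cfsg.Agent.S4456.result p hp (G := G) fun ψ h1 => by
      by_cases h2 : ψ = χ
      · rw [h2]; exact hpd
      · exact hdeg ψ h1 h2
    have hMN : ∀ y ∈ M, y ∈ N → y ∈ K := fun y hy hyN =>
      hp'K y hyN (Nat.Coprime.coprime_dvd_left (M.orderOf_dvd_natCard hy) hMc)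
    have hMK : M ≤ K := by
      intro y hy
      refine hMN y hy ?_
      have h1 : y ∈ charCenter (χ : G → ℂ) := hχ.mem_charCenter_iff_commutator.2 fun h =>
        hMN _ (Subgroup.commutator_le_left M ⊤
          (Subgroup.commutator_mem_commutator hy (Subgroup.mem_top h)))
          (Subgroup.commutator_mem_commutator (Subgroup.mem_top y) (Subgroup.mem_top h))
      by_contra h
      have h2 := hχ.mem_charCenter.1 h1
      rw [hoff y h, norm_zero] at h2
      have : d = 0 := by exact_mod_cast h2.symm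
      omega
    have h1 : q' ∣ p ^ k := by
      have h2 : K.index ∣ p ^ k := hk ▸ Subgroup.index_dvd_of_le hMK
      have h3 : p ^ n * m = K.index := hq ▸ Subgroup.relIndex_mul_index hKN
      exact (Dvd.intro_left c (hcq.trans (by rw [mul_comm, h3]))).trans h2
    have h2 : q' = 1 := Nat.eq_one_of_dvd_coprimes (Nat.Coprime.pow_right k hpq'.symm) dvd_rfl h1
    have h3 : p = 2 := by
      have : p ∣ 2 := by
        have := dvd_pow_self p hn0
        rwa [hq', h2] at this
      exact (Nat.prime_dvd_prime_iff_eq hp Nat.prime_two).1 this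
    subst h3
    exact solv_of M (hFT M hMc) (solv_quot M hp hk)
  · have hpm : ¬ p ∣ m := fun h => hpd ((hp.dvd_mul.1 (hdm ▸ h.mul_right q')).elim id id)
    obtain ⟨M₀, hMn, hMc, k, hk⟩ := Cfsg.Agent.S4456.result p hp (G := N) fun η h1 => by
      obtain ⟨ψ, hψ, hne⟩ := η.2.exists_over
      obtain ⟨j, hj, hjm⟩ := exists_degree_eq_mul_dvd_index hψ η.2 hne
      have hj' : charDegree ψ = j * charDegree (η : N → ℂ) := by
        apply charDegree_eq_of_apply_one
        rw [hj, η.2.apply_one_eq_charDegree]; push_cast; rfl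
      have h2 : charDegree ψ ≠ 1 := fun h => h1 (Nat.eq_one_of_mul_eq_one_left (hj' ▸ h))
      have h3 : (⟨ψ, hψ⟩ : IrrCharacter G) ≠ χ := by
        intro h
        have hψχ : ψ = (χ : G → ℂ) := congrArg Subtype.val h
        apply h1
        rw [η.2.isCharacter.charDegree_eq_one_iff, η.2.one_eq_one_iff_commutator]
        intro x hx
        have hxK : (x : G) ∈ charKer ψ := by
          rw [hψχ]
          refine hNN ?_
          have := Subgroup.mem_map_of_mem N.subtype hx
          rwa [commutator_def, Subgroup.map_commutator, ← MonoidHom.range_eq_map,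
            Subgroup.range_subtype] at this
        have hx' : x ∈ charKer (fun n : N => ψ n) := fun y => hxK y
        exact η.2.mem_charKer.1
          ((hψ.isCharacter.res N).charKer_le_of_inner_ne_zero η.2 hne hx')
      have h4 := hdeg ⟨ψ, hψ⟩ h2 h3
      rw [show charDegree ((⟨ψ, hψ⟩ : IrrCharacter G) : G → ℂ) = charDegree ψ from rfl, hj'] at h4
      exact (hp.dvd_mul.1 h4).resolve_left fun h => hpm (h.trans hjm)
    let M := pPrimeCore p G ⊓ N
    have hM₀ : M₀ ≤ M.subgroupOf N := by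
      intro x hx
      have := Subgroup.mem_map_of_mem N.subtype (le_pPrimeCore hMc hx)
      rwa [map_pPrimeCore_of_normal] at this
    have hM : (Nat.card M).Coprime p := coprime_of_le_pPrimeCore inf_le_left
    have hMs : Group.IsSolvable M := by
      by_cases hp2 : p = 2
      · subst hp2; exact hFT M hM
      · have := odd_case hp2 hKN le_rfl hgN hgK hconj hNN hgp hga hq hpm
          (Dvd.intro _ hcq) (M := M) (fun y hy => hp'K y hy.2
            (Nat.Coprime.coprime_dvd_left (M.orderOf_dvd_natCard hy) hM)) hM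
        infer_instance
    have hNs : Group.IsSolvable N := by
      obtain ⟨j, -, hj⟩ := (Nat.dvd_prime_pow hp).1 (hk ▸ Subgroup.index_dvd_of_le hM₀)
      exact solv_of (M.subgroupOf N) (isSolvable_subgroupOf hMs N) (solv_quot _ hp hj)
    refine solv_of N hNs ?_
    have : IsMulCommutative (G ⧸ N) :=
      Subgroup.Normal.quotient_commutative_iff_commutator_le.2 le_rfl
    exact isSolvable_of_isMulCommutative _

end Cfsg.Agent.S4805
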