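import Cfsg.Statements.S4808
import Mathlib
import Cfsg.Agent.BLK.Codeg
import Cfsg.Agent.SOLV.Basic

set_option autoImplicit false
open Cfsg

namespace Cfsg.Agent.S4808

open CL CL.Blk CL.Char MonoidAlgebra
open scoped CL.MSS
open scoped ComplexConjugate commutatorElement

/-- The codegree of an irreducible complex character χ of a finite group G is [G : ker χ] / χ(1), where ker χ is the set of elements at which χ takes the value χ(1). A prime divides the order of G if and only if it divides the codegree of some irreducible complex character of G. -/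
theorem result {G : Type*} [Group G] [Finite G] (p : ℕ) (hp : p.Prime) : p ∣ Nat.card G ↔ ∃ χ : Cfsg.IrrCharacter G, p ∣ (Nat.card G / (Nat.card {g : G // (χ : G → ℂ) g = (χ : G → ℂ) 1} * Cfsg.charDegree (χ : G → ℂ))) := by
  classical
  refine ⟨fun h => ?_, fun ⟨χ, h⟩ => h.trans (codeg_dvd χ.2)⟩
  have := Fact.mk hp
  obtain ⟨P⟩ : Nonempty (Sylow p G) := inferInstance
  set N := Subgroup.normalClosure ((P : Subgroup G) : Set G)
  have h1 : ¬ p ∣ N.index := fun h2 =>
    P.not_dvd_index (h2.trans (Subgroup.index_dvd_of_le Subgroup.le_normalClosure))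
  by_contra hne
  push Not at hne
  have h2 := sum_not_ker_degree_sq N
  have h3 : ∑ χ ∈ Finset.univ.filter (fun χ : IrrCharacter G =>
      ¬ ∀ n ∈ N, (χ : G → ℂ) n = (χ : G → ℂ) 1), charDegree (χ : G → ℂ) ^ 2 + N.index =
      Nat.card G := by
    have h4 : ((∑ χ ∈ Finset.univ.filter (fun χ : IrrCharacter G =>
      ¬ ∀ n ∈ N, (χ : G → ℂ) n = (χ : G → ℂ) 1), charDegree (χ : G → ℂ) ^ 2 + N.index : ℕ) : ℂ) =
      Nat.card G := by
      push_cast
      rw [← eq_sub_iff_add_eq, ← h2]
      exact Finset.sum_congr rfl fun χ _ => by rw [χ.2.apply_one_eq_charDegree]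
    exact_mod_cast h4
  refine h1 ((Nat.dvd_add_right (Finset.dvd_sum fun χ hχ => ?_)).1 (h3 ▸ h))
  refine Dvd.dvd.pow ?_ two_ne_zero
  by_contra h4
  have := χ.2.charKer_normal
  have h5 : ¬ p ∣ (charKer (χ : G → ℂ)).index := by
    rw [← codeg_mul χ.2]
    exact fun h6 => ((Nat.Prime.dvd_mul hp).1 h6).elim (hne χ) h4
  obtain ⟨k, hk⟩ := P.isPGroup'.exists_card_eq
  have h6 : (P : Subgroup G) ≤ charKer (χ : G → ℂ) := le_of_coprime_index
    (hk ▸ Nat.Coprime.pow_left _ ((Nat.Prime.coprime_iff_not_dvd hp).2 h5))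
  exact (Finset.mem_filter.1 hχ).2 fun n hn =>
    χ.2.mem_charKer.1 (Subgroup.normalClosure_le_normal h6 hn)

end Cfsg.Agent.S4808
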