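import Cfsg.Statements.S4813
import Cfsg.Agent.ORD.PrimeDeg

set_option autoImplicit false
open Cfsg

namespace Cfsg.Agent.S4813

/-- If every irreducible complex character of the finite group G of degree greater than one has prime degree, then G has at most three distinct irreducible character degrees. -/
theorem result {G : Type*} [Group G] [Finite G] (hprime : ∀ d ∈ Cfsg.charDegrees G, d = 1 ∨ d.Prime) : Nat.card ↥(Cfsg.charDegrees G) ≤ 3 := by
  obtain ⟨m, n, h1⟩ := CL.Ord.exists_three_of_prime_degrees (G := G) fun χ hχ h1 =>
    (hprime _ (CL.Ord.mem_charDegrees hχ)).resolve_left h1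
  exact CL.Ord.ncard_charDegrees_le_three h1
end Cfsg.Agent.S4813
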