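import Cfsg.Statements.S4814
import Mathlib
import Cfsg.Agent.CHAR.ClassMult

set_option autoImplicit false
open Cfsg

namespace Cfsg.Agent.S4814

open CL CL.Char MonoidAlgebra
open scoped ComplexConjugate commutatorElement

open scoped ComplexConjugate in
theorem sum_comm_mul {G : Type*} [Group G] [Fintype G] {χ : G → ℂ} (h : IsIrrCharacter G χ)
    (y : G) : ∑ a, ∑ b, χ (a * b * a⁻¹ * b⁻¹ * y) = (Nat.card G : ℂ) ^ 2 * χ y / χ 1 ^ 2 := by
  rw [Finset.sum_comm]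
  have h1 : ∀ b, ∑ a, χ (a * b * a⁻¹ * b⁻¹ * y) = Nat.card G * (χ b * χ (b⁻¹ * y)) / χ 1 := by
    intro b
    simp_rw [mul_assoc _ b⁻¹ y]
    rw [h.sum_conj_mul, mul_assoc]
  simp_rw [h1]
  rw [← Finset.sum_div, ← Finset.mul_sum, ← Equiv.sum_comp (Equiv.inv G)]
  simp only [Equiv.inv_apply, inv_inv]
  rw [h.sum_mul_inv_mul_self]
  ring


/-- Let G be a finite group such that the sum, over the irreducible complex characters χ of G, of 1/χ(1)² is less than 2. Then every element of G is a product of two commutators. -/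
theorem result {G : Type*} [Group G] [Finite G]
    (h : ∑ᶠ χ : Cfsg.IrrCharacter G, 1 / ‖(χ : G → ℂ) 1‖ ^ 2 < (2 : ℝ)) (g : G) :
    ∃ a b c d : G, (a * b * a⁻¹ * b⁻¹) * (c * d * c⁻¹ * d⁻¹) = g := by
  classical
  have := Fintype.ofFinite G
  by_contra hne
  push Not at hne
  have h0 : ∀ a b c d : G, ∑ χ : IrrCharacter G, (χ : G → ℂ) (a * b * a⁻¹ * b⁻¹ * (c * d * c⁻¹ * d⁻¹))
      * (starRingEnd ℂ) ((χ : G → ℂ) g) = 0 := by
    intro a b c d
    refine column_not_conj fun hc => ?_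
    obtain ⟨x, hx⟩ := isConj_iff.1 hc
    refine hne (x * a * x⁻¹) (x * b * x⁻¹) (x * c * x⁻¹) (x * d * x⁻¹) ?_
    rw [← hx]; group
  have h1 : ∑ χ : IrrCharacter G, (starRingEnd ℂ) ((χ : G → ℂ) g) / (χ : G → ℂ) 1 ^ 3 = 0 := by
    have h2 : ∑ c : G, ∑ d : G, ∑ a : G, ∑ b : G, ∑ χ : IrrCharacter G,
      (χ : G → ℂ) (a * b * a⁻¹ * b⁻¹ * (c * d * c⁻¹ * d⁻¹))
      * (starRingEnd ℂ) ((χ : G → ℂ) g) = 0 := by simp [h0]
    have h3 : ∀ χ : IrrCharacter G, ∑ c : G, ∑ d : G, ∑ a : G, ∑ b : G,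
      (χ : G → ℂ) (a * b * a⁻¹ * b⁻¹ * (c * d * c⁻¹ * d⁻¹))
      * (starRingEnd ℂ) ((χ : G → ℂ) g) = (Nat.card G : ℂ) ^ 4 *
        ((starRingEnd ℂ) ((χ : G → ℂ) g) / (χ : G → ℂ) 1 ^ 3) := by
      intro χ
      simp_rw [← Finset.sum_mul, sum_comm_mul χ.2, ← Finset.sum_div, ← Finset.mul_sum]
      have h4 := sum_comm_mul χ.2 1
      simp only [mul_one] at h4
      rw [h4]
      have h5 := χ.2.one_ne_zero
      field_simp
    have h4 : ∑ χ : IrrCharacter G, (Nat.card G : ℂ) ^ 4 *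
        ((starRingEnd ℂ) ((χ : G → ℂ) g) / (χ : G → ℂ) 1 ^ 3) = 0 := by
      rw [← h2]
      simp_rw [← h3]
      rw [Finset.sum_comm]
      refine Finset.sum_congr rfl fun c _ => ?_
      rw [Finset.sum_comm]
      refine Finset.sum_congr rfl fun d _ => ?_
      rw [Finset.sum_comm]
      refine Finset.sum_congr rfl fun a _ => ?_
      rw [Finset.sum_comm]
    rw [← Finset.mul_sum] at h4
    exact (mul_eq_zero.1 h4).resolve_left (pow_ne_zero _ (card_ne_zero G))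
  rw [finsum_eq_sum_of_fintype] at h
  set one : IrrCharacter G := ⟨fun _ => 1, isIrrCharacter_one⟩ with hone
  rw [← Finset.add_sum_erase _ _ (Finset.mem_univ one)] at h h1
  have e1 : (starRingEnd ℂ) ((one : G → ℂ) g) / (one : G → ℂ) 1 ^ 3 = 1 := by simp [hone]
  have e2 : 1 / ‖(one : G → ℂ) 1‖ ^ 2 = (1 : ℝ) := by simp [hone]
  rw [e1] at h1
  rw [e2] at h
  have h5 := congrArg norm (eq_neg_of_add_eq_zero_left h1)
  rw [norm_one, norm_neg] at h5
  have h6 := (norm_sum_le _ _).trans (Finset.sum_le_sum (s := Finset.univ.erase one)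
    (f := fun χ : IrrCharacter G => ‖(starRingEnd ℂ) ((χ : G → ℂ) g) / (χ : G → ℂ) 1 ^ 3‖)
    (g := fun χ : IrrCharacter G => 1 / ‖(χ : G → ℂ) 1‖ ^ 2) fun χ _ => by
      have h7 : 0 < ‖(χ : G → ℂ) 1‖ := norm_pos_iff.2 χ.2.one_ne_zero
      rw [norm_div, norm_pow, Complex.norm_conj, div_le_div_iff₀ (by positivity) (by positivity)]
      have h8 := χ.2.isCharacter.norm_le_norm_one g
      nlinarith [sq_nonneg ‖(χ : G → ℂ) 1‖])
  linarith

end Cfsg.Agent.S4814
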