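import Cfsg.Statements.S4823
import Cfsg.Agent.BLK.HZero

set_option autoImplicit false
universe u
open Cfsg

namespace Cfsg.Agent.S4823

open Finset in
theorem caseB {Ω : Type u} [Fintype Ω] (j K : ℕ) (s : Finset ℕ) (x : Ω → ℤ) (y : ℕ → Ω → ℤ)
    (d : ℕ → ℤ) (q : ℕ) (hs : s.card ≤ j) (h0 : 0 < Fintype.card Ω)
    (hx : (Fintype.card Ω : ℤ) ≤ |∑ w, x w|) (hx2 : ∑ w, x w ^ 2 ≤ K * Fintype.card Ω)
    (hy2 : ∀ i ∈ s, ∑ w, y i w ^ 2 ≤ K * Fintype.card Ω)
    (hq : ∀ w, (q : ℤ) ∣ x w + ∑ i ∈ s, d i * y i w) (R : ℕ) (hR : (j + 1) * K < R)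
    (hB : ∀ w, |x w| ≤ R → (∀ i ∈ s, |y i w| ≤ R) → ∀ i ∈ s, y i w = 0) : q ≤ R := by
  by_contra hqR
  push Not at hqR
  have h1 : ∀ w, (R : ℤ) * |x w| ≤ x w ^ 2 + ∑ i ∈ s, y i w ^ 2 := by
    intro w
    have hn : 0 ≤ ∑ i ∈ s, y i w ^ 2 := sum_nonneg fun _ _ => sq_nonneg _
    have ha := abs_nonneg (x w)
    have hsq := sq_abs (x w)
    by_cases a : |x w| ≤ R
    · by_cases b : ∀ i ∈ s, |y i w| ≤ R
      · have c := hq w
        rw [sum_eq_zero fun i hi => by rw [hB w a b i hi, mul_zero], add_zero] at c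
        have : x w = 0 := Int.eq_zero_of_abs_lt_dvd c (by omega)
        rw [this]; simpa using hn
      · push Not at b
        obtain ⟨i, hi, b⟩ := b
        have c : y i w ^ 2 ≤ ∑ i ∈ s, y i w ^ 2 :=
          single_le_sum (f := fun i => y i w ^ 2) (fun _ _ => sq_nonneg _) hi
        have e := sq_abs (y i w)
        nlinarith [sq_nonneg (|x w| - |y i w|), mul_nonneg ha (abs_nonneg (y i w))]
    · push Not at a
      nlinarith
  have h2 : (R : ℤ) * ∑ w, |x w| ≤ ∑ w, x w ^ 2 + ∑ i ∈ s, ∑ w, y i w ^ 2 := by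
    rw [mul_sum, sum_comm, ← sum_add_distrib]
    exact sum_le_sum fun w _ => h1 w
  have h3 : ∑ i ∈ s, ∑ w, y i w ^ 2 ≤ s.card • ((K : ℤ) * Fintype.card Ω) := sum_le_card_nsmul _ _ _ hy2
  have h4 := hx.trans (abs_sum_le_sum_abs _ _)
  rw [nsmul_eq_mul] at h3
  have h5 : (s.card : ℤ) ≤ j := by exact_mod_cast hs
  have h6 : ((j : ℤ) + 1) * K < R := by exact_mod_cast hR
  have h7 : (0 : ℤ) < Fintype.card Ω := by exact_mod_cast h0
  have h8 : (0 : ℤ) ≤ (K : ℤ) * Fintype.card Ω := by positivity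
  have h9 : (R : ℤ) * Fintype.card Ω ≤ R * ∑ w, |x w| := mul_le_mul_of_nonneg_left h4 (by positivity)
  nlinarith [mul_le_mul_of_nonneg_right h5 h8, mul_lt_mul_of_pos_right h6 h7]

open Finset in
theorem sq_bound {Ω : Type u} [Fintype Ω] (K R : ℕ) (x z : Ω → ℤ) (a b : ℤ) (ha : |a| ≤ R) (hb : |b| ≤ R)
    (hx : ∑ w, x w ^ 2 ≤ K * Fintype.card Ω) (hz : ∑ w, z w ^ 2 ≤ K * Fintype.card Ω) :
    ∑ w, (a * x w - z w * b) ^ 2 ≤ ((4 * R ^ 2 * K : ℕ) : ℤ) * Fintype.card Ω := by
  have ha2 : a ^ 2 ≤ (R : ℤ) ^ 2 := by rw [← sq_abs a]; exact pow_le_pow_left₀ (abs_nonneg _) ha 2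
  have hb2 : b ^ 2 ≤ (R : ℤ) ^ 2 := by rw [← sq_abs b]; exact pow_le_pow_left₀ (abs_nonneg _) hb 2
  have h1 : ∑ w, (a * x w - z w * b) ^ 2 ≤ ∑ w, (2 * (R : ℤ) ^ 2 * x w ^ 2 + 2 * (R : ℤ) ^ 2 * z w ^ 2) :=
    sum_le_sum fun w _ => by
      nlinarith [sq_nonneg (a * x w + z w * b), mul_le_mul_of_nonneg_right ha2 (sq_nonneg (x w)),
        mul_le_mul_of_nonneg_right hb2 (sq_nonneg (z w))]
  rw [sum_add_distrib, ← mul_sum, ← mul_sum] at h1
  have h2 : (0 : ℤ) ≤ 2 * (R : ℤ) ^ 2 := by positivity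
  push_cast
  nlinarith [mul_le_mul_of_nonneg_left hx h2, mul_le_mul_of_nonneg_left hz h2]

open Finset in
theorem key (j : ℕ) : ∀ K : ℕ, ∃ F : ℕ, ∀ (Ω : Type u) [Fintype Ω] (s : Finset ℕ) (x : Ω → ℤ)
    (y : ℕ → Ω → ℤ) (d : ℕ → ℤ) (q : ℕ), s.card ≤ j → 0 < Fintype.card Ω →
    (Fintype.card Ω : ℤ) ≤ |∑ w, x w| → ∑ w, x w ^ 2 ≤ K * Fintype.card Ω →
    (∀ i ∈ s, ∑ w, y i w = 0) → (∀ i ∈ s, ∑ w, y i w ^ 2 ≤ K * Fintype.card Ω) →
    (∀ w, (q : ℤ) ∣ x w + ∑ i ∈ s, d i * y i w) → q ≤ F := by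
  induction j with
  | zero =>
    intro K
    refine ⟨(0 + 1) * K + 1, fun Ω _ s x y d q hs h0 hx hx2 _ hy2 hq =>
      caseB 0 K s x y d q hs h0 hx hx2 hy2 hq _ (Nat.lt_succ_self _) fun w _ _ i hi => ?_⟩
    rw [Nat.le_zero, card_eq_zero] at hs
    simp [hs] at hi
  | succ j ih =>
    intro K
    set R := (j + 1 + 1) * K + 1 with hR
    obtain ⟨F, hF⟩ := ih (4 * R ^ 2 * K)
    refine ⟨max R F, fun Ω _ s x y d q hs h0 hx hx2 hy hy2 hq => ?_⟩
    by_cases hB : ∀ w, |x w| ≤ R → (∀ i ∈ s, |y i w| ≤ R) → ∀ i ∈ s, y i w = 0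
    · exact le_max_of_le_left (caseB (j + 1) K s x y d q hs h0 hx hx2 hy2 hq R (Nat.lt_succ_self _) hB)
    push Not at hB
    obtain ⟨w0, a, b, i0, hi0, c⟩ := hB
    refine le_max_of_le_right (hF Ω (s.erase i0) (fun w => y i0 w0 * x w - y i0 w * x w0)
      (fun i w => y i0 w0 * y i w - y i0 w * y i w0) d q ?_ h0 ?_ ?_ ?_ ?_ ?_)
    · rw [card_erase_of_mem hi0]; omega
    · rw [sum_sub_distrib, ← mul_sum, ← sum_mul, hy i0 hi0, zero_mul, sub_zero, abs_mul]
      have := Int.one_le_abs c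
      nlinarith [abs_nonneg (∑ w, x w)]
    · exact sq_bound K R x (y i0) _ _ (b i0 hi0) a hx2 (hy2 i0 hi0)
    · intro i hi
      rw [sum_sub_distrib, ← mul_sum, ← sum_mul, hy i0 hi0, hy i (mem_of_mem_erase hi)]
      simp
    · intro i hi
      exact sq_bound K R (y i) (y i0) _ _ (b i0 hi0) (b i (mem_of_mem_erase hi))
        (hy2 i (mem_of_mem_erase hi)) (hy2 i0 hi0)
    · intro w
      have e : y i0 w0 * x w - y i0 w * x w0 +
          ∑ i ∈ s.erase i0, d i * (y i0 w0 * y i w - y i0 w * y i w0) =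
          y i0 w0 * (x w + ∑ i ∈ s, d i * y i w) - y i0 w * (x w0 + ∑ i ∈ s, d i * y i w0) := by
        rw [sum_erase s (f := fun i => d i * (y i0 w0 * y i w - y i0 w * y i w0)) (by ring),
          mul_add, mul_add, mul_sum, mul_sum]
        have : ∑ i ∈ s, d i * (y i0 w0 * y i w - y i0 w * y i w0) =
            ∑ i ∈ s, y i0 w0 * (d i * y i w) - ∑ i ∈ s, y i0 w * (d i * y i w0) := by
          rw [← sum_sub_distrib]; exact sum_congr rfl fun i _ => by ring
        rw [this]; ring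
      rw [e]
      exact dvd_sub ((hq w).mul_left _) ((hq w0).mul_left _)

open CL.Blk in
open CL.Char hiding irrOne irrOne_apply in
theorem gal_mem {G : Type u} [Group G] [Fintype G] {p : ℕ} {M : Ideal AlgInt} (hM : IsPModular p M)
    (σ : ℂ ≃+* ℂ) {χ : IrrCharacter G} (h : χ ∈ principalBlock M G) :
    galIrr G σ χ ∈ principalBlock M G := by
  classical
  rw [mem_principal_iff_regSum hM, regSum_eq_filter] at h ⊢
  refine fun e => h (σ.injective ?_)
  rw [map_sum, map_zero]; exact e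

open CL.Blk in
open CL.Char hiding irrOne irrOne_apply in
/-- A Galois-stable set of nonprincipal irreducible characters has an integral sum with mean zero and
second moment its cardinality. -/
theorem exists_sum {G : Type u} [Group G] [Fintype G] (T : Finset (IrrCharacter G))
    (h1 : irrOne G ∉ T) (hT : ∀ σ : ℂ ≃+* ℂ, ∀ χ ∈ T, galIrr G σ χ ∈ T) :
    ∃ y : G → ℤ, (∀ g, ∑ χ ∈ T, χ.1 g = y g) ∧ ∑ g, y g = 0 ∧
      ∑ g, y g ^ 2 = T.card * Fintype.card G := by
  classical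
  have n0 : (Nat.card G : ℂ) ≠ 0 := Nat.cast_ne_zero.2 Nat.card_pos.ne'
  have hi : ∀ g, ∃ n : ℤ, ∑ χ ∈ T, χ.1 g = n := fun g =>
    exists_int_of_fixed (IsIntegral.sum _ fun χ _ => χ.2.isIntegral g) fun σ => by
      rw [map_sum]
      refine Finset.sum_bij (fun χ _ => galIrr G σ χ) (fun χ h => hT σ χ h)
        (fun _ _ _ _ e => (galIrr G σ).injective e) (fun ψ h => ⟨galIrr G σ⁻¹ ψ, hT _ _ h, ?_⟩)
        fun _ _ => rfl
      rw [map_inv]; exact (galIrr G σ).apply_symm_apply ψ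
  choose y hy using hi
  have hy' : ∀ g, (∑ χ ∈ T, χ.1) g = y g := fun g => by rw [Finset.sum_apply, hy]
  refine ⟨y, hy, ?_, ?_⟩
  · have e : ((∑ g, y g : ℤ) : ℂ) = Nat.card G * classInner (∑ χ ∈ T, χ.1) (irrOne G).1 := by
      rw [classInner, mul_inv_cancel_left₀ n0]
      push_cast
      exact Finset.sum_congr rfl fun g _ => by rw [hy', irrOne_apply, map_one, mul_one]
    have e2 : ∑ χ ∈ T, classInner χ.1 (irrOne G).1 = 0 :=
      Finset.sum_eq_zero fun χ h => χ.2.inner_of_ne (irrOne G).2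
        fun a => h1 ((Subtype.ext a : χ = irrOne G) ▸ h)
    rw [classInner_sum_left, e2, mul_zero] at e
    exact_mod_cast e
  · have e : ((∑ g, y g ^ 2 : ℤ) : ℂ) = Nat.card G * classInner (∑ χ ∈ T, χ.1) (∑ χ ∈ T, χ.1) := by
      rw [classInner, mul_inv_cancel_left₀ n0]
      push_cast
      exact Finset.sum_congr rfl fun g _ => by rw [hy', map_intCast, sq]
    have e2 : classInner (∑ χ ∈ T, χ.1) (∑ χ ∈ T, χ.1) = T.card := by
      rw [classInner_sum_left, Finset.card_eq_sum_ones, Nat.cast_sum]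
      refine Finset.sum_congr rfl fun χ h => ?_
      rw [classInner_sum_right, Finset.sum_eq_single_of_mem χ h fun ψ _ a =>
        χ.2.inner_of_ne ψ.2 fun b => a (Subtype.ext b).symm, χ.2.inner_self, Nat.cast_one]
    rw [e2, Nat.card_eq_fintype_card, mul_comm] at e
    exact_mod_cast e

open CL.Blk in
open CL.Char hiding irrOne irrOne_apply in
/-- For every prime p and every natural number k there is a bound N such that, for every finite group G and every maximal ideal M of the algebraic integers containing p, if the principal p-block of G has at most k irreducible characters then the p-part of the order of G (the order of a defect group of the principal block) is at most p ^ N. -/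
theorem result (p : ℕ) [Fact p.Prime] (k : ℕ) : ∃ N : ℕ, ∀ (G : Type u) [Group G] [Finite G] (M : Ideal Cfsg.AlgInt), Cfsg.IsPModular p M → Nat.card (Cfsg.principalBlock M G) ≤ k → (Nat.card G).factorization p ≤ N := by
  classical
  obtain ⟨F, hF⟩ := key.{u} k (k + 1)
  refine ⟨F, fun G _ _ M hM hk => ?_⟩
  have := Fintype.ofFinite G
  set B : Finset (IrrCharacter G) := Finset.univ.filter (· ∈ principalBlock M G) with hB
  have hBk : B.card ≤ k := by
    rw [Nat.card_eq_fintype_card, Fintype.card_subtype] at hk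
    convert hk
  have h1 : irrOne G ∈ B := by simpa [hB] using irrOne_mem_principalBlock hM
  have hT : ∀ n : ℕ, ∃ y : G → ℤ,
      (∀ g, ∑ χ ∈ (B.erase (irrOne G)).filter (fun χ => charDegree χ.1 = n), χ.1 g = y g) ∧
      ∑ g, y g = 0 ∧ ∑ g, y g ^ 2 =
        ((B.erase (irrOne G)).filter (fun χ => charDegree χ.1 = n)).card * Fintype.card G := fun n =>
    exists_sum _ (by simp) fun σ χ h => by
      simp only [hB, Finset.mem_filter, Finset.mem_erase, Finset.mem_univ, true_and] at h ⊢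
      refine ⟨⟨fun e => h.1.1 ((galIrr G σ).injective (e.trans (CL.HZero.gal_one σ).symm)),
        gal_mem hM σ h.1.2⟩, ?_⟩
      rw [coe_galIrr]
      exact (χ.2.isCharacter.charDegree_gal σ.toRingHom).trans h.2
  choose y hy hy0 hy2 using hT
  have h0 : 0 < Fintype.card G := Fintype.card_pos
  have := hF G ((B.erase (irrOne G)).image fun χ => charDegree χ.1) (fun _ => 1) y (fun n => n)
    (p ^ (Nat.card G).factorization p)
    (Finset.card_image_le.trans ((Finset.card_erase_le).trans hBk)) h0 (by simp) (by simp; nlinarith)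
    (fun i _ => hy0 i) (fun i _ => by
      rw [hy2]
      have : ((B.erase (irrOne G)).filter (fun χ => charDegree χ.1 = i)).card ≤ k + 1 :=
        (Finset.card_filter_le _ _).trans (Finset.card_erase_le.trans (hBk.trans (Nat.le_succ _)))
      exact mul_le_mul_of_nonneg_right (by exact_mod_cast this) (by positivity))
    fun g => by
      have e : ((1 + ∑ i ∈ (B.erase (irrOne G)).image fun χ => charDegree χ.1, (i : ℤ) * y i g : ℤ) : ℂ) =
          Nat.card G * blockCoeff (principalBlock M G) g⁻¹ := by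
        rw [← CL.HZero.col g]
        have a : ∑ χ ∈ B, χ.1 1 * χ.1 g = 1 + ∑ χ ∈ B.erase (irrOne G), χ.1 1 * χ.1 g := by
          rw [← Finset.add_sum_erase _ _ h1, irrOne_apply, irrOne_apply, mul_one]
        refine Eq.trans ?_ (a.symm.trans (by convert rfl))
        push_cast
        congr 1
        rw [← Finset.sum_fiberwise_of_maps_to (g := fun χ : IrrCharacter G => charDegree χ.1)
          (fun χ h => Finset.mem_image_of_mem (fun χ : IrrCharacter G => charDegree χ.1) h)]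
        refine Finset.sum_congr rfl fun i _ => ?_
        rw [← hy, Finset.mul_sum]
        refine Finset.sum_congr rfl fun χ h => ?_
        rw [irr_one_eq, (Finset.mem_filter.1 h).2]
      push_cast
      rw [← intCast_div_pow_mem_V_iff hM, e]
      obtain ⟨m, hm⟩ := Nat.ordProj_dvd (Nat.card G) p
      have p0 : (p : ℂ) ^ (Nat.card G).factorization p ≠ 0 := pow_ne_zero _ (Nat.cast_ne_zero.2 hM.1.ne_zero)
      have : (Nat.card G : ℂ) = (p : ℂ) ^ (Nat.card G).factorization p * m := by exact_mod_cast hm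
      rw [this, mul_assoc, mul_div_cancel_left₀ _ p0]
      exact mul_mem (natCast_mem _ _) (blockCoeff_mem_V hM isPBlock_principalBlock _)
  exact (Nat.lt_pow_self hM.1.one_lt).le.trans this

end Cfsg.Agent.S4823
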