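import Cfsg.Statements.S4825
import Cfsg.Agent.BLK.Princ3
-- import your own Cfsg.Agent.* helpers here

set_option autoImplicit false
open Cfsg

namespace Cfsg.Agent.S4825

/-- Let p be a prime, G a finite group with Sylow p-subgroup P, M a maximal ideal of the algebraic integers containing p, and B a p-block of G with defect group P. Let N be a normal subgroup of G not containing P and θ an irreducible character of N. Then the number of irreducible characters in B of degree prime to p lying over θ (having θ as a constituent on restriction to N) is either 0 or at least 2, and when p ≤ 3 it is divisible by p. -/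
theorem result {G : Type*} [Group G] [Fintype G] (p : ℕ) [Fact p.Prime] (P : Sylow p G) (M : Ideal Cfsg.AlgInt) (hM : Cfsg.IsPModular p M) (B : Set (Cfsg.IrrCharacter G)) (hB : Cfsg.IsPBlock M B) (hBP : Cfsg.IsDefectGroup p M B P) (N : Subgroup G) [N.Normal] [Fintype N] (hPN : ¬ (P : Subgroup G) ≤ N) (θ : Cfsg.IrrCharacter N) :
    (Nat.card {χ : Cfsg.IrrCharacter G // χ ∈ B ∧ ¬ p ∣ Cfsg.charDegree (χ : G → ℂ) ∧ Cfsg.classInner (fun n : N => (χ : G → ℂ) n) (θ : N → ℂ) ≠ 0} = 0 ∨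
      2 ≤ Nat.card {χ : Cfsg.IrrCharacter G // χ ∈ B ∧ ¬ p ∣ Cfsg.charDegree (χ : G → ℂ) ∧ Cfsg.classInner (fun n : N => (χ : G → ℂ) n) (θ : N → ℂ) ≠ 0}) ∧
    (p ≤ 3 → p ∣ Nat.card {χ : Cfsg.IrrCharacter G // χ ∈ B ∧ ¬ p ∣ Cfsg.charDegree (χ : G → ℂ) ∧ Cfsg.classInner (fun n : N => (χ : G → ℂ) n) (θ : N → ℂ) ≠ 0}) := by
  classical
  have hp : p.Prime := Fact.out
  obtain ⟨x, hxP, hxN⟩ := SetLike.not_le_iff_exists.1 hPN
  have hx : ∃ k, orderOf x = p ^ k := by
    obtain ⟨k, hk⟩ := (IsPGroup.iff_orderOf.1 P.isPGroup') ⟨x, hxP⟩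
    exact ⟨k, by rw [← hk, Subgroup.orderOf_mk]⟩
  have h := CL.Blk.sum_over_degree_mem N hM hB θ.2.isCharacter hx hxN
  choose e he using fun χ : IrrCharacter G =>
    (χ.2.isCharacter.res N).exists_nat_inner θ.2.isCharacter
  set t := (CL.Char.inertia N θ.1).index * charDegree θ.1 with ht
  have hdeg : ∀ χ : IrrCharacter G, e χ ≠ 0 → charDegree χ.1 = e χ * t := fun χ h0 => by
    refine CL.Blk.charDegree_of_eq ?_
    rw [CL.Char.clifford_degree χ.2 θ.2 (by rw [he]; exact_mod_cast h0), he, CL.Blk.irr_one_eq, ht]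
    push_cast; ring
  set S := Finset.univ.filter fun χ : IrrCharacter G => χ ∈ B ∧ ¬ p ∣ charDegree χ.1 ∧
    classInner (fun n : N => (χ : G → ℂ) n) (θ : N → ℂ) ≠ 0 with hS
  have hcard : Nat.card {χ : IrrCharacter G // χ ∈ B ∧ ¬ p ∣ charDegree (χ : G → ℂ) ∧
      classInner (fun n : N => (χ : G → ℂ) n) (θ : N → ℂ) ≠ 0} = S.card := by
    rw [hS, Nat.card_eq_fintype_card, Fintype.card_subtype]
  rw [hcard]
  have hmem : ∀ χ ∈ S, ¬ p ∣ e χ ∧ ¬ p ∣ t := fun χ hχ => by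
    obtain ⟨-, h1, h2⟩ := (Finset.mem_filter.1 hχ).2
    rw [hdeg χ (fun h0 => h2 (by rw [he, h0, Nat.cast_zero]))] at h1
    exact ⟨fun h => h1 (h.mul_right _), fun h => h1 (h.mul_left _)⟩
  have hsum : p ∣ (∑ χ ∈ S, e χ ^ 2) * t := by
    rw [← CL.Blk.natCast_mem_nonunits_iff hM]
    refine (CL.Blk.mem_nonunits_iff_of_sub ?_).1 h
    rw [Finset.sum_mul, Nat.cast_sum, hS, Finset.sum_filter, Finset.sum_filter,
      ← Finset.sum_sub_distrib]
    refine sum_mem fun χ _ => ?_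
    by_cases h0 : e χ = 0
    · simp [he, h0]
    by_cases h1 : χ ∈ B
    · by_cases h2 : p ∣ charDegree χ.1
      · rw [if_pos h1, if_neg (fun h => h.2.1 h2), sub_zero, he, CL.Blk.irr_one_eq,
          ← Nat.cast_mul, CL.Blk.natCast_mem_nonunits_iff hM]
        exact h2.mul_left _
      · rw [if_pos h1, if_pos ⟨h1, h2, by rw [he]; exact_mod_cast h0⟩, he, CL.Blk.irr_one_eq,
          hdeg χ h0]
        push_cast
        rw [show (e χ : ℂ) * (e χ * t) - e χ ^ 2 * t = 0 by ring]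
        exact zero_mem _
    · simp [h1]
  rcases S.eq_empty_or_nonempty with h0 | ⟨χ₀, hχ₀⟩
  · simp [h0]
  have hs : p ∣ ∑ χ ∈ S, e χ ^ 2 := ((Nat.Prime.dvd_mul hp).1 hsum).resolve_right (hmem χ₀ hχ₀).2
  refine ⟨Or.inr ?_, fun h3 => ?_⟩
  · by_contra hlt
    have h1 : S.card = 1 := by
      have := Finset.card_pos.2 ⟨χ₀, hχ₀⟩
      omega
    obtain ⟨a, ha⟩ := Finset.card_eq_one.1 h1
    rw [ha, Finset.sum_singleton] at hs
    exact (hmem a (by simp [ha])).1 (hp.dvd_of_dvd_pow hs)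
  · have hsq : ∀ χ ∈ S, e χ ^ 2 ≡ 1 [MOD p] := fun χ hχ => by
      have h1 := (hmem χ hχ).1
      have h2 := hp.two_le
      obtain rfl | rfl : p = 2 ∨ p = 3 := by omega
      · have : e χ % 2 = 1 := by omega
        simp [Nat.ModEq, Nat.pow_mod, this]
      · have : e χ % 3 = 1 ∨ e χ % 3 = 2 := by omega
        rcases this with this | this <;> simp [Nat.ModEq, Nat.pow_mod, this]
    have := Nat.ModEq.sum (s := S) hsq
    rw [Finset.sum_const, smul_eq_mul, mul_one] at this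
    exact (Nat.modEq_zero_iff_dvd.1 (this.symm.trans (Nat.modEq_zero_iff_dvd.2 hs)))

end Cfsg.Agent.S4825
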