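import Cfsg.Statements.S4828
import Cfsg.Agent.BLK.PairApp

set_option autoImplicit false
open Cfsg

namespace Cfsg.Agent.S4828

/-- Let p be a prime, M a maximal ideal of the algebraic integers containing p, and (Q, e) a Brauer pair of the finite group G (Q a p-subgroup, e a block of C_G(Q)). Then (Q, e) is a maximal Brauer pair of some block of G if and only if e contains an irreducible character θ such that θ takes the value θ(1) at every element of Z(Q) = Q ∩ C_G(Q), the p-part of θ(1) times the p-part of the order of Z(Q) equals the p-part of the order of C_G(Q) (θ has defect zero as a character of C_G(Q)/Z(Q)), and every element of N_G(Q) of p-power order that stabilizes e lies in Q·C_G(Q) (the stabilizer of e in N_G(Q) has index prime to p over Q·C_G(Q)). -/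
theorem result {G : Type*} [Group G] [Finite G] (p : ℕ) [Fact p.Prime] (M : Ideal Cfsg.AlgInt) (hM : Cfsg.IsPModular p M) (Q : Subgroup G) (e : Set (Cfsg.IrrCharacter (Subgroup.centralizer (Q : Set G)))) (he : Cfsg.IsBrauerPair p M Q e) :
    (∃ B : Set (Cfsg.IrrCharacter G), Cfsg.IsMaximalBrauerPair p M B Q e) ↔
      ∃ θ ∈ e, (∀ z : Subgroup.centralizer (Q : Set G), (z : G) ∈ Q → (θ : Subgroup.centralizer (Q : Set G) → ℂ) z = (θ : Subgroup.centralizer (Q : Set G) → ℂ) 1) ∧
        (Cfsg.charDegree (θ : Subgroup.centralizer (Q : Set G) → ℂ)).factorization p + (Nat.card ↥(Q ⊓ Subgroup.centralizer (Q : Set G))).factorization p = (Nat.card (Subgroup.centralizer (Q : Set G))).factorization p ∧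
        (∀ g : G, g ∈ Subgroup.normalizer (Q : Set G) → Cfsg.StabilizesBlock (Subgroup.centralizer (Q : Set G)) e g → (∃ k : ℕ, orderOf g = p ^ k) → g ∈ Q ⊔ Subgroup.centralizer (Q : Set G)) := by
  have hp := hM.1
  have hF := CL.Blk.natCast_F hM
  have hQ := CL.Blk.isPair_sb hM he
  constructor
  · rintro ⟨B, hmax⟩
    obtain ⟨θ, h1, h2, h3⟩ := (CL.Blk.sDef_center_iff hM he).1
      ((hmax.relPair hM).sDef_cent hp hF (hmax.isSB hM) (hmax.sDef hM))
    exact ⟨θ, h1, h2, h3, fun g h4 h5 => (hmax.relPair hM).mem_sup_of_pElt hp hF (hmax.isSB hM)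
      (hmax.sDef hM) ⟨trivial, (CL.Blk.mem_normalizer_and_stabilizes_iff hM he.2).1 ⟨h4, h5⟩⟩⟩
  · rintro ⟨θ, h1, h2, h3, h4⟩
    obtain ⟨b, hb, hR⟩ := hQ.exists_relPair hp hF le_top le_top
    obtain ⟨B, hB, rfl⟩ := hb.exists_block_top hM
    refine ⟨B, (CL.Blk.isMaximalBrauerPair_iff hM).2
      ⟨(CL.Blk.isBrauerPairOf_iff_relPair hM).2 ⟨hB, he.2, hR⟩,
        (CL.Blk.isDefectGroup_iff_sDef_top hM hB).2 (hR.sDef_of_cent hp hF hb
          ((CL.Blk.sDef_center_iff hM he).2 ⟨θ, h1, h2, h3⟩) fun x hx => ?_)⟩⟩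
    have := (CL.Blk.mem_normalizer_and_stabilizes_iff hM he.2).2 hx.2
    exact h4 x this.1 this.2

end Cfsg.Agent.S4828
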