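import Cfsg.Statements.S4840
import Cfsg.Agent.ORD.Gagola2

set_option autoImplicit false
open Cfsg

namespace Cfsg.Agent.S4840

/-- Let G be a finite solvable group of order greater than 2 with an irreducible character nonzero on exactly two conjugacy classes. Then there is exactly one prime p with O_p(G) ≠ 1, and the quotient G/O_p(G) has a normal p-complement and commutative Sylow p-subgroups. -/
theorem result {G : Type*} [Group G] [Finite G] [hs : Group.IsSolvable G] (hG : 2 < Nat.card G) (χ : Cfsg.IrrCharacter G) (hχ : Nat.card {C : ConjClasses G // ∃ g ∈ C.carrier, (χ : G → ℂ) g ≠ 0} = 2) :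
    ∃ p : ℕ, p.Prime ∧ (∀ q : ℕ, q.Prime → (Cfsg.pCore q G ≠ ⊥ ↔ q = p)) ∧
      Cfsg.HasNormalPComplement p (G ⧸ Cfsg.pCore p G) ∧ ∀ Q : Sylow p (G ⧸ Cfsg.pCore p G), IsMulCommutative (Q : Subgroup (G ⧸ Cfsg.pCore p G)) := by
  obtain ⟨N, hN, h⟩ := CL.Gag.exists_isGagola hG χ.2 hχ
  obtain ⟨p, hp, hNp⟩ := h.exists_isPGroup
  have := Fact.mk hp
  refine ⟨p, hp, fun q hq => ⟨fun hne => ?_, ?_⟩, h.npc_quotient hNp⟩
  · have := Fact.mk hq
    by_contra hqp
    have h1 : IsPGroup q N := (CL.isPGroup_pCore q G).to_le (h.le_of_normal _ hne)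
    have := IsPGroup.disjoint_of_ne q p hqp N N h1 hNp
    exact h.ne_bot (disjoint_self.mp this)
  · rintro rfl e
    exact h.ne_bot (eq_bot_iff.mpr (e ▸ CL.le_pCore hNp))
end Cfsg.Agent.S4840
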