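import Cfsg.Statements.S4845
import Cfsg.Agent.ORD.PGal

set_option autoImplicit false
open Cfsg

namespace Cfsg.Agent.S4845

/-- Let p be a prime and P a finite non-commutative p-group. Then every two irreducible characters of P of the same degree greater than 1 are Galois conjugate (one is obtained from the other by composing with g ↦ g^k for some k prime to the order of P) if and only if the centre of P is cyclic and the derived subgroup of P has order p. -/
theorem result {P : Type*} [Group P] [Finite P] (p : ℕ) [Fact p.Prime] (hP : IsPGroup p P) (hna : ¬ IsMulCommutative P) :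
    (∀ χ ψ : Cfsg.IrrCharacter P, Cfsg.charDegree (χ : P → ℂ) ≠ 1 → Cfsg.charDegree (χ : P → ℂ) = Cfsg.charDegree (ψ : P → ℂ) → ∃ k : ℕ, Nat.Coprime k (Nat.card P) ∧ ∀ g : P, (ψ : P → ℂ) g = (χ : P → ℂ) (g ^ k)) ↔
      (IsCyclic (Subgroup.center P) ∧ Nat.card (commutator P) = p) := by
  have hne : commutator P ≠ ⊥ := fun e => hna ⟨⟨fun a b => by
    have : a * b * a⁻¹ * b⁻¹ ∈ commutator P :=
      Subgroup.commutator_mem_commutator (Subgroup.mem_top a) (Subgroup.mem_top b)
    rw [e, Subgroup.mem_bot, mul_inv_eq_one, mul_inv_eq_iff_eq_mul] at this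
    exact this⟩⟩
  constructor
  · intro h
    have hk := CL.Ord.sameKer_of_galConj h
    exact ⟨hk.isCyclic_center hP hne, hk.card_commutator hP hne⟩
  · rintro ⟨h1, h2⟩ χ ψ a b
    exact CL.Ord.galConj_of_card_commutator hP h2 χ.2 ψ.2 a b
end Cfsg.Agent.S4845
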