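import Mathlib
import Cfsg.Statements.S4850
import Cfsg.Agent.SOLV.Subnormal
import Cfsg.Agent.FGS.VanP

set_option autoImplicit false
open Cfsg

namespace Cfsg.Agent.S4850

/-- Let p be a prime and G a finite solvable group whose vanishing elements (elements at which some irreducible character is zero) of order divisible by p all have the same order, with at least one such element. Let P be a Sylow p-subgroup of G. Then the derived subgroup of P is subnormal in G and the image of P in G/O_p(G) is cyclic. -/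
theorem result {G : Type*} [Group G] [Finite G] [hs : Group.IsSolvable G] (p : ℕ) [Fact p.Prime] (b : ℕ) (hvo : {n : ℕ | p ∣ n ∧ ∃ (g : G) (χ : Cfsg.IrrCharacter G), orderOf g = n ∧ (χ : G → ℂ) g = 0} = {b}) (P : Sylow p G) :
    ((commutator ↥(P : Subgroup G)).map (P : Subgroup G).subtype).IsSubnormal ∧ IsCyclic ↥((P : Subgroup G).map (QuotientGroup.mk' (Cfsg.pCore p G))) := by
  have hd := CL.VanP.card_map_dvd p (G := G) (fun x y hx hy hpx hpy => by
    obtain ⟨χ, hχ, h0⟩ := hx
    obtain ⟨ψ, hψ, h1⟩ := hy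
    have e1 : orderOf x ∈ ({b} : Set ℕ) := by
      rw [← hvo]; exact ⟨hpx, x, ⟨χ, hχ⟩, rfl, h0⟩
    have e2 : orderOf y ∈ ({b} : Set ℕ) := by
      rw [← hvo]; exact ⟨hpy, y, ⟨ψ, hψ⟩, rfl, h1⟩
    rw [Set.mem_singleton_iff.mp e1, Set.mem_singleton_iff.mp e2]) P
  have hcyc : IsCyclic ↥((P : Subgroup G).map (QuotientGroup.mk' (Cfsg.pCore p G))) :=
    isCyclic_of_card_dvd_prime hd
  refine ⟨?_, hcyc⟩
  have hle : (commutator ↥(P : Subgroup G)).map (P : Subgroup G).subtype ≤ Cfsg.pCore p G := by
    rw [Subgroup.map_le_iff_le_comap, commutator, Subgroup.commutator_le]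
    intro x _ y _
    rw [Subgroup.mem_comap, map_commutatorElement, ← QuotientGroup.eq_one_iff]
    show QuotientGroup.mk' (Cfsg.pCore p G) _ = 1
    rw [map_commutatorElement, commutatorElement_eq_one_iff_mul_comm]
    haveI := hcyc.isMulCommutative
    exact setLike_mul_comm (s := (P : Subgroup G).map (QuotientGroup.mk' (Cfsg.pCore p G)))
      ⟨x, x.2, rfl⟩ ⟨y, y.2, rfl⟩
  haveI : Group.IsNilpotent (Cfsg.pCore p G) := (CL.isPGroup_pCore p G).isNilpotent
  exact Subgroup.IsSubnormal.trans hle (CL.isSubnormal_of_isNilpotent _)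
    (Subgroup.Normal.isSubnormal inferInstance)

end Cfsg.Agent.S4850
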