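import Cfsg.Statements.S4864
import Cfsg.Agent.BLK.RealP

set_option autoImplicit false
open Cfsg

namespace Cfsg.Agent.S4864


/-- Let p be a prime and G a finite group such that the subgroup generated by the p-elements of G is solvable and every real-valued irreducible complex character of G has degree prime to p. Then the normalizer of a Sylow p-subgroup of G contains an element of every real conjugacy class of G: every element conjugate to its inverse is conjugate to an element of that normalizer. -/
theorem result {G : Type*} [Group G] [Finite G] (p : ℕ) [Fact p.Prime] (hsolv : Group.IsSolvable ↥(Subgroup.closure {g : G | ∃ k : ℕ, orderOf g = p ^ k})) (hreal : ∀ χ : Cfsg.IrrCharacter G, (∀ g : G, ((χ : G → ℂ) g).im = 0) → ¬ p ∣ Cfsg.charDegree (χ : G → ℂ)) (P : Sylow p G) (x : G) (hx : IsConj x x⁻¹) : ∃ y ∈ Subgroup.normalizer ((P : Subgroup G) : Set G), IsConj x y := by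
  exact CL.RealP.RP.meets hreal CL.RealP.not_dvd_index_Op (CL.MSS.sylIn_top P)
    (CL.RealP.RP.inf_normal hreal hsolv (CL.MSS.sylIn_top P)) hx

end Cfsg.Agent.S4864
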