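import Cfsg.Statements.S4866
import Cfsg.Agent.CHAR.BrauerPerm
import Cfsg.Agent.CHAR.Clifford

set_option autoImplicit false
open Cfsg

namespace Cfsg.Agent.S4866

open CL.Char

theorem card_orbits_eq {A X Y : Type*} [Group A] [Finite A] [Finite X] [Finite Y] [MulAction A X]
    [MulAction A Y]
    (h : ∀ a : A, Nat.card (MulAction.fixedBy X a) = Nat.card (MulAction.fixedBy Y a)) :
    Nat.card (MulAction.orbitRel.Quotient A X) = Nat.card (MulAction.orbitRel.Quotient A Y) := by
  classical
  have := Fintype.ofFinite A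
  have := Fintype.ofFinite (MulAction.orbitRel.Quotient A X)
  have := Fintype.ofFinite (MulAction.orbitRel.Quotient A Y)
  have := fun a : A => Fintype.ofFinite (MulAction.fixedBy X a)
  have := fun a : A => Fintype.ofFinite (MulAction.fixedBy Y a)
  have h1 := MulAction.sum_card_fixedBy_eq_card_orbits_mul_card_group A X
  have h2 := MulAction.sum_card_fixedBy_eq_card_orbits_mul_card_group A Y
  simp only [Fintype.card_eq_nat_card] at h1 h2
  simp only [h] at h1
  exact Nat.eq_of_mul_eq_mul_right Nat.card_pos (h1.symm.trans h2)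

section
variable {G : Type*} [Group G] (K : Subgroup G) [K.Normal]

theorem coe_cE (g : G) (k : K) : (conjEquiv K g k : G) = g * k * g⁻¹ := rfl

theorem split_odd (hodd : Odd K.index) (g : G) (P : K → Prop)
    (hP : ∀ a b, IsConj a b → P a → P b) (h : ∀ k, P k → P (conjEquiv K g k)⁻¹) :
    (∀ k, P k → P k⁻¹) ∧ ∀ k, P k → P (conjEquiv K g k) := by
  obtain ⟨r, hr⟩ := hodd
  have h1 : ∀ i : ℕ, ∀ k, P k → P (conjEquiv K (g ^ (2 * i)) k) := by
    intro i
    induction i with
    | zero => intro k hk; convert hk; exact Subtype.ext (by simp [coe_cE])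
    | succ i ih =>
      intro k hk
      convert h _ (h _ (ih k hk)) using 1
      apply Subtype.ext
      simp only [coe_cE, Subgroup.coe_inv, mul_add, pow_add]
      group
  have h2 : ∀ k, P k → P k⁻¹ := fun k hk => hP _ _ (isConj_iff.mpr
    ⟨⟨g ^ K.index, K.pow_index_mem g⟩⁻¹, Subtype.ext (by
      simp only [coe_cE, Subgroup.coe_inv, Subgroup.coe_mul, hr]
      group)⟩) (h _ (h1 r k hk))
  refine ⟨h2, fun k hk => ?_⟩
  simpa using h _ (h2 k hk)

/-- The action on real irreducible characters. -/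
@[reducible] def actI : MulAction G {θ : IrrCharacter K // ∀ k : K, (θ.1 k).im = 0} where
  smul g θ := ⟨⟨fun k => θ.1.1 (conjEquiv K g⁻¹ k), θ.1.2.comp_mulEquiv _⟩, fun _ => θ.2 _⟩
  one_smul θ := Subtype.ext (Subtype.ext (funext fun k => congrArg θ.1.1 (Subtype.ext (by
    simp [coe_cE]))))
  mul_smul x y θ := Subtype.ext (Subtype.ext (funext fun k => congrArg θ.1.1 (Subtype.ext (by
    simp [coe_cE, mul_assoc]))))

theorem real_mk {H : Type*} [Group H] (c : H) :
    (∀ k : H, ConjClasses.mk k = ConjClasses.mk c → IsConj k k⁻¹) ↔ IsConj c c⁻¹ := by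
  refine ⟨fun h => h c rfl, fun h k hk => ?_⟩
  have h4 := ConjClasses.mk_eq_mk_iff_isConj.mp hk
  obtain ⟨y, hy⟩ := isConj_iff.mp h4
  exact (h4.trans h).trans (isConj_iff.mpr ⟨y⁻¹, by rw [← hy]; group⟩)

/-- The action on real classes. -/
@[reducible] def actC :
    MulAction G {c : ConjClasses K // ∀ k : K, ConjClasses.mk k = c → IsConj k k⁻¹} where
  smul g c := ⟨ConjClasses.map (conjEquiv K g).toMonoidHom c.1, by
    obtain ⟨c, hc⟩ := c
    obtain ⟨x, rfl⟩ := ConjClasses.mk_surjective c
    refine (real_mk (conjEquiv K g x)).mpr ?_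
    simpa using (conjEquiv K g).toMonoidHom.map_isConj (hc x rfl)⟩
  one_smul c := by
    obtain ⟨c, hc⟩ := c
    obtain ⟨x, rfl⟩ := ConjClasses.mk_surjective c
    exact Subtype.ext (congrArg ConjClasses.mk (Subtype.ext (by simp [coe_cE])))
  mul_smul a b c := by
    obtain ⟨c, hc⟩ := c
    obtain ⟨x, rfl⟩ := ConjClasses.mk_surjective c
    exact Subtype.ext (congrArg ConjClasses.mk (Subtype.ext (by simp [coe_cE, mul_assoc])))
end

/-- Let K be a normal subgroup of odd index in the finite group G. Then G has as many orbits on the real-valued irreducible complex characters of K (acting by conjugation) as it has orbits on the conjugacy classes of K that are real in K; equivalently, the number of G-orbits of real-valued irreducible characters of K equals the number of G-conjugacy classes of elements of K that are conjugate in K to their inverses. -/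
theorem result {G : Type*} [Group G] [Finite G] (K : Subgroup G) [K.Normal] (hodd : Odd K.index) : Nat.card (Quot (fun θ η : {θ : Cfsg.IrrCharacter ↥K // (∀ k : ↥K, ((θ : ↥K → ℂ) k).im = 0)} => ∃ g : G, ∀ k k' : ↥K, (k' : G) = g * (k : G) * g⁻¹ → (η.1 : ↥K → ℂ) k' = (θ.1 : ↥K → ℂ) k)) = Nat.card (Quot (fun x y : {x : ↥K // IsConj x x⁻¹} => ∃ g : G, (y.1 : G) = g * x.1 * g⁻¹)) := by
  let _ := actI K
  let _ := actC K
  have hI : ∀ (g : G) (θ : {θ : IrrCharacter K // ∀ k : K, (θ.1 k).im = 0}) (k : K),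
    (g • θ).1.1 k = θ.1.1 (conjEquiv K g⁻¹ k) := fun _ _ _ => rfl
  have hC : ∀ (g : G) (x : K) (hx),
    (g • (⟨ConjClasses.mk x, hx⟩ : {c : ConjClasses K // ∀ k : K, ConjClasses.mk k = c →
      IsConj k k⁻¹})).1 = ConjClasses.mk (conjEquiv K g x) := fun _ _ _ => rfl
  have h1 := card_orbits_eq (A := G) (X := {θ : IrrCharacter K // ∀ k : K, (θ.1 k).im = 0})
    (Y := {c : ConjClasses K // ∀ k : K, ConjClasses.mk k = c → IsConj k k⁻¹}) (fun g => by
      have h2 := brauer_perm (G := K) (fun k => (conjEquiv K g k)⁻¹)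
        fun χ hχ => hχ.inv.comp_mulEquiv _
      refine Eq.trans ?_ (h2.trans ?_)
      · refine Nat.card_congr (Equiv.subtypeSubtypeEquivSubtypeExists _ _ |>.trans
          (Equiv.subtypeEquivRight fun θ => ⟨fun ⟨h3, h4⟩ k => ?_, fun h3 => ?_⟩))
        · rw [(conj_eq_iff_apply_inv θ.2.isCharacter _).mpr (h3 _)]
          have := congrFun (congrArg (fun z => z.1.1) h4) (conjEquiv K g k)
          simp only [hI] at this
          rw [← this]
          exact congrArg θ.1 (Subtype.ext (by simp [coe_cE, mul_assoc]))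
        · have h4 := fun v => split_odd K hodd g (fun k => θ.1 k = v)
            (fun a b hab ha => by rw [← θ.2.isClassFunction.eq_of_isConj hab, ha])
            (fun k hk => by rw [h3, hk])
          refine ⟨fun k => (conj_eq_iff_apply_inv θ.2.isCharacter _).mp ((h4 _).1 k rfl),
            Subtype.ext (Subtype.ext (funext fun k => ?_))⟩
          rw [hI, ← (h4 _).2 (conjEquiv K g⁻¹ k) rfl]
          exact congrArg θ.1 (Subtype.ext (by simp [coe_cE, mul_assoc]))
      · symm
        refine Nat.card_congr (Equiv.subtypeSubtypeEquivSubtypeExists _ _ |>.trans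
          (Equiv.subtypeEquivRight fun c => ⟨fun ⟨h3, h4⟩ k hk => ?_, fun h3 => ?_⟩))
        · subst hk
          have h5 := ConjClasses.mk_eq_mk_iff_isConj.mp
            ((hC g k h3).symm.trans (congrArg Subtype.val h4))
          exact ((h3 _ (ConjClasses.mk_eq_mk_iff_isConj.mpr h5)).symm).trans h5
        · have h4 := split_odd K hodd g (fun k => ConjClasses.mk k = c)
            (fun a b hab ha => by rw [← ConjClasses.mk_eq_mk_iff_isConj.mpr hab, ha])
            (fun k hk => by rw [ConjClasses.mk_eq_mk_iff_isConj.mpr (h3 k hk), hk])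
          obtain ⟨x, rfl⟩ := ConjClasses.mk_surjective c
          exact ⟨fun k hk => ConjClasses.mk_eq_mk_iff_isConj.mp (hk.trans (h4.1 k hk).symm),
            Subtype.ext (h4.2 x rfl)⟩)
  refine Eq.trans ?_ (h1.trans ?_)
  · refine Nat.card_congr (Quot.congrRight fun θ η => ?_)
    change _ ↔ θ ∈ MulAction.orbit G η
    refine ⟨fun ⟨g, hg⟩ => ⟨g⁻¹, Subtype.ext (Subtype.ext (funext fun k => ?_))⟩,
      fun ⟨g, hg⟩ => ⟨g⁻¹, fun k k' hk => ?_⟩⟩
    · simp only [hI, inv_inv]
      exact hg k _ rfl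
    · rw [← hg]
      simp only [hI]
      exact congrArg η.1.1 (Subtype.ext hk)
  · symm
    refine Nat.card_eq_of_bijective (Quot.map (fun x => ⟨ConjClasses.mk x.1, (real_mk _).mpr x.2⟩)
      fun x y ⟨g, hg⟩ => ⟨g⁻¹, Subtype.ext ((hC _ _ _).trans (congrArg ConjClasses.mk
        (Subtype.ext (by rw [coe_cE, hg]; group))))⟩) ⟨?_, ?_⟩
    · rintro ⟨x⟩ ⟨y⟩ h
      obtain ⟨g, hg⟩ := Quotient.exact h
      obtain ⟨c, hc⟩ := isConj_iff.mp (ConjClasses.mk_eq_mk_iff_isConj.mp
        ((hC g y.1 _).symm.trans (congrArg Subtype.val hg)))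
      refine (Quot.sound ⟨c * g, ?_⟩).symm
      rw [← hc]
      simp only [Subgroup.coe_mul, Subgroup.coe_inv, coe_cE]
      group
    · rintro ⟨c, hc⟩
      obtain ⟨x, rfl⟩ := ConjClasses.mk_surjective c
      exact ⟨Quot.mk _ ⟨x, hc x rfl⟩, rfl⟩

end Cfsg.Agent.S4866
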