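import Cfsg.Statements.S4870
import Cfsg.Agent.ORD.LinCount

set_option autoImplicit false
open Cfsg

open CL.Char
namespace Cfsg.Agent.S4870

/-- Let G be a finite group with a non-abelian minimal normal subgroup N, and let φ be an irreducible complex character of N with stabilizer I in G (the elements g with φ(g n g⁻¹) = φ(n) for all n ∈ N) such that φ extends to an irreducible character of I. Put d = φ(1)·[G : I]. Then the number of linear characters of G is at most [G : I] times the number of irreducible characters of G of degree d. -/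
theorem result {G : Type*} [Group G] [Finite G] (N : Subgroup G) (hN : N.Normal) (hN1 : N ≠ ⊥) (hmin : ∀ M : Subgroup G, M.Normal → M ≤ N → M = ⊥ ∨ M = N) (hna : ¬ IsMulCommutative ↥N) (φ : Cfsg.IrrCharacter ↥N) (I : Subgroup G) (hI : ∀ g : G, g ∈ I ↔ ∀ n n' : ↥N, (n' : G) = g * (n : G) * g⁻¹ → (φ : ↥N → ℂ) n' = (φ : ↥N → ℂ) n) (hNI : N ≤ I) (hext : ∃ ψ : Cfsg.IrrCharacter ↥I, ∀ n : ↥N, (ψ : ↥I → ℂ) (Subgroup.inclusion hNI n) = (φ : ↥N → ℂ) n) : Nat.card {χ : Cfsg.IrrCharacter G // Cfsg.charDegree (χ : G → ℂ) = 1} ≤ I.index * Nat.card {χ : Cfsg.IrrCharacter G // Cfsg.charDegree (χ : G → ℂ) = Cfsg.charDegree (φ : ↥N → ℂ) * I.index} := by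
  classical
  have := Fintype.ofFinite G
  have hT : inertia N (φ : N → ℂ) = I := by
    refine inertia_eq_of_iff fun g => ?_
    rw [hI]
    refine ⟨fun h n => h n _ rfl, fun h n n' e => ?_⟩
    obtain rfl : n' = ⟨g * n * g⁻¹, hN.conj_mem n n.2 g⟩ := Subtype.ext e
    exact h n
  obtain ⟨ψ, hψ⟩ := hext
  have h := CL.Ord.card_linear_le_of_ext
    (CL.Ord.le_commutator_of_minNormal_nonabelian hN hmin hna) φ.2 hT hNI ψ.2 hψ ⊤
    (fun _ => True) (fun _ _ _ => trivial)
  simp only [and_true] at h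
  refine le_trans (le_of_eq ?_) h
  rw [Subgroup.card_top, Nat.card_congr (linearEquivHom G)]
  exact Nat.card_congr (Equiv.subtypeEquivRight fun χ => χ.2.isCharacter.charDegree_eq_one_iff)

end Cfsg.Agent.S4870
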