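import Cfsg.Statements.S4872
import Cfsg.Agent.BLK.FSReal
import Cfsg.Agent.CHAR.Triple
import Cfsg.Agent.BLK.DefZero
import Cfsg.Agent.BLK.GRoots
import Cfsg.Agent.CHAR.Linear

set_option autoImplicit false
open Cfsg

namespace Cfsg.Agent.S4872

open Cfsg Module Matrix CL.Char CL.Blk
open scoped ComplexConjugate

theorem even_fix {G : Type*} [Group G] [Fintype G] {χ : G → ℂ} (h : IsIrrCharacter G χ)
    (hr : ∀ g, (χ g).im = 0) (hν : fsInd χ = -1) (H : Subgroup G) [Fintype H] {a : ℕ}
    (ha : classInner (fun x : H => χ x) (fun _ => 1) = a) : Even a := by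
  classical
  obtain ⟨n, ρ, hρ, rfl⟩ := h
  obtain ⟨M, hM0, hM⟩ := exists_inv_ne_zero ρ hr
  have hskew : Mᵀ = -M := by rw [transpose_eq_of_inv ρ hM, hν, neg_one_smul]
  have hker : ∀ v, M *ᵥ v = 0 → v = 0 := by
    rcases ((isIrreducible_iff ρ).1 hρ).2 (LinearMap.ker (Matrix.toLin' M)) (by
      intro g v hv
      rw [LinearMap.mem_ker, Matrix.toLin'_apply] at hv ⊢
      rw [← repMat_mulVec, Matrix.mulVec_mulVec, mul_repMat_of_inv hM, ← Matrix.mulVec_mulVec, hv,
        Matrix.mulVec_zero]) with h4 | h4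
    · intro v hv
      have : v ∈ LinearMap.ker (Matrix.toLin' M) := by
        rw [LinearMap.mem_ker, Matrix.toLin'_apply, hv]
      rwa [h4, Submodule.mem_bot] at this
    · rw [LinearMap.ker_eq_top, EmbeddingLike.map_eq_zero_iff] at h4
      exact absurd h4 hM0
  let σ : Representation ℂ H (Fin n → ℂ) := ρ.comp H.subtype
  let _ : Invertible (Nat.card H : ℂ) := invertibleOfNonzero (card_ne_zero H)
  have h2 := σ.card_inv_mul_sum_char_eq_finrank
  simp only [classInner_def, map_one, mul_one] at ha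
  have h3 : finrank ℂ σ.invariants = a := by
    have : ((finrank ℂ σ.invariants : ℕ) : ℂ) = a := by rw [← h2, ← ha]; rfl
    exact_mod_cast this
  let B : LinearMap.BilinForm ℂ (Fin n → ℂ) := Matrix.toBilin' M
  have hB : ∀ v w, B v w = v ⬝ᵥ M *ᵥ w := fun v w => Matrix.toBilin'_apply' M v w
  have hB1 : ∀ v w, B w v = -B v w := fun v w => by
    rw [hB, hB, Matrix.dotProduct_mulVec, ← Matrix.mulVec_transpose, hskew, Matrix.neg_mulVec,
      neg_dotProduct, dotProduct_comm]
  have hB2 : ∀ g v w, B (ρ g v) (ρ g w) = B v w := fun g v w => by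
    rw [hB, hB, ← repMat_mulVec, ← repMat_mulVec, Matrix.mulVec_mulVec, ← Matrix.vecMul_transpose,
      ← Matrix.dotProduct_mulVec, Matrix.mulVec_mulVec, ← Matrix.mul_assoc, hM]
  let W := σ.invariants
  have hnd : ∀ w : W, (∀ w' : W, B w' w = 0) → w = 0 := by
    intro w hw
    refine Subtype.ext (hker _ ?_)
    have h5 : ∀ v, B v w = 0 := by
      intro v
      have h6 : ∑ x : H, σ x v ∈ W := by
        intro y
        rw [map_sum, ← Equiv.sum_comp (Equiv.mulLeft y) (fun x => σ x v)]
        exact Finset.sum_congr rfl fun x _ => by simp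
      have h7 := hw ⟨_, h6⟩
      simp only [map_sum, LinearMap.sum_apply] at h7
      have h8 : ∀ x : H, B (σ x v) w = B v w := fun x => by
        conv_lhs => rw [← w.2 x]
        exact hB2 x v w
      simp only [h8, Finset.sum_const, Finset.card_univ, nsmul_eq_mul] at h7
      exact (mul_eq_zero.1 h7).resolve_left (by simp)
    funext i
    have := h5 (Pi.single i 1)
    rwa [hB, single_one_dotProduct] at this
  let b := Module.finBasis ℂ W
  let A : Matrix (Fin (finrank ℂ W)) (Fin (finrank ℂ W)) ℂ := fun i j => B (b i) (b j)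
  have hA : Aᵀ = -A := by ext i j; exact hB1 _ _
  have hdet : A.det ≠ 0 := by
    intro h0
    obtain ⟨c, hc0, hc⟩ := Matrix.exists_mulVec_eq_zero_iff.2 h0
    apply hc0
    have h9 : (∑ j, c j • b j : W) = 0 := by
      refine hnd _ fun w' => ?_
      rw [← b.sum_repr w', Submodule.coe_sum, map_sum, LinearMap.sum_apply]
      refine Finset.sum_eq_zero fun i _ => ?_
      have := congrFun hc i
      simp only [Matrix.mulVec, dotProduct, A, Pi.zero_apply] at this
      rw [Submodule.coe_smul, map_smul, LinearMap.smul_apply]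
      refine smul_eq_zero_of_right _ ?_
      rw [← this, Submodule.coe_sum, map_sum]
      exact Finset.sum_congr rfl fun j _ => by rw [Submodule.coe_smul, map_smul, smul_eq_mul, mul_comm]
    funext j
    exact Fintype.linearIndependent_iff.1 b.linearIndependent c h9 j
  have h5 := congrArg Matrix.det hA
  rw [Matrix.det_transpose, Matrix.det_neg, Fintype.card_fin] at h5
  by_contra hodd
  rw [← h3] at hodd
  rw [(Nat.not_even_iff_odd.1 hodd).neg_one_pow] at h5
  exact hdet (by linear_combination (2⁻¹ : ℂ) * h5)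

/-- Let N be a normal subgroup of the finite group G with G/N a 2-group, and let φ be an irreducible complex character of N of 2-defect zero (the 2-part of #N divides φ(1)) whose complex conjugate is G-conjugate to φ. Then some irreducible character of G with Frobenius–Schur indicator +1 contains φ with multiplicity exactly one on restriction to N. -/
theorem result {G : Type*} [Group G] [Finite G] (N : Subgroup G) [N.Normal] (h2 : IsPGroup 2 (G ⧸ N)) (φ : Cfsg.IrrCharacter ↥N) (hdef : 2 ^ (Nat.card ↥N).factorization 2 ∣ Cfsg.charDegree (φ : ↥N → ℂ)) (hconj : ∃ g : G, ∀ n n' : ↥N, (n' : G) = g * (n : G) * g⁻¹ → (φ : ↥N → ℂ) n' = (starRingEnd ℂ) ((φ : ↥N → ℂ) n)) : ∃ χ : Cfsg.IrrCharacter G, (Nat.card G : ℂ)⁻¹ * ∑ᶠ g : G, (χ : G → ℂ) (g * g) = 1 ∧ (Nat.card ↥N : ℂ)⁻¹ * ∑ᶠ n : ↥N, (χ : G → ℂ) n * (starRingEnd ℂ) ((φ : ↥N → ℂ) n) = 1 := by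
  classical
  have := Fintype.ofFinite G
  have : Fact (Nat.Prime 2) := ⟨Nat.prime_two⟩
  obtain ⟨P⟩ : Nonempty (Sylow 2 G) := inferInstance
  obtain ⟨g, hg⟩ := hconj
  have hgc : conjN N g φ.1 = fun n => conj (φ.1 n) := funext fun n => hg n _ rfl
  obtain ⟨b, hb, hb'⟩ := φ.2.isCharacter.ind.exists_nat_coeffs (G := G)
  have hb2 : ∀ χ : IrrCharacter G, classInner (fun n : N => χ.1 n) φ.1 = b χ := fun χ => by
    rw [← hb, inner_ind_eq_inner_res φ.2.isCharacter χ.2.isCharacter]
  choose a ha using fun χ : IrrCharacter G =>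
    (χ.2.isCharacter.res (P : Subgroup G)).exists_nat_inner isCharacter_one
  obtain ⟨M, hM⟩ := CL.Glb.exists_isPModular (p := 2) Nat.prime_two
  have hdz := (defZero_iff_pow_dvd Nat.prime_two).2 hdef
  -- the sum is odd
  have hsum : (Nat.card P : ℂ) * ∑ χ, (b χ * a χ : ℕ) = N.index * charDegree φ.1 := by
    have h1 : classInner (fun x : (P : Subgroup G) => indFun N φ.1 x) (fun _ => 1) =
        ∑ χ, (b χ * a χ : ℕ) := by
      have : (fun x : (P : Subgroup G) => indFun N φ.1 x) =
          ∑ χ : IrrCharacter G, (b χ : ℂ) • fun x : (P : Subgroup G) => χ.1 x := by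
        funext x
        rw [congrFun hb' x]
        simp [Finset.sum_apply]
      rw [this, classInner_sum_left]
      push_cast
      exact Finset.sum_congr rfl fun χ _ => by rw [classInner_smul_left, ha]
    rw [← h1, card_mul_classInner, Finset.sum_eq_single 1]
    · simp only [OneMemClass.coe_one, map_one, mul_one, indFun_one, φ.2.apply_one_eq_charDegree]
    · intro x _ hx
      rw [indFun_eq_zero N φ.1 x fun y hy => hdz.vanish hM ?_, zero_mul]
      rw [← Subgroup.orderOf_coe]
      obtain ⟨k, hk⟩ := IsPGroup.iff_orderOf.1 P.isPGroup' x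
      have e : orderOf (y⁻¹ * x * y) = orderOf x := by
        rw [← Subgroup.orderOf_coe x]
        simpa using orderOf_injective (MulAut.conj y⁻¹).toMonoidHom (MulAut.conj y⁻¹).injective x
      change 2 ∣ orderOf (y⁻¹ * x * y)
      rw [e, hk]
      exact dvd_pow_self 2 fun h0 => hx (orderOf_eq_one_iff.1 (by rw [hk, h0, pow_zero]))
    · simp
  have hsum' : Nat.card P * ∑ χ, b χ * a χ = N.index * charDegree φ.1 := by exact_mod_cast hsum
  obtain ⟨j, hj⟩ := IsPGroup.iff_card.1 h2
  have hj' : N.index = 2 ^ j := hj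
  have hodd : Odd (∑ χ, b χ * a χ) := by
    by_contra hev
    obtain ⟨c, hc⟩ := (Nat.not_odd_iff_even.1 hev).two_dvd
    have h3 : N.index * charDegree φ.1 ∣ Nat.card G := by
      rw [← N.index_mul_card]
      exact Nat.mul_dvd_mul_left _ φ.2.charDegree_dvd_card
    rw [← hsum', hc, ← mul_assoc, ← (P : Subgroup G).card_mul_index] at h3
    exact P.not_dvd_index ((Nat.mul_dvd_mul_iff_left Nat.card_pos).1 ((Dvd.intro _ rfl).trans h3))
  -- a real character with odd term
  obtain ⟨χ, hr, ho⟩ : ∃ χ : IrrCharacter G, (∀ x, (χ.1 x).im = 0) ∧ Odd (b χ * a χ) := by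
    by_contra! hn
    have h1 : ∑ χ, ((b χ * a χ : ℕ) : ZMod 2) = 0 := by
      refine Finset.sum_involution (fun χ _ => irrConj G χ) (fun χ _ => ?_) (fun χ _ h e => h ?_)
        (fun _ _ => Finset.mem_univ _) fun χ _ => Subtype.ext (funext fun g => by
          simp [irrConj_apply])
      · have e1 : a (irrConj G χ) = a χ := by
          have := classInner_conj_conj (fun x : (P : Subgroup G) => χ.1 x) (fun _ => 1)
          rw [ha, map_natCast] at this
          simp only [map_one] at this
          exact_mod_cast (ha (irrConj G χ)).symm.trans this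
        have e2 : b (irrConj G χ) = b χ := by
          have := classInner_conj_conj (fun x : N => χ.1 x) φ.1
          rw [hb2, map_natCast, ← hgc] at this
          exact_mod_cast (hb2 (irrConj G χ)).symm.trans
            ((classInner_res_conjN (irrConj G χ).2.isCharacter.isClassFunction g φ.1).symm.trans this)
        rw [e1, e2, ← two_mul]
        exact mul_eq_zero_of_left rfl _
      · exact (ZMod.natCast_eq_zero_iff_even).2 (Nat.not_odd_iff_even.1
          (hn χ fun g => Complex.conj_eq_iff_im.1 (by rw [← irrConj_apply, e])))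
    rw [← Nat.cast_sum, ZMod.natCast_eq_zero_iff_even] at h1
    exact Nat.not_even_iff_odd.2 hodd h1
  obtain ⟨hob, hoa⟩ := Nat.odd_mul.1 ho
  have hne : classInner (fun n : N => χ.1 n) φ.1 ≠ 0 := by
    rw [hb2]
    exact_mod_cast hob.pos.ne'
  obtain ⟨k, hk1, hk2⟩ := exists_degree_eq_mul_dvd_index χ.2 φ.2 hne
  have h4 := clifford_degree χ.2 φ.2 hne
  rw [hb2, hk1] at h4
  have h5 : k = b χ * (inertia N φ.1).index := by
    exact_mod_cast mul_right_cancel₀ φ.2.one_ne_zero h4
  have h6 : b χ = 1 := by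
    have : b χ ∣ 2 ^ j := (Dvd.intro _ h5.symm).trans (hj' ▸ hk2)
    exact Nat.Coprime.eq_one_of_dvd (Nat.Coprime.pow_right _ (Nat.coprime_two_right.2 hob)) this
  refine ⟨χ, ?_, ?_⟩
  · rw [finsum_eq_sum_of_fintype, ← fsInd_def]
    exact (χ.2.fsInd_of_real hr).resolve_right fun hν =>
      Nat.not_even_iff_odd.2 hoa (even_fix χ.2 hr hν _ (ha χ))
  · rw [finsum_eq_sum_of_fintype, ← classInner_def (fun n : N => χ.1 n), hb2, h6, Nat.cast_one]

end Cfsg.Agent.S4872
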