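import Cfsg.Statements.S4873
import Cfsg.Agent.BLK.OddExt
import Cfsg.Agent.CHAR.FS

set_option autoImplicit false
open Cfsg

namespace Cfsg.Agent.S4873

open CL.Char CL.OddExt

theorem real_of_fs {G : Type*} [Group G] [Fintype G] {χ : G → ℂ} (hχ : IsIrrCharacter G χ)
    (h : fsInd χ = 1) (g : G) : starRingEnd ℂ (χ g) = χ g := by
  rw [Complex.conj_eq_iff_im]
  by_contra h0
  rw [hχ.fsInd_eq_zero_of_not_real ⟨g, h0⟩] at h
  exact zero_ne_one h


/-- Let N be a normal subgroup of odd index in the finite group G. Then every irreducible complex character of N with Frobenius–Schur indicator +1 lies under exactly one irreducible character of G with Frobenius–Schur indicator +1. -/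
theorem result {G : Type*} [Group G] [Finite G] (N : Subgroup G) [N.Normal] (hodd : Odd N.index) (φ : Cfsg.IrrCharacter ↥N) (hφ : (Nat.card ↥N : ℂ)⁻¹ * ∑ᶠ g : ↥N, (φ : ↥N → ℂ) (g * g) = 1) : ∃! χ : Cfsg.IrrCharacter G, (Nat.card G : ℂ)⁻¹ * ∑ᶠ g : G, (χ : G → ℂ) (g * g) = 1 ∧ (∑ᶠ n : ↥N, (χ : G → ℂ) n * (starRingEnd ℂ) ((φ : ↥N → ℂ) n)) ≠ 0 := by
  classical
  have := Fintype.ofFinite G
  have := Fintype.ofFinite N
  simp only [finsum_eq_sum_of_fintype] at hφ ⊢
  have hin : ∀ χ : G → ℂ, (∑ n : N, χ n * starRingEnd ℂ (φ.1 n)) ≠ 0 ↔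
      classInner (fun n : N => χ n) φ.1 ≠ 0 := fun χ => by
    rw [← card_mul_classInner (fun n : N => χ n), mul_ne_zero_iff_left (card_ne_zero N)]
  have h : Hyp (starRingEnd ℂ) N.index N := by
    refine ⟨hodd, fun g => N.pow_index_mem g, fun z hz => ?_⟩
    rw [mul_comm, Complex.mul_conj, Complex.normSq_eq_norm_sq,
      Complex.norm_eq_one_of_pow_eq_one hz hodd.pos.ne']
    simp
  obtain ⟨χ, hχ, h1, h2, h3⟩ := h.exists_unique φ.2 (real_of_fs φ.2 hφ)
  have h1' : classInner (fun n : N => χ n) φ.1 ≠ 0 := h1 ▸ one_ne_zero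
  refine ⟨⟨χ, hχ⟩, ⟨?_, (hin χ).2 h1'⟩, fun χ' h' =>
    Subtype.ext (h3 _ χ'.2 ((hin _).1 h'.2) (real_of_fs χ'.2 h'.1))⟩
  show fsInd χ = 1
  rcases hχ.sq_inner_of_real (fun g => Complex.conj_eq_iff_im.1 (h2 g)) with ⟨ha, hb⟩ | ⟨ha, hb⟩
  · rw [fsInd_eq_sub, ha, hb, sub_zero]
  exfalso
  have h4 := inner_comp_ne_zero_of_constituent N.subtype hχ.isCharacter.altSq (irrOne G).2
    (hb ▸ one_ne_zero) (irrOne N).2.isCharacter (by
      have := (irrOne N).2.inner_self
      exact this ▸ one_ne_zero)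
  have h5 := inner_conj_eq_add (fun n : N => χ n)
  have h6 := fsInd_eq_sub (fun n : N => χ n)
  simp only [h2] at h5
  rw [clifford_norm hχ φ.2 h1', h1] at h5
  have h7 : fsInd (fun n : N => χ n) = (inertia N φ.1).index := by
    rw [clifford hχ φ.2 h1', h1, one_smul, ← card_conjugates, fsInd_def]
    simp only [Finset.sum_apply]
    rw [Finset.sum_comm, Finset.mul_sum, Finset.card_eq_sum_ones, Nat.cast_sum]
    refine Finset.sum_congr rfl fun ψ hψ => ?_
    obtain ⟨g, rfl⟩ := mem_conjugates.1 hψ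
    rw [Nat.cast_one, ← hφ, conjN_eq_comp]
    simp only [map_mul]
    exact congrArg _ ((conjEquiv N g).toEquiv.sum_comp (fun s => φ.1 (s * s)))
  apply h4
  rw [h7] at h6
  have h8 : classInner (fun n : N => (χ n ^ 2 - χ (n * n : N)) / 2) (fun _ => 1) = 0 := by
    linear_combination (h6 - h5) / 2
  exact h8

end Cfsg.Agent.S4873
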