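import Cfsg.Statements.S4886
import Cfsg.Agent.BLK.Princ3
import Cfsg.Agent.BLK.NW
import Cfsg.Agent.SOLV.CoprimeSylow
import Cfsg.Agent.CHAR.Faithful
-- import your own Cfsg.Agent.* helpers here

set_option autoImplicit false
open Cfsg

namespace Cfsg.Agent.S4886

open CL.Char CL.Blk in
theorem not_dvd_index {G : Type*} [Group G] [Finite G] {p q : ℕ} [hp : Fact p.Prime]
    [hq : Fact q.Prime] (hpq : p ≠ q) {M : Ideal AlgInt} (hM : IsPModular p M)
    (hps : IsPSolvable p G) (hqs : IsPSolvable q G)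
    (h : ∀ χ : IrrCharacter G, χ ∈ principalBlock M G → ¬ p ∣ charDegree (χ : G → ℂ) →
      ¬ q ∣ charDegree (χ : G → ℂ)) : ¬ q ∣ (pPrimeCore p G).index := by
  obtain ⟨P, Q, h1⟩ := CL.NW.exists_normalizer_le hpq
    (CL.IsPSolvable.quotient hps (pPrimeCore p G))
    (CL.IsPSolvable.quotient hqs (pPrimeCore p G)) fun ψ hψ => by
      have hd : charDegree (irrInfl (QuotientGroup.mk' (pPrimeCore p G))
          (QuotientGroup.mk'_surjective _) ψ : G → ℂ) = charDegree ψ.1 :=
        charDegree_comp ψ.1 (QuotientGroup.mk' (pPrimeCore p G))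
      rw [← hd] at hψ ⊢
      refine h _ ((mem_principal_iff_core_le_ker hM hps _).2 fun n hn => ?_) hψ
      rw [irrInfl_apply, irrInfl_apply, map_one, QuotientGroup.mk'_apply,
        (QuotientGroup.eq_one_iff n).2 hn]
  have hO := (CL.pCore_le_sylow P).trans (Subgroup.le_normalizer.trans h1)
  have hinf : ∀ x ∈ pCore p (G ⧸ pPrimeCore p G), x ∈ (Q : Subgroup (G ⧸ pPrimeCore p G)) → x = 1 := fun x h1 h2 => by
    have := IsPGroup.disjoint_of_ne p q hpq _ _ (CL.isPGroup_pCore p _) Q.isPGroup'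
    exact Subgroup.disjoint_def.1 this h1 h2
  have hQ : (Q : Subgroup (G ⧸ pPrimeCore p G)) = ⊥ := by
    refine eq_bot_iff.2 fun y hy => hinf y (CL.IsPSolvable.centralizer_pCore_le
      (CL.IsPSolvable.quotient hps _) (CL.pPrimeCore_quotient_pPrimeCore p G) ?_) hy
    intro x hx
    have := hinf (x * y * x⁻¹ * y⁻¹) (by
      rw [mul_assoc, mul_assoc, ← mul_assoc y]
      exact mul_mem hx ((inferInstance : (pCore p _).Normal).conj_mem _ (inv_mem hx) y))
      (mul_mem ((Subgroup.mem_normalizer_iff.1 (hO hx) y).1 hy) (inv_mem hy))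
    rwa [mul_inv_eq_one, mul_inv_eq_iff_eq_mul] at this
  have := Q.not_dvd_index
  rwa [hQ, Subgroup.index_bot] at this

theorem sylow_le {G : Type*} [Group G] {p : ℕ} [Fact p.Prime] (P : Sylow p G) (N : Subgroup G)
    [N.Normal] (h : ¬ p ∣ N.index) : (P : Subgroup G) ≤ N := by
  intro x hx
  obtain ⟨k, hk⟩ := P.isPGroup' ⟨x, hx⟩
  have hk' : x ^ p ^ k = 1 := congrArg Subtype.val hk
  exact CL.Char.mem_of_coprime_pow_mem _
    (((Nat.Prime.coprime_iff_not_dvd Fact.out).2 h).symm.pow_right k)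
    (N.pow_index_mem x) (hk' ▸ one_mem _)

open CL.Char CL.Blk in
theorem not_dvd_of_comm {G : Type*} [Group G] [Finite G] {p q : ℕ} [hp : Fact p.Prime]
    [hq : Fact q.Prime] (hpq : p ≠ q) {M : Ideal AlgInt} (hM : IsPModular p M)
    (hps : IsPSolvable p G) (P : Sylow p G) (Q : Sylow q G)
    (h : ∀ x ∈ (P : Subgroup G), ∀ y ∈ (Q : Subgroup G), x * y = y * x)
    (χ : IrrCharacter G) (hχ : χ ∈ principalBlock M G) : ¬ q ∣ charDegree (χ : G → ℂ) := by
  have h1 : (Q : Subgroup G) ≤ pPrimeCore p G := by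
    intro y hy
    have h2 : y ∈ pPrimePCore p G := CL.IsPSolvable.centralizer_sylow_le hps P fun x hx => h x hx y hy
    obtain ⟨k, hk⟩ := CL.exists_relIndex_pPrimePCore (p := p) (G := G)
    obtain ⟨j, hj⟩ := Q.isPGroup' ⟨y, hy⟩
    have hj' : y ^ q ^ j = 1 := congrArg Subtype.val hj
    refine mem_of_coprime_pow_mem _ (a := p ^ k) (b := q ^ j)
      (Nat.coprime_pow_primes _ _ hp.out hq.out hpq) ?_ (hj' ▸ one_mem _)
    rw [← hk]
    exact ((pPrimeCore p G).subgroupOf (pPrimePCore p G)).pow_index_mem ⟨y, h2⟩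
  intro hd
  refine Q.not_dvd_index (hd.trans (χ.2.charDegree_dvd_index_charKer.trans
    (Subgroup.index_dvd_of_le (h1.trans fun n hn => ?_))))
  exact χ.2.mem_charKer.2 (pPrimeCore_ker_of_mem_principal hM hχ n hn)

/-- Let p ≠ q be primes and G a finite group that is p-solvable and q-solvable. Fix maximal ideals of the algebraic integers containing p and q, defining the principal p-block and the principal q-block. Then every irreducible character of degree prime to p in the principal p-block has degree prime to q and every irreducible character of degree prime to q in the principal q-block has degree prime to p, if and only if some Sylow p-subgroup of G commutes elementwise with some Sylow q-subgroup. -/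
theorem result {G : Type*} [Group G] [Finite G] (p q : ℕ) [Fact p.Prime] [Fact q.Prime] (hpq : p ≠ q) (Mp Mq : Ideal Cfsg.AlgInt) (hMp : Cfsg.IsPModular p Mp) (hMq : Cfsg.IsPModular q Mq) (hps : Cfsg.IsPSolvable p G) (hqs : Cfsg.IsPSolvable q G) : ((∀ χ : Cfsg.IrrCharacter G, χ ∈ Cfsg.principalBlock Mp G → ¬ p ∣ Cfsg.charDegree (χ : G → ℂ) → ¬ q ∣ Cfsg.charDegree (χ : G → ℂ)) ∧ (∀ χ : Cfsg.IrrCharacter G, χ ∈ Cfsg.principalBlock Mq G → ¬ q ∣ Cfsg.charDegree (χ : G → ℂ) → ¬ p ∣ Cfsg.charDegree (χ : G → ℂ))) ↔ ∃ (P : Sylow p G) (Q : Sylow q G), ∀ x ∈ (P : Subgroup G), ∀ y ∈ (Q : Subgroup G), x * y = y * x := by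
  constructor
  · rintro ⟨h1, h2⟩
    have hK := not_dvd_index hpq hMp hps hqs h1
    have hL := not_dvd_index hpq.symm hMq hqs hps h2
    obtain ⟨P⟩ : Nonempty (Sylow p G) := inferInstance
    obtain ⟨Q₀, hQ₀⟩ := CL.coprime_exists_invariant_sylow (P : Subgroup G) (pPrimeCore p G)
      Subgroup.le_normalizer_of_normal
      (CL.coprime_card_of_isPGroup_of_coprime P.isPGroup' (CL.coprime_card_pPrimeCore p G))
      (Or.inl (have := P.isPGroup'.isNilpotent; inferInstance)) q
    obtain ⟨Q, hQ⟩ := (Q₀.isPGroup'.map (pPrimeCore p G).subtype).exists_le_sylow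
    have hle := sylow_le Q _ hK
    have hQ' : (Q₀ : Subgroup (pPrimeCore p G)).map (pPrimeCore p G).subtype = Q := by
      have := Q₀.is_maximal' (Q.subtype hle).isPGroup' (Subgroup.map_le_iff_le_comap.1 hQ)
      rw [← this, Sylow.coe_subtype, Subgroup.subgroupOf_map_subtype, inf_eq_left.2 hle]
    rw [hQ'] at hQ₀
    refine ⟨P, Q, fun x hx y hy => ?_⟩
    have h3 : x * y * x⁻¹ * y⁻¹ ∈ (Q : Subgroup G) ⊓ pPrimeCore q G := by
      refine Subgroup.mem_inf.2
        ⟨mul_mem ((Subgroup.mem_normalizer_iff.1 (hQ₀ hx) y).1 hy) (inv_mem hy), ?_⟩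
      rw [mul_assoc, mul_assoc, ← mul_assoc y]
      exact mul_mem (sylow_le P _ hL hx)
        ((inferInstance : (pPrimeCore q G).Normal).conj_mem _ (inv_mem (sylow_le P _ hL hx)) y)
    rwa [CL.inf_eq_bot_of_isPGroup_of_coprime Q.isPGroup' (CL.coprime_card_pPrimeCore q G),
      Subgroup.mem_bot, mul_inv_eq_one, mul_inv_eq_iff_eq_mul] at h3
  · rintro ⟨P, Q, h⟩
    exact ⟨fun χ hχ _ => not_dvd_of_comm hpq hMp hps P Q h χ hχ,
      fun χ hχ _ => not_dvd_of_comm hpq.symm hMq hqs Q P (fun y hy x hx => (h x hx y hy).symm) χ hχ⟩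

end Cfsg.Agent.S4886
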