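import Cfsg.Statements.S4885
import Cfsg.Agent.S4886
import Cfsg.Agent.CHAR.Triple
-- import your own Cfsg.Agent.* helpers here

set_option autoImplicit false
open Cfsg

namespace Cfsg.Agent.S4885

/-- Let p and q be primes dividing the order of the finite group G, and suppose G is p-solvable and q-solvable. Fix maximal ideals of the algebraic integers containing p and q, defining the principal p-block and the principal q-block. If the irreducible characters of degree prime to p in the principal p-block are exactly the irreducible characters of degree prime to q in the principal q-block, then p = q. -/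
theorem result {G : Type*} [Group G] [Finite G] (p q : ℕ) [Fact p.Prime] [Fact q.Prime] (hp : p ∣ Nat.card G) (hq : q ∣ Nat.card G) (hps : Cfsg.IsPSolvable p G) (hqs : Cfsg.IsPSolvable q G) (Mp Mq : Ideal Cfsg.AlgInt) (hMp : Cfsg.IsPModular p Mp) (hMq : Cfsg.IsPModular q Mq) (h : ∀ χ : Cfsg.IrrCharacter G, (χ ∈ Cfsg.principalBlock Mp G ∧ ¬ p ∣ Cfsg.charDegree (χ : G → ℂ)) ↔ (χ ∈ Cfsg.principalBlock Mq G ∧ ¬ q ∣ Cfsg.charDegree (χ : G → ℂ))) : p = q := by
  by_contra hpq
  have hp' : p.Prime := Fact.out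
  have := Fintype.ofFinite G
  have := Fintype.ofFinite (pPrimeCore q G)
  have hL := S4886.not_dvd_index (Ne.symm hpq) hMq hqs hps fun χ h1 h2 => ((h χ).2 ⟨h1, h2⟩).2
  have hdvd : p ∣ Nat.card (pPrimeCore q G) := by
    rw [← (pPrimeCore q G).card_mul_index] at hp
    exact ((Nat.Prime.dvd_mul hp').1 hp).resolve_right hL
  obtain ⟨y, hy⟩ := exists_prime_orderOf_dvd_card' p hdvd
  obtain ⟨θ, h1, h2, h3, -⟩ := CL.Blk.exists_principal_not_dvd hMp hp' (y := y) (by rw [hy])
  obtain ⟨χ, h4, h5⟩ := CL.Blk.exists_principal_over hMp _ h1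
  obtain ⟨k, hk, hk'⟩ := CL.Char.exists_degree_eq_mul_dvd_index χ.2 θ.2 h5
  have h6 : ¬ p ∣ charDegree χ.1 := by
    rw [CL.Blk.charDegree_of_eq (n := k * charDegree θ.1) (by
      rw [hk, CL.Blk.irr_one_eq, Nat.cast_mul]), hp'.dvd_mul]
    exact fun h => h.elim (fun h => hL (h.trans hk')) h3
  have h7 := CL.Blk.pPrimeCore_ker_of_mem_principal hMq ((h χ).1 ⟨h4, h6⟩).1
  apply h5
  rw [show (fun x : pPrimeCore q G => χ.1 x) = χ.1 1 • fun _ => (1 : ℂ) from
    funext fun x => by simp [h7 x x.2], CL.Char.classInner_smul_left,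
    CL.Char.isIrrCharacter_one.inner_of_ne θ.2 (Ne.symm h2), mul_zero]

end Cfsg.Agent.S4885
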