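import Cfsg.Statements.S4892
import Cfsg.Agent.BLK.AlperinDade
import Cfsg.Agent.CHAR.FTSylow
import Cfsg.Agent.CHAR.Galois

set_option autoImplicit false
open Cfsg

namespace Cfsg.Agent.S4892

open CL.Char CL.Blk

theorem not_dvd_detOrder {H : Type*} [Group H] [Finite H] {p : ℕ} (hp' : p.Prime) (hp : p ≠ 2)
    {θ : H → ℂ} (hθ : IsCharacter H θ) {m : ℕ} (hm : ¬ p ∣ m)
    (h : ∀ n, θ n ∈ IntermediateField.adjoin ℚ
      ({Complex.exp (2 * Real.pi * Complex.I / m)} : Set ℂ)) : ¬ p ∣ detOrder θ := by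
  rintro ⟨t, ht⟩
  have hm0 : m ≠ 0 := by rintro rfl; exact hm (dvd_zero _)
  obtain ⟨σ, -, -, -, -, -, h1, h2⟩ := exists_ringEquiv_pow_pow (k := 2) (l := 1) hp'.ne_zero hm0
    ((Nat.Prime.coprime_iff_not_dvd hp').2 hm)
    ((Nat.coprime_primes Nat.prime_two hp').2 hp.symm) (Nat.coprime_one_left _)
  have h3 : (fun g => (σ : ℂ →+* ℂ) (θ g)) = θ := funext fun g =>
    apply_eq_of_mem_adjoin _ (fun x hx => by
      rw [Set.mem_singleton_iff.1 hx]
      simpa using h2 _ (Complex.isPrimitiveRoot_exp m hm0).pow_eq_one) (h g)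
  have h4 : detOrder θ ∣ t := (detOrder_dvd_iff θ t).2 fun g => by
    have h5 := hθ.detChar_gal (σ : ℂ →+* ℂ) g
    rw [h3] at h5
    have h6 : (detChar θ g ^ t) ^ p = 1 := by
      rw [← pow_mul, mul_comm, ← ht, detChar_pow_detOrder]
    have h7 := h1 _ h6
    rw [map_pow, ← RingHom.coe_coe, ← h5, sq] at h7
    have h0 : detChar θ g ^ t ≠ 0 := fun h0 => by
      rw [h0, zero_pow hp'.ne_zero] at h6; exact zero_ne_one h6
    exact (mul_eq_left₀ h0).1 h7.symm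
  have h8 := detOrder_pos θ
  have h9 : 0 < t := Nat.pos_of_ne_zero (by rintro rfl; simp [ht] at h8)
  have := Nat.le_of_dvd h9 h4
  have := hp'.two_le
  nlinarith

theorem eq_one_of_pow_pow {A : Type*} [Group A] {x : A} {a b : ℕ} (h : a.Coprime b)
    (ha : x ^ a = 1) (hb : x ^ b = 1) : x = 1 :=
  Subgroup.mem_bot.1 (mem_of_coprime_pow_mem ⊥ h ha hb)

theorem rat_of_det {G : Type*} [Group G] [Finite G] {p : ℕ} (hp : p.Prime) {N C : Subgroup G}
    [N.Normal] [(N ⊔ C).Normal] {χ : G → ℂ} (hχ : IsCharacter G χ)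
    (hχN : IsIrrCharacter N fun n => χ n) {d : ℕ} (hd : χ 1 = d) (hpd : ¬ p ∣ d) {m : ℕ}
    (hm : ¬ p ∣ m) (hrat : ∀ n : N, χ n ∈ IntermediateField.adjoin ℚ
      ({Complex.exp (2 * Real.pi * Complex.I / m)} : Set ℂ)) {e m' : ℕ} (hm' : ¬ p ∣ m')
    (hG : Nat.card G = p ^ e * m') (hdet : ∀ g, detChar χ g ^ m' = 1) (hC : ∀ x ∈ C, χ x ≠ 0)
    {a : ℕ} (hL : (N ⊔ C).index = p ^ a) (g : G) : χ g ∈ IntermediateField.adjoin ℚ
      ({Complex.exp (2 * Real.pi * Complex.I / (m * m' : ℕ))} : Set ℂ) := by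
  have hm0 : m ≠ 0 := by rintro rfl; exact hm (dvd_zero _)
  have hm0' : m' ≠ 0 := by rintro rfl; exact hm' (dvd_zero _)
  refine mem_adjoin_of_fixed _ (hχ.isGen.isAlgebraic g) fun σ hσ => ?_
  have h1 : ∀ z : ℂ, z ^ (m * m') = 1 → (σ : ℂ →+* ℂ) z = z ^ 1 := fun z hz =>
    apply_eq_pow_of_isPrimitiveRoot (mul_ne_zero hm0 hm0') (σ : ℂ →+* ℂ)
      (Complex.isPrimitiveRoot_exp _ (mul_ne_zero hm0 hm0')) (by simpa using hσ _ rfl) hz
  obtain ⟨β, hβ, e1⟩ := exists_hom_mul_of_res_eq hχ hχN (hχ.gal (σ : ℂ →+* ℂ)) fun n =>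
    apply_eq_of_mem_adjoin _ (fun x hx => by
      rw [Set.mem_singleton_iff.1 hx]
      simpa using h1 _ (by rw [pow_mul, (Complex.isPrimitiveRoot_exp m hm0).pow_eq_one, one_pow]))
      (hrat n)
  have h2 : ∀ x, β x ^ d = 1 := fun x => by
    have h3 := hχ.detChar_gal (σ : ℂ →+* ℂ) x
    rw [e1, hχ.detChar_hom_mul hd, h1 _ (by rw [mul_comm, pow_mul, hdet, one_pow]), pow_one] at h3
    exact Units.ext (by
      simpa using (mul_eq_right₀ (by rw [← detHom_apply]; exact Units.ne_zero _)).1 h3)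
  have hc : ∀ k, d.Coprime (p ^ k) := fun k =>
    Nat.Coprime.pow_right _ ((Nat.Prime.coprime_iff_not_dvd hp).2 hpd).symm
  have h4 : N ⊔ C ≤ β.ker := sup_le hβ fun x hx => eq_one_of_pow_pow (hc e) (h2 x) (by
    have h5 := congrFun e1 (x ^ p ^ e)
    rw [hχ.gal_apply h1 (by
      rw [mul_comm, pow_mul, ← pow_mul x, ← hG, pow_card_eq_one', one_pow]), pow_one] at h5
    rw [← map_pow]
    exact Units.ext ((mul_eq_right₀ (hC _ (C.pow_mem hx _))).1 h5.symm))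
  have h6 : β g = 1 := eq_one_of_pow_pow (hc a) (h2 g) (by
    rw [← map_pow, ← hL]; exact h4 (Subgroup.pow_index_mem _ g))
  simpa [h6] using congrFun e1 g

section
variable {G : Type*} [Group G] [Finite G] {p : ℕ} {N Q : Subgroup G} [hN : N.Normal]

omit [Finite G] in
theorem conj_mem_centralizer {h c : G} (hh : h ∈ Subgroup.normalizer (Q : Set G))
    (hc : c ∈ Subgroup.centralizer (Q : Set G)) :
    h * c * h⁻¹ ∈ Subgroup.centralizer (Q : Set G) := fun y hy => by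
  have h1 := hc _ ((Subgroup.mem_normalizer_iff.1 (inv_mem hh) y).1 hy)
  calc y * (h * c * h⁻¹) = h * (h⁻¹ * y * h⁻¹⁻¹ * c) * h⁻¹ := by group
    _ = _ := by rw [h1]; group

omit [Finite G] in
theorem normal_sup (hF : Subgroup.normalizer (Q : Set G) ⊔ N = ⊤) :
    (N ⊔ Subgroup.centralizer (Q : Set G)).Normal := ⟨fun y hy g => by
  obtain ⟨h, hh, n, hn, rfl⟩ := Subgroup.mem_sup_of_normal_right.1 (hF ▸ Subgroup.mem_top g)
  obtain ⟨n', hn', c, hc, rfl⟩ := Subgroup.mem_sup_of_normal_left.1 hy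
  have : h * n * (n' * c) * (h * n)⁻¹ =
      h * (n * n' * (c * n⁻¹ * c⁻¹)) * h⁻¹ * (h * c * h⁻¹) := by group
  rw [this]
  exact Subgroup.mul_mem_sup (hN.conj_mem _ (mul_mem (mul_mem hn hn')
    (hN.conj_mem _ (inv_mem hn) _)) _) (conj_mem_centralizer hh hc)⟩

omit [Finite G] hN in
theorem not_dvd_cent (hQ : ¬ p ∣ Q.relIndex N) {J : Subgroup G} (hJ : N ≤ J) {x : J}
    (hx : (x : G) ∈ Subgroup.centralizer (Q : Set G)) :
    ¬ p ∣ (Subgroup.centralizer ({x} : Set J)).relIndex (N.subgroupOf J) := fun h => hQ (by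
  rw [← Subgroup.relIndex_subgroupOf hJ]
  exact h.trans (Subgroup.relIndex_dvd_of_le_left _ fun y hy =>
    Subgroup.mem_centralizer_singleton_iff.2 (Subtype.ext (hx y hy))))

omit [Finite G] in
theorem cosetCov_of_le (hQ : ¬ p ∣ Q.relIndex N) {J : Subgroup G} (hJ : N ≤ J)
    (hL : J ≤ N ⊔ Subgroup.centralizer (Q : Set G)) : CosetCov p (N.subgroupOf J) := fun g => by
  obtain ⟨c, hc, n, hn, e⟩ := Subgroup.mem_sup_of_normal_right.1 (sup_comm N _ ▸ hL g.2)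
  have h1 : c = g * n⁻¹ := by rw [← e]; group
  exact ⟨⟨c, h1 ▸ mul_mem g.2 (inv_mem (hJ hn))⟩, QuotientGroup.eq.2 (by
    simpa [Subgroup.mem_subgroupOf, ← e] using hn), not_dvd_cent hQ hJ hc⟩

theorem exists_ext {M : Ideal AlgInt} (hM : IsPModular p M) (hQ : ¬ p ∣ Q.relIndex N)
    [(N ⊔ Subgroup.centralizer (Q : Set G)).Normal] {a : ℕ}
    (ha : (N ⊔ Subgroup.centralizer (Q : Set G)).index = p ^ a) {θ : IrrCharacter N}
    (hinv : ∀ (g : G) (n : N), θ.1 ⟨g * n * g⁻¹, hN.conj_mem n n.2 g⟩ = θ.1 n)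
    (hd : ¬ p ∣ charDegree θ.1) (ho : ¬ p ∣ detOrder θ.1) (hθ : θ ∈ principalBlock M N) :
    ∃ χ : G → ℂ, IsIrrCharacter G χ ∧ ∀ n : N, χ n = θ.1 n := by
  refine exists_ext_of_sylow N θ.2 hinv fun q hq => ?_
  obtain ⟨J, hJ, h1, c, hc⟩ := exists_sylow_over N hq
  by_cases hqp : q = p
  · subst hqp
    have h2 : detOrder (subOf N J θ.1) ∣ detOrder θ.1 := (detOrder_dvd_iff _ _).2 fun g => by
      have := θ.2.isCharacter.detChar_comp (Subgroup.subgroupOfEquivOfLe hJ).toMonoidHom g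
      exact (congrArg (· ^ _) this).trans (detChar_pow_detOrder _ _)
    obtain ⟨η, hη, e, -⟩ := exists_ext_of_coprime (N.subgroupOf J) (θ.2.subOf hJ)
      (fun g n => hinv g ⟨(n : J), n.2⟩) (d := charDegree θ.1) θ.2.apply_one_eq_charDegree (by
        change (N.relIndex J).Coprime _
        rw [hc]
        exact Nat.Coprime.pow_left _ ((Nat.Prime.coprime_iff_not_dvd hq).2 fun h =>
          (hq.dvd_mul.1 h).elim (fun h => ho (h.trans h2)) hd))
    exact ⟨J, hJ, η, h1, hη, fun n => e ⟨⟨n, hJ n.2⟩, n.2⟩⟩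
  · have h2 : (p ^ a).Coprime (q ^ c) :=
      Nat.Coprime.pow _ _ ((Nat.coprime_primes hM.1 hq).2 (Ne.symm hqp))
    obtain ⟨η, -, e⟩ := exists_ext_of_not_dvd_index hM (cosetCov_of_le hQ hJ fun x hx =>
      mem_of_coprime_pow_mem _ h2 (ha ▸ Subgroup.pow_index_mem _ x) (Subgroup.mem_sup_left (by
        have := (N.subgroupOf J).pow_index_mem ⟨x, hx⟩
        rwa [show (N.subgroupOf J).index = q ^ c from hc] at this)))
      (fun h => hqp ((Nat.prime_dvd_prime_iff_eq hM.1 hq).1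
        (hM.1.dvd_of_dvd_pow (hc ▸ h : p ∣ q ^ c))).symm) (subOf_mem_principal hM hJ hθ)
    exact ⟨J, hJ, η.1, h1, η.2, fun n => e ⟨⟨n, hJ n.2⟩, n.2⟩⟩

theorem exists_twist {M : Ideal AlgInt} (hM : IsPModular p M) (hQ : ¬ p ∣ Q.relIndex N)
    (hF : Subgroup.normalizer (Q : Set G) ⊔ N = ⊤) {a : ℕ}
    (ha : (N ⊔ Subgroup.centralizer (Q : Set G)).index = p ^ a) {θ : IrrCharacter N}
    (hθ : θ ∈ principalBlock M N) {χ : G → ℂ} (hχ : IsIrrCharacter G χ)
    (hext : ∀ n : N, χ n = θ.1 n) : (∀ x ∈ Subgroup.centralizer (Q : Set G), χ x ≠ 0) ∧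
      ∃ μ : G →* ℂˣ, (∀ n ∈ N, μ n = 1) ∧
        (⟨_, hχ.hom_mul μ⟩ : IrrCharacter G) ∈ principalBlock M G := by
  have hLn := normal_sup hF
  set L := N ⊔ Subgroup.centralizer (Q : Set G) with hL
  have hNL : N ≤ L := le_sup_left
  have hCL : Subgroup.centralizer (Q : Set G) ≤ L := le_sup_right
  obtain ⟨lam, h1, h2⟩ := exists_augLike hM (cosetCov_of_le hQ hNL le_rfl) (hχ.isCharacter.res L)
    (subOf_mem_principal hM hNL hθ) fun n => hext ⟨(n : L), n.2⟩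
  have hirr : IsIrrCharacter L fun x => χ x := (hχ.isCharacter.res L).irr_of_res (N.subgroupOf L)
    (by convert θ.2.subOf hNL using 2 with n; exact hext ⟨(n : L), n.2⟩)
  have h3 : ∀ x : L, (x : G) ∈ Subgroup.centralizer (Q : Set G) →
      red M (lam x * (χ x / χ 1)) = 1 := fun x hx => by
    have h4 := h2 _ (isInt_relClassSum x) (isFixed_relClassSum x)
    rw [omega_relClassSum (hirr.hom_mul lam).isClassFunction,
      omega_relClassSum (isClassFunction_const 1), ← mul_sub] at h4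
    have h5 := mem_nonunits_of_mul_unit
      (by rw [natCast_mem_nonunits_iff hM]; exact not_dvd_cent hQ hNL hx) h4
    simp only [map_one, Units.val_one, one_mul, OneMemClass.coe_one, div_one, mul_div_assoc] at h5
    rw [← red_one (M := M), red_eq_red_iff (by
      simpa using add_mem (mem_V_of_mem_nonunits h5) (one_mem _)) (one_mem _)]
    exact h5
  refine ⟨fun x hx h0 => by simpa [h0, red_zero] using h3 ⟨x, hCL hx⟩ hx, ?_⟩
  obtain ⟨e, m, hm, hG⟩ := Nat.exists_eq_pow_mul_and_not_dvd (Nat.card_pos (α := G)).ne' p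
    hM.1.ne_one
  have hc : (p ^ e).Coprime m := Nat.Coprime.pow_left _ ((Nat.Prime.coprime_iff_not_dvd hM.1).2 hm)
  obtain ⟨k, hk1, hk2⟩ := Nat.chineseRemainder hc 0 1
  obtain ⟨k', rfl⟩ := (Nat.modEq_zero_iff_dvd.1 hk1)
  have hG' : ∀ x : L, x ^ (p ^ e * m) = 1 := fun x => Subtype.ext (by
    rw [← hG]; exact pow_card_eq_one')
  have h6 : ∀ x : L, (lam x : ℂ) ^ (p ^ e * m) = 1 := fun x => by
    rw [← Units.val_pow_eq_pow_val, ← map_pow, hG', map_one, Units.val_one]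
  have h7 : ∀ x : L, ((lam x : ℂ) ^ (p ^ e * k')) ^ m = 1 := fun x => by
    rw [← pow_mul, mul_right_comm, pow_mul, h6, one_pow]
  have h0 : p ^ e * m ≠ 0 := hG ▸ Nat.card_pos.ne'
  obtain ⟨μ, hμ, -⟩ := exists_hom_ext_of_coprime L (lam ^ (p ^ e * k')) (fun g y => by
    obtain ⟨h, hh, n, hn, rfl⟩ := Subgroup.mem_sup_of_normal_right.1 (hF ▸ Subgroup.mem_top g)
    obtain ⟨y, hy⟩ := y
    obtain ⟨n', hn', c, hc, rfl⟩ := Subgroup.mem_sup_of_normal_left.1 hy
    have hc' := conj_mem_centralizer hh hc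
    have h8 := hN.conj_mem _ (mul_mem (mul_mem hn hn') (hN.conj_mem _ (inv_mem hn) c)) h
    have h9 : (⟨h * n * (n' * c) * (h * n)⁻¹, hLn.conj_mem _ hy _⟩ : L) =
        ⟨_, hNL h8⟩ * ⟨_, hCL hc'⟩ := Subtype.ext (by simp only [Subgroup.coe_mul]; group)
    have h10 : (⟨n' * c, hy⟩ : L) = ⟨_, hNL hn'⟩ * ⟨_, hCL hc⟩ := rfl
    rw [h9, h10, map_mul, map_mul, MonoidHom.pow_apply, MonoidHom.pow_apply, MonoidHom.pow_apply,
      MonoidHom.pow_apply, h1 ⟨_, hNL h8⟩ h8, h1 ⟨_, hNL hn'⟩ hn']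
    refine congrArg _ (Units.ext ?_)
    rw [Units.val_pow_eq_pow_val, Units.val_pow_eq_pow_val]
    refine eq_of_red_eq_of_pow_eq_one hM hm hm (h7 _) (h7 _) ?_
    have hu := fun x => mem_V_of_pow_eq_one (M := M) h0 (h6 x)
    rw [red_pow (hu _), red_pow (hu _)]
    have h11 := h3 ⟨_, hCL hc'⟩ hc'
    have h12 := h3 ⟨_, hCL hc⟩ hc
    have h13 : χ c / χ 1 ∈ V M := mem_V_of_mul_unit (notMem_nonunits_of_pow_eq_one h0 (h6 _))
      (mem_V_of_red_ne_zero (h12 ▸ one_ne_zero))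
    rw [hχ.isClassFunction c h, red_mul (hu _) h13] at h11
    rw [red_mul (hu _) h13] at h12
    rw [eq_inv_of_mul_eq_one_left h11, eq_inv_of_mul_eq_one_left h12]) (by
      rw [ha]
      refine Nat.Coprime.pow_left _ (((Nat.Prime.coprime_iff_not_dvd hM.1).2 hm).coprime_dvd_right
        (orderOf_dvd_of_pow_eq_one (MonoidHom.ext fun x => Units.ext ?_)))
      simpa using h7 x)
  have hμN : ∀ n ∈ N, μ n = 1 := fun n hn => by
    rw [hμ ⟨n, hNL hn⟩, MonoidHom.pow_apply, h1 _ (by exact hn), one_pow]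
  refine ⟨μ, hμN, ?_⟩
  have := Fintype.ofFinite L
  have := Fintype.ofFinite G
  have h14 := h2.comp_mem_principal hM (f := MonoidHom.id L) Function.injective_id (fun x _ => ⟨x, rfl⟩)
    (ξ := ⟨_, hirr.hom_mul lam⟩) fun _ => rfl
  refine (mem_principal_iff_of_under hM L (fun g hg => mem_of_coprime_pow_mem _
    (Nat.Coprime.pow_left a ((Nat.Prime.coprime_iff_not_dvd hM.1).2 hg))
    (ha ▸ L.pow_index_mem g) (by simp)) (θ := ⟨_, hirr.hom_mul (μ.comp L.subtype)⟩) ?_).2 ?_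
  · exact (hirr.hom_mul (μ.comp L.subtype)).inner_self.trans_ne one_ne_zero
  · rw [mem_principal_iff_regSum hM] at h14 ⊢
    rwa [regSum_congr (ψ := fun x => lam x * χ x) fun x hx => ?_]
    have h15 : lam x ^ m = 1 := by
      rw [← map_pow, orderOf_dvd_iff_pow_eq_one.1 ((Nat.Coprime.pow_right e
        ((Nat.Prime.coprime_iff_not_dvd hM.1).2 hx).symm).dvd_of_dvd_mul_left
          (orderOf_dvd_of_pow_eq_one (hG' x))), map_one]
    change (μ x : ℂ) * _ = _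
    rw [hμ, MonoidHom.pow_apply, pow_eq_pow_of_modEq hk2 h15, pow_one]

end

/-- Let p be an odd prime, M a maximal ideal of the algebraic integers containing p, N a normal subgroup of the finite group G, and θ an irreducible character of N that is G-invariant, of degree prime to p, p-rational (values in the field generated over ℚ by a root of unity of order prime to p) and lies in the principal p-block of N. Let Q be a Sylow p-subgroup of N and suppose the index of N·C_G(Q) in G is a power of p. Then θ extends to a p-rational irreducible character of G lying in the principal p-block of G. -/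
theorem result {G : Type*} [Group G] [Finite G] (p : ℕ) [Fact p.Prime] (hp : p ≠ 2) (M : Ideal Cfsg.AlgInt) (hM : Cfsg.IsPModular p M) (N : Subgroup G) [N.Normal] (θ : Cfsg.IrrCharacter ↥N) (hinv : ∀ g : G, ∀ n n' : ↥N, (n' : G) = g * (n : G) * g⁻¹ → (θ : ↥N → ℂ) n' = (θ : ↥N → ℂ) n) (hdeg : ¬ p ∣ Cfsg.charDegree (θ : ↥N → ℂ)) (hrat : ∃ m : ℕ, ¬ p ∣ m ∧ ∀ n : ↥N, (θ : ↥N → ℂ) n ∈ IntermediateField.adjoin ℚ ({Complex.exp (2 * Real.pi * Complex.I / m)} : Set ℂ)) (hB : θ ∈ Cfsg.principalBlock M ↥N) (Q : Sylow p ↥N) (hidx : ∃ a : ℕ, (N ⊔ Subgroup.centralizer (((Q : Subgroup ↥N).map N.subtype : Subgroup G) : Set G)).index = p ^ a) : ∃ χ : Cfsg.IrrCharacter G, χ ∈ (Cfsg.principalBlock M G) ∧ (∃ n : ℕ, ¬ p ∣ n ∧ ∀ g : G, (χ : G → ℂ) g ∈ IntermediateField.adjoin ℚ ({Complex.exp (2 * Real.pi * Complex.I / n)} : Set ℂ)) ∧ ∀ n : ↥N, (χ : G → ℂ) n = (θ : ↥N → ℂ) n := by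
  obtain ⟨m, hm, hrat⟩ := hrat
  obtain ⟨a, ha⟩ := hidx
  have hQ : ¬ p ∣ ((Q : Subgroup N).map N.subtype).relIndex N := by
    rw [Subgroup.relIndex, Subgroup.subgroupOf,
      Subgroup.comap_map_eq_self_of_injective N.subtype_injective]
    exact Q.not_dvd_index
  have hF := Sylow.normalizer_sup_eq_top Q
  have hLn := normal_sup hF
  have ho := not_dvd_detOrder hM.1 hp θ.2.isCharacter hm hrat
  obtain ⟨χ₀, h0, e0⟩ := exists_ext hM hQ ha (fun g n => hinv g n _ rfl) hdeg ho hB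
  obtain ⟨hC, μ, hμ, h1⟩ := exists_twist hM hQ hF ha hB h0 e0
  set χ₁ : IrrCharacter G := ⟨_, h0.hom_mul μ⟩
  have e1 : ∀ n : N, χ₁.1 n = θ.1 n := fun n => by simp [χ₁, hμ n n.2, e0]
  obtain ⟨e, m', hm', hG⟩ := Nat.exists_eq_pow_mul_and_not_dvd (Nat.card_pos (α := G)).ne' p
    hM.1.ne_one
  have hd : χ₁.1 1 = charDegree θ.1 := (e1 1).trans θ.2.apply_one_eq_charDegree
  obtain ⟨j, hj⟩ : ∃ j, p ^ e ∣ m' * j * charDegree θ.1 + 1 := by
    have hc : (m' * charDegree θ.1).Coprime (p ^ e) := Nat.Coprime.pow_right _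
      ((Nat.Prime.coprime_iff_not_dvd hM.1).2 fun h => (hM.1.dvd_mul.1 h).elim hm' hdeg).symm
    have := NeZero.mk (pow_ne_zero e hM.1.ne_zero)
    refine ⟨(-(ZMod.unitOfCoprime _ hc)⁻¹ : (ZMod (p ^ e))ˣ).val.val,
      (ZMod.natCast_eq_zero_iff _ _).1 ?_⟩
    rw [mul_right_comm, Nat.cast_add, Nat.cast_mul, ZMod.natCast_zmod_val,
      ← ZMod.coe_unitOfCoprime _ hc, Units.val_neg, mul_neg, Units.mul_inv, Nat.cast_one,
      neg_add_cancel]
  set δ := detHom χ₁.1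
  have h2 : ∀ x, δ x ^ (p ^ e * m') = 1 := fun x => by
    rw [← map_pow, ← hG, pow_card_eq_one', map_one]
  have h3 : ∀ x k, ¬ p ∣ k → δ x ^ k = 1 → (δ ^ (m' * j)) x = 1 := fun x k hk h => by
    rw [MonoidHom.pow_apply, pow_mul, eq_one_of_pow_pow (x := δ x ^ m') (Nat.Coprime.pow_left e
      ((Nat.Prime.coprime_iff_not_dvd hM.1).2 hk)) (by rw [← pow_mul, mul_comm, h2])
      (by rw [← pow_mul, mul_comm, pow_mul, h, one_pow]), one_pow]
  have e2 : ∀ n : N, ((δ ^ (m' * j)) n : ℂ) * χ₁.1 n = θ.1 n := fun n => by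
    rw [h3 n _ ho (Units.ext (by
      rw [Units.val_pow_eq_pow_val, detHom_apply, χ₁.2.isCharacter.detChar_of_ext e1,
        detChar_pow_detOrder, Units.val_one])), e1, Units.val_one, one_mul]
  have h4 := χ₁.2.hom_mul (δ ^ (m' * j))
  refine ⟨⟨_, h4⟩, ?_, ⟨m * m', fun h => (hM.1.dvd_mul.1 h).elim hm hm', fun g =>
    rat_of_det hM.1 h4.isCharacter (by simpa only [e2] using θ.2) (by simpa using hd) hdeg hm
      (fun n => by simpa only [e2] using hrat n) hm' hG (fun x => ?_) (fun x hx => ?_) ha g⟩, e2⟩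
  · have := Fintype.ofFinite G
    rw [mem_principal_iff_regSum hM] at h1 ⊢
    rwa [regSum_congr (ψ := χ₁.1) fun x hx => ?_]
    simp only [h3 x _ hx (by rw [← map_pow, pow_orderOf_eq_one, map_one]), Units.val_one, one_mul]
  · obtain ⟨t, ht⟩ := hj
    rw [χ₁.2.isCharacter.detChar_hom_mul hd, ← detHom_apply, MonoidHom.pow_apply]
    norm_cast
    rw [← pow_mul, ← pow_succ, ht, ← pow_mul, mul_right_comm, pow_mul, h2, one_pow, Units.val_one]
  · exact mul_ne_zero (Units.ne_zero _) (mul_ne_zero (Units.ne_zero _) (hC x hx))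

end Cfsg.Agent.S4892
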