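import Cfsg.Statements.S4911
import Cfsg.Agent.BLK.GCount

set_option autoImplicit false
open Cfsg

namespace Cfsg.Agent.S4911

open CL.Glb CL.Char in
theorem rel_conj {G C : Type*} [Group G] [Group C] [Fintype C] {p : ℕ} {j : C →* G} {χ : G → ℂ}
    {ξ : C → ℂ} (h : Rel p j χ ξ) :
    Rel p j (fun g => (starRingEnd ℂ) (χ g)) (fun c => (starRingEnd ℂ) (ξ c)) := by
  obtain ⟨m, hm, h1⟩ := h
  refine ⟨m, ?_, h1⟩
  rw [classInner_conj_conj (fun c => χ (j c)) ξ, hm, map_natCast]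

theorem real_iff {G : Type*} {χ : G → ℂ} :
    (∀ g, (χ g).im = 0) ↔ (fun g => (starRingEnd ℂ) (χ g)) = χ := by
  simp only [funext_iff, Complex.conj_eq_iff_im]

/-- Let P and K be subgroups of a finite group with P a p-group normalizing K and K of order prime to p. Then the number of P-invariant real-valued irreducible complex characters of K equals the number of conjugacy classes of K that are real (closed under inversion) and P-invariant. Moreover, if every real-valued irreducible character of K is P-invariant, then every real element of K (one conjugate in K to its inverse) is conjugate in K to an element centralized by P. -/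
theorem result {G : Type*} [Group G] [Finite G] (p : ℕ) [Fact p.Prime] (P K : Subgroup G) (hP : IsPGroup p ↥P) (hK : ¬ p ∣ Nat.card ↥K) (hPK : P ≤ Subgroup.normalizer (K : Set G)) : Nat.card {θ : Cfsg.IrrCharacter ↥K // (∀ k : ↥K, ((θ : ↥K → ℂ) k).im = 0) ∧ (∀ x ∈ P, ∀ k k' : ↥K, (k' : G) = x * (k : G) * x⁻¹ → (θ : ↥K → ℂ) k' = (θ : ↥K → ℂ) k)} = Nat.card {c : ConjClasses ↥K // (∀ k : ↥K, ConjClasses.mk k = c → IsConj k k⁻¹) ∧ ∀ k : ↥K, ConjClasses.mk k = c → ∀ x ∈ P, ∀ k' : ↥K, (k' : G) = x * (k : G) * x⁻¹ → ConjClasses.mk k' = c} ∧ ((∀ θ : Cfsg.IrrCharacter ↥K, (∀ k : ↥K, ((θ : ↥K → ℂ) k).im = 0) → (∀ x ∈ P, ∀ k k' : ↥K, (k' : G) = x * (k : G) * x⁻¹ → (θ : ↥K → ℂ) k' = (θ : ↥K → ℂ) k)) → ∀ k : ↥K, IsConj k k⁻¹ → ∃ k' : ↥K, IsConj k k' ∧ ∀ x ∈ P, x * (k' : G) * x⁻¹ = (k' : G)) := by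
  have hp : p.Prime := Fact.out
  have hcop : (Nat.card K).Coprime (Nat.card P) := by
    obtain ⟨k, hk⟩ := IsPGroup.iff_card.mp hP
    rw [hk]
    exact Nat.Coprime.pow_right k ((Nat.Prime.coprime_iff_not_dvd hp).mpr hK).symm
  have hs : Group.IsSolvable P := by
    have := hP.isNilpotent
    infer_instance
  let C := K ⊓ Subgroup.centralizer (P : Set G)
  have := Fintype.ofFinite C
  have hCK : C ≤ K := inf_le_left
  have h := CL.Glb.corr_coprime hp hP hPK hcop rfl hCK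
  obtain ⟨f, hf⟩ := h.exists_equiv
  have h1 : Nat.card {θ : Cfsg.IrrCharacter ↥K // (∀ k : ↥K, ((θ : ↥K → ℂ) k).im = 0) ∧
      CL.Glb.IS P K θ.1} = Nat.card {ξ : Cfsg.IrrCharacter ↥C // ∀ c, (ξ.1 c).im = 0} := by
    refine Nat.card_eq_of_bijective (fun θ => ⟨(f ⟨θ.1, θ.2.2⟩).1, ?_⟩) ⟨fun θ θ' he => ?_,
      fun ξ => ?_⟩
    · have h2 := rel_conj ((hf ⟨θ.1, θ.2.2⟩ _).mpr rfl)
      rw [real_iff.mp θ.2.1] at h2
      exact real_iff.mpr (h.uniq _ θ.1.2 θ.2.2 _ _ (f _).1.2.conj trivial (f _).1.2 trivial h2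
        ((hf ⟨θ.1, θ.2.2⟩ _).mpr rfl))
    · have h2 := congrArg Subtype.val he
      have h3 := congrArg Subtype.val (f.injective (Subtype.ext h2))
      exact Subtype.ext h3
    · obtain ⟨χ, hχ⟩ := f.surjective ⟨ξ.1, trivial⟩
      have h2 := (hf χ _).mpr hχ.symm
      have h3 := rel_conj h2
      have h4 := congrArg Subtype.val hχ
      rw [real_iff.mp ξ.2] at h3
      refine ⟨⟨χ.1, real_iff.mpr (h.inj _ _ χ.1.2.conj (fun s hs g g' hg => ?_) χ.1.2 χ.2 _ ξ.1.2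
        trivial h3 h2), χ.2⟩, Subtype.ext h4⟩
      simp only [χ.2 s hs g g' hg]
  have h2 := CL.Glb.card_classes_eq hPK hcop (Or.inl hs) rfl hCK
    (fun c => ∀ k : K, ConjClasses.mk k = c → IsConj k k⁻¹)
    (fun c => ∀ k : C, ConjClasses.mk k = c → IsConj k k⁻¹) (fun c => by
      have key : ∀ {H : Type _} [Group H] (c : H),
          (∀ k : H, ConjClasses.mk k = ConjClasses.mk c → IsConj k k⁻¹) ↔ IsConj c c⁻¹ := by
        intro H _ c
        refine ⟨fun h => h c rfl, fun h k hk => ?_⟩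
        have h4 := ConjClasses.mk_eq_mk_iff_isConj.mp hk
        obtain ⟨y, hy⟩ := isConj_iff.mp h4
        exact (h4.trans h).trans (isConj_iff.mpr ⟨y⁻¹, by rw [← hy]; group⟩)
      rw [key, key]
      exact ⟨fun h => CL.Glb.isConj_of_centralizer hPK hcop (Or.inl hs) rfl hCK (c' := c⁻¹) h,
        fun h => (Subgroup.inclusion hCK).map_isConj h⟩)
  have h3 : Nat.card {θ : Cfsg.IrrCharacter ↥K // (∀ k : ↥K, ((θ : ↥K → ℂ) k).im = 0) ∧ (∀ x ∈ P, ∀ k k' : ↥K, (k' : G) = x * (k : G) * x⁻¹ → (θ : ↥K → ℂ) k' = (θ : ↥K → ℂ) k)} = Nat.card {c : ConjClasses ↥K // (∀ k : ↥K, ConjClasses.mk k = c → IsConj k k⁻¹) ∧ ∀ k : ↥K, ConjClasses.mk k = c → ∀ x ∈ P, ∀ k' : ↥K, (k' : G) = x * (k : G) * x⁻¹ → ConjClasses.mk k' = c} := by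
    refine h1.trans (CL.Char.card_real_irr.trans (h2.symm.trans (Nat.card_congr
      (Equiv.subtypeEquivRight fun c => and_congr_right fun _ => ?_))))
    exact ⟨fun h k hk x hx k' hk' => h x hx k k' hk' hk, fun h x hx k k' hk' hk => h k hk x hx k' hk'⟩
  refine ⟨h3, fun hall k hk => ?_⟩
  rw [Nat.card_congr (Equiv.subtypeEquivRight (q := fun θ : Cfsg.IrrCharacter ↥K =>
    ∀ k : ↥K, ((θ : ↥K → ℂ) k).im = 0) fun θ => and_iff_left_of_imp (hall θ)),
    CL.Char.card_real_irr] at h3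
  have h4 : {c : ConjClasses ↥K | (∀ k : ↥K, ConjClasses.mk k = c → IsConj k k⁻¹) ∧ ∀ k : ↥K, ConjClasses.mk k = c → ∀ x ∈ P, ∀ k' : ↥K, (k' : G) = x * (k : G) * x⁻¹ → ConjClasses.mk k' = c} =
      {c : ConjClasses ↥K | ∀ k : ↥K, ConjClasses.mk k = c → IsConj k k⁻¹} :=
    Set.eq_of_subset_of_ncard_le (fun _ h => h.1) (le_of_eq h3)
  have h5 : ConjClasses.mk k ∈
      {c : ConjClasses ↥K | ∀ k : ↥K, ConjClasses.mk k = c → IsConj k k⁻¹} := fun k' hk' => by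
    have h4 := ConjClasses.mk_eq_mk_iff_isConj.mp hk'
    obtain ⟨y, hy⟩ := isConj_iff.mp h4
    exact (h4.trans hk).trans (isConj_iff.mpr ⟨y⁻¹, by rw [← hy]; group⟩)
  rw [← h4] at h5
  obtain ⟨k', h6, h7⟩ := CL.Glb.exists_isConj_centralizer hPK hcop (Or.inl hs) (g := k)
    fun s hs g' hg => ConjClasses.mk_eq_mk_iff_isConj.mp (h5.2 k rfl s hs g' hg).symm
  exact ⟨k', h6, fun x hx => mul_inv_eq_iff_eq_mul.mpr (Subgroup.mem_centralizer_iff.mp h7 x hx)⟩

end Cfsg.Agent.S4911
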