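import Cfsg.Statements.S4912
import Cfsg.Agent.ORD.LinCount

set_option autoImplicit false
open Cfsg

open CL.Char
namespace Cfsg.Agent.S4912

/-- Let G be a finite group with a non-abelian minimal normal subgroup N, and let φ be an irreducible complex character of N with stabilizer I in G such that φ extends to an irreducible character of I with Frobenius–Schur indicator +1. Put d = φ(1)·[G : I]. Then the number of linear characters of G with Frobenius–Schur indicator +1 is at most [G : I] times the number of irreducible characters of G of degree d with Frobenius–Schur indicator +1. -/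
theorem result {G : Type*} [Group G] [Finite G] (N : Subgroup G) (hN : N.Normal) (hN1 : N ≠ ⊥) (hmin : ∀ M : Subgroup G, M.Normal → M ≤ N → M = ⊥ ∨ M = N) (hna : ¬ IsMulCommutative ↥N) (φ : Cfsg.IrrCharacter ↥N) (I : Subgroup G) (hI : ∀ g : G, g ∈ I ↔ ∀ n n' : ↥N, (n' : G) = g * (n : G) * g⁻¹ → (φ : ↥N → ℂ) n' = (φ : ↥N → ℂ) n) (hNI : N ≤ I) (hext : ∃ ψ : Cfsg.IrrCharacter ↥I, (Nat.card ↥I : ℂ)⁻¹ * ∑ᶠ g : ↥I, (ψ : ↥I → ℂ) (g * g) = 1 ∧ ∀ n : ↥N, (ψ : ↥I → ℂ) (Subgroup.inclusion hNI n) = (φ : ↥N → ℂ) n) : Nat.card {χ : Cfsg.IrrCharacter G // Cfsg.charDegree (χ : G → ℂ) = 1 ∧ (Nat.card G : ℂ)⁻¹ * ∑ᶠ g : G, (χ : G → ℂ) (g * g) = 1} ≤ I.index * Nat.card {χ : Cfsg.IrrCharacter G // Cfsg.charDegree (χ : G → ℂ) = Cfsg.charDegree (φ : ↥N → ℂ) * I.index ∧ (Nat.card G : ℂ)⁻¹ * ∑ᶠ g : G, (χ : G → ℂ) (g * g) = 1} := by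
  classical
  have := Fintype.ofFinite G
  have hT : inertia N (φ : N → ℂ) = I := by
    refine inertia_eq_of_iff fun g => ?_
    rw [hI]
    refine ⟨fun h n => h n _ rfl, fun h n n' e => ?_⟩
    obtain rfl : n' = ⟨g * n * g⁻¹, hN.conj_mem n n.2 g⟩ := Subtype.ext e
    exact h n
  obtain ⟨ψ, hψ1, hψ⟩ := hext
  have := Fintype.ofFinite I
  let A : Subgroup (G →* ℂˣ) :=
    { carrier := {lam | ∀ g, lam g * lam g = 1}
      one_mem' := fun g => by simp
      mul_mem' := fun {a b} ha hb g => by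
        rw [MonoidHom.mul_apply, mul_mul_mul_comm, ha g, hb g, one_mul]
      inv_mem' := fun {a} ha g => by
        rw [MonoidHom.inv_apply, ← mul_inv, ha g, inv_one] }
  have h := CL.Ord.card_linear_le_of_ext
    (CL.Ord.le_commutator_of_minNormal_nonabelian hN hmin hna) φ.2 hT hNI ψ.2 hψ A
    (fun χ => (Nat.card G : ℂ)⁻¹ * ∑ᶠ g : G, χ (g * g) = 1) (fun lam hl hirr => by
      rw [finsum_eq_sum_of_fintype, ← fsInd_def, CL.Blk.fsInd_eq_one_iff hirr]
      apply IsFChar.ind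
      refine (CL.Blk.fsInd_eq_one_iff (ψ.2.hom_mul (lam.comp I.subtype))).mp ?_
      rw [fsInd_def, ← hψ1, finsum_eq_sum_of_fintype]
      congr 1
      refine Finset.sum_congr rfl fun g _ => ?_
      rw [map_mul]
      have : (lam.comp I.subtype) g * (lam.comp I.subtype) g = 1 := hl g
      rw [this]
      simp)
  refine le_trans ?_ h
  have hex : ∀ χ : {χ : Cfsg.IrrCharacter G // Cfsg.charDegree (χ : G → ℂ) = 1 ∧
      (Nat.card G : ℂ)⁻¹ * ∑ᶠ g : G, (χ : G → ℂ) (g * g) = 1},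
      ∃ lam : A, (χ.1 : G → ℂ) = fun g => ((lam.1 g : ℂˣ) : ℂ) := by
    rintro ⟨χ, h1, h2⟩
    obtain ⟨lam, hl⟩ := χ.2.isCharacter.exists_hom (χ.2.isCharacter.charDegree_eq_one_iff.mp h1)
    refine ⟨⟨lam, fun g => ?_⟩, hl⟩
    rw [finsum_eq_sum_of_fintype, ← fsInd_def] at h2
    have h3 : ∀ g, ((χ : G → ℂ) g).im = 0 := by
      by_contra hc
      push Not at hc
      rw [χ.2.fsInd_eq_zero_of_not_real hc] at h2
      exact zero_ne_one h2
    have h4 := hom_mul_conj lam g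
    have h5 := h3 g
    rw [hl] at h5
    rw [Complex.conj_eq_iff_im.mpr h5] at h4
    exact Units.ext (by simpa using h4)
  choose s hs using hex
  refine Nat.card_le_card_of_injective s fun a b hab => ?_
  apply Subtype.ext
  apply Subtype.ext
  rw [hs a, hs b, hab]

end Cfsg.Agent.S4912
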