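import Cfsg.Statements.S4914
import Cfsg.Agent.BLK.GPgroup

set_option autoImplicit false
open Cfsg

namespace Cfsg.Agent.S4914


/-- Let P and K be subgroups of a finite group G with P a p-group normalizing K, and suppose K has a normal Sylow p-subgroup Q. Let C be the subgroup of those k ∈ K whose commutator with every element of P lies in Q (so that C/Q is the fixed-point subgroup of P on K/Q). Then there is a bijection f from the P-invariant irreducible complex characters of K onto the P-invariant irreducible complex characters of C such that, for every P-invariant irreducible character χ of K, the multiplicity of f(χ) in the restriction of χ to C is a natural number congruent to 1 or to −1 modulo p, every other P-invariant irreducible character of C occurs in that restriction with multiplicity divisible by p, and the degrees of χ and f(χ) are congruent modulo p up to sign. -/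
theorem result {G : Type*} [Group G] [Finite G] (p : ℕ) [Fact p.Prime] (P K Q C : Subgroup G) (hP : IsPGroup p ↥P) (hPK : P ≤ Subgroup.normalizer (K : Set G)) (hQK : Q ≤ K) (hQn : ∀ k ∈ K, ∀ q ∈ Q, k * q * k⁻¹ ∈ Q) (hQp : ∃ a : ℕ, Nat.card ↥Q = p ^ a) (hQsyl : ¬ p ∣ Q.relIndex K) (hCK : C ≤ K) (hC : ∀ k : G, k ∈ C ↔ (k ∈ K ∧ ∀ x ∈ P, x * k * x⁻¹ * k⁻¹ ∈ Q)) : ∃ f : {χ : Cfsg.IrrCharacter ↥K // (∀ x ∈ P, ∀ k k' : ↥K, (k' : G) = x * (k : G) * x⁻¹ → (χ : ↥K → ℂ) k' = (χ : ↥K → ℂ) k)} → {ξ : Cfsg.IrrCharacter ↥C // (∀ x ∈ P, ∀ k k' : ↥C, (k' : G) = x * (k : G) * x⁻¹ → (ξ : ↥C → ℂ) k' = (ξ : ↥C → ℂ) k)}, Function.Bijective f ∧ ∀ χ, (∀ ξ : {ξ : Cfsg.IrrCharacter ↥C // (∀ x ∈ P, ∀ k k' : ↥C, (k' : G) = x * (k : G) * x⁻¹ → (ξ : ↥C → ℂ) k' = (ξ : ↥C → ℂ) k)}, ∃ m : ℕ, (Nat.card ↥C : ℂ)⁻¹ * ∑ᶠ c : ↥C, (χ.1 : ↥K → ℂ) (Subgroup.inclusion hCK c) * (starRingEnd ℂ) ((ξ.1 : ↥C → ℂ) c) = (m : ℂ) ∧ (ξ = f χ → ((m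 : ZMod p) = 1 ∨ (m : ZMod p) = -1)) ∧ (ξ ≠ f χ → p ∣ m)) ∧ ((Cfsg.charDegree ((f χ).1 : ↥C → ℂ) : ZMod p) = (Cfsg.charDegree (χ.1 : ↥K → ℂ) : ZMod p) ∨ (Cfsg.charDegree ((f χ).1 : ↥C → ℂ) : ZMod p) = -(Cfsg.charDegree (χ.1 : ↥K → ℂ) : ZMod p)) := by
  classical
  have hp : p.Prime := Fact.out
  have := Fintype.ofFinite C
  have hKQ : K ≤ Subgroup.normalizer (Q : Set G) := CL.Glb.le_norm_of_conj hQn
  have : (Q.subgroupOf K).Normal := (Subgroup.normal_subgroupOf_iff_le_normalizer hQK).mpr hKQ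
  have hKn : ∀ g ∈ K, g ^ Q.relIndex K ∈ Q := fun g hg =>
    Subgroup.pow_index_mem (Q.subgroupOf K) ⟨g, hg⟩
  obtain ⟨a, ha⟩ := hQp
  have hPQ : P ≤ Subgroup.normalizer (Q : Set G) := CL.Glb.le_norm_of_conj fun x hx q hq => by
    refine CL.Char.mem_of_coprime_pow_mem Q
      (Nat.Coprime.pow_right a ((Nat.Prime.coprime_iff_not_dvd hp).mpr hQsyl).symm)
      (hKn _ (CL.Glb.conj_mem_of_norm (hPK hx) (hQK hq))) ?_
    have : q ^ p ^ a = 1 := by
      rw [← ha]; exact congrArg Subtype.val (pow_card_eq_one' (x := (⟨q, hq⟩ : Q)))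
    rw [conj_pow, this, mul_one, mul_inv_cancel]
    exact one_mem Q
  have hPC : P ≤ Subgroup.normalizer (C : Set G) := by
    have : C = CL.Glb.relCent K Q hKQ P := by ext k; exact hC k
    rw [this]
    exact CL.Glb.le_norm_relCent hKQ hPQ hPK fun x hx t ht =>
      ⟨1, one_mem _, _, mul_mem (mul_mem (inv_mem hx) ht) hx, (one_mul _).symm⟩
  have h := CL.Glb.corr_pgroup hp hP hQsyl hPQ K hKQ hPK hKn hC hCK
  obtain ⟨f, hf⟩ := h.exists_equiv
  refine ⟨f, f.bijective, fun χ => ⟨fun ξ => ?_, ?_⟩⟩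
  · obtain ⟨m, hm⟩ := (χ.1.2.isCharacter.comp (Subgroup.inclusion hCK)).exists_nat_inner
      ξ.1.2.isCharacter
    refine ⟨m, by rw [finsum_eq_sum_of_fintype]; exact hm, fun he => ?_, fun hne => ?_⟩
    · obtain ⟨m', hm', h1⟩ := (hf χ ξ).mpr he
      obtain rfl : m' = m := Nat.cast_injective (R := ℂ) (hm'.symm.trans hm)
      exact h.pm _ χ.1.2 χ.2 _ ξ.1.2 ξ.2 m' hm h1
    · by_contra h1
      exact hne ((hf χ ξ).mp ⟨m, hm, h1⟩)
  · have h1 := (hf χ (f χ)).mpr rfl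
    have h2 := h.degree hPK hPC hp hP χ.1.2 χ.2 (f χ).1.2 (f χ).2 h1
    obtain ⟨m, hm, h3⟩ := h1
    rw [CL.Glb.mult_eq hm] at h2
    rcases h.pm _ χ.1.2 χ.2 _ (f χ).1.2 (f χ).2 m hm h3 with h4 | h4 <;> rw [h4] at h2
    · left; rw [h2, one_mul]
    · right; rw [h2]; ring

end Cfsg.Agent.S4914
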