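import Cfsg.Statements.S4916
import Cfsg.Agent.BLK.Princ2
-- import your own Cfsg.Agent.* helpers here

set_option autoImplicit false
open Cfsg

namespace Cfsg.Agent.S4916

/-- Let G be a finite group, p a prime and M a maximal ideal of the algebraic integers containing p. Then the principal character is the only irreducible character of degree prime to p in the principal p-block of G if and only if p does not divide the order of G. -/
theorem result {G : Type*} [Group G] [Finite G] (p : ℕ) [Fact p.Prime] (M : Ideal Cfsg.AlgInt) (hM : Cfsg.IsPModular p M) : (∀ χ : Cfsg.IrrCharacter G, χ ∈ Cfsg.principalBlock M G → ¬ p ∣ Cfsg.charDegree (χ : G → ℂ) → (χ : G → ℂ) = fun _ => (1 : ℂ)) ↔ ¬ p ∣ Nat.card G := by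
  constructor
  · intro h hp
    obtain ⟨y, hy⟩ := exists_prime_orderOf_dvd_card' p hp
    obtain ⟨χ, h1, h2, h3, -⟩ := CL.Blk.exists_principal_not_dvd hM hM.1 (y := y) (by rw [hy])
    exact h2 (h χ h1 h3)
  · intro hp χ hχ _
    exact χ.2.eq_one_of_const fun g => CL.Blk.ker_of_mem_principal hM hχ ⊤ (by simpa using hp) g trivial

end Cfsg.Agent.S4916
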