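import Cfsg.Statements.S4984
import Cfsg.Agent.CLAS.DG4.FamB
import Cfsg.Agent.CLAS.DG4.FamP
import Cfsg.Agent.CLAS.DG4.FamM
import Cfsg.Agent.CLAS.DG4.Br
import Cfsg.Agent.CLAS.DG4.Des

set_option autoImplicit false
open Cfsg

namespace Cfsg.Agent.S4984

open CL.DG4 CL.Witt

theorem mem_of_equiv {G : Type*} {K : Type*} [Group G] [Group K] (e : G ≃* K) {d : ℕ}
    (h : d ∈ charDegrees K) : d ∈ charDegrees G := by
  obtain ⟨χ, rfl⟩ := h
  exact ⟨⟨fun g => χ.1 (e g), χ.2.comp_mulEquiv e⟩, by simp [charDegree]⟩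

theorem core {G : Type*} [Group G] [Finite G] {F V : Type} [Field F] [Fintype F] [DecidableEq F]
    [AddCommGroup V] [Module F V] [Finite V] {T : FormType F} {f : Form T V} {H : Subgroup f.O}
    (hT : Tgt f H) (e : G ≃* H ⧸ Subgroup.center H)
    (hW : ∀ p s : ℕ, p.Prime → s.Prime → p ≠ s → p ∣ Nat.card f.O → s ∣ Nat.card f.O → Wit f H p s)
    (r s : ℕ) (hr : r ∈ Cfsg.degreePrimes G) (hs : s ∈ Cfsg.degreePrimes G) (hrs : r ≠ s) :
    (Cfsg.degreeGraph G).Adj r s := by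
  have key : ∀ l ∈ Cfsg.degreePrimes G, l ∣ Nat.card f.O := by
    rintro l ⟨-, d, ⟨χ, rfl⟩, hd⟩
    refine (hd.trans χ.2.charDegree_dvd_card).trans ?_
    rw [Nat.card_congr e.toEquiv]
    exact (Subgroup.card_quotient_dvd_card _).trans (Subgroup.card_subgroup_dvd_card H)
  obtain ⟨d, hd, h⟩ := desc hT hr.1 hs.1 hrs (hW r s hr.1 hs.1 hrs (key r hr) (key s hs))
  exact ⟨hrs, hr.1, hs.1, d, mem_of_equiv e hd, h⟩

/-- Let G be a finite simple symplectic group PSp_{2m}(q) (m ≥ 2, excluding PSp₄(2)) or a finite simple orthogonal group PΩ_{2m+1}(q) (m ≥ 3, q odd), PΩ⁺_{2m}(q) or PΩ⁻_{2m}(q) (m ≥ 4). Then the character degree graph of G is complete: for any two distinct primes each dividing some irreducible complex character degree of G, their product divides some irreducible character degree of G. -/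
theorem result {G : Type*} [Group G] [Finite G] (h : Cfsg.IsPSp G ∨ Cfsg.IsPOmegaOdd G ∨ Cfsg.IsPOmegaPlus G ∨ Cfsg.IsPOmegaMinus G) (r s : ℕ) (hr : r ∈ Cfsg.degreePrimes G) (hs : s ∈ Cfsg.degreePrimes G) (hrs : r ≠ s) : (Cfsg.degreeGraph G).Adj r s := by
  classical
  rcases h with ⟨F, _, _, m, hm, h2, ⟨e⟩⟩ | ⟨F, _, _, m, hm, hq, ⟨e⟩⟩ | ⟨F, _, _, m, hm, ⟨e⟩⟩ |
    ⟨F, _, _, m, a, b, hm, hab, ⟨e⟩⟩
  · obtain ⟨h1, hT, ⟨e'⟩⟩ := br_sp (F := F) (m := m) (by omega)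
    refine core hT (e.trans e') (fun p s hp hs hps hp' hs' =>
      famB h1 hT hm (fun h => ⟨rfl, h2 h⟩) (fun h => ?_) hp hs hps hp' hs') r s hr hs hrs
    exfalso
    have := congrArg (fun T : FormType F => T.π 1) h
    simp [FormType.alt_π, FormType.quad_π] at this
  · obtain ⟨f, H, h1, hT, hn, ⟨e'⟩⟩ := br_odd (F := F) hm hq
    exact core hT (e.trans e') (fun p s hp hs hps hp' hs' =>
      famB h1 hT (by omega) (fun h => by omega) (fun _ => hn) hp hs hps hp' hs') r s hr hs hrs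
  · obtain ⟨f, H, h1, hT, hn, ⟨e'⟩⟩ := br_plus (F := F) hm
    exact core hT (e.trans e') (fun p s hp hs hps hp' hs' =>
      famP h1 hT hm hn hp hs hps hp' hs') r s hr hs hrs
  · obtain ⟨f, H, h1, hT, hn, ⟨e'⟩⟩ := br_minus (F := F) (m := m - 1) (by omega) hab
    exact core hT (e.trans e') (fun p s hp hs hps hp' hs' =>
      famM h1 hT (by omega) hn hp hs hps hp' hs') r s hr hs hrs

end Cfsg.Agent.S4984
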