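import Cfsg.Statements.S4989
import Mathlib
import Cfsg.Agent.BLK.Codeg
import Cfsg.Agent.CHAR.LinExt

set_option autoImplicit false
open Cfsg

namespace Cfsg.Agent.S4989

open CL CL.Blk CL.Char MonoidAlgebra
open scoped CL.MSS
open scoped ComplexConjugate commutatorElement

/-- Let H be a subgroup of the finite group G and χ an irreducible complex character of G. Then the inner product of the restriction of χ to H with itself, (1/#H)·Σ_{h ∈ H} |χ(h)|², is at most 1 + #(Z ∖ H)/#H, where Z is the set of zeros of χ in G. -/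
theorem result {G : Type*} [Group G] [Finite G] (H : Subgroup G) (χ : Cfsg.IrrCharacter G) : (Nat.card ↥H : ℝ)⁻¹ * ∑ᶠ h : ↥H, ‖(χ : G → ℂ) h‖ ^ 2 ≤ 1 + (Set.ncard ({x : G | (χ : G → ℂ) x = 0} \ (H : Set G)) : ℝ) / (Nat.card ↥H : ℝ) := by
  classical
  have := Fintype.ofFinite G
  have hH : (0 : ℝ) < Nat.card H := by exact_mod_cast Nat.card_pos
  rw [finsum_eq_sum_of_fintype, inv_mul_le_iff₀ hH, mul_add, mul_one, mul_div_cancel₀ _ hH.ne']
  set O := Finset.univ.filter (fun g : G => g ∉ H ∧ (χ : G → ℂ) g = 0) with hO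
  set S := Finset.univ.filter (fun g : G => g ∉ H ∧ (χ : G → ℂ) g ≠ 0) with hS
  have hsplit : ∀ f : G → ℝ, ∑ g, f g = ∑ g : H, f g + ∑ g ∈ O, f g + ∑ g ∈ S, f g := by
    intro f
    rw [← Finset.sum_subtype (Finset.univ.filter (· ∈ H)) (by simp), hO, hS, Finset.sum_filter,
      Finset.sum_filter, Finset.sum_filter, ← Finset.sum_add_distrib, ← Finset.sum_add_distrib]
    refine Finset.sum_congr rfl fun g _ => ?_
    by_cases h1 : (χ : G → ℂ) g = 0 <;> by_cases h2 : g ∈ H <;> simp [h1, h2]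
  have h1 := hsplit fun _ => 1
  have h2 := hsplit fun g => ‖(χ : G → ℂ) g‖ ^ 2
  rw [χ.2.sum_norm_sq] at h2
  simp only [Finset.sum_const, Finset.card_univ, nsmul_eq_mul, mul_one,
    ← Nat.card_eq_fintype_card] at h1
  have h4 : ∑ g ∈ O, ‖(χ : G → ℂ) g‖ ^ 2 = 0 :=
    Finset.sum_eq_zero fun g hg => by rw [(Finset.mem_filter.1 hg).2.2]; simp
  have h6 := χ.2.isCharacter.isGen.card_le_sum_norm_sq S (fun g hg k hk => by
      obtain ⟨h7, h8⟩ := (Finset.mem_filter.1 hg).2
      have h9 : k.Coprime (orderOf g) := hk.coprime_dvd_right (orderOf_dvd_natCard g)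
      refine Finset.mem_filter.2 ⟨Finset.mem_univ _, fun h10 => h7 ?_,
        fun h10 => h8 ((χ.2.isCharacter.isGen.apply_pow_eq_zero_iff h9).1 h10)⟩
      exact mem_of_coprime_pow_mem _ h9 h10 (by rw [pow_orderOf_eq_one]; exact one_mem _))
    fun g hg => (Finset.mem_filter.1 hg).2.2
  have h7 : ({x : G | (χ : G → ℂ) x = 0} \ (H : Set G)).ncard = O.card := by
    rw [← Set.ncard_coe_finset]
    congr 1
    ext x
    simp [hO, and_comm]
  rw [h7]
  linarith

end Cfsg.Agent.S4989
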