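import Cfsg.Statements.S4993
import Mathlib
import Cfsg.Agent.BLK.PrimDeg
import Cfsg.Agent.SOLV.Fitting

set_option autoImplicit false
open Cfsg

namespace Cfsg.Agent.S4993

open CL CL.Blk CL.Char MonoidAlgebra
open scoped ComplexConjugate commutatorElement

/-- Let G be a group of odd order whose order has exactly two prime divisors and whose quotient by its Fitting subgroup is nilpotent (G is metanilpotent), and let χ be a primitive irreducible complex character of G (not induced from a character of any proper subgroup). Then χ(1) divides the size of some conjugacy class of G. -/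
theorem result {G : Type*} [Group G] [Fintype G] (hodd : Odd (Nat.card G)) (h2 : (Nat.card G).primeFactors.card = 2) [hF : (Cfsg.fittingSubgroup G).Normal] (hmeta : Group.IsNilpotent (G ⧸ Cfsg.fittingSubgroup G)) (χ : Cfsg.IrrCharacter G) (hprim : ¬ ∃ (H : Subgroup G), H ≠ ⊤ ∧ ∃ θ : ↥H → ℂ, Cfsg.IsCharacter ↥H θ ∧ Cfsg.indFun H θ = (χ : G → ℂ)) : ∃ g : G, Cfsg.charDegree (χ : G → ℂ) ∣ (Subgroup.centralizer ({g} : Set G)).index := by
  classical
  obtain ⟨p, q, hpq, hpqs⟩ := Finset.card_eq_two.1 h2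
  have hp : p.Prime := Nat.prime_of_mem_primeFactors (hpqs ▸ Finset.mem_insert_self p {q})
  have hq : q.Prime := Nat.prime_of_mem_primeFactors
    (hpqs ▸ Finset.mem_insert_of_mem (Finset.mem_singleton_self q))
  have hFn : Group.IsNilpotent (fittingSubgroup G) := isNilpotent_fittingSubgroup G
  have hsolv : Group.IsSolvable G := by
    refine Group.isSolvable_of_ker_le_range (fittingSubgroup G).subtype
      (QuotientGroup.mk' (fittingSubgroup G)) ?_
    rw [QuotientGroup.ker_mk', Subgroup.range_subtype]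
  let π := QuotientGroup.mk' (fittingSubgroup G)
  have key : ∀ r : ℕ, r.Prime → ∃ g : G, ∀ x ∈ (pCore r (G ⧸ fittingSubgroup G)).comap π,
      (charDegree (χ : G → ℂ)).factorization r ≤
      ((Subgroup.centralizer ({g * x} : Set G)).index).factorization r := by
    intro r hr
    have : Fact r.Prime := ⟨hr⟩
    refine exists_class_size_ge hr hFn (fun x hx => ?_) χ.2 (isHomog_of_primitive χ.2 hprim)
    obtain ⟨k, hk⟩ := isPGroup_pCore r (G ⧸ fittingSubgroup G) ⟨π x, hx⟩
    refine ⟨k, ?_⟩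
    rw [← QuotientGroup.eq_one_iff]
    exact congrArg Subtype.val hk
  obtain ⟨g₁, h₁⟩ := key p hp
  obtain ⟨g₂, h₂⟩ := key q hq
  have htop : pCore p (G ⧸ fittingSubgroup G) ⊔ pCore q (G ⧸ fittingSubgroup G) = ⊤ := by
    rw [eq_top_iff, ← iSup_pCore_eq_top_of_isNilpotent (G ⧸ fittingSubgroup G)]
    refine iSup_le fun r => ?_
    have := factPrime r
    by_cases hrp : (r : ℕ) = p
    · rw [hrp]; exact le_sup_left
    by_cases hrq : (r : ℕ) = q
    · rw [hrq]; exact le_sup_right
    have h0 : pCore (r : ℕ) (G ⧸ fittingSubgroup G) = ⊥ := by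
      by_contra hne
      obtain ⟨n, hn, h⟩ := (isPGroup_pCore (r : ℕ) (G ⧸ fittingSubgroup G)).nontrivial_iff_card.1
        ((Subgroup.nontrivial_iff_ne_bot _).2 hne)
      have h1 : (r : ℕ) ∣ Nat.card G :=
        ((h ▸ dvd_pow_self (r : ℕ) hn.ne').trans (Subgroup.card_subgroup_dvd_card _)).trans
          (Subgroup.card_quotient_dvd_card _)
      have h3 : (r : ℕ) ∈ (Nat.card G).primeFactors :=
        Nat.mem_primeFactors.2 ⟨r.2, h1, Nat.card_pos.ne'⟩
      rw [hpqs] at h3
      simp [hrp, hrq] at h3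
    rw [h0]; exact bot_le
  have hmem : π (g₁⁻¹ * g₂) ∈ pCore p (G ⧸ fittingSubgroup G) ⊔ pCore q (G ⧸ fittingSubgroup G) :=
    htop ▸ Subgroup.mem_top _
  obtain ⟨a, ha, b, hb, hab⟩ := Subgroup.mem_sup_of_normal_left.1 hmem
  obtain ⟨x, rfl⟩ := QuotientGroup.mk'_surjective _ a
  have hy : g₂⁻¹ * g₁ * x ∈ (pCore q (G ⧸ fittingSubgroup G)).comap π := by
    have : π (g₂⁻¹ * g₁ * x) = b⁻¹ := by
      have h3 : b = (π x)⁻¹ * π (g₁⁻¹ * g₂) := by rw [← hab]; simp [π]
      rw [h3]; simp [mul_assoc]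
    rw [Subgroup.mem_comap, this]
    exact Subgroup.inv_mem _ hb
  refine ⟨g₁ * x, ?_⟩
  have e1 := h₁ x ha
  have e2 := h₂ _ hy
  rw [show g₂ * (g₂⁻¹ * g₁ * x) = g₁ * x by group] at e2
  rw [← Nat.factorization_le_iff_dvd χ.2.charDegree_pos.ne' Subgroup.index_ne_zero_of_finite]
  intro r
  by_cases hrp : r = p
  · rw [hrp]; exact e1
  by_cases hrq : r = q
  · rw [hrq]; exact e2
  have : (charDegree (χ : G → ℂ)).factorization r = 0 := by
    by_cases hr : r.Prime
    · refine Nat.factorization_eq_zero_of_not_dvd fun hd => ?_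
      have h3 : r ∈ (Nat.card G).primeFactors :=
        Nat.mem_primeFactors.2 ⟨hr, hd.trans χ.2.charDegree_dvd_card, Nat.card_pos.ne'⟩
      rw [hpqs] at h3
      simp [hrp, hrq] at h3
    · exact Nat.factorization_eq_zero_of_not_prime _ hr
  rw [this]; exact Nat.zero_le _

end Cfsg.Agent.S4993
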