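import Cfsg.Statements.S4996
import Cfsg.Agent.CHAR.Triple
import Cfsg.Agent.CHAR.Galois
import Cfsg.Agent.FGS.ConjCover

set_option autoImplicit false
open Cfsg

open CL.Char
namespace Cfsg.Agent.S4996

/-- Let N be a normal subgroup of the finite group G and χ an irreducible complex character of G. Then the restriction of χ to N is not irreducible if and only if χ vanishes on some whole coset Nx of N in G. -/
theorem result {G : Type*} [Group G] [Finite G] (N : Subgroup G) [N.Normal] (χ : Cfsg.IrrCharacter G) : ¬ Cfsg.IsIrrCharacter ↥N (fun n : ↥N => (χ : G → ℂ) n) ↔ ∃ x : G, ∀ n : ↥N, (χ : G → ℂ) ((n : G) * x) = 0 := by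
  classical
  haveI := Fintype.ofFinite G
  haveI := Fintype.ofFinite N
  obtain ⟨χ, hχ⟩ := χ
  simp only
  refine ⟨fun hne => ?_, fun ⟨x, hx⟩ hirr => ?_⟩
  · obtain ⟨θ, hθ, hin⟩ := hχ.exists_under_res N
    by_cases hT : inertia N θ = ⊤
    · obtain ⟨e, he0, he⟩ := exists_res_eq_smul_of_invariant hχ hθ hT hin
      obtain ⟨Γ, _, _, π, θ', μ, hπ, -, -, -, -, -, -, -, -, hfw, -, -⟩ :=
        exists_triple_cover N θ hθ (inertia_eq_top_iff.mp hT)
      obtain ⟨β, hβ, hβ1, hβμ, hβχ⟩ := hfw χ hχ e (fun n => by simpa using congrFun he n)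
      have he1 : β 1 ≠ 1 := by
        rw [hβ1]
        intro h1
        apply hne
        rw [he, h1, one_smul]
        exact hθ
      obtain ⟨γ, hγ⟩ := hβ.exists_apply_eq_zero he1
      refine ⟨π γ, fun n => ?_⟩
      obtain ⟨y, hy⟩ := hπ n
      have hyN : y ∈ N.comap π := by simp [Subgroup.mem_comap, hy]
      have hyc : y ∈ charCenter β := by
        rw [hβ.isCharacter.mem_charCenter', hβμ ⟨y, hyN⟩, hβ1, norm_mul, norm_hom, mul_one]
      obtain ⟨c, -, hc⟩ := mem_charCenter_iff.mp hyc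
      rw [← hy, ← map_mul, hβχ, hc, hγ]
      simp
    · obtain ⟨ψ, -, hψ, -⟩ := clifford_ind_surj (le_inertia hθ.isClassFunction) hθ le_rfl hχ hin
      obtain ⟨x, hx⟩ := CL.exists_forall_conj_notMem hT
      refine ⟨x, fun n => ?_⟩
      rw [← hψ]
      refine indFun_eq_zero_of_not_conj _ _ _ fun g hg => hx g ?_
      have h1 : g⁻¹ * n * g ∈ inertia N θ := by
        apply le_inertia hθ.isClassFunction
        simpa using (inferInstance : N.Normal).conj_mem n n.2 g⁻¹
      have : g⁻¹ * x * g = (g⁻¹ * n * g)⁻¹ * (g⁻¹ * (n * x) * g) := by group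
      rw [this]
      exact mul_mem (inv_mem h1) hg
  · obtain ⟨n, hn, h⟩ := exists_apply_mul_ne_zero hχ.isCharacter hirr x
    exact h (hx ⟨n, hn⟩)

end Cfsg.Agent.S4996
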