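import Cfsg.Statements.S5011


set_option autoImplicit false
open Cfsg

namespace Cfsg.Agent.S5011

/-- Let G be a finite non-abelian simple group and ρ an irreducible complex representation of G on a space of dimension greater than one (irreducible in the sense that the only subspaces invariant under every ρ(x) are 0 and the whole space). Then for every non-identity element g of G, the centralizer of g does not act irreducibly: there is a non-zero proper subspace invariant under ρ(c) for every c commuting with g. -/
theorem result {G : Type*} [Group G] [Finite G] [IsSimpleGroup G]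
    (hG : ¬ IsMulCommutative G) {V : Type*} [AddCommGroup V] [Module ℂ V] [FiniteDimensional ℂ V]
    (ρ : Representation ℂ G V)
    (hirr : ∀ W : Submodule ℂ V, (∀ x : G, ∀ v ∈ W, ρ x v ∈ W) → W = ⊥ ∨ W = ⊤)
    (hdim : 1 < Module.finrank ℂ V) (g : G) (hg : g ≠ 1) :
    ∃ W : Submodule ℂ V, W ≠ ⊥ ∧ W ≠ ⊤ ∧ ∀ c ∈ Subgroup.centralizer ({g} : Set G), ∀ v ∈ W, ρ c v ∈ W := by
  by_contra hcon
  push Not at hcon
  have hV : Nontrivial V := Module.nontrivial_of_finrank_pos (R := ℂ) (by omega)
  -- elements acting as scalars form a normal subgroup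
  let N : Subgroup G :=
    { carrier := {x | ∃ c : ℂ, ∀ v, ρ x v = c • v}
      mul_mem' := by
        rintro a b ⟨c, hc⟩ ⟨d, hd⟩
        exact ⟨c * d, fun v => by rw [map_mul, Module.End.mul_apply, hd, map_smul, hc, smul_smul, mul_comm]⟩
      one_mem' := ⟨1, fun v => by simp⟩
      inv_mem' := by
        rintro a ⟨c, hc⟩
        have hc0 : c ≠ 0 := by
          rintro rfl
          obtain ⟨v, hv⟩ := exists_ne (0 : V)
          apply hv
          have : ρ a⁻¹ (ρ a v) = v := by
            rw [← Module.End.mul_apply, ← map_mul, inv_mul_cancel, map_one, Module.End.one_apply]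
          rw [← this, hc, zero_smul, map_zero]
        refine ⟨c⁻¹, fun v => ?_⟩
        have : ρ a⁻¹ (ρ a v) = v := by
          rw [← Module.End.mul_apply, ← map_mul, inv_mul_cancel, map_one, Module.End.one_apply]
        rw [hc, map_smul] at this
        rw [eq_inv_smul_iff₀ hc0, this] }
  have hNn : N.Normal := by
    refine ⟨fun n hn x => ?_⟩
    obtain ⟨c, hc⟩ := hn
    refine ⟨c, fun v => ?_⟩
    rw [map_mul, map_mul, Module.End.mul_apply, Module.End.mul_apply, hc, map_smul,
      ← Module.End.mul_apply, ← map_mul, mul_inv_cancel, map_one, Module.End.one_apply]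
  have hgN : g ∈ N := by
    obtain ⟨c, hc⟩ := Module.End.exists_eigenvalue (ρ g)
    refine ⟨c, fun v => ?_⟩
    by_cases htop : Module.End.eigenspace (ρ g) c = ⊤
    · have : v ∈ Module.End.eigenspace (ρ g) c := htop ▸ Submodule.mem_top
      exact Module.End.mem_eigenspace_iff.mp this
    · obtain ⟨x, hx, w, hw, hxw⟩ := hcon _ hc htop
      exfalso
      apply hxw
      rw [Module.End.mem_eigenspace_iff] at hw ⊢
      have hxg : g * x = x * g := Subgroup.mem_centralizer_iff.mp hx g rfl
      rw [← Module.End.mul_apply, ← map_mul, hxg, map_mul, Module.End.mul_apply, hw, map_smul]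
  have hNtop : N = ⊤ := by
    rcases hNn.eq_bot_or_eq_top with h | h
    · exact absurd (by simpa [h] using hgN) hg
    · exact h
  obtain ⟨v, hv⟩ := exists_ne (0 : V)
  rcases hirr (ℂ ∙ v) (by
      intro x w hw
      have hx : x ∈ N := hNtop ▸ Subgroup.mem_top x
      obtain ⟨c, hc⟩ := hx
      rw [hc]
      exact Submodule.smul_mem _ _ hw) with h | h
  · exact hv (by simpa using h)
  · have h1 : Module.finrank ℂ (ℂ ∙ v) = 1 := finrank_span_singleton hv
    rw [h, finrank_top] at h1
    omega

end Cfsg.Agent.S5011
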