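import Cfsg.Statements.S5075
import Cfsg.Agent.CHEV.McL2


set_option autoImplicit false
open Cfsg


namespace Cfsg.Agent.S5075



/-- Let p be an odd prime, V a finite-dimensional vector space over the field with p elements, and H a group of linear automorphisms of V generated by transvections (elements of order p fixing a hyperplane pointwise) and having no nontrivial normal p-subgroup. Then for some n ≥ 1 there are a decomposition V = V₀ ⊕ V₁ ⊕ ⋯ ⊕ Vₙ into H-invariant subspaces and a decomposition of H as the internal direct product of normal subgroups H₁, …, Hₙ such that Hⱼ acts trivially on every Vᵢ with i ≠ j, and Hⱼ induces on Vⱼ exactly the special linear group of Vⱼ or exactly the isometry group of a non-degenerate alternating form on Vⱼ. -/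
theorem result {p : ℕ} [Fact p.Prime] (hp : Odd p) {V : Type*} [AddCommGroup V] [Module (ZMod p) V] [Finite V]
    (H : Subgroup (V ≃ₗ[ZMod p] V)) (T : Set (V ≃ₗ[ZMod p] V)) (hHT : H = Subgroup.closure T)
    (hT : ∀ t ∈ T, orderOf t = p ∧
      Module.finrank (ZMod p) ↥(LinearMap.ker ((t : V →ₗ[ZMod p] V) - LinearMap.id)) + 1 =
        Module.finrank (ZMod p) V)
    (hOp : Cfsg.pCore p ↥H = ⊥) :
    ∃ (n : ℕ) (W : Fin (n + 1) → Submodule (ZMod p) V) (K : Fin n → Subgroup (V ≃ₗ[ZMod p] V)),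
      1 ≤ n ∧ DirectSum.IsInternal W ∧
      (∀ h ∈ H, ∀ i, (W i).map (h : V →ₗ[ZMod p] V) = W i) ∧
      (∀ j, K j ≤ H ∧ ((K j).subgroupOf H).Normal) ∧ ⨆ j, K j = H ∧
      (∀ j, K j ⊓ (⨆ j' ∈ {j' : Fin n | j' ≠ j}, K j') = ⊥) ∧
      (∀ j j', j ≠ j' → ∀ a ∈ K j, ∀ b ∈ K j', a * b = b * a) ∧
      (∀ j, ∀ h ∈ K j, ∀ i : Fin (n + 1), i ≠ j.succ → ∀ v ∈ W i, h v = v) ∧
      (∀ j, ∃ ρ : ↥(K j) →* (↥(W j.succ) ≃ₗ[ZMod p] ↥(W j.succ)),
        (∀ (h : ↥(K j)) (v : ↥(W j.succ)), ((ρ h v : ↥(W j.succ)) : V) = (h : V ≃ₗ[ZMod p] V) (v : V)) ∧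
        ((ρ.range : Set (↥(W j.succ) ≃ₗ[ZMod p] ↥(W j.succ))) =
            {f : ↥(W j.succ) ≃ₗ[ZMod p] ↥(W j.succ) | LinearMap.det (f : ↥(W j.succ) →ₗ[ZMod p] ↥(W j.succ)) = 1} ∨
          ∃ B : LinearMap.BilinForm (ZMod p) ↥(W j.succ), B.IsAlt ∧ B.Nondegenerate ∧
            (ρ.range : Set (↥(W j.succ) ≃ₗ[ZMod p] ↥(W j.succ))) = {f : ↥(W j.succ) ≃ₗ[ZMod p] ↥(W j.succ) | ∀ x y, B (f x) (f y) = B x y})) := by
  have hp2 : p ≠ 2 := by rintro rfl; exact absurd hp (by decide)
  refine CL.McL.mclaughlin hOp ?_ ?_ ⟨-1, by simp, fun h => ?_⟩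
  · rw [hHT, Subgroup.closure_le]
    intro t ht
    obtain ⟨h1, h2⟩ := hT t ht
    have h3 : t ∈ LinearEquiv.dilatransvections (ZMod p) V := by
      rw [LinearEquiv.mem_dilatransvections_iff_finrank]
      have := LinearMap.finrank_range_add_finrank_ker ((t : V →ₗ[ZMod p] V) - LinearMap.id)
      omega
    obtain ⟨φ, x, h4⟩ := h3
    have h5 : CL.McL.IsTv t x φ := fun v => LinearMap.congr_fun h4 v
    have h6 : t ≠ 1 := by
      rintro rfl
      rw [orderOf_one] at h1
      exact (Fact.out : p.Prime).one_lt.ne h1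
    have hx : x ≠ 0 := by
      rintro rfl
      exact h6 (LinearEquiv.ext fun v => by simpa using h5 v)
    have hφ : φ ≠ 0 := by
      rintro rfl
      exact h6 (LinearEquiv.ext fun v => by simpa using h5 v)
    have h7 : ∀ k : ℕ, (t ^ k) x = (1 + φ x) ^ k • x := by
      intro k
      induction k with
      | zero => simp
      | succ k ih =>
        rw [pow_succ', LinearEquiv.mul_apply, ih, map_smul, h5, pow_succ, mul_smul, add_smul, one_smul]
    have h8 : φ x = 0 := by
      have := h7 p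
      have h9 : t ^ p = 1 := (congrArg (t ^ ·) h1).symm.trans (pow_orderOf_eq_one t)
      rw [ZMod.pow_card, h9, add_smul, one_smul] at this
      simpa [hx] using this
    exact Subgroup.subset_closure ⟨x, φ, ⟨hx, hφ, h8, t, Subgroup.subset_closure ht, h5⟩, h5⟩
  · rintro x φ ⟨h1, h2, h3, t, ht, h4⟩ a ha
    refine ⟨h1, smul_ne_zero ha h2, by simp [h3], t ^ a.val, pow_mem ht _, ?_⟩
    have : ∀ k : ℕ, CL.McL.IsTv (t ^ k) x ((k : ZMod p) • φ) := by
      intro k
      induction k with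
      | zero => intro v; simp
      | succ k ih =>
        intro v
        rw [pow_succ', LinearEquiv.mul_apply, ih, h4]
        simp [h3, add_smul]
        abel
    simpa using this a.val
  · have : ((2 : ℕ) : ZMod p) = 0 := by push_cast; linear_combination -h
    rw [ZMod.natCast_eq_zero_iff] at this
    exact hp2 ((Nat.prime_dvd_prime_iff_eq Fact.out Nat.prime_two).1 this)

end Cfsg.Agent.S5075
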