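import Cfsg.Statements.S5126
import Mathlib
import Cfsg.Agent.FUS.Invariant
import Cfsg.Agent.FUS.Realized

set_option autoImplicit false
open Cfsg

namespace Cfsg.Agent.S5126

open CL.Fus

/-- In a saturated fusion system over a finite p-group S, the normalizer system of a fully normalized, centric, radical subgroup R is constrained, and in every model of that normalizer system the largest normal p-subgroup is the image of R. -/
theorem result {Ω : Type*} [Group Ω] {S : Subgroup Ω} [Finite S] (p : ℕ) [Fact p.Prime] (hS : IsPGroup p S) (F : Cfsg.FusionSystem S) (hF : F.IsSaturated p) (R : Subgroup Ω) (hRn : F.IsFullyNormalized R) (hRc : F.IsCentric R) (hRr : F.IsRadical p R) (E : Cfsg.FusionSystem (Cfsg.FusionSystem.normalizerIn S R)) (hE : F.IsNormalizerSystem R E) {G : Type*} [Group G] (ι : ↥(Cfsg.FusionSystem.normalizerIn S R) →* G) : E.IsConstrained p ∧ (E.IsModel p G ι → (Cfsg.pCore p G : Subgroup G) = (R.subgroupOf (Cfsg.FusionSystem.normalizerIn S R)).map ι) := by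
  obtain rfl := eq_normSys hE hRn.1
  have := finite_of_le (normalizerIn_le S R)
  have hc : Cfsg.FusionSystem.centralizerIn (Cfsg.FusionSystem.normalizerIn S R) R ≤ R :=
    (centralizerIn_normalizerIn_of_le le_rfl).le.trans (centralizerIn_le_of_isCentric hRc)
  refine ⟨⟨normSys_saturated hS hF hRn, R, normal_normSys _, isCentric_of_normal (normal_normSys _) hc⟩,
    fun h => ?_⟩
  rw [pCore_eq_of_isModel h, le_antisymm (le_of_normal_of_cr (hS.to_le (normalizerIn_le S R)) (core_normal _) hc
    ⟨le_normalizerIn hRn.1, by rw [autGroup_normSys_self]; exact hRr.2⟩) (le_core (normal_normSys _))]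

end Cfsg.Agent.S5126
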