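import Cfsg.Statements.S5134
import Cfsg.Agent.FUS.FactorSat

set_option autoImplicit false
open Cfsg

namespace Cfsg.Agent.S5134

/-- Let F be a saturated fusion system over a finite p-group S, S₀ a subgroup strongly closed in F, and E the factor system of F modulo S₀ read through θ (a homomorphism on S with kernel S₀ and image the group of E). Then θ is a surjective morphism of fusion systems from F onto E: in particular every map of F, and not only the maps whose source contains S₀, induces along θ a map of E. -/
theorem result {Ω : Type*} [Group Ω] {S : Subgroup Ω} [Finite S] (p : ℕ) [Fact p.Prime] (hS : IsPGroup p S) (F : Cfsg.FusionSystem S) (hF : F.IsSaturated p) (S₀ : Subgroup Ω) (hS₀ : F.StronglyClosed S₀) {Ω' : Type*} [Group Ω'] {S' : Subgroup Ω'} (θ : S →* Ω') (E : Cfsg.FusionSystem S') (hE : F.IsFactorSystem S₀ θ E) : F.IsSurjectiveMorphism E θ := by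
  have h := CL.Fus.fac_homFn hE
  have hs := CL.Fus.surjOn_homFn θ
  have e : θ.ker.map S.subtype = S₀ := Subgroup.ext fun x =>
    ⟨fun hx => (h.surj.ker x (hs.le hx)).1 (hs.map_ker hx),
      fun hx => (hs.ker x (hS₀.1 hx)).1 (h.surj.map_ker hx)⟩
  refine (CL.Fus.isSurjectiveMorphism_iff fun x => (CL.Fus.homFn_coe θ x).symm).2 ⟨h.morph hS hF hS₀, ?_⟩
  rwa [e]

end Cfsg.Agent.S5134
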