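import Cfsg.Statements.S5196
import Cfsg.Agent.FUS.Glaub

set_option autoImplicit false
universe u
open Cfsg

namespace Cfsg.Agent.S5196

/-- Let p be an odd prime and W a positive characteristic p-functor: W assigns to every finite p-group Q (in a fixed universe) a subgroup W(Q), nontrivial when Q is, carried to W(R) by every isomorphism Q ≅ R; assume also Z(Q) ≤ W(Q) for every finite p-group Q. Suppose W satisfies the local condition: for every finite group G with Sylow p-subgroup P, O_p(G) ∩ Z(G) = O_p(G) ∩ Z(N_G(W(P))). Then W controls weak closure of elements in every saturated fusion system F over a finite p-group S: the centre of the normalizer fusion system of W(S) in F equals the centre of F. (For p = 2 no functor satisfies the local condition, so p is taken odd.) -/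
theorem result {p : ℕ} [Fact p.Prime] (hp : p ≠ 2) (W : ∀ (Q : Type u) [Group Q], Subgroup Q) (hW1 : ∀ (Q : Type u) [Group Q] [Finite Q], IsPGroup p Q → Nontrivial Q → W Q ≠ ⊥) (hW2 : ∀ (Q R : Type u) [Group Q] [Group R] [Finite Q], IsPGroup p Q → ∀ φ : Q ≃* R, (W Q).map φ.toMonoidHom = W R) (hWZ : ∀ (Q : Type u) [Group Q] [Finite Q], IsPGroup p Q → Subgroup.center Q ≤ W Q) (hC : ∀ (G : Type u) [Group G] [Finite G] (P : Sylow p G), Cfsg.pCore p G ⊓ Subgroup.center G = Cfsg.pCore p G ⊓ (Subgroup.center ↥(Subgroup.normalizer (((W ↥(P : Subgroup G)).map (P : Subgroup G).subtype : Subgroup G) : Set G))).map (Subgroup.normalizer (((W ↥(P : Subgroup G)).map (P : Subgroup G).subtype : Subgroup G) : Set G)).subtype) {Ω : Type u} [Group Ω] {S : Subgroup Ω} [Finite S] (hS : IsPGroup p S) (F : Cfsg.FusionSystem S) (hF : F.IsSaturated p) (N : Cfsg.FusionSystem (Cfsg.FusionSystem.normalizerIn S ((W ↥S).map S.subtype))) (hN : F.IsNormalizerSystem ((W ↥S).map S.subtype) N) : N.center = F.center := by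
  have hw := CL.Fus.aFun_of_functor W hW1 hW2
  rw [CL.Fus.eq_normSys hN (hw.le S)]
  refine le_antisymm (fun z hz => ?_) (hw.center_le_center_normSys hS hF)
  obtain ⟨h1, h2⟩ := hw.of_mem_center_normSys hS hz
  refine hw.mem_center_of_fix True (fun _ => True) (fun _ _ _ => trivial)
    (fun G _ _ T hc _ z hz _ hN _ => ?_) hS hF (Or.inl trivial) z h1 trivial h2
  have hO : z ∈ Cfsg.pCore p G := hc (Subgroup.centralizer_le (CL.Fus.pCore_le_sylow T) hz.2)
  refine ((hC G T).ge ⟨hO, ⟨z, hw.le_normalizer T.isPGroup' hz.1⟩, Subgroup.mem_center_iff.2 fun g => ?_,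
    rfl⟩).2
  exact Subtype.ext (Subgroup.mem_centralizer_singleton_iff.1 (hN g.2))

end Cfsg.Agent.S5196
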