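import Cfsg.Statements.S5212
import Cfsg.Agent.FUS.MetaResist

set_option autoImplicit false
open Cfsg

namespace Cfsg.Agent.S5212

/-- Let S be a finite metacyclic 2-group that is not homocyclic abelian (a direct product of cyclic groups of one common order), not dihedral, not semidihedral and not generalized quaternion. Then every saturated fusion system over S is the inner fusion system of S. -/
theorem result {Ω : Type*} [Group Ω] {S : Subgroup Ω} [Finite S] (hS : IsPGroup 2 S) (F : Cfsg.FusionSystem S) (hF : F.IsSaturated 2) (hm : Cfsg.IsMetacyclic ↥S) (hh : ¬ ∃ n k : ℕ, Nonempty (↥S ≃* Multiplicative (Fin k → ZMod (2 ^ n)))) (hd : ¬ ∃ m : ℕ, Nonempty (↥S ≃* DihedralGroup m)) (hq : ¬ ∃ m : ℕ, Nonempty (↥S ≃* QuaternionGroup m)) (hsd : ¬ Cfsg.IsQuasiDihedral ↥S) : ∀ P : Subgroup Ω, F.Hom P = (Cfsg.innerFusionSystem S).Hom P := by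
  have h := CL.Fus.not_isDQS (fun ⟨m, _, h⟩ => hd ⟨m, h⟩) (fun ⟨m, _, h⟩ => hq ⟨m, h⟩) hsd
  intro P
  rw [CL.Fus.eq_inner_of_normal_top hS hF (CL.Fus.normal_of_sc_of_metacyclic hS hF (CL.Fus.sc_top F) hm h)
    fun α _ hc => ?_]
  rcases CL.MC.cases hS hm with h | ⟨k, h⟩ | ⟨-, n, a, b, h'⟩
  · exact CL.Fus.PowOrComm.eq_one_of_flag hS h (CL.Fus.powOrComm_two (Subgroup.mem_top α)) hc
  · obtain ⟨e⟩ := h.nonempty_equiv hm
    exact absurd ⟨k + 1, 2, ⟨e.trans ((MulEquiv.prodMultiplicative _ _).symm.trans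
      (AddEquiv.toMultiplicative (LinearEquiv.finTwoArrow ℕ _).toAddEquiv.symm))⟩⟩ hh
  · exact absurd h' (h n a b)

end Cfsg.Agent.S5212
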