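import Cfsg.Statements.S5221
import Cfsg.Agent.FUS.Sparse

set_option autoImplicit false
open Cfsg

namespace Cfsg.Agent.S5221

/-- Let F be a sparse fusion system over a finite p-group S: a saturated fusion system, not the inner fusion system of S, whose only saturated fusion systems over S contained in it are F itself and the inner one. If p is odd, or F is S₄-free (the symmetric group of degree 4 is not involved in any model of the normalizer system of a fully normalized F-centric subgroup), then F is constrained. -/
theorem result {Ω : Type*} [Group Ω] {S : Subgroup Ω} [Finite S] (p : ℕ) [Fact p.Prime] (hS : IsPGroup p S) (F : Cfsg.FusionSystem S) (hF : F.IsSaturated p) (hsp : ¬ (∀ P : Subgroup Ω, F.Hom P = (Cfsg.innerFusionSystem S).Hom P) ∧ ∀ E : Cfsg.FusionSystem S, E.IsSaturated p → E.IsSubsystemOf F → (∀ P : Subgroup Ω, E.Hom P = F.Hom P) ∨ (∀ P : Subgroup Ω, E.Hom P = (Cfsg.innerFusionSystem S).Hom P)) (hp : p ≠ 2 ∨ F.IsSectionFree p (Equiv.Perm (Fin 4))) : F.IsConstrained p := by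
  refine CL.Fus.isConstrained_of_sparse hS hF (CL.Fus.ne_two_or_not_qdSec hS hF hp) ?_
    (mt CL.Fus.innerOn_mor_iff.1 hsp.1)
  rintro _ D rfl hD h1 h2
  exact (hsp.2 D hD h1).elim (fun h => (h2 fun P => (h P).ge).elim) fun h P => (h P).le

end Cfsg.Agent.S5221
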