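import Cfsg.Statements.S5222
import Cfsg.Agent.FUS.Transfer

set_option autoImplicit false
open Cfsg

namespace Cfsg.Agent.S5222

open CL.Fus Cfsg.FusionSystem

/-- Let F be a saturated fusion system over a finite p-group S whose normalizer fusion system of S is the inner fusion system of S (Aut_F(S) is a p-group). Then for every subgroup Q of S with [S, S] ≤ Q ≤ Φ(S), the normalizer fusion system of Q in F is the inner fusion system of N_S(Q) = S. -/
theorem result {Ω : Type*} [Group Ω] {S : Subgroup Ω} [Finite S] (p : ℕ) [Fact p.Prime] (hS : IsPGroup p S) (F : Cfsg.FusionSystem S) (hF : F.IsSaturated p) (hN : ∀ N : Cfsg.FusionSystem (Cfsg.FusionSystem.normalizerIn S S), F.IsNormalizerSystem S N → ∀ P : Subgroup Ω, N.Hom P = (Cfsg.innerFusionSystem (Cfsg.FusionSystem.normalizerIn S S)).Hom P) (Q : Subgroup Ω) (h1 : (commutator ↥S).map S.subtype ≤ Q) (h2 : Q ≤ (frattini ↥S).map S.subtype) : ∀ N : Cfsg.FusionSystem (Cfsg.FusionSystem.normalizerIn S Q), F.IsNormalizerSystem Q N → ∀ P : Subgroup Ω, N.Hom P =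 (Cfsg.innerFusionSystem (Cfsg.FusionSystem.normalizerIn S Q)).Hom P := by
  intro N hN'
  have hQ := le_of_isNormalizerSystem hN'
  rw [Subgroup.map_subtype_commutator] at h1
  have hn : S ≤ Subgroup.normalizer (Q : Set Ω) := fun s hs => by
    have := finite_of_le hQ
    exact mem_normalizer_of_cj_mem fun x hx => by simpa using Q.mul_mem hx (inv_mul_cj_mem h1 hs (hQ hx))
  have hsat := normSys_saturated hS hF (fullyNormalized_of_normal F hQ hn)
  have hsc := sc_of_normal (normal_normSys (F := F) hQ)
  have hsub := normSys_isSubsystemOf (F := F) (hQ := hQ)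
  rw [← eq_normSys hN' hQ] at hsat hsc hsub
  have htop : F.autGroup S ≤ Inn S := fun α hα => by
    obtain ⟨-, g, hg, e⟩ := mor_inner_iff.1 ((hom_eq_iff_mor.1 (hN _ (isNormalizerSystem_normSys F le_rfl)) S _).1
      (mor_normSys.2 (NMor.of_ext (le_normalizerIn le_rfl) (mor_autFun le_rfl hα) le_rfl le_rfl (img_autFun α))))
    exact mem_inn_iff.2 ⟨g, hg.1, e⟩
  have e : normalizerIn S Q = S := inf_eq_left.2 hn
  clear hN'
  generalize normalizerIn S Q = T at N hsat hsc hsub e
  subst e
  rw [← eq_inner_of_focal_le_frattini hS hsat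
    ((focal_le_of_sc_of_inn hS hsat ((autGroup_mono hsub _).trans htop) hsc h1).trans h2)]
  exact fun _ => rfl

end Cfsg.Agent.S5222
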