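import Cfsg.Statements.S5223
import Cfsg.Agent.FUS.Hyperfocal

set_option autoImplicit false
open Cfsg

namespace Cfsg.Agent.S5223

open CL.Fus Cfsg.FusionSystem

/-- Let F be a saturated fusion system over a finite p-group S. Suppose there are subgroups Q₀ = S, Q₁, …, Qₙ = 1 (not required to be nested) such that for each i < n the focal subgroup of Qᵢ (generated by the elements x⁻¹φ(x), x ∈ Qᵢ, φ a map of F defined on the cyclic group generated by x) lies in Qᵢ₊₁. Then F is the inner fusion system of S. -/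
theorem result {Ω : Type*} [Group Ω] {S : Subgroup Ω} [Finite S] (p : ℕ) [Fact p.Prime] (hS : IsPGroup p S) (F : Cfsg.FusionSystem S) (hF : F.IsSaturated p) (n : ℕ) (Q : Fin (n + 1) → Subgroup Ω) (hQ0 : Q 0 = S) (hQn : Q (Fin.last n) = ⊥) (hstep : ∀ i : Fin n, Subgroup.closure {y : Ω | ∃ x ∈ Q i.castSucc, ∃ φ ∈ F.Hom (Subgroup.zpowers x), y = x⁻¹ * φ ⟨x, Subgroup.mem_zpowers x⟩} ≤ Q i.succ) : ∀ P : Subgroup Ω, F.Hom P = (Cfsg.innerFusionSystem S).Hom P := by
  have key : F = Cfsg.innerFusionSystem S := by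
    refine eq_inner_of_coprime hS hF fun R hR α hα hc => ?_
    have hRS := (frc_of_top_or_essential hS hF hR).1.1
    have h1 : ∀ i : Fin (n + 1), ∀ x ∈ R, x ∈ Q i → autFun α x = x := by
      intro i
      induction i using Fin.reverseInduction with
      | last =>
        intro x _ hx
        rw [hQn, Subgroup.mem_bot] at hx
        rw [hx, (isHomOn_autFun α).map_one]
      | cast i ih =>
        intro x hx hxQ
        refine autFun_eq_of_coprime (isPGroup_of_le hS hRS) hc ih hx (hstep i (Subgroup.subset_closure ?_))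
        have h2 := (mor_autFun hRS hα).mono (Subgroup.zpowers_le_of_mem hx)
        exact ⟨x, hxQ, _, h2.toHom_mem, rfl⟩
    exact mulAut_ext_autFun fun x hx => by rw [h1 0 x hx (hQ0 ▸ hRS hx), autFun_one hx]
  intro P
  rw [← key]

end Cfsg.Agent.S5223
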