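import Cfsg.Statements.S5225
import Cfsg.Agent.FUS.Transfer

set_option autoImplicit false
open Cfsg

namespace Cfsg.Agent.S5225

open CL.Fus Cfsg.FusionSystem

open CL.Tr in
theorem wreath_of_iterate {G : Type*} [Group G] [Finite G] {p : ℕ} [Fact p.Prime] (hG : IsPGroup p G)
    {u z : G} {R M : Subgroup G} [R.Normal] (huR : u ∈ R) (hi : R.index = p) (hMR : M ≤ R) (hMi : M.relIndex R = p)
    (hM : (fun y : G => y⁻¹ * z⁻¹ * y * z)^[p - 1] u ∉ M) :
    ∃ (P : Sylow p (Equiv.Perm (Fin (p ^ 2)))) (f : G →* ↥(P : Subgroup (Equiv.Perm (Fin (p ^ 2))))),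
      Function.Surjective f := by
  have h1 : Nat.card (G ⧸ M) = p ^ 2 := by
    rw [pow_two]
    nth_rw 1 [← hMi, ← hi]
    exact (Subgroup.relIndex_mul_index hMR).symm
  let e := (Finite.equivFinOfCardEq h1).permCongrHom
  let ρ : G →* Equiv.Perm (Fin (p ^ 2)) := e.toMonoidHom.comp (MulAction.toPermHom G (G ⧸ M))
  have hker : ρ.ker ≤ M := by
    rw [← MonoidHom.comap_ker, (MonoidHom.ker_eq_bot_iff _).mpr e.injective, MonoidHom.comap_bot,
      ← Subgroup.normalCore_eq_ker]
    exact Subgroup.normalCore_le _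
  have hp : IsPGroup p ρ.range := hG.of_surjective _ ρ.rangeRestrict_surjective
  obtain ⟨P, hP⟩ := hp.exists_le_sylow
  have : (R.map ρ.rangeRestrict).Normal := Subgroup.Normal.map inferInstance _ ρ.rangeRestrict_surjective
  have h2 := pow_le_card_of_iterate_comm_ne_one hp (ρ.rangeRestrict z) (p - 1)
    (R.map ρ.rangeRestrict) (y := ρ.rangeRestrict u) ⟨u, huR, rfl⟩ (by
      have h3 : ∀ k, (fun y => y⁻¹ * (ρ.rangeRestrict z)⁻¹ * y * ρ.rangeRestrict z)^[k] (ρ.rangeRestrict u) =
          ρ.rangeRestrict ((fun y : G => y⁻¹ * z⁻¹ * y * z)^[k] u) := fun k => by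
        induction k with
        | zero => rfl
        | succ k ih => simp only [Function.iterate_succ_apply', ih, map_mul, map_inv]
      rw [h3]
      exact fun h4 => hM (hker (congrArg Subtype.val h4)))
  have h3 := (R.map ρ.rangeRestrict).card_mul_index
  rw [Subgroup.index_map_eq _ ρ.rangeRestrict_surjective (by
    rw [MonoidHom.ker_rangeRestrict]
    exact hker.trans hMR), hi] at h3
  rw [Nat.sub_add_cancel (Fact.out : p.Prime).one_le] at h2
  have h4 : ρ.range = P := Subgroup.eq_of_le_of_card_ge hP (by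
    rw [← h3, card_sylow_perm_sq, pow_succ]
    exact Nat.mul_le_mul_right p h2)
  refine ⟨P, ρ.codRestrict _ fun x => hP ⟨x, rfl⟩, fun y => ?_⟩
  obtain ⟨x, hx⟩ := h4.ge y.2
  exact ⟨x, Subtype.ext hx⟩

open CL.Tr in
theorem wreath_of_cocycle {G X A : Type*} [Group G] [Finite G] {p : ℕ} [Fact p.Prime] (hG : IsPGroup p G)
    [Fintype X] [MulAction G X] [CommGroup A] (hA : Nat.card A = p) {c : G → X → A} (hc : IsActCocycle c)
    (hX : ∀ x : X, MulAction.stabilizer G x ≠ ⊤) {u : G}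
    (h : ∀ (k : ℕ) (x : X), 1 < k → k ∣ orderOf u → u ^ k • x = x → c (u ^ k) x = 1) (hne : ∏ x, c u x ≠ 1) :
    ∃ (P : Sylow p (Equiv.Perm (Fin (p ^ 2)))) (f : G →* ↥(P : Subgroup (Equiv.Perm (Fin (p ^ 2))))),
      Function.Surjective f := by
  classical
  obtain ⟨ω, hω1⟩ : ∃ ω, ∏ x ∈ orbFinset (⊤ : Subgroup G) ω, c u x ≠ 1 := by
    by_contra hcon
    push Not at hcon
    exact hne (prod_eq_one_of_orbits ⊤ (fun _ _ _ _ => Finset.mem_univ _) fun ω _ => hcon ω)
  obtain ⟨ω₁, hω₁, hfix₁⟩ : ∃ ω₁ ∈ orbFinset (⊤ : Subgroup G) ω, u • ω₁ = ω₁ := by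
    by_contra hcon
    push Not at hcon
    refine hω1 (prod_eq_one_of_orbits (Subgroup.zpowers u)
      (fun e _ x h => (orbFinset_invariant ⊤ ω e trivial x).mp h) fun x hx => ?_)
    rw [hc.prod_zpowers]
    refine h _ _ ?_ (MulAction.period_dvd_orderOf u x) (MulAction.pow_period_smul u x)
    have h1 := MulAction.period_pos_of_orderOf_pos (orderOf_pos u) x
    have h2 := mt MulAction.period_eq_one_iff.mp (hcon x hx)
    omega
  rw [← orbFinset_eq_of_mem hω₁] at hω1
  obtain ⟨R, hR, hDR⟩ := (eq_top_or_exists_le_coatom (MulAction.stabilizer G ω₁)).resolve_left (hX ω₁)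
  have := CL.PG.coatom_normal hG hR
  have hi := CL.PG.coatom_index hG hR
  have huR : u ∈ R := hDR hfix₁
  obtain ⟨z, -, hzR⟩ := SetLike.not_le_iff_exists.1 (mt top_le_iff.1 hR.1)
  have hn : ⊤ ≤ Subgroup.normalizer (R : Set G) := (Subgroup.normalizer_eq_top R).ge
  obtain ⟨h1, h2⟩ := exists_pow_mul_of_relIndex_prime hn le_top (R.relIndex_top_right.trans hi) trivial hzR
  let χ := hc.hom R (orbFinset R ω₁) (orbFinset_invariant R ω₁)
  have hχ : χ ⟨_, iterate_comm_mem (hn (Subgroup.mem_top z)) huR (p - 1)⟩ ≠ 1 := by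
    rw [map_iterate_comm_eq_prod (fun a => by rw [← hA]; exact pow_card_eq_one') χ (hn (Subgroup.mem_top z)) huR]
    rw [prod_orbFinset_eq (n := p) le_top (Subgroup.mem_top z) (fun e he => by
      obtain ⟨i, hi, r, hr, rfl⟩ := h1 e he
      exact ⟨i, hi, r, hr, mul_smul _ _ _⟩) (fun i hi j hj r hr s hs h => h2 i hi j hj (by
        have h3 : s⁻¹ * ((z ^ j)⁻¹ * z ^ i) * r ∈ R := hDR (by
            change _ • ω₁ = ω₁
            rw [mul_smul, mul_smul, mul_smul, h, inv_smul_smul, inv_smul_smul])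
        have := mul_mem (mul_mem hs h3) (inv_mem hr)
        simpa [mul_assoc] using this))] at hω1
    refine fun h => hω1 (Eq.trans (Finset.prod_congr rfl fun i _ => ?_) h)
    exact (hc.prod_conj (orbFinset_invariant R ω₁ _
      (inv_conj_mem_of_mem_normalizer (pow_mem (hn (Subgroup.mem_top z)) i) huR))).symm
  refine wreath_of_iterate hG (z := z) (M := χ.ker.map R.subtype) huR hi (Subgroup.map_subtype_le _) ?_ ?_
  · rw [Subgroup.relIndex, Subgroup.subgroupOf, Subgroup.comap_map_eq_self_of_injective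
      R.subtype_injective, Subgroup.index_ker]
    refine ((Nat.dvd_prime Fact.out).mp (hA ▸ Subgroup.card_subgroup_dvd_card _)).resolve_left ?_
    rw [Subgroup.card_eq_one]
    exact fun h => hχ (Subgroup.mem_bot.mp (h ▸ ⟨_, rfl⟩))
  · rintro ⟨y, hy, hy'⟩
    exact hχ (by rw [← hy]; exact congrArg χ (Subtype.ext hy'.symm))

/-- Yoshida's Theorem for fusion systems. Let F be a saturated fusion system over a finite p-group S and N the normalizer fusion system of S in F. If the focal subgroups of F and N differ (N does not control transfer in F), then S has a quotient isomorphic to the wreath product C_p ≀ C_p (realised as a Sylow p-subgroup of the symmetric group of degree p²). -/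
theorem result {Ω : Type*} [Group Ω] {S : Subgroup Ω} [Finite S] (p : ℕ) [Fact p.Prime] (hS : IsPGroup p S) (F : Cfsg.FusionSystem S) (hF : F.IsSaturated p) (N : Cfsg.FusionSystem (Cfsg.FusionSystem.normalizerIn S S)) (hN : F.IsNormalizerSystem S N) (hne : N.focalSubgroup ≠ F.focalSubgroup) : ∃ (W : Sylow p (Equiv.Perm (Fin (p ^ 2)))) (f : ↥S →* ↥(W : Subgroup (Equiv.Perm (Fin (p ^ 2))))), Function.Surjective f := by
  classical
  have hNF : N.focalSubgroup ≤ F.focalSubgroup := focal_mono (eq_normSys hN le_rfl ▸ normSys_isSubsystemOf)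
  have hS' : ⁅S, S⁆ ≤ N.focalSubgroup := by simpa only [normalizerIn_self] using commutator_le_focal N
  obtain ⟨x, hx, hxW⟩ := SetLike.not_le_iff_exists.1 fun h =>
    hne (le_antisymm hNF (focal_le_of_le_frattini_sup hS hF hS' hNF h))
  obtain ⟨M, hM, hWM, hxM⟩ := CL.PG.exists_coatom_ge_not_mem (p := p)
    (N := ((frattini S).map S.subtype ⊔ N.focalSubgroup).subgroupOf S) (x := ⟨x, focal_le F hx⟩)
    ((CL.PG.commutator_le_frattini hS).trans (Subgroup.map_le_iff_le_comap.1 le_sup_left))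
    (fun g => Subgroup.mem_sup_left (CL.PG.pow_mem_frattini_map hS g.2)) hxW
  have := CL.PG.coatom_normal hS hM
  have hi := CL.PG.coatom_index hS hM
  have : IsCyclic (S ⧸ M) := isCyclic_of_prime_card (p := p) hi
  let := IsCyclic.commGroup (α := S ⧸ M)
  have hθ := isHomOn_homFn (QuotientGroup.mk' M)
  have hk : ∀ y : S, homFn (QuotientGroup.mk' M) y = 1 ↔ y ∈ M := fun y => by
    rw [homFn_coe]; exact QuotientGroup.eq_one_iff y
  generalize homFn (QuotientGroup.mk' M) = θ at hθ hk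
  have hex : ∃ n, ∃ u : S, (u : Ω) ∈ F.focalSubgroup ∧ θ u ≠ 1 ∧ orderOf u = n :=
    ⟨_, ⟨x, focal_le F hx⟩, hx, mt (hk _).1 hxM, rfl⟩
  obtain ⟨u, hu, hu1, hu2⟩ := Nat.find_spec hex
  obtain ⟨B⟩ := nonempty_biset hS hF
  by_contra hcon
  have key : ∀ i, (∏ x, coc S (B.isHomOn_comp hθ i) u x) ^ B.n i =
      θ u ^ if Nat.card S ≤ Nat.card (B.P i) then B.n i else 0 := fun i => by
    split_ifs with h
    · have e := eq_of_le_of_card_ge (B.mor i).le le_rfl h
      rw [(isActCocycle_coc _).prod_eq_pow (β := θ u) fun k x hx => ?_, show Nat.card (S ⧸ (B.P i).subgroupOf S) = 1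
        from Subgroup.relIndex_eq_one.2 e.ge, pow_one]
      have h1 : Mor F S (B.φ i) := (B.mor i).mono e.ge
      have h2 := cj_mem (S.inv_mem x.out.2) (u ^ k).2
      have h3 := (hk ⟨_, S.mul_mem (S.inv_mem h2) (h1.map_mem h2)⟩).2 (hWM (Subgroup.mem_sup_right
        (((isNormalizerSystem_iff.1 hN S _).2 (NMor.of_ext (le_normalizerIn le_rfl) h1 le_rfl le_rfl
          h1.img_top)).mem_focal h2)))
      rw [hθ.map_mul (S.inv_mem h2) (h1.map_mem h2), hθ.map_inv h2, inv_mul_eq_one] at h3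
      rw [coc_of_fixed _ hx, Function.comp_apply, ← h3, hθ.comm_cj (S.inv_mem x.out.2) (u ^ k).2, ← hθ.map_pow u.2]
      rfl
    · rw [zpow_zero, not_not.1 fun h1 => hcon (wreath_of_cocycle hS hi (isActCocycle_coc _) (fun x hx => ?_)
        (fun k x hk hk' hx => ?_) h1), one_zpow]
      · refine h (card_le_of_le (fun s hs => ?_) (B.mor i).le)
        simpa only [cj_inv_cj] using smul_eq_iff_cj_mem.1
          (show (⟨_, cj_mem x.out.2 hs⟩ : S) • x = x from hx.ge (Subgroup.mem_top _))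
      · have h2 := smul_eq_iff_cj_mem.1 hx
        rw [coc_of_fixed _ hx]
        by_contra h3
        refine Nat.find_min hex ?_ ⟨⟨_, (B.mor i).map_mem h2⟩, sc_map_mem (sc_focal F) (B.mor i) h2
          (sc_cj_mem (sc_focal F) (S.inv_mem x.out.2) (pow_mem hu k)), h3, rfl⟩
        rw [← hu2, ← Subgroup.orderOf_coe, (B.mor i).orderOf_eq h2,
          (mor_cj F le_rfl (S.inv_mem x.out.2)).orderOf_eq (u ^ k).2, Subgroup.orderOf_coe,
          orderOf_pow_of_dvd (by omega) hk']
        exact Nat.div_lt_self (orderOf_pos u) hk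
  have h1 := B.tr_eq_one_of_mem_focal hθ hu
  rw [B.tr_apply, Finset.prod_congr rfl fun i _ => key i, ← zpow_finset_sum, ← orderOf_dvd_iff_zpow_eq_one,
    orderOf_eq_prime (p := p) (by rw [← hi]; exact pow_card_eq_one') hu1] at h1
  exact B.top h1

end Cfsg.Agent.S5225
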