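import Cfsg.Statements.S5226
import Mathlib
import Cfsg.Agent.FUS.NormalSub

set_option autoImplicit false
open Cfsg

namespace Cfsg.Agent.S5226

open CL.Fus

/-- Let F be a saturated fusion system over a finite p-group S and Q a subgroup of S. Then Q is normal in F (F equals the normalizer system of Q) if and only if Q is strongly closed in F and admits a central series 1 = Q₀ ≤ Q₁ ≤ ⋯ ≤ Qₙ = Q ([Qᵢ₊₁, Q] ≤ Qᵢ) all of whose proper terms are weakly closed in F. -/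
theorem result {Ω : Type*} [Group Ω] {S : Subgroup Ω} [Finite S] (p : ℕ) [Fact p.Prime] (hS : IsPGroup p S) (F : Cfsg.FusionSystem S) (hF : F.IsSaturated p) (Q : Subgroup Ω) : F.IsNormal Q ↔ F.StronglyClosed Q ∧ ∃ (n : ℕ) (C : Fin (n + 1) → Subgroup Ω), C 0 = ⊥ ∧ C (Fin.last n) = Q ∧ Monotone C ∧ (∀ i : Fin n, ⁅C i.succ, Q⁆ ≤ C i.castSucc) ∧ ∀ i : Fin n, F.WeaklyClosed (C i.castSucc) := by
  refine ⟨fun h => ⟨sc_of_normal h, ?_⟩, fun ⟨hQ, n, C, h0, hn, hm, h1, h2⟩ => ?_⟩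
  · obtain ⟨n, C, h0, hn, hm, h1, h2⟩ := exists_fin_chain hS h.1 h.1 Subgroup.le_normalizer
    refine ⟨n, C, h0, hn, hm, fun i => (h2 i).le, fun i => ?_⟩
    obtain ⟨k, hk⟩ := h1 i.castSucc
    exact hk ▸ sc_weaklyClosed (sc_of_normal (normal_itc h h k))
  · have hwc : ∀ i, F.WeaklyClosed (C i) := fun i => by
      induction i using Fin.lastCases with
      | last => exact hn ▸ sc_weaklyClosed hQ
      | cast i => exact h2 i
    have := reflTransGen_of_fin (r := fun A B => F.WeaklyClosed A ∧ F.WeaklyClosed B ∧ B ≤ Q ∧ ⁅B, Q⁆ ≤ A) C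
      (fun i => ⟨hwc _, hwc _, hn ▸ hm (Fin.le_last _), h1 i⟩) (Fin.last n)
    rw [h0, hn] at this
    exact normal_of_wcChain hS hF hQ this

end Cfsg.Agent.S5226
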