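import Cfsg.Statements.S5233
import Cfsg.Agent.FUS.GenES
import Cfsg.Agent.S3799

set_option autoImplicit false
open Cfsg

namespace Cfsg.Agent.S5233

open CL CL.Fus

theorem exists_model {X : Type*} [Group X] [Finite X] {p : ℕ} {A : Subgroup X} (hA : IsElementaryAbelian p A) :
    ∃ (A' : Type) (_ : CommGroup A'), (∀ a : A', a ^ p = 1) ∧ Nonempty (A ≃* A') := by
  haveI := hA.1
  letI : CommGroup A := { (inferInstance : Group A) with mul_comm := mul_comm' }
  let d : Shrink.{0} A ≃* A := Shrink.mulEquiv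
  refine ⟨Shrink.{0} A, inferInstance, fun a => d.injective ?_, ⟨d.symm⟩⟩
  rw [map_pow, map_one]
  exact Subtype.ext (hA.2 _ (d a).2)

/-- Let F be a saturated fusion system over a finite p-group S and P a subgroup of S strongly closed in F that is generalized extraspecial (its Frattini subgroup equals its commutator subgroup and has order p) and not isomorphic to E × A with A elementary abelian and E dihedral of order 8 (p = 2) or extraspecial of order p³ and exponent p (p odd). Then P is normal in F. -/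
theorem result {Ω : Type*} [Group Ω] {S : Subgroup Ω} [Finite S] (p : ℕ) [Fact p.Prime] (hS : IsPGroup p S) (F : Cfsg.FusionSystem S) (hF : F.IsSaturated p) (P : Subgroup Ω) (hP : F.StronglyClosed P) (hge : frattini ↥P = commutator ↥P ∧ Nat.card ↥(commutator ↥P) = p) (h2 : p = 2 → ¬ ∃ (A : Type) (_ : CommGroup A), (∀ a : A, a ^ 2 = 1) ∧ Nonempty (↥P ≃* DihedralGroup 4 × A)) (hodd : p ≠ 2 → ¬ ∃ (E : Type) (_ : Group E) (A : Type) (_ : CommGroup A), Cfsg.IsExtraspecial p E ∧ Nat.card E = p ^ 3 ∧ Monoid.exponent E = p ∧ (∀ a : A, a ^ p = 1) ∧ Nonempty (↥P ≃* E × A)) : F.IsNormal P := by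
  haveI := Fus.finite_of_le hP.1
  have h : GenES p P := ⟨isPGroup_of_le hS hP.1, hge.1, hge.2⟩
  refine (normal_or_exists_of_genES hS hF hP h).resolve_right ?_
  rintro ⟨b, hb, hE, φ, hφ, h1⟩
  have hA : AbIdx p (Subgroup.centralizer ({b} : Set P)) := ⟨h.pg, h.na, hE.1, h.index_centralizer hb⟩
  have hbB : b ∈ Subgroup.centralizer ({b} : Set P) := Subgroup.mem_centralizer_singleton_iff.2 rfl
  by_cases hp2 : p = 2
  · subst hp2
    obtain ⟨x, hx, h3, h4⟩ := h.exists_invol hb (hE.2 b hbB)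
    obtain ⟨-, A, hA', ⟨e⟩⟩ := h.exists_prod hA hE.2 hbB hb hx h3
    obtain ⟨A', _, h5, ⟨e'⟩⟩ := exists_model hA'
    obtain ⟨d⟩ := S0206.result b x (orderOf_eq_prime (hE.2 b hbB) fun e => hb (e ▸ one_mem _))
      (orderOf_eq_prime h3 fun e => hx (e ▸ one_mem _)) fun e => hx (e ▸ hbB)
    rw [h4] at d
    exact h2 rfl ⟨A', _, h5, ⟨e.trans (d.prodCongr e')⟩⟩
  · obtain ⟨x, hx, h3⟩ := exists_pow_eq_one_of_genES hS hF hp2 hP h hb hE hφ h1
    obtain ⟨h4, A, hA', ⟨e⟩⟩ := h.exists_prod hA hE.2 hbB hb hx h3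
    obtain ⟨A', _, h5, ⟨e'⟩⟩ := exists_model hA'
    let E := Subgroup.closure ({b, x} : Set P)
    let d : Shrink.{0} E ≃* E := Shrink.mulEquiv
    have h6 : Nat.card (Shrink.{0} E) = p ^ 3 := (Nat.card_congr d.toEquiv).trans h4
    haveI : Finite (Shrink.{0} E) := Finite.of_equiv _ d.toEquiv.symm
    have h7 : ∀ y : Shrink.{0} E, y ^ p = 1 := fun y => d.injective (by
      rw [map_pow, map_one]
      refine Subtype.ext (PG.pow_eq_one_of_mem_closure ?_ (fun u _ v _ hu hv => by
        rw [h.mul_pow hp2, hu, hv, one_mul]) (d y).2)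
      rintro _ (rfl | rfl)
      exacts [hE.2 _ hbB, h3])
    have h8 : ¬ IsMulCommutative (Shrink.{0} E) := fun hc => hx (Subgroup.mem_centralizer_singleton_iff.2 (by
      have := congrArg d (mul_comm' (d.symm ⟨x, Subgroup.subset_closure (by simp)⟩)
        (d.symm ⟨b, Subgroup.subset_closure (by simp)⟩))
      simpa [Subtype.ext_iff] using this))
    obtain ⟨h9, h10⟩ := PG.card_center_of_cube h6 h8
    refine hodd hp2 ⟨Shrink.{0} E, _, A', _, S3799.extraspecial_of (IsPGroup.of_card h6) h9 h10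
      (fun g => by rw [h7]; exact one_mem _) h8, h6, ?_, h5, ⟨e.trans (d.symm.prodCongr e')⟩⟩
    refine ((Nat.dvd_prime Fact.out).1 (Monoid.exponent_dvd_of_forall_pow_eq_one h7)).resolve_left fun h11 => h8 ?_
    rw [Monoid.exp_eq_one_iff] at h11
    exact ⟨⟨fun a b => Subsingleton.elim _ _⟩⟩

end Cfsg.Agent.S5233
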