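import Cfsg.Statements.S5234
import Cfsg.Agent.FUS.ResistOdd
import Cfsg.Agent.FGS.Metacyclic

set_option autoImplicit false
open Cfsg

namespace Cfsg.Agent.S5234

/-- Let p be an odd prime, F a saturated fusion system over a finite p-group S and P a metacyclic subgroup of S strongly closed in F. Then P is normal in F. -/
theorem result {Ω : Type*} [Group Ω] {S : Subgroup Ω} [Finite S] (p : ℕ) [Fact p.Prime] (hS : IsPGroup p S) (F : Cfsg.FusionSystem S) (hF : F.IsSaturated p) (P : Subgroup Ω) (hP : F.StronglyClosed P) (hp : p ≠ 2) (hm : Cfsg.IsMetacyclic ↥P) : F.IsNormal P := by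
  haveI := CL.Fus.finite_of_le hP.1
  have h : CL.MC.OMC p P := ⟨hp, CL.Fus.isPGroup_of_le hS hP.1, hm⟩
  refine CL.Fus.normal_of_sc_of_omega_le_sq hS hF hp hP (W := (h.wreg.omega 1).map P.subtype)
    (fun x => ⟨?_, fun hx => ⟨⟨x, hx.1⟩, ?_, rfl⟩⟩) ?_
  · rintro ⟨x, hx, rfl⟩
    exact ⟨x.2, by simpa using congrArg Subtype.val (h.wreg.mem_omega.1 hx)⟩
  · exact h.wreg.mem_omega.2 (Subtype.ext (by simpa using hx.2))
  · rw [Subgroup.card_map_of_injective P.subtype_injective]
    simpa using h.card_omega_le 1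

end Cfsg.Agent.S5234
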