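import Cfsg.Statements.S5236
import Mathlib
import Cfsg.Agent.FUS.NormalSub
import Cfsg.Agent.PLOC.Critical

set_option autoImplicit false
open Cfsg

namespace Cfsg.Agent.S5236

open CL.Fus

/-- Let p be an odd prime, F a saturated fusion system over a finite p-group S and P a subgroup of S strongly closed in F. Then P is normal in F if and only if Ω₁(P) (the subgroup generated by the elements of order p of P) has a chain of subgroups 1 = Q₀ ≤ Q₁ ≤ ⋯ ≤ Qₙ = Ω₁(P), each strongly closed in F, with [Qᵢ₊₁, P] ≤ Qᵢ for all i. -/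
theorem result {Ω : Type*} [Group Ω] {S : Subgroup Ω} [Finite S] (p : ℕ) [Fact p.Prime] (hS : IsPGroup p S) (F : Cfsg.FusionSystem S) (hF : F.IsSaturated p) (hp : p ≠ 2) (P : Subgroup Ω) (hP : F.StronglyClosed P) : F.IsNormal P ↔ ∃ (n : ℕ) (Q : Fin (n + 1) → Subgroup Ω), Q 0 = ⊥ ∧ Q (Fin.last n) = Cfsg.omegaOne p P ∧ Monotone Q ∧ (∀ i : Fin (n + 1), F.StronglyClosed (Q i)) ∧ ∀ i : Fin n, ⁅Q i.succ, P⁆ ≤ Q i.castSucc := by
  have hΩ : omegaOne p P ≤ P := (Subgroup.closure_le _).2 fun _ h => h.1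
  refine ⟨fun h => ?_, fun ⟨n, Q, h0, hn, _, h1, h2⟩ => ?_⟩
  · have hN : F.IsNormal (omegaOne p P) := normal_of_invariant h hΩ fun g hg e =>
      hg.img_eq_self_of_le hΩ fun x hx => by
        have : omegaOne p P ≤ hg.isHomOn.preim (omegaOne p P) := (Subgroup.closure_le _).2 fun y hy =>
          ⟨hy.1, Subgroup.subset_closure ⟨e ▸ mem_img_of_mem g hy.1, by rw [← hg.map_pow hy.1, hy.2, hg.map_one]⟩⟩
        exact (this hx).2
    obtain ⟨n, C, h0, hn, hm, h1, h2⟩ := exists_fin_chain hS hN.1 h.1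
      (h.1.trans (sc_le_normalizer (sc_of_normal hN)))
    refine ⟨n, C, h0, hn, hm, fun i => ?_, fun i => (h2 i).le⟩
    obtain ⟨k, hk⟩ := h1 i
    exact hk ▸ sc_of_normal (normal_itc hN h k)
  · refine normal_of_wc_of_le_cr hS hF (sc_weaklyClosed hP) fun R _ hc hr => ?_
    refine le_of_radical_of_chain hS (centralizerIn_le_of_isCentric hc) hr hP.1
      (hr.1.trans (sc_le_normalizer hP)) fun x hx hxn => ⟨S, hr.1, ?_⟩
    have := reflTransGen_of_fin (r := StabStep p (F.autGroup R) (cjAut R x hxn)) Q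
      (fun i => stabStep_of_commutator (autInv_of_sc (h1 _) hr.1) (autInv_of_sc (h1 _) hr.1)
        (by rw [Subgroup.commutator_comm]; exact h2 i) hx hxn) (Fin.last n)
    rw [h0, hn] at this
    refine (this.tail (Or.inr fun α hα hco hfix y hy hyP => ?_)).tail (stabStep_top hP hr.1 hx hxn)
    have hm := mor_autFun hr.1 hα
    have hRP : R ⊓ P ≤ S := inf_le_left.trans hr.1
    have := finite_of_le hRP
    have := finite_of_le hr.1
    obtain ⟨β, -, e⟩ := hm.exists_aut_restrict inf_le_left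
      (hm.img_eq_self_of_le inf_le_left fun z hz => ⟨autFun_mem α hz.1, sc_map_mem hP hm hz.1 hz.2⟩)
    have hβ : β ^ orderOf α = 1 := mulAut_ext_autFun fun z hz => by
      have key : ∀ k : ℕ, autFun (β ^ k) z = autFun (α ^ k) z := fun k => by
        induction k with
        | zero => rw [pow_zero, pow_zero, autFun_one hz, autFun_one hz.1]
        | succ k ih => rw [pow_succ', pow_succ', autFun_mul _ _ hz, autFun_mul _ _ hz.1, e (autFun_mem _ hz), ih]
      rw [key, pow_orderOf_eq_one, autFun_one hz, autFun_one hz.1]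
    have h3 := CL.PG.aut_eq_one_of_fix_omega hp (hS.to_le hRP) β
      (Nat.Coprime.coprime_dvd_left (orderOf_dvd_of_pow_eq_one hβ) hco) fun z hz => Subtype.ext (by
        rw [← autFun_coe, e z.2]
        exact hfix z z.2.1 (Subgroup.subset_closure ⟨z.2.2, congrArg Subtype.val hz⟩))
    rw [← e ⟨hy, hyP⟩, h3, autFun_one (show y ∈ R ⊓ P from ⟨hy, hyP⟩)]

end Cfsg.Agent.S5236
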