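import Cfsg.Statements.S5243
import Cfsg.Agent.FUS.OpPrimeNormal

set_option autoImplicit false
open Cfsg

namespace Cfsg.Agent.S5243

open CL.Fus Cfsg.FusionSystem

/-- Let F be a saturated fusion system over a finite p-group S, E a normal subsystem of F over T ≤ S, and χ a surjective homomorphism from Aut_F(T) onto a nontrivial finite group Δ of order prime to p whose kernel contains Aut_E(T). Then there is a proper normal subsystem F₀ of F over S containing E such that Aut_{F₀}(S) consists of those α ∈ Aut_F(S) whose restriction to T is an element of Aut_F(T) in the kernel of χ; moreover every p'-residual subsystem O^{p'}(F) of F is contained in F₀. -/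
theorem result {Ω : Type*} [Group Ω] {S : Subgroup Ω} [Finite S] (p : ℕ) [Fact p.Prime] (hS : IsPGroup p S) (F : Cfsg.FusionSystem S) (hF : F.IsSaturated p) {T : Subgroup Ω} (hTS : T ≤ S) (E : Cfsg.FusionSystem T) (hE : E.IsNormalIn F p) {Δ : Type*} [Group Δ] [Finite Δ] [Nontrivial Δ] (hΔ : (Nat.card Δ).Coprime p) (χ : ↥(F.autGroup T) →* Δ) (hχ : Function.Surjective χ) (hker : (E.autGroup T).subgroupOf (F.autGroup T) ≤ χ.ker) : ∃ F₀ : Cfsg.FusionSystem S, F₀.IsNormalIn F p ∧ ¬ (∀ P : Subgroup Ω, F₀.Hom P = F.Hom P) ∧ E.IsSubsystemOf F₀ ∧ (∀ α : MulAut ↥S, α ∈ F₀.autGroup S ↔ α ∈ F.autGroup S ∧ ∃ β : ↥(F.autGroup T), χ β = 1 ∧ ∀ t : ↥T, (((β : MulAut ↥T) t : ↥T) : Ω) = ((α ⟨(t : Ω), hTS t.2⟩ : ↥S) : Ω)) ∧ ∀ R : Cfsg.FusionSystem S, F.IsPPrimeResidual p R → R.IsSubsystemOf F₀ := by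
  have hmem : ∀ β : F.autGroup T, (β : MulAut T) ∈ χ.ker.map (F.autGroup T).subtype ↔ χ β = 1 := fun β =>
    Subgroup.mem_map_iff_mem (F.autGroup T).subtype_injective
  have hKF : χ.ker.map (F.autGroup T).subtype ≤ F.autGroup T := Subgroup.map_subtype_le _
  obtain ⟨F₀, h1, h2, h3, h4, h5⟩ := exists_normal_primeToP_of_char hS hF hE.1
    (K := χ.ker.map (F.autGroup T).subtype)
    (fun α hα => (hmem ⟨α, autGroup_mono hE.1.2.2.1 T hα⟩).2 (hker hα))
    (Oupp_le_of_pow_mem fun a ha => ⟨Nat.card Δ, hΔ, (hmem (⟨a, ha⟩ ^ Nat.card Δ)).2 (by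
      rw [map_pow, pow_card_eq_one'])⟩) hKF
    (fun a ha => by
      have := Subgroup.le_normalizer_map (H := χ.ker) (F.autGroup T).subtype
      rw [Subgroup.normalizer_eq_top] at this
      exact this ⟨⟨a, ha⟩, trivial, rfl⟩)
  refine ⟨F₀, h1, fun h => ?_, h3, fun α => ?_, fun R hR => hR.2.2 F₀ h1.1.1 h2⟩
  · rw [FusionSystem_ext h] at h5
    obtain ⟨d, hd⟩ := exists_ne (1 : Δ)
    obtain ⟨β, rfl⟩ := hχ d
    exact hd ((hmem β).1 (h5.le β.2))
  · rw [h4]
    refine and_congr_right fun _ => ⟨fun ⟨β, hβ, e⟩ => ⟨⟨β, hKF hβ⟩, (hmem _).1 hβ, fun t => ?_⟩,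
      fun ⟨β, hβ, e⟩ => ⟨β, (hmem β).2 hβ, fun t ht => ?_⟩⟩
    · rw [← autFun_of_mem α, e t.2, autFun_coe]
    · rw [autFun_of_mem α (hTS ht), autFun_of_mem _ ht]
      exact (e ⟨t, ht⟩).symm

end Cfsg.Agent.S5243
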