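import Cfsg.Statements.S5245
import Cfsg.Agent.FUS.Hyperfocal

set_option autoImplicit false
open Cfsg

namespace Cfsg.Agent.S5245

open CL.Fus Cfsg.FusionSystem

/-- The system `F_R(R) ⟨β⟩` for a `p'`-automorphism `β` of `R`. -/
theorem exists_sys {Ω : Type*} [Group Ω] {S : Subgroup Ω} [Finite S] {p : ℕ} [Fact p.Prime] (hS : IsPGroup p S)
    {F : Cfsg.FusionSystem S} {R : Subgroup Ω} (hR : R ≤ S) {β : MulAut R} (hβ : β ∈ F.autGroup R)
    (hc : (orderOf β).Coprime p) : ∃ E : Cfsg.FusionSystem R, E.IsSaturated p ∧ E.IsSubsystemOf F ∧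
      E.autGroup R = Cfsg.Inn R ⊔ Subgroup.zpowers β := by
  have : Finite R := finite_of_le hR
  have hRp := isPGroup_of_le hS hR
  have h1 : Subgroup.zpowers β ≤ fusAut (Cfsg.innerFusionSystem R) := fun γ _ =>
    Corr.inner (isoOn_autFun γ)
  have h2 : (Cfsg.innerFusionSystem R).autGroup R = Cfsg.Inn R := by
    ext α
    rw [mem_autGroup_iff le_rfl, mor_inner_iff, mem_inn_iff, and_iff_right le_rfl]
  refine ⟨cosSys _ _ h1, cosSys_saturated hRp (isSaturated_inner hRp) h1 fun γ hγ => ⟨orderOf β, hc, ?_⟩,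
    cosSys_isSubsystemOf (inner_isSubsystemOf F hR) (Subgroup.zpowers_le_of_mem hβ), ?_⟩
  · obtain ⟨i, rfl⟩ := hγ
    simp only
    rw [← zpow_natCast, ← zpow_mul, mul_comm, zpow_mul, zpow_natCast, pow_orderOf_eq_one, one_zpow]
    exact Subgroup.one_mem _
  · rw [autGroup_cosSys, h2, sup_comm]

theorem eq_one_of_mem_inn {Ω : Type*} [Group Ω] {R : Subgroup Ω} {p : ℕ} (hR : IsPGroup p R) {β : MulAut R}
    (hβ : β ∈ Cfsg.Inn R) (hc : (orderOf β).Coprime p) : β = 1 := by
  obtain ⟨k, hk⟩ := isPGroup_inn hR ⟨β, hβ⟩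
  have hk' : β ^ p ^ k = 1 := congrArg Subtype.val hk
  exact Subgroup.mem_bot.1 (mem_of_pow_mem_of_coprime_orderOf (hc.pow_right k) (Subgroup.mem_bot.2 hk'))

/-- Let F be an extremely sparse fusion system over a finite p-group S (saturated, not the inner system, and every saturated fusion system over any subgroup T of S contained in F is F itself or the inner system of T). Then S is normal in F, the focal and hyperfocal subgroups of F are both S, and Aut_F(S) is generated by the inner automorphisms of S together with a single automorphism of prime order q ≠ p (F is the fusion system of the semidirect product of S by a cyclic group of prime order). -/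
theorem result {Ω : Type*} [Group Ω] {S : Subgroup Ω} [Finite S] (p : ℕ) [Fact p.Prime] (hS : IsPGroup p S) (F : Cfsg.FusionSystem S) (hF : F.IsSaturated p) (hxs : ¬ (∀ P : Subgroup Ω, F.Hom P = (Cfsg.innerFusionSystem S).Hom P) ∧ ∀ (T : Subgroup Ω) (E : Cfsg.FusionSystem T), E.IsSaturated p → E.IsSubsystemOf F → (T = S ∧ ∀ P : Subgroup Ω, E.Hom P = F.Hom P) ∨ (∀ P : Subgroup Ω, E.Hom P = (Cfsg.innerFusionSystem T).Hom P)) : F.IsNormal S ∧ F.focalSubgroup = S ∧ F.hyperfocalSubgroup p = S ∧ ∃ (q : ℕ) (β : MulAut ↥S), q.Prime ∧ q ≠ p ∧ β ∈ F.autGroup S ∧ orderOf β = q ∧ (F.autGroup S : Subgroup (MulAut ↥S)) = Cfsg.Inn ↥S ⊔ Subgroup.zpowers β := by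
  obtain ⟨hne, hx⟩ := hxs
  have hinn : ∀ {R : Subgroup Ω} {E : Cfsg.FusionSystem R},
      (∀ P : Subgroup Ω, E.Hom P = (Cfsg.innerFusionSystem R).Hom P) → E.autGroup R ≤ Cfsg.Inn R := by
    intro R E h α hα
    rw [FusionSystem_ext h, mem_autGroup_iff le_rfl, mor_inner_iff] at hα
    exact mem_inn_iff.2 hα.2
  have h1 : ∀ R, R < S → ∀ β ∈ F.autGroup R, (orderOf β).Coprime p → β = 1 := by
    intro R hR β hβ hc
    obtain ⟨E, hE, hEF, e⟩ := exists_sys hS hR.le hβ hc
    rcases hx R E hE hEF with h | h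
    · exact absurd h.1 hR.ne
    · exact eq_one_of_mem_inn (isPGroup_of_le hS hR.le)
        (hinn h (e.ge (Subgroup.mem_sup_right (Subgroup.mem_zpowers β)))) hc
  have h2 : ∀ R, ¬ F.IsEssential p R := fun R hR =>
    have := finite_mulAut hR.1.1
    not_isPGroup_autGroup_of_essential hS hF hR
      (isPGroup_of_forall_coprime (h1 R (lt_of_essential hS hF hR)))
  have := finite_mulAut (le_refl S)
  have h3 : ¬ IsPGroup p (F.autGroup S) := fun h => hne fun P => by
    rw [← eq_inner_of_no_essential hS hF h2 (autGroup_top_eq_inn hS hF h).le]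
  obtain ⟨q, hq, hqp, hdvd⟩ : ∃ q : ℕ, q.Prime ∧ q ≠ p ∧ q ∣ Nat.card (F.autGroup S) := by
    by_contra hcon
    push Not at hcon
    refine h3 (IsPGroup.iff_card.2 ⟨_, Nat.eq_prime_pow_of_unique_prime_dvd Nat.card_pos.ne' fun hd hdd => ?_⟩)
    by_contra h
    exact hcon _ hd h hdd
  have : Fact q.Prime := ⟨hq⟩
  obtain ⟨b, hb⟩ := exists_prime_orderOf_dvd_card' q hdvd
  have hβ : orderOf (b : MulAut S) = q := by simpa using hb
  have hc : (orderOf (b : MulAut S)).Coprime p := hβ ▸ (Nat.coprime_primes hq Fact.out).2 hqp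
  have hb1 : (b : MulAut S) ≠ 1 := fun h => by
    rw [h, orderOf_one] at hβ
    exact hq.one_lt.ne hβ
  have hhyp : F.hyperfocalSubgroup p = S := by
    by_contra hh
    have hlt := lt_of_le_of_ne (hyperfocal_le F p) hh
    obtain ⟨γ, hγ, e⟩ := Oup_le_preAut hlt.le (fun α hα => exists_aut_restrict_sc (sc_hyperfocal hS hF) le_rfl
      hlt.le hα) (mem_Oup b.2 hc)
    have := finite_mulAut hlt.le
    rw [Oup_eq_bot (isPGroup_of_forall_coprime (h1 _ hlt)), Subgroup.mem_bot] at hγ
    refine hb1 (mulAut_ext_autFun fun x hx => ?_)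
    rw [autFun_one hx]
    exact autFun_eq_of_coprime hS hc (fun y _ hy => by rw [e hy, hγ, autFun_one hy]) hx
      (mem_hyperfocal_of_coprime le_rfl b.2 hc hx)
  refine ⟨isNormal_top_of_no_essential hS hF h2, (focal_eq_top_iff hS hF).2 hhyp, hhyp, q, b, hq, hqp, b.2,
    hβ, ?_⟩
  obtain ⟨E, hE, hEF, e⟩ := exists_sys hS le_rfl b.2 hc
  rcases hx S E hE hEF with h | h
  · rw [← e, FusionSystem_ext h.2]
  · exact absurd (eq_one_of_mem_inn hS (hinn h (e.ge (Subgroup.mem_sup_right (Subgroup.mem_zpowers _)))) hc) hb1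

end Cfsg.Agent.S5245
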