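import Cfsg.Statements.S5247
import Cfsg.Agent.FUS.QdFus

set_option autoImplicit false
open Cfsg

namespace Cfsg.Agent.S5247

/-- Let p be an odd prime and F a saturated fusion system over a finite p-group S. Call a fusion system E (over any subgroup) p-stable when, for every fully E-normalized subgroup Q and every χ ∈ Aut_E(Q) with χ(a⁻¹)·a·χ(a⁻¹)·χ(χ(a)) = 1 for all a ∈ Q (χ acts quadratically), χ lies in O_p(Aut_E(Q)). Then F is p-stable if and only if every normalizer fusion system N_F(R) of every non-cyclic fully F-normalized subgroup R of S is p-stable. -/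
theorem result {Ω : Type*} [Group Ω] {S : Subgroup Ω} [Finite S] (p : ℕ) [Fact p.Prime] (hS : IsPGroup p S) (F : Cfsg.FusionSystem S) (hF : F.IsSaturated p) (hp : p ≠ 2) : (∀ Q : Subgroup Ω, F.IsFullyNormalized Q → ∀ χ : MulAut ↥Q, χ ∈ F.autGroup Q → (∀ a : ↥Q, (χ a⁻¹) * a * (χ a⁻¹) * (χ (χ a)) = 1) → χ ∈ ((Cfsg.pCore p ↥(F.autGroup Q)).map (F.autGroup Q).subtype : Subgroup (MulAut ↥Q))) ↔ ∀ R : Subgroup Ω, F.IsFullyNormalized R → ¬ IsCyclic ↥R → ∀ N : Cfsg.FusionSystem (Cfsg.FusionSystem.normalizerIn S R), F.IsNormalizerSystem R N → (∀ Q : Subgroup Ω, N.IsFullyNormalized Q → ∀ χ : MulAut ↥Q, χ ∈ N.autGroup Q → (∀ a : ↥Q, (χ a⁻¹) * a * (χ a⁻¹) * (χ (χ a)) = 1) → χ ∈ ((Cfsg.pCore p ↥(N.autGroup Q)).map (N.autGroup Q).subtype : Subgroup (MulAut ↥Q))) := by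
  refine ⟨fun h R _ _ N hN Q hQ => ?_, fun h Q hQ => ?_⟩
  · exact CL.Fus.pStab_of_subsystem (CL.Fus.isSubsystemOf_iff.2 fun P f hf =>
      ((CL.Fus.isNormalizerSystem_iff.1 hN P f).1 hf).mor) h hQ.1
  · by_cases hc : IsCyclic Q
    · exact CL.Fus.pStabAt_of_isCyclic hS hQ.1 hc
    · have := CL.Fus.finite_of_le (CL.Fus.normalizerIn_le S Q)
      exact (CL.Fus.pStabAt_of_fullyNormalized (h Q hQ hc _ (CL.Fus.isNormalizerSystem_normSys F hQ.1))
        (CL.Fus.le_normalizerIn hQ.1)).of_le (CL.Fus.le_normalizerIn hQ.1)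
        (CL.Fus.autGroup_normSys_self hQ.1).ge

end Cfsg.Agent.S5247
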