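import Cfsg.Statements.S5254
import Cfsg.Agent.FUS.AbIndex

set_option autoImplicit false
open Cfsg

namespace Cfsg.Agent.S5254

section
open Subgroup CL CL.Fus Cfsg.FusionSystem

theorem abIdx {Ω : Type*} [Group Ω] {S : Subgroup Ω} {p : ℕ} (hS : IsPGroup p S)
    (hna : ¬ IsMulCommutative ↥S) {A : Subgroup Ω}
    (hA : A ≤ S ∧ IsMulCommutative ↥A ∧ (A.subgroupOf S).index = p) : AbIdx p (A.subgroupOf S) :=
  ⟨hS, hna, AbM.isMulCommutative_of_forall fun _ ha _ hb => Subtype.ext (AbM.comm_of_mem hA.2.1 ha hb), hA.2.2⟩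

theorem relIndex_normalizer {Ω : Type*} [Group Ω] {S P : Subgroup Ω} (hP : P ≤ S) :
    (P.subgroupOf S).relIndex (normalizerIn ⊤ (P.subgroupOf S)) =
      (P.subgroupOf (S ⊓ Subgroup.normalizer (P : Set Ω))).index := by
  rw [normalizerIn, top_inf_eq, ← subgroupOf_normalizer_eq hP, ← inf_subgroupOf_left (normalizer (P : Set Ω)),
    relIndex_subgroupOf inf_le_left]
  rfl

end

open CL CL.Fus

/-- Let p be an odd prime, S a finite nonabelian p-group with a unique abelian subgroup A of index p, and F a saturated fusion system over S. Then every F-essential subgroup P is A, or Z(S)⟨x⟩ for some x ∈ S outside A, or (when the second centre Z₂(S) lies in A) Z₂(S)⟨x⟩ for some x ∈ S outside A; and P has index p in its normalizer in S. -/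
theorem result {Ω : Type*} [Group Ω] {S : Subgroup Ω} [Finite S] (p : ℕ) [Fact p.Prime] (hS : IsPGroup p S) (F : Cfsg.FusionSystem S) (hF : F.IsSaturated p) (hp : p ≠ 2) (hna : ¬ IsMulCommutative ↥S) (A : Subgroup Ω) (hA : A ≤ S ∧ IsMulCommutative ↥A ∧ (A.subgroupOf S).index = p) (huniq : ∀ B : Subgroup Ω, B ≤ S → IsMulCommutative ↥B → (B.subgroupOf S).index = p → B = A) (P : Subgroup Ω) (hP : F.IsEssential p P) : (P = A ∨ (∃ x ∈ S, x ∉ A ∧ P = (S ⊓ Subgroup.centralizer (S : Set Ω)) ⊔ Subgroup.zpowers x) ∨ (((upperCentralSeries ↥S 2).map S.subtype) ≤ A ∧ ∃ x ∈ S, x ∉ A ∧ P = ((upperCentralSeries ↥S 2).map S.subtype) ⊔ Subgroup.zpowers x)) ∧ (P.subgroupOf (S ⊓ Subgroup.normalizer (P : Set Ω))).index = p := by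
  obtain ⟨e, F', h, he⟩ := exists_corr_top F
  have hPS : P ≤ S := hP.1.1
  have hP' := h.isEssential hP
  rw [img_eq_subgroupOf he hPS] at hP'
  obtain ⟨h1, h2⟩ := (abIdx hS hna hA).essential_cases (h.isSaturated hF) hP'
  refine ⟨?_, relIndex_normalizer hPS ▸ h2⟩
  have key : (P.subgroupOf S).map S.subtype = P := Subgroup.map_subgroupOf_eq_of_le hPS
  rcases h1 with h1 | ⟨x, hx, h1⟩ | ⟨h0, x, hx, h1⟩
  · exact Or.inl (by rw [← key, h1, Subgroup.map_subgroupOf_eq_of_le hA.1])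
  · exact Or.inr (Or.inl ⟨x, x.2, hx, by
      rw [← key, h1, Subgroup.map_sup, AbM.map_center_eq, MonoidHom.map_zpowers]; rfl⟩)
  · refine Or.inr (Or.inr ⟨Subgroup.map_le_iff_le_comap.2 h0, x, x.2, hx, ?_⟩)
    rw [← key, h1, Subgroup.map_sup, MonoidHom.map_zpowers]; rfl

end Cfsg.Agent.S5254
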