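import Cfsg.Statements.S5257
import Cfsg.Agent.S5254

set_option autoImplicit false
open Cfsg

namespace Cfsg.Agent.S5257

open CL CL.Fus

/-- Let p be an odd prime, S a finite nonabelian p-group with a unique abelian subgroup A of index p, and F a saturated fusion system over S having an F-essential subgroup other than A. Then the second centre Z₂(S) lies in A; Z(S) ∩ [S, S] has order p; Z(S)[S, S] has index p in A; Z(S) has index p in Z₂(S); and S/Z(S) has maximal nilpotency class (if S/Z(S) has order pᵐ with m ≥ 3 then the term of index m − 2 of the lower central series of S, counting S as index 0, is not contained in Z(S)). -/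
theorem result {Ω : Type*} [Group Ω] {S : Subgroup Ω} [Finite S] (p : ℕ) [Fact p.Prime] (hS : IsPGroup p S) (F : Cfsg.FusionSystem S) (hF : F.IsSaturated p) (hp : p ≠ 2) (hna : ¬ IsMulCommutative ↥S) (A : Subgroup Ω) (hA : A ≤ S ∧ IsMulCommutative ↥A ∧ (A.subgroupOf S).index = p) (huniq : ∀ B : Subgroup Ω, B ≤ S → IsMulCommutative ↥B → (B.subgroupOf S).index = p → B = A) (P : Subgroup Ω) (hP : F.IsEssential p P) (hPA : P ≠ A) : ((upperCentralSeries ↥S 2).map S.subtype) ≤ A ∧ Nat.card ↥((S ⊓ Subgroup.centralizer (S : Set Ω)) ⊓ ((commutator ↥S).map S.subtype)) = p ∧ (((S ⊓ Subgroup.centralizer (S : Set Ω)) ⊔ ((commutator ↥S).map S.subtype)).subgroupOf A).index = p ∧ (((S ⊓ Subgroup.centralizer (S : Set Ω))).subgroupOf ((upperCentralSeries ↥S 2).map S.subtype)).index = p ∧ ∀ m : ℕ, ((S ⊓ Subgroup.centralizer (S : Set Ω)).subgroupOf S).index = p ^ m → 3 ≤ m → ¬ Subgroup.lowerCentralSeries S (m - 2) ≤ (S ⊓ Subgroup.centralizer (S : Set Ω)) := by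
  obtain ⟨e, F', h, he⟩ := exists_corr_top F
  have hPS : P ≤ S := hP.1.1
  have hP' := h.isEssential hP
  rw [img_eq_subgroupOf he hPS] at hP'
  have hA' := S5254.abIdx hS hna hA
  obtain ⟨h1, h2⟩ := hA'.ucs_two_of_essential (fun B hB hi => by
      rw [← huniq (B.map S.subtype) (Subgroup.map_subtype_le B) inferInstance
        (by rw [Subgroup.subgroupOf, Subgroup.comap_map_eq_self_of_injective S.subtype_injective]; exact hi),
        Subgroup.subgroupOf, Subgroup.comap_map_eq_self_of_injective S.subtype_injective])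
    (h.isSaturated hF) hP' fun e => hPA (by
      rw [← Subgroup.map_subgroupOf_eq_of_le hPS, e, Subgroup.map_subgroupOf_eq_of_le hA.1])
  obtain ⟨h3, h4, h5⟩ := hA'.structure_of_ucs h1 h2
  have inj := S.subtype_injective
  rw [← AbM.map_center_eq]
  refine ⟨Subgroup.map_le_iff_le_comap.2 h1, ?_, ?_, ?_, fun m hm h3m hle => h5 m ?_ h3m ?_⟩
  · rw [← Subgroup.map_inf _ _ _ inj, Subgroup.card_map_of_injective inj, h3]
  · rw [← Subgroup.map_sup, ← Subgroup.map_subgroupOf_eq_of_le hA.1]
    exact (Subgroup.relIndex_map_map_of_injective _ _ inj).trans h4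
  · exact (Subgroup.relIndex_map_map_of_injective _ _ inj).trans (relIndex_eq_of_card center_le_ucs_two h2)
  · rwa [Subgroup.subgroupOf, Subgroup.comap_map_eq_self_of_injective inj] at hm
  · rwa [← MaxCl.map_lcs_top, Subgroup.map_le_map_iff_of_injective inj] at hle

end Cfsg.Agent.S5257
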