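import Cfsg.Statements.S5271
import Cfsg.Agent.FUS.GlaubZ
import Cfsg.Agent.FUS.FocalCtl
import Cfsg.Agent.FUS.Transfer
import Cfsg.Agent.FUS.CRTools

set_option autoImplicit false
open Cfsg

namespace Cfsg.Agent.S5271

open CL.Fus Cfsg.FusionSystem

universe u

section
variable {Ω : Type u} [Group Ω] {S : Subgroup Ω} {F : FusionSystem S} {p : ℕ} [hp : Fact p.Prime]

theorem between {A B : Subgroup Ω} [Finite B] (hB : IsPGroup p B) (hAB : A ≤ B) {d : ℕ}
    (h1 : Nat.card A ≤ p ^ d) (h2 : p ^ d ≤ Nat.card B) :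
    ∃ E : Subgroup Ω, A ≤ E ∧ E ≤ B ∧ Nat.card E = p ^ d := by
  obtain ⟨m, hm⟩ := hB.exists_card_eq
  obtain ⟨n, hn⟩ := (hB.to_subgroup (A.subgroupOf B)).exists_card_eq
  have hn' : Nat.card A = p ^ n := by
    rw [← hn]; exact (Nat.card_congr (Subgroup.subgroupOfEquivOfLe hAB).toEquiv).symm
  obtain ⟨K, hK, hle⟩ := Sylow.exists_subgroup_card_pow_prime_le p (G := B) (m := d)
    (hm ▸ pow_dvd_pow p ((Nat.pow_le_pow_iff_right hp.out.one_lt).mp (hm ▸ h2))) (A.subgroupOf B) hn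
    ((Nat.pow_le_pow_iff_right hp.out.one_lt).mp (hn' ▸ h1))
  refine ⟨K.map B.subtype, ?_, Subgroup.map_subtype_le K, ?_⟩
  · rw [← Subgroup.map_subgroupOf_eq_of_le hAB]
    exact Subgroup.map_mono hle
  · rw [Subgroup.card_map_of_injective B.subtype_injective, hK]

/-- Minimal nontrivial strongly closed subgroups. -/
def MinSC (F : FusionSystem S) (R : Subgroup Ω) : Prop :=
  R ≠ ⊥ ∧ F.StronglyClosed R ∧ ∀ T, F.StronglyClosed T → T ≤ R → T = ⊥ ∨ T = R

/-- The hypothesis for the order `p ^ k`. -/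
structure Hyp (p k : ℕ) (F : FusionSystem S) : Prop where
  pos : 0 < k
  lt : p ^ k < Nat.card S
  emb : ∀ Q, Q ≤ S → Nat.card Q = p ^ k →
    ∃ P, F.StronglyClosed P ∧ F.StronglyClosed (Q ⊔ P) ∧ F.StronglyClosed (Q ⊓ P)
  inn : ∀ H, F.IsFullyNormalized H → Nat.card H = p ^ k → InnerOn S (NMor F H)

variable [Finite S]

omit hp in
theorem exists_minSC {P : Subgroup Ω} (h0 : P ≠ ⊥) (hP : F.StronglyClosed P) :
    ∃ R, R ≤ P ∧ MinSC F R := by
  induction hn : Nat.card P using Nat.strong_induction_on generalizing P with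
  | _ n ih =>
    by_cases h : ∀ T, F.StronglyClosed T → T ≤ P → T = ⊥ ∨ T = P
    · exact ⟨P, le_rfl, h0, hP, h⟩
    push Not at h
    obtain ⟨T, h1, h2, h3, h4⟩ := h
    obtain ⟨R, h5, h6⟩ := ih _ (hn ▸ card_lt_of_lt (lt_of_le_of_ne h2 h4) hP.1) h3 h1 rfl
    exact ⟨R, h5.trans h2, h6⟩

theorem Hyp.card_le {k : ℕ} (h : Hyp p k F) (hS : IsPGroup p S) {R : Subgroup Ω} (hR : MinSC F R) :
    Nat.card R ≤ p ^ k := by
  by_contra hc
  have := finite_of_le hR.2.1.1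
  obtain ⟨Q, -, hQ, e⟩ := between (isPGroup_of_le hS hR.2.1.1) bot_le (d := k)
    (by rw [Subgroup.card_bot]; exact Nat.one_le_pow _ _ hp.out.pos) (not_le.1 hc).le
  have h0 : Q ≠ ⊥ := fun h0 => (Nat.one_lt_pow h.pos.ne' hp.out.one_lt).ne' (by
    rw [← e, h0, Subgroup.card_bot])
  have h1 : Q ≠ R := fun h1 => hc (by rw [← e, h1])
  obtain ⟨P, hP, h2, h3⟩ := h.emb Q (hQ.trans hR.2.1.1) e
  rcases hR.2.2 _ (sc_inf hR.2.1 hP) inf_le_left with h4 | h4
  · rcases hR.2.2 _ (sc_inf hR.2.1 h2) inf_le_left with h5 | h5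
    · exact h0 (le_bot_iff.1 (h5 ▸ le_inf hQ le_sup_left))
    · exact h1 (le_antisymm hQ (le_of_le_sup_of_inf_le hQ ((hQ.trans hR.2.1.1).trans
        (sc_le_normalizer hP)) (inf_eq_left.1 h5) (h4 ▸ bot_le)))
  · rw [inf_eq_left.2 (hQ.trans (inf_eq_left.1 h4))] at h3
    exact (hR.2.2 Q h3 hQ).elim h0 h1

omit hp in
theorem Hyp.fac {Ω' : Type u} [Group Ω'] {S' : Subgroup Ω'} {F' : FusionSystem S'} {t : Ω → Ω'}
    {k j : ℕ} {R : Subgroup Ω} (h : Hyp p (j + k) F) (hk : 0 < k) (ht : Fac t F R F')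
    (hR : F.StronglyClosed R) (hc : Nat.card R = p ^ j) : Hyp p k F' := by
  have hpre : ∀ X', X' ≤ S' → Nat.card (ht.surj.pre X') = p ^ j * Nat.card X' := fun X' hX =>
    hc ▸ (ht.surj.mono_pre hX).card_eq
  refine ⟨hk, ?_, fun Q' hQ e => ?_, fun H' hH e P' f' hf => ?_⟩
  · have := h.lt
    rw [ht.surj.card_eq, hc, pow_add] at this
    exact Nat.lt_of_mul_lt_mul_left this
  · obtain ⟨P, h1, h2, h3⟩ := h.emb _ (ht.surj.pre_le Q') (by rw [hpre _ hQ, e, pow_add])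
    refine ⟨_, ht.sc_img h1, ?_, ?_⟩
    · have := ht.sc_img h2
      rwa [ht.surj.img_sup (ht.surj.pre_le _) h1.1, ht.surj.img_pre hQ] at this
    · convert ht.sc_img h3 using 1
      refine le_antisymm (fun y hy => ?_) (img_le_iff.2 fun x hx => ⟨hx.1.2, mem_img_of_mem t hx.2⟩)
      obtain ⟨x, hx, rfl⟩ := (ht.surj.mem_img h1.1).1 hy.2
      exact mem_img_of_mem t ⟨⟨h1.1 hx, hy.1⟩, hx⟩
  · obtain ⟨f, hf1, e1⟩ := ht.nMor_lift hf
    obtain ⟨g, hg, e2⟩ := h.inn (ht.surj.pre H') ⟨ht.surj.pre_le _, fun Q hQ => by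
      have h1 := hH.2 _ (ht.surj.img_pre hH.1 ▸
        ht.isConj_img (sc_weaklyClosed hR) hQ (ht.surj.ker_le_pre _))
      obtain ⟨g, hg, rfl⟩ := isConj_iff.1 hQ
      have h2 : R ≤ img g (ht.surj.pre H') :=
        (sc_img_eq hR hg (ht.surj.ker_le_pre _)).ge.trans (img_mono g (ht.surj.ker_le_pre _))
      rw [← ht.surj.pre_normalizerIn hH.1, ← ht.surj.pre_img_of_le hg.img_le h2,
        ← ht.surj.pre_normalizerIn (ht.surj.img_le hg.img_le), hpre _ (normalizerIn_le _ _),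
        hpre _ (normalizerIn_le _ _)]
      exact Nat.mul_le_mul_left _ h1⟩ (by rw [hpre _ hH.1, e, pow_add]) _ f hf1
    refine ⟨t g, ht.surj.maps hg, fun y hy => ?_⟩
    obtain ⟨x, hx, rfl⟩ := (ht.surj.mono_pre hf.mor.le).surj hy
    rw [e1 x hx, e2 hx, ht.surj.hom.map_cj hg (ht.surj.pre_le _ hx)]

theorem Hyp.le_of_center {k : ℕ} (h : Hyp p k F) (hS : IsPGroup p S) (hF : F.IsSaturated p)
    (hmod : ∀ R, R ≠ ⊥ → F.StronglyClosed R → Nat.card R < p ^ k → F.hyperfocalSubgroup p ≤ R)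
    (hZ : F.center = ⊥) {R P : Subgroup Ω} (hR : MinSC F R) (h0 : P ≠ ⊥) (hP : F.StronglyClosed P) :
    R ≤ P := by
  have hRS := hR.2.1.1
  have := finite_of_le hRS
  obtain ⟨z, ⟨hz, hzS⟩, hz1⟩ := (Subgroup.bot_or_exists_ne_one _).resolve_left
    (inf_centralizer_ne_bot_of_pgroup hS hRS le_rfl (sc_le_normalizer hR.2.1) hR.1)
  have hzS' : ∀ s ∈ S, cj s z = z := fun s hs => cj_eq_self_iff.2 (hzS s hs)
  obtain ⟨T, hTP, hT⟩ := exists_minSC h0 hP
  refine le_trans (inf_eq_left.1 ((hR.2.2 _ (sc_inf hR.2.1 hT.2.1) inf_le_left).resolve_left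
    fun h1 => hz1 ?_)) hTP
  rw [← Subgroup.mem_bot, ← hZ]
  refine (mem_center_iff_fix hS hF).2 ⟨hRS hz, fun P f hf hzP => ?_⟩
  rcases (h.card_le hS hT).eq_or_lt with hc | hc
  · have hf1 := hf.mono (Subgroup.zpowers_le.2 hzP)
    obtain ⟨g, hg, e1, e2, -⟩ := hf1.exists_inv' rfl
    obtain ⟨ψ, hψ, eψ⟩ := exists_extend hS hF hg (e1.symm ▸ fullyCentralized_of_central F
      (Subgroup.zpowers_le.2 (hRS hz)) (Subgroup.le_centralizer_iff.1 (Subgroup.zpowers_le.2 hzS)))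
    have h2 : T ≤ Nphi S (img f (Subgroup.zpowers z)) g := le_trans (le_inf hT.2.1.1 (by
      refine le_trans ?_ (Subgroup.centralizer_le (img_le_iff.2 fun x hx => sc_map_mem hR.2.1 hf1 hx
        (Subgroup.zpowers_le.2 hz hx)))
      intro y hy x hx
      have h3 : x⁻¹ * cj y x ∈ R ⊓ T := ⟨R.mul_mem (R.inv_mem hx) (cj_mem_of_mem_normalizer
        (sc_le_normalizer hR.2.1 (hT.2.1.1 hy)) hx), by
          have := T.mul_mem (cj_mem_of_mem_normalizer (sc_le_normalizer hT.2.1 (S.inv_mem (hRS hx))) hy)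
            (T.inv_mem hy)
          simp only [cj_apply, inv_inv, mul_assoc] at this ⊢
          exact this⟩
      rw [h1, Subgroup.mem_bot, inv_mul_eq_one] at h3
      exact (cj_eq_self_iff.1 h3.symm).symm)) (centralizerIn_le_Nphi _ _ _)
    obtain ⟨s, hs, e⟩ := h.inn T (fullyNormalized_of_normal F hT.2.1.1 (sc_le_normalizer hT.2.1)) hc _ ψ
      (NMor.of_ext (le_inf hg.le (hg.le.trans (sc_le_normalizer hT.2.1))) hψ
        (le_sup_left.trans hg.sup_centralizerIn_le_Nphi) h2 (sc_img_eq hT.2.1 hψ h2))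
    have h3 := mem_img_of_mem f (Subgroup.mem_zpowers z)
    rw [← cj_inv_cj s (f z), ← e h3, eψ h3, e2 z (Subgroup.mem_zpowers z), hzS' _ (S.inv_mem hs)]
  · obtain ⟨s, hs, e⟩ := exists_cj_mod_hyperfocal hS hF hf
    have h2 : z⁻¹ * f z ∈ R ⊓ T := ⟨R.mul_mem (R.inv_mem hz) (sc_map_mem hR.2.1 hf hzP hz),
      hmod T hT.1 hT.2.1 hc (by simpa only [hzS' s hs] using e z hzP)⟩
    rw [h1, Subgroup.mem_bot, inv_mul_eq_one] at h2
    exact h2.symm

theorem Hyp.not_card_le {k : ℕ} (h : Hyp p k F) (hS : IsPGroup p S) (hF : F.IsSaturated p)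
    {R : Subgroup Ω} (hR : MinSC F R) (hc : Nat.card R < p ^ k) (hmod : F.hyperfocalSubgroup p ≤ R)
    (hZ : F.center = ⊥) (hRc : S ≤ Subgroup.centralizer (R : Set Ω)) : False := by
  have hRS := hR.2.1.1
  refine hR.1 (le_bot_iff.1 (hZ ▸ fun z hz => (mem_center_iff_fix hS hF).2
    ⟨hRS hz, fun P f hf hzP => ?_⟩))
  have hzS : ∀ s ∈ S, cj s z = z := fun s hs => cj_eq_self_iff.2 (hRc hs z hz).symm
  have hf1 := hf.mono (inf_le_left : P ⊓ R ≤ P)
  obtain ⟨ψ, hψ, eψ⟩ := exists_extend hS hF hf1 (fullyCentralized_of_central F hf1.img_le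
    (hRc.trans (Subgroup.centralizer_le (img_le_iff.2 fun x hx => sc_map_mem hR.2.1 hf1 hx hx.2))))
  have hψS := hψ.mono ((le_inf le_rfl (hRc.trans (Subgroup.centralizer_le inf_le_right))).trans
    (centralizerIn_le_Nphi S (P ⊓ R) f))
  obtain ⟨s, hs, e⟩ := exists_cj_mod_hyperfocal hS hF hψS
  obtain ⟨H0, h1, h2, h3⟩ := between hS hRS hc.le h.lt.le
  obtain ⟨H, h4, hH⟩ := exists_fullyNormalized F h2
  obtain ⟨g, hg, rfl⟩ := isConj_iff.1 h4
  have h5 : R ≤ img g H0 := (sc_img_eq hR.2.1 hg h1).ge.trans (img_mono g h1)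
  rw [← hg.card_img] at h3
  generalize img g H0 = H at hH h5 h3
  have h6 := (mor_cj F le_rfl (S.inv_mem hs)).comp (hψS.mono hH.1) fun x hx => hψS.map_mem (hH.1 hx)
  obtain ⟨u, hu, e'⟩ := h.inn H hH h3 H _ ((nMor_iff_of_le le_rfl (le_normalizerIn hH.1)).2
    ⟨h6, h6.img_eq_self fun x hx => by
      have := H.mul_mem hx (h5 (cj_mem_of_mem_normalizer (sc_le_normalizer hR.2.1 (S.inv_mem hs))
        (hmod (e x (hH.1 hx)))))
      convert this using 1
      simp only [Function.comp, cj_apply]; group⟩)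
  rw [← eψ ⟨hzP, hz⟩, ← cj_cj_inv s (ψ z), show cj s⁻¹ (ψ z) = z from (e' (h5 hz)).trans (hzS u hu),
    hzS s hs]

theorem exists_coatom (hS : IsPGroup p S) {k : ℕ} {R T M : Subgroup Ω} (hRp : p < Nat.card R)
    (hRk : Nat.card R ≤ p ^ k) (hQ : ∀ Q, Q ≤ S → Nat.card Q = p ^ k → Q ⊓ R ≠ ⊥ → R ≤ Q)
    (hT : T ≤ S) (hRT : R ≤ T) (hk : p ^ k < Nat.card T) (hM : M < T) :
    ∃ N, M ≤ N ∧ N < T ∧ R ≤ N ∧ p * Nat.card N = Nat.card T := by
  have hp1 := hp.out.one_lt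
  have := finite_of_le hT
  obtain ⟨m, hm⟩ := (isPGroup_of_le hS hT).exists_card_eq
  obtain ⟨i, rfl⟩ := Nat.exists_eq_add_of_lt ((Nat.pow_lt_pow_iff_right hp1).1 (hm ▸ hk))
  have := finite_of_le hM.le
  obtain ⟨j, hj⟩ := (isPGroup_of_le hS (hM.le.trans hT)).exists_card_eq
  obtain ⟨N, h1, h2, h3⟩ := between (isPGroup_of_le hS hT) hM.le (d := k + i) (by
    have := card_lt_of_lt hM hT
    rw [hj, hm, Nat.pow_lt_pow_iff_right hp1] at this
    rw [hj]; exact Nat.pow_le_pow_right hp1.le (by omega)) (hm ▸ Nat.pow_le_pow_right hp1.le (by omega))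
  have h4 : p * Nat.card N = Nat.card T := by rw [h3, hm, pow_succ']
  refine ⟨N, h1, lt_of_le_of_ne h2 fun e => ?_, ?_, h4⟩
  · rw [e, hm, Nat.pow_right_inj hp1] at h3
    omega
  have := finite_of_le h2
  have h5 : N ⊓ R ≠ ⊥ := fun h0 => hRp.not_ge (by
    have h6 := (N.subgroupOf T).index_mul_card
    rw [Nat.card_congr (Subgroup.subgroupOfEquivOfLe h2).toEquiv, ← h4,
      Nat.mul_right_cancel_iff Nat.card_pos] at h6
    rw [← Subgroup.relIndex_bot_left, ← h0, Subgroup.inf_relIndex_right, ← h6]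
    exact Subgroup.relIndex_le_of_le_right hRT Subgroup.index_ne_zero_of_finite)
  obtain ⟨Q, h6, h7, h8⟩ := between (isPGroup_of_le hS (h2.trans hT)) (inf_le_left : N ⊓ R ≤ N) (d := k)
    ((card_le_of_le inf_le_right (hRT.trans hT)).trans hRk) (h3 ▸ Nat.pow_le_pow_right hp1.le (by omega))
  exact (hQ Q (h7.trans (h2.trans hT)) h8 fun h0 =>
    h5 (le_bot_iff.1 (h0 ▸ le_inf h6 inf_le_right))).trans h7

theorem card_le_of_cyclic (hS : IsPGroup p S) {R : Subgroup Ω} (hR : MinSC F R) {x : Ω}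
    (hx : R ≤ Subgroup.zpowers x) : Nat.card R ≤ p := by
  have := finite_of_le hR.2.1.1
  have hc : IsCyclic R := Subgroup.isCyclic_of_le hx
  let W : Subgroup Ω :=
    { carrier := {y | y ∈ R ∧ y ^ p = 1}
      one_mem' := ⟨R.one_mem, one_pow p⟩
      mul_mem' := fun {a b} ha hb => ⟨R.mul_mem ha.1 hb.1, by
        rw [Commute.mul_pow (setLike_mul_comm (hx ha.1) (hx hb.1)), ha.2, hb.2, one_mul]⟩
      inv_mem' := fun {a} ha => ⟨R.inv_mem ha.1, by rw [inv_pow, ha.2, inv_one]⟩ }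
  rcases hR.2.2 W (sc_omega hR.2.1 fun _ => Iff.rfl) fun _ hy => hy.1 with h | h
  · obtain ⟨y, hy⟩ := exists_prime_orderOf_dvd_card' p ((isPGroup_of_le hS hR.2.1.1).card_eq_or_dvd.resolve_left
      (mt Subgroup.card_eq_one.1 hR.1))
    have h1 : (y : Ω) ∈ W := ⟨y.2, by rw [← Subgroup.coe_pow, ← hy, pow_orderOf_eq_one, Subgroup.coe_one]⟩
    rw [h, Subgroup.mem_bot, OneMemClass.coe_eq_one] at h1
    exact (hp.out.ne_one (by rw [← hy, h1, orderOf_one])).elim
  · rw [← IsCyclic.exponent_eq_card]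
    exact Nat.le_of_dvd hp.out.pos (Monoid.exponent_dvd_of_forall_pow_eq_one fun y =>
      Subtype.ext (h.ge y.2).2)

end

theorem inner_of_hyp {p : ℕ} [hp : Fact p.Prime] {Ω : Type u} [Group Ω] {S : Subgroup Ω} [Finite S]
    (F : FusionSystem S) (hS : IsPGroup p S) (hF : F.IsSaturated p) :
    ∀ k, Hyp p k F → InnerOn S (Mor F) := by
  refine fus_induction (p := p) (fun {Ω} _ {S} F => ∀ k, Hyp p k F → InnerOn S (Mor F)) ?_ F hS hF
  intro Ω _ S _ F hS hF ih _ k h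
  have hp1 := hp.out.one_lt
  have hmod : ∀ R, R ≠ ⊥ → F.StronglyClosed R → Nat.card R < p ^ k → F.hyperfocalSubgroup p ≤ R :=
    fun R h0 hR hc => by
    have := finite_of_le hR.1
    obtain ⟨j, hj⟩ := (isPGroup_of_le hS hR.1).exists_card_eq
    obtain ⟨i, rfl⟩ := Nat.exists_eq_add_of_lt ((Nat.pow_lt_pow_iff_right hp1).1 (hj ▸ hc))
    obtain ⟨_, F', ht⟩ := exists_fac_of_sc hR
    have := ht.surj.finite
    have hS' := ht.surj.isPGroup hS
    have hF' := ht.isSaturated hS hF (sc_weaklyClosed hR)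
    rw [← ht.surj.img_eq_bot_iff (sc_hyperfocal hS hF).1, ← ht.hyperfocal_eq hS hF hR,
      hyperfocal_eq_bot_iff hS' hF', eq_inner_iff]
    exact ih F' (ht.surj.card_lt h0) hS' hF' (i + 1) (Hyp.fac h i.succ_pos ht hR hj)
  have hfn : ∀ R, F.StronglyClosed R → F.IsFullyNormalized R := fun R hR =>
    fullyNormalized_of_normal F hR.1 (sc_le_normalizer hR)
  by_contra hne
  have hZ : F.center = ⊥ := by_contra fun h0 => by
    obtain ⟨R, hRZ, hR⟩ := exists_minSC h0 (sc_center F)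
    rcases (h.card_le hS hR).eq_or_lt with hc | hc
    · exact hne fun P f hf => h.inn R (hfn R hR.2.1) hc P f (((isCentral_iff_cMor.1
        (isCentral_iff_le_center.2 hRZ)).2 P f hf).nMor)
    refine hne (eq_inner_iff.1 ((hyperfocal_eq_bot_iff hS hF).1 (le_bot_iff.1
      (hyperfocal_le_iff_coprime.2 fun E hE α hα hc' x hx => ?_))))
    refine inv_mul_mem_of_coprime (isPGroup_of_le hS hE) hc' (Q := R) Subgroup.le_normalizer_of_normal
      (fun x hx => hmod R hR.1 hR.2.1 hc (mem_hyperfocal_of_coprime hE hα hc' hx)) (fun y hy hy' => ?_) hx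
    rw [((mem_center_iff_fix hS hF).1 (hRZ hy')).2 E _ (mor_autFun hE hα) hy, inv_mul_cancel]
    exact Subgroup.one_mem _
  obtain ⟨R, -, hR⟩ := exists_minSC (F := F) (fun h0 => (Nat.one_le_pow k p hp.out.pos).not_gt
    (h.lt.trans_eq (by rw [h0, Subgroup.card_bot]))) (sc_top F)
  have hRS := hR.2.1.1
  have := finite_of_le hRS
  have hRk := h.card_le hS hR
  by_cases hRp : Nat.card R ≤ p
  · obtain ⟨z, hz, hz1⟩ := (Subgroup.bot_or_exists_ne_one _).resolve_left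
      (inf_centralizer_ne_bot_of_pgroup hS hRS le_rfl (sc_le_normalizer hR.2.1) hR.1)
    have hzR := Subgroup.zpowers_le.2 hz.1
    have := finite_of_le hzR
    have hRc : S ≤ Subgroup.centralizer (R : Set Ω) := eq_of_le_of_card_ge hzR hRS (hRp.trans
      (Nat.le_of_dvd Nat.card_pos ((isPGroup_of_le hS (hzR.trans hRS)).card_eq_or_dvd.resolve_left
        (mt Subgroup.card_eq_one.1 (mt Subgroup.zpowers_eq_bot.1 hz1))))) ▸
      Subgroup.le_centralizer_iff.1 (Subgroup.zpowers_le.2 hz.2)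
    rcases hRk.eq_or_lt with hc | hc
    · exact hne fun P f hf => h.inn R (hfn R hR.2.1) hc P f ((isNormal_iff_nMor.1
        (normal_of_sc_of_comm hS hF hR.2.1 (hRS.trans hRc))).2 P f hf)
    · exact h.not_card_le hS hF hR hc (hmod R hR.1 hR.2.1 hc) hZ hRc
  have hQ : ∀ Q, Q ≤ S → Nat.card Q = p ^ k → Q ⊓ R ≠ ⊥ → R ≤ Q := fun Q hQ e h0 => by
    obtain ⟨P, hP, h1, h2⟩ := h.emb Q hQ e
    by_cases h3 : P = ⊥
    · rw [h3, sup_bot_eq] at h1
      exact h.le_of_center hS hF hmod hZ hR (fun h => h0 (by rw [h, bot_inf_eq])) h1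
    · exact (h.le_of_center hS hF hmod hZ hR (fun h' => h0 (le_bot_iff.1 (h' ▸ inf_le_inf_left Q
        (h.le_of_center hS hF hmod hZ hR h3 hP)))) h2).trans inf_le_left
  rcases hRk.eq_or_lt with hc | hc
  · obtain ⟨m, hm⟩ := hS.exists_card_eq
    have hkk : p ^ k < p ^ (k + 1) := Nat.pow_lt_pow_right hp1 k.lt_succ_self
    obtain ⟨T, h1, h2, h3⟩ := between hS hRS (hRk.trans hkk.le) (hm ▸ Nat.pow_le_pow_right hp1.le
      ((Nat.pow_lt_pow_iff_right hp1).1 (hm ▸ h.lt)))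
    obtain ⟨x, hx, hxR⟩ := SetLike.not_le_iff_exists.1 fun h4 : T ≤ R =>
      (card_le_of_le h4 hRS).not_gt (by rwa [hc, h3])
    rcases (Subgroup.zpowers_le.2 hx).eq_or_lt with h4 | h4
    · exact hRp (card_le_of_cyclic hS hR (h1.trans h4.ge))
    · obtain ⟨N, h5, h6, h7, h8⟩ := exists_coatom hS (not_le.1 hRp) hRk hQ h2 h1 (h3 ▸ hkk) h4
      rw [h3, pow_succ', Nat.mul_left_cancel_iff hp.out.pos, ← hc] at h8
      exact hxR ((eq_of_le_of_card_ge h7 (h6.le.trans h2) h8.le).ge (h5 (Subgroup.mem_zpowers x)))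
  · have hΦ : R ≤ (frattini S).map S.subtype := fun x hx => by
      refine ⟨⟨x, hRS hx⟩, Subgroup.mem_iInf.2 fun M => Subgroup.mem_iInf.2 fun hM : IsCoatom M => ?_, rfl⟩
      obtain ⟨N, h5, h6, h7, -⟩ := exists_coatom hS (not_le.1 hRp) hRk hQ le_rfl hRS h.lt
        (lt_of_le_of_ne (Subgroup.map_subtype_le M) fun e => hM.1 (Subgroup.map_injective
          S.subtype_injective (by rw [e, ← MonoidHom.range_eq_map, Subgroup.range_subtype])))
      rw [← (hM.le_iff.1 (Subgroup.map_le_iff_le_comap.1 h5)).resolve_left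
        fun e => h6.not_ge (Subgroup.subgroupOf_eq_top.1 e)]
      exact h7 hx
    refine hne (eq_inner_iff.1 (eq_inner_of_focal_le_frattini hS hF ?_))
    rw [focal_eq_hyperfocal_sup hS hF]
    exact sup_le ((hmod R hR.1 hR.2.1 hc).trans hΦ) (CL.PG.commutator_le_frattini_map hS)

/-- A nilpotency criterion for fusion systems. Let F be a saturated fusion system over a finite p-group S of order at least p². Call a subgroup Q of S weakly embedded in F when there is a subgroup P of S strongly closed in F such that both the product QP and the intersection Q ∩ P are strongly closed in F. Then F is the inner fusion system of S if and only if there is a subgroup D of S with 1 < D < S such that every subgroup of S of the same order as D is weakly embedded in F and, for every fully normalized subgroup H of S of that order, the normalizer fusion system of H in F is the inner fusion system of N_S(H). -/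
theorem result {Ω : Type*} [Group Ω] {S : Subgroup Ω} [Finite S] (p : ℕ) [Fact p.Prime] (hS : IsPGroup p ↥S) (F : Cfsg.FusionSystem S) (hF : F.IsSaturated p) (hcard : p ^ 2 ≤ Nat.card S) : (∀ P : Subgroup Ω, F.Hom P = (Cfsg.innerFusionSystem S).Hom P) ↔ ∃ D : Subgroup Ω, ⊥ < D ∧ D < S ∧ (∀ Q : Subgroup Ω, Q ≤ S → Nat.card ↥Q = Nat.card ↥D → ∃ P : Subgroup Ω, F.StronglyClosed P ∧ F.StronglyClosed (Q ⊔ P) ∧ F.StronglyClosed (Q ⊓ P)) ∧ (∀ H : Subgroup Ω, F.IsFullyNormalized H → Nat.card ↥H = Nat.card ↥D → ∀ N : Cfsg.FusionSystem (Cfsg.FusionSystem.normalizerIn S H), F.IsNormalizerSystem H N → ∀ P : Subgroup Ω, N.Hom P = (Cfsg.innerFusionSystem (Cfsg.FusionSystem.normalizerIn S H)).Hom P) := by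
  have hp1 := (Fact.out : p.Prime).one_lt
  refine ⟨fun h => ?_, fun ⟨D, h0, h1, h2, h3⟩ => ?_⟩
  · have hi := innerOn_mor_iff.2 h
    obtain ⟨m, hm⟩ := hS.exists_card_eq
    obtain ⟨i, rfl⟩ := Nat.exists_eq_add_of_le ((Nat.pow_le_pow_iff_right hp1).1 (hm ▸ hcard))
    obtain ⟨D, -, hD, e⟩ := between hS bot_le (d := i + 1) (by
      rw [Subgroup.card_bot]; exact Nat.one_le_pow _ _ hp1.le) (hm ▸ Nat.pow_le_pow_right hp1.le (by omega))
    have hlt : ∀ Q, Q ≤ S → Nat.card Q = p ^ (i + 1) → Q < S := fun Q hQ e => lt_of_le_of_ne hQ fun e' => by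
      rw [e', hm, Nat.pow_right_inj hp1] at e
      omega
    refine ⟨D, bot_lt_iff_ne_bot.2 fun e' => ?_, hlt D hD e, fun Q hQ e' => ⟨⊥, sc_bot F, ?_, ?_⟩,
      fun H _ _ => hom_eq_inner_of_innerOn hi⟩
    · rw [e', Subgroup.card_bot] at e
      exact (Nat.one_lt_pow i.succ_ne_zero hp1).ne e
    · rw [sup_bot_eq]
      refine stronglyClosed_iff.2 ⟨hQ, fun P f hf x hx hxQ => ?_⟩
      obtain ⟨g, hg, e1⟩ := hi P f hf
      have h1 := lt_normalizerIn hS (hlt Q hQ (e'.trans e))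
      have := finite_of_le (normalizerIn_le S Q)
      obtain ⟨j, hj⟩ := (isPGroup_of_le hS (normalizerIn_le S Q)).exists_card_eq
      have h2 := card_lt_of_lt h1 (normalizerIn_le S Q)
      rw [e', e, hj, Nat.pow_lt_pow_iff_right hp1] at h2
      rw [e1 hx]
      exact cj_mem_of_mem_normalizer ((eq_of_le_of_card_ge (normalizerIn_le S Q) le_rfl (by
        rw [hm, hj]; exact Nat.pow_le_pow_right hp1.le (by omega))).ge hg).2 hxQ
    · rw [inf_bot_eq]; exact sc_bot F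
  · have := finite_of_le h1.le
    obtain ⟨k, hk⟩ := (isPGroup_of_le hS h1.le).exists_card_eq
    refine innerOn_mor_iff.1 (inner_of_hyp F hS hF k ⟨Nat.pos_of_ne_zero fun e => h0.ne' ?_,
      hk ▸ card_lt_of_lt h1 le_rfl, fun Q hQ e => h2 Q hQ (e.trans hk.symm),
      fun H hH e => innerOn_nMor_of_hom hH.1 (h3 H hH (e.trans hk.symm))⟩)
    rwa [e, pow_zero, Subgroup.card_eq_one] at hk

end Cfsg.Agent.S5271
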