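import Cfsg.Statements.S5272
import Cfsg.Agent.FUS.Sparse
import Cfsg.Agent.PLOC.Allcock

set_option autoImplicit false
open Cfsg

namespace Cfsg.Agent.S5272

/-- An axiomatic Glauberman–Thompson nilpotency criterion for fusion systems. Let p be an odd prime, F a saturated fusion system over a finite p-group S, and 𝒜 a nonempty family of abelian subgroups of S. For Q ≤ S write I(Q) for the intersection of the members of 𝒜 contained in Q. Assume (invariance) that for every Q ≤ S containing a member of 𝒜, every F-automorphism of Q maps I(Q) into itself, and (replacement) that for every subgroup B of S of nilpotency class at most 2, if some member of 𝒜 contains [B,B] but not B, then B normalizes some member of 𝒜 that contains [B,B] but not B. Then F is the inner fusion system of S if and only if the normalizer fusion system of I(S)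 in F is the inner fusion system of N_S(I(S)). -/
theorem result {Ω : Type*} [Group Ω] {S : Subgroup Ω} [Finite S] (p : ℕ) [Fact p.Prime] (hS : IsPGroup p ↥S) (F : Cfsg.FusionSystem S) (hF : F.IsSaturated p) (hp : p ≠ 2) (𝒜 : Set (Subgroup Ω)) (h𝒜 : ∀ A ∈ 𝒜, A ≤ S ∧ IsMulCommutative ↥A) (hne : 𝒜.Nonempty) (hinv : ∀ Q : Subgroup Ω, Q ≤ S → (∃ A ∈ 𝒜, A ≤ Q) → ∀ α ∈ F.autGroup Q, ∀ x : ↥Q, (x : Ω) ∈ (⨅ A ∈ {A : Subgroup Ω | A ∈ 𝒜 ∧ A ≤ Q}, A) → (((α : MulAut ↥Q) x : ↥Q) : Ω) ∈ (⨅ A ∈ {A : Subgroup Ω | A ∈ 𝒜 ∧ A ≤ Q}, A)) (hrep : ∀ B : Subgroup Ω, B ≤ S → ⁅⁅B, B⁆, B⁆ = ⊥ → (∃ A ∈ 𝒜, ⁅B, B⁆ ≤ A ∧ ¬ B ≤ A) → ∃ A ∈ 𝒜, ⁅B, B⁆ ≤ A ∧ ¬ B ≤ A ∧ B ≤ Subgroup.normalizer (A : Set Ω)) : (∀ P : Subgroup Ω, F.Hom P = (Cfsg.innerFusionSystem S).Hom P) ↔ ∀ N : Cfsg.FusionSystem (Cfsg.FusionSystem.normalizerIn S (⨅ A ∈ 𝒜, A)), F.IsNormalizerSystem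 (⨅ A ∈ 𝒜, A) N → ∀ P : Subgroup Ω, N.Hom P = (Cfsg.innerFusionSystem (Cfsg.FusionSystem.normalizerIn S (⨅ A ∈ 𝒜, A))).Hom P := by
  have hI : (⨅ A ∈ 𝒜, A) = CL.ZJ.famInf 𝒜 S := Subgroup.ext fun x => by
    rw [CL.ZJ.mem_famInf]
    simp only [Subgroup.mem_iInf]
    exact ⟨fun h A hA _ => h A hA, fun h A hA => h A hA (h𝒜 A hA).1⟩
  have hle : ∀ Q, (∃ A ∈ 𝒜, A ≤ Q) → CL.ZJ.famInf 𝒜 Q ≤ Q := fun Q ⟨A, hA, h⟩ =>
    (CL.ZJ.famInf_le hA h).trans h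
  have hS' : ∃ A ∈ 𝒜, A ≤ S := hne.imp fun A hA => ⟨hA, (h𝒜 A hA).1⟩
  rw [hI]
  refine ⟨fun h => CL.Fus.hom_eq_inner_of_innerOn (CL.Fus.innerOn_mor_iff.2 h), fun h =>
    CL.Fus.innerOn_mor_iff.1 (CL.Fus.inner_of_minConf hS hF (Or.inl hp) (hle S hS')
      (CL.Fus.innerOn_nMor_of_hom (hle S hS') h) fun E G _ _ T e e' h1 h2 h3 => ?_)⟩
  have hi := h2.iso
  have key : ∀ Q ≤ S, (∃ A ∈ 𝒜, A ≤ Q) →
      CL.Fus.img e (CL.ZJ.famInf 𝒜 Q) = CL.ZJ.famInf (CL.Fus.img e '' 𝒜) (CL.Fus.img e Q) := by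
    intro Q hQ hA
    ext y
    rw [hi.mem_img_iff ((hle Q hA).trans hQ), CL.ZJ.mem_famInf, CL.ZJ.mem_famInf]
    constructor
    · rintro ⟨hy, h⟩ _ ⟨A, hA, rfl⟩ hAQ
      exact (hi.mem_img_iff (h𝒜 A hA).1).2 ⟨hy, h A hA ((hi.img_le_img_iff (h𝒜 A hA).1 hQ).1 hAQ)⟩
    · intro h
      obtain ⟨A, hA, hAQ⟩ := hA
      exact ⟨hi.img_le (h𝒜 A hA).1 (h _ ⟨A, hA, rfl⟩ (CL.Fus.img_mono e hAQ)), fun B hB hBQ =>
        ((hi.mem_img_iff (h𝒜 B hB).1).1 (h _ ⟨B, hB, rfl⟩ (CL.Fus.img_mono e hBQ))).2⟩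
  rw [key S le_rfl hS', hi.img_eq]
  refine CL.ZJ.AllcockFam.normal T ⟨?_, ?_, hne.image _, ?_, ?_⟩ h3.charP (h3.qstable hp)
  · rintro _ ⟨A, hA, rfl⟩
    exact hi.img_le (h𝒜 A hA).1
  · rintro _ ⟨A, hA, rfl⟩
    exact (hi.mono (h𝒜 A hA).1).isMulCommutative (h𝒜 A hA).2
  · rintro Q' hQ' ⟨_, ⟨A, hA, rfl⟩, hAQ⟩ g hg
    obtain ⟨Q, hQ, rfl⟩ := hi.exists_img_eq hQ'
    have hA' : ∃ A ∈ 𝒜, A ≤ Q := ⟨A, hA, (hi.img_le_img_iff (h𝒜 A hA).1 hQ).1 hAQ⟩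
    obtain ⟨f, hf, e1⟩ := h2.exists_mor_img hQ (CL.Fus.mor_cj_group (g := g) hQ' fun x hx =>
      hQ' (CL.Fus.cj_mem_of_mem_normalizer hg hx))
    obtain ⟨α, hα, e2⟩ := (hf.of_subsystem h1).exists_aut ((hi.img_inj hf.img_le hQ).1 (by
      rw [← h2.img_img hf e1 le_rfl, CL.Fus.mem_normalizer_iff_img_cj.1 hg]))
    rw [← key Q hQ hA']
    refine CL.Fus.mem_normalizer_of_cj_mem fun y hy => ?_
    obtain ⟨x, hx, rfl⟩ := (hi.mem_img ((hle Q hA').trans hQ)).1 hy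
    have hxQ := hle Q hA' hx
    rw [e1 x hxQ, ← e2 hxQ, CL.Fus.autFun_of_mem α hxQ]
    exact CL.Fus.mem_img_of_mem e (hinv Q hQ hA' α hα ⟨x, hxQ⟩ hx)
  · rintro B' hB' hB2 ⟨_, ⟨A, hA, rfl⟩, k1, k2⟩
    obtain ⟨B, hB, rfl⟩ := hi.exists_img_eq hB'
    have hBB : ⁅B, B⁆ ≤ S := (Subgroup.commutator_le_self B).trans hB
    rw [← hi.img_commutator hB hB] at hB2 k1 ⊢
    rw [← hi.img_commutator hBB hB, hi.img_eq_bot_iff (Subgroup.commutator_le.2 fun a ha b hb =>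
      Subgroup.commutator_le_self S (Subgroup.commutator_mem_commutator (hBB ha) (hB hb)))] at hB2
    obtain ⟨A', hA', l1, l2, l3⟩ := hrep B hB hB2 ⟨A, hA, (hi.img_le_img_iff hBB (h𝒜 A hA).1).1 k1,
      fun h => k2 (CL.Fus.img_mono e h)⟩
    refine ⟨_, ⟨A', hA', rfl⟩, CL.Fus.img_mono e l1, mt (hi.img_le_img_iff hB (h𝒜 A' hA').1).1 l2,
      CL.Fus.img_le_iff.2 fun x hx => (hi.map_mem_normalizer_iff (h𝒜 A' hA').1 (hB hx)).2 (l3 hx)⟩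

end Cfsg.Agent.S5272
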