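import Cfsg.Statements.S5274
import Cfsg.Agent.FUS.Alperin

set_option autoImplicit false
open Cfsg

namespace Cfsg.Agent.S5274

open CL.Fus Cfsg Cfsg.FusionSystem

section
variable {Ω : Type*} [Group Ω] {S : Subgroup Ω}

theorem cen_comm {R : Subgroup Ω} {v x : Ω} (hv : v ∈ centralizerIn R R) (hx : x ∈ R) :
    Commute x v := Subgroup.mem_centralizer_iff.1 hv.2 x hx

/-- the `2^i`-th powers of central elements -/
def Qs (S : Subgroup Ω) (i : ℕ) : Subgroup Ω where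
  carrier := {z | ∃ y ∈ centralizerIn S S, y ^ 2 ^ i = z}
  one_mem' := ⟨1, one_mem _, one_pow _⟩
  mul_mem' := by
    rintro _ _ ⟨a, ha, rfl⟩ ⟨b, hb, rfl⟩
    exact ⟨a * b, mul_mem ha hb, (cen_comm hb ha.1).mul_pow _⟩
  inv_mem' := by
    rintro _ ⟨a, ha, rfl⟩
    exact ⟨a⁻¹, inv_mem ha, inv_pow _ _⟩

theorem Qs_succ (i : ℕ) : Qs S (i + 1) ≤ Qs S i := by
  rintro _ ⟨a, ha, rfl⟩
  exact ⟨a ^ 2, pow_mem ha _, by rw [← pow_mul, pow_succ']⟩

theorem aut_cen {R : Subgroup Ω} (α : MulAut R) {v : Ω} (hv : v ∈ centralizerIn R R) :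
    autFun α v ∈ centralizerIn R R := by
  refine ⟨autFun_mem α hv.1, Subgroup.mem_centralizer_iff.2 fun x hx => ?_⟩
  have h := isHomOn_autFun α
  rw [← autFun_autFun_inv α hx, ← h.map_mul (autFun_mem _ hx) hv.1,
    ← h.map_mul hv.1 (autFun_mem _ hx), (cen_comm hv (autFun_mem _ hx)).eq]

variable (F : FusionSystem S)

/-- invariance under all morphisms -/
def Inv' (Q : Subgroup Ω) : Prop := ∀ P f, Mor F P f → ∀ z ∈ P, z ∈ Q → f z ∈ Q

variable {F}

/-- automorphisms acting trivially on `℧^i(Z(R))` modulo `Q` -/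
def Bs {Q : Subgroup Ω} (hQ : Inv' F Q) (i : ℕ) (R : Subgroup Ω) : Subgroup (MulAut R) where
  carrier := {β | β ∈ F.autGroup R ∧ (R ≤ S → ∀ v ∈ centralizerIn R R,
    autFun β (v ^ 2 ^ i) * (v ^ 2 ^ i)⁻¹ ∈ Q)}
  one_mem' := ⟨one_mem _, fun _ v hv => by
    rw [autFun_one (pow_mem hv.1 _), mul_inv_cancel]; exact one_mem _⟩
  mul_mem' := by
    rintro a b ⟨ha, ha'⟩ ⟨hb, hb'⟩
    refine ⟨mul_mem ha hb, fun hR v hv => ?_⟩
    have hw := pow_mem hv.1 (2 ^ i)
    have hq : autFun b (v ^ 2 ^ i) * (v ^ 2 ^ i)⁻¹ ∈ R := mul_mem (autFun_mem _ hw) (inv_mem hw)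
    have e : autFun a (autFun b (v ^ 2 ^ i)) =
        autFun a (autFun b (v ^ 2 ^ i) * (v ^ 2 ^ i)⁻¹) * autFun a (v ^ 2 ^ i) := by
      rw [← (isHomOn_autFun a).map_mul hq hw, inv_mul_cancel_right]
    rw [autFun_mul a b hw, e, mul_assoc]
    exact mul_mem (hQ _ _ (mor_autFun hR ha) _ hq (hb' hR v hv)) (ha' hR v hv)
  inv_mem' := by
    rintro a ⟨ha, ha'⟩
    refine ⟨inv_mem ha, fun hR v hv => ?_⟩
    have := inv_mem (ha' hR _ (aut_cen a⁻¹ hv))
    rwa [← (isHomOn_autFun a⁻¹).map_pow hv.1, autFun_autFun_inv a (pow_mem hv.1 _), mul_inv_rev,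
      inv_inv] at this

theorem Bs_conj {Q : Subgroup Ω} (hQ : Inv' F Q) (i : ℕ) {R : Subgroup Ω} {a b : MulAut R}
    (ha : a ∈ F.autGroup R) (hb : b ∈ Bs hQ i R) : a * b * a⁻¹ ∈ Bs hQ i R := by
  refine ⟨mul_mem (mul_mem ha hb.1) (inv_mem ha), fun hR v hv => ?_⟩
  have hw := pow_mem hv.1 (2 ^ i)
  have h1 := hb.2 hR _ (aut_cen a⁻¹ hv)
  rw [← (isHomOn_autFun a⁻¹).map_pow hv.1] at h1
  have hw' := autFun_mem a⁻¹ hw
  have hq := mul_mem (autFun_mem b hw') (inv_mem hw')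
  have := hQ _ _ (mor_autFun hR ha) _ hq h1
  rwa [(isHomOn_autFun a).map_mul (autFun_mem b hw') (inv_mem hw'), (isHomOn_autFun a).map_inv hw',
    autFun_autFun_inv a hw, ← autFun_mul a b hw', ← autFun_mul (a * b) a⁻¹ hw] at this

theorem exists_sq {R : Subgroup Ω} {r : Ω} (hr : r ∉ R) : ∀ k, r ^ 2 ^ k ∈ R →
    ∃ j, r ^ 2 ^ j ∉ R ∧ r ^ 2 ^ j * r ^ 2 ^ j ∈ R := by
  intro k
  induction k with
  | zero => intro h; exact absurd (by simpa using h) hr
  | succ k ih =>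
    intro h
    by_cases h' : r ^ 2 ^ k ∈ R
    · exact ih h'
    · exact ⟨k, h', by rwa [← pow_add, ← two_mul, ← pow_succ']⟩

variable [Finite S]

theorem step (hS : IsPGroup 2 S) (hF : F.IsSaturated 2) (i : ℕ)
    (h1 : ∀ x ∈ S, x ^ 2 ^ (i + 1) ∈ Qs S (i + 1)) (hQ : Inv' F (Qs S (i + 1))) :
    Inv' F (Qs S i) := by
  intro P f hf
  refine alperin_ind_gen hS hF (Bs hQ i) (fun R hR => ⟨fun _ h => h.1, ?_⟩)
    (motive := fun f => ∀ z ∈ P, z ∈ Qs S i → f z ∈ Qs S i) (fun _ _ h => h)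
    (fun f g h e z hz hq => e hz ▸ h z hz hq) ?_ ?_ hf
  · have hRS := lt_of_essential hS hF hR
    haveI := finite_of_le hRS.le
    have hc : centralizerIn S R ≤ R := hR.1.2 R (isConj_refl F hRS.le)
    have hn : F.autGroup R ≤ Subgroup.normalizer (Bs hQ i R : Set (MulAut R)) := fun a ha =>
      Subgroup.mem_normalizer_iff.2 fun b => ⟨Bs_conj hQ i ha, fun h => by
        simpa [mul_assoc] using Bs_conj hQ i (inv_mem ha) h⟩
    have hs := (sylIn_of_fullyNormalized hS hF hR.2.1).inf_normal (C := Bs hQ i R)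
      (fun _ h => h.1) hn
    have hlt : Inn R < autInducedBy S R ⊓ Bs hQ i R := by
      refine lt_of_le_of_ne (le_inf (inn_le_autInducedBy hRS.le) fun a ha =>
        ⟨inn_le_autGroup F hRS.le ha, fun _ v hv => ?_⟩) fun e => ?_
      · obtain ⟨g, hg, e⟩ := mem_inn_iff.1 ha
        rw [e (pow_mem hv.1 _), cj_eq_self_iff.2 ((cen_comm hv hg).pow_right _).eq, mul_inv_cancel]
        exact one_mem _
      · obtain ⟨r, hr, hrn, hrR⟩ := exists_mem_normalizer_not_mem hS hRS le_rfl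
        obtain ⟨k, hk⟩ := hS ⟨r, hr⟩
        have hk' : r ^ 2 ^ k = 1 := congrArg Subtype.val hk
        obtain ⟨j, hj, hj2⟩ := exists_sq hrR k (hk' ▸ one_mem R)
        set s := r ^ 2 ^ j
        have hsS : s ∈ S := pow_mem hr _
        have hsn : s ∈ Subgroup.normalizer (R : Set Ω) := pow_mem hrn _
        refine hj ((cjAut_mem_inn_iff hRS.le hc hsS hsn).1 (e ▸ ⟨cjAut_mem_autInducedBy hsS hsn,
          cjAut_mem_autGroup F hRS.le hsS hsn, fun _ v hv => ?_⟩))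
        have hu := aut_cen (cjAut R s hsn) hv
        rw [(isHomOn_autFun _).map_pow hv.1]
        have e1 : (v * s) ^ 2 = v * (autFun (cjAut R s hsn) v * (s * s)) := by
          rw [autFun_cjAut hsn hv.1, cj_apply, sq]; group
        generalize autFun (cjAut R s hsn) v = u at hu e1 ⊢
        have c1 : Commute (s * s) u := cen_comm hu hj2
        have c2 : Commute (u * (s * s)) v := cen_comm hv (mul_mem hu.1 hj2)
        have c3 : Commute v u := cen_comm hu hv.1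
        have a1 := h1 _ (mul_mem (hRS.le hv.1) hsS)
        have a2 := h1 _ hsS
        have a3 := h1 _ (hRS.le hv.1)
        rw [pow_succ', pow_mul, e1, c2.symm.mul_pow, c1.symm.mul_pow] at a1
        rw [pow_succ', pow_mul, sq] at a2
        rw [pow_succ, pow_mul, sq] at a3
        have := mul_mem (inv_mem a3) (mul_mem a1 (inv_mem a2))
        convert this using 1
        have c4 := (c3.pow_pow (2 ^ i) (2 ^ i)).inv_left.eq
        rw [← c4]; group
    intro b hb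
    obtain ⟨c, hc', hcb⟩ := hs.frattini (hn hb)
    have : c * b ∈ extAut F R := normalizerIn_le_extAut (receptive_of_fullyNormalized hS hF hR.2.1)
      hlt inf_le_left ⟨mul_mem hc'.1 hb, hcb⟩
    rw [← inv_mul_cancel_left c b]
    exact mul_mem (Subgroup.mem_sup_right (inv_mem hc')) (Subgroup.mem_sup_left this)
  · intro f g _ h hg z hz hq
    obtain ⟨y, hy, e⟩ := h z hz hq
    refine ⟨g y, ?_, by rw [Function.comp_apply, ← e, hg.map_pow hy.1]⟩
    have := hg.map_mem_centralizerIn le_rfl hy.1 hy.2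
    rwa [hg.img_top] at this
  · intro f R β hβ _ h hR hfR z hz hq
    have hRS := (lt_of_essential hS hF hR).le
    have hc : centralizerIn S R ≤ R := hR.1.2 R (isConj_refl F hRS)
    obtain ⟨y, hy, e⟩ := h z hz hq
    have hy' := centralizerIn_anti S hRS hy
    have := mul_mem (Qs_succ i (hβ.2 hRS y ⟨hc hy', hy'.2⟩)) (show y ^ 2 ^ i ∈ Qs S i from ⟨y, hy, rfl⟩)
    rwa [inv_mul_cancel_right, e] at this

end

theorem result {Ω : Type*} [Group Ω] {S : Subgroup Ω} [Finite S] (hS : IsPGroup 2 ↥S) (F : Cfsg.FusionSystem S) (hF : F.IsSaturated 2) (h : ∀ x ∈ S, ∃ z ∈ S ⊓ Subgroup.centralizer (S : Set Ω), F.IsConjElt x z) : IsMulCommutative ↥S := by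
  have key : ∀ i, Inv' F (Qs S i) → ∀ x ∈ S, x ^ 2 ^ i ∈ Qs S i := by
    intro i hQ x hx
    obtain ⟨z, hz, φ, hφ, e⟩ := h x hx
    have hm := mor_toFn hφ
    obtain ⟨g, hg, hgf, -⟩ := hm.exists_inv
    have hx' := pow_mem (Subgroup.mem_zpowers x) (2 ^ i)
    have := hQ _ _ hg _ (mem_img_of_mem _ hx') ⟨z, hz, by
      rw [hm.map_pow (Subgroup.mem_zpowers x), toFn_of_mem φ (Subgroup.mem_zpowers x), e]⟩
    rwa [hgf _ hx'] at this
  have down : ∀ n, Inv' F (Qs S n) → Inv' F (Qs S 0) := by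
    intro n
    induction n with
    | zero => exact id
    | succ n ih => exact fun hQ => ih (step hS hF n (key _ hQ) hQ)
  obtain ⟨e, he⟩ := IsPGroup.iff_card.1 hS
  have h0 := key 0 (down e fun P f hf z _ ⟨y, hy, e'⟩ => by
    have : y ^ 2 ^ e = 1 := by
      have := congrArg Subtype.val (pow_card_eq_one' (x := (⟨y, hy.1⟩ : S)))
      rwa [he] at this
    rw [← e', this, hf.map_one]; exact one_mem _)
  refine ⟨⟨fun a b => Subtype.ext ?_⟩⟩
  obtain ⟨y, hy, e'⟩ := h0 b b.2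
  rw [pow_zero, pow_one, pow_one] at e'
  exact (cen_comm (e' ▸ hy) a.2).eq

end Cfsg.Agent.S5274
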