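import Cfsg.Statements.S5276
import Cfsg.Agent.FUS.Transfer

set_option autoImplicit false
open Cfsg

namespace Cfsg.Agent.S5276

open CL.Fus Cfsg.FusionSystem

/-- Let p be a prime and F a saturated fusion system over a finite p-group S. Then F is the inner fusion system of S if and only if the normalizer fusion system of S itself in F is the inner fusion system (equivalently, Aut_F(S) is induced by S) and the Frattini subgroup Φ(S) is strongly closed in F. -/
theorem result {Ω : Type*} [Group Ω] {S : Subgroup Ω} [Finite S] (p : ℕ) [Fact p.Prime] (hS : IsPGroup p ↥S) (F : Cfsg.FusionSystem S) (hF : F.IsSaturated p) : (∀ P : Subgroup Ω, F.Hom P = (Cfsg.innerFusionSystem S).Hom P) ↔ (∀ N : Cfsg.FusionSystem (Cfsg.FusionSystem.normalizerIn S S), F.IsNormalizerSystem S N → ∀ P : Subgroup Ω, N.Hom P = (Cfsg.innerFusionSystem (Cfsg.FusionSystem.normalizerIn S S)).Hom P) ∧ F.StronglyClosed ((frattini ↥S).map S.subtype) := by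
  have hΦ := CL.PG.commutator_le_frattini_map hS
  refine ⟨fun h => ?_, fun ⟨hN, hsc⟩ => ?_⟩
  · obtain rfl := FusionSystem_ext h
    refine ⟨fun N hN => hom_eq_iff_mor.2 fun P f => ⟨fun hf => ?_, fun hf => le_iff_mor.1 (inner_le N) P f hf⟩,
      sc_of_focal_le (focal_le_iff.2 fun P f hf x hx => ?_) (Subgroup.map_subtype_le _)⟩
    · obtain ⟨-, g, hg, e⟩ := mor_inner_iff.1 ((isNormalizerSystem_iff.1 hN P f).1 hf).mor
      exact mor_inner_iff.2 ⟨hf.le, g, le_normalizerIn le_rfl hg, e⟩
    · obtain ⟨hP, g, hg, e⟩ := mor_inner_iff.1 hf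
      rw [e hx]
      exact inv_mul_cj_mem hΦ hg (hP hx)
  · have htop : F.autGroup S ≤ Inn S := fun α hα => by
      obtain ⟨-, g, hg, e⟩ := mor_inner_iff.1 ((hom_eq_iff_mor.1 (hN _ (isNormalizerSystem_normSys F le_rfl)) S _).1
        (mor_normSys.2 (NMor.of_ext (le_normalizerIn le_rfl) (mor_autFun le_rfl hα) le_rfl le_rfl (img_autFun α))))
      exact mem_inn_iff.2 ⟨g, hg.1, e⟩
    rw [← eq_inner_of_focal_le_frattini hS hF (focal_le_of_sc_of_inn hS hF htop hsc hΦ)]
    exact fun _ => rfl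

end Cfsg.Agent.S5276
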