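import Cfsg.Statements.S5278
import Cfsg.Agent.FUS.CentTrans

set_option autoImplicit false
open Cfsg

namespace Cfsg.Agent.S5278

/-- Let p be an odd prime, F a saturated fusion system over a finite p-group S, and T a subgroup of Z(S) such that the normalizer fusion system of J(S) in F is contained in the normalizer fusion system of T, J(S) being the subgroup generated by the abelian subgroups of S of largest order. Then either T is weakly closed in F, or Aut_F(T) has a nontrivial cyclic subgroup X of order prime to p that permutes transitively the non-identity elements of the commutator [T, X] (the subgroup of T generated by the elements ψ(t)·t⁻¹ with ψ in X and t in T). -/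
theorem result {Ω : Type*} [Group Ω] {S : Subgroup Ω} [Finite S] (p : ℕ) [Fact p.Prime] (hS : IsPGroup p ↥S) (F : Cfsg.FusionSystem S) (hF : F.IsSaturated p) (hp : p ≠ 2) (T : Subgroup Ω) (hT : T ≤ S ⊓ Subgroup.centralizer (S : Set Ω)) (hJT : ∀ NJ : Cfsg.FusionSystem (Cfsg.FusionSystem.normalizerIn S (Cfsg.thompsonSubgroupAOf S)), F.IsNormalizerSystem (Cfsg.thompsonSubgroupAOf S) NJ → ∀ NT : Cfsg.FusionSystem (Cfsg.FusionSystem.normalizerIn S T), F.IsNormalizerSystem T NT → NJ.IsSubsystemOf NT) : F.WeaklyClosed T ∨ ∃ X : Subgroup (MulAut ↥T), X ≤ F.autGroup T ∧ X ≠ ⊥ ∧ IsCyclic ↥X ∧ (Nat.card ↥X).Coprime p ∧ ∀ a b : ↥T, a ∈ Subgroup.closure {y : ↥T | ∃ ψ ∈ X, ∃ t : ↥T, y = ψ t * t⁻¹} → b ∈ Subgroup.closure {y : ↥T | ∃ ψ ∈ X, ∃ t : ↥T, y = ψ t * t⁻¹} → a ≠ 1 → b ≠ 1 → ∃ ψ ∈ X, ψ a = b := by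
  open CL.Fus in
  have hTS : T ≤ S := hT.trans inf_le_left
  have := finite_of_le hTS
  have hTp := isPGroup_of_le hS hTS
  refine (normal_or_trMap hS hF T hT fun f hf x hx => ?_).imp
    (fun h => sc_weaklyClosed (sc_of_normal h)) fun ⟨f, hf, h⟩ => ?_
  · have hJ := (aFun_thompson p).le S
    exact (mor_normSys.1 ((mor_normSys.2 hf).of_subsystem (hJT _ (isNormalizerSystem_normSys F hJ) _
      (isNormalizerSystem_normSys F hTS)))).map_mem_self hx hx
  · obtain ⟨α, hα, e⟩ := hf.exists_aut (hf.img_eq_self h.1)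
    let _ : CommGroup T := { (inferInstance : Group T) with
      mul_comm := fun x y => Subtype.ext ((hT y.2).2 x (hTS x.2)) }
    have h1 : TrMap p (⊤ : Subgroup T) α := TrMap.lift (t := T.subtype) (f' := f)
      (hTp.to_subgroup ⊤) (fun _ _ _ _ => rfl) (fun _ _ _ _ => map_mul α _ _) (fun _ _ => trivial)
      (fun x _ => (e x.2).symm.trans (autFun_coe α x))
      (fun x _ hx => by rw [show x = 1 from Subtype.ext hx, map_one])
      (by rwa [img_monoidHom, ← MonoidHom.range_eq_map, Subgroup.range_subtype])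
    obtain ⟨X, h2, h3⟩ := TrMap.exists_cyclic hTp hp α h1
    exact ⟨X, h2.trans (Subgroup.zpowers_le.2 hα), h3⟩

end Cfsg.Agent.S5278
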