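import Cfsg.Statements.S5298
import Cfsg.Agent.FUS.SmallExp

set_option autoImplicit false
universe u
open Cfsg

namespace Cfsg.Agent.S5298

open CL.Fus Cfsg.FusionSystem

/-- Let F be a saturated fusion system over a finite p-group S. If every map of F between cyclic subgroups of the hyperfocal subgroup of F of order p or 4 is conjugation by an element of S, then F is the inner fusion system of S. -/
theorem result {Ω : Type u} [Group Ω] {S : Subgroup Ω} [Finite S] (p : ℕ) [Fact p.Prime] (hS : IsPGroup p S)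
    (F : Cfsg.FusionSystem S) (hF : F.IsSaturated p)
    (h : ∀ A B : Subgroup Ω, A ≤ (F.hyperfocalSubgroup p) → B ≤ (F.hyperfocalSubgroup p) → IsCyclic ↥A → (Nat.card ↥A = p ∨ Nat.card ↥A = 4) → IsCyclic ↥B → (Nat.card ↥B = p ∨ Nat.card ↥B = 4) →
      F.homSet A B ⊆ (Cfsg.innerFusionSystem S).Hom A) :
    ∀ P : Subgroup Ω, F.Hom P = (Cfsg.innerFusionSystem S).Hom P := by
  rw [← eq_inner_of_small_cj hS hF fun P f hf y hy hyU hsm => ?_]
  · exact fun _ => rfl
  by_cases h1 : y = 1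
  · exact ⟨1, S.one_mem, by rw [h1, hf.map_one, cj_one]⟩
  have hf' := hf.mono (Subgroup.zpowers_le.2 hy)
  obtain ⟨-, g, hg, e⟩ := mor_inner_iff.1 (⟨_, h _ _ (Subgroup.zpowers_le.2 hyU)
    (Subgroup.zpowers_le.2 (sc_map_mem (sc_hyperfocal hS hF) hf hy hyU)) inferInstance (card_zpowers_of_small hsm h1)
    inferInstance (card_zpowers_of_small (small_of_mor hf hy hsm) (mt (hf.eq_one_iff hy).1 h1))
    ⟨hf'.toHom_mem, fun x => hf'.isHomOn.img_zpowers ▸ mem_img_of_mem f x.2⟩, fun _ => rfl⟩ : Mor _ _ f)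
  exact ⟨g, hg, (e (Subgroup.mem_zpowers y)).symm⟩

end Cfsg.Agent.S5298
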