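import Cfsg.Statements.S5300
import Cfsg.Agent.FUS.SmallExp

set_option autoImplicit false
universe u
open Cfsg

namespace Cfsg.Agent.S5300

open CL.Fus Cfsg.FusionSystem

/-- Let F be a saturated fusion system over a finite p-group S. If every cyclic subgroup of the focal subgroup of F of order p (of order 2 or 4 when p = 2) is normal in S, then S is normal in F. -/
theorem result {Ω : Type u} [Group Ω] {S : Subgroup Ω} [Finite S] (p : ℕ) [Fact p.Prime] (hS : IsPGroup p S)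
    (F : Cfsg.FusionSystem S) (hF : F.IsSaturated p)
    (hnorm : ∀ x ∈ F.focalSubgroup, (x ^ p = 1 ∨ (p = 2 ∧ x ^ 4 = 1)) → ∀ s ∈ S, s * x * s⁻¹ ∈ Subgroup.zpowers x) :
    F.IsNormal S := by
  have hc : ∀ x ∈ F.focalSubgroup, x ^ p = 1 → ∀ s ∈ S, cj s x = x := fun x hx hp s hs => by
    have hxS := focal_le F hx
    rw [← autFun_cjAut (Subgroup.le_normalizer hs) hxS]
    refine autFun_eq_of_card_dvd (isPGroup_zpowers_cjAut hS hs _) (Subgroup.zpowers_le.2 hxS)
      (Nat.card_zpowers x ▸ orderOf_dvd_of_pow_eq_one hp) (fun y hy => ?_) (Subgroup.mem_zpowers x)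
    rw [autFun_cjAut _ (Subgroup.zpowers_le.2 hxS hy)]
    exact ((isHomOn_cj _ s).img_zpowers.trans_le (Subgroup.zpowers_le.2 (hnorm x hx (.inl hp) s hs)))
      (mem_img_of_mem _ hy)
  let W : Subgroup Ω :=
    { carrier := {x | x ∈ F.focalSubgroup ∧ x ^ p = 1}
      one_mem' := ⟨one_mem _, one_pow p⟩
      mul_mem' := fun {a b} ha hb => ⟨mul_mem ha.1 hb.1, by
        rw [Commute.mul_pow (cj_eq_self_iff.1 (hc b hb.1 hb.2 a (focal_le F ha.1))), ha.2, hb.2, mul_one]⟩
      inv_mem' := fun ha => ⟨inv_mem ha.1, by rw [inv_pow, ha.2, inv_one]⟩ }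
  have hW : F.StronglyClosed W := sc_omega (sc_focal F) fun _ => Iff.rfl
  refine isNormal_top_of_no_essential hS hF fun Q hQ => ?_
  obtain ⟨D, A, h1, h2, h3, h4, h5, -, -, h6⟩ := exists_small_detects hS hF hQ.1.1
  refine (lt_normalizerIn hS (lt_of_essential hS hF hQ)).not_ge fun x hx => mem_of_chain hS
    (centralizerIn_le_of_isCentric hQ.1) (isRadical_of_essential hS hF hQ) hx.1 hx.2 le_rfl ?_
  refine ((Relation.ReflTransGen.single (.inl ⟨autInv_bot _, autInv_of_sc hW hQ.1.1, fun y hy hyW => ?_⟩)).tail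
    (.inl ⟨autInv_of_sc hW hQ.1.1, h3, fun y hy hyD => ?_⟩)).tail
      (Detects.stabStep (fun α hα hc hfix => h6 α hα hc fun y hy => hfix y (h5 hy)) h1 _) <;>
    rw [autFun_cjAut hx.2 hy]
  · rw [hc y hyW.1 hyW.2 x hx.1, inv_mul_cancel]
    exact one_mem _
  · have hyF := hyperfocal_le_focal F p (h2 hyD)
    refine ⟨(mor_cj F le_rfl hx.1).mem_focal (hQ.1.1 hy), ?_⟩
    by_cases hp : y ^ p = 1
    · rw [hc y hyF hp x hx.1, inv_mul_cancel, one_pow]
    obtain ⟨rfl, h7⟩ := (h4 y hyD).resolve_left hp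
    obtain ⟨k, hk⟩ := hnorm y hyF (h4 y hyD) x hx.1
    have h8 := hc (y ^ 2) (pow_mem hyF 2) (by rw [← pow_mul, h7]) x hx.1
    rw [(isHomOn_cj ⊤ x).map_pow trivial] at h8
    rw [Commute.mul_pow, h8, inv_pow, inv_mul_cancel]
    rw [cj, ← hk]
    exact ((Commute.refl y).zpow_right k).inv_left

end Cfsg.Agent.S5300
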