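import Cfsg.Statements.S5310
import Mathlib
import Cfsg.Agent.FUS.Component

set_option autoImplicit false
open Cfsg

namespace Cfsg.Agent.S5310

open CL.Fus

/-- A saturated fusion system F over a finite p-group S is constrained (its largest normal subgroup O_p(F) is centric) if and only if the inner fusion system of O_p(F) is itself a generalized Fitting subsystem of F (that is, F*(F) = O_p(F)). -/
theorem result {Ω : Type*} [Group Ω] {S : Subgroup Ω} [Finite S] (p : ℕ) [Fact p.Prime] (hS : IsPGroup p S) (F : Cfsg.FusionSystem S) (hF : F.IsSaturated p) :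
    F.IsConstrained p ↔ (Cfsg.innerFusionSystem F.core).IsGeneralizedFittingOf F p := by
  rw [isGeneralizedFittingOf_iff]
  constructor
  · intro h
    obtain ⟨T, E, hE⟩ := exists_isLayerOf hS hF
    obtain rfl := (IsLayer.eq_bot_iff hS hE).2 h
    obtain ⟨D, h1, -⟩ := IsLayer.exists_fitting hS hE
    refine ⟨_, E, hE, h1.of_mor_iff fun P f => (h1.symm.mor_iff_of_le bot_le).symm⟩
  · rintro ⟨T, E, hE, h⟩
    have h1 := hyperfocal_mono (p := p) h.right_isSubsystemOf
    have := finite_of_le (core_normal F).1
    rw [IsLayer.hyperfocal_eq hS hE, hyperfocal_inner_eq_bot (hS.to_le (core_normal F).1)] at h1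
    exact (IsLayer.eq_bot_iff hS hE).1 (le_bot_iff.1 h1)

end Cfsg.Agent.S5310
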