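import Cfsg.Statements.S5317
import Cfsg.Agent.FUS.PSL2Dih

set_option autoImplicit false
open Cfsg

namespace Cfsg.Agent.S5317

/-- Let F be a finite field of odd order q with q² ≡ 1 mod 16 (so that a Sylow 2-subgroup of PSL(2,q), dihedral of order the 2-part of (q²−1)/2, has order at least 8). Then the 2-fusion system of PSL(2,F) on a Sylow 2-subgroup is simple: saturated, over a nontrivial 2-group, with no normal subsystem other than the trivial one and itself. -/
theorem result {F : Type*} [Field F] [Fintype F] (hodd : Fintype.card F % 2 = 1) (h16 : 16 ∣ Fintype.card F ^ 2 - 1)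
    (S : Sylow 2 (Matrix.ProjectiveSpecialLinearGroup (Fin 2) F)) :
    (Cfsg.groupFusionSystem (S : Subgroup (Matrix.ProjectiveSpecialLinearGroup (Fin 2) F))).IsSimple 2 := by
  have h4 : 4 ≤ Nat.card F := by
    rw [Nat.card_eq_fintype_card]
    have h1 : 1 < Fintype.card F := Fintype.one_lt_card
    by_contra h
    have : Fintype.card F = 3 := by omega
    rw [this] at h16; norm_num at h16
  obtain ⟨a, ha, ha2⟩ := CL.SL.exists_sq_ne_one_of_four_le_card h4
  obtain ⟨m, hm, ⟨e⟩⟩ := CL.Fus.sylow_psl2_dihedral_of_sixteen (Nat.odd_iff.2 hodd) h16 S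
  exact CL.Fus.isSimple_of_dihedral (CL.Fus.no_index_two_of_commutator_eq_top
    (CL.Fus.commutator_psl_eq_top (CL.SL.commutator_eq_top_of_sq_ne_one ha ha2))) S hm e

end Cfsg.Agent.S5317
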