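import Cfsg.Statements.S5318
import Cfsg.Agent.FUS.GL2InSL3

set_option autoImplicit false
open Cfsg

namespace Cfsg.Agent.S5318

/-- For a finite field F of odd order, the 2-fusion system of PSL(3,F) on a Sylow 2-subgroup (semidihedral or wreathed according as |F| ≡ 3 or 1 mod 4) is simple. -/
theorem result {F : Type*} [Field F] [Fintype F] (hodd : Fintype.card F % 2 = 1) (S : Sylow 2 (Matrix.ProjectiveSpecialLinearGroup (Fin 3) F)) :
    (Cfsg.groupFusionSystem (S : Subgroup (Matrix.ProjectiveSpecialLinearGroup (Fin 3) F))).IsSimple 2 := by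
  have := CL.SL.psl_isSimpleGroup_of_three_le (ι := Fin 3) (F := F) (by simp)
  have hn : ∀ H : Subgroup (Matrix.ProjectiveSpecialLinearGroup (Fin 3) F), H.index ≠ 2 := by
    refine CL.Fus.no_index_two_of_commutator_eq_top ?_
    have h := congrArg (Subgroup.map (QuotientGroup.mk' (Subgroup.center _)))
      (CL.SL.commutator_eq_top_of_three_le (ι := Fin 3) (F := F) (by simp))
    rw [commutator_def, Subgroup.map_commutator, Subgroup.map_top_of_surjective _ (QuotientGroup.mk'_surjective _)] at h
    exact h
  rcases CL.Fus.sylow_psl3_cases hodd S with ⟨-, h⟩ | ⟨-, h⟩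
  · exact CL.Fus.isSimple_of_quasiDihedral hn S h
  · exact CL.Fus.isSimple_of_wreathed hn S h

end Cfsg.Agent.S5318
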