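import Cfsg.Statements.S5323
import Cfsg.Agent.FUS.PcMathieu
import Cfsg.Agent.FUS.PcCertHom
import Cfsg.Agent.SPOR.LeechOrder

set_option autoImplicit false
open Cfsg

namespace Cfsg.Agent.S5323

def Hd : List ℕ := [971260800556508387362606631018090656, 971298508216796828985340437265089632, 976523570717241266090133915763839040]
def Tl : List ℕ := [977656098061144236030882031709916384, 983991419431302060320892116034627232, 984365217902686453248235801272398976, 984159739662526352166722481920720096]
def L : List ℕ := [971260800556508387362606631018090656, 971298508216796828985340437265089632, 976523570717241266090133915763839040, 977656098061144236030882031709916384, 983991419431302060320892116034627232, 984365217902686453248235801272398976, 984159739662526352166722481920720096]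
def W : List (ℕ × List (List ℕ)) := [(977656098061144236030882031709916384, [[1]]), (983991419431302060320892116034627232, [[0, 2, 4, 5, 6]]), (984365217902686453248235801272398976, [[2]]), (984159739662526352166722481920720096, [[0, 1, 4]])]
def z : ℕ := 984106537951624291307853224808683840
def Cl : List (ℕ × ℕ × ℕ) := [(971260800556508387362606631018090656, 977779733608294288090356982430215808, 9671554130869623074062336), (971298508216796828985340437265089632, 971298508216796828985340437265089632, 16), (976523570717241266090133915763839040, 976523570717241266090133915763839040, 633825300261688653338028015616)]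
def St : List (List ℕ × ℕ × List ℕ) := [([0], 974177070377066103156740595475625088, [0, 2, 3, 5]), ([0, 1], 971753630210986510838112531157984512, [1, 2, 3, 6]), ([1, 2], 973815147118063080430737421092148544, [0, 4, 6])]
def W' : List (List ℕ) := [[2, 0, 1, 2, 1], [0, 1, 0, 2, 1, 0, 1], [1, 0, 1, 2], [0, 2, 1, 0, 2, 1], [0, 1, 2, 1, 0, 1, 2, 1], [1, 0, 1, 2, 1, 0, 1, 2], [0, 1, 2, 1, 2, 0]]
open CL.K CL.Pc CL.Golay CL.MathMdl
theorem hL : lall (okc ok22) L = true := by decide +kernel
theorem hz0 : okc ok22 z = true := by decide +kernel
theorem hpc : pcB comp24 one24 L = true := by decide +kernel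
theorem hfr : fratB comp24 one24 Hd Tl L W = true := by decide +kernel
theorem hz : centB comp24 one24 z Hd L = true := by decide +kernel
theorem hcl : classB comp24 one24 (hOrd comp24 one24 z) Hd Tl Cl = true := by decide +kernel
theorem hst : stepsB comp24 one24 (okc ok22) L W' St [z] = true := by decide +kernel

/-- if `M22` embeds with odd index, the 2-fusion system is simple -/
theorem isSimple_of_M22 {G : Type*} [Group G] [Finite G] (f : Cfsg.Spor.M22 →* G)
    (hf : Function.Injective f) {m : ℕ} (hm : Odd m) (hc : Nat.card G = 2 ^ 7 * m) (S : Sylow 2 G) :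
    (Cfsg.groupFusionSystem (S : Subgroup G)).IsSimple 2 :=
  isSimple_of_cert_hom f hf (isCode24 _) (mem_of_okc fun _ => in22) hL rfl hm hc (by decide) hpc
    hfr hz0 hz hcl hst S

open Cfsg.Spor CL.Leech

theorem permHom_fix (σ : M22) (v : leechLattice)
    (h : ∀ i : GolayPt, i ≠ none → i ≠ some 0 → (v : GolayPt → ℤ) i = (v : GolayPt → ℤ) (some 1)) :
    permHom ⟨σ.1, σ.2.1.1⟩ • v = v := by
  apply Subtype.ext
  funext i
  rw [permHom_apply]
  have h1 : σ.1 none = none := σ.2.1.2
  have h2 : σ.1 (some 0) = some 0 := σ.2.2
  by_cases hi : i = none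
  · subst hi; exact congrArg _ (σ.1.symm_apply_eq.2 h1.symm)
  by_cases hj : i = some 0
  · subst hj; exact congrArg _ (σ.1.symm_apply_eq.2 h2.symm)
  rw [h i hi hj]
  refine h _ (fun e => hi ?_) (fun e => hj ?_)
  · rw [← h1, ← e]; simp
  · rw [← h2, ← e]; simp

/-- `M22 → McL` -/
noncomputable def toMcL : M22 →* McL :=
  ((Co0.subtype.comp permHom).comp (Subgroup.inclusion (fun _ hx => hx.1.1 : M22 ≤ M24))).codRestrict
    McL fun σ => ⟨⟨(permHom _).2, permHom_fix σ leechV fun i hi _ => by
      simp [leechV, vecV, hi]⟩, permHom_fix σ leechU fun i hi hj => by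
        have : (1 : ZMod 23) ≠ 0 := by decide
        simp [leechU, vecU, hi, hj, this]⟩

theorem toMcL_injective : Function.Injective toMcL := fun _ _ e =>
  Subgroup.inclusion_injective _ (permHom_injective (Subtype.ext (congrArg (fun g : McL => g.1) e)))

theorem card_McL : Nat.card McL = 898128000 := by
  have h1 : sqNorm ((leechU + leechV : leechLattice) : GolayPt → ℤ) = 32 := by decide +kernel
  have h2 : dotInt (leechU : GolayPt → ℤ) ((leechU + leechV : leechLattice) : GolayPt → ℤ) = 8 := by
    decide +kernel
  have h := card_stab_pair sqNorm_U h1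
  rw [h2, show censusN 8 = 47104 by decide +kernel] at h
  have h3 : Nat.card McL = Nat.card ↥(MulAction.stabilizer Co0 leechU ⊓
      MulAction.stabilizer Co0 (leechU + leechV)) := by
    refine Nat.card_congr
      { toFun := fun g => ⟨⟨g.1, g.2.1.1⟩, g.2.2, ?_⟩
        invFun := fun g => ⟨g.1.1, ⟨g.1.2, ?_⟩, g.2.1⟩
        left_inv := fun _ => rfl
        right_inv := fun _ => rfl }
    · have a : (⟨g.1, g.2.1.1⟩ : Co0) • leechU = leechU := g.2.2
      have b : (⟨g.1, g.2.1.1⟩ : Co0) • leechV = leechV := g.2.1.2
      change (⟨g.1, g.2.1.1⟩ : Co0) • (leechU + leechV) = _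
      rw [smul_add, a, b]
    · have a : g.1 • leechU = leechU := g.2.1
      have b : g.1 • (leechU + leechV) = leechU + leechV := g.2.2
      rw [smul_add, a] at b
      exact add_left_cancel b
  omega

/-- For a finite group G isomorphic to the McLaughlin group, the 2-fusion system of G on a Sylow 2-subgroup is simple: saturated, over a nontrivial 2-group, with no normal subsystem other than the trivial one and itself. -/
theorem result {G : Type*} [Group G] [Finite G] (hG : Cfsg.Spor.IsoMcL G) (S : Sylow 2 G) : (Cfsg.groupFusionSystem (S : Subgroup G)).IsSimple 2 := by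
  obtain ⟨e⟩ := hG
  refine isSimple_of_M22 (e.symm.toMonoidHom.comp toMcL) (e.symm.injective.comp toMcL_injective)
    (m := 7016625) (by decide) ?_ S
  rw [Nat.card_congr e.toEquiv, card_McL]; rfl

end Cfsg.Agent.S5323
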