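import Cfsg.Statements.S5330
import Cfsg.Agent.FUS.NormMap

set_option autoImplicit false
open Cfsg

namespace Cfsg.Agent.S5330

open CL.Fus Cfsg.FusionSystem

/-- Let F be a saturated fusion system over a finite abelian p-group S. Then S is the internal direct product of the centre of the system and the focal subgroup: Z(F) ∩ foc(F) = 1 and Z(F)·foc(F) = S. -/
theorem result {Ω : Type*} [Group Ω] {S : Subgroup Ω} [Finite S] (p : ℕ) [Fact p.Prime] (hS : IsPGroup p S) (F : Cfsg.FusionSystem S) (hF : F.IsSaturated p) (hab : ∀ x ∈ S, ∀ y ∈ S, x * y = y * x) : F.center ⊓ F.focalSubgroup = ⊥ ∧ F.center ⊔ F.focalSubgroup = S := by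
  refine ⟨eq_bot_iff.2 ((inf_comm _ _).trans_le ((focal_inf_center_le hS hF).trans
    (commutator_eq_bot_iff_comm.2 hab).le)), le_antisymm (sup_le (center_le F) (focal_le F)) fun z hz => ?_⟩
  obtain ⟨N, m, hm, -, -, h2, h3⟩ := exists_norm hS hF (isNormal_top_of_comm hS hF hab) hab
  refine mem_of_pow_mem_of_not_dvd hS hz hm ?_
  have h4 := Subgroup.mul_mem_sup (h2 z hz fun x hx => hab x hx z hz)
    (inv_mem (h3 _ z hz fun α hα => (mor_autFun le_rfl hα).mem_focal hz))
  rwa [mul_inv_rev, inv_inv, mul_inv_cancel_left] at h4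

end Cfsg.Agent.S5330
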