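import Cfsg.Statements.S5331
import Cfsg.Agent.FUS.AbSSol

set_option autoImplicit false
open Cfsg

namespace Cfsg.Agent.S5331

/-- Let S be a finite abelian 2-group that is a direct product of cyclic groups of pairwise distinct orders 2^{a_1} < 2^{a_2} < ⋯ < 2^{a_n} (all a_i ≥ 1). Then every saturated fusion system over S is the inner one: its maps are exactly the conjugations by elements of S. -/
theorem result {Ω : Type*} [Group Ω] {S : Subgroup Ω} [Finite S] (n : ℕ) (a : Fin n → ℕ) (ha : StrictMono a) (ha1 : ∀ i, 1 ≤ a i) (e : ↥S ≃* Multiplicative ((i : Fin n) → ZMod (2 ^ a i))) (F : Cfsg.FusionSystem S) (hF : F.IsSaturated 2) (P : Subgroup Ω) : F.Hom P = (Cfsg.innerFusionSystem S).Hom P := by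
  have e' := e.trans (MulEquiv.piMultiplicative _)
  have hS : IsPGroup 2 S := IsPGroup.of_card (n := ∑ i, a i) (by
    rw [Nat.card_congr e'.toEquiv, Nat.card_pi]; simp [Finset.prod_pow_eq_pow_sum])
  rw [CL.Fus.eq_inner_of_normal_top hS hF (CL.Fus.isNormal_top_of_comm hS hF fun x hx y hy =>
    congrArg Subtype.val (e.injective (a₁ := ⟨x, hx⟩ * ⟨y, hy⟩) (a₂ := ⟨y, hy⟩ * ⟨x, hx⟩) (by
      rw [map_mul, map_mul, mul_comm]))) fun α _ => (CL.Fus.pcTriv_of_pi hS ha.injective e').eq_one_two]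

end Cfsg.Agent.S5331
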