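import Cfsg.Statements.S5521
import Mathlib
import Cfsg.Agent.SPOR.GolayRes

set_option autoImplicit false
open Cfsg

namespace Cfsg.Agent.S5521

open CL CL.K CL.Orb CL.Enc CL.Golay MulAction

/-- The Mathieu group M₂₄ in its natural action on the 24 coordinate positions of the binary Golay code has minimal base size exactly 7: every set of at most 6 positions is fixed pointwise by some non-identity element of M₂₄, while some set of 7 positions is fixed pointwise only by the identity. -/
theorem result :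
    (∀ B : Finset Cfsg.GolayPt, B.card ≤ 6 → ∃ g ∈ Cfsg.M24, g ≠ 1 ∧ ∀ b ∈ B, g b = b) ∧
    (∃ B : Finset Cfsg.GolayPt, B.card = 7 ∧ ∀ g ∈ Cfsg.M24, (∀ b ∈ B, g b = b) → g = 1) := by
  refine ⟨fun B hB => ?_, {some 4, some 5, some 3, some 2, some 1, some 0, none}, by decide, fun g hg h => ?_⟩
  · obtain ⟨s, hs, h6⟩ := Finset.exists_superset_card_eq hB (by rw [card_pt]; norm_num)
    have h1 : 1 < Nat.card (Golay.Fix s) := by rw [card_Fix_six h6]; split_ifs <;> norm_num
    obtain ⟨g, hg, hne⟩ := (Subgroup.nontrivial_iff_exists_ne_one _).1 (Finite.one_lt_card_iff_nontrivial.1 h1)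
    exact ⟨g, (mem_Fix.1 hg).1, hne, fun b hb => (mem_Fix.1 hg).2 b (hs hb)⟩
  · exact Subgroup.mem_bot.1 (Fix_base7 ▸ mem_Fix.2 ⟨hg, h⟩)

end Cfsg.Agent.S5521
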