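import Cfsg.Statements.S5562


set_option autoImplicit false
open Cfsg

namespace Cfsg.Agent.S5562

theorem conj_pow_inv {G : Type*} [Group G] {s u : G} (h : s * u * s⁻¹ = u⁻¹) (k : ℕ) :
    s ^ (2 * k + 1) * u * (s ^ (2 * k + 1))⁻¹ = u⁻¹ := by
  have h2 : s * u⁻¹ * s⁻¹ = u := by
    have := congrArg (·⁻¹) h
    simpa [mul_assoc] using this
  induction k with
  | zero => simpa using h
  | succ k ih =>
    have : s ^ (2 * (k + 1) + 1) = s * s * s ^ (2 * k + 1) := by group
    rw [this]
    calc s * s * s ^ (2 * k + 1) * u * (s * s * s ^ (2 * k + 1))⁻¹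
        = s * (s * (s ^ (2 * k + 1) * u * (s ^ (2 * k + 1))⁻¹) * s⁻¹) * s⁻¹ := by group
      _ = _ := by rw [ih, h2, h]


/-- Let G be a finite group, d an involution of G whose conjugates pairwise have products of odd order, and x any involution of G. Then the conjugacy class of d is the disjoint union, over the conjugates a of d commuting with x, of the sets of conjugates of d commuting with ax: every conjugate of d commutes with ax for exactly one conjugate a of d that commutes with x. -/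
theorem result {G : Type*} [Group G] [Finite G] (d : G) (hd : orderOf d = 2)
    (hodd : ∀ a ∈ conjugatesOf d, ∀ b ∈ conjugatesOf d, Odd (orderOf (a * b)))
    (x : G) (hx : orderOf x = 2) :
    ∀ e ∈ conjugatesOf d,
      ∃! a : G, a ∈ conjugatesOf d ∧ Commute a x ∧ Commute e (a * x) := by
  have hsq : ∀ a ∈ conjugatesOf d, a * a = 1 := by
    intro a ha
    obtain ⟨c, rfl⟩ := isConj_iff.1 ha
    have : d * d = 1 := by rw [← pow_two, ← hd, pow_orderOf_eq_one]
    calc c * d * c⁻¹ * (c * d * c⁻¹) = c * (d * d) * c⁻¹ := by group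
      _ = 1 := by rw [this]; group
  have hcl : ∀ a ∈ conjugatesOf d, ∀ g : G, g * a * g⁻¹ ∈ conjugatesOf d := fun a ha g =>
    IsConj.trans ha (isConj_iff.2 ⟨g, rfl⟩)
  have hxx : x * x = 1 := by rw [← pow_two, ← hx, pow_orderOf_eq_one]
  have hxi : x⁻¹ = x := inv_eq_of_mul_eq_one_right hxx
  intro e he
  have hei : e⁻¹ = e := inv_eq_of_mul_eq_one_right (hsq e he)
  -- uniqueness of a conjugating involution
  have huniq : ∀ a ∈ conjugatesOf d, ∀ b ∈ conjugatesOf d, a * e * a⁻¹ = b * e * b⁻¹ → a = b := by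
    intro a ha b hb hab
    have hai : a⁻¹ = a := inv_eq_of_mul_eq_one_right (hsq a ha)
    have hbi : b⁻¹ = b := inv_eq_of_mul_eq_one_right (hsq b hb)
    have h1 : e * (a * b) * e⁻¹ = a * b := by
      have : e * (a⁻¹ * b) = a⁻¹ * b * e := by
        calc e * (a⁻¹ * b) = a⁻¹ * (a * e * a⁻¹) * b := by group
          _ = _ := by rw [hab]; group
      rw [hai] at this
      rw [this]; group
    have h2 : (a * e) * (a * b) * (a * e)⁻¹ = (a * b)⁻¹ := by
      calc (a * e) * (a * b) * (a * e)⁻¹ = a * (e * (a * b) * e⁻¹) * a⁻¹ := by group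
        _ = (a * a) * b * a⁻¹ := by rw [h1]; group
        _ = _ := by rw [hsq a ha, mul_inv_rev, hbi, one_mul]
    obtain ⟨k, hk⟩ := hodd a ha e he
    have h3 := conj_pow_inv h2 k
    rw [← hk, pow_orderOf_eq_one] at h3
    have h4 : (a * b) ^ 2 = 1 := by
      rw [pow_two]; nth_rewrite 1 [show a * b = (a * b)⁻¹ by simpa using h3]; simp
    have h5 := orderOf_dvd_of_pow_eq_one h4
    have h6 : orderOf (a * b) = 1 :=
      Nat.eq_one_of_dvd_coprimes (Nat.coprime_two_right.2 (hodd a ha b hb)) dvd_rfl h5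
    rw [orderOf_eq_one_iff] at h6
    rw [← hbi]; exact eq_inv_of_mul_eq_one_left h6
  have hiff : ∀ a ∈ conjugatesOf d, Commute e (a * x) ↔ a * e * a⁻¹ = x * e * x⁻¹ := by
    intro a ha
    have hai : a⁻¹ = a := inv_eq_of_mul_eq_one_right (hsq a ha)
    constructor
    · intro h
      calc a * e * a⁻¹ = a⁻¹ * (e * (a * x)) * x⁻¹ := by rw [hai]; group
        _ = _ := by rw [h.eq]; group
    · intro h
      show e * (a * x) = a * x * e
      calc e * (a * x) = a⁻¹ * (a * e * a⁻¹) * x := by nth_rewrite 1 [← hai]; group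
        _ = _ := by rw [h, hai]; group
  set e' := x * e * x⁻¹ with he'
  have he'D : e' ∈ conjugatesOf d := hcl e he x
  obtain ⟨k, hk⟩ := hodd e he e' he'D
  set r := e * e' with hr
  have he'i : e'⁻¹ = e' := inv_eq_of_mul_eq_one_right (hsq e' he'D)
  have hre : e * r * e⁻¹ = r⁻¹ := by
    rw [hr, mul_inv_rev, hei, he'i, ← mul_assoc, hsq e he, one_mul]
  have hrk : ∀ j : ℕ, e * (r ^ j)⁻¹ = (r ^ j) * e := by
    intro j
    have := congrArg (· ^ j) hre
    simp only [conj_pow, inv_pow] at this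
    rw [← this, ← mul_assoc, ← mul_assoc, hsq e he, one_mul, hei]
  have hr1 : r ^ (2 * k + 1) = 1 := by rw [← hk, pow_orderOf_eq_one]
  set a := r ^ (k * (k + 1)) * e * (r ^ (k * (k + 1)))⁻¹ with ha
  have haD : a ∈ conjugatesOf d := hcl e he _
  have ha' : a = r ^ k * e := by
    rw [ha, mul_assoc, hrk, ← mul_assoc, ← pow_add,
      show k * (k + 1) + k * (k + 1) = (2 * k + 1) * k + k by ring, pow_add, pow_mul, hr1, one_pow,
      one_mul]
  have hae : a * e * a⁻¹ = e' := by
    have h1 : e' = r⁻¹ * e := by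
      rw [hr, mul_inv_rev, hei, he'i, mul_assoc, hsq e he, mul_one]
    have h2 : r⁻¹ = r ^ k * r ^ k := by
      apply inv_eq_of_mul_eq_one_left
      rw [← hr1]; group
    rw [h1, h2, ha']
    calc r ^ k * e * e * (r ^ k * e)⁻¹ = r ^ k * (e * (r ^ k)⁻¹) := by group
      _ = _ := by rw [hrk, mul_assoc]
  have hai : a⁻¹ = a := inv_eq_of_mul_eq_one_right (hsq a haD)
  have hax : x * a * x⁻¹ = a := by
    apply huniq _ (hcl a haD x) _ haD
    have h1 : x⁻¹ * e * x = e' := by rw [he', hxi]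
    have h2 : a * e' * a⁻¹ = e := by
      rw [← hae, hai]
      calc a * (a * e * a) * a = (a * a) * e * (a * a) := by group
        _ = e := by rw [hsq a haD]; group
    calc x * a * x⁻¹ * e * (x * a * x⁻¹)⁻¹ = x * (a * (x⁻¹ * e * x) * a⁻¹) * x⁻¹ := by group
      _ = _ := by rw [h1, h2, hae]
  refine ⟨a, ⟨haD, ?_, (hiff a haD).2 hae⟩, ?_⟩
  · show a * x = x * a
    nth_rewrite 1 [← hax]; group
  · rintro b ⟨hb, -, hb2⟩
    exact huniq b hb a haD (((hiff b hb).1 hb2).trans hae.symm)

end Cfsg.Agent.S5562
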