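import Cfsg.Statements.S5596
import Cfsg.Agent.SPOR.LXSing

set_option autoImplicit false
open Cfsg

namespace Cfsg.Agent.S5596

open CL CL.LX CL.MSS


/-- Setting: `z` is an involution of the finite group `G`; for each element `x`, `Q x` is the largest normal 2-subgroup of the centralizer of `x`; `Q z` is extraspecial and contains its own centralizer in `G`. A subgroup `U` is singular when it is elementary abelian, every non-identity element of `U` is conjugate to `z`, and any two non-identity elements `u`, `v` of `U` are orthogonal (`v ∈ Q u`). Write `QU` for the intersection of the `Q u` and `LU` for the join of the `Q u` over the non-identity `u` in `U`. If `U` is singular of order `2 ^ n` with `n ≥ 2`, then `U ≤ QU ≤ LU`, `LU` normalizes `U`, and `LU` induces on `U` its full automorphism group (the general linear group of dimension `n` over the field with two elements): every automorphism of `U` is conjugation by some element of `LU`. -/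
theorem result {G : Type*} [Group G] [Finite G]
    (Q : G → Subgroup G)
    (hQ : ∀ x : G, Q x = (Cfsg.pCore 2 ↥(Subgroup.centralizer ({x} : Set G))).map (Subgroup.centralizer ({x} : Set G)).subtype)
    (z : G) (hz : orderOf z = 2) (hE : Cfsg.IsExtraspecial 2 ↥(Q z))
    (hC : Subgroup.centralizer ((Q z : Subgroup G) : Set G) ≤ Q z)
    (U : Subgroup G) (hU2 : ∀ u ∈ U, u * u = 1)
    (hS : ∀ u ∈ U, u ≠ 1 → ∃ g : G, g * z * g⁻¹ = u)
    (hO : ∀ u ∈ U, ∀ v ∈ U, u ≠ 1 → v ≠ 1 → v ∈ Q u)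
    (QU LU : Subgroup G) (hQU : QU = ⨅ u ∈ ((U : Set G) \ {1}), Q u) (hLU : LU = ⨆ u ∈ ((U : Set G) \ {1}), Q u)
    (n : ℕ) (hn : 2 ≤ n) (hcard : Nat.card ↥U = 2 ^ n) :
    U ≤ QU ∧ QU ≤ LU ∧ LU ≤ Subgroup.normalizer (U : Set G) ∧
      ∀ φ : ↥U ≃* ↥U, ∃ g ∈ LU, ∀ u : ↥U, g * (u : G) * g⁻¹ = ((φ u : ↥U) : G) := by
  obtain rfl : Q = O2C := funext hQ
  have h := lx_O2C hz hE hC
  have hu : ∀ u ∈ U, u ≠ 1 → LX (O2C u) u := by
    intro u hu hu1
    obtain ⟨g, rfl⟩ := hS u hu hu1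
    exact h.O2C_conj g
  have hUQ : ∀ u ∈ U, u ≠ 1 → U ≤ O2C u := by
    intro u hu hu1 v hv
    by_cases hv1 : v = 1
    · rw [hv1]; exact Subgroup.one_mem _
    · exact hO u hu v hv hu1 hv1
  have hQL : ∀ u ∈ U, u ≠ 1 → O2C u ≤ LU := fun u hu hu1 =>
    hLU ▸ le_iSup₂_of_le (f := fun u (_ : u ∈ ((U : Set G) \ {1})) => O2C u) u ⟨hu, hu1⟩ le_rfl
  have hN : LU ≤ Subgroup.normalizer (U : Set G) := by
    rw [hLU]
    refine iSup₂_le (fun u hu' => le_normalizer_of_cj_le (fun x hx => cj_le_iff_forall.2 ?_))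
    intro v hv
    rcases (hu u hu'.1 hu'.2).conj_cases (hUQ u hu'.1 hu'.2 hv) hx with e | e <;> rw [e]
    · exact hv
    · exact U.mul_mem hv hu'.1
  have : Nontrivial U := by
    rw [← Finite.one_lt_card_iff_nontrivial, hcard]
    exact Nat.one_lt_two_pow (by omega)
  obtain ⟨u₀, hu₀⟩ := exists_ne (1 : U)
  have hu₀' : (u₀ : G) ≠ 1 := fun e => hu₀ (Subtype.ext e)
  refine ⟨hQU ▸ le_iInf₂ (fun u hu' => hUQ u hu'.1 hu'.2), ?_, hN, ?_⟩
  · refine le_trans ?_ (hQL u₀ u₀.2 hu₀')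
    rw [hQU]
    exact iInf₂_le (f := fun u (_ : u ∈ ((U : Set G) \ {1})) => O2C u) (u₀ : G) ⟨u₀.2, hu₀'⟩
  intro φ
  have hinv : ∀ u ∈ U, u⁻¹ = u := fun u hu => inv_eq_of_mul_eq_one_right (hU2 u hu)
  have hcomm : ∀ u ∈ U, ∀ v ∈ U, u * v = v * u := fun u hu v hv => by
    rw [← hinv _ (U.mul_mem hu hv), mul_inv_rev, hinv u hu, hinv v hv]
  obtain ⟨W, ⟨g, hg, hgW⟩, hmax⟩ := (wellFounded_gt (α := Subgroup U)).has_min
    {W : Subgroup U | ∃ g ∈ LU, ∀ w ∈ W, g * (w : G) * g⁻¹ = ((φ w : U) : G)}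
    ⟨⊥, 1, LU.one_mem, fun w hw => by rw [Subgroup.mem_bot.1 hw]; simp⟩
  by_cases hW : W = ⊤
  · exact ⟨g, hg, fun u => hgW u (hW ▸ Subgroup.mem_top u)⟩
  exfalso
  obtain ⟨x, hx⟩ : ∃ x, x ∉ W := by
    by_contra hc; push Not at hc; exact hW ((Subgroup.eq_top_iff' W).2 hc)
  have hx' : g * x * g⁻¹ ∈ U := conj_mem_of_normalizes hN hg x.2
  obtain ⟨q, hq, hqW, hqx⟩ : ∃ q ∈ LU, (∀ w ∈ W, q * ((φ w : U) : G) * q⁻¹ = (φ w : U)) ∧
      q * (g * x * g⁻¹) * q⁻¹ = (φ x : U) := by
    by_cases e : g * x * g⁻¹ = (φ x : U)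
    · exact ⟨1, LU.one_mem, by simp, by simpa using e⟩
    set u := (g * x * g⁻¹) * (φ x : U) with hudef
    have huU : u ∈ U := U.mul_mem hx' (φ x).2
    have hu1 : u ≠ 1 := fun e' => e (by
      rw [← hinv _ (φ x).2]; exact eq_inv_of_mul_eq_one_left e')
    let K : Subgroup G :=
      { carrier := {k | ∃ w ∈ W, k = (φ w : U) ∨ k = (φ w : U) * u}
        one_mem' := ⟨1, W.one_mem, Or.inl (by simp)⟩
        mul_mem' := by
          rintro a b ⟨w, hw, e1⟩ ⟨w', hw', e2⟩
          refine ⟨w * w', W.mul_mem hw hw', ?_⟩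
          have c := hcomm u huU _ (φ w').2
          rcases e1 with rfl | rfl <;> rcases e2 with rfl | rfl
          · left; simp
          · right; simp [mul_assoc]
          · right; simp [mul_assoc, c]
          · left
            rw [map_mul, Subgroup.coe_mul, mul_assoc, ← mul_assoc u, c, mul_assoc, hU2 u huU, mul_one]
        inv_mem' := by
          rintro a ⟨w, hw, e1⟩
          refine ⟨w, hw, ?_⟩
          rcases e1 with rfl | rfl
          · left; exact hinv _ (φ w).2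
          · right; exact hinv _ (U.mul_mem (φ w).2 huU) }
    have hKU : K ≤ U := by
      rintro _ ⟨w, -, rfl | rfl⟩
      · exact (φ w).2
      · exact U.mul_mem (φ w).2 huU
    obtain ⟨y, hy, h1, h2⟩ := (hu u huU hu1).exists_centralizes_conj (hKU.trans (hUQ u huU hu1))
      ⟨1, W.one_mem, Or.inr (by simp)⟩ (hUQ u huU hu1 hx') (by
        rintro ⟨w, hw, e1 | e1⟩
        · rw [← hgW w hw] at e1
          have : x = w := Subtype.ext (by simpa using e1)
          exact hx (this ▸ hw)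
        · rw [hudef, hcomm _ hx' _ (φ x).2, ← mul_assoc] at e1
          have e2 : ((φ w : U) : G) * (φ x : U) = 1 := by simpa using e1
          have e3 : φ x = φ w := Subtype.ext (by
            rw [← hinv _ (φ w).2]; exact (inv_eq_of_mul_eq_one_right e2).symm)
          exact hx (φ.injective e3 ▸ hw))
    refine ⟨y, hQL u huU hu1 hy, fun w hw => ?_, ?_⟩
    · rw [← h1 _ ⟨w, hw, Or.inl rfl⟩]; group
    · rw [h2, hudef, ← mul_assoc, hU2 _ hx', one_mul]
  let W' : Subgroup U :=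
    { carrier := {w | (q * g) * (w : G) * (q * g)⁻¹ = ((φ w : U) : G)}
      one_mem' := by simp
      mul_mem' := by
        intro a b ha hb
        show (q * g) * ((a : G) * b) * (q * g)⁻¹ = ((φ (a * b) : U) : G)
        rw [map_mul, Subgroup.coe_mul, ← show _ = ((φ a : U) : G) from ha,
          ← show _ = ((φ b : U) : G) from hb]; group
      inv_mem' := by
        intro a ha
        show (q * g) * (a : G)⁻¹ * (q * g)⁻¹ = ((φ a⁻¹ : U) : G)
        rw [map_inv, Subgroup.coe_inv, ← show _ = ((φ a : U) : G) from ha]; group }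
  refine hmax W' ⟨q * g, LU.mul_mem hq hg, fun w hw => hw⟩ (lt_of_le_of_ne ?_ ?_)
  · intro w hw
    show (q * g) * (w : G) * (q * g)⁻¹ = ((φ w : U) : G)
    rw [← hqW w hw, ← hgW w hw]; group
  · intro e
    apply hx
    rw [e]
    show (q * g) * (x : G) * (q * g)⁻¹ = ((φ x : U) : G)
    rw [← hqx]; group

end Cfsg.Agent.S5596
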