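import Cfsg.Statements.S5597
import Cfsg.Agent.SPOR.LXSing

set_option autoImplicit false
open Cfsg

namespace Cfsg.Agent.S5597

open CL CL.LX CL.MSS


/-- Setting: `z` is an involution of the finite group `G`; for each element `x`, `Q x` is the largest normal 2-subgroup of the centralizer of `x`; `Q z` is extraspecial and contains its own centralizer in `G`. A subgroup `U` is singular when it is elementary abelian, every non-identity element of `U` is conjugate to `z`, and any two non-identity elements `u`, `v` of `U` are orthogonal (`v ∈ Q u`). Write `QU` for the intersection of the `Q u` and `LU` for the join of the `Q u` over the non-identity `u` in `U`. If `U` is a non-trivial singular subgroup, then `LU` acts trivially on `QU / U` (every commutator of an element of `LU` with an element of `QU` lies in `U`), and for every `x` in `QU` outside `U` the centralizer of `U` in `LU` permutes the coset `x U` transitively: each `x u` with `u ∈ U` is a conjugate of `x`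 by an element of `LU` centralizing `U`. -/
theorem result {G : Type*} [Group G] [Finite G]
    (Q : G → Subgroup G)
    (hQ : ∀ x : G, Q x = (Cfsg.pCore 2 ↥(Subgroup.centralizer ({x} : Set G))).map (Subgroup.centralizer ({x} : Set G)).subtype)
    (z : G) (hz : orderOf z = 2) (hE : Cfsg.IsExtraspecial 2 ↥(Q z))
    (hC : Subgroup.centralizer ((Q z : Subgroup G) : Set G) ≤ Q z)
    (U : Subgroup G) (hU2 : ∀ u ∈ U, u * u = 1)
    (hS : ∀ u ∈ U, u ≠ 1 → ∃ g : G, g * z * g⁻¹ = u)
    (hO : ∀ u ∈ U, ∀ v ∈ U, u ≠ 1 → v ≠ 1 → v ∈ Q u)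
    (QU LU : Subgroup G) (hQU : QU = ⨅ u ∈ ((U : Set G) \ {1}), Q u) (hLU : LU = ⨆ u ∈ ((U : Set G) \ {1}), Q u)
    (hU : U ≠ ⊥) :
    (∀ g ∈ LU, ∀ x ∈ QU, g * x * g⁻¹ * x⁻¹ ∈ U) ∧
      ∀ x ∈ QU, x ∉ U → ∀ u ∈ U, ∃ g ∈ LU ⊓ Subgroup.centralizer (U : Set G), g * x * g⁻¹ = x * u := by
  obtain rfl : Q = O2C := funext hQ
  have h := lx_O2C hz hE hC
  have hu : ∀ u ∈ U, u ≠ 1 → LX (O2C u) u := by
    intro u hu hu1
    obtain ⟨g, rfl⟩ := hS u hu hu1
    exact h.O2C_conj g
  have hUQ : ∀ u ∈ U, u ≠ 1 → U ≤ O2C u := by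
    intro u hu hu1 v hv
    by_cases hv1 : v = 1
    · rw [hv1]; exact Subgroup.one_mem _
    · exact hO u hu v hv hu1 hv1
  have hQL : ∀ u ∈ U, u ≠ 1 → O2C u ≤ LU := fun u hu hu1 =>
    hLU ▸ le_iSup₂_of_le (f := fun u (_ : u ∈ ((U : Set G) \ {1})) => O2C u) u ⟨hu, hu1⟩ le_rfl
  have hQQ : ∀ u ∈ U, u ≠ 1 → QU ≤ O2C u := fun u hu hu1 =>
    hQU ▸ iInf₂_le (f := fun u (_ : u ∈ ((U : Set G) \ {1})) => O2C u) u ⟨hu, hu1⟩
  have hN : LU ≤ Subgroup.normalizer (U : Set G) := by
    rw [hLU]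
    refine iSup₂_le (fun u hu' => le_normalizer_of_cj_le (fun x hx => cj_le_iff_forall.2 ?_))
    intro v hv
    rcases (hu u hu'.1 hu'.2).conj_cases (hUQ u hu'.1 hu'.2 hv) hx with e | e <;> rw [e]
    · exact hv
    · exact U.mul_mem hv hu'.1
  constructor
  · let S : Subgroup G :=
      { carrier := {g | g ∈ LU ∧ ∀ x ∈ QU, g * x * g⁻¹ * x⁻¹ ∈ U}
        one_mem' := ⟨LU.one_mem, fun x _ => by simp⟩
        mul_mem' := by
          rintro a b ⟨ha, ha'⟩ ⟨hb, hb'⟩
          refine ⟨LU.mul_mem ha hb, fun x hx => ?_⟩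
          have := U.mul_mem (conj_mem_of_normalizes hN ha (hb' x hx)) (ha' x hx)
          convert this using 1; group
        inv_mem' := by
          rintro a ⟨ha, ha'⟩
          refine ⟨LU.inv_mem ha, fun x hx => ?_⟩
          have := conj_mem_of_normalizes' hN ha (U.inv_mem (ha' x hx))
          convert this using 1; group }
    have : LU ≤ S := by
      nth_rewrite 1 [hLU]
      refine iSup₂_le (fun u hu' y hy => ⟨hQL u hu'.1 hu'.2 hy, fun x hx => ?_⟩)
      rcases (hu u hu'.1 hu'.2).commutator_cases hy (hQQ u hu'.1 hu'.2 hx) with e | e <;> rw [e]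
      · exact U.one_mem
      · exact hu'.1
    exact fun g hg => (this hg).2
  · intro x hx hxU u huU
    by_cases hu1 : u = 1
    · exact ⟨1, Subgroup.one_mem _, by simp [hu1]⟩
    obtain ⟨y, hy, h1, h2⟩ := (hu u huU hu1).exists_centralizes_conj (hUQ u huU hu1) huU
      (hQQ u huU hu1 hx) hxU
    exact ⟨y, ⟨hQL u huU hu1 hy, h1⟩, h2⟩

end Cfsg.Agent.S5597
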