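import Cfsg.Statements.S5598
import Cfsg.Agent.SPOR.LXSing

set_option autoImplicit false
open Cfsg

namespace Cfsg.Agent.S5598

open CL CL.LX CL.MSS


/-- Setting: `z` is an involution of the finite group `G`; for each element `x`, `Q x` is the largest normal 2-subgroup of the centralizer of `x`; `Q z` is extraspecial and contains its own centralizer in `G`. A subgroup `U` is singular when it is elementary abelian, every non-identity element of `U` is conjugate to `z`, and any two non-identity elements `u`, `v` of `U` are orthogonal (`v ∈ Q u`). Write `QU` for the intersection of the `Q u` and `LU` for the join of the `Q u` over the non-identity `u` in `U`. If the singular subgroup `U` is generated by a set `T` of non-identity elements, then `QU` is already the intersection of the `Q t` over `t ∈ T`. -/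
theorem result {G : Type*} [Group G] [Finite G]
    (Q : G → Subgroup G)
    (hQ : ∀ x : G, Q x = (Cfsg.pCore 2 ↥(Subgroup.centralizer ({x} : Set G))).map (Subgroup.centralizer ({x} : Set G)).subtype)
    (z : G) (hz : orderOf z = 2) (hE : Cfsg.IsExtraspecial 2 ↥(Q z))
    (hC : Subgroup.centralizer ((Q z : Subgroup G) : Set G) ≤ Q z)
    (U : Subgroup G) (hU2 : ∀ u ∈ U, u * u = 1)
    (hS : ∀ u ∈ U, u ≠ 1 → ∃ g : G, g * z * g⁻¹ = u)
    (hO : ∀ u ∈ U, ∀ v ∈ U, u ≠ 1 → v ≠ 1 → v ∈ Q u)
    (QU LU : Subgroup G) (hQU : QU = ⨅ u ∈ ((U : Set G) \ {1}), Q u) (hLU : LU = ⨆ u ∈ ((U : Set G) \ {1}), Q u)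
    (T : Set G) (hT : Subgroup.closure T = U) (hT1 : (1 : G) ∉ T) :
    QU = ⨅ t ∈ T, Q t := by
  obtain rfl : Q = O2C := funext hQ
  have h := lx_O2C hz hE hC
  have hu : ∀ u ∈ U, u ≠ 1 → LX (O2C u) u := by
    intro u hu hu1
    obtain ⟨g, rfl⟩ := hS u hu hu1
    exact h.O2C_conj g
  have hTU : ∀ t ∈ T, t ∈ U := fun t ht => hT ▸ Subgroup.subset_closure ht
  rw [hQU]
  apply le_antisymm
  · refine le_iInf₂ (fun t ht => ?_)
    exact iInf₂_le (f := fun u (_ : u ∈ ((U : Set G) \ {1})) => O2C u) t
      ⟨hTU t ht, fun e => hT1 ((show t = 1 from e) ▸ ht)⟩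
  · intro x hx
    simp only [Subgroup.mem_iInf] at hx ⊢
    have key : ∀ u ∈ Subgroup.closure T, u = 1 ∨ x ∈ O2C u := by
      intro u hu'
      induction hu' using Subgroup.closure_induction with
      | mem t ht => exact Or.inr (hx t ht)
      | one => exact Or.inl rfl
      | mul a b ha hb iha ihb =>
        rw [hT] at ha hb
        by_cases ha1 : a = 1
        · rw [ha1, one_mul]; exact ihb
        by_cases hb1 : b = 1
        · rw [hb1, mul_one]; exact iha
        by_cases hab : a * b = 1
        · exact Or.inl hab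
        right
        have hA := hu a ha ha1
        have hne : b ≠ a := fun e => hab (by rw [e]; exact hU2 a ha)
        obtain ⟨q, hq, e⟩ := hA.exists_conj_eq_mul (hO a ha b hb ha1 hb1) hb1 hne
        rw [hA.z_comm b (hO a ha b hb ha1 hb1)] at e
        have m1 : q * x * q⁻¹ ∈ O2C (a * b) := by
          rw [← e, O2C_conj]; exact conj_mem_cj (ihb.resolve_left hb1)
        rcases hA.conj_cases (iha.resolve_left ha1) hq with e' | e'
        · rwa [e'] at m1
        · rw [e'] at m1
          have := (O2C (a * b)).mul_mem m1 ((O2C (a * b)).inv_mem (hO _ (U.mul_mem ha hb) a ha hab ha1))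
          simpa using this
      | inv a ha iha =>
        rw [hT] at ha
        rwa [inv_eq_of_mul_eq_one_right (hU2 a ha)]
    intro u hu'
    exact (key u (hT ▸ hu'.1)).resolve_left hu'.2

end Cfsg.Agent.S5598
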