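import Cfsg.Statements.S5712
import Cfsg.Agent.CLAS.SpTwo4
import Cfsg.Agent.CLAS.RootGeo
import Cfsg.Agent.SOLV.Core
import Cfsg.Agent.S0247

set_option autoImplicit false
open Cfsg

namespace Cfsg.Agent.S5712

open Module CL.Witt CL.Witt.Form CL.Tv CL.Root CL.Sp CL.SpTwo

theorem rk_act {ι : Type} [Fintype ι] [DecidableEq ι] {F : Type*} [Field F] (g : GL ι F) :
    rk (act g) = ((g : Matrix ι ι F) - 1).rank := by
  rw [rk, act_coe, Matrix.rank, ← Matrix.toLin'_apply', map_sub, Matrix.toLin'_one]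

/-- The transported subgroup is isomorphic to the original one. -/
noncomputable def toEEquiv {ι : Type} [Fintype ι] [DecidableEq ι] {F : Type*} [Field F]
    (H : Subgroup (GL ι F)) : H ≃* toE H :=
  ((actE ι F).subgroupMap H).trans (MulEquiv.subgroupCongr (Subgroup.map_equiv_eq_comap_symm _ _))

/-- Let F be a finite field of characteristic two, n ≥ 2, V = F^{2n} with the non-degenerate alternating form f(u, v) = Σ (u_i v_{n+i} + u_{n+i} v_i), and G the group of invertible matrices preserving f. Let a ≠ 0 be a vector, H its stabilizer in G, and X a subgroup of O₂(H) of order |F|^{2n−2} no element of which is a transvection (no element g has g − 1 of rank one). If L is a subgroup of G containing X that acts irreducibly on V (no proper non-zero L-invariant subspace), then L = G, or, for some quadratic form Q on V whose polar form is f, L is the isometry group of Q or its subgroup of the isometries g for which g − 1 has even rank,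 or |F| = 2, n = 2 and L is isomorphic to the alternating group of degree 6 or to the symmetric group of degree 5. -/
theorem result {F : Type*} [Field F] [Fintype F] [CharP F 2] {n : ℕ} (hn : 2 ≤ n) (a : (Fin n ⊕ Fin n → F)) (ha : a ≠ 0)
    (X : Subgroup (GL (Fin n ⊕ Fin n) F)) (hXG : X ≤ Cfsg.preserving (Units.coeHom (Matrix (Fin n ⊕ Fin n) (Fin n ⊕ Fin n) F)) (fun u v : (Fin n ⊕ Fin n → F) => ∑ i : Fin n, (u (Sum.inl i) * v (Sum.inr i) + u (Sum.inr i) * v (Sum.inl i))))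
    (hXO : ∀ H : Subgroup (GL (Fin n ⊕ Fin n) F),
      (∀ g : GL (Fin n ⊕ Fin n) F, g ∈ H ↔ (g ∈ Cfsg.preserving (Units.coeHom (Matrix (Fin n ⊕ Fin n) (Fin n ⊕ Fin n) F)) (fun u v : (Fin n ⊕ Fin n → F) => ∑ i : Fin n, (u (Sum.inl i) * v (Sum.inr i) + u (Sum.inr i) * v (Sum.inl i))) ∧ Matrix.mulVec (g : Matrix (Fin n ⊕ Fin n) (Fin n ⊕ Fin n) F) a = a)) →
      X ≤ (Cfsg.pCore 2 ↥H).map H.subtype)
    (hcard : Nat.card ↥X = Fintype.card F ^ (2 * n - 2))
    (hntv : ∀ x ∈ X, ((x : Matrix (Fin n ⊕ Fin n) (Fin n ⊕ Fin n) F) - 1).rank ≠ 1)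
    (L : Subgroup (GL (Fin n ⊕ Fin n) F)) (hXL : X ≤ L) (hLG : L ≤ Cfsg.preserving (Units.coeHom (Matrix (Fin n ⊕ Fin n) (Fin n ⊕ Fin n) F)) (fun u v : (Fin n ⊕ Fin n → F) => ∑ i : Fin n, (u (Sum.inl i) * v (Sum.inr i) + u (Sum.inr i) * v (Sum.inl i))))
    (hirr : ∀ W : Submodule F (Fin n ⊕ Fin n → F), (∀ g ∈ L, ∀ w ∈ W, Matrix.mulVec (g : Matrix (Fin n ⊕ Fin n) (Fin n ⊕ Fin n) F) w ∈ W) → W = ⊥ ∨ W = ⊤) :
    L = Cfsg.preserving (Units.coeHom (Matrix (Fin n ⊕ Fin n) (Fin n ⊕ Fin n) F)) (fun u v : (Fin n ⊕ Fin n → F) => ∑ i : Fin n, (u (Sum.inl i) * v (Sum.inr i) + u (Sum.inr i) * v (Sum.inl i))) ∨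
    (∃ Q : QuadraticForm F (Fin n ⊕ Fin n → F), (∀ u v, QuadraticMap.polar ⇑Q u v = (fun u v : (Fin n ⊕ Fin n → F) => ∑ i : Fin n, (u (Sum.inl i) * v (Sum.inr i) + u (Sum.inr i) * v (Sum.inl i))) u v) ∧
      (L = Cfsg.isometryGroup F ⇑Q ∨
        ∀ g : GL (Fin n ⊕ Fin n) F, g ∈ L ↔ (g ∈ Cfsg.isometryGroup F ⇑Q ∧ Even ((g : Matrix (Fin n ⊕ Fin n) (Fin n ⊕ Fin n) F) - 1).rank))) ∨
    (Fintype.card F = 2 ∧ n = 2 ∧ (Nonempty (↥L ≃* ↥(alternatingGroup (Fin 6))) ∨ Nonempty (↥L ≃* Equiv.Perm (Fin 5)))) := by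
  have h2 : (2 : F) = 0 := CharTwo.two_eq_zero
  have hB : ∀ u v : Fin n ⊕ Fin n → F, (spForm n F).B u v =
      ∑ i : Fin n, (u (Sum.inl i) * v (Sum.inr i) + u (Sum.inr i) * v (Sum.inl i)) := fun u v => by
    rw [spForm_B_eq]
    exact Finset.sum_congr rfl fun i _ => by rw [CharTwo.sub_eq_add, add_comm]
  set G := Cfsg.preserving (Units.coeHom (Matrix (Fin n ⊕ Fin n) (Fin n ⊕ Fin n) F))
    (fun u v : (Fin n ⊕ Fin n → F) =>
      ∑ i : Fin n, (u (Sum.inl i) * v (Sum.inr i) + u (Sum.inr i) * v (Sum.inl i))) with hG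
  have hGO : ∀ g, g ∈ G ↔ act g ∈ (spForm n F).O := fun g => by
    rw [mem_O, alt_isIsom_iff]
    simp only [hB]
    rfl
  have hf := spForm_nondeg n F
  have hd := finrank_sp n F
  let H : Subgroup (GL (Fin n ⊕ Fin n) F) :=
    { carrier := {g | g ∈ G ∧ act g a = a}
      mul_mem' := fun {x y} hx hy => ⟨G.mul_mem hx.1 hy.1, by rw [act_mul, hy.2, hx.2]⟩
      one_mem' := ⟨G.one_mem, act_one a⟩
      inv_mem' := fun {x} hx => ⟨G.inv_mem hx.1, by
        conv_lhs => rw [← hx.2]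
        exact act_inv_act x a⟩ }
  have hU : toE X ≤ (spForm n F).U a := by
    refine le_trans (Subgroup.comap_mono (hXO H fun _ => Iff.rfl))
      (le_U_of_normal (N := toE _) h2 hf (by omega) ha ?_ ?_ ?_ ?_)
    · exact ((CL.isPGroup_pCore 2 H).map _).of_equiv (toEEquiv _)
    · intro e he
      obtain ⟨x, -, hx⟩ := mem_toE.1 he
      rw [← act_actE_symm e, ← hx]
      exact (hGO _).1 x.2.1
    · intro e he
      obtain ⟨x, -, hx⟩ := mem_toE.1 he
      rw [← act_actE_symm e, ← hx]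
      exact x.2.2
    · intro g hg hga e he
      obtain ⟨x, hx, hx'⟩ := mem_toE.1 he
      have hgH : (actE _ F).symm g ∈ H :=
        ⟨(hGO _).2 (by rwa [act_actE_symm]), by rwa [act_actE_symm]⟩
      refine mem_toE.2 ⟨⟨_, hgH⟩ * x * ⟨_, hgH⟩⁻¹,
        (inferInstance : (pCore 2 H).Normal).conj_mem x hx _, ?_⟩
      rw [map_mul, map_mul, map_mul, map_mul, map_inv, map_inv, hx']
      rfl
  have hLO : toE L ≤ (spForm n F).O := fun e he => by
    rw [← act_actE_symm e]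
    exact (hGO _).1 (hLG he)
  have hLG' : toE L = (spForm n F).O → L = G := fun h => by
    ext g
    rw [act_mem_toE, h, hGO]
  rcases main (L := toE L) h2 hf (by omega) ha hU (by
      rw [← Nat.card_congr (toEEquiv X).toEquiv, hcard, hd, Nat.card_eq_fintype_card])
    (fun e he => by rw [← act_actE_symm e, rk_act]; exact hntv _ he) (Subgroup.comap_mono hXL) hLO
    (fun W hW => hirr W fun g hg w hw => hW _ ((act_mem_toE g).1 hg) w hw) with
    h | ⟨Q, hQ, h⟩ | ⟨hF, hV, h⟩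
  · exact Or.inl (hLG' h)
  · refine Or.inr (Or.inl ⟨Q.toQuad, fun u v => by rw [polar_toQuad, hQ, hB], ?_⟩)
    have e : ∀ g, g ∈ Cfsg.isometryGroup F Q.toQuad ↔ act g ∈ Q.O := mem_isometryGroup_iff_O Q
    refine h.imp (fun h => ?_) fun h g => ?_
    · ext g
      rw [act_mem_toE, h, e]
    · rw [act_mem_toE, h, e, rk_act]
  · obtain rfl : n = 2 := by omega
    rw [Nat.card_eq_fintype_card] at hF
    obtain ⟨e⟩ := Cfsg.Agent.S0247.result hF
    let ψ := (spEquiv 2 F).symm.trans e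
    let K := ((toE L).subgroupOf (spForm 2 F).O).map ψ.toMonoidHom
    let θ : L ≃* K := ((toEEquiv L).trans (Subgroup.subgroupOfEquivOfLe hLO).symm).trans
      (ψ.subgroupMap _)
    rcases perm_six K (by
      rwa [← Nat.card_congr θ.toEquiv, Nat.card_congr (toEEquiv L).toEquiv]) with h | h | h
    · refine Or.inl (hLG' (le_antisymm hLO fun g hg => ?_))
      have : ψ ⟨g, hg⟩ ∈ K := h ▸ Subgroup.mem_top _
      exact (Subgroup.mem_map_iff_mem (f := ψ.toMonoidHom) (K := (toE L).subgroupOf _) ψ.injective).1 this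
    · exact Or.inr (Or.inr ⟨hF, rfl, Or.inl (h.map θ.trans)⟩)
    · exact Or.inr (Or.inr ⟨hF, rfl, Or.inr (h.map θ.trans)⟩)

end Cfsg.Agent.S5712
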