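import Cfsg.Statements.S5713
import Cfsg.Agent.PERM.Babai
import Cfsg.Agent.PERM.JordanCycle

set_option autoImplicit false
open Cfsg

namespace Cfsg.Agent.S5713

/-- A classification-free minimal-degree bound. Let G be a finite group acting faithfully and primitively on a finite set Ω with n elements, and suppose that the image of G in the symmetric group on Ω does not contain the alternating group on Ω. Then every non-identity element of G moves at least (√n − 1)/2 points of Ω, that is, it fixes at most n − (√n − 1)/2 points. -/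
theorem result {G Ω : Type*} [Group G] [Finite G] [MulAction G Ω] [FaithfulSMul G Ω] [Fintype Ω] [DecidableEq Ω]
    (hprim : MulAction.IsPreprimitive G Ω)
    (hA : ¬ alternatingGroup Ω ≤ (MulAction.toPermHom G Ω).range)
    (g : G) (hg : g ≠ 1) :
    (Real.sqrt (Fintype.card Ω) - 1) / 2 ≤ (Fintype.card Ω : ℝ) - Nat.card (MulAction.fixedBy Ω g) := by
  classical
  set m := (MulAction.fixedBy Ω g)ᶜ.ncard with hm
  have hmn : (Fintype.card Ω : ℝ) - Nat.card (MulAction.fixedBy Ω g) = m := by
    have := Set.ncard_add_ncard_compl (MulAction.fixedBy Ω g)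
    rw [Nat.card_eq_fintype_card] at this
    rw [Nat.card_coe_set_eq, ← this]
    push_cast
    ring
  suffices h : Fintype.card Ω ≤ (2 * m + 1) ^ 2 by
    rw [hmn]
    have h1 : Real.sqrt (Fintype.card Ω) ≤ 2 * m + 1 :=
      Real.sqrt_le_iff.2 ⟨by positivity, by exact_mod_cast h⟩
    linarith
  obtain ⟨x, hx⟩ : ∃ x : Ω, g • x ≠ x := by
    by_contra hc
    push Not at hc
    exact hg (FaithfulSMul.eq_of_smul_eq_smul (α := Ω) fun a => by rw [hc, one_smul])
  by_cases h2 : ∀ a b c : Ω, b ≠ a → c ≠ a → CL.Babai.Same G b c a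
  swap
  · have h := CL.Babai.card_le hprim h2 hx.symm
    have h3 : (CL.Babai.D G x (g • x)).ncard ≤ m :=
      Set.ncard_le_ncard fun z hz hz' => hz ⟨g, hz', rfl⟩
    rw [Nat.card_eq_fintype_card] at h
    exact h.trans (Nat.pow_le_pow_left (by omega) 2)
  let φ := MulAction.toPermHom G Ω
  have hHp : MulAction.IsPreprimitive φ.range Ω := by
    let f : Ω →ₑ[φ.rangeRestrict] Ω := ⟨id, fun _ _ => rfl⟩
    exact MulAction.IsPreprimitive.of_surjective (f := f) Function.surjective_id
  let H := MulAction.stabilizer G x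
  have := Fintype.ofFinite H
  let S : Finset Ω := Finset.univ.filter fun y => y ≠ x ∧ g • y ≠ y
  have hS : S.card ≤ m := by
    rw [← Set.ncard_coe_finset]
    exact Set.ncard_le_ncard fun y hy => (Finset.mem_filter.1 hy).2.2
  have hcov : ∀ h : H, ∃ β ∈ S, ∃ γ ∈ S, h • β = γ := by
    intro h
    by_contra hc
    push Not at hc
    have hhx : (h : G) • x = x := h.2
    have hix : (h : G)⁻¹ • x = x := inv_smul_eq_iff.2 hhx.symm
    have h3 := CL.Perm.isThreeCycle_commutator_of_inter_eq (g := φ g) (h := φ (h * g * h⁻¹))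
      (a := x) hx (by
        change ((h : G) * g * (h : G)⁻¹) • x ≠ x
        rw [mul_smul, mul_smul, hix]
        exact fun e => hx (MulAction.injective (h : G) (e.trans hhx.symm))) (by
        intro y hy
        by_contra hcc
        push Not at hcc
        refine hc ((h : G)⁻¹ • y) (Finset.mem_filter.2 ⟨Finset.mem_univ _, fun e => hy ?_,
          fun e => hcc.2 ?_⟩) y (Finset.mem_filter.2 ⟨Finset.mem_univ _, hy, hcc.1⟩)
          (smul_inv_smul _ _)
        · rw [inv_smul_eq_iff.1 e, hhx]
        · change ((h : G) * g * (h : G)⁻¹) • y = y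
          rw [mul_smul, mul_smul, e, smul_inv_smul])
    exact hA (Equiv.Perm.alternatingGroup_le_of_isPreprimitive_of_isThreeCycle_mem hHp h3
      (mul_mem (mul_mem (mul_mem ⟨_, rfl⟩ ⟨_, rfl⟩) (inv_mem ⟨_, rfl⟩)) (inv_mem ⟨_, rfl⟩)))
  have hn1 : 1 ≤ Fintype.card Ω := Fintype.card_pos_iff.2 ⟨x⟩
  have hst : ∀ β : Ω, β ≠ x →
      (Fintype.card Ω - 1) * Nat.card (MulAction.stabilizer H β) = Nat.card H := by
    intro β hβ
    have h1 := (MulAction.stabilizer H β).index_mul_card
    have h3 : MulAction.orbit H β = {x}ᶜ := by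
      ext y
      constructor
      · rintro ⟨h, rfl⟩ e
        have hhx : (h : G) • x = x := h.2
        exact hβ (MulAction.injective (h : G) (e.trans hhx.symm))
      · intro hy
        obtain ⟨k, e1, e2⟩ := h2 x β y hβ hy
        exact ⟨⟨k, e1⟩, e2⟩
    rwa [MulAction.index_stabilizer, h3, Set.ncard_compl, Set.ncard_singleton,
      Nat.card_eq_fintype_card (α := Ω)] at h1
  have hpos : 0 < Nat.card H := Nat.card_pos
  obtain ⟨c, hc⟩ : ∃ c, (Fintype.card Ω - 1) * c = Nat.card H := ⟨_, hst _ hx⟩
  have hfib : ∀ p ∈ S ×ˢ S, (Finset.univ.filter fun h : H => h • p.1 = p.2).card ≤ c := by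
    rintro ⟨β, γ⟩ hp
    have hβ := (Finset.mem_filter.1 (Finset.mem_product.1 hp).1).2.1
    have e : Nat.card (MulAction.stabilizer H β) = c := by
      have h1 := (hst β hβ).trans hc.symm
      refine Nat.eq_of_mul_eq_mul_left (Nat.pos_of_ne_zero fun h0 => ?_) h1
      rw [h0, zero_mul] at hc
      omega
    rcases (Finset.univ.filter fun h : H => h • β = γ).eq_empty_or_nonempty with h | ⟨h₀, h⟩
    · simp only [h, Finset.card_empty, Nat.zero_le]
    · rw [← e, ← Nat.card_eq_finsetCard]
      have h0 := (Finset.mem_filter.1 h).2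
      refine Nat.card_le_card_of_injective (fun k => ⟨h₀⁻¹ * k.1, ?_⟩) ?_
      · rw [MulAction.mem_stabilizer_iff, mul_smul, (Finset.mem_filter.1 k.2).2, ← h0,
          inv_smul_smul]
      · intro a b h
        exact Subtype.ext (mul_left_cancel (congrArg Subtype.val h))
  have h3 := Finset.card_biUnion_le_card_mul (S ×ˢ S) _ c hfib
  have h4 : (S ×ˢ S).biUnion (fun p => Finset.univ.filter fun h : H => h • p.1 = p.2) =
      Finset.univ := by
    apply Finset.eq_univ_of_forall
    intro h
    obtain ⟨β, h1, γ, h2, e⟩ := hcov h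
    exact Finset.mem_biUnion.2 ⟨(β, γ), Finset.mem_product.2 ⟨h1, h2⟩,
      Finset.mem_filter.2 ⟨Finset.mem_univ _, e⟩⟩
  rw [h4, Finset.card_univ, ← Nat.card_eq_fintype_card, ← hc, Finset.card_product] at h3
  have hc0 : 0 < c := Nat.pos_of_ne_zero fun h0 => by
    rw [h0, mul_zero] at hc
    omega
  have h5 := Nat.le_of_mul_le_mul_right h3 hc0
  have h6 : S.card * S.card ≤ m * m := Nat.mul_le_mul hS hS
  have h7 : Fintype.card Ω ≤ m * m + 1 := by omega
  nlinarith

end Cfsg.Agent.S5713
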