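import Cfsg.Statements.S5729
import Cfsg.Agent.PERM.Derange

set_option autoImplicit false
open Cfsg

namespace Cfsg.Agent.S5729

/-- Let a finite group G act faithfully and transitively on a set with n ≥ 3 points. Then either G is a Frobenius permutation group (Frobenius as a permutation group: transitive, some non-identity element fixes a point, and no non-identity element fixes two points) of order n(n − 1) and exactly |G|/n of its elements are derangements (fix no point), or the number of derangements is greater than |G|/n. -/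
theorem result {G Ω : Type*} [Group G] [Finite G] [MulAction G Ω] [FaithfulSMul G Ω] [Fintype Ω] (htr : MulAction.IsPretransitive G Ω) (hn : 3 ≤ Fintype.card Ω) :
    ((MulAction.IsPretransitive G Ω ∧ (∃ g : G, g ≠ 1 ∧ ∃ ω : Ω, g • ω = ω) ∧ ∀ g : G, g ≠ 1 → Nat.card (MulAction.fixedBy Ω g) ≤ 1) ∧ Nat.card G = Fintype.card Ω * (Fintype.card Ω - 1) ∧ Fintype.card Ω * Nat.card {g : G // ∀ ω : Ω, g • ω ≠ ω} = Nat.card G) ∨
    Nat.card G < Fintype.card Ω * Nat.card {g : G // ∀ ω : Ω, g • ω ≠ ω} := by
  classical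
  have := Fintype.ofFinite G
  have hne : Nonempty Ω := Fintype.card_pos_iff.1 (by omega)
  set n := Fintype.card Ω with hn'
  set F : G → ℕ := fun g => Nat.card (MulAction.fixedBy Ω g) with hF
  have h1 : ∑ g, F g = Nat.card G := by
    have := CL.Perm.burnside_sum G Ω
    rwa [(CL.Perm.card_orbits_eq_one_iff G Ω).2 htr, one_mul] at this
  set r := Nat.card (MulAction.orbitRel.Quotient G (Ω × Ω)) with hr
  have h2 : ∑ g, F g * F g = r * Nat.card G := by
    have := CL.Perm.burnside_sum G (Ω × Ω)
    simpa only [CL.Perm.card_fixedBy_prod] using this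
  have hr2 : 2 ≤ r := by
    have : Nonempty (MulAction.orbitRel.Quotient G (Ω × Ω)) :=
      (nonempty_quotient_iff _).mpr inferInstance
    have h0 : 0 < r := Nat.card_pos
    have h1 : r ≠ 1 := by
      intro h
      have ht := (CL.Perm.card_orbits_eq_one_iff G (Ω × Ω)).1 h
      obtain ⟨a, b, hab⟩ := Fintype.exists_pair_of_one_lt_card (α := Ω) (by omega)
      obtain ⟨g, hg⟩ := ht.exists_smul_eq (a, a) (a, b)
      have e1 : g • a = a := congrArg Prod.fst hg
      have e2 : g • a = b := congrArg Prod.snd hg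
      exact hab (e1.symm.trans e2)
    omega
  have hFle : ∀ g, F g ≤ n := fun g => by
    rw [hn', ← Nat.card_eq_fintype_card]
    exact Nat.card_le_card_of_injective _ Subtype.val_injective
  have hF0 : ∀ g, F g = 0 ↔ ∀ ω : Ω, g • ω ≠ ω := fun g => by
    simp only [hF, Nat.card_eq_zero]
    constructor
    · rintro (h | h) ω hω
      · exact h.false ⟨ω, hω⟩
      · exact not_finite (MulAction.fixedBy Ω g)
    · intro h
      exact Or.inl ⟨fun x => h x.1 x.2⟩
  have hFn : ∀ g, F g = n → g = 1 := fun g hg => by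
    have hs : MulAction.fixedBy Ω g = Set.univ := by
      apply Set.eq_of_subset_of_ncard_le (Set.subset_univ _)
      rw [Set.ncard_univ, Nat.card_eq_fintype_card, ← Nat.card_coe_set_eq]
      exact hg.ge
    apply FaithfulSMul.eq_of_smul_eq_smul (α := Ω)
    intro a
    rw [one_smul]
    have : a ∈ MulAction.fixedBy Ω g := hs ▸ Set.mem_univ a
    exact this
  have hF1 : F 1 = n := by
    simp only [hF]
    rw [MulAction.fixedBy_one_eq_univ, Nat.card_coe_set_eq, Set.ncard_univ, Nat.card_eq_fintype_card]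
  set D := Nat.card {g : G // ∀ ω : Ω, g • ω ≠ ω} with hD
  have hDs : (D : ℤ) = ∑ g, if F g = 0 then (1 : ℤ) else 0 := by
    rw [hD, Nat.card_eq_fintype_card, Fintype.card_subtype, Finset.sum_boole]
    congr 2
    ext g
    simp only [Finset.mem_filter, Finset.mem_univ, true_and, hF0]
  have h1z : ∑ g, (F g : ℤ) = Nat.card G := by exact_mod_cast h1
  have h2z : ∑ g, (F g : ℤ) * F g = r * Nat.card G := by exact_mod_cast h2
  have hGz : ∑ _g : G, (1 : ℤ) = Nat.card G := by simp [Nat.card_eq_fintype_card]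
  -- the nonnegative terms
  set T : G → ℤ := fun g => n * (if F g = 0 then (1 : ℤ) else 0) - ((F g : ℤ) - 1) * (F g - n)
    with hT
  have hT0 : ∀ g, 0 ≤ T g := fun g => by
    simp only [hT]
    split_ifs with h
    · rw [h]; push_cast; ring_nf; rfl
    · have a1 : (1 : ℤ) ≤ F g := by exact_mod_cast Nat.one_le_iff_ne_zero.2 h
      have a2 : (F g : ℤ) ≤ n := by exact_mod_cast hFle g
      nlinarith
  have hTs : ∑ g, T g = n * D - (r - 1) * Nat.card G := by
    have e : ∀ g, T g = n * (if F g = 0 then (1 : ℤ) else 0) - (F g : ℤ) * F g +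
        (n + 1) * (F g : ℤ) - n * 1 := fun g => by simp only [hT]; ring
    simp only [e, Finset.sum_sub_distrib, Finset.sum_add_distrib, ← Finset.mul_sum]
    rw [← hDs, h1z, h2z, hGz]
    ring
  have hGpos : (0 : ℤ) < Nat.card G := by exact_mod_cast (Nat.card_pos (α := G))
  have hsum0 : 0 ≤ ∑ g, T g := Finset.sum_nonneg fun g _ => hT0 g
  by_cases hlt : Nat.card G < n * D
  · exact Or.inr hlt
  left
  have hle : (n : ℤ) * D ≤ Nat.card G := by exact_mod_cast not_lt.1 hlt
  have hr2z : (2 : ℤ) ≤ r := by exact_mod_cast hr2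
  have hreq : (r : ℤ) = 2 := by nlinarith
  have hnD : (n : ℤ) * D = Nat.card G := by rw [hTs, hreq] at hsum0; linarith
  have hsum : ∑ g, T g = 0 := by rw [hTs, hreq, hnD]; ring
  have hTz : ∀ g, T g = 0 := fun g =>
    (Finset.sum_eq_zero_iff_of_nonneg fun g _ => hT0 g).1 hsum g (Finset.mem_univ g)
  have hle1 : ∀ g : G, g ≠ 1 → F g ≤ 1 := fun g hg => by
    have h := hTz g
    simp only [hT] at h
    by_contra hc
    rw [if_neg (by omega)] at h
    have a1 : (1 : ℤ) < F g := by exact_mod_cast not_le.1 hc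
    have a2 : (F g : ℤ) < n := by exact_mod_cast lt_of_le_of_ne (hFle g) fun e => hg (hFn g e)
    nlinarith
  have hcard : (Nat.card G : ℤ) = n * (n - 1) := by
    have e : ∑ g, ((F g : ℤ) * F g - F g) = n * (n - 1) := by
      rw [Finset.sum_eq_single (1 : G)]
      · rw [hF1]; ring
      · intro g _ hg
        have := hle1 g hg
        interval_cases F g <;> simp
      · simp
    rw [Finset.sum_sub_distrib, h1z, h2z, hreq] at e
    linarith
  refine ⟨⟨htr, ?_, hle1⟩, ?_, by exact_mod_cast hnD⟩
  · by_contra hc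
    push Not at hc
    have e : ∑ g, (F g : ℤ) = n := by
      rw [Finset.sum_eq_single (1 : G)]
      · rw [hF1]
      · intro g _ hg
        exact_mod_cast (hF0 g).2 (hc g hg)
      · simp
    rw [h1z, hcard] at e
    have : (3 : ℤ) ≤ n := by exact_mod_cast hn
    nlinarith
  · have : ((n - 1 : ℕ) : ℤ) = n - 1 := by rw [Nat.cast_sub (by omega)]; simp
    have h3 : (Nat.card G : ℤ) = ((n * (n - 1) : ℕ) : ℤ) := by rw [Nat.cast_mul, this, hcard]
    exact_mod_cast h3

end Cfsg.Agent.S5729
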