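import Cfsg.Statements.S5730
import Cfsg.Agent.PERM.Der3
import Cfsg.Agent.S5729

set_option autoImplicit false
open Cfsg

namespace Cfsg.Agent.S5730

/-- Let a finite group G act faithfully and transitively on a set with n ≥ 7 points. Then either G is a Frobenius permutation group (Frobenius as a permutation group: transitive, some non-identity element fixes a point, and no non-identity element fixes two points) of order n(n − 1)/a with a ∈ {1, 2}, in which case exactly a|G|/n of its elements are derangements, or the number of derangements is at least 2|G|/n. (Equality does occur: PSL₃(2) acting on the 7 points of the Fano plane has exactly 2|G|/7 derangements.) -/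
theorem result {G Ω : Type*} [Group G] [Finite G] [MulAction G Ω] [FaithfulSMul G Ω] [Fintype Ω] (htr : MulAction.IsPretransitive G Ω) (hn : 7 ≤ Fintype.card Ω) :
    (∃ a : ℕ, (a = 1 ∨ a = 2) ∧ (MulAction.IsPretransitive G Ω ∧ (∃ g : G, g ≠ 1 ∧ ∃ ω : Ω, g • ω = ω) ∧ ∀ g : G, g ≠ 1 → Nat.card (MulAction.fixedBy Ω g) ≤ 1) ∧ a * Nat.card G = Fintype.card Ω * (Fintype.card Ω - 1) ∧ Fintype.card Ω * Nat.card {g : G // ∀ ω : Ω, g • ω ≠ ω} = a * Nat.card G) ∨
    2 * Nat.card G ≤ Fintype.card Ω * Nat.card {g : G // ∀ ω : Ω, g • ω ≠ ω} := by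
  classical
  have := Fintype.ofFinite G
  have e : (Finset.univ.filter fun g : G => CL.Der2.fx Ω g = 0).card = Nat.card {g : G // ∀ ω : Ω, g • ω ≠ ω} := by
    rw [Nat.card_eq_fintype_card, Fintype.card_subtype]
    congr 1
    ext g
    simp [CL.Der2.fx, Finset.filter_eq_empty_iff]
  rcases CL.Der2.main htr hn with ⟨-, h⟩ | h
  · rcases S5729.result htr (show 3 ≤ Fintype.card Ω by omega) with ⟨h1, h2, h3⟩ | h'
    · exact Or.inl ⟨1, Or.inl rfl, h1, by rw [one_mul, h2], by rw [one_mul, h3]⟩
    · exact absurd (e ▸ h) h'.not_ge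
  · exact Or.inr (e ▸ h)

end Cfsg.Agent.S5730
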