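import Cfsg.Statements.S5946
-- import your own Cfsg.Agent.* helpers here

set_option autoImplicit false
open Cfsg

namespace Cfsg.Agent.S5946

/-- Let F ⊆ K be finite fields with [K : F] = n ≥ 2 and regard K as an n-dimensional F-vector space. The Singer group M ≤ GL_F(K) of multiplications by the non-zero elements of K is self-centralizing: every F-linear automorphism of K commuting with all of M lies in M. -/
theorem result {F K : Type*} [Field F] [Fintype F] [Field K] [Fintype K] [Algebra F K] (n : ℕ) (hn : 2 ≤ n) (hdim : Module.finrank F K = n) :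
    Subgroup.centralizer (((Units.map ((Algebra.lmul F K : K →ₐ[F] Module.End F K) : K →* Module.End F K)).range : Subgroup (Module.End F K)ˣ) : Set (Module.End F K)ˣ) = (Units.map ((Algebra.lmul F K : K →ₐ[F] Module.End F K) : K →* Module.End F K)).range := by
  apply le_antisymm
  · intro φ hφ
    rw [Subgroup.mem_centralizer_iff] at hφ
    have key : ∀ k : K, (φ : Module.End F K) k = (φ : Module.End F K) 1 * k := by
      intro k
      by_cases hk : k = 0
      · simp [hk]
      · have h := hφ _ ⟨Units.mk0 k hk, rfl⟩
        have h2 := congrArg (fun u : (Module.End F K)ˣ => (u : Module.End F K) 1) h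
        simp only [Units.val_mul, Units.coe_map, Units.val_mk0, MonoidHom.coe_coe,
          Module.End.mul_apply, Algebra.coe_lmul_eq_mul, LinearMap.mul_apply', mul_one] at h2
        rw [← h2, mul_comm]
    have h1 : (φ : Module.End F K) 1 ≠ 0 := by
      intro h0
      have : ((φ⁻¹ : (Module.End F K)ˣ) : Module.End F K) ((φ : Module.End F K) 1) = 1 := by
        rw [← Module.End.mul_apply, Units.inv_mul, Module.End.one_apply]
      rw [h0, map_zero] at this
      exact zero_ne_one this
    refine ⟨Units.mk0 _ h1, ?_⟩
    ext k
    simp [key k]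
  · rintro _ ⟨a, rfl⟩
    rw [Subgroup.mem_centralizer_iff]
    rintro _ ⟨b, rfl⟩
    rw [← map_mul, ← map_mul, mul_comm]

end Cfsg.Agent.S5946
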