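import Cfsg.Statements.S5739
import Cfsg.Agent.S5946

set_option autoImplicit false
open Cfsg

namespace Cfsg.Agent.S5739

/-- Let F ⊆ K be finite fields with |F| = q and [K : F] = n ≥ 2, and let M ≤ GL_F(K) be the Singer group of multiplications by non-zero elements of K. If g ∈ GL_F(K) does not normalise M, then the order of M ∩ gMg⁻¹ divides q^r − 1 for some proper divisor r of n. In particular, when n is prime, that order divides q − 1. -/
theorem result {F K : Type*} [Field F] [Fintype F] [Field K] [Fintype K] [Algebra F K] (n : ℕ) (hn : 2 ≤ n) (hdim : Module.finrank F K = n)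
    (g : (Module.End F K)ˣ) (hg : ((Units.map ((Algebra.lmul F K : K →ₐ[F] Module.End F K) : K →* Module.End F K)).range).map (MulAut.conj g).toMonoidHom ≠ (Units.map ((Algebra.lmul F K : K →ₐ[F] Module.End F K) : K →* Module.End F K)).range) :
    ∃ r : ℕ, 1 ≤ r ∧ r ∣ n ∧ r < n ∧ Nat.card ↥(((Units.map ((Algebra.lmul F K : K →ₐ[F] Module.End F K) : K →* Module.End F K)).range).map (MulAut.conj g).toMonoidHom ⊓ (Units.map ((Algebra.lmul F K : K →ₐ[F] Module.End F K) : K →* Module.End F K)).range) ∣ Fintype.card F ^ r - 1 := by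
  set φ := Units.map ((Algebra.lmul F K : K →ₐ[F] Module.End F K) : K →* Module.End F K) with hφ
  have hinj : Function.Injective φ := Units.map_injective Algebra.lmul_injective
  set M' := φ.range.map (MulAut.conj g).toMonoidHom with hM'
  have : Finite (Module.End F K) := Module.finite_of_finite F
  let L := ((Subalgebra.centralizer F (Units.val '' (M' : Set (Module.End F K)ˣ))).comap
    (Algebra.lmul F K)).toIntermediateField' (Finite.isField_of_domain _)
  have h1 := Module.finrank_mul_finrank F L K
  rw [hdim] at h1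
  refine ⟨Module.finrank F L, Module.finrank_pos, Dvd.intro _ h1, ?_, ?_⟩
  · by_contra hc
    have h2 : L = ⊤ := IntermediateField.eq_of_le_of_finrank_le le_top (by simp; omega)
    refine hg (Subgroup.eq_of_le_of_card_ge (fun m hm => ?_)
      (Nat.card_congr (φ.range.equivMapOfInjective _ (MulAut.conj g).injective).toEquiv).le)
    rw [hφ, ← Cfsg.Agent.S5946.result n hn hdim, Subgroup.mem_centralizer_iff]
    rintro _ ⟨a, rfl⟩
    have : (a : K) ∈ L := h2 ▸ IntermediateField.mem_top
    exact Units.ext (this m ⟨m, hm, rfl⟩).symm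
  · rw [inf_comm, ← Subgroup.map_comap_eq, Subgroup.card_map_of_injective hinj, ← IsCyclic.exponent_eq_card]
    refine Monoid.exponent_dvd_of_forall_pow_eq_one fun ⟨a, ha⟩ => Subtype.ext (Units.ext ?_)
    have h3 : (a : K) ∈ L := by
      rintro _ ⟨_, ⟨_, ⟨b, rfl⟩, rfl⟩, rfl⟩
      obtain ⟨_, ⟨c, rfl⟩, e⟩ := ha
      change _ * ((φ a : (Module.End F K)ˣ) : Module.End F K) = (φ a : (Module.End F K)ˣ) * _
      rw [← e, ← Units.val_mul, ← Units.val_mul, ← map_mul, ← map_mul, ← map_mul, ← map_mul,
        mul_comm]
    have := Fintype.ofFinite L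
    have h4 := FiniteField.pow_card_sub_one_eq_one (⟨a, h3⟩ : L)
      (fun h => a.ne_zero (congrArg Subtype.val h))
    rw [Module.card_eq_pow_finrank (K := F)] at h4
    simpa using congrArg Subtype.val h4

end Cfsg.Agent.S5739
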