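import Cfsg.Statements.S5746
import Cfsg.Agent.S1679
import Cfsg.Agent.PERM.J2U
-- import your own Cfsg.Agent.* helpers here

set_option autoImplicit false
open Cfsg

namespace Cfsg.Agent.S5746

open CL.K CL.PM CL.CG MulAction

theorem rank3 {G : Type*} [Group G] [Finite G] (H : Subgroup G) {x y : G ⧸ H} {a b : ℕ}
    (ha : (orbit H x).ncard = a) (hb : (orbit H y).ncard = b) (h1 : a ≠ 1) (h2 : b ≠ 1) (hab : a ≠ b)
    (hi : H.index = 1 + a + b) (z : G ⧸ H) : z = ((1 : G) : G ⧸ H) ∨ z ∈ orbit H x ∨ z ∈ orbit H y := by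
  have o1 : orbit H ((1 : G) : G ⧸ H) = {((1 : G) : G ⧸ H)} := by
    ext w
    simp only [mem_orbit_iff, Set.mem_singleton_iff]
    constructor
    · rintro ⟨h, rfl⟩
      exact QuotientGroup.eq.2 (by simp)
    · rintro rfl; exact ⟨1, one_smul _ _⟩
  have dj : ∀ u v : G ⧸ H, (orbit H u).ncard ≠ (orbit H v).ncard → Disjoint (orbit H u) (orbit H v) := by
    intro u v h
    rw [Set.disjoint_left]
    intro w hu hv
    exact h (by rw [← orbit_eq_iff.2 hu, ← orbit_eq_iff.2 hv])
  have n1 : (orbit H ((1 : G) : G ⧸ H)).ncard = 1 := by rw [o1, Set.ncard_singleton]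
  have hu : (orbit H ((1 : G) : G ⧸ H) ∪ orbit H x) ∪ orbit H y = Set.univ := by
    refine Set.eq_of_subset_of_ncard_le (Set.subset_univ _) ?_
    rw [Set.ncard_union_eq (Set.disjoint_union_left.2 ⟨dj _ _ (by omega), dj _ _ (by omega)⟩),
      Set.ncard_union_eq (dj _ _ (by omega)), n1, ha, hb, Set.ncard_univ, ← hi]
    rfl
  have := hu.ge (Set.mem_univ z)
  rw [o1] at this
  simpa [or_assoc] using this

theorem coatom3 {G : Type*} [Group G] [Finite G] (H : Subgroup G) {x y : G ⧸ H} {a b : ℕ}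
    (ha : (orbit H x).ncard = a) (hb : (orbit H y).ncard = b) (hi : H.index ≠ 1)
    (h1 : ¬ a ∣ H.index) (h1' : ¬ a + 1 ∣ H.index) (h2 : ¬ b ∣ H.index) (h2' : ¬ b + 1 ∣ H.index)
    (h : ∀ z : G ⧸ H, z = ((1 : G) : G ⧸ H) ∨ z ∈ orbit H x ∨ z ∈ orbit H y) : IsCoatom H := by
  refine ⟨fun e => hi (Subgroup.index_eq_one.2 e), fun K hK => ?_⟩
  set S : Set (G ⧸ H) := orbit K ((1 : G) : G ⧸ H) with hS
  have hc : S.ncard ∣ H.index := by
    have e : stabilizer K ((1 : G) : G ⧸ H) = H.subgroupOf K := by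
      ext k
      simp only [mem_stabilizer_iff, Subgroup.mem_subgroupOf]
      change ((k * 1 : G) : G ⧸ H) = _ ↔ _
      rw [eq_comm, QuotientGroup.eq]; simp
    rw [hS, ← index_stabilizer, e]
    exact Subgroup.relIndex_dvd_index_of_le hK.le
  have hin : ∀ u : G ⧸ H, ∀ w ∈ orbit H u, (w ∈ S ↔ u ∈ S) := by
    rintro u _ ⟨g, rfl⟩
    exact ⟨fun h => by
      have := mem_orbit_of_mem_orbit (⟨(g⁻¹ : H), hK.le (g⁻¹).2⟩ : K) h
      change g⁻¹ • g • u ∈ _ at this
      rwa [inv_smul_smul] at this, fun h => mem_orbit_of_mem_orbit (⟨g, hK.le g.2⟩ : K) h⟩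
  have h0 : ((1 : G) : G ⧸ H) ∈ S := mem_orbit_self _
  have key : ∀ u : G ⧸ H, ¬ (orbit H u).ncard ∣ H.index → ¬ (orbit H u).ncard + 1 ∣ H.index →
      S ≠ insert ((1 : G) : G ⧸ H) (orbit H u) := by
    intro u k1 k2 e
    rw [e] at hc
    by_cases m : ((1 : G) : G ⧸ H) ∈ orbit H u
    · rw [Set.insert_eq_of_mem m] at hc; exact k1 hc
    · rw [Set.ncard_insert_of_notMem m] at hc; exact k2 hc
  by_cases hx : x ∈ S <;> by_cases hy : y ∈ S
  · rw [eq_top_iff]
    intro g _
    have : (g : G ⧸ H) ∈ S := by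
      rcases h g with e | e | e
      · rwa [e]
      · exact (hin _ _ e).2 hx
      · exact (hin _ _ e).2 hy
    obtain ⟨k, hk⟩ := this
    have : ((k * 1 : G) : G ⧸ H) = g := hk
    rw [QuotientGroup.eq, mul_one] at this
    simpa using K.mul_mem k.2 (hK.le this)
  · refine absurd (Set.ext fun z => ⟨fun hz => ?_, ?_⟩) (key x (ha ▸ h1) (ha ▸ h1'))
    · rcases h z with e | e | e
      · exact .inl e
      · exact .inr e
      · exact absurd ((hin _ _ e).1 hz) hy
    · rintro (rfl | e)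
      · exact h0
      · exact (hin _ _ e).2 hx
  · refine absurd (Set.ext fun z => ⟨fun hz => ?_, ?_⟩) (key y (hb ▸ h2) (hb ▸ h2'))
    · rcases h z with e | e | e
      · exact .inl e
      · exact absurd ((hin _ _ e).1 hz) hx
      · exact .inr e
    · rintro (rfl | e)
      · exact h0
      · exact (hin _ _ e).2 hy
  · obtain ⟨g, hg, hg'⟩ := SetLike.exists_of_lt hK
    have hz : (g : G ⧸ H) ∈ S := ⟨⟨g, hg⟩, by change ((g * 1 : G) : G ⧸ H) = g; rw [mul_one]⟩
    rcases h g with e | e | e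
    · rw [eq_comm, QuotientGroup.eq] at e; exact absurd (by simpa using e) hg'
    · exact absurd ((hin _ _ e).1 hz) hx
    · exact absurd ((hin _ _ e).1 hz) hy

theorem stab_eq {G : Type*} [Group G] (H : Subgroup G) (x : G) :
    (H ⊓ H.map (MulAut.conj x).toMonoidHom).subgroupOf H = stabilizer H (x : G ⧸ H) := by
  ext k
  rw [Subgroup.inf_subgroupOf_left, Subgroup.mem_subgroupOf, mem_stabilizer_iff]
  change _ ↔ ((k * x : G) : G ⧸ H) = _
  rw [eq_comm, QuotientGroup.eq, Subgroup.mem_map]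
  constructor
  · rintro ⟨h, hh, e⟩
    rw [← e]; simpa [mul_assoc] using hh
  · intro h
    exact ⟨_, h, by simp [mul_assoc]⟩

theorem key {Q G : Type*} [Group Q] [Group G] [Finite G] (f : Q →* G) (hf : Function.Injective f)
    {M U : Subgroup Q} (hM : IsCoatom M) (hU : IsCoatom U) (iM : M.index = 315) (iU : U.index = 100)
    (hi : f.range.index = 416) {x y : G} (hx : ∀ m ∈ M, x⁻¹ * f m * x ∈ f.range)
    (hx' : ¬ ∀ q, x⁻¹ * f q * x ∈ f.range) (hy : ∀ m ∈ U, y⁻¹ * f m * y ∈ f.range)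
    (hy' : ¬ ∀ q, y⁻¹ * f q * y ∈ f.range) :
    IsCoatom f.range ∧ ∀ z ∉ f.range,
      IsCoatom ((f.range ⊓ f.range.map (MulAut.conj z).toMonoidHom).subgroupOf f.range) := by
  set e := MonoidHom.ofInjective hf
  have st : ∀ {M : Subgroup Q} {x : G}, IsCoatom M → (∀ m ∈ M, x⁻¹ * f m * x ∈ f.range) →
      (¬ ∀ q, x⁻¹ * f q * x ∈ f.range) → IsCoatom (stabilizer f.range (x : G ⧸ f.range)) ∧
      (orbit f.range (x : G ⧸ f.range)).ncard = M.index := by
    intro M x hM hx hx'
    have hm : ∀ q, e q ∈ stabilizer f.range (x : G ⧸ f.range) ↔ x⁻¹ * f q * x ∈ f.range := fun q => by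
      rw [mem_stabilizer_iff]
      change ((f q * x : G) : G ⧸ f.range) = _ ↔ _
      rw [eq_comm, QuotientGroup.eq, mul_assoc]
    have h1 : IsCoatom (M.map e.toMonoidHom) := (e.mapSubgroup.isCoatom_iff M).2 hM
    have h2 : M.map e.toMonoidHom = stabilizer f.range (x : G ⧸ f.range) := by
      refine (h1.le_iff.1 ?_).elim (fun h => absurd (fun q => (hm q).1 (h.ge trivial)) hx') Eq.symm
      rintro _ ⟨m, hm', rfl⟩
      exact (hm m).2 (hx m hm')
    rw [← index_stabilizer, ← h2]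
    exact ⟨h1, Subgroup.index_map_equiv _ e⟩
  obtain ⟨c1, n1⟩ := st hM hx hx'
  obtain ⟨c2, n2⟩ := st hU hy hy'
  rw [iM] at n1
  rw [iU] at n2
  have h3 := rank3 _ n1 n2 (by norm_num) (by norm_num) (by norm_num) hi
  refine ⟨coatom3 _ n1 n2 (by omega) (by rw [hi]; norm_num) (by rw [hi]; norm_num) (by rw [hi]; norm_num)
    (by rw [hi]; norm_num) h3, fun z hz => ?_⟩
  rw [stab_eq]
  have tr : ∀ u : G ⧸ f.range, IsCoatom (stabilizer f.range u) → ∀ w ∈ orbit f.range u,
      IsCoatom (stabilizer f.range w) := by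
    rintro u hu _ ⟨g, rfl⟩
    simp only
    rw [stabilizer_smul_eq_stabilizer_map_conj]
    exact ((MulAut.conj g).mapSubgroup.isCoatom_iff _).2 hu
  rcases h3 z with h | h | h
  · rw [eq_comm, QuotientGroup.eq] at h; exact absurd (by simpa using h) hz
  · exact tr _ c1 _ h
  · exact tr _ c2 _ h

noncomputable def eqB (mul : ℕ → ℕ → ℕ) (one : ℕ) (L I I' : List ℕ) : Bool :=
  lall (fun i => blt i (llen L)) I && lall (fun i => blt i (llen L)) I' && Nat.beq (word mul L I one) (word mul L I' one)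

theorem ev_eq {G : Type*} [Group G] {φ : G → ℕ} {mul : ℕ → ℕ → ℕ} {one : ℕ} (C : IsCode φ mul one) {L : List ℕ}
    (hL : ∀ c ∈ L, Mem φ ⊤ c) {I I' : List ℕ} (h : eqB mul one L I I' = true) :
    CL.CE.ev (gl φ L) I = CL.CE.ev (gl φ L) I' := by
  rw [eqB, Bool.and_eq_true, Bool.and_eq_true, lall_iff, lall_iff, llen_eq] at h
  have h1 := C.word_eq hL (fun i hi => lt_of_blt (h.1.1 i hi)) 1
  have h2 := C.word_eq hL (fun i hi => lt_of_blt (h.1.2 i hi)) 1
  rw [C.map_one, one_mul] at h1 h2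
  exact C.inj (by rw [← h1, ← h2]; exact eq_of_beq h.2)

theorem elt_eq {G : Type*} [Group G] {φ : G → ℕ} {mul : ℕ → ℕ → ℕ} {one : ℕ} (C : IsCode φ mul one) {L : List ℕ}
    (hL : ∀ c ∈ L, Mem φ ⊤ c) {W : List (ℕ × List ℕ)} (h : wordsB mul one L W = true) :
    ∀ c ∈ W, elt φ c.1 = CL.CE.ev (gl φ L) c.2 := by
  intro c hc
  rw [wordsB, lall_iff] at h
  have h0 := h c hc
  rw [Bool.and_eq_true, lall_iff, llen_eq] at h0
  have h1 := C.word_eq hL (fun i hi => lt_of_blt (h0.1 i hi)) 1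
  rw [C.map_one, one_mul, eq_of_beq h0.2] at h1
  rw [h1, C.elt_code]

set_option maxRecDepth 100000
set_option exponentiation.threshold 2000

def WA : List (ℕ × List ℕ) := [(0x4000000000000000000000000000000000000010000000000000000000000000000000000000040000000000000000000000000000000000000100000000000000000000000000000000000004800000000000000000000000000000000000012, [0]),
  (0x8000000000180000f00000c0000500000000002000020000060000380000600001800004000024000000000300001200002c0000600000000009000004000050000180000e0000140000100001c00000000014000030000480000c00000000007, [3, 2, 0, 3, 2, 0, 3]),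
  (0x4000000000000000000000000000000000000010000000000000000000000000000000000000480000000000000000000000000000000000001200000000000000000000000000000000000000400000000000000000000000000000000000001, [1, 0, 1]),
  (0x200001200002000012000000000000000440000b0000440000b000000000000000200001200002c00001000000000000000440000b000008000080000000000000000000000000000000000000280000b000000000000000000000000003c00009, [1, 3, 0, 1, 2, 3, 2, 1, 3, 0, 1, 3, 2, 3, 2, 1, 0, 1, 3, 2, 1]),
  (0xc00003000000000000000000000000000c000100000000000000000000000000000000000000000000100000000000000000000000000480000000000000000000000000000000000000000000c00010000000000000000000000000004000010, [3, 1, 0, 3, 2, 3, 1, 2, 1, 3, 2, 3, 1, 0, 3, 2, 0, 1])]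
def A : List ℕ := WA.map Prod.fst
def R5 : List (List ℕ) := S1679.R.filter fun r => 5 ∉ r
def wca : List ℕ := [3, 2, 3, 4, 1, 2, 3, 0, 1, 0, 1, 2, 3, 4, 3, 2, 3, 1, 0, 1, 2, 3, 0, 1, 2, 3]
def wcb : List ℕ := [3, 2, 3, 4, 3, 1, 2, 3, 2, 1, 0, 1, 2, 3, 0, 1, 2, 1, 0, 1]
def wck : List ℕ := [0, 1, 2, 3, 4, 3, 1, 2, 3, 0, 1, 2, 3, 0, 1, 2, 0, 1]
def wy : List ℕ := [1, 5, 3, 4, 1, 0, 1, 2, 3, 1, 2, 0, 1, 5]
def wy0 : List ℕ := [2, 3, 2, 1, 0, 1, 2, 3, 2]
def wyk : List ℕ := [3, 4, 2, 3, 1, 2, 3, 4, 2, 1, 0, 1, 2, 3, 1, 2, 0, 1, 0, 1]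
def wf : List ℕ := [5, 4, 5, 5, 4, 5, 2, 3, 4, 1, 2, 3, 1, 2, 3, 4, 1, 2, 3, 2, 3, 1, 0, 1, 2, 3, 4, 2, 3, 1, 2, 1, 0]
def WB : List (ℕ × List ℕ) := [(CL.J2.c0, [0]), (CL.J2.c1, [3, 2, 3, 4, 1, 2, 3, 2, 1, 0, 1, 2, 3, 4, 1, 2, 3, 1, 2, 3]), (CL.J2.c2, [3, 2, 3]), (CL.J2.c3, [3, 1, 2, 3, 0, 1]), (CL.J2.ca, wca),
  (CL.J2.cb, wcb), (CL.J2.ck, wck)]
def ws : List (List ℕ) := [[0], [1], [2], [3], [4]]

theorem chkA : wordsB CL.J2.mul CL.J2.one CL.J2.L WA = true := by decide +kernel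
theorem chkB : wordsB CL.J2.mul CL.J2.one A WB = true := by decide +kernel
theorem chkR : relsB CL.J2.mul CL.J2.one A [CL.J2.one] R5 = true := by decide +kernel
theorem chkG : (eqB S1679.mul S1679.one S1679.L (wca ++ [5]) (5 :: wca) &&
    eqB S1679.mul S1679.one S1679.L (wcb ++ [5]) (5 :: wcb) &&
    eqB S1679.mul S1679.one S1679.L (0 :: wy) (wy ++ wy0) &&
    eqB S1679.mul S1679.one S1679.L (wck ++ wy) (wy ++ wyk) &&
    eqB S1679.mul S1679.one S1679.L [5] (CL.CE.substW (ws ++ [wy]) wf) &&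
    eqB S1679.mul S1679.one S1679.L [5] [1, 5, 1, 5, 1] && eqB S1679.mul S1679.one S1679.L [5, 5] []) = true := by
  decide +kernel
theorem chkN : (lall (fun i => blt i (llen S1679.L)) [0] && !Nat.beq (word S1679.mul S1679.L [0] S1679.one) S1679.one) =
    true := by decide +kernel

attribute [local irreducible] relsB wordsB eqB mulC CL.J2.mul

theorem le5 {G : Type*} [Group G] {g : ℕ → G} (h : CL.CE.Pres g id R5) : CL.CE.CardLe (CL.CE.gen g ws) 604800 :=
  (h.idxLe ws [[0], [1], [2], [3]] CL.Suz.Eabcde.covers (by decide +kernel)).cardLe ((h.idxLe [[0], [1], [2], [3]]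
    [[0], [1]] CL.Suz.Eabcd.covers (by decide +kernel)).cardLe ((h.idxLe [[0], [1]] [] CL.Suz.Eab.covers
      (by decide +kernel)).cardLe (CL.CE.cardLe_nil g) le_rfl) le_rfl) (by norm_num)

theorem mat_map {K K' : Type*} [CommRing K] [CommRing K'] (e : K →+* K') (n : ℕ) (A : CL.Rep2.Vec) (s : K) :
    (CL.Rep2.mat n A s).map e = CL.Rep2.mat n A (e s) := by
  have : ∀ c k, e (CL.Rep2.bas K n c k) = CL.Rep2.bas K' n c k := fun c k => by
    simp only [CL.Rep2.bas]; split_ifs <;> simp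
  change e.mapMatrix _ = _
  rw [CL.Rep2.mat, CL.Rep2.mat, map_add, map_one, map_list_sum, List.map_map]
  congr 2
  refine List.map_congr_left fun c _ => ?_
  ext i j
  simp [Matrix.vecMulVec_apply, this]

theorem main {G : Type*} [Group G] {ρ : G →* Matrix (Fin 12) (Fin 12) (ZMod 2)} (hc : Nat.card G = 251596800)
    (C : IsCode (fun g => code 4 (ρ g)) S1679.mul S1679.one) (hL : ∀ c ∈ S1679.L, Mem (fun g => code 4 (ρ g)) ⊤ c) :
    ∃ H : Subgroup G, IsCoatom H ∧ Cfsg.Spor.IsoJ2 H ∧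
      ∀ x : G, x ∉ H → IsCoatom ((H ⊓ H.map (MulAut.conj x).toMonoidHom).subgroupOf H) := by
  open CL.CE in
  have : Finite G := Nat.finite_of_card_ne_zero (by rw [hc]; norm_num)
  have : Finite Spor.J2 := Nat.finite_of_card_ne_zero (by rw [CL.J2.card_J2]; norm_num)
  have M := CL.J2.model
  set φ := CL.J2.φ
  have hA : ∀ c ∈ A, Mem φ ⊤ c := M.C.mem_of_wordsB M.mem_L chkA
  have hB := elt_eq M.C hA chkB
  have P1 := M.C.pres_id hA chkR (by decide)
  have P2 := (C.pres_id hL S1679.rels (by decide)).mono (R₂ := R5) (by decide +kernel)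
  set g := gl φ A
  set g' := gl (fun g => code 4 (ρ g)) S1679.L with hg'
  have ht : CL.CE.gen g ws = ⊤ := by
    rw [M.C.gen_gl hA (by decide), eq_top_iff, ← M.gen_L]
    refine M.C.gen_le fun c hc => M.C.mem_of_wordsB (mem_gen hA) chkB c ?_
    revert c; simp [WB, CL.J2.L]
  obtain ⟨f0, hs, hf0⟩ := exists_hom_of_card ws (le5 (P1.prod P2))
    (by rw [ht, Subgroup.card_top, CL.J2.card_J2])
  let f : Spor.J2 →* G := (Subgroup.subtype _).comp (f0.comp ((MonoidHom.id _).codRestrict _ fun x => ht.ge trivial))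
  have hr : f.range = CL.CE.gen g' ws := by
    apply le_antisymm
    · rintro _ ⟨x, rfl⟩; exact Subtype.prop _
    · intro y hy
      obtain ⟨x, hx⟩ := hs ⟨y, hy⟩
      exact ⟨x, congrArg Subtype.val hx⟩
  have hf : ∀ v, substW ws v = v → f (ev g v) = ev g' v := fun v hv => by
    have := hf0 v
    simp only [← ev_substW, hv] at this
    exact this
  have hin : ∀ v, substW ws v = v → ev g' v ∈ f.range := fun v hv => ⟨_, hf v hv⟩
  have hi : Function.Injective f := by
    rw [← MonoidHom.ker_eq_bot_iff]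
    refine (CL.J2.isSimpleGroup_J2.eq_bot_or_eq_top_of_normal _ inferInstance).resolve_right fun h => ?_
    exact C.ev_ne_one hL chkN ((hf [0] rfl).symm.trans (MonoidHom.mem_ker.1 (h.ge trivial)))
  have hcard : Nat.card f.range = 604800 := by
    rw [← CL.J2.card_J2]; exact (Nat.card_congr (MonoidHom.ofInjective hi).toEquiv).symm
  have hidx : f.range.index = 416 := by
    have := f.range.card_mul_index
    rw [hcard, hc] at this
    omega
  have hG := chkG
  simp only [Bool.and_eq_true] at hG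
  obtain ⟨⟨⟨⟨⟨⟨e1, e2⟩, e3⟩, e4⟩, e5⟩, e6⟩, e7⟩ := hG
  replace e1 := ev_eq C hL e1
  replace e2 := ev_eq C hL e2
  replace e3 := ev_eq C hL e3
  replace e4 := ev_eq C hL e4
  replace e5 := ev_eq C hL e5
  replace e6 := ev_eq C hL e6
  replace e7 := ev_eq C hL e7
  rw [← hg'] at e1 e2 e3 e4 e5 e6 e7
  simp only [ev_append, ev_cons, ev_nil, mul_one] at e1 e2 e3 e4 e6 e7
  have hn : g' 5 ∉ Subgroup.normalizer (f.range : Set G) := fun h => by
    have h1 : g' 1 ∈ f.range := ev_singleton g' 1 ▸ hin [1] rfl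
    have h5 : g' 5 ∈ f.range := by
      have := (Subgroup.mem_normalizer_iff.1 h _).1 h1
      rw [inv_eq_of_mul_eq_one_right e7] at this
      rw [e6]
      simpa [mul_assoc] using f.range.mul_mem (f.range.mul_mem h1 this) h1
    have h6 : gen (fun g => code 4 (ρ g)) S1679.L ≤ f.range := by
      rw [← C.gen_gl hL (ws := ws ++ [[5]]) (by decide), gen_le_iff]
      intro w hw
      rcases List.mem_append.1 hw with hw | hw
      · rw [hr]; exact ev_mem_gen hw
      · rw [List.mem_singleton.1 hw, ev_singleton]; exact h5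
    have := (S1679.geL C hL).trans (Subgroup.card_le_of_le h6)
    omega
  have hnorm : ∀ x : G, (∀ q, x⁻¹ * f q * x ∈ f.range) → x ∈ Subgroup.normalizer (f.range : Set G) := fun x hx => by
    rw [← inv_mem_iff]
    refine Subgroup.mem_normalizer_fintype fun n hn => ?_
    obtain ⟨q, rfl⟩ := hn
    simpa using hx q
  have sub : ∀ (x : G) (K : List ℕ), (∀ c ∈ K, Mem φ ⊤ c) → (∀ c ∈ K, x⁻¹ * f (elt φ c) * x ∈ f.range) →
      ∀ m ∈ gen φ K, x⁻¹ * f m * x ∈ f.range := fun x K hK h m hm => by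
    have : gen φ K ≤ (f.range.comap (MulAut.conj x⁻¹).toMonoidHom).comap f :=
      (M.C.gen_le_iff hK).2 fun c hc => by simpa using h c hc
    simpa using this hm
  have hU : IsCoatom (gen φ CL.J2.LK) :=
    coatom3 _ M.orbits_K.1 M.orbits_K.2.1 (by rw [M.index_K]; norm_num) (by rw [M.index_K]; norm_num)
      (by rw [M.index_K]; norm_num) (by rw [M.index_K]; norm_num) (by rw [M.index_K]; norm_num) M.orbits_K.2.2
  obtain ⟨k1, k2⟩ := key f hi M.isCoatom_H hU M.index_H M.index_K hidx (x := g' 5) (y := ev g' wy)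
    (sub _ _ M.mem_LH (by
      simp only [CL.J2.LH, List.forall_mem_cons, List.not_mem_nil, false_imp_iff, implies_true, and_true]
      rw [hB (CL.J2.ca, wca) (by simp [WB]), hB (CL.J2.cb, wcb) (by simp [WB]), hf _ rfl, hf _ rfl, mul_assoc, e1,
        mul_assoc, e2]
      simpa using ⟨hin _ rfl, hin _ rfl⟩)) (fun h => hn (hnorm _ h))
    (sub _ _ M.mem_LK (by
      simp only [CL.J2.LK, List.forall_mem_cons, List.not_mem_nil, false_imp_iff, implies_true, and_true]
      rw [hB (CL.J2.c0, [0]) (by simp [WB]), hB (CL.J2.ck, wck) (by simp [WB]), hf _ rfl, hf _ rfl, mul_assoc,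
        ev_singleton, e3, mul_assoc, e4]
      simpa using ⟨hin _ rfl, hin _ rfl⟩)) (fun h => hn (by
      have h1 : CL.CE.gen g' (ws ++ [wy]) ≤ Subgroup.normalizer (f.range : Set G) := by
        rw [gen_le_iff]
        intro w hw
        rcases List.mem_append.1 hw with hw | hw
        · exact Subgroup.le_normalizer (by rw [hr]; exact ev_mem_gen hw)
        · rw [List.mem_singleton.1 hw]; exact hnorm _ h
      rw [← ev_singleton g' 5, e5, ev_substW]
      exact h1 (ev_subst_mem_gen _ _ _)))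
  exact ⟨f.range, k1, ⟨(MonoidHom.ofInjective hi).symm⟩, k2⟩


/-- The Chevalley group G₂(4) (over the field with 4 elements) has a maximal subgroup H isomorphic to the Hall–Janko group J₂ such that for every x outside H the intersection H ∩ xHx⁻¹ is a maximal subgroup of H; that is, the action of G₂(4) on the cosets of H is extremely primitive. -/
theorem result {F : Type*} [Field F] [Fintype F] (hF : Fintype.card F = 4) :
    ∃ H : Subgroup (Cfsg.Lie.chevG2.group F), IsCoatom H ∧ Cfsg.Spor.IsoJ2 H ∧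
      ∀ x : Cfsg.Lie.chevG2.group F, x ∉ H → IsCoatom ((H ⊓ H.map (MulAut.conj x).toMonoidHom).subgroupOf H) := by
  obtain ⟨e⟩ := CL.F4.nonempty_equiv hF
  have : CharP F 2 := (CharP.charP_iff_prime_eq_zero Nat.prime_two).2
    (by exact_mod_cast CL.F4.two_eq_zero_of_card hF)
  obtain ⟨ρ, hi, hρ⟩ := CL.Rep2.exists_rep_g2 (F := F) ⟨e .w, by
    rw [map_ne_zero]; decide, fun h => absurd (e.injective (h.trans (map_one e).symm)) (by decide)⟩
  let ρ' : Lie.chevG2.group F →* Matrix (Fin 6) (Fin 6) CL.F4 :=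
    (e.symm : F →+* CL.F4).mapMatrix.toMonoidHom.comp ρ
  have hi' : Function.Injective ρ' := (Matrix.map_injective e.symm.injective).comp hi
  have C : IsCode (fun g => code 4 (rep4 ρ' g)) S1679.mul S1679.one :=
    S1679.oneC_eq ▸ isCode_rep S1679.ok _ (rep4_injective hi')
  refine main (by rw [Cfsg.Agent.S1059.result hF]; norm_num) C (C.mem_of_wordsB (H := ⊤) (fun c hc => ?_) S1679.words)
  obtain ⟨x, hx, rfl⟩ := List.mem_map.1 hc
  refine ⟨(CL.Chev.stG Lie.chevG2 F).x x.1 (e x.2.1), trivial, Eq.trans ?_ (S1679.roots x hx)⟩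
  refine congrArg (fun A => code 4 (blk e4 6 A)) ?_
  refine (congrArg (fun A => A.map (e.symm : F →+* CL.F4)) (hρ x.1 (e x.2.1))).trans ?_
  simp only [mat_map]
  simp

end Cfsg.Agent.S5746
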