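import Cfsg.Statements.S5747


set_option autoImplicit false
open Cfsg

namespace Cfsg.Agent.S5747

section
variable {G Ω : Type*} [Group G] [MulAction G Ω]

def Base (K : Subgroup G) {t : ℕ} (f : Fin t → Ω) : Prop :=
  ∀ g ∈ K, (∀ i, g • f i = f i) → g = 1

def Irr (K : Subgroup G) {t : ℕ} (f : Fin t → Ω) : Prop :=
  Base K f ∧ ∀ i, ∃ g ∈ K, (∀ j, j < i → g • f j = f j) ∧ g • f i ≠ f i

theorem base_cons (K : Subgroup G) {t : ℕ} (x : Ω) (f : Fin t → Ω) :
    Base K (Fin.cons x f : Fin (t + 1) → Ω) ↔ Base (K ⊓ MulAction.stabilizer G x) f := by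
  unfold Base
  simp only [Fin.forall_fin_succ, Fin.cons_zero, Fin.cons_succ, Subgroup.mem_inf,
    MulAction.mem_stabilizer_iff]
  exact ⟨fun h g hg h2 => h g hg.1 ⟨hg.2, h2⟩, fun h g hg h2 => h g ⟨hg, h2.1⟩ h2.2⟩

theorem irr_cons (K : Subgroup G) {t : ℕ} (x : Ω) (f : Fin t → Ω) :
    Irr K (Fin.cons x f : Fin (t + 1) → Ω) ↔
      ¬ K ≤ MulAction.stabilizer G x ∧ Irr (K ⊓ MulAction.stabilizer G x) f := by
  unfold Irr
  rw [base_cons, Fin.forall_fin_succ]
  simp only [Fin.cons_zero, Fin.cons_succ, Fin.forall_fin_succ, Fin.succ_lt_succ_iff,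
    Fin.succ_pos, forall_true_left, Subgroup.mem_inf, MulAction.mem_stabilizer_iff,
    SetLike.not_le_iff_exists]
  constructor
  · rintro ⟨h1, ⟨g, hg, -, h2⟩, h3⟩
    refine ⟨⟨g, hg, h2⟩, h1, fun i => ?_⟩
    obtain ⟨g, hg, ⟨a, b⟩, c⟩ := h3 i
    exact ⟨g, ⟨hg, a⟩, b, c⟩
  · rintro ⟨⟨g, hg, h2⟩, h1, h3⟩
    refine ⟨h1, ⟨g, hg, ⟨fun h => absurd h (lt_irrefl _),
      fun i h => absurd h (Fin.not_lt_zero _)⟩, h2⟩, fun i => ?_⟩
    obtain ⟨g, ⟨hg, a⟩, b, c⟩ := h3 i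
    exact ⟨g, hg, ⟨a, b⟩, c⟩

theorem exists_irr_of_base : ∀ (t : ℕ) (K : Subgroup G) (f : Fin t → Ω), Base K f →
    ∃ (t' : ℕ) (f' : Fin t' → Ω), Irr K f' ∧ t' ≤ t ∧ (t' = t → Irr K f) := by
  intro t
  induction t with
  | zero => exact fun K f h => ⟨0, f, ⟨h, fun i => i.elim0⟩, le_rfl, fun _ => ⟨h, fun i => i.elim0⟩⟩
  | succ t ih =>
    intro K f h
    rw [← Fin.cons_self_tail f] at h ⊢
    rw [base_cons] at h
    obtain ⟨t', f', h1, h2, h3⟩ := ih _ _ h
    by_cases hK : K ≤ MulAction.stabilizer G (f 0)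
    · rw [inf_eq_left.2 hK] at h1
      exact ⟨t', f', h1, by omega, fun e => by omega⟩
    · exact ⟨t' + 1, Fin.cons (f 0) f', (irr_cons _ _ _).2 ⟨hK, h1⟩, by omega,
        fun e => (irr_cons _ _ _).2 ⟨hK, h3 (by omega)⟩⟩

def Reord (Ω : Type*) [MulAction G Ω] (K : Subgroup G) : Prop :=
  ∀ (t : ℕ) (f : Fin t → Ω) (σ : Equiv.Perm (Fin t)), Irr K f → Irr K (f ∘ σ)

theorem Reord.inf {K : Subgroup G} (h : Reord Ω K) {x : Ω}
    (hx : ¬ K ≤ MulAction.stabilizer G x) : Reord Ω (K ⊓ MulAction.stabilizer G x) := by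
  intro t f σ hf
  have := h (t + 1) (Fin.cons x f) (Equiv.Perm.decomposeFin.symm (0, σ))
    ((irr_cons _ _ _).2 ⟨hx, hf⟩)
  have e : (Fin.cons x f : Fin (t + 1) → Ω) ∘ (Equiv.Perm.decomposeFin.symm (0, σ)) =
      Fin.cons x (f ∘ σ) := by
    funext i
    refine Fin.cases ?_ (fun j => ?_) i
    · simp
    · simp
  rw [e] at this
  exact ((irr_cons _ _ _).1 this).2

theorem len_eq : ∀ (t : ℕ) (K : Subgroup G), Reord Ω K → ∀ (t' : ℕ) (f : Fin t → Ω)
    (f' : Fin t' → Ω), t ≤ t' → Irr K f → Irr K f' → t = t' := by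
  intro t
  induction t using Nat.strong_induction_on with
  | _ t ih =>
    intro K hK t' f f' htt hf hf'
    rcases t' with _ | t'
    · omega
    rcases t with _ | t
    · obtain ⟨g, hg, -, h⟩ := hf'.2 0
      rw [hf.1 g hg fun i => i.elim0, one_smul] at h
      exact absurd rfl h
    rw [← Fin.cons_self_tail f, irr_cons] at hf
    rw [← Fin.cons_self_tail f', irr_cons] at hf'
    set x := f 0
    set y := f' 0
    have swp : ∀ {s : ℕ} (a b : Ω) (r : Fin s → Ω),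
        Irr K (Fin.cons a (Fin.cons b r : Fin (s + 1) → Ω) : Fin (s + 2) → Ω) →
        Irr K (Fin.cons b (Fin.cons a r : Fin (s + 1) → Ω) : Fin (s + 2) → Ω) := by
      intro s a b r h
      have := hK _ _ (Equiv.swap 0 1) h
      convert this using 1
      funext i
      refine Fin.cases ?_ (fun j => Fin.cases ?_ (fun k => ?_) j) i
      · simp
      · simp
      · rw [Function.comp, Equiv.swap_apply_of_ne_of_ne (Fin.succ_ne_zero _)
          (Fin.succ_succ_ne_one _)]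
        simp
    have gen : ∀ (L : Subgroup G), Reord Ω L → ∀ (s : ℕ) (a : Fin t → Ω) (b : Fin s → Ω),
        Irr L a → Irr L b → t = s := by
      intro L hL s a b ha hb
      rcases le_total t s with h | h
      · exact ih t (by omega) L hL s a b h ha hb
      · exact (ih s (by omega) L hL t b a h hb ha).symm
    have ext : ∀ a b : Ω, ∃ (s : ℕ) (r : Fin s → Ω),
        Irr (K ⊓ MulAction.stabilizer G a ⊓ MulAction.stabilizer G b) r := by
      intro a b
      have hb : Base (K ⊓ MulAction.stabilizer G a ⊓ MulAction.stabilizer G b)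
          (Fin.cons x (Fin.tail f) : Fin (t + 1) → Ω) := by
        rw [base_cons]
        exact fun g hg => hf.2.1 g ⟨hg.1.1.1, hg.2⟩
      obtain ⟨s, r, h, -⟩ := exists_irr_of_base _ _ _ hb
      exact ⟨s, r, h⟩
    have fin : ∀ (s : ℕ) (r : Fin s → Ω),
        Irr K (Fin.cons x (Fin.cons y r : Fin (s + 1) → Ω) : Fin (s + 2) → Ω) →
        Irr K (Fin.cons y (Fin.cons x r : Fin (s + 1) → Ω) : Fin (s + 2) → Ω) → t + 1 = t' + 1 := by
      intro s r h1 h2
      have e1 := gen _ (hK.inf hf.1) _ _ _ hf.2 ((irr_cons _ _ _).1 h1).2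
      subst e1
      rw [gen _ (hK.inf hf'.1) _ _ _ ((irr_cons _ _ _).1 h2).2 hf'.2]
    by_cases h1 : K ⊓ MulAction.stabilizer G x ≤ MulAction.stabilizer G y
    · by_cases h2 : K ⊓ MulAction.stabilizer G y ≤ MulAction.stabilizer G x
      · have e : K ⊓ MulAction.stabilizer G y = K ⊓ MulAction.stabilizer G x :=
          le_antisymm (le_inf inf_le_left h2) (le_inf inf_le_left h1)
        rw [gen _ (hK.inf hf.1) _ _ _ hf.2 (e ▸ hf'.2)]
      · obtain ⟨s, r, h⟩ := ext y x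
        have := (irr_cons _ _ _).2 ⟨hf'.1, (irr_cons _ _ _).2 ⟨h2, h⟩⟩
        exact fin s r (swp _ _ _ this) this
    · obtain ⟨s, r, h⟩ := ext x y
      have := (irr_cons _ _ _).2 ⟨hf.1, (irr_cons _ _ _).2 ⟨h1, h⟩⟩
      exact fin s r this (swp _ _ _ this)

theorem irr_top {t : ℕ} (f : Fin t → Ω) : Irr (⊤ : Subgroup G) f ↔
    ((∀ g : G, (∀ i : Fin t, g • f i = f i) → g = 1) ∧
      ∀ i : Fin t, ∃ g : G, (∀ j : Fin t, j < i → g • f j = f j) ∧ g • f i ≠ f i) := by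
  simp [Irr, Base]

end

/-- Let a finite group G act on a finite set Ω. An irredundant base is a sequence of points ω₁, …, ω_t whose pointwise stabiliser is trivial and in which each ω_i is moved by some element fixing ω₁, …, ω_{i−1}. Then all irredundant bases have the same length if and only if every reordering of an irredundant base is again an irredundant base. -/
theorem result {G Ω : Type*} [Group G] [Finite G] [MulAction G Ω] [Fintype Ω] :
    (∀ (t t' : ℕ) (f : Fin t → Ω) (f' : Fin t' → Ω), ((∀ g : G, (∀ i : Fin t, g • f i = f i) → g = 1) ∧ ∀ i : Fin t, ∃ g : G, (∀ j : Fin t, j < i → g • f j = f j) ∧ g • f i ≠ f i) → ((∀ g : G, (∀ i : Fin t', g • f' i = f' i) → g = 1) ∧ ∀ i : Fin t', ∃ g : G, (∀ j : Fin t', j < i → g • f' j = f' j) ∧ g • f' i ≠ f' i) → t = t') ↔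
    (∀ (t : ℕ) (f : Fin t → Ω) (σ : Equiv.Perm (Fin t)), ((∀ g : G, (∀ i : Fin t, g • f i = f i) → g = 1) ∧ ∀ i : Fin t, ∃ g : G, (∀ j : Fin t, j < i → g • f j = f j) ∧ g • f i ≠ f i) → ((∀ g : G, (∀ i : Fin t, g • (f ∘ σ) i = (f ∘ σ) i) → g = 1) ∧ ∀ i : Fin t, ∃ g : G, (∀ j : Fin t, j < i → g • (f ∘ σ) j = (f ∘ σ) j) ∧ g • (f ∘ σ) i ≠ (f ∘ σ) i)) := by
  simp only [← irr_top]
  constructor
  · intro h t f σ hf
    have hb : Base (⊤ : Subgroup G) (f ∘ σ) := fun g hg h1 => hf.1 g hg fun i => by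
      simpa using h1 (σ.symm i)
    obtain ⟨t', f', h1, -, h3⟩ := exists_irr_of_base _ _ _ hb
    exact h3 (h _ _ _ _ h1 hf)
  · intro h t t' f f' hf hf'
    rcases le_total t t' with h1 | h1
    · exact len_eq t ⊤ h t' f f' h1 hf hf'
    · exact (len_eq t' ⊤ h t f' f h1 hf' hf).symm

end Cfsg.Agent.S5747
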