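import Cfsg.Statements.S5751
import Cfsg.Agent.CHEV.StGlue
import Cfsg.Agent.CHEV.GlueBN
import Cfsg.Agent.CHEV.Inv2
import Cfsg.Agent.CHEV.StChev
import Cfsg.Agent.CHEV.CommChk
import Cfsg.Agent.CHEV.CoreE8

set_option autoImplicit false
open Cfsg

namespace Cfsg.Agent.S5751

set_option maxHeartbeats 400000

/-- the core of `K ⊓ M` in `M` -/
def core {G : Type*} [Group G] (M K : Subgroup G) : Subgroup G := (K.subgroupOf M).normalCore.map M.subtype

theorem mem_core {G : Type*} [Group G] {M K : Subgroup G} {x : G} :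
    x ∈ core M K ↔ x ∈ M ∧ ∀ g ∈ M, g * x * g⁻¹ ∈ K := by
  constructor
  · rintro ⟨y, hy, rfl⟩
    exact ⟨y.2, fun g hg => hy ⟨g, hg⟩⟩
  · rintro ⟨h1, h2⟩
    exact ⟨⟨x, h1⟩, fun g => h2 g g.2, rfl⟩

theorem mem_cj {G : Type*} [Group G] {K : Subgroup G} {s x : G} :
    x ∈ K.map (MulAut.conj s).toMonoidHom ↔ s⁻¹ * x * s ∈ K := by
  constructor
  · rintro ⟨y, hy, rfl⟩
    simpa [mul_assoc] using hy
  · intro h
    exact ⟨_, h, by simp [mul_assoc]⟩

/-- the iterated cores -/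
def seqA {G : Type*} [Group G] (M : Subgroup G) (s : G) : ℕ → Subgroup G
  | 0 => M
  | i + 1 => core M (seqA M s i ⊓ (seqA M s i).map (MulAut.conj s).toMonoidHom)

theorem core_cj {G : Type*} [Group G] (M K : Subgroup G) {s : G} (hs : s * s = 1) :
    (core M (K ⊓ K.map (MulAut.conj s).toMonoidHom)).map (MulAut.conj s).toMonoidHom =
      core (M.map (MulAut.conj s).toMonoidHom) (K ⊓ K.map (MulAut.conj s).toMonoidHom) := by
  have hi : s⁻¹ = s := inv_eq_of_mul_eq_one_right hs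
  have hk : ∀ y, y ∈ K ⊓ K.map (MulAut.conj s).toMonoidHom ↔ s * y * s ∈ K ⊓ K.map (MulAut.conj s).toMonoidHom := by
    intro y
    simp only [Subgroup.mem_inf, mem_cj, hi]
    have : s * (s * y * s) * s = y := by
      calc s * (s * y * s) * s = (s * s) * y * (s * s) := by group
        _ = y := by rw [hs]; simp
    rw [this, and_comm]
  ext x
  rw [mem_cj, mem_core, mem_core, mem_cj, hi]
  refine and_congr_right fun _ => ⟨fun h g hg => ?_, fun h g hg => ?_⟩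
  · rw [mem_cj, hi] at hg
    have := h _ hg
    rw [hk]
    convert this using 1
    rw [mul_inv_rev, mul_inv_rev, hi]
    calc s * (g * x * g⁻¹) * s = s * g * (s * s) * x * (s * s) * g⁻¹ * s := by rw [hs]; group
      _ = _ := by group
  · have h1 : s * g * s ∈ M.map (MulAut.conj s).toMonoidHom := by
      rw [mem_cj, hi]
      have : s * (s * g * s) * s = g := by
        calc s * (s * g * s) * s = (s * s) * g * (s * s) := by group
          _ = g := by rw [hs]; simp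
      rwa [this]
    have := h _ h1
    rw [hk]
    convert this using 1
    rw [mul_inv_rev, mul_inv_rev, hi]
    group

section
open CL.Chev CL.Chev.StData CL.Chev.RootSys

variable {ι κ : Type*} [Fintype κ] [DecidableEq κ] [Finite ι] {R : RootSys ι κ} {F G : Type*} [Field F] [Group G]
  {S : StData R F G} {i0 : κ}

/-- roots of level at least `k` -/
def lv (R : RootSys ι κ) (i0 : κ) (k : ℤ) : Set ι := {r | k ≤ R.rt r i0}

omit [Finite ι] in
theorem lv_pos {k : ℤ} (hk : 1 ≤ k) : ∀ r ∈ lv R i0 k, R.IsPos r := fun _ hr =>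
  R.isPos_of_pos (i := i0) (by have : k ≤ _ := hr; omega)

omit [Finite ι] in
theorem closed_between {T : Set ι} (h1 : T ⊆ lv R i0 1) (h2 : lv R i0 2 ⊆ T) : R.Closed T := by
  intro r hr s hs k hk
  obtain ⟨a, b, ha, hb, h⟩ := hk.coord
  apply h2
  have e1 : (1 : ℤ) ≤ _ := h1 hr
  have e2 : (1 : ℤ) ≤ _ := h1 hs
  change (2 : ℤ) ≤ _
  rw [h]
  nlinarith

omit [Finite ι] in
theorem closed_lv {k : ℤ} (hk : 1 ≤ k) : R.Closed (lv R i0 k) := by
  intro r hr s hs c hc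
  obtain ⟨a, b, ha, hb, h⟩ := hc.coord
  have e1 : k ≤ _ := hr
  have e2 : k ≤ _ := hs
  change k ≤ _
  rw [h]
  nlinarith

omit [Finite ι] in
theorem mem_sub_iff {r : ι} : r ∈ R.sub {j | j ≠ i0} ↔ R.rt r i0 = 0 := by
  constructor
  · intro h; exact h i0 (by simp)
  · intro h i hi
    have : i = i0 := by simpa using hi
    rwa [this]

omit [Finite ι] in
theorem lv_one : {r | R.IsPos r ∧ r ∉ R.sub {j | j ≠ i0}} = lv R i0 1 := by
  ext r
  simp only [Set.mem_ofPred_eq, mem_sub_iff, lv]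
  constructor
  · rintro ⟨h1, h2⟩
    have := (R.isPos_iff r).1 h1 i0
    omega
  · intro h
    exact ⟨R.isPos_of_pos (i := i0) (by omega), by omega⟩

omit [Finite ι] in
theorem P_le_normalizer_lv {k : ℤ} (hk : 1 ≤ k) :
    S.P {j | j ≠ i0} ≤ Subgroup.normalizer (S.XS (lv R i0 k) : Set G) := by
  rw [S.P_eq]
  refine sup_le (S.H_le_normalizer_XS _) (S.XS_le_normalizer ?_ ?_)
  · rintro r hr s hs rfl
    have e : k ≤ _ := hs
    rw [R.rt_neg, Pi.neg_apply] at e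
    rcases hr with hr | hr
    · have := (R.isPos_iff r).1 hr i0
      omega
    · have := mem_sub_iff.1 hr
      omega
  · intro r hr s hs c hc
    obtain ⟨a, b, ha, hb, h⟩ := hc.coord
    have e2 : k ≤ _ := hs
    have e1 : 0 ≤ R.rt r i0 := by
      rcases hr with hr | hr
      · exact (R.isPos_iff r).1 hr i0
      · exact (mem_sub_iff.1 hr).ge
    change k ≤ _
    rw [h]
    nlinarith

theorem neg_not_mem (hS : S.Good) {c : F} (h : S.x (R.neg (R.simple i0)) c ∈ S.P {j | j ≠ i0}) : c = 0 := by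
  by_contra hc
  have hx : ∀ t, S.x (R.simple i0) t ∈ S.P {j | j ≠ i0} := fun t =>
    S.B_le_P _ (S.U_le_B (S.x_mem_U (R.isPos_simple i0) t))
  rw [S.x_neg_root_eq] at h
  have h2 : S.n (R.simple i0) (-c⁻¹) ∈ S.P {j | j ≠ i0} := by
    have := mul_mem (mul_mem (inv_mem (hx c⁻¹)) h) (inv_mem (hx c⁻¹))
    simpa [mul_assoc] using this
  have := hS.mem_WJ_of_mem_P (S.acts_n_simple i0 (neg_ne_zero.2 (inv_ne_zero hc))) h2
  rw [sp_mem_WJ_iff] at this
  exact this rfl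

theorem exists_anti (r : ι) (hr : 1 ≤ R.rt r i0) : ∃ w ∈ R.WJ {j | j ≠ i0}, R.rt (w r) i0 = R.rt r i0 ∧
    (∀ j, j ≠ i0 → R.wt (w r) j ≤ 0) ∧ 0 < R.wt (w r) i0 := by
  obtain ⟨w, hw, h⟩ := R.exists_WJ_dominant {j | j ≠ i0} (R.neg r)
  have e : R.rt (w r) i0 = R.rt r i0 := WJ_rt_of_not_mem hw r (by simp)
  have h2 : ∀ j, j ≠ i0 → R.wt (w r) j ≤ 0 := by
    intro j hj
    have := h j hj
    rw [W_neg (R.WJ_le_W _ hw), R.wt_neg] at this
    omega
  refine ⟨w, hw, e, h2, ?_⟩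
  obtain ⟨i, hi, -⟩ := R.exists_wt_pos (R.isPos_of_pos (r := w r) (i := i0) (by omega))
  by_cases hii : i = i0
  · rwa [hii] at hi
  · have := h2 i hii
    omega

omit [Finite ι] in
theorem lower (hwt : ∀ r, r ≠ R.simple i0 → R.wt r i0 ≤ 1) (i : ℕ) :
    S.XS (lv R i0 (i + 1)) ≤ seqA (S.P {j | j ≠ i0}) (S.n (R.simple i0) 1) i := by
  have h0 : S.XS (lv R i0 1) ≤ S.P {j | j ≠ i0} :=
    (S.XS_le_U (lv_pos le_rfl)).trans (S.U_le_B.trans (S.B_le_P _))
  induction i with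
  | zero => simpa [seqA] using h0
  | succ i ih =>
    intro x hx
    have hm : S.XS (lv R i0 ((i + 1 : ℕ) + 1)) ≤ S.XS (lv R i0 (i + 1)) :=
      S.XS_mono fun r hr => by
        have : ((i + 1 : ℕ) : ℤ) + 1 ≤ _ := hr
        change (i : ℤ) + 1 ≤ _
        push_cast at this
        omega
    refine mem_core.2 ⟨h0 (S.XS_mono (fun r hr => ?_) hx), fun g hg => ?_⟩
    · have : ((i + 1 : ℕ) : ℤ) + 1 ≤ _ := hr
      change (1 : ℤ) ≤ _
      omega
    · have hy := (P_le_normalizer_lv (S := S) (i0 := i0) (k := ((i + 1 : ℕ) : ℤ) + 1) (by omega) hg x).1 hx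
      refine ⟨ih (hm hy), mem_cj.2 (ih ?_)⟩
      refine (S.acts_n_simple i0 one_ne_zero).inv_conj_mem_XS (fun r hr => ?_) hy
      have e : ((i + 1 : ℕ) : ℤ) + 1 ≤ _ := hr
      change (i : ℤ) + 1 ≤ _
      rw [R.sp_inv, R.sp_apply, R.rt_σ_self]
      have : r ≠ R.simple i0 := by
        rintro rfl
        rw [R.rt_simple] at e
        simp at e
        omega
      have := hwt r this
      push_cast at e
      omega

theorem upper_step (hS : S.Good) (hwt : ∀ r, r ≠ R.simple i0 → R.wt r i0 ≤ 1) {K : Subgroup G} {k : ℤ} (hk : 2 ≤ k)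
    (h : K ≤ S.XS (lv R i0 k)) :
    core (S.P {j | j ≠ i0}) (K ⊓ K.map (MulAut.conj (S.n (R.simple i0) 1)).toMonoidHom) ≤ S.XS (lv R i0 (k + 1)) := by
  intro x hx
  obtain ⟨-, hx⟩ := mem_core.1 hx
  have hx1 : x ∈ S.XS (lv R i0 k) := by simpa using h (hx 1 (one_mem _)).1
  obtain ⟨Z, hZ, hxZ, hm⟩ := hS.exists_supp (lv_pos (by omega)) (closed_lv (by omega)) hx1
  refine S.XS_mono (fun r hr => ?_) hxZ
  have e : k ≤ _ := hZ hr
  by_contra hn
  have e2 : R.rt r i0 = k := by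
    have : ¬ (k + 1 ≤ R.rt r i0) := hn
    omega
  obtain ⟨w, hw, e3, -, h4⟩ := exists_anti (R := R) (i0 := i0) r (by omega)
  obtain ⟨m, hm1, hm2⟩ := S.exists_acts_NJ hw
  have h5 := h (mem_cj.1 (hx m (S.NJ_le_P _ hm1)).2)
  have ha := (S.acts_n_simple i0 one_ne_zero).inv.mul hm2
  have h6 : (S.n (R.simple i0) 1)⁻¹ * m * x * ((S.n (R.simple i0) 1)⁻¹ * m)⁻¹ ∈ S.XS (lv R i0 k) := by
    convert h5 using 1
    group
  rw [ha.conj_mem_XS_iff] at h6
  have h7 := hm _ (fun c hc => ?_) ((closed_lv (by omega)).preimage ha.mem_W) h6 hr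
  · have : k ≤ _ := h7
    rw [Equiv.Perm.mul_apply, R.sp_inv, R.sp_apply, R.rt_σ_self] at this
    omega
  · have e4 : k ≤ _ := hc
    rw [Equiv.Perm.mul_apply, R.sp_inv, R.sp_apply] at e4
    have e5 : R.σ i0 (w c) ≠ R.simple i0 := by
      intro e5
      rw [e5, R.rt_simple] at e4
      simp at e4
      omega
    have e6 := hwt _ e5
    have e7 := R.rt_σ_self i0 (R.σ i0 (w c))
    rw [R.σ_σ, WJ_rt_of_not_mem hw c (by simp)] at e7
    exact R.isPos_of_pos (i := i0) (by omega)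

theorem base_a (hS : S.Good) (hα : ∀ r, R.rt r i0 = 1 → (∀ j, j ≠ i0 → R.wt r j ≤ 0) → r = R.simple i0) {x : G}
    (hx : ∀ g ∈ S.P {j | j ≠ i0}, g * x * g⁻¹ ∈ (S.P {j | j ≠ i0}).map (MulAut.conj (S.n (R.simple i0) 1)).toMonoidHom)
    (hx1 : x ∈ S.XS (lv R i0 1)) : x ∈ S.XS (lv R i0 2) := by
  obtain ⟨Z, hZ, hxZ, hm⟩ := hS.exists_supp (lv_pos le_rfl) (closed_lv le_rfl) hx1
  refine S.XS_mono (fun r hr => ?_) hxZ
  have e : (1 : ℤ) ≤ _ := hZ hr
  by_contra hn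
  have e2 : R.rt r i0 = 1 := by
    have : ¬ (2 ≤ R.rt r i0) := hn
    omega
  obtain ⟨w, hw, e3, h4, -⟩ := exists_anti (R := R) (i0 := i0) r (by omega)
  have e4 := hα _ (e3.trans e2) h4
  obtain ⟨m, hm1, hm2⟩ := S.exists_acts_NJ hw
  have hP := S.NJ_le_P _ hm1
  have h5 := mem_cj.1 (hx m hP)
  have hy := (P_le_normalizer_lv (S := S) (i0 := i0) le_rfl hP x).1 hx1
  obtain ⟨a, ha, b, hb, hab⟩ := S.exists_mul_of_subset_union (R.nilp_pos (lv_pos le_rfl)) (closed_lv le_rfl)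
    (A := {R.simple i0}) (B := {c | c ≠ R.simple i0}) (fun c _ => by by_cases h : c = R.simple i0 <;> simp [h]) hy
  obtain ⟨c, rfl⟩ := S.mem_X_iff.1 (S.XS_mono Set.inter_subset_right ha)
  have hs := (S.acts_n_simple i0 (one_ne_zero (α := F))).inv
  have hb2 : (S.n (R.simple i0) 1)⁻¹ * b * (S.n (R.simple i0) 1)⁻¹⁻¹ ∈ S.P {j | j ≠ i0} := by
    refine S.B_le_P _ (S.U_le_B (hs.conj_mem_XS (fun c hc => ?_) hb))
    rw [R.sp_inv, R.sp_apply]
    exact R.isPos_σ (lv_pos le_rfl c hc.1) hc.2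
  obtain ⟨d, hd, hd2⟩ := hs.exists_conj (R.simple i0)
  have h6 : S.x (R.neg (R.simple i0)) (d * c) ∈ S.P {j | j ≠ i0} := by
    have := hd2 c
    rw [R.sp_inv, R.sp_apply, R.σ_simple] at this
    rw [← this]
    rw [hab] at h5
    convert mul_mem h5 (inv_mem hb2) using 1
    group
  have hc : c = 0 := by simpa [hd] using neg_not_mem hS h6
  rw [hc, S.x_zero, one_mul] at hab
  rw [← hab, hm2.conj_mem_XS_iff] at hb
  have hcl : R.Closed (lv R i0 1 ∩ {c | c ≠ R.simple i0}) := by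
    refine closed_between (i0 := i0) Set.inter_subset_left fun c hc => ?_
    have e5 : (2 : ℤ) ≤ _ := hc
    refine ⟨by change (1 : ℤ) ≤ _; omega, ?_⟩
    rintro rfl
    rw [R.rt_simple] at e5
    simp at e5
  have h7 := hm _ (fun c hc => ?_) (hcl.preimage hm2.mem_W) hb hr
  · exact h7.2 e4
  · have e5 : (1 : ℤ) ≤ _ := hc.1
    rw [WJ_rt_of_not_mem hw c (by simp)] at e5
    exact R.isPos_of_pos (i := i0) (by omega)

theorem ht_le (hS : S.Good) {K : Subgroup G} (hK : K ≤ S.P {j | j ≠ i0})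
    (hn : ∀ x ∈ K, ∀ g ∈ S.P {j | j ≠ i0}, g * x * g⁻¹ ∈ K)
    (h2 : ∀ x ∈ K, x ∈ S.XS (lv R i0 1) → x ∈ S.XS (lv R i0 2)) {b m : G} (hb : b ∈ S.U) {w : Equiv.Perm ι}
    (hw : w ∈ R.WJ {j | j ≠ i0}) (hm : S.Acts m w) (ha : b * m ∈ K) {β : ι} (hβ : R.rt β i0 = 1) :
    R.ht (w β) ≤ R.ht β := by
  set T : Set ι := {δ | 2 ≤ R.rt δ i0 ∨ (1 ≤ R.rt δ i0 ∧ R.ht (w β) ≤ R.ht δ)} with hT
  have hT1 : T ⊆ lv R i0 1 := by
    rintro δ (h | h)
    · change (1 : ℤ) ≤ _; omega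
    · exact h.1
  have hT2 : lv R i0 2 ⊆ T := fun δ h => Or.inl h
  have hUn : S.U ≤ Subgroup.normalizer (S.XS T : Set G) := by
    refine S.XS_le_normalizer ?_ ?_
    · rintro r hr s hs rfl
      exact (R.isPos_neg r).1 (lv_pos le_rfl _ (hT1 hs)) hr
    · intro r hr s hs c hc
      obtain ⟨a, b, ha, hb, h⟩ := hc.coord
      have e1 : 0 ≤ R.rt r i0 := (R.isPos_iff r).1 hr i0
      have e2 : (1 : ℤ) ≤ _ := hT1 hs
      have e3 : R.rt s i0 ≤ R.rt c i0 := by rw [h]; nlinarith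
      have e4 := hc.add_le htL (by rw [htL_rt]; exact le_of_lt hr) (by
        rw [htL_rt]; exact le_of_lt (lv_pos le_rfl _ (hT1 hs)))
      simp only [htL_rt] at e4
      have e5 : 0 < R.ht r := hr
      rcases hs with hs | hs
      · left; omega
      · right; constructor <;> omega
  have hx : S.x β 1 ∈ S.XS (lv R i0 1) := S.x_mem_XS (by change (1 : ℤ) ≤ _; omega) 1
  have hxP : S.x β 1 ∈ S.P {j | j ≠ i0} := S.B_le_P _ (S.U_le_B (S.XS_le_U (lv_pos le_rfl) hx))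
  have c1 : (b * m) * S.x β 1 * (b * m)⁻¹ * (S.x β 1)⁻¹ ∈ S.XS (lv R i0 2) := by
    apply h2
    · have := mul_mem ha (hn _ (inv_mem ha) _ hxP)
      convert this using 1
      group
    · exact mul_mem ((P_le_normalizer_lv (S := S) (i0 := i0) le_rfl (hK ha) _).1 hx) (inv_mem hx)
  have c2 : (b * m) * S.x β 1 * (b * m)⁻¹ ∈ S.XS T := by
    obtain ⟨c, -, hc⟩ := hm.exists_conj β
    have : (b * m) * S.x β 1 * (b * m)⁻¹ = b * (m * S.x β 1 * m⁻¹) * b⁻¹ := by group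
    rw [this, hc]
    refine (hUn hb _).1 (S.x_mem_XS (Or.inr ⟨?_, le_rfl⟩) _)
    rw [WJ_rt_of_not_mem hw β (by simp), hβ]
  have c3 : S.x β 1 ∈ S.XS T := by
    have := mul_mem (inv_mem (S.XS_mono hT2 c1)) c2
    convert this using 1
    group
  by_contra hlt
  have hβT : β ∉ T := by
    rintro (h | h)
    · omega
    · exact hlt h.2
  exact one_ne_zero (hS.indep_pos (R.isPos_of_pos (i := i0) (by omega)) (fun s hs => lv_pos le_rfl s (hT1 hs))
    (closed_between hT1 hT2) hβT c3)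

theorem base (hS : S.Good) (hH : S.H = ⊥)
    (hα : ∀ r, R.rt r i0 = 1 → (∀ j, j ≠ i0 → R.wt r j ≤ 0) → r = R.simple i0)
    (hd : ∀ j, j ≠ i0 → ∃ β, R.rt β i0 = 1 ∧ R.wt β j ≠ 0) :
    seqA (S.P {j | j ≠ i0}) (S.n (R.simple i0) 1) 1 ≤ S.XS (lv R i0 2) := by
  set K := seqA (S.P {j | j ≠ i0}) (S.n (R.simple i0) 1) 1 with hKd
  have hmem : ∀ x, x ∈ K ↔ x ∈ S.P {j | j ≠ i0} ∧ ∀ g ∈ S.P {j | j ≠ i0}, g * x * g⁻¹ ∈ S.P {j | j ≠ i0} ⊓
      (S.P {j | j ≠ i0}).map (MulAut.conj (S.n (R.simple i0) 1)).toMonoidHom := fun x => mem_core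
  have hK : K ≤ S.P {j | j ≠ i0} := fun x hx => ((hmem x).1 hx).1
  have hn : ∀ x ∈ K, ∀ g ∈ S.P {j | j ≠ i0}, g * x * g⁻¹ ∈ K := by
    intro x hx g hg
    obtain ⟨h1, h2⟩ := (hmem x).1 hx
    refine (hmem _).2 ⟨mul_mem (mul_mem hg h1) (inv_mem hg), fun g' hg' => ?_⟩
    convert h2 _ (mul_mem hg' hg) using 1
    group
  have h2 : ∀ x ∈ K, x ∈ S.XS (lv R i0 1) → x ∈ S.XS (lv R i0 2) := fun x hx hx1 =>
    base_a hS hα (fun g hg => (((hmem x).1 hx).2 g hg).2) hx1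
  have hBU : S.B = S.U := by rw [StData.B, hH, sup_bot_eq]
  have hUP : S.U ≤ S.P {j | j ≠ i0} := S.U_le_B.trans (S.B_le_P _)
  have hKU : K ≤ S.U := by
    intro a ha
    obtain ⟨b, hb, m, hm, w, hw, hmw, u, hu, rfl⟩ := S.exists_normal_P (hK ha)
    rw [hBU] at hb
    have hu' : u ∈ S.U := S.XS_le_U (fun r hr => hr.1) hu
    have ha1 : (u * b) * m ∈ K := by
      convert hn _ ha u (hUP hu') using 1
      group
    have ha2 : (u * b)⁻¹ * m⁻¹ ∈ K := by
      convert hn _ (inv_mem ha1) (u * b)⁻¹ (hUP (inv_mem (mul_mem hu' hb))) using 1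
      group
    have he : ∀ β, R.rt β i0 = 1 → R.ht (w β) = R.ht β := by
      intro β hβ
      have e1 := ht_le hS hK hn h2 (mul_mem hu' hb) hw hmw ha1 hβ
      have e2 := ht_le hS hK hn h2 (inv_mem (mul_mem hu' hb)) (inv_mem hw) hmw.inv ha2 (β := w β)
        (by rw [WJ_rt_of_not_mem hw β (by simp), hβ])
      rw [perm_inv_apply] at e2
      omega
    have hw1 : w = 1 := by
      refine eq_one_of_isPos_WJ hw fun j hj => ?_
      obtain ⟨β, hβ, hβj⟩ := hd j hj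
      have e1 := he β hβ
      have e2 := he (R.σ j β) (by rw [R.rt_σ_of_ne j β (Ne.symm hj), hβ])
      have e3 := W_lin hmw.mem_W (k := R.σ j β) (r := β) (s := R.simple j) (a := 1) (b := -R.wt β j)
        (by rw [R.rt_σ']; simp [sub_eq_add_neg])
      have e4 := congrArg htL e3
      rw [map_add, map_smul, map_smul, htL_rt, htL_rt, htL_rt, e2, R.ht_σ, e1] at e4
      simp only [smul_eq_mul] at e4
      have e5 : R.wt β j * (R.ht (w (R.simple j)) - 1) = 0 := by linarith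
      have e6 := (mul_eq_zero.1 e5).resolve_left hβj
      change 0 < _
      omega
    rw [hw1] at hmw
    have hm1 := hS.mem_H_of_acts_one (S.NJ_le_N _ hm) hmw
    rw [hH, Subgroup.mem_bot] at hm1
    rw [hm1, mul_one]
    exact mul_mem hb hu'
  intro a ha
  apply h2 a ha
  obtain ⟨m, hm1, hm2⟩ := S.exists_acts_NJ (R.w0_mem {j | j ≠ i0})
  have := (hS.conj_mem_B_iff hm2 (hKU ha)).1 (S.U_le_B (hKU (hn a ha m (S.NJ_le_P _ hm1))))
  rwa [R.ninvs_w0, lv_one] at this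

theorem upper (hS : S.Good) (hH : S.H = ⊥) (hwt : ∀ r, r ≠ R.simple i0 → R.wt r i0 ≤ 1)
    (hα : ∀ r, R.rt r i0 = 1 → (∀ j, j ≠ i0 → R.wt r j ≤ 0) → r = R.simple i0)
    (hd : ∀ j, j ≠ i0 → ∃ β, R.rt β i0 = 1 ∧ R.wt β j ≠ 0) (i : ℕ) :
    seqA (S.P {j | j ≠ i0}) (S.n (R.simple i0) 1) (i + 1) ≤ S.XS (lv R i0 (i + 2)) := by
  induction i with
  | zero => simpa using base hS hH hα hd
  | succ i ih =>
    have := upper_step hS hwt (by omega) ih
    have e : ((i + 1 : ℕ) : ℤ) + 2 = (i : ℤ) + 2 + 1 := by push_cast; ring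
    rw [e]
    exact this

theorem coatom (hS : S.Good) (htop : S.grp = ⊤) : IsCoatom (S.P {j | j ≠ i0}) := by
  refine ⟨fun h => one_ne_zero (neg_not_mem hS (i0 := i0) (c := 1) (h ▸ Subgroup.mem_top _)), fun M hM => ?_⟩
  have e := hS.exists_eq_P htop ((S.B_le_P _).trans hM.le)
  by_cases h : S.n (R.simple i0) 1 ∈ M
  · rw [e, ← htop, ← S.P_univ]
    congr 1
    refine Set.eq_univ_of_forall fun j => ?_
    by_cases hj : j = i0
    · rw [hj]; exact h
    · exact hM.le (S.NJ_le_P _ (S.n_mem_NJ (R.simple_mem_sub.2 hj) one_ne_zero))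
  · exfalso
    refine hM.not_ge ?_
    rw [e]
    refine S.P_mono fun j hj => ?_
    rintro rfl
    exact h hj

theorem main [IsSimpleGroup G] (hS : S.Good) (htop : S.grp = ⊤) (hH : S.H = ⊥)
    (hwt : ∀ r, r ≠ R.simple i0 → R.wt r i0 ≤ 1)
    (hα : ∀ r, R.rt r i0 = 1 → (∀ j, j ≠ i0 → R.wt r j ≤ 0) → r = R.simple i0)
    (hd : ∀ j, j ≠ i0 → ∃ β, R.rt β i0 = 1 ∧ R.wt β j ≠ 0) (h6 : ∀ r, R.rt r i0 ≤ 6) {ρ : ι} (h7 : R.rt ρ i0 = 6) :
    ∃ (M₁ M₂ : Subgroup G) (g : G) (A B : ℕ → Subgroup G),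
      IsCoatom M₁ ∧ M₂ = M₁.map (MulAut.conj g).toMonoidHom ∧ M₁ ≠ M₂ ∧ M₁.normalCore = ⊥ ∧ A 0 = M₁ ∧ B 0 = M₂ ∧
      (∀ i, A (i + 1) = ((A i ⊓ B i).subgroupOf M₁).normalCore.map M₁.subtype) ∧
      (∀ i, B (i + 1) = ((A i ⊓ B i).subgroupOf M₂).normalCore.map M₂.subtype) ∧ A 6 = ⊥ ∧ A 5 ≠ ⊥ := by
  have hs : S.n (R.simple i0) 1 * S.n (R.simple i0) 1 = 1 := by
    have := S.n_mul_n_mem_H (R.simple i0) (one_ne_zero (α := F)) one_ne_zero
    rwa [hH, Subgroup.mem_bot] at this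
  have hc := coatom (i0 := i0) hS htop
  refine ⟨S.P {j | j ≠ i0}, _, S.n (R.simple i0) 1,
    seqA (S.P {j | j ≠ i0}) (S.n (R.simple i0) 1),
    fun i => (seqA (S.P {j | j ≠ i0}) (S.n (R.simple i0) 1) i).map (MulAut.conj (S.n (R.simple i0) 1)).toMonoidHom,
    hc, rfl, fun h => ?_, ?_, rfl, rfl, fun i => rfl, fun i => core_cj _ _ hs, ?_, fun h => ?_⟩
  · have hx : S.x (R.simple i0) 1 ∈ S.P {j | j ≠ i0} := S.B_le_P _ (S.U_le_B (S.x_mem_U (R.isPos_simple i0) 1))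
    have h2 := Subgroup.mem_map_of_mem (MulAut.conj (S.n (R.simple i0) 1)).toMonoidHom hx
    rw [← h] at h2
    have h3 : S.n (R.simple i0) 1 * S.x (R.simple i0) 1 * (S.n (R.simple i0) 1)⁻¹ ∈ S.P {j | j ≠ i0} := h2
    rw [S.n_conj_self _ one_ne_zero] at h3
    simpa using neg_not_mem hS h3
  · rcases (Subgroup.normalCore_normal (S.P {j | j ≠ i0})).eq_bot_or_eq_top with h | h
    · exact h
    · exact absurd (top_le_iff.1 (h ▸ Subgroup.normalCore_le _)) hc.1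
  · have := upper hS hH hwt hα hd 5
    have e : lv R i0 ((5 : ℕ) + 2) = ∅ := Set.eq_empty_of_forall_notMem fun r hr => by
      have h1 : ((5 : ℕ) : ℤ) + 2 ≤ _ := hr
      have := h6 r
      omega
    rw [e, S.XS_empty] at this
    exact le_bot_iff.1 this
  · have := lower (S := S) hwt 5 (S.x_mem_XS (r := ρ) (by
      change ((5 : ℕ) : ℤ) + 1 ≤ _
      rw [h7]; norm_num) 1)
    rw [h, Subgroup.mem_bot] at this
    exact one_ne_zero (hS.x_inj _ _ this)

end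

open CL.Chev Cfsg.Lie in
theorem chk1 : ∀ r : Fin 240, r.val ≠ ((rootSys chevE8).simple (3 : Fin 8)).val → (Good.C chevE8).wt 3 r ≤ 1 := by
  decide +kernel

open CL.Chev Cfsg.Lie in
theorem chk2 : ∀ r : Fin 240, (rootSys chevE8).rt r (3 : Fin 8) = 1 →
    (∀ j : Fin 8, j ≠ 3 → (Good.C chevE8).wt j r ≤ 0) → r.val = ((rootSys chevE8).simple (3 : Fin 8)).val := by
  decide +kernel

open CL.Chev Cfsg.Lie in
theorem chk3 : ∀ j : Fin 8, j ≠ 3 → ∃ β : Fin 240, (rootSys chevE8).rt β (3 : Fin 8) = 1 ∧ (Good.C chevE8).wt j β ≠ 0 := by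
  decide +kernel

open CL.Chev Cfsg.Lie in
theorem chk4 : ∀ r : Fin 240, (rootSys chevE8).rt r (3 : Fin 8) ≤ 6 := by
  decide +kernel

open CL.Chev Cfsg.Lie in
theorem chk5 : (rootSys chevE8).rt (239 : Fin 240) (3 : Fin 8) = 6 := by
  decide +kernel

/-- An extremal example for iterated cores of conjugate maximal subgroups: there exist a finite group G and two distinct conjugate maximal subgroups M₁, M₂ of G, with M₁ having trivial core in G, such that, if we define two descending sequences of subgroups by A₀ = M₁, B₀ = M₂ and, for every i, A_{i+1} = the core in M₁ of A_i ∩ B_i and B_{i+1} = the core in M₂ of A_i ∩ B_i (the core in M of a subgroup Y ≤ M is the largest normal subgroup of M contained in Y), the subgroup A₆ is trivial while A₅ is not (so the index 6 cannot be lowered to 5). (One example is a maximal parabolic subgroup of the Chevalley group of type E₈ over a finite field and a suitable conjugate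 of it.) -/
theorem result :
    ∃ (G : Type) (_ : Group G) (_ : Finite G) (M₁ M₂ : Subgroup G) (g : G) (A B : ℕ → Subgroup G),
      IsCoatom M₁ ∧ M₂ = M₁.map (MulAut.conj g).toMonoidHom ∧ M₁ ≠ M₂ ∧ M₁.normalCore = ⊥ ∧ A 0 = M₁ ∧ B 0 = M₂ ∧
      (∀ i, A (i + 1) = ((A i ⊓ B i).subgroupOf M₁).normalCore.map M₁.subtype) ∧
      (∀ i, B (i + 1) = ((A i ⊓ B i).subgroupOf M₂).normalCore.map M₂.subtype) ∧ A 6 = ⊥ ∧ A 5 ≠ ⊥ := by
  have := CL.Chev.finite_group Cfsg.Lie.chevE8 (ZMod 2)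
  have := CL.Chev.isSimpleGroup_group (D := Cfsg.Lie.chevE8) (F := ZMod 2) (by simp) (by
    rintro (h | h) <;> exact absurd (congrArg (·.rank) h) (by decide))
  refine ⟨Cfsg.Lie.chevE8.group (ZMod 2), inferInstance, inferInstance,
    main (κ := Fin Cfsg.Lie.chevE8.rank) (i0 := (3 : Fin 8))
    (CL.Chev.stG_good (D := Cfsg.Lie.chevE8) (F := ZMod 2)) CL.Chev.stG_top ?_ ?_ ?_ ?_ chk4 chk5⟩
  · rw [eq_bot_iff, CL.Chev.StData.H_le_iff]
    intro r t ht
    have : t = 1 := by revert t; decide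
    rw [this, CL.Chev.StData.h_one]
    exact one_mem _
  · intro r hr
    exact (CL.Chev.rootSys_wt' (D := Cfsg.Lie.chevE8) r (3 : Fin 8)).trans_le (chk1 r fun h => hr (Fin.ext h))
  · intro r hr h
    refine Fin.ext (chk2 r hr fun j hj => ?_)
    exact (CL.Chev.rootSys_wt' (D := Cfsg.Lie.chevE8) r j).symm.trans_le (h j hj)
  · intro j hj
    obtain ⟨β, h1, h2⟩ := chk3 j hj
    exact ⟨β, h1, fun h => h2 ((CL.Chev.rootSys_wt' (D := Cfsg.Lie.chevE8) β j).symm.trans h)⟩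

end Cfsg.Agent.S5751
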