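import Cfsg.Statements.S5754
import Cfsg.Agent.KSG.OrthBasic

set_option autoImplicit false
open Cfsg

namespace Cfsg.Agent.S5754

open CL.Orth QuadraticMap

theorem aux {F V ι : Type*} [Field F] [AddCommGroup V] [Module F V] {Q : QuadraticForm F V}
    (hQ : Q.Anisotropic) (w w' : ι → V) (h1 : ∀ i, Q (w i) = Q (w' i))
    (h2 : ∀ i j, polar Q (w i) (w j) = polar Q (w' i) (w' j)) (s : Finset ι) :
    ∃ g : O Q, ∀ i ∈ s, g.1 (w i) = w' i := by
  classical
  induction s using Finset.induction_on with
  | empty => exact ⟨1, by simp⟩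
  | insert a s _ ih =>
    obtain ⟨g, hg⟩ := ih
    by_cases h : g.1 (w a) = w' a
    · exact ⟨g, by simpa [h] using hg⟩
    refine ⟨refl Q (g.1 (w a) - w' a) * g, fun i hi => ?_⟩
    change (refl Q _).1 (g.1 _) = _
    rcases Finset.mem_insert.1 hi with rfl | hi
    · exact refl_sub_apply ((g.2 _).trans (h1 i)) fun h0 => h (sub_eq_zero.1 (hQ _ h0))
    · rw [hg i hi, refl_of_polar_eq_zero]
      rw [polar_sub_left, ← h2, ← hg i hi, polar, polar, ← map_add, g.2, g.2, g.2, sub_self]

/-- Let V be a finite-dimensional vector space over a finite field F carrying an anisotropic quadratic form Q (Q(v) = 0 only for v = 0). Then the group of all maps v ↦ φ(v) + c, with φ an isometry of Q and c ∈ V, acts on V as a binary permutation group: given n ≥ 2 and two n-tuples u, u' of vectors such that every pair of corresponding entries of u is carried to that of u' by such a map, one such map carries u to u'. -/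
theorem result {F V : Type*} [Field F] [Finite F] [AddCommGroup V] [Module F V] [Module.Finite F V]
    (Q : QuadraticForm F V) (hQ : Q.Anisotropic) (n : ℕ) (hn : 2 ≤ n) (u u' : Fin n → V)
    (h2 : ∀ i j : Fin n, i ≠ j → ∃ (φ : Q.IsometryEquiv Q) (c : V), φ (u i) + c = u' i ∧ φ (u j) + c = u' j) :
    ∃ (φ : Q.IsometryEquiv Q) (c : V), ∀ i, φ (u i) + c = u' i := by
  have hd : ∀ i j, Q (u i - u j) = Q (u' i - u' j) := fun i j => by
    rcases eq_or_ne i j with rfl | h
    · simp
    obtain ⟨φ, c, e1, e2⟩ := h2 i j h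
    rw [← e1, ← e2, add_sub_add_right_eq_sub, ← map_sub, φ.map_app]
  let z : Fin n := ⟨0, by omega⟩
  obtain ⟨g, hg⟩ := aux hQ (fun i => u i - u z) (fun i => u' i - u' z) (fun i => hd i z)
    (fun i j => by
      have e1 := Q_sub (Q := Q) (u i - u z) (u j - u z)
      have e2 := Q_sub (Q := Q) (u' i - u' z) (u' j - u' z)
      rw [sub_sub_sub_cancel_right] at e1 e2
      linear_combination e1 - e2 - hd i j + hd i z + hd j z) Finset.univ
  refine ⟨⟨g.1, g.2⟩, u' z - g.1 (u z), fun i => ?_⟩
  have := hg i (Finset.mem_univ _)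
  rw [map_sub] at this
  change g.1 _ + _ = _
  linear_combination (norm := module) this

end Cfsg.Agent.S5754
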