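import Cfsg.Statements.S5763
import Cfsg.Agent.KSG.AltSylow2b

set_option autoImplicit false
open Cfsg

namespace Cfsg.Agent.S5763

open Equiv Equiv.Perm

def V4 : Subgroup (Perm (Fin 4)) where
  carrier := {τ | τ * τ = 1 ∧ (τ = 1 ∨ ∀ x, τ x ≠ x)}
  one_mem' := by simp
  mul_mem' := by
    intro a b
    simp only [Set.mem_ofPred_eq]
    revert a b
    decide +kernel
  inv_mem' := by
    intro a
    simp only [Set.mem_ofPred_eq]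
    revert a
    decide +kernel

theorem V4_normal : V4.Normal := ⟨by
  intro a ha b
  change (b * a * b⁻¹) * (b * a * b⁻¹) = 1 ∧ ((b * a * b⁻¹) = 1 ∨ ∀ x, (b * a * b⁻¹) x ≠ x)
  change a * a = 1 ∧ (a = 1 ∨ ∀ x, a x ≠ x) at ha
  revert a b
  decide +kernel⟩

theorem V4_isPGroup : IsPGroup 2 V4 := fun a => ⟨1, Subtype.ext (by
  have := a.2.1
  simpa [pow_two] using this)⟩

theorem mem_sylow_four {β : Type*} [Fintype β] [DecidableEq β] (h4 : Fintype.card β = 4)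
    (S : Sylow 2 (Perm β)) (τ : Perm β) (h1 : τ * τ = 1) (h2 : ∀ x, τ x ≠ x) :
    τ ∈ (S : Subgroup (Perm β)) := by
  let e : β ≃ Fin 4 := Fintype.equivFinOfCardEq h4
  let φ : Perm β →* Perm (Fin 4) := e.permCongrHom.toMonoidHom
  have hφ : Function.Injective φ := e.permCongrHom.injective
  have := V4_normal
  have hP : IsPGroup 2 (V4.comap φ) := V4_isPGroup.comap_of_injective φ hφ
  apply hP.le_sylow_of_normal S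
  refine ⟨by rw [← map_mul, h1, map_one], Or.inr fun x hx => h2 (e.symm x) ?_⟩
  apply e.injective
  rw [e.apply_symm_apply]
  exact hx

theorem mem_of_partner (T : Sylow 2 (Perm (Fin 8))) {ι : Perm (Fin 8)}
    (h : CL.KSG.IsPartner (T : Subgroup (Perm (Fin 8))) ι) (z : Perm (Fin 8))
    (hc : ∀ x, z (ι x) = ι (z x)) (h2 : ∀ x, z (z x) = x) (h3 : ∀ x, z x ≠ x)
    (h4 : ∀ x, z x ≠ ι x) : z ∈ (T : Subgroup (Perm (Fin 8))) := by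
  have hz : z ∈ Subgroup.centralizer {ι} := by
    rw [Subgroup.mem_centralizer_singleton_iff]
    ext x
    exact congrArg Fin.val (hc x)
  refine (CL.KSG.mem_sylow_iff_pair T h ⟨z, hz⟩).2 (mem_sylow_four ?_ _ _ ?_ ?_)
  · rw [h.card_cycleFactors]; simp
  · rw [← map_mul]
    have : (⟨z, hz⟩ : Subgroup.centralizer {ι}) * ⟨z, hz⟩ = 1 :=
      Subtype.ext (Equiv.ext h2)
    rw [this, map_one]
  · intro c hc'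
    obtain ⟨x, hx, hcx⟩ := h.eq_swap_of_mem_cycleFactorsFinset c.2
    have e : z * c.1 * z⁻¹ = c.1 := congrArg Subtype.val hc'
    rw [hcx, ← swap_apply_apply] at e
    have e2 := congrArg (fun σ : Perm (Fin 8) => σ x) e
    simp only [swap_apply_left] at e2
    rw [swap_apply_of_ne_of_ne (h3 x).symm] at e2
    · exact hx e2.symm
    · intro e3
      apply h4 x
      have := h2 (ι x)
      rw [← e3] at this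
      exact this

theorem self_mem (T : Sylow 2 (Perm (Fin 8))) {ι : Perm (Fin 8)}
    (h : CL.KSG.IsPartner (T : Subgroup (Perm (Fin 8))) ι) :
    ι ∈ (T : Subgroup (Perm (Fin 8))) := by
  have hz : ι ∈ Subgroup.centralizer {ι} := by
    rw [Subgroup.mem_centralizer_singleton_iff]
  refine (CL.KSG.mem_sylow_iff_pair T h ⟨ι, hz⟩).2 ?_
  have : (⟨ι, hz⟩ : Subgroup.centralizer {ι}) ∈ (OnCycleFactors.toPermHom ι).ker := by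
    rw [OnCycleFactors.mem_ker_toPermHom_iff]
    intro c hc
    exact (self_mem_cycle_factors_commute hc).symm
  rw [MonoidHom.mem_ker.1 this]
  exact one_mem _

def L : List (List ℕ) := [[1, 0, 3, 2, 5, 4, 7, 6], [1, 0, 3, 2, 6, 7, 4, 5], [1, 0, 3, 2, 7, 6, 5, 4], [1, 0, 4, 5, 2, 3, 7, 6],
  [1, 0, 4, 6, 2, 7, 3, 5], [1, 0, 4, 7, 2, 6, 5, 3], [1, 0, 5, 4, 3, 2, 7, 6], [1, 0, 5, 6, 7, 2, 3, 4],
  [1, 0, 5, 7, 6, 2, 4, 3], [1, 0, 6, 4, 3, 7, 2, 5], [1, 0, 6, 5, 7, 3, 2, 4], [1, 0, 6, 7, 5, 4, 2, 3],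
  [1, 0, 7, 4, 3, 6, 5, 2], [1, 0, 7, 5, 6, 3, 4, 2], [1, 0, 7, 6, 5, 4, 3, 2], [2, 3, 0, 1, 5, 4, 7, 6],
  [2, 3, 0, 1, 6, 7, 4, 5], [2, 3, 0, 1, 7, 6, 5, 4], [2, 4, 0, 5, 1, 3, 7, 6], [2, 4, 0, 6, 1, 7, 3, 5],
  [2, 4, 0, 7, 1, 6, 5, 3], [2, 5, 0, 4, 3, 1, 7, 6], [2, 5, 0, 6, 7, 1, 3, 4], [2, 5, 0, 7, 6, 1, 4, 3],
  [2, 6, 0, 4, 3, 7, 1, 5], [2, 6, 0, 5, 7, 3, 1, 4], [2, 6, 0, 7, 5, 4, 1, 3], [2, 7, 0, 4, 3, 6, 5, 1],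
  [2, 7, 0, 5, 6, 3, 4, 1], [2, 7, 0, 6, 5, 4, 3, 1], [3, 2, 1, 0, 5, 4, 7, 6], [3, 2, 1, 0, 6, 7, 4, 5],
  [3, 2, 1, 0, 7, 6, 5, 4], [3, 4, 5, 0, 1, 2, 7, 6], [3, 4, 6, 0, 1, 7, 2, 5], [3, 4, 7, 0, 1, 6, 5, 2],
  [3, 5, 4, 0, 2, 1, 7, 6], [3, 5, 6, 0, 7, 1, 2, 4], [3, 5, 7, 0, 6, 1, 4, 2], [3, 6, 4, 0, 2, 7, 1, 5],
  [3, 6, 5, 0, 7, 2, 1, 4], [3, 6, 7, 0, 5, 4, 1, 2], [3, 7, 4, 0, 2, 6, 5, 1], [3, 7, 5, 0, 6, 2, 4, 1],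
  [3, 7, 6, 0, 5, 4, 2, 1], [4, 2, 1, 5, 0, 3, 7, 6], [4, 2, 1, 6, 0, 7, 3, 5], [4, 2, 1, 7, 0, 6, 5, 3],
  [4, 3, 5, 1, 0, 2, 7, 6], [4, 3, 6, 1, 0, 7, 2, 5], [4, 3, 7, 1, 0, 6, 5, 2], [4, 5, 3, 2, 0, 1, 7, 6],
  [4, 5, 6, 7, 0, 1, 2, 3], [4, 5, 7, 6, 0, 1, 3, 2], [4, 6, 3, 2, 0, 7, 1, 5], [4, 6, 5, 7, 0, 2, 1, 3],
  [4, 6, 7, 5, 0, 3, 1, 2], [4, 7, 3, 2, 0, 6, 5, 1], [4, 7, 5, 6, 0, 2, 3, 1], [4, 7, 6, 5, 0, 3, 2, 1],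
  [5, 2, 1, 4, 3, 0, 7, 6], [5, 2, 1, 6, 7, 0, 3, 4], [5, 2, 1, 7, 6, 0, 4, 3], [5, 3, 4, 1, 2, 0, 7, 6],
  [5, 3, 6, 1, 7, 0, 2, 4], [5, 3, 7, 1, 6, 0, 4, 2], [5, 4, 3, 2, 1, 0, 7, 6], [5, 4, 6, 7, 1, 0, 2, 3],
  [5, 4, 7, 6, 1, 0, 3, 2], [5, 6, 3, 2, 7, 0, 1, 4], [5, 6, 4, 7, 2, 0, 1, 3], [5, 6, 7, 4, 3, 0, 1, 2],
  [5, 7, 3, 2, 6, 0, 4, 1], [5, 7, 4, 6, 2, 0, 3, 1], [5, 7, 6, 4, 3, 0, 2, 1], [6, 2, 1, 4, 3, 7, 0, 5],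
  [6, 2, 1, 5, 7, 3, 0, 4], [6, 2, 1, 7, 5, 4, 0, 3], [6, 3, 4, 1, 2, 7, 0, 5], [6, 3, 5, 1, 7, 2, 0, 4],
  [6, 3, 7, 1, 5, 4, 0, 2], [6, 4, 3, 2, 1, 7, 0, 5], [6, 4, 5, 7, 1, 2, 0, 3], [6, 4, 7, 5, 1, 3, 0, 2],
  [6, 5, 3, 2, 7, 1, 0, 4], [6, 5, 4, 7, 2, 1, 0, 3], [6, 5, 7, 4, 3, 1, 0, 2], [6, 7, 3, 2, 5, 4, 0, 1],
  [6, 7, 4, 5, 2, 3, 0, 1], [6, 7, 5, 4, 3, 2, 0, 1], [7, 2, 1, 4, 3, 6, 5, 0], [7, 2, 1, 5, 6, 3, 4, 0],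
  [7, 2, 1, 6, 5, 4, 3, 0], [7, 3, 4, 1, 2, 6, 5, 0], [7, 3, 5, 1, 6, 2, 4, 0], [7, 3, 6, 1, 5, 4, 2, 0],
  [7, 4, 3, 2, 1, 6, 5, 0], [7, 4, 5, 6, 1, 2, 3, 0], [7, 4, 6, 5, 1, 3, 2, 0], [7, 5, 3, 2, 6, 1, 4, 0],
  [7, 5, 4, 6, 2, 1, 3, 0], [7, 5, 6, 4, 3, 1, 2, 0], [7, 6, 3, 2, 5, 4, 1, 0], [7, 6, 4, 5, 2, 3, 1, 0],
  [7, 6, 5, 4, 3, 2, 1, 0]]

set_option synthInstance.maxSize 100000 in
set_option synthInstance.maxHeartbeats 1000000 in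
theorem enum : ∀ a0 : Fin 8, a0 ≠ 0 →
    ∀ a1 : Fin 8, a1 ≠ 1 ∧ (a0 = 1 ↔ a1 = 0) →
    ∀ a2 : Fin 8, a2 ≠ 2 ∧ (a0 = 2 ↔ a2 = 0) ∧ (a1 = 2 ↔ a2 = 1) →
    ∀ a3 : Fin 8, a3 ≠ 3 ∧ (a0 = 3 ↔ a3 = 0) ∧ (a1 = 3 ↔ a3 = 1) ∧ (a2 = 3 ↔ a3 = 2) →
    ∀ a4 : Fin 8, a4 ≠ 4 ∧ (a0 = 4 ↔ a4 = 0) ∧ (a1 = 4 ↔ a4 = 1) ∧ (a2 = 4 ↔ a4 = 2) ∧ (a3 = 4 ↔ a4 = 3) →
    ∀ a5 : Fin 8, a5 ≠ 5 ∧ (a0 = 5 ↔ a5 = 0) ∧ (a1 = 5 ↔ a5 = 1) ∧ (a2 = 5 ↔ a5 = 2) ∧ (a3 = 5 ↔ a5 = 3) ∧ (a4 = 5 ↔ a5 = 4) →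
    ∀ a6 : Fin 8, a6 ≠ 6 ∧ (a0 = 6 ↔ a6 = 0) ∧ (a1 = 6 ↔ a6 = 1) ∧ (a2 = 6 ↔ a6 = 2) ∧ (a3 = 6 ↔ a6 = 3) ∧ (a4 = 6 ↔ a6 = 4) ∧ (a5 = 6 ↔ a6 = 5) →
    ∀ a7 : Fin 8, a7 ≠ 7 ∧ (a0 = 7 ↔ a7 = 0) ∧ (a1 = 7 ↔ a7 = 1) ∧ (a2 = 7 ↔ a7 = 2) ∧ (a3 = 7 ↔ a7 = 3) ∧ (a4 = 7 ↔ a7 = 4) ∧ (a5 = 7 ↔ a7 = 5) ∧ (a6 = 7 ↔ a7 = 6) →
    [a0.val, a1.val, a2.val, a3.val, a4.val, a5.val, a6.val, a7.val] ∈ L := by
  decide +kernel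

def gt (l : List ℕ) (x : ℕ) : ℕ := l.getD x 0

def chk (a b : List ℕ) : Bool :=
  (List.range 8).any (fun x => gt a x == gt b x) ||
  (List.range 8).all (fun x => gt a (gt b (gt a (gt b x))) == x) ||
  (List.range 8).all (fun x => gt a (gt b (gt a (gt b x))) != x &&
    gt a (gt b (gt a (gt b (gt a (gt b (gt a (gt b x))))))) == x)

theorem chk_all : (L.all fun a => L.all fun b => chk a b) = true := by decide +kernel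

theorem exists_list (ι : Perm (Fin 8)) (h1 : ∀ x, ι (ι x) = x) (h2 : ∀ x, ι x ≠ x) :
    ∃ l ∈ L, ∀ x : Fin 8, gt l x.val = (ι x).val := by
  have k : ∀ x y, ι x = y ↔ ι y = x := fun x y =>
    ⟨fun h => by rw [← h, h1], fun h => by rw [← h, h1]⟩
  refine ⟨_, enum (ι 0) (h2 _) (ι 1) ⟨h2 _, k _ _⟩ (ι 2) ⟨h2 _, k _ _, k _ _⟩
    (ι 3) ⟨h2 _, k _ _, k _ _, k _ _⟩ (ι 4) ⟨h2 _, k _ _, k _ _, k _ _, k _ _⟩
    (ι 5) ⟨h2 _, k _ _, k _ _, k _ _, k _ _, k _ _⟩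
    (ι 6) ⟨h2 _, k _ _, k _ _, k _ _, k _ _, k _ _, k _ _⟩
    (ι 7) ⟨h2 _, k _ _, k _ _, k _ _, k _ _, k _ _, k _ _, k _ _⟩, fun x => ?_⟩
  fin_cases x <;> rfl

theorem trichotomy (a b : Perm (Fin 8)) (ha1 : ∀ x, a (a x) = x) (ha2 : ∀ x, a x ≠ x)
    (hb1 : ∀ x, b (b x) = x) (hb2 : ∀ x, b x ≠ x) :
    (∃ x, a x = b x) ∨ (∀ x, a (b (a (b x))) = x) ∨
      ∀ x, a (b (a (b x))) ≠ x ∧ a (b (a (b (a (b (a (b x))))))) = x := by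
  obtain ⟨l, hl, el⟩ := exists_list a ha1 ha2
  obtain ⟨m, hm, em⟩ := exists_list b hb1 hb2
  have h := List.all_eq_true.1 (List.all_eq_true.1 chk_all l hl) m hm
  simp only [chk, Bool.or_eq_true, List.any_eq_true, List.all_eq_true, List.mem_range,
    beq_iff_eq, Bool.and_eq_true, bne_iff_ne] at h
  rcases h with (⟨x, hx, h⟩ | h) | h
  · left
    refine ⟨⟨x, hx⟩, Fin.ext ?_⟩
    rw [← el, ← em]; exact h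
  · right; left
    intro x
    have := h x.val x.2
    simp only [el, em] at this
    exact Fin.ext this
  · right; right
    intro x
    have := h x.val x.2
    simp only [el, em] at this
    exact ⟨fun e => this.1 (congrArg Fin.val e), Fin.ext this.2⟩

theorem main (H K : Sylow 2 (Perm (Fin 8))) :
    (H : Subgroup (Perm (Fin 8))) ⊓ K ≠ ⊥ := by
  obtain ⟨a, ha⟩ := CL.KSG.exists_isPartner H
  obtain ⟨b, hb⟩ := CL.KSG.exists_isPartner K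
  have ha2 := ha.ne_self_of_even (by simp; decide)
  have hb2 := hb.ne_self_of_even (by simp; decide)
  have key : ∀ z : Perm (Fin 8), z ∈ (H : Subgroup (Perm (Fin 8))) → z ∈ (K : Subgroup _) →
      (∃ x, z x ≠ x) → (H : Subgroup (Perm (Fin 8))) ⊓ K ≠ ⊥ := by
    rintro z h1 h2 ⟨x, h3⟩ h
    have : z ∈ (H : Subgroup (Perm (Fin 8))) ⊓ K := ⟨h1, h2⟩
    rw [h, Subgroup.mem_bot] at this
    exact h3 (by rw [this]; rfl)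
  by_cases hab : ∃ x, a x = b x
  · obtain ⟨x, hx⟩ := hab
    refine key (swap x (a x)) (ha.swap_self_mem x) (hx ▸ hb.swap_self_mem x) ⟨x, ?_⟩
    rw [swap_apply_left]; exact ha2 x
  push Not at hab
  rcases trichotomy a b ha.invol ha2 hb.invol hb2 with ⟨x, hx⟩ | h | h
  · exact absurd hx (hab x)
  · refine key a (self_mem H ha) (mem_of_partner K hb a (fun x => ?_) ha.invol ha2 hab)
      ⟨0, ha2 0⟩
    have := h (a x)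
    have e := congrArg (fun y => b (a y)) (h x)
    simp only [ha.invol, hb.invol] at e
    exact e
  · have hz : ∀ x, (a * b * a * b) x = a (b (a (b x))) := fun x => rfl
    have hinv : ∀ x, b (a (b (a x))) = a (b (a (b x))) := fun x => by
      have := (h (b (a (b (a x))))).2
      simp only [ha.invol, hb.invol] at this
      exact this.symm
    refine key (a * b * a * b) (mem_of_partner H ha _ (fun x => ?_) (fun x => (h x).2)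
      (fun x => (h x).1) (fun x e => ?_)) (mem_of_partner K hb _ (fun x => ?_) (fun x => (h x).2)
      (fun x => (h x).1) (fun x e => ?_)) ⟨0, (h 0).1⟩
    · rw [hz, hz, ← hinv x]
    · rw [hz] at e
      have e2 := congrArg b (a.injective e)
      rw [hb.invol] at e2
      exact ha2 _ e2
    · rw [hz, hz, hb.invol, ← hinv x, hb.invol]
    · rw [hz] at e
      have e2 := congrArg a e
      rw [ha.invol] at e2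
      exact hb2 _ e2

/-- In the symmetric group on 8 letters any two Sylow 2-subgroups have non-trivial intersection: for a Sylow 2-subgroup H and every element x, H ∩ xHx⁻¹ ≠ 1. -/
theorem result (H : Sylow 2 (Equiv.Perm (Fin 8))) (x : Equiv.Perm (Fin 8)) :
    (H : Subgroup (Equiv.Perm (Fin 8))) ⊓ (H : Subgroup (Equiv.Perm (Fin 8))).map (MulAut.conj x).toMonoidHom ≠ ⊥ := by
  have := main H (x • H)
  rwa [Sylow.coe_subgroup_smul] at this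

end Cfsg.Agent.S5763
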