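import Cfsg.Statements.S5767
import Cfsg.Agent.PERM.Grid4

set_option autoImplicit false
open Cfsg

namespace Cfsg.Agent.S5767

open Equiv Equiv.Perm Function CL.Grid

section
variable {K I : Type*} [Fintype K] [DecidableEq K] [Fintype I] [DecidableEq I]

theorem sign_single (j : K) (σ : Perm I) :
    sign (wr 1 (update 1 j σ) : Perm (K → I)) =
      sign σ ^ (Fintype.card I ^ (Fintype.card K - 1)) := by
  rw [sign_eq_sign_of_equiv _ (Equiv.prodCongrLeft fun _ => σ) (Equiv.funSplitAt j I) fun f => by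
    refine Prod.ext (by simp [Equiv.prodCongrLeft]) (funext fun i => ?_)
    simp [Equiv.prodCongrLeft, update_of_ne i.2], sign_prodCongrLeft]
  simp

theorem sign_base (τ : K → Perm I)
    (h : ∀ j, sign (τ j) ^ (Fintype.card I ^ (Fintype.card K - 1)) = 1) :
    sign (wr 1 τ : Perm (K → I)) = 1 := by
  have : ∀ S : Finset K, sign (wr 1 (S.piecewise τ 1) : Perm (K → I)) = 1 := fun S => by
    induction S using Finset.induction_on with
    | empty => exact (congrArg sign (Equiv.ext fun f => rfl)).trans (map_one _)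
    | insert j S hj ih =>
      have : (wr 1 ((insert j S).piecewise τ 1) : Perm (K → I)) =
          wr 1 (update 1 j (τ j)) * wr 1 (S.piecewise τ 1) := Equiv.ext fun f => funext fun i => by
        by_cases hi : i = j
        · subst hi; simp [hj]
        · simp [update_of_ne hi, Finset.piecewise_insert_of_ne _ _ _ hi]
      rw [this, map_mul, ih, sign_single, h, mul_one]
  simpa using this Finset.univ

theorem sign_top {j j' : K} (hj : j ≠ j') (h4 : 4 ∣ Fintype.card I ^ (Fintype.card K - 1)) :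
    sign (wr (swap j j') 1 : Perm (K → I)) = 1 := by
  have hc : Fintype.card (fixedPoints (wr (swap j j') 1 : Perm (K → I))) =
      Fintype.card I ^ (Fintype.card K - 1) := by
    have : Fintype.card ({i // i ≠ j} → I) = Fintype.card I ^ (Fintype.card K - 1) := by simp
    rw [← this]
    refine Fintype.card_congr (Equiv.ofBijective (fun f i => f.1 i) ⟨fun f g h => ?_, fun g => ?_⟩)
    · refine Subtype.ext (funext fun i => ?_)
      by_cases hi : i = j
      · have h1 := congrFun f.2 j
        have h2 := congrFun g.2 j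
        have h3 := congrFun h ⟨j', hj.symm⟩
        simp only [wr_apply, symm_swap, swap_apply_left, Pi.one_apply, Perm.one_apply] at h1 h2 h3
        rw [hi, ← h1, ← h2, h3]
      · exact congrFun h ⟨i, hi⟩
    · refine ⟨⟨fun i => if h : i = j then g ⟨j', hj.symm⟩ else g ⟨i, h⟩, funext fun i => ?_⟩,
        funext fun i => dif_neg i.2⟩
      by_cases h1 : i = j
      · subst h1; simp [hj.symm]
      · by_cases h2 : i = j'
        · subst h2; simp [h1]
        · simp [swap_apply_of_ne_of_ne h1 h2]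
  rw [sign_of_pow_two_eq_one (Equiv.ext fun f => funext fun i => by simp [pow_two]), hc]
  have h5 : 4 ∣ Fintype.card (K → I) := by
    rw [Fintype.card_fun]; exact h4.trans (pow_dvd_pow _ (Nat.sub_le _ _))
  obtain ⟨c, hc⟩ := Nat.dvd_sub h5 h4
  rw [hc]
  exact Even.neg_one_pow ⟨c, by omega⟩

theorem hx (hm : 2 ≤ Fintype.card I) (hk : 2 ≤ Fintype.card K)
    (hne : ¬ (Fintype.card K = 2 ∧ Fintype.card I % 4 = 2)) {X : Subgroup (Perm (K → I))}
    (hX : ∀ σ ∈ WW K I, sign σ = 1 → σ ∈ X) : HX X := by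
  refine ⟨fun τ hτ => hX _ (wr_mem _ _) (sign_base τ fun j => by rw [hτ, one_pow]),
    fun j j' => ?_, fun h6 τ => hX _ (wr_mem _ _) (sign_base τ fun j => ?_)⟩
  · by_cases hs : sign (wr (swap j j') 1 : Perm (K → I)) = 1
    · exact ⟨1, fun _ _ _ => rfl, hX _ (wr_mem _ _) hs⟩
    have hj : j ≠ j' := by
      rintro rfl
      exact hs ((congrArg sign (Equiv.ext fun f => funext fun i => by simp)).trans (map_one _))
    have hodd : Odd (Fintype.card I) := by
      by_contra ho
      obtain ⟨c, hc⟩ := Nat.not_odd_iff_even.1 ho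
      refine hs (sign_top hj ?_)
      by_cases h2 : Fintype.card K = 2
      · rw [h2]; norm_num; omega
      · obtain ⟨l, hl⟩ : ∃ l, Fintype.card K - 1 = l + 2 := ⟨Fintype.card K - 3, by omega⟩
        rw [hl, hc]
        exact ⟨(c + c) ^ l * c ^ 2, by ring⟩
    obtain ⟨a, b, hab⟩ := Fintype.exists_pair_of_one_lt_card (α := I) (by omega)
    refine ⟨update 1 j (swap a b), fun i h1 _ => update_of_ne h1 _ _, hX _ (wr_mem _ _) ?_⟩
    have : (wr (swap j j') (update 1 j (swap a b)) : Perm (K → I)) =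
        wr 1 (update 1 j (swap a b)) * wr (swap j j') 1 := Equiv.ext fun f => rfl
    rw [this, map_mul, sign_single, sign_swap hab, hodd.pow.neg_one_pow,
      (Int.units_eq_one_or _).resolve_left hs]
    simp
  · obtain ⟨l, hl⟩ : ∃ l, Fintype.card K - 1 = l + 1 := ⟨Fintype.card K - 2, by omega⟩
    rw [hl, h6, pow_succ, show 6 ^ l * 6 = 2 * (6 ^ l * 3) by ring, pow_mul, Int.units_sq, one_pow]

theorem not_le (hm : 2 ≤ Fintype.card I) (hk : 2 ≤ Fintype.card K) :
    ¬ alternatingGroup (K → I) ≤ WW K I := by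
  intro h
  obtain ⟨a, b, hab⟩ := Fintype.exists_pair_of_one_lt_card (α := I) (by omega)
  obtain ⟨i, j, hij⟩ := Fintype.exists_pair_of_one_lt_card (α := K) (by omega)
  obtain ⟨s, s1, s2, s3⟩ := exists_even_fix {fun _ : K => a} (by
    rw [Finset.card_singleton, Fintype.card_fun]
    calc 1 + 3 = 2 ^ 2 := rfl
      _ ≤ Fintype.card I ^ 2 := Nat.pow_le_pow_left hm _
      _ ≤ _ := Nat.pow_le_pow_right (by omega) hk) (d := update (fun _ => a) i b) (d' := fun _ => b)
    (by simpa using hab.symm) (fun h' => hab (congrFun (Finset.mem_singleton.1 h') i).symm)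
  obtain ⟨π, τ, hs⟩ := h (show s ∈ alternatingGroup _ from s1)
  have h1 := hs (fun _ => a) (π j)
  have h2 := hs (update (fun _ => a) i b) (π j)
  rw [s3 _ (by simp)] at h1
  rw [s2, symm_apply_apply, update_of_ne hij.symm] at h2
  exact hab (h1.trans h2.symm)

end


/-- Maximality of product-action wreath products. Let m ≥ 5 and k ≥ 2 and let W be the wreath product S_m ≀ S_k acting on the m^k functions f : {1..k} → {1..m} by (f ↦ (i ↦ τ_i(f(π⁻¹ i)))) for π ∈ S_k and τ_1, …, τ_k ∈ S_m. If W contains an odd permutation of these m^k points, then W is a maximal subgroup of the symmetric group on them. Unless k = 2 and m ≡ 2 (mod 4) (in which case the even permutations in W form the base group S_m × S_m, which is imprimitive), the even permutations in W form a maximal subgroup of the alternating group on these points. (The known proof uses the classification of the finite simple groups.) -/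
theorem result (m k : ℕ) (hm : 5 ≤ m) (hk : 2 ≤ k) :
    (¬ (k = 2 ∧ m % 4 = 2) → ∃ M : Subgroup ↥(alternatingGroup (Fin k → Fin m)), IsCoatom M ∧ ∀ σ : ↥(alternatingGroup (Fin k → Fin m)), σ ∈ M ↔ ∃ (π : Equiv.Perm (Fin k)) (τ : Fin k → Equiv.Perm (Fin m)), ∀ (f : Fin k → Fin m) (i : Fin k), (σ : Equiv.Perm (Fin k → Fin m)) f i = τ i (f (π.symm i))) ∧
    ((∃ σ : Equiv.Perm (Fin k → Fin m), Equiv.Perm.sign σ = -1 ∧ ∃ (π : Equiv.Perm (Fin k)) (τ : Fin k → Equiv.Perm (Fin m)), ∀ (f : Fin k → Fin m) (i : Fin k), σ f i = τ i (f (π.symm i))) →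
      ∃ M : Subgroup (Equiv.Perm (Fin k → Fin m)), IsCoatom M ∧ ∀ σ, σ ∈ M ↔ ∃ (π : Equiv.Perm (Fin k)) (τ : Fin k → Equiv.Perm (Fin m)), ∀ (f : Fin k → Fin m) (i : Fin k), σ f i = τ i (f (π.symm i))) := by
  obtain ⟨n, rfl⟩ : ∃ n, k = n + 2 := ⟨k - 2, by omega⟩
  have hN := not_le (K := Fin (n + 2)) (I := Fin m) (by simp; omega) (by simp)
  refine ⟨fun hne => ⟨(WW _ _).subgroupOf _, ⟨fun h => hN (Subgroup.subgroupOf_eq_top.1 h),
    fun b hb => ?_⟩, fun σ => Iff.rfl⟩, fun ⟨σ, hσ, hw⟩ => ⟨WW _ _, ⟨fun h => hN (h ▸ le_top),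
      fun b hb => ?_⟩, fun σ => Iff.rfl⟩⟩
  · have := (hx (K := Fin (n + 2)) (I := Fin m) (by simp; omega) (by simp) (by simpa using hne)
      (X := b.map (Subgroup.subtype _)) fun σ h1 h2 => ⟨⟨σ, h2⟩, hb.le h1, rfl⟩).main
      (by simpa using hm)
    rcases this with h | h
    · exact absurd (fun x hx => h ⟨x, hx, rfl⟩) hb.not_ge
    · refine eq_top_iff.2 fun x _ => ?_
      obtain ⟨y, hy, hxy⟩ := h x.2
      exact (Subtype.ext hxy : y = x) ▸ hy
  · have : HX b := ⟨fun _ _ => hb.le (wr_mem _ _), fun _ _ => ⟨1, fun _ _ _ => rfl,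
      hb.le (wr_mem _ _)⟩, fun _ _ => hb.le (wr_mem _ _)⟩
    rcases this.main (by simpa using hm) with h | h
    · exact absurd h hb.not_ge
    · refine eq_top_iff.2 fun x _ => ?_
      rcases Int.units_eq_one_or (sign x) with h1 | h1
      · exact h h1
      · have : x * σ⁻¹ ∈ b := h (by simp [mem_alternatingGroup, h1, hσ])
        simpa using b.mul_mem this (hb.le hw)

end Cfsg.Agent.S5767
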