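import Cfsg.Statements.S5769
import Mathlib
import Cfsg.Agent.CHEV.E765
import Cfsg.Agent.PERM.SpecSp4
import Cfsg.Agent.KSG.OrthSpec
import Cfsg.Agent.CLAS.UniOrd
import Cfsg.Agent.KSG.GLnOrders3

set_option autoImplicit false
open Cfsg

namespace Cfsg.Agent.S5769

theorem isEmpty_of_dvd (H : Subgroup ↥(Cfsg.Lie.chevE7.group (ZMod 2))) {X : Type*} [Group X] [Finite X]
    (y : X) (hy : 65 ∣ orderOf y) : IsEmpty (↥H ≃* X) := by
  refine ⟨fun e => CL.Chev.E765.orderOf_ne ((e.symm (y ^ (orderOf y / 65)) : H) : Cfsg.Lie.chevE7.group (ZMod 2)) ?_⟩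
  rw [Subgroup.orderOf_coe, MulEquiv.orderOf_eq, orderOf_pow_orderOf_div (orderOf_pos y).ne' hy]

/-- The Chevalley group of type E₇ over the field with two elements (generated by its root elements in the adjoint representation) has no subgroup isomorphic to any of PSL₂(64), PSp₄(8), PSL₄(8), PSU₄(8) or PSp₆(8). Here F₈ and F₆₄ denote fields with 8 and 64 elements. -/
theorem result {F₈ F₆₄ : Type*} [Field F₈] [Fintype F₈] (h8 : Fintype.card F₈ = 8) [Field F₆₄] [Fintype F₆₄] (h64 : Fintype.card F₆₄ = 64)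
    (H : Subgroup ↥(Cfsg.Lie.chevE7.group (ZMod 2))) :
    IsEmpty (↥H ≃* Matrix.ProjectiveSpecialLinearGroup (Fin 2) F₆₄) ∧ IsEmpty (↥H ≃* Cfsg.PSp 2 F₈) ∧
    IsEmpty (↥H ≃* Matrix.ProjectiveSpecialLinearGroup (Fin 4) F₈) ∧ IsEmpty (↥H ≃* Cfsg.PSU 4 F₆₄ 8) ∧ IsEmpty (↥H ≃* Cfsg.PSp 3 F₈) := by
  classical
  have hc : CharP F₈ 2 := charP_of_card_eq_prime_pow (p := 2) (f := 3) h8
  have h2 : (65 : ℕ) ∈ Set.range (orderOf : Cfsg.PSp 2 F₈ → ℕ) := by
    rw [CL.Spec.spec_PSp4 (p := 2) (k := 3) h8]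
    exact Or.inl (by decide)
  refine ⟨?_, ?_, ?_, ?_, ?_⟩
  · obtain ⟨y, hy⟩ := CL.GLn.exists_singer_psl (F := F₆₄) (n := 2) (by norm_num)
    have := (hy _).1 (pow_orderOf_eq_one y)
    rw [h64] at this
    exact isEmpty_of_dvd H y (by omega)
  · obtain ⟨y, hy⟩ := h2
    exact isEmpty_of_dvd H y hy.symm.dvd
  · obtain ⟨y, hy⟩ := CL.GLn.exists_singer_psl (F := F₈) (n := 4) (by norm_num)
    have := (hy _).1 (pow_orderOf_eq_one y)
    rw [h8] at this
    exact isEmpty_of_dvd H y (by omega)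
  · obtain ⟨y, hy⟩ := CL.UniED.exists_singer_psu (K := F₆₄) (q := 8) h64 (n := 4) (by norm_num)
    have := (hy _).1 (pow_orderOf_eq_one y)
    rw [show CL.UniED.gg 8 4 = 455 by decide] at this
    exact isEmpty_of_dvd H y (by omega)
  · obtain ⟨A, hA, hO⟩ := CL.Orth.mem_range_PSp_iff.1 h2
    have h3 : CL.Orth.SpSpec F₈ 3 65 := by
      refine CL.Orth.SpSpec.of (V := (Fin (2 * 2) → F₈) × (Fin 2 → F₈)) (by simp)
        (hA.prodMap (CL.SpU.isReal_one_alt (V := Fin 2 → F₈) (by simp))) fun k => ?_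
      have e1 : (-1 : Module.End F₈ (Fin (2 * 2) → F₈)) = 1 := by
        ext v i; simp [CharTwo.neg_eq]
      have e2 : (-1 : Module.End F₈ ((Fin (2 * 2) → F₈) × (Fin 2 → F₈))) = 1 := by
        refine LinearMap.ext fun v => Prod.ext (funext fun i => ?_) (funext fun i => ?_) <;> simp [CharTwo.neg_eq]
      rw [← hO k, e1, e2, or_self, or_self, ← orderOf_dvd_iff_pow_eq_one, ← orderOf_dvd_iff_pow_eq_one,
        CL.Orth.orderOf_prodMap]
      simp
    obtain ⟨y, hy⟩ := CL.Orth.mem_range_PSp_iff.2 h3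
    exact isEmpty_of_dvd H y hy.symm.dvd

end Cfsg.Agent.S5769
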