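import Cfsg.Statements.S5885
import Mathlib

set_option autoImplicit false
open Cfsg

namespace Cfsg.Agent.S5885

open scoped Pointwise

open MulAction in
theorem exists_cycle {G : Type*} [Group G] [Finite G] (n : ℕ)
    (hA : ∀ P : Subgroup (Equiv.Perm (Fin n)), MulAction.IsPreprimitive P (Fin n) → alternatingGroup (Fin n) ≤ P)
    (M : Subgroup G) (hM : IsCoatom M) (hn : M.index = n) {x y z : G ⧸ M} (hxy : x ≠ y)
    (hxz : x ≠ z) (hyz : y ≠ z) :
    ∃ g : G, g • x = y ∧ g • y = z ∧ ∀ w, w ≠ x → w ≠ y → w ≠ z → g • w = w := by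
  classical
  let e : (G ⧸ M) ≃ Fin n := Finite.equivFinOfCardEq hn
  let ρ : G →* Equiv.Perm (Fin n) := e.permCongrHom.toMonoidHom.comp (toPermHom G (G ⧸ M))
  have hρ : ∀ g w, ρ g (e w) = e (g • w) := fun g w => by simp [ρ]
  have : Nontrivial (G ⧸ M) := ⟨x, y, hxy⟩
  have h1 : IsPreprimitive G (G ⧸ M) := by
    rw [← isCoatom_stabilizer_iff_preprimitive G ((1 : G) : G ⧸ M), stabilizer_quotient]
    exact hM
  let f : (G ⧸ M) →ₑ[ρ.rangeRestrict] Fin n := ⟨e, fun g w => (hρ g w).symm⟩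
  obtain ⟨g, hg⟩ := hA ρ.range (IsPreprimitive.of_surjective (f := f) e.surjective)
    (show Equiv.swap (e x) (e z) * Equiv.swap (e x) (e y) ∈ _ by
      rw [Equiv.Perm.mem_alternatingGroup, Equiv.Perm.sign_mul,
        Equiv.Perm.sign_swap (e.injective.ne hxz), Equiv.Perm.sign_swap (e.injective.ne hxy)]
      simp)
  refine ⟨g, e.injective ?_, e.injective ?_, fun w h1 h2 h3 => e.injective ?_⟩
  · rw [← hρ, hg, Equiv.Perm.mul_apply, Equiv.swap_apply_left,
      Equiv.swap_apply_of_ne_of_ne (e.injective.ne hxy.symm) (e.injective.ne hyz)]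
  · rw [← hρ, hg, Equiv.Perm.mul_apply, Equiv.swap_apply_right, Equiv.swap_apply_left]
  · rw [← hρ, hg, Equiv.Perm.mul_apply,
      Equiv.swap_apply_of_ne_of_ne (e.injective.ne h1) (e.injective.ne h2),
      Equiv.swap_apply_of_ne_of_ne (e.injective.ne h1) (e.injective.ne h3)]

theorem eq_or_eq {G : Type*} [Group G] {H T M : Subgroup G} (hHM : H ≤ M)
    (hmax : IsCoatom (H.subgroupOf M)) (h : H ≤ T) : T ⊓ M = H ∨ M ≤ T := by
  rcases (Subgroup.comap_mono (f := M.subtype) h).eq_or_lt with e | e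
  · left
    refine le_antisymm (fun x hx => ?_) (le_inf h hHM)
    have : (⟨x, hx.2⟩ : M) ∈ H.subgroupOf M := e.ge hx.1
    exact this
  · exact Or.inr (Subgroup.subgroupOf_eq_top.1 (hmax.2 _ e))


/-- Let n be an odd positive integer such that every primitive permutation group of degree n contains the alternating group (so the symmetric and alternating groups are the only primitive groups of degree n). Let G be a finite group, M a maximal subgroup of G of index n, and H a maximal subgroup of M. Then H is a second maximal subgroup of G: H is maximal in every maximal subgroup K of G containing H. -/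
theorem result {G : Type*} [Group G]
    [Finite G] (n : ℕ) (hodd : Odd n)
    (hA : ∀ P : Subgroup (Equiv.Perm (Fin n)), MulAction.IsPreprimitive P (Fin n) → alternatingGroup (Fin n) ≤ P)
    (M : Subgroup G) (hM : IsCoatom M) (hn : M.index = n) (H : Subgroup G) (hHM : H ≤ M)
    (hmax : IsCoatom (H.subgroupOf M)) (K : Subgroup G) (hK : IsCoatom K) (hHK : H ≤ K) :
    IsCoatom (H.subgroupOf K) := by
  by_cases hKM : K = M
  · rwa [hKM]
  have hI : K ⊓ M = H := (eq_or_eq hHM hmax hHK).resolve_right fun h =>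
    hKM ((hM.le_iff.1 h).resolve_left hK.1)
  refine ⟨fun h => hKM ((hK.le_iff.1 ((Subgroup.subgroupOf_eq_top.1 h).trans hHM)).resolve_left
    hM.1).symm, fun L' hL' => ?_⟩
  by_contra hne
  obtain ⟨k, hk⟩ : ∃ k : K, k ∉ L' := by
    by_contra h
    push Not at h
    exact hne ((Subgroup.eq_top_iff' _).2 h)
  obtain ⟨l, hl, hl'⟩ := SetLike.exists_of_lt hL'
  let ω : G ⧸ M := ((1 : G) : G ⧸ M)
  have hω : ∀ g : G, g • ω = ω ↔ g ∈ M := fun g => by
    rw [← MulAction.mem_stabilizer_iff, MulAction.stabilizer_quotient]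
  have hfix : ∀ a : K, (a : G) • ω = ω → a ∈ H.subgroupOf K := fun a ha =>
    hI.le ⟨a.2, (hω _).1 ha⟩
  have heq : ∀ a b : K, (a : G) • ω = (b : G) • ω → b⁻¹ * a ∈ L' := fun a b h =>
    hL'.le (hfix _ (by rw [Subgroup.coe_mul, mul_smul, h, ← mul_smul]; simp))
  let B : Set (G ⧸ M) := {w | ∃ a ∈ L', w = (a : G) • ω}
  have hB : ∀ a : K, (a : G) • ω ∈ B → a ∈ L' := by
    rintro a ⟨b, hb, h⟩
    simpa using mul_mem hb (heq a b h)
  have hωB : ω ∈ B := ⟨1, one_mem _, by simp⟩
  have hv : (k : G) • ω ∉ B := fun h => hk (hB k h)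
  have hw : ((k * l : K) : G) • ω ∉ B := fun h => hk (by simpa using mul_mem (hB _ h) (inv_mem hl))
  have hvw : (k : G) • ω ≠ ((k * l : K) : G) • ω := fun h => hl' (hfix l (by
    rw [Subgroup.coe_mul, mul_smul, smul_left_cancel_iff] at h; exact h.symm))
  have hHT : H ≤ MulAction.stabilizer G B := fun h hh => by
    have hh' : (⟨h, hHK hh⟩ : K) ∈ L' := hL'.le hh
    rw [MulAction.mem_stabilizer_set' (Set.toFinite B)]
    rintro _ ⟨a, ha, rfl⟩
    exact ⟨_, mul_mem hh' ha, by rw [Subgroup.coe_mul, mul_smul]⟩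
  rcases eq_or_eq hHM hmax hHT with hT | hT
  · obtain ⟨z, hz1, hz2⟩ : ∃ z, z ∉ B ∧ z ∉ (fun w => (k : G) • w) '' B := by
      by_contra h
      push Not at h
      have h1 : B ∪ (fun w => (k : G) • w) '' B = Set.univ :=
        Set.eq_univ_of_forall fun z => or_iff_not_imp_left.2 (h z)
      have h2 : Disjoint B ((fun w => (k : G) • w) '' B) := by
        rw [Set.disjoint_right]
        rintro _ ⟨_, ⟨a, ha, rfl⟩, rfl⟩ h
        have := hB (k * a) (by rwa [Subgroup.coe_mul, mul_smul])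
        exact hk (by simpa using mul_mem this (inv_mem ha))
      have h3 := Set.ncard_union_eq h2
      rw [h1, Set.ncard_univ, Set.ncard_image_of_injective _ (MulAction.injective _)] at h3
      exact Nat.not_even_iff_odd.2 hodd ⟨_, hn.symm.trans h3⟩
    obtain ⟨g, g1, g2, g3⟩ := exists_cycle n hA M hM hn (z := z) hvw
      (fun h => hz2 ⟨ω, hωB, h⟩)
      (fun h => hz2 ⟨_, ⟨l, hl, rfl⟩, by rw [← h, Subgroup.coe_mul, mul_smul]⟩)
    have g4 : ∀ w ∈ B, g • w = w := fun w hw' =>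
      g3 w (fun h => hv (h ▸ hw')) (fun h => hw (h ▸ hw')) (fun h => hz1 (h ▸ hw'))
    have g5 : g ∈ H := hT.le ⟨(MulAction.mem_stabilizer_set' (Set.toFinite B)).2
      fun w hw' => by rwa [g4 w hw'], (hω g).1 (g4 ω hωB)⟩
    let g' : K := ⟨g, hHK g5⟩
    have g6 := heq (g' * k) (k * l) (by rw [Subgroup.coe_mul, mul_smul]; exact g1)
    refine hz2 ⟨_, ⟨_, mul_mem (mul_mem hl g6) hl, rfl⟩, ?_⟩
    rw [← g2]
    simp only [← mul_smul]
    congr 1
    simp [g', mul_assoc]
  · have hu : (l : G) • ω ∈ B := ⟨l, hl, rfl⟩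
    obtain ⟨g, g1, -, g3⟩ := exists_cycle n hA M hM hn (x := (l : G) • ω)
      (y := (k : G) • ω) (z := ((k * l : K) : G) • ω)
      (fun h => hv (h ▸ hu)) (fun h => hw (h ▸ hu)) hvw
    have g4 := hT ((hω g).1 (g3 ω (fun h => hl' (hfix l h.symm)) (fun h => hv (h ▸ hωB))
      (fun h => hw (h ▸ hωB))))
    exact hv (g1 ▸ (MulAction.mem_stabilizer_set' (Set.toFinite B)).1 g4 hu)

end Cfsg.Agent.S5885
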