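import Cfsg.Statements.S5887
import Cfsg.Agent.CLAS.ExtFGL

set_option autoImplicit false
open Cfsg

namespace Cfsg.Agent.S5887

open Matrix Module Cfsg.Geo CL.Tv CL.ExtF CL.Asch

/-- Let F be a finite field, n a positive integer and r a composite number (r > 1, not prime) that divides n with r < n. Let K be a subalgebra of the algebra of n × n matrices over F which is a field of degree r over F (commutative, every non-zero element invertible, of dimension r over F). Then the normaliser N of K in GL_n(F) (a group of type ΓL_{n/r}(F_{q^r})) is not a maximal subgroup of GL_n(F), and N ∩ SL_n(F) is not a maximal subgroup of SL_n(F): both lie properly inside the normaliser of an intermediate subfield of prime degree over F. -/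
theorem result {F : Type*} [Field F]
    [Fintype F] (n r : ℕ) (hr1 : 1 < r) (hrp : ¬ r.Prime) (hrn : r ∣ n) (hlt : r < n)
    (K : Subalgebra F (Matrix (Fin n) (Fin n) F)) (hK : Cfsg.Geo.IsFieldSubalgebra r K) :
    ¬ IsCoatom (Cfsg.Geo.subalgebraNormalizer K) ∧
      ¬ Cfsg.Geo.IsMaximalIn (Cfsg.Geo.specialLinear (Fin n) F)
        (Cfsg.Geo.subalgebraNormalizer K ⊓ Cfsg.Geo.specialLinear (Fin n) F) := by
  classical
  have : Nonempty (Fin n) := ⟨⟨0, by omega⟩⟩
  obtain ⟨p, hp, hpr⟩ := Nat.exists_prime_and_dvd (show r ≠ 1 by omega)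
  have hple : p ≤ r := Nat.le_of_dvd (by omega) hpr
  have hpne : p ≠ r := fun h => hrp (h ▸ hp)
  obtain ⟨K₁, hK₁, hmem⟩ := exists_prime_fieldSubalgebra K hK.comm hK.inv p (hK.finrank_eq ▸ hpr)
  have hsub : K₁ ≤ K := fun x hx => ((hmem x).1 hx).1
  obtain ⟨hM1, hM2⟩ := ext_maximal hp (by rw [Fintype.card_fin]; omega) hK₁
  have hle : subalgebraNormalizer K ≤ subalgebraNormalizer K₁ := by
    refine le_subalgebraNormalizer fun h hh x hx => ?_
    rw [hmem] at hx ⊢
    refine ⟨(hh x).1 hx.1, ?_⟩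
    rw [← map_pow, hx.2]
  obtain ⟨L, _, _, _, _, _, _, -, -, h1, h2, h3⟩ := exists_ext_model hK₁
  obtain ⟨e, he⟩ := exists_ne (0 : Fin n → F)
  have hcancel : ∀ k ∈ K, ∀ k' ∈ K, k *ᵥ e = k' *ᵥ e → k = k' := by
    intro k hk k' hk' h
    by_contra hne
    obtain ⟨y, hy, hxy⟩ := hK.inv (k - k') (K.sub_mem hk hk') (sub_ne_zero.2 hne)
    rw [hK.comm _ (K.sub_mem hk hk') _ hy] at hxy
    apply he
    have : (y * (k - k')) *ᵥ e = 0 := by rw [← mulVec_mulVec, sub_mulVec, h, sub_self, mulVec_zero]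
    rwa [hxy, one_mulVec] at this
  let U : Submodule L (Fin n → F) :=
    { carrier := {v | ∃ k ∈ K, k *ᵥ e = v}
      add_mem' := by
        rintro _ _ ⟨a, ha, rfl⟩ ⟨b, hb, rfl⟩
        exact ⟨a + b, K.add_mem ha hb, add_mulVec _ _ _⟩
      zero_mem' := ⟨0, K.zero_mem, zero_mulVec _⟩
      smul_mem' := by
        rintro c _ ⟨a, ha, rfl⟩
        obtain ⟨k, hk, hc⟩ := h1 c
        exact ⟨k * a, K.mul_mem (hsub hk) ha, by rw [hc, mulVec_mulVec]⟩ }
  have hw : ∃ w, w ∉ U := by
    by_contra hc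
    push Not at hc
    let f : K →ₗ[F] (Fin n → F) :=
      { toFun := fun k => (k : Matrix (Fin n) (Fin n) F) *ᵥ e
        map_add' := fun a b => add_mulVec _ _ _
        map_smul' := fun c a => smul_mulVec _ _ _ }
    have hs : Function.Surjective f := fun v => by
      obtain ⟨k, hk, hv⟩ := hc v
      exact ⟨⟨k, hk⟩, hv⟩
    have := LinearMap.finrank_le_finrank_of_surjective hs
    rw [hK.finrank_eq, Module.finrank_fintype_fun_eq_card, Fintype.card_fin] at this
    omega
  obtain ⟨w, hw⟩ := hw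
  obtain ⟨φ, hφw, hφU⟩ := exists_dual_one U hw
  have heU : e ∈ U := ⟨1, K.one_mem, one_mulVec e⟩
  let X : Subgroup ((Fin n → F) ≃ₗ[F] (Fin n → F)) := CL.Root.toE (specialLinear (Fin n) F)
  have hX : HK L X := hk_of_Gam fun g _ hd =>
    CL.Root.mem_toE.2 (mem_SL_iff_act.2 (by rwa [CL.Root.act_actE_symm]))
  obtain ⟨t, ht, hkl, htv⟩ := hX.tv (hφU e heU)
  set g := (CL.Root.actE (Fin n) F).symm t with hg
  have hgt : act g = t := CL.Root.act_actE_symm t
  have hgS : g ∈ specialLinear (Fin n) F := CL.Root.mem_toE.1 ht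
  have hg1 : g ∈ subalgebraNormalizer K₁ := (h3 g).2 (hgt ▸ hkl.mem_Gam)
  have hg0 : g ∉ subalgebraNormalizer K := by
    intro hn
    have hKle : K ≤ K₁ := by
      intro k hk
      have hk' : conjAlgHom g k ∈ K := (hn k).1 hk
      have hc : ∀ v, conjAlgHom g k *ᵥ t v = t (k *ᵥ v) := fun v => by
        rw [← hgt, act_apply, act_apply, conj_mulVec]
      have e1 : conjAlgHom g k = k := by
        refine hcancel _ hk' _ hk ?_
        have := hc e
        rwa [htv, htv, hφU e heU, hφU _ ⟨k, hk, rfl⟩, zero_smul, add_zero, add_zero] at this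
      have e2 := hc w
      rw [e1, htv, htv, hφw, one_smul, mulVec_add, add_right_inj] at e2
      obtain ⟨k₁, hk₁, hc₁⟩ := h1 (φ (k *ᵥ w))
      rw [hc₁] at e2
      rw [hcancel _ hk _ (hsub hk₁) e2]
      exact hk₁
    have hKK : K = K₁ := le_antisymm hKle hsub
    have := hK.finrank_eq
    rw [hKK, hK₁.finrank_eq] at this
    exact hpne this
  constructor
  · intro hc
    exact hM1.1 (hc.2 _ (lt_of_le_of_ne hle fun h => hg0 (h ▸ hg1)))
  · intro hc
    rcases hc.2 (subalgebraNormalizer K₁ ⊓ specialLinear (Fin n) F) (inf_le_inf_right _ hle) inf_le_right with h | h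
    · have : g ∈ subalgebraNormalizer K₁ ⊓ specialLinear (Fin n) F := ⟨hg1, hgS⟩
      rw [h] at this
      exact hg0 this.1
    · exact hM2.1.ne h

end Cfsg.Agent.S5887
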