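import Cfsg.Statements.S5890
import Cfsg.Agent.CLAS.PGL2MaxCases

set_option autoImplicit false
open Cfsg

namespace Cfsg.Agent.S5890

open CL.Dk CL.PGL2

/-- Let F be a finite field with q ≥ 4 elements, let L ≤ PGL₂(F) be the image of SL₂(F) (a copy of PSL₂(F), of index gcd(2, q − 1)), and let M be a maximal subgroup of PGL₂(F) that does not contain L. Suppose q ∉ {7, 9, 11} and that q is not a prime congruent to ±11 or ±19 modulo 40. Then M ∩ L is a maximal subgroup of L. (For the excluded q there are maximal subgroups of PGL₂(q) — dihedral groups of order 12 and 16 at q = 7, of order 20 and 16 at q = 9, of order 20 at q = 11, and S₄ at the excluded primes — whose intersection with L is not maximal in L.) -/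
theorem result {F : Type*} [Field F]
    [Fintype F] (h4 : 4 ≤ Fintype.card F) (h7 : Fintype.card F ≠ 7) (h9 : Fintype.card F ≠ 9) (h11 : Fintype.card F ≠ 11)
    (h40 : (Fintype.card F).Prime → Fintype.card F % 40 ∉ ({11, 19, 21, 29} : Finset ℕ))
    (M : Subgroup (Matrix.ProjGenLinGroup (Fin 2) F)) (hM : IsCoatom M)
    (hML : ¬ (Matrix.ProjGenLinGroup.mk.comp Matrix.SpecialLinearGroup.toGL).range ≤ M) :
    IsCoatom ((M ⊓ (Matrix.ProjGenLinGroup.mk.comp Matrix.SpecialLinearGroup.toGL).range).subgroupOf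
      (Matrix.ProjGenLinGroup.mk.comp Matrix.SpecialLinearGroup.toGL).range) := by
  simp only [← Nat.card_eq_fintype_card (α := F)] at h4 h7 h9 h11 h40
  rw [← pslIn_eq_range_toPGL] at hML ⊢
  suffices h : M ⊓ pslIn F ⋖ pslIn F from
    isCoatom_comap_of_covBy (pslIn F).subtype_injective (by rwa [Subgroup.range_subtype])
  rcases Nat.even_or_odd (Nat.card F) with he | hodd
  · rw [pslIn_eq_top_of_even he, inf_top_eq]
    exact hM.covBy_top
  rcases isCoatom_pgl_cases (algebraMap F (AlgebraicClosure F)) h4 hM hML with ⟨x, rfl⟩ |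
    ⟨x, y, h1, h2, rfl, h5⟩ | ⟨h1, h2, h5, B, rfl⟩ | ⟨k, g, r, h1, h2, -, h5, rfl⟩
  · exact stabilizer_inf_covBy x
  · have h8 := gcd_mul_card_pairT_inf_pslIn _ h1 h2
    rw [gcd_two_of_odd hodd] at h8
    have := card_pairT_cases _ h1 h2
    obtain ⟨m, hm⟩ := hodd
    exact pairN_inf_covBy _ h1 h2 (Or.inr (by omega))
  · have h6 := h40 h1
    simp only [Finset.mem_insert, Finset.mem_singleton, not_or] at h6
    rw [octa_inf_pslIn h5 B fun h => by
      have := (isSquare_two_iff_of_odd hodd).1 ((octa_le_pslIn_iff h5 B).1 h)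
      omega]
    exact tetra_covBy h5 h1 (by omega) h2 (by omega) B
  · have := cjs_covBy (h := g) (pslOf_covBy (two_ne_zero_of_odd hodd) k.subtype h1 (by
      rintro rfl
      exact absurd (h2 hodd) (by decide)) h5)
    rwa [← pglOf_inf_pslIn_of_odd hodd _ h5 (h2 hodd), cjs_inf, cjs_of_normal g (pslIn F)] at this

end Cfsg.Agent.S5890
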