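import Cfsg.Statements.S5895
import Mathlib

set_option autoImplicit false
open Cfsg

namespace Cfsg.Agent.S5895

open SemidirectProduct in
theorem gen {N C : Type} [Group N] [Group C] [Finite N] [Finite C] (φ : C →* MulAut N)
    (hirr : ∀ W : Subgroup N, (∀ c, ∀ w ∈ W, φ c w ∈ W) → W = ⊥ ∨ W = ⊤)
    (H₀ : Subgroup C) (h0 : IsCoatom H₀) (W : Subgroup N) (hW : ∀ c ∈ H₀, ∀ w ∈ W, φ c w ∈ W)
    (hW0 : W ≠ ⊥) (hW1 : W ≠ ⊤) :
    ∃ M H K : Subgroup (N ⋊[φ] C), IsCoatom M ∧ M.index = Nat.card N ∧ H ≤ M ∧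
      IsCoatom (H.subgroupOf M) ∧ IsCoatom K ∧ H ≤ K ∧ ¬ IsCoatom (H.subgroupOf K) := by
  obtain ⟨w, hw, hw1⟩ := (Subgroup.bot_or_exists_ne_one W).resolve_left hW0
  obtain ⟨u, -, hu⟩ := SetLike.exists_of_lt (lt_top_iff_ne_top.2 hW1)
  have hM : ∀ g : N ⋊[φ] C, g ∈ (inr : C →* _).range ↔ g.left = 1 := fun g =>
    ⟨by rintro ⟨c, rfl⟩; rfl, fun h => ⟨g.right, by ext <;> simp [h]⟩⟩
  refine ⟨inr.range, H₀.map inr, H₀.comap rightHom, ⟨fun h => hw1 ?_, fun L hL => ?_⟩, ?_,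
    Subgroup.map_le_range _ _, ?_, Subgroup.isCoatom_comap_of_surjective rightHom_surjective h0,
    ?_, fun h => ?_⟩
  · exact (hM (inl w)).1 (h ▸ Subgroup.mem_top _)
  · obtain ⟨g, hg, hg'⟩ := SetLike.exists_of_lt hL
    have h1 : ∀ c, inr c ∈ L := fun c => hL.le ⟨c, rfl⟩
    rcases hirr (L.comap inl) (fun c v hv => by
      rw [Subgroup.mem_comap, inl_aut]
      exact L.mul_mem (L.mul_mem (h1 _) hv) (h1 _)) with h | h
    · refine absurd ((hM g).2 ((Subgroup.eq_bot_iff_forall _).1 h _ ?_)) hg'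
      rw [← inl_left_mul_inr_right g] at hg
      exact (L.mul_mem_cancel_right (h1 _)).1 hg
    · refine eq_top_iff.2 fun x _ => ?_
      rw [← inl_left_mul_inr_right x]
      exact L.mul_mem (h.ge (Subgroup.mem_top x.left)) (h1 _)
  · have h1 := (inr : C →* N ⋊[φ] C).range.index_mul_card
    rw [SemidirectProduct.card, ← Nat.card_congr (MonoidHom.ofInjective inr_injective).toEquiv] at h1
    exact Nat.eq_of_mul_eq_mul_right Nat.card_pos h1
  · rw [← Subgroup.isCoatom_comap (MonoidHom.ofInjective inr_injective)]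
    convert h0
    ext c
    exact Subgroup.mem_map_iff_mem (f := inr) inr_injective
  · rintro _ ⟨c, hc, rfl⟩
    exact hc
  · let L : Subgroup (N ⋊[φ] C) :=
      { carrier := {g | g.left ∈ W ∧ g.right ∈ H₀}
        mul_mem' := fun ha hb => ⟨W.mul_mem ha.1 (hW _ ha.2 _ hb.1), H₀.mul_mem ha.2 hb.2⟩
        one_mem' := ⟨W.one_mem, H₀.one_mem⟩
        inv_mem' := fun ha => ⟨hW _ (H₀.inv_mem ha.2) _ (W.inv_mem ha.1), H₀.inv_mem ha.2⟩ }
    have h2 : ∀ v : N, (inl v : N ⋊[φ] C) ∈ H₀.comap rightHom := fun v => H₀.one_mem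
    have h3 : (inl w : N ⋊[φ] C) ∈ L := ⟨hw, H₀.one_mem⟩
    have h1 := h.2 (L.subgroupOf _) (SetLike.lt_iff_le_and_exists.2 ⟨?_,
      ⟨inl w, h2 w⟩, h3, fun h => hw1 ((hM (inl w)).1 (Subgroup.map_le_range _ _ h))⟩)
    · have h4 : (inl u : N ⋊[φ] C) ∈ L :=
        h1.ge (Subgroup.mem_top (⟨inl u, h2 u⟩ : H₀.comap rightHom))
      exact hu h4.1
    · rintro ⟨_, _⟩ ⟨c, hc, rfl⟩
      exact ⟨W.one_mem, hc⟩

/-- For every prime p and every d ≥ 2 there is a finite group G with a maximal subgroup M of index p^d and a maximal subgroup H of M that is not second maximal in G: some maximal subgroup K of G contains H without H being maximal in K. (One may take G the affine group V ⋊ GL(V) of V = 𝔽_p^d, M = GL(V), H the stabiliser in M of a line W of V, and K = V ⋊ H, with H < W ⋊ H < K.) So the prime-index hypothesis in the second-maximality criterion cannot be relaxed to prime-power index. -/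
theorem result (p d : ℕ) (hp : p.Prime)
    (hd : 2 ≤ d) :
    ∃ (G : Type) (_ : Group G) (_ : Finite G) (M H K : Subgroup G), IsCoatom M ∧ M.index = p ^ d ∧ H ≤ M ∧
      IsCoatom (H.subgroupOf M) ∧ IsCoatom K ∧ H ≤ K ∧ ¬ IsCoatom (H.subgroupOf K) := by
  have : Fact p.Prime := ⟨hp⟩
  let K := GaloisField p d
  let φ : Kˣ →* MulAut (Multiplicative K) :=
    { toFun := fun c => AddEquiv.toMultiplicative (DistribMulAction.toAddEquiv K c)
      map_one' := by ext; simp
      map_mul' := by intros; ext; simp [mul_smul] }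
  have hφ : ∀ c w, φ c w = .ofAdd (c * w.toAdd) := fun c w => rfl
  have hK : Nat.card (Multiplicative K) = p ^ d := GaloisField.card p d (by omega)
  let P : Subgroup Kˣ → Prop := fun C => ∀ W : Subgroup (Multiplicative K),
    (∀ c ∈ C, ∀ w ∈ W, φ c w ∈ W) → W = ⊥ ∨ W = ⊤
  have hP : P ⊤ := fun W hW => by
    refine (Subgroup.bot_or_exists_ne_one W).imp_right ?_
    rintro ⟨w, hw, hw1⟩
    refine eq_top_iff.2 fun x _ => ?_
    by_cases hx : x = 1
    · exact hx ▸ W.one_mem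
    · have h1 : w.toAdd ≠ 0 := hw1
      have := hW (Units.mk0 (x.toAdd / w.toAdd) (div_ne_zero hx h1)) trivial w hw
      rwa [hφ, Units.val_mk0, div_mul_cancel₀ _ h1] at this
  obtain ⟨C, hC⟩ := exists_minimal_of_wellFoundedLT P ⟨_, hP⟩
  have hC0 : (⊥ : Subgroup C) ≠ ⊤ := fun h => by
    have h1 : Nat.card (Subgroup.zpowers (Multiplicative.ofAdd (1 : K))) = p := by
      rw [Nat.card_zpowers, orderOf_ofAdd_eq_addOrderOf]
      exact CharP.eq K (CharP.addOrderOf_one K) inferInstance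
    rcases hC.1 (Subgroup.zpowers (.ofAdd 1)) (fun c hc w hw => by
      have : (⟨c, hc⟩ : C) ∈ (⊥ : Subgroup C) := h ▸ Subgroup.mem_top _
      obtain rfl : c = 1 := congrArg Subtype.val (Subgroup.mem_bot.1 this)
      simpa using hw) with h2 | h2
    · rw [h2, Subgroup.card_bot] at h1; exact hp.one_lt.ne h1
    · rw [h2, Subgroup.card_top, hK] at h1
      have := Nat.pow_lt_pow_right hp.one_lt (show 1 < d by omega)
      rw [pow_one] at this; omega
  obtain ⟨H₀, h0, -⟩ := (eq_top_or_exists_le_coatom (⊥ : Subgroup C)).resolve_left hC0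
  have h1 : ¬ P (H₀.map C.subtype) := fun h => h0.1 (eq_top_iff.2 fun x _ =>
    (Subgroup.mem_map_iff_mem C.subtype_injective).1 (hC.2 h (Subgroup.map_subtype_le _) x.2))
  simp only [P, not_forall, not_or] at h1
  obtain ⟨W, hW, hW0, hW1⟩ := h1
  obtain ⟨M, H, L, h⟩ := gen (φ.comp C.subtype) (fun W hW => hC.1 W fun c hc => hW ⟨c, hc⟩) H₀ h0 W
    (fun c hc => hW c ⟨c, hc, rfl⟩) hW0 hW1
  exact ⟨_, inferInstance, Finite.of_equiv _ SemidirectProduct.equivProd.symm, M, H, L, hK ▸ h⟩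

end Cfsg.Agent.S5895
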