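import Cfsg.Statements.S5896
import Cfsg.Agent.FGS.DerLen2
import Cfsg.Agent.S0144

set_option autoImplicit false
open Cfsg

namespace Cfsg.Agent.S5896

open Subgroup CL.DL
open scoped commutatorElement

theorem derived_inf_ne_bot {A Q : Type} [Group A] [Group Q] (D : Subgroup (A ≀ᵣ Q)) [hD : D.Normal]
    {t : A ≀ᵣ Q} (ht : t ∈ D) (ht1 : t.right ≠ 1) {k : ℕ} (h : derivedSeries A k ≠ ⊥) :
    derivedSeries ↥(D ⊓ RegularWreathProduct.rightHom.ker) k ≠ ⊥ := by
  classical
  let B : Subgroup (A ≀ᵣ Q) := D ⊓ RegularWreathProduct.rightHom.ker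
  let π : B →* A := MonoidHom.mk' (fun w => w.1.left 1) (by
    intro a b
    have ha : a.1.right = 1 := (mem_inf.mp a.2).2
    simp [ha])
  have hπ : Function.Surjective π := by
    intro a
    let s : A ≀ᵣ Q := ⟨Pi.mulSingle 1 a, 1⟩
    refine ⟨⟨⁅s, t⁆, mem_inf.mpr ⟨?_, ?_⟩⟩, ?_⟩
    · rw [commutatorElement_def]
      exact D.mul_mem (hD.conj_mem t ht s) (D.inv_mem ht)
    · rw [MonoidHom.mem_ker, map_commutatorElement]
      change ⁅(1 : Q), t.right⁆ = 1
      simp
    · change (⁅s, t⁆ : A ≀ᵣ Q).left 1 = a
      simp [commutatorElement_def, s, ht1]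
  intro hW
  apply h
  rw [← map_derivedSeries_eq hπ, hW, Subgroup.map_bot]

/-- Finite perfect groups have solvable maximal subgroups of unbounded derived length: for every d there is a finite perfect group G (equal to its commutator subgroup) with a solvable maximal subgroup H whose derived length exceeds d, i.e. the d-th term of the derived series of H is non-trivial. (Take the derived subgroup of a wreath product S ≀ A₅ with S solvable of large derived length, and H the preimage of a maximal subgroup of A₅.) -/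
theorem result (d : ℕ) :
    ∃ (G : Type) (_ : Group G) (_ : Finite G) (H : Subgroup G), commutator G = ⊤ ∧ IsCoatom H ∧ Group.IsSolvable H ∧
      derivedSeries H d ≠ ⊥ := by
  obtain ⟨A, _, _, X, _, _, _, hA, -, h⟩ := exists_perm 2 d
  let Q := alternatingGroup (Fin 5)
  have hQ : _root_.commutator Q = ⊤ := commutator_alternatingGroup_eq_top (by simp)
  have hQc : Nat.card Q = 60 := by
    rw [nat_card_alternatingGroup]; simp [Nat.factorial]
  let T : Subgroup (A ≀ᵣ Q) := (RegularWreathProduct.inl : Q →* A ≀ᵣ Q).range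
  let D : Subgroup (A ≀ᵣ Q) := normalClosure T
  have hT : ⁅T, T⁆ = T := by
    simp only [T, MonoidHom.range_eq_map]
    rw [← map_commutator, ← _root_.commutator_def, hQ]
  have hD : ⁅D, D⁆ = D := by
    refine le_antisymm (commutator_le_left D D) (normalClosure_le_normal ?_)
    change T ≤ ⁅D, D⁆
    rw [← hT]
    exact commutator_mono le_normalClosure le_normalClosure
  let π : D →* Q := RegularWreathProduct.rightHom.comp D.subtype
  have hπ : Function.Surjective π := fun q =>
    ⟨⟨RegularWreathProduct.inl q, le_normalClosure (H := T) ⟨q, rfl⟩⟩, rfl⟩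
  let M : Subgroup Q := MulAction.stabilizer Q (0 : Fin 5)
  have hM : M.index = 5 := by
    have := alternatingGroup.isPretransitive_of_three_le_card (Fin 5) (by simp)
    rw [MulAction.index_stabilizer_of_transitive]; simp
  have hH : (M.comap π).index = 5 := by rw [index_comap_of_surjective _ hπ, hM]
  refine ⟨D, inferInstance, inferInstance, M.comap π, ?_,
    CL.PG.isCoatom_of_index_eq_prime Nat.prime_five hH, ?_, ?_⟩
  · apply map_injective D.subtype_injective
    rw [map_subtype_commutator, hD, ← MonoidHom.range_eq_map, range_subtype]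
  · obtain ⟨a, ha⟩ := hA.exists_card_eq
    have h1 := (M.comap π).card_mul_index
    have h2 := D.card_subgroup_dvd_card
    rw [RegularWreathProduct.card, ha, hQc, ← h1, hH, ← pow_mul] at h2
    have h3 : Nat.card (M.comap π) ∣ 2 ^ (a * 60 + 2) * 3 ^ 1 := by
      refine Nat.dvd_of_mul_dvd_mul_right (by norm_num : 0 < 5) (h2.trans (dvd_of_eq ?_))
      ring
    obtain ⟨x, y, hx, hy, hxy⟩ := (Nat.dvd_mul).mp h3
    obtain ⟨i, -, rfl⟩ := (Nat.dvd_prime_pow Nat.prime_two).mp hx
    obtain ⟨j, -, rfl⟩ := (Nat.dvd_prime_pow Nat.prime_three).mp hy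
    exact Cfsg.Agent.S0144.result 2 3 i j Nat.prime_two Nat.prime_three hxy.symm
  · have : Nontrivial Q := Finite.one_lt_card_iff_nontrivial.mp (by rw [hQc]; norm_num)
    obtain ⟨q, hq⟩ := exists_ne (1 : Q)
    have h1 := derived_inf_ne_bot D (t := RegularWreathProduct.inl q)
      (le_normalClosure (H := T) ⟨q, rfl⟩) hq h
    refine derived_ne_bot_of_injective (MonoidHom.codRestrict (inclusion inf_le_left) (M.comap π)
      (fun x => ?_)) (fun a b hab => inclusion_injective inf_le_left (congrArg Subtype.val hab)) h1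
    have : π (inclusion inf_le_left x) = 1 := (mem_inf.mp x.2).2
    rw [mem_comap, this]
    exact M.one_mem

end Cfsg.Agent.S5896
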