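import Cfsg.Statements.S5902
import Cfsg.Agent.S5901

set_option autoImplicit false
open Cfsg

namespace Cfsg.Agent.S5902

/-- Let G be a finite group, X a subgroup whose own subgroup lattice is complemented, and suppose X lies in exactly one maximal subgroup M of G. Then every subgroup H of G not contained in the normal core of M has a complement in the subgroup lattice of G (some C with H ⊔ C = G and H ⊓ C = 1); in particular the subgroup lattice of G modulo the normal core of M is complemented. -/
theorem result {G : Type*} [Group G] [Finite G] (X M : Subgroup G)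
    (hK : ComplementedLattice (Subgroup X))
    (hM : IsCoatom M) (hXM : X ≤ M) (huniq : ∀ M' : Subgroup G, IsCoatom M' → X ≤ M' → M' = M) :
    (∀ H : Subgroup G, ¬ H ≤ M.normalCore → ∃ C : Subgroup G, H ⊔ C = ⊤ ∧ H ⊓ C = ⊥) ∧
    ComplementedLattice (Subgroup (G ⧸ M.normalCore)) := by
  have key : ∀ H : Subgroup G, ¬ H ≤ M.normalCore → ∃ C : Subgroup G, H ⊔ C = ⊤ ∧ H ⊓ C = ⊥ := by
    intro H hH
    have : ∃ g : G, ¬ H.map (MulAut.conj g).toMonoidHom ≤ M := by
      by_contra hcon
      push Not at hcon
      apply hH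
      intro h hh g
      exact hcon g ⟨h, hh, rfl⟩
    obtain ⟨g, hg⟩ := this
    have hXne : X ≠ ⊤ := fun h => hM.1 (top_le_iff.mp (h ▸ hXM))
    obtain ⟨C, h1, h2⟩ := Cfsg.Agent.S5901.result ⊥ X M bot_le hXne (by
      intro Y _ hYX
      obtain ⟨C, hC⟩ := exists_isCompl (Y.subgroupOf X)
      refine ⟨C.map X.subtype, bot_le, Subgroup.map_subtype_le _, ?_, ?_⟩
      · have := congrArg (Subgroup.map X.subtype) hC.sup_eq_top
        rwa [Subgroup.map_sup, Subgroup.subgroupOf_map_subtype, inf_eq_left.mpr hYX,
          ← MonoidHom.range_eq_map, Subgroup.range_subtype] at this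
      · have := congrArg (Subgroup.map X.subtype) hC.inf_eq_bot
        rwa [Subgroup.map_inf _ _ _ X.subtype_injective, Subgroup.subgroupOf_map_subtype,
          inf_eq_left.mpr hYX, Subgroup.map_bot] at this) hM hXM huniq _ hg (inf_bot_eq _)
    refine ⟨C.comap (MulAut.conj g).toMonoidHom, ?_, ?_⟩
    · have := congrArg (Subgroup.comap (MulAut.conj g).toMonoidHom) h1
      rwa [Subgroup.comap_top, ← Subgroup.comap_sup_eq _ _ _ (MulAut.conj g).surjective,
        Subgroup.comap_map_eq_self_of_injective (MulAut.conj g).injective] at this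
    · have := congrArg (Subgroup.comap (MulAut.conj g).toMonoidHom) h2
      rwa [Subgroup.comap_inf, Subgroup.comap_map_eq_self_of_injective (MulAut.conj g).injective,
        MonoidHom.comap_bot, (MonoidHom.ker_eq_bot_iff _).mpr (MulAut.conj g).injective] at this
  refine ⟨key, ⟨fun K => ?_⟩⟩
  by_cases hK0 : K = ⊥
  · exact ⟨⊤, hK0 ▸ isCompl_bot_top⟩
  · have hsurj := QuotientGroup.mk'_surjective M.normalCore
    obtain ⟨C, h1, h2⟩ := key (K.comap (QuotientGroup.mk' M.normalCore)) (by
      intro hle
      apply hK0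
      rw [eq_bot_iff]
      intro k hk
      obtain ⟨x, rfl⟩ := hsurj k
      exact (QuotientGroup.eq_one_iff x).mpr (hle hk))
    refine ⟨C.map (QuotientGroup.mk' M.normalCore), ?_, ?_⟩
    · rw [disjoint_iff, eq_bot_iff]
      rintro _ ⟨hk, x, hx, rfl⟩
      have : x ∈ K.comap (QuotientGroup.mk' M.normalCore) ⊓ C := ⟨hk, hx⟩
      rw [h2, Subgroup.mem_bot] at this
      rw [this, map_one]; exact Subgroup.one_mem _
    · rw [codisjoint_iff]
      have := congrArg (Subgroup.map (QuotientGroup.mk' M.normalCore)) h1
      rwa [Subgroup.map_sup, Subgroup.map_comap_eq_self_of_surjective hsurj,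
        Subgroup.map_top_of_surjective _ hsurj] at this

end Cfsg.Agent.S5902
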