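import Cfsg.Statements.S5903
import Cfsg.Agent.S5901

set_option autoImplicit false
open Cfsg

namespace Cfsg.Agent.S5903

/-- Let G be a finite simple group, X a subgroup lying in exactly one maximal subgroup M of G, and N a subgroup of prime order with N ≤ X that is central in M. If the subgroup lattice of X/N is complemented, then the subgroup lattice of G is complemented. -/
theorem result {G : Type*} [Group G] [Finite G] [IsSimpleGroup G] (X M N : Subgroup G)
    (hM : IsCoatom M) (hXM : X ≤ M) (huniq : ∀ M' : Subgroup G, IsCoatom M' → X ≤ M' → M' = M)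
    (hNX : N ≤ X) (hN : (Nat.card N).Prime) (hcen : ∀ n ∈ N, ∀ m ∈ M, m * n = n * m)
    [(N.subgroupOf X).Normal] (hK : ComplementedLattice (Subgroup (X ⧸ N.subgroupOf X))) :
    ComplementedLattice (Subgroup G) := by
  refine ⟨fun H => ?_⟩
  by_cases hH : H.Normal
  · rcases hH.eq_bot_or_eq_top with h | h
    · exact ⟨⊤, h ▸ isCompl_bot_top⟩
    · exact ⟨⊥, h ▸ isCompl_top_bot⟩
  have hNne : N ≠ ⊥ := by
    rintro rfl
    simp at hN
    exact Nat.not_prime_one hN
  -- some conjugate of `N` does not normalize `H`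
  have hex : ∃ g : G, ∃ n ∈ N, g⁻¹ * n * g ∉ Subgroup.normalizer (H : Set G) := by
    by_contra hcon
    push Not at hcon
    apply hH
    rw [← Subgroup.normalizer_eq_top_iff]
    have hle : Subgroup.normalClosure (N : Set G) ≤ Subgroup.normalizer (H : Set G) := by
      rw [Subgroup.normalClosure, Subgroup.closure_le]
      intro x hx
      obtain ⟨n, hn, hc⟩ := Group.mem_conjugatesOfSet_iff.mp hx
      obtain ⟨c, rfl⟩ := isConj_iff.mp hc
      have := hcon c⁻¹ n hn
      simpa using this
    rcases (Subgroup.normalClosure_normal (s := (N : Set G))).eq_bot_or_eq_top with h | h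
    · exfalso
      apply hNne
      rw [eq_bot_iff, ← h]
      exact Subgroup.le_normalClosure
    · exact top_le_iff.mp (h ▸ hle)
  obtain ⟨g, n, hn, hg⟩ := hex
  have hXne : X ≠ ⊤ := fun h => hM.1 (top_le_iff.mp (h ▸ hXM))
  have h1 : ¬ H.map (MulAut.conj g).toMonoidHom ≤ M := by
    intro hle
    apply hg
    apply Subgroup.centralizer_le_normalizer
    rw [Subgroup.mem_centralizer_iff]
    intro h hh
    have := hcen n hn _ (hle ⟨h, hh, rfl⟩)
    simp only [MulEquiv.toMonoidHom_eq_coe, MonoidHom.coe_coe, MulAut.conj_apply] at this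
    calc h * (g⁻¹ * n * g) = g⁻¹ * (g * h * g⁻¹ * n) * g := by group
      _ = g⁻¹ * (n * (g * h * g⁻¹)) * g := by rw [this]
      _ = g⁻¹ * n * g * h := by group
  have h2 : H.map (MulAut.conj g).toMonoidHom ⊓ N = ⊥ := by
    have : Fact (Nat.card N).Prime := ⟨hN⟩
    rcases ((H.map (MulAut.conj g).toMonoidHom).subgroupOf N).eq_bot_or_eq_top_of_prime_card with h | h
    · rw [Subgroup.subgroupOf_eq_bot] at h
      exact disjoint_iff.mp h
    · exfalso
      rw [Subgroup.subgroupOf_eq_top] at h
      obtain ⟨x, hx, hxe⟩ := h hn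
      apply hg
      apply Subgroup.le_normalizer
      simp only [MulEquiv.toMonoidHom_eq_coe, MonoidHom.coe_coe, MulAut.conj_apply] at hxe
      rw [← hxe]
      simpa [mul_assoc] using hx
  obtain ⟨C, h1, h2⟩ := Cfsg.Agent.S5901.result N X M hNX hXne (by
      intro Y hNY hYX
      have hsurj := QuotientGroup.mk'_surjective (N.subgroupOf X)
      obtain ⟨C, hC⟩ := exists_isCompl ((Y.subgroupOf X).map (QuotientGroup.mk' (N.subgroupOf X)))
      have hker : (QuotientGroup.mk' (N.subgroupOf X)).ker ≤ Y.subgroupOf X := by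
        rw [QuotientGroup.ker_mk']
        exact Subgroup.comap_mono hNY
      refine ⟨(C.comap (QuotientGroup.mk' (N.subgroupOf X))).map X.subtype, ?_,
        Subgroup.map_subtype_le _, ?_, ?_⟩
      · intro x hx
        refine ⟨⟨x, hNX hx⟩, ?_, rfl⟩
        have : (QuotientGroup.mk' (N.subgroupOf X)) ⟨x, hNX hx⟩ = 1 :=
          (QuotientGroup.eq_one_iff _).mpr hx
        simp only [SetLike.mem_coe, Subgroup.mem_comap, this, Subgroup.one_mem]
      · have := congrArg (fun K => Subgroup.map X.subtype
          (Subgroup.comap (QuotientGroup.mk' (N.subgroupOf X)) K)) hC.sup_eq_top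
        rwa [← Subgroup.comap_sup_eq _ _ _ hsurj, Subgroup.comap_map_eq_self hker,
          Subgroup.map_sup, Subgroup.subgroupOf_map_subtype, inf_eq_left.mpr hYX,
          Subgroup.comap_top, ← MonoidHom.range_eq_map, Subgroup.range_subtype] at this
      · have := congrArg (fun K => Subgroup.map X.subtype
          (Subgroup.comap (QuotientGroup.mk' (N.subgroupOf X)) K)) hC.inf_eq_bot
        rwa [Subgroup.comap_inf, Subgroup.comap_map_eq_self hker,
          Subgroup.map_inf _ _ _ X.subtype_injective, Subgroup.subgroupOf_map_subtype,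
          inf_eq_left.mpr hYX, MonoidHom.comap_bot, QuotientGroup.ker_mk',
          Subgroup.subgroupOf_map_subtype, inf_eq_left.mpr hNX] at this) hM hXM huniq _ h1 h2
  refine ⟨C.comap (MulAut.conj g).toMonoidHom, ?_, ?_⟩
  · rw [disjoint_iff]
    have := congrArg (Subgroup.comap (MulAut.conj g).toMonoidHom) h2
    rwa [Subgroup.comap_inf, Subgroup.comap_map_eq_self_of_injective (MulAut.conj g).injective,
      MonoidHom.comap_bot, (MonoidHom.ker_eq_bot_iff _).mpr (MulAut.conj g).injective] at this
  · rw [codisjoint_iff]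
    have := congrArg (Subgroup.comap (MulAut.conj g).toMonoidHom) h1
    rwa [Subgroup.comap_top, ← Subgroup.comap_sup_eq _ _ _ (MulAut.conj g).surjective,
      Subgroup.comap_map_eq_self_of_injective (MulAut.conj g).injective] at this

end Cfsg.Agent.S5903
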