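import Cfsg.Statements.S5905
import Cfsg.Agent.PERM.Imprim

set_option autoImplicit false
open Cfsg

namespace Cfsg.Agent.S5905

/-- Let Ω be a finite set and f : Ω → Fin b a map onto b ≥ 2 labels whose fibres all have the same size a ≥ 2 (a partition of Ω into b blocks of size a, so |Ω| = ab). Then the stabilizer of this partition in the symmetric group on Ω — the permutations g such that x and y lie in the same block exactly when g x and g y do, a group isomorphic to the imprimitive wreath product S_a ≀ S_b — is a maximal subgroup of the symmetric group. -/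
theorem result {Ω : Type*} [Fintype Ω] [DecidableEq Ω] (a b : ℕ) (ha : 2 ≤ a) (hb : 2 ≤ b)
    (f : Ω → Fin b) (hf : ∀ i : Fin b, Nat.card {x : Ω // f x = i} = a) :
    IsCoatom (Subgroup.closure {g : Equiv.Perm Ω | ∀ x y : Ω, f x = f y ↔ f (g x) = f (g y)}) := by
  rw [CL.Imprim.closure_eq]
  refine ⟨fun h => CL.Imprim.not_alternatingGroup_le hf ha hb (h ▸ le_top), fun K hK => ?_⟩
  have hp : MulAction.IsPreprimitive K Ω := CL.Imprim.isPreprimitive (fun x y x' y' h1 h2 => by
    obtain ⟨w, hw, e⟩ := CL.Imprim.exists_mem_W hf h1 h2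
    exact ⟨w, hK.le hw, e⟩) hK.not_ge
  obtain ⟨x, x', a1, a2, a3, -⟩ := CL.Imprim.exists_notMem_pair hf ⟨0, by omega⟩ ∅
    (by simpa using ha)
  exact Equiv.Perm.subgroup_eq_top_of_isPreprimitive_of_isSwap_mem hp _ ⟨x, x', a1, rfl⟩
    (hK.le (CL.Imprim.swap_mem_W (a2.trans a3.symm)))

end Cfsg.Agent.S5905
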