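import Cfsg.Statements.S5908
import Cfsg.Agent.CLAS.U32

set_option autoImplicit false
open Cfsg

namespace Cfsg.Agent.S5908

/-- The subgroup lattice of PSU₃(2) (the solvable group of order 72, realised over the field with 4 elements) is not complemented: some subgroup H has no subgroup X with H ⊔ X = ⊤ and H ⊓ X = ⊥. -/
theorem result {F : Type*} [Field F] [Fintype F] (hF : Fintype.card F = 4) :
    ¬ ComplementedLattice (Subgroup (Cfsg.PSU 3 F 2)) := by
  obtain ⟨N, Q, hn, hN, h3, hc, ⟨e⟩⟩ := CL.U32.structure_PSU hF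
  let π : Cfsg.PSU 3 F 2 →* QuaternionGroup 2 :=
    (hc.QuotientMulEquiv.trans e).toMonoidHom.comp (QuotientGroup.mk' N)
  have hπ : Function.Surjective π :=
    (hc.QuotientMulEquiv.trans e).surjective.comp (QuotientGroup.mk'_surjective N)
  intro h
  obtain ⟨X, hX⟩ := h.exists_isCompl ((Subgroup.zpowers (QuaternionGroup.a 2)).comap π)
  have key : ∀ y : QuaternionGroup 2, y = 1 ∨ y = QuaternionGroup.a 2 ∨
      y ^ 2 = QuaternionGroup.a 2 := by decide
  have hz : ∀ x ∈ X, π x ≠ QuaternionGroup.a 2 := fun x hx hxz => by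
    have : x = 1 := Subgroup.disjoint_def.1 hX.disjoint (by
      rw [Subgroup.mem_comap, hxz]; exact Subgroup.mem_zpowers _) hx
    rw [this, map_one] at hxz
    exact absurd hxz (by decide)
  have hle : X ≤ (Subgroup.zpowers (QuaternionGroup.a 2)).comap π := fun x hx => by
    rcases key (π x) with h1 | h1 | h1
    · rw [Subgroup.mem_comap, h1]; exact one_mem _
    · exact absurd h1 (hz x hx)
    · exact absurd (by rw [map_pow, h1]) (hz _ (X.pow_mem hx 2))
  have htop := hX.codisjoint.eq_top
  rw [sup_eq_left.2 hle] at htop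
  obtain ⟨x, hx⟩ := hπ (QuaternionGroup.a 1)
  have : x ∈ (Subgroup.zpowers (QuaternionGroup.a 2)).comap π := htop ▸ Subgroup.mem_top x
  rw [Subgroup.mem_comap, hx, ← mem_powers_iff_mem_zpowers] at this
  obtain ⟨k, hk⟩ := this
  have h2 : (QuaternionGroup.a 2 : QuaternionGroup 2) ^ 2 = 1 := by decide
  simp only at hk
  rw [pow_eq_pow_mod k h2] at hk
  rcases Nat.mod_two_eq_zero_or_one k with h | h <;> rw [h] at hk <;> exact absurd hk (by decide)

end Cfsg.Agent.S5908
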