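import Cfsg.Statements.S5909
import Cfsg.Agent.PERM.Imprim

set_option autoImplicit false
open Cfsg

namespace Cfsg.Agent.S5909

/-- Let Ω be a finite set whose size is not 8, and f : Ω → Fin b a labelling with b ≥ 2 whose fibres all have the same size a ≥ 2 (a partition into b blocks of size a). Then the even permutations preserving the partition — the intersection of the imprimitive wreath product S_a ≀ S_b with the alternating group — form a maximal subgroup of the alternating group on Ω. -/
theorem result {Ω : Type*} [Fintype Ω] [DecidableEq Ω] (h8 : Fintype.card Ω ≠ 8) (a b : ℕ) (ha : 2 ≤ a) (hb : 2 ≤ b)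
    (f : Ω → Fin b) (hf : ∀ i : Fin b, Nat.card {x : Ω // f x = i} = a) :
    IsCoatom ((Subgroup.closure {g : Equiv.Perm Ω | ∀ x y : Ω, f x = f y ↔ f (g x) = f (g y)} ⊓ alternatingGroup Ω).subgroupOf (alternatingGroup Ω)) := by
  rw [CL.Imprim.closure_eq]
  refine ⟨fun h => CL.Imprim.not_alternatingGroup_le hf ha hb fun g hg => ?_, fun K hK => ?_⟩
  · have : (⟨g, hg⟩ : alternatingGroup Ω) ∈ (CL.Imprim.W f ⊓ alternatingGroup Ω).subgroupOf
      (alternatingGroup Ω) := h ▸ Subgroup.mem_top _
    exact this.1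
  have hc := CL.Imprim.card_eq hf
  by_cases hab : 3 ≤ a ∨ (3 ≤ b ∧ b ≠ 4)
  · have := CL.Imprim.alternatingGroup_le hf ha hb hab (K := K.map (alternatingGroup Ω).subtype)
      (fun g hg => ⟨⟨g, hg.2⟩, hK.le hg, rfl⟩)
      (fun h => hK.not_ge fun g hg => ⟨h ⟨g, hg, rfl⟩, g.2⟩)
    rw [eq_top_iff]
    intro g _
    obtain ⟨g', h1, h2⟩ := this g.2
    rwa [← Subtype.ext h2]
  · obtain rfl : a = 2 := by omega
    obtain rfl : b = 2 := by omega
    set V := (CL.Imprim.W f ⊓ alternatingGroup Ω).subgroupOf (alternatingGroup Ω) with hV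
    have htr : MulAction.IsPretransitive V Ω := ⟨fun x y => by
      obtain ⟨w, hw, e, -⟩ := CL.Imprim.exists_mem_Weven hf ha hb (x := x) (y := x) (x' := y)
        (y' := y) (by simp) (by simp) (by simp)
      exact ⟨⟨⟨w, hw.2⟩, hw⟩, e⟩⟩
    obtain ⟨x⟩ : Nonempty Ω := Fintype.card_pos_iff.1 (by omega)
    have h4 : 4 ∣ Nat.card V := by
      have := (MulAction.stabilizer V x).index_dvd_card
      rwa [MulAction.index_stabilizer_of_transitive, Nat.card_eq_fintype_card (α := Ω), hc] at this
    have h12 : Nat.card (alternatingGroup Ω) = 12 :=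
      alternatingGroup.card_of_card_eq_four (by rw [Nat.card_eq_fintype_card, hc])
    have h1 := K.card_subgroup_dvd_card
    have h2 := Subgroup.card_dvd_of_le hK.le
    have h3 : Nat.card V ≠ Nat.card K := fun e => hK.ne (Subgroup.eq_of_le_of_card_ge hK.le e.ge)
    apply Subgroup.eq_top_of_card_eq
    rw [h12] at h1 ⊢
    have h5 := Nat.le_of_dvd (by norm_num) h1
    have h6 := Nat.le_of_dvd Nat.card_pos h2
    have h7 : 0 < Nat.card V := Nat.card_pos
    have h8 := h4.trans h2
    generalize Nat.card V = v at *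
    generalize Nat.card K = k at *
    interval_cases k <;> omega

end Cfsg.Agent.S5909
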