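import Cfsg.Statements.S5910
import Cfsg.Agent.PERM.Imprim

set_option autoImplicit false
open Cfsg

namespace Cfsg.Agent.S5910

open Equiv Equiv.Perm

def x4 (i j k : Fin 4) : Fin 4 := ⟨(i.1 ^^^ j.1 ^^^ k.1) % 4, Nat.mod_lt _ (by norm_num)⟩

def T0 (x y z : Fin 4 × Fin 2) : Fin 4 × Fin 2 := (x4 x.1 y.1 z.1, x.2 + y.2 + z.2)

def K0 : Subgroup (Perm (Fin 4 × Fin 2)) where
  carrier := {g | ∀ x y z, g (T0 x y z) = T0 (g x) (g y) (g z)}
  one_mem' := fun _ _ _ => rfl
  mul_mem' := fun {g h} hg hh x y z => by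
    rw [Perm.mul_apply, hh, hg]; rfl
  inv_mem' := fun {g} hg x y z => by
    apply g.injective
    rw [hg]
    simp

theorem aff4 : ∀ (π : Perm (Fin 4)) (i j k : Fin 4), π (x4 i j k) = x4 (π i) (π j) (π k) := by
  decide +kernel

theorem aff2 : ∀ (t : Fin 4 → Perm (Fin 2)), ∏ i, sign (t i) = 1 → ∀ (i j k : Fin 4)
    (a b c : Fin 2), t (x4 i j k) (a + b + c) = t i a + t j b + t k c := by
  decide +kernel

theorem le_K0 (g : Perm (Fin 4 × Fin 2)) (hg : g ∈ CL.Imprim.W Prod.fst) (hs : sign g = 1) :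
    g ∈ K0 := by
  have h1 : ∀ i a, (g (i, a)).1 = (g (i, 0)).1 := fun i a => (hg (i, a) (i, 0)).1 rfl
  let π : Perm (Fin 4) := Equiv.ofBijective (fun i => (g (i, 0)).1)
    (Finite.injective_iff_bijective.1 fun i j h => (hg (i, 0) (j, 0)).2 h)
  let t : Fin 4 → Perm (Fin 2) := fun i => Equiv.ofBijective (fun a => (g (i, a)).2)
    (Finite.injective_iff_bijective.1 fun a b h => by
      have : g (i, a) = g (i, b) := Prod.ext (by rw [h1, h1 i b]) h
      exact congrArg Prod.snd (g.injective this))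
  have e : ∀ i a, g (i, a) = (π i, t i a) := fun i a => Prod.ext (h1 i a) rfl
  have e2 : g = prodCongrLeft (fun _ : Fin 2 => π) * prodCongrRight t := by
    ext1 ⟨i, a⟩
    exact e i a
  rw [e2, map_mul, sign_prodCongrLeft, sign_prodCongrRight] at hs
  simp only [Finset.prod_const, Finset.card_univ, Fintype.card_fin, Int.units_sq, one_mul] at hs
  rintro ⟨i, a⟩ ⟨j, b⟩ ⟨k, c⟩
  simp only [T0, e, aff4, aff2 t hs]

def g1 : Perm (Fin 4 × Fin 2) := swap (0, 1) (1, 0) * swap (2, 1) (3, 0)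
def g2 : Perm (Fin 4 × Fin 2) := swap (0, 0) (0, 1) * swap (0, 0) (1, 0)

theorem g1_mem : g1 ∈ K0 := by
  change ∀ x y z, g1 (T0 x y z) = T0 (g1 x) (g1 y) (g1 z)
  decide +kernel

theorem g2_not_mem : g2 ∉ K0 := by
  change ¬ ∀ x y z, g2 (T0 x y z) = T0 (g2 x) (g2 y) (g2 z)
  decide +kernel

theorem g1_sign : sign g1 = 1 := CL.Imprim.swap_mul_swap_mem_alt (by decide) (by decide)
theorem g2_sign : sign g2 = 1 := CL.Imprim.swap_mul_swap_mem_alt (by decide) (by decide)

/-- Let Ω be a set with 8 elements and f : Ω → Fin 4 a labelling whose four fibres all have size 2 (a partition of the 8 points into 4 pairs). Then the group of even permutations preserving this partition, (S₂ ≀ S₄) ∩ A₈, is not a maximal subgroup of the alternating group A₈ (it lies in a subgroup isomorphic to the affine group AGL₃(2)). -/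
theorem result {Ω : Type*} [Fintype Ω] [DecidableEq Ω] (h8 : Fintype.card Ω = 8)
    (f : Ω → Fin 4) (hf : ∀ i : Fin 4, Nat.card {x : Ω // f x = i} = 2) :
    ¬ IsCoatom ((Subgroup.closure {g : Equiv.Perm Ω | ∀ x y : Ω, f x = f y ↔ f (g x) = f (g y)} ⊓ alternatingGroup Ω).subgroupOf (alternatingGroup Ω)) := by
  rw [CL.Imprim.closure_eq]
  obtain ⟨e, he⟩ := CL.Imprim.exists_coords f hf
  intro h
  let φ : alternatingGroup Ω →* Perm (Fin 4 × Fin 2) :=
    e.permCongrHom.toMonoidHom.comp (alternatingGroup Ω).subtype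
  have hφ : ∀ g : Perm (Fin 4 × Fin 2), sign g = 1 → ∃ k, φ k = g := fun g hg =>
    ⟨⟨e.symm.permCongr g, by rw [mem_alternatingGroup, sign_permCongr, hg]⟩, by
      ext1 x
      simp [φ]⟩
  have hW : ∀ k : alternatingGroup Ω, k.1 ∈ CL.Imprim.W f ↔ φ k ∈ CL.Imprim.W Prod.fst := by
    intro k
    constructor
    · intro hk x y
      have := hk (e.symm x) (e.symm y)
      simpa [← he, φ] using this
    · intro hk x y
      have := hk (e x) (e y)
      simpa [← he, φ] using this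
  have := h.2 (K0.comap φ) (lt_of_le_of_ne (fun k hk => le_K0 _ ((hW k).1 hk.1) (by
    change sign (e.permCongr k.1) = 1
    rw [sign_permCongr]; exact k.2)) (fun e => by
      obtain ⟨k, hk⟩ := hφ g1 g1_sign
      have h1 : k ∈ K0.comap φ := by rw [Subgroup.mem_comap, hk]; exact g1_mem
      rw [← e] at h1
      have h2 := (hW k).1 h1.1
      rw [hk] at h2
      exact absurd ((h2 (0, 0) (0, 1)).1 rfl) (by decide)))
  obtain ⟨k, hk⟩ := hφ g2 g2_sign
  have h1 : k ∈ K0.comap φ := this ▸ Subgroup.mem_top _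
  rw [Subgroup.mem_comap, hk] at h1
  exact g2_not_mem h1

end Cfsg.Agent.S5910
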