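import Cfsg.Statements.S5911
import Cfsg.Agent.PERM.SymIndex

set_option autoImplicit false
open Cfsg

namespace Cfsg.Agent.S5911

/-- Let Ω be a finite set whose size n is not 6. Then every subgroup of the symmetric group on Ω of index n is the stabilizer of a point. -/
theorem result {Ω : Type*} [Fintype Ω] [DecidableEq Ω] (h6 : Fintype.card Ω ≠ 6)
    (H : Subgroup (Equiv.Perm Ω)) (hH : H.index = Fintype.card Ω) :
    ∃ x : Ω, H = MulAction.stabilizer (Equiv.Perm Ω) x := by
  have h0 : H.index ≠ 0 := Subgroup.FiniteIndex.index_ne_zero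
  have hc := H.index_mul_card
  rw [Nat.card_perm, Nat.card_eq_fintype_card (α := Ω), hH] at hc
  by_cases h5 : 5 ≤ Fintype.card Ω
  · obtain ⟨θ, x, rfl⟩ := CL.SymIdx.exists_mulAut_of_index h5 H hH
    obtain ⟨σ, hσ⟩ := CL.SymIdx.inner (by omega) h6 θ
    exact ⟨_, CL.SymIdx.comap_stabilizer_of_inner _ (MonoidHom.id _) σ hσ x⟩
  suffices h : ∃ x : Ω, ∀ g ∈ H, g x = x by
    obtain ⟨x, hx⟩ := h
    exact ⟨x, CL.SymIdx.eq_stabilizer_of_fix hH hx⟩
  have hne : Nonempty Ω := Fintype.card_pos_iff.1 (by omega)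
  have h4 : Fintype.card Ω = 1 ∨ Fintype.card Ω = 2 ∨ Fintype.card Ω = 3 ∨
      Fintype.card Ω = 4 := by omega
  have triv : Nat.card H = 1 → ∃ x : Ω, ∀ g ∈ H, g x = x := fun h => by
    obtain ⟨x⟩ := hne
    refine ⟨x, fun g hg => ?_⟩
    rw [Subgroup.card_eq_one.1 h, Subgroup.mem_bot] at hg
    rw [hg]; rfl
  rcases h4 with h | h | h | h
  · exact triv (by rw [h] at hc; simpa using hc)
  · exact triv (by rw [h] at hc; simp only [Nat.factorial] at hc; omega)
  · have : Fact (Nat.Prime 2) := ⟨Nat.prime_two⟩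
    have hP : IsPGroup 2 H := IsPGroup.of_card (n := 1) (by
      rw [h] at hc; simp only [Nat.factorial] at hc; omega)
    obtain ⟨x, hx⟩ := hP.nonempty_fixed_point_of_prime_not_dvd_card Ω
      (by rw [Nat.card_eq_fintype_card, h]; norm_num)
    exact ⟨x, fun g hg => hx ⟨g, hg⟩⟩
  · have : Fact (Nat.Prime 3) := ⟨Nat.prime_three⟩
    have h6' : Nat.card H = 6 := by rw [h] at hc; simp only [Nat.factorial] at hc; omega
    obtain ⟨c, hc3⟩ := exists_prime_orderOf_dvd_card' (G := H) 3 (by rw [h6']; norm_num)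
    have hi : (Subgroup.zpowers c).index = 2 := by
      have := (Subgroup.zpowers c).index_mul_card
      rw [Nat.card_zpowers, hc3, h6'] at this
      omega
    have hn := Subgroup.normal_of_index_eq_two hi
    have ho : orderOf (c : Equiv.Perm Ω) = 3 := by rw [Subgroup.orderOf_coe, hc3]
    obtain ⟨k, hk⟩ := Equiv.Perm.cycleType_prime_order (σ := (c : Equiv.Perm Ω))
      (by rw [ho]; exact Nat.prime_three)
    have hs := Equiv.Perm.sum_cycleType (c : Equiv.Perm Ω)
    rw [hk, ho] at hs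
    simp only [Multiset.sum_replicate, smul_eq_mul] at hs
    have hle := Finset.card_le_univ (c : Equiv.Perm Ω).support
    have h1 : ((c : Equiv.Perm Ω).supportᶜ).card = 1 := by
      rw [Finset.card_compl]; omega
    obtain ⟨x, hx⟩ := Finset.card_eq_one.1 h1
    have hx' : ∀ y, (c : Equiv.Perm Ω) y = y ↔ y = x := fun y => by
      rw [← Finset.mem_singleton (a := x), ← hx, Finset.mem_compl, Equiv.Perm.notMem_support]
    refine ⟨x, fun g hg => (hx' _).1 ?_⟩
    obtain ⟨j, hj⟩ := hn.conj_mem c (Subgroup.mem_zpowers c) (⟨g, hg⟩ : H)⁻¹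
    have hj' : (c : Equiv.Perm Ω) ^ j = g⁻¹ * c * g := by
      simpa using congrArg Subtype.val hj
    have h2 : ((c : Equiv.Perm Ω) ^ j) x = x :=
      Equiv.Perm.zpow_apply_eq_self_of_apply_eq_self ((hx' x).2 rfl) j
    rw [hj'] at h2
    exact Equiv.Perm.inv_eq_iff_eq.1 h2

end Cfsg.Agent.S5911
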