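import Cfsg.Statements.S5912
import Cfsg.Agent.PERM.SymIndex

set_option autoImplicit false
open Cfsg

namespace Cfsg.Agent.S5912

/-- The symmetric group on a 6-element set Ω has exactly two conjugacy classes of subgroups of index 6: there are two non-conjugate subgroups of index 6 (a point stabilizer and a transitive subgroup isomorphic to S₅), and every subgroup of index 6 is conjugate to one of them. -/
theorem result {Ω : Type*} [Fintype Ω] [DecidableEq Ω] (h6 : Fintype.card Ω = 6) :
    ∃ H₁ H₂ : Subgroup (Equiv.Perm Ω), H₁.index = 6 ∧ H₂.index = 6 ∧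
      (¬ ∃ g : Equiv.Perm Ω, Subgroup.map (MulAut.conj g).toMonoidHom H₁ = H₂) ∧
      ∀ H : Subgroup (Equiv.Perm Ω), H.index = 6 →
        ∃ g : Equiv.Perm Ω, Subgroup.map (MulAut.conj g).toMonoidHom H₁ = H ∨ Subgroup.map (MulAut.conj g).toMonoidHom H₂ = H := by
  obtain ⟨θ, h1, h2⟩ := CL.SymIdx.exists_outer_six h6
  obtain ⟨a, b, hab⟩ := Fintype.exists_pair_of_one_lt_card (α := Ω) (by omega)
  have hconj : ∀ (g : Equiv.Perm Ω) (φ : Equiv.Perm Ω ≃* Equiv.Perm Ω) (x : Ω),
      Subgroup.map (MulAut.conj g).toMonoidHom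
        ((MulAction.stabilizer (Equiv.Perm Ω) x).comap φ.toMonoidHom) =
      (MulAction.stabilizer (Equiv.Perm Ω) (φ g x)).comap φ.toMonoidHom := by
    intro g φ x
    ext k
    rw [Subgroup.mem_map_equiv]
    simp only [Subgroup.mem_comap, MulAction.mem_stabilizer_iff, MulAut.conj_symm_apply,
      MulEquiv.coe_toMonoidHom, map_mul, map_inv, Equiv.Perm.smul_def, Equiv.Perm.mul_apply]
    exact Equiv.Perm.inv_eq_iff_eq
  refine ⟨MulAction.stabilizer _ a, (MulAction.stabilizer _ a).comap θ.toMonoidHom,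
    by rw [CL.SymIdx.index_stabilizer, h6],
    by rw [Subgroup.index_comap_of_surjective _ θ.surjective, CL.SymIdx.index_stabilizer, h6],
    ?_, fun H hH => ?_⟩
  · rintro ⟨g, hg⟩
    have e := (hconj g (MulEquiv.refl _) a).symm.trans hg
    obtain ⟨k, hk, hk2⟩ := h1 a (g a) (g b)
    have : k ∈ (MulAction.stabilizer (Equiv.Perm Ω) a).comap θ.toMonoidHom := hk
    rw [← e] at this
    have h3 : k (g a) = g a := this
    exact hab (g.injective (h3.symm.trans hk2))
  · obtain ⟨x, rfl | rfl⟩ := h2 H hH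
    · refine ⟨Equiv.swap a x, Or.inl ?_⟩
      have := hconj (Equiv.swap a x) (MulEquiv.refl _) a
      simp only [MulEquiv.refl_apply, Equiv.swap_apply_left] at this
      exact this
    · refine ⟨θ.symm (Equiv.swap a x), Or.inr ?_⟩
      rw [hconj, MulEquiv.apply_symm_apply, Equiv.swap_apply_left]

end Cfsg.Agent.S5912
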