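import Cfsg.Statements.S5913
-- import your own Cfsg.Agent.* helpers here

set_option autoImplicit false
open Cfsg

namespace Cfsg.Agent.S5913

/-- Let S be a non-abelian simple group and n a natural number. Every normal subgroup N of the direct power S^n (functions Fin n → S) is a subproduct: there is a set T of coordinates such that N consists exactly of the elements whose coordinates outside T are trivial. In particular the minimal normal subgroups of S^n are its n factors. -/
theorem result {S : Type*} [Group S] [IsSimpleGroup S] (hS : ¬ IsMulCommutative S) (n : ℕ)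
    (N : Subgroup (Fin n → S)) [N.Normal] :
    ∃ T : Finset (Fin n), ∀ x : Fin n → S, x ∈ N ↔ ∀ i, i ∉ T → x i = 1 := by
  classical
  refine ⟨Finset.univ.filter (fun i => ∃ x ∈ N, x i ≠ 1), fun x => ⟨fun hx i hi => ?_, fun hx => ?_⟩⟩
  · by_contra h
    exact hi (by simp only [Finset.mem_filter, Finset.mem_univ, true_and]; exact ⟨x, hx, h⟩)
  · have hcenter : Subgroup.center S = ⊥ := by
      rcases (inferInstance : (Subgroup.center S).Normal).eq_bot_or_eq_top with h | h
      · exact h
      · exfalso
        apply hS
        refine ⟨⟨fun a b => ?_⟩⟩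
        have : b ∈ Subgroup.center S := h ▸ Subgroup.mem_top b
        exact (Subgroup.mem_center_iff.mp this a)
    have hsingle : ∀ i, (∃ y ∈ N, y i ≠ 1) → ∀ s : S, Pi.mulSingle i s ∈ N := by
      rintro i ⟨y, hy, hyi⟩ s
      let φ : S →* (Fin n → S) := MonoidHom.mulSingle (fun _ : Fin n => S) i
      have hn : (N.comap φ).Normal := inferInstance
      rcases hn.eq_bot_or_eq_top with h | h
      · exfalso
        apply hyi
        have : y i ∈ Subgroup.center S := by
          rw [Subgroup.mem_center_iff]
          intro g
          have h1 : Pi.mulSingle i g * y * (Pi.mulSingle i g)⁻¹ * y⁻¹ ∈ N :=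
            N.mul_mem (Subgroup.Normal.conj_mem inferInstance y hy _) (N.inv_mem hy)
          have h2 : Pi.mulSingle i g * y * (Pi.mulSingle i g)⁻¹ * y⁻¹ =
              φ (g * y i * g⁻¹ * (y i)⁻¹) := by
            ext j
            by_cases hj : j = i
            · subst hj; simp [φ]
            · simp [φ, Pi.mulSingle_eq_of_ne hj]
          rw [h2] at h1
          have h3 : g * y i * g⁻¹ * (y i)⁻¹ ∈ N.comap φ := h1
          rw [h, Subgroup.mem_bot] at h3
          have h4 : g * y i * g⁻¹ = y i := mul_inv_eq_one.mp h3
          exact mul_inv_eq_iff_eq_mul.mp h4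
        rwa [hcenter, Subgroup.mem_bot] at this
      · have : s ∈ N.comap φ := h ▸ Subgroup.mem_top s
        exact this
    have : x ∈ Subgroup.pi Set.univ (fun i : Fin n => (N.comap (MonoidHom.mulSingle (fun _ : Fin n => S) i))) := by
      intro i _
      by_cases hi : ∃ y ∈ N, y i ≠ 1
      · exact hsingle i hi _
      · have : x i = 1 := hx i (by simpa using hi)
        rw [this]; exact Subgroup.one_mem _
    exact (Subgroup.pi_le_iff.mpr (fun i => Subgroup.map_comap_le _ _)) this

end Cfsg.Agent.S5913
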