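import Cfsg.Statements.S5914
import Cfsg.Agent.PERM.MinNormal

set_option autoImplicit false
open Cfsg

namespace Cfsg.Agent.S5914

/-- A direct power of a simple group is characteristically simple. -/
theorem charSimple_pi {S : Type*} [Group S] [IsSimpleGroup S] (n : ℕ) (H : Subgroup (Fin n → S))
    (hH : H.Characteristic) : H = ⊥ ∨ H = ⊤ := by
  classical
  by_cases hb : H = ⊥
  · exact Or.inl hb
  right
  have hmap : ∀ φ : (Fin n → S) ≃* (Fin n → S), ∀ x ∈ H, φ x ∈ H := fun φ x hx =>
    Subgroup.characteristic_iff_le_comap.1 hH φ hx
  obtain ⟨⟨x, hx⟩, hx1⟩ := (Subgroup.ne_bot_iff_exists_ne_one).1 hb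
  obtain ⟨i, hi⟩ : ∃ i, x i ≠ 1 := by
    by_contra hcon
    push Not at hcon
    exact hx1 (Subtype.ext (funext hcon))
  have key : ∃ k, ∃ s : S, s ≠ 1 ∧ Pi.mulSingle k s ∈ H := by
    by_cases hc : ∀ y : S, Commute (x i) y
    · by_cases hn : ∃ k, k ≠ i
      · obtain ⟨k, hk⟩ := hn
        have hZ : Subgroup.center S = ⊤ := by
          refine (Subgroup.Normal.eq_bot_or_eq_top inferInstance).resolve_left fun h => hi ?_
          have : x i ∈ Subgroup.center S := Subgroup.mem_center_iff.2 fun y => (hc y).symm
          rwa [h, Subgroup.mem_bot] at this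
        have hcomm : ∀ a b : S, a * b = b * a := fun a b =>
          Subgroup.mem_center_iff.1 (hZ ▸ Subgroup.mem_top b) a
        let φ : (Fin n → S) ≃* (Fin n → S) :=
          { toFun := fun y => y * Pi.mulSingle k (y i)
            invFun := fun y => y * Pi.mulSingle k (y i)⁻¹
            left_inv := fun y => by
              ext j
              by_cases hj : j = k
              · subst hj; simp [hk.symm]
              · simp [hj]
            right_inv := fun y => by
              ext j
              by_cases hj : j = k
              · subst hj; simp [hk.symm]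
              · simp [hj]
            map_mul' := fun y z => by
              ext j
              by_cases hj : j = k
              · subst hj
                simp only [Pi.mul_apply, Pi.mulSingle_eq_same]
                rw [mul_assoc, mul_assoc, ← mul_assoc (z j), hcomm (z j), mul_assoc]
              · simp [hj] }
        refine ⟨k, x i, hi, ?_⟩
        have := H.mul_mem (H.inv_mem hx) (hmap φ x hx)
        simpa [φ] using this
      · push Not at hn
        refine ⟨i, x i, hi, ?_⟩
        have : Pi.mulSingle i (x i) = x := by
          ext j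
          rw [hn j]
          simp
        rwa [this]
    · push Not at hc
      obtain ⟨y, hy⟩ := hc
      refine ⟨i, x i * y * (x i)⁻¹ * y⁻¹, fun h => hy ?_, ?_⟩
      · exact commutatorElement_eq_one_iff_commute.1 h
      · have h1 := H.mul_mem hx
          ((inferInstance : H.Normal).conj_mem _ (H.inv_mem hx) (Pi.mulSingle i y))
        convert h1 using 1
        ext j
        by_cases hj : j = i
        · subst hj; simp [mul_assoc]
        · simp [hj]
  obtain ⟨k, s, hs, hsH⟩ := key
  have hall : ∀ t : S, Pi.mulSingle k t ∈ H := by
    have hn : (H.comap (MonoidHom.mulSingle (fun _ : Fin n => S) k)).Normal := inferInstance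
    rcases hn.eq_bot_or_eq_top with h | h
    · exfalso
      have : s ∈ H.comap (MonoidHom.mulSingle (fun _ : Fin n => S) k) := hsH
      rw [h, Subgroup.mem_bot] at this
      exact hs this
    · intro t
      have : t ∈ H.comap (MonoidHom.mulSingle (fun _ : Fin n => S) k) := h ▸ Subgroup.mem_top t
      exact this
  have hall' : ∀ j, ∀ t : S, Pi.mulSingle j t ∈ H := by
    intro j t
    have := hmap (MulEquiv.arrowCongr (Equiv.swap k j) (MulEquiv.refl S)) _ (hall t)
    convert this using 1
    ext l
    simp only [MulEquiv.arrowCongr_apply, Equiv.symm_swap, MulEquiv.refl_apply, Pi.mulSingle_apply]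
    by_cases hl : l = j
    · subst hl; simp
    · rw [if_neg hl, if_neg]
      intro h
      exact hl (by rw [← Equiv.swap_apply_self k j l, h, Equiv.swap_apply_left])
  rw [eq_top_iff]
  intro y _
  exact Subgroup.pi_mem_of_mulSingle_mem y fun j => hall' j _

/-- A non-trivial finite group G is characteristically simple (its only characteristic subgroups are 1 and G) if and only if G is isomorphic to a direct power S^n (n ≥ 1) of some simple group S (possibly cyclic of prime order). -/
theorem result {G : Type*} [Group G] [Finite G] [Nontrivial G] :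
    (∀ H : Subgroup G, H.Characteristic → H = ⊥ ∨ H = ⊤) ↔
    ∃ (S : Type) (_ : Group S) (_ : IsSimpleGroup S) (n : ℕ), 1 ≤ n ∧ Nonempty (G ≃* (Fin n → S)) := by
  constructor
  · intro h
    obtain ⟨T, m, -, hT, hm, ⟨e⟩⟩ := CL.Perm.exists_mulEquiv_pi_of_charSimple h
    obtain ⟨S, _, ⟨f⟩⟩ := CL.Perm.exists_small_copy T
    exact ⟨S, inferInstance, f.symm.isSimpleGroup, m, hm, ⟨e.trans (MulEquiv.piCongrRight fun _ => f)⟩⟩
  · rintro ⟨S, _, _, n, -, ⟨e⟩⟩ H hH
    have hc : (H.map e.toMonoidHom).Characteristic := by
      rw [Subgroup.characteristic_iff_le_comap]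
      rintro φ _ ⟨x, hx, rfl⟩
      refine ⟨(e.trans (φ.trans e.symm)) x, Subgroup.characteristic_iff_le_comap.1 hH _ hx, ?_⟩
      simp
    rcases charSimple_pi n _ hc with h | h
    · left
      rwa [Subgroup.map_eq_bot_iff_of_injective _ e.injective] at h
    · right
      apply Subgroup.map_injective (f := e.toMonoidHom) e.injective
      rw [h, Subgroup.map_top_of_surjective _ e.surjective]

end Cfsg.Agent.S5914
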