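import Cfsg.Statements.S5939
import Cfsg.Agent.CLAS.PGL2Max

set_option autoImplicit false
open Cfsg

namespace Cfsg.Agent.S5939

open CL.Dk CL.PGL2

/-- Let p be a prime and F a finite field of characteristic p such that either F has p elements and p ≡ ±1 (mod 10), or F has p² elements and p ≡ ±3 (mod 10). Then PSL_2(F) has a maximal subgroup isomorphic to the alternating group A_5. -/
theorem result {F : Type*} [Field F] [Fintype F] (p : ℕ) [Fact p.Prime] [CharP F p] (h : (Fintype.card F = p ∧ (p % 10 = 1 ∨ p % 10 = 9)) ∨ (Fintype.card F = p ^ 2 ∧ (p % 10 = 3 ∨ p % 10 = 7))) : ∃ H : Subgroup (Matrix.ProjectiveSpecialLinearGroup (Fin 2) F), IsCoatom H ∧ Nonempty (H ≃* alternatingGroup (Fin 5)) := by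
  rw [← Nat.card_eq_fintype_card] at h
  have hp : p.Prime := Fact.out
  have h2 := two_ne_zero_of_odd (odd_card_of_char_ne_two (F := F) p (by omega))
  obtain ⟨B⟩ := nonempty_QB_of_finite (F := F)
  have hp2 : p ^ 2 % 5 = (p % 5) ^ 2 % 5 := Nat.pow_mod _ _ _
  obtain ⟨t, ht⟩ := exists_golden_of_five_dvd (F := F) (by
    rw [five_dvd_iff]
    rcases h with ⟨h, h'⟩ | ⟨h, h' | h'⟩
    · omega
    · rw [show p % 5 = 3 by omega] at hp2
      omega
    · rw [show p % 5 = 2 by omega] at hp2
      omega)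
  obtain ⟨H, -, -, e⟩ := exists_icosa h2 B ht
  refine exists_psl_coatom_of_covBy (alt_five_covBy h2 ?_ (fun a m hm ha => ?_) e) e
  · have := hp.one_lt
    rcases h with ⟨h, h'⟩ | ⟨h, h'⟩
    · omega
    · have : 3 ^ 2 ≤ p ^ 2 := Nat.pow_le_pow_left (by omega) 2
      omega
  · rcases h with ⟨h, h'⟩ | ⟨h, h'⟩
    · exact absurd (ha.trans h) (not_exists_pow_of_prime hp hm)
    · rw [h] at ha
      obtain ⟨k, -, rfl⟩ := (Nat.dvd_prime_pow hp).1 (ha ▸ dvd_pow_self a (by omega) : a ∣ p ^ 2)
      rw [← pow_mul] at ha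
      have h3 := Nat.pow_right_injective hp.two_le ha
      have h4 : k = 1 := by
        rcases k with _ | _ | k
        · omega
        · rfl
        · nlinarith
      rw [h4, pow_one, five_dvd_iff]
      omega

end Cfsg.Agent.S5939
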